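import Cfsg.Statements.S0098
import Mathlib
import Cfsg.Agent.Grp.ExtraspecialIso

set_option autoImplicit false
open Cfsg

namespace Cfsg.Agent.S0098

/-- For odd p, extraspecial p-groups of exponent p are determined up to isomorphism by their order. -/
theorem result {E₁ : Type*} {E₂ : Type*} [Group E₁] [Group E₂] [Finite E₁] [Finite E₂] {p : ℕ} [Fact p.Prime] (hp : p ≠ 2) (h₁ : Cfsg.IsExtraspecial p E₁) (h₂ : Cfsg.IsExtraspecial p E₂) (he₁ : Monoid.exponent E₁ = p) (he₂ : Monoid.exponent E₂ = p) (hc : Nat.card E₁ = Nat.card E₂) : Nonempty (E₁ ≃* E₂) := by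
  obtain ⟨z₁, hz₁, -, -⟩ := Grp.ES.isES_top_of_isExtraspecial h₁
  obtain ⟨z₂, hz₂, -, -⟩ := Grp.ES.isES_top_of_isExtraspecial h₂
  obtain ⟨n, x₁, y₁, B₁⟩ := hz₁.exists_sympBasis
  obtain ⟨m, x₂, y₂, B₂⟩ := hz₂.exists_sympBasis
  have hpp : p.Prime := Fact.out
  obtain rfl : n = m := B₁.length_eq hpp.one_lt B₂ (by rw [Subgroup.card_top, Subgroup.card_top, hc])
  have e₁ : ∀ a : E₁, a ^ p = 1 := fun a => he₁ ▸ Monoid.pow_exponent_eq_one a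
  have e₂ : ∀ a : E₂, a ^ p = 1 := fun a => he₂ ▸ Monoid.pow_exponent_eq_one a
  obtain ⟨φ, -⟩ := B₁.exists_mulEquiv hpp.pos hz₁ hz₂ B₂ (fun i => ⟨0, by simp [e₁, e₂]⟩)
    (fun i => ⟨0, by simp [e₁, e₂]⟩)
  exact ⟨φ⟩

end Cfsg.Agent.S0098
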