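import Mathlib
import Cfsg.Statements.S4485
import Cfsg.Agent.Char.BrauerLeonard

set_option autoImplicit false
open Cfsg

namespace Cfsg.Agent.S4485
open Cfsg.Agent.Char Cfsg.Agent.Char.BL
open scoped commutatorElement

/-- Let G be a finite group and p a prime dividing its order such that every non-identity element of a Sylow p-subgroup P has the same centralizer as P itself (so P is abelian); let p^n be the order of P. If G has a faithful character of degree x with x² < p^n − 1, then P is normal in G. -/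
theorem result {G : Type*} [Group G] [Finite G] (p : ℕ) (hp : p.Prime) (hpG : p ∣ Nat.card G) (P : Sylow p G) (hstar : ∀ x ∈ (P : Subgroup G), x ≠ 1 → Subgroup.centralizer ({x} : Set G) = Subgroup.centralizer ((P : Subgroup G) : Set G)) (n : ℕ) (hn : Nat.card P = p ^ n) (χ : G → ℂ) (hχ : Cfsg.IsCharacter G χ) (hfaith : ∀ g : G, χ g = χ 1 → g = 1) (hdeg : Cfsg.charDegree χ ^ 2 + 1 < p ^ n) : (P : Subgroup G).Normal := by
  classical
  have := Fact.mk hp
  have := Fintype.ofFinite G
  let M := Subgroup.normalClosure ((P : Subgroup G) : Set G)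
  have hPM : (P : Subgroup G) ≤ M := Subgroup.le_normalClosure
  have := Fintype.ofFinite M
  let Q : Sylow p M := P.subtype hPM
  have h0 : Star P _ _ := ⟨rfl, rfl, hstar⟩
  have h : Star Q _ _ := ⟨rfl, rfl, fun x hx h1 => by
    ext c
    rw [Subgroup.mem_centralizer_singleton_iff, Subgroup.mem_centralizer_iff]
    exact ⟨fun e y hy => Subtype.ext (h0.comm (h0.mem_of_comm hx (fun e => h1 (Subtype.ext e))
      (congrArg Subtype.val e)) hy), fun e => (e x hx).symm⟩⟩
  have hfull : ∀ K : Subgroup M, K.Normal → (Q : Subgroup M) ≤ K → K = ⊤ := by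
    intro K hK hQK
    have h1 : ∀ R : Sylow p M, (R : Subgroup M) ≤ K := fun R => by
      obtain ⟨m, rfl⟩ := MulAction.exists_smul_eq M Q R
      rintro _ ⟨y, hy, rfl⟩
      exact hK.conj_mem y (hQK hy) m
    have h2 : M ≤ K.map M.subtype := by
      refine (Subgroup.closure_le _).2 fun a ha => ?_
      obtain ⟨y, hy, hc⟩ := Group.mem_conjugatesOfSet_iff.1 ha
      obtain ⟨g, rfl⟩ := isConj_iff.1 hc
      have h3 : g * y * g⁻¹ ∈ M := Subgroup.Normal.conj_mem inferInstance y (hPM hy) g
      obtain ⟨k, hk⟩ := IsPGroup.iff_orderOf.1 P.isPGroup' ⟨y, hy⟩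
      have h4 : IsPGroup p (Subgroup.zpowers (⟨g * y * g⁻¹, h3⟩ : M)) := IsPGroup.of_card (n := k) (by
        rw [Nat.card_zpowers, ← hk, ← Subgroup.orderOf_coe, ← Subgroup.orderOf_coe]
        exact (MulAut.conj g).orderOf_eq y)
      obtain ⟨R, hR⟩ := h4.exists_le_sylow
      exact ⟨_, h1 R (hR (Subgroup.mem_zpowers _)), rfl⟩
    rw [eq_top_iff]
    intro x _
    obtain ⟨y, hy, e⟩ := h2 x.2
    rwa [← (Subtype.ext e : y = x)]
  have hη := hχ.restrict M
  have hcomm : ∀ a b : M, a * b = b * a := fun a b => by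
    have h1 : χ (⁅a, b⁆ : M) = χ 1 := by
      by_contra hc
      obtain ⟨φ, hφ, h2, h3⟩ := exists_constituent hη (y := ⁅a, b⁆) hc
      have h4 : φ 1 = 1 := (h.main hfull hφ (fun e => h3 (by rw [e])) (by
        have h5 := hη.one_le_of_inner_ne_zero hφ h2
        have h6 : Nat.card (Q : Subgroup M) = p ^ n := by
          rw [← hn]
          exact Nat.card_congr (Subgroup.subgroupOfEquivOfLe hPM).toEquiv
        have h7 : (charDegree χ : ℝ) ^ 2 + 1 < (p ^ n : ℕ) := by exact_mod_cast hdeg
        simp only [OneMemClass.coe_one] at h5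
        rw [← coe_charDegree_of_isCharacter hχ, Complex.natCast_re] at h5
        rw [h6]
        have := pow_le_pow_left₀ hφ.isCharacter.one_re_nonneg h5 2
        linarith)).2
      exact h3 ((mem_charKer_iff hφ.isCharacter).1 (commutator_le_charKer_of_one hφ.isCharacter h4
        (Subgroup.commutator_mem_commutator (Subgroup.mem_top a) (Subgroup.mem_top b))))
    exact commutatorElement_eq_one_iff_mul_comm.1 (Subtype.ext (hfaith _ h1))
  have hQ : (Q : Subgroup M).Normal := ⟨fun y hy g => by
    rwa [hcomm g y, mul_inv_cancel_right]⟩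
  have h2 := hfull Q hQ le_rfl
  have h3 : M ≤ P := fun x hx => by
    have : (⟨x, hx⟩ : M) ∈ (Q : Subgroup M) := by rw [h2]; trivial
    exact this
  rw [le_antisymm hPM h3]
  infer_instance

end Cfsg.Agent.S4485
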