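import Cfsg.Statements.S2352
import Mathlib
import Cfsg.Agent.KSG.SymEmbed

set_option autoImplicit false
open Cfsg

namespace Cfsg.Agent.S2352

theorem exists_perm_of_finset {ι : Type*} (B : Finset (FreeGroup ι)) :
    ∃ σ : ι → Equiv.Perm B, ∀ (L : List (ι × Bool)) (h1 : (1 : FreeGroup ι) ∈ B),
      (∀ M, M <:+ L → FreeGroup.mk M ∈ B) →
        (FreeGroup.lift σ (FreeGroup.mk L) ⟨1, h1⟩ : FreeGroup ι) = FreeGroup.mk L := by
  have key : ∀ a : ι, ∃ σ : Equiv.Perm B, ∀ (b : B), FreeGroup.of a * b.1 ∈ B →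
      (σ b : FreeGroup ι) = FreeGroup.of a * b.1 := by
    intro a
    obtain ⟨σ, hσ⟩ := Equiv.Perm.exists_extending_pair (α := {b : B // FreeGroup.of a * b.1 ∈ B})
      (β := B) (f := Subtype.val) (g := fun b => ⟨_, b.2⟩) Subtype.val_injective (by
        intro b c h
        exact Subtype.ext (Subtype.ext (mul_left_cancel (congrArg Subtype.val h))))
    exact ⟨σ, fun b hb => congrArg Subtype.val (hσ ⟨b, hb⟩)⟩
  choose σ hσ using key
  refine ⟨σ, fun L h1 hL => ?_⟩
  induction L with
  | nil => rfl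
  | cons x L ih =>
    have ih' := ih fun M hM => hL M (hM.trans (List.suffix_cons _ _))
    have h2 := hL _ List.suffix_rfl
    obtain ⟨a, b⟩ := x
    have h3 : FreeGroup.mk ((a, b) :: L) = FreeGroup.mk [(a, b)] * FreeGroup.mk L := rfl
    rw [h3] at h2 ⊢
    rw [map_mul, Equiv.Perm.mul_apply]
    generalize FreeGroup.lift σ (FreeGroup.mk L) ⟨1, h1⟩ = y at ih'
    rw [← ih'] at h2 ⊢
    cases b
    · have h4 : FreeGroup.mk [(a, false)] = (FreeGroup.of a)⁻¹ := rfl
      rw [h4] at h2 ⊢
      rw [map_inv, FreeGroup.lift_apply_of]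
      have h5 := hσ a ⟨_, h2⟩ (by simp)
      have h6 : σ a ⟨_, h2⟩ = y := Subtype.ext (by simpa using h5)
      exact congrArg Subtype.val (Equiv.Perm.inv_eq_iff_eq.2 h6.symm)
    · have h4 : FreeGroup.mk [(a, true)] = FreeGroup.of a := rfl
      rw [h4] at h2 ⊢
      rw [FreeGroup.lift_apply_of]
      exact hσ a y h2


/-- A non-trivial law holds in only finitely many alternating groups: for every non-trivial element w of the free group on countably many generators there is N such that for all n ≥ N some substitution of elements of the alternating group of degree n into w is not the identity. -/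
theorem result (w : FreeGroup ℕ) (hw : w ≠ 1) :
    ∃ N : ℕ, ∀ n : ℕ, N ≤ n → ∃ f : ℕ → alternatingGroup (Fin n), FreeGroup.lift f w ≠ 1 := by
  classical
  let B : Finset (FreeGroup ℕ) := (w.toWord.tails.map FreeGroup.mk).toFinset
  have hB : ∀ M, M <:+ w.toWord → FreeGroup.mk M ∈ B := fun M hM => by
    simp only [B, List.mem_toFinset, List.mem_map, List.mem_tails]
    exact ⟨M, hM, rfl⟩
  have h1 : (1 : FreeGroup ℕ) ∈ B := hB [] List.nil_suffix
  obtain ⟨σ, hσ⟩ := exists_perm_of_finset B
  have h2 := hσ _ h1 hB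
  rw [FreeGroup.mk_toWord] at h2
  refine ⟨Fintype.card B + 2, fun n hn => ?_⟩
  obtain ⟨φ, hφ⟩ := KSG.exists_perm_alt_hom_injective (α := B) (β := Fin n) (by simpa using hn)
  refine ⟨fun i => φ (σ i), fun h => ?_⟩
  have h3 : FreeGroup.lift (fun i => φ (σ i)) = φ.comp (FreeGroup.lift σ) := by ext; simp
  rw [h3, MonoidHom.comp_apply, map_eq_one_iff _ hφ] at h
  rw [h] at h2
  exact hw h2.symm

end Cfsg.Agent.S2352
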