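import Cfsg.Statements.S2353
import Cfsg.Agent.KSG.PSL2

set_option autoImplicit false
open Cfsg

namespace Cfsg.Agent.S2353

open KSG KSG.M2 Matrix Polynomial

section
variable {F : Type*} [Field F]

local notation "M₂" => Matrix (Fin 2) (Fin 2) F
local notation "SL₂" => Matrix.SpecialLinearGroup (Fin 2) F

/-- The element with eigenvalue `l` on `(α, 1)` and `l⁻¹` on `(β, 1)`. -/
noncomputable def hyp (α β : F) (l : Fˣ) : SL₂ :=
  open Classical in
  if h : α = β then 1 else
    mkSL ((α - β)⁻¹ • !![l * α - (l : F)⁻¹ * β, ((l : F)⁻¹ - l) * α * β;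
      l - (l : F)⁻¹, (l : F)⁻¹ * α - l * β]) (by
      have := sub_ne_zero.2 h
      have := l.ne_zero
      simp [det_fin_two]; field_simp; ring)

theorem hyp_inv (α β : F) (l : Fˣ) : (hyp α β l)⁻¹ = hyp β α l := by
  by_cases h : α = β
  · subst h; simp [hyp]
  · have h1 := sub_ne_zero.2 h
    have h2 := sub_ne_zero.2 (Ne.symm h)
    rw [hyp, hyp, dif_neg h, dif_neg (Ne.symm h), SL_ext_iff, Matrix.SpecialLinearGroup.coe_inv,
      adjugate_fin_two]
    apply ext2 <;> simp <;> field_simp <;> ring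

/-- The polynomial vector obtained by applying a word to `(γ, 1)`. -/
noncomputable def vec (c : ℕ × Bool → F) (γ : F) : List (ℕ × Bool) → F[X] × F[X]
  | [] => (C γ, 1)
  | x :: L =>
    (C (c x - c (x.1, !x.2))⁻¹ * (X ^ 2 * (C (c x) * ((vec c γ L).1 - C (c (x.1, !x.2)) * (vec c γ L).2))
        - C (c (x.1, !x.2)) * ((vec c γ L).1 - C (c x) * (vec c γ L).2)),
     C (c x - c (x.1, !x.2))⁻¹ * (X ^ 2 * ((vec c γ L).1 - C (c (x.1, !x.2)) * (vec c γ L).2)
        - ((vec c γ L).1 - C (c x) * (vec c γ L).2)))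

theorem vec_natDegree (c : ℕ × Bool → F) (γ : F) (L : List (ℕ × Bool)) :
    (vec c γ L).1.natDegree ≤ 2 * L.length ∧ (vec c γ L).2.natDegree ≤ 2 * L.length := by
  induction L with
  | nil => simp [vec]
  | cons x L ih =>
    obtain ⟨h1, h2⟩ := ih
    simp only [vec, List.length_cons]
    constructor <;> compute_degree <;> omega

/-- The point carrying the leading term. -/
def hd (c : ℕ × Bool → F) (γ : F) : List (ℕ × Bool) → F
  | [] => γ
  | x :: _ => c x

theorem vec_coeff (c : ℕ × Bool → F) (γ : F) (L : List (ℕ × Bool))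
    (h1 : ∀ x ∈ L, c x ≠ c (x.1, !x.2)) (h2 : ∀ x ∈ L, γ ≠ c (x.1, !x.2))
    (h3 : L.IsChain fun x y => c y ≠ c (x.1, !x.2)) :
    ∃ κ : F, κ ≠ 0 ∧ (vec c γ L).1.coeff (2 * L.length) = κ * hd c γ L ∧
      (vec c γ L).2.coeff (2 * L.length) = κ := by
  induction L with
  | nil => exact ⟨1, one_ne_zero, by simp [vec, hd], by simp [vec]⟩
  | cons x L ih =>
    obtain ⟨κ, hκ, e1, e2⟩ := ih (fun y hy => h1 y (List.mem_cons_of_mem _ hy))
      (fun y hy => h2 y (List.mem_cons_of_mem _ hy)) h3.tail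
    obtain ⟨d1, d2⟩ := vec_natDegree c γ L
    have z1 : (vec c γ L).1.coeff (2 * L.length + 2) = 0 :=
      coeff_eq_zero_of_natDegree_lt (by omega)
    have z2 : (vec c γ L).2.coeff (2 * L.length + 2) = 0 :=
      coeff_eq_zero_of_natDegree_lt (by omega)
    have hne : hd c γ L ≠ c (x.1, !x.2) := by
      cases L with
      | nil => exact h2 x (by simp)
      | cons y L => exact (List.isChain_cons_cons.1 h3).1
    refine ⟨(c x - c (x.1, !x.2))⁻¹ * (κ * (hd c γ L - c (x.1, !x.2))),
      mul_ne_zero (inv_ne_zero (sub_ne_zero.2 (h1 x (by simp))))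
        (mul_ne_zero hκ (sub_ne_zero.2 hne)), ?_, ?_⟩
    · simp only [vec, List.length_cons, mul_add, mul_one, coeff_C_mul, coeff_sub, coeff_X_pow_mul,
        z1, z2, e1, e2]
      simp only [hd]; ring
    · simp only [vec, List.length_cons, mul_add, mul_one, coeff_C_mul, coeff_sub, coeff_X_pow_mul,
        z1, z2, e1, e2]
      ring

theorem vec_eval (c : ℕ × Bool → F) (γ : F) (l : Fˣ) (L : List (ℕ × Bool))
    (h1 : ∀ x ∈ L, c x ≠ c (x.1, !x.2)) :
    ![(vec c γ L).1.eval (l : F), (vec c γ L).2.eval (l : F)] = (l : F) ^ L.length •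
      (((L.map fun x => hyp (c x) (c (x.1, !x.2)) l).prod : SL₂) : M₂) *ᵥ ![γ, 1] := by
  induction L with
  | nil => simp [vec]
  | cons x L ih =>
    have ih := ih (fun y hy => h1 y (List.mem_cons_of_mem _ hy))
    have hx := h1 x (by simp)
    have hx' := sub_ne_zero.2 hx
    have hl := l.ne_zero
    rw [List.map_cons, List.prod_cons, Matrix.SpecialLinearGroup.coe_mul, ← mulVec_mulVec,
      List.length_cons, pow_succ', mul_smul, ← mulVec_smul, ← ih, hyp, dif_neg hx]
    ext i
    fin_cases i <;> simp [vec, mulVec, dotProduct, Fin.sum_univ_two] <;> field_simp <;> ring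

theorem lift_mk (c : ℕ × Bool → F) (l : Fˣ) (L : List (ℕ × Bool)) :
    FreeGroup.lift (fun i => pr (hyp (c (i, true)) (c (i, false)) l)) (FreeGroup.mk L) =
      pr (L.map fun x => hyp (c x) (c (x.1, !x.2)) l).prod := by
  rw [FreeGroup.lift_mk, map_list_prod, List.map_map]
  congr 1
  apply List.map_congr_left
  rintro ⟨i, b⟩ -
  cases b
  · simp [← map_inv, hyp_inv]
  · simp

end


/-- A non-trivial law holds in PSL_2 over only finitely many finite fields: for every non-trivial element w of the free group on countably many generators there is N such that over every finite field with at least N elements some substitution of elements of PSL_2 into w is not the identity. -/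
theorem result (w : FreeGroup ℕ) (hw : w ≠ 1) :
    ∃ N : ℕ, ∀ (F : Type*) [Field F] [Fintype F], N ≤ Fintype.card F →
      ∃ f : ℕ → Matrix.ProjectiveSpecialLinearGroup (Fin 2) F, FreeGroup.lift f w ≠ 1 := by
  classical
  set L := w.toWord with hL
  have hL0 : L ≠ [] := fun h => hw (FreeGroup.toWord_eq_nil_iff.1 h)
  obtain ⟨n, hn⟩ : ∃ n, ∀ x ∈ L, x.1 < n :=
    ⟨(L.map Prod.fst).sum + 1, fun x hx => Nat.lt_succ_of_le
      (List.single_le_sum (by simp) _ (List.mem_map_of_mem hx))⟩
  refine ⟨2 * n + 2 * L.length + 2, fun F _ _ hF => ?_⟩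
  let e : ℕ → F := fun k => if h : k < Fintype.card F then (Fintype.equivFin F).symm ⟨k, h⟩ else 0
  have he : ∀ a b, a ≤ 2 * n → b ≤ 2 * n → e a = e b → a = b := by
    intro a b ha hb h
    simp only [e, dif_pos (show a < Fintype.card F by omega),
      dif_pos (show b < Fintype.card F by omega)] at h
    simpa using h
  let c : ℕ × Bool → F := fun x => e (2 * x.1 + x.2.toNat)
  have hc : ∀ x y : ℕ × Bool, x.1 < n → y.1 < n → c x = c y → x = y := by
    rintro ⟨i, a⟩ ⟨j, b⟩ hx hy h
    have := he _ _ (by cases a <;> simp at hx ⊢ <;> omega) (by cases b <;> simp at hy ⊢ <;> omega) h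
    cases a <;> cases b <;> simp at this ⊢ <;> omega
  have hγ : ∀ x : ℕ × Bool, x.1 < n → e (2 * n) ≠ c x := by
    rintro ⟨i, a⟩ hx h
    have := he _ _ le_rfl (by cases a <;> simp at hx ⊢ <;> omega) h
    cases a <;> simp at this hx <;> omega
  have h1 : ∀ x ∈ L, c x ≠ c (x.1, !x.2) := fun x hx h => by
    have := congrArg Prod.snd (hc x (x.1, !x.2) (hn x hx) (hn x hx) h)
    simp at this
  have h3 : L.IsChain fun x y => c y ≠ c (x.1, !x.2) := by
    have hr : FreeGroup.IsReduced L := FreeGroup.isReduced_toWord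
    rw [FreeGroup.IsReduced] at hr
    refine List.IsChain.imp_of_mem_imp ?_ hr
    rintro ⟨i, a⟩ ⟨j, b⟩ hx hy h h'
    have h4 := hc (j, b) (i, !a) (hn _ hy) (hn (i, a) hx) h'
    rw [Prod.mk.injEq] at h4
    have h5 : a = b := h h4.1.symm
    have h6 := h4.2
    rw [h5] at h6
    simp at h6
  obtain ⟨κ, hκ, e1, e2⟩ := vec_coeff c (e (2 * n)) L h1 (fun x hx => hγ _ (hn x hx)) h3
  obtain ⟨d1, d2⟩ := vec_natDegree c (e (2 * n)) L
  by_contra H
  push Not at H
  have hz := Polynomial.eq_zero_of_natDegree_lt_card_of_eval_eq_zero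
    ((vec c (e (2 * n)) L).1 - C (e (2 * n)) * (vec c (e (2 * n)) L).2) (f := fun l : Fˣ => (l : F))
    Units.val_injective (fun l => by
      have h4 := H fun i => pr (hyp (c (i, true)) (c (i, false)) l)
      rw [← FreeGroup.mk_toWord (x := w), ← hL, lift_mk, pr_eq_one_iff, isScal_iff] at h4
      obtain ⟨a, ha⟩ := h4
      have h5 := vec_eval c (e (2 * n)) l L h1
      rw [ha] at h5
      have h6 := congrFun h5 0
      have h7 := congrFun h5 1
      simp [smul_mulVec] at h6 h7
      simp only [eval_sub, eval_mul, eval_C, h6, h7]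
      ring)
    (by
      rw [Fintype.card_units]
      refine lt_of_le_of_lt (show _ ≤ 2 * L.length by compute_degree; omega) (by omega))
  have h8 := congrArg (fun p => coeff p (2 * L.length)) hz
  simp only [coeff_sub, coeff_C_mul, e1, e2, coeff_zero] at h8
  obtain ⟨x, L', hx⟩ := List.exists_cons_of_ne_nil hL0
  have h9 : hd c (e (2 * n)) L = c x := by rw [hx]; rfl
  rw [h9] at h8
  apply hγ x (hn x (by rw [hx]; simp))
  apply mul_left_cancel₀ hκ
  linear_combination -h8

end Cfsg.Agent.S2353
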