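import Cfsg.Statements.S3908
import Mathlib
import Cfsg.Agent.Grp.UniqueOrderP
import Cfsg.Agent.Grp.PChain

set_option autoImplicit false
open Cfsg

namespace Cfsg.Agent.S3908

open Subgroup

theorem key {G : Type*} [Group G] [Finite G] (hB : ∀ A B : Subgroup G, IsMulCommutative ↥A →
    IsMulCommutative ↥B → Nat.card ↥A = Nat.card ↥B →
    ∃ g : G, B = A.map (MulAut.conj g).toMonoidHom) (p : ℕ) [hp : Fact p.Prime] (P : Sylow p G)
    (h : ¬ ∀ x ∈ (P : Subgroup G), x ^ p = 1) : IsCyclic P ∨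
      (p = 2 ∧ ∃ n : ℕ, 1 ≤ n ∧ Nonempty (P ≃* QuaternionGroup (2 ^ n))) := by
  push Not at h
  obtain ⟨x, hx, hxp⟩ := h
  obtain ⟨k, hk⟩ := IsPGroup.iff_orderOf.1 P.2 ⟨x, hx⟩
  rw [orderOf_mk] at hk
  have hk2 : 2 ≤ k := by
    by_contra h
    exact hxp (orderOf_dvd_iff_pow_eq_one.1 (hk.dvd.trans
      (by simpa using pow_dvd_pow p (show k ≤ 1 by omega))))
  have hu : orderOf (x ^ p ^ (k - 2)) = p ^ 2 := by
    rw [orderOf_pow_of_dvd (pow_ne_zero _ hp.out.ne_zero) (hk ▸ pow_dvd_pow p (by omega)), hk,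
      Nat.pow_div (by omega) hp.out.pos, Nat.sub_sub_self hk2]
  haveI : Nontrivial P := ⟨⟨x, hx⟩, 1, fun h => hxp (by rw [show x = 1 from congrArg Subtype.val h, one_pow])⟩
  haveI := P.2.center_nontrivial
  obtain ⟨n, hn0, hn⟩ := (P.2.to_subgroup (center P)).nontrivial_iff_card.1 inferInstance
  obtain ⟨⟨z, hzc⟩, hz⟩ := exists_prime_orderOf_dvd_card' (G := center P) p (hn ▸ dvd_pow_self p hn0.ne')
  rw [orderOf_mk] at hz
  haveI : (zpowers z).Normal := ⟨fun n hn g => by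
    rwa [mem_center_iff.1 (zpowers_le.2 hzc hn) g, mul_inv_cancel_right]⟩
  have h1 : ∀ y : (P : Subgroup G), orderOf y = p → y ∈ zpowers z := fun y hy => by
    by_contra hyz
    have hyp : y ^ p = 1 := orderOf_dvd_iff_pow_eq_one.1 hy.dvd
    have hc : y ∈ centralizer (zpowers z : Set (P : Subgroup G)) := fun a ha =>
      (mem_center_iff.1 (zpowers_le.2 hzc ha) y).symm
    haveI := Grp.PChain.isMulCommutative_sup_zpowers inferInstance hc
    obtain ⟨g, hg⟩ := hB ((zpowers z ⊔ zpowers y).map (P : Subgroup G).subtype)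
      (zpowers (x ^ p ^ (k - 2))) inferInstance inferInstance (by
        rw [card_map_of_injective (subtype_injective _), Grp.PChain.card_sup_zpowers hp.out hyz
          (hyp ▸ one_mem _), Nat.card_zpowers, Nat.card_zpowers, hu, hz, sq])
    obtain ⟨_, ⟨w, hw, rfl⟩, e⟩ := hg.le (mem_zpowers _)
    have h2 := Grp.PChain.pow_eq_one_of_mem_sup_zpowers (n := p) (fun a ha => by
      rw [← orderOf_dvd_iff_pow_eq_one]; exact (orderOf_dvd_of_mem_zpowers ha).trans hz.dvd) hc hyp hw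
    have h3 : (x ^ p ^ (k - 2)) ^ p = 1 := by rw [← e, ← map_pow, ← map_pow, h2, map_one, map_one]
    rw [← orderOf_dvd_iff_pow_eq_one, hu] at h3
    have := Nat.le_of_dvd hp.out.pos h3
    nlinarith [hp.out.one_lt]
  refine Grp.isCyclic_or_quaternion P.2 fun a b ha hb => ?_
  rw [eq_of_le_of_card_ge (zpowers_le.2 (h1 a ha)) (by rw [Nat.card_zpowers, Nat.card_zpowers, ha, hz])]
  exact h1 b hb

/-- Let G be a finite group in which any two abelian subgroups of the same order are conjugate. Then a Sylow 2-subgroup of G is cyclic, elementary abelian or generalized quaternion, and for an odd prime p a Sylow p-subgroup of G is cyclic or has exponent dividing p. -/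
theorem result {G : Type*} [Group G] [Finite G] (hB : ∀ A B : Subgroup G, IsMulCommutative ↥A → IsMulCommutative ↥B → Nat.card ↥A = Nat.card ↥B → ∃ g : G, B = A.map (MulAut.conj g).toMonoidHom) :
    (∀ P : Sylow 2 G, IsCyclic ↥(P : Subgroup G) ∨ Cfsg.IsElementaryAbelian 2 (P : Subgroup G) ∨ ∃ k : ℕ, Nonempty (↥(P : Subgroup G) ≃* QuaternionGroup (2 ^ k))) ∧
    ∀ (p : ℕ) [Fact p.Prime], p ≠ 2 → ∀ P : Sylow p G, IsCyclic ↥(P : Subgroup G) ∨ ∀ x ∈ (P : Subgroup G), x ^ p = 1 := by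
  refine ⟨fun P => ?_, fun p _ hp P => ?_⟩
  · by_cases h : ∀ x ∈ (P : Subgroup G), x ^ 2 = 1
    · refine Or.inr (Or.inl ⟨⟨⟨fun a b => ?_⟩⟩, h⟩)
      exact Commute.of_orderOf_dvd_two
        (fun g => orderOf_dvd_of_pow_eq_one (Subtype.ext (h _ g.2))) a b
    · rcases key hB 2 P h with h | ⟨-, n, -, h⟩
      · exact Or.inl h
      · exact Or.inr (Or.inr ⟨n, h⟩)
  · by_cases h : ∀ x ∈ (P : Subgroup G), x ^ p = 1
    · exact Or.inr h
    · exact Or.inl ((key hB p P h).resolve_right fun h => hp h.1)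

end Cfsg.Agent.S3908
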