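import Cfsg.Statements.S3909
import Mathlib
import Cfsg.Agent.Grp.PChain

set_option autoImplicit false
open Cfsg

namespace Cfsg.Agent.S3909

/-- Let G be a finite group in which any two abelian subgroups of the same order are conjugate. Let M be a normal subgroup of G. If M contains an element of the same order as a ∈ G, then a ∈ M; and if M is elementary abelian of order p^t with p prime and t ≥ 2, then M is the unique Sylow p-subgroup of G. -/
theorem result {G : Type*} [Group G] [Finite G] (hB : ∀ A B : Subgroup G, IsMulCommutative ↥A → IsMulCommutative ↥B → Nat.card ↥A = Nat.card ↥B → ∃ g : G, B = A.map (MulAut.conj g).toMonoidHom) (M : Subgroup G) [M.Normal] :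
    (∀ a : G, (∃ m ∈ M, orderOf m = orderOf a) → a ∈ M) ∧
    ∀ (p t : ℕ) [Fact p.Prime], 2 ≤ t → Nat.card ↥M = p ^ t → Cfsg.IsElementaryAbelian p M → ∀ P : Sylow p G, (P : Subgroup G) = M := by
  have key : ∀ K : Subgroup G, K ≤ M → IsMulCommutative K → ∀ a : G, Nat.card K = orderOf a →
      a ∈ M := fun K hK hc a ha => by
    obtain ⟨g, hg⟩ := hB K (Subgroup.zpowers a) hc inferInstance (by rw [ha, Nat.card_zpowers])
    have := Subgroup.mem_zpowers a
    rw [hg] at this
    obtain ⟨y, hy, rfl⟩ := this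
    exact Subgroup.Normal.conj_mem inferInstance _ (hK hy) g
  refine ⟨fun a ⟨m, hm, e⟩ => key (Subgroup.zpowers m) (by simpa using hm) inferInstance a
    (by rw [Nat.card_zpowers, e]), fun p t _ ht hM hE P => ?_⟩
  have hp := IsPGroup.of_card hM
  refine le_antisymm ?_ (hp.le_sylow_of_normal P)
  intro x hx
  by_contra hxM
  obtain ⟨k, h1, h2⟩ := Grp.PChain.exists_pow_notMem_pow_mem P.2 (M.subgroupOf P)
    (u := ⟨x, hx⟩) hxM
  rw [Subgroup.mem_subgroupOf] at h1 h2
  simp only [SubmonoidClass.mk_pow] at h1 h2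
  have h3 := hE.2 _ h2
  rw [← pow_mul, ← sq, ← orderOf_dvd_iff_pow_eq_one, Nat.dvd_prime_pow Fact.out] at h3
  obtain ⟨i, hi, e⟩ := h3
  obtain ⟨K, hK⟩ := Sylow.exists_subgroup_card_pow_prime (G := M) p (n := i)
    (hM ▸ pow_dvd_pow p (by omega))
  exact h1 (key (K.map M.subtype) (Subgroup.map_subtype_le K)
    (Grp.PChain.isMulCommutative_of_le hE.1 (Subgroup.map_subtype_le K)) _
    (by rw [Subgroup.card_map_of_injective M.subtype_injective, hK, e]))

end Cfsg.Agent.S3909
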