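import Cfsg.Statements.S0060
import Cfsg.Agent.Grp.Cores
import Cfsg.Agent.PLocal.RelSylow

set_option autoImplicit false
open Pointwise
open Cfsg

namespace Cfsg.Agent.S0060

/-- Brodkey's Theorem: in a finite group with abelian Sylow p-subgroups and no nontrivial normal p-subgroup, some conjugate of a Sylow p-subgroup meets it trivially. -/
theorem result {G : Type*} [Group G] [Finite G] (p : ℕ) [Fact p.Prime]
    (S : Sylow p G) (hS : IsMulCommutative S) (hOp : Cfsg.pCore p G = ⊥) :
    ∃ g : G, (S : Subgroup G) ⊓ MulAut.conj g • (S : Subgroup G) = ⊥ := by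
  obtain ⟨U, -, hU⟩ := (wellFounded_lt (α := Subgroup G)).has_min
    (Set.range fun U : Sylow p G => (S : Subgroup G) ⊓ U) ⟨_, S, rfl⟩ |>.imp fun D hD =>
      (⟨trivial, hD⟩ : True ∧ _)
  obtain ⟨⟨U, rfl⟩, hmin⟩ := hU
  simp only at hmin
  have hUc : IsMulCommutative U := by
    obtain ⟨e⟩ : Nonempty (S ≃* U) := ⟨S.equiv U⟩
    refine ⟨⟨fun a b => e.symm.injective ?_⟩⟩
    rw [map_mul, map_mul]
    exact hS.is_comm.comm _ _
  set D : Subgroup G := (S : Subgroup G) ⊓ U with hD
  have hSN : (S : Subgroup G) ≤ Subgroup.normalizer (D : Set G) := by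
    refine le_trans ?_ (Subgroup.centralizer_le_normalizer _)
    refine le_trans ?_ (Subgroup.centralizer_le (inf_le_left : D ≤ S))
    have : IsMulCommutative (S : Subgroup G) := hS
    exact Subgroup.le_centralizer _
  have hUN : (U : Subgroup G) ≤ Subgroup.normalizer (D : Set G) := by
    refine le_trans ?_ (Subgroup.centralizer_le_normalizer _)
    refine le_trans ?_ (Subgroup.centralizer_le (inf_le_right : D ≤ U))
    have : IsMulCommutative (U : Subgroup G) := hUc
    exact Subgroup.le_centralizer _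
  have hDp : D ≤ pCore p G := by
    rw [Grp.pCore_eq_iInf_sylow]
    refine le_iInf fun P => ?_
    obtain ⟨x, hx, hxP⟩ := PLocal.RelSylow.exists_conj_mem_sylow U hUN
      (inf_le_right : (P : Subgroup G) ⊓ Subgroup.normalizer (D : Set G) ≤ _)
      P.isPGroup'.to_inf_left
    have h1 : (S : Subgroup G) ⊓ (x • P : Sylow p G) ≤ D := by
      rintro y ⟨hyS, hyP⟩
      refine ⟨hyS, ?_⟩
      rw [Sylow.coe_subgroup_smul] at hyP
      obtain ⟨z, hz, rfl⟩ := hyP
      refine hxP z ⟨hz, ?_⟩
      have := Subgroup.mul_mem _ (Subgroup.mul_mem _ (Subgroup.inv_mem _ hx) (hSN hyS)) hx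
      simpa [mul_assoc] using this
    have h2 : (S : Subgroup G) ⊓ (x • P : Sylow p G) = D := by
      by_contra hne
      exact hmin _ ⟨x • P, rfl⟩ (lt_of_le_of_ne h1 hne)
    intro d hd
    have h3 : x * d * x⁻¹ ∈ D := (Subgroup.mem_normalizer_iff.1 hx d).1 hd
    rw [← h2] at h3
    have h4 := h3.2
    rw [Sylow.coe_subgroup_smul] at h4
    obtain ⟨z, hz, hz'⟩ := h4
    have : z = d := by simpa using hz'
    exact this ▸ hz
  obtain ⟨g, hg⟩ := MulAction.exists_smul_eq G S U
  refine ⟨g, ?_⟩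
  rw [← Sylow.coe_subgroup_smul, hg, ← hD, eq_bot_iff, ← hOp]
  exact hDp

end Cfsg.Agent.S0060
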