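import Cfsg.Statements.S4303
import Cfsg.Agent.FGS.SylowCount
import Cfsg.Agent.FGS.ClassSize
import Cfsg.Agent.Solv.CoprimeSylow
import Cfsg.Agent.Solv.Coprime2
import Cfsg.Agent.Grp.Card
import Cfsg.Agent.Grp.MinNormal
import Cfsg.Agent.Grp.Cores

set_option autoImplicit false
universe u
open Cfsg

namespace Cfsg.Agent.S4303

open Subgroup

def Good (p n : ℕ) [Fact p.Prime] : Prop :=
  ∃ l : List ℕ, l.prod = n ∧
      ∀ m ∈ l, (IsPrimePow m ∧ m % p = 1) ∨
        ∃ (S : Type u) (_ : Group S) (_ : Finite S), IsSimpleGroup S ∧ m = Nat.card (Sylow p S)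

theorem good_one (p : ℕ) [Fact p.Prime] : Good.{u} p 1 := ⟨[], rfl, by simp⟩

theorem Good.mul {p a b : ℕ} [Fact p.Prime] (ha : Good.{u} p a) (hb : Good.{u} p b) :
    Good.{u} p (a * b) := by
  obtain ⟨l, rfl, hl⟩ := ha
  obtain ⟨l', rfl, hl'⟩ := hb
  refine ⟨l ++ l', List.prod_append, fun m hm => ?_⟩
  rcases List.mem_append.1 hm with h | h
  · exact hl m h
  · exact hl' m h

theorem coprime_case {G : Type*} [Group G] [Finite G] {p : ℕ} [hp : Fact p.Prime] (K : Subgroup G)
    [K.Normal] (P : Sylow p G) (hK : (Nat.card (P : Subgroup G)).Coprime (Nat.card K)) :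
    Good.{u} p ((normalizer ((P : Subgroup G) : Set G)).relIndex K) := by
  set N := normalizer ((P : Subgroup G) : Set G) with hN
  have hn0 : N.relIndex K ≠ 0 := index_ne_zero_of_finite
  rw [← Nat.prod_factorization_pow_eq_self hn0, Finsupp.prod]
  refine Finset.prod_induction _ (fun n => Good.{u} p n) (fun a b => Good.mul) (good_one p)
    fun q hq => ?_
  have hq' : q.Prime := Nat.prime_of_mem_primeFactors hq
  haveI := Fact.mk hq'
  have hC : (P : Subgroup G) ≤ centralizer ((N ⊓ K : Subgroup G) : Set G) := by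
    rw [← commutator_eq_bot_iff_le_centralizer, eq_bot_iff,
      ← (disjoint_of_coprime_natCard hK).eq_bot]
    refine le_inf (Solv.commutator_le_of_le_normalizer inf_le_left) ?_
    exact (commutator_mono le_top inf_le_right).trans (commutator_le_right _ _)
  let U₀ : Sylow q (N ⊓ K : Subgroup G) := default
  let U := (U₀ : Subgroup (N ⊓ K : Subgroup G)).map (N ⊓ K).subtype
  have hUC : U ≤ N ⊓ K := map_subtype_le _
  obtain ⟨R₀, hUR, hPR⟩ := Solv.exists_invariant_sylow_ge (P : Subgroup G) K le_normalizer_of_normal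
    hK (Or.inl (Solv.isSolvable_of_isPGroup P.isPGroup')) q U (hUC.trans inf_le_right)
    (U₀.isPGroup'.map _) ((hC.trans (centralizer_le hUC)).trans (centralizer_le_normalizer _))
  set R := (R₀ : Subgroup K).map K.subtype with hR
  have hRK : R ≤ K := map_subtype_le _
  have hRq : IsPGroup q R := R₀.isPGroup'.map _
  have h1 : N ⊓ R = U := by
    have h2 : (N ⊓ R).subgroupOf (N ⊓ K) = U₀ := U₀.is_maximal'
      ((hRq.to_le inf_le_right).comap_subtype)
      (fun x hx => ⟨x.2.1, hUR ⟨x, hx, rfl⟩⟩)
    simp only [U]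
    rw [← h2, subgroupOf_map_subtype, inf_of_le_left (inf_le_inf_left _ hRK)]
  have h2 : N.relIndex R = q ^ (N.relIndex K).factorization q := by
    have h3 := Grp.card_inf_mul_relIndex' N R
    rw [h1, hR, card_map_of_injective (Subgroup.subtype_injective _),
      card_map_of_injective (Subgroup.subtype_injective _), Sylow.card_eq_multiplicity,
      Sylow.card_eq_multiplicity, ← Grp.card_inf_mul_relIndex' N K,
      Nat.factorization_mul Nat.card_pos.ne' hn0, Finsupp.add_apply, pow_add] at h3
    exact Nat.eq_of_mul_eq_mul_left (pow_pos hq'.pos _) h3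
  have h3 : Nat.card (Sylow p (R ⊔ P : Subgroup G)) = N.relIndex R := by
    rw [FGS.card_sylow_subgroup le_sup_right P.isPGroup'
      (fun h => P.not_dvd_index (h.trans (relIndex_dvd_index_of_le le_sup_right))),
      FGS.relIndex_sup_of_le le_normalizer hPR]
  refine ⟨[q ^ (N.relIndex K).factorization q], by simp, fun m hm => Or.inl ?_⟩
  rw [List.mem_singleton.1 hm]
  refine ⟨(isPrimePow_pow_iff (Finsupp.mem_support_iff.1 hq)).2 hq'.isPrimePow, ?_⟩
  rw [← h2, ← h3, card_sylow_modEq_one p, Nat.mod_eq_of_lt hp.out.one_lt]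

theorem aux (p : ℕ) [hp : Fact p.Prime] (G : Type u) [Group G] [Finite G] :
    Good.{u} p (Nat.card (Sylow p G)) := by
  refine Grp.card_induction (P := fun G _ _ => Good.{u} p (Nat.card (Sylow p G))) ?_ G
  intro G _ _ ih
  let P : Sylow p G := default
  by_cases hs : IsSimpleGroup G
  · exact ⟨[_], by simp, fun m hm => Or.inr ⟨G, inferInstance, inferInstance, hs,
      List.mem_singleton.1 hm⟩⟩
  rcases subsingleton_or_nontrivial G with h | h
  · rw [Sylow.card_eq_index_normalizer P, Subsingleton.elim (normalizer _) ⊤, index_top]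
    exact good_one p
  obtain ⟨K, hK, hK1, hK2⟩ : ∃ K : Subgroup G, K.Normal ∧ K ≠ ⊥ ∧ K ≠ ⊤ := by
    by_contra h1
    push Not at h1
    exact hs ⟨fun K hK => or_iff_not_imp_left.2 (h1 K hK)⟩
  set Q := (P : Subgroup G) ⊓ K with hQ
  have hQp : IsPGroup p Q := P.isPGroup'.to_le inf_le_left
  have hQK : ¬ p ∣ Q.relIndex K := by
    rw [hQ, inf_relIndex_right]
    exact fun h => P.not_dvd_index (h.trans (FGS.relIndex_normal_dvd_index _ K))
  by_cases hQn : normalizer (Q : Set G) = ⊤
  · haveI : Q.Normal := normalizer_eq_top_iff.1 hQn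
    by_cases hQ1 : Q = ⊥
    · rw [FGS.card_sylow_eq_quotient_mul K P]
      refine (ih _ (Grp.card_quotient_lt K hK1)).mul (coprime_case K P ?_)
      rw [hQ1, relIndex_bot_left] at hQK
      obtain ⟨k, hk⟩ := P.isPGroup'.exists_card_eq
      rw [hk]
      exact Nat.Coprime.pow_left _ ((Nat.Prime.coprime_iff_not_dvd hp.out).2 hQK)
    · rw [← FGS.card_sylow_quotient_of_isPGroup Q hQp]
      exact ih _ (Grp.card_quotient_lt Q hQ1)
  · have h1 : normalizer ((P : Subgroup G) : Set G) ≤ normalizer (Q : Set G) :=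
      Solv.le_normalizer_inf le_rfl le_normalizer_of_normal
    have h2 : (P : Subgroup G) ≤ normalizer (Q : Set G) := le_normalizer.trans h1
    have h3 := ih _ (Grp.card_lt_of_ne_top hQn)
    have h4 := ih _ (Grp.card_lt_of_ne_top hK2)
    rw [FGS.card_sylow_subgroup h2 P.isPGroup'
      (fun h => P.not_dvd_index (h.trans (relIndex_dvd_index_of_le h2)))] at h3
    rw [FGS.card_sylow_subgroup inf_le_right hQp hQK] at h4
    have h5 : (normalizer (Q : Set G)).relIndex K = (normalizer (Q : Set G)).index := by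
      rw [← relIndex_top_right]
      refine (FGS.relIndex_eq_of_forall_exists le_top fun x _ => ?_).symm
      have := Solv.sylow_frattini_ambient (PLocal.RelSylow.toSylow hQp hQK) (a := x)
        (le_normalizer_of_normal (mem_top x))
      rwa [show ((PLocal.RelSylow.toSylow hQp hQK : Sylow p K) : Subgroup K) = Q.subgroupOf K from rfl,
        subgroupOf_map_subtype, inf_of_le_left (inf_le_right : Q ≤ K)] at this
    rw [Sylow.card_eq_index_normalizer P, ← P.coe_coe, ← relIndex_mul_index h1, ← h5]
    exact h3.mul h4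


/-- For a finite group `G` and a prime `p`, the number of Sylow `p`-subgroups of `G` is a product of natural numbers each of which is either a prime power congruent to 1 modulo `p` or the number of Sylow `p`-subgroups of some finite simple group. -/
theorem result {G : Type u} [Group G] [Finite G]
    (p : ℕ) [Fact p.Prime] :
    ∃ l : List ℕ, l.prod = Nat.card (Sylow p G) ∧
      ∀ m ∈ l, (IsPrimePow m ∧ m % p = 1) ∨
        ∃ (S : Type u) (_ : Group S) (_ : Finite S), IsSimpleGroup S ∧ m = Nat.card (Sylow p S) := by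
  exact aux p G

end Cfsg.Agent.S4303
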