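import Cfsg.Statements.S0695
import Cfsg.Agent.Perm.PrimRel

set_option autoImplicit false
open Cfsg

namespace Cfsg.Agent.S0695

open MulAction

/-- A regular normal subgroup of a doubly primitive group of finite degree at least 2 is an elementary abelian 2-group (and the degree is a power of 2), unless the degree is 3. -/
theorem result {G : Type*} [Group G] {X : Type*} [Fintype X] [MulAction G X] (hX : 2 ≤ Fintype.card X) (h2 : MulAction.IsMultiplyPreprimitive G X 2) (N : Subgroup G) [N.Normal] (htrans : MulAction.IsPretransitive N X) (hreg : ∀ x : X, MulAction.stabilizer N x = ⊥) : Fintype.card X = 3 ∨ (IsMulCommutative N ∧ (∀ n ∈ N, n ^ 2 = 1) ∧ ∃ m : ℕ, Fintype.card X = 2 ^ m) := by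
  classical
  obtain ⟨a⟩ : Nonempty X := Fintype.card_pos_iff.1 (by omega)
  have hinj : ∀ m n : N, m • a = n • a → m = n := by
    intro m n h
    have : n⁻¹ * m ∈ stabilizer N a := by rw [mem_stabilizer_iff, mul_smul, h, inv_smul_smul]
    rw [hreg, Subgroup.mem_bot, inv_mul_eq_one] at this
    exact this.symm
  let e : N ≃ X := Equiv.ofBijective (fun n => n • a) ⟨hinj, fun x => exists_smul_eq N a x⟩
  have he : ∀ n, e n = n • a := fun _ => rfl
  have hfin : Finite N := Finite.of_equiv _ e.symm
  have hcard : Nat.card N = Fintype.card X := by rw [Nat.card_congr e, Nat.card_eq_fintype_card]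
  have hprim := Perm.isPreprimitive_fixing_of_lt h2 (by rw [Nat.card_eq_fintype_card]; exact hX)
    {a} (by simp)
  have hconj : ∀ g : G, g • a = a → ∀ x, e.symm (g • x) = MulAut.conjNormal g (e.symm x) := by
    intro g hg x
    rw [Equiv.symm_apply_eq, he]
    conv_lhs => rw [← e.apply_symm_apply x, he]
    change g • ((e.symm x : N) : G) • a = ((MulAut.conjNormal g (e.symm x) : N) : G) • a
    rw [MulAut.conjNormal_apply, mul_smul, mul_smul, inv_smul_eq_iff.2 hg.symm]
  have h1 : ∀ n : N, n ≠ 1 → e n ∉ (({a} : Finset X) : Set X) := by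
    intro n hn h
    apply hn
    apply hinj
    simpa [he] using h
  have elem : (∀ n : N, n ^ 2 = 1) →
      IsMulCommutative N ∧ (∀ n ∈ N, n ^ 2 = 1) ∧ ∃ m : ℕ, Fintype.card X = 2 ^ m := by
    intro h
    refine ⟨⟨⟨fun x y => (Monoid.exponent_dvd_iff_forall_pow_eq_one.2 h |>
      fun _ => ?_)⟩⟩, fun n hn => congrArg Subtype.val (h ⟨n, hn⟩), ?_⟩
    · have hinv : ∀ z : N, z⁻¹ = z := fun z => by
        rw [inv_eq_iff_mul_eq_one, ← sq, h]
      rw [← hinv (x * y), mul_inv_rev, hinv, hinv]
    · rw [← hcard]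
      exact IsPGroup.iff_card.1 (fun n => ⟨1, by simpa using h n⟩)
  rcases Perm.rel_trivial_of_isPreprimitive_fixing hprim
    (fun x y => e.symm y = e.symm x ∨ e.symm y = (e.symm x)⁻¹)
    ⟨fun x => Or.inl rfl, fun h => h.imp Eq.symm fun h => by rw [h, inv_inv],
      fun h h' => by rcases h with h | h <;> rcases h' with h' | h' <;> simp [h, h']⟩
    (fun g hg x y h => by
      rw [hconj g (hg a (by simp)), hconj g (hg a (by simp))]
      exact h.imp (fun h => by rw [h]) fun h => by rw [h, map_inv]) with h | h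
  · right
    apply elem
    intro n
    by_cases hn : n = 1
    · simp [hn]
    · have := h (e n) (e n⁻¹) (h1 n hn) (h1 _ (inv_ne_one.2 hn)) (by simp)
      rw [sq]
      nth_rewrite 2 [e.injective this]
      exact mul_inv_cancel n
  · by_cases hall : ∀ n : N, n ^ 2 = 1
    · exact Or.inr (elem hall)
    · left
      push Not at hall
      obtain ⟨n, hn⟩ := hall
      have hn1 : n ≠ 1 := by rintro rfl; simp at hn
      have hnn : n ≠ n⁻¹ := fun h => hn (by rw [sq]; nth_rewrite 2 [h]; exact mul_inv_cancel n)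
      have := Fintype.ofFinite N
      rw [← hcard, Nat.card_eq_fintype_card, ← Finset.card_univ, Finset.card_eq_three]
      refine ⟨1, n, n⁻¹, hn1.symm, (inv_ne_one.2 hn1).symm, hnn, ?_⟩
      ext m
      by_cases hm : m = 1
      · simp [hm]
      · have := h (e n) (e m) (h1 n hn1) (h1 m hm)
        simpa [hm] using this

end Cfsg.Agent.S0695
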