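import Cfsg.Statements.S0696
import Cfsg.Agent.Perm.PrimRel
import Cfsg.Agent.S0695

set_option autoImplicit false
open Cfsg

namespace Cfsg.Agent.S0696

open MulAction

/-- A triply primitive group of degree at least 3 having a regular normal subgroup has degree 3 or 4. -/
theorem result {G : Type*} [Group G] {X : Type*} [Fintype X] [MulAction G X] (hX : 3 ≤ Fintype.card X) (h3 : MulAction.IsMultiplyPreprimitive G X 3) (N : Subgroup G) [N.Normal] (htrans : MulAction.IsPretransitive N X) (hreg : ∀ x : X, MulAction.stabilizer N x = ⊥) : Fintype.card X = 3 ∨ Fintype.card X = 4 := by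
  classical
  have hX' : (3 : ℕ) ≤ Nat.card X := by rw [Nat.card_eq_fintype_card]; exact hX
  have h2 : IsMultiplyPreprimitive G X 2 :=
    isMultiplyPreprimitive_of_le G X h3 (by norm_num) (by
      rw [ENat.card_eq_coe_natCard]; exact_mod_cast hX')
  rcases S0695.result (by omega) h2 N htrans hreg with h | ⟨hcomm, hsq, -⟩
  · exact Or.inl h
  obtain ⟨a, b, hab⟩ := Fintype.one_lt_card_iff.1 (show 1 < Fintype.card X by omega)
  obtain ⟨n, rfl⟩ := exists_smul_eq N a b
  have hfree : ∀ (m : N) (x : X), m • x = x → m = 1 := fun m x h => by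
    have : m ∈ stabilizer N x := h
    rwa [hreg, Subgroup.mem_bot] at this
  have hn : ∀ x : X, n • x ≠ x := fun x h => hab (by rw [hfree n x h, one_smul])
  have hnn : ∀ x : X, n • n • x = x := fun x => by
    rw [smul_smul, ← sq, show n ^ 2 = 1 from Subtype.ext (hsq n n.2), one_smul]
  have hprim := Perm.isPreprimitive_fixing_of_lt h3 hX' {a, n • a} (by
    rw [Finset.card_pair hab]; norm_num)
  have hc : ∀ g : G, g • a = a → g • n • a = n • a → ∀ x : X, g • n • x = n • g • x := by
    intro g h1 h2 x
    have : n⁻¹ * MulAut.conjNormal g n = 1 := by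
      apply hfree _ a
      rw [mul_smul, inv_smul_eq_iff]
      change ((MulAut.conjNormal g n : N) : G) • a = _
      rw [MulAut.conjNormal_apply, mul_smul, mul_smul, inv_smul_eq_iff.2 h1.symm]
      exact h2
    rw [inv_mul_eq_one] at this
    conv_rhs => rw [this]
    change _ = ((MulAut.conjNormal g n : N) : G) • g • x
    rw [MulAut.conjNormal_apply, mul_smul, mul_smul, inv_smul_smul]
    rfl
  obtain ⟨c, hc1, hc2⟩ : ∃ c, c ≠ a ∧ c ≠ n • a := by
    by_contra hcon
    push Not at hcon
    have : (Finset.univ : Finset X) ⊆ {a, n • a} := fun x _ => by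
      by_cases hx : x = a
      · simp [hx]
      · simp [hcon x hx]
    have := (Finset.card_le_card this).trans Finset.card_le_two
    rw [Finset.card_univ] at this
    omega
  have hc3 : n • c ≠ a := fun h => hc2 (by rw [← h, hnn])
  have hc4 : n • c ≠ n • a := fun h => hc1 (MulAction.injective n h)
  rcases Perm.rel_trivial_of_isPreprimitive_fixing hprim (fun x y => y = x ∨ y = n • x)
    ⟨fun x => Or.inl rfl, fun h => h.imp Eq.symm fun h => by rw [h, hnn],
      fun h h' => by rcases h with h | h <;> rcases h' with h' | h' <;> simp [h, h', hnn]⟩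
    (fun g hg x y h => h.imp (fun h => by rw [h]) fun h => by
      rw [h, hc g (hg _ (by simp)) (hg _ (by simp))]) with h | h
  · exact absurd (h c (n • c) (by simp [hc1, hc2]) (by simp [hc3, hc1]) (Or.inr rfl)).symm (hn c)
  · have : (Finset.univ : Finset X) ⊆ {a, n • a, c, n • c} := fun x _ => by
      by_cases hx : x = a
      · simp [hx]
      by_cases hx' : x = n • a
      · simp [hx']
      have := h c x (by simp [hc1, hc2]) (by simp [hx, hx'])
      simp [this]
    have := (Finset.card_le_card this).trans Finset.card_le_four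
    rw [Finset.card_univ] at this
    omega

end Cfsg.Agent.S0696
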