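import Cfsg.Statements.S0698
import Cfsg.Agent.Perm.NormalMult
import Cfsg.Agent.S0696

set_option autoImplicit false
open Cfsg

namespace Cfsg.Agent.S0698

open MulAction

/-- Jordan's Theorem on normal subgroups of multiply transitive groups: if `G` is `k`-transitive (`k > 1`) of degree greater than `k`, a non-trivial normal subgroup is `(k-1)`-transitive, except possibly for `k = 3` when it may be an elementary abelian 2-group. -/
theorem result {α : Type*} [Fintype α] [DecidableEq α] (G : Subgroup (Equiv.Perm α)) {k : ℕ} (hk : 1 < k) (hdeg : k < Fintype.card α) (hG : MulAction.IsMultiplyPretransitive G α k) (N : Subgroup G) [N.Normal] (hN : N ≠ ⊥) : MulAction.IsMultiplyPretransitive N α (k - 1) ∨ (k = 3 ∧ IsMulCommutative N ∧ ∀ n ∈ N, n ^ 2 = 1) := by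
  obtain ⟨j, rfl⟩ : ∃ j, k = j + 1 := ⟨k - 1, by omega⟩
  have hn : j + 2 ≤ Nat.card α := by rw [Nat.card_eq_fintype_card]; omega
  have hP : IsMultiplyPreprimitive G α j :=
    isMultiplyPreprimitive_of_isMultiplyPretransitive_succ G α (by
      rw [ENat.card_eq_coe_natCard]; exact_mod_cast (by omega : j + 1 ≤ Nat.card α))
  have hle : ∀ m, m ≤ j → IsMultiplyPreprimitive G α m := fun m hm =>
    isMultiplyPreprimitive_of_le G α hP hm (by
      rw [ENat.card_eq_coe_natCard]; exact_mod_cast (by omega : j ≤ Nat.card α))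
  by_cases hnr : ∃ h ∈ N, h ≠ 1 ∧ ∃ a : α, h • a = a
  · exact Or.inl (Perm.multTrans_of_normal_of_nonregular hP hn N hnr)
  have hreg : ∀ x : α, stabilizer N x = ⊥ := by
    intro x
    rw [eq_bot_iff]
    intro h hh
    rw [Subgroup.mem_bot]
    by_contra h1
    exact hnr ⟨h, h.2, fun e => h1 (Subtype.ext e), x, hh⟩
  have htr : IsPretransitive N α := Perm.isPretransitive_of_normal_of_ne_bot
    ((is_one_preprimitive_iff G α).1 (hle 1 (by omega))) N hN
  rcases Nat.lt_trichotomy j 2 with h | rfl | h
  · left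
    obtain rfl : j = 1 := by omega
    exact is_one_pretransitive_iff.2 htr
  · rcases S0695.result (by omega) hP N htr hreg with h | ⟨h1, h2, -⟩
    · omega
    · exact Or.inr ⟨rfl, h1, h2⟩
  · rcases S0696.result (by omega) (hle 3 h) N htr hreg with h | h <;> omega

end Cfsg.Agent.S0698
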