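import Cfsg.Statements.S4221
import Mathlib
import Cfsg.Agent.Perm.HallK

set_option autoImplicit false
open Cfsg

namespace Cfsg.Agent.S4221

open Cfsg.Agent.Perm Cfsg.Agent.Perm.Hall4 MulAction

/-- Let `G` be a `4`-fold transitive permutation group on a finite set of `n` points in which the pointwise stabilizer of some four distinct points has odd order. Then `n = 4` or `n = 5` with `G` the full symmetric group, or `n = 6` or `n = 7` with `G` the alternating group, or `n = 11` and `G` has order `7920`. -/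
theorem result {α : Type*} [Fintype α] [DecidableEq α] (G : Subgroup (Equiv.Perm α)) (hG : MulAction.IsMultiplyPretransitive G α 4) (x : Fin 4 ↪ α) (hodd : Odd (Nat.card (MulAction.stabilizer G x))) : ((Fintype.card α = 4 ∨ Fintype.card α = 5) ∧ G = ⊤) ∨ ((Fintype.card α = 6 ∨ Fintype.card α = 7) ∧ G = alternatingGroup α) ∨ (Fintype.card α = 11 ∧ Nat.card G = 7920) := by
  have H : Hyp G α := ⟨hG, fun g hg => by
    obtain ⟨S, h1, h4⟩ := Finset.exists_subset_card_eq hg
    obtain ⟨y, hy, -, h2⟩ := exists_split S h4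
    obtain ⟨k, hk⟩ := multTrans_iff_fun.1 hG y x hy x.injective
    have : k * g * k⁻¹ ∈ stabilizer G x := DFunLike.ext _ _ fun i => by
      change (k * g * k⁻¹) • x i = x i
      rw [← hk, ← mul_smul, inv_mul_cancel_right, mul_smul, mem_Fx.1 (h1 ((h2 _).2 ⟨i, rfl⟩))]
    rw [← (MulAut.conj k).orderOf_eq g]
    exact hodd.of_dvd_nat (Subgroup.orderOf_dvd_natCard _ this)⟩
  have h4 : 4 ≤ Fintype.card α := by simpa using Fintype.card_le_of_embedding x
  by_cases h8 : 8 ≤ Fintype.card α
  · obtain ⟨h1, h2, -⟩ := H.main h8 x.injective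
    refine .inr (.inr ⟨h1, ?_⟩)
    have h3 : stabilizer G x = ⊥ := by
      rw [← h2]
      ext k
      rw [mem_stab, mem_stabilizer_iff, DFunLike.ext_iff]
      rfl
    have e2 := @index_stabilizer_of_transitive G _ _ _ x hG
    rw [h3, Subgroup.index_bot, Nat.card_eq_fintype_card (α := Fin 4 ↪ α),
      Fintype.card_embedding_eq, h1, Fintype.card_fin] at e2
    exact e2
  by_cases h5 : Fintype.card α ≤ 5
  · refine .inl ⟨by omega, Equiv.Perm.eq_top_of_isMultiplyPretransitive ?_⟩
    classical
    exact isMultiplyPretransitive_of_le (n := 4) (by rw [Nat.card_eq_fintype_card]; omega)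
      (by rwa [Nat.card_eq_fintype_card])
  refine .inr (.inl ⟨by omega, le_antisymm (fun g hg => ?_)
    (alt_le_of_card_le G le_rfl hG h4 (by omega))⟩)
  by_contra hc
  have hne : x 0 ≠ x 1 := x.injective.ne (by decide)
  have h1 : Equiv.swap (x 0) (x 1) ∈ G := by
    have := alt_le_of_card_le G le_rfl hG h4 (by omega) (x := Equiv.swap (x 0) (x 1) * g) (by
      rw [Equiv.Perm.mem_alternatingGroup] at hc ⊢
      rw [map_mul, Equiv.Perm.sign_swap hne, (Int.units_eq_one_or _).resolve_left hc]
      rfl)
    exact (G.mul_mem_cancel_right hg).1 this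
  have h2 := H.card_Fx_le (t := ⟨_, h1⟩) (Subtype.ext (Equiv.swap_mul_self _ _))
    fun c => hne (Equiv.swap_eq_one_iff.1 (congrArg Subtype.val c))
  have h3 := Finset.card_le_card (s := ({x 0, x 1} : Finset α)ᶜ) (t := Fx α (⟨_, h1⟩ : G))
    fun u hu => by
      simp only [Finset.mem_compl, Finset.mem_insert, Finset.mem_singleton, not_or] at hu
      exact mem_Fx.2 (Equiv.swap_apply_of_ne_of_ne hu.1 hu.2)
  rw [Finset.card_compl, Finset.card_pair hne] at h3
  omega

end Cfsg.Agent.S4221
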