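import Cfsg.Statements.S2430
import Cfsg.Agent.KSG.SL2Torus

set_option autoImplicit false
open Cfsg

namespace Cfsg.Agent.S2430

open KSG KSG.M2 Matrix


/-- Let F be a finite field with q elements, q odd, ℓ an odd prime, and P a Sylow ℓ-subgroup of SL₂ over F. If ℓ divides q − 1, the centraliser of P is cyclic of order q − 1 (a split torus) and the normaliser of P has order 2(q − 1); if ℓ divides q + 1, the centraliser of P is cyclic of order q + 1 (a non-split torus) and the normaliser of P has order 2(q + 1). -/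
theorem result {F : Type*} [Field F] [Fintype F] (hodd : Odd (Fintype.card F)) (ℓ : ℕ) [Fact ℓ.Prime] (hℓ : ℓ ≠ 2)
    (P : Sylow ℓ (Matrix.SpecialLinearGroup (Fin 2) F)) :
    (ℓ ∣ Fintype.card F - 1 →
      Nat.card (Subgroup.centralizer ((P : Subgroup (Matrix.SpecialLinearGroup (Fin 2) F)) : Set (Matrix.SpecialLinearGroup (Fin 2) F))) = Fintype.card F - 1 ∧
      IsCyclic (Subgroup.centralizer ((P : Subgroup (Matrix.SpecialLinearGroup (Fin 2) F)) : Set (Matrix.SpecialLinearGroup (Fin 2) F))) ∧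
      Nat.card (Subgroup.normalizer ((P : Subgroup (Matrix.SpecialLinearGroup (Fin 2) F)) : Set (Matrix.SpecialLinearGroup (Fin 2) F))) = 2 * (Fintype.card F - 1)) ∧
    (ℓ ∣ Fintype.card F + 1 →
      Nat.card (Subgroup.centralizer ((P : Subgroup (Matrix.SpecialLinearGroup (Fin 2) F)) : Set (Matrix.SpecialLinearGroup (Fin 2) F))) = Fintype.card F + 1 ∧
      IsCyclic (Subgroup.centralizer ((P : Subgroup (Matrix.SpecialLinearGroup (Fin 2) F)) : Set (Matrix.SpecialLinearGroup (Fin 2) F))) ∧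
      Nat.card (Subgroup.normalizer ((P : Subgroup (Matrix.SpecialLinearGroup (Fin 2) F)) : Set (Matrix.SpecialLinearGroup (Fin 2) F))) = 2 * (Fintype.card F + 1)) := by
  have hodd' : Odd (Nat.card F) := by rwa [Nat.card_eq_fintype_card]
  have h2 := two_ne_zero_of_odd hodd'
  have hℓp : ℓ.Prime := Fact.out
  have hq : 1 < Fintype.card F := Fintype.one_lt_card
  have hno : ¬ (ℓ ∣ Fintype.card F - 1 ∧ ℓ ∣ Fintype.card F + 1) := by
    rintro ⟨h1, h3⟩
    have := (Nat.dvd_sub h3 h1)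
    rw [show Fintype.card F + 1 - (Fintype.card F - 1) = 2 by omega] at this
    exact hℓ ((Nat.prime_dvd_prime_iff_eq hℓp Nat.prime_two).1 this)
  have key : ℓ ∣ Fintype.card F ^ 2 - 1 → ∃ z : Matrix.SpecialLinearGroup (Fin 2) F,
      (z : Matrix (Fin 2) (Fin 2) F).trace ^ 2 ≠ 4 ∧ z ∈ (P : Subgroup _) ∧
      (P : Subgroup _) ≤ Subgroup.centralizer {z} ∧ ℓ ∣ Nat.card (Subgroup.centralizer {z}) := by
    intro h
    have hG : ℓ ∣ Nat.card (Matrix.SpecialLinearGroup (Fin 2) F) := by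
      rw [card_SL2, Nat.card_eq_fintype_card]; exact Dvd.dvd.mul_left h _
    have hP : Nontrivial P := by
      rw [Subgroup.nontrivial_iff_ne_bot]; exact P.ne_bot_of_dvd_card hG
    have hZ := P.isPGroup'.center_nontrivial
    obtain ⟨⟨z, hz⟩, hz1⟩ := exists_ne (1 : Subgroup.center P)
    have hz1' : (z : Matrix.SpecialLinearGroup (Fin 2) F) ≠ 1 := fun h =>
      hz1 (Subtype.ext (Subtype.ext h))
    obtain ⟨k, hk⟩ := IsPGroup.iff_orderOf.1 P.isPGroup' z
    rw [← Subgroup.orderOf_coe] at hk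
    have hk0 : k ≠ 0 := by
      rintro rfl
      exact hz1' (orderOf_eq_one_iff.1 (by simpa using hk))
    have hdvd : ℓ ∣ Nat.card (Subgroup.centralizer {(z : Matrix.SpecialLinearGroup (Fin 2) F)}) :=
      (hk ▸ dvd_pow_self ℓ hk0).trans (Subgroup.orderOf_dvd_natCard _ (self_mem_cent _))
    refine ⟨z, fun h4 => ?_, z.2, fun x hx => Subgroup.mem_centralizer_singleton_iff.2
      (congrArg Subtype.val (Subgroup.mem_center_iff.1 hz ⟨x, hx⟩)), hdvd⟩
    obtain ⟨ε, hε, ht⟩ := exists_eps_of_trace_sq h4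
    by_cases hs : IsScal ((z : Matrix.SpecialLinearGroup (Fin 2) F) : Matrix (Fin 2) (Fin 2) F)
    · have h5 := orderOf_dvd_of_pow_eq_one ((SL_sq_eq_one_iff h2).2 (SL_isScal_iff.1 hs))
      exact hℓ ((Nat.prime_dvd_prime_iff_eq hℓp Nat.prime_two).1
        ((hk ▸ dvd_pow_self ℓ hk0).trans h5))
    · rw [SL_card_centralizer_par hs hε ht, card_sq_eq_one_of_two_ne h2,
        Nat.card_eq_fintype_card] at hdvd
      rcases (Nat.Prime.dvd_mul hℓp).1 hdvd with h5 | h5
      · exact hℓ ((Nat.prime_dvd_prime_iff_eq hℓp Nat.prime_two).1 h5)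
      · have h6 := Nat.dvd_sub (dvd_pow h5 two_ne_zero) h
        rw [Nat.sub_sub_self (Nat.one_le_pow _ _ (by omega))] at h6
        exact hℓp.one_lt.ne' (Nat.dvd_one.1 h6)
  have hsq : Fintype.card F ^ 2 - 1 = (Fintype.card F + 1) * (Fintype.card F - 1) := by
    rw [← Nat.sq_sub_sq]
  constructor
  · intro h
    obtain ⟨z, hz, hzP, hP, hd⟩ := key (by rw [hsq]; exact Dvd.dvd.mul_left h _)
    rw [centralizer_eq_cent (SL_not_isScal_of_trace hz) hzP hP, normalizer_eq_of_le_cent hz hzP hP,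
      card_normalizer_cent hz]
    rcases card_cent_cases hz with ⟨-, hc⟩ | ⟨-, hc⟩ <;>
      rw [Nat.card_eq_fintype_card (α := F)] at hc
    · exact ⟨hc, isCyclic_cent hz, by rw [hc]⟩
    · exact absurd ⟨h, hc ▸ hd⟩ hno
  · intro h
    obtain ⟨z, hz, hzP, hP, hd⟩ := key (by rw [hsq]; exact Dvd.dvd.mul_right h _)
    rw [centralizer_eq_cent (SL_not_isScal_of_trace hz) hzP hP, normalizer_eq_of_le_cent hz hzP hP,
      card_normalizer_cent hz]
    rcases card_cent_cases hz with ⟨-, hc⟩ | ⟨-, hc⟩ <;>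
      rw [Nat.card_eq_fintype_card (α := F)] at hc
    · exact absurd ⟨hc ▸ hd, h⟩ hno
    · exact ⟨hc, isCyclic_cent hz, by rw [hc]⟩

end Cfsg.Agent.S2430
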