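import Cfsg.Statements.S4840
import Cfsg.Agent.Char.Gagola
import Cfsg.Agent.FGS.RankOneStruct
import Cfsg.Agent.Suz.Huppert
import Cfsg.Agent.S3742
import Cfsg.Agent.Grp.MinNormal

set_option autoImplicit false
open Cfsg

namespace Cfsg.Agent.S4840

open Subgroup Cfsg.Agent.FGS.FrobCompl

theorem card_le_nine {L V : Type*} [Group L] [Finite L] [CommGroup V] [Finite V] {p : ℕ}
    [Fact p.Prime] (φ : L →* MulAut V) (h4 : Nat.card (Sylow p L) ≤ 4) (h1 : Nontrivial (Sylow p L))
    (hst : ∀ v : V, v ≠ 1 → ∃ P : Sylow p L, ∀ h, φ h v = v ↔ h ∈ P) : Nat.card V ≤ 9 := by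
  classical
  let C : Sylow p L → Subgroup V := fun T =>
    { carrier := {v | ∀ h ∈ T, φ h v = v}
      one_mem' := fun h _ => map_one _
      mul_mem' := fun ha hb h hh => by rw [map_mul, ha h hh, hb h hh]
      inv_mem' := fun ha h hh => by rw [map_inv, ha h hh] }
  have hc : ∀ T T' : Sylow p L, Nat.card (C T) ≤ Nat.card (C T') := fun T T' => by
    obtain ⟨g, rfl⟩ := MulAction.exists_smul_eq L T T'
    refine Nat.card_le_card_of_injective (fun v => ⟨φ g v, ?_⟩) fun v w e =>
      Subtype.ext ((φ g).injective (congrArg Subtype.val e))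
    rintro _ ⟨h, hh, rfl⟩
    change φ (g * h * g⁻¹) _ = _
    rw [← MulAut.mul_apply, ← map_mul, inv_mul_cancel_right, map_mul, MulAut.mul_apply, v.2 h hh]
  obtain ⟨T, T', hT⟩ := h1
  have h2 : Nat.card (C T) * Nat.card (C T') ≤ Nat.card V := by
    rw [← Nat.card_prod]
    refine Nat.card_le_card_of_injective (fun x => x.1 * x.2) (mul_injective_of_disjoint ?_)
    refine disjoint_def.2 fun {v} hv hv' => by_contra fun h => hT ?_
    obtain ⟨P, hP⟩ := hst v h
    exact (Sylow.ext (T.3 P.2 fun x hx => (hP x).1 (hv x hx))).symm.trans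
      (Sylow.ext (T'.3 P.2 fun x hx => (hP x).1 (hv' x hx)))
  haveI := Fintype.ofFinite V
  haveI := Fintype.ofFinite (Sylow p L)
  have h3 : (Finset.univ.erase (1 : V)).card ≤ (Finset.univ : Finset (Sylow p L)).card *
      (Nat.card (C T) - 1) := by
    refine le_trans (Finset.card_le_card (t := Finset.univ.biUnion fun P =>
      (Finset.univ.filter (· ∈ C P)).erase 1) fun v hv => ?_) (Finset.card_biUnion_le_card_mul _ _ _ ?_)
    · obtain ⟨P, hP⟩ := hst v (Finset.ne_of_mem_erase hv)
      simpa [Finset.ne_of_mem_erase hv] using ⟨P, fun h hh => (hP h).2 hh⟩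
    · intro P _
      rw [Finset.card_erase_of_mem (by simp [one_mem]), ← Fintype.card_subtype, ← Nat.card_eq_fintype_card]
      exact Nat.sub_le_sub_right (hc P T) 1
  rw [Finset.card_erase_of_mem (Finset.mem_univ _), Finset.card_univ, Finset.card_univ,
    ← Nat.card_eq_fintype_card, ← Nat.card_eq_fintype_card] at h3
  have h5 := hc T T'
  have h6 : 0 < Nat.card (C T) := Nat.card_pos
  generalize Nat.card (C T) = c at *
  obtain ⟨c, rfl⟩ := Nat.exists_eq_succ_of_ne_zero h6.ne'
  have h7 : Nat.card V ≤ 4 * c + 1 := by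
    have := Nat.mul_le_mul_right c h4
    rw [Nat.succ_sub_one] at h3; omega
  have h8 : c ≤ 2 := by nlinarith
  omega

theorem not_dvd {H V : Type*} [Group H] [Finite H] [Group.IsSolvable H] [CommGroup V] [Finite V]
    [Nontrivial V] {p : ℕ} [hp : Fact p.Prime] (φ : H →* MulAut V) (hO : pCore p H = ⊥)
    (hst : ∀ v : V, v ≠ 1 → ∃ P : Sylow p H, ∀ h, φ h v = v ↔ h ∈ P)
    (hi : ∀ P : Sylow p H, (P : Subgroup H).index < Nat.card V) : ¬ p ∣ Nat.card (commutator H) := by
  intro hd
  haveI : Fact (Nat.Prime 2) := ⟨Nat.prime_two⟩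
  have hF := Grp.coprime_of_le_pPrimeCore (Grp.fitting_le_pPrimeCore_of_pCore_eq_bot hO)
  have hF1 : ∀ x ∈ fittingSubgroup H, ∀ P : Subgroup H, IsPGroup p P → x ∈ P → x = 1 :=
    fun x hx P hP hxP => Transfer.eq_one_of_mem_isPGroup_of_coprime hP hxP
      (Transfer.coprime_orderOf_of_mem hF hx)
  have hR : RankOne (fittingSubgroup H) := by
    rcases subsingleton_or_nontrivial (fittingSubgroup H) with h | h
    · exact fun A _ => inferInstance
    refine (occurs_of_isFpf (φ.comp (fittingSubgroup H).subtype) fun a v e => ?_).rankOne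
    refine or_iff_not_imp_right.2 fun hv => ?_
    obtain ⟨P, hP⟩ := hst v hv
    exact Subtype.ext (hF1 _ a.2 P P.2 ((hP a).1 e))
  have hR' : ∀ K ≤ fittingSubgroup H, RankOne K := fun K hK =>
    hR.of_injective _ (inclusion_injective hK)
  have hC := Grp.centralizer_fitting_le H
  have h1 : ∀ x ∈ commutator H, x ∈ centralizer (pCore 2 H : Set H) →
      x ∈ centralizer (fittingSubgroup H : Set H) := fun x hx hx' => by
    have : fittingSubgroup H ≤ centralizer {x} := by
      rw [Grp.fitting_eq_iSup_pCore]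
      refine iSup_le fun r y hy => mem_centralizer_singleton_iff.2 ?_
      haveI := Fact.mk r.2
      rcases (hR' _ (Grp.pCore_le_fitting r)).cyclic_or_quaternion' (Grp.pCore_isPGroup r H)
        with h | ⟨h, -⟩
      · exact Suz.commutator_le_centralizer_of_isCyclic _ hx y hy
      · exact hx' y (h ▸ hy)
    exact fun y hy => mem_centralizer_singleton_iff.1 (this hy)
  obtain ⟨t, ht⟩ := exists_prime_orderOf_dvd_card' p hd
  have ht1 : ∀ k : ℕ, k.Coprime p → (t : H) ^ k ∉ centralizer (pCore 2 H : Set H) := fun k hk h => by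
    have := Transfer.coprime_orderOf_of_mem hF (hC (h1 _ (pow_mem t.2 k) h))
    rw [← coe_pow, orderOf_coe, (show (orderOf t).Coprime k from ht ▸ hk.symm).orderOf_pow, ht,
      Nat.coprime_self] at this
    exact hp.out.ne_one this
  obtain ⟨-, n, hn, ⟨e⟩⟩ := ((hR' _ (Grp.pCore_le_fitting 2)).cyclic_or_quaternion'
    (Grp.pCore_isPGroup 2 H)).resolve_left fun h =>
      ht1 1 (by simp) (by simpa using Suz.commutator_le_centralizer_of_isCyclic _ t.2)
  have hp2 : p ≠ 2 := by
    rintro rfl
    exact ht1 1 (by simp) (by simp [hO, mem_centralizer_iff])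
  obtain rfl : n = 1 := by
    by_contra h
    obtain ⟨k, hk⟩ := Inv.AutCyc.exists_pow_mem_centralizer (Inv.AutCyc.isPGroup_mulAut_congr e
      (Inv.AutCyc.isPGroup_mulAut_quaternion (by omega))) (g := t) (by simp [normalizer_eq_top])
    exact ht1 _ (((Nat.coprime_primes Nat.prime_two hp.out).2 hp2.symm).pow_left k) hk
  have h24 : Nat.card (MulAut (pCore 2 H)) = 24 := by
    obtain ⟨ε⟩ := S3742.result
    rw [Nat.card_congr (MulAut.congr e).toEquiv, Nat.card_congr (show MulAut (QuaternionGroup (2 ^ 1)) ≃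
      Equiv.Perm (Fin 4) from ε.toEquiv)]
    simp [Fintype.card_perm, Nat.factorial]
  let θ : H →* MulAut (pCore 2 H) := MulAut.conjNormal
  have hθ : ∀ x, θ x = 1 ↔ x ∈ centralizer (pCore 2 H : Set H) := fun x => by
    rw [← MonoidHom.mem_ker, ker_conjNormal]
  obtain rfl : p = 3 := by
    have h2 : orderOf (θ t) = p := orderOf_eq_prime (by
      rw [← map_pow, ← coe_pow, ← ht, pow_orderOf_eq_one, OneMemClass.coe_one, map_one])
      fun h => ht1 1 (by simp) (by simpa using (hθ _).1 h)
    have h3 := orderOf_dvd_natCard (θ t)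
    rw [h2, h24, show 24 = 2 ^ 3 * 3 from rfl] at h3
    rcases (Nat.Prime.dvd_mul hp.out).1 h3 with h | h
    · exact (hp2 ((Nat.prime_dvd_prime_iff_eq hp.out Nat.prime_two).1 (hp.out.dvd_of_dvd_pow h))).elim
    · exact (Nat.prime_dvd_prime_iff_eq hp.out Nat.prime_three).1 h
  have h9 : Nat.card V ≤ 9 := by
    refine card_le_nine (p := 3) (φ.comp (commutator H).subtype) ?_ ?_ fun v hv => ?_
    · obtain ⟨T⟩ : Nonempty (Sylow 3 (commutator H)) := inferInstance
      have h2 := card_sylow_modEq_one 3 (commutator H)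
      have h3 : Nat.card (Sylow 3 (commutator H)) ∣ 24 := by
        rw [T.card_eq_index_normalizer, ← h24]
        refine (index_dvd_of_le (H := (θ.comp (commutator H).subtype).ker) fun x hx => ?_).trans
          ((index_ker (θ.comp (commutator H).subtype)).symm ▸ card_subgroup_dvd_card _)
        haveI := hR' _ hC ⊤ ⟨⟨fun a b => Subtype.ext (Subtype.ext (b.1.2 _ (hC a.1.2)))⟩⟩
        haveI : IsCyclic (centralizer (fittingSubgroup H : Set H)) := isCyclic_of_surjective _
          (topEquiv (G := centralizer (fittingSubgroup H : Set H))).surjective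
        refine center_le_normalizer _ (mem_center_iff.2 fun y => Subtype.ext ?_)
        exact (Suz.commutator_le_centralizer_of_isCyclic _ y.2 _ (h1 _ x.2 ((hθ _).1 hx))).symm
      have h4 := Nat.le_of_dvd (by norm_num) h3
      generalize Nat.card (Sylow 3 (commutator H)) = m at *
      interval_cases m <;> simp_all [Nat.ModEq]
    · by_contra h
      rw [not_nontrivial_iff_subsingleton] at h
      obtain ⟨T, hT⟩ := (IsPGroup.of_card (p := 3) (n := 1) (G := zpowers t) (by simp [ht])).exists_le_sylow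
      haveI := T.characteristic_of_subsingleton
      have := Grp.le_pCore (inferInstance : ((T : Subgroup (commutator H)).map
        (commutator H).subtype).Normal) (T.2.map _) ⟨t, hT (mem_zpowers t), rfl⟩
      rw [hO, mem_bot] at this
      exact ht1 1 (by simp) (by simpa [show (t : H) = 1 from this] using one_mem _)
    · obtain ⟨P, hP⟩ := hst v hv
      obtain ⟨T⟩ : Nonempty (Sylow 3 (commutator H)) := inferInstance
      obtain ⟨P', hP'⟩ := T.exists_comap_subtype_eq
      obtain ⟨g, rfl⟩ := MulAction.exists_smul_eq H P' P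
      refine ⟨⟨_, ((g • P').2.comap_subtype (K := commutator H)), fun {K} hK hle => ?_⟩, fun h => hP h⟩
      have := T.3 (hK.map (MulAut.conjNormal g⁻¹).toMonoidHom) (hP' ▸ fun x hx =>
        ⟨MulAut.conjNormal g x, hle ⟨x, hx, rfl⟩, by simp⟩)
      refine le_antisymm (fun x hx => ⟨g⁻¹ * x * g⁻¹⁻¹, ?_, by simp [mul_assoc]⟩) hle
      exact (hP'.ge.trans' this.le) ⟨x, hx, rfl⟩
  obtain ⟨P⟩ : Nonempty (Sylow 3 H) := inferInstance
  obtain ⟨k, hk⟩ := IsPGroup.iff_card.1 P.2
  have h8 : Nat.card (pCore 2 H) = 8 := by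
    rw [Nat.card_congr e.toEquiv, Nat.card_eq_fintype_card, QuaternionGroup.card]; rfl
  have h2 : Nat.card (fittingSubgroup H) ∣ (P : Subgroup H).index :=
    (hF.pow_right k).dvd_of_dvd_mul_left (hk ▸ (P : Subgroup H).card_mul_index ▸ card_subgroup_dvd_card _)
  have h3 := card_le_of_le (Grp.pCore_le_fitting 2 : pCore 2 H ≤ _)
  have h4 := Nat.le_of_dvd (Nat.pos_of_ne_zero index_ne_zero_of_finite) h2
  have h5 := hi P
  have h6 : pCore 2 H = fittingSubgroup H := eq_of_le_of_card_ge (Grp.pCore_le_fitting 2) (by omega)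
  have h7 : 3 ^ k ∣ 24 := by
    rw [← hk, ← h24]
    refine card_dvd_of_injective (θ.comp (P : Subgroup H).subtype) ((injective_iff_map_eq_one _).2 ?_)
    exact fun x hx => Subtype.ext (hF1 _ (hC (h6 ▸ (hθ _).1 hx)) P P.2 x.2)
  have h10 : Nat.card (H ⧸ pCore 2 H) ∣ 3 := by
    have := (pCore 2 H).index_mul_card.trans (P : Subgroup H).card_mul_index.symm
    rw [h8, hk, show (P : Subgroup H).index = 8 by omega] at this
    rw [← index_eq_card, Nat.eq_of_mul_eq_mul_right (by norm_num) this]
    exact (Nat.Coprime.pow_left k (by norm_num : Nat.Coprime 3 8)).dvd_of_dvd_mul_right h7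
  haveI := isCyclic_of_card_dvd_prime h10
  have := Normal.quotient_commutative_iff_commutator_le.1
    (inferInstance : IsMulCommutative (H ⧸ pCore 2 H)) t.2
  have := Transfer.coprime_orderOf_of_mem hF (h6 ▸ this)
  rw [orderOf_coe, ht] at this
  norm_num at this


/-- Let G be a finite solvable group of order greater than 2 with an irreducible character nonzero on exactly two conjugacy classes. Then there is exactly one prime p with O_p(G) ≠ 1, and the quotient G/O_p(G) has a normal p-complement and commutative Sylow p-subgroups. -/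
theorem result {G : Type*} [Group G] [Finite G] [hs : Group.IsSolvable G] (hG : 2 < Nat.card G) (χ : Cfsg.IrrCharacter G) (hχ : Nat.card {C : ConjClasses G // ∃ g ∈ C.carrier, (χ : G → ℂ) g ≠ 0} = 2) :
    ∃ p : ℕ, p.Prime ∧ (∀ q : ℕ, q.Prime → (Cfsg.pCore q G ≠ ⊥ ↔ q = p)) ∧
      Cfsg.HasNormalPComplement p (G ⧸ Cfsg.pCore p G) ∧ ∀ Q : Sylow p (G ⧸ Cfsg.pCore p G), IsMulCommutative (Q : Subgroup (G ⧸ Cfsg.pCore p G)) := by
  obtain ⟨N, h⟩ := Char.exists_gagola hG χ.2 hχ
  obtain ⟨p, hp, hN⟩ := h.exists_prime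
  haveI := Fact.mk hp
  haveI := h.normal
  have hNp : IsPGroup p N := Grp.isPGroup_of_pow_eq_one hN
  have hO : pCore p G ≤ (MulAut.conjNormal : G →* MulAut N).ker := fun x hx => by
    rw [ker_conjNormal]
    intro n hn
    by_cases h1 : n = 1
    · simp [h1]
    obtain ⟨P, hP⟩ := h.centralizer_sylow hNp hn h1
    exact (mem_centralizer_singleton_iff.1 (hP.ge (Grp.pCore_le_sylow P hx))).symm
  letI : CommGroup N := { (inferInstance : Group N) with
    mul_comm := fun a b => Subtype.ext (h.comm a a.2 b b.2) }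
  haveI := (nontrivial_iff_ne_bot N).2 h.ne_bot
  have hm : ∀ P : Sylow p G, ∀ x : G, (x : G ⧸ pCore p G) ∈ (P : Subgroup G).map (QuotientGroup.mk' _)
      ↔ x ∈ P := fun P x => by
    refine (mem_comap (f := QuotientGroup.mk' (pCore p G))).symm.trans ?_
    rw [comap_map_eq_self (by simpa using Grp.pCore_le_sylow P)]; rfl
  have key := not_dvd (QuotientGroup.lift _ _ hO) (Grp.pCore_quotient_pCore p G) (fun v hv => by
    obtain ⟨P, hP⟩ := h.centralizer_sylow hNp v.2 (fun e => hv (Subtype.ext e))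
    refine ⟨P.mapSurjective (QuotientGroup.mk'_surjective _), fun x => ?_⟩
    induction x using QuotientGroup.induction_on with | H x => ?_
    refine Iff.trans ?_ (hm P x).symm
    change _ ↔ x ∈ (P : Subgroup G)
    rw [← hP, mem_centralizer_singleton_iff, Subtype.ext_iff, ← mul_inv_eq_iff_eq_mul]; rfl) fun P => by
      obtain ⟨x, hx, hx1⟩ := h.exists_mem
      obtain ⟨Q, hQ⟩ := h.centralizer_sylow hNp hx hx1
      have := h.index_add_one hx hx1
      obtain ⟨g, rfl⟩ := MulAction.exists_smul_eq (G ⧸ pCore p G)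
        (Q.mapSurjective (QuotientGroup.mk'_surjective (pCore p G))) P
      rw [Sylow.coe_subgroup_smul, pointwise_smul_def]
      refine (index_map_equiv _ (MulAut.conj g)).trans_lt ?_
      rw [Sylow.coe_mapSurjective,
        index_map_eq _ (QuotientGroup.mk'_surjective _) (by simpa using Grp.pCore_le_sylow Q), ← hQ]
      omega
  have hc := ((Nat.Prime.coprime_iff_not_dvd hp).2 key).symm
  refine ⟨p, hp, fun q hq => ⟨fun h1 => ?_, ?_⟩, ?_, fun Q => ⟨⟨fun a b => Subtype.ext ?_⟩⟩⟩
  · haveI := Fact.mk hq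
    by_contra hne
    exact h.ne_bot (disjoint_self.1 ((IsPGroup.disjoint_of_ne q p hne _ _ (Grp.pCore_isPGroup q G)
      hNp).mono_left (h.le_of_normal h1)))
  · rintro rfl e
    exact h.ne_bot (eq_bot_iff.2 (e ▸ Grp.le_pCore h.normal hNp))
  · refine Transfer.hasNormalPComplement_of_quotient_coprime _ hc ?_
    haveI := Grp.isNilpotent_of_isMulCommutative ((G ⧸ pCore p G) ⧸ commutator (G ⧸ pCore p G))
      (h := Normal.quotient_commutative_iff_commutator_le.2 le_rfl)
    exact Transfer.hasNormalPComplement_of_normal _ (Grp.pPrimeCore_coprime p _) (by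
      refine (Grp.pCore_isPGroup p _).of_surjective ((QuotientGroup.mk' _).comp (pCore p _).subtype) ?_
      intro y
      induction y using QuotientGroup.induction_on with | H y => ?_
      obtain ⟨a, ha, b, hb, rfl⟩ := mem_sup_of_normal_right.1
        ((Grp.pCore_sup_pPrimeCore_of_isNilpotent p).ge (mem_top y))
      exact ⟨⟨a, ha⟩, (QuotientGroup.mk_mul_of_mem a hb).symm⟩)
  · exact commutatorElement_eq_one_iff_mul_comm.1 (Transfer.eq_one_of_mem_isPGroup_of_coprime Q.2
      (mul_mem (mul_mem (mul_mem a.2 b.2) (inv_mem a.2)) (inv_mem b.2))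
      (Transfer.coprime_orderOf_of_mem hc (commutator_mem_commutator (mem_top _) (mem_top _))))

end Cfsg.Agent.S4840
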