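import Cfsg.Statements.S2299
import Mathlib
import Cfsg.Agent.KSG.SL2Deg

set_option autoImplicit false
open Cfsg

namespace Cfsg.Agent.S2299

open KSG KSG.GL2 KSG.M2 Char

/-- Over a finite field F with q elements, q odd, every irreducible complex character of SL₂ has degree 1, q, q + 1, q − 1, (q + 1)/2 or (q − 1)/2; and when q ≥ 5 (so that these six numbers are distinct) there are exactly one irreducible character of degree 1, one of degree q, (q − 3)/2 of degree q + 1, (q − 1)/2 of degree q − 1, two of degree (q + 1)/2 and two of degree (q − 1)/2. -/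
theorem result {F : Type*} [Field F] [Fintype F] (hodd : Odd (Fintype.card F)) :
    (∀ χ : Matrix.SpecialLinearGroup (Fin 2) F → ℂ, Cfsg.IsIrrCharacter (Matrix.SpecialLinearGroup (Fin 2) F) χ →
      χ 1 = 1 ∨ χ 1 = (Fintype.card F : ℂ) ∨ χ 1 = (Fintype.card F : ℂ) + 1 ∨ χ 1 = (Fintype.card F : ℂ) - 1 ∨
        χ 1 = (((Fintype.card F + 1) / 2 : ℕ) : ℂ) ∨ χ 1 = (((Fintype.card F - 1) / 2 : ℕ) : ℂ)) ∧
    (5 ≤ Fintype.card F →
      Nat.card {χ : Cfsg.IrrCharacter (Matrix.SpecialLinearGroup (Fin 2) F) // (χ : Matrix.SpecialLinearGroup (Fin 2) F → ℂ) 1 = 1} = 1 ∧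
      Nat.card {χ : Cfsg.IrrCharacter (Matrix.SpecialLinearGroup (Fin 2) F) // (χ : Matrix.SpecialLinearGroup (Fin 2) F → ℂ) 1 = (Fintype.card F : ℂ)} = 1 ∧
      Nat.card {χ : Cfsg.IrrCharacter (Matrix.SpecialLinearGroup (Fin 2) F) // (χ : Matrix.SpecialLinearGroup (Fin 2) F → ℂ) 1 = (Fintype.card F : ℂ) + 1} = (Fintype.card F - 3) / 2 ∧
      Nat.card {χ : Cfsg.IrrCharacter (Matrix.SpecialLinearGroup (Fin 2) F) // (χ : Matrix.SpecialLinearGroup (Fin 2) F → ℂ) 1 = (Fintype.card F : ℂ) - 1} = (Fintype.card F - 1) / 2 ∧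
      Nat.card {χ : Cfsg.IrrCharacter (Matrix.SpecialLinearGroup (Fin 2) F) // (χ : Matrix.SpecialLinearGroup (Fin 2) F → ℂ) 1 = (((Fintype.card F + 1) / 2 : ℕ) : ℂ)} = 2 ∧
      Nat.card {χ : Cfsg.IrrCharacter (Matrix.SpecialLinearGroup (Fin 2) F) // (χ : Matrix.SpecialLinearGroup (Fin 2) F → ℂ) 1 = (((Fintype.card F - 1) / 2 : ℕ) : ℂ)} = 2) := by
  classical
  obtain ⟨g1, _⟩ := exists_fact_noEigS (F := F)
  have h2 : (2 : F) ≠ 0 := two_ne_zero_of_odd (by rwa [Nat.card_eq_fintype_card])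
  refine ⟨fun χ hχ => ?_, fun hq => ⟨card_deg_one (by omega), card_deg_card, ?_, ?_, ?_, ?_⟩⟩
  · rw [eq_half_add_iff hodd, eq_half_sub_iff hodd]
    exact (irrS_cases_deg g1 hχ).imp And.right fun h => h.imp And.right fun h => h.imp And.right
      fun h => h.imp And.right fun h => h.imp And.right And.right
  · have := card_deg_add_one (F := F)
    rw [card_sq_eq_one_of_two_ne h2] at this
    omega
  · have := card_deg_sub_one (F := F) (by omega)
    rw [card_sq_eq_one_of_two_ne h2] at this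
    omega
  · obtain ⟨α, χ₁, χ₂, -, -, h, H⟩ := exists_half_add (F := F) (by omega) h2
    refine card_irr_eq_two (P := fun χ => χ 1 = (((Fintype.card F + 1) / 2 : ℕ) : ℂ)) h.irr₁ h.irr₂
      h.ne ?_ ?_ fun χ hχ hd => H χ hχ ((eq_half_add_iff hodd).1 hd)
    · rw [eq_half_add_iff hodd, h.two_mul_one, ps_one]
    · rw [eq_half_add_iff hodd, h.symm.two_mul_one, ps_one]
  · obtain ⟨α, χ₁, χ₂, -, -, h, H⟩ := exists_half_sub g1 (by omega) h2
    refine card_irr_eq_two (P := fun χ => χ 1 = (((Fintype.card F - 1) / 2 : ℕ) : ℂ)) h.irr₁ h.irr₂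
      h.ne ?_ ?_ fun χ hχ hd => H χ hχ ((eq_half_sub_iff hodd).1 hd)
    · rw [eq_half_sub_iff hodd, h.two_mul_one, cusp_one]
    · rw [eq_half_sub_iff hodd, h.symm.two_mul_one, cusp_one]

end Cfsg.Agent.S2299
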