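import Cfsg.Statements.S4958
import Cfsg.Agent.Block.Knorr
import Cfsg.Agent.Char.Ito
-- import your own Cfsg.Agent.* helpers here

set_option autoImplicit false
open Cfsg

namespace Cfsg.Agent.S4958

open Cfsg.Agent.Block Cfsg.Agent.Char
open scoped ComplexConjugate

open Subgroup

/-- Let X be a finite group and V a normal subgroup of X in which every element has order dividing the prime p, whose index in X is prime to p and which is its own centralizer in X; so V is an elementary abelian normal Sylow p-subgroup, and any complement G to V in X is a group of order prime to p acting faithfully on the vector space V by conjugation (the coprime linear setting of the k(GV) problem). Let G be a complement to V in X and suppose that for some v in V the centralizer of v in G is abelian. Then the number of conjugacy classes of X is at most the order of V (the abelian-stabilizer criterion for the k(GV) problem). -/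
theorem result {X : Type*} [Group X] [Finite X] (p : ℕ) [Fact p.Prime] (V : Subgroup X) [V.Normal] (hVexp : ∀ v ∈ V, v ^ p = 1) (hidx : ¬ p ∣ V.index) (hself : Subgroup.centralizer (V : Set X) = V) (G : Subgroup X) (hGV : Subgroup.IsComplement' V G) (v : X) (hv : v ∈ V) (hab : ∀ a ∈ G ⊓ Subgroup.centralizer ({v} : Set X), ∀ b ∈ G ⊓ Subgroup.centralizer ({v} : Set X), a * b = b * a) : Nat.card (ConjClasses X) ≤ Nat.card V := by
  classical
  have hp : p.Prime := Fact.out
  have hVc : ∀ a ∈ V, ∀ b ∈ V, a * b = b * a := fun a ha b hb => (hself.ge hb) a ha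
  have hG : ¬ p ∣ Nat.card G := hGV.symm.index_eq_card ▸ hidx
  set H := G ⊓ centralizer ({v} : Set X) with hH
  letI := Fintype.ofFinite H
  letI : CommGroup H :=
    { (inferInstance : Group H) with mul_comm := fun a b => Subtype.ext (hab a a.2 b b.2) }
  let e : Multiplicative (ZMod p) →* X := MonoidHom.mk' (fun i => v ^ (Multiplicative.toAdd i).val)
    fun a b => by rw [toAdd_mul, ZMod.val_add, ← pow_eq_pow_mod _ (hVexp v hv), pow_add]
  let g : H × Multiplicative (ZMod p) →* X := H.subtype.noncommCoprod e fun h i =>
    Commute.pow_right (mem_centralizer_singleton_iff.1 h.2.2) _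
  let f : H × Multiplicative (ZMod p) →* X := H.subtype.comp (MonoidHom.fst _ _)
  have h1 := kp_chain (m := Nat.card G) (hp.coprime_iff_not_dvd.2 hG) f
    (fun a => congrArg Subtype.val (pow_card_eq_one' (x := (⟨_, a.1.2.1⟩ : G)))) V hVc hVexp
    fun a u hu => ‹V.Normal›.conj_mem u hu _
  have h2 : (centralizer (V : Set X)).comap f = (MonoidHom.fst _ _).ker := by
    rw [hself]
    refine Subgroup.ext fun a => ⟨fun h => Subtype.ext ?_, fun h => ?_⟩
    · exact mem_bot.1 (hGV.disjoint.le_bot ⟨h, a.1.2.1⟩)
    · simp only [f, mem_comap, MonoidHom.comp_apply, MonoidHom.mem_ker.1 h, map_one, one_mem]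
  let K : Subgroup (H × Multiplicative (ZMod p)) := (MonoidHom.snd _ _).ker
  have hK : K.index = p := by
    rw [index_ker, MonoidHom.range_eq_top.2 Prod.snd_surjective, card_top]; simp
  have hLK : (MonoidHom.fst _ _).ker ⊓ K = ⊥ := eq_bot_iff.2 fun a ha => Prod.ext ha.1 ha.2
  rw [h2, index_ker, MonoidHom.range_eq_top.2 Prod.fst_surjective, card_top, Nat.card_prod] at h1
  have h3 : ∀ χ : IrrCharacter X, ((p : ℝ) - 1) * (Nat.card H * Nat.card H) ≤
      ∑ i ∈ Finset.univ.erase (1 : Multiplicative (ZMod p)), ∑ h : H,
        ((centralizer {(h : X)}).relIndex V : ℝ) * ‖χ.1 (h * e i)‖ ^ 2 := fun χ => by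
    have := h1.step_zero (by positivity)
      (fun a => Nat.cast_pos.2 (Nat.pos_of_ne_zero index_ne_zero_of_finite))
      (fun l hl t => by rw [map_mul, show f l = 1 from congrArg Subtype.val hl, one_mul]) hLK
      (by
        rw [← inf_relIndex_right, inf_comm, hLK, relIndex_bot_left, hK,
          ← Nat.mul_left_inj (index_ne_zero_of_finite (H := (MonoidHom.fst H
            (Multiplicative (ZMod p))).ker)), card_mul_index, index_ker,
            MonoidHom.range_eq_top.2 Prod.fst_surjective, card_top, Nat.card_prod, mul_comm]
        simp)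
      (χ.2.isCharacter.comp g).isGen (a := (1, Multiplicative.ofAdd 1))
      (fun h => one_ne_zero (α := ZMod p) (ofAdd_eq_one.1 h))
      (χ.2.isCharacter.ne_zero_of_not_dvd hp (coe_charDegree_irr χ).symm (fun h => hidx
        (h.trans (χ.2.deg_dvd_index_of_comm (coe_charDegree_irr χ).symm V hVc))) (k := 1) (by
          rw [pow_one]; exact hVexp _ (mul_mem (one_mem V) (pow_mem hv _))))
    rw [hK, Finset.sum_filter, Fintype.sum_prod_type_right] at this
    rw [← Finset.filter_ne', Finset.sum_filter]
    rw [show Nat.card (Multiplicative (ZMod p)) = p by simp, Nat.cast_mul] at this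
    refine le_of_mul_le_mul_left ((le_of_eq (by ring)).trans (this.trans (le_of_eq ?_)))
      (Nat.cast_pos.2 hp.pos)
    refine congrArg _ (Finset.sum_congr rfl fun i _ => ?_)
    by_cases hi : i = 1
    · simp [K, hi, mem_prod]
    · simp only [K, hi, MonoidHom.mem_ker, MonoidHom.coe_snd, not_false_eq_true, if_true, ne_eq]
      rfl
  have h4 := Finset.sum_le_sum fun (χ : IrrCharacter X) (_ : χ ∈ Finset.univ) => h3 χ
  rw [Finset.sum_comm] at h4
  replace h4 := h4.trans (Finset.sum_le_card_nsmul _ _ (Nat.card V * (Nat.card H * Nat.card H) : ℝ)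
    fun i hi => (knorr_sum hVexp hG hVc hGV (pow_mem hv _) (fun x => and_congr_right fun _ =>
      ⟨fun h => Commute.pow_right (mem_centralizer_singleton_iff.1 h) _, fun h =>
        mem_centralizer_singleton_iff.2 (mem_centralizer_singleton_iff.1 (mem_of_pow_coprime
          (K := centralizer {x}) (Nat.coprime_of_lt_prime (by
            simpa using Finset.ne_of_mem_erase hi) (ZMod.val_lt _) hp)
          (by rw [hVexp v hv]; exact one_mem _)
          (mem_centralizer_singleton_iff.2 h.symm))).symm⟩) le_rfl).trans (by
      gcongr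
      rw [← Nat.card_eq_fintype_card, card_irr]
      exact Nat.card_le_card_of_surjective _ ConjClasses.mk_surjective))
  rw [Finset.sum_const, Finset.card_univ, ← Nat.card_eq_fintype_card, card_irr,
    Finset.card_erase_of_mem (Finset.mem_univ _), Finset.card_univ, Fintype.card_multiplicative,
    ZMod.card, nsmul_eq_mul, nsmul_eq_mul, Nat.cast_pred hp.pos, mul_left_comm _ (Nat.card V : ℝ),
    mul_le_mul_iff_left₀ (mul_pos (sub_pos.2 (by exact_mod_cast hp.one_lt))
      (by have := Nat.card_pos (α := H); positivity))] at h4
  exact_mod_cast h4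

end Cfsg.Agent.S4958
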