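import Cfsg.Statements.S0621
import Mathlib
import Cfsg.Agent.PLocal.FFModel

set_option autoImplicit false
open Cfsg

namespace Cfsg.Agent.S0621

/-- Let K be p-separable with O_p'(K) = 1, normalized by an elementary abelian q-group X for a prime q not dividing the order of K. If the Thompson factorization fails in K, then p is 2 or 3 and the fixed points of X contain a plane W of order p² and a subgroup inducing SL(2, p) on it. -/
theorem result {G : Type*} [Group G] [Finite G] {p : ℕ} [Fact p.Prime] {q : ℕ} [Fact q.Prime] (K X : Subgroup G) (hXK : X ≤ Subgroup.normalizer (K : Set G)) (hX : Cfsg.IsElementaryAbelian q X) (hq : ¬ q ∣ Nat.card K) (hsep : Cfsg.IsPSolvable p ↥K) (hO : Cfsg.pPrimeCore p ↥K = ⊥) (hnf : ¬ Cfsg.IsThompsonFactorizable p ↥K) : (p = 2 ∨ p = 3) ∧ ∃ W D : Subgroup G, W ≤ K ⊓ Subgroup.centralizer (X : Set G) ∧ D ≤ K ⊓ Subgroup.centralizer (X : Set G) ∧ Cfsg.IsElementaryAbelian p W ∧ Nat.card W = p ^ 2 ∧ D ≤ Subgroup.normalizer (W : Set G) ∧ ∃ hn : ((Subgroup.centralizer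 (W : Set G)).subgroupOf D).Normal, Nonempty ((↥D ⧸ (Subgroup.centralizer (W : Set G)).subgroupOf D) ≃* Matrix.SpecialLinearGroup (Fin 2) (ZMod p)) := by
  have := PLocal.omegaZClosure_characteristic (p := p) (G := K)
  have := PLocal.thompsonSubgroup_characteristic (p := p) (G := K)
  have hV := PLocal.omegaZClosure_isEA (PLocal.centralizer_pCore_le_of_isPSolvable hsep hO)
  have h := PLocal.ffSetup_hol hsep hV PLocal.pCore_quotient_centralizer_omegaZClosure
    (thompsonSubgroup p K)
  have hgen := PLocal.map_thompsonSubgroup_eq_iSup hV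
  have hXq := PLocal.isEA_isPGroup hX
  have hXH := PLocal.range_holOp_le_normalizer hXK (PLocal.omegaZClosure p K)
    (thompsonSubgroup p K)
  have hH := PLocal.map_thompsonSubgroup_ne_bot hnf
  obtain ⟨A, hAH, hA⟩ := h.exists_isMinOffender hgen hH
  obtain ⟨W, hW, hWc, hn, φ, hφ, hker⟩ := h.exists_fixed_sl2
    (hXq.of_surjective _ (MonoidHom.rangeRestrict_surjective _))
    (PLocal.not_dvd_card_map hq _ _) Subgroup.le_normalizer_of_normal hXH
    (hXH.trans (Grp.normalizer_le_normalizer_map_of_characteristic _ _)) hgen hH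
  refine ⟨h.two_or_three hAH hA, ?_⟩
  have hHr := Subgroup.map_le_range (PLocal.holMap (PLocal.omegaZClosure p K))
    (thompsonSubgroup p K)
  clear h hgen hH hA hAH hXH
  generalize PLocal.omegaZClosure p K = V at *
  generalize (thompsonSubgroup p K).map (PLocal.holMap V) = H at *
  let j : V →* G := K.subtype.comp V.subtype
  have hj : Function.Injective j := K.subtype_injective.comp V.subtype_injective
  set D := (H.comap (PLocal.holMap V)).map K.subtype ⊓ Subgroup.centralizer (X : Set G) with hD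
  have hDK : D ≤ K := inf_le_left.trans (Subgroup.map_subtype_le _)
  have hDH : ∀ d : D, PLocal.holMap V (Subgroup.inclusion hDK d) ∈ H := fun d => by
    obtain ⟨k, hk, hkd⟩ := d.2.1
    rwa [show Subgroup.inclusion hDK d = k from Subtype.ext hkd.symm]
  have hDX : ∀ d : D, PLocal.holMap V (Subgroup.inclusion hDK d) ∈
      Subgroup.centralizer ((PLocal.holOp hXK V).range : Set (PLocal.Hol V)) := fun d =>
    PLocal.holMap_mem_centralizer_holOp hXK d.2.2
  refine ⟨(W.comap SemidirectProduct.inl).map j, D, ?_, inf_le_inf_right _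
    (Subgroup.map_subtype_le _), PLocal.isEA_map (PLocal.isEA_comap (PLocal.isEA_mono
      (PLocal.isEA_holV hV) (hW.trans inf_le_left)) SemidirectProduct.inl_injective) _, ?_, ?_,
    PLocal.nonempty_quotient_mulEquiv (φ.comp (((PLocal.holMap V).comp
      (Subgroup.inclusion hDK)).codRestrict H hDH)) (fun t => ?_) ?_⟩
  · rintro _ ⟨v, hv, rfl⟩
    exact ⟨(v : K).2, (PLocal.inl_mem_centralizer_holOp_iff hXK).1 (hW hv).2⟩
  · rw [PLocal.card_map_of_injective _ hj, ← PLocal.card_map_of_injective _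
      (SemidirectProduct.inl_injective (φ := MonoidHom.id (MulAut V))),
      Subgroup.map_comap_eq_self (hW.trans inf_le_left), hWc]
  · intro d hd
    refine Subgroup.mem_normalizer_fintype ?_
    rintro _ ⟨v, hv, rfl⟩
    refine ⟨MulAut.conjNormal (⟨d, hDK hd⟩ : K) v, ?_, rfl⟩
    have h1 := PLocal.conj_mem_of_mem_normalizer' (hn ⟨hDH ⟨d, hd⟩, hDX ⟨d, hd⟩⟩) hv
    rwa [PLocal.holMap, MonoidHom.comp_apply, PLocal.hol_inr_mul_inl, mul_inv_cancel_right] at h1
  · obtain ⟨⟨c, hc⟩, h1, rfl⟩ := hφ t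
    obtain ⟨k, rfl⟩ := hHr hc
    obtain ⟨k', h2, h3⟩ := PLocal.exists_fixed_lift hXK hXq hq h1
    exact ⟨⟨k', ⟨k', show _ ∈ H from h3 ▸ hc, rfl⟩, h2⟩, congrArg φ (Subtype.ext h3)⟩
  · ext d
    rw [MonoidHom.mem_ker, MonoidHom.comp_apply, hker _ (hDX d)]
    refine ⟨?_, fun h w hw => ?_⟩
    · rintro h _ ⟨v, hv, rfl⟩
      exact (congrArg Subtype.val (PLocal.holMap_commute_iff.1 (h _ hv).symm)).symm
    · obtain ⟨v, rfl⟩ := (hW hw).1
      exact (PLocal.holMap_commute_iff.2 (Subtype.ext (h _ ⟨v, hw, rfl⟩).symm)).symm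

end Cfsg.Agent.S0621
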