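import Cfsg.Statements.S0689
import Cfsg.Agent.Perm.RegLin2

set_option autoImplicit false
open Cfsg

namespace Cfsg.Agent.S0689

open Perm.SemiLin in

/-- The insoluble sharply doubly transitive groups: a non-solvable linear group over the prime field that is regular on the non-zero vectors of `V` occurs only for `|V| = 11², 29², 59²`, and is `SL(2,5) × C_m` with `m = 1, 7, 29` respectively. -/
theorem result {p : ℕ} [Fact p.Prime] {V : Type*} [AddCommGroup V] [Module (ZMod p) V] [Finite V] (H : Subgroup (V ≃ₗ[ZMod p] V)) (hreg : ∀ v w : V, v ≠ 0 → w ≠ 0 → ∃! h : H, (h : V ≃ₗ[ZMod p] V) v = w) (hsolv : ¬ Group.IsSolvable H) : (Nat.card V = 121 ∧ Nonempty (H ≃* Matrix.SpecialLinearGroup (Fin 2) (ZMod 5))) ∨ (Nat.card V = 841 ∧ Nonempty (H ≃* Matrix.SpecialLinearGroup (Fin 2) (ZMod 5) × Multiplicative (ZMod 7))) ∨ (Nat.card V = 3481 ∧ Nonempty (H ≃* Matrix.SpecialLinearGroup (Fin 2) (ZMod 5) × Multiplicative (ZMod 29))) := by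
  have := finite_of_subgroup H
  have hn : Nat.card V = p ^ Module.finrank (ZMod p) V := by
    rw [Module.natCard_eq_pow_finrank (K := ZMod p), Nat.card_zmod]
  have hn0 : 0 < Module.finrank (ZMod p) V := by
    rcases subsingleton_or_nontrivial V with h | h
    · have : Subsingleton H := ⟨fun a b => Subtype.ext (Subsingleton.elim _ _)⟩
      exact (hsolv inferInstance).elim
    · exact Module.finrank_pos
  obtain ⟨h1, M, ⟨e⟩, h⟩ := (fpf_ofSubgroup hreg).nonsolvable hsolv (trans_ofSubgroup hreg) hn0 hn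
  rw [h1] at hn
  rcases h with ⟨rfl, h⟩ | ⟨rfl, h⟩ | ⟨rfl, h⟩
  · have := (Nat.card_eq_one_iff_unique.1 h).1
    have : Unique M := uniqueOfSubsingleton 1
    exact Or.inl ⟨hn, ⟨e.trans MulEquiv.prodUnique⟩⟩
  · have : Fact (Nat.Prime 7) := ⟨by norm_num⟩
    exact Or.inr (Or.inl ⟨hn, ⟨e.trans ((MulEquiv.refl _).prodCongr
      (mulEquivOfPrimeCardEq h (by simp)))⟩⟩)
  · have : Fact (Nat.Prime 29) := ⟨by norm_num⟩
    exact Or.inr (Or.inr ⟨hn, ⟨e.trans ((MulEquiv.refl _).prodCongr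
      (mulEquivOfPrimeCardEq h (by simp)))⟩⟩)

end Cfsg.Agent.S0689
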