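import Cfsg.Statements.S4878
import Cfsg.Agent.CTL.Lower
import Cfsg.Agent.S0689
import Cfsg.Agent.S2325
import Cfsg.Agent.S0041
import Cfsg.Agent.Pyr.Lin

set_option autoImplicit false
open Cfsg

namespace Cfsg.Agent.S4878

open Module Subgroup Cfsg.Agent.Perm.SemiLin Cfsg.Agent.CTL Cfsg.Agent.Char

/-- The `p`-regular classes. -/
abbrev RC (p : ℕ) (G : Type*) [Group G] :=
  {c : ConjClasses G // ∃ g : G, ConjClasses.mk g = c ∧ ¬ p ∣ orderOf g}

local notation "SL25" => Matrix.SpecialLinearGroup (Fin 2) (ZMod 5)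

variable {p : ℕ} [hp : Fact p.Prime] {G Q : Type*} [Group G] [Finite G] [Group Q] [Finite Q]

/-- The map on `p`-regular classes. -/
def RC.map (f : G →* Q) (c : RC p G) : RC p Q := ⟨ConjClasses.map f c.1, by
  obtain ⟨_, g, rfl, hg⟩ := c
  exact ⟨f g, rfl, fun h => hg (h.trans (orderOf_map_dvd f g))⟩⟩

omit hp [Finite G] in
theorem card_RC (h : ¬ p ∣ Nat.card G) : Nat.card (RC p G) = Nat.card (ConjClasses G) :=
  Nat.card_congr (Equiv.subtypeUnivEquiv fun c => by
    obtain ⟨g, rfl⟩ := ConjClasses.mk_surjective c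
    exact ⟨g, rfl, fun e => h (e.trans (orderOf_dvd_natCard g))⟩)

theorem card_add_le {f : G →* Q} (hf : Function.Surjective f) (S : Finset (RC p G))
    (hS : ∀ s ∈ S, ∃ g ∈ f.ker, ConjClasses.mk g = s.1) :
    Nat.card (RC p Q) + S.card ≤ Nat.card (RC p G) + 1 := by
  classical
  have := Fintype.ofFinite (RC p G)
  have := Fintype.ofFinite (RC p Q)
  let b : RC p Q := ⟨ConjClasses.mk 1, 1, rfl, by simpa using hp.out.ne_one⟩
  have h1 : Finset.univ.erase b ⊆ (Finset.univ \ S).image (RC.map f) := by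
    rintro ⟨_, q, rfl, hq⟩ hc
    obtain ⟨g, rfl⟩ := hf q
    have h2 : f (Block.pReg p g) = f g := by rw [← Block.pReg_map, Block.pReg_eq_self_iff.2 hq]
    have h3 : RC.map f ⟨_, _, rfl, Block.not_dvd_orderOf_pReg p g⟩ = ⟨_, _, rfl, hq⟩ :=
      Subtype.ext (congrArg ConjClasses.mk h2)
    refine Finset.mem_image.2 ⟨_, Finset.mem_sdiff.2 ⟨Finset.mem_univ _, fun h => ?_⟩, h3⟩
    obtain ⟨k, hk, h4⟩ := hS _ h
    refine Finset.ne_of_mem_erase hc (h3 ▸ Subtype.ext ?_)
    exact (congrArg (ConjClasses.map f) h4.symm).trans (congrArg ConjClasses.mk hk)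
  have h2 := (Finset.card_le_card h1).trans Finset.card_image_le
  have h3 := Finset.card_le_univ S
  rw [Finset.card_erase_of_mem (Finset.mem_univ _), Finset.card_univ_sdiff, Finset.card_univ] at h2
  rw [Nat.card_eq_fintype_card, Nat.card_eq_fintype_card]
  omega

theorem card_RC_le {f : G →* Q} (hf : Function.Surjective f) :
    Nat.card (RC p Q) ≤ Nat.card (RC p G) := by
  simpa using card_add_le hf {(⟨_, 1, rfl, by simpa using hp.out.ne_one⟩ : RC p G)} fun s hs =>
    ⟨1, one_mem _, by rw [Finset.mem_singleton.1 hs]⟩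

theorem gagola {f : G →* Q} (hf : Function.Surjective f)
    (h : Nat.card (ConjClasses G) ≤ Nat.card (ConjClasses Q) + 1) :
    ∃ d, d ^ 2 + Nat.card Q = Nat.card G := by
  classical
  rw [← card_irr, ← card_irr, Nat.card_eq_fintype_card, Nat.card_eq_fintype_card] at h
  let e : IrrCharacter Q ↪ IrrCharacter G := ⟨_, inflateIrr_injective f hf⟩
  rw [← sum_charDegree_sq, ← sum_charDegree_sq (G := G),
    ← Finset.sum_compl_add_sum (Finset.univ.map e), Finset.sum_map]
  have h1 : (Finset.univ.map e)ᶜ.card ≤ 1 := by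
    rw [Finset.card_compl, Finset.card_map, Finset.card_univ]; omega
  have h2 : ∀ ψ, charDegree (e ψ : G → ℂ) = charDegree (ψ : Q → ℂ) := charDegree_inflateIrr f hf
  simp only [h2, add_left_inj]
  obtain ⟨χ, hχ⟩ := Finset.card_le_one_iff_subset_singleton.1 h1
  rcases Finset.subset_singleton_iff.1 hχ with h3 | h3 <;> rw [h3]
  · exact ⟨0, by simp⟩
  · exact ⟨_, (Finset.sum_singleton _ _).symm⟩

theorem card_SL25 : Nat.card SL25 = 120 := by
  rw [Nat.card_eq_fintype_card]; decide +kernel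

theorem conj_SL25 : Nat.card (ConjClasses SL25) = 9 := by
  have f5 : Fact (Nat.Prime 5) := ⟨by norm_num⟩
  exact S2325.result (F := ZMod 5) (by decide)

theorem core {X : Type*} [Group X] [Finite X] (V : Subgroup X) [V.Normal] (hV : V ≠ ⊥)
    (hVexp : ∀ v ∈ V, v ^ p = 1) (hself : centralizer (V : Set X) = V) (G : Subgroup X)
    (hGV : IsComplement' V G) (hG : ¬ p ∣ Nat.card G)
    (htrans : ∀ v ∈ V, ∀ w ∈ V, v ≠ 1 → w ≠ 1 → ∃ g ∈ G, g * v * g⁻¹ = w) :
    p ≤ Nat.card (ConjClasses G) ∨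
      (p - 1 ≤ Nat.card (ConjClasses G) ∧ Nonempty (X ≃* affineGroup (ZMod p))) ∨
      (p = 11 ∧ Nat.card V = 121 ∧ Nonempty (G ≃* SL25) ∧
        ∀ g ∈ G, ∀ v ∈ V, v ≠ 1 → g * v = v * g → g = 1) := by
  have hab : ∀ a ∈ V, ∀ b ∈ V, a * b = b * a := fun a ha b hb => (hself.ge hb) a ha
  have hdis : ∀ g ∈ V, g ∈ G → g = 1 := fun g => disjoint_def.1 hGV.disjoint
  obtain ⟨A, _, _, ι, σ, hι, hadd, hmem, hσ⟩ := Pyr.exists_lin G.subtype (V := V)
    (fun g x hx => Normal.conj_mem inferInstance x hx _) p hab hVexp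
  have h0 : ι 0 = 1 := by simpa using hadd 0 0
  have hιV : ∀ a, ι a ∈ V := fun a => (hmem _).2 ⟨a, rfl⟩
  have hA : Nat.card A = Nat.card V := Nat.card_congr (Equiv.ofBijective
    (fun a => ⟨ι a, hιV a⟩) ⟨fun a b e => hι (Subtype.mk.inj e), fun x => by
      obtain ⟨a, ha⟩ := (hmem _).1 x.2
      exact ⟨a, Subtype.ext ha⟩⟩)
  have : Finite A := Finite.of_injective _ hι
  let ρ : G →* End (ZMod p) A :=
    { toFun := fun g => (σ g : A →ₗ[ZMod p] A), map_one' := by simp; rfl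
      map_mul' := fun a b => by simp }
  have hρ : Function.Injective ρ := (injective_iff_map_eq_one ρ).2 fun g hg =>
    Subtype.ext (hdis g (hself.le fun x hx => by
      obtain ⟨a, rfl⟩ := (hmem _).1 hx
      have h1 := hσ g a
      rw [show σ g a = a from LinearMap.congr_fun hg a, eq_mul_inv_iff_mul_eq] at h1
      exact h1) g.2)
  have ht : Trans ρ := fun a b ha hb => by
    obtain ⟨g, hg, h1⟩ := htrans _ (hιV a) _ (hιV b)
      (fun e => ha (hι (e.trans h0.symm))) fun e => hb (hι (e.trans h0.symm))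
    exact ⟨⟨g, hg⟩, hι ((hσ ⟨g, hg⟩ a).trans h1)⟩
  obtain ⟨n, hn⟩ : ∃ n, Nat.card A = p ^ n :=
    ⟨_, by rw [Module.natCard_eq_pow_finrank (K := ZMod p), Nat.card_zmod]⟩
  have hn0 : n ≠ 0 := by
    rintro rfl
    exact hV (card_eq_one.1 (hA ▸ hn))
  have := nontrivial_of_card (Nat.pos_of_ne_zero hn0) hn
  by_cases hn1 : n = 1
  · subst hn1
    right; left
    let f : ZMod p ≃ₗ[ZMod p] A := LinearEquiv.ofFinrankEq _ _
      (by rw [finrank_eq_of_card hn, finrank_self])
    let c : G → ZMod p := fun g => f.symm (σ g (f 1))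
    have hc : ∀ g x, σ g (f x) = f (c g * x) := fun g x => by
      rw [mul_comm, ← smul_eq_mul, map_smul, f.apply_symm_apply, ← map_smul, ← map_smul,
        smul_eq_mul, mul_one]
    constructor
    · have h1 : Nat.card G ≤ Nat.card (ConjClasses G) :=
        Nat.card_le_card_of_injective ConjClasses.mk fun a b e => by
          obtain ⟨g, rfl⟩ := isConj_iff.1 (ConjClasses.mk_eq_mk_iff_isConj.1 e)
          rw [eq_mul_inv_iff_mul_eq]
          refine hρ (LinearMap.ext fun v => ?_)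
          obtain ⟨x, rfl⟩ := f.surjective v
          change σ (a * g) (f x) = σ (g * a) (f x)
          rw [map_mul, map_mul, LinearEquiv.mul_apply, LinearEquiv.mul_apply, hc, hc, hc, hc,
            mul_left_comm]
      have h2 := Nat.le_of_dvd Nat.card_pos ht.card_dvd
      rw [hn, pow_one] at h2
      exact h2.trans h1
    let e : ZMod p ≃ X ⧸ G := Equiv.ofBijective (fun x => ι (f x)) ⟨fun x y h =>
      f.injective (hι (inv_mul_eq_one.1 (hdis _ (mul_mem (inv_mem (hιV _)) (hιV _))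
        (QuotientGroup.eq.1 h)))), fun q => by
      obtain ⟨g, rfl⟩ := QuotientGroup.mk_surjective q
      obtain ⟨⟨v, h⟩, rfl⟩ := hGV.2 g
      obtain ⟨a, ha⟩ := (hmem _).1 v.2
      exact ⟨f.symm a, by simp [ha]⟩⟩
    let Θ : X →* Equiv.Perm (ZMod p) :=
      (e.symm.permCongrHom : _ →* _).comp (MulAction.toPermHom X (X ⧸ G))
    have hΘ : ∀ (b : ZMod p) (h : G) (x : ZMod p), Θ (ι (f b) * h) x = c h * x + b := by
      intro b h x
      refine e.symm_apply_eq.2 ?_
      change ((ι (f b) * h * ι (f x) : X) : X ⧸ G) = ι (f (c h * x + b))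
      rw [add_comm, map_add, hadd, ← hc, hσ, QuotientGroup.eq]
      simp [mul_assoc]
    have hdec : ∀ g : X, ∃ (b : ZMod p) (h : G), g = ι (f b) * h := fun g => by
      obtain ⟨⟨v, h⟩, rfl⟩ := hGV.2 g
      obtain ⟨a, ha⟩ := (hmem _).1 v.2
      exact ⟨f.symm a, h, by simp [ha]⟩
    have hinj : Function.Injective Θ := (injective_iff_map_eq_one Θ).2 fun g hg => by
      obtain ⟨b, h, rfl⟩ := hdec g
      have h1 : b = 0 := by simpa [hg] using (hΘ b h 0).symm
      have h2 : c h = 1 := by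
        have := hΘ b h 1
        rw [hg] at this
        simpa [h1] using this.symm
      have h3 : h = 1 := hρ (LinearMap.ext fun v => by
        obtain ⟨x, rfl⟩ := f.surjective v
        exact (hc h x).trans (by simp [h2]))
      simp [h1, h3, h0]
    refine ⟨(MonoidHom.ofInjective hinj).trans (MulEquiv.subgroupCongr (le_antisymm ?_ ?_))⟩
    · rintro _ ⟨g, rfl⟩
      obtain ⟨b, h, rfl⟩ := hdec g
      exact ⟨Units.mk0 (c h) (by simp [c]), b, hΘ b h⟩
    · rintro τ ⟨a, b, hτ⟩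
      obtain ⟨h, hh⟩ := ht (f 1) (f a) (by simp) (by simp)
      refine ⟨ι (f b) * h, Equiv.ext fun x => ?_⟩
      rw [hΘ, hτ, show c h = a from f.symm_apply_eq.2 hh]
  rcases lower ht hρ hG (by omega) hn with h | ⟨rfl, rfl, h1, h2⟩
  · exact Or.inl h
  have hreg : ∀ (g : G) (a : A), a ≠ 0 → σ g a = a → g = 1 := fun g a ha hg => by
    let _ : MulAction G A := MulAction.compHom A ρ
    have h3 : MulAction.orbit G a = Set.univ \ {0} := by
      ext w
      refine ⟨?_, fun hw => ht a w ha hw.2⟩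
      rintro ⟨k, rfl⟩
      exact ⟨trivial, fun e => ha ((σ k).map_eq_zero_iff.1 e)⟩
    have h4 := (MulAction.stabilizer G a).index_mul_card
    rw [MulAction.index_stabilizer, h3, Set.ncard_sdiff_singleton_of_mem (Set.mem_univ _),
      Set.ncard_univ, hn, h1] at h4
    exact mem_bot.1 ((card_eq_one.1 (by omega : Nat.card (MulAction.stabilizer G a) = 1)).le hg)
  have hσi : Function.Injective σ := fun a b e => hρ (congrArg LinearEquiv.toLinearMap e)
  let e := MonoidHom.ofInjective hσi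
  refine Or.inr (Or.inr ⟨rfl, hA ▸ hn, ?_, fun g hg v hv hv1 h => ?_⟩)
  · rcases S0689.result σ.range (fun v w hv hw => by
      obtain ⟨g, hg⟩ := ht v w hv hw
      refine ⟨e g, hg, fun k hk => ?_⟩
      obtain ⟨k, rfl⟩ := e.surjective k
      rw [inv_mul_eq_one.1 (hreg (g⁻¹ * k) v hv (by
        rw [map_mul, LinearEquiv.mul_apply, show σ k v = σ g v from hk.trans hg.symm,
          ← LinearEquiv.mul_apply, ← map_mul, inv_mul_cancel, map_one]; rfl))]) (fun _ => h2
      (Group.isSolvable_of_isSolvable_injective (f := e.toMonoidHom) e.injective)) with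
      ⟨-, ⟨e'⟩⟩ | h | h
    · exact ⟨e.trans e'⟩
    · omega
    · omega
  · obtain ⟨a, rfl⟩ := (hmem _).1 hv
    exact Subtype.mk.inj (hreg ⟨g, hg⟩ a (fun e => hv1 (e ▸ h0))
      (hι ((hσ _ a).trans (mul_inv_eq_iff_eq_mul.2 h))))

theorem main0 (hsolv : IsPSolvable p G) (hdiv : p ∣ Nat.card G) (hO : pPrimeCore p G = ⊥)
    (hconj : ∀ x y : G, x ≠ 1 → y ≠ 1 → (∃ k : ℕ, orderOf x = p ^ k) →
      (∃ k : ℕ, orderOf y = p ^ k) → IsConj x y) :
    p ≤ Nat.card (RC p G) ∨
      (p - 1 ≤ Nat.card (RC p G) ∧ Nonempty (G ≃* affineGroup (ZMod p))) ∨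
      (p = 11 ∧ Nat.card (RC p G) = 9 ∧ Nat.card G = 121 * 120 ∧
        (∃ H : Subgroup G, IsFrobeniusComplement H ∧ Nonempty (H ≃* SL25)) ∧
        ∃ π : G →* SL25, Function.Surjective π ∧
          ∀ x ∈ π.ker, x ^ p = 1 ∧ ∀ y ∈ π.ker, x * y = y * x) := by
  set V := pCore p G
  have hC : centralizer (V : Set G) ≤ V := PLocal.centralizer_pCore_le_of_isPSolvable hsolv hO
  have hVp : IsPGroup p V := Grp.pCore_isPGroup p G
  have hV : V ≠ ⊥ := fun h => by
    rw [h, coe_bot, centralizer_eq_top_iff_subset.2 (by simp)] at hC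
    have := card_le_of_le hC
    rw [card_top, card_bot] at this
    have h1 := Nat.le_of_dvd Nat.card_pos hdiv
    have := hp.out.two_le
    omega
  obtain ⟨z, hz⟩ := exists_prime_orderOf_dvd_card' (G := ↥(V ⊓ centralizer (V : Set G))) p
    (prime_dvd_card_center hp.out hVp hV)
  rw [← orderOf_coe] at hz
  have hz1 : (z : G) ≠ 1 := fun e => hp.out.ne_one (by rw [← hz, e, orderOf_one])
  have key : ∀ x : G, (∃ k, orderOf x = p ^ k) → x ∈ V ⊓ centralizer (V : Set G) ∧ x ^ p = 1 := by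
    intro x hx
    by_cases h : x = 1
    · exact ⟨h ▸ one_mem _, by simp [h]⟩
    obtain ⟨g, rfl⟩ := isConj_iff.1 (hconj z x hz1 h ⟨1, by rw [hz, pow_one]⟩ hx)
    exact ⟨Normal.conj_mem inferInstance _ z.2 g, by rw [conj_pow, ← hz, pow_orderOf_eq_one]; simp⟩
  have hVo : ∀ v ∈ V, ∃ k, orderOf v = p ^ k := fun v hv => by
    simpa using IsPGroup.iff_orderOf.1 hVp ⟨v, hv⟩
  have hself : centralizer (V : Set G) = V := le_antisymm hC fun v hv => (key v (hVo v hv)).1.2
  have hidx : ¬ p ∣ V.index := fun h => by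
    obtain ⟨P⟩ : Nonempty (Sylow p G) := inferInstance
    exact P.not_dvd_index (h.trans (index_dvd_of_le fun x hx => (key x (by
      simpa using IsPGroup.iff_orderOf.1 P.isPGroup' ⟨x, hx⟩)).1.1))
  obtain ⟨H, hH⟩ := exists_right_complement'_of_coprime (N := V) (by
    obtain ⟨k, hk⟩ := hVp.exists_card_eq
    exact hk ▸ ((Nat.Prime.coprime_iff_not_dvd hp.out).2 hidx).pow_left k)
  have hHp : ¬ p ∣ Nat.card H := by rwa [← hH.symm.index_eq_card]
  let π : G →* H := hH.symm.QuotientMulEquiv.toMonoidHom.comp (QuotientGroup.mk' V)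
  have hπ : Function.Surjective π :=
    hH.symm.QuotientMulEquiv.surjective.comp (QuotientGroup.mk'_surjective V)
  have h1 := card_RC_le (p := p) hπ
  rw [card_RC hHp] at h1
  rcases core V hV (fun v hv => (key v (hVo v hv)).2) hself H hH hHp fun v hv w hw h2 h3 => by
    obtain ⟨g, rfl⟩ := isConj_iff.1 (hconj v w h2 h3 (hVo v hv) (hVo w hw))
    obtain ⟨⟨h, u⟩, rfl⟩ := hH.symm.2 g
    refine ⟨h, h.2, ?_⟩
    change _ = (h : G) * u * v * ((h : G) * u)⁻¹
    rw [mul_assoc (h : G) u, hself.ge hv u u.2]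
    group
    with h | ⟨h2, h3⟩ | ⟨rfl, h2, ⟨e⟩, h3⟩
  · exact Or.inl (h.trans h1)
  · exact Or.inr (Or.inl ⟨h2.trans h1, h3⟩)
  have hc := Nat.card_congr e.toEquiv
  rw [card_SL25] at hc
  rw [Class.FG.card_conjClasses_congr e, conj_SL25] at h1
  have hdis : ∀ g ∈ V, g ∈ H → g = 1 := fun g => disjoint_def.1 hH.disjoint
  have hk : ∀ x ∈ (e.toMonoidHom.comp π).ker, x ∈ V := fun x hx => (QuotientGroup.eq_one_iff x).1
    ((map_eq_one_iff _ hH.symm.QuotientMulEquiv.injective).1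
      ((map_eq_one_iff e e.injective (x := π x)).1 hx))
  refine Or.inr (Or.inr ⟨rfl, le_antisymm ?_ h1, by rw [← hH.card_mul_card, h2, hc], ⟨H, ⟨?_, ?_, ?_⟩, ⟨e⟩⟩,
    e.toMonoidHom.comp π, e.surjective.comp hπ, fun x hx => ⟨(key x (hVo x (hk x hx))).2, fun y hy =>
      hself.ge (hk y hy) x (hk x hx)⟩⟩)
  · rw [← conj_SL25, ← Class.FG.card_conjClasses_congr e, ← card_RC hHp]
    refine Nat.card_le_card_of_surjective (RC.map H.subtype) ?_
    rintro ⟨_, g, rfl, hg⟩
    obtain ⟨⟨v, h⟩, rfl⟩ := hH.2 g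
    refine ⟨⟨_, h, rfl, fun e => hHp (e.trans (orderOf_dvd_natCard h))⟩,
      Subtype.ext (ConjClasses.mk_eq_mk_iff_isConj.2 (isConj_iff.2 ?_))⟩
    by_cases h4 : (h : G) = 1
    · refine ⟨1, ?_⟩
      obtain ⟨k, hk⟩ := hVo v v.2
      simp only [h4, mul_one, hk] at hg
      rcases k with _ | k
      · simp [orderOf_eq_one_iff.1 hk]
      · exact absurd (dvd_pow_self _ k.succ_ne_zero) hg
    have h5 : Function.Injective fun u : V => (⟨u * (h * u⁻¹ * h⁻¹), mul_mem u.2
        (Normal.conj_mem inferInstance _ (inv_mem u.2) _)⟩ : V) := fun a b e => by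
      by_contra h6
      refine h4 (h3 h h.2 _ (mul_mem (inv_mem b.2) a.2) (fun e => h6 (Subtype.ext
        (inv_mul_eq_one.1 e).symm)) ?_)
      have h7 := Subtype.mk.inj e
      simp only [← mul_assoc, mul_left_inj, coe_inv] at h7
      rw [mul_assoc (b : G)⁻¹, mul_inv_eq_iff_eq_mul.1 h7]; group
    obtain ⟨u, hu⟩ := Finite.surjective_of_injective h5 v
    exact ⟨u, by rw [← hu]; simp [mul_assoc]⟩
  · rintro rfl
    simp at hc
  · intro h
    have := hH.card_mul_card
    rw [h2, ← card_top (G := G), ← h] at this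
    omega
  · intro g hg
    obtain ⟨⟨v, h⟩, rfl⟩ := hH.2 g
    rw [eq_bot_iff]
    rintro _ ⟨hx, y, hy, rfl⟩
    have h4 := mul_mem (mul_mem h.2 hy) (inv_mem h.2)
    change (v : G) * h * y * ((v : G) * h)⁻¹ ∈ H at hx
    change (v : G) * h * y * ((v : G) * h)⁻¹ = 1
    rw [show (v : G) * h * y * ((v : G) * h)⁻¹ = v * (h * y * (h : G)⁻¹) * (v : G)⁻¹ by group] at hx ⊢
    generalize h * y * (h : G)⁻¹ = x at h4 hx
    have h5 := hdis _ (mul_mem v.2 (Normal.conj_mem inferInstance _ (inv_mem v.2) x))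
      (by simpa only [mul_assoc] using mul_mem hx (inv_mem h4))
    rw [h3 x h4 v v.2 (fun e => hg (by simp [e])) (by
      rw [← mul_assoc, mul_inv_eq_one, ← mul_assoc, mul_inv_eq_iff_eq_mul] at h5
      exact h5.symm)]
    simp

/-- Let p be a prime and G a finite p-solvable group of order divisible by p in which all non-identity p-elements are conjugate. Then G has at least p conjugacy classes of p-regular elements; or G has exactly p − 1 of them and is isomorphic to the one-dimensional affine group over the field with p elements; or p = 11, G has exactly 9 of them, G has order 121·120 and G is a Frobenius group whose complement is isomorphic to SL(2,5). -/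
theorem result {G : Type*} [Group G] [Finite G] (p : ℕ) [Fact p.Prime] (hsolv : Cfsg.IsPSolvable p G) (hdiv : p ∣ Nat.card G) (hconj : ∀ x y : G, x ≠ 1 → y ≠ 1 → (∃ k : ℕ, orderOf x = p ^ k) → (∃ k : ℕ, orderOf y = p ^ k) → IsConj x y) : p ≤ Nat.card {c : ConjClasses G // ∃ g : G, ConjClasses.mk g = c ∧ ¬ p ∣ orderOf g} ∨ (Nat.card {c : ConjClasses G // ∃ g : G, ConjClasses.mk g = c ∧ ¬ p ∣ orderOf g} = p - 1 ∧ Nonempty (G ≃* ↥(Cfsg.affineGroup (ZMod p)))) ∨ (p = 11 ∧ Nat.card {c : ConjClasses G // ∃ g : G, ConjClasses.mk g = c ∧ ¬ p ∣ orderOf g} = 9 ∧ (Nat.card G = 121 * 120 ∧ ∃ H : Subgroup G, Cfsg.IsFrobeniusComplement H ∧ Nonempty (↥H ≃* Matrix.SpecialLinearGroup (Fin 2) (ZMod 5)))) := by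
  change p ≤ Nat.card (RC p G) ∨ (Nat.card (RC p G) = _ ∧ _) ∨ (_ ∧ Nat.card (RC p G) = _ ∧ _)
  by_cases hO : pPrimeCore p G = ⊥
  · rcases main0 hsolv hdiv hO hconj with h | ⟨h1, h2⟩ | ⟨h1, h2, h3, h4, -⟩
    · exact Or.inl h
    · exact (le_or_gt p _).imp_right fun h => Or.inl ⟨by omega, h2⟩
    · exact Or.inr (Or.inr ⟨h1, h2, h3, h4⟩)
  left
  set N := pPrimeCore p G
  have hN : ¬ p ∣ Nat.card N := (Nat.Prime.coprime_iff_not_dvd Fact.out).1 (Grp.pPrimeCore_coprime p G).symm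
  have hNo : ∀ n ∈ N, ¬ p ∣ orderOf n := fun n hn h => hN (h.trans (orderOf_dvd_natCard N hn))
  have hf := QuotientGroup.mk'_surjective N
  have hGN := card_eq_card_quotient_mul_card_subgroup N
  have hS : ∀ S : Finset N, (∀ a ∈ S, ∀ b ∈ S, IsConj (a : G) b → a = b) →
      Nat.card (RC p (G ⧸ N)) + S.card ≤ Nat.card (RC p G) + 1 := fun S h => by
    classical
    rw [← Finset.card_image_of_injOn (f := fun a : N => (⟨_, a, rfl, hNo a a.2⟩ : RC p G))
      fun a ha b hb e => h a ha b hb (ConjClasses.mk_eq_mk_iff_isConj.1 (Subtype.mk.inj e))]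
    refine card_add_le hf _ fun s hs => ?_
    obtain ⟨a, -, rfl⟩ := Finset.mem_image.1 hs
    exact ⟨a, (QuotientGroup.eq_one_iff _).2 a.2, rfl⟩
  obtain ⟨n, hn1⟩ := ne_bot_iff_exists_ne_one.1 hO
  classical
  have h1 := hS {1, n} (by simp [eq_comm])
  rw [Finset.card_pair hn1.symm] at h1
  rcases main0 (PLocal.IsPSolvable.quotient hsolv N) (((Nat.Prime.dvd_mul Fact.out).1
    (hGN ▸ hdiv)).resolve_right hN) (Grp.pPrimeCore_quotient_pPrimeCore p G) fun x y hx hy h2 h3 => by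
      obtain ⟨x, rfl⟩ := hf x
      obtain ⟨y, rfl⟩ := hf y
      rw [← Block.pPart_eq_self_iff.2 h2, Block.pPart_map] at hx ⊢
      rw [← Block.pPart_eq_self_iff.2 h3, Block.pPart_map] at hy ⊢
      exact MonoidHom.map_isConj _ (hconj _ _ (fun e => hx (by rw [e, map_one]))
        (fun e => hy (by rw [e, map_one])) (Block.orderOf_pPart p x)
        (Block.orderOf_pPart p y))
    with h | ⟨h, -⟩ | ⟨rfl, h2, h3, -, π, hπ, hK⟩
  · omega
  · omega
  by_contra h10
  have htr : ∀ a ∈ N, ∀ b ∈ N, a ≠ 1 → b ≠ 1 → IsConj a b := fun a ha b hb h4 h5 => by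
    by_contra h6
    have h7 : a ≠ b := fun e => h6 (e ▸ IsConj.refl a)
    have h8 := hS {1, ⟨a, ha⟩, ⟨b, hb⟩} (by
      simp [-isConj_iff, h4, h5, h6, mt IsConj.symm h6])
    rw [show ({1, ⟨a, ha⟩, ⟨b, hb⟩} : Finset N).card = 3 from Finset.card_eq_three.2 ⟨_, _, _,
      fun e => h4 (Subtype.mk.inj e).symm, fun e => h5 (Subtype.mk.inj e).symm, by simp [h7], rfl⟩] at h8
    omega
  obtain ⟨r, hr, hrN⟩ := Nat.exists_prime_and_dvd (mt card_eq_one.1 hO)
  have := Fact.mk hr
  have hr11 : r ≠ 11 := fun e => hN (e ▸ hrN)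
  obtain ⟨m, hm⟩ := exists_prime_orderOf_dvd_card' (G := N) r hrN
  rw [← orderOf_coe] at hm
  have hexp : ∀ a ∈ N, a ^ r = 1 := fun a ha => by
    by_cases h : a = 1
    · simp [h]
    obtain ⟨g, rfl⟩ := isConj_iff.1 (htr m m.2 a ha (fun e => hr.ne_one (by rw [← hm, e, orderOf_one])) h)
    rw [conj_pow, ← hm, pow_orderOf_eq_one]; simp
  have hab : N ≤ centralizer (N : Set G) := fun a ha => by
    have h4 : IsPGroup r N := fun a => ⟨1, Subtype.ext (by simpa using hexp a a.2)⟩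
    obtain ⟨z, hz⟩ := ne_bot_iff_exists_ne_one.1 (show N ⊓ centralizer (N : Set G) ≠ ⊥ from fun e =>
      hr.ne_one (by simpa [e] using prime_dvd_card_center hr h4 hO))
    by_cases h : a = 1
    · exact h ▸ one_mem _
    obtain ⟨g, rfl⟩ := isConj_iff.1 (htr z z.2.1 a ha (fun e => hz (Subtype.ext e)) h)
    exact Normal.conj_mem inferInstance _ z.2.2 g
  obtain ⟨P⟩ : Nonempty (Sylow 11 G) := inferInstance
  let ψ := π.comp (QuotientGroup.mk' N)
  have hψ : Function.Surjective ψ := hπ.comp hf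
  have hPo : ∀ x ∈ (P : Subgroup G), ∃ k, orderOf x = 11 ^ k := fun x hx => by
    simpa using IsPGroup.iff_orderOf.1 P.isPGroup' ⟨x, hx⟩
  have hPK : (P : Subgroup G) ≤ ψ.ker := fun x hx => by
    obtain ⟨k, hk⟩ := hPo x hx
    exact orderOf_eq_one_iff.1 (Nat.eq_one_of_dvd_coprimes ((by norm_num : Nat.Coprime 11 120).pow_left k)
      (hk ▸ orderOf_map_dvd ψ x) (card_SL25 ▸ orderOf_dvd_natCard _))
  have hPN : ∀ x ∈ (P : Subgroup G), QuotientGroup.mk' N x = 1 → x = 1 := fun x hx h => by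
    obtain ⟨_ | k, hk⟩ := hPo x hx
    · exact orderOf_eq_one_iff.1 hk
    · exact absurd (hk ▸ dvd_pow_self _ k.succ_ne_zero) (hNo x ((QuotientGroup.eq_one_iff x).1 h))
  have hP : Nat.card P = 121 := by
    rw [P.card_eq_multiplicity, hGN, h3, mul_assoc, Nat.factorization_mul (by norm_num)
      (mul_ne_zero (by norm_num) Nat.card_pos.ne'), show 121 = 11 ^ 2 from rfl,
      Nat.Prime.factorization_pow Fact.out, Finsupp.add_apply,
      Nat.factorization_eq_zero_of_not_dvd (fun h => hN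
        (((Nat.Prime.dvd_mul Fact.out).1 h).resolve_left (by norm_num)))]
    simp
  obtain ⟨a, ha, ha1, hac⟩ : ∃ a ∈ (P : Subgroup G), a ≠ 1 ∧ N ⊓ centralizer {a} ≠ ⊥ := by
    by_contra! h
    have : IsMulCommutative N := ⟨⟨fun a b => Subtype.ext (hab b.2 a a.2)⟩⟩
    obtain ⟨x, hx⟩ := (S0041.result P N hO le_normalizer_of_normal h (Or.inr
      ⟨11, 11, Fact.out, Fact.out, hP⟩)).exists_ofOrder_eq_natCard
    have h4 := orderOf_dvd_of_pow_eq_one (hPN _ (pow_mem x.2 11)
      ((map_pow _ _ _).trans (hK _ (hPK x.2)).1))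
    rw [orderOf_coe, hx, hP] at h4
    norm_num at h4
  have haC : a ∈ centralizer (N : Set G) := by
    obtain ⟨A, _, _, ι, σ, hι, hadd, hmem, hσ⟩ := Pyr.exists_lin (MonoidHom.id G) (V := N)
      (fun g x hx => Normal.conj_mem inferInstance x hx _) r (fun x hx y hy => hab hy x hx) hexp
    have h0 : ι 0 = 1 := by simpa using hadd 0 0
    have hιN : ∀ a, ι a ∈ N := fun a => (hmem _).2 ⟨a, rfl⟩
    have : Finite A := Finite.of_injective _ hι
    have hker : ∀ g, g ∈ σ.ker ↔ g ∈ centralizer (N : Set G) := fun g => by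
      refine ⟨fun h x hx => ?_, fun h => LinearEquiv.ext fun v => hι ((hσ g v).trans ?_)⟩
      · obtain ⟨v, rfl⟩ := (hmem _).1 hx
        have h4 := hσ g v
        rwa [show σ g v = v from LinearEquiv.congr_fun h v, eq_mul_inv_iff_mul_eq] at h4
      · exact mul_inv_eq_iff_eq_mul.2 (h _ (hιN v)).symm
    let ρ : G ⧸ σ.ker →* End (ZMod r) A :=
      LinearEquiv.automorphismGroup.toLinearMapMonoidHom.comp (QuotientGroup.kerLift σ)
    have ht : Trans ρ := fun v w hv hw => by
      obtain ⟨g, hg⟩ := isConj_iff.1 (htr _ (hιN v) _ (hιN w) (fun e => hv (hι (e.trans h0.symm)))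
        fun e => hw (hι (e.trans h0.symm)))
      exact ⟨g, hι ((hσ g v).trans hg)⟩
    obtain ⟨u, hu⟩ := ne_bot_iff_exists_ne_one.1 hac
    obtain ⟨v, hv⟩ := (hmem _).1 u.2.1
    have : (ψ.ker.map (QuotientGroup.mk' σ.ker)).Normal :=
      Normal.map inferInstance _ (QuotientGroup.mk'_surjective _)
    refine (hker a).1 ((QuotientGroup.eq_one_iff a).1 (ht.semireg
      (LinearEquiv.toLinearMap_injective.comp (QuotientGroup.kerLift_injective σ))
      (A := ψ.ker.map (QuotientGroup.mk' σ.ker)) ?_ ⟨a, hPK ha, rfl⟩ (fun h => ?_) (v := v)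
      (fun e => hu (Subtype.ext (by rw [← hv, e, h0]; rfl))) (hι ((hσ a v).trans ?_))))
    · rintro _ ⟨x, hx, rfl⟩ _ ⟨y, hy, rfl⟩
      rw [← map_mul, ← map_mul]
      exact QuotientGroup.eq.2 ((hker _).2 (hab (QuotientGroup.eq.1 ((hK _ hx).2 _ hy))))
    · obtain ⟨k, hk⟩ := hPo a ha
      exact hr11 ((Nat.prime_dvd_prime_iff_eq hr Fact.out).1 (hr.dvd_of_dvd_pow
        (hk ▸ h.trans (orderOf_map_dvd (QuotientGroup.mk' σ.ker) a))))
    · rw [hv]
      exact mul_inv_eq_iff_eq_mul.2 (u.2.2 a rfl)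
  have hPC : (P : Subgroup G) ≤ centralizer (N : Set G) := fun x hx => by
    by_cases h : x = 1
    · exact h ▸ one_mem _
    obtain ⟨g, rfl⟩ := isConj_iff.1 (hconj a x ha1 h (hPo a ha) (hPo x hx))
    exact Normal.conj_mem inferInstance _ haC g
  have hKP : ψ.ker ≤ (P : Subgroup G) ⊔ N := by
    have h4 : IsPGroup 11 π.ker := fun x => ⟨1, Subtype.ext (by simpa using (hK x x.2).1)⟩
    have h5 := comap_mono (f := QuotientGroup.mk' N) (h4.le_sylow_of_normal (P.mapSurjective hf))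
    rwa [Sylow.coe_mapSurjective, comap_map_eq, QuotientGroup.ker_mk'] at h5
  have hPn : (P : Subgroup G).Normal := by
    rw [← normalizer_eq_top_iff, eq_top_iff, ← P.normalizer_sup_eq_top' hPK]
    exact sup_le le_rfl (hKP.trans (sup_le le_normalizer
      ((le_centralizer_iff.1 hPC).trans (centralizer_le_normalizer _))))
  have hKC := hKP.trans (sup_le hPC hab)
  have h4 := card_RC_le (p := 11) (QuotientGroup.mk'_surjective (P : Subgroup G))
  rw [card_RC P.not_dvd_index] at h4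
  obtain ⟨d, hd⟩ := gagola (QuotientGroup.lift_surjective_of_surjective _ ψ hψ hPK)
    (by rw [conj_SL25]; omega)
  have h5 := card_eq_card_quotient_mul_card_subgroup (P : Subgroup G)
  have h6 : Nat.card N - 1 ∣ 120 := by
    have h7 : MulAction.orbit (ConjAct G) (n : G) = (N : Set G) \ {1} := by
      ext w
      rw [ConjAct.mem_orbit_conjAct]
      refine ⟨fun h => ?_, fun hw => htr w hw.1 n n.2 hw.2 (by simpa using hn1)⟩
      obtain ⟨g, rfl⟩ := isConj_iff.1 h.symm
      exact ⟨Normal.conj_mem inferInstance _ n.2 g, by simpa using hn1⟩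
    have h8 := MulAction.index_stabilizer (ConjAct G) (n : G)
    rw [h7, Set.ncard_sdiff_singleton_of_mem N.one_mem, ConjAct.stabilizer_eq_centralizer] at h8
    rw [← card_SL25, ← card_top (G := SL25), ← MonoidHom.range_eq_top.2 hψ, ← index_ker]
    exact h8 ▸ index_dvd_of_le (hKC.trans (centralizer_le (Set.singleton_subset_iff.2 n.2)))
  have h7 : ∀ m ≤ 120, ∀ d ≤ 120, m ∣ 120 → d ^ 2 = 120 * m → m = 30 ∨ m = 120 := by decide +kernel
  have h8 := Nat.le_of_dvd (by norm_num) h6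
  rw [card_SL25] at hd
  rw [hP, hGN, h3] at h5
  have h9 : d ^ 2 = 120 * (Nat.card N - 1) := by omega
  have h11 : Nat.card N = 31 := by
    have := h7 _ h8 d (by nlinarith) h6 h9
    omega
  have f31 : Fact (Nat.Prime 31) := ⟨by norm_num⟩
  have := isCyclic_of_prime_card h11
  let φ := (IsCyclic.mulAutMulEquiv N).toMonoidHom.comp (MulAut.conjNormal (H := N))
  have h12 : ∀ g, g ∈ φ.ker ↔ g ∈ centralizer (N : Set G) := fun g => by
    rw [MonoidHom.mem_ker, MonoidHom.comp_apply, MulEquiv.coe_toMonoidHom,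
      map_eq_one_iff _ (MulEquiv.injective _)]
    exact ⟨fun h x hx => eq_mul_inv_iff_mul_eq.1 (congrArg Subtype.val
      (MulEquiv.congr_fun h ⟨x, hx⟩)).symm, fun h => MulEquiv.ext fun x => Subtype.ext
        (mul_inv_eq_iff_eq_mul.2 (h x x.2).symm)⟩
  have h13 : centralizer (N : Set G) = ⊤ := by
    have h14 := comap_map_eq ψ (commutator G)
    rw [map_commutator_eq, MonoidHom.range_eq_top.2 hψ, ← _root_.commutator_def,
      Matrix.SL2.commutator_eq_top (a := 2) (by decide) (by decide), comap_top] at h14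
    exact eq_top_iff.2 (h14.le.trans (sup_le (fun g hg => (h12 g).1
      (Abelianization.commutator_subset_ker φ hg)) hKC))
  have h14 : (N : Set G) ⊆ {1, (n : G)} := fun w hw => by
    by_cases h : w = 1
    · exact Or.inl h
    obtain ⟨g, rfl⟩ := isConj_iff.1 (htr n n.2 w hw (by simpa using hn1) h)
    exact Or.inr (mul_inv_eq_iff_eq_mul.2 (h13.ge (mem_top g) n n.2).symm)
  have h15 : Nat.card N ≤ _ := (Set.ncard_le_ncard h14).trans (Set.ncard_insert_le _ _)
  simp at h15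
  omega

end Cfsg.Agent.S4878
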