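import Cfsg.Statements.S0018
import Cfsg.Agent.Grp.Fitting

set_option autoImplicit false
open Cfsg

namespace Cfsg.Agent.S0018

/-- A finite solvable group whose Sylow p-subgroups are abelian has p-length one: a Sylow p-subgroup together with the largest normal subgroup of order prime to p generates a normal subgroup. -/
theorem result {G : Type*} [Group G] [Finite G] [Group.IsSolvable G]
    (p : ℕ) [Fact p.Prime] (P : Sylow p G) (hP : IsMulCommutative P) :
    ((P : Subgroup G) ⊔ Cfsg.pPrimeCore p G).Normal := by
  let f := QuotientGroup.mk' (pPrimeCore p G)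
  have hf : Function.Surjective f := QuotientGroup.mk'_surjective _
  have h1 : pCore p (G ⧸ pPrimeCore p G) ≤ (P : Subgroup G).map f :=
    Grp.pCore_le_sylow (P.mapSurjective hf)
  have h2 : (P : Subgroup G).map f ≤ pCore p (G ⧸ pPrimeCore p G) := by
    refine le_trans ?_ (Grp.centralizer_pCore_le (Grp.pPrimeCore_quotient_pPrimeCore p G))
    refine le_trans ?_ (Subgroup.centralizer_le h1)
    have : IsMulCommutative (P : Subgroup G) := hP
    exact Subgroup.le_centralizer _
  have h3 : ((P : Subgroup G).map f).Normal := by
    rw [le_antisymm h2 h1]; infer_instance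
  have h4 := h3.comap f
  rwa [Subgroup.comap_map_eq, QuotientGroup.ker_mk'] at h4

end Cfsg.Agent.S0018
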