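import Cfsg.Statements.S0094
import Mathlib
import Cfsg.Agent.Grp.Extraspecial

set_option autoImplicit false
open Cfsg

namespace Cfsg.Agent.S0094

open scoped commutatorElement

/-- In a special p-group every central element has order dividing p. -/
theorem result {P : Type*} [Group P] [Finite P] {p : ℕ} [Fact p.Prime] (h : Cfsg.IsSpecial p P) (z : P) (hz : z ∈ Subgroup.center P) : z ^ p = 1 := by
  obtain ⟨hP, hF, hc⟩ := h
  have hcomm : ∀ a b c : P, Commute c ⁅a, b⁆ := fun a b c =>
    Subgroup.mem_center_iff.mp (hc ▸ Subgroup.commutator_mem_commutator trivial trivial) c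
  rw [← hc] at hz
  rw [commutator_eq_closure] at hz
  induction hz using Subgroup.closure_induction with
  | mem x hx =>
    obtain ⟨a, b, rfl⟩ := hx
    rw [← Grp.ES.comm_pow_left (hcomm a b a), commutatorElement_eq_one_iff_mul_comm]
    exact (Subgroup.mem_center_iff.mp (hF ▸ Grp.PFrattini.pow_mem_frattini hP a) b).symm
  | one => simp
  | mul x y hx hy ihx ihy =>
    rw [← commutator_eq_closure, hc] at hy
    rw [Commute.mul_pow (Subgroup.mem_center_iff.mp hy x), ihx, ihy, one_mul]
  | inv x hx ih => rw [inv_pow, ih, inv_one]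

end Cfsg.Agent.S0094
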