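import Cfsg.Statements.S0221
import Mathlib
import Cfsg.Agent.Inv.NormalFour
import Cfsg.Agent.S0111

set_option autoImplicit false
open Cfsg

namespace Cfsg.Agent.S0221

/-- Let G be a finite group with no subgroup of index 2 whose 2-rank is at least 3 (it contains an elementary abelian subgroup of order 8). Then the centralizer of every involution of G also contains an elementary abelian subgroup of order 8. -/
theorem result {G : Type*} [Group G] [Finite G] (hno : ∀ H : Subgroup G, H.index ≠ 2) (hrank : ∃ E : Subgroup G, Nat.card E = 8 ∧ ∀ e ∈ E, e ^ 2 = 1) (x : G) (hx : orderOf x = 2) : ∃ E : Subgroup G, E ≤ Subgroup.centralizer ({x} : Set G) ∧ Nat.card E = 8 ∧ ∀ e ∈ E, e ^ 2 = 1 := by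
  obtain ⟨E, hE, hE2⟩ := hrank
  have hEp : IsPGroup 2 E := IsPGroup.of_card (n := 3) hE
  obtain ⟨T, hT⟩ := hEp.exists_le_sylow
  obtain ⟨U, hUn, hU⟩ := Inv.exists_normal_kleinFour T.isPGroup'
    (E := E.subgroupOf T) (by rw [← hE]; exact Nat.card_congr (Subgroup.subgroupOfEquivOfLe hT).toEquiv)
    (fun e he => Subtype.ext (hE2 e he))
  set V : Subgroup G := U.map (T : Subgroup G).subtype with hVdef
  have hV : IsKleinFour V :=
    (Misc.isKleinFour_map_of_injective _ (Subgroup.subtype_injective _)).2 hU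
  set Q : Subgroup G := (T : Subgroup G) ⊓ Subgroup.centralizer (V : Set G) with hQdef
  have hQi : Q.relIndex T ≤ 2 := by
    have h1 := Grp.PChain.index_centralizer_le_of_card_sq T.isPGroup' U hU.card_four
    refine le_of_eq_of_le ?_ h1
    rw [hQdef, Subgroup.inf_relIndex_left, Subgroup.relIndex]
    congr 1
    ext y
    simp only [Subgroup.mem_subgroupOf, Subgroup.mem_centralizer_iff]
    constructor
    · intro h u hu
      exact Subtype.ext (h u ⟨u, hu, rfl⟩)
    · rintro h _ ⟨u, hu, rfl⟩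
      exact congrArg Subtype.val (h u hu)
  have hQ : ∃ g : G, g * x * g⁻¹ ∈ Q := by
    obtain ⟨g, hg⟩ := Inv.exists_conj_involution_mem_sylow T hx
    by_cases hgQ : g * x * g⁻¹ ∈ Q
    · exact ⟨g, hgQ⟩
    · have h1 : Q.relIndex T ≠ 1 := fun h => hgQ (Subgroup.relIndex_eq_one.1 h hg)
      have h0 : Q.relIndex T ≠ 0 := Subgroup.index_ne_zero_of_finite
      rcases S0111.result T Q inf_le_left (by omega) _ (by rw [Inv.orderOf_conj, hx]) hg hgQ with
        ⟨M, -, hM, -⟩ | ⟨k, hk⟩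
      · exact absurd hM (hno M)
      · exact ⟨k * g, by simpa [mul_assoc] using hk⟩
  obtain ⟨g, hg⟩ := hQ
  set y := g * x * g⁻¹ with hydef
  have hy : orderOf y = 2 := by rw [hydef, Inv.orderOf_conj, hx]
  have hf : ∃ f ∈ Q, f ∉ V ∧ f * f = 1 ∧ f * y = y * f := by
    by_cases hyV : y ∈ V
    · have h1 : 4 ≤ Nat.card ↥(Q ⊓ E) := by
        have e1 := Q.relIndex_le_of_le_right hT Subgroup.index_ne_zero_of_finite
        have e2 := Grp.card_mul_relIndex (inf_le_right : Q ⊓ E ≤ E)
        rw [Subgroup.inf_relIndex_right, hE] at e2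
        nlinarith
      by_cases h2 : Q ⊓ E ≤ V
      · exfalso
        have h3 : Q ⊓ E = V := Subgroup.eq_of_le_of_card_ge h2 (by rw [hV.card_four]; exact h1)
        have h4 : E ≤ Q := le_inf hT fun e he v hv =>
          Misc.comm_of_sq hE2 v ((h3 ▸ inf_le_right : V ≤ E) hv) e he
        rw [inf_eq_right.2 h4] at h3
        have := hV.card_four
        rw [← h3, hE] at this
        omega
      · obtain ⟨f, hf, hfV⟩ := SetLike.not_le_iff_exists.1 h2
        exact ⟨f, hf.1, hfV, by rw [← sq]; exact hE2 f hf.2, (hf.1.2 y hyV).symm⟩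
    · exact ⟨y, hg, hyV, Inv.mul_self_of_orderOf_two hy, rfl⟩
  obtain ⟨f, hfQ, hfV, hff, hfy⟩ := hf
  have hfc : ∀ a ∈ V, f * a = a * f := fun a ha => (hfQ.2 a ha).symm
  have hF : V ⊔ Subgroup.zpowers f ≤ Subgroup.centralizer {y} := by
    refine sup_le (fun v hv => ?_) ?_
    · exact Subgroup.mem_centralizer_singleton_iff.2 (hg.2 v hv)
    · rw [Subgroup.zpowers_le]
      exact Subgroup.mem_centralizer_singleton_iff.2 hfy
  refine ⟨(V ⊔ Subgroup.zpowers f).map (MulAut.conj g⁻¹).toMonoidHom, ?_, ?_, ?_⟩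
  · rintro _ ⟨a, ha, rfl⟩
    have := Subgroup.mem_centralizer_singleton_iff.1 (hF ha)
    rw [Subgroup.mem_centralizer_singleton_iff]
    change g⁻¹ * a * g⁻¹⁻¹ * x = x * (g⁻¹ * a * g⁻¹⁻¹)
    calc g⁻¹ * a * g⁻¹⁻¹ * x = g⁻¹ * (a * y) * g := by rw [hydef]; group
      _ = _ := by rw [this, hydef]; group
  · rw [Subgroup.card_map_of_injective (MulAut.conj g⁻¹).injective,
      Misc.card_sup_zpowers_two hff hfV (Misc.mem_normalizer_of_comm hfc), hV.card_four]
  · rintro _ ⟨a, ha, rfl⟩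
    rw [← map_pow, Misc.sq_eq_one_sup_zpowers (Misc.isKleinFour_iff.1 hV).2 hff hfc a ha, map_one]

end Cfsg.Agent.S0221
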