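import Cfsg.Statements.S0322
import Cfsg.Agent.Chev.BN

set_option autoImplicit false
open Cfsg

namespace Cfsg.Agent.S0322

/-- A group with a (B,N)-pair of rank one acts doubly transitively on the left cosets of `B`. -/
theorem result {G : Type*} [Group G] (P : Cfsg.BNPair G) (h : P.rank = 1) : MulAction.IsMultiplyPretransitive G (G ⧸ P.B) 2 := by
  obtain ⟨s, hs⟩ := Nat.card_eq_one_iff_exists.mp h
  have hW : ∀ w : Chev.BN.W P, w = 1 ∨ w = Chev.BN.gen P s := by
    intro w
    obtain ⟨l, rfl⟩ := Chev.BN.involGen.exists_word w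
    induction l with
    | nil => exact Or.inl rfl
    | cons a t ih =>
      rw [Chev.wprod_cons, hs a]
      rcases ih with h1 | h1 <;> rw [h1] <;> simp [Chev.BN.gen_sq]
  have hc : ∀ g : G, g ∉ P.B → g ∈ Chev.BN.cell P (Chev.BN.gen P s) := by
    intro g hg
    obtain ⟨w, hw⟩ := Chev.BN.exists_cell (P := P) g
    rcases hW w with rfl | rfl
    · exact absurd (Chev.BN.mem_cell_one.mp hw) hg
    · exact hw
  rw [MulAction.is_two_pretransitive_iff]
  intro a b c d hab hcd
  obtain ⟨a, rfl⟩ := QuotientGroup.mk_surjective a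
  obtain ⟨b, rfl⟩ := QuotientGroup.mk_surjective b
  obtain ⟨c, rfl⟩ := QuotientGroup.mk_surjective c
  obtain ⟨d, rfl⟩ := QuotientGroup.mk_surjective d
  rw [Ne, QuotientGroup.eq] at hab hcd
  obtain ⟨x, hx, y, hy, e⟩ := Chev.BN.exists_mul_of_mem_cell (hc _ hab) (hc _ hcd)
  refine ⟨c * x * a⁻¹, ?_, ?_⟩
  · rw [MulAction.Quotient.smul_mk, QuotientGroup.eq]
    simpa using hx
  · rw [MulAction.Quotient.smul_mk, QuotientGroup.eq]
    have : (c * x * a⁻¹ * b)⁻¹ * d = y := by
      have : d = c * (x * (a⁻¹ * b) * y) := by rw [← e]; group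
      rw [this]; group
    rw [smul_eq_mul, this]; exact hy

end Cfsg.Agent.S0322
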