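import Mathlib
import Cfsg.Statements.S0347
import Cfsg.Agent.Suz.ZassSetup
import Cfsg.Agent.Suz.Zass
-- import your own Cfsg.Agent.* helpers here

set_option autoImplicit false
open Cfsg

namespace Cfsg.Agent.S0347

open MulAction RankOne Suz

/-- If in a finite simple Zassenhaus group the stabiliser of a point `x` has a normal `2`-subgroup `U` which is
non-abelian and acts regularly on the points other than `x`, then the group is simple of Suzuki order (order-level
predicate `IsSuzuki`). -/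
theorem result {G Ω : Type*} [Group G] [Finite G] [MulAction G Ω] [Finite Ω]
    (hZ : Cfsg.IsZassenhausGroup G Ω) [IsSimpleGroup G]
    (x : Ω) (U : Subgroup G) (hUle : U ≤ MulAction.stabilizer G x) (hUn : (U.subgroupOf (MulAction.stabilizer G x)).Normal)
    (hU2 : IsPGroup 2 U) (hUna : ∃ u v : U, u * v ≠ v * u)
    (hreg : ∀ y z : Ω, y ≠ x → z ≠ x → ∃! u : U, (u : G) • y = z) :
    Cfsg.IsSuzuki G := by
  obtain ⟨b, hab⟩ := Perm.Zass.exists_ne hZ x
  have hUn' : ∀ h ∈ stabilizer G x, ∀ u ∈ U, h * u * h⁻¹ ∈ U := fun h hh u hu =>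
    hUn.conj_mem ⟨u, hUle hu⟩ hu ⟨h, hh⟩
  obtain ⟨t, ht, rfl⟩ := zass_exists_t hZ U hUle hreg hU2 hab
  have hS := zass_setup hZ U hUle hUn' hreg hU2 ht hab.symm
  have h := zass_hyp hZ inferInstance hS
  obtain ⟨n, hn, hq⟩ := q0_eq_pow hS h.rank
  rcases h.zass inferInstance (zass_VV hZ hS) with hL | ⟨hL, h3⟩
  · exfalso
    obtain ⟨u, v, e⟩ := hUna
    exact e (Subtype.ext (invol_central hS h.rank u.2 (hL.1 u u.2) v.2))
  have hodd : Odd n := by
    by_contra hodd
    obtain ⟨k, rfl⟩ := Nat.not_odd_iff_even.mp hodd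
    apply h3
    rw [hq, ← two_mul, pow_mul]
    simpa using Nat.sub_dvd_pow_sub_pow 4 1 k
  obtain ⟨m, rfl⟩ := hodd
  refine ⟨inferInstance, m, by omega, ?_⟩
  have := zass_card_D hZ hS
  rw [hq] at this
  rw [card_G hS, hL.2.2.2.1, hq, Nat.eq_sub_of_add_eq this]
  ring

end Cfsg.Agent.S0347
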