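import Cfsg.Statements.S0340
import Mathlib
import Cfsg.Agent.Perm.ZassEven
import Cfsg.Agent.S0885
import Cfsg.Agent.S0347

set_option autoImplicit false
open Cfsg

namespace Cfsg.Agent.S0340



/-- Classification of Zassenhaus groups, simple case, order-level form: a finite simple Zassenhaus group is
isomorphic to `PSL₂(F)` for some finite field `F` or is simple of Suzuki order. -/
theorem result {G Ω : Type*} [Group G] [Finite G] [MulAction G Ω]
    [Finite Ω] (hZ : Cfsg.IsZassenhausGroup G Ω) [IsSimpleGroup G] :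
    (∃ (F : Type) (_ : Field F) (_ : Fintype F), Nonempty (G ≃* Matrix.ProjectiveSpecialLinearGroup (Fin 2) F)) ∨ Cfsg.IsSuzuki G := by
  have := Fintype.ofFinite Ω
  obtain ⟨a, b, hab⟩ := Perm.Zass.exists_pair hZ
  have h4 := Perm.Zass.four_le_card hZ
  rcases Nat.even_or_odd (Nat.card ↥(MulAction.stabilizer G a ⊓ MulAction.stabilizer G b))
    with h | h
  · obtain ⟨F, _, _, -, h3⟩ := Perm.ZassPSL.psl_of_simple hZ hab
      (Perm.ZassPSL.two_mul_card_of_simple hZ hab h)
    exact Or.inl ⟨F, inferInstance, inferInstance, h3⟩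
  obtain ⟨U, hU⟩ := Perm.Zass.exists_isKer hZ a
  have h1 := hU.card hZ
  rcases S0885.result hZ hab (Nat.card Ω - 1) _ (by rw [← Nat.card_eq_fintype_card]; omega) rfl
    h U hU.le (by rw [← Nat.card_eq_fintype_card]; omega)
    (fun u hu h c hc => hU.fix hu h hc) with h2 | ⟨h2, h3, -⟩
  · left
    obtain ⟨m, hm⟩ := Perm.Zass.card_two_dvd hZ hab
    have h5 : m ≤ 2 := by
      refine Nat.le_of_mul_le_mul_left ?_
        (lt_of_lt_of_le two_pos (Perm.Zass.two_le_card_two hZ hab))
      omega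
    interval_cases m
    · omega
    · obtain ⟨F, _, _, -, h3⟩ := Perm.ZassPSL.psl_of_sharp_odd hZ (by
        obtain ⟨k, hk⟩ := h
        exact ⟨k + 1, by omega⟩) hab (by omega)
      exact ⟨F, inferInstance, inferInstance, h3⟩
    · obtain ⟨F, _, _, -, h3⟩ := Perm.ZassPSL.psl_of_simple hZ hab (by omega)
      exact ⟨F, inferInstance, inferInstance, h3⟩
  · refine Or.inr (S0347.result hZ a U hU.le hU.normal_subgroupOf h2 h3 fun y z hy hz => ?_)
    obtain ⟨u, hu, h5⟩ := hU.exists_smul_eq hZ hy hz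
    refine ⟨⟨u, hu⟩, h5, fun v hv => Subtype.ext ?_⟩
    have := hU.eq_one (U.mul_mem (U.inv_mem hu) v.2) hy (by rw [mul_smul, hv, ← h5, inv_smul_smul])
    exact (inv_mul_eq_one.mp this).symm

end Cfsg.Agent.S0340
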