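import Mathlib
import Cfsg.Statements.S0349
import Cfsg.Agent.Suz.KSMain
import Cfsg.Agent.S0322
import Cfsg.Agent.Suz.Bruhat
-- import your own Cfsg.Agent.* helpers here

set_option autoImplicit false
open Cfsg

namespace Cfsg.Agent.S0349

open MulAction RankOne Suz

/-- Let a finite simple group have a (B,N)-pair of rank one which is strongly split (`B = U (B ⊓ N)` with `U` nilpotent,
normal in `B` and meeting `N` trivially), with `[G : B]` and `|B ⊓ N|` odd. Then the group is isomorphic to `PSL₂(F)` with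
`|F|` a power of `2`, or is simple of Suzuki order, or is isomorphic to `PSU₃` realised over a field with `q²` elements,
`q = 2^n`, `n ≥ 2`. -/
theorem result {G : Type*} [Group G] [Finite G] [IsSimpleGroup G]
    (P : Cfsg.BNPair G) (hrank : P.rank = 1) (U : Subgroup G) (hUB : U ≤ P.B)
    (hUn : (U.subgroupOf P.B).Normal) (hUnil : Group.IsNilpotent U) (hsplit : U ⊔ (P.B ⊓ P.N) = P.B)
    (hdisj : U ⊓ P.N = ⊥) (hind : Odd P.B.index) (hH : Odd (Nat.card ↥(P.B ⊓ P.N))) :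
    (∃ (F : Type) (_ : Field F) (_ : Fintype F), (∃ n : ℕ, Fintype.card F = 2 ^ n) ∧ Nonempty (G ≃* Matrix.ProjectiveSpecialLinearGroup (Fin 2) F)) ∨
      Cfsg.IsSuzuki G ∨
      (∃ (F : Type) (_ : Field F) (_ : Fintype F) (n : ℕ), 2 ≤ n ∧ Fintype.card F = (2 ^ n) ^ 2 ∧
        Nonempty (G ≃* Cfsg.PSU 3 F (2 ^ n))) := by
  obtain ⟨⟨s, hs⟩, -⟩ := Nat.card_eq_one_iff_exists.mp hrank
  have hsN : s ∈ P.N := P.subset hs
  have hsB : s ∉ P.B := Chev.BN.not_mem_B ⟨s, hs⟩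
  have hss : s * s ∈ P.B ⊓ P.N := ⟨P.sq_mem s hs, mul_mem hsN hsN⟩
  obtain ⟨m, hm⟩ := odd_orderOf_of_mem hH hss
  have ht : s * (s * s) ^ m * (s * (s * s) ^ m) = 1 := by
    rw [← pow_orderOf_eq_one (s * s), hm, ← pow_two s, ← pow_mul, ← pow_mul, ← pow_succ', ← pow_add]
    congr 1
    ring
  set t := s * (s * s) ^ m with htd
  have htN : t ∈ P.N := mul_mem hsN (pow_mem hss.2 m)
  have htB : t ∉ P.B := fun h => hsB (by simpa [htd] using mul_mem h (inv_mem (pow_mem hss.1 m)))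
  have hst : stabilizer G ((1 : G) : G ⧸ P.B) = P.B := stabilizer_quotient P.B
  have hUn' : ∀ h ∈ P.B, ∀ u ∈ U, h * u * h⁻¹ ∈ U := fun h hh u hu => hUn.conj_mem ⟨u, hUB hu⟩ hu ⟨h, hh⟩
  have hS : IsRankOneSetup G (G ⧸ P.B) ((1 : G) : G ⧸ P.B) t U := by
    refine KS.setup_of_nilpotent inferInstance (S0322.result P hrank) ht (fun e => htB (hst ▸ e)) U
      (P.B ⊓ P.N) (hst.symm ▸ hUB) (hst.symm ▸ hUn') hUnil ?_ hH ?_ (hst.symm ▸ hind)
    · intro k hk
      refine ⟨hst.symm ▸ hk.1, ?_⟩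
      have : t⁻¹ * k * t⁻¹⁻¹ ∈ stabilizer G ((1 : G) : G ⧸ P.B) :=
        hst.symm ▸ P.conj_mem _ (inv_mem htN) k hk
      rw [mem_stabilizer_iff, inv_inv, mul_smul, mul_smul, inv_smul_eq_iff] at this
      exact this
    · intro g hg
      have hg' : g ∈ P.B := hst ▸ hg
      rw [← hsplit] at hg'
      exact (mem_sup_of_conj fun k hk u hu => by simpa using hUn' k⁻¹ (inv_mem hk.1) u hu).mp hg'
  rcases suzuki_of_simple hS inferInstance with ⟨F, i1, i2, ⟨n, -, hF⟩, e⟩ | h | h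
  · exact Or.inl ⟨F, i1, i2, ⟨n, hF⟩, e⟩
  · exact Or.inr (Or.inl (isSuzuki_of_isoSuzuki inferInstance h))
  · exact Or.inr (Or.inr h)

end Cfsg.Agent.S0349
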