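import Cfsg.Statements.S0437
import Mathlib
import Cfsg.Agent.S0436

set_option autoImplicit false
open Cfsg

namespace Cfsg.Agent.S0437



/-- For three distinct, pairwise commuting members a, b, c of a set of 3-transpositions E, a member e of E centralises a * b * c if and only if it centralises each of a, b and c. -/
theorem result {G : Type*} [Group G] {E : Set G} (hE : Cfsg.IsThreeTranspositionSet E) {a b c e : G} (ha : a ∈ E) (hb : b ∈ E) (hc : c ∈ E) (he : e ∈ E) (hab : a ≠ b) (hac : a ≠ c) (hbc : b ≠ c) (h₁ : Commute a b) (h₂ : Commute a c) (h₃ : Commute b c) : Commute e (a * b * c) ↔ (Commute e a ∧ Commute e b ∧ Commute e c) := by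
  refine ⟨fun h => ?_, fun h => (h.1.mul_right h.2.1).mul_right h.2.2⟩
  have ha2 := S0436.sq_one hE ha
  have hb2 := S0436.sq_one hE hb
  have hc2 := S0436.sq_one hE hc
  have he2 := S0436.sq_one hE he
  have kc : Commute e c → Commute e a ∧ Commute e b ∧ Commute e c := fun h' => by
    have := h.mul_right h'
    rw [mul_assoc, hc2, mul_one] at this
    have := (S0436.result hE ha hb he hab h₁).1 this
    exact ⟨this.1, this.2, h'⟩
  have ka : Commute e a → Commute e a ∧ Commute e b ∧ Commute e c := fun h' => by
    have := h'.mul_right h
    rw [← mul_assoc, ← mul_assoc, ha2, one_mul] at this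
    have := (S0436.result hE hb hc he hbc h₃).1 this
    exact ⟨h', this.1, this.2⟩
  have kb : Commute e b → Commute e a ∧ Commute e b ∧ Commute e c := fun h' => by
    have := h'.mul_right h
    rw [h₁.eq, ← mul_assoc, ← mul_assoc, hb2, one_mul] at this
    have := (S0436.result hE ha hc he hac h₂).1 this
    exact ⟨this.1, h', this.2⟩
  rcases S0436.commute_or_braid hE he ha with h1 | h1
  · exact ka h1
  rcases S0436.commute_or_braid hE he hb with h2 | h2
  · exact kb h2
  rcases S0436.commute_or_braid hE he hc with h3 | h3
  · exact kc h3
  apply ka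
  have ie : e⁻¹ = e := inv_eq_of_mul_eq_one_right he2
  have ia : a⁻¹ = a := inv_eq_of_mul_eq_one_right ha2
  have ib : b⁻¹ = b := inv_eq_of_mul_eq_one_right hb2
  have ic : c⁻¹ = c := inv_eq_of_mul_eq_one_right hc2
  have h4 : (e * a * e) * (e * b * e) * (e * c * e) = a * b * c := by
    calc (e * a * e) * (e * b * e) * (e * c * e) = e * a * (e * e) * b * (e * e) * c * e := by group
      _ = (e * (a * b * c)) * e := by rw [he2]; group
      _ = a * b * c * (e * e) := by rw [h.eq]; group
      _ = a * b * c := by rw [he2, mul_one]
  rw [h1, h2, h3] at h4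
  have h5 : e * (a * b * e * b * c) * e = b := by
    have : a * (e * (a * b * e * b * c) * e) * c = a * b * c := by
      simpa only [mul_assoc] using h4
    exact mul_left_cancel (mul_right_cancel this)
  have h6 : a * (b * e * b) * c = b * e * b := by
    rw [← h2]
    calc a * (e * b * e) * c = a * (b * e * b) * c := by rw [h2]
      _ = (e * e) * (a * b * e * b * c) * (e * e) := by rw [he2]; group
      _ = e * (e * (a * b * e * b * c) * e) * e := by group
      _ = e * b * e := by rw [h5]
  -- f = b e b conjugates c to a
  have h7 : a = (b * e * b) * c * (b * e * b) := by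
    have hf : (b * e * b) * (b * e * b) = 1 := by
      calc (b * e * b) * (b * e * b) = b * e * (b * b) * e * b := by group
        _ = b * (e * e) * b := by rw [hb2]; group
        _ = 1 := by rw [he2, mul_one, hb2]
    calc a = a * ((b * e * b) * (c * c) * (b * e * b)) := by rw [hc2, mul_one, hf, mul_one]
      _ = (a * (b * e * b) * c) * c * (b * e * b) := by group
      _ = _ := by rw [h6]
  have h8 : a = c * (b * e * b) * c := by
    calc a = (b * e * b) * c * (b * e * b) := h7
      _ = b * e * (b * c) * b * e * b := by group
      _ = b * e * (c * (b * b)) * e * b := by rw [h₃.eq]; group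
      _ = b * (e * c * e) * b := by rw [hb2]; group
      _ = (b * c) * e * (c * b) := by rw [h3]; group
      _ = (c * b) * e * (b * c) := by rw [h₃.eq]
      _ = _ := by group
  have h9 : b * e * b = a := by
    calc b * e * b = (c * c) * (b * e * b) * (c * c) := by rw [hc2]; group
      _ = c * (c * (b * e * b) * c) * c := by group
      _ = c * a * c := by rw [← h8]
      _ = a * (c * c) := by rw [← h₂.eq]; group
      _ = a := by rw [hc2, mul_one]
  have h10 : e = a := by
    calc e = (b * b) * e * (b * b) := by rw [hb2]; group
      _ = b * (b * e * b) * b := by group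
      _ = b * a * b := by rw [h9]
      _ = a * (b * b) := by rw [← h₁.eq]; group
      _ = a := by rw [hb2, mul_one]
  rw [h10]

end Cfsg.Agent.S0437
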