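import Cfsg.Statements.S0447
import Cfsg.Agent.Perm.AltMult
import Cfsg.Agent.Perm.AltCover

set_option autoImplicit false
open Cfsg

namespace Cfsg.Agent.S0447

open Cfsg.Agent.AltCover Cfsg.Agent.KSG Subgroup Equiv

theorem part1 (n : ℕ) (H : Type) [Group H] (hn : n ≤ 7)
    (h : Cfsg.IsNonsplitDoubleCover H (alternatingGroup (Fin n))) (x : H) (hx : orderOf x = 2) :
    x ∈ center H := by
  obtain ⟨hZ, ⟨e⟩, hns⟩ := h
  let π : H →* alternatingGroup (Fin n) := e.toMonoidHom.comp (QuotientGroup.mk' _)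
  have hk : π.ker = center H := by
    ext x
    simp [π, MonoidHom.mem_ker]
  have hs : Function.Surjective π := e.surjective.comp (QuotientGroup.mk'_surjective _)
  have hz2 : ∀ z ∈ center H, z * z = 1 := fun z hz => by
    have := pow_card_eq_one' (x := (⟨z, hz⟩ : center H))
    rw [hZ, pow_two] at this
    exact congrArg Subtype.val this
  by_contra hxc
  have hx1 : π x ≠ 1 := fun h => hxc (hk ▸ h)
  have hxx : x * x = 1 := by rw [← pow_two, ← hx, pow_orderOf_eq_one]
  have hπx : orderOf (π x) = 2 := orderOf_eq_prime (by rw [pow_two, ← map_mul, hxx, map_one]) hx1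
  have hinv : ∀ y : H, π y ≠ 1 → π y * π y = 1 → y * y = 1 := by
    intro y h1 h2
    obtain ⟨g, hg⟩ := isConj_iff.1 (isConj_of_orderOf_two (by simpa using hn) hπx
      (orderOf_eq_prime (by rw [pow_two, h2]) h1))
    obtain ⟨g, rfl⟩ := hs g
    have h3 : (g * x * g⁻¹)⁻¹ * y ∈ center H := by
      rw [← hk, MonoidHom.mem_ker, map_mul, map_inv, map_mul, map_mul, map_inv, hg, inv_mul_cancel]
    have h4 := hz2 _ h3
    have h5 := mem_center_iff.1 h3 (g * x * g⁻¹)
    calc y * y = (g * x * g⁻¹) * ((g * x * g⁻¹)⁻¹ * y * (g * x * g⁻¹)) * ((g * x * g⁻¹)⁻¹ * y) := by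
          group
      _ = g * (x * x) * g⁻¹ * (((g * x * g⁻¹)⁻¹ * y) * ((g * x * g⁻¹)⁻¹ * y)) := by
          rw [← h5]; group
      _ = 1 := by rw [hxx, h4]; group
  obtain ⟨u, hu⟩ : ∃ u, (π x : Perm (Fin n)) u ≠ u := by
    by_contra h; push Not at h; exact hx1 (Subtype.ext (Equiv.ext h))
  set v := (π x : Perm (Fin n)) u
  have huv : u ≠ v := hu.symm
  have hl : ∀ j, ∃ y : H, j ≠ u → j ≠ v → (π y : Perm (Fin n)) = c3 j u v ∧ y * y * y = 1 := by
    intro j
    by_cases h : j = u
    · exact ⟨1, fun h' => absurd h h'⟩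
    obtain ⟨y, hy⟩ := hs ⟨c3 j u v, c3_mem_alternatingGroup h huv⟩
    refine ⟨y * (y * y * y), fun h1 h2 => ?_⟩
    have hK : y * y * y ∈ π.ker := Subtype.ext (by
      simp only [map_mul, hy, Subgroup.coe_mul]
      exact c3_carm_three huv h1 h2)
    refine ⟨by rw [map_mul, MonoidHom.mem_ker.1 hK, mul_one, hy], ?_⟩
    have := hz2 _ (hk ▸ hK)
    calc _ = (y * y * y * (y * y * y)) * (y * y * y * (y * y * y)) := by group
      _ = 1 := by rw [this, one_mul]
  choose y hy using hl
  obtain ⟨φ, hφ⟩ := exists_section π huv y (fun j h1 h2 => (hy j h1 h2).1)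
    (fun j h1 h2 => (hy j h1 h2).2) (fun i j h1 h2 h3 h4 h5 => hinv _ (fun h => by
      have := congrArg Subtype.val h
      rw [map_mul, Subgroup.coe_mul, (hy i h1 h2).1, (hy j h3 h4).1, c3_rotate h1 h2 huv,
        c3_rotate h3 h4 huv] at this
      exact c3_mul_c3_ne_one huv h1.symm h2.symm h3.symm this) (Subtype.ext (by
      simp only [map_mul, Subgroup.coe_mul, (hy i h1 h2).1, (hy j h3 h4).1]
      exact c3_carm_two huv h1 h2 h3 h4 h5)))
  refine hns φ.range (isComplement'_of_disjoint_and_mul_eq_univ ?_ ?_)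
  · rw [disjoint_def]
    rintro _ h1 ⟨a, rfl⟩
    rw [← hk, MonoidHom.mem_ker, hφ] at h1
    rw [h1, map_one]
  · rw [Set.eq_univ_iff_forall]
    intro g
    exact ⟨g * (φ (π g))⁻¹, by rw [← hk]; simp [MonoidHom.mem_ker, hφ], φ (π g), ⟨_, rfl⟩, by simp⟩

theorem center_cov : center (Cov (Fin 8)) = (projA (Fin 8)).ker := by
  apply le_antisymm
  · intro g hg
    have : projA _ g ∈ center (alternatingGroup (Fin 8)) := by
      rw [mem_center_iff]
      intro a
      obtain ⟨a, rfl⟩ := projA_surjective a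
      rw [← map_mul, ← map_mul, mem_center_iff.1 hg]
    rwa [alternatingGroup.center_eq_bot (by simp), mem_bot] at this
  · rw [ker_projA, zpowers_le]; exact zA_mem_center

theorem comm {a b c d e f : Fin 8} (h : a ≠ b) (h' : c ≠ d) (h'' : e ≠ f) (h1 : a ≠ c) (h2 : a ≠ d)
    (h3 : b ≠ c) (h4 : b ≠ d) (k1 : a ≠ e) (k2 : a ≠ f) (k3 : b ≠ e) (k4 : b ≠ f) :
    Commute (tt h) (tt h' * tt h'') := by
  show tt h * (tt h' * tt h'') = tt h' * tt h'' * tt h
  rw [← mul_assoc, tt_anti h h' h1 h2 h3 h4, mul_assoc, mul_assoc, tt_anti h h'' k1 k2 k3 k4,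
    ← mul_assoc (tt h'), zz_comm, mul_assoc (zz _), ← mul_assoc (zz _), zz_mul_zz, one_mul,
    mul_assoc]



/-- Involutions in double covers of alternating groups: for n ≤ 7, a finite non-split double cover of the alternating group of degree n has exactly one element of order 2 (the central one); for degree 8 there is a non-split double cover with two distinct involutions. -/
theorem result : (∀ (n : ℕ) (H : Type) (_ : Group H) (_ : Finite H), n ≤ 7 → Cfsg.IsNonsplitDoubleCover H (alternatingGroup (Fin n)) → ∀ x y : H, orderOf x = 2 → orderOf y = 2 → x = y) ∧ ∃ (H : Type) (_ : Group H) (_ : Finite H), Cfsg.IsNonsplitDoubleCover H (alternatingGroup (Fin 8)) ∧ ∃ x y : H, x ≠ y ∧ orderOf x = 2 ∧ orderOf y = 2 := by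
  refine ⟨fun n H _ _ hn h x y hx hy => ?_, Cov (Fin 8), inferInstance, inferInstance, ⟨?_, ⟨?_⟩, ?_⟩, ?_⟩
  · obtain ⟨z, -, hz⟩ := (Nat.card_eq_two_iff' (1 : center H)).1 h.1
    have h1 := hz ⟨x, part1 n H hn h x hx⟩ fun e => by
      rw [show x = 1 from congrArg Subtype.val e] at hx; simp at hx
    have h2 := hz ⟨y, part1 n H hn h y hy⟩ fun e => by
      rw [show y = 1 from congrArg Subtype.val e] at hy; simp at hy
    exact congrArg Subtype.val (h1.trans h2.symm)
  · rw [center_cov, ker_projA, Nat.card_zpowers, orderOf_zA]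
  · exact (QuotientGroup.quotientMulEquivOfEq center_cov).trans
      (QuotientGroup.quotientKerEquivOfSurjective _ projA_surjective)
  · intro L hL
    obtain ⟨g, hg⟩ := projA_surjective (α := Fin 8) ⟨swap 0 1 * swap 2 3, by simp [Perm.mem_alternatingGroup]⟩
    obtain ⟨⟨z, l⟩, rfl⟩ := hL.2 g
    have h1 : projA _ (z : Cov (Fin 8)) = 1 := (center_cov ▸ z.2 : (z : Cov (Fin 8)) ∈ (projA (Fin 8)).ker)
    simp only [map_mul, h1, one_mul] at hg
    have h2 := sq_of_doubleA (by decide) (by decide) (by decide) (by decide) (by decide) (by decide)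
      (congrArg Subtype.val hg)
    exact zA_ne_one (disjoint_def.1 hL.disjoint zA_mem_center (h2 ▸ L.mul_mem l.2 l.2))
  · have h01 : (0 : Fin 8) ≠ 1 := by decide
    have h23 : (2 : Fin 8) ≠ 3 := by decide
    have h45 : (4 : Fin 8) ≠ 5 := by decide
    have h67 : (6 : Fin 8) ≠ 7 := by decide
    have c1 := comm h01 h45 h67 (by decide) (by decide) (by decide) (by decide) (by decide)
      (by decide) (by decide) (by decide)
    have c2 := comm h23 h45 h67 (by decide) (by decide) (by decide) (by decide) (by decide)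
      (by decide) (by decide) (by decide)
    have h1 := tt_tt_sq h01 h23 (by decide) (by decide) (by decide) (by decide)
    have h2 := tt_tt_sq h45 h67 (by decide) (by decide) (by decide) (by decide)
    let g : Cov (Fin 8) := ⟨tt h01 * tt h23 * (tt h45 * tt h67), by
      simp [mem_comap, proj_tt, Perm.mem_alternatingGroup]⟩
    have hne : projA _ g ≠ 1 := fun h => by
      have := congrArg (fun x : alternatingGroup (Fin 8) => (x : Perm (Fin 8)) 0) h
      simp only [coe_projA, g, map_mul, proj_tt] at this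
      revert this; decide
    refine ⟨g, zA _, fun h => hne (h ▸ projA_zA), orderOf_eq_prime (Subtype.ext ?_)
      (fun h => hne (h ▸ map_one _)), orderOf_zA⟩
    show (tt h01 * tt h23 * (tt h45 * tt h67)) ^ 2 = 1
    rw [(c1.mul_left c2).mul_pow, pow_two, pow_two, h1, h2, zz_mul_zz]

end Cfsg.Agent.S0447
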