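import Cfsg.Statements.S0451
import Cfsg.Agent.He5.Main
import Cfsg.Agent.S0242
import Cfsg.Agent.S0364
import Cfsg.Agent.Spor.He.Model

set_option autoImplicit false
open Cfsg

namespace Cfsg.Agent.S0451

theorem aux {G H A B : Type*} [Group G] [Group H] [Group A] [Group B] (a : G ≃* A) (b : H ≃* B)
    {m n : ℕ} (h1 : Nat.card A = m) (h2 : Nat.card B = n) (h : Nat.card G = Nat.card H) : m = n := by
  rw [← h1, ← h2, ← Nat.card_congr a.toEquiv, ← Nat.card_congr b.toEquiv, h]

/-- With s a transvection of SL(5, 2): two finite simple groups of equal order, each possessing an involution whose centraliser is isomorphic to the centraliser of s, are isomorphic. -/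
theorem result {G H : Type*} [Group G] [Finite G] [IsSimpleGroup G] [Group H] [Finite H] [IsSimpleGroup H] (s : Matrix.SpecialLinearGroup (Fin 5) (ZMod 2)) (hs : (s : Matrix (Fin 5) (Fin 5) (ZMod 2)) = Matrix.transvection 0 1 1) (j : G) (k : H) (hj : orderOf j = 2) (hk : orderOf k = 2) (e : Subgroup.centralizer ({j} : Set G) ≃* Subgroup.centralizer ({s} : Set (Matrix.SpecialLinearGroup (Fin 5) (ZMod 2)))) (f : Subgroup.centralizer ({k} : Set H) ≃* Subgroup.centralizer ({s} : Set (Matrix.SpecialLinearGroup (Fin 5) (ZMod 2)))) (hcard : Nat.card G = Nat.card H) : Nonempty (G ≃* H) := by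
  have c1 : Nat.card He5.SL5 = 9999360 := by
    have := S0242.result (F := ZMod 2) (ZMod.card 2) 5 (by norm_num)
    rw [Fin.prod_univ_five, show 2 - 1 = 1 from rfl, one_mul] at this
    exact this.trans (by decide)
  have c2 := S0364.result
  have c3 := Spor.HeC.M.card
  rcases He5.held s hs hj e with ⟨⟨a⟩⟩ | ⟨⟨a⟩⟩ | ⟨⟨a⟩⟩ <;>
    rcases He5.held s hs hk f with ⟨⟨b⟩⟩ | ⟨⟨b⟩⟩ | ⟨⟨b⟩⟩
  · exact ⟨a.trans b.symm⟩
  · exact absurd (aux a b c1 c2 hcard) (by decide)
  · exact absurd (aux a b c1 c3 hcard) (by decide)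
  · exact absurd (aux a b c2 c1 hcard) (by decide)
  · exact ⟨a.trans b.symm⟩
  · exact absurd (aux a b c2 c3 hcard) (by decide)
  · exact absurd (aux a b c3 c1 hcard) (by decide)
  · exact absurd (aux a b c3 c2 hcard) (by decide)
  · exact ⟨a.trans b.symm⟩


end Cfsg.Agent.S0451
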