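import Cfsg.Statements.S0472
import Cfsg.Agent.Spor.Fi.Cover23

set_option autoImplicit false
open Cfsg

namespace Cfsg.Agent.S0472

open Cfsg.Agent.Comp.BN
open Cfsg.Agent.Spor.FiC.M23

/-- The Fischer group of order 4089470473293004800 exists as a 3-transposition group: a simple group of that order generated by a conjugacy class of 31671 3-transpositions, the centraliser of each being a non-split double cover of a simple group of order 64561751654400. -/
theorem result : ∃ (G : Type) (_ : Group G) (_ : Finite G), Cfsg.IsFi23 G ∧ ∃ D : Set G, Cfsg.IsThreeTranspositionClass D ∧ Nat.card D = 31671 ∧ ∀ d ∈ D, ∃ (K : Type) (_ : Group K), Cfsg.IsFi22 K ∧ Cfsg.IsNonsplitDoubleCover (Subgroup.centralizer ({d} : Set G)) K := by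
  refine ⟨Spor.Fi23, inferInstance, model.fin, ⟨simple, card⟩, _, trans.1, trans.2, fun d hd => ?_⟩
  obtain ⟨e⟩ := centralizer_equiv hd
  refine ⟨Spor.Fi22, inferInstance, ⟨Spor.FiC.M22.simple, Spor.FiC.M22.card⟩, nonsplit_congr e (MulEquiv.refl _) ?_⟩
  rw [cent, ← hstab]; exact cover22

end Cfsg.Agent.S0472
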