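import Cfsg.Statements.S0473
import Cfsg.Agent.Spor.Fi.Subs24

set_option autoImplicit false
open Cfsg

namespace Cfsg.Agent.S0473

open Cfsg.Agent.Comp.BN
open Cfsg.Agent.Spor.FiC
open Cfsg.Agent.Spor.FiC.M24

/-- The largest Fischer 3-transposition group: a group of order 2 · 1255205709190661721292800 generated by a conjugacy class of 306936 3-transpositions, in which a transposition centraliser has order 2 · 4089470473293004800 and contains a simple subgroup of order 4089470473293004800; its subgroup of index 2 is simple and contains simple subgroups of orders 4089470473293004800 and 4030387200. -/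
theorem result : ∃ (G : Type) (_ : Group G) (_ : Finite G), Nat.card G = 2 * 1255205709190661721292800 ∧ ∃ D : Set G, Cfsg.IsThreeTranspositionClass D ∧ Nat.card D = 306936 ∧ (∀ d ∈ D, Nat.card (Subgroup.centralizer ({d} : Set G)) = 2 * 4089470473293004800 ∧ ∃ K : Subgroup G, K ≤ Subgroup.centralizer ({d} : Set G) ∧ Cfsg.IsFi23 K) ∧ ∃ H : Subgroup G, H.index = 2 ∧ Cfsg.IsFi24' H ∧ (∃ K : Subgroup H, Cfsg.IsFi23 K) ∧ (∃ K : Subgroup H, Cfsg.IsHe K) := by
  have h23 := isFi23.1
  have hHe := isHe.1
  have hc : Nat.card (Subgroup.centralizer {ev L24.x [0]}) = 2 * 4089470473293004800 := by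
    rw [cent]; exact card_of_index card (model.index_stab orb0) (by norm_num)
  have l1 := (le_commutator_of_simple _ isFi23.2 (by norm_num)).trans commE.le
  have l2 := (le_commutator_of_simple _ isHe.2 (by norm_num)).trans commE.le
  have e1 := Subgroup.subgroupOfEquivOfLe l1
  have e2 := Subgroup.subgroupOfEquivOfLe l2
  refine ⟨Cfsg.Spor.Fi24, inferInstance, model.fin, card.trans (by norm_num), _, transA.1, transA.2, fun d hd => ?_,
    _, even.1, ⟨simpleE, cardE⟩, ⟨_, e1.isSimpleGroup, (Nat.card_congr e1.toEquiv).trans isFi23.2⟩,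
    ⟨_, e2.isSimpleGroup, (Nat.card_congr e2.toEquiv).trans isHe.2⟩⟩
  obtain ⟨e⟩ := centralizer_equiv hd
  obtain ⟨u, hu⟩ := centralizer_conj hd
  have e3 := (MulAut.conj u).subgroupMap (gen (subT L24.x f23W))
  exact ⟨(Nat.card_congr e.toEquiv).symm.trans hc, _, hu ▸ Subgroup.map_mono fi23_le,
    e3.symm.isSimpleGroup, (Nat.card_congr e3.toEquiv).symm.trans isFi23.2⟩

end Cfsg.Agent.S0473
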