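import Cfsg.Statements.S0480
import Cfsg.Agent.TT.Classify
import Cfsg.Agent.TT.Fi22
import Cfsg.Agent.TT.Fi23
import Cfsg.Agent.TT.Fi24
import Cfsg.Agent.TT.Models
import Cfsg.Agent.S1691
import Cfsg.Agent.S1696
import Cfsg.Agent.S1697

set_option autoImplicit false
open Cfsg

namespace Cfsg.Agent.S0480

open Cfsg.Agent.TT Subgroup Cfsg.Agent.Class.Orth Module

theorem commutator_eq_top_of_equiv {G H : Type*} [Group G] [Group H] (e : G ≃* H)
    (h : commutator G = ⊤) : commutator H = ⊤ := by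
  rw [← map_commutator_equiv e, h, map_top_of_surjective _ e.surjective]

theorem map_eq_one_of_perfect {H A : Type*} [Group H] [CommGroup A] (h : commutator H = ⊤)
    (f : H →* A) (x : H) : f x = 1 :=
  Abelianization.commutator_subset_ker f (h ▸ mem_top x)

/-- If `H / Z(H)` is perfect it is `H' / Z(H')`. -/
theorem nonempty_equiv_pcomm {H : Type*} [Group H] (h : commutator (H ⧸ center H) = ⊤) :
    Nonempty (commutator H ⧸ center (commutator H) ≃* H ⧸ center H) := by
  let f := (QuotientGroup.mk' (center H)).comp (commutator H).subtype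
  have hs : Function.Surjective f := by
    rw [← MonoidHom.range_eq_top, MonoidHom.range_comp, range_subtype, map_commutator_eq,
      QuotientGroup.range_mk']
    exact h
  have hk : center (commutator H) = f.ker := by
    ext x
    rw [MonoidHom.mem_ker]
    refine Iff.trans (b := (x : H) ∈ center H) ⟨fun hx => mem_center_iff.2 fun g => ?_,
      fun hx => mem_center_iff.2 fun g => Subtype.ext (mem_center_iff.1 hx g)⟩
      (QuotientGroup.eq_one_iff (x : H)).symm
    obtain ⟨k, hk⟩ := hs g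
    obtain ⟨z, hz⟩ : ∃ z ∈ center H, g = k * z :=
      ⟨_, QuotientGroup.eq.1 hk, (mul_inv_cancel_left _ _).symm⟩
    have := congrArg Subtype.val (mem_center_iff.1 hx k)
    rw [hz.2, mul_assoc, ← mem_center_iff.1 hz.1, ← mul_assoc, ← mul_assoc]
    exact congrArg (· * z) this
  exact ⟨(QuotientGroup.quotientMulEquivOfEq hk).trans
    (QuotientGroup.quotientKerEquivOfSurjective f hs)⟩

theorem prefl_odd {n : ℕ} (Q : QuadraticForm (ZMod 3) (Fin n → ZMod 3))
    (hQ : (QuadraticMap.polarBilin Q).Nondegenerate) (h5 : 5 ≤ n)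
    (hp : commutator (PRefl Q) = ⊤) :
    ∃ m : ℕ, Nonempty (PRefl Q ≃* POmega (ZMod 3) (quadFormOdd m (ZMod 3))) := by
  have h2 : (2 : ZMod 3) ≠ 0 := by decide
  have hc : (-1 : ZMod 3) ≠ 0 := by decide
  have hQ' : ND Q := (nd_iff Q).2 hQ
  have hd : finrank (ZMod 3) (Fin n → ZMod 3) = n := by simp
  have hr := range_reflSubHom (by decide) Q (-1)
  have hinj := reflSubHom_injective Q (-1)
  have hle : commutator (OG Q) ≤ (reflSubHom Q (-1)).range :=
    hr ▸ hQ'.commutator_le_reflClass h2 (Or.inr (by omega)) (by omega) hc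
  have hmap := hQ'.map_commutator_of_le (by omega) _ hle
  obtain ⟨m, hm | hm⟩ := Nat.even_or_odd' n
  · exfalso
    let f : PRefl Q →* (ZMod 3)ˣ := QuotientGroup.lift _ ((detO Q).comp (reflSubHom Q (-1)))
      fun z hz => by
        rcases hQ'.eq_one_or_negOne_of_comm (by omega) (g := reflSubHom Q (-1) z) (fun k hk => by
          obtain ⟨k, rfl⟩ := hle hk
          rw [← map_mul, ← map_mul, mem_center_iff.1 hz k]) with h | h
        · rw [MonoidHom.mem_ker, MonoidHom.comp_apply, h, map_one]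
        · rw [MonoidHom.mem_ker, MonoidHom.comp_apply, h, ← Units.val_eq_one, detO_negOne, hd, hm,
            pow_mul, neg_one_sq, one_pow]
    obtain ⟨v, hv⟩ := hQ'.exists_Q_eq (by omega) hc
    obtain ⟨g, hg⟩ : refl Q v ∈ (reflSubHom Q (-1)).range :=
      hr ▸ refl_mem_reflClass hc (hv ▸ hc) (by rw [hv])
    have : detO Q (reflSubHom Q (-1) g) = 1 := map_eq_one_of_perfect hp f g
    rw [hg, detO_refl (hv ▸ hc)] at this
    exact absurd this (by decide)
  · obtain ⟨c, g, hc, -, hg⟩ := Class.QF.exists_equiv_odd hQ (hd.trans hm)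
    let s : Unit ⊕ (Fin m ⊕ Fin m) → (ZMod 3)ˣ :=
      Sum.elim (fun _ => 1) (Sum.elim (fun _ => (Units.mk0 c hc)⁻¹) fun _ => 1)
    obtain ⟨e⟩ := nonempty_equiv_pcomm hp
    refine ⟨m, ⟨(e.symm.trans (quotCenterCongr (((commutator _).equivMapOfInjective _ hinj).trans
      (MulEquiv.subgroupCongr hmap)))).trans (pOmegaCongr (.trans (OG.congrSim
      (g ≪≫ₗ LinearEquiv.piCongrRight fun i => LinearEquiv.smulOfUnit (s i)) c⁻¹ (inv_ne_zero hc)
      fun v => ?_) (oddEquiv m (ZMod 3)).symm))⟩⟩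
    rw [hg, oddQF_apply]
    simp [quadFormOdd, s, LinearEquiv.smulOfUnit, Units.smul_def, mul_add, Finset.mul_sum,
      mul_assoc, hc]


/-- The simple 3-transposition groups: if a finite non-abelian simple group G is generated by a conjugacy class of 3-transpositions, then G is isomorphic to a symplectic group Sp(2n, 2), or to a projective special unitary group PSU(n, 2) (defined over the field with four elements), or to the projective commutator subgroup of an orthogonal group in odd dimension over the field with three elements, or G has order 64561751654400, or G has order 4089470473293004800. -/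
theorem result {G : Type*} [Group G] [Finite G] [IsSimpleGroup G] (hna : ∃ x y : G, x * y ≠ y * x) {D : Set G} (hD : Cfsg.IsThreeTranspositionClass D) : (∃ n : ℕ, Nonempty (G ≃* Matrix.symplecticGroup (Fin n) (ZMod 2))) ∨ (∃ (F : Type) (_ : Field F) (_ : Fintype F) (n : ℕ), Fintype.card F = 4 ∧ Nonempty (G ≃* Cfsg.PSU n F 2)) ∨ (∃ m : ℕ, Nonempty (G ≃* Cfsg.POmega (ZMod 3) (Cfsg.quadFormOdd m (ZMod 3)))) ∨ Cfsg.IsFi22 G ∨ Cfsg.IsFi23 G := by
  obtain ⟨x, y, hxy⟩ := hna
  have hZ : center G = ⊥ := (inferInstance : (center G).Normal).eq_bot_or_eq_top.resolve_right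
    fun h => hxy (mem_center_iff.1 (h ▸ mem_top y) x)
  have hp : commutator G = ⊤ :=
    (inferInstance : (commutator G).Normal).eq_bot_or_eq_top.resolve_left fun h =>
      hxy (mem_center_iff.1 ((commutator_eq_bot_iff_center_eq_top G).1 h ▸ mem_top y) x)
  have hP := prim_of_simple_nonab hD (hp ▸ topEquiv.isSimpleGroup)
    ⟨⟨x, hp ▸ mem_top x⟩, ⟨y, hp ▸ mem_top y⟩, fun h => hxy (congrArg Subtype.val h)⟩
  rcases hP.known with ⟨n, hn, h⟩ | ⟨n, -, h⟩ | ⟨n, hn, h⟩ | ⟨n, hn, h⟩ | ⟨n, hn, Q, τ, h⟩ | h | h | h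
  · obtain ⟨e, -⟩ := h.exists_mulEquiv (by omega) hP.toIsTT hD.2.2 hZ
    have := map_eq_one_of_perfect (commutator_eq_top_of_equiv e hp) Equiv.Perm.sign
      (Equiv.swap ⟨0, by omega⟩ ⟨1, by omega⟩)
    rw [Equiv.Perm.sign_swap (by simp)] at this
    exact absurd this (by decide)
  · obtain ⟨m, -, e, -⟩ := h.exists_mulEquiv hD.2.2 hZ
    exact Or.inl ⟨m, ⟨e⟩⟩
  · exfalso
    rcases h.exists_mulEquiv hn hD.2.2 hZ with ⟨m, hm, e, -⟩ | ⟨m, hm, e, -⟩
    · have := (nd_plusQF m (ZMod 2)).index_commutator_eq_two rfl (by simp; omega)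
        (Or.inr (by simp; omega))
      rw [commutator_eq_top_of_equiv (e.trans (plusEquiv m _)) hp, index_top] at this
      omega
    · have := (nd_minusQF m (F := ZMod 2) (a := 1) (b := 1) (by decide)).index_commutator_eq_two rfl
        (by simp) (Or.inr (by simp; omega))
      rw [commutator_eq_top_of_equiv (e.trans (minusEquiv m _ 1 1)) hp, index_top] at this
      omega
  · obtain ⟨e, -⟩ := h.exists_mulEquiv hn hD.2.2 hZ
    exact Or.inr (Or.inl ⟨Class.GF4, inferInstance, inferInstance, n, Class.card_GF4, ⟨e⟩⟩)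
  · obtain ⟨e, -⟩ := h.exists_mulEquiv3 (by omega) hD.2.2 hZ
    obtain ⟨m, ⟨f⟩⟩ := prefl_odd Q h.1 (by omega) (commutator_eq_top_of_equiv e hp)
    exact Or.inr (Or.inr (Or.inl ⟨m, ⟨e.trans f⟩⟩))
  · obtain ⟨e, -⟩ := h.exists_equiv hD.2.2 hZ
    exact Or.inr (Or.inr (Or.inr (Or.inl ⟨inferInstance,
      (Nat.card_congr e.toEquiv).trans S1696.result.2⟩)))
  · obtain ⟨e, -⟩ := h.exists_equiv hD.2.2 hZ
    exact Or.inr (Or.inr (Or.inr (Or.inr ⟨inferInstance,
      (Nat.card_congr e.toEquiv).trans S1697.result.2⟩)))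
  · obtain ⟨e, -⟩ := h.exists_equiv hD.2.2 hZ
    have := S1691.result
    rw [commutator_eq_top_of_equiv e hp, index_top] at this
    omega

end Cfsg.Agent.S0480
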