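import Cfsg.Statements.S0618
import Mathlib
import Cfsg.Agent.PLocal.FFModel

set_option autoImplicit false
open Cfsg

namespace Cfsg.Agent.S0618

/-- A p-separable group with trivial p'-core in which the Thompson factorization fails has p = 2 or 3, and J(G) induces on the normal closure of Ω₁(Z(S)) a group containing a normal SL(2, p). -/
theorem result {G : Type*} [Group G] [Finite G] {p : ℕ} [Fact p.Prime] (hsep : Cfsg.IsPSolvable p G) (hO : Cfsg.pPrimeCore p G = ⊥) (hnf : ¬ Cfsg.IsThompsonFactorizable p G) : (p = 2 ∨ p = 3) ∧ ∃ E : Subgroup G, Subgroup.centralizer ((⨆ S : Sylow p G, Cfsg.omegaOne p ((S : Subgroup G) ⊓ Subgroup.centralizer ((S : Subgroup G) : Set G))) : Set G) ≤ E ∧ E ≤ Cfsg.thompsonSubgroup p G ⊔ Subgroup.centralizer ((⨆ S : Sylow p G, Cfsg.omegaOne p ((S : Subgroup G) ⊓ Subgroup.centralizer ((S : Subgroup G) : Set G))) : Set G) ∧ Cfsg.thompsonSubgroup p G ⊔ Subgroup.centralizer ((⨆ S : Sylow p G, Cfsg.omegaOne p ((S : Subgroup G) ⊓ Subgroup.centralizer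 ((S : Subgroup G) : Set G))) : Set G) ≤ Subgroup.normalizer (E : Set G) ∧ ∃ hn : ((Subgroup.centralizer ((⨆ S : Sylow p G, Cfsg.omegaOne p ((S : Subgroup G) ⊓ Subgroup.centralizer ((S : Subgroup G) : Set G))) : Set G)).subgroupOf E).Normal, Nonempty ((↥E ⧸ (Subgroup.centralizer ((⨆ S : Sylow p G, Cfsg.omegaOne p ((S : Subgroup G) ⊓ Subgroup.centralizer ((S : Subgroup G) : Set G))) : Set G)).subgroupOf E) ≃* Matrix.SpecialLinearGroup (Fin 2) (ZMod p)) := by
  rw [PLocal.centralizer_iSup_coe]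
  have := PLocal.omegaZClosure_normal (p := p) (G := G)
  have := PLocal.thompsonSubgroup_normal (p := p) (G := G)
  have hV := PLocal.omegaZClosure_isEA (PLocal.centralizer_pCore_le_of_isPSolvable hsep hO)
  have h := PLocal.ffSetup_hol hsep hV PLocal.pCore_quotient_centralizer_omegaZClosure
    (thompsonSubgroup p G)
  have hgen := PLocal.map_thompsonSubgroup_eq_iSup hV
  obtain ⟨A, hAH, hA⟩ := h.exists_isMinOffender hgen (PLocal.map_thompsonSubgroup_ne_bot hnf)
  obtain ⟨φ⟩ := h.nonempty_block_equiv hAH hA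
  have h1 := h.block_le hAH
  have h2 := h.le_normalizer_block hgen hAH hA
  refine ⟨h.two_or_three hAH hA, ?_⟩
  generalize _ ⊔ A = E at φ h1 h2
  rw [← PLocal.ker_holMap (V := PLocal.omegaZClosure p G), ← Subgroup.comap_map_eq]
  refine ⟨E.comap (PLocal.holMap _), Subgroup.ker_le_comap _ _, Subgroup.comap_mono h1,
    (Subgroup.comap_mono h2).trans (Subgroup.le_normalizer_comap _), ?_⟩
  refine PLocal.nonempty_quotient_mulEquiv
    (φ.toMonoidHom.comp ((PLocal.holMap _).subgroupComap E)) (φ.surjective.comp fun e => ?_) ?_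
  · obtain ⟨g, -, hg⟩ := h1 e.2
    exact ⟨⟨g, show _ ∈ E from hg ▸ e.2⟩, Subtype.ext hg⟩
  · rw [MonoidHom.ker_comp_of_injective _ _ φ.injective]
    ext g
    exact Subtype.ext_iff

end Cfsg.Agent.S0618
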