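import Cfsg.Statements.S0640
import Mathlib
import Cfsg.Agent.FT.BG4_13

set_option autoImplicit false
open Cfsg

namespace Cfsg.Agent.S0640

/-- For odd p, a prime q ≠ p dividing the order of the automorphism group of a p-group of rank at most 2 divides p² - 1 and is less than p. -/
theorem result {R : Type*} [Group R] [Finite R] {p : ℕ} [Fact p.Prime] (hp : p ≠ 2) (hR : IsPGroup p R) (hrk : Cfsg.PRankLE p 2 R) (q : ℕ) (hq : q.Prime) (hqp : q ≠ p) (hdvd : q ∣ Nat.card (MulAut R)) : q ∣ p ^ 2 - 1 ∧ q < p := by
  haveI := Fact.mk hq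
  haveI : Finite (MulAut R) := inferInstance
  obtain ⟨a, ha⟩ := exists_prime_orderOf_dvd_card' q hdvd
  let G := R ⋊[MonoidHom.id (MulAut R)] MulAut R
  haveI : Finite G := Finite.of_equiv _ (SemidirectProduct.equivProd (φ := MonoidHom.id (MulAut R))).symm
  let f : R →* G := SemidirectProduct.inl
  have hf : Function.Injective f := SemidirectProduct.inl_injective
  have hR' : IsPGroup p f.range := hR.of_equiv (MonoidHom.ofInjective hf)
  have hr' : PRankLE p 2 f.range := (FT.R2.pRankLE_congr (MonoidHom.ofInjective hf)).1 hrk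
  have hn : f.range.Normal := by
    rw [SemidirectProduct.range_inl_eq_ker_rightHom]; infer_instance
  have h := FT.R2.dvd_sq_sub_one hp hR' hr' (x := SemidirectProduct.inr a)
    (Subgroup.le_normalizer_of_normal (Subgroup.mem_top _)) ?_ hq hqp (k := 1)
    (by rw [← map_pow, pow_one, ← ha, pow_orderOf_eq_one, map_one])
  · exact ⟨h, (FT.R2.arith_of_dvd_sq_sub_one Fact.out hp hq h).1⟩
  · intro hc
    have : a = 1 := by
      ext r
      apply hf
      have h1 := hc (f r) ⟨r, rfl⟩
      have h2 := SemidirectProduct.inl_aut (φ := MonoidHom.id (MulAut R)) a r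
      change f (a r) = _ * f r * _ at h2
      rw [h2, ← h1, mul_assoc, ← map_mul, mul_inv_cancel, map_one, mul_one, MulAut.one_apply]
    rw [this, orderOf_one] at ha
    exact hq.one_lt.ne ha

end Cfsg.Agent.S0640
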