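import Mathlib
import Cfsg.Statements.S0680
import Cfsg.Agent.Perm.Sharp2

set_option autoImplicit false

open Cfsg

namespace Cfsg.Agent.S0680

/-- A finite sharply doubly transitive permutation group has degree a prime power `p ^ j`; a Sylow `p`-subgroup is normal, elementary abelian and regular, and consists of the identity together with the elements without fixed points. (Frobenius' Theorem is not needed.) -/
theorem result {α : Type*} [Fintype α] [DecidableEq α] (G : Subgroup (Equiv.Perm α)) [MulAction.IsMultiplyPretransitive G α 2] (hsharp : ∀ x : Fin 2 ↪ α, MulAction.stabilizer G x = ⊥) (h2 : 2 ≤ Fintype.card α) : ∃ p j : ℕ, p.Prime ∧ 1 ≤ j ∧ Fintype.card α = p ^ j ∧ ∀ (hp : Fact p.Prime) (P : Sylow p G), (P : Subgroup G).Normal ∧ IsMulCommutative (P : Subgroup G) ∧ (∀ x ∈ (P : Subgroup G), x ^ p = 1) ∧ MulAction.IsPretransitive (P : Subgroup G) α ∧ (∀ a : α, MulAction.stabilizer (P : Subgroup G) a = ⊥) ∧ ∀ g : G, g ∈ (P : Subgroup G) ↔ g = 1 ∨ ∀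 a : α, g • a ≠ a := by
  obtain ⟨K, hKn, hK, hKc, hcard, htr, hind, p, hp, hexp⟩ :=
    Perm.exists_sharp_two_kernel (G := G) (Ω := α) inferInstance (Perm.sharp_two_iff.1 hsharp)
      (by rwa [Nat.card_eq_fintype_card])
  have : Fact p.Prime := ⟨hp⟩
  have hKp : IsPGroup p K := fun x => ⟨1, Subtype.ext (by simpa using hexp x x.2)⟩
  obtain ⟨j, hj⟩ := IsPGroup.iff_card.1 hKp
  rw [Nat.card_eq_fintype_card (α := α)] at hcard hind
  have hj1 : 1 ≤ j := by
    by_contra h
    obtain rfl : j = 0 := by omega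
    rw [hcard, pow_zero] at hj
    omega
  refine ⟨p, j, hp, hj1, hcard ▸ hj, fun _ P => ?_⟩
  have hi : ¬ p ∣ K.index := by
    rw [hind, ← hcard, hj]
    intro h
    have h1 : p ∣ p ^ j := dvd_pow_self p (by omega)
    have h3 := (Nat.dvd_sub_iff_right (Nat.one_le_pow _ _ hp.pos) h1).1 h
    exact hp.one_lt.ne' (Nat.dvd_one.1 h3)
  have hPK : (P : Subgroup G) = K := by
    have := (hKp.toSylow hi).unique_of_normal hKn
    rw [Subsingleton.elim P (hKp.toSylow hi)]
    rfl
  rw [hPK]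
  refine ⟨hKn, ⟨⟨fun x y => Subtype.ext (hKc x x.2 y y.2)⟩⟩, hexp, ⟨fun a b => ?_⟩, fun a => ?_, hK⟩
  · obtain ⟨k, hk, h⟩ := htr a b
    exact ⟨⟨k, hk⟩, h⟩
  · rw [eq_bot_iff]
    intro k hk
    rcases (hK k).1 k.2 with h | h
    · exact Subtype.ext h
    · exact absurd hk (h a)

end Cfsg.Agent.S0680
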