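import Cfsg.Statements.S3681
import Cfsg.Agent.Perm.JordanSet

set_option autoImplicit false
open Cfsg

namespace Cfsg.Agent.S3681

open MulAction in

/-- Bochert's bound for primitive groups. Let a finite group G act faithfully and primitively on a finite set Ω with n elements, and suppose the image of G in the symmetric group of Ω does not contain the alternating group of Ω. Then |G| · ⌊(n + 1)/2⌋! ≤ n!, that is, the index of G in the symmetric group is at least ⌊(n + 1)/2⌋!. -/
theorem result {G Ω : Type*} [Group G] [Finite G] [MulAction G Ω] [FaithfulSMul G Ω] [Fintype Ω] [DecidableEq Ω]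
    (hprim : MulAction.IsPreprimitive G Ω) (hA : ¬ alternatingGroup Ω ≤ (MulAction.toPermHom G Ω).range) :
    Nat.card G * Nat.factorial ((Fintype.card Ω + 1) / 2) ≤ Nat.factorial (Fintype.card Ω) := by
  obtain ⟨D, hD, hmin⟩ := exists_minimalFor_of_wellFoundedLT
    (fun D : Finset Ω => ∀ g : G, (∀ x ∈ D, g • x = x) → g = 1) Finset.card
    ⟨Finset.univ, fun g hg => eq_of_smul_eq_smul (α := Ω) fun x => by simpa using hg x (by simp)⟩
  have hmin' : ∀ E : Finset Ω, E.card < D.card → ∃ g : G, (∀ x ∈ E, g • x = x) ∧ g ≠ 1 :=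
    fun E hE => by
      by_contra! h
      exact hE.not_ge (hmin h hE.le)
  have h1 : 2 * D.card ≤ Fintype.card Ω := by
    by_contra h1
    obtain ⟨g, hg, hg1⟩ := hmin' Dᶜ (by rw [Finset.card_compl]; omega)
    obtain ⟨a, ha⟩ : ∃ a, g • a ≠ a := by
      by_contra! h; exact hg1 (hD g fun x _ => h x)
    have haD : a ∈ D := by by_contra h; exact ha (hg a (by simpa using h))
    obtain ⟨h, hh, hh1⟩ := hmin' (D.erase a) (Finset.card_erase_lt_of_mem haD)
    refine hA (Perm.JordanSet.alt_le_of_inter hprim ha (h := h) (fun h2 => hh1 (hD h fun x hx => ?_))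
      fun x h2 h3 => ?_)
    · by_cases e : x = a
      · rw [e, h2]
      · exact hh x (Finset.mem_erase.2 ⟨e, hx⟩)
    · by_contra e
      exact h3 (hh x (Finset.mem_erase.2 ⟨e, by by_contra h; exact h2 (hg x (by simpa using h))⟩))
  have h2 : Nat.card G ≤ (Fintype.card Ω).descFactorial D.card := by
    have h3 := Nat.card_le_card_of_injective (fun g : G => (⟨fun x : D => g • (x : Ω), fun x y h =>
      Subtype.ext (MulAction.injective g h)⟩ : D ↪ Ω)) fun g k h => by
        have := hD (k⁻¹ * g) fun x hx => by
          rw [mul_smul, inv_smul_eq_iff]; exact DFunLike.congr_fun h ⟨x, hx⟩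
        exact (inv_mul_eq_one.1 this).symm
    rwa [Nat.card_eq_fintype_card (α := D ↪ Ω), Fintype.card_embedding_eq, Fintype.card_coe] at h3
  rw [← Nat.factorial_mul_descFactorial (show D.card ≤ Fintype.card Ω by omega), mul_comm]
  exact Nat.mul_le_mul (Nat.factorial_le (by omega)) h2

end Cfsg.Agent.S3681
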