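import Cfsg.Statements.S0725
import Cfsg.Agent.PrSx.Main
import Cfsg.Agent.PrSx.NumT1
import Cfsg.Agent.PrSx.NumT2
import Cfsg.Agent.S4220
import Cfsg.Agent.S3681

set_option autoImplicit false
open Cfsg

namespace Cfsg.Agent.S0725

theorem small : ∀ n ∈ List.range 22, n.factorial ≤ 4 ^ n * ((n + 1) / 2).factorial := by
  decide +kernel

/-- The Praeger–Saxl bound: a primitive permutation group of degree `n` not containing the alternating group has order at most `4 ^ n`. -/
theorem result {α : Type*} [Fintype α] [DecidableEq α] (G : Subgroup (Equiv.Perm α)) (hG : MulAction.IsPreprimitive G α) (hA : ¬ alternatingGroup α ≤ G) : Nat.card G ≤ 4 ^ Fintype.card α := by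
  classical
  by_cases hn : Fintype.card α < 22
  · have hr : (MulAction.toPermHom G α).range = G := by
      ext g
      constructor
      · rintro ⟨x, rfl⟩
        exact x.2
      · intro hg
        exact ⟨⟨g, hg⟩, rfl⟩
    have h1 := S3681.result (G := G) (Ω := α) hG (by rwa [hr])
    have h2 := small _ (List.mem_range.2 hn)
    exact Nat.le_of_mul_le_mul_right (h1.trans h2) (Nat.factorial_pos _)
  · have hM : PrSx.MilT (Fintype.card α) := by
      by_cases h0 : Fintype.card α < 7921
      · exact PrSx.numT1 (by omega) h0
      · exact PrSx.numT2 (by omega)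
    obtain ⟨k, p, r, hp, e1, k1, k2, k3, k4, r1, i1, i2⟩ := hM
    let e : α ≃ Fin (Fintype.card α) := Fintype.equivFin α
    let G' : Subgroup (Equiv.Perm (Fin (Fintype.card α))) := G.map (e.permCongrHom).toMonoidHom
    have hmem : ∀ g ∈ G, e.permCongr g ∈ G' := fun g hg => ⟨g, hg, rfl⟩
    have hc : Nat.card G' = Nat.card G := Subgroup.card_map_of_injective e.permCongrHom.injective
    have hP : PrSx.Prim G' := by
      constructor
      · intro a b
        obtain ⟨g, hg⟩ := hG.toIsPretransitive.exists_smul_eq (e.symm a) (e.symm b)
        refine ⟨_, hmem g.1 g.2, ?_⟩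
        have : g.1 (e.symm a) = e.symm b := hg
        simp [this]
      · intro R hR hinv
        obtain ⟨a⟩ : Nonempty α := Fintype.card_pos_iff.1 (by omega)
        have hinv' : ∀ g : G, ∀ x y, R (e x) (e y) → R (e (g • x)) (e (g • y)) := fun g x y h => by
          have := hinv _ (hmem g.1 g.2) _ _ h
          show R (e (g.1 x)) (e (g.1 y))
          simpa using this
        have hB : MulAction.IsBlock G {y | R (e a) (e y)} := by
          rw [MulAction.isBlock_iff_smul_eq_of_mem]
          intro g x hx hgx
          have key : R (e (g • a)) (e a) := hR.trans (hinv' g _ _ hx) (hR.symm hgx)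
          ext y
          rw [Set.mem_smul_set_iff_inv_smul_mem]
          constructor
          · intro hy
            have := hinv' g _ _ hy
            rw [smul_inv_smul] at this
            exact hR.trans (hR.symm key) this
          · intro hy
            have := hinv' g⁻¹ _ _ (hR.trans key hy)
            rwa [inv_smul_smul] at this
        rcases hG.isTrivialBlock_of_isBlock hB with hs | hs
        · left
          intro x y hxy
          obtain ⟨g, hg⟩ := hG.toIsPretransitive.exists_smul_eq (e.symm x) a
          have h1 := hinv' g (e.symm x) (e.symm y) (by simpa using hxy)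
          rw [hg] at h1
          have h2 : a = g • e.symm y := hs (hR.refl _) h1
          rw [← hg] at h2
          exact e.symm.injective (smul_left_cancel g h2)
        · right
          intro x y
          have h1 : e.symm x ∈ {y | R (e a) (e y)} := hs ▸ Set.mem_univ _
          have h2 : e.symm y ∈ {y | R (e a) (e y)} := hs ▸ Set.mem_univ _
          simp only [Set.mem_setOf_eq, Equiv.apply_symm_apply] at h1 h2
          exact hR.trans (hR.symm h1) h2
    have hT : ¬ Prae.Tr G' (r + 1) := fun hT => by
      refine hA (S4220.result G hp e1 k1 k2 k3 k4 ?_)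
      rw [MulAction.isMultiplyPretransitive_iff]
      intro x y
      obtain ⟨_, ⟨g, hg, rfl⟩, h⟩ := hT (e ∘ x) (e ∘ y) (e.injective.comp x.injective)
        (e.injective.comp y.injective)
      refine ⟨⟨g, hg⟩, ?_⟩
      ext i
      have := h i
      simpa using this
    have := PrSx.big hP (by omega) hT (by simpa using r1) (by simpa using i1) (by simpa using i2)
    rwa [hc, Fintype.card_fin] at this

end Cfsg.Agent.S0725
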