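import Cfsg.Statements.S0809
import Cfsg.Agent.Class.SL2Quat

set_option autoImplicit false
open Cfsg

namespace Cfsg.Agent.S0809

theorem exists_gen {F : Type*} [Field F] (h2 : (2 : F) ≠ 0)
    (A : Subgroup (Matrix.SpecialLinearGroup (Fin 2) F)) (hA : Nat.card A = 4) :
    ∃ g : Matrix.SpecialLinearGroup (Fin 2) F,
      (g : Matrix (Fin 2) (Fin 2) F).trace = 0 ∧ A = Subgroup.zpowers g := by
  have : Finite A := Nat.finite_of_card_ne_zero (by omega)
  obtain ⟨g, hg, h1, h2'⟩ : ∃ g ∈ A, g ≠ 1 ∧ g ≠ -1 := by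
    by_contra hc
    push Not at hc
    have : (A : Set (Matrix.SpecialLinearGroup (Fin 2) F)) ⊆ {1, -1} := fun g hg => by
      by_cases h : g = 1
      · exact Or.inl h
      · exact Or.inr (hc g hg h)
    have h4 := (Set.ncard_le_ncard this).trans (Set.ncard_insert_le _ _)
    rw [← Nat.card_coe_set_eq, SetLike.coe_sort_coe, hA, Set.ncard_singleton] at h4
    omega
  have hsq : g ^ 2 ≠ 1 := fun e => ((KSG.M2.SL_sq_eq_one_iff h2).1 e).elim h1 h2'
  have h4 : g ^ 2 ^ (1 + 1) = 1 := by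
    have := congrArg Subtype.val (pow_card_eq_one' (x := (⟨g, hg⟩ : A)))
    rwa [hA] at this
  have ho : orderOf g = 4 := orderOf_eq_prime_pow (p := 2) (n := 1) hsq h4
  refine ⟨g, KSG.M2.SL_sq_eq_neg_one_iff.1 ?_, (Subgroup.eq_of_le_of_card_ge
    (Subgroup.zpowers_le.2 hg) (by rw [Nat.card_zpowers, ho, hA])).symm⟩
  rw [← sq]
  exact ((KSG.M2.SL_sq_eq_one_iff h2).1 (by rw [← pow_mul]; exact h4)).resolve_left hsq

/-- In SL_2(q), q odd: any two subgroups of order 4 are conjugate, and the normaliser of a subgroup of order 4 has order 2(q − 1) if q ≡ 1 (mod 4) and 2(q + 1) if q ≡ 3 (mod 4); consequently all involutions of PSL_2(q) are conjugate. -/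
theorem result {F : Type*} [Field F] [Fintype F] {q : ℕ} (hF : Fintype.card F = q) (hodd : Odd q) (A : Subgroup (Matrix.SpecialLinearGroup (Fin 2) F)) (hA : Nat.card A = 4) : (∀ B : Subgroup (Matrix.SpecialLinearGroup (Fin 2) F), Nat.card B = 4 → ∃ g : Matrix.SpecialLinearGroup (Fin 2) F, B = A.map (MulAut.conj g).toMonoidHom) ∧ (q % 4 = 1 → Nat.card ↥(Subgroup.normalizer (A : Set (Matrix.SpecialLinearGroup (Fin 2) F))) = 2 * (q - 1)) ∧ (q % 4 = 3 → Nat.card ↥(Subgroup.normalizer (A : Set (Matrix.SpecialLinearGroup (Fin 2) F))) = 2 * (q + 1)) ∧ (∀ x y : Matrix.ProjectiveSpecialLinearGroup (Fin 2) F, orderOf x = 2 → orderOf y = 2 → IsConj x y) := by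
  subst hF
  have h2 : (2 : F) ≠ 0 := Class.Dickson.two_ne_zero_of_odd_card hodd
  obtain ⟨g, hg, rfl⟩ := exists_gen h2 A hA
  have hd := Class.Dickson.zero_sq_ne_four h2 hg
  have hN : Nat.card (Subgroup.normalizer ((Subgroup.zpowers g : Subgroup _) :
      Set (Matrix.SpecialLinearGroup (Fin 2) F))) = 2 * Nat.card (Subgroup.centralizer {g}) := by
    rw [KSG.M2.normalizer_eq_of_le_cent hd (Subgroup.mem_zpowers g)
      (Subgroup.zpowers_le.2 (KSG.M2.self_mem_cent g)), KSG.M2.card_normalizer_cent hd]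
  have hE : KSG.M2.NoEig (g : Matrix (Fin 2) (Fin 2) F) ↔ Fintype.card F % 4 = 3 := by
    rw [← not_iff_not, ← Ne, ← FiniteField.isSquare_neg_one_iff, KSG.M2.NoEig, hg, g.det_coe]
    push Not
    exact exists_congr fun c => ⟨fun h => by linear_combination -h, fun h => by linear_combination -h⟩
  refine ⟨fun B hB => ?_, fun hq => ?_, fun hq => ?_, fun x y hx hy => ?_⟩
  · obtain ⟨g', hg', rfl⟩ := exists_gen h2 B hB
    obtain ⟨c, rfl⟩ := isConj_iff.1 (KSG.M2.SL_isConj_of_trace' (hg.trans hg'.symm) hd)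
    exact ⟨c, by rw [MonoidHom.map_zpowers]; rfl⟩
  · rcases KSG.M2.card_cent_cases hd with ⟨-, h⟩ | ⟨h, -⟩
    · rw [hN, h, Nat.card_eq_fintype_card]
    · have := hE.1 h
      omega
  · rcases KSG.M2.card_cent_cases hd with ⟨h, -⟩ | ⟨-, h⟩
    · exact absurd (hE.2 hq) h
    · rw [hN, h, Nat.card_eq_fintype_card]
  · have key : ∀ a : Matrix.SpecialLinearGroup (Fin 2) F, orderOf (Class.Dickson.pslMk F a) = 2 →
        (a : Matrix (Fin 2) (Fin 2) F).trace = 0 := fun a ha =>
      Class.Dickson.trace_eq_zero_of_involution h2 (fun e => by rw [e, orderOf_one] at ha; omega)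
        (by rw [← sq]; exact orderOf_dvd_iff_pow_eq_one.1 ha.dvd)
    obtain ⟨a, rfl⟩ := Class.Dickson.pslMk_surjective x
    obtain ⟨b, rfl⟩ := Class.Dickson.pslMk_surjective y
    exact (Class.Dickson.pslMk F).map_isConj (KSG.M2.SL_isConj_of_trace'
      ((key a hx).trans (key b hy).symm) (Class.Dickson.zero_sq_ne_four h2 (key a hx)))

end Cfsg.Agent.S0809
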