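import Cfsg.Statements.S0839
import Mathlib
import Cfsg.Agent.Class.GLStab

set_option autoImplicit false
open Cfsg

namespace Cfsg.Agent.S0839

open Class.GLStab Matrix

theorem exists_vecMulVec_of_rank_eq_one {F : Type*} [Field F] {ι : Type} [Fintype ι] [DecidableEq ι]
    (M : Matrix ι ι F) (h : M.rank = 1) : ∃ u w : ι → F, u ≠ 0 ∧ w ≠ 0 ∧ M = vecMulVec u w := by
  obtain ⟨⟨u, hu⟩, hu0, h1⟩ := finrank_eq_one_iff'.mp h
  have hc : ∀ j, ∃ c : F, c • u = M *ᵥ Pi.single j 1 := fun j => by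
    obtain ⟨c, hc⟩ := h1 ⟨_, ⟨Pi.single j 1, rfl⟩⟩
    exact ⟨c, congrArg Subtype.val hc⟩
  choose w hw using hc
  have hM : M = vecMulVec u w := by
    ext i j
    have := congrFun (hw j) i
    simp only [Pi.smul_apply, smul_eq_mul, mulVec_single, MulOpposite.op_one, one_smul,
      col_apply] at this
    rw [vecMulVec_apply, ← this, mul_comm]
  refine ⟨u, w, fun e => hu0 (Subtype.ext e), ?_, hM⟩
  rintro rfl
  rw [hM] at h
  simp at h

/-- Every transvection t ∈ SL_(n+2)(F) (rank(t − 1) = 1, (t − 1)² = 0) is conjugate in SL_(n+2)(F) to 1 + v·e_0ᵀ for some column vector v with v_0 = 0 (the group A of matrices that are the identity except in the first column below the diagonal); the dimension is written n + 2 ≥ 2. -/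
theorem result {F : Type*} [Field F] (n : ℕ) (t : Matrix.SpecialLinearGroup (Fin (n + 2)) F) (ht : Cfsg.IsTransvection (t : Matrix (Fin (n + 2)) (Fin (n + 2)) F)) : ∃ (g : Matrix.SpecialLinearGroup (Fin (n + 2)) F) (v : Fin (n + 2) → F), v 0 = 0 ∧ ((g⁻¹ * t * g : Matrix.SpecialLinearGroup (Fin (n + 2)) F) : Matrix (Fin (n + 2)) (Fin (n + 2)) F) = 1 + Matrix.vecMulVec v (Pi.single 0 1) := by
  obtain ⟨u, w, hu, hw, hM⟩ := exists_vecMulVec_of_rank_eq_one _ ht.1
  have h0 : w ⬝ᵥ u = 0 := by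
    have := ht.2
    rw [hM, vecMulVec_mul_vecMulVec, vecMulVec_eq_zero] at this
    rcases this with h | h
    · exact absurd h hu
    · exact (smul_eq_zero.mp h).resolve_right hw
  obtain ⟨g, g1, g2⟩ := exists_det_eq_mulVec_eq hw (u' := Pi.single 0 1) (by simp)
    (one_ne_zero (α := F))
  let g' : Matrix.SpecialLinearGroup (Fin (n + 2)) F := ⟨(g : Matrix _ _ F)ᵀ, by rwa [det_transpose]⟩
  have e1 : w ᵥ* (g' : Matrix (Fin (n + 2)) (Fin (n + 2)) F) = Pi.single 0 1 := by
    rw [← g2]; exact vecMul_transpose _ _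
  have e2 : (t : Matrix (Fin (n + 2)) (Fin (n + 2)) F) = 1 + vecMulVec u w := by
    rw [← hM]; abel
  refine ⟨g', ((g'⁻¹ : Matrix.SpecialLinearGroup (Fin (n + 2)) F) : Matrix _ _ F) *ᵥ u, ?_, ?_⟩
  · have : Pi.single 0 1 ⬝ᵥ (((g'⁻¹ : Matrix.SpecialLinearGroup (Fin (n + 2)) F) :
        Matrix (Fin (n + 2)) (Fin (n + 2)) F) *ᵥ u) = 0 := by
      rw [← e1, ← dotProduct_mulVec, mulVec_mulVec, ← Matrix.SpecialLinearGroup.coe_mul,
        mul_inv_cancel, Matrix.SpecialLinearGroup.coe_one, one_mulVec, h0]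
    simpa only [single_dotProduct, one_mul] using this
  · rw [Matrix.SpecialLinearGroup.coe_mul, Matrix.SpecialLinearGroup.coe_mul, e2, mul_add, add_mul,
      mul_one, ← Matrix.SpecialLinearGroup.coe_mul, inv_mul_cancel,
      Matrix.SpecialLinearGroup.coe_one, mul_vecMulVec, vecMulVec_mul, e1]

end Cfsg.Agent.S0839
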