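import Cfsg.Statements.S0820
import Mathlib
import Cfsg.Agent.S0839

set_option autoImplicit false
open Cfsg

namespace Cfsg.Agent.S0820

open Matrix

theorem conj_std {F : Type*} [Field F] (t : Matrix.SpecialLinearGroup (Fin 3) F) (h1 : t ≠ 1)
    (h2 : ((t : Matrix (Fin 3) (Fin 3) F) - 1) * ((t : Matrix (Fin 3) (Fin 3) F) - 1) = 0) :
    IsConj t ⟨!![1, 0, 0; 1, 1, 0; 0, 0, 1], by simp [det_fin_three]⟩ := by
  have hne : (t : Matrix (Fin 3) (Fin 3) F) - 1 ≠ 0 := fun e => h1 (Subtype.ext (sub_eq_zero.1 e))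
  have hr : ((t : Matrix (Fin 3) (Fin 3) F) - 1).rank = 1 := by
    have a := rank_add_rank_le_card_of_mul_eq_zero h2
    have b : ((t : Matrix (Fin 3) (Fin 3) F) - 1).rank ≠ 0 := by
      intro h0
      apply hne
      rw [Matrix.rank, Submodule.finrank_eq_zero, LinearMap.range_eq_bot] at h0
      exact (Matrix.toLin'.map_eq_zero_iff).1 h0
    simp only [Fintype.card_fin] at a
    omega
  obtain ⟨g, v, hv, hg⟩ : ∃ (g : Matrix.SpecialLinearGroup (Fin 3) F) (v : Fin 3 → F), v 0 = 0 ∧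
      ((g⁻¹ * t * g : Matrix.SpecialLinearGroup (Fin 3) F) : Matrix (Fin 3) (Fin 3) F) =
        1 + Matrix.vecMulVec v (Pi.single 0 1) := S0839.result 1 t ⟨hr, h2⟩
  have c1 : IsConj t (g⁻¹ * t * g) := isConj_iff.2 ⟨g⁻¹, by simp⟩
  refine c1.trans (IsConj.symm ?_)
  have hne' : g⁻¹ * t * g ≠ 1 := fun e => h1 (by
    have : t = g * (g⁻¹ * t * g) * g⁻¹ := by group
    rw [this, e]; simp)
  generalize g⁻¹ * t * g = s at hg hne'
  by_cases h : v 1 = 0
  · have h' : v 2 ≠ 0 := by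
      intro h'
      apply hne'
      ext i j
      rw [hg]
      fin_cases i <;> simp [vecMulVec_apply, hv, h, h']
    refine isConj_iff.2 ⟨⟨!![1, 0, 0; 0, 0, -(v 2)⁻¹; 0, v 2, 0], by simp [det_fin_three, h']⟩, ?_⟩
    refine mul_inv_eq_iff_eq_mul.2 ?_
    apply Subtype.ext
    change (_ * _ : Matrix (Fin 3) (Fin 3) F) = (s : Matrix (Fin 3) (Fin 3) F) * _
    rw [hg]
    ext i j
    fin_cases i <;> fin_cases j <;>
      simp [Matrix.mul_apply, Fin.sum_univ_three, vecMulVec_apply, hv, h, one_apply]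
  · refine isConj_iff.2 ⟨⟨!![1, 0, 0; 0, v 1, 0; 0, v 2, (v 1)⁻¹], by simp [det_fin_three, h]⟩, ?_⟩
    refine mul_inv_eq_iff_eq_mul.2 ?_
    apply Subtype.ext
    change (_ * _ : Matrix (Fin 3) (Fin 3) F) = (s : Matrix (Fin 3) (Fin 3) F) * _
    rw [hg]
    ext i j
    fin_cases i <;> fin_cases j <;>
      simp [Matrix.mul_apply, Fin.sum_univ_three, vecMulVec_apply, hv, one_apply]

theorem lift {F : Type*} [Field F] (h2 : (2 : F) = 0)
    (x : Matrix.ProjectiveSpecialLinearGroup (Fin 3) F) (hx : orderOf x = 2) :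
    ∃ t : Matrix.SpecialLinearGroup (Fin 3) F, (t : Matrix.ProjectiveSpecialLinearGroup (Fin 3) F) = x ∧
      t ≠ 1 ∧ ((t : Matrix (Fin 3) (Fin 3) F) - 1) * ((t : Matrix (Fin 3) (Fin 3) F) - 1) = 0 := by
  obtain ⟨g, rfl⟩ := QuotientGroup.mk_surjective x
  have h1 : g ^ 2 ∈ Subgroup.center (Matrix.SpecialLinearGroup (Fin 3) F) := by
    rw [← QuotientGroup.eq_one_iff, QuotientGroup.mk_pow, ← hx, pow_orderOf_eq_one]
  have h3 : (g ^ 2) ^ 3 = 1 := by
    obtain ⟨r, hr, e⟩ := Matrix.SpecialLinearGroup.mem_center_iff.1 h1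
    apply Subtype.ext
    rw [Matrix.SpecialLinearGroup.coe_pow, ← e, ← map_pow]
    simp only [Fintype.card_fin] at hr
    rw [hr, map_one]; rfl
  have e : ((g ^ 3 : Matrix.SpecialLinearGroup (Fin 3) F) : Matrix.ProjectiveSpecialLinearGroup (Fin 3) F)
      = g := by
    rw [pow_succ, QuotientGroup.mk_mul, (QuotientGroup.eq_one_iff _).2 h1, one_mul]
  refine ⟨g ^ 3, e, ?_, ?_⟩
  · intro h
    rw [← e, h] at hx
    simp at hx
  · have h4 : g ^ 3 * g ^ 3 = 1 := by rw [← h3]; group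
    have h5 := congrArg Subtype.val h4
    generalize g ^ 3 = t at h5
    change (t : Matrix (Fin 3) (Fin 3) F) * t = 1 at h5
    have : ((t : Matrix (Fin 3) (Fin 3) F) - 1) * ((t : Matrix (Fin 3) (Fin 3) F) - 1) =
      (2 : F) • (1 - (t : Matrix (Fin 3) (Fin 3) F)) := by
      rw [sub_mul, mul_sub, mul_sub, h5, two_smul]; simp only [mul_one, one_mul]; abel
    rw [this, h2, zero_smul]

/-- Any two elements of order 2 of PSL_3(4) are conjugate. -/
theorem result {F : Type*} [Field F] [Fintype F] (hF : Fintype.card F = 4) (x y : Matrix.ProjectiveSpecialLinearGroup (Fin 3) F) (hx : orderOf x = 2) (hy : orderOf y = 2) : IsConj x y := by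
  have h2 : (2 : F) = 0 := by
    have h := FiniteField.cast_card_eq_zero F
    rw [hF] at h
    have : (2 : F) * 2 = 0 := by rw [← h]; norm_num
    exact mul_self_eq_zero.1 this
  obtain ⟨s, rfl, s1, s2⟩ := lift h2 x hx
  obtain ⟨t, rfl, t1, t2⟩ := lift h2 y hy
  exact (QuotientGroup.mk' _).map_isConj ((conj_std s s1 s2).trans (conj_std t t1 t2).symm)

end Cfsg.Agent.S0820
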