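import Mathlib
import Cfsg.Statements.S0864
import Cfsg.Agent.Char.CentralExt

set_option autoImplicit false
open Cfsg

namespace Cfsg.Agent.S0864
open Cfsg.Agent.Char

/-- Let N be a normal subgroup of the finite group G and λ a character of N of degree 1 invariant under conjugation by G. Suppose that for every prime p dividing the order of λ (in the group of functions under pointwise multiplication) there is a subgroup H containing N, of index prime to p and with the index of N in H a power of p, together with a character of H of degree 1 restricting to λ. Then λ is the restriction of a character of G of degree 1. -/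
theorem result {G : Type*} [Group G] [Finite G] (N : Subgroup G) [hN : N.Normal] (lam : N → ℂ) (hlam : Cfsg.IsCharacter N lam ∧ lam 1 = 1) (hinv : ∀ (g : G) (n : N), lam ⟨g * n * g⁻¹, hN.conj_mem (n : G) n.2 g⟩ = lam n) (hsyl : ∀ p : ℕ, p.Prime → p ∣ orderOf lam → ∃ (H : Subgroup G) (hNH : N ≤ H) (ν : H → ℂ), Nat.Coprime H.index p ∧ (∃ k : ℕ, N.relIndex H = p ^ k) ∧ Cfsg.IsCharacter H ν ∧ ν 1 = 1 ∧ ∀ n : N, ν ⟨(n : G), hNH n.2⟩ = lam n) : ∃ μ : G → ℂ, Cfsg.IsCharacter G μ ∧ μ 1 = 1 ∧ ∀ n : N, μ n = lam n := by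
  obtain ⟨ν, rfl⟩ := isCharacter_one_iff.1 hlam
  let I : AddSubgroup ℤ :=
    { carrier := {k | ∃ V : G →* ℂˣ, ∀ n : N, V n = ν n ^ k}
      zero_mem' := ⟨1, by simp⟩
      add_mem' := by
        rintro k l ⟨V, hV⟩ ⟨W, hW⟩
        exact ⟨V * W, by simp [hV, hW, zpow_add]⟩
      neg_mem' := by
        rintro k ⟨V, hV⟩
        exact ⟨V⁻¹, by simp [hV]⟩ }
  have h1 : (1 : ℤ) ∈ I := by
    refine one_mem_of_forall_prime I fun p hp => ?_
    by_cases hd : p ∣ orderOf (fun n => (ν n : ℂ))
    · obtain ⟨H, hNH, η, hc, -, hη, hη1, hηN⟩ := hsyl p hp hd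
      obtain ⟨φ, rfl⟩ := exists_hom_of_isCharacter_one hη hη1
      refine ⟨H.index, hc, MonoidHom.transfer φ, fun n => ?_⟩
      have hm : ∀ x : G, x⁻¹ * n * x ∈ N := fun x => by
        simpa using hN.conj_mem n n.2 x⁻¹
      rw [zpow_natCast]
      refine transfer_eq_pow_of_conj φ n (ν n) (fun x => hNH (hm x)) fun x => Units.ext ?_
      have h2 := hηN ⟨_, hm x⟩
      have h3 := hinv x⁻¹ n
      simp only [inv_inv] at h3
      exact h2.trans h3
    · refine ⟨_, ((Nat.Prime.coprime_iff_not_dvd hp).2 hd).symm, 1, fun n => ?_⟩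
      rw [orderOf_hom_coe, zpow_natCast, ← MonoidHom.pow_apply, pow_orderOf_eq_one]
      rfl
  obtain ⟨V, hV⟩ := h1
  exact ⟨_, isCharacter_hom V, by simp, fun n => by simp [hV]⟩

end Cfsg.Agent.S0864
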