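import Cfsg.Statements.S0943
import Cfsg.Agent.Char.Integrality

set_option autoImplicit false
open Cfsg

namespace Cfsg.Agent.S0943

/-- Let χ be an irreducible character of the finite group G and u, v ∈ G. If χ (x * y) = χ (u * v) whenever x is conjugate to u and y is conjugate to v, then χ u * χ v = χ 1 * χ (u * v). (Multiply the class sums of u and v and apply the central character of χ.) -/
theorem result {G : Type*} [Group G] [Finite G] (χ : Cfsg.IrrCharacter G) (u v : G) (hc : ∀ x y : G, IsConj u x → IsConj v y → (χ : G → ℂ) (x * y) = (χ : G → ℂ) (u * v)) : (χ : G → ℂ) u * (χ : G → ℂ) v = (χ : G → ℂ) 1 * (χ : G → ℂ) (u * v) := by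
  classical
  obtain ⟨χ, n, ρ, hρ, rfl⟩ := χ
  have := Fintype.ofFinite G
  dsimp only at hc ⊢
  have hu := Char.classSum_eq_smul ρ u
  have hv := Char.classSum_eq_smul ρ v
  have hn : (Module.finrank ℂ (Fin n → ℂ) : ℂ) ≠ 0 := by
    exact_mod_cast (Char.finrank_pos_of_isIrreducible ρ).ne'
  have h1 : LinearMap.trace ℂ _ ((∑ h ∈ Finset.univ.filter (IsConj u), ρ h) *
      (∑ h ∈ Finset.univ.filter (IsConj v), ρ h)) =
      ((Subgroup.centralizer ({u} : Set G)).index : ℂ) *
        ((Subgroup.centralizer ({v} : Set G)).index : ℂ) * ρ.character (u * v) := by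
    rw [Finset.sum_mul_sum, map_sum]
    rw [Finset.sum_congr rfl (g := fun _ =>
      ((Subgroup.centralizer ({v} : Set G)).index : ℂ) * ρ.character (u * v))]
    · rw [Finset.sum_const, Char.card_filter_isConj, nsmul_eq_mul, mul_assoc]
    · intro x hx
      rw [map_sum, Finset.sum_congr rfl (g := fun _ => ρ.character (u * v))]
      · rw [Finset.sum_const, Char.card_filter_isConj, nsmul_eq_mul]
      · intro y hy
        rw [← map_mul, ← hc x y (Finset.mem_filter.1 hx).2 (Finset.mem_filter.1 hy).2]
        rfl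
  rw [hu, hv, smul_mul_smul_comm, mul_one, map_smul, LinearMap.trace_one, smul_eq_mul] at h1
  have hu0 : ((Subgroup.centralizer ({u} : Set G)).index : ℂ) ≠ 0 := by
    exact_mod_cast Subgroup.index_ne_zero_of_finite
  have hv0 : ((Subgroup.centralizer ({v} : Set G)).index : ℂ) ≠ 0 := by
    exact_mod_cast Subgroup.index_ne_zero_of_finite
  rw [ρ.char_one]
  field_simp at h1
  rw [h1]

end Cfsg.Agent.S0943
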