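import Cfsg.Statements.S0950
import Cfsg.Agent.Block.Q8Sylow

set_option autoImplicit false
open Cfsg

namespace Cfsg.Agent.S0950

open Subgroup Block in

/-- Let S be a Sylow 2-subgroup of the finite group G that is isomorphic to the quaternion group of order 8, and suppose S has no normal complement in G. Then any two subgroups of order 4 of S are conjugate by an element of the normalizer of S. -/
theorem result {G : Type*} [Group G] [Finite G] (S : Sylow 2 G) (e : (S : Subgroup G) ≃* QuaternionGroup 2) (hnc : ∀ N : Subgroup G, N.Normal → ¬ Subgroup.IsComplement' N (S : Subgroup G)) (A B : Subgroup G) (hA : A ≤ S) (hB : B ≤ S) (hA4 : Nat.card A = 4) (hB4 : Nat.card B = 4) : ∃ n ∈ Subgroup.normalizer ((S : Subgroup G) : Set G), B = A.map (MulAut.conj n).toMonoidHom := by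
  have h : ¬ HasNormalPComplement 2 G := fun h => by
    obtain ⟨N, hN, hc⟩ := (Transfer.hasNormalPComplement_iff_sylow S).1 h
    exact hnc N hN hc
  obtain ⟨t, ht, ht2⟩ := Q8.exists_involution e
  have key : ∀ A : Subgroup G, A ≤ S → Nat.card A = 4 → ∃ a ∈ (S : Subgroup G), a * a ≠ 1 ∧
      A = zpowers a := fun A hA hA4 => by
    by_contra hc
    push Not at hc
    have h1 : A ≤ zpowers t := fun a ha => by
      refine Q8.mem_zpowers_of_mul_self e ht ht2 (hA ha) ?_
      by_contra h2
      refine hc a (hA ha) h2 (eq_of_le_of_card_ge (zpowers_le.2 ha) ?_).symm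
      rw [hA4, Nat.card_zpowers, Q8.orderOf_eq_four e (hA ha) h2]
    have h2 := card_le_of_le h1
    rw [hA4, Nat.card_zpowers, ht2] at h2
    omega
  obtain ⟨a, ha, h1, rfl⟩ := key A hA hA4
  obtain ⟨b, hb, h2, rfl⟩ := key B hB hB4
  obtain ⟨n, hn, h3⟩ := Q8.exists_conj_eq_or_inv e h ha hb h1 h2
  refine ⟨n, hn, ?_⟩
  rw [MonoidHom.map_zpowers]
  change _ = zpowers (n * a * n⁻¹)
  rcases h3 with h3 | h3 <;> rw [h3]
  rw [zpowers_inv]

end Cfsg.Agent.S0950
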