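import Mathlib
import Cfsg.Statements.S0972
import Cfsg.Agent.Block.NormalDefect

set_option autoImplicit false
open Cfsg

namespace Cfsg.Agent.S0972

open Cfsg.Agent.Block Cfsg.Agent.Char


/-- Let B be a block of the finite group G (relative to a maximal ideal M of the algebraic integers containing the prime p) with a defect group P that is normal in G. Then P is commutative if and only if every member of B has height zero. -/
theorem result {G : Type*} [Group G] [Finite G] (p : ℕ) [Fact p.Prime] (M : Ideal Cfsg.AlgInt) (hM : Cfsg.IsPModular p M) (B : Set (Cfsg.IrrCharacter G)) (hB : Cfsg.IsPBlock M B) (P : Subgroup G) [P.Normal] (hP : Cfsg.IsDefectGroup p M B P) : (∀ a ∈ P, ∀ c ∈ P, a * c = c * a) ↔ ∀ χ ∈ B, Cfsg.blockHeight p B (χ : G → ℂ) = 0 := by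
  have hPp := isPGroup_of_isDefectGroup hP
  refine ⟨fun h χ _ => ?_, fun h a ha c hc => ?_⟩
  · rw [blockHeight_eq_zero_iff_index hM hB hP]
    exact (Nat.factorization_le_iff_dvd (charDegree_ne_zero χ.2) Subgroup.index_ne_zero_of_finite).2
      (χ.2.deg_dvd_index_of_comm (cast_charDegree χ.2.isCharacter).symm P h) p
  · have hn := Subgroup.commutator_mem_commutator ha hc
    have h1 := not_dvd_orderOf_of_mem_blockKer hM hB
      fun χ hχ => apply_commutator_of_height_zero hM hB hP hPp hχ (h χ hχ) hn
    exact commutatorElement_eq_one_iff_mul_comm.1 (eq_one_of_orderOf_pow_of_not_dvd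
      (orderOf_eq_pow_of_mem hPp (Subgroup.commutator_le_left P P hn)) h1)

end Cfsg.Agent.S0972
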