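import Cfsg.Statements.S0986
import Mathlib


set_option autoImplicit false
open Cfsg

namespace Cfsg.Agent.S0986

open Subgroup in
theorem lt_inf_normalizer {G : Type*} [Group G] [Finite G] {p : ℕ} [Fact p.Prime] {D P : Subgroup G}
    (hP : IsPGroup p P) (h : D < P) : D < P ⊓ normalizer (D : Set G) := by
  have hnil : Group.IsNilpotent P := hP.isNilpotent
  have h1 : D.subgroupOf P < ⊤ := by
    rw [lt_top_iff_ne_top, Ne, subgroupOf_eq_top]
    exact h.not_ge
  have h2 := normalizerCondition_of_isNilpotent (G := P) _ h1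
  obtain ⟨x, hx1, hx2⟩ := SetLike.exists_of_lt h2
  refine lt_of_le_of_ne (le_inf h.le le_normalizer) ?_
  intro he
  apply hx2
  rw [mem_subgroupOf, he]
  refine ⟨x.2, ?_⟩
  rw [← subgroupOf_normalizer_eq h.le] at hx1
  exact hx1

/-- Let P and Q be distinct Sylow p-subgroups of a finite group G chosen so that the order of P ∩ Q is as large as possible among intersections of two distinct Sylow p-subgroups, and let N be the normalizer of P ∩ Q. Then N has more than one Sylow p-subgroup, any two distinct Sylow p-subgroups of N intersect exactly in P ∩ Q, and each Sylow p-subgroup of N lies in exactly one Sylow p-subgroup of G. -/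
theorem result {G : Type*} [Group G] [Finite G] (p : ℕ) [Fact p.Prime] (P Q : Sylow p G) (hPQ : P ≠ Q) (hmax : ∀ P' Q' : Sylow p G, P' ≠ Q' → Nat.card ↥((P' : Subgroup G) ⊓ (Q' : Subgroup G)) ≤ Nat.card ↥((P : Subgroup G) ⊓ (Q : Subgroup G))) : 1 < Nat.card (Sylow p ↥(Subgroup.normalizer (((P : Subgroup G) ⊓ (Q : Subgroup G) : Subgroup G) : Set G))) ∧ (∀ S T : Sylow p ↥(Subgroup.normalizer (((P : Subgroup G) ⊓ (Q : Subgroup G) : Subgroup G) : Set G)), S ≠ T → (S : Subgroup _) ⊓ (T : Subgroup _) = ((P : Subgroup G) ⊓ (Q : Subgroup G)).subgroupOf (Subgroup.normalizer (((P : Subgroup G) ⊓ (Q : Subgroup G) : Subgroup G) : Set G))) ∧ ∀ S : Sylow p ↥(Subgroup.normalizer (((P : Subgroup G) ⊓ (Q : Subgroup G) : Subgroup G) : Set G)), ∃! T : Sylow p G, (S : Subgroup _).map (Subgroup.normalizer (((P : Subgroup G) ⊓ (Q : Subgroup G) : Subgroup G) : Set G)).subtype ≤ (T : Subgroup G) := by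
  set D : Subgroup G := (P : Subgroup G) ⊓ (Q : Subgroup G) with hD
  set N := Subgroup.normalizer (D : Set G) with hN
  have hlt : ∀ A B : Sylow p G, A ≠ B → (A : Subgroup G) ⊓ (B : Subgroup G) < A := by
    intro A B hAB
    refine lt_of_le_of_ne inf_le_left ?_
    intro h
    apply hAB
    exact Sylow.ext (A.is_maximal' B.2 (inf_eq_left.mp h)).symm
  have hDP : D < (P : Subgroup G) ⊓ N := lt_inf_normalizer P.2 (hlt P Q hPQ)
  have hDQ : D < (Q : Subgroup G) ⊓ N := lt_inf_normalizer Q.2 (by
    rw [hD, inf_comm]; exact hlt Q P hPQ.symm)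
  have hcardlt : ∀ {A B : Subgroup G}, A < B → Nat.card A < Nat.card B := by
    intro A B h
    refine lt_of_le_of_ne (Subgroup.card_le_of_le h.le) ?_
    intro he
    exact h.ne (Subgroup.eq_of_le_of_card_ge h.le he.ge)
  -- a subgroup bigger than D lies in at most one Sylow subgroup
  have huniq : ∀ (X : Subgroup G), Nat.card D < Nat.card X → ∀ A B : Sylow p G, X ≤ A → X ≤ B →
      A = B := by
    intro X hX A B hA hB
    by_contra hne
    have := hmax A B hne
    have h2 := Subgroup.card_le_of_le (le_inf hA hB)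
    omega
  have hDN : D ≤ N := Subgroup.le_normalizer
  have hDS : ∀ S : Sylow p N, D.subgroupOf N ≤ S := by
    intro S
    have : IsPGroup p (D.subgroupOf N) := (P.2.to_inf_left (K := Q)).comap_subtype
    exact this.le_sylow_of_normal S
  have hbig : ∀ S : Sylow p N, Nat.card D < Nat.card ((S : Subgroup N).map N.subtype) := by
    intro S
    rw [Subgroup.card_map_of_injective N.subtype_injective]
    obtain ⟨S', hS'⟩ := (P.2.comap_subtype (K := N)).exists_le_sylow
    have h1 : Nat.card (S' : Subgroup N) = Nat.card (S : Subgroup N) :=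
      Nat.card_congr (Sylow.equiv S' S).toEquiv
    have h2 := Subgroup.card_le_of_le hS'
    have h3 : Nat.card ((P : Subgroup G).comap N.subtype) = Nat.card ↥((P : Subgroup G) ⊓ N) := by
      rw [← Subgroup.subgroupOf_map_subtype, Subgroup.card_map_of_injective N.subtype_injective]
      rfl
    have h4 := hcardlt hDP
    omega
  have h3 : ∀ S : Sylow p N, ∃! T : Sylow p G, (S : Subgroup N).map N.subtype ≤ (T : Subgroup G) := by
    intro S
    obtain ⟨T, hT⟩ := (S.2.map N.subtype).exists_le_sylow
    exact ⟨T, hT, fun T' hT' => huniq _ (hbig S) _ _ hT' hT⟩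
  refine ⟨?_, ?_, h3⟩
  · by_contra hc
    have h1 : Nat.card (Sylow p N) = 1 := by
      have : 0 < Nat.card (Sylow p N) := Nat.card_pos
      omega
    have hsub : Subsingleton (Sylow p N) := (Nat.card_eq_one_iff_unique.mp h1).1
    obtain ⟨S1, hS1⟩ := (P.2.comap_subtype (K := N)).exists_le_sylow
    obtain ⟨S2, hS2⟩ := (Q.2.comap_subtype (K := N)).exists_le_sylow
    rw [Subsingleton.elim S2 S1] at hS2
    obtain ⟨T, hT, -⟩ := h3 S1
    have a1 : (P : Subgroup G) ⊓ N ≤ T := by
      rw [← Subgroup.subgroupOf_map_subtype]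
      exact (Subgroup.map_mono hS1).trans hT
    have a2 : (Q : Subgroup G) ⊓ N ≤ T := by
      rw [← Subgroup.subgroupOf_map_subtype]
      exact (Subgroup.map_mono hS2).trans hT
    apply hPQ
    rw [huniq _ (hcardlt hDP) P T inf_le_left a1, huniq _ (hcardlt hDQ) Q T inf_le_left a2]
  · intro S T hST
    obtain ⟨A, hA, -⟩ := h3 S
    obtain ⟨B, hB, -⟩ := h3 T
    have hAB : A ≠ B := by
      rintro rfl
      apply hST
      have e1 := S.is_maximal' (A.2.comap_subtype (K := N)) (Subgroup.map_le_iff_le_comap.mp hA)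
      have e2 := T.is_maximal' (A.2.comap_subtype (K := N)) (Subgroup.map_le_iff_le_comap.mp hB)
      exact Sylow.ext (e1.symm.trans e2)
    symm
    apply Subgroup.eq_of_le_of_card_ge (le_inf (hDS S) (hDS T))
    have h1 := hmax A B hAB
    have h2 : ((S : Subgroup N) ⊓ (T : Subgroup N)).map N.subtype ≤ (A : Subgroup G) ⊓ B :=
      le_inf ((Subgroup.map_mono inf_le_left).trans hA) ((Subgroup.map_mono inf_le_right).trans hB)
    have h4 := Subgroup.card_le_of_le h2
    rw [Subgroup.card_map_of_injective N.subtype_injective] at h4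
    have h5 : Nat.card (D.subgroupOf N) = Nat.card D :=
      Nat.card_congr (Subgroup.subgroupOfEquivOfLe hDN).toEquiv
    omega

end Cfsg.Agent.S0986
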