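import Cfsg.Statements.S1078
import Cfsg.Agent.Chev.StUniv

set_option autoImplicit false
open Cfsg

namespace Cfsg.Agent.S1078

/-- For G₂, F₄, E₈ the presented group has trivial centre (the universal and adjoint groups coincide). -/
theorem result {K : Type*} [Field K] (D : Cfsg.Lie.ChevalleyDatum) (hD : D ∈ [Cfsg.Lie.chevG2, Cfsg.Lie.chevF4, Cfsg.Lie.chevE8]) :
    Subgroup.center (D.SteinbergGroup K) = ⊥ := by
  have hD' : D ∈ [Cfsg.Lie.chevG2, Cfsg.Lie.chevB2, Cfsg.Lie.chevD4, Cfsg.Lie.chevF4,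
      Cfsg.Lie.chevE6, Cfsg.Lie.chevE7, Cfsg.Lie.chevE8] := by
    simp only [List.mem_cons, List.not_mem_nil, or_false] at hD
    rcases hD with rfl | rfl | rfl <;> simp
  obtain ⟨G⟩ := Chev.good_of_mem hD'
  obtain ⟨T⟩ := Chev.exists_rootTable hD'
  obtain ⟨θ, hθ⟩ := (Chev.isSt_xC (D := D) (F := K)).toIsSt0.exists_lift3 Chev.isR3_xC T
  rw [Chev.isR3_stGen.center_eq T θ hθ (Chev.isSt0_stGen.isSt hD') Chev.Gs_stGen]
  have h1 : Nat.card {c : Fin D.rank → Kˣ // ∀ j, ∏ i, c i ^ Chev.cm D i j = 1} = 1 := by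
    simp only [List.mem_cons, List.not_mem_nil, or_false] at hD
    rcases hD with rfl | rfl | rfl
    · simp only [Chev.cm_G2]; exact Chev.card_kerG2 _
    · simp only [Chev.cm_F4]; exact Chev.card_kerF4 _
    · simp only [Chev.cm_E8]; exact Chev.card_kerE8 _
  have h2 : (Chev.tor D K).ker = ⊥ := by
    rw [eq_bot_iff]
    intro c hc
    have := (Nat.card_eq_one_iff_unique.mp h1).1
    exact congrArg Subtype.val (Subsingleton.elim
      (⟨c, Chev.tor_eq_one_iff.mp hc⟩ : {c : Fin D.rank → Kˣ // ∀ j, ∏ i, c i ^ Chev.cm D i j = 1})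
      ⟨1, by simp⟩)
  rw [h2, Subgroup.map_bot]

end Cfsg.Agent.S1078
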