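import Mathlib
import Cfsg.Statements.S1147
import Cfsg.Agent.Suz.ZassSetup
import Cfsg.Agent.Suz.Zass
import Cfsg.Agent.Suz.HigAmb
import Cfsg.Agent.S1139
-- import your own Cfsg.Agent.* helpers here

set_option autoImplicit false
open Cfsg

namespace Cfsg.Agent.S1147

open MulAction RankOne Suz

/-- Let a finite simple Zassenhaus group `G` on `Ω` have a normal subgroup `U` of `G_a`, regular on `Ω` minus `a`, which is a non-abelian 2-group. Then `|Ω| = 2^(2n) + 1` with `n` odd, `n > 1`, a two-point stabiliser `G_a ⊓ G_b` is cyclic of order `2^n - 1`, and `U` is isomorphic to the type-A group over a field with `2^n` elements for some field automorphism `φ`. -/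
theorem result {G Ω : Type*} [Group G] [Finite G] [MulAction G Ω] [Finite Ω]
    (hZ : Cfsg.IsZassenhausGroup G Ω) [IsSimpleGroup G] {a b : Ω} (hab : a ≠ b)
    (U : Subgroup G) (hUle : U ≤ MulAction.stabilizer G a)
    (hUn : ∀ h ∈ MulAction.stabilizer G a, ∀ u ∈ U, h * u * h⁻¹ ∈ U)
    (hreg : ∀ c d : Ω, c ≠ a → d ≠ a → ∃! u : U, (u : G) • c = d)
    (hU2 : IsPGroup 2 U) (hUna : ∃ u ∈ U, ∃ v ∈ U, u * v ≠ v * u) :
    ∃ n : ℕ, Odd n ∧ 1 < n ∧ Nat.card Ω = 2 ^ (2 * n) + 1 ∧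
      IsCyclic ↥(MulAction.stabilizer G a ⊓ MulAction.stabilizer G b) ∧
      Nat.card ↥(MulAction.stabilizer G a ⊓ MulAction.stabilizer G b) = 2 ^ n - 1 ∧
      ∃ (F : Type) (_ : Field F) (_ : Fintype F) (φ : F ≃+* F), Fintype.card F = 2 ^ n ∧
        Nonempty (U ≃* Cfsg.suzukiTypeA F (φ : F →+* F)) := by
  obtain ⟨t, ht, rfl⟩ := zass_exists_t hZ U hUle hreg hU2 hab
  have hS := zass_setup hZ U hUle hUn hreg hU2 ht hab.symm
  have h := zass_hyp hZ inferInstance hS
  obtain ⟨n, hn, hq⟩ := q0_eq_pow hS h.rank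
  rcases h.zass inferInstance (zass_VV hZ hS) with hL | ⟨hL, h3⟩
  · exfalso
    obtain ⟨u, hu, v, hv, e⟩ := hUna
    exact e (invol_central hS h.rank hu (hL.1 u hu) hv)
  have hZ0 : Nat.card (Subgroup.center U) = q0 U := by
    rw [← card_Q0_eq_q0 hS h.rank, ← Subgroup.card_map_of_injective U.subtype_injective]
    congr 2
    ext z
    constructor
    · rintro ⟨z, hz, rfl⟩
      exact (h.higman hU2 hUna).2.2.1 z z.2 fun x hx =>
        (congrArg Subtype.val (Subgroup.mem_center_iff.mp hz ⟨x, hx⟩)).symm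
    · intro hz
      exact ⟨⟨z, Q0_le_Q hS hz⟩, Subgroup.mem_center_iff.mpr fun x =>
        Subtype.ext (Q0_commute_Q hS h.rank hz x.2).symm, rfl⟩
  obtain ⟨F, i1, i2, φ, hF, -, -, e⟩ := S1139.result (h.isSuzukiTwoGroup hU2 hUna)
    (by rw [hZ0]; exact hL.2.2.2.1)
  refine ⟨n, ?_, hn, ?_, (Perm.Zass.two_structure_of_simple hZ hab hS.odd_card).1, ?_,
    F, i1, i2, φ, by rw [hF, hZ0, hq], e⟩
  · by_contra hodd
    obtain ⟨k, rfl⟩ := Nat.not_odd_iff_even.mp hodd
    apply h3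
    rw [hq, ← two_mul, pow_mul]
    simpa using Nat.sub_dvd_pow_sub_pow 4 1 k
  · rw [card_Ω hS, hL.2.2.2.1, hq, ← pow_mul, mul_comm]
  · have := zass_card_D hZ hS
    rw [hq] at this
    exact Nat.eq_sub_of_add_eq this

end Cfsg.Agent.S1147
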