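import Cfsg.Statements.S1164
import Cfsg.Agent.Chev.StCT
import Cfsg.Agent.Mult.ChevR3

set_option autoImplicit false
open Cfsg

namespace Cfsg.Agent.S1164

open Cfsg.Lie Cfsg.Agent.Chev

/-- Curtis–Tits: for the Chevalley datum of type D₄, F₄, E₆, E₇ or E₈ and a field `K` with at least four elements, there is an isomorphism from the group presented by the Curtis–Tits relators (additivity, the commutator relators and the `h̄`-relators only for roots inside a common rank-two subsystem spanned by two fundamental roots, all other generators killed) onto the group of Steinberg's presentation, sending each generator `x̄_r(t)` with `r` in such a subsystem to `x̄_r(t)`. -/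
theorem result (D : Cfsg.Lie.ChevalleyDatum)
    (hD : D ∈ [Cfsg.Lie.chevD4, Cfsg.Lie.chevF4, Cfsg.Lie.chevE6, Cfsg.Lie.chevE7, Cfsg.Lie.chevE8])
    (K : Type*) [Field K] [Fintype K] (hK : 4 ≤ Fintype.card K) :
    ∃ e : D.CurtisTitsGroup K ≃* D.SteinbergGroup K,
      ∀ (i j r : ℕ) (t : K), D.InRankTwoSub i j r →
        e (PresentedGroup.mk (D.curtisTitsRels K) (D.stX r t)) = D.stGen K r t := by
  classical
  have hD' : D ∈ [chevG2, chevB2, chevD4, chevF4, chevE6, chevE7, chevE8] :=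
    List.mem_cons_of_mem _ (List.mem_cons_of_mem _ hD)
  obtain ⟨T⟩ := exists_rootTable hD'
  have hP : ∀ {i j r : ℕ} (h : D.InRankTwoSub i j r), r ∈ Phi D ⟨i, h.2.1⟩ ⟨j, h.2.2.1⟩ :=
    fun h => mem_Phi_iff.mpr h
  obtain ⟨z, hz, hz'⟩ := curtis_tits hD'
    (y := fun r (t : K) => PresentedGroup.mk (D.curtisTitsRels K) (D.stX r t)) fun i j =>
    ⟨fun r hr => hr.1, fun r hr t u => by
      rw [← map_mul, ← mul_inv_eq_one, ← map_inv, ← map_mul]
      exact PresentedGroup.one_of_mem
        (Or.inl (Or.inl (Or.inr ⟨i, j, r, t, u, mem_Phi_iff.mp hr, rfl⟩))),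
    fun r hr s hs h1 h2 t u => by
      have := PresentedGroup.one_of_mem (rels := D.curtisTitsRels K) (Or.inl (Or.inr
        ⟨i, j, r, s, t, u, mem_Phi_iff.mp hr, mem_Phi_iff.mp hs, h1, h2, rfl⟩))
      simp only [map_mul, map_inv, mk_stWord, mul_inv_eq_one] at this
      rw [← this]
      group⟩
  obtain ⟨ψ, hψ⟩ := hz.exists_lift3 (Mult.isR3_of_finite hD' hz) T
  let y : ℕ → K → D.SteinbergGroup K := fun r t =>
    if ∃ i j, D.InRankTwoSub i j r then D.stGen K r t else 1
  have hy : ∀ {i j : Fin D.rank}, ∀ r ∈ Phi D i j, ∀ t, D.stGen K r t = y r t :=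
    fun r hr t => (if_pos ⟨_, _, mem_Phi_iff.mp hr⟩).symm
  have hL : ∀ i j, IsStOn D y (Phi D i j) := fun i j =>
    (isSt0_stGen.isStOn fun r hr => hr.1).congr (T.closed_Phi i j) hy
  let θ : D.CurtisTitsGroup K →* D.SteinbergGroup K :=
    PresentedGroup.toGroup (f := fun p : Fin D.nroots × K => y p.1 p.2) (by
      rintro _ (((⟨r, t, hr, h, rfl⟩ | ⟨i, j, r, t, u, h, rfl⟩) |
        ⟨i, j, r, s, t, u, h, h', h1, h2, rfl⟩) | ⟨i, j, r, t, u, h, ht, hu, rfl⟩)
      · rw [lift_stX hr]; exact if_neg fun ⟨i, j, h'⟩ => h i j h'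
      · simp only [map_mul, map_inv, lift_stX h.1, (hL _ _).add r (hP h), mul_inv_cancel]
      · simp only [map_mul, map_inv, lift_stX h.1, lift_stX h'.1]
        rw [lift_stWord fun p hp => ((T.closed_Phi _ _).mem_commWord (hP h) (hP h') h.1 h'.1 hp).1,
          mul_assoc _ (y s u), (hL _ _).comm r (hP h) s (hP h') h1 h2]
        group
      · have e : ∀ t, hh D y r t = hh D (D.stGen K) r t := fun t => by
          simp only [hh, nn, ← hy r (hP h), ← hy _ (T.neg_mem_Phi (hP h))]
        simp only [map_mul, map_inv, lift_stH T h.1, e, isR3_stGen r h.1 t u ht hu, mul_inv_cancel])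
  have hθ : ∀ r < D.nroots, ∀ t,
      θ (PresentedGroup.mk (D.curtisTitsRels K) (D.stX r t)) = y r t := fun r hr t => lift_stX hr t
  refine ⟨MonoidHom.toMulEquiv θ ψ ?_ ?_, fun i j r t h => (hθ r h.1 t).trans (hy r (hP h) t).symm⟩
  · refine Mult.hom_ext_of_Gs (Gs_mk _) fun r hr t => ?_
    rw [MonoidHom.comp_apply, hθ r hr, MonoidHom.id_apply]
    by_cases h : ∃ i j, D.InRankTwoSub i j r
    · obtain ⟨i, j, h⟩ := h
      rw [← hy r (hP h), hψ r hr, hz' _ _ r (hP h)]
    · rw [show y r t = 1 from if_neg h, map_one, eq_comm]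
      exact PresentedGroup.one_of_mem
        (Or.inl (Or.inl (Or.inl ⟨r, t, hr, fun i j h' => h ⟨i, j, h'⟩, rfl⟩)))
  · refine Mult.hom_ext_of_Gs Gs_stGen fun r hr t => ?_
    have key : ∀ {i : Fin D.rank}, ∀ r ∈ Phi D i i, ∀ t, θ (z r t) = D.stGen K r t :=
      fun r hr t => by rw [hz' _ _ r hr, hθ r hr.1, ← hy r hr]
    rw [MonoidHom.comp_apply, hψ r hr, MonoidHom.id_apply]
    exact (hz.map θ).eq_of_simple hD' isSt0_stGen (fun i => key _ (T.simple_mem_Phi i i))
      (fun i => key _ (T.neg_mem_Phi (T.simple_mem_Phi i i))) hr t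

end Cfsg.Agent.S1164
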