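import Mathlib
import Cfsg.Statements.S1167
import Cfsg.Agent.Suz.ZassSetup
import Cfsg.Agent.Perm.ZassAbel
-- import your own Cfsg.Agent.* helpers here

set_option autoImplicit false
open Cfsg

namespace Cfsg.Agent.S1167

open MulAction RankOne Suz

/-- Let `G` be a finite simple Zassenhaus group on `Ω`, `U` a normal subgroup of `G_a` regular on `Ω` minus `a` which is an abelian 2-group, and `v` an involution with `v • a ≠ a`. Then there is a unique `u₀ ∈ U`, `u₀ ≠ 1`, with `v u₀ v = u₀ v u₀`. -/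
theorem result {G Ω : Type*} [Group G] [Finite G] [MulAction G Ω] [Finite Ω]
    (hZ : Cfsg.IsZassenhausGroup G Ω) [IsSimpleGroup G] {a : Ω}
    (U : Subgroup G) (hUle : U ≤ MulAction.stabilizer G a)
    (hUn : ∀ h ∈ MulAction.stabilizer G a, ∀ u ∈ U, h * u * h⁻¹ ∈ U)
    (hreg : ∀ c d : Ω, c ≠ a → d ≠ a → ∃! u : U, (u : G) • c = d)
    (hU2 : IsPGroup 2 U) (hUab : ∀ u ∈ U, ∀ u' ∈ U, u * u' = u' * u)
    (v : G) (hv1 : v ≠ 1) (hv2 : v * v = 1) (hva : v • a ≠ a) :
    ∃! u₀ : G, u₀ ∈ U ∧ u₀ ≠ 1 ∧ v * u₀ * v = u₀ * v * u₀ := by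
  have hS := zass_setup hZ U hUle hUn hreg hU2 hv2 hva
  have h := zass_hyp hZ inferInstance hS
  have hK : Perm.Zass.IsKer a U := Perm.Zass.isKer_of_card hZ hUle (card_Ω hS).symm
    (fun u hu hu1 c hc => fix_eq_of_mem_Q hS hu hu1 hc)
  have hle := Perm.ZassPSL.feit_abelian hZ (ta_ne hS).symm hS.odd_card hK hUab
  have hD := zass_card_D hZ hS
  obtain ⟨n, hn, hq⟩ := q0_eq_pow hS h.rank
  have : Fact (Nat.Prime 2) := ⟨Nat.prime_two⟩
  obtain ⟨m, hm⟩ := IsPGroup.iff_card.mp hU2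
  have hlt : 2 ^ m < 2 ^ (n + 1) := by
    rw [card_Ω hS, hm] at hle
    change _ ≤ 2 * Nat.card (D a v) at hle
    rw [pow_succ]
    omega
  have hQ : Q0 G a = U := Subgroup.eq_of_le_of_card_ge (Q0_le_Q hS) (by
    rw [card_Q0_eq_q0 hS h.rank, hq, hm]
    exact Nat.pow_le_pow_right two_pos (by
      have := (Nat.pow_lt_pow_iff_right (by norm_num)).mp hlt
      omega))
  have hsq : ∀ u ∈ U, u * u = 1 := fun u hu => ((mem_Q0' hS h.rank).mp (hQ ▸ hu)).2
  obtain ⟨s, hs, r, hr, e⟩ := exists_struct hS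
  have hsU := HI_mem_Q hS hs
  have h1 : s * v * (s * v) = r⁻¹ * (s * v) * r := by
    calc s * v * (s * v) = s * (v * s * v) := by group
      _ = s * r⁻¹ * v * r := by rw [e]; group
      _ = _ := by rw [hUab s hsU _ (inv_mem hr)]; group
  have h2 : s * v * (s * v) * (s * v * (s * v)) = s * v := by
    calc s * v * (s * v) * (s * v * (s * v)) = r⁻¹ * (s * v * (s * v)) * r := by
          conv_lhs => rw [h1]
          group
      _ = (r * r)⁻¹ * (s * v) * (r * r) := by rw [h1]; group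
      _ = s * v := by rw [hsq r hr]; group
  have h3 : v * s * v = s * v * s := by
    have h4 : s * v * s * (v * s * v) = 1 := by
      apply mul_left_cancel (a := s * v)
      rw [mul_one]
      conv_rhs => rw [← h2]
      group
    rw [eq_inv_of_mul_eq_one_right h4, mul_inv_rev, mul_inv_rev, inv_eq_of_mul_eq_one_right hs.2.2,
      inv_eq_of_mul_eq_one_right hv2, mul_assoc]
  refine ⟨s, ⟨hsU, hs.2.1, h3⟩, ?_⟩
  rintro u ⟨hu, hu1, hu2⟩
  exact (struct_unique hS ⟨hUle hu, hu1, hsq u hu⟩ hu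
    (by rw [hu2, inv_eq_of_mul_eq_one_right (hsq u hu)]) hs hr e).1

end Cfsg.Agent.S1167
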