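import Cfsg.Statements.S1187
import Mathlib
import Cfsg.Agent.Inv.IsolatedCount
import Cfsg.Agent.Inv.Count
import Cfsg.Agent.Inv.Basic
import Cfsg.Agent.Misc.Four
import Cfsg.Agent.S1181
import Cfsg.Agent.S0225
import Cfsg.Agent.S0023
import Cfsg.Agent.Grp.MinNormal
import Cfsg.Agent.PLocal.RelSylow

set_option autoImplicit false
open Cfsg

namespace Cfsg.Agent.S1187

universe u

/-- A power of a nontrivial element of a `p`-group that has order `p`. -/
theorem exists_pow_order_p {G : Type*} [Group G] {p : ℕ} [hp : Fact p.Prime] {Q : Subgroup G}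
    (hQ : IsPGroup p Q) {y : G} (hy : y ∈ Q) (hy1 : y ≠ 1) :
    ∃ m : ℕ, y ^ m ≠ 1 ∧ (y ^ m) ^ p = 1 := by
  obtain ⟨k, hk⟩ := hQ ⟨y, hy⟩
  have hk' : y ^ p ^ k = 1 := by simpa using congrArg Subtype.val hk
  induction k with
  | zero => simp at hk'; exact absurd hk' hy1
  | succ k ih =>
    by_cases h : y ^ p ^ k = 1
    · exact ih (Subtype.ext (by simpa using h)) h
    · exact ⟨p ^ k, h, by rw [← pow_mul, ← pow_succ, hk']⟩

theorem exists_elem_of_invariant {G : Type*} [Group G] {p : ℕ} [hp : Fact p.Prime] {z : G}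
    (hz : z * z = 1) {Q : Subgroup G} (hQ : IsPGroup p Q) (hQ1 : Q ≠ ⊥)
    (hzQ : z ∈ Subgroup.normalizer (Q : Set G)) :
    ∃ x : G, x ≠ 1 ∧ x ^ p = 1 ∧ (z * x * z⁻¹ = x ∨ z * x * z⁻¹ = x⁻¹) := by
  obtain ⟨⟨y, hy⟩, hy1⟩ := (Subgroup.ne_bot_iff_exists_ne_one).1 hQ1
  have hy1' : y ≠ 1 := fun h => hy1 (Subtype.ext h)
  by_cases hc : z * y * z⁻¹ = y
  · obtain ⟨m, h1, h2⟩ := exists_pow_order_p hQ hy hy1'
    exact ⟨_, h1, h2, Or.inl (by rw [← conj_pow, hc])⟩
  · have h0 : z * y * z⁻¹ * y⁻¹ ∈ Q :=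
      Q.mul_mem ((Subgroup.mem_normalizer_iff.1 hzQ y).1 hy) (Q.inv_mem hy)
    obtain ⟨m, h1, h2⟩ := exists_pow_order_p hQ h0 (by rwa [Ne, mul_inv_eq_one])
    refine ⟨_, h1, h2, Or.inr (Inv.conj_pow_of_inverts ?_ m)⟩
    have e : z * y * z⁻¹ * y⁻¹ = z * (y * z * y⁻¹) := by
      rw [inv_eq_of_mul_eq_one_right hz]; group
    rw [e]
    exact Inv.invol_conj_mul hz (Inv.conj_mul_self hz y)

theorem exists_elem_rank_one {G : Type*} [Group G] [Finite G] {p : ℕ} [hp : Fact p.Prime]
    {z : G} (hz : IsIsolatedInvolution z)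
    (hu : ∀ s : G, orderOf s = 2 → Commute s z → s = z) (hpG : p ∣ Nat.card G)
    (hpC : ¬ p ∣ Nat.card (Subgroup.centralizer ({z} : Set G))) :
    ∃ x : G, x ≠ 1 ∧ x ^ p = 1 ∧ (z * x * z⁻¹ = x ∨ z * x * z⁻¹ = x⁻¹) := by
  have hz2 := Inv.isolated_mul_self hz
  have hconj : ∀ t : G, orderOf t = 2 → IsConj z t := by
    intro t ht
    have ht2 := Inv.mul_self_of_orderOf_eq_two ht
    by_contra h
    obtain ⟨w, -, hw, h1, h2⟩ := Inv.Count.exists_central_involution hz2 ht2
      (Inv.Count.even_orderOf_mul_of_not_isConj hz2 ht2 h)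
    have h3 := hu w hw h1
    subst h3
    have h4 := hu t ht h2.symm
    subst h4
    exact h (IsConj.refl _)
  have hfour : ∀ E : Subgroup G, ¬ IsKleinFour E := by
    intro E hE
    obtain ⟨a, ha, ha1⟩ := Misc.exists_ne_one_of_isKleinFour hE
    obtain ⟨b, hb, hb1, hab, -⟩ := Misc.exists_eq_closure_pair_of_isKleinFour hE ha ha1
    have hsq := (Misc.isKleinFour_iff.1 hE).2
    have hao : orderOf a = 2 := orderOf_eq_prime (hsq a ha) ha1
    have hbo : orderOf b = 2 := orderOf_eq_prime (hsq b hb) hb1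
    exact hab (Inv.isolated_eq_of_isConj (Inv.isolated_of_isConj hz (hconj a hao))
      ((hconj a hao).symm.trans (hconj b hbo)) (Misc.comm_of_sq hsq a ha b hb)).symm
  have heven : Even (Nat.card G) := by
    rw [even_iff_two_dvd, ← hz.1]; exact orderOf_dvd_natCard z
  obtain ⟨w, hw, N, hN, hodd, hcomm⟩ := S0225.result heven hfour
  obtain ⟨c, hc⟩ := isConj_iff.1 (hconj w hw).symm
  have hzN : z ∉ N := fun h => Inv.odd_card_iff.1 hodd z h hz.1
  have htop : (Subgroup.centralizer ({z} : Set G)).map (QuotientGroup.mk' N) = ⊤ := by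
    rw [← (S1181.result z hz N hzN).1, eq_top_iff]
    intro x _
    obtain ⟨g, rfl⟩ := QuotientGroup.mk_surjective x
    rw [Subgroup.mem_centralizer_singleton_iff]
    have h1 := hN.conj_mem _ (hcomm (c⁻¹ * g * c)) c
    have e : c * (w * (c⁻¹ * g * c) * w⁻¹ * (c⁻¹ * g * c)⁻¹) * c⁻¹ = z * g * z⁻¹ * g⁻¹ := by
      rw [← hc]; group
    rw [e, ← QuotientGroup.eq_one_iff] at h1
    simp only [QuotientGroup.mk_mul, QuotientGroup.mk_inv] at h1
    rw [mul_inv_eq_one, mul_inv_eq_iff_eq_mul] at h1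
    exact h1.symm
  have hpN : p ∣ Nat.card N := by
    rw [Subgroup.card_eq_card_quotient_mul_card_subgroup N] at hpG
    rcases (Nat.Prime.dvd_mul hp.out).1 hpG with h | h
    · exfalso
      apply hpC
      rw [← Subgroup.card_top, ← htop] at h
      exact h.trans (Subgroup.card_map_dvd _ _)
    · exact h
  obtain ⟨P, hP⟩ := S0023.result (Subgroup.zpowers z) N (by rw [Subgroup.normalizer_eq_top]; exact le_top)
    (by rw [Nat.card_zpowers, hz.1]; exact Nat.coprime_two_left.2 hodd) (Or.inl inferInstance) p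
  refine exists_elem_of_invariant hz2 (P.isPGroup'.map N.subtype) ?_ (hP (Subgroup.mem_zpowers z))
  rw [Ne, Subgroup.map_eq_bot_iff_of_injective _ N.subtype_injective]
  exact P.ne_bot_of_dvd_card hpN

theorem exists_elem {p : ℕ} [hp : Fact p.Prime] (hp2 : p ≠ 2) (n : ℕ) :
    ∀ (G : Type u) [Group G] [Finite G], Nat.card G = n → ∀ z : G, IsIsolatedInvolution z →
      p ∣ Nat.card G → ∃ x : G, x ≠ 1 ∧ x ^ p = 1 ∧ (z * x * z⁻¹ = x ∨ z * x * z⁻¹ = x⁻¹) := by
  induction n using Nat.strong_induction_on with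
  | _ n ih =>
  intro G _ _ hn z hz hpG
  have hz2 := Inv.isolated_mul_self hz
  by_cases hpC : p ∣ Nat.card (Subgroup.centralizer ({z} : Set G))
  · obtain ⟨⟨x, hx⟩, hx1⟩ := exists_prime_orderOf_dvd_card' p hpC
    rw [Subgroup.orderOf_mk] at hx1
    refine ⟨x, ?_, by rw [← hx1, pow_orderOf_eq_one], Or.inl ?_⟩
    · rintro rfl
      rw [orderOf_one] at hx1
      exact hp.out.one_lt.ne hx1
    · rw [Subgroup.mem_centralizer_singleton_iff] at hx
      rw [← hx]; group
  by_cases hu : ∀ s : G, orderOf s = 2 → Commute s z → s = z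
  · exact exists_elem_rank_one hz hu hpG hpC
  push Not at hu
  obtain ⟨s, hs, hsz, hne⟩ := hu
  have hs2 := Inv.mul_self_of_orderOf_eq_two hs
  have h1 : p ∣ Nat.card {t : G // IsConj z t} := by
    rw [← Inv.Count.card_isConj_mul_card_centralizer z] at hpG
    exact ((Nat.Prime.dvd_mul hp.out).1 hpG).resolve_right hpC
  rw [Inv.isolated_card_conj_eq_mul hz hs2 hsz] at h1
  obtain ⟨w, hw, hwz, hwne, hpw⟩ : ∃ w : G, orderOf w = 2 ∧ Commute w z ∧ w ≠ z ∧
      p ∣ Nat.card {t : G // IsConj z t ∧ t ∈ Subgroup.centralizer ({w} : Set G)} := by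
    rcases (Nat.Prime.dvd_mul hp.out).1 h1 with h | h
    · refine ⟨s * z, Inv.orderOf_eq_two_of_mul_self ?_ ?_, hsz.mul_left (Commute.refl z), ?_, h⟩
      · intro h
        apply hne
        rw [eq_inv_of_mul_eq_one_left h, Inv.isolated_inv hz]
      · calc s * z * (s * z) = s * (z * s) * z := by group
          _ = (s * s) * (z * z) := by rw [← hsz.eq]; group
          _ = 1 := by rw [hs2, hz2, one_mul]
      · simpa using Inv.ne_one_of_orderOf_eq_two hs
    · exact ⟨s, hs, hsz, hne, h⟩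
  have hw2 := Inv.mul_self_of_orderOf_eq_two hw
  have hzw : z ∈ Subgroup.centralizer ({w} : Set G) :=
    Subgroup.mem_centralizer_singleton_iff.2 hwz.symm
  by_cases htop : Subgroup.centralizer ({w} : Set G) = ⊤
  · have hcen : ∀ g : G, g * w = w * g := fun g =>
      Subgroup.mem_centralizer_singleton_iff.1 (htop ▸ Subgroup.mem_top g)
    haveI hN : (Subgroup.zpowers w).Normal := by
      constructor
      intro x hx g
      rcases (Misc.mem_zpowers_two hw2).1 hx with rfl | rfl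
      · simp
      · rw [hcen g]; simp
    have hzN : z ∉ Subgroup.zpowers w := by
      rw [Misc.mem_zpowers_two hw2]
      rintro (h | h)
      · exact Inv.ne_one_of_orderOf_eq_two hz.1 h
      · exact hwne h.symm
    have hcard := Subgroup.card_eq_card_quotient_mul_card_subgroup (Subgroup.zpowers w)
    rw [Nat.card_zpowers, hw] at hcard
    have hpos : 0 < Nat.card (G ⧸ Subgroup.zpowers w) := Nat.card_pos
    obtain ⟨x, hx1, hxp, hxz⟩ := ih _ (by omega) (G ⧸ Subgroup.zpowers w) rfl _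
      (S1181.result z hz _ hzN).2 (by
        rw [hcard] at hpG
        refine ((Nat.Prime.dvd_mul hp.out).1 hpG).resolve_right fun h => hp2 ?_
        exact (Nat.prime_dvd_prime_iff_eq hp.out Nat.prime_two).1 h)
    obtain ⟨x, rfl⟩ := QuotientGroup.mk_surjective x
    have hsq : ∀ a b : G, (QuotientGroup.mk a : G ⧸ Subgroup.zpowers w) = QuotientGroup.mk b →
        a ^ 2 = b ^ 2 := by
      intro a b hab
      rcases (Misc.mem_zpowers_two hw2).1 (QuotientGroup.eq.1 hab) with h | h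
      · rw [inv_mul_eq_one] at h; rw [h]
      · rw [inv_mul_eq_iff_eq_mul] at h
        rw [h, pow_two, pow_two]
        calc a * a = a * a * (w * w) := by rw [hw2, mul_one]
          _ = a * (a * w) * w := by group
          _ = a * (w * a) * w := by rw [← hcen a]
          _ = a * w * (a * w) := by group
    refine ⟨x ^ 2, ?_, ?_, ?_⟩
    · intro h
      apply hx1
      have h2 : (QuotientGroup.mk x : G ⧸ Subgroup.zpowers w) ^ 2 = 1 := by
        rw [← QuotientGroup.mk_pow, h, QuotientGroup.mk_one]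
      have h3 := pow_gcd_eq_one.2 ⟨h2, hxp⟩
      rwa [(Nat.coprime_primes Nat.prime_two hp.out).2 hp2.symm, pow_one] at h3
    · rw [← pow_mul, mul_comm, pow_mul, hsq (x ^ p) 1 (by rw [QuotientGroup.mk_pow, hxp]; rfl),
        one_pow]
    · rcases hxz with h | h
      · left
        rw [← conj_pow]
        exact hsq _ _ h
      · right
        rw [← conj_pow, ← inv_pow]
        exact hsq _ _ h
  · rw [← Inv.isolated_relIndex_eq_card_conj hz hzw] at hpw
    obtain ⟨x, hx1, hxp, hxz⟩ := ih _ (hn ▸ Grp.card_lt_of_ne_top htop)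
      (Subgroup.centralizer ({w} : Set G)) rfl _
      (Inv.isolated_subgroup hz _ hzw) (hpw.trans (Subgroup.relIndex_dvd_card _ _))
    refine ⟨x, fun h => hx1 (Subtype.ext h), by simpa using congrArg Subtype.val hxp, ?_⟩
    rcases hxz with h | h
    · exact Or.inl (congrArg Subtype.val h)
    · exact Or.inr (congrArg Subtype.val h)


/-- Let z be an isolated involution of the finite group G and p a prime. If Q is a p-subgroup normalized by z that is maximal among p-subgroups normalized by z, then Q is a Sylow p-subgroup of G. -/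
theorem result {G : Type*} [Group G] [Finite G] (z : G) (hz : Cfsg.IsIsolatedInvolution z) {p : ℕ} [Fact p.Prime] (Q : Subgroup G) (hQ : IsPGroup p Q) (hzQ : z ∈ Subgroup.normalizer (Q : Set G)) (hmax : ∀ R : Subgroup G, IsPGroup p R → z ∈ Subgroup.normalizer (R : Set G) → Q ≤ R → R = Q) : ∃ P : Sylow p G, (P : Subgroup G) = Q := by
  have hp : p.Prime := Fact.out
  by_cases hp2 : p = 2
  · subst hp2
    have h1 : IsPGroup 2 ↥(Subgroup.zpowers z ⊔ Q) :=
      IsPGroup.to_sup_of_normal_right' (Inv.isPGroup_zpowers_of_orderOf_two hz.1) hQ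
        (Subgroup.zpowers_le.2 hzQ)
    obtain ⟨P, hP⟩ := h1.exists_le_sylow
    refine ⟨P, hmax _ P.isPGroup' (Subgroup.le_normalizer (hP ?_)) (le_sup_right.trans hP)⟩
    exact Subgroup.mem_sup_left (Subgroup.mem_zpowers z)
  obtain ⟨n, hn⟩ := IsPGroup.iff_card.1 hQ
  by_cases hdvd : p ^ (n + 1) ∣ Nat.card G
  swap
  · apply PLocal.RelSylow.exists_sylow_eq hQ
    intro h
    apply hdvd
    rw [← Q.card_mul_index, hn, pow_succ]
    exact Nat.mul_dvd_mul_left _ h
  exfalso
  have h1 := Sylow.prime_dvd_card_quotient_normalizer hdvd hn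
  set N := Subgroup.normalizer (Q : Set G) with hN
  have hzQ' : (⟨z, hzQ⟩ : N) ∉ Q.subgroupOf N := by
    intro h
    have h2 : z ∈ Q := h
    have h3 := Q.orderOf_dvd_natCard h2
    rw [hz.1, hn] at h3
    exact hp2 ((Nat.prime_dvd_prime_iff_eq Nat.prime_two hp).1
      (Nat.prime_two.dvd_of_dvd_pow h3)).symm
  obtain ⟨x, hx1, hxp, hxz⟩ := exists_elem hp2 _ (N ⧸ Q.subgroupOf N) rfl _
    (S1181.result _ (Inv.isolated_subgroup hz N hzQ) _ hzQ').2 h1
  have hxP : IsPGroup p (Subgroup.zpowers x) :=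
    Inv.isPGroup_zpowers_of_orderOf (k := 1) (by rw [pow_one]; exact orderOf_eq_prime hxp hx1)
  have hR : IsPGroup p (((Subgroup.zpowers x).comap (QuotientGroup.mk' (Q.subgroupOf N))).map
      N.subtype) := by
    refine (hxP.comap_of_ker_isPGroup _ ?_).map _
    rw [QuotientGroup.ker_mk']
    exact PLocal.RelSylow.isPGroup_subgroupOf hQ N
  have h2 := hmax _ hR ?_ ?_
  · obtain ⟨y, rfl⟩ := QuotientGroup.mk_surjective x
    apply hx1
    rw [QuotientGroup.eq_one_iff, Subgroup.mem_subgroupOf, ← h2]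
    exact ⟨y, Subgroup.mem_zpowers _, rfl⟩
  · apply PLocal.RelSylow.mem_normalizer_of_finite
    rintro _ ⟨y, hy, rfl⟩
    refine ⟨⟨z, hzQ⟩ * y * (⟨z, hzQ⟩ : N)⁻¹, ?_, rfl⟩
    rw [SetLike.mem_coe, Subgroup.mem_comap] at hy ⊢
    obtain ⟨k, hk⟩ := hy
    simp only [map_mul, map_inv, ← hk, ← conj_zpow]
    rcases hxz with h | h
    · rw [QuotientGroup.mk'_apply, h]
      exact Subgroup.zpow_mem _ (Subgroup.mem_zpowers _) k
    · rw [QuotientGroup.mk'_apply, h]
      exact Subgroup.zpow_mem _ (Subgroup.inv_mem _ (Subgroup.mem_zpowers _)) k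
  · intro y hy
    refine ⟨⟨y, Subgroup.le_normalizer hy⟩, ?_, rfl⟩
    rw [SetLike.mem_coe, Subgroup.mem_comap, QuotientGroup.mk'_apply,
      (QuotientGroup.eq_one_iff _).2 (by exact hy)]
    exact Subgroup.one_mem _

end Cfsg.Agent.S1187
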