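import Mathlib
import Cfsg.Statements.S1222
import Cfsg.Agent.Suz.Final
-- import your own Cfsg.Agent.* helpers here

set_option autoImplicit false
open Cfsg

namespace Cfsg.Agent.S1222

open MulAction RankOne Suz

/-- Let G be a finite simple group with a strongly embedded subgroup H such that H permutes transitively the cosets gH with g ∉ H, and H has a normal subgroup Q acting regularly on those cosets (transitively, with only the identity fixing any of them). Then G is isomorphic to PSL(2,F) with F of characteristic 2 and at least 4 elements, or is simple with the order of a Suzuki group, or is isomorphic to PSU(3) over a field with q² elements, q ≥ 4 a power of 2. -/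
theorem result {G : Type*} [Group G] [Finite G] [IsSimpleGroup G] (H : Subgroup G) (hH : Cfsg.IsStronglyEmbedded H) (Q : Subgroup G) (hQH : Q ≤ H) (hQn : (Q.subgroupOf H).Normal) (htrans : ∀ g₁ g₂ : G, g₁ ∉ H → g₂ ∉ H → ∃ u ∈ Q, g₂⁻¹ * (u * g₁) ∈ H) (hreg : ∀ g : G, g ∉ H → ∀ u ∈ Q, g⁻¹ * (u * g) ∈ H → u = 1) : (∃ (F : Type) (_ : Field F) (_ : Fintype F), CharP F 2 ∧ 4 ≤ Fintype.card F ∧ Nonempty (G ≃* Matrix.ProjectiveSpecialLinearGroup (Fin 2) F)) ∨ Cfsg.IsSuzuki G ∨ (∃ (F : Type) (_ : Field F) (_ : Fintype F) (q : ℕ), Fintype.card F = q ^ 2 ∧ Even q ∧ 4 ≤ q ∧ Nonempty (G ≃* Cfsg.PSU 3 F q)) := by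
  obtain ⟨s, -, hs1, hs2⟩ := exists_invol_of_even hH.2.1
  obtain ⟨t, ht, htH⟩ := exists_invol_not_mem inferInstance hH.1 hs1 hs2
  have hst : stabilizer G ((1 : G) : G ⧸ H) = H := stabilizer_quotient H
  have hsm : ∀ g x : G, g • (x : G ⧸ H) = ((g * x : G) : G ⧸ H) := fun g x => rfl
  have hS : IsRankOneSetup G (G ⧸ H) ((1 : G) : G ⧸ H) t Q := by
    refine setup_of_regular' ht (fun e => htH (hst ▸ e)) (hst.symm ▸ hQH) ?_ ?_ ?_
      (hst.symm ▸ hH.2.1) ?_
    · rw [hst]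
      exact fun h hh u hu => hQn.conj_mem ⟨u, hQH hu⟩ hu ⟨h, hh⟩
    · intro c hc
      obtain ⟨g, rfl⟩ := QuotientGroup.mk_surjective c
      obtain ⟨u, hu, e⟩ := htrans t g htH (fun h => hc (QuotientGroup.eq.mpr (by simpa using h)))
      exact ⟨u, hu, by rw [hsm, hsm, mul_one]; exact (QuotientGroup.eq.mpr e).symm⟩
    · intro q hq e
      rw [hsm, hsm, mul_one] at e
      exact hreg t htH q hq (QuotientGroup.eq.mp e.symm)
    · change Odd (Nat.card ↥(stabilizer G ((1 : G) : G ⧸ H) ⊓ stabilizer G (t • ((1 : G) : G ⧸ H))))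
      rw [stabilizer_smul_eq_stabilizer_map_conj, hst]
      exact hH.2.2 t htH
  have h4 : ∀ n : ℕ, 2 ≤ n → 4 ≤ 2 ^ n := fun n hn => Nat.pow_le_pow_right (n := 2) two_pos hn
  rcases suzuki_of_simple hS inferInstance with ⟨F, i1, i2, ⟨n, hn, hF⟩, e⟩ | h | ⟨F, i1, i2, n, hn, hF, e⟩
  · refine Or.inl ⟨F, i1, i2, ?_, hF ▸ h4 n hn, e⟩
    have : Fact (Nat.Prime 2) := ⟨Nat.prime_two⟩
    exact charP_of_card_eq_prime_pow hF
  · exact Or.inr (Or.inl (isSuzuki_of_isoSuzuki inferInstance h))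
  · exact Or.inr (Or.inr ⟨F, i1, i2, 2 ^ n, hF, Nat.even_pow.mpr ⟨even_two, by omega⟩, h4 n hn, e⟩)

end Cfsg.Agent.S1222
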