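import Cfsg.Statements.S1239
import Mathlib
import Cfsg.Agent.Inv.QGroup
import Cfsg.Agent.Inv.ZStarElem

set_option autoImplicit false
open Cfsg

namespace Cfsg.Agent.S1239

/-- Let X be a finite group whose Sylow 2-subgroup S is quasi-dihedral or wreathed, and suppose some involution of S is isolated in X. Then the product of the largest normal odd-order subgroup O(X) with the centre of S is normal in X. -/
theorem result {X : Type*} [Group X] [Finite X] (S : Sylow 2 X) (hS : Cfsg.IsQuasiDihedral (S : Subgroup X) ∨ Cfsg.IsWreathed (S : Subgroup X)) (z : X) (hzS : z ∈ S) (hz : Cfsg.IsIsolatedInvolution z) : (Cfsg.oddCore X ⊔ (Subgroup.center (S : Subgroup X)).map (S : Subgroup X).subtype).Normal := by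
  have hc : ∀ x ∈ (S : Subgroup X), x * z = z * x := fun x hx =>
    Inv.commute_of_isolated hz S.isPGroup' hzS hx
  rcases hS with hS | hS
  · obtain ⟨k, ⟨c⟩⟩ := Inv.exists_QDC hS
    rw [c.center_map_eq]
    rcases c.mem_zpowers_z.1 (c.eq_of_central hzS hc) with rfl | rfl
    · exact absurd hz.1 (by simp)
    · exact Inv.normal_oddCore_sup_of_isIsolated hz.2 ⟨1, by rw [pow_one, pow_two, c.z_sq]⟩
  · obtain ⟨k, ⟨c⟩⟩ := Inv.exists_WrC_of_isWreathed hS
    rw [c.center_map_eq Inv.WrC.N_ne_one]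
    obtain ⟨i, rfl⟩ := c.eq_of_central Inv.WrC.N_ne_one hzS hc
    refine Inv.normal_oddCore_sup_of_isIsolated (c.isIsolated_diag (fun h => ?_) 1)
      ⟨k + 2, by simp [Inv.Z2.two_pow_self]⟩
    rcases c.cases_of_orderOf_two hzS hz.1 with h1 | h1 | h1 | ⟨j, h1⟩
    · rw [c.u_inj] at h1
      exact Inv.WrC.h_ne_zero (h1.1.symm.trans h1.2)
    · rw [c.u_inj] at h1
      exact Inv.WrC.h_ne_zero (h1.2.symm.trans h1.1)
    · obtain ⟨g, hg⟩ := isConj_iff.1 h.symm
      rw [h1] at hz
      have := hz.2 g (by rw [hg]; exact (c.commute_diag (c.u_mem _ _) _).symm)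
      rw [hg, c.u_inj] at this
      exact Inv.WrC.h_ne_zero this.2.symm
    · exact c.u_ne_v _ _ _ _ h1

end Cfsg.Agent.S1239
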