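import Cfsg.Statements.S1253
import Mathlib
import Cfsg.Agent.Inv.IsolatedCount
import Cfsg.Agent.S1180
import Cfsg.Agent.S1187
import Cfsg.Agent.PLocal.RelSylow
import Cfsg.Agent.FGS.Conj

set_option autoImplicit false
open Cfsg

namespace Cfsg.Agent.S1253


/-- Let z be an isolated involution of the finite group G with centralizer C, p an odd prime and P a Sylow p-subgroup of G normalized by z. Then P ∩ C has p-power-free index in C (it is a Sylow p-subgroup of C), and |P : C_P(z)| equals the number of elements x ∈ P with z x z⁻¹ = x⁻¹. -/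
theorem result {G : Type*} [Group G] [Finite G] (z : G) (hz : Cfsg.IsIsolatedInvolution z) {p : ℕ} [Fact p.Prime] (hp : p ≠ 2) (P : Sylow p G) (hzP : z ∈ Subgroup.normalizer ((P : Subgroup G) : Set G)) : ¬ p ∣ ((P : Subgroup G) ⊓ Subgroup.centralizer ({z} : Set G)).relIndex (Subgroup.centralizer ({z} : Set G)) ∧ ((P : Subgroup G) ⊓ Subgroup.centralizer ({z} : Set G)).relIndex (P : Subgroup G) = Nat.card {x : G // x ∈ P ∧ z * x * z⁻¹ = x⁻¹} := by
  have hpp : p.Prime := Fact.out
  have hz2 := Inv.isolated_mul_self hz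
  set C := Subgroup.centralizer ({z} : Set G) with hC
  constructor
  · have hPC : IsPGroup p ↥((P : Subgroup G) ⊓ C) := P.isPGroup'.to_le inf_le_left
    obtain ⟨R, -, hRC, hRp, hRi⟩ := PLocal.RelSylow.exists_relSylow (H := C) inf_le_right hPC
    have hzR : z ∈ Subgroup.normalizer (R : Set G) := by
      apply Subgroup.centralizer_le_normalizer
      rw [Subgroup.mem_centralizer_iff]
      intro r hr
      exact Subgroup.mem_centralizer_singleton_iff.1 (hRC hr)
    obtain ⟨Q, hRQ, ⟨hQp, hzQ⟩, hmax⟩ := Finite.exists_le_maximal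
      (p := fun Q : Subgroup G => IsPGroup p Q ∧ z ∈ Subgroup.normalizer (Q : Set G))
      (a := R) ⟨hRp, hzR⟩
    obtain ⟨P₂, hP₂⟩ := S1187.result z hz Q hQp hzQ fun R' h1 h2 h3 =>
      le_antisymm (hmax ⟨h1, h2⟩ h3) h3
    obtain ⟨g, hg⟩ := MulAction.exists_smul_eq G P₂ P
    have hg' : Q.map (MulAut.conj g).toMonoidHom = P := by
      rw [← hP₂, ← FGS.sylow_smul_coe, hg]
    have h1 : g * z * g⁻¹ ∈ Subgroup.normalizer ((P : Subgroup G) : Set G) := by
      rw [← hg', FGS.normalizer_mapConj]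
      exact FGS.conj_mem_mapConj g hzQ
    obtain ⟨n, hn, hnz⟩ := S1180.result z hz _ hzP g h1
    have hc : n⁻¹ * g ∈ C := by
      rw [hC, Subgroup.mem_centralizer_singleton_iff]
      calc n⁻¹ * g * z = n⁻¹ * (g * z * g⁻¹) * g := by group
        _ = z * (n⁻¹ * g) := by rw [← hnz]; group
    apply PLocal.RelSylow.not_dvd_relIndex_of_card_le hRp hRi inf_le_right hPC
    rw [← FGS.card_mapConj R (n⁻¹ * g)]
    apply Subgroup.card_le_of_le
    refine le_inf ?_ (FGS.mapConj_le_of_mem hRC hc)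
    rw [FGS.mapConj_mul, ← FGS.mapConj_of_mem_normalizer (Subgroup.inv_mem _ hn),
      FGS.mapConj_le_mapConj_iff, ← hg', FGS.mapConj_le_mapConj_iff]
    exact hRQ
  · rw [Subgroup.inf_relIndex_left, Inv.isolated_relIndex_eq hz hzP]
    apply Nat.card_congr
    apply Equiv.subtypeEquivRight
    intro x
    constructor
    · rintro ⟨-, h1, h2⟩
      exact ⟨h2, h1⟩
    · rintro ⟨h1, h2⟩
      refine ⟨?_, h2, h1⟩
      obtain ⟨k, hk⟩ := P.isPGroup' ⟨x, h1⟩
      have hk' : x ^ p ^ k = 1 := by simpa using congrArg Subtype.val hk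
      exact ((hpp.odd_of_ne_two hp).pow (n := k)).of_dvd_nat (orderOf_dvd_of_pow_eq_one hk')

end Cfsg.Agent.S1253
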