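import Cfsg.Statements.S1305
import Mathlib
import Cfsg.Agent.PLocal.Standard

set_option autoImplicit false
open Cfsg

namespace Cfsg.Agent.S1305

open Subgroup PLocal PLocal.Amb in
theorem elemAb_sup {G : Type*} [Group G] {p : ℕ} {A B : Subgroup G} (hA : IsElementaryAbelian p A)
    (hB : IsElementaryAbelian p B) (h : A ≤ 𝐂[B]) : IsElementaryAbelian p (A ⊔ B) := by
  refine ⟨le_centralizer_iff_isMulCommutative.1 ?_, fun x hx => ?_⟩
  · rw [Amb.centralizer_sup]
    exact le_inf (sup_le (le_centralizer_iff_isMulCommutative.2 hA.1) (le_centralizer_iff.1 h))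
      (sup_le h (le_centralizer_iff_isMulCommutative.2 hB.1))
  · obtain ⟨a, ha, b, hb, rfl⟩ := (mem_sup_of_le_normalizer_right
      (h.trans (centralizer_le_normalizer' B))).1 hx
    rw [(show Commute a b from (h ha b hb).symm).mul_pow, hA.2 a ha, hB.2 b hb, one_mul]

/-- Let G be a finite group of component type with the B-property and no nontrivial normal subgroup of odd order. Let a be an involution and K a component of C_G(a) such that (a) |K| is maximal among the orders of components of centralizers of involutions of G, (b) subject to (a) the 2-rank of the centralizer of K in C_G(a) is as large as possible, and (c) K has 2-rank at least 2. If B is an elementary abelian 2-subgroup of that centralizer of the largest possible order, then K is a component of C_G(b) for every non-identity b ∈ B. -/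
theorem result {G : Type*} [Group G] [Finite G] (hO : Cfsg.oddCore G = ⊥) (hB : Cfsg.HasBProperty G) (hct : Cfsg.IsComponentType G) (a : G) (ha : orderOf a = 2) (K : Subgroup G) (hKa : K ≤ Subgroup.centralizer ({a} : Set G)) (hK : Cfsg.IsComponent (K.subgroupOf (Subgroup.centralizer ({a} : Set G)))) (hmax : ∀ y : G, orderOf y = 2 → ∀ K' : Subgroup G, K' ≤ Subgroup.centralizer ({y} : Set G) → Cfsg.IsComponent (K'.subgroupOf (Subgroup.centralizer ({y} : Set G))) → Nat.card ↥K' ≤ Nat.card ↥K ∧ (Nat.card ↥K' = Nat.card ↥K → ∀ k : ℕ, Cfsg.PRankLE 2 k ↥(Subgroup.centralizer ({a} : Set G) ⊓ Subgroup.centralizer (K : Set G)) → Cfsg.PRankLE 2 k ↥(Subgroup.centralizer ({y} : Set G) ⊓ Subgroup.centralizer (K' : Set G)))) (hrk : ¬ Cfsg.PRankLE 2 1 ↥K) (B : Subgroup G) (hBle : B ≤ Subgroup.centralizer ({a} : Set G) ⊓ Subgroup.centralizer (K : Set G)) (hBel : Cfsg.IsElementaryAbelian 2 B) (hBmax : ∀ B' : Subgroup G, B' ≤ Subgroup.centralizer ({a} : Set G) ⊓ Subgroup.centralizer (K : Set G) → Cfsg.IsElementaryAbelian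 2 B' → Nat.card ↥B' ≤ Nat.card ↥B) (b : G) (hb : b ∈ B) (hb1 : b ≠ 1) : K ≤ Subgroup.centralizer ({b} : Set G) ∧ Cfsg.IsComponent (K.subgroupOf (Subgroup.centralizer ({b} : Set G))) := by
  open Subgroup PLocal PLocal.Amb in
  open scoped commutatorElement in
  have hb2 := orderOf_eq_of_isElementaryAbelian hBel hb hb1
  have hKb : K ≤ centralizer {b} := Std.le_centralizer (hBle hb).2
  refine ⟨hKb, ?_⟩
  let Y := centralizer ({b} : Set G)
  have hBY : B ≤ Y := le_centralizer_singleton_of_isElementaryAbelian hBel hb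
  have hBa : B ≤ centralizer {a} := hBle.trans inf_le_left
  have haB : a ∈ B := by
    have h1 := elemAb_sup hBel (isElementaryAbelian_zpowers ha) (by rwa [Amb.centralizer_zpowers])
    have := eq_of_le_of_card_ge le_sup_left (hBmax _ (sup_le hBle (zpowers_le.2
      ⟨mem_centralizer_singleton_iff.2 rfl, fun k hk => mem_centralizer_singleton_iff.1 (hKa hk)⟩)) h1)
    exact this.ge (mem_sup_right (mem_zpowers a))
  let a' : Y := ⟨a, hBY haB⟩
  have ha' : orderOf a' = 2 := by rwa [← Subgroup.orderOf_coe]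
  have hC : centralizer {a'} = (centralizer {a}).subgroupOf Y := by
    ext x
    simp only [mem_subgroupOf, mem_centralizer_singleton_iff, Subtype.ext_iff, coe_mul, a']
  have hq := ((comp_subgroupOf_iff hKa).1 hK).2
  have h1 := IsPComponentOf.subgroupOf (isPComponentOf_two_of_comp hKa hK) hKb
  rw [← hC] at h1
  have h2 : K.subgroupOf Y ≤ layer Y := by
    have h3 := (hB b hb2).trans hO.le
    rw [le_bot_iff, map_eq_bot_iff_of_injective _ (subtype_injective _),
      commutator_eq_bot_iff_le_centralizer] at h3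
    refine (IsPComponentOf.le_pLayer_two' ha' h1).trans (pLayer_le_iff.2 fun L hL => ?_)
    exact comp_le_layer ⟨hL.1, (pcomp_qs_iff hL).2
      (inf_le_left.trans (le_centralizer_iff.1 ((pcomp_le_pLayer hL).trans h3)))⟩
  obtain ⟨J, hJ, hcase⟩ := pumpup_comp ha' h1.1 ((comp_subgroupOf_iff h1.1).2
    ⟨h1.2.1, (qsS_subgroupOf_iff hKb).2 hq⟩) h2
  obtain ⟨h3, h4⟩ := hmax b hb2 (J.map Y.subtype) (map_subtype_le _)
    (by rwa [map_subtype_subgroupOf])
  rw [Subgroup.card_map_of_injective Y.subtype_injective] at h3 h4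
  have hc : Nat.card (K.subgroupOf Y) = Nat.card K := Grp.card_subgroupOf_of_le hKb
  rcases hcase with h5 | ⟨h5, -⟩ | ⟨-, h5, h6⟩
  · rwa [h5]
  · exact absurd (Grp.card_lt_card_of_lt h5) (h3.trans hc.ge).not_gt
  exfalso
  have h7 := h5.card_range_le
  rw [← h6] at h7
  have h7' : Nat.card J = Nat.card K := le_antisymm h3 (hc.ge.trans h7)
  have hinj : Function.Injective h5.diagHom := by
    have := Grp.card_map_mul_card_ker_inf h5.diagHom ⊤
    rw [← MonoidHom.range_eq_map, inf_top_eq, card_top, ← h6] at this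
    rw [← MonoidHom.ker_eq_bot_iff]
    refine eq_bot_of_card_eq _ (Nat.eq_of_mul_eq_mul_left (Nat.card_pos (α := K.subgroupOf Y)) ?_)
    exact this.trans (h7'.trans (hc.symm.trans (mul_one _).symm))
  obtain ⟨k, hk⟩ := (isPGroup_of_isElementaryAbelian hBel).exists_card_eq
  have h8 := h4 h7' k fun A hA1 hA2 => by
    rw [← hk, ← Subgroup.card_map_of_injective (subtype_injective _)]
    exact hBmax _ (map_subtype_le _) (isElementaryAbelian_map ⟨hA1, hA2⟩ _)
  obtain ⟨E₀, hE1, hE2⟩ : ∃ E₀ : Subgroup K, IsElementaryAbelian 2 E₀ ∧ 2 < Nat.card E₀ := by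
    by_contra! h
    exact hrk fun A h1 h2 => by simpa using h A ⟨h1, h2⟩
  let e : K ≃* J := (subgroupOfEquivOfLe hKb).symm.trans
    ((MulEquiv.subgroupCongr h6).trans (MonoidHom.ofInjective hinj).symm)
  let E : Subgroup Y := cj(a', (E₀.map e.toMonoidHom).map J.subtype)
  have hE : IsElementaryAbelian 2 E :=
    isElementaryAbelian_map (isElementaryAbelian_map (isElementaryAbelian_map hE1 _) _) _
  have hEc : Nat.card E = Nat.card E₀ := by
    rw [card_cj, Subgroup.card_map_of_injective J.subtype_injective, Subgroup.card_map_of_injective e.injective]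
  have hEJ : E ≤ cj(a', J) := cj_mono _ (map_subtype_le _)
  have hB' := isElementaryAbelian_subgroupOf hBel Y
  let B₁ := B.subgroupOf Y ⊓ 𝐂[J ⊔ cycRest 2 a' J]
  have hB₁ : IsElementaryAbelian 2 B₁ := isElementaryAbelian_of_le hB' inf_le_left
  have hBa' : B.subgroupOf Y ≤ centralizer {a'} := hC ▸ comap_mono hBa
  have h9 : Nat.card B ≤ 2 * Nat.card B₁ := by
    have hn : zpowers a' ≤ 𝐍[B₁] := zpowers_le.2 (centralizer_le_normalizer' _ fun u hu =>
      mem_centralizer_singleton_iff.1 (hBa' hu.1))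
    have h10 : B.subgroupOf Y ≤ zpowers a' ⊔ B₁ := fun u hu => by
      obtain ⟨i, -, hi⟩ := h5.exists_eq_pow_mul hJ (hBa' hu) (by
        rw [← h6, centralizer_subgroupOf hKb]; exact (hBle hu).2)
      simpa using mul_mem (mem_sup_left (npow_mem_zpowers a' i)) (mem_sup_right (S := zpowers a')
        (T := B₁) (mem_inf.2 ⟨mul_mem (inv_mem (pow_mem (show a' ∈ B.subgroupOf Y from haB) i)) hu,
          hi⟩))
    rw [← Grp.card_subgroupOf_of_le hBY, ← ha', ← Nat.card_zpowers]
    exact (card_le_of_le h10).trans (Nat.le_of_dvd (Nat.mul_pos Nat.card_pos Nat.card_pos)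
      (Grp.card_sup_dvd_of_le_normalizer hn))
  have hBE : B₁ ≤ 𝐂[E] := inf_le_right.trans (centralizer_anti
    (hEJ.trans (le_sup_of_le_right (cycRest_two a' J).ge)))
  have h10 : B₁ ⊓ E = ⊥ := by
    refine eq_bot_iff.2 fun z hz => ?_
    have hza : z * a' = a' * z := mem_centralizer_singleton_iff.1 (hBa' hz.1.1)
    have hzJ : z ∈ J := by
      have := mem_cj.1 (hEJ hz.2)
      rwa [mul_assoc, hza, inv_mul_cancel_left] at this
    have : h5.diagHom ⟨z, hzJ⟩ = h5.diagHom 1 := by
      rw [map_one, h5.diagHom_apply, (show Commute z a' from hza).mul_pow, hE.2 z hz.2, h5.pow,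
        one_mul]
    exact congrArg Subtype.val (hinj this)
  have h11 := Grp.card_sup_mul_card_inf_of_le_normalizer (hBE.trans (centralizer_le_normalizer' E))
  rw [h10, card_bot, mul_one, hEc] at h11
  have h12 : (B₁ ⊔ E).map Y.subtype ≤ Y ⊓ 𝐂[J.map Y.subtype] := le_inf (map_subtype_le _)
    ((map_mono (sup_le (inf_le_right.trans (centralizer_anti le_sup_left))
      (hEJ.trans ((cycRest_two a' J).ge.trans h5.cycRest_le_centralizer)))).trans
      (map_centralizer_le_centralizer_map _ _))
  have h13 := isElementaryAbelian_subgroupOf (isElementaryAbelian_map (elemAb_sup hB₁ hE hBE)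
    Y.subtype) (Y ⊓ 𝐂[J.map Y.subtype])
  have h14 := h8 _ h13.1 h13.2
  rw [Grp.card_subgroupOf_of_le h12, Subgroup.card_map_of_injective Y.subtype_injective, h11, ← hk] at h14
  have := Nat.card_pos (α := B₁)
  nlinarith

end Cfsg.Agent.S1305
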