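import Cfsg.Statements.S1307
import Mathlib
import Cfsg.Agent.PLocal.Standard
import Cfsg.Agent.Inv.ZStarCor

set_option autoImplicit false
open Cfsg

namespace Cfsg.Agent.S1307

/-- Let G be finite, x an involution and L ≤ C_G(x) a component of C_G(x) of even order and 2-rank 1, such that L is a component of C_G(y) for every involution y ∈ C_G(L). Then some involution of L is a classical involution of G. -/
theorem result {G : Type*} [Group G] [Finite G] (x : G) (hx : orderOf x = 2) (L : Subgroup G) (hLx : L ≤ Subgroup.centralizer ({x} : Set G)) (hL : Cfsg.IsComponent (L.subgroupOf (Subgroup.centralizer ({x} : Set G)))) (heven : Even (Nat.card ↥L)) (hrk : Cfsg.PRankLE 2 1 ↥L) (hne : ∀ y : G, orderOf y = 2 → y ∈ Subgroup.centralizer (L : Set G) → L ≤ Subgroup.centralizer ({y} : Set G) ∧ Cfsg.IsComponent (L.subgroupOf (Subgroup.centralizer ({y} : Set G)))) : ∃ t ∈ L, Cfsg.IsClassicalInvolution t := by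
  open Subgroup PLocal PLocal.Amb in
  open scoped commutatorElement in
  have hq : IsQuasisimple L := ((comp_subgroupOf_iff hLx).1 hL).2
  obtain ⟨S⟩ : Nonempty (Sylow 2 L) := inferInstance
  obtain ⟨z, hz, hz2, hzc⟩ := Inv.exists_central_involution_of_isPGroup S.isPGroup'
    (S.ne_bot_of_dvd_card heven.two_dvd)
  have huniq : ∀ y ∈ (S : Subgroup L), orderOf y = 2 → y = z := fun y hy hy2 => Subtype.ext
    (eq_of_commute_of_pRankLE_one hrk y.2 z.2 (by rwa [Subgroup.orderOf_coe])
      (by rwa [Subgroup.orderOf_coe]) (congrArg Subtype.val (hzc y hy)))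
  have hO : oddCore L ≤ center L := (isPQS_of_qs hq heven.two_dvd).qs_iff.1 hq
  have hzZ : (z : G) ∈ 𝐂[L] := by
    have h1 : ⁅zpowers z, (⊤ : Subgroup L)⁆ ≤ center L :=
      CommMod.commutator_zpowers_le (by rw [normalizer_eq_top]; trivial) fun g _ =>
        hO (Inv.ZStar.commutator_mem_oddCore S hz2 hz
          (fun g hg => huniq _ hg (by rwa [orderOf_conj'])) g)
    have h2 := commutator_eq_bot_of_perfect (qs_commutator_eq_top hq) (H := zpowers z)
      (commutator_eq_bot_iff_le_centralizer.2 (h1.trans (center_le_centralizer _)))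
    exact fun l hl => congrArg Subtype.val
      (commutator_eq_bot_iff_le_centralizer.1 h2 (mem_zpowers z) ⟨l, hl⟩ (mem_top _))
  have hz2' : orderOf (z : G) = 2 := by rwa [Subgroup.orderOf_coe]
  obtain ⟨h1, h2⟩ := hne z hz2' hzZ
  refine ⟨z, z.2, hz2', L, h1, z.2, h2.1, S, ?_⟩
  refine (Inv.cyclic_or_quaternion_of_unique_involution' S.isPGroup' fun a ha b hb h3 h4 =>
    (huniq a ha h3).trans (huniq b hb h4).symm).resolve_left fun hc => ?_
  obtain ⟨s, hs⟩ := hc.exists_generator
  have h3 : IsSyl 2 ((S : Subgroup L).map L.subtype) L := isSyl_map_subtype S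
  have h4 : (S : Subgroup L).map L.subtype ≤ zpowers ((s : L) : G) := by
    rintro _ ⟨a, ha, rfl⟩
    obtain ⟨i, hi⟩ := hs ⟨a, ha⟩
    exact ⟨i, congrArg (fun x : (S : Subgroup L) => ((x : L) : G)) hi⟩
  refine not_le_zpowers_sup_centralizer (qsS_commutator hq) h3 ⟨s, s.2, rfl⟩ (fun h => ?_)
    (le_sup_of_le_left h4)
  exact not_le_centralizer_of_isSyl (qsS_commutator hq) heven.two_dvd h3
    (h4.trans (zpowers_le.2 h))

end Cfsg.Agent.S1307
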