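import Cfsg.Statements.S1313
import Mathlib
import Cfsg.Agent.PLocal.FStar

set_option autoImplicit false
open Cfsg

namespace Cfsg.Agent.S1313

theorem card_mul_card_mulAut_le (N : Type*) [Group N] [Finite N] :
    Nat.card N * Nat.card (MulAut N) ≤ (Nat.card N).factorial := by
  classical
  have := Fintype.ofFinite N
  rw [← Nat.card_prod, ← Nat.card_perm]
  refine Nat.card_le_card_of_injective
    (fun x : N × MulAut N => (x.2.toEquiv.trans (Equiv.mulLeft x.1) : Equiv.Perm N)) ?_
  rintro ⟨a, φ⟩ ⟨b, ψ⟩ h
  have h1 : ∀ y, a * φ y = b * ψ y := fun y => congrArg (fun e : Equiv.Perm N => e y) h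
  have hab : a = b := by simpa using h1 1
  subst hab
  refine Prod.ext rfl (MulEquiv.ext fun y => mul_left_cancel (h1 y))

/-- For a finite group H, |H| ≤ |F*(H)|!. -/
theorem result {H : Type*} [Group H] [Finite H] : Nat.card H ≤ Nat.factorial (Nat.card ↥(Cfsg.generalizedFittingSubgroup H)) := by
  have := PLocal.fstar_normal H
  set N := Cfsg.generalizedFittingSubgroup H with hN
  refine le_trans ?_ (card_mul_card_mulAut_le N)
  let f : H →* MulAut N := MulAut.conjNormal
  rw [← Subgroup.card_mul_index f.ker, Subgroup.index_ker]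
  refine Nat.mul_le_mul (Subgroup.card_le_of_le ?_) (Subgroup.card_le_card_group _)
  refine le_trans ?_ (PLocal.centralizer_fstar_le H)
  intro x hx
  rw [Subgroup.mem_centralizer_iff]
  intro y hy
  have h1 := congrArg (fun φ : MulAut N => ((φ ⟨y, hy⟩ : N) : H)) (MonoidHom.mem_ker.mp hx)
  simp only [f, MulAut.conjNormal_apply, MulAut.one_apply] at h1
  exact (mul_inv_eq_iff_eq_mul.mp h1).symm

end Cfsg.Agent.S1313
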