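import Cfsg.Statements.S1447
import Mathlib
import Cfsg.Agent.FT.Blackburn
import Cfsg.Agent.FT.BG4_5
import Cfsg.Agent.S0026
import Cfsg.Agent.S0055

set_option autoImplicit false
open Cfsg

namespace Cfsg.Agent.S1447

/-- Let G be a finite group, p an odd prime, R a metacyclic p-subgroup and A a subgroup of order coprime to p normalizing R. Then [R, A] is abelian; R is generated by [R, A] and R ∩ C_G(A), which meet trivially; and if R is non-abelian and A does not centralize R, then [R, A] and R ∩ C_G(A) are nontrivial cyclic groups and [R, R] ≤ [R, A]. -/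
theorem result {G : Type*} [Group G] [Finite G] (p : ℕ) [Fact p.Prime] (hp : p ≠ 2) (R A : Subgroup G) (hR : IsPGroup p R) (hRm : Cfsg.IsMetacyclic R)
    (hA : (A ≤ Subgroup.normalizer (R : Set G))) (hcop : (Nat.card A).Coprime p) :
    IsMulCommutative ↥⁅R, A⁆ ∧ ⁅R, A⁆ ⊔ (R ⊓ Subgroup.centralizer (A : Set G)) = R ∧ ⁅R, A⁆ ⊓ (R ⊓ Subgroup.centralizer (A : Set G)) = ⊥ ∧
      (¬ IsMulCommutative R → ¬ A ≤ Subgroup.centralizer (R : Set G) →
        ⁅R, A⁆ ≠ ⊥ ∧ IsCyclic ↥⁅R, A⁆ ∧ (R ⊓ Subgroup.centralizer (A : Set G)) ≠ ⊥ ∧ IsCyclic ↥(R ⊓ Subgroup.centralizer (A : Set G)) ∧ ⁅R, R⁆ ≤ ⁅R, A⁆) := by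
  have hcR : (Nat.card A).Coprime (Nat.card R) := Solv.coprime_card_of_isPGroup hR hcop
  have hs : Group.IsSolvable R := Solv.isSolvable_of_isPGroup hR
  have hTR : ⁅R, A⁆ ≤ R := FT.comm_le_left hA
  have hTT : ⁅⁅R, A⁆, A⁆ = ⁅R, A⁆ := Solv.coprime_commutator_commutator A R hA hcR (Or.inr hs)
  have hAT : A ≤ Subgroup.normalizer ((⁅R, A⁆ : Subgroup G) : Set G) := Solv.le_normalizer_commutator_right R A
  have hT : IsPGroup p ↥⁅R, A⁆ := hR.to_le hTR
  have hab : IsMulCommutative ↥⁅R, A⁆ := by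
    obtain ⟨_, h⟩ := FT.R2.exists_conjAction hAT hTT
    exact FT.R2.comm_of_metacyclic hp hT (FT.R2.isMetacyclic_of_le hTR hRm) hcop h
  have hsup := S0026.result A R hA hcR (Or.inr hs)
  have hinf : ⁅R, A⁆ ⊓ (R ⊓ Subgroup.centralizer (A : Set G)) = ⊥ := by
    have := (S0055.result A ⁅R, A⁆ hAT (Solv.coprime_card_of_isPGroup hT hcop)).1
    rw [hTT] at this
    exact eq_bot_iff.2 fun x hx => this.le ⟨⟨hx.1, hx.2.2⟩, hx.1⟩
  refine ⟨hab, hsup, hinf, fun hna hAc => ?_⟩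
  set T := ⁅R, A⁆ with hTdef
  set C := R ⊓ Subgroup.centralizer (A : Set G) with hC
  have hT0 : T ≠ ⊥ := fun h => hAc (FT.le_cent_comm.1 (FT.comm_eq_bot_iff.1 h))
  have hC0 : C ≠ ⊥ := fun h => hna (by rw [← hsup, h, sup_bot_eq]; exact hab)
  have hnc : ¬ IsCyclic R := fun h => hna inferInstance
  have hO := FT.bg4_10 hp hR hRm hnc
  have key : ∀ U V : Subgroup G, U ≤ R → V ≤ R → U ⊓ V = ⊥ → V ≠ ⊥ → IsCyclic U := by
    intro U V hU hV hUV hV0
    by_contra h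
    obtain ⟨E, hE, -⟩ := FT.bg4_5a hp (hR.to_le hU) h
    have h1 : E = omegaOne p R := PLocal.eq_of_le_of_card_le
      (PLocal.isEA_le_omegaOne hE.2.1 (hE.1.trans hU)) (by rw [hO.2.2, hE.2.2])
    refine PLocal.omegaOne_ne_bot_of_isPGroup (hR.to_le hV) hV0 (eq_bot_iff.2 ?_)
    rw [← hUV]
    exact le_inf ((PLocal.omegaOne_mono hV).trans (h1.ge.trans hE.1)) (PLocal.omegaOne_le V)
  have hCc := key C T inf_le_left hTR (by rwa [inf_comm]) hT0
  refine ⟨hT0, key T C hTR inf_le_left hinf hC0, hC0, hCc, ?_⟩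
  haveI : (T.subgroupOf R).Normal := FT.NormIn.normal ⟨hTR, Solv.le_normalizer_commutator_left R A⟩
  have h1 : T.subgroupOf R ⊔ C.subgroupOf R = ⊤ := by
    rw [← Subgroup.subgroupOf_sup hTR inf_le_left, hsup, Subgroup.subgroupOf_self]
  have h2 := Subgroup.Normal.commutator_le_of_self_sup_commutative_eq_top h1
    (FT.R2.isMulCommutative_subgroupOf (FT.abelian_of_isCyclic hCc))
  rw [← FT.commutator_map_subtype, ← Subgroup.map_subgroupOf_eq_of_le hTR]
  exact Subgroup.map_mono h2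

end Cfsg.Agent.S1447
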