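import Cfsg.Statements.S1618
import Cfsg.Agent.S0205
import Cfsg.Agent.S0215

set_option autoImplicit false
open Cfsg

namespace Cfsg.Agent.S1618

open Subgroup

universe u

theorem exists_normal_pgroup {G : Type u} [Group G] [Finite G] (N : Subgroup G) [N.Normal]
    [Group.IsNilpotent N] {q : ℕ} [Fact q.Prime] {x : G} (hx : x ∈ N) {k : ℕ}
    (hk : x ^ q ^ k = 1) : ∃ Q : Subgroup G, Q.Normal ∧ IsPGroup q Q ∧ x ∈ Q := by
  have hz : IsPGroup q (zpowers (⟨x, hx⟩ : N)) := by
    rintro ⟨y, m, rfl⟩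
    refine ⟨k, Subtype.ext (Subtype.ext ?_)⟩
    have : (x ^ m) ^ q ^ k = 1 := by
      rw [← zpow_natCast, ← zpow_mul, mul_comm, zpow_mul, zpow_natCast, hk, one_zpow]
    simpa using this
  obtain ⟨P, hP⟩ := hz.exists_le_sylow
  have hc : (P : Subgroup N).Characteristic := Sylow.characteristic_of_normal P inferInstance
  refine ⟨(P : Subgroup N).map N.subtype, inferInstance, P.isPGroup'.map _, ?_⟩
  exact ⟨⟨x, hx⟩, hP (mem_zpowers _), rfl⟩

theorem exists_normal_prime {G : Type u} [Group G] [Finite G] [hs : Group.IsSolvable G]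
    [Nontrivial G] : ∃ q : ℕ, q.Prime ∧ ∃ Q : Subgroup G, Q.Normal ∧ IsPGroup q Q ∧ Q ≠ ⊥ := by
  classical
  obtain ⟨n, hn⟩ := hs.solvable
  have hex : ∃ n, derivedSeries G n = ⊥ := ⟨n, hn⟩
  have h0 : Nat.find hex ≠ 0 := by
    intro h
    have := Nat.find_spec hex
    rw [h, derivedSeries_zero] at this
    exact top_ne_bot this
  obtain ⟨m, hm⟩ := Nat.exists_eq_succ_of_ne_zero h0
  have h1 : derivedSeries G m ≠ ⊥ := Nat.find_min hex (by omega)
  have h2 : derivedSeries G (m + 1) = ⊥ := by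
    have := Nat.find_spec hex
    rwa [hm] at this
  rw [derivedSeries_succ, commutator_eq_bot_iff_le_centralizer] at h2
  set A := derivedSeries G m with hA
  have : IsMulCommutative A := ⟨⟨fun a b => Subtype.ext ((h2 b.2 a a.2))⟩⟩
  have : Group.IsNilpotent A := by
    let : CommGroup A := { (inferInstance : Group A) with mul_comm := fun a b => mul_comm' a b }
    exact CommGroup.isNilpotent
  have hc : Nat.card A ≠ 1 := fun h => h1 (card_eq_one.1 h)
  obtain ⟨q, hq, hd⟩ := Nat.exists_prime_and_dvd hc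
  have : Fact q.Prime := ⟨hq⟩
  obtain ⟨x, hx⟩ := exists_prime_orderOf_dvd_card' q hd
  have hx1 : (x : G) ^ q ^ 1 = 1 := by
    have := pow_orderOf_eq_one x
    rw [hx] at this
    simpa using congrArg Subtype.val this
  obtain ⟨Q, h3, h4, h5⟩ := exists_normal_pgroup A x.2 hx1
  refine ⟨q, hq, Q, h3, h4, fun h => ?_⟩
  rw [h, mem_bot] at h5
  have : x = 1 := Subtype.ext h5
  rw [this, orderOf_one] at hx
  exact hq.one_lt.ne hx

theorem quot_hyp {G : Type u} [Group G] (N : Subgroup G) [N.Normal] {d : G}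
    (h : normalClosure {d} = ⊤) : normalClosure {(QuotientGroup.mk' N d)} = ⊤ := by
  have := map_normalClosure ({d} : Set G) (QuotientGroup.mk' N) (QuotientGroup.mk'_surjective N)
  rw [h, Set.image_singleton] at this
  rw [← this, ← MonoidHom.range_eq_map, MonoidHom.range_eq_top]
  exact QuotientGroup.mk'_surjective N

theorem le_of_gen {G : Type u} [Group G] {d : G} (h : normalClosure {d} = ⊤)
    (N : Subgroup G) [N.Normal] (hd : d ∈ N) : N = ⊤ :=
  top_le_iff.1 (h ▸ normalClosure_le_normal (by simpa using hd))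

theorem mem_comm_quot {G : Type u} [Group G] (N : Subgroup G) [N.Normal] {x : G}
    (hx : x ∈ commutator G) : QuotientGroup.mk' N x ∈ commutator (G ⧸ N) := by
  have : (commutator G).map (QuotientGroup.mk' N) ≤ commutator (G ⧸ N) := by
    rw [commutator_def, map_commutator]
    exact commutator_mono le_top le_top
  exact this ⟨x, hx, rfl⟩

theorem main (p : ℕ) [hp : Fact p.Prime] : ∀ (n : ℕ) (G : Type u) [Group G] [Finite G],
    Nat.card G = n → Group.IsSolvable G → ∀ d : G, normalClosure {d} = ⊤ →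
    (∀ g : G, ∃ k : ℕ, (d * (g * d⁻¹ * g⁻¹)) ^ p ^ k = 1) → IsPGroup p (commutator G) := by
  intro n
  induction n using Nat.strong_induction_on with
  | _ n ih =>
  intro G _ _ hn hs d hd hc
  have hq : ∀ N : Subgroup G, N ≠ ⊥ → ∀ [N.Normal], IsPGroup p (commutator (G ⧸ N)) := by
    intro N hN _
    refine ih (Nat.card (G ⧸ N)) ?_ (G ⧸ N) rfl inferInstance _ (quot_hyp N hd) ?_
    · rw [← hn, card_eq_card_quotient_mul_card_subgroup N]
      have h1 : 1 < Nat.card N := (one_lt_card_iff_ne_bot N).2 hN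
      have h2 : 0 < Nat.card (G ⧸ N) := Nat.card_pos
      nlinarith
    · intro g
      obtain ⟨g, rfl⟩ := QuotientGroup.mk'_surjective N g
      obtain ⟨k, hk⟩ := hc g
      exact ⟨k, by simpa using congrArg (QuotientGroup.mk' N) hk⟩
  by_cases hP : ∃ P : Subgroup G, P.Normal ∧ IsPGroup p P ∧ P ≠ ⊥
  · obtain ⟨P, h1, h2, h3⟩ := hP
    have h4 := hq P h3
    rintro ⟨x, hx⟩
    obtain ⟨k, hk⟩ := h4 ⟨_, mem_comm_quot P hx⟩
    have h5 : x ^ p ^ k ∈ P := by
      rw [← QuotientGroup.eq_one_iff]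
      simpa using congrArg Subtype.val hk
    obtain ⟨l, hl⟩ := h2 ⟨_, h5⟩
    refine ⟨k + l, Subtype.ext ?_⟩
    have := congrArg Subtype.val hl
    simp only [SubmonoidClass.mk_pow, OneMemClass.coe_one] at this ⊢
    rw [pow_add, pow_mul, this]
  have hcomm : (∀ g : G, d * (g * d⁻¹ * g⁻¹) = 1) → IsPGroup p (commutator G) := by
    intro h
    have hz : center G = ⊤ := by
      refine le_of_gen hd _ (mem_center_iff.2 fun g => ?_)
      have := h g
      calc g * d = d * (g * d⁻¹ * g⁻¹) * g * d := by rw [this]; group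
        _ = d * g := by group
    have : commutator G = ⊥ := by
      rw [commutator_def, commutator_eq_bot_iff_le_centralizer]
      intro x _ y _
      exact (mem_center_iff.1 (hz ▸ mem_top x : x ∈ center G) y)
    rw [this]
    exact IsPGroup.of_bot
  rcases subsingleton_or_nontrivial G with h0 | h0
  · exact hcomm fun g => Subsingleton.elim _ _
  obtain ⟨q, hq', Q, hQ1, hQ2, hQ3⟩ := exists_normal_prime (G := G)
  have : Fact q.Prime := ⟨hq'⟩
  have hpq : p ≠ q := fun h => hP ⟨Q, hQ1, h ▸ hQ2, hQ3⟩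
  have hcen : centralizer (Q : Set G) = ⊤ := by
    refine le_of_gen hd _ (mem_centralizer_iff.2 fun x hx => ?_)
    obtain ⟨k, hk⟩ := hc x
    have hm : d * (x * d⁻¹ * x⁻¹) ∈ Q := by
      have := Q.mul_mem (hQ1.conj_mem x hx d) (Q.inv_mem hx)
      simpa [mul_assoc] using this
    obtain ⟨l, hl⟩ := hQ2 ⟨_, hm⟩
    have hl' : (d * (x * d⁻¹ * x⁻¹)) ^ q ^ l = 1 := by simpa using congrArg Subtype.val hl
    have h1 : d * (x * d⁻¹ * x⁻¹) = 1 := by
      rw [← orderOf_eq_one_iff]
      exact Nat.eq_one_of_dvd_coprimes ((Nat.coprime_primes hp.out hq').2 hpq |>.pow k l)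
        (orderOf_dvd_of_pow_eq_one hk) (orderOf_dvd_of_pow_eq_one hl')
    calc x * d = d * (x * d⁻¹ * x⁻¹) * x * d := by rw [h1]; group
      _ = d * x := by group
  have h4 := hq Q hQ3
  have : Group.IsNilpotent (commutator (G ⧸ Q)) := h4.isNilpotent
  let f : commutator G →* commutator (G ⧸ Q) :=
    ((QuotientGroup.mk' Q).comp (commutator G).subtype).codRestrict _
      fun x => mem_comm_quot Q x.2
  have : Group.IsNilpotent (commutator G) := by
    refine Subgroup.isNilpotent_of_ker_le_center f fun x hx => mem_center_iff.2 fun y => ?_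
    have hxQ : (x : G) ∈ Q := by
      rw [← QuotientGroup.eq_one_iff]
      exact congrArg Subtype.val hx
    have hy : (y : G) ∈ centralizer (Q : Set G) := hcen ▸ mem_top (y : G)
    exact Subtype.ext ((mem_centralizer_iff.1 hy x hxQ).symm)
  refine hcomm fun g => ?_
  obtain ⟨k, hk⟩ := hc g
  have hm : d * (g * d⁻¹ * g⁻¹) ∈ commutator G := by
    have := commutator_mem_commutator (mem_top d) (mem_top g)
    simpa [_root_.commutator_def, commutatorElement_def, mul_assoc] using this
  obtain ⟨R, h1, h2, h3⟩ := exists_normal_pgroup (commutator G) hm hk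
  by_contra hne
  exact hP ⟨R, h1, h2, fun h => hne (by simpa [h] using h3)⟩



/-- A group generated by a class of involutions whose pairwise products (of distinct members) have p-power order for a fixed odd prime p has nilpotent derived subgroup. -/
theorem result {G : Type*} [Group G] [Finite G] (p : ℕ) (hp : p.Prime) (hodd : p ≠ 2) {D : Set G} (hinv : ∀ d ∈ D, orderOf d = 2) (hconj : ∃ d ∈ D, D = conjugatesOf d) (hgen : Subgroup.closure D = ⊤) (hprod : ∀ x ∈ D, ∀ y ∈ D, x ≠ y → ∃ k : ℕ, orderOf (x * y) = p ^ k) : Group.IsNilpotent ↥(commutator G) := by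
  have : Fact p.Prime := ⟨hp⟩
  obtain ⟨d, hd, rfl⟩ := hconj
  have hd2 : orderOf d = 2 := hinv d hd
  have hdd : d⁻¹ = d := by
    rw [inv_eq_iff_mul_eq_one, ← pow_two, ← hd2, pow_orderOf_eq_one]
  have hmem : ∀ g : G, g * d * g⁻¹ ∈ conjugatesOf d := fun g => isConj_iff.2 ⟨g, rfl⟩
  have hnc : normalClosure {d} = ⊤ := by
    rw [← hgen, normalClosure]
    congr 1
    ext x
    simp [Group.mem_conjugatesOfSet_iff, conjugatesOf]
  have hc : ∀ g : G, ∃ k : ℕ, (d * (g * d⁻¹ * g⁻¹)) ^ p ^ k = 1 := by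
    intro g
    rw [hdd]
    by_cases h : d = g * d * g⁻¹
    · refine ⟨0, ?_⟩
      rw [← h, pow_zero, pow_one, ← pow_two, ← hd2, pow_orderOf_eq_one]
    · obtain ⟨k, hk⟩ := hprod d hd _ (hmem g) h
      exact ⟨k, by rw [← hk, pow_orderOf_eq_one]⟩
  have hz : IsPGroup 2 (zpowers d) := IsPGroup.of_card (n := 1) (by rw [Nat.card_zpowers, hd2]; rfl)
  obtain ⟨P, hP⟩ := hz.exists_le_sylow
  have hdP : d ∈ P := hP (mem_zpowers d)
  obtain ⟨N, hN, hodd', hcm⟩ := Cfsg.Agent.S0215.result P d hd2 hdP (by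
    intro g hg
    obtain ⟨k, hk⟩ := hc g
    rw [hdd] at hk
    obtain ⟨l, hl⟩ := P.isPGroup' ⟨d * (g * d * g⁻¹), P.1.mul_mem hdP hg⟩
    have hl' : (d * (g * d * g⁻¹)) ^ 2 ^ l = 1 := by simpa using congrArg Subtype.val hl
    have h1 : d * (g * d * g⁻¹) = 1 := by
      rw [← orderOf_eq_one_iff]
      exact Nat.eq_one_of_dvd_coprimes ((Nat.coprime_primes hp Nat.prime_two).2 hodd |>.pow k l)
        (orderOf_dvd_of_pow_eq_one hk) (orderOf_dvd_of_pow_eq_one hl')
    exact (eq_inv_of_mul_eq_one_right h1).trans (by rw [hdd]))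
  have hsN : Group.IsSolvable N := Cfsg.Agent.S0205.result hodd'
  have hcomm : ∀ a b : G ⧸ N, a * b = b * a := by
    have hz : center (G ⧸ N) = ⊤ := by
      refine le_of_gen (quot_hyp N hnc) _ (mem_center_iff.2 fun g => ?_)
      obtain ⟨g, rfl⟩ := QuotientGroup.mk'_surjective N g
      have := (QuotientGroup.eq_one_iff _).2 (hcm g)
      have h2 : QuotientGroup.mk' N d * QuotientGroup.mk' N g * (QuotientGroup.mk' N d)⁻¹ *
          (QuotientGroup.mk' N g)⁻¹ = 1 := by simpa using this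
      calc _ = 1 * (QuotientGroup.mk' N g * QuotientGroup.mk' N d) := by group
        _ = _ := by rw [← h2]; group
    intro a b
    exact (mem_center_iff.1 (hz ▸ mem_top b : b ∈ center (G ⧸ N)) a)
  have : Group.IsSolvable (G ⧸ N) := Group.isSolvable_of_comm hcomm
  have hs : Group.IsSolvable G :=
    Group.isSolvable_of_ker_le_range N.subtype (QuotientGroup.mk' N) (by simp)
  exact (main p _ G rfl hs d hnc hc).isNilpotent

end Cfsg.Agent.S1618
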