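import Cfsg.Statements.S1648
import Mathlib
import Cfsg.Agent.MonL.Nwc
import Cfsg.Agent.MonU.EqMG
import Cfsg.Agent.Mon.Design

set_option autoImplicit false
open Cfsg

namespace Cfsg.Agent.S1648

/-- Let a finite simple group contain involutions x and y such that the centraliser of x is a non-split double cover of the Baby Monster and the centraliser C of y has a normal subgroup Q, extraspecial of order 2 ^ 25 with an elementary abelian subgroup of order 2 ^ 13, whose centraliser in C lies in Q, with C / Q isomorphic to the first Conway group. Then the group has exactly two conjugacy classes of involutions and order 2^46·3^20·5^9·7^6·11^2·13^3·17·19·23·29·31·41·47·59·71. -/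
theorem result {G : Type*} [Group G] [Finite G] [IsSimpleGroup G] (x : G) (hx : orderOf x = 2) (hcovx : Cfsg.IsNonsplitDoubleCover (Subgroup.centralizer ({x} : Set G)) Cfsg.Spor.BabyMonster) (y : G) (hy : orderOf y = 2) (Q : Subgroup (Subgroup.centralizer ({y} : Set G))) [Q.Normal] (hQ : Cfsg.IsExtraspecial 2 Q) (hcard : Nat.card Q = 2 ^ 25) (hplus : ∃ E : Subgroup Q, Cfsg.IsElementaryAbelian 2 E ∧ Nat.card E = 2 ^ 13) (h2c : Subgroup.centralizer (Q : Set (Subgroup.centralizer ({y} : Set G))) ≤ Q) (hCo1 : Cfsg.Spor.IsoCo1 ((Subgroup.centralizer ({y} : Set G)) ⧸ Q)) : Cfsg.IsM G ∧ ∃ x y : G, orderOf x = 2 ∧ orderOf y = 2 ∧ ¬ IsConj x y ∧ ∀ z : G, orderOf z = 2 → IsConj z x ∨ IsConj z y := by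
  obtain ⟨z, R, _, h⟩ := MonL.monsterType_of_shape hy Q hQ hcard h2c hCo1
  obtain ⟨e, -⟩ := MonU.equiv_MG h
  have hA : Mon.psi Spor.leechU ∈ Mon.cA Mon.psi := IsConj.refl _
  have hB : Mon.zG ∈ Mon.cB Mon.zG := IsConj.refl _
  refine ⟨⟨inferInstance, (Nat.card_congr e.toEquiv).symm.trans MonU.card_MG⟩, e _, e _,
    (e.orderOf_eq _).trans (Mon.if1.sq_A hA), (e.orderOf_eq _).trans (Mon.if1.sq_B hB), fun c => ?_,
    fun t ht => ?_⟩
  · exact Mon.if1.disj hA (show IsConj _ _ by simpa using (e.symm.toMonoidHom.map_isConj c).symm)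
  · rcases Mon.if1.two_classes ((e.symm.orderOf_eq t).trans ht) with c | c
    · exact Or.inl (by simpa using (e.toMonoidHom.map_isConj c).symm)
    · exact Or.inr (by simpa using (e.toMonoidHom.map_isConj c).symm)

end Cfsg.Agent.S1648
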