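import Cfsg.Statements.S1659
import Cfsg.Agent.He5.QMain
import Cfsg.Agent.He5.Main
import Cfsg.Agent.LES.Setting
import Cfsg.Agent.S0364
import Cfsg.Agent.Spor.He.Model

set_option autoImplicit false
open Cfsg

namespace Cfsg.Agent.S1659

open Cfsg.Agent.He5 Cfsg.Agent.TT Cfsg.Agent.LES

/-- Uniqueness of the Held group at the level of isomorphism: a finite simple group of order 4030387200 with exactly two conjugacy classes of involutions, having an involution t whose centraliser C has a normal subgroup Q, extraspecial of order 2 ^ 7 with an elementary abelian subgroup of order 16, whose centraliser in C lies in Q, and with C / Q isomorphic to SL(3, 2), is isomorphic to the presented Held group. -/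
theorem result {G : Type*} [Group G] [Finite G] [IsSimpleGroup G] (t : G) (ht : orderOf t = 2) (Q : Subgroup (Subgroup.centralizer ({t} : Set G))) [Q.Normal] (hQ : Cfsg.IsExtraspecial 2 Q) (hcard : Nat.card Q = 2 ^ 7) (hplus : ∃ E : Subgroup Q, Cfsg.IsElementaryAbelian 2 E ∧ Nat.card E = 2 ^ 4) (h2c : Subgroup.centralizer (Q : Set (Subgroup.centralizer ({t} : Set G))) ≤ Q) (e : (Subgroup.centralizer ({t} : Set G)) ⧸ Q ≃* Matrix.SpecialLinearGroup (Fin 3) (ZMod 2)) (hG : Nat.card G = 4030387200) (htwo : ∃ x y : G, orderOf x = 2 ∧ orderOf y = 2 ∧ ¬ IsConj x y ∧ ∀ z : G, orderOf z = 2 → IsConj z x ∨ IsConj z y) : Cfsg.Spor.IsoHe G := by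
  have hp : ¬ Cfsg.PRankLE 2 3 (Q.map (Subgroup.centralizer ({t} : Set G)).subtype) := fun h =>
    not_pRankLE_of hplus (pRankLE_congr (Q.equivMapOfInjective _ (Subgroup.subtype_injective _)) h)
  rcases cod_or_bad (LX_of_selfCent ht Q hQ h2c) ((card_map_subtype Q).trans hcard) hp
    (e.toMonoidHom.comp (QuotientGroup.mk' Q)) (e.surjective.comp (QuotientGroup.mk'_surjective Q))
    (fun c => by simp [coe_mem_map_subtype]) with ⟨φ, h⟩ | h
  · obtain ⟨u, h1, h2, h3⟩ := h.exists_conj
    rcases h.main h1 h2 h3 with a | ⟨⟨a⟩⟩ | ⟨⟨a⟩⟩ | a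
    · exact absurd ‹_› a.2
    · exact absurd ((Nat.card_congr a.toEquiv).trans Id.card_SL5) (by rw [hG]; decide)
    · exact absurd ((Nat.card_congr a.toEquiv).trans S0364.result) (by rw [hG]; decide)
    · exact a
  · obtain ⟨a, c, h1, h2, h3, h4, h5⟩ := h.2 inferInstance (by rw [hG]; decide)
    obtain ⟨x, y, -, -, -, k⟩ := htwo
    rcases k t ht with b1 | b1 <;> rcases k a h1 with b2 | b2 <;> rcases k c h2 with b3 | b3 <;>
      first
        | exact absurd (b1.trans b2.symm) h3
        | exact absurd (b1.trans b3.symm) h4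
        | exact absurd (b2.trans b3.symm) h5


end Cfsg.Agent.S1659
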