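import Cfsg.Statements.S1669
import Cfsg.Agent.R3.RuF
import Cfsg.Agent.Spor.ModelRu
import Cfsg.Agent.Chev.Tits1

set_option autoImplicit false
open Cfsg

namespace Cfsg.Agent.S1669

open Cfsg.Agent.Comp Cfsg.Agent.R3 Cfsg.Agent.R3.Ru MulAction

local notation "H" => gen ns (sTop A_S1)

theorem st0 : IsStab 4096 (gen ns [[0], [2]]) H 0 (A_d0.D ns) := A_ex.2.1 ▸ A_ex.1.stab

theorem st1 : IsStab 4096 H (gen ns (sTop A_S2)) 52 (A_d1.D ns) := A_ex.1.tail.stab

theorem cards : (mset 4096 (A_d1.D ns)).card = 2304 ∧ (mset 4096 D1).card = 1755 := by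
  rw [← pcN_eq ctx.le, ← pcN_eq ctx.le]
  decide +kernel

instance finH : Finite H := Nat.finite_of_card_ne_zero (by rw [hH]; norm_num)

theorem le_H : gen ns mws ≤ H ∧ gen ns bws ≤ H ∧ gen ns P_ss0 ≤ H ∧ gen ns U_ss0 ≤ H ∧
    gen ns tw ≤ H := by
  have h := H_in
  simp only [and'_eq_true] at h
  exact ⟨KH.gen_le h.1, KH.gen_le h.2.1, KH.gen_le h.2.2.1, KH.gen_le h.2.2.2.1,
    KH.gen_le h.2.2.2.2⟩

theorem exists_model : Nonempty (Cfsg.Lie.twistedF4 (ZMod 2) 1 ≃* H) := by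
  have mem : ∀ j < 4, wp ns (getL [] tw j) ∈ (H).subtype.range := fun j hj =>
    ⟨⟨_, le_H.2.2.2.2 (wp_mem_gen ns (getL_mem _ hj))⟩, rfl⟩
  have reps : Reps 1755 Ru.lab (H).subtype.range Chev.TitsM.ns Chev.TitsM.ls :=
    Reps.cons ⟨_, mem 0 (by norm_num), repBy_of_chkLab ctx Chev.TitsM.ctx (by decide +kernel)⟩
    (Reps.cons ⟨_, mem 1 (by norm_num), repBy_of_chkLab ctx Chev.TitsM.ctx (by decide +kernel)⟩
    (Reps.cons ⟨_, mem 2 (by norm_num), repBy_of_chkLab ctx Chev.TitsM.ctx (by decide +kernel)⟩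
    (Reps.cons ⟨_, mem 3 (by norm_num), repBy_of_chkLab ctx Chev.TitsM.ctx (by decide +kernel)⟩
      Reps.nil)))
  have inj := reps.inj Chev.TitsM.ctx (ps := [0]) 7 (List.forall_mem_cons.2
    ⟨sep_of_chkSepLab (by decide +kernel), fun _ h => absurd h List.not_mem_nil⟩) Chev.TitsM.cover
  obtain ⟨e, -⟩ := reps.exists_equiv _ inj le_rfl (by rw [hH]; exact Chev.Tits.G_lb)
  obtain ⟨f, -⟩ := Chev.Tits.model
  exact ⟨f.trans e.symm⟩

theorem fix1755 {K : Subgroup (Equiv.Perm ℕ)} (hK : K ≤ H) (hU : gen ns U_ss0 ≤ K)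
    (hc : Nat.card K = 20480) : ∀ g ∈ K, g 1 = 1 := by
  obtain ⟨X, h1, h2, h3, h4⟩ := exists_orbit_union ctx st2 hK hU U_card (by norm_num)
    (m := 5) hc U_fix
  have h5 := (allL_iff _ _).1 U_un X h1
  simp only [or'_eq_true, not'_eq_true, tb_eq, beq_iff] at h5
  rcases h5 with h5 | h5 | rfl
  · exact absurd h2 h5
  · exact absurd (Nat.mod_eq_zero_of_dvd h3) h5
  · exact fix_of_orbit h4

/-- The property of the double coset representatives. -/
def Good (u : Equiv.Perm ℕ) : Prop :=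
  u ∈ H ∧ ∀ K ≤ H, Nat.card K = 15600 → gen ns P_ss0 ≤ K → u⁻¹ * wp ns [46] * u ∈ K →
    ∀ g ∈ K, g 52 = 52

theorem bigW_mem {K : Subgroup (Equiv.Perm ℕ)} (hP : gen ns P_ss0 ≤ K) {u : List ℕ}
    (h : (wp ns u)⁻¹ * wp ns [46] * wp ns u ∈ K) : ∀ v ∈ bigW u, wp ns v ∈ K := by
  have h1 : wp ns [110] ∈ K := hP (wp_mem_gen ns (by decide +kernel))
  have h2 : wp ns [112] ∈ K := hP (wp_mem_gen ns (by decide +kernel))
  simp only [bigW, List.forall_mem_cons]
  refine ⟨by simpa [appendR_eq, wp_invW, mul_assoc] using h, h1, by simpa using mul_mem h1 h1, h2,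
    by simpa using mul_mem h2 h2, by simp⟩

theorem good_of_big {Q : List (List ℕ × T3)} (h : allL Q (fun r => and' (wordIn (sTop A_S1) r.1)
    (Nat.blt 1560 (pcN 4096 12 (orb ns (bigW r.1) 3 1)))) = true) : ∀ r ∈ Q, Good (wp ns r.1) := by
  intro r hr
  have h1 := (allL_iff _ _).1 h r hr
  rw [and'_eq_true, blt_iff] at h1
  refine ⟨mem_of_wordIn h1.1, fun K hK hc hP hs => ?_⟩
  obtain ⟨k, h2, h3, d, h4⟩ := exists_orbit_dvd ctx (r := 3) st2 hK (bigW_mem hP hs)
    ((st2.orb 1).1 ⟨1, one_mem _, rfl⟩)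
  rw [cards.2] at h3
  rw [hc] at h4
  have : 8 < d := by by_contra h5; nlinarith
  have : d < 10 := by by_contra h5; nlinarith
  obtain rfl : d = 9 := by omega
  omega

theorem good_zero : ∀ r ∈ Q0, Good (wp ns r.1) := by
  refine List.forall_mem_singleton.2 ⟨one_mem _, fun K hK hc hP hs => ?_⟩
  have h := L_in
  simp only [and'_eq_true] at h
  obtain ⟨X, h1, h2, h3, h4⟩ := exists_orbit_union' ctx st1 hK (bigW_mem (u := us) hP hs)
    ((st1.orb 52).1 ⟨1, one_mem _, rfl⟩) h.2.2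
  have h5 := (allL_iff _ _).1 L_un X h1
  simp only [or'_eq_true, not'_eq_true, tb_eq, beq_iff] at h5
  rcases h5 with h5 | h5 | rfl
  · exact absurd h2 h5
  · exact absurd (Nat.mod_eq_zero_of_dvd (hc ▸ h3)) h5
  · exact fix_of_orbit h4

theorem dc : ∀ g ∈ H, ∃ u, Good u ∧ ∃ a ∈ gen ns mws, ∃ b ∈ gen ns bws, g = a * u * b := by
  have h0 : wp ns [46] ∈ gen ns mws := wp_mem_gen ns (by decide +kernel)
  have h1 : wp ns [108] ∈ gen ns mws := wp_mem_gen ns (by decide +kernel)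
  have h2 : wp ns [109] ∈ gen ns mws := mem_of_wordIn (by decide +kernel)
  have hb := B_lb
  rw [and'_eq_true, ble_iff] at hb
  have := finite_gen ctx.ok bws
  have h3 := hb.2.trans ((lbVal_le ctx _).trans
    (Subgroup.card_le_of_le (gen_le_iff.2 (mem_of_wordsIn hb.1))))
  exact dc_of_hit le_H.1 le_H.2.1 (fun _ hg => smul_mset_of_maskStab (gen_le_supp ctx.ok _ hg)
      (gen_le_maskStab ctx.ok ((and'_eq_true _ _).1 B_norm).1 hg)) (fun _ h => h.1)
    ((hit_forest ctx.ok h0 h1 h2 good_zero Q0_for).lor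
    ((hit_forest ctx.ok h0 h1 h2 (good_of_big Q1_big) Q1_for).lor
    ((hit_forest ctx.ok h0 h1 h2 (good_of_big Q2_big) Q2_for).lor
    ((hit_forest ctx.ok h0 h1 h2 (good_of_big Q3_big) Q3_for).lor
    ((hit_forest ctx.ok h0 h1 h2 (good_of_big Q4_big) Q4_for).lor
    ((hit_forest ctx.ok h0 h1 h2 (good_of_big Q5_big) Q5_for).lor
    ((hit_forest ctx.ok h0 h1 h2 (good_of_big Q6_big) Q6_for).lor
    ((hit_forest ctx.ok h0 h1 h2 (good_of_big Q7_big) Q7_for).lor
    ((hit_forest ctx.ok h0 h1 h2 (good_of_big Q8_big) Q8_for).lor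
    (hit_forest ctx.ok h0 h1 h2 (good_of_big Q9_big) Q9_for))))))))))
    (by rw [hH]; omega) X_pc

theorem fix2304 {K : Subgroup (Equiv.Perm ℕ)} (hK : K ≤ H) (hS : gen ns S_ss0 ≤ K)
    (hc : Nat.card K = 15600) : ∃ y ∈ mset 4096 (A_d1.D ns), ∀ g ∈ K, g y = y := by
  obtain ⟨x, hx, h1⟩ := exists_syl_conj (p := 5) (k := 2) (by norm_num) le_H.2.2.1 hK P_card
    (by rw [hc]; norm_num) (by rw [hH]; norm_num)
  obtain ⟨u, hu, a, ha, b, hb, e⟩ := dc _ (inv_mem hx)
  have h2 := mul_mem (le_H.1 ha) hu.1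
  obtain ⟨K', h3, h4, h5, h6, h7⟩ := exists_conj_dc₂ (conj_mem_of_normB ctx M_norm)
    (conj_mem_of_normB ctx ((and'_eq_true _ _).1 B_norm).2) hK hS ha hb h2
    (by rw [← e, inv_inv]; exact h1)
  refine ⟨(a * u) 52, (st1.orb _).1 ⟨_, h2, rfl⟩, fun g hg => ?_⟩
  have := hu.2 K' h3 (h4.trans hc) h5 (h6 _ (wp_mem_gen ns (by decide +kernel))) _ (h7 g hg)
  rwa [Equiv.Perm.mul_apply, Equiv.Perm.mul_apply, Equiv.Perm.inv_eq_iff_eq] at this

/-- Recognition of the Rudvalis group as a rank 3 permutation group: a transitive permutation group on 4060 points in which the stabiliser of a point is isomorphic to the Ree group ²F₄(2) and has two further orbits, of sizes 1755 and 2304, is isomorphic to the Rudvalis group. -/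
theorem result {Ω : Type*} [Fintype Ω] [DecidableEq Ω] (hΩ : Fintype.card Ω = 4060) (G : Subgroup (Equiv.Perm Ω)) [MulAction.IsPretransitive G Ω] (a : Ω)  (e : MulAction.stabilizer G a ≃* Cfsg.Lie.twistedF4 (ZMod 2) 1) (b c : Ω) (hb : (MulAction.orbit (MulAction.stabilizer G a) b).ncard = 1755) (hc : (MulAction.orbit (MulAction.stabilizer G a) c).ncard = 2304) : Cfsg.Spor.IsoRu G := by
  obtain ⟨e0⟩ := exists_model
  let e' := e.trans e0
  obtain ⟨b', hb1, hb2⟩ := exists_le_img e' b (p := 2) (k := 12) (by norm_num) le_H.2.2.2.1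
    U_card (by rw [card_img_eq e' hb (by norm_num) (m := 20480) hH]; norm_num)
    (by rw [hH]; norm_num)
  obtain ⟨c', hc1, hc2⟩ := exists_le_img e' c (p := 13) (k := 1) (by norm_num)
    ((gen_le_of_subsetL ns (by decide +kernel)).trans le_H.1) S_card
    (by rw [card_img_eq e' hc (by norm_num) (m := 15600) hH]; norm_num) (by rw [hH]; norm_num)
  have hb' := ncard_of_mem_orbit hb1 hb
  have hc' := ncard_of_mem_orbit hc1 hc
  have hy := fix1755 (img_le e' b') hb2 (card_img_eq e' hb' (by norm_num) hH)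
  obtain ⟨y, y1, y2⟩ := fix2304 (img_le e' c') hc2 (card_img_eq e' hc' (by norm_num) hH)
  obtain ⟨c'', hc3, hx⟩ := exists_fix_base e' st1 y1 y2
  have hs : gen ns [[0], [2]] ≤ suppSub 4060 := geq ▸ Spor.ModelRu.G_supp
  obtain ⟨G', ⟨f⟩, hT, t, ht, t1, t2⟩ := transport e' (st0.le.trans hs) st0.fix st1 st2 cards.1
    cards.2 (ncard_of_mem_orbit hc3 hc') hb' (by norm_num) (by norm_num) (by norm_num) hΩ rfl
    (fun i hi => by
      have := of_subB (x := ones 4060) (y := Nat.lor (Nat.shiftLeft 1 0) (Nat.lor (A_d1.D ns) D1))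
        (i := i) (by decide +kernel) (by simp [testBit_ones, hi])
      rw [testBit_lor', testBit_lor', testBit_one_shl] at this
      simp only [mem_mset]
      rcases this with h | h | h
      exacts [Or.inl h.symm, Or.inr (Or.inl ⟨by omega, h⟩), Or.inr (Or.inr ⟨by omega, h⟩)]) hx hy
  have := eq_of_swap ctx (by norm_num) (by norm_num) (by norm_num) hT hs st0 KG st1 Jnorm Z_ok
    (by decide +kernel) F_ok ht t1 t2
  exact ⟨f.trans ((MulEquiv.subgroupCongr (this.trans geq.symm)).trans Spor.ModelRu.equiv.symm)⟩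

end Cfsg.Agent.S1669
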