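import Cfsg.Statements.S1708
import Mathlib
import Cfsg.Agent.Spor.HN.HS

set_option autoImplicit false
open Cfsg

namespace Cfsg.Agent.S1708

/-- In the presented Harada–Norton group, the subgroup N generated by the images of x, y, z has a normal subgroup of index 2 which is a non-split double cover of the Higman–Sims group. -/
theorem result : ∃ K : Subgroup (((Subgroup.closure ({Cfsg.Spor.HN.x, Cfsg.Spor.HN.y, Cfsg.Spor.HN.z} : Set (FreeGroup Cfsg.Spor.HN.Gen))).map (PresentedGroup.mk (Cfsg.Spor.coxRelators Cfsg.Spor.HN.edges ∪ {r | r ∈ Cfsg.Spor.HN.extra})))), K.Normal ∧ K.index = 2 ∧ Cfsg.IsNonsplitDoubleCover K Cfsg.Spor.HS := by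
  refine Spor.HNC.HS.main
    ((MonoidHom.ofInjective (Spor.HNC.final Spor.HNC.boundH).2.2.2.1).trans
      (MulEquiv.subgroupCongr ?_))
  rw [Spor.HNC.subeq, Spor.HNC.gen_eq,
    Comp.DCE.range_eq (Spor.HNC.mod Spor.HNC.boundH).2.top (Spor.HNC.hι Spor.HNC.boundH)]

end Cfsg.Agent.S1708
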