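import Cfsg.Statements.S1756
import Cfsg.Agent.TT.LXOdd

set_option autoImplicit false
open Cfsg

namespace Cfsg.Agent.S1756

open Subgroup

/-- Let Q be an extraspecial 2-subgroup of the finite group G (special with centre of order 2) and t an involution of G normalizing Q such that the centralizer of t in Q has index at most 2 in Q. Then t lies in the product of Q with the centralizer of Q. -/
theorem result {G : Type*} [Group G] [Finite G] (Q : Subgroup G)
    (hQ : Cfsg.IsExtraspecial 2 ↥Q) (t : G) (ht : orderOf t = 2) (htN : t ∈ Subgroup.normalizer (Q : Set G))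
    (hi : (Subgroup.centralizer ({t} : Set G) ⊓ Q).relIndex Q ≤ 2) :
    t ∈ Q ⊔ Subgroup.centralizer (Q : Set G) := by
  obtain ⟨z, h⟩ := TT.exists_XS_of_isExtraspecial hQ
  have ht2 := TT.mul_self_of_orderOf_two ht
  have htz := h.comm_of_normalizer htN
  have hn : ∀ x ∈ Q, t * x * t⁻¹ ∈ Q := fun x hx => (mem_normalizer_iff.1 htN x).1 hx
  have hB : ∀ x ∈ Q, ∀ y ∈ Q, x * t ≠ t * x → y * t ≠ t * y → x * y * t = t * (x * y) := by
    intro x hx y hy h1 h2
    have h0 : (centralizer ({t} : Set G) ⊓ Q).relIndex Q ≠ 0 := index_ne_zero_of_finite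
    have hm : ∀ a : Q, a ∈ (centralizer ({t} : Set G) ⊓ Q).subgroupOf Q ↔ a * t = t * a :=
      fun a => ⟨fun e => mem_centralizer_singleton_iff.1 e.1,
        fun e => ⟨mem_centralizer_singleton_iff.2 e, a.2⟩⟩
    rcases (by omega : (centralizer ({t} : Set G) ⊓ Q).relIndex Q = 1 ∨
      (centralizer ({t} : Set G) ⊓ Q).relIndex Q = 2) with e | e
    · exact absurd ((hm ⟨x, hx⟩).1 (index_eq_one.1 e ▸ mem_top _)) h1
    · exact (hm (⟨x, hx⟩ * ⟨y, hy⟩)).1 ((mul_mem_iff_of_index_two e).2
        (iff_of_false (fun e' => h1 ((hm _).1 e')) fun e' => h2 ((hm _).1 e')))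
  have key : ∀ x ∈ Q, t * x * t⁻¹ = x ∨ t * x * t⁻¹ = x * z := by
    intro x hx
    by_cases hxt : x * t = t * x
    · exact Or.inl (TT.conj_eq_of_comm hxt.symm)
    obtain ⟨u, hu⟩ : ∃ u, u = x⁻¹ * (t * x * t⁻¹) := ⟨_, rfl⟩
    have hxu : t * x * t⁻¹ = x * u := by rw [hu, mul_inv_cancel_left]
    have huQ : u ∈ Q := hu ▸ mul_mem (inv_mem hx) (hn x hx)
    have hut : u * t = t * u := hu ▸ hB _ (inv_mem hx) _ (hn x hx)
      (fun e => hxt (by simpa using TT.comm_inv_left e)) fun e => hxt (by
        rw [inv_mul_cancel_right, ← mul_assoc, ← mul_assoc, ht2, one_mul,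
          TT.inv_eq_of_mul_self ht2] at e
        exact e.symm)
    have hu2 : u * u = 1 := by
      have e : t * (t * x * t⁻¹) * t⁻¹ = x := by
        rw [← mul_assoc, ← mul_assoc, ht2, one_mul, mul_assoc, ← mul_inv_rev, ht2, inv_one, mul_one]
      rw [hxu, show t * (x * u) * t⁻¹ = t * x * t⁻¹ * (t * u * t⁻¹) by group, hxu,
        TT.conj_eq_of_comm hut.symm, mul_assoc] at e
      exact mul_eq_left.1 e
    have hux : u * x = x * u := by
      have e : t * (x * x) * t⁻¹ = x * x := by
        rcases h.sq hx with e | e <;> rw [e]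
        · simp
        · exact TT.conj_eq_of_comm htz
      rw [show t * (x * x) * t⁻¹ = t * x * t⁻¹ * (t * x * t⁻¹) by group, hxu, mul_assoc] at e
      have e' := mul_left_cancel e
      calc u * x = u * (x * u) * u := by rw [mul_assoc, mul_assoc, hu2, mul_one]
        _ = x * u := by rw [e']
    have huB : ∀ b ∈ Q, b * t = t * b → u * b = b * u := by
      intro b hb hbt
      have e : t * (x * b * x⁻¹) * t⁻¹ = x * b * x⁻¹ := by
        rcases h.conj hx hb with e | e <;> rw [e]
        · exact TT.conj_eq_of_comm hbt.symm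
        · exact TT.conj_eq_of_comm (TT.comm_mul_left hbt htz.symm).symm
      rw [show t * (x * b * x⁻¹) * t⁻¹ = t * x * t⁻¹ * (t * b * t⁻¹) * (t * x * t⁻¹)⁻¹ by group,
        hxu, TT.conj_eq_of_comm hbt.symm] at e
      apply TT.comm_of_conj_eq
      calc u * b * u⁻¹ = x⁻¹ * (x * u * b * (x * u)⁻¹) * x := by group
        _ = b := by rw [e]; group
    rw [hxu]
    rcases h.cent u huQ (fun y hy => by
      by_cases hyt : y * t = t * y
      · exact huB y hy hyt
      · have := huB _ (mul_mem hx hy) (hB x hx y hy hxt hyt)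
        rw [← mul_assoc, hux, mul_assoc, mul_assoc] at this
        exact mul_left_cancel this) with e | e <;> rw [e]
    exacts [Or.inl (mul_one x), Or.inr rfl]
  obtain ⟨q, hq, e⟩ := h.exists_inner (MulAut.conj t).toMonoidHom (TT.conj_eq_of_comm htz) key
  rw [← mul_inv_cancel_left q t]
  refine mul_mem (mem_sup_left hq) (mem_sup_right fun x hx => ?_)
  have e' : t * x * t⁻¹ = q * x * q⁻¹ := e x hx
  calc x * (q⁻¹ * t) = q⁻¹ * (q * x * q⁻¹) * t := by group
    _ = _ := by rw [← e']; group


end Cfsg.Agent.S1756
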