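import Cfsg.Statements.S1782
import Cfsg.Agent.Misc.Four
import Cfsg.Agent.Grp.PFrattini

set_option autoImplicit false
open Cfsg

namespace Cfsg.Agent.S1782

open Cfsg.Agent.Misc Subgroup

variable {S : Type*} [Group S]

theorem eq_one_of_sq_pow (hS : IsPGroup 2 S) {x : S} (h : ∀ n : ℕ, (x ^ 2) ^ n = 1 → x ^ n = 1) :
    x = 1 := by
  obtain ⟨k, hk⟩ := hS x
  induction k with
  | zero => simpa using hk
  | succ k ih =>
    apply ih
    apply h
    rw [← pow_mul, ← hk]; congr 1; ring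

/-- `t` moves `R` to a trivially intersecting commuting conjugate -/
def Mv (R : Subgroup S) (t : S) : Prop :=
  (∀ a ∈ R, ∀ b ∈ R, a * (t * b * t⁻¹) = t * b * t⁻¹ * a) ∧
    ∀ a ∈ R, ∀ b ∈ R, a = t * b * t⁻¹ → a = 1

theorem Mv.pow {R : Subgroup S} {t : S} (h : Mv R t) {a b : S} (ha : a ∈ R) (hb : b ∈ R) (n : ℕ) :
    (a * (t * b * t⁻¹)) ^ n = 1 ↔ a ^ n = 1 ∧ b ^ n = 1 := by
  have hc : Commute a (t * b * t⁻¹) := h.1 a ha b hb
  rw [hc.mul_pow, conj_pow]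
  constructor
  · intro h1
    have h2 : a ^ n = t * (b ^ n)⁻¹ * t⁻¹ := by
      rw [eq_inv_of_mul_eq_one_left h1]; group
    have h3 := h.2 _ (pow_mem ha n) _ (inv_mem (pow_mem hb n)) h2
    refine ⟨h3, ?_⟩
    rw [h3, one_mul] at h1
    calc b ^ n = t⁻¹ * (t * b ^ n * t⁻¹) * t := by group
      _ = 1 := by rw [h1]; group
  · rintro ⟨h1, h2⟩
    rw [h1, h2]; group

theorem key_pow {R T : Subgroup S} {r t : S} (hr : r ∈ R) (ht : t ∈ T) (hR : Mv R t)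
    (hT : Mv T r⁻¹) (n : ℕ) : r ^ n = 1 ↔ t ^ n = 1 := by
  have h1 := hR.pow (inv_mem hr) hr n
  have h2 := hT.pow (inv_mem ht) ht n
  have h3 : r⁻¹ * (t * r * t⁻¹) = t⁻¹ * (r⁻¹ * t * r⁻¹⁻¹) := by
    rw [hT.1 _ (inv_mem ht) _ ht]; group
  rw [h3, h2] at h1
  simp only [inv_pow, inv_eq_one, and_self] at h1
  exact h1.symm

theorem sq_eq_one (hS : IsPGroup 2 S) {R T : Subgroup S}
    (hT : ∀ r ∈ R, r ∉ normalizer (T : Set S) → Mv T r)
    {r₀ t : S} (hr₀ : r₀ ∈ R) (hr₀N : r₀ ∉ normalizer (T : Set S)) (ht : t ∈ T) (hR : Mv R t) :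
    ∀ r ∈ R, r ^ 2 = 1 := by
  have k1 : ∀ r ∈ R, r ∉ normalizer (T : Set S) → ∀ n : ℕ, r ^ n = 1 ↔ t ^ n = 1 :=
    fun r hr hN n => key_pow hr ht hR (hT _ (inv_mem hr) (by rwa [inv_mem_iff])) n
  have k2 : ∀ x ∈ R, x ∈ normalizer (T : Set S) → ∀ r ∈ R, r ∉ normalizer (T : Set S) →
      ∀ n : ℕ, (x * r * x⁻¹ * r⁻¹) ^ n = 1 → x ^ n = 1 := by
    intro x hx hxN r hr hrN n hn
    have hy : x⁻¹ * (t * x * t⁻¹) ∈ T := by
      have h1 : x⁻¹ * t * x⁻¹⁻¹ ∈ T := (mem_normalizer_iff.1 (inv_mem hxN) t).1 ht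
      have h2 : x⁻¹ * (t * x * t⁻¹) = x⁻¹ * t * x⁻¹⁻¹ * t⁻¹ := by group
      rw [h2]; exact mul_mem h1 (inv_mem ht)
    have e : x * r * x⁻¹ * r⁻¹ =
        (x⁻¹ * (t * x * t⁻¹))⁻¹ * (r * (x⁻¹ * (t * x * t⁻¹)) * r⁻¹) := by
      have c1 := hR.1 _ (mul_mem (mul_mem hx hr) (inv_mem hx)) _ hx
      calc x * r * x⁻¹ * r⁻¹ = (t * x * t⁻¹)⁻¹ * (t * x * t⁻¹ * (x * r * x⁻¹)) * r⁻¹ := by group
        _ = (t * x * t⁻¹)⁻¹ * (x * r * x⁻¹ * (t * x * t⁻¹)) * r⁻¹ := by rw [c1]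
        _ = _ := by group
    rw [e] at hn
    have h3 := (((hT r hr hrN).pow (inv_mem hy) hy n).1 hn).2
    exact ((hR.pow (inv_mem hx) hx n).1 h3).2
  have k3 : ∀ r ∈ R, r ∉ normalizer (T : Set S) → r ^ 2 = 1 := by
    intro r hr hrN
    by_cases h2 : r ^ 2 ∈ normalizer (T : Set S)
    · have := k2 _ (pow_mem hr 2) h2 r hr hrN 1 (by group)
      simpa using this
    · exfalso
      have : r = 1 := eq_one_of_sq_pow hS fun n hn =>
        (k1 r hr hrN n).2 ((k1 _ (pow_mem hr 2) h2 n).1 hn)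
      exact hrN (this ▸ one_mem _)
  intro x hx
  by_cases hxN : x ∈ normalizer (T : Set S)
  · have h1 := k3 r₀ hr₀ hr₀N
    have h2 := k3 (r₀ * x⁻¹) (mul_mem hr₀ (inv_mem hx)) (fun h => hr₀N (by
      simpa using mul_mem h hxN))
    have h3 : x * r₀ * x⁻¹ * r₀⁻¹ = x ^ 2 := by
      have h4 : r₀⁻¹ = r₀ := by rw [inv_eq_iff_mul_eq_one, ← sq, h1]
      calc x * r₀ * x⁻¹ * r₀⁻¹ = x * (r₀ * x⁻¹) ^ 2 * x := by rw [h4, sq]; group
        _ = x ^ 2 := by rw [h2, sq]; group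
    have : x = 1 := eq_one_of_sq_pow hS fun n hn => k2 x hx hxN r₀ hr₀ hr₀N n (by rwa [h3])
    rw [this, one_pow]
  · exact k3 x hx hxN

theorem le_norm_of_le [Finite S] {R T : Subgroup S} (hc : Nat.card R = Nat.card T)
    (hR : ∀ t ∈ T, t ∉ normalizer (R : Set S) → Mv R t)
    (hA : ∀ t ∈ T, ∀ x ∈ R, t * x * t⁻¹ ∈ normalizer (R : Set S))
    (h : R ≤ normalizer (T : Set S)) : T ≤ normalizer (R : Set S) := by
  intro t ht
  by_contra htN
  have hm := hR t ht htN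
  let f : R → (T ⊓ normalizer (R : Set S) : Subgroup S) := fun x =>
    ⟨(x : S)⁻¹ * (t * x * t⁻¹), mem_inf.2 ⟨by
      have h1 : (x : S)⁻¹ * t * (x : S)⁻¹⁻¹ ∈ T := (mem_normalizer_iff.1 (inv_mem (h x.2)) t).1 ht
      have h2 : (x : S)⁻¹ * (t * x * t⁻¹) = (x : S)⁻¹ * t * (x : S)⁻¹⁻¹ * t⁻¹ := by group
      rw [h2]; exact T.mul_mem h1 (T.inv_mem ht),
      Subgroup.mul_mem _ (Subgroup.inv_mem _ (le_normalizer x.2)) (hA t ht x x.2)⟩⟩
  have hf : Function.Injective f := by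
    intro x y hxy
    have h1 : (x : S)⁻¹ * (t * x * t⁻¹) = (y : S)⁻¹ * (t * y * t⁻¹) := congrArg Subtype.val hxy
    have h2 : (y : S) * (x : S)⁻¹ = t * (y * (x : S)⁻¹) * t⁻¹ := by
      calc (y : S) * (x : S)⁻¹ = y * ((x : S)⁻¹ * (t * x * t⁻¹)) * (t * (x : S)⁻¹ * t⁻¹) := by group
        _ = _ := by rw [h1]; group
    have h3 := hm.2 _ (mul_mem y.2 (inv_mem x.2)) _ (mul_mem y.2 (inv_mem x.2)) h2
    exact Subtype.ext (mul_inv_eq_one.1 h3).symm
  have h4 := Nat.card_le_card_of_injective f hf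
  have h5 : T ⊓ normalizer (R : Set S) = T := eq_of_le_of_card_ge inf_le_left (by omega)
  exact htN (h5.ge ht).2

theorem exists_normal_over [Finite S] (hS : IsPGroup 2 S) {R H : Subgroup S} (h : R < H) :
    ∃ M : Subgroup S, R ≤ M ∧ M < H ∧ ∀ g ∈ H, ∀ x ∈ M, g * x * g⁻¹ ∈ M := by
  rcases eq_top_or_exists_le_coatom (R.subgroupOf H) with h1 | ⟨M, hM, hle⟩
  · exact absurd (subgroupOf_eq_top.1 h1) (not_le_of_gt h)
  · have hn := Grp.PFrattini.normal_of_isCoatom (hS.to_subgroup H) hM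
    refine ⟨M.map H.subtype, fun x hx => ⟨⟨x, h.le hx⟩, hle hx, rfl⟩,
      lt_of_le_of_ne (map_subtype_le M) fun he => hM.1 ?_, ?_⟩
    · rw [eq_top_iff]
      intro x _
      obtain ⟨y, hy, hyx⟩ : (x : S) ∈ M.map H.subtype := he.ge x.2
      rwa [← Subtype.ext hyx]
    · rintro g hg _ ⟨x, hx, rfl⟩
      exact ⟨_, hn.conj_mem x hx ⟨g, hg⟩, rfl⟩

theorem mem_norm_of_map_eq {R : Subgroup S} {t : S}
    (h : R.map (MulAut.conj t).toMonoidHom = R) : t ∈ normalizer (R : Set S) := by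
  rw [mem_normalizer_iff]
  intro x
  constructor
  · intro hx
    rw [← h]; exact ⟨x, hx, rfl⟩
  · intro hx
    rw [← h] at hx
    obtain ⟨y, hy, hyx⟩ := hx
    have : y = x := (MulAut.conj t).injective hyx
    rwa [← this]

/-- Let S be a finite 2-group and Δ a set of subgroups of S closed under conjugation by S, all of the same order, each with nontrivial Frattini subgroup, and such that two distinct members of Δ meet trivially. Then any two distinct members of Δ commute elementwise. -/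
theorem result {S : Type*} [Group S] [Finite S] (hS : IsPGroup 2 S)
    (Δ : Set (Subgroup S)) (hinv : ∀ s : S, ∀ R ∈ Δ, R.map (MulAut.conj s).toMonoidHom ∈ Δ)
    (hΦ : ∀ R ∈ Δ, frattini ↥R ≠ ⊥) (hord : ∀ R ∈ Δ, ∀ T ∈ Δ, Nat.card ↥R = Nat.card ↥T)
    (hti : ∀ R ∈ Δ, ∀ T ∈ Δ, R = T ∨ R ⊓ T = ⊥) :
    ∀ R ∈ Δ, ∀ T ∈ Δ, R ≠ T → ⁅R, T⁆ = ⊥ := by
  have hnt : ∀ R ∈ Δ, ¬ ∀ r ∈ R, r ^ 2 = 1 := by
    intro R hR h
    refine hΦ R hR (le_bot_iff.1 (Grp.PFrattini.frattini_le (p := 2) ?_ ?_))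
    · rw [commutator_def, commutator_le]
      intro a _ b _
      rw [mem_bot, commutatorElement_eq_one_iff_mul_comm]
      exact Subtype.ext (comm_of_sq h a a.2 b b.2)
    · intro g
      exact mem_bot.2 (Subtype.ext (h g g.2))
  have main : ∀ H : Subgroup S, ∀ R ∈ Δ, ∀ T ∈ Δ, R ≤ H → T ≤ H → R ≠ T → ⁅R, T⁆ = ⊥ := by
    intro H
    induction H using WellFoundedLT.induction with
    | ind H ih =>
    have hmv : ∀ R ∈ Δ, R < H → ∀ t ∈ H, t ∉ normalizer (R : Set S) → Mv R t := by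
      intro R hR hlt t ht htN
      obtain ⟨M, h1, h2, h3⟩ := exists_normal_over hS hlt
      have hne : R ≠ R.map (MulAut.conj t).toMonoidHom := fun h => htN (mem_norm_of_map_eq h.symm)
      have hc := ih M h2 R hR _ (hinv t R hR) h1
        (by rintro _ ⟨x, hx, rfl⟩; exact h3 t ht x (h1 hx)) hne
      rw [commutator_eq_bot_iff_le_centralizer] at hc
      refine ⟨fun a ha b hb => ?_, fun a ha b hb hab => ?_⟩
      · exact (mem_centralizer_iff.1 (hc ha) _ ⟨b, hb, rfl⟩).symm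
      · have h4 := (hti R hR _ (hinv t R hR)).resolve_left hne
        have : a ∈ R ⊓ R.map (MulAut.conj t).toMonoidHom := ⟨ha, b, hb, hab.symm⟩
        rwa [h4, mem_bot] at this
    have hA : ∀ R ∈ Δ, R < H → ∀ t ∈ H, ∀ x ∈ R, t * x * t⁻¹ ∈ normalizer (R : Set S) := by
      intro R hR hlt t ht x hx
      by_cases htN : t ∈ normalizer (R : Set S)
      · exact le_normalizer ((mem_normalizer_iff.1 htN x).1 hx)
      · exact mem_normalizer_of_comm fun a ha => ((hmv R hR hlt t ht htN).1 a ha x hx).symm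
    intro R hR T hT hRH hTH hne
    have hb := (hti R hR T hT).resolve_left hne
    have hlt : ∀ A ∈ Δ, ∀ B ∈ Δ, A ≤ H → B ≤ H → A ⊓ B = ⊥ → A < H := by
      intro A _ B hB hAH hBH h
      refine lt_of_le_of_ne hAH fun he => hnt B hB fun r hr => ?_
      have : r ∈ A ⊓ B := ⟨he ▸ hBH hr, hr⟩
      rw [h, mem_bot] at this
      rw [this, one_pow]
    have hRl := hlt R hR T hT hRH hTH hb
    have hTl := hlt T hT R hR hTH hRH (by rwa [inf_comm])
    have fin : R ≤ normalizer (T : Set S) → T ≤ normalizer (R : Set S) → ⁅R, T⁆ = ⊥ := by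
      intro h1 h2
      rw [eq_bot_iff, ← hb, commutator_le]
      intro a ha b hb'
      refine ⟨?_, ?_⟩
      · have := mul_mem ha ((mem_normalizer_iff.1 (h2 hb') a⁻¹).1 (inv_mem ha))
        simpa [commutatorElement_def, mul_assoc] using this
      · exact T.mul_mem ((mem_normalizer_iff.1 (h1 ha) b).1 hb') (T.inv_mem hb')
    by_cases h1 : R ≤ normalizer (T : Set S)
    · exact fin h1 (le_norm_of_le (hord R hR T hT) (fun t ht => hmv R hR hRl t (hTH ht))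
        (fun t ht => hA R hR hRl t (hTH ht)) h1)
    by_cases h2 : T ≤ normalizer (R : Set S)
    · exact fin (le_norm_of_le (hord T hT R hR) (fun t ht => hmv T hT hTl t (hRH ht))
        (fun t ht => hA T hT hTl t (hRH ht)) h2) h2
    obtain ⟨r, hr, hrN⟩ := SetLike.not_le_iff_exists.1 h1
    obtain ⟨t, ht, htN⟩ := SetLike.not_le_iff_exists.1 h2
    exact absurd (sq_eq_one hS (fun r hr => hmv T hT hTl r (hRH hr)) hr hrN ht
      (hmv R hR hRl t (hTH ht) htN)) (hnt R hR)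
  exact fun R hR T hT => main ⊤ R hR T hT le_top le_top

end Cfsg.Agent.S1782
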