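import Cfsg.Statements.S1783
import Mathlib
import Cfsg.Agent.PLocal.AmbSyl
import Cfsg.Agent.PLocal.CharPBase
import Cfsg.Agent.PLocal.FStar
import Cfsg.Agent.S0093

set_option autoImplicit false
open Cfsg

namespace Cfsg.Agent.S1783

open Subgroup Cfsg.Agent.PLocal Cfsg.Agent.PLocal.Amb
open scoped commutatorElement

section
variable {X : Type*} [Group X] [Finite X]

theorem exists_pow_step {P : Subgroup X} {y : X} (hy : y ∉ P) (hex : ∃ k : ℕ, y ^ 2 ^ k ∈ P) :
    ∃ j : ℕ, y ^ j ∉ P ∧ y ^ j * y ^ j ∈ P := by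
  classical
  have hk := Nat.find_spec hex
  obtain ⟨j, hj⟩ : ∃ j, Nat.find hex = j + 1 :=
    Nat.exists_eq_succ_of_ne_zero fun e => hy (by rw [e] at hk; simpa using hk)
  refine ⟨2 ^ j, Nat.find_min hex (by omega), ?_⟩
  rwa [← sq, ← pow_mul, ← pow_succ, ← hj]

theorem step {U C A : Subgroup X} (hU : IsPGroup 2 U) (hA : IsPGroup 2 A) (hAU : A ≤ 𝐍[U])
    (hCU : C ≤ U) (hAC : A ≤ 𝐍[C]) (hi : A ⊓ U ≤ C) (hn : ¬ U ≤ C) :
    ∃ x ∈ U, x ∉ C ∧ (∀ a ∈ A, x⁻¹ * (a * x * a⁻¹) ∈ C) ∧ x * x ∈ C := by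
  have key : ∀ y ∈ C ⊔ A, y ∈ U → y ∈ C := fun y hy hyU => by
    obtain ⟨c, hc, a, ha, rfl⟩ := (mem_sup_of_le_normalizer_left hAC).1 hy
    exact C.mul_mem hc (hi (mem_inf.2 ⟨ha, (U.mul_mem_cancel_left (hCU hc)).1 hyU⟩))
  have hS : IsPGroup 2 ↥(A ⊔ U) := isPGroup_sup hA hU hAU
  have hlt : C ⊔ A < A ⊔ U := lt_of_le_of_ne (sup_le (hCU.trans le_sup_right) le_sup_left)
    fun e => hn fun y hy => key y (e ▸ mem_sup_right hy) hy
  obtain ⟨y, hy, hy'⟩ := SetLike.exists_of_lt (lt_inf_normalizer hS hlt)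
  obtain ⟨j, h1, h2⟩ := exists_pow_step hy' (by
    obtain ⟨k, hk⟩ := isPGroup_iff.1 hS y (mem_inf.1 hy).1
    exact ⟨k, hk ▸ one_mem _⟩)
  have h3 := pow_mem hy j
  generalize y ^ j = s at *
  have h4 := (mem_inf.1 h3).1
  rw [sup_comm] at h4
  obtain ⟨x, hx, a, ha, rfl⟩ := (mem_sup_of_le_normalizer_left hAU).1 h4
  have haP : a ∈ C ⊔ A := mem_sup_right ha
  have hxN : x ∈ 𝐍[C ⊔ A] :=
    (Subgroup.mul_mem_cancel_right _ (le_normalizer haP)).1 (mem_inf.1 h3).2
  have h5 : ∀ b ∈ A, x⁻¹ * (b * x * b⁻¹) ∈ C := fun b hb => key _ (by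
    have := mul_mem (inv_conj_mem_of_mem_normalizer hxN (mem_sup_right hb))
      (inv_mem (mem_sup_right hb : b ∈ C ⊔ A))
    simpa only [mul_assoc] using this)
    (U.mul_mem (U.inv_mem hx) (conj_mem_of_mem_normalizer (hAU hb) hx))
  refine ⟨x, hx, fun h => h1 (mul_mem (mem_sup_left h) haP), h5, key _ ?_ (U.mul_mem hx hx)⟩
  have h6 := mul_mem (mul_mem h2 (inv_mem (mul_mem haP haP))) (inv_mem (mem_sup_left (h5 a ha)))
  rwa [show x * a * (x * a) * (a * a)⁻¹ * (x⁻¹ * (a * x * a⁻¹))⁻¹ = x * x by group] at h6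

/-- abelian TI-subgroups which are not elementary abelian -/
structure TIA (A : Subgroup X) : Prop where
  pg : IsPGroup 2 A
  cm : A ≤ 𝐂[A]
  ti : ∀ g : X, cj(g, A) = A ∨ cj(g, A) ⊓ A = ⊥
  ne : ∃ a ∈ A, a * a ≠ 1

variable {A : Subgroup X}

theorem TIA.cj (h : TIA A) (g : X) : TIA cj(g, A) := by
  refine ⟨isPGroup_cj g h.pg, by rw [centralizer_cj]; exact cj_mono g h.cm, fun x => ?_, ?_⟩
  · have e : cj(x, cj(g, A)) = cj(g, cj(g⁻¹ * x * g, A)) := by
      rw [← cj_mul, ← cj_mul]; congr 3; group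
    rw [e, ← cj_inf, cj_eq_bot, cj_inj]
    exact h.ti _
  · obtain ⟨a, ha, h1⟩ := h.ne
    refine ⟨_, conj_mem_cj g ha, fun e => h1 ?_⟩
    rw [show g * a * g⁻¹ * (g * a * g⁻¹) = g * (a * a) * g⁻¹ by group] at e
    simpa using e

theorem TIA.norm (h : TIA A) {a g : X} (ha : a ∈ A) (h1 : a ≠ 1) (hc : g * a = a * g) :
    g ∈ 𝐍[A] := by
  refine cj_eq_iff.1 ((h.ti g).resolve_right fun e => h1 ?_)
  have : a ∈ cj(g, A) ⊓ A := mem_inf.2 ⟨by
    have := conj_mem_cj g ha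
    rwa [hc, mul_inv_cancel_right] at this, ha⟩
  rwa [e, mem_bot] at this

theorem TIA.comm (h : TIA A) {a b : X} (ha : a ∈ A) (hb : b ∈ A) : a * b = b * a :=
  mem_centralizer_iff.1 (h.cm hb) a ha

theorem TIA.cent (h : TIA A) {U : Subgroup X} (hU : IsPGroup 2 U) (hUc : U ≤ 𝐂[U])
    (hAU : A ≤ 𝐍[U]) (hi : A ⊓ U = ⊥) : U ≤ 𝐂[A] := by
  by_contra hn
  obtain ⟨x, hx, hxC, h1, h2⟩ := step (C := U ⊓ 𝐂[A]) hU h.pg hAU inf_le_left
    (le_normalizer_inf hAU (le_normalizer_centralizer le_normalizer)) (hi.le.trans bot_le)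
    (fun e => hn (e.trans inf_le_right))
  obtain ⟨a, ha, h3⟩ := h.ne
  obtain ⟨c, hc⟩ : ∃ c, c = x⁻¹ * (a * x * a⁻¹) := ⟨_, rfl⟩
  have hcC := hc ▸ h1 a ha
  have e1 : a * x * a⁻¹ = x * c := by rw [hc]; group
  have e2 : a * c = c * a := mem_centralizer_iff.1 (mem_inf.1 hcC).2 a ha
  have e3 : x * c = c * x := mem_centralizer_iff.1 (hUc (mem_inf.1 hcC).1) x hx
  have e4 : a * (x * x) = x * x * a := mem_centralizer_iff.1 (mem_inf.1 h2).2 a ha
  have e5 : c * c = 1 := by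
    have : x * x * (c * c) = x * x := by
      calc x * x * (c * c) = x * (x * c) * c := by group
        _ = (x * c) * (x * c) := by nth_rewrite 1 [e3]; group
        _ = a * (x * x) * a⁻¹ := by rw [← e1]; group
        _ = x * x := by rw [e4]; group
    simpa using this
  have e6 : x * (a * a) = a * a * x := by
    calc x * (a * a) = x * (c * c) * (a * a) := by rw [e5, mul_one]
      _ = (x * c) * (c * a) * a := by group
      _ = (a * x * a⁻¹) * (a * c) * a := by rw [e1, e2]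
      _ = a * (x * c) * a := by group
      _ = a * a * x := by rw [← e1]; group
  have hxN := h.norm (A.mul_mem ha ha) h3 e6
  refine hxC (mem_inf.2 ⟨hx, mem_centralizer_iff.2 fun b hb => ?_⟩)
  have : x⁻¹ * (b * x * b⁻¹) ∈ A ⊓ U := mem_inf.2 ⟨by
    have := A.mul_mem (inv_conj_mem_of_mem_normalizer hxN hb) (A.inv_mem hb)
    simpa only [mul_assoc] using this, (mem_inf.1 (h1 b hb)).1⟩
  rw [hi, mem_bot, inv_mul_eq_one, eq_mul_inv_iff_mul_eq] at this
  exact this.symm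

theorem TIA.cent_cj (h : TIA A) {z g : X} (hz : z ∈ A) (h1 : z ≠ 1) (hc : g * z * g⁻¹ ∈ 𝐂[A]) :
    cj(g, A) ≤ 𝐂[A] := by
  rcases h.ti g with e | e
  · rw [e]; exact h.cm
  · exact h.cent (h.cj g).pg (h.cj g).cm (fun a ha => (h.cj g).norm (conj_mem_cj g hz)
      (by simpa using h1) (mem_centralizer_iff.1 hc a ha)) (by rw [inf_comm, e])

theorem TIA.case_one (h : TIA A) {z : X} (hz : z ∈ A) (h1 : z ≠ 1) (h2 : z * z = 1)
    (hc : ∀ g : X, g * z * g⁻¹ * z = z * (g * z * g⁻¹)) {a b : X} (ha : a ∈ A) (hb : b ∈ A)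
    (g : X) : a * a * (g * (b * b) * g⁻¹) = g * (b * b) * g⁻¹ * (a * a) := by
  have key : ∀ a ∈ A, ∀ g : X, a * a ∈ 𝐍[cj(g, A)] := by
    intro a ha g
    refine (h.cj g).norm (conj_mem_cj g hz) (by simpa using h1) ?_
    obtain ⟨i, hi⟩ : ∃ i, i = g * z * g⁻¹ := ⟨_, rfl⟩
    have hi2 : i * i = 1 := by
      rw [hi, show g * z * g⁻¹ * (g * z * g⁻¹) = g * (z * z) * g⁻¹ by group, h2]; simp
    have hii : i⁻¹ = i := inv_eq_of_mul_eq_one_right hi2
    have e1 : i * (a * i * a⁻¹) ∈ A := by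
      have := A.mul_mem (conj_mem_of_mem_normalizer (h.norm hz h1 (hi ▸ hc g)) ha) (A.inv_mem ha)
      rw [hii] at this
      simpa only [mul_assoc] using this
    have e2 : a * i * a⁻¹ * i = i * (a * i * a⁻¹) := by
      have := hc (g⁻¹ * a * g)
      calc a * i * a⁻¹ * i = g * (g⁻¹ * a * g * z * (g⁻¹ * a * g)⁻¹ * z) * g⁻¹ := by rw [hi]; group
        _ = i * (a * i * a⁻¹) := by rw [this, hi]; group
    rw [← hi]
    obtain ⟨c, hcd⟩ : ∃ c, c = i * (a * i * a⁻¹) := ⟨_, rfl⟩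
    have e3 : a * i * a⁻¹ = i * c := by rw [hcd, ← mul_assoc, hi2, one_mul]
    have e4 : c * c = 1 := by
      rw [hcd]
      nth_rewrite 1 [← e2]
      rw [show a * i * a⁻¹ * i * (i * (a * i * a⁻¹)) = a * i * a⁻¹ * (i * i) * (a * i * a⁻¹) by group,
        hi2, show a * i * a⁻¹ * 1 * (a * i * a⁻¹) = a * (i * i) * a⁻¹ by group, hi2]
      simp
    have e5 : a * c = c * a := h.comm ha (hcd ▸ e1)
    calc a * a * i = a * (a * i * a⁻¹) * a := by group
      _ = (a * i * a⁻¹) * (a * c) * a := by rw [e3]; nth_rewrite 2 [← e3]; group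
      _ = i * (c * c) * (a * a) := by rw [e3, e5]; group
      _ = i * (a * a) := by rw [e4, mul_one]
  have hy : g * (b * b) * g⁻¹ ∈ cj(g, A) := conj_mem_cj g (A.mul_mem hb hb)
  rcases h.ti g with e | e
  · exact h.comm (A.mul_mem ha ha) (e ▸ hy)
  · have h3 : g * (b * b) * g⁻¹ ∈ 𝐍[A] := by
      have := conj_mem_cj g (key b hb g⁻¹)
      rwa [← normalizer_cj, cj_cj_inv] at this
    have h4 : ⁅a * a, g * (b * b) * g⁻¹⁆ ∈ cj(g, A) ⊓ A := mem_inf.2
      ⟨mul_mem (conj_mem_of_mem_normalizer (key a ha g) hy) (inv_mem hy), by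
        have := A.mul_mem (A.mul_mem ha ha)
          (conj_mem_of_mem_normalizer h3 (A.inv_mem (A.mul_mem ha ha)))
        simpa only [commutatorElement_def, mul_assoc] using this⟩
    rw [e, mem_bot] at h4
    exact commutatorElement_eq_one_iff_mul_comm.1 h4

theorem four_eq {d a d' : X} (e : a * d * a⁻¹ = d * d') (h1 : a * (d * d) = d * d * a)
    (h2 : d * (d' * d') = d' * d' * d) : d' * d' * (d' * d') = 1 := by
  have e1 : d' * d * d' = d := by
    have : d * (d' * d * d') = d * d := by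
      calc d * (d' * d * d') = (d * d') * (d * d') := by group
        _ = a * (d * d) * a⁻¹ := by rw [← e]; group
        _ = d * d := by rw [h1]; group
    exact mul_left_cancel this
  have : d * (d' * d' * (d' * d')) = d := by
    calc d * (d' * d' * (d' * d')) = d * (d' * d') * (d' * d') := by group
      _ = d' * (d' * d * d') * d' := by rw [h2]; group
      _ = d := by rw [e1, e1]
  simpa using this

theorem TIA.case_two (h : TIA A) (hQ : 𝐂[pCore 2 X] ≤ pCore 2 X)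
    (hno : ∀ z ∈ A, z ≠ 1 → z * z = 1 → ¬ ∀ g : X, g * z * g⁻¹ * z = z * (g * z * g⁻¹))
    {a : X} (ha : a ∈ A) : a * a ∈ pCore 2 X ∧ a * a * (a * a) = 1 := by
  set Q := pCore 2 X
  have pT : IsPGroup 2 Q := isPGroup_pCore' 2 X
  obtain ⟨H, hH, h1, h2, h3⟩ := S0093.result pT
  set D := H.map Q.subtype
  have hDQ : D ≤ Q := map_subtype_le _
  have cent : ∀ x ∈ Q, x ∈ 𝐂[D] → x ∈ D := fun x hx hc =>
    ⟨⟨x, hx⟩, h3 fun y hy => Subtype.ext (hc _ ⟨y, hy, rfl⟩), rfl⟩
  have nD : ∀ g : X, g ∈ 𝐍[D] := fun g =>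
    CP.normalizer_le_normalizer_map_subtype Q H (le_normalizer_of_normal (mem_top g))
  have cl : ∀ z : Q, z ∈ 𝐂[H] → (z : X) ∈ 𝐂[D] := by
    rintro z hz _ ⟨y, hy, rfl⟩
    exact congrArg Subtype.val (hz y hy)
  set Z := D ⊓ 𝐂[D]
  have nZ : ∀ g : X, g ∈ 𝐍[Z] := fun g => le_normalizer_inf (L := ⊤) (fun g _ => nD g)
    (le_normalizer_centralizer fun g _ => nD g) (mem_top g)
  have hsq : ∀ c ∈ D, c * c ∈ Z := by
    rintro _ ⟨c, hc, rfl⟩
    have := cl _ (h1 ⟨_, Grp.PFrattini.pow_mem_frattini (pT.to_subgroup H) ⟨c, hc⟩, rfl⟩)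
    refine mem_inf.2 ⟨D.mul_mem ⟨c, hc, rfl⟩ ⟨c, hc, rfl⟩, ?_⟩
    rw [← pow_two]
    exact this
  have hcm : ∀ c ∈ D, ∀ x ∈ Q, ⁅c, x⁆ ∈ Z := by
    rintro _ ⟨c, hc, rfl⟩ x hx
    have := h2 (commutator_mem_commutator hc (mem_top ⟨x, hx⟩))
    exact mem_inf.2 ⟨⟨_, this.1, rfl⟩, cl _ this.2⟩
  have hZc : Z ≤ 𝐂[Z] := inf_le_right.trans (centralizer_anti inf_le_left)
  have pZ : IsPGroup 2 Z := pT.to_le (inf_le_left.trans hDQ)
  have hAZ : A ⊓ Z = ⊥ := by
    rw [eq_bot_iff]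
    intro y hy
    by_contra hy1
    obtain ⟨j, h4, h5⟩ := exists_pow_step hy1 (isPGroup_iff.1 h.pg y (mem_inf.1 hy).1)
    have h6 := pow_mem hy j
    exact hno _ (mem_inf.1 h6).1 h4 h5 fun g => mem_centralizer_iff.1 (hZc (mem_inf.1 h6).2) _
      (conj_mem_of_mem_normalizer (nZ g) (mem_inf.1 h6).2)
  have hZA : Z ≤ 𝐂[A] := h.cent pZ hZc (fun g _ => nZ g) hAZ
  have c1 : ∀ z ∈ A, z ≠ 1 → ∀ d ∈ D, d⁻¹ * (z * d * z⁻¹) ∈ Z → ∀ b ∈ A,
      d⁻¹ * (b * d * b⁻¹) ∈ 𝐂[A] := by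
    intro z hz hz1 d hd h4 b hb
    have h5 := h.cent_cj hz hz1 (g := d⁻¹) (by
      have := mul_mem (hZA h4) (h.cm hz)
      rwa [show d⁻¹ * (z * d * z⁻¹) * z = d⁻¹ * z * d⁻¹⁻¹ by group] at this)
    have := mul_mem (h5 (conj_mem_cj d⁻¹ hb)) (h.cm (A.inv_mem hb))
    rwa [show d⁻¹ * b * d⁻¹⁻¹ * b⁻¹ = d⁻¹ * (b * d * b⁻¹) by group] at this
  have hcm' : ∀ x ∈ Q, ∀ d ∈ D, d⁻¹ * (x * d * x⁻¹) ∈ Z := fun x hx d hd => by
    have := hcm _ (D.inv_mem hd) x hx
    rwa [show ⁅d⁻¹, x⁆ = d⁻¹ * (x * d * x⁻¹) by rw [commutatorElement_def]; group] at this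
  have hδ : ∀ b : X, ∀ d ∈ D, d⁻¹ * (b * d * b⁻¹) ∈ D := fun b d hd =>
    D.mul_mem (D.inv_mem hd) (conj_mem_of_mem_normalizer (nD b) hd)
  have c4 : ∀ b ∈ A, ∀ d ∈ D, ∀ d', d' = d⁻¹ * (b * d * b⁻¹) → d' * d' * (d' * d') = 1 :=
    fun b hb d hd d' e => four_eq (a := b) (d := d) (by rw [e]; group)
      (mem_centralizer_iff.1 (hZA (hsq d hd)) b hb)
      (mem_centralizer_iff.1 (mem_inf.1 (hsq _ (e ▸ hδ b d hd))).2 d hd)
  by_cases ha1 : a * a = 1
  · rw [ha1]; exact ⟨one_mem _, one_mul 1⟩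
  let D₂ : Subgroup X :=
    { carrier := {d | d ∈ D ∧ d⁻¹ * (a * a * d * (a * a)⁻¹) ∈ Z}
      one_mem' := ⟨D.one_mem, by simp⟩
      mul_mem' := by
        rintro x y ⟨hx, hx'⟩ ⟨hy, hy'⟩
        refine ⟨D.mul_mem hx hy, ?_⟩
        have := Z.mul_mem (inv_conj_mem_of_mem_normalizer (nZ y) hx') hy'
        convert this using 1
        group
      inv_mem' := by
        rintro x ⟨hx, hx'⟩
        refine ⟨D.inv_mem hx, ?_⟩
        have := conj_mem_of_mem_normalizer (nZ x) (Z.inv_mem hx')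
        convert this using 1
        generalize a * a = b
        group }
  have hD2 : D ≤ D₂ := by
    by_contra hn
    obtain ⟨d, hd, hd2, h4, -⟩ := step (C := D₂) (pT.to_le hDQ) h.pg (fun g _ => nD g)
      (fun x hx => hx.1) (by
        rw [le_normalizer_iff_cj]
        intro b hb
        rw [cj_le_iff_forall]
        rintro x ⟨hx, hx'⟩
        refine ⟨conj_mem_of_mem_normalizer (nD b) hx, ?_⟩
        have := conj_mem_of_mem_normalizer (nZ b) hx'
        have e := h.comm (A.mul_mem ha ha) hb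
        convert this using 1
        calc (b * x * b⁻¹)⁻¹ * (a * a * (b * x * b⁻¹) * (a * a)⁻¹)
            = b * x⁻¹ * b⁻¹ * (a * a * b) * x * (a * a * b)⁻¹ := by group
          _ = _ := by rw [e]; group) (fun x hx => ⟨(mem_inf.1 hx).2, by
        rw [h.comm (A.mul_mem ha ha) (mem_inf.1 hx).1]; simp [mul_assoc]⟩) hn
    obtain ⟨d', hd'⟩ : ∃ d', d' = d⁻¹ * (a * d * a⁻¹) := ⟨_, rfl⟩
    have h5 := hd' ▸ h4 a ha
    obtain ⟨e, he⟩ : ∃ e, e = d'⁻¹ * (a * d' * a⁻¹) := ⟨_, rfl⟩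
    have heA := he ▸ c1 _ (A.mul_mem ha ha) ha1 d' h5.1 h5.2 a ha
    have heD := he ▸ hδ a d' h5.1
    have e1 : a * d * a⁻¹ = d * d' := by rw [hd']; group
    have e2 : a * d' * a⁻¹ = d' * e := by rw [he]; group
    have e3 : a * e * a⁻¹ = e := by rw [mem_centralizer_iff.1 heA a ha]; group
    have e4 : a * a * d * (a * a)⁻¹ = d * (d' * d' * e) := by
      calc _ = a * (a * d * a⁻¹) * a⁻¹ := by group
        _ = (a * d * a⁻¹) * (a * d' * a⁻¹) := by nth_rewrite 1 [e1]; group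
        _ = _ := by rw [e1, e2]; group
    have e5 : a * a * d' * (a * a)⁻¹ = d' * (e * e) := by
      calc _ = a * (a * d' * a⁻¹) * a⁻¹ := by group
        _ = (a * d' * a⁻¹) * (a * e * a⁻¹) := by nth_rewrite 1 [e2]; group
        _ = _ := by rw [e2, e3]; group
    have he1 : e ≠ 1 := by
      rintro rfl
      refine hd2 ⟨hd, ?_⟩
      rw [e4]
      simpa using hsq d' h5.1
    have hf : a * a * (d' * d' * e) * (a * a)⁻¹ = d' * d' * e := by
      rw [mem_centralizer_iff.1 (mul_mem (hZA (hsq d' h5.1)) heA) _ (A.mul_mem ha ha)]; group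
    have hee : a * a * (e * e) * (a * a)⁻¹ = e * e := by
      rw [mem_centralizer_iff.1 (mul_mem heA heA) _ (A.mul_mem ha ha)]; group
    have hN : d' ∈ 𝐍[A] := by
      by_cases h6 : a * a * (a * a) = 1
      · have e6 : d' * d' * e * (d' * d' * e) = 1 := by
          have : d * (d' * d' * e * (d' * d' * e)) = d := by
            calc _ = (d * (d' * d' * e)) * (d' * d' * e) := by group
              _ = a * a * (d * (d' * d' * e)) * (a * a)⁻¹ := by
                nth_rewrite 1 [← e4]; nth_rewrite 1 [← hf]; group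
              _ = (a * a * (a * a)) * d * (a * a * (a * a))⁻¹ := by rw [← e4]; group
              _ = d := by rw [h6]; simp
          simpa using this
        have e7 : e * (d' * d') = d' * d' * e := mem_centralizer_iff.1 (mem_inf.1 (hsq d' h5.1)).2 e heD
        rw [show d' * d' * e * (d' * d' * e) = d' * d' * (e * (d' * d')) * e by group, e7,
          show d' * d' * (d' * d' * e) * e = d' * d' * (d' * d') * (e * e) by group,
          c4 a ha d hd d' hd', one_mul] at e6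
        rw [e6, mul_one] at e5
        exact h.norm (A.mul_mem ha ha) ha1 (mul_inv_eq_iff_eq_mul.1 e5).symm
      · refine h.norm (A.mul_mem (A.mul_mem ha ha) (A.mul_mem ha ha)) h6
          (mul_inv_eq_iff_eq_mul.1 ?_).symm
        calc _ = a * a * (a * a * d' * (a * a)⁻¹) * (a * a)⁻¹ := by group
          _ = (a * a * d' * (a * a)⁻¹) * (a * a * (e * e) * (a * a)⁻¹) := by
            nth_rewrite 1 [e5]; group
          _ = d' * (e * e * (e * e)) := by rw [e5, hee]; group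
          _ = d' := by rw [c4 a ha d' h5.1 e he, mul_one]
    have heA' : e ∈ A := by
      have := A.mul_mem (inv_conj_mem_of_mem_normalizer hN ha) (A.inv_mem ha)
      rw [he]
      simpa only [mul_assoc] using this
    have h7 := hd' ▸ c1 e heA' he1 d hd (hcm' e (hDQ heD) d hd) a ha
    refine he1 ?_
    rw [he, mem_centralizer_iff.1 h7 a ha]; group
  let K : Subgroup X :=
    { carrier := {x | x ∈ 𝐂[Z] ∧ ∀ d ∈ D, ⁅x, d⁆ ∈ Z}
      one_mem' := ⟨one_mem _, by simp⟩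
      mul_mem' := by
        rintro x y ⟨hx, hx'⟩ ⟨hy, hy'⟩
        refine ⟨mul_mem hx hy, fun d hd => ?_⟩
        rw [commutatorElement_mul_left_eq_conj_mul]
        exact Z.mul_mem (conj_mem_of_mem_normalizer (nZ x) (hy' d hd)) (hx' d hd)
      inv_mem' := by
        rintro x ⟨hx, hx'⟩
        refine ⟨inv_mem hx, fun d hd => ?_⟩
        have := inv_conj_mem_of_mem_normalizer (nZ x) (Z.inv_mem (hx' d hd))
        convert this using 1
        simp only [commutatorElement_def]; group }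
  have hKn : K.Normal := ⟨by
    rintro x ⟨hx, hx'⟩ g
    refine ⟨conj_mem_of_mem_normalizer (normalizer_le_normalizer_centralizer Z (nZ g)) hx,
      fun d hd => ?_⟩
    have := conj_mem_of_mem_normalizer (nZ g) (hx' _ (inv_conj_mem_of_mem_normalizer (nD g) hd))
    convert this using 1
    simp only [commutatorElement_def]; group⟩
  have hK : K ≤ Q := le_pCore' (isPGroup_of_forall_coprime fun g hg ho => by
    have hc : g ∈ 𝐂[D] := CP.mem_centralizer_of_commutator_mem pZ ho hg.1 hg.2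
    refine eq_one_of_isPGroup_of_coprime pT (hQ ?_) ho
    refine CP.mem_centralizer_of_commutator_mem (pT.to_le hDQ) ho hc fun r hr => ?_
    refine cent _ (mul_mem ((inferInstance : Q.Normal).conj_mem r hr g) (inv_mem hr)) ?_
    rw [commutatorElement_def, mul_assoc, mul_assoc, ← mul_assoc r]
    exact mul_mem hc (conj_mem_of_mem_normalizer
      (normalizer_le_normalizer_centralizer D (nD r)) (inv_mem hc)))
  have haQ : a * a ∈ Q := hK ⟨le_centralizer_iff.1 hZA (A.mul_mem ha ha), fun d hd => by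
    have := conj_mem_of_mem_normalizer (nZ d) (hD2 hd).2
    convert this using 1
    simp only [commutatorElement_def]; group⟩
  refine ⟨haQ, ?_⟩
  have h4 : a * a * (a * a) ∈ 𝐂[D] := mem_centralizer_iff.2 fun d hd => by
    obtain ⟨d', hd'⟩ : ∃ d', d' = d⁻¹ * (a * d * a⁻¹) := ⟨_, rfl⟩
    have h5 := hd' ▸ c1 _ (A.mul_mem ha ha) ha1 d hd (hD2 hd).2 a ha
    have e1 : a * d = d * d' * a := by rw [hd']; group
    have e2 : a * d' = d' * a := mem_centralizer_iff.1 h5 a ha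
    have e3 : ∀ y : X, a * y = y * a → a * (d * y) = d * (d' * y) * a := fun y hy => by
      rw [← mul_assoc, e1, mul_assoc, hy]; group
    have f2 : a * (d' * d') = d' * d' * a := (Commute.mul_right e2 e2).eq
    have f3 : a * (d' * (d' * d')) = d' * (d' * d') * a := (Commute.mul_right e2 f2).eq
    symm
    calc a * a * (a * a) * d = a * (a * (a * (a * d))) := by group
      _ = a * (a * (a * (d * d'))) * a := by rw [e1]; group
      _ = a * (a * (d * (d' * d'))) * a * a := by rw [e3 _ e2]; group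
      _ = a * (d * (d' * (d' * d'))) * a * a * a := by rw [e3 _ f2]; group
      _ = d * (d' * d' * (d' * d')) * (a * a * (a * a)) := by rw [e3 _ f3]; simp only [mul_assoc]
      _ = _ := by rw [c4 a ha d hd d' hd', mul_one]
  have h5 : a * a * (a * a) ∈ A ⊓ Z := mem_inf.2 ⟨A.mul_mem (A.mul_mem ha ha) (A.mul_mem ha ha),
    mem_inf.2 ⟨cent _ (Q.mul_mem haQ haQ) h4, h4⟩⟩
  rwa [hAZ, mem_bot] at h5

end

/-- Let X be a finite group whose generalized Fitting subgroup equals its largest normal 2-subgroup Q, and let A be an abelian 2-subgroup of X such that every conjugate of A equals A or meets A trivially. Let B be the subgroup generated by the squares of the elements of A. Then B lies in Q, and if B is not an elementary abelian 2-group then the normal closure of B in X is commutative. -/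
theorem result {X : Type*} [Group X] [Finite X]
    (hX : Cfsg.generalizedFittingSubgroup X = Cfsg.pCore 2 X) (A : Subgroup X) (hA2 : IsPGroup 2 ↥A) (hAa : IsMulCommutative ↥A)
    (hti : ∀ h : X, A.map (MulAut.conj h).toMonoidHom = A ∨ A.map (MulAut.conj h).toMonoidHom ⊓ A = ⊥) :
    Subgroup.closure ((fun a : X => a ^ 2) '' (A : Set X)) ≤ Cfsg.pCore 2 X ∧
      (¬ Cfsg.IsElementaryAbelian 2 (Subgroup.closure ((fun a : X => a ^ 2) '' (A : Set X))) →
        IsMulCommutative ↥(Subgroup.normalClosure ((fun a : X => a ^ 2) '' (A : Set X)))) := by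
  have hAc : A ≤ 𝐂[A] := le_centralizer_iff_isMulCommutative.2 hAa
  have hBA : closure ((fun a : X => a ^ 2) '' (A : Set X)) ≤ A := by
    rw [closure_le]; rintro _ ⟨a, ha, rfl⟩; exact pow_mem ha 2
  have hea : (∀ a ∈ A, a * a * (a * a) = 1) →
      IsElementaryAbelian 2 (closure ((fun a : X => a ^ 2) '' (A : Set X))) := fun h =>
    ⟨le_centralizer_iff_isMulCommutative.1 (hBA.trans (hAc.trans (centralizer_anti hBA))),
      fun x hx => by
        induction hx using closure_induction with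
        | mem x hx => obtain ⟨a, ha, rfl⟩ := hx; simpa [sq] using h a ha
        | one => simp
        | mul x y hx hy h1 h2 =>
          have : Commute x y := mem_centralizer_iff.1 (hAc (hBA hy)) x (hBA hx)
          rw [this.mul_pow, h1, h2, one_mul]
        | inv x _ h1 => rw [inv_pow, h1, inv_one]⟩
  by_cases hne : ∃ a ∈ A, a * a ≠ 1
  swap
  · push Not at hne
    refine ⟨?_, fun h => absurd (hea fun a ha => by rw [hne a ha, one_mul]) h⟩
    rw [closure_le]; rintro _ ⟨a, ha, rfl⟩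
    simp only [sq, hne a ha]
    exact one_mem _
  have h : TIA A := ⟨hA2, hAc, hti, hne⟩
  by_cases hno : ∀ z ∈ A, z ≠ 1 → z * z = 1 → ¬ ∀ g : X, g * z * g⁻¹ * z = z * (g * z * g⁻¹)
  · have h1 := fun a ha => h.case_two (hX ▸ centralizer_fstar_le X) hno (a := a) ha
    refine ⟨?_, fun h2 => absurd (hea fun a ha => (h1 a ha).2) h2⟩
    rw [closure_le]; rintro _ ⟨a, ha, rfl⟩
    simp only [sq]
    exact (h1 a ha).1
  push Not at hno
  obtain ⟨z, hz, h1, h2, h3⟩ := hno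
  set B : Set X := (fun a : X => a ^ 2) '' (A : Set X)
  have h4 : ∀ x ∈ Group.conjugatesOfSet B, ∀ y ∈ Group.conjugatesOfSet B, x * y = y * x := by
    intro x hx y hy
    obtain ⟨_, ⟨a, ha, rfl⟩, hc⟩ := Group.mem_conjugatesOfSet_iff.1 hx
    obtain ⟨g, rfl⟩ := isConj_iff.1 hc
    obtain ⟨_, ⟨b, hb, rfl⟩, hc⟩ := Group.mem_conjugatesOfSet_iff.1 hy
    obtain ⟨g', rfl⟩ := isConj_iff.1 hc
    have := h.case_one hz h1 h2 h3 ha hb (g⁻¹ * g')
    simp only [sq]
    calc g * (a * a) * g⁻¹ * (g' * (b * b) * g'⁻¹)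
        = g * (a * a * (g⁻¹ * g' * (b * b) * (g⁻¹ * g')⁻¹)) * g⁻¹ := by group
      _ = _ := by rw [this]; group
  have h5 : normalClosure B ≤ 𝐂[normalClosure B] := by
    refine (closure_le _).2 fun x hx => ?_
    rw [SetLike.mem_coe, normalClosure, centralizer_closure, mem_centralizer_iff]
    exact fun y hy => h4 y hy x hx
  refine ⟨?_, fun _ => le_centralizer_iff_isMulCommutative.1 h5⟩
  refine (closure_le_normalClosure).trans (le_pCore' (isPGroup_iff.2 fun x hx => ?_))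
  induction hx using closure_induction with
  | mem x hx =>
    obtain ⟨_, ⟨a, ha, rfl⟩, hc⟩ := Group.mem_conjugatesOfSet_iff.1 hx
    obtain ⟨g, rfl⟩ := isConj_iff.1 hc
    obtain ⟨k, hk⟩ := isPGroup_iff.1 hA2 _ (pow_mem ha 2)
    exact ⟨k, by rw [conj_pow, hk]; simp⟩
  | one => exact ⟨0, by simp⟩
  | mul x y hx hy h1 h2 =>
    obtain ⟨k, hk⟩ := h1
    obtain ⟨l, hl⟩ := h2
    have : Commute x y := mem_centralizer_iff.1 (h5 hy) x hx
    refine ⟨k + l, ?_⟩
    rw [this.mul_pow, pow_add, pow_mul, hk, mul_comm, pow_mul, hl]; simp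
  | inv x _ h1 =>
    obtain ⟨k, hk⟩ := h1
    exact ⟨k, by rw [inv_pow, hk, inv_one]⟩

end Cfsg.Agent.S1783
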