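import Mathlib
import Cfsg.Statements.S1894
import Cfsg.Agent.Grp.PChain

set_option autoImplicit false
open Cfsg

namespace Cfsg.Agent.S1894

/-- Let P be a finite p-group, A a normal subgroup of P and B an abelian subgroup of A that is normal in P. Then some subgroup C of A containing B is normal in P and is self-centralizing and normal in A (C ∈ SCN(A)). -/
theorem result {P : Type*} [Group P] [Finite P] {p : ℕ} [Fact p.Prime] (hP : IsPGroup p P)
    (A : Subgroup P) [A.Normal] (B : Subgroup P) [B.Normal] (hBA : B ≤ A) (hB : IsMulCommutative B) :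
    ∃ C : Subgroup P, C.Normal ∧ B ≤ C ∧ Cfsg.IsSCN A C := by
  obtain ⟨C, ⟨hCn, hBC, hCA, hCc⟩, hmax⟩ := (wellFounded_gt (α := Subgroup P)).has_min
    {C | C.Normal ∧ B ≤ C ∧ C ≤ A ∧ IsMulCommutative C} ⟨B, inferInstance, le_rfl, hBA, hB⟩
  refine ⟨C, hCn, hBC, hCA, by rw [Subgroup.normalizer_eq_top]; exact le_top, ?_⟩
  refine le_antisymm ?_ (le_inf hCA fun x hx y hy => setLike_mul_comm hy hx)
  by_contra hn
  have := hP.isNilpotent
  obtain ⟨u, hu, huC, hc⟩ := Grp.PChain.exists_central_mod (A ⊓ Subgroup.centralizer (C : Set P)) C hn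
  refine hmax (C ⊔ Subgroup.zpowers u) ⟨Grp.PChain.normal_sup_zpowers hc, hBC.trans le_sup_left,
    sup_le hCA ((Subgroup.zpowers_le).2 hu.1), Grp.PChain.isMulCommutative_sup_zpowers hCc hu.2⟩ ?_
  exact lt_of_le_of_ne le_sup_left fun e => huC (e ▸ Subgroup.mem_sup_right (Subgroup.mem_zpowers u))

end Cfsg.Agent.S1894
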