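import Cfsg.Statements.S1895
import Cfsg.Agent.Grp.PChain
import Cfsg.Agent.Grp.CommPow
import Cfsg.Agent.Grp.CritExp
import Cfsg.Agent.Grp.Cores
import Cfsg.Agent.FT.PRankTwo
import Cfsg.Agent.PLocal.PSolv
import Cfsg.Agent.PLocal.Amb
import Cfsg.Agent.PLocal.Thompson

set_option autoImplicit false
set_option linter.style.haveILetI false
open Cfsg Subgroup
open scoped commutatorElement

namespace Cfsg.Agent.S1895

universe u

/-- In a `p`-central `p`-group (`p` odd), elements of order `p²` are central modulo `Ω₁`. -/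
theorem pcentral_aux {p : ℕ} [hp : Fact p.Prime] (hodd : Odd p) (n : ℕ) :
    ∀ (P : Type u) [Group P] [Finite P], Nat.card P = n → IsPGroup p P →
      (∀ x : P, x ^ p = 1 → ∀ y, Commute x y) →
      ∀ x y : P, (x ^ p) ^ p = 1 → ⁅x, y⁆ ^ p = 1 := by
  induction n using Nat.strong_induction_on with
  | _ n ih =>
  intro P _ _ hn hP hc x y hx
  rcases IsCoatomic.eq_top_or_exists_le_coatom (zpowers x) with h | ⟨M, hM, hxM⟩
  · have hy : y ∈ zpowers x := h ▸ mem_top y
    obtain ⟨k, rfl⟩ := mem_zpowers_iff.1 hy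
    rw [commutatorElement_eq_one_iff_commute.2 ((Commute.refl x).zpow_right k), one_pow]
  · haveI := hP.isNilpotent
    haveI hMn : M.Normal := Subgroup.NormalizerCondition.normal_of_coatom M
      Group.normalizerCondition_of_isNilpotent hM
    have hx1 : x ∈ M := hxM (mem_zpowers x)
    have hb : y * x⁻¹ * y⁻¹ ∈ M := hMn.conj_mem _ (M.inv_mem hx1) y
    have hlt : Nat.card M < n := by
      rw [← hn, ← card_top (G := P)]
      exact lt_of_le_of_ne (card_le_of_le le_top)
        fun h => hM.1 (eq_of_le_of_card_ge le_top h.ge)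
    have hxp : Commute (x ^ p) y := hc _ hx y
    have hbp : (y * x⁻¹ * y⁻¹) ^ p = (x ^ p)⁻¹ := by
      rw [conj_pow, inv_pow, hxp.inv_left.symm.eq, mul_inv_cancel_right]
    have key := ih _ hlt M rfl (hP.to_subgroup M)
      (fun a ha b => Subtype.ext (hc a (by simpa using congrArg Subtype.val ha) b).eq)
      ⟨_, hb⟩ ⟨x, hx1⟩ (Subtype.ext (by
        simp only [SubmonoidClass.coe_pow, OneMemClass.coe_one]
        rw [hbp, inv_pow, hx, inv_one]))
    have key' : ⁅y * x⁻¹ * y⁻¹, x⁆ ^ p = 1 := by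
      simpa [commutatorElement_def] using congrArg Subtype.val key
    have h1 := Grp.CommPow.mul_pow_eq_of_odd (hc _ key' x) (hc _ key' (y * x⁻¹ * y⁻¹)) hodd key'
    have : ⁅x, y⁆ = x * (y * x⁻¹ * y⁻¹) := by simp [commutatorElement_def, mul_assoc]
    rw [this, h1, hbp, mul_inv_cancel]

theorem pcentral {G : Type*} [Group G] [Finite G] {p : ℕ} [hp : Fact p.Prime] (hodd : Odd p)
    {C : Subgroup G} (hC : IsPGroup p C) (hc : ∀ x ∈ C, x ^ p = 1 → ∀ y ∈ C, Commute x y)
    {x y : G} (hx : x ∈ C) (hy : y ∈ C) (h : (x ^ p) ^ p = 1) : ⁅x, y⁆ ^ p = 1 := by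
  have := pcentral_aux hodd _ C rfl hC
    (fun a ha b => Subtype.ext (hc a a.2 (by simpa using congrArg Subtype.val ha) b b.2).eq)
    ⟨x, hx⟩ ⟨y, hy⟩ (Subtype.ext (by simpa using h))
  simpa [commutatorElement_def] using congrArg Subtype.val this

/-- one step of a normal series with no factor of order divisible by `p³` -/
def Step (p : ℕ) {G : Type*} [Group G] (A B : Subgroup G) : Prop :=
  A.Normal ∧ B.Normal ∧ A ≤ B ∧ ¬ p ^ 3 ∣ A.relIndex B

theorem Step.comap {p : ℕ} {G G' : Type*} [Group G] [Group G'] (f : G →* G')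
    (hf : Function.Surjective f) {A B : Subgroup G'} (h : Step p A B) :
    Step p (A.comap f) (B.comap f) := by
  obtain ⟨h1, h2, h3, h4⟩ := h
  refine ⟨inferInstance, inferInstance, comap_mono h3, ?_⟩
  rwa [relIndex_comap, map_comap_eq_self_of_surjective hf]

theorem reach_comap {p : ℕ} {G G' : Type*} [Group G] [Group G'] (f : G →* G')
    (hf : Function.Surjective f) {A B : Subgroup G'} (h : Relation.ReflTransGen (Step p) A B) :
    Relation.ReflTransGen (Step p) (A.comap f) (B.comap f) := by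
  induction h with
  | refl => exact .refl
  | tail _ h ih => exact ih.tail (h.comap f hf)

theorem not_cube_dvd {p n : ℕ} [hp : Fact p.Prime] (h0 : n ≠ 0) (h : n ≤ p ^ 2) : ¬ p ^ 3 ∣ n :=
  fun hd => absurd ((Nat.le_of_dvd (Nat.pos_of_ne_zero h0) hd).trans h)
    (not_le.2 (Nat.pow_lt_pow_right hp.out.one_lt (by norm_num)))

theorem reach_pcentral {p : ℕ} [hp : Fact p.Prime] (hodd : Odd p) (n : ℕ) :
    ∀ (G : Type u) [Group G] [Finite G] (C U : Subgroup G), C.Normal → Nat.card C = n →
      IsPGroup p C → (∀ x ∈ C, x ^ p = 1 → ∀ y ∈ C, Commute x y) → Nat.card U ≤ p ^ 2 →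
      (∀ x ∈ C, x ^ p = 1 → x ∈ U) → Relation.ReflTransGen (Step p) ⊥ C := by
  induction n using Nat.strong_induction_on with
  | _ n ih =>
  intro G _ _ C U hCn hn hC hc hU hCU
  by_cases hC1 : C = ⊥
  · rw [hC1]
  let Z : Subgroup G :=
    { carrier := {x | x ∈ C ∧ x ^ p = 1}
      mul_mem' := fun {a b} ha hb => ⟨C.mul_mem ha.1 hb.1, by
        rw [(hc a ha.1 ha.2 b hb.1).mul_pow, ha.2, hb.2, one_mul]⟩
      one_mem' := ⟨C.one_mem, one_pow _⟩
      inv_mem' := fun {a} ha => ⟨C.inv_mem ha.1, by rw [inv_pow, ha.2, inv_one]⟩ }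
  have hZ : ∀ x, x ∈ Z ↔ x ∈ C ∧ x ^ p = 1 := fun _ => Iff.rfl
  haveI hZn : Z.Normal := ⟨fun a ha g => ⟨hCn.conj_mem _ ha.1 g, by rw [conj_pow, ha.2]; simp⟩⟩
  have hZC : Z ≤ C := fun _ h => h.1
  have hZU : Nat.card Z ≤ p ^ 2 := (card_le_of_le (fun x hx => hCU x hx.1 hx.2 : Z ≤ U)).trans hU
  have hZ1 : Z ≠ ⊥ := by
    haveI : Nontrivial C := (nontrivial_iff_ne_bot C).2 hC1
    obtain ⟨k, hk⟩ := hC.exists_card_eq
    have hk0 : k ≠ 0 := by
      rintro rfl
      exact hC1 (card_eq_one.1 (by simpa using hk))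
    obtain ⟨x, hx⟩ := exists_prime_orderOf_dvd_card' (G := C) p (hk ▸ dvd_pow_self p hk0)
    intro h
    have : (x : G) ∈ Z := ⟨x.2, by
      have := pow_orderOf_eq_one x
      rw [hx] at this
      simpa using congrArg Subtype.val this⟩
    rw [h, mem_bot] at this
    have hx1 : x = 1 := Subtype.ext this
    rw [hx1, orderOf_one] at hx
    exact hp.out.one_lt.ne hx
  have hmul : ∀ a ∈ C, ∀ b ∈ C, (b ^ p) ^ p = 1 → (a * b) ^ p = a ^ p * b ^ p := by
    intro a ha b hb hbp
    have h1 := pcentral hodd hC hc hb ha hbp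
    have hm : ⁅b, a⁆ ∈ C := by
      rw [commutatorElement_def]
      exact C.mul_mem (C.mul_mem (C.mul_mem hb ha) (C.inv_mem hb)) (C.inv_mem ha)
    exact Grp.CommPow.mul_pow_eq_of_odd (hc _ hm h1 a ha) (hc _ hm h1 b hb) hodd h1
  let X : Subgroup G :=
    { carrier := {x | x ∈ C ∧ (x ^ p) ^ p = 1}
      mul_mem' := fun {a b} ha hb => ⟨C.mul_mem ha.1 hb.1, by
        rw [hmul a ha.1 b hb.1 hb.2,
          (hc _ (C.pow_mem ha.1 p) ha.2 _ (C.pow_mem hb.1 p)).mul_pow, ha.2, hb.2, one_mul]⟩
      one_mem' := ⟨C.one_mem, by simp⟩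
      inv_mem' := fun {a} ha => ⟨C.inv_mem ha.1, by rw [inv_pow, inv_pow, ha.2, inv_one]⟩ }
  let φ : X →* Z :=
    { toFun := fun x => ⟨x.1 ^ p, C.pow_mem x.2.1 p, x.2.2⟩
      map_one' := Subtype.ext (by simp)
      map_mul' := fun a b => Subtype.ext (hmul a a.2.1 b b.2.1 b.2.2) }
  have hker : φ.ker = Z.subgroupOf X := by
    ext x
    rw [MonoidHom.mem_ker, mem_subgroupOf, hZ, Subtype.ext_iff]
    exact ⟨fun h => ⟨x.2.1, h⟩, fun h => h.2⟩
  have hX : Nat.card (X.map (QuotientGroup.mk' Z)) ≤ p ^ 2 := by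
    rw [← relIndex_ker, QuotientGroup.ker_mk', relIndex, ← hker, index_ker]
    exact (card_le_card_group _).trans hZU
  have hmk : ∀ x : G, ((x : G ⧸ Z)) ^ p = 1 → x ∈ C → x ∈ X := fun x h hx =>
    ⟨hx, by
      rw [← QuotientGroup.mk_pow, QuotientGroup.eq_one_iff] at h
      exact h.2⟩
  have hlt : Nat.card (C.map (QuotientGroup.mk' Z)) < n := by
    rw [← relIndex_ker, QuotientGroup.ker_mk', ← hn, ← relIndex_bot_left C,
      ← relIndex_mul_relIndex ⊥ Z C bot_le hZC, relIndex_bot_left]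
    exact lt_mul_left (Nat.pos_of_ne_zero (Z.subgroupOf C).index_ne_zero_of_finite)
      ((one_lt_card_iff_ne_bot Z).2 hZ1)
  have h2 := ih _ hlt (G ⧸ Z) (C.map (QuotientGroup.mk' Z)) (X.map (QuotientGroup.mk' Z))
    (hCn.map _ (QuotientGroup.mk'_surjective Z)) rfl (hC.map _) (by
      rintro _ ⟨x, hx, rfl⟩ hxp _ ⟨y, hy, rfl⟩
      have h1 := pcentral hodd hC hc hx hy (hmk x hxp hx).2
      rw [← commutatorElement_eq_one_iff_commute, ← map_commutatorElement,
        QuotientGroup.mk'_apply, QuotientGroup.eq_one_iff]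
      refine ⟨?_, h1⟩
      rw [commutatorElement_def]
      exact C.mul_mem (C.mul_mem (C.mul_mem hx hy) (C.inv_mem hx)) (C.inv_mem hy)) hX (by
      rintro _ ⟨x, hx, rfl⟩ hxp
      exact ⟨x, hmk x hxp hx, rfl⟩)
  have h3 := reach_comap _ (QuotientGroup.mk'_surjective Z) h2
  rw [MonoidHom.comap_bot, comap_map_eq, QuotientGroup.ker_mk', sup_eq_left.2 hZC] at h3
  refine Relation.ReflTransGen.head ⟨inferInstance, hZn, bot_le, ?_⟩ h3
  rw [relIndex_bot_left]
  exact not_cube_dvd Nat.card_pos.ne' hZU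

theorem dvd_relIndex_sylow {G : Type*} [Group G] [Finite G] {p k : ℕ} [hp : Fact p.Prime]
    (P : Sylow p G) (C : Subgroup G) [C.Normal] (h : p ^ k ∣ C.index) :
    p ^ k ∣ C.relIndex P := by
  rw [← relIndex_mul_index (le_sup_left : C ≤ C ⊔ P), relIndex_sup_left] at h
  refine Nat.Coprime.dvd_of_dvd_mul_right (Nat.Coprime.pow_left _ ?_) h
  exact (hp.out.coprime_iff_not_dvd).2 fun hd =>
    P.not_dvd_index (hd.trans (index_dvd_of_le le_sup_right))

theorem le_of_dvd_index_centralizer {G : Type*} [Group G] [Finite G] {p k a : ℕ}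
    [hp : Fact p.Prime] (E : Subgroup G) [E.Normal] (hE : Nat.card E = p ^ a)
    (h : p ^ k ∣ (centralizer (E : Set G)).index) : k ≤ a.choose 2 := by
  obtain ⟨P⟩ : Nonempty (Sylow p G) := inferInstance
  have hEP : E ≤ P := (IsPGroup.of_card hE).le_sylow_of_normal P
  have h1 := dvd_relIndex_sylow P _ h
  have h2 := Grp.PChain.index_centralizer_le P.2 a (E.subgroupOf P)
    (by rw [Nat.card_congr (subgroupOfEquivOfLe hEP).toEquiv, hE])
  rw [PLocal.Amb.centralizer_subgroupOf hEP] at h2
  have h3 := (Nat.le_of_dvd (Nat.pos_of_ne_zero index_ne_zero_of_finite) h1).trans h2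
  exact (Nat.pow_le_pow_iff_right hp.out.one_lt).1 h3

theorem reach_core {G : Type*} [Group G] [Finite G] {p : ℕ} [hp : Fact p.Prime] (hp2 : p ≠ 2)
    (hr : PRankLE p 2 G) (hc : centralizer (pCore p G : Set G) ≤ pCore p G) :
    Relation.ReflTransGen (Step p) ⊥ (⊤ : Subgroup G) := by
  have hodd : Odd p := hp.out.odd_of_ne_two hp2
  set R := pCore p G with hRdef
  have hR : IsPGroup p R := Grp.pCore_isPGroup p G
  obtain ⟨D, hDR, hDn, hDe, -, hD⟩ := Grp.CritExp.exists_char_amb hR
  rw [Grp.CritExp.expQ_of_ne hp2] at hDe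
  haveI hDN : D.Normal := normalizer_eq_top_iff.1 (top_le_iff.1
    ((normalizer_eq_top R).ge.trans hDn))
  let W₀ : Subgroup R := omegaOne p (Subgroup.upperCentralSeries R 2)
  haveI : W₀.Characteristic := PLocal.omegaOne_characteristic _
  let W : Subgroup G := W₀.map R.subtype
  haveI hWN : W.Normal := inferInstance
  have hW2 : ∀ w ∈ W₀, w ∈ Subgroup.upperCentralSeries R 2 := fun w hw =>
    (closure_le (Subgroup.upperCentralSeries R 2)).2 (fun _ h => h.1) hw
  let E : Subgroup G := D ⊔ W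
  have hER : E ≤ R := sup_le hDR (map_subtype_le _)
  have hEe : ∀ x ∈ E, x ^ p = 1 := by
    intro x hx
    obtain ⟨d, hd, _, ⟨w, hw, rfl⟩, rfl⟩ := mem_sup_of_normal_right.1 hx
    have h1 := FT.R2.mem_upperCentralSeries_two_iff.1 (hW2 w hw) ⟨d, hDR hd⟩
    have h2 := FT.R2.pow_eq_one_of_mem_omega_zTwo hodd hw
    have h3 := Grp.CommPow.mul_pow_eq_of_odd_of_commute_right (h1 ⟨d, hDR hd⟩) (h1 w) hodd
      (by rw [h2]; exact Commute.one_left _)
    have h4 := congrArg Subtype.val h3
    rw [h2, mul_one] at h4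
    simpa [hDe d hd] using h4
  have hEp : IsPGroup p E := hR.to_le hER
  have hE3 : Nat.card E ≤ p ^ 3 := FT.R2.card_le_cube_of_exponent hEp
    (FT.R2.pRankLE_subgroup hr E) fun x => Subtype.ext (by simpa using hEe x x.2)
  set C := centralizer (E : Set G) with hCdef
  have hCp : IsPGroup p C := by
    intro x
    obtain ⟨k, hk⟩ := Grp.CritExp.exists_orderOf_eq_pow (p := p) (α := (x : G)) fun k hk => by
      have h1 := hD _ (by rw [normalizer_eq_top]; trivial) hk
        (centralizer_le (show (D : Set G) ⊆ E from (le_sup_left : D ≤ E)) (C.pow_mem x.2 _))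
      exact PLocal.Amb.eq_one_of_isPGroup_of_coprime hR (hc h1) hk
    exact ⟨k, Subtype.ext (by simp [← hk])⟩
  have hCR : C ≤ R := Grp.le_pCore inferInstance hCp
  have h1 : Relation.ReflTransGen (Step p) ⊥ C := by
    by_cases hcyc : IsCyclic R
    · haveI : IsCyclic C := isCyclic_of_injective (inclusion hCR) (inclusion_injective hCR)
      have hcomm : ∀ x ∈ C, ∀ y ∈ C, Commute x y := fun x hx y hy =>
        congrArg Subtype.val (IsCyclic.isMulCommutative.is_comm.comm (⟨x, hx⟩ : C) ⟨y, hy⟩)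
      let U : Subgroup G :=
        { carrier := {x | x ∈ C ∧ x ^ p = 1}
          mul_mem' := fun {a b} ha hb => ⟨C.mul_mem ha.1 hb.1, by
            rw [(hcomm a ha.1 b hb.1).mul_pow, ha.2, hb.2, one_mul]⟩
          one_mem' := ⟨C.one_mem, one_pow _⟩
          inv_mem' := fun {a} ha => ⟨C.inv_mem ha.1, by rw [inv_pow, ha.2, inv_one]⟩ }
      exact reach_pcentral hodd _ G C U inferInstance rfl hCp (fun x hx _ => hcomm x hx)
        (hr U (Grp.PChain.isMulCommutative_of_commute fun a ha b hb => hcomm a ha.1 b hb.1)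
          fun a ha => ha.2) fun x hx h => ⟨hx, h⟩
    · have hEc : ¬ IsCyclic E := fun h => FT.R2.not_isCyclic_omega_zTwo hp2 hR hcyc <| by
        haveI : IsCyclic W := isCyclic_of_injective (inclusion (le_sup_right : W ≤ E))
          (inclusion_injective _)
        exact isCyclic_of_injective (equivMapOfInjective W₀ _ R.subtype_injective).toMonoidHom
          (MulEquiv.injective _)
      obtain ⟨U₀, -, -, hU₀⟩ := Grp.PChain.exists_normal_le_card hEp ⊤ 2
        (by rw [card_top]; exact FT.R2.sq_le_card_of_not_isCyclic hEp hEc)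
      let U := U₀.map E.subtype
      have hU : Nat.card U = p ^ 2 := by rw [card_map_of_injective E.subtype_injective, hU₀]
      have hUE : U ≤ E := map_subtype_le _
      have hUe := FT.R2.isEA_of_card_sq hU fun x hx => hEe x (hUE hx)
      have hmem : ∀ x ∈ C, x ^ p = 1 → x ∈ U := by
        intro x hx hxp
        have hxU : x ∈ centralizer (U : Set G) := centralizer_le (show (U : Set G) ⊆ E from hUE) hx
        have h2 := hr (U ⊔ zpowers x) (Grp.PChain.isMulCommutative_sup_zpowers hUe.1 hxU) (by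
          intro a ha
          obtain ⟨u, hu, _, ⟨k, rfl⟩, rfl⟩ := (PLocal.Amb.mem_sup_of_le_normalizer_left
            (zpowers_le.2 (centralizer_le_normalizer _ hxU))).1 ha
          have : Commute u (x ^ k) := Commute.zpow_right (hxU u hu) k
          rw [this.mul_pow, hUe.2 u hu, ← zpow_natCast, ← zpow_mul, mul_comm, zpow_mul,
            zpow_natCast, hxp, one_zpow, mul_one])
        rw [eq_of_le_of_card_ge (le_sup_left : U ≤ U ⊔ zpowers x) (hU ▸ h2)]
        exact mem_sup_right (mem_zpowers x)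
      exact reach_pcentral hodd _ G C U inferInstance rfl hCp
        (fun x hx h y hy => hy x (hUE (hmem x hx h))) hU.le hmem
  obtain ⟨a, ha⟩ := hEp.exists_card_eq
  have ha3 : a ≤ 3 := (Nat.pow_le_pow_iff_right hp.out.one_lt).1 (ha ▸ hE3)
  by_cases ha2 : a ≤ 2
  · refine h1.tail ⟨inferInstance, inferInstance, le_top, fun h => ?_⟩
    rw [relIndex_top_right] at h
    have := le_of_dvd_index_centralizer E ha h
    interval_cases a <;> simp at this
  obtain rfl : a = 3 := by omega
  have hrel : C.relIndex (C ⊔ E) = C.relIndex E := relIndex_sup_left E C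
  have hmul : Nat.card (C.subgroupOf E) * C.relIndex E = p ^ 3 := by
    rw [relIndex, card_mul_index, ha]
  obtain ⟨b, hb, hb'⟩ := (Nat.dvd_prime_pow hp.out).1 (Dvd.intro_left _ hmul)
  refine (h1.tail (c := C ⊔ E) ⟨inferInstance, inferInstance, le_sup_left, fun h => ?_⟩).tail
    ⟨inferInstance, inferInstance, le_top, fun h => ?_⟩
  · rw [hrel] at h
    have h2 : C.relIndex E = p ^ 3 := Nat.dvd_antisymm (Dvd.intro_left _ hmul) h
    rw [h2] at hmul
    have h3 : Nat.card (C.subgroupOf E) = 1 :=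
      Nat.eq_of_mul_eq_mul_right (pow_pos hp.out.pos 3) (by rw [hmul, one_mul])
    have hE1 : E ≠ ⊥ := fun h => by
      rw [h, card_bot] at ha
      exact (Nat.one_lt_pow (by norm_num) hp.out.one_lt).ne ha
    apply PLocal.Amb.inf_centralizer_ne_bot hEp hEp le_normalizer hE1
    rw [inf_comm, ← disjoint_iff, ← subgroupOf_eq_bot]
    exact card_eq_one.1 h3
  · rw [relIndex_top_right] at h
    have hb0 : b ≠ 0 := by
      rintro rfl
      rw [pow_zero, relIndex_eq_one] at hb'
      have := hr E (Grp.PChain.isMulCommutative_of_commute fun a ha b hb => hb' hb a ha) hEe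
      rw [ha] at this
      exact absurd this (not_le.2 FT.R2.sq_lt_cube)
    have h4 : p ^ 4 ∣ C.index := by
      rw [← relIndex_mul_index (le_sup_left : C ≤ C ⊔ E), hrel, hb', pow_succ']
      exact mul_dvd_mul (dvd_pow_self p hb0) h
    have := le_of_dvd_index_centralizer E ha h4
    simp at this

/-- Let p be an odd prime and G a finite p-solvable group with no elementary abelian subgroup of order p³. Then every chief factor H/K of G (H, K normal in G with no normal subgroup of G strictly between them) whose order is a power of p has order p or p². -/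
theorem result {G : Type*} [Group G] [Finite G] {p : ℕ} [Fact p.Prime] (hp : p ≠ 2)
    (hG : Cfsg.IsPSolvable p G) (hr : Cfsg.PRankLE p 2 G)
    (H K : Subgroup G) [H.Normal] [K.Normal] (hKH : K < H) (hpow : ∃ n : ℕ, K.relIndex H = p ^ n)
    (hchief : ∀ L : Subgroup G, L.Normal → K ≤ L → L ≤ H → L = K ∨ L = H) :
    K.relIndex H = p ∨ K.relIndex H = p ^ 2 := by
  have hpp : p.Prime := Fact.out
  set N := pPrimeCore p G
  have hN := Grp.pPrimeCore_coprime p G
  have h1 := reach_core hp (FT.R2.pRankLE_quotient_of_coprime N hN hr)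
    (PLocal.centralizer_pCore_le_of_isPSolvable (PLocal.IsPSolvable.quotient hG N)
      (Grp.pPrimeCore_quotient_pPrimeCore p G))
  have h2 := reach_comap _ (QuotientGroup.mk'_surjective N) h1
  rw [MonoidHom.comap_bot, comap_top, QuotientGroup.ker_mk'] at h2
  have h3 : Relation.ReflTransGen (Step p) ⊥ (⊤ : Subgroup G) := by
    refine Relation.ReflTransGen.head ⟨inferInstance, inferInstance, bot_le, fun h => ?_⟩ h2
    rw [relIndex_bot_left] at h
    exact Grp.not_dvd_card_pPrimeCore p G ((dvd_pow_self p (by norm_num)).trans h)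
  obtain ⟨n, hn⟩ := hpow
  have hn0 : n ≠ 0 := by
    rintro rfl
    rw [pow_zero, relIndex_eq_one] at hn
    exact hKH.not_ge hn
  by_contra hcon
  have hn3 : 3 ≤ n := by
    by_contra h
    have : n = 1 ∨ n = 2 := by omega
    rcases this with rfl | rfl
    · exact hcon (Or.inl (by rw [hn, pow_one]))
    · exact hcon (Or.inr hn)
  have key : ∀ B : Subgroup G, Relation.ReflTransGen (Step p) ⊥ B → H ⊓ B ≤ K := by
    intro B hB
    induction hB with
    | refl => simp
    | @tail A B _ h ih =>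
      obtain ⟨hA, hB, hAB, hd⟩ := h
      rcases hchief (K ⊔ H ⊓ B) inferInstance le_sup_left (sup_le hKH.le inf_le_left) with h | h
      · exact le_sup_right.trans h.le
      · exfalso
        apply hd
        have e1 : K.relIndex H = K.relIndex (H ⊓ B) := by
          conv_lhs => rw [← h]
          exact relIndex_sup_left _ _
        have e2 : K.relIndex (H ⊓ B) ∣ (H ⊓ A).relIndex (H ⊓ B) :=
          relIndex_dvd_of_le_left _ ih
        have e3 : (H ⊓ A).relIndex (H ⊓ B) = A.relIndex (H ⊓ B) := by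
          rw [← inf_relIndex_right A, ← inf_relIndex_right (H ⊓ A)]
          congr 1
          ext x
          simp only [mem_inf]
          tauto
        have e4 := PLocal.relIndex_dvd_relIndex_of_le_right A (inf_le_right : H ⊓ B ≤ B)
        exact ((pow_dvd_pow p hn3).trans (by rw [← hn, e1, ← e3] at *; exact e2)).trans e4
  have := key ⊤ h3
  rw [inf_top_eq] at this
  exact hKH.not_ge this

end Cfsg.Agent.S1895
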