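import Cfsg.Statements.S1896
import Mathlib
import Cfsg.Agent.Grp.MetaAut

set_option autoImplicit false
open Cfsg

namespace Cfsg.Agent.S1896

/-- A finite metacyclic 2-group whose automorphism group is not a 2-group is isomorphic to the quaternion group of order 8 or to a homocyclic abelian group Z_{2^n} × Z_{2^n}. -/
theorem result {X : Type*} [Group X] [Finite X] (hX : IsPGroup 2 X)
    (hm : Cfsg.IsMetacyclic X) (hA : ¬ IsPGroup 2 (MulAut X)) :
    Nonempty (X ≃* QuaternionGroup 2) ∨
      ∃ n : ℕ, Nonempty (X ≃* Multiplicative (ZMod (2 ^ n)) × Multiplicative (ZMod (2 ^ n))) := by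
  obtain ⟨α, hα, h1⟩ := Grp.MetaAut.exists_odd_aut hA
  rcases Grp.MetaAut.main hX hm hα h1 with h | ⟨n, -, h⟩
  · exact Or.inl h
  · exact Or.inr ⟨n, h⟩

end Cfsg.Agent.S1896
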