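import Cfsg.Statements.S1898
import Mathlib
import Cfsg.Agent.Grp.CritExp

set_option autoImplicit false
open Cfsg

namespace Cfsg.Agent.S1898

open Subgroup
open scoped commutatorElement


/-- Let X be a finite 2-group whose derived subgroup is elementary abelian and central. Then the subgroup generated by the elements of order dividing 4 has exponent dividing 4, and every automorphism of X fixing each element of order dividing 4 has 2-power order. -/
theorem result {X : Type*} [Group X] [Finite X] (hX : IsPGroup 2 X)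
    (hel : Cfsg.IsElementaryAbelian 2 (commutator X)) (hcen : commutator X ≤ Subgroup.center X) :
    (∀ x ∈ Subgroup.closure {g : X | g ^ 4 = 1}, x ^ 4 = 1) ∧
      ∀ φ : MulAut X, (∀ g : X, g ^ 4 = 1 → φ g = g) → ∃ k : ℕ, φ ^ (2 ^ k) = 1 := by
  have hmul : ∀ x y : X, (x * y) ^ 4 = x ^ 4 * y ^ 4 := fun x y => by
    have h : ⁅y, x⁆ ∈ commutator X := commutator_mem_commutator (mem_top y) (mem_top x)
    exact Grp.CritExp.mul_pow_expQ Nat.prime_two (mem_center_iff.1 (hcen h) x).symm
      (mem_center_iff.1 (hcen h) y).symm (hel.2 _ h)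
  refine ⟨fun x hx => Grp.CommPow.pow_eq_one_of_mem_closure
    (fun x y hx hy => by rw [hmul, hx, hy, one_mul]) hx, fun φ hφ => ?_⟩
  obtain ⟨k, hk⟩ := Grp.CritExp.exists_orderOf_eq_pow (p := 2) (α := φ) fun k hk => by
    ext x
    refine Grp.CritExp.fix_of_fix_omega hX (X := ⊤) (q := 4) (by decide)
      (fun x _ y _ => hmul x y) hk (fun _ _ => mem_top _) (fun y _ hy => ?_) x (mem_top x)
    exact MulAction.mem_stabilizer_iff.1
      (pow_mem (MulAction.mem_stabilizer_iff.2 (hφ y hy) : φ ∈ MulAction.stabilizer _ y) _)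
  exact ⟨k, by rw [← hk, pow_orderOf_eq_one]⟩

end Cfsg.Agent.S1898
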