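import Cfsg.Statements.S1899
-- import your own Cfsg.Agent.* helpers here

set_option autoImplicit false
open Cfsg

namespace Cfsg.Agent.S1899

/-- Let a dihedral group of order 2n, n odd and n > 1, act on a finite abelian 2-group A through automorphisms d and t with d^n = 1, t² = 1 and t d t⁻¹ = d⁻¹, and suppose that d fixes only the identity. Then A is the internal direct product of C_A(t) and its image under d. -/
theorem result {A : Type*} [CommGroup A] [Finite A] (hA : IsPGroup 2 A)
    {n : ℕ} (hn : Odd n) (hn1 : 1 < n) (d t : MulAut A) (hd : d ^ n = 1) (ht : t ^ 2 = 1) (hdt : t * d * t⁻¹ = d⁻¹)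
    (hfix : ∀ a : A, d a = a → a = 1) :
    (MulEquiv.toMonoidHom t).eqLocus (MonoidHom.id A) ⊓ ((MulEquiv.toMonoidHom t).eqLocus (MonoidHom.id A)).map d.toMonoidHom = ⊥ ∧
      (MulEquiv.toMonoidHom t).eqLocus (MonoidHom.id A) ⊔ ((MulEquiv.toMonoidHom t).eqLocus (MonoidHom.id A)).map d.toMonoidHom = ⊤ := by
  have hfix2 : ∀ a : A, d (d a) = a → a = 1 := by
    intro a ha
    apply hfix
    obtain ⟨k, rfl⟩ := hn
    have h1 : ∀ j : ℕ, (d ^ (2 * j)) a = a := by
      intro j
      induction j with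
      | zero => simp
      | succ j ih => rw [mul_add, mul_one, pow_add, MulAut.mul_apply, pow_two, MulAut.mul_apply, ha, ih]
    have h2 : (d ^ (2 * k + 1)) a = a := by rw [hd]; rfl
    rwa [pow_succ', MulAut.mul_apply, h1] at h2
  have htt : ∀ a : A, t (t a) = a := fun a => by
    rw [← MulAut.mul_apply, ← pow_two, ht]; rfl
  have htd : ∀ a : A, t (d a) = d⁻¹ (t a) := fun a => by
    rw [← hdt]; simp
  constructor
  · rw [eq_bot_iff]
    rintro _ ⟨h1, c, hc, rfl⟩
    have h1' : t (d c) = d c := h1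
    have hc' : t c = c := hc
    rw [htd, hc'] at h1'
    have : d (d c) = c := by rw [← h1']; simp
    simp [hfix2 c this]
  · rw [eq_top_iff]
    intro x _
    have hinj : Function.Injective fun b : A => b * (d (d b))⁻¹ := by
      intro b b' e
      have e' : b * (d (d b))⁻¹ = b' * (d (d b'))⁻¹ := e
      have : d (d (b * b'⁻¹)) = b * b'⁻¹ := by
        simp only [map_mul, map_inv]
        rw [mul_inv_eq_iff_eq_mul, mul_right_comm, eq_mul_inv_iff_mul_eq] at e'
        rw [mul_inv_eq_iff_eq_mul, mul_right_comm, eq_mul_inv_iff_mul_eq, e', mul_comm]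
      exact mul_inv_eq_one.1 (hfix2 _ this)
    obtain ⟨b, rfl⟩ := Finite.injective_iff_surjective.1 hinj x
    have e : b * (d (d b))⁻¹ = (t b * b) * (d (d⁻¹ (t b) * d b))⁻¹ := by
      simp only [map_mul, MulAut.apply_inv_self, mul_inv]
      rw [mul_mul_mul_comm, mul_inv_cancel, one_mul]
    change b * (d (d b))⁻¹ ∈ _
    rw [e]
    refine Subgroup.mul_mem _ (Subgroup.mem_sup_left ?_) (Subgroup.inv_mem _
      (Subgroup.mem_sup_right ⟨_, ?_, rfl⟩))
    · change t (t b * b) = t b * b
      rw [map_mul, htt, mul_comm]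
    · change t (d⁻¹ (t b) * d b) = d⁻¹ (t b) * d b
      rw [← htd, map_mul, htt, mul_comm]

end Cfsg.Agent.S1899
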