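import Cfsg.Statements.S1900
import Cfsg.Agent.Solv.Coprime3
import Cfsg.Agent.PLocal.CommMod
-- import your own Cfsg.Agent.* helpers here

set_option autoImplicit false
open Cfsg

namespace Cfsg.Agent.S1900

open Subgroup Cfsg.Agent.Solv Cfsg.Agent.PLocal.CommMod

theorem le_normalizer_of_comm_le {G : Type*} [Group G] {B P : Subgroup G} (h : ⁅B, P⁆ ≤ B) :
    P ≤ normalizer (B : Set G) := by
  intro g hg
  rw [mem_normalizer_iff]
  have key : ∀ g ∈ P, ∀ b ∈ B, g * b * g⁻¹ ∈ B := by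
    intro g hg b hb
    have h1 := h (commutator_mem_commutator (inv_mem hb) hg)
    rw [commutatorElement_def] at h1
    have : g * b * g⁻¹ = b * (b⁻¹ * g * b⁻¹⁻¹ * g⁻¹) := by group
    rw [this]
    exact B.mul_mem hb h1
  intro b
  refine ⟨key g hg b, fun hb => ?_⟩
  have := key g⁻¹ (inv_mem hg) _ hb
  simpa [mul_assoc] using this

theorem half {G : Type*} [Group G] [Finite G] {P Q X₁ X₂ : Subgroup G} (hsol : Group.IsSolvable P)
    (hQ : IsMulCommutative Q) (h₁ : X₁ ≤ Q) (h₂ : X₂ ≤ Q) (hQP : Q ≤ normalizer (P : Set G))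
    (hcop : (Nat.card Q).Coprime (Nat.card P))
    (hgen : ∀ K ≤ P, Q ≤ normalizer (K : Set G) →
      K ≤ (K ⊓ centralizer (X₁ : Set G)) ⊔ (K ⊓ centralizer (X₂ : Set G)))
    (hdisj : (P ⊓ centralizer (X₁ : Set G)) ⊓ (P ⊓ centralizer (X₂ : Set G)) = ⊥) :
    ⁅⁅P ⊓ centralizer (X₁ : Set G), P ⊓ centralizer (X₂ : Set G)⁆, X₂⁆ ≤
      ⁅⁅P ⊓ centralizer (X₁ : Set G), P ⊓ centralizer (X₂ : Set G)⁆, P⁆ := by
  have hQX : ∀ X ≤ Q, Q ≤ normalizer (X : Set G) := by
    intro X hX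
    refine le_trans ?_ (centralizer_le_normalizer _)
    intro g hg
    rw [mem_centralizer_iff]
    intro x hx
    exact congrArg Subtype.val (hQ.is_comm.comm ⟨x, hX hx⟩ ⟨g, hg⟩)
  set P₁ := P ⊓ centralizer (X₁ : Set G) with hP₁
  set P₂ := P ⊓ centralizer (X₂ : Set G) with hP₂
  have q₁ : Q ≤ normalizer (P₁ : Set G) := le_normalizer_inf hQP (le_normalizer_centralizer (hQX _ h₁))
  have q₂ : Q ≤ normalizer (P₂ : Set G) := le_normalizer_inf hQP (le_normalizer_centralizer (hQX _ h₂))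
  set N := ⁅P₁, P₂⁆ with hN
  have qN : Q ≤ normalizer (N : Set G) := le_normalizer_commutator q₁ q₂
  have hNP : N ≤ P := by
    rw [hN, commutator_le]
    intro a ha b hb
    exact P.mul_mem (P.mul_mem (P.mul_mem ha.1 hb.1) (inv_mem ha.1)) (inv_mem hb.1)
  have pN : P ≤ normalizer (N : Set G) :=
    (hgen P le_rfl hQP).trans
      (sup_le (le_normalizer_commutator_left _ _) (le_normalizer_commutator_right _ _))
  set B := ⁅N, P⁆ with hB
  have hBN : B ≤ N := commutator_le_of_le_normalizer pN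
  have qB : Q ≤ normalizer (B : Set G) := le_normalizer_commutator qN hQP
  have pB : P ≤ normalizer (B : Set G) := le_normalizer_commutator_right _ _
  set N₂ := N ⊓ centralizer (X₂ : Set G) with hN₂
  have qN₂ : Q ≤ normalizer (N₂ : Set G) := le_normalizer_inf qN (le_normalizer_centralizer (hQX _ h₂))
  have qB₁ : Q ≤ normalizer ((N₂ ⊔ B : Subgroup G) : Set G) := le_normalizer_sup qN₂ qB
  have pB₁ : P ≤ normalizer ((N₂ ⊔ B : Subgroup G) : Set G) :=
    le_normalizer_of_comm_le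
      ((commutator_mono (sup_le inf_le_left hBN) le_rfl).trans le_sup_right)
  have c₁ : ⁅N, X₁⁆ ≤ N₂ ⊔ B := by
    refine (commutator_mono (hgen N hNP qN) le_rfl).trans ?_
    refine commutator_sup_le ((inf_le_left.trans hNP).trans pB₁) ((inf_le_left.trans hNP).trans pB₁) ?_ ?_
    · have : ⁅N ⊓ centralizer (X₁ : Set G), X₁⁆ = ⊥ :=
        commutator_eq_bot_iff_le_centralizer.2 inf_le_right
      rw [this]; exact bot_le
    · exact (commutator_le_of_le_normalizer (h₁.trans qN₂)).trans le_sup_left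
  have e₂ : ⁅P₂, X₁⁆ = P₂ := by
    have hc : (Nat.card X₁).Coprime (Nat.card P₂) :=
      Nat.Coprime.of_dvd (card_dvd_of_le h₁) (card_dvd_of_le inf_le_left) hcop
    have hs : Group.IsSolvable P₂ := by
      have := hsol
      exact Group.isSolvable_of_isSolvable_injective (f := inclusion (inf_le_left : P₂ ≤ P)) (inclusion_injective _)
    have := coprime_commutator_sup_centralizer X₁ P₂ (h₁.trans q₂) hc (Or.inr hs)
    have h0 : P₂ ⊓ centralizer (X₁ : Set G) = ⊥ := by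
      rw [eq_bot_iff, ← hdisj]
      exact le_inf (inf_le_inf inf_le_left le_rfl) inf_le_left
    rwa [h0, sup_bot_eq] at this
  have c₂ : N ≤ N₂ ⊔ B := by
    have := three_subgroups_mod (H₁ := X₁) (H₂ := P₂) (H₃ := P₁) (h₁.trans qB₁)
      (inf_le_left.trans pB₁) (inf_le_left.trans pB₁) (by rw [commutator_comm P₂]; exact c₁) (by
        have : ⁅P₁, X₁⁆ = ⊥ := commutator_eq_bot_iff_le_centralizer.2 inf_le_right
        rw [this, commutator_bot_left]; exact bot_le)
    rwa [commutator_comm X₁, e₂, commutator_comm P₂] at this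
  refine (commutator_mono c₂ le_rfl).trans ?_
  refine commutator_sup_le ((inf_le_left.trans hNP).trans pB) ((hBN.trans hNP).trans pB) ?_ ?_
  · have : ⁅N₂, X₂⁆ = ⊥ := commutator_eq_bot_iff_le_centralizer.2 inf_le_right
    rw [this]; exact bot_le
  · exact commutator_le_of_le_normalizer (h₂.trans qB)

theorem exists_gen {G : Type*} [Group G] [Finite G] {X : Subgroup G} {q : ℕ} [hq : Fact q.Prime]
    (h : Nat.card X = q) : ∃ x, x ≠ 1 ∧ zpowers x = X := by
  have hne : X ≠ ⊥ := by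
    rintro rfl
    rw [card_bot] at h
    exact hq.out.one_lt.ne h
  obtain ⟨⟨x, hx⟩, hx1⟩ := (ne_bot_iff_exists_ne_one.1 hne)
  have hx1' : x ≠ 1 := fun e => hx1 (Subtype.ext e)
  refine ⟨x, hx1', ?_⟩
  refine eq_of_le_of_card_ge (zpowers_le.2 hx) ?_
  have hd : Nat.card (zpowers x) ∣ q := h ▸ card_dvd_of_le (zpowers_le.2 hx)
  rcases (Nat.dvd_prime hq.out).1 hd with h1 | h1
  · rw [Nat.card_zpowers, orderOf_eq_one_iff] at h1
    exact absurd h1 hx1'
  · rw [h1, h]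

/-- Let S = PQ be a finite group with P a normal Sylow p-subgroup and Q elementary abelian of order q², q a prime different from p. If exactly two subgroups X₁, X₂ of order q in Q have a nontrivial centralizer in P, then P is the internal direct product of C_P(X₁) and C_P(X₂): they commute elementwise, meet trivially and generate P. -/
theorem result {S : Type*} [Group S] [Finite S] {p q : ℕ} [Fact p.Prime] [Fact q.Prime] (hpq : p ≠ q)
    (P : Sylow p S) [(P : Subgroup S).Normal] (Q : Subgroup S) (hQ : Cfsg.IsElementaryAbelian q Q) (hQc : Nat.card Q = q ^ 2)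
    (hS : (P : Subgroup S) ⊔ Q = ⊤)
    (X₁ X₂ : Subgroup S) (h₁ : X₁ ≤ Q) (h₂ : X₂ ≤ Q) (h₁₂ : X₁ ≠ X₂) (hc₁ : Nat.card X₁ = q) (hc₂ : Nat.card X₂ = q)
    (hf₁ : (P : Subgroup S) ⊓ Subgroup.centralizer (X₁ : Set S) ≠ ⊥)
    (hf₂ : (P : Subgroup S) ⊓ Subgroup.centralizer (X₂ : Set S) ≠ ⊥)
    (honly : ∀ X : Subgroup S, X ≤ Q → Nat.card X = q →
      (P : Subgroup S) ⊓ Subgroup.centralizer (X : Set S) ≠ ⊥ → X = X₁ ∨ X = X₂) :
    ⁅(P : Subgroup S) ⊓ Subgroup.centralizer (X₁ : Set S), (P : Subgroup S) ⊓ Subgroup.centralizer (X₂ : Set S)⁆ = ⊥ ∧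
      ((P : Subgroup S) ⊓ Subgroup.centralizer (X₁ : Set S)) ⊓ ((P : Subgroup S) ⊓ Subgroup.centralizer (X₂ : Set S)) = ⊥ ∧
      ((P : Subgroup S) ⊓ Subgroup.centralizer (X₁ : Set S)) ⊔ ((P : Subgroup S) ⊓ Subgroup.centralizer (X₂ : Set S)) = P := by
  have hq : q.Prime := Fact.out
  have hp : p.Prime := Fact.out
  have hQP : Q ≤ normalizer ((P : Subgroup S) : Set S) := le_normalizer_of_normal
  have hcard : ∀ a ∈ Q, a ≠ 1 → Nat.card (zpowers a) = q := by
    intro a ha ha1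
    rw [Nat.card_zpowers]
    exact orderOf_eq_prime (hQ.2 a ha) ha1
  have hcz : ∀ a : S, centralizer ((zpowers a : Subgroup S) : Set S) = centralizer {a} := by
    intro a
    rw [zpowers_eq_closure, centralizer_closure]
  have hcop : (Nat.card Q).Coprime (Nat.card (P : Subgroup S)) := by
    apply coprime_card_of_isPGroup P.isPGroup'
    rw [hQc]
    exact Nat.Coprime.pow_left _ ((Nat.coprime_primes hq hp).2 hpq.symm)
  have hnc : ¬ IsCyclic Q := by
    intro hc
    obtain ⟨g, hg⟩ := hc.exists_generator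
    have h1 : orderOf g = q ^ 2 := by
      rw [← hQc]; exact orderOf_eq_card_of_forall_mem_zpowers hg
    have h2 : orderOf g ∣ q := orderOf_dvd_of_pow_eq_one (Subtype.ext (hQ.2 g g.2))
    rw [h1] at h2
    have := Nat.le_of_dvd hq.pos h2
    nlinarith [hq.two_le]
  have hgen : ∀ K ≤ (P : Subgroup S), Q ≤ normalizer (K : Set S) →
      K ≤ (K ⊓ centralizer (X₁ : Set S)) ⊔ (K ⊓ centralizer (X₂ : Set S)) := by
    intro K hK hQK
    have := hQ.1
    refine le_of_centralizers_le Q K hnc hQK (Nat.Coprime.of_dvd_right (card_dvd_of_le hK) hcop) _ ?_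
    intro a ha ha1
    by_cases h0 : (P : Subgroup S) ⊓ centralizer ((zpowers a : Subgroup S) : Set S) = ⊥
    · rw [← hcz]
      exact ((inf_le_inf_right _ hK).trans h0.le).trans bot_le
    · rcases honly _ (zpowers_le.2 ha) (hcard a ha ha1) h0 with e | e
      · rw [← hcz, e]; exact le_sup_left
      · rw [← hcz, e]; exact le_sup_right
  have hdisj : ((P : Subgroup S) ⊓ centralizer (X₁ : Set S)) ⊓
      ((P : Subgroup S) ⊓ centralizer (X₂ : Set S)) = ⊥ := by
    obtain ⟨x₁, hx₁, e₁⟩ := exists_gen hc₁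
    obtain ⟨x₂, hx₂, e₂⟩ := exists_gen hc₂
    have m₁ : x₁ ∈ X₁ := e₁ ▸ mem_zpowers x₁
    have m₂ : x₂ ∈ X₂ := e₂ ▸ mem_zpowers x₂
    have n₂ : x₂ ∉ X₁ := fun h => h₁₂ (eq_of_le_of_card_ge (e₂ ▸ zpowers_le.2 h) (by rw [hc₁, hc₂])).symm
    have n₁ : x₁ ∉ X₂ := fun h => h₁₂ (eq_of_le_of_card_ge (e₁ ▸ zpowers_le.2 h) (by rw [hc₁, hc₂]))
    have hy : x₁ * x₂ ∈ Q := Q.mul_mem (h₁ m₁) (h₂ m₂)
    have y₁ : x₁ * x₂ ∉ X₁ := fun h => n₂ ((X₁.mul_mem_cancel_left m₁).1 h)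
    have y₂ : x₁ * x₂ ∉ X₂ := fun h => n₁ ((X₂.mul_mem_cancel_right m₂).1 h)
    have hy1 : x₁ * x₂ ≠ 1 := fun h => y₁ (h ▸ X₁.one_mem)
    have h0 : (P : Subgroup S) ⊓ centralizer ((zpowers (x₁ * x₂) : Subgroup S) : Set S) = ⊥ := by
      by_contra h0
      rcases honly _ (zpowers_le.2 hy) (hcard _ hy hy1) h0 with e | e
      · exact y₁ (e ▸ mem_zpowers _)
      · exact y₂ (e ▸ mem_zpowers _)
    rw [eq_bot_iff, ← h0, hcz]
    rintro g ⟨⟨hg, g₁⟩, -, g₂⟩
    refine ⟨hg, ?_⟩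
    refine mem_centralizer_singleton_iff.2 ?_
    have a₁ := mem_centralizer_iff.1 g₁ x₁ m₁
    have a₂ := mem_centralizer_iff.1 g₂ x₂ m₂
    rw [← mul_assoc, ← a₁, mul_assoc, ← a₂, mul_assoc]
  have hsol : Group.IsSolvable (P : Subgroup S) := isSolvable_of_isPGroup P.isPGroup'
  refine ⟨?_, hdisj, le_antisymm (sup_le inf_le_left inf_le_left) (hgen _ le_rfl hQP)⟩
  have a₂ := half hsol hQ.1 h₁ h₂ hQP hcop hgen hdisj
  have a₁ := half hsol hQ.1 h₂ h₁ hQP hcop (fun K hK hQK => by rw [sup_comm]; exact hgen K hK hQK)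
    (by rw [inf_comm]; exact hdisj)
  rw [commutator_comm ((P : Subgroup S) ⊓ centralizer (X₂ : Set S))] at a₁
  have hQX : ∀ X ≤ Q, Q ≤ normalizer (X : Set S) := by
    intro X hX
    refine le_trans ?_ (centralizer_le_normalizer _)
    intro g hg
    rw [mem_centralizer_iff]
    intro x hx
    exact congrArg Subtype.val (hQ.1.is_comm.comm ⟨x, hX hx⟩ ⟨g, hg⟩)
  set P₁ := (P : Subgroup S) ⊓ centralizer (X₁ : Set S) with hP₁
  set P₂ := (P : Subgroup S) ⊓ centralizer (X₂ : Set S) with hP₂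
  have q₁ : Q ≤ normalizer (P₁ : Set S) := le_normalizer_inf hQP (le_normalizer_centralizer (hQX _ h₁))
  have q₂ : Q ≤ normalizer (P₂ : Set S) := le_normalizer_inf hQP (le_normalizer_centralizer (hQX _ h₂))
  set N := ⁅P₁, P₂⁆ with hN
  have qN : Q ≤ normalizer (N : Set S) := le_normalizer_commutator q₁ q₂
  have hNP : N ≤ P := (commutator_mono inf_le_left inf_le_left).trans (commutator_le_left _ _)
  have qB : Q ≤ normalizer ((⁅N, (P : Subgroup S)⁆ : Subgroup S) : Set S) :=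
    le_normalizer_commutator qN hQP
  have c : ⁅N, X₁ ⊔ X₂⁆ ≤ ⁅N, (P : Subgroup S)⁆ :=
    commutator_sup_le' (h₁.trans qB) (h₂.trans qB) a₁ a₂
  have hsN : Group.IsSolvable N := isSolvable_of_isPGroup (P.isPGroup'.to_le hNP)
  have d := coprime_commutator_sup_centralizer (X₁ ⊔ X₂) N ((sup_le h₁ h₂).trans qN)
    (Nat.Coprime.of_dvd (card_dvd_of_le (sup_le h₁ h₂)) (card_dvd_of_le hNP) hcop) (Or.inr hsN)
  have h0 : N ⊓ centralizer ((X₁ ⊔ X₂ : Subgroup S) : Set S) = ⊥ := by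
    rw [eq_bot_iff, ← hdisj]
    exact le_inf (inf_le_inf hNP (centralizer_le (SetLike.coe_subset_coe.2 le_sup_left)))
      (inf_le_inf hNP (centralizer_le (SetLike.coe_subset_coe.2 le_sup_right)))
  rw [h0, sup_bot_eq] at d
  rw [d] at c
  exact eq_bot_of_le_commutator_of_isNilpotent (P.isPGroup'.isNilpotent) hNP le_rfl c

end Cfsg.Agent.S1900
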