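import Cfsg.Statements.S1903
import Mathlib
import Cfsg.Agent.TwoG.Five

set_option autoImplicit false
open Cfsg

namespace Cfsg.Agent.S1903

open Subgroup Suz.Hig TwoG
open scoped commutatorElement

theorem fix_of_card {T : Type*} [Group T] [Finite T] {β : MulAut T} (h5 : β ^ 5 = 1) {Z : Subgroup T}
    (hZ : Inv β Z) (hc : Nat.card Z = 4) {z : T} (hz : z ∈ Z) : β z = z := by
  let _ := Fintype.ofFinite Z
  let g : Z → Z := fun x => ⟨β x, hZ _ x.2⟩
  have h1 : Function.IsPeriodicPt g 5 ⟨z, hz⟩ := Subtype.ext (DFunLike.congr_fun h5 z)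
  have h2 := Function.minimalPeriod_le_card (f := g) (x := ⟨z, hz⟩)
  rw [← Nat.card_eq_fintype_card, hc] at h2
  rcases (Nat.dvd_prime (by norm_num)).1 h1.minimalPeriod_dvd with e | e
  · exact congrArg Subtype.val (Function.minimalPeriod_eq_one_iff_isFixedPt.1 e)
  · omega

theorem h5 {G : Type*} [Group G] [Finite G] (hD : Nat.card (commutator G) = 64)
    (hZ : IsKleinFour (center (commutator G))) {y : G} (hy : orderOf y = 5)
    (hc : (commutator G).IsComplement' (zpowers y)) :
    H5 (MulAut.conjNormal y : MulAut (commutator G)) (center _) := by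
  set β : MulAut (commutator G) := MulAut.conjNormal y with hβ
  have hβ5 : β ^ 5 = 1 := by rw [hβ, ← map_pow, ← hy, pow_orderOf_eq_one, map_one]
  obtain ⟨hZ4, hZ2⟩ := Misc.isKleinFour_iff.1 hZ
  have hfix : ∀ z ∈ center (commutator G), β z = z := fun z hz => fix_of_card hβ5 inv_center hZ4 hz
  have hM : Inv β (Suz.Hig.sq ⊤) := inv_top.sq
  have hsq : ∀ x : commutator G, x * x ∈ Suz.Hig.sq ⊤ := fun x => mul_self_mem_sq trivial
  obtain ⟨V, _, π, hπ⟩ := exists_isQuot (le_top : Suz.Hig.sq (⊤ : Subgroup (commutator G)) ≤ ⊤)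
    fun x _ y _ => by
      rw [Inv.commutator_eq_sq]; exact mul_mem (mul_mem (hsq _) (hsq _)) (hsq _)
  have := hπ.finite
  have hm : ∀ a b, π (a * b) = π a + π b := fun a b => hπ.map_mul a trivial b trivial
  have hV := hπ.add_self fun x _ => hsq x
  obtain ⟨f, hf⟩ := hπ.exists_add (fun x => π (β x)) (fun x _ y _ => by rw [map_mul, hm])
    fun x hx => hπ.map_of_mem (hM x hx)
  have hf' : ∀ x, f (π x) = π (β x) := fun x => hf x trivial
  have hfp : ∀ v, f v = v → v = 0 := by
    let D := (f - AddMonoidHom.id V).range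
    obtain ⟨Φ, hΦ, -⟩ := exists_lift hc (MonoidHom.mk' (fun x =>
      Multiplicative.ofAdd (QuotientAddGroup.mk (π x) : V ⧸ D)) fun a b => by rw [hm]; rfl)
      (d := 1) (by simp) fun x => by
        simp only [MonoidHom.mk'_apply, one_mul, inv_one, mul_one, EmbeddingLike.apply_eq_iff_eq]
        rw [QuotientAddGroup.eq_iff_sub_mem, ← hβ, ← hf']
        exact ⟨π x, rfl⟩
    have hs : Function.Surjective (f - AddMonoidHom.id V) := fun v => by
      obtain ⟨x, -, rfl⟩ := hπ.surj v
      have := Abelianization.commutator_subset_ker Φ x.2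
      rw [MonoidHom.mem_ker, hΦ] at this
      exact (QuotientAddGroup.eq_zero_iff _).1 this
    exact fun v hv => (injective_iff_map_eq_zero _).1 (Finite.injective_iff_surjective.2 hs) v
      (sub_eq_zero.2 hv)
  have hfpf : ∀ x, x⁻¹ * β x ∈ Suz.Hig.sq ⊤ → x ∈ Suz.Hig.sq ⊤ := fun x hx =>
    (hπ.eq_zero x trivial).1 (hfp _ (by rw [hf', eq_comm, hπ.eq_iff trivial trivial]; exact hx))
  have hle : center (commutator G) ≤ Suz.Hig.sq ⊤ := fun z hz => hfpf z (by simp [hfix z hz])
  have hp : IsPGroup 2 (commutator G) := IsPGroup.of_card (n := 6) hD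
  have : Nontrivial (commutator G) := Finite.one_lt_card_iff_nontrivial.1 (by omega)
  obtain ⟨x, -, hx⟩ := SetLike.exists_of_lt (Inv.exists_sq_le_lt hp (H := ⊤) top_ne_bot)
  obtain ⟨e, he, -⟩ := exists_frame hV f (cyclo hV f (fun v => by
    obtain ⟨x, -, rfl⟩ := hπ.surj v
    simp only [hf']
    exact congrArg π (DFunLike.congr_fun hβ5 x)) hfp) (u := π x) fun e => hx ((hπ.eq_zero x trivial).1 e)
  have h1 := Nat.card_le_card_of_injective e he
  have h2 := hπ.card
  rw [card_top, hD] at h2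
  have h3 : center (commutator G) = Suz.Hig.sq ⊤ := eq_of_le_of_card_ge hle (by
    simp only [Nat.card_prod, Nat.card_zmod] at h1
    nlinarith)
  exact ⟨hD, hZ4, fun z hz g => (mem_center_iff.1 hz g).symm, fun z hz => by
    rw [← pow_two]; exact hZ2 z hz, h3.symm, hfix, hβ5, h3 ▸ hfpf⟩

/-- A finite group of order 320 whose derived subgroup has order 64 and has centre a Klein four-group is isomorphic to the centralizer of an involution in PSU₃(4). -/
theorem result {G : Type*} [Group G] [Finite G] (hG : Nat.card G = 320) (hD : Nat.card (commutator G) = 64)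
    (hZ : IsKleinFour (Subgroup.center (commutator G)))
    {F : Type*} [Field F] [Fintype F] (hF : Fintype.card F = 16) :
    ∃ t : Cfsg.PSU 3 F 4, orderOf t = 2 ∧ Nonempty (G ≃* Subgroup.centralizer ({t} : Set (Cfsg.PSU 3 F 4))) := by
  have : Fact (Nat.Prime 5) := ⟨by norm_num⟩
  have hU : Class.U.UF F 4 := Class.U.UF.of_card hF
  have : CharP F 2 := Inv.charP_two_of_card (n := 4) hF
  obtain ⟨y, hy⟩ := exists_prime_orderOf_dvd_card' (G := G) 5 (by rw [hG]; norm_num)
  have hc : (commutator G).IsComplement' (zpowers y) := isComplement'_of_coprime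
    (by rw [Nat.card_zpowers, hD, hG, hy]) (by rw [Nat.card_zpowers, hD, hy]; norm_num)
  obtain ⟨f, d, t, z, hf, ht, ht1, hd, hz, h1, h2, h3⟩ := exists_model (F := F)
  obtain ⟨e, he⟩ := (h5 hD hZ hy hc).exists_equiv ht ht1
  obtain ⟨Φ, hΦ, hΦy⟩ := exists_lift hc (f.comp e.toMonoidHom) (d := d) (by rw [hd, hy]) fun x => by
    simp [he, h1]
  have hdec : ∀ g : G, ∃ (x : commutator G) (i : ℕ), g = x * y ^ i := fun g => by
    obtain ⟨⟨x, ⟨w, hw⟩⟩, rfl⟩ := hc.2 g
    obtain ⟨i, rfl⟩ := mem_powers_iff_mem_zpowers.2 hw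
    exact ⟨x, i, rfl⟩
  have hΦ' : ∀ (x : commutator G) (i : ℕ), Φ (x * y ^ i) = f (e x) * d ^ i := fun x i => by
    rw [map_mul, map_pow, hΦ, hΦy]; rfl
  have hinj : Function.Injective Φ := (injective_iff_map_eq_one Φ).2 fun g hg => by
    obtain ⟨x, i, rfl⟩ := hdec g
    rw [hΦ'] at hg
    have h4 := h2 i ⟨(e x)⁻¹, by rw [map_inv, inv_eq_of_mul_eq_one_right hg]⟩
    rw [h4, mul_one, map_eq_one_iff f hf, map_eq_one_iff e e.injective] at hg
    rw [← orderOf_dvd_iff_pow_eq_one, hd, ← hy, orderOf_dvd_iff_pow_eq_one] at h4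
    rw [hg, h4]; simp
  let p := QuotientGroup.mk' (center (SU 3 F 4))
  have hp : Function.Injective p := by
    rw [← MonoidHom.ker_eq_bot_iff, QuotientGroup.ker_mk', ← card_eq_one,
      Class.U.card_center (by norm_num)]
    norm_num
  have hr : (p.comp Φ).range = centralizer {p (f z)} := by
    ext g
    obtain ⟨g, rfl⟩ := QuotientGroup.mk'_surjective _ g
    rw [mem_centralizer_singleton_iff, ← map_mul, ← map_mul, hp.eq_iff, h3]
    constructor
    · rintro ⟨w, hw⟩
      obtain ⟨x, i, rfl⟩ := hdec w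
      exact ⟨e x, i, by rw [← hΦ', hp hw]⟩
    · rintro ⟨x, i, rfl⟩
      obtain ⟨x, rfl⟩ := e.surjective x
      exact ⟨x * y ^ i, congrArg p (hΦ' x i)⟩
  exact ⟨p (f z), by rw [orderOf_injective p hp, orderOf_injective f hf, hz],
    ⟨(MonoidHom.ofInjective (f := p.comp Φ) (hp.comp hinj)).trans (MulEquiv.subgroupCongr hr)⟩⟩

end Cfsg.Agent.S1903
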