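import Cfsg.Statements.S1904
import Mathlib
import Cfsg.Agent.NR2.Q8
import Cfsg.Agent.Fus.EssSmall

set_option autoImplicit false
open Cfsg

namespace Cfsg.Agent.S1904

open Subgroup NR2 MacW

/-- Let X be a finite nonabelian 2-group with no normal abelian subgroup that is self-centralizing and contains an elementary abelian subgroup of order 8. Suppose a group A of automorphisms of X of odd order satisfies [X, A] = X. Then X is the quaternion group of order 8, or X is special of order 64 with exactly three involutions, all central, or X is extraspecial of order 32 with exactly eleven involutions (the central product of a quaternion group and a dihedral group of order 8). -/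
theorem result {X : Type*} [Group X] [Finite X] (hX : IsPGroup 2 X) (hna : ¬ IsMulCommutative X)
    (hscn : ¬ ∃ A : Subgroup X, A.Normal ∧ Subgroup.centralizer (A : Set X) = A ∧
      ∃ E : Subgroup X, E ≤ A ∧ Cfsg.IsElementaryAbelian 2 E ∧ Nat.card E = 8)
    (A : Subgroup (MulAut X)) (hA : Odd (Nat.card A))
    (hXA : Subgroup.closure {g : X | ∃ φ ∈ A, ∃ x : X, g = x⁻¹ * φ x} = ⊤) :
    Nonempty (X ≃* QuaternionGroup 2) ∨
      (Cfsg.IsSpecial 2 X ∧ Nat.card X = 64 ∧ Nat.card {x : X // orderOf x = 2} = 3 ∧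
        ∀ x : X, orderOf x = 2 → x ∈ Subgroup.center X) ∨
      (Cfsg.IsExtraspecial 2 X ∧ Nat.card X = 32 ∧ Nat.card {x : X // orderOf x = 2} = 11) := by
  have no : NoE8 X := fun E hn hc h2 => by
    by_contra hlt
    have := hX.isNilpotent
    obtain ⟨B, hBn, hBc, hEB, hmax⟩ := Grp.PChain.exists_max_abelian_normal E hc
    obtain ⟨F, -, h1, h3⟩ := Misc.exists_le_card_eq_pow (p := 2) (A := ⊥) (E := E) (j := 0) (k := 3)
      bot_le (by simp) (by omega)
      (Misc.pow_succ_dvd_card_of_lt (hX.to_subgroup E) (k := 2) (by omega))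
    exact hscn ⟨B, hBn, le_antisymm (Grp.PChain.centralizer_le_of_max_abelian_normal B hBc hmax)
      fun a ha b hb => Misc.isMulCommutative_iff'.1 hBc b hb a ha, F, h1.trans hEB,
      Misc.isElementaryAbelian_two_iff.2 fun a ha => h2 a (h1 ha), h3⟩
  have act : Act A := ⟨hX, no, hA⟩
  have hc : ¬ ∀ x y : X, x * y = y * x := fun h => hna ⟨⟨h⟩⟩
  have gen : ∀ H : Subgroup X, (∀ a ∈ A, ∀ x, x⁻¹ * a x ∈ H) → ∀ x, x ∈ H := fun H h x => by
    have : ⊤ ≤ H := by
      rw [← hXA, closure_le]
      rintro _ ⟨a, ha, x, rfl⟩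
      exact h a ha x
    exact this (mem_top x)
  obtain ⟨D, -, h⟩ := act.exists_minD (N := ⊤) inferInstance AInv.top fun hf => hc fun x y => by
    have := gen ⊥ fun a ha x => by rw [hf a ha x trivial]; simp
    rw [mem_bot.1 (this x), one_mul, mul_one]
  rcases h.cases with c | ⟨z, q, hz⟩ | ⟨z, xs, h32, -⟩ | ⟨s, -⟩
  · rcases c.cases with e | s | ⟨W, hW, co, φ, -, c'⟩
    · exact absurd (fun x y => c.cen y (e ▸ mem_top y) x) hc
    · exact Or.inr (Or.inl (s.special hX no c.cen_top))
    · exact absurd (c'.comm_of_gen hXA) hc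
  · have := q.normal
    obtain ⟨x, hx, y, hy, e, hne, h1, h2⟩ := q.ex'
    by_cases hf : AFix A (centralizer (D : Set X))
    · have hD := gen D fun a ha s => by
        obtain ⟨d, hd, hs⟩ := q.exists_adj s
        have m := D.mul_mem (D.inv_mem hd) (h.inv a ha d hd)
        have e1 : s⁻¹ * a s = (d⁻¹ * s)⁻¹ * ((d⁻¹ * a d) * a (d⁻¹ * s)) := by simp [mul_assoc]
        rwa [e1, hf a ha _ hs, hs _ m, inv_mul_cancel_left]
      refine Or.inl (Fus.AC.nonempty_equiv_Q8 ?_ (x := x) (y := y) (h1 ▸ q.ne) (h2 ▸ q.ne)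
        fun e => hne (cm_one_iff.1 e))
      rw [← card_top, ← (eq_top_iff' D).2 hD, q.card]; rfl
    · obtain ⟨D', hD', h'⟩ := act.exists_minD inferInstance h.inv.centralizer hf
      rcases h'.cases with c | ⟨z', q', -⟩ | ⟨_, -, -, e⟩ | ⟨-, s⟩
      · have := c.normal
        have := q.zp_normal
        obtain ⟨a, ha, hf⟩ := c.fpf
        exact absurd (hf z (le_of_four no c.card c.sq (fun _ => q.zp_sq)
          (fun u _ e he => q.zp_cen he u) (mem_zpowers z)) (hz a ha)) q.ne
      · obtain ⟨U, s, ht⟩ := q.sp_of_comm hX no q' hD'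
        exact Or.inr (Or.inl (s.special hX no ht))
      · exact absurd (hD' (e ▸ mem_top y) x hx) hne
      · exact absurd (hD' (D1_le (s fun d hd => (hD' hd y hy).symm)) x hx) hne
  · exact Or.inr (Or.inr ⟨xs.isExtraspecial_of_top, h32, card_inv_xs no xs h32⟩)
  · have := s.normal
    exact Or.inr (Or.inl (s.special hX no ((eq_top_iff' _).2 (gen _ fun a ha => D1_fix.comm ha))))

end Cfsg.Agent.S1904
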