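import Cfsg.Statements.S1905
import Cfsg.Agent.S1225
import Cfsg.Agent.Inv.StrongEmb
import Cfsg.Agent.Inv.Basic
import Cfsg.Agent.PLocal.AmbSyl
-- import your own Cfsg.Agent.* helpers here

set_option autoImplicit false
open Cfsg

namespace Cfsg.Agent.S1905

open Subgroup Cfsg.Agent.Inv Cfsg.Agent.PLocal.Amb

/-- Let M be a subgroup of even order of a finite group S such that M contains the centralizer in S of each of its involutions and the normal core of M in S has odd order. Then all involutions of S are conjugate. If moreover N_S(X) ≤ M for a Sylow 2-subgroup X of M and I is an involution in the centre of X, then all involutions of M are conjugate in M and M = M₀ C_M(I) for some subgroup M₀ of M of odd order. -/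
theorem result {S : Type*} [Group S] [Finite S] (M : Subgroup S) (hM : Even (Nat.card M))
    (hC : ∀ i ∈ M, orderOf i = 2 → Subgroup.centralizer ({i} : Set S) ≤ M) (hcore : Odd (Nat.card M.normalCore)) :
    (∀ x y : S, orderOf x = 2 → orderOf y = 2 → IsConj x y) ∧
      ∀ (X : Sylow 2 M) (I : M), I ∈ (Subgroup.center ↥(X : Subgroup ↥M)).map (X : Subgroup ↥M).subtype → orderOf I = 2 →
        Subgroup.normalizer (((X : Subgroup M).map M.subtype : Subgroup S) : Set S) ≤ M →
        (∀ x y : M, orderOf x = 2 → orderOf y = 2 → IsConj x y) ∧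
          ∃ M₀ : Subgroup M, Odd (Nat.card M₀) ∧
            ∀ m : M, ∃ a ∈ M₀, ∃ c ∈ Subgroup.centralizer ({I} : Set M), m = a * c := by
  have : Fact (Nat.Prime 2) := ⟨Nat.prime_two⟩
  obtain ⟨t, htM, ht⟩ := exists_involution_of_even hM
  have hout : ∃ s, s ∉ M ∧ orderOf s = 2 ∧ IsConj t s := by
    by_contra hc
    push Not at hc
    refine odd_card_iff.1 hcore t (fun b => ?_) ht
    by_contra hb
    exact hc _ hb (by rw [orderOf_conj, ht]) (isConj_iff.2 ⟨b, rfl⟩)
  obtain ⟨s, hsM, hs, hts⟩ := hout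
  have key : ∀ i ∈ M, ∀ j, j ∉ M → orderOf i = 2 → orderOf j = 2 → IsConj j i := by
    intro i hi j hj oi oj
    refine isConj_of_odd_orderOf_mul (mul_self_of_orderOf_two oi) (mul_self_of_orderOf_two oj) ?_
    by_contra he
    obtain ⟨z, -, oz, c1, c2⟩ := exists_central_involution_of_even (mul_self_of_orderOf_two oi)
      (mul_self_of_orderOf_two oj) (Nat.not_odd_iff_even.1 he)
    have hz : z ∈ M := hC i hi oi (mem_centralizer_singleton_iff.2 c1.eq)
    exact hj (hC z hz oz (mem_centralizer_singleton_iff.2 c2.eq.symm))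
  have all : ∀ x : S, orderOf x = 2 → IsConj x t := by
    intro x hx
    by_cases hxM : x ∈ M
    · exact (key x hxM s hsM hx hs).symm.trans hts.symm
    · exact key t htM x hxM ht hx
  have all2 : ∀ x y : S, orderOf x = 2 → orderOf y = 2 → IsConj x y := fun x y hx hy =>
    (all x hx).trans (all y hy).symm
  refine ⟨all2, fun X I hI oI hN => ?_⟩
  have hX := isSyl_map_subtype X
  set T := (X : Subgroup M).map M.subtype with hT
  have oI' : orderOf (I : S) = 2 := by rw [orderOf_coe, oI]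
  have hTI : T ≤ centralizer {(I : S)} := by
    rintro _ ⟨x, hx, rfl⟩
    obtain ⟨i, hi, rfl⟩ := hI
    exact mem_centralizer_singleton_iff.2
      (congrArg (fun y : (X : Subgroup M) => ((y : M) : S)) (mem_center_iff.1 hi ⟨x, hx⟩))
  have hg : ∀ g : S, g * I * g⁻¹ ∈ M → g ∈ M := by
    intro g hg
    have h1 : cj(g, T) ≤ M := by
      refine le_trans ?_ (hC _ hg (by rw [Inv.orderOf_conj, oI']))
      rw [centralizer_singleton_conj]
      exact cj_mono g hTI
    have h2 : IsSyl 2 cj(g, T) M := hX.of_card_ge (isPGroup_cj g hX.pgrp) h1 (card_cj g T).ge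
    obtain ⟨m, hm, e⟩ := hX.exists_cj_eq h2
    rw [← cj_mul, cj_eq_iff] at e
    exact (M.mul_mem_cancel_left hm).1 (hN e)
  have hI2 : ∀ x ∈ M, orderOf x = 2 → ∃ g ∈ M, g * I * g⁻¹ = x := by
    intro x hx ox
    obtain ⟨g, rfl⟩ := isConj_iff.1 (all2 I x oI' ox)
    exact ⟨g, hg g hx, rfl⟩
  have hF : ∀ a ∈ M, ∀ b ∈ M, orderOf a = 2 → orderOf b = 2 → ∃ h ∈ M, h * a * h⁻¹ = b := by
    intro a ha b hb oa ob
    obtain ⟨g, hg, rfl⟩ := hI2 a ha oa
    obtain ⟨h, hh, rfl⟩ := hI2 b hb ob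
    exact ⟨h * g⁻¹, mul_mem hh (inv_mem hg), by group⟩
  have hSE : IsStronglyEmbedded M := isStronglyEmbedded_of_centralizers
    (fun e => hsM (e ▸ mem_top s)) hM hC (fun a ha b hb oa ob _ => hF a ha b hb oa ob)
  refine ⟨fun x y hx hy => ?_, (M ⊓ cj(s, M)).subgroupOf M, ?_, fun m => ?_⟩
  · obtain ⟨h, hh, e⟩ := hF x x.2 y y.2 (by rw [orderOf_coe, hx]) (by rw [orderOf_coe, hy])
    exact isConj_iff.2 ⟨⟨h, hh⟩, Subtype.ext e⟩
  · rw [Nat.card_congr (subgroupOfEquivOfLe inf_le_left).toEquiv]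
    exact hSE.2.2 s hsM
  · obtain ⟨⟨d, hd, e⟩, -⟩ := S1225.result M hSE s hs hsM I (m * I * m⁻¹ : M) oI' I.2
      (by rw [orderOf_coe, Inv.orderOf_conj, oI]) (m * I * m⁻¹ : M).2
    refine ⟨⟨d, hd.1⟩, hd, (⟨d, hd.1⟩ : M)⁻¹ * m, ?_, by group⟩
    refine mem_centralizer_singleton_iff.2 (Subtype.ext ?_)
    push_cast at e ⊢
    calc d⁻¹ * m * I = d⁻¹ * (m * I * (m : S)⁻¹) * m := by group
      _ = _ := by rw [← e]; group

end Cfsg.Agent.S1905
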