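import Cfsg.Statements.S1906
import Cfsg.Agent.Misc.Four
import Cfsg.Agent.Transfer.ThompsonExtremal
import Cfsg.Agent.Inv.FocalTools

set_option autoImplicit false
open Cfsg

namespace Cfsg.Agent.S1906

open Subgroup MulAction Cfsg.Agent.Transfer Cfsg.Agent.Transfer.Cocycle Cfsg.Agent.Misc
open scoped Cfsg.Agent.PLocal.Amb

theorem tt_hom {G : Type*} [Group G] [Finite G] (hG : pResidual 2 G = ⊤) {P : Subgroup G}
    (hP : Odd P.index) {A : Type*} [CommGroup A] (hA : IsPGroup 2 A) (φ : P →* A) {ε : A}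
    (hε : ε ≠ 1) (huniq : ∀ a : A, a ^ 2 = 1 → a = 1 ∨ a = ε) (hε2 : ε ^ 2 = 1)
    {u : G} (hu : u ^ 2 = 1) {T : Subgroup G}
    (hT : IsPGroup 2 T) (hTu : ∀ t ∈ T, t * u = u * t) :
    ∃ g : G, (∃ h : g * u * g⁻¹ ∈ P, φ ⟨_, h⟩ = 1) ∧ cj(g, T) ≤ P := by
  classical
  have := Fintype.ofFinite (G ⧸ P)
  by_contra h2
  let Q : Subgroup G := φ.ker.map P.subtype
  have hQ : ∀ x : G, x ∈ Q ↔ ∃ h : x ∈ P, φ ⟨x, h⟩ = 1 := by
    intro x
    constructor
    · rintro ⟨y, hy, rfl⟩; exact ⟨y.2, hy⟩
    · rintro ⟨h, hx⟩; exact ⟨⟨x, h⟩, hx, rfl⟩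
  have hQP : Q ≤ P := map_subtype_le _
  have hn : P ≤ normalizer (Q : Set G) := by
    have : (Q.subgroupOf P).Normal := by
      have : Q.subgroupOf P = φ.ker := comap_map_eq_self_of_injective P.subtype_injective _
      rw [this]; infer_instance
    exact (normal_subgroupOf_iff_le_normalizer hQP).1 this
  have hout : ∀ (g : G) (q : G ⧸ P), (g : G ⧸ P) = q →
      (g⁻¹ * u * g ∈ Q ↔ q.out⁻¹ * u * q.out ∈ Q) := by
    intro g q hg
    have h3 : g⁻¹ * q.out ∈ P := by rw [← QuotientGroup.eq, QuotientGroup.out_eq', hg]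
    have h4 := (mem_normalizer_iff''.1 (hn h3)) (g⁻¹ * u * g)
    rw [h4]
    have : (g⁻¹ * q.out)⁻¹ * (g⁻¹ * u * g) * (g⁻¹ * q.out) = q.out⁻¹ * u * q.out := by group
    rw [this]
  obtain ⟨c, hc, hcq⟩ := exists_transfer_cocycle P φ
  let V : (⊤ : Subgroup G) →* A := hc.hom ⊤ Finset.univ (fun _ _ _ _ => Finset.mem_univ _)
  let V' : G →* A := V.comp (Subgroup.topEquiv (G := G)).symm.toMonoidHom
  have hV : V' u = ∏ x, c u x := rfl
  have hV1 : V' u = 1 := pResidual_le_ker V' hA (hG ▸ mem_top u)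
  let B : Set (G ⧸ P) := {q | q.out⁻¹ * u * q.out ∈ Q}
  let F : Set (G ⧸ P) := {q | u • q = q}
  have hAF : B ⊆ F := fun q hq => smul_quot_eq_iff.2 (hQP hq)
  have hAe : Even (Nat.card B) := by
    rw [even_iff_two_dvd]
    by_contra hd
    obtain ⟨x, hx, hfix⟩ := Semireg.exists_fixed_of_invariant hT B (fun t ht x hx => by
      have h3 := hout (t * x.out) (t • x) (by
        conv_rhs => rw [← QuotientGroup.out_eq' x]
        rfl)
      refine h3.1 ?_
      have h4 : (t * x.out)⁻¹ * u * (t * x.out) = x.out⁻¹ * (t⁻¹ * (u * t)) * x.out := by group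
      rw [h4, ← hTu t ht]
      simpa [B] using hx) hd
    refine h2 ⟨x.out⁻¹, (hQ _).1 (by simpa [B] using hx),
      PLocal.Amb.cj_le_iff_forall.2 fun t ht => ?_⟩
    simpa using smul_quot_eq_iff.1 (hfix t ht)
  have hFo : Odd (Nat.card F) := by
    have h3 := Semireg.card_modEq_of_invariant (p := 2) (P := zpowers u)
      (PLocal.Amb.isPGroup_zpowers ⟨1, by simpa using hu⟩) (Set.univ : Set (G ⧸ P))
      (fun _ _ _ _ => Set.mem_univ _)
    have h4 : Nat.card {x : G ⧸ P // x ∈ Set.univ ∧ ∀ g ∈ zpowers u, g • x = x} = Nat.card F := by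
      refine Nat.card_congr (Equiv.subtypeEquivRight fun x => ?_)
      simp only [Set.mem_univ, true_and]
      exact ⟨fun h5 => h5 u (mem_zpowers u), fun h5 g hg => smul_eq_self_of_mem_zpowers hg h5⟩
    rw [h4, Nat.card_univ, ← index_eq_card] at h3
    rw [Nat.odd_iff] at hP ⊢
    rw [← hP]; exact h3.symm
  have hprod : ∏ x, c u x = ε ^ (F \ B).toFinset.card := by
    rw [← Finset.prod_filter_mul_prod_filter_not Finset.univ (· ∈ F),
      hc.prod_eq_one (Y := Finset.univ.filter (· ∉ F)), mul_one,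
      ← Finset.prod_filter_mul_prod_filter_not _ (· ∈ B), Finset.prod_eq_one, one_mul,
      ← Finset.prod_const]
    · refine Finset.prod_congr (by ext x; simp) fun x hx => ?_
      simp only [Set.mem_toFinset, Set.mem_sdiff] at hx
      obtain ⟨hm, he⟩ := hcq u x hx.1
      rw [he]
      refine (huniq _ ?_).resolve_left fun h => hx.2 ?_
      · rw [← map_pow, ← map_one φ]
        congr 1
        refine Subtype.ext ?_
        simp only [SubgroupClass.coe_pow, OneMemClass.coe_one]
        rw [conj_pow, hu]; group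
      · have := (hQ _).2 ⟨hm, h⟩
        simpa [B] using this
    · intro x hx
      simp only [Finset.mem_filter, Finset.mem_univ, true_and] at hx
      obtain ⟨hm, he⟩ := hcq u x hx.1
      rw [he]
      obtain ⟨_, h⟩ := (hQ (x.out⁻¹ * u * x.out⁻¹⁻¹)).1 (by simpa [B] using hx.2)
      exact h
    · intro x hx
      simp only [Finset.mem_filter, Finset.mem_univ, true_and] at hx ⊢
      intro h3
      apply hx
      exact MulAction.injective u h3
    · intro x hx
      simp only [Finset.mem_filter, Finset.mem_univ, true_and] at hx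
      have h3 : period u x ∣ 2 := (pow_smul_eq_iff_period_dvd).1 (by rw [hu, one_smul])
      rcases (Nat.dvd_prime Nat.prime_two).1 h3 with h4 | h4
      · exact absurd (period_eq_one_iff.1 h4) hx
      · rw [h4, hu, hc.one]
  have h5 : Odd (F \ B).toFinset.card := by
    rw [← Set.ncard_eq_toFinset_card', Set.ncard_sdiff hAF]
    exact Nat.Odd.sub_even (Set.ncard_le_ncard hAF) hFo hAe
  obtain ⟨k, hk⟩ := h5
  rw [hV, hprod, hk, pow_succ, pow_mul, hε2, one_pow, one_mul] at hV1
  exact hε hV1

section Mat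
open Matrix
variable {F : Type*} [Field F]

theorem adj_formula (A : Matrix (Fin 3) (Fin 3) F) :
    adjugate A = A * A - trace A • A + trace (adjugate A) • (1 : Matrix (Fin 3) (Fin 3) F) := by
  rw [adjugate_fin_three]
  ext i j
  fin_cases i <;> fin_cases j <;>
    simp [Matrix.mul_apply, Fin.sum_univ_three, trace_fin_three] <;> ring

theorem trace_adj (A : Matrix (Fin 3) (Fin 3) F) :
    2 * trace (adjugate A) = trace A ^ 2 - trace (A * A) := by
  rw [adjugate_fin_three]
  simp [Matrix.mul_apply, Fin.sum_univ_three, trace_fin_three]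
  ring

theorem trace_of_invol {s : Matrix (Fin 3) (Fin 3) F} (hs : s * s = 1) (hd : det s = 1)
    (h1 : s ≠ 1) : trace s = -1 := by
  have ha : adjugate s = s := by
    calc adjugate s = s * (s * adjugate s) := by rw [← mul_assoc, hs, one_mul]
      _ = s := by rw [mul_adjugate, hd, one_smul, mul_one]
  have h2 := adj_formula s
  rw [ha, hs] at h2
  have h3 : (trace s + 1) • (s - 1) = 0 := by
    rw [add_smul, one_smul, smul_sub]
    linear_combination (norm := abel1) h2
  rcases smul_eq_zero.1 h3 with h | h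
  · exact eq_neg_of_add_eq_zero_left h
  · exact absurd (sub_eq_zero.1 h) h1

theorem adj_one_add (h2 : (2 : F) ≠ 0) {s : Matrix (Fin 3) (Fin 3) F} (hs : s * s = 1)
    (ht : trace s = -1) : adjugate (1 + s) = 0 := by
  have h3 : (1 + s) * (1 + s) = (2 : F) • (1 + s) := by
    rw [add_mul, mul_add, mul_add, hs, two_smul]; simp
    abel
  have h4 : trace (1 + s) = 2 := by
    rw [trace_add, ht, trace_one]; norm_num
  have h5 : trace (adjugate (1 + s)) = 0 := by
    have := trace_adj (1 + s)
    rw [h3, trace_smul, h4, smul_eq_mul] at this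
    exact (mul_eq_zero.1 (this.trans (by ring))).resolve_left h2
  rw [adj_formula, h3, h4, h5]; simp

theorem sq_of_adj {M : Matrix (Fin 3) (Fin 3) F} (h : adjugate M = 0) : M * M = trace M • M := by
  have := adj_formula M
  rw [h, trace_zero, zero_smul, add_zero] at this
  exact sub_eq_zero.1 this.symm

theorem orth (h2 : (2 : F) ≠ 0) {a b : Matrix (Fin 3) (Fin 3) F} (ha : a * a = 1) (hb : b * b = 1)
    (hab : a * b = b * a) (hta : trace a = -1) (htb : trace b = -1) (htab : trace (a * b) = -1) :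
    (1 + a) * (1 + b) = 0 := by
  have h3 : adjugate ((1 + a) * (1 + b)) = 0 := by
    rw [adjugate_mul_distrib, adj_one_add h2 ha hta, mul_zero]
  have h4 : trace ((1 + a) * (1 + b)) = 0 := by
    rw [add_mul, mul_add, mul_add, one_mul, one_mul, mul_one, trace_add, trace_add, trace_add,
      hta, htb, htab, trace_one]
    norm_num
  have h5 := sq_of_adj h3
  rw [h4, zero_smul] at h5
  have h6 : (1 + a) * (1 + b) * ((1 + a) * (1 + b)) = (2 * 2 : F) • ((1 + a) * (1 + b)) := by
    have hc : (1 + b) * (1 + a) = (1 + a) * (1 + b) := by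
      simp only [add_mul, mul_add, one_mul, mul_one, hab]; abel
    have e1 : (1 + a) * (1 + a) = (2 : F) • (1 + a) := by
      rw [add_mul, mul_add, mul_add, ha, two_smul]; simp
      abel
    have e2 : (1 + b) * (1 + b) = (2 : F) • (1 + b) := by
      rw [add_mul, mul_add, mul_add, hb, two_smul]; simp
      abel
    calc (1 + a) * (1 + b) * ((1 + a) * (1 + b))
        = (1 + a) * ((1 + b) * (1 + a)) * (1 + b) := by simp only [mul_assoc]
      _ = (1 + a) * (1 + a) * ((1 + b) * (1 + b)) := by rw [hc]; simp only [mul_assoc]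
      _ = _ := by rw [e1, e2, smul_mul_smul_comm]
  rw [h5] at h6
  exact (smul_eq_zero.1 h6.symm).resolve_left (mul_ne_zero h2 h2)

theorem det_neg_one : det (-1 : Matrix (Fin 3) (Fin 3) F) = -1 := by
  rw [det_neg]; simp; norm_num

theorem exists_neg_one (h2 : (2 : F) ≠ 0) {X : Type*} [Group X] [Finite X]
    (m : X →* Matrix (Fin 3) (Fin 3) F) (hm : Function.Injective m) {E : Subgroup X}
    (hE : ∀ e ∈ E, e ^ 2 = 1) (hE8 : Nat.card E = 8) : ∃ t : X, m t = -1 := by
  by_contra hno
  have hsq : ∀ e ∈ E, e * e = 1 := fun e he => by rw [← sq, hE e he]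
  have hd : ∀ e ∈ E, det (m e) * det (m e) = 1 := fun e he => by
    rw [← det_mul, ← map_mul, hsq e he, map_one, det_one]
  let ψ : X → Matrix (Fin 3) (Fin 3) F := fun x => det (m x) • m x
  have hψ : ∀ x y, ψ (x * y) = ψ x * ψ y := fun x y => by
    simp only [ψ, map_mul, det_mul, smul_mul_smul_comm]
  have hψ1 : ψ 1 = 1 := by simp [ψ]
  have hψ2 : ∀ e ∈ E, ψ e * ψ e = 1 := fun e he => by rw [← hψ, hsq e he, hψ1]
  have hψd : ∀ e ∈ E, det (ψ e) = 1 := fun e he => by
    simp only [ψ, det_smul, Fintype.card_fin]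
    linear_combination (det (m e) * det (m e) + 1) * hd e he
  have htr : ∀ e ∈ E, e ≠ 1 → trace (ψ e) = -1 := by
    intro e he h1
    refine trace_of_invol (hψ2 e he) (hψd e he) fun h => ?_
    rcases mul_self_eq_one_iff.1 (hd e he) with h3 | h3
    · simp only [ψ, h3, one_smul] at h
      exact h1 (hm (h.trans (map_one m).symm))
    · simp only [ψ, h3, neg_smul, one_smul] at h
      exact hno ⟨e, neg_eq_iff_eq_neg.1 h⟩
  have ho : ∀ x ∈ E, ∀ y ∈ E, x ≠ 1 → y ≠ 1 → x ≠ y → (1 + ψ x) * (1 + ψ y) = 0 := by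
    intro x hx y hy hx1 hy1 hxy
    refine orth h2 (hψ2 x hx) (hψ2 y hy) (by rw [← hψ, ← hψ, comm_of_sq hE x hx y hy])
      (htr x hx hx1) (htr y hy hy1) ?_
    rw [← hψ]
    refine htr _ (mul_mem hx hy) fun h => hxy ?_
    rw [eq_inv_of_mul_eq_one_left h, inv_eq_of_mul_eq_one_right (hsq y hy)]
  obtain ⟨U, -, hUE, hU⟩ := exists_le_card_eq_pow (p := 2) (A := ⊥) (E := E) bot_le (j := 0)
    (k := 2) (by simp) (Nat.zero_le _) (by rw [hE8]; norm_num)
  have hK : IsKleinFour U := isKleinFour_iff.2 ⟨hU, fun x hx => hE x (hUE hx)⟩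
  obtain ⟨a, ha, ha1⟩ := exists_ne_one_of_isKleinFour hK
  obtain ⟨b, hb, hb1, hab, -⟩ := exists_eq_closure_pair_of_isKleinFour hK ha ha1
  obtain ⟨c, hc, hcU⟩ := exists_mem_not_mem_of_card_lt (A := U) (B := E) (by omega)
  have hc1 : c ≠ 1 := fun h => hcU (h ▸ one_mem _)
  have hab1 : a * b ≠ 1 := fun h => hab (by
    rw [eq_inv_of_mul_eq_one_left h, inv_eq_of_mul_eq_one_right (hsq b (hUE hb))])
  have e0 := ho a (hUE ha) b (hUE hb) ha1 hb1 hab
  have e1 := ho a (hUE ha) c hc ha1 hc1 (fun h => hcU (h ▸ ha))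
  have e2 := ho b (hUE hb) c hc hb1 hc1 (fun h => hcU (h ▸ hb))
  have e3 := ho (a * b) (hUE (mul_mem ha hb)) c hc hab1 hc1 (fun h => hcU (h ▸ mul_mem ha hb))
  rw [hψ] at e3
  have e4 : (2 : F) • (1 + ψ c) = 0 := by
    have : (2 : F) • (1 + ψ c) + (1 + ψ a) * (1 + ψ b) * (1 + ψ c) =
        (1 + ψ a) * (1 + ψ c) + (1 + ψ b) * (1 + ψ c) + (1 + ψ a * ψ b) * (1 + ψ c) := by
      simp only [two_smul, add_mul, mul_add, one_mul, mul_one]; abel
    rw [e0, e1, e2, e3] at this
    simpa using this
  have e5 : ψ c = -1 := eq_neg_of_add_eq_zero_right ((smul_eq_zero.1 e4).resolve_left h2)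
  have e6 := hψd c hc
  rw [e5, det_neg_one] at e6
  exact h2 (by linear_combination -e6)

theorem eq_of_mem_commutator (h2 : (2 : F) ≠ 0) {X : Type*} [Group X]
    (f : X →* GL (Fin 3) F) (hf : Function.Injective f) {s w : X} (hs : s * s = 1) (hs1 : s ≠ 1)
    (hsd : det (f s : Matrix (Fin 3) (Fin 3) F) = 1) (hsc : ∀ x, x * s = s * x)
    (hw : w ∈ commutator X) (hw2 : w * w = 1) (hw1 : w ≠ 1) : w = s := by
  let m : X →* Matrix (Fin 3) (Fin 3) F := (Units.coeHom _).comp f
  have hm : Function.Injective m := Units.val_injective.comp hf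
  have hdet : ∀ x ∈ commutator X, det (m x) = 1 := by
    intro x hx
    have := Abelianization.commutator_subset_ker (GeneralLinearGroup.det.comp f) hx
    exact congrArg Units.val this
  have hinv : ∀ x : X, x * x = 1 → m x * m x = 1 := fun x hx => by rw [← map_mul, hx, map_one]
  have hne : ∀ x : X, x ≠ 1 → m x ≠ 1 := fun x hx h => hx (hm (h.trans (map_one m).symm))
  have hts : trace (m s) = -1 := trace_of_invol (hinv s hs) hsd (hne s hs1)
  set P := 1 + m s with hP
  have hP0 : P ≠ 0 := by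
    intro h
    have : trace P = 2 := by rw [hP, trace_add, hts, trace_one]; norm_num
    rw [h, trace_zero] at this
    exact h2 this.symm
  have hPP : P * P = (2 : F) • P := by
    rw [hP, add_mul, mul_add, mul_add, hinv s hs, two_smul]; simp
    abel
  have hcP : ∀ x, m x * P = P * m x := fun x => by
    rw [hP, mul_add, add_mul, ← map_mul, ← map_mul, hsc, mul_one, one_mul]
  have hsc' : ∀ x, ∃ c : F, m x * P = c • P := by
    intro x
    have h3 : adjugate (m x * P) = 0 := by
      rw [adjugate_mul_distrib, adj_one_add h2 (hinv s hs) hts, zero_mul]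
    have h4 := sq_of_adj h3
    have h5 : m x * P * (m x * P) = m x * ((2 : F) • (m x * P)) := by
      calc m x * P * (m x * P) = m x * ((P * m x) * P) := by simp only [mul_assoc]
        _ = m x * (m x * (P * P)) := by rw [← hcP, mul_assoc]
        _ = _ := by rw [hPP, mul_smul_comm (2 : F) (m x) P]
    have h6 : (2 : F) • (m x * P) = trace (m x * P) • P := by
      have h7 := congrArg (m x⁻¹ * ·) (h5.symm.trans h4)
      simp only [mul_smul_comm, ← mul_assoc, ← map_mul, inv_mul_cancel, map_one, one_mul] at h7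
      exact h7
    refine ⟨2⁻¹ * trace (m x * P), ?_⟩
    rw [mul_smul, ← h6, smul_smul, inv_mul_cancel₀ h2, one_smul]
  have hK : ∀ x ∈ commutator X, m x * P = P := by
    let K : Subgroup X :=
      { carrier := {x | m x * P = P}
        mul_mem' := fun {a b} ha hb => by
          simp only [Set.mem_ofPred_eq] at ha hb ⊢
          rw [map_mul, mul_assoc, hb, ha]
        one_mem' := by simp
        inv_mem' := fun {a} ha => by
          simp only [Set.mem_ofPred_eq] at ha ⊢
          conv_lhs => rw [← ha]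
          rw [← mul_assoc, ← map_mul, inv_mul_cancel, map_one, one_mul] }
    have : commutator X ≤ K := by
      rw [commutator_def, commutator_le]
      intro a _ b _
      obtain ⟨c, hc⟩ := hsc' a
      obtain ⟨d, hd⟩ := hsc' b
      have h3 : m (a * b) * P = m (b * a) * P := by
        simp only [map_mul, mul_assoc, hc, hd, mul_smul_comm, smul_smul, mul_comm c d]
      change m (a * b * a⁻¹ * b⁻¹) * P = P
      calc m (a * b * a⁻¹ * b⁻¹) * P = m (a * b) * P * m (b * a)⁻¹ := by
            rw [mul_assoc (m (a * b)), ← hcP, ← mul_assoc, ← map_mul]; congr 2; group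
        _ = P := by
            rw [h3, mul_assoc, ← hcP, ← mul_assoc, ← map_mul, mul_inv_cancel, map_one, one_mul]
    exact fun x hx => this hx
  by_contra hws
  have hws1 : w * s ≠ 1 := fun h => hws (by
    rw [eq_inv_of_mul_eq_one_left h, inv_eq_of_mul_eq_one_right hs])
  have h8 := orth h2 (hinv w hw2) (hinv s hs) (by rw [← map_mul, ← map_mul, hsc])
    (trace_of_invol (hinv w hw2) (hdet w hw) (hne w hw1)) hts (by
      rw [← map_mul]
      refine trace_of_invol (hinv _ ?_) (by rw [map_mul, det_mul, hdet w hw, one_mul]; exact hsd)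
        (hne _ hws1)
      calc w * s * (w * s) = w * (s * w) * s := by group
        _ = 1 := by rw [← hsc, ← mul_assoc, hw2, one_mul, hs])
  rw [add_mul, one_mul, ← hP, hK w hw, ← two_smul F] at h8
  exact hP0 ((smul_eq_zero.1 h8).resolve_left h2)

end Mat

/-- Let G be a finite group with no subgroup of index 2 whose Sylow 2-subgroup X embeds in GL₃(F) for a finite field F of odd order. If X contains an elementary abelian subgroup of order 8, then X is abelian. -/
theorem result {G : Type*} [Group G] [Finite G] (hG : ∀ H : Subgroup G, H.index ≠ 2) (X : Sylow 2 G)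
    {F : Type*} [Field F] [Fintype F] (hF : Odd (Fintype.card F))
    (f : ↥(X : Subgroup G) →* GL (Fin 3) F) (hf : Function.Injective f)
    (E : Subgroup G) (hE : E ≤ (X : Subgroup G)) (hEa : Cfsg.IsElementaryAbelian 2 E) (hE8 : Nat.card E = 8) :
    IsMulCommutative (X : Subgroup G) := by
  have h2 : (2 : F) ≠ 0 := by
    intro h
    have hc : CharP F 2 := CharTwo.of_one_ne_zero_of_two_eq_zero one_ne_zero h
    have := FiniteField.even_card_iff_char_two.1 (ringChar.eq F 2)
    rw [Nat.odd_iff] at hF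
    omega
  obtain ⟨t, ht⟩ := exists_neg_one h2 ((Units.coeHom _).comp f) (Units.val_injective.comp hf)
    (E := E.subgroupOf X) (fun e he => Subtype.ext (hEa.2 _ he))
    (by rw [← hE8]; exact Nat.card_congr (subgroupOfEquivOfLe hE).toEquiv)
  have ht' : (f t : Matrix (Fin 3) (Fin 3) F) = -1 := ht
  have htc : ∀ x, x * t = t * x := fun x => hf (Units.ext (by simp [ht']))
  have ht2 : t * t = 1 := hf (Units.ext (by simp [ht']))
  let δ : (X : Subgroup G) →* Fˣ := Matrix.GeneralLinearGroup.det.comp f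
  have hδt : δ t = -1 := Units.ext (by
    change Matrix.det (f t : Matrix (Fin 3) (Fin 3) F) = -1
    rw [ht', det_neg_one])
  have hm1 : (-1 : Fˣ) ≠ 1 := fun h => h2 (by
    have := congrArg Units.val h
    simp only [Units.val_neg, Units.val_one] at this
    linear_combination -this)
  obtain ⟨g, ⟨hg, hg1⟩, hgX⟩ := tt_hom (Inv.pResidual_eq_top_of_index_ne_two hG)
    (odd_index_sylow X) (X.isPGroup'.of_surjective δ.rangeRestrict δ.rangeRestrict_surjective)
    δ.rangeRestrict (ε := ⟨-1, t, hδt⟩) (fun h => hm1 (congrArg Subtype.val h))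
    (fun a ha => by
      have h3 : ((a : Fˣ) : F) ^ 2 = 1 := by
        have := congrArg (fun x : δ.range => ((x : Fˣ) : F)) ha
        simpa using this
      rcases sq_eq_one_iff.1 h3 with h | h
      · exact Or.inl (Subtype.ext (Units.ext h))
      · exact Or.inr (Subtype.ext (Units.ext h)))
    (Subtype.ext (by simp)) (u := (t : G)) (by rw [sq]; exact congrArg Subtype.val ht2)
    X.isPGroup' (fun x hx => congrArg Subtype.val (htc ⟨x, hx⟩))
  have hgN : g ∈ normalizer ((X : Subgroup G) : Set G) :=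
    mem_normalizer_fintype fun n hn => hgX ⟨n, hn, rfl⟩
  let α : MulAut (X : Subgroup G) := (X : Subgroup G).normalizerMonoidHom ⟨g, hgN⟩
  have hα : α t = ⟨_, hg⟩ := rfl
  by_contra hna
  have hcb : commutator (X : Subgroup G) ≠ ⊥ := fun h => hna (by
    rw [commutator_eq_bot_iff] at h
    exact h)
  obtain ⟨w, hw, hw2⟩ : ∃ w ∈ commutator (X : Subgroup G), orderOf w = 2 := by
    have h3 : 2 ∣ Nat.card (commutator (X : Subgroup G)) :=
      (X.isPGroup'.to_subgroup _).card_eq_or_dvd.resolve_left (by rwa [card_eq_one])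
    obtain ⟨w, hw⟩ := exists_prime_orderOf_dvd_card' 2 h3
    exact ⟨w, w.2, by rw [orderOf_coe, hw]⟩
  have hws : w = α t := eq_of_mem_commutator h2 f hf (by rw [← map_mul, ht2, map_one])
    (fun h => by
      have : t = 1 := α.injective (h.trans (map_one α).symm)
      rw [this, map_one] at hδt
      exact hm1 hδt.symm)
    (by rw [hα]; exact congrArg (fun x : δ.range => ((x : Fˣ) : F)) hg1)
    (fun x => by
      obtain ⟨y, rfl⟩ := α.surjective x
      rw [← map_mul, ← map_mul, htc])
    hw (by have := pow_orderOf_eq_one w; rwa [hw2, sq] at this) (by rintro rfl; simp at hw2)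
  have h4 := Abelianization.commutator_subset_ker (δ.comp α.symm.toMonoidHom) hw
  rw [hws, MonoidHom.mem_ker] at h4
  simp only [MulEquiv.toMonoidHom_eq_coe, MonoidHom.comp_apply, MonoidHom.coe_coe,
    MulEquiv.symm_apply_apply] at h4
  exact hm1 (hδt.symm.trans h4)

end Cfsg.Agent.S1906
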