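import Cfsg.Statements.S1924
import Mathlib
import Cfsg.Agent.PLocal.AmbSyl
import Cfsg.Agent.Transfer.SignSemireg
import Cfsg.Agent.Transfer.ThompsonTransfer
import Cfsg.Agent.Grp.CardProduct
import Cfsg.Agent.Inv.SylowTwo
import Cfsg.Agent.Inv.Basic

set_option autoImplicit false
open Cfsg

namespace Cfsg.Agent.S1924

open Subgroup Cfsg.Agent.PLocal.Amb
open scoped Pointwise

theorem mul_self_of_not_mem {D : Type*} [Group D] [Finite D] {n : ℕ} (e : D ≃* DihedralGroup n)
    {C : Subgroup D} (hC : IsCyclic C) (hCi : C.index = 2) {x : D} (hx : x ∉ C) : x * x = 1 := by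
  obtain ⟨c, rfl⟩ := (Subgroup.isCyclic_iff_exists_zpowers_eq_top C).1 hC
  apply e.injective
  rw [map_mul, map_one]
  rcases hxe : e x with i | i
  swap
  · simp
  rcases hce : e c with j | j
  · exfalso
    have hrot : ∀ y ∈ zpowers c, ∃ k, e y = DihedralGroup.r k := by
      rintro _ ⟨m, rfl⟩
      exact ⟨_, by rw [map_zpow, hce, DihedralGroup.r_zpow]⟩
    have h1 : e.symm (DihedralGroup.sr 0) ∉ zpowers c := fun h => by
      obtain ⟨k, hk⟩ := hrot _ h
      simp at hk
    obtain ⟨k, hk⟩ := hrot _ ((mul_mem_iff_of_index_two hCi).2 (iff_of_false hx h1))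
    simp [hxe] at hk
  · have h1 : orderOf c = 2 := by
      rw [← e.orderOf_eq, hce, DihedralGroup.orderOf_sr]
    have h2 := card_mul_index (zpowers c)
    rw [Nat.card_zpowers, h1, hCi, Nat.card_congr e.toEquiv, DihedralGroup.nat_card] at h2
    obtain rfl : n = 2 := by omega
    clear hxe
    revert i
    decide


/-- A consequence of Thompson's transfer lemma. Let G be a finite group, L a subgroup with O²(L) = L, T a Sylow 2-subgroup of L and S a Sylow 2-subgroup of G containing T. Suppose D ≤ S is a dihedral subgroup of order at least 4 (the four-group counts) with D ∩ T = 1 and S = TD as a set of products (so |S| = |T|·|D|), and C ≤ D is cyclic of index 2 in D. If no involution of D outside C is G-conjugate to an involution of the subgroup generated by T and C, and the involution of C is not G-conjugate to any involution of T, then G has a normal subgroup K, containing every Sylow 2-subgroup of L as a Sylow 2-subgroup, with G = KD. -/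
theorem result {G : Type*} [Group G] [Finite G] (L T S D C : Subgroup G) (hL : Cfsg.pResidual 2 ↥L = ⊤)
    (hTL : T ≤ L) (hT2 : IsPGroup 2 T) (hTsyl : ¬ 2 ∣ T.relIndex L)
    (hS2 : IsPGroup 2 S) (hSsyl : ¬ 2 ∣ S.index) (hTS : T ≤ S)
    (hDS : D ≤ S) (hDih : ∃ n : ℕ, 2 ≤ n ∧ Nonempty (↥D ≃* DihedralGroup n)) (hDT : D ⊓ T = ⊥) (hTD : T ⊔ D = S) (hTDc : Nat.card T * Nat.card D = Nat.card S)
    (hCD : C ≤ D) (hC : IsCyclic ↥C) (hCi : C.relIndex D = 2)
    (h1 : ∀ x ∈ D, x ∉ C → orderOf x = 2 → ∀ g : G, g * x * g⁻¹ ∈ T ⊔ C → False)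
    (h2 : ∀ c ∈ C, orderOf c = 2 → ∀ g : G, g * c * g⁻¹ ∈ T → False) :
    ∃ K : Subgroup G, K.Normal ∧ K ⊔ D = ⊤ ∧
      ∀ T' : Subgroup G, T' ≤ L → IsPGroup 2 T' → ¬ 2 ∣ T'.relIndex L → T' ≤ K ∧ ¬ 2 ∣ T'.relIndex K := by
  have hS : IsSyl 2 S ⊤ :=
    isSyl_of_not_dvd_relIndex hS2 le_top (by rwa [relIndex_top_right])
  have hT : IsSyl 2 T L := isSyl_of_not_dvd_relIndex hT2 hTL hTsyl
  set K := pResidual 2 G with hK
  have hKn : K.Normal := Transfer.pResidual_normal 2 G
  have hLK : L ≤ K := by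
    have := Transfer.map_pResidual_le (p := 2) L.subtype
    rwa [hL, ← MonoidHom.range_eq_map, subtype_range] at this
  have hTK : T ≤ K := hTL.trans hLK
  obtain ⟨n, -, ⟨e⟩⟩ := hDih
  have hCc : IsCyclic (C.subgroupOf D) := (subgroupOfEquivOfLe hCD).isCyclic.2 hC
  have hout : ∀ x ∈ D, x ∉ C → orderOf x = 2 := fun x hx hxC =>
    Inv.orderOf_two_of_mul_self
      (congrArg Subtype.val (mul_self_of_not_mem e hCc hCi (x := ⟨x, hx⟩) hxC))
      fun h => hxC (h ▸ C.one_mem)
  have hTD' : T ⊓ D = ⊥ := by rwa [inf_comm]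
  have hEC : D ⊓ K ≤ C := by
    intro x hx
    by_contra hxC
    have hR : T ⊔ C ≤ S := sup_le hTS (hCD.trans hDS)
    have h3 := Grp.card_mul_card_le T C
    rw [eq_bot_iff.2 ((inf_le_inf_left T hCD).trans hTD'.le), card_bot, one_mul] at h3
    have h4 := Grp.card_mul_relIndex_of_le hR
    have h5 := Grp.card_mul_relIndex_of_le hCD
    rw [hCi] at h5
    have h6 : (T ⊔ C).relIndex S ≠ 1 := fun h =>
      h1 x hx.1 hxC (hout x hx.1 hxC) 1 (by simpa using relIndex_eq_one.1 h (hDS hx.1))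
    have h7 : (T ⊔ C).relIndex S ≠ 0 := index_ne_zero_of_finite
    have h8 : (T ⊔ C).relIndex S ≤ 2 := by
      have hpos : 0 < Nat.card ↥(T ⊔ C) := Nat.card_pos
      refine Nat.le_of_mul_le_mul_left ?_ hpos
      rw [h4, ← hTDc, ← h5, ← mul_assoc]
      exact Nat.mul_le_mul_right 2 h3
    rcases Transfer.thompson_transfer (P := S) (Q := T ⊔ C)
      (Nat.not_even_iff_odd.1 fun h => hSsyl (even_iff_two_dvd.1 h)) (by omega)
      (hout x hx.1 hxC) with ⟨M, hM, hMi, hxM⟩ | ⟨g, hg⟩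
    · exact hxM (Transfer.pResidual_le_of_isPGroup_quotient
        (Transfer.isPGroup_quotient_iff_index.2 ⟨1, hMi⟩) hx.2)
    · exact h1 x hx.1 hxC (hout x hx.1 hxC) g hg
  have hSK : IsSyl 2 (S ⊓ K) K := hS.inf_of_le le_top (by rw [normalizer_eq_top])
  have hprod : ((S ⊓ K : Subgroup G) : Set G) = (T : Set G) * ((D ⊓ K : Subgroup G) : Set G) := by
    have h3 := Grp.coe_eq_mul_of_card_le hTS hDS (by rw [hTD', card_bot, one_mul, hTDc])
    apply Set.Subset.antisymm
    · intro x hx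
      obtain ⟨t, ht, d, hd, rfl⟩ := h3.subset hx.1
      exact ⟨t, ht, d, ⟨hd, by simpa using K.mul_mem (K.inv_mem (hTK ht)) hx.2⟩, rfl⟩
    · rintro _ ⟨t, ht, d, hd, rfl⟩
      exact ⟨S.mul_mem (hTS ht) (hDS hd.1), K.mul_mem (hTK ht) hd.2⟩
  have hcard : Nat.card T * Nat.card ↥(D ⊓ K) = Nat.card ↥(S ⊓ K) := by
    rw [Grp.card_mul_card_eq, ← hprod,
      eq_bot_iff.2 ((inf_le_inf_left T inf_le_left).trans hTD'.le), card_bot, one_mul]
    rfl
  have hE : D ⊓ K = ⊥ := by
    by_contra hne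
    have hcyc : IsCyclic ↥(D ⊓ K) := isCyclic_of_le hEC
    obtain ⟨y, hy⟩ := (Subgroup.isCyclic_iff_exists_zpowers_eq_top _).1 hcyc
    have hyE : y ∈ D ⊓ K := hy ▸ mem_zpowers y
    have hEp : IsPGroup 2 ↥(D ⊓ K) := hS2.to_le (inf_le_left.trans hDS)
    have hyo : orderOf y = Nat.card ↥(D ⊓ K) := by rw [← hy, Nat.card_zpowers]
    obtain ⟨c, hc, hc2⟩ := Inv.exists_involution_of_isPGroup hEp hne
    have h3 : T.relIndex (S ⊓ K) = orderOf y := by
      have := Grp.card_mul_relIndex_of_le (le_inf hTS hTK)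
      rw [← hcard, ← hyo] at this
      exact Nat.eq_of_mul_eq_mul_left Nat.card_pos this
    refine Transfer.Semireg.not_mem_pResidual (G := K) (T := T.subgroupOf K) (y := ⟨y, hyE.2⟩)
      (m := (S ⊓ K).relIndex K) ?_ (fun j g hg => ?_)
      (Nat.not_even_iff_odd.1 fun h => hSK.not_dvd_relIndex (even_iff_two_dvd.1 h)) ?_
      (by rw [Transfer.pResidual_pResidual]; trivial)
    · rw [orderOf_mk, hyo]
      exact Inv.even_card_of_involution hc hc2
    · by_contra hj
      have hj' : y ^ j ≠ 1 := fun h => hj (Subtype.ext h)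
      have h4 : zpowers (y ^ j) ≤ D ⊓ K := zpowers_le.2 (pow_mem hyE j)
      obtain ⟨d, hd, hd2⟩ := Inv.exists_involution_of_isPGroup (hEp.to_le h4) (by simpa using hj')
      refine h2 d (hEC (h4 hd)) hd2 (g : G)⁻¹ ?_
      obtain ⟨i, rfl⟩ := hd
      simp only
      rw [← conj_zpow]
      exact T.zpow_mem (by rw [inv_inv]; exact hg) i
    · rw [orderOf_mk, ← h3, relIndex_mul_relIndex _ _ _ (le_inf hTS hTK) inf_le_right]
      rfl
  have hTK' : IsSyl 2 T K := by
    rw [hE, card_bot, mul_one] at hcard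
    exact hSK.of_card_ge hT2 hTK hcard.ge
  refine ⟨K, hKn, ?_, fun T' h3 h4 h5 => ⟨h3.trans hLK, ?_⟩⟩
  · have := hS.pRes_sup
    rw [pRes_top, ← hTD, ← sup_assoc, sup_eq_left.2 hTK] at this
    exact this
  · exact (hTK'.of_card_ge h4 (h3.trans hLK)
      (hT.card_eq (isSyl_of_not_dvd_relIndex h4 h3 h5)).le).not_dvd_relIndex

end Cfsg.Agent.S1924
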