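import Cfsg.Statements.S1935
import Mathlib
import Cfsg.Agent.PLocal.Lynd
import Cfsg.Agent.PLocal.Offender
import Cfsg.Agent.PLocal.ElemAb

set_option autoImplicit false
set_option linter.unusedSectionVars false
open Cfsg

namespace Cfsg.Agent.S1935

open Subgroup Module Cfsg.Agent.PLocal Cfsg.Agent.PLocal.Lynd
open scoped commutatorElement

section
variable {Ω : Type*} [Group Ω] [Finite Ω] {p : ℕ} [Fact p.Prime] {V G : Subgroup Ω}
  (hV : IsElementaryAbelian p V) (hGV : G ≤ normalizer (V : Set Ω))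

/-- The iterated commutators. -/
def vs (V G : Subgroup Ω) : ℕ → Subgroup Ω
  | 0 => V
  | i + 1 => ⁅vs V G i, G⁆

include hGV in
theorem vs_norm (i : ℕ) : G ≤ normalizer (vs V G i : Set Ω) := by
  cases i with
  | zero => exact hGV
  | succ i => exact normalizer_commutator_ge_right _ _

include hGV in
theorem vs_succ_le (i : ℕ) : vs V G (i + 1) ≤ vs V G i :=
  commutator_le.2 fun _ hv _ hg => commutatorElement_mem_of_mem_normalizer (vs_norm hGV i hg) hv

include hGV in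
theorem vs_le (i : ℕ) : vs V G i ≤ V := by
  induction i with
  | zero => exact le_rfl
  | succ i ih => exact (vs_succ_le hGV i).trans ih

include hV hGV in
theorem vs_bot (hG : IsPGroup p G) : vs V G (Nat.card V) = ⊥ := by
  have : ∀ i, vs V G i = ⊥ ∨ Nat.card (vs V G i) + i ≤ Nat.card V := by
    intro i
    induction i with
    | zero => exact Or.inr le_rfl
    | succ i ih =>
      by_cases hb : vs V G i = ⊥
      · exact Or.inl (eq_bot_iff.2 (hb ▸ vs_succ_le hGV i))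
      · have h1 := commutator_lt_of_isPGroup ((elemAb_isPGroup hV).to_le (vs_le hGV i)) hG
          (vs_norm hGV i) hb
        have h2 : Nat.card (vs V G (i + 1)) < Nat.card (vs V G i) :=
          Set.Finite.card_lt_card (Set.toFinite _) (SetLike.coe_ssubset_coe.2 h1)
        have := ih.resolve_left hb
        exact Or.inr (by omega)
  refine (this _).resolve_right ?_
  have : 0 < Nat.card (vs V G (Nat.card V)) := Nat.card_pos
  omega

theorem card_grpOf (hf : G ⊓ centralizer (V : Set Ω) = ⊥)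
    {S : Submodule (ZMod p) (End (ZMod p) (EA hV))} (hS : QS (EA.rep hV G hGV) S) :
    Nat.card ((grpOf (EA.rep hV G hGV) S hS.1).map G.subtype) = p ^ finrank (ZMod p) S := by
  have : Finite (End (ZMod p) (EA hV)) := DFunLike.finite _
  have hc := Module.natCard_eq_pow_finrank (K := ZMod p) (V := S)
  rw [Nat.card_zmod] at hc
  rw [card_map_of_injective G.subtype_injective, ← hc]
  refine Nat.card_eq_of_bijective (fun g => ⟨EA.rep hV G hGV g.1 - 1, g.2⟩) ⟨?_, ?_⟩
  · intro a b hab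
    exact Subtype.ext (EA.rep_injective hGV hf (sub_left_injective (congrArg Subtype.val hab)))
  · rintro ⟨x, hx⟩
    obtain ⟨g, hg⟩ := hS.2 x hx
    have h1 : EA.rep hV G hGV g - 1 = x := by rw [hg, add_sub_cancel_left]
    exact ⟨⟨g, show _ ∈ S from h1 ▸ hx⟩, Subtype.ext h1⟩

theorem card_fix {S : Submodule (ZMod p) (End (ZMod p) (EA hV))} (hS : QS (EA.rep hV G hGV) S) :
    Nat.card ↥(V ⊓ centralizer (((grpOf (EA.rep hV G hGV) S hS.1).map G.subtype : Subgroup Ω) :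
      Set Ω)) = p ^ finrank (ZMod p) (fix S) := by
  rw [← EA.card_grp_eq_pow]
  congr 3
  ext x
  simp only [mem_inf, EA.mem_grp]
  constructor
  · rintro ⟨hx, hc⟩
    refine ⟨EA.of hV x hx, fun y hy => ?_, rfl⟩
    obtain ⟨g, hg⟩ := hS.2 y hy
    have h1 : EA.rep hV G hGV g - 1 = y := by rw [hg, add_sub_cancel_left]
    rw [← h1, LinearMap.sub_apply, End.one_apply, sub_eq_zero, EA.rep_apply_eq_self_iff]
    exact hc g ⟨g, show _ ∈ S from h1 ▸ hy, rfl⟩
  · rintro ⟨v, hv, rfl⟩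
    refine ⟨v.val_mem, ?_⟩
    rintro _ ⟨g, hg, rfl⟩
    have := hv _ hg
    rwa [LinearMap.sub_apply, End.one_apply, sub_eq_zero, EA.rep_apply_eq_self_iff] at this

theorem quad_iff {a b : G} : (EA.rep hV G hGV b - 1) * (EA.rep hV G hGV a - 1) = 0 ↔
    ∀ v ∈ V, ⁅(b : Ω), ⁅(a : Ω), v⁆⁆ = 1 := by
  have key : ∀ v : EA hV, (((EA.rep hV G hGV b - 1) * (EA.rep hV G hGV a - 1) :
      End (ZMod p) (EA hV)) v).val = ⁅(b : Ω), ⁅(a : Ω), v.val⁆⁆ := by
    intro v
    rw [End.mul_apply, LinearMap.sub_apply, LinearMap.sub_apply, End.one_apply, End.one_apply,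
      EA.val_rep_sub, EA.val_rep_sub]
  constructor
  · intro h v hv
    rw [← EA.val_of (hV := hV) v hv, ← key, h]
    rfl
  · intro h
    ext v
    rw [key, h _ v.val_mem]
    rfl

end

/-- Let p ≥ 5 be a prime and, inside an ambient finite group, let G be a p-subgroup acting faithfully by conjugation on an elementary abelian p-subgroup V that it normalizes (only the identity of G centralizes V). Suppose V is an F-module for G: some nontrivial elementary abelian subgroup E of G satisfies #E · #C_V(E) ≥ #V. Then G contains such an offender A that moreover acts quadratically on V ([V, A, A] = 1) and is normal in its normal closure in G. -/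
theorem result {Ω : Type*} [Group Ω] [Finite Ω] (p : ℕ) [Fact p.Prime] (hp : 5 ≤ p) (V G : Subgroup Ω) (hV : Cfsg.IsElementaryAbelian p V) (hG : IsPGroup p ↥G) (hGV : G ≤ Subgroup.normalizer (V : Set Ω)) (hfaith : G ⊓ Subgroup.centralizer (V : Set Ω) = ⊥) (hF : ∃ E : Subgroup Ω, E ≤ G ∧ E ≠ ⊥ ∧ Cfsg.IsElementaryAbelian p E ∧ Nat.card ↥V ≤ Nat.card ↥E * Nat.card ↥(V ⊓ Subgroup.centralizer (E : Set Ω))) : ∃ A : Subgroup Ω, A ≤ G ∧ A ≠ ⊥ ∧ Cfsg.IsElementaryAbelian p A ∧ Nat.card ↥V ≤ Nat.card ↥A * Nat.card ↥(V ⊓ Subgroup.centralizer (A : Set Ω)) ∧ ⁅⁅V, A⁆, A⁆ = ⊥ ∧ ∀ g ∈ Subgroup.closure {x : Ω | ∃ h ∈ G, ∃ a ∈ A, x = h * a * h⁻¹}, ∀ a ∈ A, g * a * g⁻¹ ∈ A := by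
  obtain ⟨E, hEG, hE1, hE, hEc⟩ := hF
  have : NeZero p := ⟨by omega⟩
  -- a best offender
  obtain ⟨B, ⟨hBE, hB1⟩, hBm⟩ := Set.exists_max_image {B : Subgroup Ω | B ≤ E ∧ B ≠ ⊥}
    (fun B => Nat.card B * Nat.card ↥(V ⊓ centralizer (B : Set Ω))) (Set.toFinite _)
    ⟨E, le_rfl, hE1⟩
  have hBa := elemAb_mono hE hBE
  have hbest : IsBestOffenderOn p V B := by
    refine ⟨fun C hC => ?_, ?_, fun a ha => by rw [hBa.2 a ha]; exact one_mem _⟩
    · by_cases hC1 : C = ⊥
      · subst hC1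
        rw [centralizer_bot', inf_top_eq, card_bot, one_mul]
        exact hEc.trans (hBm E ⟨le_rfl, hE1⟩)
      · exact hBm C ⟨hC.trans hBE, hC1⟩
    · refine commutator_le.2 fun a ha b hb => ?_
      rw [commutatorElement_eq_one_iff_mul_comm.2 (elemAb_comm hBa ha hb)]
      exact one_mem _
  have hBG : B ≤ G := hBE.trans hEG
  obtain ⟨hb0, -, -, hn0⟩ := timmesfeld hV (hBG.trans hGV) hbest le_rfl
  set A0 := B ⊓ centralizer ((⁅V, B⁆ : Subgroup Ω) : Set Ω) with hA0
  have hA0G : A0 ≤ G := inf_le_left.trans hBG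
  have hA01 : A0 ≠ ⊥ := by
    intro h
    refine hn0 (fun h1 => hB1 ?_) (by rw [h]; simp)
    rw [eq_bot_iff, ← hfaith]
    exact le_inf hBG (le_centralizer_iff.1 (commutator_eq_bot_iff_le_centralizer.1 h1))
  set ρ := EA.rep hV G hGV with hρ
  have hq0 : ∀ a b : G, (a : Ω) ∈ A0 → (b : Ω) ∈ A0 → (ρ b - 1) * (ρ a - 1) = 0 := by
    intro a b ha hb
    refine (quad_iff hV hGV).2 fun v hv => commutatorElement_eq_one_iff_mul_comm.2
      (hb.2 _ ?_).symm
    rw [commutator_comm]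
    exact commutator_mem_commutator ha.1 hv
  let S0 : Submodule (ZMod p) (End (ZMod p) (EA hV)) :=
    { carrier := {x | ∃ a : G, (a : Ω) ∈ A0 ∧ ρ a - 1 = x}
      add_mem' := by
        rintro _ _ ⟨a, ha, rfl⟩ ⟨b, hb, rfl⟩
        refine ⟨a * b, mul_mem ha hb, ?_⟩
        have : ρ (a * b) - 1 = (ρ a - 1) * (ρ b - 1) + (ρ a - 1 + (ρ b - 1)) := by
          rw [map_mul]; noncomm_ring
        rw [this, hq0 b a hb ha, zero_add]
      zero_mem' := ⟨1, one_mem _, by simp⟩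
      smul_mem' := by
        rintro c _ ⟨a, ha, rfl⟩
        refine ⟨a ^ c.val, pow_mem ha _, ?_⟩
        conv_rhs => rw [← ZMod.natCast_zmod_val c, Nat.cast_smul_eq_nsmul]
        induction c.val with
        | zero => simp
        | succ n ih =>
          have : ρ (a ^ (n + 1)) - 1 = (ρ (a ^ n) - 1) * (ρ a - 1) + (ρ (a ^ n) - 1 + (ρ a - 1)) := by
            rw [pow_succ, map_mul]; noncomm_ring
          rw [this, hq0 a (a ^ n) ha (pow_mem ha _), zero_add, ih, succ_nsmul] }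
  have hS0 : QS ρ S0 := by
    constructor
    · rintro _ ⟨a, ha, rfl⟩ _ ⟨b, hb, rfl⟩
      exact hq0 b a hb ha
    · rintro _ ⟨a, -, rfl⟩
      exact ⟨a, by abel⟩
  have hA0e : (grpOf ρ S0 hS0.1).map G.subtype = A0 := by
    ext x
    constructor
    · rintro ⟨g, ⟨a, ha, e⟩, rfl⟩
      obtain rfl : a = g := EA.rep_injective hGV hfaith (sub_left_injective e)
      exact ha
    · exact fun hx => ⟨⟨x, hA0G hx⟩, ⟨⟨x, hA0G hx⟩, hx, rfl⟩, rfl⟩
  have h2 : (2 : ZMod p) ≠ 0 := by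
    intro h
    have := Nat.le_of_dvd two_pos ((ZMod.natCast_eq_zero_iff 2 p).1 (by exact_mod_cast h))
    omega
  obtain ⟨S, hS, hd, hf, hn⟩ := exists_normalized (ρ := ρ) hG (h := (2 : ZMod p)⁻¹)
    (by rw [← two_mul, mul_inv_cancel₀ h2]) (Vf := fun i => EA.sub hV (vs V G i))
    (N := Nat.card V) EA.sub_self (by rw [vs_bot hV hGV hG]; exact EA.sub_bot)
    (fun i => EA.sub_mono (vs_succ_le hGV i)) (fun g j v hv => by
      rw [EA.mem_sub, LinearMap.sub_apply, End.one_apply, hρ, EA.val_rep_sub]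
      change _ ∈ ⁅vs V G j, G⁆
      rw [commutator_comm]
      exact commutator_mem_commutator g.2 hv) hS0
  have c1 := card_grpOf hV hGV hfaith hS0
  have c2 := card_fix hV hGV hS0
  rw [hA0e] at c1 c2
  have c3 := card_grpOf hV hGV hfaith hS
  have c4 := card_fix hV hGV hS
  set A := (grpOf ρ S hS.1).map G.subtype with hA
  have hp1 : 1 ≤ p := by omega
  have l1 : Nat.card A0 ≤ Nat.card A := by rw [c1, c3]; exact Nat.pow_le_pow_right hp1 hd
  have l2 : Nat.card ↥(V ⊓ centralizer (A0 : Set Ω)) ≤ Nat.card ↥(V ⊓ centralizer (A : Set Ω)) := by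
    rw [c2, c4]; exact Nat.pow_le_pow_right hp1 hf
  have hinj := EA.rep_injective (hV := hV) hGV hfaith
  refine ⟨A, map_subtype_le _, fun h => hA01 ?_, ⟨?_, ?_⟩,
    (card_le_of_isBestOffenderOn hb0).trans (Nat.mul_le_mul l1 l2), ?_, ?_⟩
  · rw [h, card_bot] at l1
    exact eq_bot_of_card_le _ l1
  · refine ⟨⟨?_⟩⟩
    rintro ⟨_, a, ha, rfl⟩ ⟨_, b, hb, rfl⟩
    have : a * b = b * a := hinj (by
      have e : ∀ a b : G, ρ (a * b) = (ρ a - 1) * (ρ b - 1) + (ρ a + ρ b - 1) := fun a b => by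
        rw [map_mul]; noncomm_ring
      change ρ _ = ρ _
      rw [e, e, hS.1 _ ha _ hb, hS.1 _ hb _ ha, add_comm (ρ a)])
    have h3 := congrArg Subtype.val this
    exact Subtype.ext h3
  · rintro _ ⟨a, ha, rfl⟩
    have e : ∀ n : ℕ, ρ (a ^ n) = 1 + n • (ρ a - 1) := by
      intro n
      induction n with
      | zero => simp
      | succ n ih =>
        have : (1 + n • (ρ a - 1)) * ρ a = 1 + (n • (ρ a - 1) + (ρ a - 1)) +
            n • (ρ a - 1) * (ρ a - 1) := by noncomm_ring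
        rw [pow_succ, map_mul, ih, this, smul_mul_assoc, hS.1 _ ha _ ha, succ_nsmul]
        simp
    have : a ^ p = 1 := hinj (by
      change ρ _ = ρ _
      rw [e, ← Nat.cast_smul_eq_nsmul (ZMod p), ZMod.natCast_self, zero_smul, add_zero, map_one])
    exact congrArg Subtype.val this
  · rw [commutator_eq_bot_iff_le_centralizer, commutator_comm, commutator_le]
    rintro _ ⟨a, ha, rfl⟩ v hv _ ⟨b, hb, rfl⟩
    exact commutatorElement_eq_one_iff_mul_comm.1 ((quad_iff hV hGV).1 (hS.1 _ hb _ ha) v hv)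
  · intro g hg
    refine (mem_normalizer_iff.1 ((closure_le (K := normalizer (A : Set Ω))).2 ?_ hg) · |>.1)
    rintro _ ⟨h, hh, _, ⟨a, ha, rfl⟩, rfl⟩
    refine mem_normalizer_fintype ?_
    rintro _ ⟨c, hc, rfl⟩
    refine ⟨⟨h, hh⟩ * a * ⟨h, hh⟩⁻¹ * c * (⟨h, hh⟩ * a * ⟨h, hh⟩⁻¹)⁻¹, ?_, rfl⟩
    change _ ∈ S
    rw [← cg_rho, ← cg_one' ρ (⟨h, hh⟩ * a * ⟨h, hh⟩⁻¹), ← map_sub]
    refine hn _ ?_ _ hc
    rw [← cg_rho, ← cg_one' ρ ⟨h, hh⟩, ← map_sub, ← cg_mul, hS.1 _ ha _ ha, map_zero]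

end Cfsg.Agent.S1935
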