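import Cfsg.Statements.S1939
import Mathlib
import Cfsg.Agent.PLocal.RelSylow

set_option autoImplicit false
open Cfsg

namespace Cfsg.Agent.S1939

open Cfsg.Agent.PLocal.RelSylow


/-- Let S be a Sylow p-subgroup of the finite group G and a an element of S that is the only G-conjugate of a lying in S. Then every power of a has the same property: for every n, the only G-conjugate of a^n lying in S is a^n. -/
theorem result {G : Type*} [Group G] [Finite G] {p : ℕ} [Fact p.Prime] (S : Sylow p G) (a : G)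
    (haS : a ∈ (S : Subgroup G)) (hwc : ∀ g : G, g * a * g⁻¹ ∈ (S : Subgroup G) → g * a * g⁻¹ = a) (n : ℕ) :
    ∀ g : G, g * a ^ n * g⁻¹ ∈ (S : Subgroup G) → g * a ^ n * g⁻¹ = a ^ n := by
  intro g hg
  set b := g * a ^ n * g⁻¹ with hb
  have hcen : ∀ s ∈ (S : Subgroup G), s * a = a * s := by
    intro s hs
    have := hwc s ((S : Subgroup G).mul_mem ((S : Subgroup G).mul_mem hs haS) ((S : Subgroup G).inv_mem hs))
    calc s * a = s * a * s⁻¹ * s := by group
      _ = a * s := by rw [this]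
  have hSC : ((g • S : Sylow p G) : Subgroup G) ≤ Subgroup.centralizer {b} := by
    rintro _ ⟨s, hs, rfl⟩
    rw [Subgroup.mem_centralizer_singleton_iff]
    have h1 : Commute s (a ^ n) := (show Commute s a from hcen s hs).pow_right n
    change g * s * g⁻¹ * b = b * (g * s * g⁻¹)
    rw [hb]
    calc g * s * g⁻¹ * (g * a ^ n * g⁻¹) = g * (s * a ^ n) * g⁻¹ := by group
      _ = g * (a ^ n * s) * g⁻¹ := by rw [h1.eq]
      _ = _ := by group
  have haC : Subgroup.zpowers a ≤ Subgroup.centralizer {b} := by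
    rw [Subgroup.zpowers_le, Subgroup.mem_centralizer_singleton_iff]
    exact (hcen b hg).symm
  obtain ⟨c, hc, hh⟩ := exists_conj_mem_sylow (g • S) hSC haC
    (isPGroup_zpowers_of_mem S.isPGroup' haS)
  have h1 := hh a (Subgroup.mem_zpowers a)
  have h2 : (g⁻¹ * c) * a * (g⁻¹ * c)⁻¹ ∈ (S : Subgroup G) := by
    have := mem_map_conj.1 h1
    simpa [mul_assoc] using this
  have h3 := hwc _ h2
  have h4 : (g⁻¹ * c) * a ^ n * (g⁻¹ * c)⁻¹ = a ^ n := by
    rw [← conj_pow, h3]
  rw [Subgroup.mem_centralizer_singleton_iff] at hc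
  have h5 : c * a ^ n * c⁻¹ = b := by
    rw [hb]
    calc c * a ^ n * c⁻¹ = g * ((g⁻¹ * c) * a ^ n * (g⁻¹ * c)⁻¹) * g⁻¹ := by group
      _ = _ := by rw [h4]
  calc b = c⁻¹ * (c * b) := by group
    _ = c⁻¹ * (b * c) := by rw [hc]
    _ = c⁻¹ * (c * a ^ n * c⁻¹ * c) := by rw [h5]
    _ = a ^ n := by group

end Cfsg.Agent.S1939
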