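import Cfsg.Statements.S1940
import Mathlib

set_option autoImplicit false
open Cfsg

namespace Cfsg.Agent.S1940

/-- Let the finite group L act by automorphisms on the finite abelian group M, and let N be an L-invariant subgroup of M such that M/N is a p-group on which L acts trivially (every l • m lies in the coset mN). If every element of M is a product of an element of N and an element fixed by a Sylow p-subgroup T of L, then every element of M is a product of an element of N and an element fixed by all of L. -/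
theorem result {L : Type*} [Group L] [Finite L] {M : Type*} [CommGroup M] [Finite M] [MulDistribMulAction L M]
    {p : ℕ} [Fact p.Prime] (N : Subgroup M) (hN : ∀ (l : L) (m : M), m ∈ N → l • m ∈ N)
    (hquot : IsPGroup p (M ⧸ N)) (htriv : ∀ (l : L) (m : M), (l • m) * m⁻¹ ∈ N) (T : Sylow p L)
    (hT : ∀ m : M, ∃ n ∈ N, ∃ c : M, (∀ t ∈ (T : Subgroup L), t • c = c) ∧ m = n * c) :
    ∀ m : M, ∃ n ∈ N, ∃ c : M, (∀ l : L, l • c = c) ∧ m = n * c := by
  classical
  intro m
  obtain ⟨n, hn, c, hc, rfl⟩ := hT m
  have hfin : (MulAction.orbit L c).Finite := Set.toFinite _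
  set O : Finset M := hfin.toFinset with hO
  have hmem : ∀ x, x ∈ O ↔ x ∈ MulAction.orbit L c := fun x => by simp [hO]
  set c' : M := ∏ x ∈ O, x with hc'
  have hfix : ∀ l : L, l • c' = c' := by
    intro l
    rw [hc', Finset.smul_prod']
    refine Finset.prod_bij (fun x _ => l • x) ?_ ?_ ?_ ?_
    · intro x hx
      rw [hmem] at hx ⊢
      obtain ⟨k, rfl⟩ := hx
      exact ⟨l * k, mul_smul _ _ _⟩
    · intro x _ y _ h
      exact MulAction.injective l h
    · intro y hy
      refine ⟨l⁻¹ • y, ?_, by simp⟩
      rw [hmem] at hy ⊢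
      obtain ⟨k, rfl⟩ := hy
      exact ⟨l⁻¹ * k, mul_smul _ _ _⟩
    · intro x _; rfl
  have hcard : ¬ p ∣ O.card := by
    have h1 : O.card = (MulAction.stabilizer L c).index := by
      rw [MulAction.index_stabilizer, hO, Set.ncard_eq_toFinset_card _ hfin]
    have h2 : (T : Subgroup L) ≤ MulAction.stabilizer L c := fun t ht => hc t ht
    rw [h1]
    exact fun h => T.not_dvd_index (h.trans (Subgroup.index_dvd_of_le h2))
  have hq : (QuotientGroup.mk c' : M ⧸ N) = (QuotientGroup.mk c : M ⧸ N) ^ O.card := by
    have : (QuotientGroup.mk' N) c' = ∏ x ∈ O, (QuotientGroup.mk' N) c := by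
      rw [hc', map_prod]
      refine Finset.prod_congr rfl fun x hx => ?_
      obtain ⟨k, rfl⟩ := (hmem x).1 hx
      simp only [QuotientGroup.mk'_apply]
      rw [QuotientGroup.eq]
      have := N.inv_mem (htriv k c)
      simpa [mul_comm] using this
    simpa using this
  obtain ⟨k, hk⟩ := hquot (QuotientGroup.mk c : M ⧸ N)
  have hcop : O.card.Coprime (orderOf (QuotientGroup.mk c : M ⧸ N)) := by
    refine Nat.Coprime.coprime_dvd_right (orderOf_dvd_of_pow_eq_one hk) ?_
    exact Nat.Coprime.pow_right k ((Nat.Prime.coprime_iff_not_dvd Fact.out).2 hcard).symm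
  obtain ⟨j, hj⟩ := exists_pow_eq_self_of_coprime hcop
  refine ⟨n * (c * (c' ^ j)⁻¹), N.mul_mem hn ?_, c' ^ j, fun l => by rw [smul_pow', hfix], by group⟩
  rw [← QuotientGroup.eq_one_iff]
  simp only [QuotientGroup.mk_mul, QuotientGroup.mk_inv, QuotientGroup.mk_pow]
  rw [hq, hj]; simp

end Cfsg.Agent.S1940
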