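import Cfsg.Statements.S1941
import Mathlib
import Cfsg.Agent.PLocal.FStar
import Cfsg.Agent.PLocal.AmbSyl
import Cfsg.Agent.Solv.Gaschutz
import Cfsg.Agent.Solv.Coprime2

set_option autoImplicit false
open Cfsg

namespace Cfsg.Agent.S1941

open Subgroup Cfsg.Agent.PLocal.Amb
open scoped IsMulCommutative


/-- Let G be a finite group with no nontrivial normal subgroup of order prime to p, T a Sylow p-subgroup of G and E(G) the layer of G (the subgroup generated by its components). An automorphism of G of p-power order that fixes T and E(G) elementwise is inner. -/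
theorem result {G : Type*} [Group G] [Finite G] {p : ℕ} [Fact p.Prime] (hcore : Cfsg.pPrimeCore p G = ⊥)
    (T : Sylow p G) (α : MulAut G) (hα : ∃ j : ℕ, orderOf α = p ^ j) (hfixT : ∀ x ∈ (T : Subgroup G), α x = x)
    (hfixE : ∀ x ∈ Cfsg.layer G, α x = x) : ∃ g : G, ∀ x : G, α x = g * x * g⁻¹ := by
  let Z : Subgroup G := 𝐂[layer G] ⊓ 𝐂[pCore p G]
  have hZ : Z ≤ pCore p G := PLocal.centralizer_layer_inf_centralizer_pCore_le hcore
  haveI hZn : Z.Normal := inferInstance
  haveI : IsMulCommutative Z := ⟨⟨fun a b =>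
    Subtype.ext (mem_centralizer_iff.1 b.2.2 a (hZ a.2))⟩⟩
  have key : ∀ N : Subgroup G, N.Normal → (∀ x ∈ N, α x = x) → ∀ g, α g * g⁻¹ ∈ 𝐂[N] := by
    intro N hN h g
    refine mem_centralizer_iff.2 fun x hx => ?_
    have h1 := h _ (hN.conj_mem x hx g⁻¹)
    simp only [map_mul, map_inv, inv_inv, h x hx] at h1
    calc x * (α g * g⁻¹) = α g * ((α g)⁻¹ * x * α g) * g⁻¹ := by group
      _ = _ := by rw [h1]; group
  let f : G → Z := fun g => ⟨α g * g⁻¹, key _ inferInstance hfixE g,
    key _ inferInstance (fun x hx => hfixT x (Grp.pCore_le_sylow T hx)) g⟩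
  have hcop : (Nat.card Z).Coprime (Nat.card (G ⧸ (T : Subgroup G))) :=
    (Solv.coprime_card_of_isPGroup ((Grp.pCore_isPGroup p G).to_le hZ)
      ((Nat.Prime.coprime_iff_not_dvd Fact.out).2 T.not_dvd_index).symm).symm
  have hf : ∀ g h : G, (g : G ⧸ (T : Subgroup G)) = h → f g = f h := by
    intro g h hgh
    have h1 := hfixT _ (QuotientGroup.eq.1 hgh)
    rw [map_mul, map_inv] at h1
    apply Subtype.ext
    calc α g * g⁻¹ = α g * (g⁻¹ * h) * h⁻¹ := by group
      _ = α h * h⁻¹ := by rw [← h1]; group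
  obtain ⟨n, hn⟩ := Solv.cocycle_coboundary_of_action (A := G) hcop
    (fun a => (MulAut.conjNormal a : MulAut Z).toMonoidHom) f (fun x => f x.out) (fun a x => by
      rw [hf (a • x).out (a * x.out) (by
        rw [QuotientGroup.out_eq']; exact (MulAction.Quotient.mk_smul_out _ a x).symm), mul_comm]
      apply Subtype.ext
      simp [f, mul_assoc])
  refine ⟨n, fun a => ?_⟩
  have h1 := hn a
  rw [mul_comm] at h1
  have h2 := congrArg Subtype.val h1
  simp only [f, coe_mul, MulEquiv.coe_toMonoidHom, MulAut.conjNormal_apply] at h2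
  calc α a = (α a * a⁻¹ * (a * n * a⁻¹)) * a * (n : G)⁻¹ := by group
    _ = _ := by rw [h2]

end Cfsg.Agent.S1941
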