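import Cfsg.Statements.S1944
import Mathlib
import Cfsg.Agent.PLocal.PrimeCoreAmb
import Cfsg.Agent.Solv.Coprime2

set_option autoImplicit false
open Cfsg

namespace Cfsg.Agent.S1944

open Subgroup Cfsg.Agent.PLocal.Amb
open scoped IsMulCommutative

/-- Trace argument: the central elements of a normal abelian `p`-subgroup `V` form a direct factor
of the centralizer in `V` of a subgroup of index prime to `p`. -/
theorem exists_compl {G : Type*} [Group G] [Finite G] {p : ℕ} [Fact p.Prime] (S V : Subgroup G)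
    (hS : S.index.Coprime p) [V.Normal] [IsMulCommutative V] (hV : IsPGroup p V) :
    ∃ K : Subgroup G, K ≤ V ⊓ 𝐂[S] ∧ (V ⊓ center G) ⊓ K = ⊥ ∧ V ⊓ 𝐂[S] ≤ (V ⊓ center G) ⊔ K := by
  classical
  have := Fintype.ofFinite (G ⧸ S)
  let D : Subgroup G := V ⊓ 𝐂[S]
  let ι : D →* V := inclusion inf_le_left
  let φ : D →* V := ∏ x : G ⧸ S, (MulAut.conjNormal x.out : MulAut V).toMonoidHom.comp ι
  have hφ : ∀ d, φ d = ∏ x : G ⧸ S, MulAut.conjNormal x.out (ι d) := fun d => by
    simp [φ]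
  have hcen : ∀ d, (φ d : G) ∈ center G := by
    intro d
    rw [mem_center_iff]
    intro g
    have h1 : MulAut.conjNormal g (φ d) = φ d := by
      rw [hφ, map_prod]
      refine Fintype.prod_equiv (MulAction.toPerm g) _ _ fun x => ?_
      have h2 : ((g • x).out)⁻¹ * (g * x.out) ∈ S := by
        rw [← QuotientGroup.eq, QuotientGroup.out_eq']
        exact (MulAction.Quotient.mk_smul_out S g x).symm
      have h3 := mem_centralizer_iff.1 d.2.2 _ h2
      apply Subtype.ext
      simp only [MulAut.conjNormal_apply, MulAction.toPerm_apply, ι, coe_inclusion]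
      calc g * (x.out * d * x.out⁻¹) * g⁻¹
          = (g • x).out * (((g • x).out)⁻¹ * (g * x.out) * d) * (g * x.out)⁻¹ := by group
        _ = _ := by rw [h3]; group
    have := congrArg Subtype.val h1
    simp only [MulAut.conjNormal_apply] at this
    calc g * φ d = g * φ d * g⁻¹ * g := by group
      _ = _ := by rw [this]
  have hpow : ∀ d : D, (d : G) ∈ center G → (φ d : G) = d ^ S.index := by
    intro d hd
    have : ∀ x : G ⧸ S, MulAut.conjNormal x.out (ι d) = ι d := fun x => by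
      apply Subtype.ext
      simp only [MulAut.conjNormal_apply, ι, coe_inclusion]
      rw [mem_center_iff.1 hd]; group
    rw [hφ]
    simp only [this, Finset.prod_const, Finset.card_univ]
    rw [← Nat.card_eq_fintype_card]
    rfl
  have hcS : center G ≤ 𝐂[S] := center_le_centralizer _
  refine ⟨φ.ker.map D.subtype, map_subtype_le _, ?_, fun d hd => ?_⟩
  · rw [eq_bot_iff]
    rintro _ ⟨h1, d, hd, rfl⟩
    have h2 := hpow d h1.2
    rw [MonoidHom.mem_ker.1 hd] at h2
    exact eq_one_of_isPGroup_of_coprime hV h1.1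
      (Nat.Coprime.coprime_dvd_left (orderOf_dvd_of_pow_eq_one h2.symm) hS)
  · have hW : IsPGroup p ↥(V ⊓ center G) := hV.to_le inf_le_left
    have hcop : (Nat.card ↥(V ⊓ center G)).Coprime S.index :=
      (Solv.coprime_card_of_isPGroup hW hS).symm
    obtain ⟨u, hu⟩ := (powCoprime hcop).surjective ⟨φ ⟨d, hd⟩, (φ ⟨d, hd⟩).2, hcen _⟩
    rw [powCoprime_apply] at hu
    have hu' : (u : G) ^ S.index = φ ⟨d, hd⟩ := congrArg Subtype.val hu
    let u' : D := ⟨u, u.2.1, hcS u.2.2⟩
    have h1 : u'⁻¹ * ⟨d, hd⟩ ∈ φ.ker := by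
      rw [MonoidHom.mem_ker, map_mul, map_inv, inv_mul_eq_one]
      exact Subtype.ext ((hpow u' u.2.2).trans hu')
    have : d = u * (u'⁻¹ * ⟨d, hd⟩ : D) := by simp [u']
    rw [this]
    exact mul_mem (mem_sup_left u.2) (mem_sup_right (mem_map_of_mem D.subtype h1))


/-- Let S be a Sylow p-subgroup of the finite group G and suppose that the centre Z(S) lies in O_{p',p}(G). The elements of S each of which is its only G-conjugate in S form a subgroup W of Z(S); W is then a direct factor of Z(S): there is a subgroup K of Z(S) with W ∩ K = 1 and WK = Z(S). -/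
theorem result {G : Type*} [Group G] [Finite G] {p : ℕ} [Fact p.Prime] (S : Sylow p G)
    (hZ : ((S : Subgroup G) ⊓ Subgroup.centralizer ((S : Subgroup G) : Set G)) ≤ Cfsg.pPrimePCore p G) :
    ∃ W K : Subgroup G, (∀ x : G, x ∈ W ↔ (x ∈ (S : Subgroup G) ∧ ∀ g : G, g * x * g⁻¹ ∈ (S : Subgroup G) → g * x * g⁻¹ = x)) ∧
      K ≤ ((S : Subgroup G) ⊓ Subgroup.centralizer ((S : Subgroup G) : Set G)) ∧ W ⊓ K = ⊥ ∧ W ⊔ K = ((S : Subgroup G) ⊓ Subgroup.centralizer ((S : Subgroup G) : Set G)) := by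
  let π := QuotientGroup.mk' (pPrimeCore p G)
  have hπ : Function.Surjective π := QuotientGroup.mk'_surjective _
  have hSO : (S : Subgroup G) ⊓ pPrimeCore p G = ⊥ :=
    Grp.inf_eq_bot_of_isPGroup_of_coprime S.isPGroup' (Grp.pPrimeCore_coprime p G)
  have hinj : ∀ x ∈ (S : Subgroup G), ∀ y ∈ (S : Subgroup G), π x = π y → x = y := by
    intro x hx y hy h
    have : x⁻¹ * y ∈ (S : Subgroup G) ⊓ pPrimeCore p G :=
      ⟨(S : Subgroup G).mul_mem ((S : Subgroup G).inv_mem hx) hy, QuotientGroup.eq.1 h⟩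
    rw [hSO, mem_bot] at this
    exact inv_mul_eq_one.1 this
  let T := S.mapSurjective hπ
  have hT : (T : Subgroup _) = (S : Subgroup G).map π := rfl
  let R := pCore p (G ⧸ pPrimeCore p G)
  have hRT : R ≤ (S : Subgroup G).map π := Grp.pCore_le_sylow T
  let V := R ⊓ 𝐂[R]
  have hVc : IsMulCommutative V := ⟨⟨fun a b =>
    Subtype.ext (mem_centralizer_iff.1 b.2.2 a a.2.1)⟩⟩
  obtain ⟨K, hK1, hK2, hK3⟩ := exists_compl (p := p) ((S : Subgroup G).map π) V
    ((Nat.Prime.coprime_iff_not_dvd Fact.out).2 T.not_dvd_index).symm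
    ((Grp.pCore_isPGroup p _).to_le inf_le_left)
  have hcen : ∀ x ∈ (S : Subgroup G), x ∈ 𝐂[(S : Subgroup G)] ↔ π x ∈ 𝐂[(S : Subgroup G).map π] := by
    intro x hx
    constructor
    · intro h
      refine mem_centralizer_iff.2 ?_
      rintro _ ⟨y, hy, rfl⟩
      rw [← map_mul, ← map_mul, mem_centralizer_iff.1 h y hy]
    · intro h
      refine mem_centralizer_iff.2 fun y hy => hinj _ (mul_mem hy hx) _ (mul_mem hx hy) ?_
      rw [map_mul, map_mul]
      exact mem_centralizer_iff.1 h _ (mem_map_of_mem π hy)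
  have hV : ∀ x ∈ (S : Subgroup G), x ∈ 𝐂[(S : Subgroup G)] → π x ∈ V := fun x hx h =>
    ⟨hZ ⟨hx, h⟩, centralizer_anti hRT ((hcen x hx).1 h)⟩
  have hWZ : (S : Subgroup G) ⊓ (center _).comap π ≤ (S : Subgroup G) ⊓ 𝐂[(S : Subgroup G)] :=
    fun x hx => ⟨hx.1, (hcen x hx.1).2 (center_le_centralizer _ hx.2)⟩
  have hKZ : (S : Subgroup G) ⊓ K.comap π ≤ (S : Subgroup G) ⊓ 𝐂[(S : Subgroup G)] :=
    fun x hx => ⟨hx.1, (hcen x hx.1).2 (hK1 hx.2).2⟩
  refine ⟨(S : Subgroup G) ⊓ (center _).comap π, (S : Subgroup G) ⊓ K.comap π, fun x => ?_,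
    hKZ, ?_, le_antisymm (sup_le hWZ hKZ) ?_⟩
  · constructor
    · rintro ⟨hx, h⟩
      refine ⟨hx, fun g hg => hinj _ hg _ hx ?_⟩
      rw [map_mul, map_mul, mem_center_iff.1 h (π g), map_inv, mul_inv_cancel_right]
    · rintro ⟨hx, h⟩
      have hxc : x ∈ 𝐂[(S : Subgroup G)] := mem_centralizer_iff.2 fun y hy => by
        have := h y (mul_mem (mul_mem hy hx) (inv_mem hy))
        calc y * x = y * x * y⁻¹ * y := by group
          _ = _ := by rw [this]
      refine ⟨hx, mem_comap.2 (mem_center_iff.2 fun y => ?_)⟩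
      obtain ⟨g, rfl⟩ := hπ y
      have h1 : g * x * g⁻¹ ∈ ((S : Subgroup G).map π).comap π := by
        rw [mem_comap, map_mul, map_mul, map_inv]
        exact hRT ((inferInstance : R.Normal).conj_mem _ (hV x hx hxc).1 _)
      have h2 : IsPGroup p (zpowers (g * x * g⁻¹)) := by
        obtain ⟨k, hk⟩ := isPGroup_iff.1 S.isPGroup' x hx
        exact isPGroup_zpowers ⟨k, by rw [conj_pow, hk]; simp⟩
      obtain ⟨k, hk, h3⟩ := (isSyl_of_le S (le_comap_map π _)).exists_cj_le h2 (zpowers_le.2 h1)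
      have h4 := h (k * g) (by
        have := h3 (conj_mem_cj k (mem_zpowers _))
        convert this using 1; group)
      have h5 := mem_centralizer_iff.1 ((hcen x hx).1 hxc) _ hk
      have h6 := congrArg π h4
      simp only [map_mul, map_inv] at h6
      calc π g * π x = (π k)⁻¹ * (π k * π g * π x * (π k * π g)⁻¹) * π k * π g := by group
        _ = (π k)⁻¹ * (π x * π k) * π g := by rw [h6]; group
        _ = _ := by rw [← h5]; group
  · rw [eq_bot_iff]
    intro x hx
    have h1 : π x ∈ (V ⊓ center _) ⊓ K := ⟨⟨(hK1 hx.2.2).1, hx.1.2⟩, hx.2.2⟩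
    rw [hK2, mem_bot] at h1
    exact hinj _ hx.1.1 _ (one_mem _) (by rw [h1, map_one])
  · intro x hx
    obtain ⟨w, hw, k, hk, h⟩ := (mem_sup_of_le_normalizer_left (N := V ⊓ center _) (H := K)
      le_normalizer_of_normal).1 (hK3 ⟨hV x hx.1 hx.2, (hcen x hx.1).1 hx.2⟩)
    obtain ⟨w', hw', rfl⟩ := hRT hw.1.1
    have h1 : x = w' * (w'⁻¹ * x) := by group
    rw [h1]
    refine mul_mem (mem_sup_left ⟨hw', hw.2⟩) 
      (mem_sup_right ⟨(S : Subgroup G).mul_mem ((S : Subgroup G).inv_mem hw') hx.1, ?_⟩)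
    change π _ ∈ K
    rw [map_mul, map_inv, h]
    simpa using hk

end Cfsg.Agent.S1944
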