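import Cfsg.Statements.S1946
import Mathlib
import Cfsg.Agent.Grp.CritExp
import Cfsg.Agent.Transfer.Frobenius
import Cfsg.Agent.PLocal.CharP
import Cfsg.Agent.Grp.Cores

set_option autoImplicit false
open Cfsg

namespace Cfsg.Agent.S1946

open Subgroup
open scoped commutatorElement


/-- Let P be a Sylow p-subgroup of the finite group G. Then G has a normal p-complement if and only if P controls the fusion of its elements of order dividing p (dividing 4 when p = 2): whenever such an element a of P has a G-conjugate g a g⁻¹ in P, that conjugate is already x a x⁻¹ for some x in P. -/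
theorem result {G : Type*} [Group G] [Finite G] {p : ℕ} [Fact p.Prime] (P : Sylow p G) :
    Cfsg.HasNormalPComplement p G ↔
      ∀ a ∈ (P : Subgroup G), (a ^ p = 1 ∨ (p = 2 ∧ a ^ 4 = 1)) → ∀ g : G, g * a * g⁻¹ ∈ (P : Subgroup G) →
        ∃ x ∈ (P : Subgroup G), g * a * g⁻¹ = x * a * x⁻¹ := by
  constructor
  · intro h a ha _ g hg
    obtain ⟨n, hn, x, hx, rfl⟩ := Transfer.exists_pResidual_mul_sylow P g
    refine ⟨x, hx, ?_⟩
    have hb : x * a * x⁻¹ ∈ (P : Subgroup G) := mul_mem (mul_mem hx ha) (inv_mem hx)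
    have h1 : n * x * a * (n * x)⁻¹ * (x * a * x⁻¹)⁻¹ ∈ pResidual p G ⊓ (P : Subgroup G) := by
      refine ⟨?_, (P : Subgroup G).mul_mem hg ((P : Subgroup G).inv_mem hb)⟩
      have := mul_mem hn ((Transfer.pResidual_normal p G).conj_mem _ (inv_mem hn) (x * a * x⁻¹))
      change _ ∈ pResidual p G
      convert this using 1; group
    rw [(Transfer.hasNormalPComplement_iff_inf_eq_bot P).1 h, mem_bot] at h1
    exact mul_inv_eq_one.1 h1
  · intro h
    refine Transfer.hasNormalPComplement_of_local P fun B hBP _ g hg hc => ?_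
    have hB := P.isPGroup'.to_le hBP
    obtain ⟨D, h1, h2, h3, -, h5⟩ := Grp.CritExp.exists_char_amb hB
    apply h5 g hg hc
    obtain ⟨n, hn⟩ := (isNilpotent_iff_lowerCentralSeries (P : Subgroup G)).1
      P.isPGroup'.isNilpotent
    have := PLocal.CP.mem_centralizer_of_chain hc
      (fun i => D ⊓ (P : Subgroup G).lowerCentralSeries i)
      (fun i => hB.to_le (inf_le_left.trans h1)) n (by simp [hn]) fun i hi a ha => by
        have h6 := PLocal.CP.conj_mem_of_mem_normalizer (h2 hg) ha.1
        refine ⟨D.mul_mem h6 (D.inv_mem ha.1), ?_⟩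
        obtain ⟨x, hx, h7⟩ := h a (hBP (h1 ha.1))
          (Grp.CritExp.pow_expQ_eq_one_iff.1 (h3 a ha.1)) g (hBP (h1 h6))
        change ⁅g, a⁆ ∈ ⁅(P : Subgroup G).lowerCentralSeries i, (P : Subgroup G)⁆
        rw [commutatorElement_def, h7, ← commutatorElement_def, ← commutatorElement_inv]
        exact inv_mem (commutator_mem_commutator ha.2 hx)
    exact mem_centralizer_iff.2 fun d hd => mem_centralizer_iff.1 this d ⟨hd, hBP (h1 hd)⟩

end Cfsg.Agent.S1946
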