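import Cfsg.Statements.S1948
import Mathlib
import Cfsg.Agent.PLocal.PrimeCoreAmb

set_option autoImplicit false
open Cfsg

namespace Cfsg.Agent.S1948

open Subgroup Cfsg.Agent.PLocal.Amb


/-- Let S be a Sylow p-subgroup of the finite group G. Then G = N_G(S)·O_{p'}(G) if and only if G is p-constrained and N_G(S) controls fusion in S, in the sense that whenever a subgroup Q of S has a conjugate g Q g⁻¹ inside S, the element g is a product n c with n normalizing S and c centralizing Q. -/
theorem result {G : Type*} [Group G] [Finite G] {p : ℕ} [Fact p.Prime] (S : Sylow p G) :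
    Subgroup.normalizer ((S : Subgroup G) : Set G) ⊔ Cfsg.pPrimeCore p G = ⊤ ↔
      (Cfsg.IsPConstrained p G ∧
        ∀ Q : Subgroup G, Q ≤ (S : Subgroup G) → ∀ g : G, Q.map (MulAut.conj g).toMonoidHom ≤ (S : Subgroup G) →
          ∃ n ∈ Subgroup.normalizer ((S : Subgroup G) : Set G), ∃ c ∈ Subgroup.centralizer (Q : Set G), g = n * c) := by
  have hO := Grp.pPrimeCore_coprime p G
  have hSO : (S : Subgroup G) ⊓ pPrimeCore p G = ⊥ :=
    Grp.inf_eq_bot_of_isPGroup_of_coprime S.isPGroup' hO
  constructor
  · intro h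
    have hdec : ∀ g : G, ∃ n ∈ 𝐍[(S : Subgroup G)], ∃ o ∈ pPrimeCore p G, g = n * o := fun g =>
      (mem_sup_of_le_normalizer_right (N := pPrimeCore p G) le_normalizer_of_normal).1
        (h ▸ mem_top g)
    constructor
    · apply PLocal.PCA.isPConstrained_of_isPSolvable
      apply PLocal.isPSolvable_of_normal_of_quotient (pPrimeCore p G)
        (PLocal.isPSolvable_of_coprime hO)
      let T := S.mapSurjective (QuotientGroup.mk'_surjective (pPrimeCore p G))
      have hT : (T : Subgroup (G ⧸ pPrimeCore p G)).Normal := by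
        rw [← normalizer_eq_top_iff, eq_top_iff]
        intro y _
        obtain ⟨g, rfl⟩ := QuotientGroup.mk'_surjective _ y
        obtain ⟨n, hn, o, ho, rfl⟩ := hdec g
        have : (QuotientGroup.mk' (pPrimeCore p G)) o = 1 := (QuotientGroup.eq_one_iff o).2 ho
        rw [map_mul, this, mul_one]
        exact le_normalizer_map _ (mem_map_of_mem _ hn)
      exact PLocal.isPSolvable_of_normal_of_quotient (T : Subgroup (G ⧸ pPrimeCore p G))
        (PLocal.isPSolvable_of_isPGroup T.isPGroup')
        (PLocal.isPSolvable_of_coprime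
          ((Nat.Prime.coprime_iff_not_dvd Fact.out).2 T.not_dvd_index).symm)
    · intro Q hQ g hg
      obtain ⟨n, hn, o, ho, rfl⟩ := hdec g
      refine ⟨n, hn, o, mem_centralizer_iff.2 fun x hx => ?_, rfl⟩
      have h1 : o * x * o⁻¹ ∈ (S : Subgroup G) := by
        have := inv_conj_mem_of_mem_normalizer hn (cj_le_iff_forall.1 hg x hx)
        convert this using 1; group
      have h2 : x⁻¹ * (o * x * o⁻¹) ∈ (S : Subgroup G) ⊓ pPrimeCore p G := by
        refine ⟨(S : Subgroup G).mul_mem ((S : Subgroup G).inv_mem (hQ hx)) h1, ?_⟩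
        have := (inferInstance : (pPrimeCore p G).Normal).conj_mem o ho x⁻¹
        have h3 := mul_mem this (inv_mem ho)
        change _ ∈ pPrimeCore p G
        convert h3 using 1; group
      rw [hSO, mem_bot] at h2
      calc x * o = x * (x⁻¹ * (o * x * o⁻¹)) * o := by rw [h2]; group
        _ = o * x := by group
  · rintro ⟨hc, hf⟩
    have hMn : (pPrimePCore p G).Normal := by unfold pPrimePCore; infer_instance
    have hP : IsSyl p ((S : Subgroup G) ⊓ pPrimePCore p G) (pPrimePCore p G) :=
      (isSyl_top S).inf_of_le le_top (by rw [normalizer_eq_top])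
    have hM := PLocal.PCA.pPrimePCore_eq_sup_of_isSyl hP
    have hMle : pPrimePCore p G ≤ 𝐍[(S : Subgroup G)] ⊔ pPrimeCore p G := by
      rw [hM]
      exact sup_le_sup_right (inf_le_left.trans le_normalizer) _
    rw [eq_top_iff]
    intro g _
    obtain ⟨m, hm, x, hx, rfl⟩ := hP.frattini (g := g) (by rw [normalizer_eq_top]; trivial)
    obtain ⟨n, hn, c, hc', rfl⟩ := hf _ inf_le_left x
      ((cj_of_mem_normalizer hx).le.trans inf_le_left)
    exact mul_mem (hMle hm) (mul_mem (mem_sup_left hn)
      (hMle (PLocal.PCA.IsPConstrained.centralizer_le hc hP hc')))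

end Cfsg.Agent.S1948
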