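import Cfsg.Statements.S1949
import Mathlib
import Cfsg.Agent.Grp.CritExp
import Cfsg.Agent.Transfer.PCompl
import Cfsg.Agent.Grp.PChain

set_option autoImplicit false
open Cfsg

namespace Cfsg.Agent.S1949

open Subgroup
open scoped commutatorElement


/-- Let P be a finite p-group and G a group of automorphisms of P containing the inner automorphisms. Then there is a G-invariant subgroup D of P, contained in the subgroup generated by the elements x⁻¹α(x) with x in P and α in O^p(G), of exponent dividing p when p is odd and dividing 4 when p = 2, with [D, P] ≤ Z(D), such that every automorphism in G of order prime to p that fixes D elementwise is the identity; moreover every maximal abelian subgroup A of D is normal in P and every automorphism in G fixing A elementwise has p-power order. -/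
theorem result {P : Type*} [Group P] [Finite P] {p : ℕ} [Fact p.Prime] (hP : IsPGroup p P)
    (G : Subgroup (MulAut P)) (hG : Cfsg.Inn P ≤ G) :
    ∃ D : Subgroup P,
      (∀ α ∈ G, D.map α.toMonoidHom = D) ∧
      D ≤ Subgroup.closure {y : P | ∃ α ∈ Cfsg.pResidual p ↥G, ∃ x : P, y = x⁻¹ * (α : MulAut P) x} ∧
      (∀ d ∈ D, d ^ p = 1 ∨ (p = 2 ∧ d ^ 4 = 1)) ∧
      ⁅D, (⊤ : Subgroup P)⁆ ≤ D ⊓ Subgroup.centralizer (D : Set P) ∧
      (∀ α ∈ G, (orderOf α).Coprime p → (∀ d ∈ D, α d = d) → α = 1) ∧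
      ∀ A : Subgroup P, A ≤ D → IsMulCommutative ↥A →
        (∀ B : Subgroup P, A ≤ B → B ≤ D → IsMulCommutative ↥B → B = A) →
        A.Normal ∧ ∀ α ∈ G, (∀ a ∈ A, α a = a) → ∃ k : ℕ, orderOf α = p ^ k := by
  obtain ⟨C, hC, h1, h2, h3⟩ := S0093.result hP
  have hinv : ∀ α : MulAut P, ∀ x ∈ C, α x ∈ C := fun α x hx =>
    (characteristic_iff_le_comap.1 hC α) hx
  let X : Subgroup P :=
    closure {y : P | ∃ α ∈ Cfsg.pResidual p ↥G, ∃ x ∈ C, y = x⁻¹ * (α : MulAut P) x}
  have hXC : X ≤ C := by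
    rw [closure_le]
    rintro _ ⟨α, -, x, hx, rfl⟩
    exact C.mul_mem (C.inv_mem hx) (hinv _ x hx)
  have hXinv : ∀ α ∈ G, ∀ x ∈ X, α x ∈ X := by
    intro α hα
    change X ≤ X.comap α.toMonoidHom
    rw [closure_le]
    rintro _ ⟨β, hβ, x, hx, rfl⟩
    refine subset_closure ⟨_, (Transfer.pResidual_normal p G).conj_mem β hβ ⟨α, hα⟩, α x,
      hinv α x hx, ?_⟩
    simp
  have hmul : ∀ x ∈ X, ∀ y ∈ X, (x * y) ^ Grp.CritExp.expQ p =
      x ^ Grp.CritExp.expQ p * y ^ Grp.CritExp.expQ p := fun x hx y hy =>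
    Grp.CritExp.mul_pow_of_critical hP h1 h2 x (hXC hx) y (hXC hy)
  let D := Grp.CritExp.omegaOf X _ hmul
  have hDX : D ≤ X := fun x hx => hx.1
  have hDinv : ∀ α ∈ G, ∀ x ∈ D, α x ∈ D := fun α hα x hx =>
    ⟨hXinv α hα x hx.1, by rw [← map_pow, hx.2, map_one]⟩
  have hDn : D.Normal := ⟨fun x hx g => hDinv (MulAut.conj g) (hG ⟨g, rfl⟩) x hx⟩
  have hDc : ⁅D, (⊤ : Subgroup P)⁆ ≤ D ⊓ centralizer (D : Set P) :=
    le_inf (commutator_le_left _ _) ((commutator_mono (hDX.trans hXC) le_rfl).trans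
      (h2.trans (inf_le_right.trans (centralizer_le (hDX.trans hXC)))))
  have hfaith : ∀ α ∈ G, (orderOf α).Coprime p → (∀ d ∈ D, α d = d) → α = 1 := by
    intro α hα hc hfix
    have h4 := Grp.CritExp.fix_of_fix_omega hP (Grp.CritExp.dvd_expQ p) hmul hc (hXinv α hα)
      fun x hx hq => hfix x ⟨hx, hq⟩
    refine S0121.result hP C hC h1 h2 h3 α hc fun x hx => ?_
    refine Grp.CommPow.mulAut_fix_of_isPGroup hP hc (h4 _ (subset_closure
      ⟨⟨α, hα⟩, Transfer.mem_pResidual_of_coprime (by rwa [orderOf_mk]), x, hx, rfl⟩))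
  refine ⟨D, fun α hα => ?_, hDX.trans (closure_mono ?_),
    fun d hd => Grp.CritExp.pow_expQ_eq_one_iff.1 hd.2, hDc, hfaith, fun A hAD hA hmax => ?_⟩
  · apply le_antisymm
    · rintro _ ⟨x, hx, rfl⟩
      exact hDinv α hα x hx
    · intro x hx
      exact ⟨α⁻¹ x, hDinv _ (G.inv_mem hα) x hx, by simp⟩
  · rintro _ ⟨α, hα, x, -, rfl⟩
    exact ⟨α, hα, x, rfl⟩
  · have hself : ∀ c ∈ D, c ∈ centralizer (A : Set P) → c ∈ A := by
      intro c hc hcA
      rw [← hmax (A ⊔ zpowers c) le_sup_left (sup_le hAD (zpowers_le.2 hc))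
        (Grp.PChain.isMulCommutative_sup_zpowers hA hcA)]
      exact mem_sup_right (mem_zpowers c)
    have hAn : A.Normal := Grp.PChain.normal_of_commutator_mem fun a ha g => by
      have := hDc (commutator_mem_commutator (hAD ha) (mem_top g))
      exact hself _ this.1 (centralizer_le hAD this.2)
    refine ⟨hAn, fun α hα hfix => Grp.CritExp.exists_orderOf_eq_pow fun k hk => ?_⟩
    have hβ : α ^ p ^ k ∈ G := G.pow_mem hα _
    have hfix' : ∀ a ∈ A, (α ^ p ^ k) a = a := fun a ha =>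
      MulAction.mem_stabilizer_iff.1
        (pow_mem (MulAction.mem_stabilizer_iff.2 (hfix a ha) : α ∈ MulAction.stabilizer _ a) _)
    refine hfaith _ hβ hk fun d hd => Grp.CommPow.mulAut_fix_of_isPGroup hP hk (hfix' _ ?_)
    exact hself _ (D.mul_mem (D.inv_mem hd) (hDinv _ hβ d hd))
      (Grp.CommPow.inv_mul_apply_mem_centralizer hfix' d)

end Cfsg.Agent.S1949
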