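import Cfsg.Statements.S1952
import Mathlib
import Cfsg.Agent.Fus.Yoshida

set_option autoImplicit false
open Cfsg

namespace Cfsg.Agent.S1952

/-- Let P be a finite p-group with a normal elementary abelian subgroup A of index p, and let x ∈ A and y ∈ P with y outside A. If the product of the p conjugates y^(-i) x y^i (i = 0, …, p−1) is not the identity, then the wreath product Z_p ≀ Z_p, realised as a Sylow p-subgroup of the symmetric group of degree p², is a homomorphic image of P. -/
theorem result {P : Type*} [Group P] [Finite P] {p : ℕ} [Fact p.Prime] (hP : IsPGroup p P) (A : Subgroup P) [A.Normal]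
    (hA : Cfsg.IsElementaryAbelian p A) (hidx : A.index = p) (x y : P) (hx : x ∈ A) (hy : y ∉ A)
    (hprod : ((List.range p).map (fun i => (y ^ i)⁻¹ * x * y ^ i)).prod ≠ 1) :
    ∃ (Q : Sylow p (Equiv.Perm (Fin (p ^ 2)))) (f : P →* ↥(Q : Subgroup (Equiv.Perm (Fin (p ^ 2))))), Function.Surjective f := by
  have hcm := hA.1
  have hN : A.Normal := inferInstance
  have hl : ∀ n : ℕ, ∃ h : ((List.range n).map (fun i => (y ^ i)⁻¹ * x * y ^ i)).prod ∈ A,
      ∀ lam : A →* Multiplicative (ZMod p), lam ⟨_, h⟩ =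
        ∏ i ∈ Finset.range n, lam ⟨(y ^ i)⁻¹ * x * y ^ i, hN.conj_mem' x hx _⟩ := by
    intro n
    induction n with
    | zero => exact ⟨A.one_mem, fun lam => lam.map_one⟩
    | succ n ih =>
      obtain ⟨h, ih⟩ := ih
      have e : ((List.range (n + 1)).map (fun i => (y ^ i)⁻¹ * x * y ^ i)).prod =
          ((List.range n).map (fun i => (y ^ i)⁻¹ * x * y ^ i)).prod * ((y ^ n)⁻¹ * x * y ^ n) := by
        simp [List.range_succ]
      refine ⟨e ▸ A.mul_mem h (hN.conj_mem' x hx _), fun lam => ?_⟩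
      rw [Finset.prod_range_succ, ← ih, ← map_mul]
      exact congrArg lam (Subtype.ext e)
  obtain ⟨h, hl⟩ := hl p
  have hfr : frattini A ≤ ⊥ := by
    rw [Grp.PFrattini.frattini_le_iff (hP.to_subgroup A)]
    exact ⟨((commutator_eq_bot_iff_center_eq_top _).2 (Subgroup.center_eq_top_iff.2 hcm)).le,
      fun g => Subtype.ext (hA.2 g g.2)⟩
  obtain ⟨lam, -, hlam⟩ := Fus.exists_hom_zmod_of_not_mem (hP.to_subgroup A) hfr (x := ⟨_, h⟩)
    (fun h' => hprod (congrArg Subtype.val (Subgroup.mem_bot.1 h')))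
  rw [hl, Transfer.Cocycle.prod_conj_eq_iterate lam y hx] at hlam
  exact Fus.exists_surjective_wreath hP A hidx lam x y _ hlam

end Cfsg.Agent.S1952
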