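import Cfsg.Statements.S1954
import Mathlib
import Cfsg.Agent.Transfer.RadicalControl

set_option autoImplicit false
open Cfsg

namespace Cfsg.Agent.S1954

open Subgroup Cfsg.Agent.PLocal.Amb


/-- Let N be a normal subgroup of the finite group G, P a Sylow p-subgroup of G, and V a subgroup of P ∩ N normal in P ∩ N such that N_N(V) controls strong fusion in P ∩ N with respect to N (whenever a subgroup A of P ∩ N has n A n⁻¹ ≤ P ∩ N for some n in N, then n = h c with h in N_N(V) and c in C_N(A)). Let W be the subgroup generated by the conjugates of V under N_G(P ∩ N). Then N_G(W) controls strong fusion in P with respect to G. -/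
theorem result {G : Type*} [Group G] [Finite G] {p : ℕ} [Fact p.Prime] (N : Subgroup G) [N.Normal] (P : Sylow p G) (V : Subgroup G)
    (hV : V ≤ (P : Subgroup G) ⊓ N) (hVn : ∀ x ∈ (P : Subgroup G) ⊓ N, V.map (MulAut.conj x).toMonoidHom = V)
    (hctrl : ∀ A : Subgroup G, A ≤ (P : Subgroup G) ⊓ N → ∀ n ∈ N, A.map (MulAut.conj n).toMonoidHom ≤ (P : Subgroup G) ⊓ N →
      ∃ h ∈ N ⊓ Subgroup.normalizer (V : Set G), ∃ c ∈ N ⊓ Subgroup.centralizer (A : Set G), n = h * c)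
    (W : Subgroup G) (hW : W = Subgroup.closure (⋃ x ∈ Subgroup.normalizer (((P : Subgroup G) ⊓ N : Subgroup G) : Set G),
      ((V.map (MulAut.conj x).toMonoidHom : Subgroup G) : Set G))) :
    ∀ A : Subgroup G, A ≤ (P : Subgroup G) → ∀ g : G, A.map (MulAut.conj g).toMonoidHom ≤ (P : Subgroup G) →
        ∃ h ∈ Subgroup.normalizer (W : Set G), ∃ c ∈ Subgroup.centralizer (A : Set G), g = h * c := by
  set P₀ := (P : Subgroup G) ⊓ N with hP₀
  have hN : ∀ g : G, ∀ x ∈ N, g * x * g⁻¹ ∈ N := fun g x hx =>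
    (inferInstance : N.Normal).conj_mem x hx g
  let Ctrl : Subgroup G → Prop := fun U => U ≤ P₀ ∧ ∀ A : Subgroup G, A ≤ P₀ → ∀ n ∈ N,
    cj(n, A) ≤ P₀ → ∃ h ∈ N ⊓ 𝐍[U], ∃ c ∈ N ⊓ 𝐂[A], n = h * c
  have hsup : ∀ U U', Ctrl U → Ctrl U' → Ctrl (U ⊔ U') := by
    intro U U' hU hU'
    refine ⟨sup_le hU.1 hU'.1, fun A hA n hn hnA => ?_⟩
    obtain ⟨h, hh, c, hc, rfl⟩ := hU.2 A hA n hn hnA
    rw [cj_mul, cj_of_mem_normalizer (centralizer_le_normalizer' A hc.2)] at hnA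
    obtain ⟨h', hh', c', hc', rfl⟩ := hU'.2 (A ⊔ U) (sup_le hA hU.1) h hh.1 (by
      rw [cj_sup, cj_of_mem_normalizer hh.2]; exact sup_le hnA hU.1)
    refine ⟨h', ⟨hh'.1, normalizer_inf_normalizer_le_normalizer_sup _ _ ⟨?_, hh'.2⟩⟩, c' * c,
      mul_mem ⟨hc'.1, centralizer_anti le_sup_left hc'.2⟩ hc, mul_assoc _ _ _⟩
    have := (𝐍[U]).mul_mem hh.2
      (inv_mem (centralizer_le_normalizer' U (centralizer_anti le_sup_right hc'.2)))
    simpa using this
  have hcj : ∀ x ∈ 𝐍[P₀], Ctrl cj(x, V) := by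
    intro x hx
    refine ⟨cj_le_of_mem_normalizer hV hx, fun A hA n hn hnA => ?_⟩
    obtain ⟨h, hh, c, hc, e⟩ := hctrl cj(x⁻¹, A) (cj_le_of_mem_normalizer hA (inv_mem hx))
      (x⁻¹ * n * x⁻¹⁻¹) (hN _ _ hn) (by
        rw [← cj_mul, inv_inv, mul_inv_cancel_right, cj_mul]
        exact cj_le_of_mem_normalizer hnA (inv_mem hx))
    refine ⟨x * h * x⁻¹, ⟨hN _ _ hh.1, ?_⟩, x * c * x⁻¹, ⟨hN _ _ hc.1, ?_⟩, ?_⟩
    · change _ ∈ 𝐍[cj(x, V)]
      rw [normalizer_cj]; exact conj_mem_cj x hh.2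
    · change _ ∈ 𝐂[A]
      rw [← cj_cj_inv x A, centralizer_cj]; exact conj_mem_cj x hc.2
    · calc n = x * (x⁻¹ * n * x⁻¹⁻¹) * x⁻¹ := by group
        _ = _ := by rw [e]; group
  have hW' : W = ⨆ x : 𝐍[P₀], cj((x : G), V) := by
    rw [hW, iSup_eq_closure]; congr 1; ext y; simp only [Set.mem_iUnion, Subtype.exists]
  have hCW : Ctrl W := by
    obtain ⟨U, ⟨hU, hUW⟩, hmax⟩ := Set.Finite.exists_maximal
      (s := {U : Subgroup G | Ctrl U ∧ U ≤ W}) (Set.toFinite _)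
      ⟨⊥, ⟨bot_le, fun A _ n hn hA => by
        obtain ⟨h, hh, c, hc, e⟩ := hctrl A ‹_› n hn hA
        exact ⟨h, ⟨hh.1, by rw [normalizer_eq_top]; trivial⟩, c, hc, e⟩⟩, bot_le⟩
    have : W = U := by
      refine le_antisymm ?_ hUW
      rw [hW']
      refine iSup_le fun x => le_sup_right.trans (hmax ⟨hsup _ _ hU (hcj x x.2), sup_le hUW ?_⟩
        le_sup_left)
      rw [hW']
      exact le_iSup (fun x : 𝐍[P₀] => cj((x : G), V)) x
    rwa [this]
  have hNW : 𝐍[P₀] ≤ 𝐍[W] := by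
    intro m hm
    apply mem_normalizer_of_cj_le
    rw [hW', cj_iSup]
    refine iSup_le fun x => ?_
    rw [← cj_mul]
    exact le_iSup (fun x : 𝐍[P₀] => cj((x : G), V)) ⟨m * x, mul_mem hm x.2⟩
  have hsyl : IsSyl p P₀ N := (isSyl_top P).inf_of_le le_top (by rw [normalizer_eq_top])
  have hsc : ∀ X : Subgroup G, X ≤ W → 𝐍[W] ≤ 𝐍[X] → ∀ x ∈ X, ∀ g ∈ (⊤ : Subgroup G),
      g * x * g⁻¹ ∈ (P : Subgroup G) → g * x * g⁻¹ ∈ X := by
    intro X hXW hX x hx g _ hg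
    obtain ⟨n, hn, m, hm, rfl⟩ := hsyl.frattini (g := g) (by rw [normalizer_eq_top]; trivial)
    have h1 : m * x * m⁻¹ ∈ X := conj_mem_of_mem_normalizer (hX (hNW hm)) hx
    obtain ⟨h, hh, c, hc, rfl⟩ := hCW.2 (zpowers (m * x * m⁻¹))
      (zpowers_le.2 (hCW.1 (hXW h1))) n hn (by
        rw [MonoidHom.map_zpowers, zpowers_le]
        refine ⟨?_, hN _ _ (hCW.1 (hXW h1)).2⟩
        change n * (m * x * m⁻¹) * n⁻¹ ∈ (P : Subgroup G)
        convert hg using 1; group)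
    have h2 := mem_centralizer_iff.1 hc.2 _ (mem_zpowers _)
    have h3 := conj_mem_of_mem_normalizer (hX hh.2) h1
    convert h3 using 1
    calc h * c * m * x * (h * c * m)⁻¹ = h * (c * (m * x * m⁻¹)) * c⁻¹ * h⁻¹ := by group
      _ = _ := by rw [← h2]; group
  have hWP : W ≤ P := hCW.1.trans inf_le_left
  obtain ⟨n, hn⟩ := (isNilpotent_iff_lowerCentralSeries W).1 (P.isPGroup'.to_le hWP).isNilpotent
  have hlcs : ∀ i, 𝐍[W] ≤ 𝐍[W.lowerCentralSeries i] := by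
    intro i
    induction i with
    | zero => exact le_rfl
    | succ i ih => exact le_normalizer_commutator ih le_rfl
  intro A hA g hg
  obtain ⟨v, hv, e⟩ := Transfer.normalizer_controls_of_chain (isSyl_top P) hWP W.lowerCentralSeries
    rfl hn (fun i => hsc _ (W.lowerCentralSeries_antitone (Nat.zero_le i)) (hlcs i))
    (fun _ => le_rfl) A g trivial hA hg
  refine ⟨v, hv.2, v⁻¹ * g, mem_centralizer_iff.2 fun a ha => ?_, by group⟩
  calc a * (v⁻¹ * g) = v⁻¹ * (v * a * v⁻¹) * g := by group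
    _ = _ := by rw [e a ha]; group

end Cfsg.Agent.S1954
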