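import Cfsg.Statements.S1956
import Mathlib
import Cfsg.Agent.PLocal.RelSylow

set_option autoImplicit false
open Cfsg

namespace Cfsg.Agent.S1956

open Cfsg.Agent.PLocal.RelSylow


/-- Let P be a Sylow p-subgroup of the finite group G such that every element of P of order dividing p (dividing 4 when p = 2) is central in P. Then the fusion of these elements is controlled by N_G(P): if such an element a of P has g a g⁻¹ in P, then g = n c with n normalizing P and c commuting with a. -/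
theorem result {G : Type*} [Group G] [Finite G] {p : ℕ} [Fact p.Prime] (P : Sylow p G)
    (hcen : ∀ a ∈ (P : Subgroup G), (a ^ p = 1 ∨ (p = 2 ∧ a ^ 4 = 1)) → ∀ y ∈ (P : Subgroup G), a * y = y * a) :
    ∀ a ∈ (P : Subgroup G), (a ^ p = 1 ∨ (p = 2 ∧ a ^ 4 = 1)) → ∀ g : G, g * a * g⁻¹ ∈ (P : Subgroup G) →
      ∃ n ∈ Subgroup.normalizer ((P : Subgroup G) : Set G), ∃ c : G, c * a = a * c ∧ g = n * c := by
  intro a ha hap g hg
  set b := g * a * g⁻¹ with hb
  have hbp : b ^ p = 1 ∨ (p = 2 ∧ b ^ 4 = 1) := by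
    rcases hap with h | ⟨h1, h⟩
    · left; rw [hb, conj_pow, h]; simp
    · right; refine ⟨h1, ?_⟩; rw [hb, conj_pow, h]; simp
  have hPC : (P : Subgroup G) ≤ Subgroup.centralizer {b} := by
    intro y hy
    rw [Subgroup.mem_centralizer_singleton_iff]
    exact (hcen b hg hbp y hy).symm
  have hSC : (P : Subgroup G).map (MulAut.conj g).toMonoidHom ≤ Subgroup.centralizer {b} := by
    rintro _ ⟨s, hs, rfl⟩
    rw [Subgroup.mem_centralizer_singleton_iff]
    have h1 := hcen a ha hap s hs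
    change g * s * g⁻¹ * b = b * (g * s * g⁻¹)
    rw [hb]
    calc g * s * g⁻¹ * (g * a * g⁻¹) = g * (s * a) * g⁻¹ := by group
      _ = g * (a * s) * g⁻¹ := by rw [h1]
      _ = _ := by group
  obtain ⟨c, hc, hh⟩ := exists_conj_mem_sylow P hPC hSC (P.isPGroup'.map _)
  rw [Subgroup.mem_centralizer_singleton_iff] at hc
  refine ⟨c * g, mem_normalizer_of_finite fun x hx => ?_, g⁻¹ * c⁻¹ * g, ?_, by group⟩
  · have := hh _ (conj_mem_map_conj hx)
    simpa [mul_assoc] using this
  · have h1 : c⁻¹ * b = b * c⁻¹ := by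
      calc c⁻¹ * b = c⁻¹ * (b * c) * c⁻¹ := by group
        _ = c⁻¹ * (c * b) * c⁻¹ := by rw [hc]
        _ = _ := by group
    calc g⁻¹ * c⁻¹ * g * a = g⁻¹ * (c⁻¹ * b) * g := by rw [hb]; group
      _ = g⁻¹ * (b * c⁻¹) * g := by rw [h1]
      _ = _ := by rw [hb]; group

end Cfsg.Agent.S1956
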