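import Cfsg.Statements.S1988
import Mathlib
import Cfsg.Agent.S2006
import Cfsg.Agent.S2007
import Cfsg.Agent.S1982
import Cfsg.Agent.S0093
import Cfsg.Agent.S0121
import Cfsg.Agent.PLocal.CFBasic
import Cfsg.Agent.PLocal.CFSection
import Cfsg.Agent.Grp.PFrattini

set_option autoImplicit false
universe u
open Cfsg

namespace Cfsg.Agent.S1988

open Subgroup Cfsg.Agent.PLocal.CommMod Cfsg.Agent.PLocal.Amb Cfsg.Agent.PLocal.ChiefAct
open Cfsg.Agent.PLocal.KInf

theorem exists_quad {G : Type u} [Group G] [Finite G] {p : ℕ} [Fact p.Prime] (S : Sylow p G)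
    (hC : 𝐂[pCore p G] ≤ pCore p G)
    (hK : ¬ (Cfsg.inducedFunctor Cfsg.kInfLower (S : Subgroup G)).Normal ∨
      ¬ (Cfsg.inducedFunctor Cfsg.kInfUpper (S : Subgroup G)).Normal) :
    ∃ g ∈ (S : Subgroup G), g ∉ pCore p G ∧ ∃ U V : Subgroup G, IsChiefFactor U V ∧ U ≤ pCore p G ∧
      ⁅⁅U, zpowers g⁆, zpowers g⁆ ≤ V ∧ ¬ ⁅U, zpowers g⁆ ≤ V := by
  have hTp := Grp.pCore_isPGroup p G
  obtain ⟨H, hH, h1, h2, h3⟩ := S0093.result hTp
  have hinj := (pCore p G).subtype_injective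
  set A : Subgroup G := H.map (pCore p G).subtype with hA
  have hAT : A ≤ pCore p G := map_subtype_le H
  have hZ : (H ⊓ 𝐂[H]).map (pCore p G).subtype = A ⊓ 𝐂[A] := map_center_eq hinj H
  have hchar : (A.subgroupOf (pCore p G)).Characteristic := by
    rw [hA, map_subtype_subgroupOf]; exact hH
  have hA1 : ∀ a ∈ A, a ^ p ∈ A ⊓ 𝐂[A] := by
    rintro _ ⟨a, ha, rfl⟩
    rw [← hZ, ← map_pow]
    refine mem_map_of_mem _ ⟨H.pow_mem ha p, h1 ?_⟩
    exact ⟨(⟨a, ha⟩ : H) ^ p, Grp.PFrattini.pow_mem_frattini (hTp.to_subgroup H) _, rfl⟩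
  have hA3 : ⁅pCore p G, A⁆ ≤ A ⊓ 𝐂[A] := by
    rw [← hZ, commutator_comm]
    refine le_trans ?_ (map_mono h2)
    rw [map_commutator, ← MonoidHom.range_eq_map, subtype_range]
  have hA2 : ⁅A, A⁆ ≤ 𝐂[A] := ((commutator_mono hAT le_rfl).trans hA3).trans inf_le_right
  have hA4 : pCore p G ⊓ 𝐂[A] = A ⊓ 𝐂[A] := by
    refine le_antisymm (le_inf ?_ inf_le_right) (inf_le_inf_right _ hAT)
    rintro x ⟨hx, hx'⟩
    refine ⟨⟨x, hx⟩, h3 fun y hy => Subtype.ext (hx' _ (mem_map_of_mem _ hy)), rfl⟩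
  have hA5 : ∀ φ : MulAut ↥(pCore p G), (orderOf φ).Coprime p →
      (∀ a : ↥(pCore p G), (a : G) ∈ A → φ a = a) → φ = 1 := fun φ hφ h =>
    S0121.result hTp H hH h1 h2 h3 φ hφ fun x hx => h x (mem_map_of_mem _ hx)
  obtain ⟨g, hgS, hgT, -, -, hg3⟩ := S1982.result S A hAT hchar hA1 hA2 hA3 hA4 hA5 hK
  obtain ⟨U, V, hUV, hUA, hq, hnt⟩ := hg3 hC
  exact ⟨g, hgS, hgT, U, V, hUV, hUA.trans hAT, hq, hnt⟩


/-- Let p be an odd prime, G a finite group with Sylow p-subgroup S and K the lower K-infinity subgroup of S. If N_G(K) has a normal p-complement, or if N_G(K)/C_G(K) is a p-group (every element of N_G(K) of order prime to p centralizes K), then G has a normal p-complement. -/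
theorem result {G : Type u} [Group G] [Finite G] {p : ℕ} [Fact p.Prime] (hp : p ≠ 2) (S : Sylow p G) (h : Cfsg.HasNormalPComplement p ↥(Subgroup.normalizer ((Cfsg.inducedFunctor Cfsg.kInfLower (S : Subgroup G) : Subgroup G) : Set G)) ∨ ∀ g ∈ Subgroup.normalizer ((Cfsg.inducedFunctor Cfsg.kInfLower (S : Subgroup G) : Subgroup G) : Set G), (orderOf g).Coprime p → g ∈ Subgroup.centralizer ((Cfsg.inducedFunctor Cfsg.kInfLower (S : Subgroup G) : Subgroup G) : Set G)) : Cfsg.HasNormalPComplement p G := by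
  have hp2 : 2 ≤ p - 1 := by
    have := (Fact.out : p.Prime).two_le
    omega
  have hN : HasNormalPComplement p ↥𝐍[inducedFunctor kInfLower (S : Subgroup G)] := by
    rcases h with h | h
    · exact h
    · have := S.isPGroup'.isNilpotent
      have := lower_characteristic (G := (S : Subgroup G))
      refine S2007.result S _ (map_subtype_le _) (le_normalizer_map_subtype _) ?_ h
      rintro x ⟨hx, hx'⟩
      exact ⟨⟨x, hx⟩, centralizer_lower_le fun y hy => Subtype.ext (hx' _ (mem_map_of_mem _ hy)), rfl⟩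
  refine S2006.result _ (isCharPFunctor_lower p) S hN fun K R hR hC T hT => ?_
  obtain ⟨g, hgT, hg, U, V, hUV, hU, hq, hnt⟩ := exists_quad T hC (Or.inl hT)
  have := hUV.2.1
  exact ⟨g, hgT, hg, U, V, hUV, hU, (iter_antitone le_normalizer_of_normal hp2).trans hq, hnt⟩

end Cfsg.Agent.S1988
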