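import Cfsg.Statements.S2050
import Mathlib
import Cfsg.Agent.Mult.SporLy
import Cfsg.Agent.Spor.Ly.Link
import Cfsg.Agent.S1702
import Cfsg.Agent.S1710
import Cfsg.Agent.S2047
import Cfsg.Agent.S2100

set_option autoImplicit false
open Cfsg

namespace Cfsg.Agent.S2050

/-- The Schur multiplier of the Lyons group (the finitely presented group of the definitions) is trivial; here the Schur multiplier is described through stem extensions, as in the definitions: surjective homomorphisms onto the group from a finite group, whose kernel is central in that finite group and contained in that finite group's commutator subgroup. -/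
theorem result : Cfsg.HasCyclicSchurMultiplier Cfsg.Spor.Ly 1 := by
  obtain ⟨hs, hG⟩ := S1702.result
  have : Finite Spor.Ly := Nat.finite_of_card_ne_zero (by rw [hG]; decide)
  obtain ⟨f, hf⟩ := Mult.Cov.exists_FM Spor.LyC.link.1 Spor.LyC.Mat.satR
    (Spor.LyC.McL.ordX.trans_ne (by decide))
  obtain ⟨K, _, _, hK, ⟨e⟩⟩ := S1710.result
  have h5 := (Mult.mcard_congr e).trans (Mult.trivial_iff_mcard_eq_one.1 (S2100.result hK.ge))
  refine Mult.trivial_iff_mcard_eq_one.2 (Mult.mcard_eq_one_of_forall fun r hr => ?_)
  by_cases r2 : r = 2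
  · exact r2 ▸ Mult.Lym.not_two hf hG
  by_cases r3 : r = 3
  · refine r3 ▸ Mult.Lym.not_three hf hG ?_
    rw [Mult.mcard_eq (FGS.HasSchurMultiplier.congr_left S2047.result Spor.ModelMcL.equiv)]
    simp
  by_cases r5 : r = 5
  · refine Mult.Cov.not_dvd_mcard_of_subgroup hr _ ?_ (h5 ▸ hr.not_dvd_one)
    rw [Spor.LyC.subeq, Spor.LyC.gen_eq, Spor.LyC.index Spor.LyC.boundH, r5]
    norm_num
  refine Mult.Cov.not_dvd_mcard_of_sq hr fun h => ?_
  rw [hG] at h
  have h1 := (Nat.mem_primeFactorsList (by norm_num)).2 ⟨hr, (Nat.dvd_mul_right r r).trans h⟩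
  simp only [Nat.primeFactorsList_ofNat, List.mem_cons, r2, r3, r5, false_or, List.not_mem_nil,
    or_false] at h1
  rcases h1 with rfl | rfl | rfl | rfl | rfl <;> norm_num at h

end Cfsg.Agent.S2050
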