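import Cfsg.Statements.S2056
import Mathlib
import Cfsg.Agent.Mult.SporHN
import Cfsg.Agent.Spor.HSLeech
import Cfsg.Agent.S2046
import Cfsg.Agent.S1701
import Cfsg.Agent.S1708

set_option autoImplicit false
open Cfsg

namespace Cfsg.Agent.S2056

/-- The Schur multiplier of the Harada–Norton group (the finitely presented group of the definitions) is trivial; here the Schur multiplier is described through stem extensions, as in the definitions: surjective homomorphisms onto the group from a finite group, whose kernel is central in that finite group and contained in that finite group's commutator subgroup. -/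
theorem result : Cfsg.HasCyclicSchurMultiplier Cfsg.Spor.HN 1 := by
  obtain ⟨K, hK, hi, h⟩ := S1708.result
  have : Finite Spor.HN := Nat.finite_of_card_ne_zero (by rw [S1701.result.2]; decide)
  have := Spor.isHS_HS.1
  obtain ⟨h1, h2⟩ := Mult.Cov.nonsplit_double h
    (Mult.Cov.perfect_of_simple (by rw [Spor.isHS_HS.2]; norm_num))
    (by rw [Mult.mcard_eq S2046.result]; simp)
  exact Mult.HNm.trivial K hi h1 h2

end Cfsg.Agent.S2056
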