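import Cfsg.Statements.S2101
import Cfsg.Agent.Spor.MultG23
import Cfsg.Agent.Spor.CovG23
import Cfsg.Agent.Chev.Aut

set_option autoImplicit false
open Cfsg

namespace Cfsg.Agent.S2101

/-- Exceptional Schur multiplier: over the field with 3 elements the Chevalley group of type G₂ has Schur multiplier cyclic of order 3 (here the Schur multiplier is described through stem extensions, as in the definitions). -/
theorem result {F : Type*} [Field F] [Fintype F] (hF : Fintype.card F = 3) : Cfsg.HasCyclicSchurMultiplier ↥(Cfsg.Lie.chevG2.group F) 3 := by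
  have e := Class.ringEquivZMod hF
  exact FGS.HasSchurMultiplier.congr_left (Spor.MultG23.mult_of (by simp) Spor.CovG23.onto)
    ((MonoidHom.toMulEquiv (Chev.fieldHom _ (e : F →+* ZMod 3)) (Chev.fieldHom _ (e.symm : ZMod 3 →+* F))
      (MonoidHom.ext fun g => by simp [Chev.fieldHom_comp, Chev.fieldHom_id])
      (MonoidHom.ext fun g => by simp [Chev.fieldHom_comp, Chev.fieldHom_id])).trans Spor.ModelG23.equiv).symm

end Cfsg.Agent.S2101
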