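import Cfsg.Statements.S2163
import Mathlib
import Cfsg.Agent.Class.LinearBasic

set_option autoImplicit false
open Cfsg

namespace Cfsg.Agent.S2163

/-- Over a finite field of characteristic two and for n ≥ 3: for every ℓ with 1 ≤ ℓ and 2ℓ ≤ n, the matrix j_ℓ that is the identity plus the entries 1 in positions (n − ℓ + i, i) for i < ℓ (an identity block of size ℓ in the lower left corner) lies in SL_n(F), has order 2, and j_ℓ − 1 has rank ℓ. Together with the conjugacy criterion by rank, these matrices represent the conjugacy classes of involutions of SL_n(F). -/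
theorem result {F : Type*} [Field F] [Fintype F] [CharP F 2] {n : ℕ} (hn : 3 ≤ n) (ℓ : ℕ) (h1 : 1 ≤ ℓ) (h2 : 2 * ℓ ≤ n) :
    ∃ a : Matrix.SpecialLinearGroup (Fin n) F, (a : Matrix (Fin n) (Fin n) F) = 1 + Matrix.of (fun i j : Fin n => if j.val < ℓ ∧ i.val = j.val + (n - ℓ) then (1 : F) else 0) ∧ orderOf a = 2 ∧ ((a : Matrix (Fin n) (Fin n) F) - 1).rank = ℓ := by
  classical
  set N : Matrix (Fin n) (Fin n) F := Matrix.of (fun i j : Fin n => if j.val < ℓ ∧ i.val = j.val + (n - ℓ) then (1 : F) else 0) with hN
  have hN2 : N * N = 0 := by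
    ext i j
    rw [Matrix.mul_apply]
    refine Finset.sum_eq_zero fun k _ => ?_
    simp only [hN, Matrix.of_apply]
    split_ifs with h3 h4
    · omega
    all_goals simp
  have h22 : (1 + N) * (1 + N) = 1 := by
    rw [add_mul, mul_add, mul_add, hN2, one_mul, one_mul, mul_one, add_zero, add_assoc,
      ← two_smul F N, show (2 : F) = 0 from CharTwo.two_eq_zero, zero_smul, add_zero]
  have hdet : (1 + N).det = 1 := by
    have := congrArg Matrix.det h22
    rw [Matrix.det_mul, Matrix.det_one, mul_self_eq_one_iff, CharTwo.neg_eq, or_self] at this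
    exact this
  let P : Matrix (Fin n) (Fin ℓ) F := Matrix.of fun i k => if i.val = k.val + (n - ℓ) then 1 else 0
  let Q : Matrix (Fin ℓ) (Fin n) F := Matrix.of fun k j => if j.val = k.val then 1 else 0
  have hPQ : N = P * Q := by
    ext i j
    rw [Matrix.mul_apply]
    by_cases hj : j.val < ℓ
    · rw [Finset.sum_eq_single ⟨j, hj⟩]
      · simp [hN, P, Q, hj]
      · intro k _ hk
        have : j.val ≠ k.val := fun h => hk (Fin.ext h.symm)
        simp [Q, this]
      · simp
    · rw [Finset.sum_eq_zero]
      · simp [hN, hj]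
      · intro k _
        have : j.val ≠ k.val := fun h => hj (h ▸ k.2)
        simp [Q, this]
  have hPP : P.transpose * P = 1 := by
    ext k l
    rw [Matrix.mul_apply, Finset.sum_eq_single ⟨k + (n - ℓ), by have := k.2; omega⟩]
    · simp [P, Matrix.one_apply, Fin.ext_iff]
    · intro i _ hi
      have : i.val ≠ k.val + (n - ℓ) := fun h => hi (Fin.ext h)
      simp [P, this]
    · simp
  have hQQ : Q * Q.transpose = 1 := by
    ext k l
    rw [Matrix.mul_apply, Finset.sum_eq_single ⟨k, by have := k.2; omega⟩]
    · simp [Q, Matrix.one_apply, Fin.ext_iff]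
    · intro i _ hi
      have : i.val ≠ k.val := fun h => hi (Fin.ext h)
      simp [Q, this]
    · simp
  have hr : N.rank = ℓ := by
    apply le_antisymm
    · rw [hPQ]
      exact (Matrix.rank_mul_le_left _ _).trans ((Matrix.rank_le_card_width _).trans (by simp))
    · have h3 : P.transpose * N * Q.transpose = 1 := by
        rw [hPQ, ← Matrix.mul_assoc, hPP, Matrix.one_mul, hQQ]
      have h4 := (Matrix.rank_mul_le_left (P.transpose * N) Q.transpose).trans (Matrix.rank_mul_le_right _ _)
      rwa [h3, Matrix.rank_one, Fintype.card_fin] at h4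
  let a : Matrix.SpecialLinearGroup (Fin n) F := ⟨1 + N, hdet⟩
  refine ⟨a, rfl, orderOf_eq_prime (by rw [sq]; exact Subtype.ext h22) fun h => ?_, by
    simpa [a] using hr⟩
  have h3 : N = 0 := by simpa [a] using congrArg Subtype.val h
  rw [h3, Matrix.rank_zero] at hr
  omega

end Cfsg.Agent.S2163
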