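import Cfsg.Statements.S2165
import Mathlib
import Cfsg.Agent.Class.U.Basic

set_option autoImplicit false
open Cfsg

namespace Cfsg.Agent.S2165

/-- In SU_n(q), q even, n ≥ 3 (matrices of determinant 1 over the field with q² elements preserving Σ u_i v_i^q): for every ℓ with 1 ≤ ℓ and 2ℓ ≤ n, the permutation matrix of the involution of {0, …, n−1} exchanging i and n − ℓ + i for each i < ℓ lies in SU_n(q), has order 2, and differs from the identity by a matrix of rank ℓ. So every rank between 1 and n/2 occurs for involutions of SU_n(q). -/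
theorem result {F : Type*} [Field F] [Fintype F] [CharP F 2] {n q : ℕ} (hF : Fintype.card F = q ^ 2) (hn : 3 ≤ n) (ℓ : ℕ) (h1 : 1 ≤ ℓ) (h2 : 2 * ℓ ≤ n) :
    ∃ a : ↥(Cfsg.SU n F q), (((a : Matrix.SpecialLinearGroup (Fin n) F) : Matrix (Fin n) (Fin n) F) = Matrix.of (fun i j : Fin n => if (j.val < ℓ ∧ i.val = j.val + (n - ℓ)) ∨ (i.val < ℓ ∧ j.val = i.val + (n - ℓ)) ∨ (i = j ∧ ℓ ≤ i.val ∧ i.val < n - ℓ) then (1 : F) else 0)) ∧ orderOf a = 2 ∧ ((((a : Matrix.SpecialLinearGroup (Fin n) F) : Matrix (Fin n) (Fin n) F)) - 1).rank = ℓ := by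
  have := Class.U.UF.of_card hF
  set M : Matrix (Fin n) (Fin n) F := Matrix.of (fun i j : Fin n => if (j.val < ℓ ∧ i.val = j.val + (n - ℓ)) ∨ (i.val < ℓ ∧ j.val = i.val + (n - ℓ)) ∨ (i = j ∧ ℓ ≤ i.val ∧ i.val < n - ℓ) then (1 : F) else 0) with hM
  let π : Fin n → Fin n := fun i => if h : i.val < ℓ then ⟨i.val + (n - ℓ), by omega⟩ else
    if h' : n - ℓ ≤ i.val then ⟨i.val - (n - ℓ), by omega⟩ else i
  have hπ : ∀ i, (π i).val = if i.val < ℓ then i.val + (n - ℓ) else
      if n - ℓ ≤ i.val then i.val - (n - ℓ) else i.val := fun i => by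
    simp only [π]; split_ifs <;> rfl
  have hM' : ∀ i j, M i j = if j = π i then 1 else 0 := fun i j => by
    rw [hM, Matrix.of_apply]
    refine if_congr ?_ rfl rfl
    have := i.2
    have := j.2
    simp only [Fin.ext_iff, hπ]
    split_ifs <;> omega
  have hππ : ∀ i, π (π i) = i := fun i => by
    have := i.2
    simp only [Fin.ext_iff, hπ]
    split_ifs <;> omega
  have hsym : M.transpose = M := by
    ext i j
    rw [Matrix.transpose_apply, hM', hM']
    exact if_congr ⟨fun h => by rw [h, hππ], fun h => by rw [h, hππ]⟩ rfl rfl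
  have hsq : M * M = 1 := by
    ext i j
    rw [Matrix.mul_apply, Finset.sum_eq_single (π i) (fun k _ hk => by rw [hM', if_neg hk, zero_mul])
      (by simp)]
    simp [hM', hππ, Matrix.one_apply, eq_comm]
  have hmap : M.map (Class.U.conj F q) = M := by
    ext i j
    rw [Matrix.map_apply, hM']
    split_ifs <;> simp
  have hdet : M.det = 1 := by
    have := congrArg Matrix.det hsq
    rw [Matrix.det_mul, Matrix.det_one, mul_self_eq_one_iff, CharTwo.neg_eq] at this
    exact this.elim id id
  have hrank : (M - 1).rank = ℓ := by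
    apply le_antisymm
    · let A : Matrix (Fin n) (Fin ℓ) F := Matrix.of fun i k =>
        if i.val = k.val ∨ i.val = k.val + (n - ℓ) then 1 else 0
      have : M - 1 = A * ((M - 1 : Matrix (Fin n) (Fin n) F).submatrix
          (Fin.castLE (show ℓ ≤ n by omega)) id : Matrix (Fin ℓ) (Fin n) F) := by
        ext i j
        have hi := i.2
        rw [Matrix.mul_apply]
        by_cases h : i.val < ℓ
        · rw [Finset.sum_eq_single ⟨i.val, h⟩]
          · simp [A]
          · intro k _ hk
            rw [Ne, Fin.ext_iff] at hk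
            simp only [A, Matrix.of_apply]
            rw [if_neg (by simp at hk ⊢; omega), zero_mul]
          · simp
        by_cases h' : n - ℓ ≤ i.val
        · rw [Finset.sum_eq_single ⟨i.val - (n - ℓ), by omega⟩]
          · simp only [A, Matrix.of_apply]
            rw [if_pos (by omega), one_mul, Matrix.submatrix_apply]
            have e1 : Fin.castLE (show ℓ ≤ n by omega) ⟨i.val - (n - ℓ), by omega⟩ = π i := by
              rw [Fin.ext_iff, hπ, if_neg h, if_pos h']; rfl
            rw [e1]
            simp only [Matrix.sub_apply, hM', hππ, id, Matrix.one_apply, CharTwo.sub_eq_add,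
              eq_comm (a := j)]
            exact add_comm _ _
          · intro k _ hk
            have := k.2
            rw [Ne, Fin.ext_iff] at hk
            simp only [A, Matrix.of_apply]
            rw [if_neg (by simp at hk ⊢; omega), zero_mul]
          · simp
        · rw [Finset.sum_eq_zero]
          · have : π i = i := by rw [Fin.ext_iff, hπ, if_neg h, if_neg h']
            simp [hM', this, Matrix.one_apply, eq_comm]
          · intro k _
            have := k.2
            simp only [A, Matrix.of_apply]
            rw [if_neg (by omega), zero_mul]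
      rw [this]
      exact (Matrix.rank_mul_le_left _ _).trans (Matrix.rank_le_width _)
    · have : (M - 1).submatrix (Fin.castLE (show ℓ ≤ n by omega))
          (Fin.castLE (show ℓ ≤ n by omega)) = 1 := by
        ext i j
        have := i.2
        have := j.2
        rw [Matrix.submatrix_apply, Matrix.sub_apply, hM', if_neg (by
          rw [Fin.ext_iff, hπ]; simp; omega), zero_sub, CharTwo.neg_eq]
        simp [Matrix.one_apply]
      have h3 := Matrix.rank_submatrix_le (M - 1) (Fin.castLE (show ℓ ≤ n by omega))
        (Fin.castLE (show ℓ ≤ n by omega))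
      rwa [this, Matrix.rank_one, Fintype.card_fin] at h3
  refine ⟨Class.U.mkSU M (Class.U.pres_iff.2 (by rw [hsym, hmap, hsq])) hdet, rfl,
    orderOf_eq_prime (Subtype.ext (Subtype.ext (by rw [pow_two]; exact hsq))) fun h => ?_, hrank⟩
  have : M = 1 := congrArg (fun g : SU n F q => g.1.1) h
  rw [this, sub_self, Matrix.rank_zero] at hrank
  omega

end Cfsg.Agent.S2165
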