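import Cfsg.Statements.S2166
import Cfsg.Agent.Class.Invol2

set_option autoImplicit false
open Cfsg

namespace Cfsg.Agent.S2166

open Cfsg.Agent.Class Cfsg.Agent.Class.WallF Module

/-- Conjugacy of involutions in the symplectic group Sp_{2m}(F), F a finite field of characteristic two, m ≥ 2 (Sp taken as the matrices A with A J Aᵀ = J, acting on column vectors, with the alternating form f(u, v) = u ⬝ (J v)). For an involution t write V(t) for the set of vectors v with f(v, t v) = 0 (a subspace). Two involutions a, b are conjugate in Sp_{2m}(F) exactly when a − 1 and b − 1 have the same rank and, in case that rank is even, V(a) and V(b) have the same number of elements. -/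
theorem result {F : Type*} [Field F] [Fintype F] [CharP F 2] {m : ℕ} (hm : 2 ≤ m) (a b : ↥(Matrix.symplecticGroup (Fin m) F)) (ha : orderOf a = 2) (hb : orderOf b = 2) :
    IsConj a b ↔ ((((a : ↥(Matrix.symplecticGroup (Fin m) F)) : Matrix (Fin m ⊕ Fin m) (Fin m ⊕ Fin m) F) - 1).rank = (((b : ↥(Matrix.symplecticGroup (Fin m) F)) : Matrix (Fin m ⊕ Fin m) (Fin m ⊕ Fin m) F) - 1).rank ∧
      (Even (((a : ↥(Matrix.symplecticGroup (Fin m) F)) : Matrix (Fin m ⊕ Fin m) (Fin m ⊕ Fin m) F) - 1).rank → Nat.card {v : Fin m ⊕ Fin m → F // Cfsg.sympForm m F v (Matrix.mulVec ((a : ↥(Matrix.symplecticGroup (Fin m) F)) : Matrix (Fin m ⊕ Fin m) (Fin m ⊕ Fin m) F) v) = 0} = Nat.card {v : Fin m ⊕ Fin m → F // Cfsg.sympForm m F v (Matrix.mulVec ((b : ↥(Matrix.symplecticGroup (Fin m) F)) : Matrix (Fin m ⊕ Fin m) (Fin m ⊕ Fin m) F) v) = 0})) := by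
  have hc : (2 : F) = 0 := CharTwo.two_eq_zero
  have h := isSympSpace_sympB m F
  have ha' : spEquiv m F a * spEquiv m F a = 1 := by
    rw [← map_mul, (orderOf_eq_two_iff.1 ha).1, map_one]
  have hb' : spEquiv m F b * spEquiv m F b = 1 := by
    rw [← map_mul, (orderOf_eq_two_iff.1 hb).1, map_one]
  rw [← isConj_equiv_iff (spEquiv m F), isConj_iff_of_invol h hc ha' hb', rank_sp, rank_sp]
  simp only [← sympB_sub_sp hc]
  rw [card_eq_iff_altW h hc (spEquiv m F a).2.1 (spEquiv m F b).2.1 (congrArg Subtype.val ha')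
    (congrArg Subtype.val hb')]
  refine and_congr_right fun hr => ⟨fun h _ => h, fun h1 => ⟨fun h2 => ?_, fun h2 => ?_⟩⟩
  · exact (h1 (even_of_altW h (spEquiv m F a).2.1 h2)).1 h2
  · exact (h1 (hr ▸ even_of_altW h (spEquiv m F b).2.1 h2)).2 h2

end Cfsg.Agent.S2166
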