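import Cfsg.Statements.S2167
import Cfsg.Agent.Class.Invol2

set_option autoImplicit false
open Cfsg

namespace Cfsg.Agent.S2167

open Cfsg.Agent.Class Cfsg.Agent.Class.WallF Module

/-- For an involution t of the symplectic group Sp_{2m}(F), m ≥ 2, F a finite field of characteristic two (matrices A with A J Aᵀ = J acting on column vectors, alternating form f(u, v) = u ⬝ (J v)): the set V(t) of vectors v with f(v, t v) = 0 has either q^{2m} or q^{2m−1} elements, q the order of F (it is a subspace of codimension at most 1), and if it is the whole space then t − 1 has even rank. -/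
theorem result {F : Type*} [Field F] [Fintype F] [CharP F 2] {m : ℕ} (hm : 2 ≤ m) (a : ↥(Matrix.symplecticGroup (Fin m) F)) (ha : orderOf a = 2) :
    (Nat.card {v : Fin m ⊕ Fin m → F // Cfsg.sympForm m F v (Matrix.mulVec ((a : ↥(Matrix.symplecticGroup (Fin m) F)) : Matrix (Fin m ⊕ Fin m) (Fin m ⊕ Fin m) F) v) = 0} = Fintype.card F ^ (2 * m) ∨ Nat.card {v : Fin m ⊕ Fin m → F // Cfsg.sympForm m F v (Matrix.mulVec ((a : ↥(Matrix.symplecticGroup (Fin m) F)) : Matrix (Fin m ⊕ Fin m) (Fin m ⊕ Fin m) F) v) = 0} * Fintype.card F = Fintype.card F ^ (2 * m)) ∧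
    ((∀ v : Fin m ⊕ Fin m → F, Cfsg.sympForm m F v (Matrix.mulVec ((a : ↥(Matrix.symplecticGroup (Fin m) F)) : Matrix (Fin m ⊕ Fin m) (Fin m ⊕ Fin m) F) v) = 0) → Even (((a : ↥(Matrix.symplecticGroup (Fin m) F)) : Matrix (Fin m ⊕ Fin m) (Fin m ⊕ Fin m) F) - 1).rank) := by
  have hc : (2 : F) = 0 := CharTwo.two_eq_zero
  have h := isSympSpace_sympB m F
  have ha' : spEquiv m F a * spEquiv m F a = 1 := by
    rw [← map_mul, (orderOf_eq_two_iff.1 ha).1, map_one]
  have hd : finrank F (Fin m ⊕ Fin m → F) = 2 * m := by simp [two_mul]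
  rw [rank_sp]
  simp only [← sympB_sub_sp hc]
  refine ⟨?_, fun h2 => even_of_altW h (spEquiv m F a).2.1 h2⟩
  rw [← Nat.card_eq_fintype_card, ← hd]
  by_cases hA : AltW (sympB m F) (spEquiv m F a).1
  · exact Or.inl (card_of_altW hA)
  · exact Or.inr (card_of_not_altW h hc (spEquiv m F a).2.1 (congrArg Subtype.val ha') hA)

end Cfsg.Agent.S2167
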