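import Cfsg.Statements.S2170
import Cfsg.Agent.Class.Orth.Invol2

set_option autoImplicit false
open Cfsg

namespace Cfsg.Agent.S2170

open Cfsg.Agent.Class Cfsg.Agent.Class.WallF Cfsg.Agent.Class.Orth QuadraticMap Module

/-- Involutions in the full isometry group O of the quadratic form Σ x_i y_i + (z₁² + c z₁ z₂ + d z₂²) in dimension 2m with anisotropic binary part over a finite field F of characteristic two, m ≥ 4 (minus type): two elements of order 2 of O are conjugate in O exactly when they are conjugate under the group of all invertible matrices preserving the polar bilinear form (u, v) ↦ Q(u + v) − Q(u) − Q(v) (the symplectic group of that form). -/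
theorem result {F : Type*} [Field F] [Fintype F] [CharP F 2] {m : ℕ} (hm : 4 ≤ m) (c d : F) (hcd : ∀ z₁ z₂ : F, z₁ ^ 2 + c * z₁ * z₂ + d * z₂ ^ 2 = 0 → z₁ = 0 ∧ z₂ = 0) (t s : ↥(Cfsg.isometryGroup F (Cfsg.quadFormMinus (m - 1) F c d))) (ht : orderOf t = 2) (hs : orderOf s = 2) :
    IsConj t s ↔ ∃ g ∈ Cfsg.preserving (Units.coeHom (Matrix ((Fin (m - 1) ⊕ Fin (m - 1)) ⊕ Fin 2) ((Fin (m - 1) ⊕ Fin (m - 1)) ⊕ Fin 2) F)) (fun u v => Cfsg.quadFormMinus (m - 1) F c d (u + v) - Cfsg.quadFormMinus (m - 1) F c d u - Cfsg.quadFormMinus (m - 1) F c d v), g * ((t : ↥(Cfsg.isometryGroup F (Cfsg.quadFormMinus (m - 1) F c d))) : GL ((Fin (m - 1) ⊕ Fin (m - 1)) ⊕ Fin 2) F) * g⁻¹ = ((s : ↥(Cfsg.isometryGroup F (Cfsg.quadFormMinus (m - 1) F c d))) : GL ((Fin (m - 1) ⊕ Fin (m - 1)) ⊕ Fin 2) F) := by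
  rw [← isConj_equiv_iff (isoEquiv (minusQF (m - 1) F c d) _ (minusQF_apply (m - 1) F c d)), ND.isConj_iff_symp (nd_minusQF (m - 1) hcd)]
  constructor
  · rintro ⟨g, h1, h2⟩
    refine ⟨(glEquiv _ F).symm g, fun u v => ?_, ?_⟩
    · have : ∀ u, (Units.coeHom _ ((glEquiv _ F).symm g)).mulVec u = g u := fun u => by
        rw [Units.coeHom_apply, ← glEquiv_apply, MulEquiv.apply_symm_apply]
      have h3 := h1 u v
      simp only [polar, (minusQF_apply (m - 1) F c d)] at h3
      rw [this, this]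
      exact h3
    · apply (glEquiv _ F).injective
      rw [map_mul, map_mul, map_inv, MulEquiv.apply_symm_apply, mul_inv_eq_iff_eq_mul]
      exact h2
  · rintro ⟨g, h1, h2⟩
    refine ⟨glEquiv _ F g, fun u v => ?_, ?_⟩
    · simp only [polar, (minusQF_apply (m - 1) F c d)]
      exact h1 u v
    · have := congrArg (glEquiv _ F) (mul_inv_eq_iff_eq_mul.1 h2)
      rw [map_mul, map_mul] at this
      exact this

end Cfsg.Agent.S2170
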