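import Cfsg.Statements.S2172
import Cfsg.Agent.Class.Orth.Invol2

set_option autoImplicit false
open Cfsg

namespace Cfsg.Agent.S2172

open Cfsg.Agent.Class Cfsg.Agent.Class.WallF Cfsg.Agent.Class.Orth QuadraticMap Module

/-- Splitting of involution classes from O to Ω for the hyperbolic quadratic form Q = Σ x_i y_i in dimension 2m over a finite field F of characteristic two, m ≥ 4. Let t, s be involutions of the commutator subgroup Ω that are conjugate in the full isometry group O. If it is not the case that t − 1 has rank m and Q(v + t v) = 0 for every vector v, then t and s are conjugate by an element of Ω. If t − 1 has rank m and Q(v + t v) = 0 for all v, then t and s are conjugate by an element of Ω exactly when the intersection of the images of t − 1 and s − 1 has even dimension (so the class of t in O meets at most two classes of Ω). -/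
theorem result {F : Type*} [Field F] [Fintype F] [CharP F 2] {m : ℕ} (hm : 4 ≤ m) (t s : ↥(Cfsg.isometryGroup F (Cfsg.quadFormPlus m F))) (ht : orderOf t = 2) (hs : orderOf s = 2) (htO : t ∈ Cfsg.Omega F (Cfsg.quadFormPlus m F)) (hsO : s ∈ Cfsg.Omega F (Cfsg.quadFormPlus m F)) (hconj : IsConj t s) :
    (¬ (((((t : ↥(Cfsg.isometryGroup F (Cfsg.quadFormPlus m F))) : GL (Fin m ⊕ Fin m) F) : Matrix (Fin m ⊕ Fin m) (Fin m ⊕ Fin m) F) - 1).rank = m ∧ ∀ v : Fin m ⊕ Fin m → F, Cfsg.quadFormPlus m F (v + Matrix.mulVec (((t : ↥(Cfsg.isometryGroup F (Cfsg.quadFormPlus m F))) : GL (Fin m ⊕ Fin m) F) : Matrix (Fin m ⊕ Fin m) (Fin m ⊕ Fin m) F) v) = 0) →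
      ∃ g ∈ Cfsg.Omega F (Cfsg.quadFormPlus m F), g * t * g⁻¹ = s) ∧
    ((((((t : ↥(Cfsg.isometryGroup F (Cfsg.quadFormPlus m F))) : GL (Fin m ⊕ Fin m) F) : Matrix (Fin m ⊕ Fin m) (Fin m ⊕ Fin m) F) - 1).rank = m ∧ ∀ v : Fin m ⊕ Fin m → F, Cfsg.quadFormPlus m F (v + Matrix.mulVec (((t : ↥(Cfsg.isometryGroup F (Cfsg.quadFormPlus m F))) : GL (Fin m ⊕ Fin m) F) : Matrix (Fin m ⊕ Fin m) (Fin m ⊕ Fin m) F) v) = 0) →
      ((∃ g ∈ Cfsg.Omega F (Cfsg.quadFormPlus m F), g * t * g⁻¹ = s) ↔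
        Even (Module.finrank F ↥(LinearMap.range (Matrix.toLin' ((((t : ↥(Cfsg.isometryGroup F (Cfsg.quadFormPlus m F))) : GL (Fin m ⊕ Fin m) F) : Matrix (Fin m ⊕ Fin m) (Fin m ⊕ Fin m) F) - 1)) ⊓ LinearMap.range (Matrix.toLin' ((((s : ↥(Cfsg.isometryGroup F (Cfsg.quadFormPlus m F))) : GL (Fin m ⊕ Fin m) F) : Matrix (Fin m ⊕ Fin m) (Fin m ⊕ Fin m) F) - 1)))))) := by
  have hc : (2 : F) = 0 := CharTwo.two_eq_zero
  have hQ := nd_plusQF m F
  have hR : ReflGen (plusQF m F) := reflGen_plus (Or.inr (by omega))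
  let e := isoEquiv (plusQF m F) _ (plusQF_apply m F)
  have ht' : e t * e t = 1 := by rw [← map_mul, (orderOf_eq_two_iff.1 ht).1, map_one]
  have hneg : ∀ v : Fin m ⊕ Fin m → F, -v = v := fun v => funext fun i => CharTwo.neg_eq _
  have hcond : ((((t : GL (Fin m ⊕ Fin m) F) : Matrix (Fin m ⊕ Fin m) (Fin m ⊕ Fin m) F) - 1).rank = m ∧
      ∀ v : Fin m ⊕ Fin m → F, quadFormPlus m F (v + Matrix.mulVec ((t : GL (Fin m ⊕ Fin m) F) :
        Matrix (Fin m ⊕ Fin m) (Fin m ⊕ Fin m) F) v) = 0) ↔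
      (2 * finrank F (mov (e t)) = finrank F (Fin m ⊕ Fin m → F) ∧ TS (plusQF m F) (mov (e t))) := by
    rw [rank_sub_one_eq _ _ (plusQF_apply m F), finrank_plus_space]
    refine and_congr ⟨fun h => congrArg _ h, fun h => Nat.eq_of_mul_eq_mul_left two_pos h⟩
      ⟨?_, fun h v => ?_⟩
    · rintro h _ ⟨v, rfl⟩
      rw [movMap_apply, sub_eq_add_neg, hneg, plusQF_apply]
      exact h v
    · have := h _ (sub_mem_mov (e t) v)
      rwa [sub_eq_add_neg, hneg, plusQF_apply] at this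
  have hex : (∃ g ∈ Omega F (quadFormPlus m F), g * t * g⁻¹ = s) ↔
      ∃ g ∈ commutator (OG (plusQF m F)), g * e t * g⁻¹ = e s := by
    constructor
    · rintro ⟨g, hg, h⟩
      exact ⟨e g, (mem_Omega_iff _ _ _ g).1 hg, by rw [← h]; simp⟩
    · rintro ⟨g, hg, h⟩
      obtain ⟨g, rfl⟩ := e.surjective g
      exact ⟨g, (mem_Omega_iff _ _ _ g).2 hg, e.injective (by simpa using h)⟩
  have hr : ∀ x : isometryGroup F (quadFormPlus m F), LinearMap.range (Matrix.toLin'
      (((x : GL (Fin m ⊕ Fin m) F) : Matrix (Fin m ⊕ Fin m) (Fin m ⊕ Fin m) F) - 1)) =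
      mov (e x) := by
    intro x
    unfold mov
    congr 1
    refine LinearMap.ext fun v => ?_
    rw [movMap_apply, ← hneg (v - _), Matrix.toLin'_apply, Matrix.sub_mulVec, Matrix.one_mulVec,
      neg_sub]
    rfl
  rw [hcond, hex, hr, hr]
  exact ⟨fun h => exists_commutator_conj hQ hR hc ((isConj_equiv_iff e).2 hconj)
    (hQ.exists_fixed_nonsingular hc ht' h),
    fun h => exists_commutator_conj_iff hQ hR hc ((isConj_equiv_iff e).2 hconj) h.1 h.2⟩

end Cfsg.Agent.S2172
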