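import Cfsg.Statements.S2173
import Cfsg.Agent.Class.Orth.Invol2

set_option autoImplicit false
open Cfsg

namespace Cfsg.Agent.S2173

open Cfsg.Agent.Class Cfsg.Agent.Class.WallF Cfsg.Agent.Class.Orth QuadraticMap Module

/-- For the quadratic form Σ x_i y_i + (z₁² + c z₁ z₂ + d z₂²) in dimension 2m with anisotropic binary part over a finite field F of characteristic two, m ≥ 4 (minus type): two involutions of the commutator subgroup Ω that are conjugate in the full isometry group O are conjugate by an element of Ω (no class of involutions of O inside Ω splits). -/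
theorem result {F : Type*} [Field F] [Fintype F] [CharP F 2] {m : ℕ} (hm : 4 ≤ m) (c d : F) (hcd : ∀ z₁ z₂ : F, z₁ ^ 2 + c * z₁ * z₂ + d * z₂ ^ 2 = 0 → z₁ = 0 ∧ z₂ = 0) (t s : ↥(Cfsg.isometryGroup F (Cfsg.quadFormMinus (m - 1) F c d))) (ht : orderOf t = 2) (hs : orderOf s = 2) (htO : t ∈ Cfsg.Omega F (Cfsg.quadFormMinus (m - 1) F c d)) (hsO : s ∈ Cfsg.Omega F (Cfsg.quadFormMinus (m - 1) F c d)) (hconj : IsConj t s) :
    ∃ g ∈ Cfsg.Omega F (Cfsg.quadFormMinus (m - 1) F c d), g * t * g⁻¹ = s := by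
  have hc : (2 : F) = 0 := CharTwo.two_eq_zero
  have hQ := nd_minusQF (m - 1) hcd
  have hp := not_isPlus_minusQF (m - 1) hcd
  let e := isoEquiv (minusQF (m - 1) F c d) _ (minusQF_apply (m - 1) F c d)
  have ht' : e t * e t = 1 := by rw [← map_mul, (orderOf_eq_two_iff.1 ht).1, map_one]
  obtain ⟨g, hg, h⟩ := exists_commutator_conj hQ (hQ.reflGen_of_not_isPlus hp) hc
    ((isConj_equiv_iff e).2 hconj) (hQ.exists_fixed_nonsingular hc ht'
      fun hh => (hh.2.lt_of_not_isPlus hQ hp).ne hh.1)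
  obtain ⟨g, rfl⟩ := e.surjective g
  exact ⟨g, (mem_Omega_iff _ _ _ g).2 hg, e.injective (by simpa using h)⟩

end Cfsg.Agent.S2173
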