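import Cfsg.Statements.S2175
import Cfsg.Agent.Chev.StFix

set_option autoImplicit false
open Cfsg

namespace Cfsg.Agent.S2175

open Cfsg.Lie Cfsg.Agent.Chev

theorem treeOK : TreeOK chevE6
    [[], [71], [71, 60], [71, 60, 44]]
    [[71, 60, 44, 39]] := by
  decide +kernel

theorem red0 : RedOK chevE6 [71, 60, 44, 39] [44, 60, 71]
    [(1, 8), (2, 1), (2, 0), (2, 3), (2, 2), (2, 4), (2, 3), (2, 5), (2, 4), (2, 3), (1, 20),
    (2, 2), (2, 4), (2, 3), (2, 2), (2, 1), (2, 0), (2, 5), (2, 6), (2, 5), (2, 4), (3, 3), (2,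
    5), (2, 4), (2, 3), (2, 6), (3, 5), (3, 5), (1, 47), (2, 1), (2, 3), (2, 4), (2, 5), (2, 4),
    (2, 3), (3, 2), (2, 4), (2, 3), (3, 2), (1, 25), (3, 3)]
    [(8, 2, [(71, -1), (60, -1), (44, 1), (39, 1)]), (20, 2, [(71, -1), (60, 1), (44, -1), (39,
    1)]), (25, 2, [(71, -1), (60, 1), (44, 1), (39, 1)]), (47, 2, [(71, 1), (60, -1), (44, -1),
    (39, 1)])] := by
  decide +kernel

theorem classOK : ClassOK chevE6 [[71], [68, 66], [55, 65, 67]]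
    [([], []), ([71], []), ([71, 60], [(0, 1), (0, 3), (0, 4)]), ([71, 60, 44], [(0, 0), (0, 1),
    (0, 3), (0, 2), (0, 0)])]
    [([71, 60, 44, 39], [44, 60, 71], [(1, 8), (2, 1), (2, 0), (2, 3), (2, 2), (2, 4), (2, 3),
    (2, 5), (2, 4), (2, 3), (1, 20), (2, 2), (2, 4), (2, 3), (2, 2), (2, 1), (2, 0), (2, 5), (2,
    6), (2, 5), (2, 4), (3, 3), (2, 5), (2, 4), (2, 3), (2, 6), (3, 5), (3, 5), (1, 47), (2, 1),
    (2, 3), (2, 4), (2, 5), (2, 4), (2, 3), (3, 2), (2, 4), (2, 3), (3, 2), (1, 25), (3, 3)],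
    [(8, 2, [(71, -1), (60, -1), (44, 1), (39, 1)]), (20, 2, [(71, -1), (60, 1), (44, -1), (39,
    1)]), (25, 2, [(71, -1), (60, 1), (44, 1), (39, 1)]), (47, 2, [(71, 1), (60, -1), (44, -1),
    (39, 1)])])] := by
  refine ⟨treeOK, ?_, by decide +kernel⟩
  simp only [List.mem_cons, List.not_mem_nil, or_false, forall_eq_or_imp, forall_eq]
  exact red0

theorem repsOK : ∀ R ∈ [[71], [68, 66], [55, 65, 67]],
    R ≠ [] ∧ R.Nodup ∧ (∀ r ∈ R, chevE6.nroots ≤ 2 * r ∧ r < chevE6.nroots) ∧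
      ∃ ms, (∀ m ∈ ms, m.1 ≠ 0 ∧ m.1 ≠ 1) ∧ moves chevE6 ms (R ++ R) = some [] := by
  simp only [List.mem_cons, List.not_mem_nil, or_false, forall_eq_or_imp, forall_eq]
  refine ⟨⟨by simp, by decide, by decide +kernel, [(3, 0)], by decide, by decide +kernel⟩,
    ⟨by simp, by decide, by decide +kernel, [(2, 0), (3, 1), (3, 0)], by decide, by decide +kernel⟩,
    ⟨by simp, by decide, by decide +kernel, [(2, 2), (2, 1), (3, 0), (2, 1), (3, 0), (3, 0)], by decide, by decide +kernel⟩⟩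

theorem fixOK : ∀ q ∈ [([71], 30), ([68, 66], 12), ([55, 65, 67], 2)],
    Orth chevE6 q.1 ∧ fixN chevE6 q.1 = q.2 := by decide +kernel


/-- Conjugacy classes of involutions in the Chevalley group of type E₆ over a finite field F of characteristic two (the matrix group generated by the root elements x_r(t)). In this problem's root numbering for type E₆ (the Chevalley data module; fundamental roots numbered so that p₁–p₃–p₄–p₅–p₆ is the long chain of the diagram and p₂ is joined to p₄; roots indexed by their coefficient vectors in increasing order) let r = 71 be the highest root (1,2,2,3,2,1), α = 68 = (1,1,2,2,1,1), β = 66 = (1,1,1,2,2,1), γ = 55 = (0,1,1,2,2,1), δ = 65 = (1,1,1,2,1,1), ε = 67 = (1,1,2,2,1,0) (α ⊥ β and γ, δ, ε pairwise orthogonal); consider x_r(1), x_α(1)x_β(1) and x_γ(1)x_δ(1)x_ε(1). Then: each invertible matrix equal to one of these three products lies in the group and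 has order 2; every element of order 2 of the group is conjugate in the group to one of them; and no two of them are conjugate in the group (so, the three matrices being distinct, the group has exactly three conjugacy classes of involutions). -/
theorem result {F : Type*} [Field F] [Fintype F] [CharP F 2] :
    (∀ y : GL Cfsg.Lie.chevE6.Idx F, ((y : GL Cfsg.Lie.chevE6.Idx F) : Matrix Cfsg.Lie.chevE6.Idx Cfsg.Lie.chevE6.Idx F) ∈ [Cfsg.Lie.chevE6.x F 71 1, Cfsg.Lie.chevE6.x F 68 1 * Cfsg.Lie.chevE6.x F 66 1, Cfsg.Lie.chevE6.x F 55 1 * Cfsg.Lie.chevE6.x F 65 1 * Cfsg.Lie.chevE6.x F 67 1] → y ∈ Cfsg.Lie.chevE6.group F ∧ orderOf y = 2) ∧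
    (∀ g ∈ Cfsg.Lie.chevE6.group F, orderOf g = 2 → ∃ y ∈ Cfsg.Lie.chevE6.group F, ((y : GL Cfsg.Lie.chevE6.Idx F) : Matrix Cfsg.Lie.chevE6.Idx Cfsg.Lie.chevE6.Idx F) ∈ [Cfsg.Lie.chevE6.x F 71 1, Cfsg.Lie.chevE6.x F 68 1 * Cfsg.Lie.chevE6.x F 66 1, Cfsg.Lie.chevE6.x F 55 1 * Cfsg.Lie.chevE6.x F 65 1 * Cfsg.Lie.chevE6.x F 67 1] ∧ ∃ h ∈ Cfsg.Lie.chevE6.group F, h * g * h⁻¹ = y) ∧
    (∀ y₁ ∈ Cfsg.Lie.chevE6.group F, ∀ y₂ ∈ Cfsg.Lie.chevE6.group F, ((y₁ : GL Cfsg.Lie.chevE6.Idx F) : Matrix Cfsg.Lie.chevE6.Idx Cfsg.Lie.chevE6.Idx F) ∈ [Cfsg.Lie.chevE6.x F 71 1, Cfsg.Lie.chevE6.x F 68 1 * Cfsg.Lie.chevE6.x F 66 1, Cfsg.Lie.chevE6.x F 55 1 * Cfsg.Lie.chevE6.x F 65 1 * Cfsg.Lie.chevE6.x F 67 1] → ((y₂ : GL Cfsg.Lie.chevE6.Idx F) : Matrix Cfsg.Lie.chevE6.Idx Cfsg.Lie.chevE6.Idx F) ∈ [Cfsg.Lie.chevE6.x F 71 1, Cfsg.Lie.chevE6.x F 68 1 * Cfsg.Lie.chevE6.x F 66 1, Cfsg.Lie.chevE6.x F 55 1 * Cfsg.Lie.chevE6.x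 F 65 1 * Cfsg.Lie.chevE6.x F 67 1] →
      (∃ h ∈ Cfsg.Lie.chevE6.group F, h * y₁ * h⁻¹ = y₂) → ((y₁ : GL Cfsg.Lie.chevE6.Idx F) : Matrix Cfsg.Lie.chevE6.Idx Cfsg.Lie.chevE6.Idx F) = ((y₂ : GL Cfsg.Lie.chevE6.Idx F) : Matrix Cfsg.Lie.chevE6.Idx Cfsg.Lie.chevE6.Idx F)) := by
  refine classes_statement rootTableE6 classOK (by simp [Matrix.mul_assoc]) repsOK ?_
  intro R hR R' hR' g _ e
  have h := fixOK
  have hc := isConj_iff.mpr ⟨g, e⟩
  simp only [List.mem_cons, List.not_mem_nil, or_false, forall_eq_or_imp, forall_eq] at h hR hR'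
  obtain ⟨⟨o0, f0⟩, ⟨o1, f1⟩, ⟨o2, f2⟩⟩ := h
  rcases hR with rfl | rfl | rfl <;> rcases hR' with rfl | rfl | rfl <;>
    first
    | rfl
    | (have h1 := fixN_le_of_isConj' rootTableE6 ‹_› ‹_› hc
       have h2 := fixN_le_of_isConj' rootTableE6 ‹_› ‹_› hc.symm
       simp only [f0, f1, f2, List.length_cons, List.length_nil] at h1 h2
       omega)

end Cfsg.Agent.S2175
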