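import Cfsg.Statements.S2177
import Cfsg.Agent.Chev.StFix

set_option autoImplicit false
open Cfsg

namespace Cfsg.Agent.S2177

open Cfsg.Lie Cfsg.Agent.Chev

theorem treeOK : TreeOK chevG2
    [[], [9], [11]]
    [[9, 6], [11, 7]] := by
  decide +kernel

theorem red0 : RedOK chevG2 [9, 6] [9]
    [(1, 4), (2, 2), (3, 1), (1, 8), (3, 1)]
    [(4, 2, [(9, -1), (6, 3)]), (8, 2, [(9, 1), (6, 3)])] := by
  decide +kernel

theorem red1 : RedOK chevG2 [11, 7] [7]
    [(1, 8), (2, 0), (3, 1), (1, 9), (3, 1)]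
    [(8, 2, [(11, 3), (7, -1)]), (9, 2, [(11, 3), (7, 1)])] := by
  decide +kernel

theorem classOK : ClassOK chevG2 [[11], [9]]
    [([], []), ([9], []), ([11], [])]
    [([9, 6], [9], [(1, 4), (2, 2), (3, 1), (1, 8), (3, 1)], [(4, 2, [(9, -1), (6, 3)]), (8, 2,
    [(9, 1), (6, 3)])]), ([11, 7], [7], [(1, 8), (2, 0), (3, 1), (1, 9), (3, 1)], [(8, 2, [(11,
    3), (7, -1)]), (9, 2, [(11, 3), (7, 1)])])] := by
  refine ⟨treeOK, ?_, by decide +kernel⟩
  simp only [List.mem_cons, List.not_mem_nil, or_false, forall_eq_or_imp, forall_eq]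
  exact ⟨red0, red1⟩

theorem repsOK : ∀ R ∈ [[11], [9]],
    R ≠ [] ∧ R.Nodup ∧ (∀ r ∈ R, chevG2.nroots ≤ 2 * r ∧ r < chevG2.nroots) ∧
      ∃ ms, (∀ m ∈ ms, m.1 ≠ 0 ∧ m.1 ≠ 1) ∧ moves chevG2 ms (R ++ R) = some [] := by
  simp only [List.mem_cons, List.not_mem_nil, or_false, forall_eq_or_imp, forall_eq]
  refine ⟨⟨by simp, by decide, by decide +kernel, [(3, 0)], by decide, by decide +kernel⟩,
    ⟨by simp, by decide, by decide +kernel, [(3, 0)], by decide, by decide +kernel⟩⟩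

theorem rig0 : RigidData chevG2 2 [(11, 1)] [] 2 := by decide +kernel

theorem rig1 : RigidData chevG2 2 [(9, 1)] [10, 11] 2 := by decide +kernel


/-- Conjugacy classes of involutions in the Chevalley group of type G₂ over a finite field F of characteristic two with at least four elements (the matrix group generated by the root elements x_r(t)). In this problem's root numbering for type G₂ (the Chevalley data module; p₁ = a short, p₂ = b long; roots indexed by coefficient vectors in increasing order) let 11 be the highest root 3a + 2b (long) and 9 the short root 2a + b; consider x_{3a+2b}(1) and x_{2a+b}(1). Then: each invertible matrix equal to one of these two products lies in the group and has order 2; every element of order 2 of the group is conjugate in the group to one of them; and no two of them are conjugate in the group (so, the two matrices being distinct, the group has exactly two conjugacy classes of involutions). -/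
theorem result {F : Type*} [Field F] [Fintype F] [CharP F 2] (hF : 4 ≤ Fintype.card F) :
    (∀ y : GL Cfsg.Lie.chevG2.Idx F, ((y : GL Cfsg.Lie.chevG2.Idx F) : Matrix Cfsg.Lie.chevG2.Idx Cfsg.Lie.chevG2.Idx F) ∈ [Cfsg.Lie.chevG2.x F 11 1, Cfsg.Lie.chevG2.x F 9 1] → y ∈ Cfsg.Lie.chevG2.group F ∧ orderOf y = 2) ∧
    (∀ g ∈ Cfsg.Lie.chevG2.group F, orderOf g = 2 → ∃ y ∈ Cfsg.Lie.chevG2.group F, ((y : GL Cfsg.Lie.chevG2.Idx F) : Matrix Cfsg.Lie.chevG2.Idx Cfsg.Lie.chevG2.Idx F) ∈ [Cfsg.Lie.chevG2.x F 11 1, Cfsg.Lie.chevG2.x F 9 1] ∧ ∃ h ∈ Cfsg.Lie.chevG2.group F, h * g * h⁻¹ = y) ∧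
    (∀ y₁ ∈ Cfsg.Lie.chevG2.group F, ∀ y₂ ∈ Cfsg.Lie.chevG2.group F, ((y₁ : GL Cfsg.Lie.chevG2.Idx F) : Matrix Cfsg.Lie.chevG2.Idx Cfsg.Lie.chevG2.Idx F) ∈ [Cfsg.Lie.chevG2.x F 11 1, Cfsg.Lie.chevG2.x F 9 1] → ((y₂ : GL Cfsg.Lie.chevG2.Idx F) : Matrix Cfsg.Lie.chevG2.Idx Cfsg.Lie.chevG2.Idx F) ∈ [Cfsg.Lie.chevG2.x F 11 1, Cfsg.Lie.chevG2.x F 9 1] →
      (∃ h ∈ Cfsg.Lie.chevG2.group F, h * y₁ * h⁻¹ = y₂) → ((y₁ : GL Cfsg.Lie.chevG2.Idx F) : Matrix Cfsg.Lie.chevG2.Idx Cfsg.Lie.chevG2.Idx F) = ((y₂ : GL Cfsg.Lie.chevG2.Idx F) : Matrix Cfsg.Lie.chevG2.Idx Cfsg.Lie.chevG2.Idx F)) := by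
  refine classes_statement rootTableG2 classOK (by simp [Matrix.mul_assoc]) repsOK ?_
  intro R hR R' hR' g hg e
  have h := isSt_xG (D := chevG2) (F := F)
  have hn := isND_xG (F := F) rootTableG2
  rw [group_eq] at hg
  have r0 := rig0.rigid h.toIsSt0 rootTableG2
  have r1 := rig1.rigid h.toIsSt0 rootTableG2
  simp only [List.map_cons, List.map_nil] at r0 r1
  simp only [List.mem_cons, List.not_mem_nil, or_false] at hR hR'
  have key : ∀ w : rootTableG2.W, rootTableG2.act w 9 ≠ 11 := fun w e => by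
    have := rootTableG2.isLong_act w (r := 9) (by decide)
    rw [e] at this
    exact absurd this (by decide +kernel)
  rcases hR with rfl | rfl <;> rcases hR' with rfl | rfl
  · rfl
  · obtain ⟨-, -, -, -, w, -, -, -, h1⟩ := hn.exists_act_of_conj h r0 r1 hg e
    exact absurd (List.mem_singleton.mp (h1 9 (List.mem_singleton_self _))) (key _)
  · obtain ⟨-, -, -, -, w, -, -, h1, -⟩ := hn.exists_act_of_conj h r1 r0 hg e
    exact absurd (List.mem_singleton.mp (h1 9 (List.mem_singleton_self _))) (key _)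
  · rfl

end Cfsg.Agent.S2177
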