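import Cfsg.Statements.S2180
import Cfsg.Agent.Chev.StCent

set_option autoImplicit false
open Cfsg

namespace Cfsg.Agent.S2180

open Cfsg.Lie Cfsg.Agent.Chev

theorem centU {F G : Type*} [Field F] [CharP F 2] [Group G] {x : ℕ → F → G}
    {T : RootTable chevG2} (hn : IsND x T) (h : IsSt0 chevG2 x) (t : ℕ → F)
    (e : (oprod x [7, 8] t)⁻¹ * x 9 1 * oprod x [7, 8] t = x 9 1) : ∀ r ∈ [7, 8], t r = 0 := by
  have hN : T.N = 6 := T.N_eq
  have c1 : chevG2.commTerms 7 9 = [(10, 3, 1, 1)] := by decide +kernel
  have c2 : chevG2.commTerms 8 9 = [(11, 3, 1, 1)] := by decide +kernel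
  have c3 : chevG2.commTerms 8 10 = [] := by decide +kernel
  have h3 : ((3 : ℤ) : F) = -1 := by
    have : (2 : F) = 0 := CharP.cast_eq_zero F 2
    push_cast
    linear_combination 2 * this
  have e1 := h.conj_x (r := 7) (s := 9) (by decide) (by decide) (by decide) (by decide) (t 7) 1
  have e2 := h.conj_x (r := 8) (s := 9) (by decide) (by decide) (by decide) (by decide) (t 8) 1
  have e3 := h.conj_x (r := 8) (s := 10) (by decide) (by decide) (by decide) (by decide) (t 8) (t 7)
  simp only [ChevalleyDatum.commWord, c1, c2, c3, List.map_cons, List.map_nil, word_cons,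
    word_nil, mul_one, h3, pow_one, neg_mul_neg, one_mul] at e1 e2 e3
  have e4 := hn.word_inj h (w := [(9, 1), (11, t 8), (10, t 7)]) (w' := [(9, 1), (11, 0), (10, 0)])
    rfl (by simp) (by simp [hN]) (by
      simp only [word_cons, word_nil, mul_one, h.x_zero (r := 11) (by decide),
        h.x_zero (r := 10) (by decide), oprod_cons, oprod_nil] at e ⊢
      rwa [conj_by_mul, e1, conj_mul_mul, e2, e3, mul_assoc] at e)
  simpa [and_comm] using e4

/-- Centralizers of involutions in the Chevalley group G of type G₂ over a finite field F of characteristic two with at least four elements (this problem's root numbering for type G₂, from the Chevalley data module: a = p₁ short with index 7, b = p₂ long with index 6, −a = 4, −b = 5, 2a + b = 9, 3a + b = 10, 3a + 2b = 11; U generated by the positive root subgroups). For an element z of G with matrix x_{3a+2b}(1): the centralizer of z in G is generated by U and X_{−a}. For an element t of G with matrix x_{2a+b}(1): the centralizer of t in G is generated by X_{2a+b}, X_{3a+b},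 X_{3a+2b}, X_b and X_{−b}. -/
theorem result {F : Type*} [Field F] [Fintype F] [CharP F 2] (hF : 4 ≤ Fintype.card F) (z t : GL Cfsg.Lie.chevG2.Idx F) (hz : (z : Matrix Cfsg.Lie.chevG2.Idx Cfsg.Lie.chevG2.Idx F) = Cfsg.Lie.chevG2.x F 11 1) (ht : (t : Matrix Cfsg.Lie.chevG2.Idx Cfsg.Lie.chevG2.Idx F) = Cfsg.Lie.chevG2.x F 9 1) :
    Cfsg.Lie.chevG2.group F ⊓ Subgroup.centralizer {z} = Cfsg.Lie.chevG2.posUnipotent F ⊔ Cfsg.Lie.chevG2.rootSubgroup F 4 ∧
    Cfsg.Lie.chevG2.group F ⊓ Subgroup.centralizer {t} = Cfsg.Lie.chevG2.rootSubgroup F 9 ⊔ Cfsg.Lie.chevG2.rootSubgroup F 10 ⊔ Cfsg.Lie.chevG2.rootSubgroup F 11 ⊔ Cfsg.Lie.chevG2.rootSubgroup F 6 ⊔ Cfsg.Lie.chevG2.rootSubgroup F 5 := by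
  have h1 := cent_eq_of_central (F := F) rootTableG2 (p := 2) (R := [(11, 1)]) (m := 2)
    (L := [4]) (a := [[], [(11, 1)]]) (by decide +kernel) (by decide +kernel)
    (by decide +kernel) (by simp)
  have hc : CentData chevG2 2 [(9, 1)] (fun r => decide (r ∈ [9, 10, 11, 6, 5])) [[(9, 1)]] := by
    decide +kernel
  have h2 := cent_eq (F := F) rootTableG2 (p := 2) (R := [(9, 1)]) (m := 2) (l := [10, 11])
    (by decide +kernel) hc ?_ (mem_of_centU rootTableG2 hc (by decide) (L := [6, 9, 10, 11])
      (E := [7, 8]) (by decide) (by decide) (by decide) (by decide) fun t e =>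
        centU (isND_xG rootTableG2) isSt_xG.toIsSt0 t (by simpa using e))
  · simp only [List.map_cons, List.map_nil, oprod_cons, oprod_nil, mul_one, Pi.one_apply] at h1 h2
    rw [eq_xG_iff.mp ht, eq_xG_iff.mp hz, h1, h2]
    simp only [posUnipotent_eq, rootSubgroup_eq, ← XS_union]
    refine ⟨by simp, ?_⟩
    congr 1
    ext r
    simp only [show chevG2.nroots = 12 from rfl, List.mem_cons, List.not_mem_nil, or_false,
      decide_eq_true_eq, Set.mem_ofPred_eq, Set.mem_union, Set.mem_singleton_iff]
    omega
  · intro w hw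
    have h3 := rootTableG2.isLong_act w (r := 9) (by decide)
    simp only [List.map_cons, List.map_nil, List.mem_cons, List.not_mem_nil, or_false, forall_eq,
      List.cons_append, List.nil_append] at hw ⊢
    rcases hw with hw | hw | hw
    · exact hw
    · rw [hw] at h3; exact absurd h3 (by decide +kernel)
    · rw [hw] at h3; exact absurd h3 (by decide +kernel)

end Cfsg.Agent.S2180
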