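import Mathlib
import Cfsg.Statements.S2183
import Cfsg.Agent.Chev.TwistInv3
import Cfsg.Agent.Chev.TwistD4F
-- import your own Cfsg.Agent.* helpers here

set_option autoImplicit false
open Cfsg

namespace Cfsg.Agent.S2183

open Cfsg.Lie Cfsg.Agent.Chev

/-- The orthogonal roots attached to a set of orbits of nodes. -/
def tb : Bool → Bool → List ℕ
  | false, false => [23, 18, 13, 12]
  | false, true => [21, 20, 17]
  | true, false => [23]
  | true, true => []

theorem tb_ok : ∀ a b : Bool, MaxCheck rootTableD4 (fun j => ![a, b] (oD4 j)) (tb a b) := by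
  decide +kernel

theorem key {K : Type*} [Field K] [Fintype K] [CharP K 2] (S : ChevSys rootTableD4 (xC chevD4 K)) (φ : K →+* K)
    (hφ : ∀ t, φ (φ (φ t)) = t) (t : chevD4.group K) (ht : t ∈ (D4.tw S φ hφ).data.T)
    (h2 : orderOf t = 2) : ∃ g ∈ (D4.tw S φ hφ).data.T, g * t * g⁻¹ ∈
      [oprod (xC chevD4 K) [23] 1, oprod (xC chevD4 K) [21, 20, 17] 1] := by
  obtain ⟨I, h3, -⟩ := (D4.tw S φ hφ).exists_conj_nprod (fun I => tb (I 0) (I 1)) (fun I => by
    convert tb_ok (I 0) (I 1) using 2 with j
    have : ∀ a, I a = ![I 0, I 1] a := fun a => by fin_cases a <;> rfl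
    exact this _) ht (by rw [← sq, ← h2, pow_orderOf_eq_one])
  have m := fun (L : List ℕ) (h : eqW chevD4 L (L.map rhoD4) = true) =>
    (D4.tw S φ hφ).mem_of_check (D4.T_eq_Fix S φ hφ) h
  generalize I 0 = a at *
  generalize I 1 = b at *
  have k := fun g L hg hL => conj_of_nprod (g := g) (L := L) h3 (m g hg) (m L hL)
  simp only [List.mem_cons, List.not_mem_nil, or_false]
  cases a <;> cases b
  · exact (k [1, 12, 18, 13, 14, 0] [21, 20, 17] (by decide +kernel) (by decide +kernel)
      (by decide +kernel)).imp fun _ h => ⟨h.1, .inr h.2⟩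
  · exact (k [2, 6, 3] [21, 20, 17] (by decide +kernel) (by decide +kernel)
      (by decide +kernel)).imp fun _ h => ⟨h.1, .inr h.2⟩
  · exact (k [0] [23] (by decide +kernel) (by decide +kernel) (by decide +kernel)).imp fun _ h => ⟨h.1, .inl h.2⟩
  · obtain ⟨g, -, e⟩ := h3 (one_mem _)
    rw [show t = 1 from conj_eq_one_iff.1 e, orderOf_one] at h2
    omega


/-- The twisted group ³D₄(q), q even, realised inside the Chevalley group of type D₄ over the field K with q³ elements, has exactly two conjugacy classes of elements of order 2. -/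
theorem result {K : Type*} [Field K] [Fintype K] [CharP K 2] (q : ℕ) (hK : Fintype.card K = q ^ 3) :
    (ConjClasses.mk '' {g : ↥(Cfsg.Lie.twistedD4 K q) | orderOf g = 2}).ncard = 2 := by
  have hq := isPrimePow_of_card three_ne_zero hK
  obtain ⟨S, φ, hφ, h, hT⟩ := D4.exists_data hq hK
  have m := fun (L : List ℕ) (h : eqW chevD4 L (L.map rhoD4) = true) =>
    (D4.tw S φ hφ).mem_of_check (D4.T_eq_Fix S φ hφ) h
  refine ncard_classes (Subgroup.inclusion D4.le_group) (Subgroup.inclusion_injective _)
    ((D4.tw S φ hφ).data.range_inclusion _ hT) ?_ (key S φ hφ) ?_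
  · simp only [List.mem_cons, List.not_mem_nil, or_false, forall_eq_or_imp, forall_eq]
    exact ⟨⟨m _ (by decide +kernel), orderOf_oprod_xC rootTableD4 (by decide +kernel)⟩,
      m _ (by decide +kernel), orderOf_oprod_xC rootTableD4 (by decide +kernel)⟩
  · simp only [List.pairwise_cons, List.mem_cons, List.not_mem_nil, or_false, forall_eq,
      List.Pairwise.nil, and_true, IsEmpty.forall_iff, implies_true]
    exact not_isConj_of_fixN rootTableD4 (by decide +kernel)

end Cfsg.Agent.S2183
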