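import Mathlib
import Cfsg.Statements.S2184
import Cfsg.Agent.Chev.Tits1
-- import your own Cfsg.Agent.* helpers here

set_option autoImplicit false
open Cfsg

namespace Cfsg.Agent.S2184

open Cfsg.Agent.Chev

/-- The twisted group ²F₄(q), q = 2^(2m+1) with m ≥ 0 (realised inside the Chevalley group of type F₄ over the field K with q elements, θ the 2^m-th power map), has exactly two conjugacy classes of elements of order 2; and so does the Tits group, the commutator subgroup of ²F₄(2). -/
theorem result {K : Type*} [Field K] [Fintype K] (m : ℕ) (hK : Fintype.card K = 2 ^ (2 * m + 1)) :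
    (ConjClasses.mk '' {g : ↥(Cfsg.Lie.twistedF4 K (2 ^ m)) | orderOf g = 2}).ncard = 2 ∧ (ConjClasses.mk '' {g : Cfsg.Lie.TitsGroup | orderOf g = 2}).ncard = 2 := by
  constructor
  · obtain ⟨_, S, θ, hθ, -, hT⟩ := F4.exists_data hK
    refine ncard_classes (Subgroup.inclusion F4.le_group) (Subgroup.inclusion_injective _)
      ((F4.tw S θ hθ).data.range_inclusion _ hT) ?_ (F4.exists_conj S θ hθ) (List.pairwise_pair.2 F4.not_isConj)
    simp only [List.mem_cons, List.not_mem_nil, or_false, forall_eq_or_imp, forall_eq]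
    exact ⟨⟨F4.z_mem S θ hθ, F4.orderOf_z⟩, F4.v_mem S θ hθ, F4.orderOf_v⟩
  · refine ncard_classes (commutator Tits.G).subtype Subtype.val_injective (Subgroup.range_subtype _) ?_
      (fun _ _ => Tits.exists_conj') (List.pairwise_pair.2 Tits.not_isConj)
    simp only [List.mem_cons, List.not_mem_nil, or_false, forall_eq_or_imp, forall_eq]
    exact ⟨⟨Tits.z_mem, Tits.orderOf_z⟩, Tits.v_mem, Tits.orderOf_v⟩

end Cfsg.Agent.S2184
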