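import Cfsg.Statements.S2186
import Cfsg.Agent.Chev.StCent
import Cfsg.Agent.Chev.AutAbs

set_option autoImplicit false
open Cfsg

namespace Cfsg.Agent.S2186

open Cfsg.Lie Cfsg.Agent.Chev

theorem isPGroup_XS {F : Type*} [Field F] [Finite F] (p : ℕ) [Fact p.Prime] [CharP F p]
    {D : ChevalleyDatum} [Good D] {T : RootTable D} {S : Set ℕ} (hS : T.Nil S) :
    IsPGroup p (XS (xG D F) S) := by
  have := Fintype.ofFinite F
  obtain ⟨n, -, hn⟩ := FiniteField.card F p
  refine IsPGroup.of_card (n := n * S.ncard) ?_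
  rw [(isND_xG T).card_XS isSt_xG.toIsSt0 hS, Nat.card_eq_fintype_card, hn, pow_mul]

/-- Let G be the Chevalley group of type G₂ (over a field with at least four elements), D₄, E₆, E₇ or E₈ over a finite field F of characteristic two, and let X be the root subgroup of the highest root (the last root index) — a long root subgroup, of order |F|. For every g in G, the subgroup generated by X and its conjugate g X g⁻¹ is either a 2-group or is conjugate by an element of G to the subgroup generated by X and the root subgroup of the lowest root (index 0, the negative of the highest root), which is a copy of SL₂(F). -/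
theorem result {F : Type*} [Field F] [Fintype F] [CharP F 2] (D : Cfsg.Lie.ChevalleyDatum) (hD : D ∈ [Cfsg.Lie.chevG2, Cfsg.Lie.chevD4, Cfsg.Lie.chevE6, Cfsg.Lie.chevE7, Cfsg.Lie.chevE8]) (hF : D = Cfsg.Lie.chevG2 → 4 ≤ Fintype.card F) (g : GL D.Idx F) (hg : g ∈ D.group F) :
    IsPGroup 2 ↥(D.rootSubgroup F (D.nroots - 1) ⊔ (D.rootSubgroup F (D.nroots - 1)).map (MulAut.conj g).toMonoidHom) ∨
    ∃ h ∈ D.group F, (D.rootSubgroup F (D.nroots - 1) ⊔ (D.rootSubgroup F (D.nroots - 1)).map (MulAut.conj g).toMonoidHom).map (MulAut.conj h).toMonoidHom = D.rootSubgroup F (D.nroots - 1) ⊔ D.rootSubgroup F 0 := by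
  have hD' : D ∈ [chevG2, chevB2, chevD4, chevF4, chevE6, chevE7, chevE8] := by
    simp only [List.mem_cons, List.not_mem_nil, or_false] at hD ⊢
    tauto
  obtain ⟨G⟩ := good_of_mem hD'
  obtain ⟨T⟩ := exists_rootTable hD'
  have h := isSt_xG (D := D) (F := F)
  have hn := isND_xG (F := F) T
  have hN := T.nroots_eq
  have hN0 := T.N_pos
  set r := D.nroots - 1 with hr
  have hr1 : r < 2 * T.N := by omega
  have hnorm : Bs D (xG D F) ≤ Subgroup.normalizer (XS (xG D F) {r} : Set (GL D.Idx F)) := by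
    refine sup_le ?_ (h.Hs_le_normalizer_XS T (by simpa using hr1))
    rw [T.Us_eq]
    refine h.toIsSt0.XS_le_normalizer T (fun _ h => h.2) (by simpa using hr1) ?_ ?_
    · rintro s hs _ rfl
      have := T.neg_lt_N hs.1 hs.2
      omega
    · rintro s hs _ rfl k hk i j hi hj e
      exfalso
      have h1 := congrArg T.val e
      rw [map_add, map_nsmul, map_nsmul, nsmul_eq_mul, nsmul_eq_mul] at h1
      have h2 := T.val_pos hs.1 hs.2
      have h3 := T.val_pos (r := r) (by omega) hr1
      have h4 : T.val (T.vec k) ≤ T.val (T.vec r) := by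
        rcases (show k = r ∨ k < r by omega) with rfl | h5
        · exact le_rfl
        · exact (T.val_lt h5 hr1).le
      have h6 : (1 : ℤ) ≤ i := by exact_mod_cast hi
      have h7 : (1 : ℤ) ≤ j := by exact_mod_cast hj
      nlinarith
  have hmap : ∀ b ∈ Bs D (xG D F),
      (XS (xG D F) {r}).map (MulAut.conj b).toMonoidHom = XS (xG D F) {r} := fun b hb =>
    le_antisymm (by rintro _ ⟨a, ha, rfl⟩; exact conj_mem_of_mem_normalizer (hnorm hb) ha)
      fun a ha => ⟨_, conj_mem_of_mem_normalizer' (hnorm hb) ha, by simp [mul_assoc]⟩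
  have hcomp : ∀ a b : GL D.Idx F, (MulAut.conj a).toMonoidHom.comp (MulAut.conj b).toMonoidHom =
      (MulAut.conj (a * b)).toMonoidHom := fun a b => by ext1; simp [mul_assoc]
  rw [group_eq] at hg
  obtain ⟨b, hb, n, hN', b', hb', rfl⟩ := h.exists_BNB T hg
  obtain ⟨w, hw⟩ := h.exists_acts T hN'
  have key : (XS (xG D F) {r} ⊔ (XS (xG D F) {r}).map (MulAut.conj (b * n * b')).toMonoidHom).map
      (MulAut.conj b⁻¹).toMonoidHom = XS (xG D F) {r} ⊔ XS (xG D F) {T.act w r} := by
    rw [Subgroup.map_sup, hmap _ (inv_mem hb), Subgroup.map_map, hcomp, ← mul_assoc, ← mul_assoc,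
      inv_mul_cancel, one_mul, ← hcomp, ← Subgroup.map_map, hmap _ hb',
      hw.map_XS (by simpa using hr1), Set.image_singleton]
  rw [rootSubgroup_eq r, rootSubgroup_eq 0]
  by_cases hs : T.act w r = 0
  · exact Or.inr ⟨b⁻¹, by rw [group_eq]; exact T.Bs_le_Gs (inv_mem hb), by rw [key, hs]⟩
  · left
    have h1 := T.act_lt w hr1
    obtain ⟨f, h2, h3⟩ : ∃ f : (Fin D.rank → ℤ) →+ ℤ, 0 < f (T.vec r) ∧ 0 < f (T.vec (T.act w r)) := by
      by_cases h4 : T.act w r = r
      · exact ⟨T.val, T.val_pos (by omega) hr1, by rw [h4]; exact T.val_pos (by omega) hr1⟩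
      · refine T.exists_pos_pair hr1 h1 (A_mul_A (r := ⟨r, by omega⟩) (s := ⟨T.act w r, by omega⟩)
          (fun e => h4 (congrArg Fin.val e)) (fun e => hs ?_)).2
        have := congrArg Fin.val e
        rw [ng_val_eq] at this
        simp only at this
        omega
    have h5 := (isPGroup_XS (F := F) 2 (T.nil_gt f le_rfl)).to_le (H := XS (xG D F) {r} ⊔
      XS (xG D F) {T.act w r}) (sup_le (XS_mono (by simp [hr1, h2])) (XS_mono (by simp [h1, h3])))
    rw [← key] at h5
    exact h5.of_equiv (Subgroup.equivMapOfInjective _ _ (MulAut.conj b⁻¹).injective).symm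

end Cfsg.Agent.S2186
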