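import Cfsg.Statements.S2189
import Cfsg.Agent.Lang.EmbedChev
-- import your own Cfsg.Agent.* helpers here

set_option autoImplicit false
open Cfsg

namespace Cfsg.Agent.S2189

open Cfsg.Lie Cfsg.Agent.Chev Cfsg.Agent.Lang

/-- Finite subgroups of an adjoint Chevalley group over an algebraically closed field that contain the group over a finite subfield. Let k be an algebraically closed field of prime characteristic p, G the Chevalley group of type G₂, B₂, D₄, F₄, E₆, E₇ or E₈ over k (the matrix group generated by the root elements x_s(t), t ∈ k), and q = p^a with a ≥ 1. Let L be the subgroup generated by the root elements x_s(t) with t^q = t (the Chevalley group over the field of q elements inside G), and let M be a finite subgroup of G containing L. Then for some r ≥ 1, M contains every root element x_s(t) with t^(q^r) = t and every element of M is a matrix all of whose entries c satisfy c^(q^r) = c (so M lies between the Chevalley group over the field with q^r elements and the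 group of points of G fixed by the q^r-th power map). -/
theorem result {k : Type*} [Field k] [IsAlgClosed k] (p : ℕ) [Fact p.Prime] [CharP k p] (D : Cfsg.Lie.ChevalleyDatum) (hD : D ∈ [Cfsg.Lie.chevG2, Cfsg.Lie.chevB2, Cfsg.Lie.chevD4, Cfsg.Lie.chevF4, Cfsg.Lie.chevE6, Cfsg.Lie.chevE7, Cfsg.Lie.chevE8]) (a : ℕ) (ha : 1 ≤ a) (M : Subgroup (GL D.Idx k)) (hMfin : Finite ↥M) (hMG : M ≤ D.group k)
    (hLM : Subgroup.closure {g : GL D.Idx k | ∃ (s : ℕ) (t : k), t ^ (p ^ a) = t ∧ (g : Matrix D.Idx D.Idx k) = D.x k s t} ≤ M) :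
    ∃ r : ℕ, 1 ≤ r ∧ Subgroup.closure {g : GL D.Idx k | ∃ (s : ℕ) (t : k), t ^ ((p ^ a) ^ r) = t ∧ (g : Matrix D.Idx D.Idx k) = D.x k s t} ≤ M ∧
      ∀ g ∈ M, ∀ i j : D.Idx, ((g : Matrix D.Idx D.Idx k) i j) ^ ((p ^ a) ^ r) = (g : Matrix D.Idx D.Idx k) i j := by
  obtain ⟨_⟩ := good_of_mem hD
  have h0 : ∀ s t, t ^ p ^ a = t → xG D k s t ∈ M := fun s t ht =>
    hLM (Subgroup.subset_closure ⟨s, t, ht, rfl⟩)
  obtain ⟨K, h1, h2, h3, h4⟩ := exists_field_GL hD p M hMG fun s => h0 s 1 (one_pow _)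
  let _ := ZMod.algebra k p
  let f : GaloisField p a →ₐ[ZMod p] k := IsAlgClosed.lift
  have h5 : Nat.card f.toRingHom.fieldRange = p ^ a := by
    rw [← GaloisField.card p a (by omega)]
    exact Nat.card_congr f.toRingHom.rangeRestrictFieldEquiv.symm.toEquiv
  have : Finite f.toRingHom.fieldRange :=
    Nat.finite_of_card_ne_zero (h5 ▸ pow_ne_zero _ (Fact.out : p.Prime).ne_zero)
  obtain ⟨T⟩ := exists_rootTable hD
  obtain ⟨r, h6, h7⟩ := exists_card_eq_pow (A := f.toRingHom.fieldRange) (K := K) fun t ht =>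
    h3 _ (T.lt_iff.2 (top_lt T)) t (h0 _ t (h5 ▸ (mem_iff_pow_card _).1 ht))
  rw [h5] at h7
  refine ⟨r, h6, (Subgroup.closure_le _).2 ?_, fun g hg i j =>
    h7 ▸ (mem_iff_pow_card K).1 (h4 g hg i j)⟩
  rintro g ⟨s, t, ht, e⟩
  exact eq_xG_iff.1 e ▸ h2 s t ((mem_iff_pow_card K).2 (h7 ▸ ht))

end Cfsg.Agent.S2189
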