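import Cfsg.Statements.S2190
import Cfsg.Agent.Lang.EmbedChev
import Cfsg.Agent.Chev.TwistGen
-- import your own Cfsg.Agent.* helpers here

set_option autoImplicit false
open Cfsg

namespace Cfsg.Agent.S2190

open Cfsg.Lie Cfsg.Agent.Chev Cfsg.Agent.Lang

/-- Subfield subgroups of prime degree are maximal. Let K be a finite field with q^r elements, r a prime, q a power of the characteristic, and G the Chevalley group of type G₂, B₂, D₄, F₄, E₆, E₇ or E₈ over K (the matrix group generated by the root elements). Let M be the subgroup of G consisting of the matrices all of whose entries lie in the subfield with q elements (entries c with c^q = c). Then M is a proper subgroup of G and is maximal: every subgroup of G containing M is M or G. -/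
theorem result {K : Type*} [Field K] [Fintype K] (p : ℕ) [Fact p.Prime] [CharP K p] (D : Cfsg.Lie.ChevalleyDatum) (hD : D ∈ [Cfsg.Lie.chevG2, Cfsg.Lie.chevB2, Cfsg.Lie.chevD4, Cfsg.Lie.chevF4, Cfsg.Lie.chevE6, Cfsg.Lie.chevE7, Cfsg.Lie.chevE8]) (a r : ℕ) (ha : 1 ≤ a) (hr : r.Prime) (hK : Fintype.card K = (p ^ a) ^ r) (M : Subgroup (GL D.Idx K))
    (hM : ∀ g : GL D.Idx K, g ∈ M ↔ g ∈ D.group K ∧ ∀ i j : D.Idx, ((g : Matrix D.Idx D.Idx K) i j) ^ (p ^ a) = (g : Matrix D.Idx D.Idx K) i j) :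
    M ≠ D.group K ∧ ∀ H : Subgroup (GL D.Idx K), M ≤ H → H ≤ D.group K → H = M ∨ H = D.group K := by
  obtain ⟨_⟩ := good_of_mem hD
  obtain ⟨T⟩ := exists_rootTable hD
  have hq : 1 < p ^ a := Nat.one_lt_pow (by omega) (Fact.out : p.Prime).one_lt
  set A := (iterateFrobenius K p a).eqLocusField (RingHom.id K)
  have hA : Nat.card A = p ^ a := card_fixed hq.le hK
  have h0 : ∀ s t, xG D K s t ∈ M ↔ D.x K s (t ^ p ^ a) = D.x K s t := fun s t => by
    rw [hM, and_iff_right (xG_mem_group s t), ← iterateFrobenius_def, ← x_map]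
    exact Matrix.ext_iff
  have hK' : Nat.card (⊤ : Subfield K) = (p ^ a) ^ r := by
    rw [← hK, ← Nat.card_eq_fintype_card]
    exact Nat.card_congr Subfield.topEquiv.toEquiv
  refine ⟨fun e => ?_, fun H h1 h2 => ?_⟩
  · have h1 : A = ⊤ := eq_top_iff.2 fun t _ => (isND_xG T).x_inj isSt_xG.toIsSt0 (top_lt T)
      (Units.ext ((h0 _ t).1 (e ▸ xG_mem_group _ t)))
    rw [h1, hK'] at hA
    exact hr.one_lt.ne' (Nat.pow_right_injective hq (hA.trans (pow_one _).symm))
  obtain ⟨L, -, a2, a3, a4⟩ := exists_field_GL hD p H h2 fun s => h1 ((h0 s 1).2 (by rw [one_pow]))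
  have hAL : A ≤ L := fun t ht => a3 _ (T.lt_iff.2 (top_lt T)) t
    (h1 ((h0 _ t).2 (congrArg _ ht)))
  obtain ⟨s, -, b1⟩ := exists_card_eq_pow hAL
  obtain ⟨u, -, b2⟩ := exists_card_eq_pow (A := L) (K := ⊤) le_top
  rw [hK', b1, hA, ← pow_mul (p ^ a)] at b2
  have b3 := Nat.pow_right_injective hq b2
  rcases hr.eq_one_or_self_of_dvd s (Dvd.intro _ b3.symm) with rfl | rfl
  · refine Or.inl (le_antisymm (fun g hg => (hM g).2 ⟨h2 hg, fun i j => ?_⟩) h1)
    have := (mem_iff_pow_card L).1 (a4 g hg i j)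
    rwa [b1, hA, pow_one] at this
  · refine Or.inr (le_antisymm h2 ?_)
    rw [group_eq]
    refine XS_le.2 fun s _ t => a2 s t ((mem_iff_pow_card L).2 ?_)
    rw [b1, hA, ← hK, FiniteField.pow_card]

end Cfsg.Agent.S2190
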