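import Cfsg.Statements.S2191
import Cfsg.Agent.Lang.TwMax
import Cfsg.Agent.Chev.TwistE6
import Cfsg.Agent.Chev.TwistPres
-- import your own Cfsg.Agent.* helpers here

set_option autoImplicit false
open Cfsg

namespace Cfsg.Agent.S2191

open Cfsg.Lie Cfsg.Agent.Chev Cfsg.Agent.Lang

section

variable {K : Type*} [Field K] {G : Type*} [Group G] {T : RootTable chevE6} {x : ℕ → K → G}
  (S : ChevSys T x) (f : K →+* K) (hf : ∀ t, f (f t) = t)

/-- The diagram symmetry. -/
def piE6 : Equiv.Perm (Fin chevE6.rank) :=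
  Function.Involutive.toPerm (α := Fin 6) ![5, 1, 4, 3, 2, 0]
    (show ∀ i : Fin 6, (![5, 1, 4, 3, 2, 0] : Fin 6 → Fin 6) (![5, 1, 4, 3, 2, 0] i) = i by decide)

theorem chk1 : ∀ i : Fin chevE6.rank, rhoE6 (chevE6.simple i) = chevE6.simple (piE6 i) ∧
    epsE6 (chevE6.simple i) = 1 := by decide +kernel

theorem chk2 : ∀ r < chevE6.nroots, rhoE6 r < chevE6.nroots ∧ ∀ i : Fin chevE6.rank,
    rhoE6 (chevE6.reflectRoot i r) = chevE6.reflectRoot (piE6 i) (rhoE6 r) ∧
      chevE6.cartan (piE6 i) (rhoE6 r) = chevE6.cartan i r := by decide +kernel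

theorem chk3 : ∀ r < chevE6.nroots, rhoE6 (rhoE6 r) = r ∧ (rhoE6 r = r → epsE6 r = 1) ∧
    (rhoE6 r ≠ r → epsE6 (rhoE6 r) * epsE6 r = 1 ∧ epsE6 r ≠ 0 ∧ rhoE6 r ≠ chevE6.neg r ∧
      chevE6.commTerms r (rhoE6 r) = []) := by decide +kernel

set_option synthInstance.maxSize 1000 in
theorem chk4 : ∀ r < 72, 36 ≤ r → r < rhoE6 r → r = 66 ∨ r = 54 ∨ r = 55 ∨ ∃ a ∈ [39, 44, 46, 60],
    ∃ k < 72, r < k ∧ 36 ≤ a ∧ a < 72 ∧ rhoE6 a = a ∧ a ≠ r ∧
      (chevE6.commTerms r a = [(k, 1, 1, 1)] ∨ chevE6.commTerms r a = [(k, -1, 1, 1)]) := by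
  decide +kernel

/-- The orbits of the nodes. -/
def blk : List (List (Fin chevE6.rank)) := ([[0, 5], [1], [2, 4], [3]] : List (List (Fin 6)))

/-- Words in the Weyl group of the twisted group. -/
def pth : List (List (List (Fin chevE6.rank))) :=
  ([[[2, 4], [3], [2, 4], [1], [3], [0, 5], [2, 4], [0, 5]],
    [[0, 5], [2, 4], [3], [2, 4], [1], [3], [0, 5], [2, 4], [0, 5]],
    [[3], [0, 5], [2, 4], [1], [3], [0, 5], [2, 4], [0, 5]],
    [[2, 4], [3], [0, 5], [2, 4], [1], [3], [0, 5], [2, 4], [0, 5]]] : List (List (List (Fin 6))))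

set_option synthInstance.maxSize 1000 in
theorem chk5 : ∀ r ∈ [56, 15, 42, 29], ∃ B ∈ pth, (∀ b ∈ B, b ∈ blk) ∧
    (B.flatten.map Fin.val).foldr chevE6.reflectRoot 66 = r ∧ rhoE6 r ≠ r ∧ r < 72 ∧
      epsE6 r = 1 := by decide +kernel

theorem sig_blk : ∀ b ∈ blk, E6.sig S f hf (nw chevE6 x b) = nw chevE6 x b := by
  have h : ∀ i : Fin chevE6.rank, E6.sig S f hf (nn chevE6 x (chevE6.simple i) 1) =
      nn chevE6 x (chevE6.simple (piE6 i)) 1 := fun i => by
    have : E6.sig S f hf _ = nn chevE6 x (rhoE6 _) (epsE6 _ * f 1) :=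
      (E6.tw S f hf).σ_nn (T.simple_lt' i) 1
    rw [this, (chk1 i).1, (chk1 i).2, map_one, mul_one, Int.cast_one]
  have h1 : ∀ i : Fin chevE6.rank, nw chevE6 x [i] = nn chevE6 x (chevE6.simple i) 1 := by simp
  have h2 : ∀ i j : Fin chevE6.rank, nw chevE6 x [i, j] = nn chevE6 x (chevE6.simple i) 1 *
    nn chevE6 x (chevE6.simple j) 1 := by simp
  refine List.forall_mem_cons.2 ⟨?_, List.forall_mem_cons.2 ⟨?_, List.forall_mem_cons.2 ⟨?_,
    List.forall_mem_singleton.2 ?_⟩⟩⟩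
  · erw [h2, map_mul, h, h]
    exact commute_nn_of_check S (by decide +kernel) 1 1
  · erw [h1, h]
    rfl
  · erw [h2, map_mul, h, h]
    exact commute_nn_of_check S (by decide +kernel) 1 1
  · erw [h1, h]
    rfl

variable {φ : G →* G} (hφ : ∀ r < chevE6.nroots, ∀ t, φ (x r t) = x r (f t))
include hφ

theorem tw : Tw T x (E6.sig S f hf) φ rhoE6 piE6 f fun r t => x r t * E6.sig S f hf (x r t) :=
  tw_two S.nd S.st (S.pres.eq_top fun _ hr t => mem_Gs hr t) (fun _ _ => S.eq_one_of_comm)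
    (stdAut_twMap (E6.tw S f hf) (fun i => (chk1 i).1) chk2) (E6.tw S f hf).hσ hφ (fun j => by
      obtain ⟨b, hb, h⟩ := (by decide +kernel : ∀ j : Fin chevE6.rank, ∃ l ∈ blk,
        (∀ i, piE6 i ∈ l ↔ i ∈ l) ∧ (∃ i, i ∉ l) ∧
        (∀ i ∈ l, i = j ∨ i = piE6 j ∨ i = piE6 (piE6 j)) ∧
        (l.map Fin.val).foldr chevE6.reflectRoot (chevE6.simple j) ≠ chevE6.simple j) j
      exact ⟨b, h.1, h.2.1, h.2.2.1, sig_blk S f hf b hb, h.2.2.2⟩) hf chk3

theorem max [Finite G] (p : ℕ) [Fact p.Prime] [CharP K p] (H : Subgroup G)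
    (h0 : fixS (fam (E6.sig S f hf) φ) ≤ H) (hH : ∀ g ∈ H, E6.sig S f hf g = g) :
    H ≤ fixS (fam (E6.sig S f hf) φ) ∨ (∀ r ∈ [56, 15, 42, 29], ∀ t, ∀ s < 72, rhoE6 r = s →
      x r t * x s (f t) ∈ H) := by
  have E := tw S f hf hφ
  have hN : 2 * T.N = 72 := T.nroots_eq.symm
  have hσ := (E6.exists_sigma S f hf).choose_spec
  change ∀ r < _, ∀ t, E6.sig S f hf _ = _ at hσ
  have hy : ∀ r < 72, ∀ t, x r t * E6.sig S f hf (x r t) =
      word x [(r, t), (rhoE6 r, epsE6 r * f t)] := fun r hr t => by simp [hσ r hr]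
  have h1 : ∀ r < 72, rhoE6 r ≠ r → word x [(r, 1), (rhoE6 r, epsE6 r * f 1)] ∈ H :=
    fun r hr h => hy r hr 1 ▸ h0 (E.y_mem (by omega) h (map_one f))
  by_cases hP : PF x T f H 66
  · refine Or.inl (E.le_fix hH (by simp) p h0 (fun r a b => E.pf_all hH hP (fun r a b c _ => ?_) a b)
      (i := ⟨1, by decide⟩) (β := 46) (by decide +kernel) (L := [56, 36]) (by decide +kernel)
      (by simpa [oprod_eq_word, show rhoE6 56 = 36 from rfl, show epsE6 56 = 1 from rfl] using
        h1 56 (by omega) (by decide)) (by decide +kernel) (by decide +kernel) (by decide +kernel))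
    rcases chk4 r (by omega) (by omega) c with rfl | rfl | rfl | ⟨s, -, k, a1, a2, a3, a4, a5, a6, a7⟩
    · exact Or.inl rfl
    · refine Or.inr ⟨55, by omega, by omega, fun h c u hu hl => ?_⟩
      obtain ⟨u', b1, b2⟩ := E.exists_lv_step hH a b (by decide) (k := 55) (by omega) (by omega)
        (hy 54 (by omega) c) (h1 37 (by omega) (by decide)) (by simp [rhoE6, rhoLE6]; omega)
        (by simp [rhoE6, rhoLE6]; omega) (by simp only [List.map]; decide +kernel)
        (by simp only [List.map]; decide +kernel) hu hl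
      simpa [cfW, ChevalleyDatum.commWord, show chevE6.commTerms 54 37 = [(55, -1, 1, 1)] ∧
        chevE6.commTerms 54 (rhoE6 37) = [] ∧ chevE6.commTerms (rhoE6 54) 37 = [] ∧
        chevE6.commTerms (rhoE6 54) (rhoE6 37) = [(67, -1, 1, 1)] by decide +kernel]
        using h _ _ b1 b2
    · refine Or.inr ⟨66, by omega, by omega, fun h c u hu hl => ?_⟩
      obtain ⟨u', b1, b2⟩ := E.exists_lv_step hH a b (by decide) (k := 66) (by omega) (by omega)
        (hy 55 (by omega) c) (h1 56 (by omega) (by decide)) (by simp [rhoE6, rhoLE6]; omega)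
        (by simp [rhoE6, rhoLE6]; omega) (by simp only [List.map]; decide +kernel)
        (by simp only [List.map]; decide +kernel) hu hl
      simpa [cfW, ChevalleyDatum.commWord, show chevE6.commTerms 55 56 = [(66, 1, 1, 1)] ∧
        chevE6.commTerms 55 (rhoE6 56) = [] ∧ chevE6.commTerms (rhoE6 55) 56 = [] ∧
        chevE6.commTerms (rhoE6 55) (rhoE6 56) = [(68, -1, 1, 1)] by decide +kernel]
        using h _ _ b1 b2
    · exact Or.inr ⟨k, a2, by omega, E.pf_step h0 a b (by omega) (by omega) a5 a6 a7⟩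
  simp only [PF, not_forall] at hP
  obtain ⟨c, u, hu, hl, hc⟩ := hP
  have h2 := E.y_mem_of_top hH h0 (r := 66) (by omega) (by omega) (by decide) (by decide +kernel)
    hu hl
  have h3 : ∀ t, x 66 t * E6.sig S f hf (x 66 t) ∈ H := fun t => by
    have hc' : c - f c ≠ 0 := sub_ne_zero.2 (Ne.symm hc)
    have hc'' : f c - c ≠ 0 := sub_ne_zero.2 hc
    have h4 := E.y_smul h0 (r := 66) (a := 60) (by omega) (by decide) (by omega) (by decide)
      (by decide +kernel) (by decide +kernel) (c := (t - f t) / (c - f c))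
      (by rw [map_div₀, map_sub, map_sub, hf, hf]; field_simp; ring) h2
    have h5 := h0 (E.y_mem (r := 66) (by omega) (by decide) (t := t - (t - f t) / (c - f c) * c)
      (by simp only [map_div₀, map_sub, map_mul, hf]; field_simp; ring))
    have h6 := mul_mem h5 h4
    rwa [← E.y_add 66 (by omega) (by decide), sub_add_cancel] at h6
  refine Or.inr fun r hr t s hs e => ?_
  obtain ⟨B, -, b2, b3, b4, b5⟩ := chk5 r hr
  have h4 := E.y_weyl h0 (map_nw_flatten fun b hb => sig_blk S f hf b (b2 b hb)) (by omega) b3 b4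
    (h3 t)
  rwa [E6.sig_x S f hf r s ⟨b5.1, e, b5.2⟩] at h4

end

/-- In the twisted group ²E₆(q), realised inside the Chevalley group of type E₆ over the field K with q² elements (q a power of the characteristic) as the subgroup generated by the root elements, and products of root elements, that the twisting map fixes, the subgroup of matrices all of whose entries lie in the subfield with q elements (entries c with c^q = c; it contains the subgroup of type F₄ over that subfield) is a proper maximal subgroup. -/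
theorem result {K : Type*} [Field K] [Fintype K] (p : ℕ) [Fact p.Prime] [CharP K p] (q : ℕ) (hq : ∃ a : ℕ, 1 ≤ a ∧ q = p ^ a) (hK : Fintype.card K = q ^ 2) (M : Subgroup (GL Cfsg.Lie.chevE6.Idx K))
    (hM : ∀ g : GL Cfsg.Lie.chevE6.Idx K, g ∈ M ↔ g ∈ Cfsg.Lie.twistedE6 K q ∧ ∀ i j : Cfsg.Lie.chevE6.Idx, ((g : Matrix Cfsg.Lie.chevE6.Idx Cfsg.Lie.chevE6.Idx K) i j) ^ q = (g : Matrix Cfsg.Lie.chevE6.Idx Cfsg.Lie.chevE6.Idx K) i j) :
    M ≠ Cfsg.Lie.twistedE6 K q ∧ ∀ H : Subgroup (GL Cfsg.Lie.chevE6.Idx K), M ≤ H → H ≤ Cfsg.Lie.twistedE6 K q → H = M ∨ H = Cfsg.Lie.twistedE6 K q := by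
  obtain ⟨a, ha, rfl⟩ := hq
  have hD : chevE6 ∈ [chevG2, chevB2, chevD4, chevF4, chevE6, chevE7, chevE8] := by simp
  obtain ⟨_⟩ := good_of_mem hD
  obtain ⟨T⟩ := exists_rootTable hD
  have hN : 2 * T.N = 72 := T.nroots_eq.symm
  have hq : 1 < p ^ a := Nat.one_lt_pow (by omega) (Fact.out : p.Prime).one_lt
  set f := iterateFrobenius K p a
  have h1 : ∀ t, f t = t ^ p ^ a := fun t => rfl
  have hf : ∀ t, f (f t) = t := fun t => by
    rw [h1, h1, ← pow_mul, ← pow_two, ← hK, FiniteField.pow_card]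
  have hφ : ∀ r < chevE6.nroots, ∀ t, fieldHom chevE6 f (xC chevE6 K r t) = xC chevE6 K r (f t) :=
    fun r _ t => fieldHom_xC f r t
  have E := tw (sysC K hD T) f hf hφ
  refine max_GL (σ := E6.sig (sysC K hD T) f hf) h1 (fun g => ?_) ?_ (fun H h0 hH => ?_) hM
  · rw [E6.closure_eq (sysC K hD T) f hf h1, E6.T_eq_Fix]
    rfl
  · obtain ⟨c, hc⟩ : ∃ c, f c ≠ c := by
      by_contra! h
      have h2 := card_fixed hq.le hK
      rw [Nat.card_congr (Equiv.subtypeUnivEquiv fun t => h1 t ▸ h t), Nat.card_eq_fintype_card, hK] at h2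
      nlinarith
    refine ⟨_, E.y_fix 36 (by omega) (by decide) c, fun e => hc ?_⟩
    rw [E.y_fld 36 (by omega)] at e
    exact (E.y_lv 36 (by omega) (by omega) (by decide) (by decide) _).unique E.st.toIsSt0
      (by omega) (by omega) E.nd (e ▸ E.y_lv 36 (by omega) (by omega) (by decide) (by decide) c)
  refine (max _ f hf hφ p H h0 hH).imp_right fun h => ?_
  rintro w (⟨t, ht, r, hr, rfl⟩ | ⟨t, rs, hrs, rfl⟩)
  · have := (by decide +kernel : ∀ r ∈ [e6p2, e6m2, e6p4, e6m4], r < 72 ∧ rhoE6 r = r) r hr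
    simpa using h0 (E.x_mem (by omega) this.2 ht)
  · have := (by decide +kernel : ∀ rs ∈ [(e6p1, e6p6), (e6m1, e6m6), (e6p3, e6p5), (e6m3, e6m5)],
      rs.1 ∈ [56, 15, 42, 29] ∧ rs.2 < 72 ∧ rhoE6 rs.1 = rs.2) rs hrs
    simpa [h1] using h _ this.1 t _ this.2.1 this.2.2

end Cfsg.Agent.S2191
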