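import Cfsg.Statements.S2192
import Cfsg.Agent.Lang.TwMax
import Cfsg.Agent.Chev.TwistD4
import Cfsg.Agent.Chev.TwistPres
-- import your own Cfsg.Agent.* helpers here

set_option autoImplicit false
open Cfsg

namespace Cfsg.Agent.S2192

open Cfsg.Lie Cfsg.Agent.Chev Cfsg.Agent.Lang

section

variable {K : Type*} [Field K] {G : Type*} [Group G] {T : RootTable chevD4} {x : ℕ → K → G}
  (S : ChevSys T x) (f : K →+* K) (hf : ∀ t, f (f (f t)) = t)

/-- The diagram symmetry. -/
def piD4 : Equiv.Perm (Fin chevD4.rank) :=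
  (⟨![2, 1, 3, 0], ![3, 1, 0, 2], by decide, by decide⟩ : Equiv.Perm (Fin 4))

theorem chk1 : ∀ i : Fin chevD4.rank, rhoD4 (chevD4.simple i) = chevD4.simple (piD4 i) ∧
    epsD4 (chevD4.simple i) = 1 := by decide +kernel

theorem chk2 : ∀ r < chevD4.nroots, rhoD4 r < chevD4.nroots ∧ ∀ i : Fin chevD4.rank,
    rhoD4 (chevD4.reflectRoot i r) = chevD4.reflectRoot (piD4 i) (rhoD4 r) ∧
      chevD4.cartan (piD4 i) (rhoD4 r) = chevD4.cartan i r := by decide +kernel

set_option synthInstance.maxSize 1000 in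
theorem chk3 : ∀ r < chevD4.nroots, rhoD4 (rhoD4 (rhoD4 r)) = r ∧
    (rhoD4 r = r → epsD4 r = 1) ∧ (rhoD4 r ≠ r →
      epsD4 (rhoD4 (rhoD4 r)) * (epsD4 (rhoD4 r) * epsD4 r) = 1 ∧ rhoD4 (rhoD4 r) ≠ r ∧
      rhoD4 r ≠ chevD4.neg r ∧ chevD4.commTerms r (rhoD4 r) = [] ∧
      rhoD4 (rhoD4 r) ≠ chevD4.neg r ∧ chevD4.commTerms r (rhoD4 (rhoD4 r)) = [] ∧
      rhoD4 (rhoD4 r) ≠ chevD4.neg (rhoD4 r) ∧
      chevD4.commTerms (rhoD4 r) (rhoD4 (rhoD4 r)) = []) := by decide +kernel

/-- The orbits of the nodes. -/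
def blk : List (List (Fin chevD4.rank)) := ([[0, 2, 3], [1]] : List (List (Fin 4)))

/-- A word in the Weyl group of the twisted group. -/
def pth (l : List Bool) : List (List (Fin chevD4.rank)) :=
  l.map fun b => bif b then ([0, 2, 3] : List (Fin 4)) else ([1] : List (Fin 4))

theorem pth_mem (l : List Bool) : ∀ b ∈ pth l, b ∈ blk := fun b hb => by
  obtain ⟨c, -, rfl⟩ := List.mem_map.1 hb
  cases c
  · exact List.mem_cons_of_mem _ List.mem_cons_self
  · exact List.mem_cons_self

set_option synthInstance.maxSize 1000 in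
theorem chk4 : chevD4.commTerms 15 12 = [] ∧
    chevD4.commTerms 15 18 = [(20, 1, 1, 1)] ∧ chevD4.commTerms 15 13 = [(17, -1, 1, 1)] ∧
    chevD4.commTerms 19 12 = [(20, -1, 1, 1)] ∧ chevD4.commTerms 19 18 = [] ∧
    chevD4.commTerms 19 13 = [(21, -1, 1, 1)] ∧ chevD4.commTerms 16 12 = [(17, -1, 1, 1)] ∧
    chevD4.commTerms 16 18 = [(21, 1, 1, 1)] ∧ chevD4.commTerms 16 13 = [] := by decide +kernel

set_option synthInstance.maxSize 1000 in
theorem chk5 : chevD4.commTerms 12 14 = [(15, 1, 1, 1)] ∧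
    chevD4.commTerms 18 14 = [(19, -1, 1, 1)] ∧ chevD4.commTerms 18 15 = [(20, -1, 1, 1)] ∧
    chevD4.commTerms 13 14 = [(16, 1, 1, 1)] ∧ chevD4.commTerms 13 19 = [(21, 1, 1, 1)] ∧
    chevD4.commTerms 13 15 = [(17, 1, 1, 1)] ∧ chevD4.commTerms 13 20 = [(22, 1, 1, 1)] := by
  decide +kernel

theorem conj14 (hs : IsSt0 chevD4 x) (a b d : K) :
    word x [(15, a), (19, -b), (16, d)] * (x 14 1)⁻¹ *
      ((word x [(12, a), (18, b), (13, d)])⁻¹ * x 14 1 * word x [(12, a), (18, b), (13, d)]) =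
    (x 15 (-a))⁻¹ * x 21 (-(d * b)) * x 15 (-a) *
      word x [(17, d * a), (20, -(b * a)), (22, d * (b * a))] := by
  have b1 := hs.conj_word (r := 12) (by decide) a (w := [(14, 1)]) (by simp; decide)
  have b2 := hs.conj_word (r := 18) (by decide) b (w := [(14, 1), (15, -a)]) (by simp; decide)
  have b3 := hs.conj_word (r := 13) (by decide) d
    (w := [(14, 1), (19, b), (15, -a), (20, -(b * a))]) (by simp; decide)
  simp only [ChevalleyDatum.commWord, chk5, List.flatMap_cons, List.flatMap_nil, List.map_cons,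
    List.map_nil, List.append_nil, List.cons_append, List.nil_append, word_cons, word_nil, mul_one,
    pow_one, Int.cast_one, Int.cast_neg, one_mul, neg_mul, mul_neg, neg_neg] at b1 b2 b3 ⊢
  calc _ = x 15 a * (x 19 (-b) * x 16 d) * (x 14 1)⁻¹ * ((x 13 d)⁻¹ * ((x 18 b)⁻¹ *
        ((x 12 a)⁻¹ * x 14 1 * x 12 a) * x 18 b) * x 13 d) := by group
    _ = _ := by
      rw [b1, b2, b3, hs.x_neg (r := 19) (by decide), hs.x_neg (r := 16) (by decide),
        hs.x_neg (r := 15) (by decide)]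
      group

theorem sig_blk : ∀ b ∈ blk, D4.sig S f hf (nw chevD4 x b) = nw chevD4 x b := by
  have h : ∀ i : Fin chevD4.rank, D4.sig S f hf (nn chevD4 x (chevD4.simple i) 1) =
      nn chevD4 x (chevD4.simple (piD4 i)) 1 := fun i => by
    have : D4.sig S f hf _ = nn chevD4 x (rhoD4 _) (epsD4 _ * f 1) :=
      (D4.tw S f hf).σ_nn (T.simple_lt' i) 1
    rw [this, (chk1 i).1, (chk1 i).2, map_one, mul_one, Int.cast_one]
  have h1 : ∀ i : Fin chevD4.rank, nw chevD4 x [i] = nn chevD4 x (chevD4.simple i) 1 := by simp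
  have h2 : ∀ i j k : Fin chevD4.rank, nw chevD4 x [i, j, k] = nn chevD4 x (chevD4.simple i) 1 *
    (nn chevD4 x (chevD4.simple j) 1 * nn chevD4 x (chevD4.simple k) 1) := by simp
  have h3 : ∀ i j k : Fin chevD4.rank, D4.sig S f hf (nw chevD4 x [i, j, k]) =
    nw chevD4 x [piD4 i, piD4 j, piD4 k] := by simp [h]
  refine List.forall_mem_cons.2 ⟨?_, List.forall_mem_singleton.2 ?_⟩
  · erw [h3, h2, h2]
    change nn chevD4 x 13 1 * (nn chevD4 x 12 1 * nn chevD4 x 18 1) =
      nn chevD4 x 18 1 * (nn chevD4 x 13 1 * nn chevD4 x 12 1)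
    rw [commute_nn_of_check S (r := 18) (s := 12) (by decide +kernel), ← mul_assoc,
      commute_nn_of_check S (r := 18) (s := 13) (by decide +kernel), mul_assoc]
  · erw [h1, h]
    rfl

include hf in
theorem exists_comb {c : K} (hc : f c ≠ c) (t : K) : ∃ a b d, f a = a ∧ f b = b ∧ f d = d ∧
    t = a + b * c + d * (f c * f (f c)) := by
  have h1 : f (f c) ≠ f c := fun e => hc (f.injective e)
  have h2 : c ≠ f (f c) := fun e => h1 (f.injective ((hf c).trans e))
  have h3 : (c - f c) * (f c - f (f c)) * (f (f c) - c) ≠ 0 := mul_ne_zero (mul_ne_zero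
    (sub_ne_zero.2 hc.symm) (sub_ne_zero.2 h1.symm)) (sub_ne_zero.2 h2.symm)
  refine ⟨(t * c * (f c ^ 2 - f (f c) ^ 2) + f t * f c * (f (f c) ^ 2 - c ^ 2) +
      f (f t) * f (f c) * (c ^ 2 - f c ^ 2)) / ((c - f c) * (f c - f (f c)) * (f (f c) - c)),
    (t * c * (f (f c) - f c) + f t * f c * (c - f (f c)) + f (f t) * f (f c) * (f c - c)) /
      ((c - f c) * (f c - f (f c)) * (f (f c) - c)),
    (t * (f (f c) - f c) + f t * (c - f (f c)) + f (f t) * (f c - c)) /
      ((c - f c) * (f c - f (f c)) * (f (f c) - c)), ?_, ?_, ?_, ?_⟩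
  iterate 3
    simp only [map_div₀, map_add, map_mul, map_sub, map_pow, hf]
    congr 1 <;> ring
  field_simp
  ring

variable {φ : G →* G} (hφ : ∀ r < chevD4.nroots, ∀ t, φ (x r t) = x r (f t))
include hφ

theorem tw : Tw T x (D4.sig S f hf) φ rhoD4 piD4 f fun r t =>
    x r t * D4.sig S f hf (x r t) * D4.sig S f hf (D4.sig S f hf (x r t)) :=
  tw_three S.nd S.st (S.pres.eq_top fun _ hr t => mem_Gs hr t) (fun _ _ => S.eq_one_of_comm)
    (stdAut_twMap (D4.tw S f hf) (fun i => (chk1 i).1) chk2) (D4.tw S f hf).hσ hφ (fun j => by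
      obtain ⟨b, hb, h⟩ := (by decide +kernel : ∀ j : Fin chevD4.rank, ∃ l ∈ blk,
        (∀ i, piD4 i ∈ l ↔ i ∈ l) ∧ (∃ i, i ∉ l) ∧
        (∀ i ∈ l, i = j ∨ i = piD4 j ∨ i = piD4 (piD4 j)) ∧
        (l.map Fin.val).foldr chevD4.reflectRoot (chevD4.simple j) ≠ chevD4.simple j) j
      exact ⟨b, h.1, h.2.1, h.2.2.1, sig_blk S f hf b hb, h.2.2.2⟩) hf chk3

theorem max [Finite G] (p : ℕ) [Fact p.Prime] [CharP K p] (H : Subgroup G)
    (h0 : fixS (fam (D4.sig S f hf) φ) ≤ H) (hH : ∀ g ∈ H, D4.sig S f hf g = g) :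
    H ≤ fixS (fam (D4.sig S f hf) φ) ∨ ∀ t, x 18 t * (x 13 (f t) * x 12 (f (f t))) ∈ H ∧
      x 5 t * (x 10 (f t) * x 11 (f (f t))) ∈ H := by
  have E := tw S f hf hφ
  have hN : 2 * T.N = 24 := T.nroots_eq.symm
  have hs := E.st.toIsSt0
  have hσ := (D4.exists_sigma S f hf).choose_spec
  change ∀ r < 24, ∀ t, D4.sig S f hf _ = _ at hσ
  set y : ℕ → K → G := fun r t =>
    x r t * D4.sig S f hf (x r t) * D4.sig S f hf (D4.sig S f hf (x r t)) with hy0
  have hy : ∀ r < 24, ∀ t, y r t = word x [(r, t), (rhoD4 r, epsD4 r * f t),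
      (rhoD4 (rhoD4 r), epsD4 (rhoD4 r) * f (epsD4 r * f t))] := fun r hr t => by
    simp [hy0, hσ r hr, hσ _ (chk2 r hr).1, mul_assoc]
  have h12 : ∀ t, y 12 t = word x [(12, t), (18, f t), (13, f (f t))] := fun t => by
    rw [hy 12 (by omega), show rhoD4 12 = 18 from rfl, show rhoD4 18 = 13 from rfl,
      show epsD4 12 = 1 from rfl, show epsD4 18 = 1 from rfl]
    simp
  have h15 : ∀ t, y 15 t = word x [(15, t), (19, -f t), (16, f (f t))] := fun t => by
    rw [hy 15 (by omega), show rhoD4 15 = 19 from rfl, show rhoD4 19 = 16 from rfl,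
      show epsD4 15 = -1 from rfl, show epsD4 19 = -1 from rfl]
    simp
  have h18 : ∀ t, y 18 t = x 18 t * (x 13 (f t) * x 12 (f (f t))) := fun t => by
    rw [hy 18 (by omega), show rhoD4 18 = 13 from rfl, show rhoD4 13 = 12 from rfl,
      show epsD4 18 = 1 from rfl, show epsD4 13 = 1 from rfl]
    simp
  have h5 : ∀ t, y 5 t = x 5 t * (x 10 (f t) * x 11 (f (f t))) := fun t => by
    rw [hy 5 (by omega), show rhoD4 5 = 10 from rfl, show rhoD4 10 = 11 from rfl,
      show epsD4 5 = 1 from rfl, show epsD4 10 = 1 from rfl]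
    simp
  by_cases hP : PF x T f H 17
  · refine Or.inl (E.le_fix hH (by simp) p h0 (fun r a b => E.pf_all hH hP (fun r a b c d => ?_) a b)
      (i := ⟨1, by decide⟩) (β := 14) (by decide +kernel) (L := [18, 13, 12]) (by decide +kernel)
      (by simpa [h18] using h0 (E.y_mem (r := 18) (by omega) (by decide) (map_one f)))
      (by decide +kernel) (by decide +kernel) (by decide +kernel))
    rcases (by decide +kernel : ∀ r < 24, 12 ≤ r → r < rhoD4 r → r ≤ rhoD4 (rhoD4 r) →
      r = 17 ∨ r = 12 ∨ r = 15) r (by omega) (by omega) c d with rfl | rfl | rfl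
    · exact Or.inl rfl
    · exact Or.inr ⟨15, by omega, by omega, E.pf_step h0 a b (a := 14) (by omega) (by omega)
        (by decide) (by decide) (Or.inl (by decide +kernel))⟩
    · refine Or.inr ⟨17, by omega, by omega, fun h c u hu hl => ?_⟩
      obtain ⟨u', b1, b2⟩ := E.exists_lv_step hH a b (by decide) (k := 17) (by omega) (by omega)
        (h15 c) (h12 1 ▸ h0 (E.y_mem (r := 12) (by omega) (by decide) (map_one f)))
        (by simp; omega) (by simp; omega) (by simp only [List.map]; decide +kernel)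
        (by simp only [List.map]; decide +kernel) hu hl
      have := h _ _ b1 b2
      simp [cfW, ChevalleyDatum.commWord, chk4, hf] at this
      exact f.injective (by linear_combination -this)
  simp only [PF, not_forall] at hP
  obtain ⟨c, u, hu, hl, hc⟩ := hP
  have top := fun {c u} => E.y_mem_of_top hH h0 (r := 17) (c := c) (u := u) (by omega) (by omega)
    (by decide) (by decide +kernel)
  have wl := fun (l : List Bool) {r s} => E.y_weyl h0 (r := r) (s := s)
    (map_nw_flatten fun b hb => sig_blk S f hf b (pth_mem l b hb))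
  have key : ∀ t, y 18 t ∈ H → y 18 (f t * f (f t)) ∈ H := fun t ht => by
    have a1 : y 12 (f (f t)) ∈ H := by
      have := E.y_fix 12 (by omega) (by decide) (f (f t))
      rw [← this, hy0]
      simp only [map_mul]
      rwa [D4.sig_x S f hf 12 18 (by decide +kernel), hf]
    have a2 : y 15 (f (f t)) ∈ H := wl [false] (by omega) (by decide +kernel) (by decide) a1
    have a3 := h0 (E.x_mem (r := 14) (by omega) (by decide) (map_one f))
    have a4 := mul_mem (mul_mem a2 (inv_mem a3)) (mul_mem (mul_mem (inv_mem a1) a3) a1)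
    rw [h15, h12, conj14 hs, hf] at a4
    have a5 := top a4 ((((lv_zero hs (by omega)).2 (mem_XS (r := 21)
      (And.intro (by omega) (by omega)) _)).conj hs (by omega) (by omega)
      (T.mem_Us' (by omega) (by omega) _)).mul hs (by omega) (by omega)
      (lv_word hs (by omega) (by omega) (by simp; omega)))
    simpa using wl [false, true] (s := 18) (by omega) (by decide +kernel) (by decide) a5
  have h1 : y 18 c ∈ H := wl [false, true] (by omega) (by decide +kernel) (by decide) (top hu hl)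
  have h2 : ∀ t, y 18 t ∈ H := fun t => by
    obtain ⟨a, b, d, a1, a2, a3, rfl⟩ := exists_comb f hf hc t
    have sm := fun {c t} => E.y_smul h0 (r := 18) (a := 22) (c := c) (t := t) (by omega)
      (by decide) (by omega) (by decide) (by decide +kernel) (by decide +kernel)
    rw [E.y_add 18 (by omega) (by decide), E.y_add 18 (by omega) (by decide)]
    exact mul_mem (mul_mem (h0 (E.y_mem (by omega) (by decide) a1)) (sm a2 h1)) (sm a3 (key c h1))
  exact Or.inr fun t => ⟨h18 t ▸ h2 t,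
    h5 t ▸ wl [true] (by omega) (by decide +kernel) (by decide) (h2 t)⟩

end

/-- In the twisted group ³D₄(q), realised inside the Chevalley group of type D₄ over the field K with q³ elements (q a power of the characteristic) as the subgroup generated by the root elements, and products of root elements, that the twisting map fixes, the subgroup of matrices all of whose entries lie in the subfield with q elements (it contains the subgroup of type G₂ over that subfield) is a proper maximal subgroup. -/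
theorem result {K : Type*} [Field K] [Fintype K] (p : ℕ) [Fact p.Prime] [CharP K p] (q : ℕ) (hq : ∃ a : ℕ, 1 ≤ a ∧ q = p ^ a) (hK : Fintype.card K = q ^ 3) (M : Subgroup (GL Cfsg.Lie.chevD4.Idx K))
    (hM : ∀ g : GL Cfsg.Lie.chevD4.Idx K, g ∈ M ↔ g ∈ Cfsg.Lie.twistedD4 K q ∧ ∀ i j : Cfsg.Lie.chevD4.Idx, ((g : Matrix Cfsg.Lie.chevD4.Idx Cfsg.Lie.chevD4.Idx K) i j) ^ q = (g : Matrix Cfsg.Lie.chevD4.Idx Cfsg.Lie.chevD4.Idx K) i j) :
    M ≠ Cfsg.Lie.twistedD4 K q ∧ ∀ H : Subgroup (GL Cfsg.Lie.chevD4.Idx K), M ≤ H → H ≤ Cfsg.Lie.twistedD4 K q → H = M ∨ H = Cfsg.Lie.twistedD4 K q := by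
  obtain ⟨a, ha, rfl⟩ := hq
  have hD : chevD4 ∈ [chevG2, chevB2, chevD4, chevF4, chevE6, chevE7, chevE8] := by simp
  obtain ⟨_⟩ := good_of_mem hD
  obtain ⟨T⟩ := exists_rootTable hD
  have hN : 2 * T.N = 24 := T.nroots_eq.symm
  have hq : 1 < p ^ a := Nat.one_lt_pow (by omega) (Fact.out : p.Prime).one_lt
  set f := iterateFrobenius K p a
  have h1 : ∀ t, f t = t ^ p ^ a := fun t => rfl
  have h2 : ∀ t, f (f t) = t ^ (p ^ a) ^ 2 := fun t => by rw [h1, h1, ← pow_mul, ← pow_two]
  have hf : ∀ t, f (f (f t)) = t := fun t => by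
    rw [h1, h2, ← pow_mul, ← pow_succ, ← hK, FiniteField.pow_card]
  have hφ : ∀ r < chevD4.nroots, ∀ t, fieldHom chevD4 f (xC chevD4 K r t) = xC chevD4 K r (f t) :=
    fun r _ t => fieldHom_xC f r t
  have E := tw (sysC K hD T) f hf hφ
  refine max_GL (σ := D4.sig (sysC K hD T) f hf) h1 (fun g => ?_) ?_ (fun H h0 hH => ?_) hM
  · rw [D4.closure_eq (sysC K hD T) f hf h1, D4.T_eq_Fix]
    rfl
  · obtain ⟨c, hc⟩ : ∃ c, f c ≠ c := by
      by_contra! h
      have h2 := card_fixed hq.le hK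
      rw [Nat.card_congr (Equiv.subtypeUnivEquiv fun t => h1 t ▸ h t), Nat.card_eq_fintype_card,
        hK] at h2
      exact absurd (Nat.pow_right_injective hq (h2.trans (pow_one _).symm)) (by decide)
    refine ⟨_, E.y_fix 12 (by omega) (by decide) c, fun e => hc ?_⟩
    rw [E.y_fld 12 (by omega)] at e
    exact (E.y_lv 12 (by omega) (by omega) (by decide) (by decide) _).unique E.st.toIsSt0
      (by omega) (by omega) E.nd (e ▸ E.y_lv 12 (by omega) (by omega) (by decide) (by decide) c)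
  refine (max _ f hf hφ p H h0 hH).imp_right fun h => ?_
  rintro w (⟨t, ht, r, hr, rfl⟩ | ⟨t, rs, hrs, rfl⟩)
  · have := (by decide +kernel : ∀ r ∈ [d4p2, d4m2], r < 24 ∧ rhoD4 r = r) r hr
    simpa using h0 (E.x_mem (by omega) this.2 ht)
  · rw [← h1, ← h2]
    simp only [List.mem_cons, List.not_mem_nil, or_false] at hrs
    rcases hrs with rfl | rfl
    · simpa [d4p1, d4p3, d4p4] using (h t).1
    · simpa [d4m1, d4m3, d4m4] using (h t).2

end Cfsg.Agent.S2192
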