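import Cfsg.Statements.S2214
import Cfsg.Agent.Lang.Fix
import Cfsg.Agent.Chev.Types

set_option autoImplicit false
open Cfsg Cfsg.Agent.Chev Cfsg.Agent.Lang

namespace Cfsg.Agent.S2214

/-- Let k be an algebraically closed field of prime characteristic p, G the adjoint Chevalley group of type G₂, B₂, D₄, F₄, E₆, E₇ or E₈ over k (the matrix group generated by the root elements x_s(t), t ∈ k, acting on the Lie algebra), q = p^a with a ≥ 1, and K a subgroup of G containing every root element x_s(t) with t^q = t and consisting of matrices all of whose entries c satisfy c^q = c. Then the centralizer of K in G is trivial, and the normalizer of K in G is exactly the set of elements of G all of whose entries c satisfy c^q = c. -/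
theorem result {k : Type*} [Field k] [IsAlgClosed k] (p : ℕ) [Fact p.Prime] [CharP k p] (D : Cfsg.Lie.ChevalleyDatum) (hD : D ∈ [Cfsg.Lie.chevG2, Cfsg.Lie.chevB2, Cfsg.Lie.chevD4, Cfsg.Lie.chevF4, Cfsg.Lie.chevE6, Cfsg.Lie.chevE7, Cfsg.Lie.chevE8]) (a : ℕ) (ha : 1 ≤ a) (K : Subgroup (GL D.Idx k)) (hKG : K ≤ D.group k)
    (hLK : Subgroup.closure {g : GL D.Idx k | ∃ (s : ℕ) (t : k), t ^ (p ^ a) = t ∧ (g : Matrix D.Idx D.Idx k) = D.x k s t} ≤ K)
    (hKfix : ∀ g ∈ K, ∀ i j : D.Idx, ((g : Matrix D.Idx D.Idx k) i j) ^ (p ^ a) = (g : Matrix D.Idx D.Idx k) i j) :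
    D.group k ⊓ Subgroup.centralizer (K : Set (GL D.Idx k)) = ⊥ ∧
    ∀ g : GL D.Idx k, g ∈ D.group k → (g ∈ Subgroup.normalizer (K : Set (GL D.Idx k)) ↔ ∀ i j : D.Idx, ((g : Matrix D.Idx D.Idx k) i j) ^ (p ^ a) = (g : Matrix D.Idx D.Idx k) i j) := by
  obtain ⟨_⟩ := good_of_mem hD
  obtain ⟨T⟩ := exists_rootTable hD
  have hn := isND_xG (F := k) T
  have h := isSt_xG (D := D) (F := k)
  set f := iterateFrobenius k p a with hf
  set σ : GL D.Idx k →* GL D.Idx k := Matrix.GeneralLinearGroup.map f with hσdef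
  have hσ : ∀ r < D.nroots, ∀ t, σ (xG D k r t) = xG D k r (f t) := fun r _ t => map_xG f r t
  have hfix : ∀ g : GL D.Idx k, σ g = g ↔ ∀ i j : D.Idx,
      ((g : Matrix D.Idx D.Idx k) i j) ^ (p ^ a) = (g : Matrix D.Idx D.Idx k) i j := fun g =>
    ⟨fun e i j => congrArg (fun g : GL D.Idx k => (g : Matrix D.Idx D.Idx k) i j) e,
      fun e => Units.ext (Matrix.ext e)⟩
  have hL : fixL D (xG D k) f ≤ K := fixL_le.2 fun r _ t ht =>
    hLK (Subgroup.subset_closure ⟨r, t, ht, rfl⟩)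
  have hcen : ∀ g ∈ D.group k, (∀ a ∈ K, g * a * g⁻¹ = a) → g = 1 := fun g hg e => by
    have h1 : ∀ r < D.nroots, g * xG D k r 1 * g⁻¹ = xG D k r 1 := fun r hr =>
      e _ (hL (mem_fixL hr (map_one f)))
    refine eq_one_of_mem_Hs_of_comm T (mem_Hs_of_comm hn h (mem_Gs_of_mem_group hg)
      fun r hr => ⟨1, one_ne_zero, h1 r (T.lt_iff.2 hr)⟩) fun i => ?_
    exact h1 _ (T.simple_lt' i)
  refine ⟨eq_bot_iff.2 fun g hg => hcen g hg.1 fun a ha => ?_, fun g hg => ⟨fun hN => ?_, fun e => ?_⟩⟩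
  · rw [← Subgroup.mem_centralizer_iff.1 hg.2 a ha, mul_inv_cancel_right]
  · rw [← hfix]
    have h1 := hcen (g⁻¹ * σ g) (mul_mem (inv_mem hg) (fieldHom D f ⟨g, hg⟩).2) fun a ha => by
      have e1 := (hfix _).2 (hKfix _ ((Subgroup.mem_normalizer_iff.1 hN a).1 ha))
      rw [map_mul, map_mul, map_inv, (hfix a).2 (hKfix a ha)] at e1
      calc g⁻¹ * σ g * a * (g⁻¹ * σ g)⁻¹ = g⁻¹ * (σ g * a * (σ g)⁻¹) * g := by group
        _ = a := by rw [e1]; group
    exact (inv_mul_eq_one.1 h1).symm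
  · have key : ∀ g ∈ D.group k, σ g = g → ∀ a ∈ K, g * a * g⁻¹ ∈ K := fun g hg e a ha => by
      obtain ⟨l, hl, c, hc, ec, rfl⟩ := exists_of_fix hn h hσ (mem_Gs_of_mem_group hg) e
      obtain ⟨l', hl', c', hc', ec', e'⟩ := exists_of_fix hn h hσ (mem_Gs_of_mem_group (hKG ha))
        ((hfix a).2 (hKfix a ha))
      have h1 : c' ∈ K := by
        rw [eq_inv_mul_of_mul_eq e'.symm]
        exact mul_mem (inv_mem (hL hl')) ha
      have h2 : c * l' * c⁻¹ ∈ K :=
        hL ((Subgroup.mem_normalizer_iff.1 (mem_normalizer_fixL hn h hσ hc ec) l').1 hl')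
      have h3 : l * c * a * (l * c)⁻¹ = l * (c * l' * c⁻¹) * c' * l⁻¹ := by
        have := Hs_comm hc hc'
        calc l * c * a * (l * c)⁻¹ = l * (c * l' * c⁻¹) * (c * c') * c⁻¹ * l⁻¹ := by rw [e']; group
          _ = _ := by rw [this]; group
      rw [h3]
      exact mul_mem (mul_mem (mul_mem (hL hl) h2) h1) (inv_mem (hL hl))
    have e1 := (hfix g).2 e
    refine Subgroup.mem_normalizer_iff.2 fun a => ⟨key g hg e1 a, fun ha => ?_⟩
    simpa [mul_assoc] using key g⁻¹ (inv_mem hg) (by rw [map_inv, e1]) _ ha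

end Cfsg.Agent.S2214
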