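import Cfsg.Statements.S2221
import Mathlib
import Cfsg.Agent.KSG.AltSyl2B

set_option autoImplicit false
open Cfsg

namespace Cfsg.Agent.S2221

/-- Direct decomposability of the Sylow 2-subgroups of the alternating groups. Let n ≥ 4 and let P be a Sylow 2-subgroup of the alternating group of degree n. Then P is the internal direct product of two nontrivial subgroups if and only if n = 4, n = 5, or n ≡ 2, 3 (mod 4) with 4⌊n/4⌋ not a power of 2. In the remaining cases (n ≡ 0, 1 (mod 4) with n ≥ 8, or n ≡ 2, 3 (mod 4) with 4⌊n/4⌋ a power of 2) P is directly indecomposable. -/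
theorem result (n : ℕ) (hn : 4 ≤ n)
    (P : Sylow 2 (alternatingGroup (Fin n))) :
    (∃ S₁ S₂ : Subgroup (alternatingGroup (Fin n)), S₁ ≠ ⊥ ∧ S₂ ≠ ⊥ ∧
        Cfsg.IsInternalDirectProduct S₁ S₂ (P : Subgroup (alternatingGroup (Fin n)))) ↔
      (n = 4 ∨ n = 5 ∨ ((n % 4 = 2 ∨ n % 4 = 3) ∧ ∀ r : ℕ, 4 * (n / 4) ≠ 2 ^ r)) := by
  obtain ⟨Q, hQ⟩ := (P.isPGroup'.map (alternatingGroup (Fin n)).subtype).exists_le_sylow
  have e : (P : Subgroup _) = Q.1.subgroupOf (alternatingGroup (Fin n)) :=
    (P.is_maximal' (Q.isPGroup'.comap_subtype) (Subgroup.map_le_iff_le_comap.1 hQ)).symm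
  have hE : ¬ 2 ∣ (AltS2.Ev Q).relIndex (alternatingGroup (Fin n)) := by
    rw [Subgroup.inf_relIndex_right, Subgroup.relIndex, ← e]
    exact P.not_dvd_index
  by_cases h6 : 6 ≤ n
  · have h6' : 6 ≤ Fintype.card (Fin n) := by simpa using h6
    rw [AltS2.map_iff (alternatingGroup (Fin n)).subtype_injective, e, Subgroup.subgroupOf_map_subtype]
    refine ⟨fun ⟨A, B, a, b, h⟩ => .inr (.inr ⟨?_, fun r hr => ?_⟩), fun h => ?_⟩
    · by_contra k
      exact (AltS2.indec_big h h6' (AltS2.h4_of hE (by rw [Fintype.card_fin]; omega))).elim a b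
    · exact (AltS2.indec_pow h6' (by rwa [Fintype.card_fin]) h).elim a b
    · have h := (h.resolve_left (by omega)).resolve_left (by omega)
      exact AltS2.dec_of h6' (by simpa using h.1) (by simpa using h.2)
  have h : n = 4 ∨ n = 5 := by omega
  refine iff_of_true ?_ (by omega)
  have hc : Nat.card P = 4 := by
    have : Nontrivial (Fin n) := Fin.nontrivial_iff_two_le.2 (by omega)
    have := two_mul_nat_card_alternatingGroup (α := Fin n)
    rw [Nat.card_perm, Nat.card_fin] at this
    rw [P.card_eq_multiplicity]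
    rcases h with rfl | rfl
    · rw [show Nat.card (alternatingGroup (Fin 4)) = 12 by
        rw [show Nat.factorial 4 = 24 from rfl] at this; omega, Nat.factorization_def _ Nat.prime_two]
      norm_num [padicValNat_def', multiplicity_eq_of_dvd_of_not_dvd (k := 2)
        (show 2 ^ 2 ∣ 12 by norm_num) (by norm_num)]
    · rw [show Nat.card (alternatingGroup (Fin 5)) = 60 by
        rw [show Nat.factorial 5 = 120 from rfl] at this; omega, Nat.factorization_def _ Nat.prime_two]
      norm_num [padicValNat_def', multiplicity_eq_of_dvd_of_not_dvd (k := 2)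
        (show 2 ^ 2 ∣ 60 by norm_num) (by norm_num)]
  refine AltS2.klein_dec _ hc fun g hg => Subtype.ext ?_
  have h4 : g.1 ^ 4 = 1 := congrArg (·.1.1) (hc ▸ pow_card_eq_one' (x := (⟨g, hg⟩ : P.1)))
  have h1 : Equiv.Perm.sign g.1 = 1 := g.2
  change g.1 * g.1 = 1
  generalize g.1 = c at h1 h4
  revert c
  rcases h with rfl | rfl <;> decide +kernel

end Cfsg.Agent.S2221
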