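import Cfsg.Agent.KSG.SymSylow2
import Cfsg.Statements.S2222
-- import your own Cfsg.Agent.* helpers here

set_option autoImplicit false
open Cfsg

namespace Cfsg.Agent.S2222

open Subgroup Cfsg.Agent.KSG.SymSyl

theorem no_six : ∀ g : Equiv.Perm (Fin 5), Equiv.Perm.sign g = 1 → g ^ 6 = 1 →
    g ^ 2 = 1 ∨ g ^ 3 = 1 := by decide +kernel

theorem card_A5 : Nat.card (alternatingGroup (Fin 5)) = 60 := by
  rw [nat_card_alternatingGroup]; simp [Nat.factorial]

theorem five (S : Sylow 2 (alternatingGroup (Fin 5))) {H : Subgroup (alternatingGroup (Fin 5))}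
    (hS : (S : Subgroup _) ≤ H) :
    normalizer (S : Set (alternatingGroup (Fin 5))) ≤
      normalizer (H : Set (alternatingGroup (Fin 5))) := by
  have hsimple : IsSimpleGroup (alternatingGroup (Fin 5)) :=
    alternatingGroup.isSimpleGroup (by simp)
  have hcS : Nat.card S = 4 := by
    rw [S.card_eq_multiplicity, card_A5]
    decide +kernel
  -- proper subgroups have index at least 5
  have hidx : ∀ K : Subgroup (alternatingGroup (Fin 5)), K.index = 3 → False := by
    intro K hK
    rcases hsimple.eq_bot_or_eq_top_of_normal K.normalCore inferInstance with h | h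
    · have h1 : K.normalCore.index ∣ Nat.factorial K.index := by
        rw [normalCore_eq_ker, index_ker]
        have := card_subgroup_dvd_card (MulAction.toPermHom (alternatingGroup (Fin 5))
          (alternatingGroup (Fin 5) ⧸ K)).range
        rwa [Nat.card_perm] at this
      rw [h, index_bot, card_A5, hK] at h1
      exact absurd h1 (by decide)
    · have := K.normalCore_le
      rw [h, top_le_iff] at this
      rw [this, index_top] at hK
      omega
  have hcases : ∀ K : Subgroup (alternatingGroup (Fin 5)), (S : Subgroup _) ≤ K →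
      K = S ∨ K = ⊤ ∨ Nat.card K = 12 := by
    intro K hK
    have h1 : K.index ∣ 15 := by
      have h2 := (S : Subgroup (alternatingGroup (Fin 5))).card_mul_index
      have h3 : (S : Subgroup (alternatingGroup (Fin 5))).index = 15 := by
        rw [card_A5, hcS] at h2
        omega
      exact h3 ▸ index_dvd_of_le hK
    have h2 := K.card_mul_index
    rw [card_A5] at h2
    have h3 : K.index ∈ Nat.divisors 15 := Nat.mem_divisors.mpr ⟨h1, by norm_num⟩
    have h4 : Nat.divisors 15 = {1, 3, 5, 15} := by decide
    rw [h4] at h3
    simp only [Finset.mem_insert, Finset.mem_singleton] at h3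
    rcases h3 with h | h | h | h
    · exact Or.inr (Or.inl (index_eq_one.mp h))
    · exact (hidx K h).elim
    · right; right; rw [h] at h2; omega
    · left
      refine (eq_of_le_of_card_ge hK ?_).symm
      rw [h] at h2
      change _ ≤ Nat.card S
      omega
  rcases hcases H hS with rfl | rfl | h12
  · exact le_rfl
  · rw [normalizer_eq_top]; exact le_top
  -- `H` has order 12: `S` is normal in `H`
  have hSH : H ≤ normalizer (S : Set (alternatingGroup (Fin 5))) := by
    by_contra hne
    have hinf : H ⊓ normalizer (S : Set (alternatingGroup (Fin 5))) = S := by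
      rcases hcases _ (le_inf hS le_normalizer) with h | h | h
      · exact h
      · have h1 : H = ⊤ := top_le_iff.mp (h.ge.trans inf_le_left)
        rw [h1, card_top, card_A5] at h12
        omega
      · exact absurd (inf_eq_left.mp (eq_of_le_of_card_ge inf_le_left (h12.trans h.symm).le)) hne
    have hcomm : IsMulCommutative S := IsPGroup.isMulCommutative_of_card_eq_prime_sq (p := 2) hcS
    have hB : normalizer ((S.subtype hS : Subgroup H) : Set H) ≤
        centralizer ((S.subtype hS : Subgroup H) : Set H) := by
      intro g hg k hk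
      have h1 : g.1 ∈ (S : Subgroup _) := by
        rw [← hinf]
        refine ⟨g.2, mem_normalizer_fintype fun y hy => ?_⟩
        exact (hg ⟨y, hS hy⟩).mp hy
      have h2 := congrArg Subtype.val (hcomm.is_comm.comm ⟨k.1, hk⟩ ⟨g.1, h1⟩)
      exact Subtype.ext h2
    have hc := MonoidHom.ker_transferSylow_isComplement' (S.subtype hS) hB
    set K := (MonoidHom.transferSylow (S.subtype hS) hB).ker with hK
    have hcS' : Nat.card (S.subtype hS : Subgroup H) = 4 := by
      rw [← hcS]
      exact Nat.card_congr (subgroupOfEquivOfLe hS).toEquiv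
    have hK3 : Nat.card K = 3 := by
      have := hc.card_mul
      rw [hcS', h12] at this
      omega
    have : Fact (Nat.Prime 3) := ⟨Nat.prime_three⟩
    have hcyc : IsCyclic K := isCyclic_of_prime_card hK3
    have hA : Nat.card (MulAut K) = 2 := by rw [IsCyclic.card_mulAut, hK3]; decide
    let φ : (S.subtype hS : Subgroup H) →* MulAut K :=
      (MulAut.conjNormal (H := K)).comp (Subgroup.subtype _)
    obtain ⟨z, hz, hz1⟩ : ∃ z ∈ φ.ker, z ≠ 1 := by
      by_contra! h
      have hi : Function.Injective φ := (injective_iff_map_eq_one φ).mpr h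
      have := Nat.card_le_card_of_injective φ hi
      omega
    obtain ⟨x, hx⟩ := exists_prime_orderOf_dvd_card' (G := K) 3 (by rw [hK3])
    have hzx : Commute z.1 x.1 := by
      have := congrArg (fun σ : MulAut K => (σ x : H)) (MonoidHom.mem_ker.mp hz)
      exact mul_inv_eq_iff_eq_mul.mp this
    have hz4 : orderOf z ∣ 2 ^ 2 := (orderOf_dvd_natCard z).trans (by rw [hcS']; rfl)
    obtain ⟨j, hj, hzj⟩ := (Nat.dvd_prime_pow Nat.prime_two).mp hz4
    have hj0 : j ≠ 0 := by
      rintro rfl
      exact hz1 (orderOf_eq_one_iff.mp hzj)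
    have hw : orderOf (z.1 ^ 2 ^ (j - 1)) = 2 := by
      rw [orderOf_pow_of_dvd (by positivity) (by rw [orderOf_coe, hzj]; exact pow_dvd_pow _ (by omega)),
        orderOf_coe, hzj, Nat.pow_div (by omega) (by norm_num), show j - (j - 1) = 1 by omega, pow_one]
    have h6 : orderOf (z.1 ^ 2 ^ (j - 1) * x.1) = 6 := by
      rw [(hzx.pow_left _).orderOf_mul_eq_mul_orderOf_of_coprime
        (by rw [hw, orderOf_coe, hx]; decide), hw, orderOf_coe, hx]
    set y := z.1 ^ 2 ^ (j - 1) * x.1
    have h7 : orderOf (y.1.1) = 6 := by rw [orderOf_coe, orderOf_coe, h6]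
    rcases no_six y.1.1 y.1.2 (h7 ▸ pow_orderOf_eq_one _) with h | h
    · exact absurd (h7 ▸ orderOf_dvd_of_pow_eq_one h) (by decide)
    · exact absurd (h7 ▸ orderOf_dvd_of_pow_eq_one h) (by decide)
  rcases hcases _ (le_normalizer (H := (S : Subgroup (alternatingGroup (Fin 5))))) with h | h | h
  · exact h.le.trans (hS.trans le_normalizer)
  · have hn : (S : Subgroup (alternatingGroup (Fin 5))).Normal := normalizer_eq_top_iff.mp h
    rcases hsimple.eq_bot_or_eq_top_of_normal _ hn with h' | h'
    · have : Nat.card S = 1 := by
        change Nat.card (S : Subgroup (alternatingGroup (Fin 5))) = 1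
        rw [h', card_bot]
      omega
    · have : Nat.card S = 60 := by
        change Nat.card (S : Subgroup (alternatingGroup (Fin 5))) = 60
        rw [h', card_top, card_A5]
      omega
  · exact (eq_of_le_of_card_ge hSH (h.trans h12.symm).le).ge.trans le_normalizer

/-- In the alternating group of degree n ≥ 5 every subgroup H of odd index is pronormal: for every element g, the subgroups H and gHg⁻¹ are conjugate by an element of the subgroup they generate. -/
theorem result (n : ℕ) (hn : 5 ≤ n)
    (H : Subgroup (alternatingGroup (Fin n))) (hH : Odd H.index) : Cfsg.IsPronormal H := by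
  obtain ⟨S, hS⟩ := exists_sylow_le_of_not_dvd (p := 2) (H := H) hH.not_two_dvd_nat
  refine exists_conj_of_sylow_le S hS ?_
  rcases hn.eq_or_lt with rfl | h6
  · exact five S hS
  · exact (selfN_alt (by rw [Fintype.card_fin]; omega) S).trans (hS.trans le_normalizer)

end Cfsg.Agent.S2222
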