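import Cfsg.Statements.S2225
import Cfsg.Agent.Class.Pron.Main

set_option autoImplicit false
open Cfsg

namespace Cfsg.Agent.S2225

open _root_.Cfsg.Agent.Class.Pron

/-- Let F be a finite field and d = 2^w ≥ 2 a power of 2 such that PSL_d(F) is simple. Then every subgroup H of PSL_d(F) of odd index is pronormal: for every g, H and gHg⁻¹ are conjugate by an element of the subgroup they generate. -/
theorem result {F : Type*} [Field F] [Fintype F]
    (w : ℕ) (hw : 1 ≤ w) (hs : IsSimpleGroup (Matrix.ProjectiveSpecialLinearGroup (Fin (2 ^ w)) F))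
    (H : Subgroup (Matrix.ProjectiveSpecialLinearGroup (Fin (2 ^ w)) F)) (hH : Odd H.index) : Cfsg.IsPronormal H := by
  have key : OvN 2 (Subgroup.center (Matrix.SpecialLinearGroup (Fin (2 ^ w)) F)) →
      Cfsg.IsPronormal H := fun h =>
    OvN.pronormal (QuotientGroup.mk' _) (QuotientGroup.mk'_surjective _)
      (by rwa [QuotientGroup.ker_mk']) H hH.not_two_dvd_nat
  by_cases h2 : (2 : F) = 0
  · refine key ?_
    obtain ⟨n, hn⟩ : ∃ n, 2 ^ w = n + 1 := ⟨2 ^ w - 1, (Nat.sub_add_cancel Nat.one_le_two_pow).symm⟩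
    rw [hn]
    exact ovN_SL_even h2 n
  rcases hw.eq_or_lt with rfl | hw
  · obtain ⟨a, b, -, K, -⟩ := JTW.PA.exists_klein h2
    exact pronormal_of_dih (G := Matrix.ProjectiveSpecialLinearGroup (Fin 2) F)
      (fun s h1 hs => ⟨_, JTW.PA.exists_dih h2 h1 hs⟩) ⟨a, b, K⟩ H hH
  · obtain ⟨k, rfl⟩ : ∃ k, w = k + 2 := ⟨w - 2, by omega⟩
    exact key (ovN_SL_odd h2 k)

end Cfsg.Agent.S2225
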