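import Cfsg.Statements.S2226
import Cfsg.Agent.Class.Pron.Main

set_option autoImplicit false
open Cfsg

namespace Cfsg.Agent.S2226

open _root_.Cfsg.Agent.Class.Pron

/-- Let F be a finite field with q² elements and d = 2^w ≥ 4 a power of 2 such that the unitary group PSU_d(q) (realised over F) is simple. Then every subgroup H of PSU_d(q) of odd index is pronormal: for every g, H and gHg⁻¹ are conjugate by an element of the subgroup they generate. -/
theorem result {F : Type*} [Field F] [Fintype F] (q : ℕ)
    (hF : Fintype.card F = q ^ 2) (w : ℕ) (hw : 2 ≤ w) (hs : IsSimpleGroup (Cfsg.PSU (2 ^ w) F q))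
    (H : Subgroup (Cfsg.PSU (2 ^ w) F q)) (hH : Odd H.index) : Cfsg.IsPronormal H := by
  have : Class.U.UF F q := Class.U.UF.of_card hF
  refine OvN.pronormal (p := 2) (QuotientGroup.mk' _) (QuotientGroup.mk'_surjective _) ?_ H
    hH.not_two_dvd_nat
  rw [QuotientGroup.ker_mk']
  by_cases h2 : (2 : F) = 0
  · exact ovN_SU_even h2 _
  · obtain ⟨k, rfl⟩ : ∃ k, w = k + 2 := ⟨w - 2, by omega⟩
    exact ovN_SU_odd h2 k

end Cfsg.Agent.S2226
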