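import Cfsg.Statements.S2227
import Mathlib
import Cfsg.Agent.Lang.TwE62Five

set_option autoImplicit false
open Cfsg

namespace Cfsg.Agent.S2227

/-- In the twisted group ²E₆(2) all elements of order 5 are conjugate, and the centralizer of an element of order 5 is isomorphic to the direct product of a cyclic group of order 5 with the alternating group of degree 8. -/
theorem result {K : Type*} [Field K] [Fintype K] (hK : Fintype.card K = 4) :
    (∀ x y : ↥(Cfsg.Lie.twistedE6 K 2), orderOf x = 5 → orderOf y = 5 → IsConj x y) ∧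
      ∀ x : ↥(Cfsg.Lie.twistedE6 K 2), orderOf x = 5 →
        Nonempty (↥(Subgroup.centralizer ({x} : Set ↥(Cfsg.Lie.twistedE6 K 2))) ≃* (Multiplicative (ZMod 5) × ↥(alternatingGroup (Fin 8)))) := by
  have := TE6.charP_closure hK
  have : Finite (Cfsg.Lie.twistedE6 K 2) := Nat.finite_of_card_ne_zero (by rw [TE6.card_G hK]; norm_num)
  obtain ⟨σ, j, h, ha⟩ := TE6.exists_model hK (algebraMap K (AlgebraicClosure K)) TE6.l225
  obtain ⟨u, hu⟩ := TE6.class5 h ha (by rw [TE6.card_G hK]; norm_num)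
  refine ⟨fun x y hx hy => (hu x hx).symm.trans (hu y hy), fun x hx => ?_⟩
  obtain ⟨σ, j, h, ha⟩ := TE6.exists_model hK (algebraMap K (AlgebraicClosure K)) TE6.l15
  obtain ⟨ζ, hζ⟩ := TE6.exists_root (AlgebraicClosure K) (n := 5) (by decide)
  obtain ⟨v, hv⟩ := h.exists_tz ha.w hζ (L := [3, 0, 0, 0, 0, 1]) (by decide +kernel)
  obtain ⟨g, rfl⟩ := isConj_iff.1 ((hu x hx).symm.trans (hu v
    (by rw [← h.ord, hv, TE6.orderOf_tz hζ _ Nat.prime_five (by decide +kernel)])))
  exact TE6.cent5 (h.comp (MulAut.conj g)) ha hζ hv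

end Cfsg.Agent.S2227
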