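import Cfsg.Statements.S2239
import Mathlib
import Cfsg.Agent.Chev.SzSolv

set_option autoImplicit false
open Cfsg

namespace Cfsg.Agent.S2239

/-- Subfield subgroups of the Suzuki group: let q = 2^(2m+1) and s = 2^(2k+1) with m, k ≥ 1 and 2k+1 dividing 2m+1 (so q is a power of s), both groups realised as stabilisers in SL₄ of the Suzuki–Tits ovoid. Then Sz(q) has a subgroup isomorphic to Sz(s), and any two subgroups of Sz(q) isomorphic to Sz(s) are conjugate. -/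
theorem result {F : Type*} [Field F] [Fintype F] {m : ℕ} (hm : 1 ≤ m) (hF : Fintype.card F = 2 ^ (2 * m + 1)) {K : Type*} [Field K] [Fintype K] {k : ℕ} (hk : 1 ≤ k) (hK : Fintype.card K = 2 ^ (2 * k + 1)) (hdiv : 2 * k + 1 ∣ 2 * m + 1) :
    (∃ S : Subgroup ↥(Cfsg.Sz F m), Nonempty (↥S ≃* ↥(Cfsg.Sz K k))) ∧
    ∀ S₁ S₂ : Subgroup ↥(Cfsg.Sz F m), Nonempty (↥S₁ ≃* ↥(Cfsg.Sz K k)) → Nonempty (↥S₂ ≃* ↥(Cfsg.Sz K k)) →
      ∃ g : ↥(Cfsg.Sz F m), S₂ = S₁.map (MulAut.conj g).toMonoidHom := by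
  have hF' := Chev.SzField.of_fintype hm hF
  have hK' := Chev.SzField.of_fintype hk hK
  refine ⟨?_, ?_⟩
  · obtain ⟨φ⟩ := Chev.Suz.nonempty_ringHom (F := F) K hdiv
    exact ⟨_, ⟨(Chev.Suz.mapSzEquiv φ).symm⟩⟩
  have key : ∀ S : Subgroup ↥(Cfsg.Sz F m), Nonempty (↥S ≃* ↥(Cfsg.Sz K k)) →
      ∃ K₀ : Subfield F, Nat.card K₀ = 2 ^ (2 * k + 1) ∧
        ∃ g : Cfsg.Sz F m, S = (Chev.Suz.subSz K₀).map (MulAut.conj g).toMonoidHom := by
    rintro S ⟨e⟩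
    obtain ⟨K₀, h0, g, hg⟩ := Chev.Suz.eq_conj_subSz_of_not_isSolvable (M := S) (fun h =>
      Chev.Suz.not_isSolvable K (Group.isSolvable_of_surjective (f := e.toMonoidHom) e.surjective))
    obtain ⟨j, hj⟩ := Chev.Suz.exists_szField_subfield K₀ h0
    refine ⟨K₀, ?_, g, hg⟩
    have h1 := Nat.card_congr e.toEquiv
    rw [hg, Subgroup.card_map_of_injective (MulAut.conj g).injective, Chev.Suz.card_subSz,
      Chev.Suz.card_Sz] at h1
    rw [hj.card_eq, Chev.Suz.order_injective h1]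
  intro S₁ S₂ h1 h2
  obtain ⟨K₁, c1, g1, rfl⟩ := key S₁ h1
  obtain ⟨K₂, c2, g2, rfl⟩ := key S₂ h2
  obtain rfl := Chev.Suz.subfield_eq_of_card_eq (c1.trans c2.symm)
  refine ⟨g2 * g1⁻¹, ?_⟩
  rw [Subgroup.map_map]
  congr 1
  ext; simp [mul_assoc]

end Cfsg.Agent.S2239
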