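import Cfsg.Statements.S2240
import Mathlib
import Cfsg.Agent.Chev.SzNorm

set_option autoImplicit false
open Cfsg

namespace Cfsg.Agent.S2240

open Chev Chev.Suz MulAction in
theorem aux {F : Type*} [Field F] {m : ℕ} [SzField F m] (E : Subgroup ↥(Cfsg.Sz F m)) (hE : E ≤ Zp (inf F))
    {n : ℕ} (hn : 2 ≤ n) (hc : Nat.card E = 2 ^ n)
    (h : ∀ x : ↥(Cfsg.Sz F m), E ⊓ E.map (MulAut.conj x).toMonoidHom ≠ ⊥ →
      x ∈ Subgroup.normalizer (E : Set ↥(Cfsg.Sz F m))) : n ∣ 2 * m + 1 := by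
  have hE0 : E ≠ ⊥ := by
    rintro rfl
    have : 1 < 2 ^ n := Nat.one_lt_two_pow (by omega)
    simp at hc; omega
  obtain ⟨⟨s, hs⟩, h1⟩ := Subgroup.ne_bot_iff_exists_ne_one.1 hE0
  obtain ⟨b₀, rfl⟩ := mem_Zp_inf.1 (hE hs)
  have hb : b₀ ≠ 0 := by rintro rfl; exact h1 (Subtype.ext uu_zero)
  have key : ∀ v : F, v ≠ 0 → uu 0 (v * b₀) ∈ E → ∀ w, uu 0 w ∈ E ↔ uu 0 (v * w) ∈ E := by
    intro v hv hvE w
    obtain ⟨l, rfl⟩ := sq_mul_th_surj v
    have hl : l ≠ 0 := by rintro rfl; simp at hv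
    have := h (hh (Units.mk0 l hl)) (by
      rw [Subgroup.ne_bot_iff_exists_ne_one]
      refine ⟨⟨_, hvE, _, hs, hh_conj_zero _ _⟩, fun h => ?_⟩
      exact mul_ne_zero hv hb (uu_eq_one.1 (congrArg Subtype.val h)).2)
    have := Subgroup.mem_normalizer_iff.1 this (uu 0 w)
    rwa [hh_conj_zero] at this
  let K₀ : Subfield F :=
    { carrier := {v | uu 0 (v * b₀) ∈ E}
      zero_mem' := by simp
      one_mem' := by simpa using hs
      add_mem' := fun {a b} ha hb => by simpa [uu_mul, add_mul] using E.mul_mem ha hb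
      neg_mem' := fun {a} ha => by rwa [CharTwo.neg_eq]
      mul_mem' := fun {a b} ha hb => by
        by_cases h0 : a = 0
        · simp [h0]
        · simpa [mul_assoc] using (key a h0 ha _).1 hb
      inv_mem' := fun a ha => by
        by_cases h0 : a = 0
        · simp [h0]
        · exact (key a h0 ha _).2 (by simpa [h0] using hs) }
  have hK : Nat.card K₀ = 2 ^ n := by
    rw [← hc]
    refine Nat.card_congr (Equiv.ofBijective (fun v => ⟨uu 0 (v * b₀), v.2⟩) ⟨?_, ?_⟩)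
    · intro v w hvw
      exact Subtype.ext (mul_right_cancel₀ hb (uu_inj.1 (congrArg Subtype.val hvw)).2)
    · rintro ⟨g, hg⟩
      obtain ⟨b, rfl⟩ := mem_Zp_inf.1 (hE hg)
      exact ⟨⟨b / b₀, by change uu 0 (_ * _) ∈ E; rwa [div_mul_cancel₀ _ hb]⟩, by simp [hb]⟩
  have h1 := Module.natCard_eq_pow_finrank (K := K₀) (V := F)
  rw [card_F F, hK, ← pow_mul] at h1
  exact Dvd.intro _ (Nat.pow_right_injective le_rfl h1).symm

/-- Elementary abelian TI-subgroups of the Suzuki group: let q = 2^(2m+1) with m ≥ 1, the group realised as the stabiliser in SL₄ of the Suzuki–Tits ovoid, and n ≥ 2. There is an elementary abelian 2-subgroup E of order 2^n that is a TI-subgroup (every conjugate of E meeting E nontrivially is E itself) if and only if n divides 2m + 1. -/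
theorem result {F : Type*} [Field F] [Fintype F] {m : ℕ} (hm : 1 ≤ m) (hF : Fintype.card F = 2 ^ (2 * m + 1)) (n : ℕ) (hn : 2 ≤ n) :
    (∃ E : Subgroup ↥(Cfsg.Sz F m), Cfsg.IsElementaryAbelian 2 E ∧ Nat.card ↥E = 2 ^ n ∧
      ∀ x : ↥(Cfsg.Sz F m), E ⊓ E.map (MulAut.conj x).toMonoidHom ≠ ⊥ → x ∈ Subgroup.normalizer (E : Set ↥(Cfsg.Sz F m))) ↔ n ∣ 2 * m + 1 := by
  have hF' := Chev.SzField.of_fintype hm hF
  have : Fact (Nat.Prime 2) := ⟨Nat.prime_two⟩
  constructor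
  · rintro ⟨E, hE, hc, h⟩
    obtain ⟨p, hp⟩ := Chev.Suz.exists_le_Qp (IsPGroup.of_card hc)
    obtain ⟨k, rfl⟩ := Chev.Suz.exists_smul_inf p
    refine aux (E.map (MulAut.conj k⁻¹).toMonoidHom) ?_ hn
      (by rw [Subgroup.card_map_of_injective (MulAut.conj k⁻¹).injective, hc]) ?_
    · rintro _ ⟨g, hg, rfl⟩
      simpa using (Chev.Suz.conj_mem_Zp_iff k g _).2 ⟨(hp hg).1, hE.2 g hg⟩
    · intro x hx
      have e : (E.map (MulAut.conj k⁻¹).toMonoidHom).map (MulAut.conj x).toMonoidHom =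
          (E.map (MulAut.conj (k * x * k⁻¹)).toMonoidHom).map (MulAut.conj k⁻¹).toMonoidHom := by
        rw [Subgroup.map_map, Subgroup.map_map]; congr 1; ext; simp [mul_assoc]
      rw [e, ← Subgroup.map_inf _ _ _ (MulAut.conj k⁻¹).injective, Ne,
        Subgroup.map_eq_bot_iff_of_injective _ (MulAut.conj k⁻¹).injective] at hx
      have := h _ hx
      rw [Subgroup.mem_normalizer_iff_map_conj_eq] at this ⊢
      exact e.trans (congrArg _ this)
  · intro hd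
    obtain ⟨k, rfl⟩ : ∃ k, n = 2 * k + 1 := Odd.of_dvd_nat ⟨m, rfl⟩ hd
    have hK : Chev.SzField (GaloisField 2 (2 * k + 1)) k := ⟨by omega, GaloisField.card 2 _ (by omega)⟩
    obtain ⟨φ⟩ := Chev.Suz.nonempty_ringHom (F := F) (GaloisField 2 (2 * k + 1)) hd
    have hmem : ∀ g, g ∈ (Chev.Suz.Zp (Chev.Suz.inf _)).map (Chev.Suz.mapSz φ) ↔
        ∃ b, g = Chev.Suz.uu 0 (φ b) := by
      intro g
      constructor
      · rintro ⟨g, hg, rfl⟩
        obtain ⟨b, rfl⟩ := Chev.Suz.mem_Zp_inf.1 hg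
        exact ⟨b, by simp⟩
      · rintro ⟨b, rfl⟩
        exact ⟨_, Chev.Suz.mem_Zp_inf.2 ⟨b, rfl⟩, by simp⟩
    refine ⟨(Chev.Suz.Zp (Chev.Suz.inf _)).map (Chev.Suz.mapSz φ), ⟨⟨⟨?_⟩⟩, ?_⟩, ?_, ?_⟩
    · rintro ⟨a, ha⟩ ⟨b, hb⟩
      obtain ⟨a, rfl⟩ := (hmem _).1 ha
      obtain ⟨b, rfl⟩ := (hmem _).1 hb
      exact Subtype.ext (Chev.Suz.uu_zero_comm _ _ _)
    · intro a ha
      obtain ⟨a, rfl⟩ := (hmem _).1 ha
      exact Chev.Suz.uu_sq_eq_one.2 rfl
    · rw [Subgroup.card_map_of_injective (Chev.Suz.mapSz_injective φ), Chev.Suz.card_Zp]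
    · intro x hx
      obtain ⟨⟨s, h1, t, h2, h3⟩, h4⟩ := Subgroup.ne_bot_iff_exists_ne_one.1 hx
      have h5 : s ≠ 1 := fun h => h4 (Subtype.ext h)
      obtain ⟨v, rfl⟩ := (hmem _).1 h1
      obtain ⟨w, rfl⟩ := (hmem _).1 h2
      have h6 := Chev.Suz.Zp_point_unique (Chev.Suz.uu_mem_Zp.2 rfl) (p' := x • Chev.Suz.inf F)
        (by rw [← h3]; exact (Chev.Suz.conj_mem_Zp_iff' x _ _).2 (Chev.Suz.uu_mem_Zp.2 rfl)) h5
      obtain ⟨a, b, l, rfl⟩ := (Chev.Suz.smul_inf_eq_iff x).1 h6.symm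
      have h7 := (Chev.Suz.uu_inj.1 ((Chev.Suz.stab_conj_zero a b l _).symm.trans h3)).2
      have h8 : φ w ≠ 0 := by
        intro h; rw [h, mul_zero] at h7
        exact h5 (by rw [← h7, Chev.Suz.uu_zero])
      apply Subgroup.mem_normalizer_fintype
      intro g hg
      obtain ⟨c, rfl⟩ := (hmem _).1 hg
      rw [Chev.Suz.stab_conj_zero]
      exact (hmem _).2 ⟨v / w * c, by rw [map_mul, map_div₀, ← h7, mul_div_cancel_right₀ _ h8]⟩

end Cfsg.Agent.S2240
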