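import Cfsg.Statements.S2244
import Cfsg.Agent.St.WeakClosed
import Cfsg.Agent.Chev.Types
-- import your own Cfsg.Agent.* helpers here

set_option autoImplicit false
open Cfsg

namespace Cfsg.Agent.S2244

open Cfsg.Lie Cfsg.Agent.Chev Cfsg.Agent.St

theorem exists_one {F : Type*} [Field F] [Fintype F] (h2 : Fintype.card F ≠ 2) :
    ∃ c : F, c ≠ 0 ∧ ∀ n : ℕ, 0 < n → n ≤ 1 → c ^ n ≠ 1 := by
  classical
  have h1 := Fintype.one_lt_card (α := F)
  obtain ⟨c, -, hc⟩ := Finset.exists_mem_notMem_of_card_lt_card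
    (s := ({0, 1} : Finset F)) (t := Finset.univ)
    (Finset.card_le_two.trans_lt (by rw [Finset.card_univ]; omega))
  simp only [Finset.mem_insert, Finset.mem_singleton, not_or] at hc
  refine ⟨c, hc.1, fun n h0 h1 => ?_⟩
  obtain rfl : n = 1 := by omega
  rw [pow_one]
  exact hc.2

theorem exists_two {F : Type*} [Field F] [Fintype F] (h2 : Fintype.card F ≠ 2)
    (h3 : Fintype.card F ≠ 3) : ∃ c : F, c ≠ 0 ∧ ∀ n : ℕ, 0 < n → n ≤ 2 → c ^ n ≠ 1 := by
  classical
  have h1 := Fintype.one_lt_card (α := F)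
  obtain ⟨c, -, hc⟩ := Finset.exists_mem_notMem_of_card_lt_card
    (s := ({0, 1, -1} : Finset F)) (t := Finset.univ)
    (Finset.card_le_three.trans_lt (by rw [Finset.card_univ]; omega))
  simp only [Finset.mem_insert, Finset.mem_singleton, not_or] at hc
  refine ⟨c, hc.1, fun n h0 h1 => ?_⟩
  interval_cases n
  · rw [pow_one]
    exact hc.2.1
  · intro e
    rcases sq_eq_one_iff.1 e with e | e
    exacts [hc.2.1 e, hc.2.2 e]

/-- Weakly closed unipotent subgroups of Chevalley groups: let G be the Chevalley group of type G₂, B₂, D₄, F₄, E₆, E₇ or E₈ over a finite field F (the matrix group generated by the root elements), with |F| ≠ 2, and |F| ≠ 3 as well for the types G₂, B₂, D₄, F₄. Let U be the subgroup generated by the positive root subgroups. If X ≤ U is weakly closed in U with respect to G (every G-conjugate of X lying in U equals X), then X is the unipotent radical U_J of a standard parabolic subgroup for some set J of fundamental roots.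 -/
theorem result {F : Type*} [Field F] [Fintype F] (D : Cfsg.Lie.ChevalleyDatum) (hD : D ∈ [Cfsg.Lie.chevG2, Cfsg.Lie.chevB2, Cfsg.Lie.chevD4, Cfsg.Lie.chevF4, Cfsg.Lie.chevE6, Cfsg.Lie.chevE7, Cfsg.Lie.chevE8])
    (h2 : Fintype.card F ≠ 2) (h3 : D ∈ [Cfsg.Lie.chevG2, Cfsg.Lie.chevB2, Cfsg.Lie.chevD4, Cfsg.Lie.chevF4] → Fintype.card F ≠ 3)
    (X : Subgroup (GL D.Idx F)) (hXU : X ≤ D.posUnipotent F)
    (hwc : ∀ g ∈ D.group F, X.map (MulAut.conj g).toMonoidHom ≤ D.posUnipotent F → X.map (MulAut.conj g).toMonoidHom = X) :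
    ∃ J : Set ℕ, (∀ j ∈ J, j < D.rank) ∧ X = D.unipotentRadical F J := by
  obtain ⟨inst⟩ := Cfsg.Agent.Chev.good_of_mem hD
  obtain ⟨T⟩ := exists_rootTable hD
  have hXG : X ≤ D.group F := by
    rw [posUnipotent_eq] at hXU
    exact hXU.trans (Us_le_Gs.trans group_eq.ge)
  obtain ⟨J, hJ, h1, hP, hy⟩ := weaklyClosed_setup isSt_xC T (X := X.subgroupOf (D.group F))
    (isND_xC T) Gs_xC (fun y hy => mem_Us_xC.2 (posUnipotent_eq (D := D) (F := F) ▸ hXU hy))
    (fun g hg y hy => by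
      have := hwc g g.2 (by
        rintro _ ⟨z, hz, rfl⟩
        rw [posUnipotent_eq]
        exact mem_Us_xC.1 (hg ⟨z, hXG hz⟩ hz))
      rw [Subgroup.mem_subgroupOf, ← this]
      exact ⟨y, hy, rfl⟩)
  have h2' : UJ D (xC D F) J ≤ X.subgroupOf (D.group F) := by
    simp only [List.mem_cons, List.not_mem_nil, or_false] at hD h3
    obtain ⟨c, hc0, hc⟩ := exists_one h2
    rcases hD with rfl | rfl | rfl | rfl | rfl | rfl | rfl
    · obtain ⟨c, hc0, hc⟩ := exists_two h2 (h3 (by simp))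
      exact UJ_le_G2 isSt_xC hc0 hc hP hy
    · obtain ⟨c, hc0, hc⟩ := exists_two h2 (h3 (by simp))
      exact UJ_le_of_wcData isSt_xC T wcDataB2 hc0 hc hP hy
    · obtain ⟨c, hc0, hc⟩ := exists_two h2 (h3 (by simp))
      exact UJ_le_of_wcData isSt_xC T wcDataD4 hc0 hc hP hy
    · obtain ⟨c, hc0, hc⟩ := exists_two h2 (h3 (by simp))
      exact UJ_le_of_wcData isSt_xC T wcDataF4 hc0 hc hP hy
    · exact UJ_le_of_wcData isSt_xC T wcDataE6 hc0 hc hP hy
    · exact UJ_le_of_wcData isSt_xC T wcDataE7 hc0 hc hP hy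
    · exact UJ_le_of_wcData isSt_xC T wcDataE8 hc0 hc hP hy
  refine ⟨J, hJ, ?_⟩
  have e := le_antisymm h1 h2'
  rw [UJ_xC] at e
  rw [unipotentRadical_eq]
  have hUG : UJ D (xG D F) J ≤ D.group F :=
    (T.UJ_le_Us J).trans (Us_le_Gs.trans group_eq.ge)
  rw [← inf_eq_left.2 hXG, ← inf_eq_left.2 hUG]
  exact Subgroup.subgroupOf_inj.1 e

end Cfsg.Agent.S2244
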