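import Cfsg.Statements.S2251
import Mathlib
import Cfsg.Agent.Chev.SzSub

set_option autoImplicit false
open Cfsg

namespace Cfsg.Agent.S2251

/-- The subgroups of the Suzuki group: with q = 2^(2m+1), m ≥ 1, r = 2^m and the group realised as the stabiliser in SL₄ of the Suzuki–Tits ovoid, every proper subgroup is contained in the normalizer of a Sylow 2-subgroup, or in the normalizer of a cyclic subgroup of order q − 1, q + 2r + 1 or q − 2r + 1, or in a subgroup isomorphic to a smaller Suzuki group Sz(s) with s = 2^(2k+1) ≥ 8 and 2k+1 a proper divisor of 2m+1. -/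
theorem result {F : Type*} [Field F] [Fintype F] {m : ℕ} (hm : 1 ≤ m) (hF : Fintype.card F = 2 ^ (2 * m + 1)) (M : Subgroup ↥(Cfsg.Sz F m)) (hM : M ≠ ⊤) :
    (∃ P : Sylow 2 ↥(Cfsg.Sz F m), M ≤ Subgroup.normalizer ((P : Subgroup ↥(Cfsg.Sz F m)) : Set ↥(Cfsg.Sz F m))) ∨
    (∃ U : Subgroup ↥(Cfsg.Sz F m), IsCyclic ↥U ∧ Nat.card ↥U ∈ ({2 ^ (2 * m + 1) - 1, 2 ^ (2 * m + 1) + 2 ^ (m + 1) + 1, 2 ^ (2 * m + 1) - 2 ^ (m + 1) + 1} : Set ℕ) ∧
      M ≤ Subgroup.normalizer (U : Set ↥(Cfsg.Sz F m))) ∨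
    (∃ (K : Type) (_ : Field K) (_ : Fintype K) (k : ℕ), 1 ≤ k ∧ k < m ∧ Fintype.card K = 2 ^ (2 * k + 1) ∧ 2 * k + 1 ∣ 2 * m + 1 ∧
      ∃ S : Subgroup ↥(Cfsg.Sz F m), Nonempty (↥S ≃* ↥(Cfsg.Sz K k)) ∧ M ≤ S) := by
  have := Chev.SzField.of_fintype hm hF
  rcases Chev.Suz.subgroup_cases M with ⟨p, hp⟩ | ⟨U, hU, h⟩ | ⟨K₀, h0, g, hg⟩
  · exact Or.inl ⟨Chev.Suz.sylowAt p, by rwa [Chev.Suz.coe_sylowAt, Chev.Suz.normalizer_Qp]⟩
  · exact Or.inr (Or.inl ⟨U, hU.1, hU.2, h⟩)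
  obtain ⟨k, hk⟩ := Chev.Suz.exists_szField_subfield K₀ h0
  have : Fact (Nat.Prime 2) := ⟨Nat.prime_two⟩
  let _ := Fintype.ofFinite (GaloisField 2 (2 * k + 1))
  let _ := Fintype.ofFinite K₀
  have hc : Fintype.card (GaloisField 2 (2 * k + 1)) = 2 ^ (2 * k + 1) := by
    rw [← Nat.card_eq_fintype_card, GaloisField.card 2 _ (by omega)]
  have hK := Chev.SzField.of_fintype hk.one_le hc
  have e : GaloisField 2 (2 * k + 1) ≃+* K₀ := FiniteField.ringEquivOfCardEq (by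
    rw [hc, ← Nat.card_eq_fintype_card, hk.card_eq])
  have hd := Chev.Suz.dvd_of_ringHom K₀.subtype
  have hr : (K₀.subtype.comp e.toRingHom).fieldRange = K₀ := by
    ext x
    refine ⟨by rintro ⟨y, rfl⟩; exact (e y).2, fun hx => ⟨e.symm ⟨x, hx⟩, by simp⟩⟩
  refine Or.inr (Or.inr ⟨GaloisField 2 (2 * k + 1), inferInstance, inferInstance, k, hk.one_le, ?_, hc,
    hd, M, ⟨?_⟩, le_rfl⟩)
  · have h1 := Nat.le_of_dvd (by omega) hd
    by_contra h2
    obtain rfl : k = m := by omega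
    apply hM
    have h3 : K₀ = ⊤ := Chev.Suz.subfield_eq_of_card_eq (by
      rw [hk.card_eq, Nat.card_congr Subfield.topEquiv.toEquiv, this.card_eq])
    rw [hg, h3, Chev.Suz.subSz_top, Subgroup.map_top_of_surjective _ (MulAut.conj g).surjective]
  · rw [hg]
    exact (((Chev.Suz.mapSzEquiv (K₀.subtype.comp e.toRingHom)).trans
      (MulEquiv.subgroupCongr (by rw [hr]))).trans ((MulAut.conj g).subgroupMap _)).symm

end Cfsg.Agent.S2251
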