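import Cfsg.Statements.S2254
import Mathlib
import Cfsg.Agent.KSG.NilSym2

set_option autoImplicit false
open Cfsg

namespace Cfsg.Agent.S2254

open Cfsg.Agent.KSG.NilSym

/-- Let n ≡ 3 (mod 4). Then every nilpotent subgroup of the symmetric group on n letters has order at most 3 times the order of a Sylow 2-subgroup of the symmetric group on n − 3 letters; the bound is attained by a nilpotent subgroup isomorphic to the direct product of such a Sylow 2-subgroup with a cyclic group of order 3; and any two nilpotent subgroups attaining the bound are conjugate. -/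
theorem result  (n : ℕ) (hn : n % 4 = 3)
    (P : Sylow 2 (Equiv.Perm (Fin (n - 3)))) :
    (∀ N : Subgroup (Equiv.Perm (Fin n)), Group.IsNilpotent N → Nat.card N ≤ 3 * Nat.card P) ∧
    (∃ M : Subgroup (Equiv.Perm (Fin n)), Group.IsNilpotent M ∧ Nat.card M = 3 * Nat.card P ∧
      Nonempty (M ≃* (↥(P : Subgroup (Equiv.Perm (Fin (n - 3)))) × Multiplicative (ZMod 3)))) ∧
    (∀ N₁ N₂ : Subgroup (Equiv.Perm (Fin n)), Group.IsNilpotent N₁ → Group.IsNilpotent N₂ →
      Nat.card N₁ = 3 * Nat.card P → Nat.card N₂ = 3 * Nat.card P →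
      ∃ g : Equiv.Perm (Fin n), N₂ = N₁.map (MulAut.conj g).toMonoidHom) := by
  have hP := card_sylow_perm P
  rw [Fintype.card_fin] at hP
  have key := fun (N : Subgroup (Equiv.Perm (Fin n))) (hN : Group.IsNilpotent N) =>
    card_le_three_mul_s2 hN (by simpa using hn)
  rw [Fintype.card_fin, ← hP] at key
  refine ⟨fun N hN => (key N hN).1, ?_, fun N₁ N₂ n₁ n₂ c₁ c₂ => ?_⟩
  · obtain ⟨φ, hφ, -⟩ := exists_prod_hom (α := Fin n) (β := Fin (n - 3)) (by simp; omega)
    exact exists_nil_of_hom P.isPGroup'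
      (φ.comp ((P : Subgroup (Equiv.Perm (Fin (n - 3)))).subtype.prodMap (MonoidHom.id _)))
      (hφ.comp (Subtype.val_injective.prodMap Function.injective_id))
  · obtain ⟨g, -, hg⟩ := conj_of_ext (E := ⊤) (fun N _ hN => (key N hN).2) (fun c d hc hd => by
      obtain ⟨g, hg⟩ := isConj_iff.1 (Equiv.Perm.isConj_iff_cycleType_eq.2 (hc.cycleType.trans hd.cycleType.symm))
      exact ⟨g, trivial, hg⟩) le_top le_top n₁ n₂ c₁ c₂
    exact ⟨g, hg⟩

end Cfsg.Agent.S2254
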