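import Cfsg.Statements.S2256
import Mathlib
import Cfsg.Agent.KSG.NilSym2

set_option autoImplicit false
open Cfsg

namespace Cfsg.Agent.S2256

open Cfsg.Agent.KSG.NilSym

/-- Let n ≡ 3 (mod 4) with n ≥ 7. Then every nilpotent subgroup of the alternating group on n letters has order at most 3 times the order of a Sylow 2-subgroup of the alternating group on n − 3 letters; the bound is attained by a nilpotent subgroup isomorphic to the direct product of such a Sylow 2-subgroup with a cyclic group of order 3; and any two nilpotent subgroups of the alternating group attaining the bound are conjugate in it. -/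
theorem result  (n : ℕ) (hn : n % 4 = 3) (h7 : 7 ≤ n)
    (P : Sylow 2 (alternatingGroup (Fin (n - 3)))) :
    (∀ N : Subgroup (alternatingGroup (Fin n)), Group.IsNilpotent N → Nat.card N ≤ 3 * Nat.card P) ∧
    (∃ M : Subgroup (alternatingGroup (Fin n)), Group.IsNilpotent M ∧ Nat.card M = 3 * Nat.card P ∧
      Nonempty (M ≃* (↥(P : Subgroup (alternatingGroup (Fin (n - 3)))) × Multiplicative (ZMod 3)))) ∧
    (∀ N₁ N₂ : Subgroup (alternatingGroup (Fin n)), Group.IsNilpotent N₁ → Group.IsNilpotent N₂ →
      Nat.card N₁ = 3 * Nat.card P → Nat.card N₂ = 3 * Nat.card P →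
      ∃ g : alternatingGroup (Fin n), N₂ = N₁.map (MulAut.conj g).toMonoidHom) := by
  have hP := two_mul_card_sylow_alt (by simp; omega) P
  rw [Fintype.card_fin] at hP
  have h3 := s2_add_three_of_mod (n := n - 3) (by omega)
  rw [Nat.sub_add_cancel (by omega)] at h3
  have hpos := s2_pos (n - 3)
  have key : ∀ N ≤ alternatingGroup (Fin n), Group.IsNilpotent N → Nat.card N ≤ 3 * Nat.card P ∧
      (Nat.card N = 3 * Nat.card P → ∃ M, Ext (alternatingGroup (Fin n)) N M) := by
    intro N hA hN
    have h := alt_cases hN hA (by simp; omega)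
    rw [Fintype.card_fin] at h
    rcases h with h | h | h | h | h | ⟨rfl, h⟩ | ⟨⟨h, h'⟩, -⟩
    · exact ⟨by omega, fun e => by omega⟩
    · omega
    · omega
    · omega
    · omega
    · have : 8 ≤ s2 (7 - 3) := s2_small.2.2.1
      exact ⟨by omega, fun e => by omega⟩
    · exact ⟨by omega, fun e => h' (by omega)⟩
  refine ⟨fun N hN => ?_, ?_, fun N₁ N₂ n₁ n₂ c₁ c₂ => ?_⟩
  · have := (key (N.map (alternatingGroup (Fin n)).subtype) (Subgroup.map_subtype_le _)
      (Group.nilpotent_of_mulEquiv (N.equivMapOfInjective _ Subtype.val_injective))).1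
    rwa [Subgroup.card_subtype] at this
  · obtain ⟨φ, hφ, hs⟩ := exists_prod_hom (α := Fin n) (β := Fin (n - 3)) (by simp; omega)
    refine exists_nil_of_hom P.isPGroup'
      ((φ.comp (((alternatingGroup (Fin (n - 3))).subtype.comp
        (P : Subgroup (alternatingGroup (Fin (n - 3)))).subtype).prodMap
        (MonoidHom.id _))).codRestrict (alternatingGroup (Fin n)) ?_) ?_
    · intro x
      rw [Equiv.Perm.mem_alternatingGroup, MonoidHom.comp_apply, hs]
      exact x.1.1.2
    · rw [MonoidHom.injective_codRestrict]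
      exact hφ.comp ((Subtype.val_injective.comp Subtype.val_injective).prodMap Function.injective_id)
  · obtain ⟨g, hg, e⟩ := conj_of_ext (E := alternatingGroup (Fin n))
      (N₁ := N₁.map (alternatingGroup (Fin n)).subtype) (N₂ := N₂.map (alternatingGroup (Fin n)).subtype)
      (fun N hA hN => (key N hA hN).2) (fun c d hc hd => by
      obtain ⟨g, hg⟩ := isConj_iff.1 (alternatingGroup.isThreeCycle_isConj (by simp; omega)
        (σ := ⟨c, hc.mem_alternatingGroup⟩) (τ := ⟨d, hd.mem_alternatingGroup⟩) hc hd)
      exact ⟨g, g.2, congrArg Subtype.val hg⟩) (Subgroup.map_subtype_le _) (Subgroup.map_subtype_le _)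
      (Group.nilpotent_of_mulEquiv (N₁.equivMapOfInjective _ Subtype.val_injective))
      (Group.nilpotent_of_mulEquiv (N₂.equivMapOfInjective _ Subtype.val_injective))
      (by rw [Subgroup.card_subtype, c₁]) (by rw [Subgroup.card_subtype, c₂])
    refine ⟨⟨g, hg⟩, Subgroup.map_injective (alternatingGroup (Fin n)).subtype_injective ?_⟩
    rw [e, Subgroup.map_map, Subgroup.map_map]
    congr 1

end Cfsg.Agent.S2256
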