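import Cfsg.Statements.S2259
import Mathlib
import Cfsg.Agent.Chev.SzSolub
import Cfsg.Agent.Chev.SzLie

set_option autoImplicit false
open Cfsg

namespace Cfsg.Agent.S2259

theorem card_solub {G H : Type*} [Group G] [Group H] (e : G ≃* H) (x : G) :
    Nat.card {y : G // Group.IsSolvable ↥(Subgroup.closure ({x, y} : Set G))} =
      (Chev.Suz.solub (e x)).ncard := by
  refine Nat.card_congr (e.toEquiv.subtypeEquiv fun y => ?_)
  have h : Subgroup.closure ({e x, e y} : Set H) = (Subgroup.closure ({x, y} : Set G)).map (e : G →* H) := by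
    rw [MonoidHom.map_closure, Set.image_pair]; rfl
  change _ ↔ Group.IsSolvable (Subgroup.closure ({e x, e y} : Set H))
  rw [h]
  let f := e.subgroupMap (Subgroup.closure ({x, y} : Set G))
  exact ⟨fun _ => Group.isSolvable_of_surjective (f := f.toMonoidHom) f.surjective,
    fun _ => Group.isSolvable_of_isSolvable_injective (f := f.toMonoidHom) f.injective⟩

/-- Let G be the Suzuki group Sz(q), q = 2^(2m+1) with 2m + 1 prime and m ≥ 1, realised inside Sp_4(F) for F the field of order q, write r = 2^(m+1) (so r² = 2q), and for x ∈ G call the solubilizer of x the set of y ∈ G such that x and y generate a solvable subgroup. Then the solubilizer of an involution has q²(4q − 3) elements; that of an element of order 4 has q²(q + 3) elements; that of a non-identity element of order dividing q − 1 has 2q²(q − 1) elements; that of a non-identity element of order dividing q + r + 1 has 4(q + r + 1) elements; and that of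 a non-identity element of order dividing q − r + 1 has 4(q − r + 1) elements. -/
theorem result {F : Type*} [Field F] [Fintype F] {m : ℕ} (hm : 1 ≤ m)
    (hp : (2 * m + 1).Prime) (hF : Fintype.card F = 2 ^ (2 * m + 1)) (x : ↥(Cfsg.Lie.Sz F (2 ^ (m + 1)))) :
    (orderOf x = 2 → Nat.card {y : ↥(Cfsg.Lie.Sz F (2 ^ (m + 1))) // Group.IsSolvable ↥(Subgroup.closure ({x, y} : Set (↥(Cfsg.Lie.Sz F (2 ^ (m + 1))))))} = (2 ^ (2 * m + 1)) ^ 2 * (4 * 2 ^ (2 * m + 1) - 3)) ∧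
    (orderOf x = 4 → Nat.card {y : ↥(Cfsg.Lie.Sz F (2 ^ (m + 1))) // Group.IsSolvable ↥(Subgroup.closure ({x, y} : Set (↥(Cfsg.Lie.Sz F (2 ^ (m + 1))))))} = (2 ^ (2 * m + 1)) ^ 2 * (2 ^ (2 * m + 1) + 3)) ∧
    (x ≠ 1 → orderOf x ∣ 2 ^ (2 * m + 1) - 1 →
      Nat.card {y : ↥(Cfsg.Lie.Sz F (2 ^ (m + 1))) // Group.IsSolvable ↥(Subgroup.closure ({x, y} : Set (↥(Cfsg.Lie.Sz F (2 ^ (m + 1))))))} = 2 * (2 ^ (2 * m + 1)) ^ 2 * (2 ^ (2 * m + 1) - 1)) ∧
    (x ≠ 1 → orderOf x ∣ 2 ^ (2 * m + 1) + 2 ^ (m + 1) + 1 → Nat.card {y : ↥(Cfsg.Lie.Sz F (2 ^ (m + 1))) // Group.IsSolvable ↥(Subgroup.closure ({x, y} : Set (↥(Cfsg.Lie.Sz F (2 ^ (m + 1))))))} = 4 * (2 ^ (2 * m + 1) + 2 ^ (m + 1) + 1)) ∧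
    (x ≠ 1 → orderOf x ∣ 2 ^ (2 * m + 1) - 2 ^ (m + 1) + 1 → Nat.card {y : ↥(Cfsg.Lie.Sz F (2 ^ (m + 1))) // Group.IsSolvable ↥(Subgroup.closure ({x, y} : Set (↥(Cfsg.Lie.Sz F (2 ^ (m + 1))))))} = 4 * (2 ^ (2 * m + 1) - 2 ^ (m + 1) + 1)) := by
  have hF' := Chev.SzField.of_fintype hm hF
  rw [card_solub (Chev.Suz.lieEquiv F).symm, ← (Chev.Suz.lieEquiv F).symm.orderOf_eq,
    ← (Chev.Suz.lieEquiv F).symm.map_ne_one_iff]
  generalize (Chev.Suz.lieEquiv F).symm x = y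
  have c1 := (Chev.Suz.coprime_sub_one m)
  have c3 := Chev.Suz.coprime_plus_minus m
  refine ⟨fun h => ?_, fun h => ?_, fun h1 h => ?_, fun h1 h => ?_, fun h1 h => ?_⟩
  · exact Chev.Suz.ncard_solub_involution (h ▸ pow_orderOf_eq_one y) (by rintro rfl; simp at h)
  · exact Chev.Suz.ncard_solub_four (pow_ne_one_of_lt_orderOf two_ne_zero (by omega))
      (orderOf_dvd_iff_pow_eq_one.1 h.dvd)
  · rcases Chev.Suz.trichotomy y with h2 | ⟨p, h2⟩ | ⟨p, p', h2, h3, h4⟩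
    · exact absurd (orderOf_eq_one_iff.1 (Nat.eq_one_of_dvd_coprimes c1 h2.orderOf_dvd h)) h1
    · exact absurd h2 (Chev.Suz.not_mem_Qp_of_odd h1 ((Chev.Suz.odd_q_sub_one m).of_dvd_nat h) p)
    · exact Chev.Suz.ncard_solub_split h2 h1 h3 h4
  · have h2 := Chev.Suz.fpf_of_orderOf_dvd h1 (h.trans (Chev.Suz.plus_dvd m))
    rw [h2.ncard_solub, h2.card_tor.resolve_right fun h3 => h1 (orderOf_eq_one_iff.1
      (Nat.eq_one_of_dvd_coprimes c3 h (h3 ▸ Subgroup.orderOf_dvd_natCard _ (Chev.Suz.self_mem_tor y))))]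
  · have h2 := Chev.Suz.fpf_of_orderOf_dvd h1 (h.trans (Chev.Suz.minus_dvd m))
    rw [h2.ncard_solub, h2.card_tor.resolve_left fun h3 => h1 (orderOf_eq_one_iff.1
      (Nat.eq_one_of_dvd_coprimes c3 (h3 ▸ Subgroup.orderOf_dvd_natCard _ (Chev.Suz.self_mem_tor y)) h))]

end Cfsg.Agent.S2259
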