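import Cfsg.Statements.S2268
import Mathlib

set_option autoImplicit false
open Cfsg

namespace Cfsg.Agent.S2268

open Subgroup in
theorem frattini_decomp {G : Type*} [Group G] [Finite G] {p : ℕ} [Fact p.Prime]
    (P : Sylow p G) (hP : IsMulCommutative (P : Subgroup G)) (Q : Subgroup G) (hQ : Q ≤ (P : Subgroup G))
    (g : G) (hg : g ∈ normalizer (Q : Set G)) :
    ∃ c ∈ centralizer (Q : Set G), c * g ∈ normalizer ((P : Subgroup G) : Set G) := by
  have h1 : (P : Subgroup G) ≤ centralizer (Q : Set G) :=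
    (P : Subgroup G).le_centralizer.trans (centralizer_le (by exact_mod_cast hQ))
  have h2 : ((g • P : Sylow p G) : Subgroup G) ≤ centralizer (Q : Set G) := by
    rintro - ⟨z, hz, rfl⟩
    intro y hy
    have hy' : g⁻¹ * y * g ∈ Q := (mem_normalizer_iff''.1 hg y).1 hy
    have := h1 hz _ hy'
    simp only [MulDistribMulAction.toMonoidEnd_apply, MulDistribMulAction.toMonoidHom_apply,
      MulAut.smul_def, MulAut.conj_apply]
    calc y * (g * z * g⁻¹) = g * ((g⁻¹ * y * g) * z) * g⁻¹ := by group
      _ = g * (z * (g⁻¹ * y * g)) * g⁻¹ := by rw [this]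
      _ = g * z * g⁻¹ * y := by group
  obtain ⟨h, hh⟩ :=
    MulAction.exists_smul_eq (centralizer (Q : Set G)) ((g • P).subtype h2) (P.subtype h1)
  simp_rw [Sylow.smul_subtype, Subgroup.smul_def, smul_smul] at hh
  exact ⟨h, h.2, Sylow.smul_eq_iff_mem_normalizer.mp (Sylow.subtype_injective hh)⟩


/-- Let G be a finite group with an abelian Sylow p-subgroup P and let Q ≤ P. Then N_G(Q) = (N_G(Q) ∩ N_G(P))·C_G(Q), so that N_G(Q)/C_G(Q) is a homomorphic image of the subgroup (N_G(Q) ∩ N_G(P))/C_G(P) of N_G(P)/C_G(P); in particular the order of N_G(Q)/C_G(Q) divides the order of N_G(P)/C_G(P). -/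
theorem result {G : Type*} [Group G] [Finite G] {p : ℕ} [Fact p.Prime]
    (P : Sylow p G) (hP : IsMulCommutative (P : Subgroup G)) (Q : Subgroup G) (hQ : Q ≤ (P : Subgroup G)) :
    Subgroup.normalizer (Q : Set G) =
      (Subgroup.normalizer (Q : Set G) ⊓ Subgroup.normalizer ((P : Subgroup G) : Set G)) ⊔ Subgroup.centralizer (Q : Set G) ∧
    ((Subgroup.centralizer (Q : Set G)).subgroupOf (Subgroup.normalizer (Q : Set G))).index ∣ ((Subgroup.centralizer ((P : Subgroup G) : Set G)).subgroupOf (Subgroup.normalizer ((P : Subgroup G) : Set G))).index := by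
  have hCN : Subgroup.centralizer (Q : Set G) ≤ Subgroup.normalizer (Q : Set G) :=
    Subgroup.centralizer_le_normalizer _
  have key : Subgroup.normalizer (Q : Set G) =
      (Subgroup.normalizer (Q : Set G) ⊓ Subgroup.normalizer ((P : Subgroup G) : Set G)) ⊔ Subgroup.centralizer (Q : Set G) := by
    refine le_antisymm ?_ (sup_le inf_le_left hCN)
    intro g hg
    obtain ⟨c, hc, hcg⟩ := frattini_decomp P hP Q hQ g hg
    have : g = c⁻¹ * (c * g) := by group
    rw [this]
    refine Subgroup.mul_mem _ (Subgroup.mem_sup_right (Subgroup.inv_mem _ hc)) (Subgroup.mem_sup_left ⟨?_, hcg⟩)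
    exact Subgroup.mul_mem _ (hCN hc) hg
  refine ⟨key, ?_⟩
  set N := Subgroup.normalizer (Q : Set G) with hN
  set C := Subgroup.centralizer (Q : Set G) with hC
  set M := N ⊓ Subgroup.normalizer ((P : Subgroup G) : Set G) with hM
  set D := Subgroup.centralizer ((P : Subgroup G) : Set G) with hD
  have hDC : D ≤ C := Subgroup.centralizer_le (by exact_mod_cast hQ)
  have hDM : D ≤ M := le_inf (hDC.trans hCN) (Subgroup.centralizer_le_normalizer _)
  have hMN : M ≤ N := inf_le_left
  have e1 : C.relIndex N = C.relIndex M := by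
    have h3 : (C.subgroupOf N).relIndex (M.subgroupOf N ⊔ C.subgroupOf N) = (C.subgroupOf N).relIndex (M.subgroupOf N) :=
      Subgroup.relIndex_sup_right _ _
    rw [← Subgroup.subgroupOf_sup hMN hCN, ← key, Subgroup.relIndex_subgroupOf le_rfl,
      Subgroup.relIndex_subgroupOf hMN] at h3
    exact h3
  change C.relIndex N ∣ D.relIndex _
  rw [e1]
  refine (Subgroup.relIndex_dvd_of_le_left M hDC).trans ?_
  exact Dvd.intro _ (Subgroup.relIndex_mul_relIndex D M _ hDM inf_le_right)

end Cfsg.Agent.S2268
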