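import Cfsg.Statements.S2269
import Mathlib
import Cfsg.Agent.KSG.RealAutomizer
import Cfsg.Agent.KSG.SymEmbed
import Cfsg.Agent.KSG.AltOrders

set_option autoImplicit false
open Cfsg

namespace Cfsg.Agent.S2269

theorem sixty {G : Type*} [Group G] [Finite G] [IsSimpleGroup G] (hG : Nat.card G = 60)
    (P : Sylow 2 G) (hP : IsMulCommutative (P : Subgroup G)) :
    Nat.card (P : Subgroup G) = 4 ∧ ((Subgroup.centralizer ((P : Subgroup G) : Set G)).subgroupOf
      (Subgroup.normalizer ((P : Subgroup G) : Set G))).index = 3 := by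
  have hc : Nat.card (P : Subgroup G) = 4 := by
    rw [P.card_eq_multiplicity, hG]
    have : (60 : ℕ).factorization 2 = 2 := by decide +kernel
    rw [this]; norm_num
  have hi : (P : Subgroup G).index = 15 := by
    have := (P : Subgroup G).index_mul_card
    rw [hc, hG] at this
    omega
  refine ⟨hc, ?_⟩
  set C := Subgroup.centralizer ((P : Subgroup G) : Set G)
  set N := Subgroup.normalizer ((P : Subgroup G) : Set G)
  have h1 : C.relIndex N ∣ 15 := by
    rw [← hi]
    have a1 : (P : Subgroup G) ≤ C := (P : Subgroup G).le_centralizer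
    have a2 : (P : Subgroup G) ≤ N := Subgroup.le_normalizer
    exact (Subgroup.relIndex_dvd_of_le_left N a1).trans (Subgroup.relIndex_dvd_index_of_le a2)
  have h2 : C.relIndex N ∣ 24 := by
    have key := Subgroup.card_dvd_of_injective _ (QuotientGroup.kerLift_injective
      (P : Subgroup G).normalizerMonoidHom)
    rw [Subgroup.normalizerMonoidHom_ker, ← Subgroup.index] at key
    have key2 := Subgroup.card_dvd_of_injective (MulAut.toPerm (P : Subgroup G)) (by
      intro a b h; ext1 x; exact congrFun (congrArg (⇑) h) x)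
    rw [Nat.card_perm, hc] at key2
    exact key.trans key2
  have h3 : C.relIndex N ≠ 1 := by
    rw [Ne, Subgroup.relIndex_eq_one]
    intro h
    have h4 := (MonoidHom.ker_transferSylow_isComplement' P h).card_mul
    rw [hc, hG] at h4
    rcases (inferInstance : (MonoidHom.transferSylow P h).ker.Normal).eq_bot_or_eq_top with h5 | h5
    · rw [h5] at h4; simp at h4
    · rw [h5, Subgroup.card_top, hG] at h4; simp at h4
  have h4 := Nat.dvd_gcd h1 h2
  exact ((Nat.dvd_prime Nat.prime_three).1 h4).resolve_left h3

theorem five (P : Sylow 2 (alternatingGroup (Fin 5)))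
    (hP : IsMulCommutative (P : Subgroup (alternatingGroup (Fin 5)))) :
    ((Subgroup.centralizer ((P : Subgroup (alternatingGroup (Fin 5))) : Set (alternatingGroup (Fin 5)))).subgroupOf (Subgroup.normalizer ((P : Subgroup (alternatingGroup (Fin 5))) : Set (alternatingGroup (Fin 5))))).index = 3 ∧ IsKleinFour (P : Subgroup (alternatingGroup (Fin 5))) := by
  have hG : Nat.card (alternatingGroup (Fin 5)) = 60 := by
    rw [nat_card_alternatingGroup]; simp; rfl
  obtain ⟨hc, h3⟩ := sixty hG P hP
  constructor
  · exact h3
  · refine ⟨hc, ?_⟩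
    have : Nontrivial (P : Subgroup (alternatingGroup (Fin 5))) :=
      Finite.one_lt_card_iff_nontrivial.1 (by rw [hc]; norm_num)
    rw [Monoid.exponent_eq_prime_iff Nat.prime_two]
    intro g hg
    have h1 : orderOf g ∣ 2 ^ 2 := by rw [show 2 ^ 2 = 4 by norm_num, ← hc]; exact orderOf_dvd_natCard g
    obtain ⟨k, hk, hk'⟩ := (Nat.dvd_prime_pow Nat.prime_two).1 h1
    interval_cases k
    · exact absurd (orderOf_eq_one_iff.1 (by simpa using hk')) hg
    · simpa using hk'
    · exfalso
      obtain ⟨c, h1, h2, h3, h4⟩ := (KSG.mem_range_orderOf_alt_iff (Fin 5) 4).1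
        ⟨g, by rw [Subgroup.orderOf_coe, hk']; norm_num⟩
      revert h3 h4
      refine KSG.forall_cycleType_of_cycleLists 5 (fun c => Even (c.sum + Multiset.card c) →
        c.lcm = 4 → False) ?_ c (by simpa using h1) h2
      decide +kernel


/-- Let n ≥ 5 and let P be an abelian Sylow p-subgroup of the alternating group A_n. Then N(P)/C(P) (taken in A_n) has even order, or P is cyclic, except when n = 5 and p = 2, where P is a four-group and N(P)/C(P) has order 3. -/
theorem result (n : ℕ) (hn : 5 ≤ n) {p : ℕ} [Fact p.Prime]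
    (P : Sylow p (alternatingGroup (Fin n))) (hP : IsMulCommutative (P : Subgroup (alternatingGroup (Fin n)))) :
    (¬ (n = 5 ∧ p = 2) → 2 ∣ ((Subgroup.centralizer ((P : Subgroup (alternatingGroup (Fin n))) : Set (alternatingGroup (Fin n)))).subgroupOf (Subgroup.normalizer ((P : Subgroup (alternatingGroup (Fin n))) : Set (alternatingGroup (Fin n))))).index ∨ IsCyclic (P : Subgroup (alternatingGroup (Fin n)))) ∧
    ((n = 5 ∧ p = 2) → ((Subgroup.centralizer ((P : Subgroup (alternatingGroup (Fin n))) : Set (alternatingGroup (Fin n)))).subgroupOf (Subgroup.normalizer ((P : Subgroup (alternatingGroup (Fin n))) : Set (alternatingGroup (Fin n))))).index = 3 ∧ IsKleinFour (P : Subgroup (alternatingGroup (Fin n)))) := by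
  have hpp : p.Prime := Fact.out
  refine ⟨fun h => ?_, ?_⟩
  · by_cases hp2 : p = 2
    · subst hp2
      exact absurd hP (KSG.not_isMulCommutative_sylow_alt (by simp; omega)
        (by simp at h ⊢; omega) P)
    · have hp3 : 3 ≤ p := by have := hpp.two_le; omega
      by_cases hpn : p + 2 ≤ n
      · left
        obtain ⟨c, -, hc, hc'⟩ := KSG.exists_isCycle_cycleType (α := Fin n) hpp.two_le
          (by simp; omega)
        have hmem : c ∈ alternatingGroup (Fin n) :=
          KSG.mem_alternatingGroup_of_odd_orderOf (hc ▸ hpp.odd_of_ne_two hp2)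
        refine KSG.two_dvd_automizer_of_real P hP ⟨c, hmem⟩ 1
          (Subtype.ext (by change c ^ p ^ 1 = 1; rw [pow_one, ← hc, pow_orderOf_eq_one])) ?_
          (alternatingGroup.isConj_of (Equiv.Perm.isConj_of_cycleType_eq (by simp))
            (by simpa [hc'] using hpn))
        intro h
        have h0 : c = c⁻¹ := congrArg Subtype.val h
        have h1 : c ^ 2 = 1 := by rw [pow_two]; exact mul_eq_one_iff_eq_inv.2 h0
        have h2 := orderOf_dvd_of_pow_eq_one h1
        rw [hc] at h2
        exact hp2 ((Nat.prime_dvd_prime_iff_eq hpp Nat.prime_two).1 h2)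
      · right
        obtain ⟨k, hk⟩ := P.2.exists_card_eq
        have h1 : p ^ k ∣ n.factorial := by
          have : Nontrivial (Fin n) := Fin.nontrivial_iff_two_le.2 (by omega)
          have h2 := two_mul_nat_card_alternatingGroup (α := Fin n)
          rw [Nat.card_perm, Nat.card_eq_fintype_card (α := Fin n), Fintype.card_fin] at h2
          rw [← hk, ← h2]
          exact Dvd.dvd.mul_left (Subgroup.card_subgroup_dvd_card _) _
        have hlog : Nat.log p n < 2 := Nat.log_lt_of_lt_pow (by omega) (by nlinarith)
        rw [hpp.pow_dvd_factorial_iff hlog] at h1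
        simp only [Nat.Ico_succ_singleton, Finset.sum_singleton, pow_one] at h1
        have h2 := (Nat.le_div_iff_mul_le hpp.pos).1 h1
        have h3 : k ≤ 1 := by
          by_contra h3
          have : 2 * p ≤ k * p := Nat.mul_le_mul_right _ (by omega)
          omega
        apply isCyclic_of_card_dvd_prime (p := p)
        rw [hk]
        simpa using pow_dvd_pow p h3
  · rintro ⟨rfl, rfl⟩
    exact five P hP

end Cfsg.Agent.S2269
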