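import Cfsg.Statements.S2270
import Mathlib
import Cfsg.Agent.KSG.RealAutomizer

set_option autoImplicit false
open Cfsg

namespace Cfsg.Agent.S2270


/-- Let n ≥ 3, p an odd prime, and P an abelian Sylow p-subgroup of the symmetric group S_n (with p dividing n!, so that P ≠ 1). Then N(P)/C(P) has even order. -/
theorem result (n : ℕ) (hn : 3 ≤ n) {p : ℕ} [Fact p.Prime] (hp : p ≠ 2) (hpn : p ≤ n)
    (P : Sylow p (Equiv.Perm (Fin n))) (hP : IsMulCommutative (P : Subgroup (Equiv.Perm (Fin n)))) :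
    2 ∣ ((Subgroup.centralizer ((P : Subgroup (Equiv.Perm (Fin n))) : Set (Equiv.Perm (Fin n)))).subgroupOf (Subgroup.normalizer ((P : Subgroup (Equiv.Perm (Fin n))) : Set (Equiv.Perm (Fin n))))).index := by
  have hpp : p.Prime := Fact.out
  obtain ⟨c, -, hc, -⟩ := KSG.exists_isCycle_cycleType (α := Fin n) hpp.two_le (by simpa using hpn)
  refine KSG.two_dvd_automizer_of_real P hP c 1 (by rw [pow_one, ← hc, pow_orderOf_eq_one]) ?_
    (Equiv.Perm.isConj_of_cycleType_eq (by simp))
  intro h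
  have h1 : c ^ 2 = 1 := by rw [pow_two]; exact mul_eq_one_iff_eq_inv.2 h
  have h2 := orderOf_dvd_of_pow_eq_one h1
  rw [hc] at h2
  exact hp ((Nat.prime_dvd_prime_iff_eq hpp Nat.prime_two).1 h2)

end Cfsg.Agent.S2270
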