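import Cfsg.Statements.S2279
import Mathlib
import Cfsg.Agent.KSG.RegSmall

set_option autoImplicit false
open Cfsg

namespace Cfsg.Agent.S2279


/-- Let F be a finite field with q elements and n ≥ 4. Then SL_n(F) is generated by two regular unipotent elements (elements u with u − 1 nilpotent and (u − 1)^(n−1) ≠ 0); if q is prime, the two can be taken conjugate in SL_n(F). -/
theorem result {F : Type*} [Field F] [Fintype F] (n : ℕ) (hn : 4 ≤ n) :
    (∃ u v : Matrix.SpecialLinearGroup (Fin n) F, (IsNilpotent ((u : Matrix (Fin n) (Fin n) F) - 1) ∧ ((u : Matrix (Fin n) (Fin n) F) - 1) ^ (n - 1) ≠ 0) ∧ (IsNilpotent ((v : Matrix (Fin n) (Fin n) F) - 1) ∧ ((v : Matrix (Fin n) (Fin n) F) - 1) ^ (n - 1) ≠ 0) ∧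
      Subgroup.closure ({u, v} : Set (Matrix.SpecialLinearGroup (Fin n) F)) = ⊤) ∧
    ((Fintype.card F).Prime → ∃ u g : Matrix.SpecialLinearGroup (Fin n) F, (IsNilpotent ((u : Matrix (Fin n) (Fin n) F) - 1) ∧ ((u : Matrix (Fin n) (Fin n) F) - 1) ^ (n - 1) ≠ 0) ∧
      Subgroup.closure ({u, g * u * g⁻¹} : Set (Matrix.SpecialLinearGroup (Fin n) F)) = ⊤) := by
  obtain ⟨u, g, h1, h2, h3⟩ := KSG.twoConj_all (F := F) (n := n) (by omega)
  refine ⟨⟨u, g * u * g⁻¹, ⟨h1, h2⟩, ?_, h3⟩, fun _ => ⟨u, g, ⟨h1, h2⟩, h3⟩⟩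
  have hg : (g : Matrix (Fin n) (Fin n) F) * (g⁻¹ : Matrix.SpecialLinearGroup (Fin n) F) = 1 := by
    rw [← Matrix.SpecialLinearGroup.coe_mul, mul_inv_cancel, Matrix.SpecialLinearGroup.coe_one]
  have hg' : ((g⁻¹ : Matrix.SpecialLinearGroup (Fin n) F) : Matrix (Fin n) (Fin n) F) * g = 1 := by
    rw [← Matrix.SpecialLinearGroup.coe_mul, inv_mul_cancel, Matrix.SpecialLinearGroup.coe_one]
  have e : ∀ k : ℕ, (((g * u * g⁻¹ : Matrix.SpecialLinearGroup (Fin n) F) :
      Matrix (Fin n) (Fin n) F) - 1) ^ k = g * ((u : Matrix (Fin n) (Fin n) F) - 1) ^ k *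
        (g⁻¹ : Matrix.SpecialLinearGroup (Fin n) F) := by
    intro k
    induction k with
    | zero => rw [pow_zero, pow_zero, mul_one, hg]
    | succ k ih =>
      rw [pow_succ, ih, pow_succ, Matrix.SpecialLinearGroup.coe_mul,
        Matrix.SpecialLinearGroup.coe_mul]
      set G := (g : Matrix (Fin n) (Fin n) F)
      set G' := ((g⁻¹ : Matrix.SpecialLinearGroup (Fin n) F) : Matrix (Fin n) (Fin n) F)
      set U := (u : Matrix (Fin n) (Fin n) F)
      have : G * U * G' - 1 = G * (U - 1) * G' := by rw [mul_sub, sub_mul, mul_one, hg]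
      rw [this]
      calc G * (U - 1) ^ k * G' * (G * (U - 1) * G') =
          G * (U - 1) ^ k * (G' * G) * (U - 1) * G' := by simp only [mul_assoc]
        _ = _ := by rw [hg']; simp only [mul_assoc, mul_one]
  obtain ⟨k, hk⟩ := h1
  refine ⟨⟨k, by rw [e, hk, mul_zero, zero_mul]⟩, fun h0 => h2 ?_⟩
  rw [e] at h0
  have := congrArg (fun A => ((g⁻¹ : Matrix.SpecialLinearGroup (Fin n) F) :
    Matrix (Fin n) (Fin n) F) * A * (g : Matrix (Fin n) (Fin n) F)) h0
  simpa only [mul_zero, zero_mul, ← mul_assoc, hg', one_mul, mul_assoc _ _ (g : Matrix (Fin n) (Fin n) F), mul_one] using this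

end Cfsg.Agent.S2279
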