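import Cfsg.Statements.S2286
import Cfsg.Agent.KSG.SL2Pres2

set_option autoImplicit false
open Cfsg

namespace Cfsg.Agent.S2286

open KSG KSG.M2 Matrix


/-- For every finite field F, SL_2(F) and PSL_2(F) have presentations with 3 generators and at most 9 relations; when F has characteristic 2, PSL_2(F) has a presentation with 3 generators and at most 5 relations. -/
theorem result {F : Type*} [Field F] [Fintype F] :
    (∃ rels : Finset (FreeGroup (Fin 3)), rels.card ≤ 9 ∧ Nonempty (PresentedGroup (↑rels : Set (FreeGroup (Fin 3))) ≃* Matrix.SpecialLinearGroup (Fin 2) F)) ∧ (∃ rels : Finset (FreeGroup (Fin 3)), rels.card ≤ 9 ∧ Nonempty (PresentedGroup (↑rels : Set (FreeGroup (Fin 3))) ≃* Matrix.ProjectiveSpecialLinearGroup (Fin 2) F)) ∧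
    (CharP F 2 → ∃ rels : Finset (FreeGroup (Fin 3)), rels.card ≤ 5 ∧ Nonempty (PresentedGroup (↑rels : Set (FreeGroup (Fin 3))) ≃* Matrix.ProjectiveSpecialLinearGroup (Fin 2) F)) := by
  have even : (2 : F) = 0 → (∃ rels : Finset (FreeGroup (Fin 3)), rels.card ≤ 5 ∧
      Nonempty (PresentedGroup (↑rels : Set (FreeGroup (Fin 3))) ≃*
        Matrix.SpecialLinearGroup (Fin 2) F)) ∧ ∃ rels : Finset (FreeGroup (Fin 3)), rels.card ≤ 5 ∧
      Nonempty (PresentedGroup (↑rels : Set (FreeGroup (Fin 3))) ≃*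
        Matrix.ProjectiveSpecialLinearGroup (Fin 2) F) := by
    intro h2
    have : CharP F 2 := CharTwo.of_one_ne_zero_of_two_eq_zero one_ne_zero h2
    let := ZMod.algebra F 2
    obtain ⟨rels, h, ⟨e⟩⟩ := Pres.pres_even h2
    exact ⟨⟨rels, h, ⟨e⟩⟩, rels, h,
      ⟨e.trans (MulEquiv.ofBijective pr ⟨pr_injective h2, pr_surjective⟩)⟩⟩
  by_cases h2 : (2 : F) = 0
  · obtain ⟨⟨r, h, e⟩, r', h', e'⟩ := even h2
    exact ⟨⟨r, by omega, e⟩, ⟨r', by omega, e'⟩, fun _ => ⟨r', h', e'⟩⟩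
  · obtain ⟨p, hp⟩ := CharP.exists F
    have : Fact p.Prime := ⟨CharP.char_is_prime F p⟩
    let := ZMod.algebra F p
    obtain ⟨h, h'⟩ := Pres.pres_odd p h2
    exact ⟨h, h', fun _ => absurd two_eq_zero_of_charP h2⟩

end Cfsg.Agent.S2286
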