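import Cfsg.Statements.S2292
import Cfsg.Agent.KSG.GenSp

set_option autoImplicit false
open Cfsg

namespace Cfsg.Agent.S2292

open KSG Matrix

/-- Let F be a finite field with q elements and m ≥ 2 with (m, q) ≠ (2, 2). Then the simple group PSp_2m(F) has a presentation with 2 generators and at most 80 relations. -/
theorem result {F : Type*} [Field F] [Fintype F] (m : ℕ) (hm : 2 ≤ m) (h22 : ¬ (m = 2 ∧ Fintype.card F = 2)) :
    ∃ rels : Finset (FreeGroup (Fin 2)), rels.card ≤ 80 ∧ Nonempty (PresentedGroup (↑rels : Set (FreeGroup (Fin 2))) ≃* Cfsg.PSp m F) := by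
  obtain ⟨a, b, h⟩ := BN.exists_pair_quotient (Subgroup.center _) (BN.exists_pair_Sp (F := F) hm
    fun e => by have := Fintype.one_lt_card (α := F); omega)
  obtain ⟨n, rfl⟩ : ∃ n, m = n + 2 := ⟨m - 2, by omega⟩
  exact ((BN.pres_psp (BN.pres_Sp_of (pres_SL (by omega)))).of_pair h).mono (by norm_num)

end Cfsg.Agent.S2292
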