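import Cfsg.Statements.S2295
import Cfsg.Agent.KSG.PresO3

set_option autoImplicit false
open Cfsg

namespace Cfsg.Agent.S2295

open KSG Matrix

/-- Let F be a finite field and n ≥ 4, and let Ω⁺_2n(F) be the commutator subgroup of the orthogonal group of the hyperbolic quadratic form Σ x_i y_i, with PΩ⁺_2n(F) its central quotient. Then Ω⁺_2n(F) has a presentation with 8 generators and at most 31 relations (at most 29 if n = 4 or 5), and PΩ⁺_2n(F) one with 8 generators and at most 32 relations (at most 30 if n = 4 or 5). -/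
theorem result {F : Type*} [Field F] [Fintype F] (n : ℕ) (hn : 4 ≤ n) :
    (∃ rels : Finset (FreeGroup (Fin 8)), rels.card ≤ 31 ∧ Nonempty (PresentedGroup (↑rels : Set (FreeGroup (Fin 8))) ≃* ↥(Cfsg.Omega F (Cfsg.quadFormPlus n F)))) ∧ (∃ rels : Finset (FreeGroup (Fin 8)), rels.card ≤ 32 ∧ Nonempty (PresentedGroup (↑rels : Set (FreeGroup (Fin 8))) ≃* Cfsg.POmega F (Cfsg.quadFormPlus n F))) ∧
    (n ≤ 5 → (∃ rels : Finset (FreeGroup (Fin 8)), rels.card ≤ 29 ∧ Nonempty (PresentedGroup (↑rels : Set (FreeGroup (Fin 8))) ≃* ↥(Cfsg.Omega F (Cfsg.quadFormPlus n F)))) ∧ (∃ rels : Finset (FreeGroup (Fin 8)), rels.card ≤ 30 ∧ Nonempty (PresentedGroup (↑rels : Set (FreeGroup (Fin 8))) ≃* Cfsg.POmega F (Cfsg.quadFormPlus n F)))) := by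
  have e := (Class.Orth.commutatorCongr (Class.Orth.plusEquiv n F)).symm
  have e' := (Class.Orth.pOmegaCongr (Class.Orth.plusEquiv n F)).symm
  have h5 : 5 ≤ Module.finrank F (Fin n ⊕ Fin n → F) := by
    rw [Class.Orth.finrank_plus_space]; omega
  obtain ⟨h1, h2⟩ := BN.pres_Omega (F := F) hn
  exact ⟨h1.congr e, (BN.pres_pOmega (Class.Orth.nd_plusQF n F) h5 h1).congr e', fun h =>
    ⟨(h2 h).congr e, (BN.pres_pOmega (Class.Orth.nd_plusQF n F) h5 (h2 h)).congr e'⟩⟩

end Cfsg.Agent.S2295
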