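import Cfsg.Statements.S2296
import Cfsg.Agent.KSG.PresSp2

set_option autoImplicit false
open Cfsg

namespace Cfsg.Agent.S2296

open KSG Matrix

/-- Let F be a finite field. Sp_2n(F) has a presentation with 10 generators and at most 58 relations for n ≥ 4, with 9 generators and at most 57 relations for n = 4 or 5, and with 8 generators and at most 52 relations for n = 3; in each case PSp_2n(F) has a presentation with the same number of generators and at most one more relation. -/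
theorem result {F : Type*} [Field F] [Fintype F] (n : ℕ) :
    (4 ≤ n → (∃ rels : Finset (FreeGroup (Fin 10)), rels.card ≤ 58 ∧ Nonempty (PresentedGroup (↑rels : Set (FreeGroup (Fin 10))) ≃* Matrix.symplecticGroup (Fin n) F)) ∧ (∃ rels : Finset (FreeGroup (Fin 10)), rels.card ≤ 59 ∧ Nonempty (PresentedGroup (↑rels : Set (FreeGroup (Fin 10))) ≃* Cfsg.PSp n F))) ∧
    ((n = 4 ∨ n = 5) → (∃ rels : Finset (FreeGroup (Fin 9)), rels.card ≤ 57 ∧ Nonempty (PresentedGroup (↑rels : Set (FreeGroup (Fin 9))) ≃* Matrix.symplecticGroup (Fin n) F)) ∧ (∃ rels : Finset (FreeGroup (Fin 9)), rels.card ≤ 58 ∧ Nonempty (PresentedGroup (↑rels : Set (FreeGroup (Fin 9))) ≃* Cfsg.PSp n F))) ∧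
    (n = 3 → (∃ rels : Finset (FreeGroup (Fin 8)), rels.card ≤ 52 ∧ Nonempty (PresentedGroup (↑rels : Set (FreeGroup (Fin 8))) ≃* Matrix.symplecticGroup (Fin n) F)) ∧ (∃ rels : Finset (FreeGroup (Fin 8)), rels.card ≤ 53 ∧ Nonempty (PresentedGroup (↑rels : Set (FreeGroup (Fin 8))) ≃* Cfsg.PSp n F))) := by
  refine ⟨fun hn => ?_, fun hn => ?_, ?_⟩
  · obtain ⟨m, rfl⟩ : ∃ m, n = m + 2 := ⟨n - 2, by omega⟩
    have h : Pres 10 47 (Matrix.symplecticGroup (Fin (m + 2)) F) :=
      (BN.pres_Sp_of (pres_SL (by omega))).pad 2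
    exact ⟨h.mono (by norm_num), (BN.pres_psp h).mono (by norm_num)⟩
  · obtain ⟨m, rfl⟩ : ∃ m, n = m + 2 := ⟨n - 2, by omega⟩
    have h : Pres 9 46 (Matrix.symplecticGroup (Fin (m + 2)) F) :=
      (BN.pres_Sp_of (pres_SL (by omega))).pad 1
    exact ⟨h.mono (by norm_num), (BN.pres_psp h).mono (by norm_num)⟩
  · rintro rfl
    have h : Pres 8 45 (Matrix.symplecticGroup (Fin 3) F) :=
      BN.pres_Sp_of (n := 1) (pres_SL (by omega))
    exact ⟨h.mono (by norm_num), (BN.pres_psp h).mono (by norm_num)⟩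

end Cfsg.Agent.S2296
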