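import Cfsg.Statements.S2297
import Mathlib
import Cfsg.Agent.KSG.PresSym

set_option autoImplicit false
open Cfsg

namespace Cfsg.Agent.S2297

open KSG


/-- Let n ≥ 5 and let G be the symmetric group S_n or the alternating group A_n. If a and b generate G, then G has a presentation on two generators mapping to a and b with at most 9 relations: there is a set of at most 9 relators in the free group on two letters and an isomorphism from the presented group onto G sending the two letters to a and b. -/
theorem result (n : ℕ) (hn : 5 ≤ n) :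
    (∀ a b : Equiv.Perm (Fin n), Subgroup.closure ({a, b} : Set (Equiv.Perm (Fin n))) = ⊤ →
      ∃ rels : Finset (FreeGroup (Fin 2)), rels.card ≤ 9 ∧
        ∃ e : PresentedGroup (↑rels : Set (FreeGroup (Fin 2))) ≃* Equiv.Perm (Fin n),
          e (PresentedGroup.of 0) = a ∧ e (PresentedGroup.of 1) = b) ∧
    (∀ a b : ↥(alternatingGroup (Fin n)), Subgroup.closure ({a, b} : Set ↥(alternatingGroup (Fin n))) = ⊤ →
      ∃ rels : Finset (FreeGroup (Fin 2)), rels.card ≤ 9 ∧
        ∃ e : PresentedGroup (↑rels : Set (FreeGroup (Fin 2))) ≃* ↥(alternatingGroup (Fin n)),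
          e (PresentedGroup.of 0) = a ∧ e (PresentedGroup.of 1) = b) := by
  constructor
  · intro a b hab
    obtain ⟨X, h1, -, h2, -⟩ := exists_hasPres_seven n hn true
    have h3 : Subgroup.closure (Set.range ![a, b]) = ⊤ := by
      rw [← hab]; congr 1; ext; simp [or_comm]
    obtain ⟨R, h4, e, h5⟩ := (h1.change (Y := ![a, b]) (h2.trans h3.symm) Finset.univ
      (fun _ => none) (by simp) (by simp)).exists_equiv h3
    exact ⟨R, h4, e, h5 0, h5 1⟩
  · intro a b hab
    obtain ⟨X, h1, -, h2, -⟩ := exists_hasPres_seven n hn false
    have h3 : Subgroup.closure (Set.range ![a.1, b.1]) = alternatingGroup (Fin n) := by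
      have := congrArg (Subgroup.map (alternatingGroup (Fin n)).subtype) hab
      rw [MonoidHom.map_closure, ← MonoidHom.range_eq_map, Subgroup.range_subtype,
        Set.image_pair] at this
      refine Eq.trans ?_ this; congr 1; ext; simp [or_comm]
    obtain ⟨R, h4, e, h5⟩ := (h1.change (Y := ![a.1, b.1]) (h2.trans h3.symm) Finset.univ
      (fun _ => none) (by simp) (by simp)).exists_equiv_subgroup h3
    exact ⟨R, h4, e, Subtype.ext (h5 0), Subtype.ext (h5 1)⟩

end Cfsg.Agent.S2297
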