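import Cfsg.Statements.S2331
import Cfsg.Agent.KSG.SL2Unip

set_option autoImplicit false
open Cfsg

namespace Cfsg.Agent.S2331

open KSG KSG.M2 Matrix


/-- Over a finite field with q elements, q even, the special linear group SL₂ has exactly q + 1 conjugacy classes. -/
theorem result {F : Type*} [Field F] [Fintype F] [CharP F 2] :
    Nat.card (ConjClasses (Matrix.SpecialLinearGroup (Fin 2) F)) = Fintype.card F + 1 := by
  classical
  have h2 : (2 : F) = 0 := two_eq_zero_of_charP
  have hs : ∀ g : Matrix.SpecialLinearGroup (Fin 2) F,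
      IsScal (g : Matrix (Fin 2) (Fin 2) F) → g = 1 := by
    intro g hg
    rcases SL_isScal_iff.1 hg with h | h
    · exact h
    · rw [h, SL_ext_iff]
      apply ext2 <;> simp <;> linear_combination -h2
  rw [card_conjClasses_eq (X := Option F) (fun g : Matrix.SpecialLinearGroup (Fin 2) F =>
    if IsScal (g : Matrix (Fin 2) (Fin 2) F) then none
    else some (g : Matrix (Fin 2) (Fin 2) F).trace)]
  · simp
  · intro g h
    by_cases hg : IsScal (g : Matrix (Fin 2) (Fin 2) F) <;>
      by_cases hh : IsScal (h : Matrix (Fin 2) (Fin 2) F)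
    · simp only [hg, hh, if_true, true_iff]
      rw [hs g hg, hs h hh]
    · simp only [hg, hh, if_true, if_false, reduceCtorEq, false_iff]
      exact fun H => hh ((SL_isScal_iff_of_isConj H).1 hg)
    · simp only [hg, hh, if_true, if_false, reduceCtorEq, false_iff]
      exact fun H => hg ((SL_isScal_iff_of_isConj H).2 hh)
    · simp only [hg, hh, if_false, Option.some.injEq]
      exact ⟨fun H => SL_isConj_of_trace hg hh H (Or.inr h2), SL_trace_eq_of_isConj⟩
  · rintro (_ | t)
    · exact ⟨1, by simp [isScal_one]⟩
    · exact ⟨cmp t, by simp only [cmp_not_isScal, if_false, trace_cmp]⟩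

end Cfsg.Agent.S2331
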