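import Cfsg.Statements.S2333
import Mathlib
import Cfsg.Agent.KSG.SpSiegel
import Cfsg.Agent.S0269
import Cfsg.Agent.S0270

set_option autoImplicit false
open Cfsg

namespace Cfsg.Agent.S2333

/-- For a finite field F of even order q and n ≥ 2 with (n, q) ≠ (2, 2), every irreducible complex representation of the symplectic group Sp_{2n}(F) of degree at least 2 has degree at least (q^n − 1)(q^n − q)/(2(q + 1)). -/
theorem result {F : Type*} [Field F] [Fintype F] [DecidableEq F] (n : ℕ) (hn : 2 ≤ n) (heven : Even (Fintype.card F)) (hex : (n, Fintype.card F) ≠ (2, 2)) :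
    (∀ (k : ℕ) (ρ : Representation ℂ (Matrix.symplecticGroup (Fin n) F) (Fin k → ℂ)), ρ.IsIrreducible → 2 ≤ k → (Fintype.card F ^ n - 1) * (Fintype.card F ^ n - Fintype.card F) / (2 * (Fintype.card F + 1)) ≤ k) := by
  intro k ρ hρ hk
  have hc : ringChar F = 2 := FiniteField.even_card_iff_char_two.2 (Nat.even_iff.1 heven)
  have h2 : (2 : F) = 0 := by
    have := ringChar.Nat.cast_ringChar (R := F)
    rw [hc] at this
    exact_mod_cast this
  have hq2 : 2 ≤ Fintype.card F := Fintype.one_lt_card
  have h3 : n = 2 → 3 ≤ Fintype.card F := by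
    rintro rfl
    by_contra h
    exact hex (by rw [show Fintype.card F = 2 by omega])
  have hperf := S0269.result (F := F) n (by omega)
  have hsimple := S0270.result (F := F) n hn h3
  have hK : ringChar ℂ ≠ ringChar F := by rw [hc, ringChar.eq_zero]; omega
  have hij : (⟨0, by omega⟩ : Fin n) ≠ ⟨1, by omega⟩ := by simp
  have := KSG.sp_bound_even h2 (ψ := AddChar.FiniteField.primitiveChar_to_Complex F)
    (by simpa using AddChar.FiniteField.primitiveChar_to_Complex_isPrimitive F (a := 1) one_ne_zero)
    hK ρ (KSG.rep_ne_one_of_not_mem_center hperf ρ hρ hk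
      (KSG.spUpper_not_mem_center (KSG.symPair_single_ne_zero hij)))
  rw [Nat.card_eq_fintype_card, Module.finrank_fin_fun] at this
  exact Nat.div_le_of_le_mul this

end Cfsg.Agent.S2333
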