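import Cfsg.Statements.S2334
import Mathlib
import Cfsg.Agent.KSG.SUSiegel
import Cfsg.Agent.S0283

set_option autoImplicit false
open Cfsg

namespace Cfsg.Agent.S2334

/-- For odd n ≥ 3 and a finite field F with q² elements, (n, q) ≠ (3, 2), every irreducible complex representation of the special unitary group SU_n(q) (the determinant-one isometries of the standard Hermitian form over F) of degree at least 2 has degree at least (q^n − q)/(q + 1). -/
theorem result {F : Type*} [Field F] [Fintype F] [DecidableEq F] (n q : ℕ) (hn : 3 ≤ n) (hodd : Odd n) (hF : Fintype.card F = q ^ 2) (hex : (n, q) ≠ (3, 2)) :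
    (∀ (k : ℕ) (ρ : Representation ℂ (Cfsg.SU n F q) (Fin k → ℂ)), ρ.IsIrreducible → 2 ≤ k → (q ^ n - q) / (q + 1) ≤ k) := by
  intro k ρ hρ hk
  have := Class.U.UF.of_card hF
  have h32 : ¬ (n = 3 ∧ q = 2) := by rintro ⟨rfl, rfl⟩; exact hex rfl
  have hsimple := S0283.result hF n hn h32
  have hperf : commutator (Cfsg.SU n F q) = ⊤ := Class.U.commutator_eq_top hn h32
  obtain ⟨m, rfl⟩ := hodd
  have := KSG.su_bound_odd (m := m) (by omega) (by omega) ρ
    (fun g hg => KSG.rep_ne_one_of_not_mem_center hperf ρ hρ hk hg)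
  rw [Module.finrank_fin_fun] at this
  exact Nat.div_le_of_le_mul this

end Cfsg.Agent.S2334
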