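import Cfsg.Statements.S2337
import Mathlib
import Cfsg.Agent.Chev.SzDeg
import Cfsg.Agent.Chev.SzLie

set_option autoImplicit false
open Cfsg

namespace Cfsg.Agent.S2337

/-- For the Suzuki group Sz(q), q = 2^(2m+1) with m ≥ 1 (realised inside Sp₄ over the field with q elements), every irreducible complex representation of degree at least 2 has degree at least 2^m·(q − 1). -/
theorem result {F : Type*} [Field F] [Fintype F] (m : ℕ) (hm : 1 ≤ m) (hF : Fintype.card F = 2 ^ (2 * m + 1)) :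
    (∀ (k : ℕ) (ρ : Representation ℂ (Cfsg.Lie.Sz F (2 ^ (m + 1))) (Fin k → ℂ)), ρ.IsIrreducible → 2 ≤ k → 2 ^ m * (2 ^ (2 * m + 1) - 1) ≤ k) := by
  have hF' := Chev.SzField.of_fintype hm hF
  intro k ρ hρ hk
  have h : k ∈ Cfsg.charDegrees (Cfsg.Lie.Sz F (2 ^ (m + 1))) :=
    ⟨⟨ρ.character, k, ρ, hρ, rfl⟩, Chev.charDegree_eq_of (by simp)⟩
  rw [← Chev.charDegrees_congr (Chev.Suz.lieEquiv F), Chev.Suz.charDegrees_eq] at h
  have h1 : 2 ^ (2 * m + 1) = 2 ^ m * 2 ^ (m + 1) := by ring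
  have h2 : 2 ≤ 2 ^ m := Nat.le_self_pow (by omega) 2
  have h3 : 2 ^ (m + 1) = 2 * 2 ^ m := by ring
  have h4 : 2 * 2 ^ (m + 1) ≤ 2 ^ (2 * m + 1) := by rw [h1]; exact Nat.mul_le_mul_right _ h2
  have h5 : 2 ^ m * (2 ^ (2 * m + 1) - 1) ≤ (2 ^ (2 * m + 1)) ^ 2 := by
    rw [sq]; exact Nat.mul_le_mul (by omega) (by omega)
  simp only [Set.mem_insert_iff, Set.mem_singleton_iff] at h
  rcases h with rfl | rfl | rfl | rfl | rfl | rfl
  · omega
  · exact h5
  · omega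
  all_goals rw [mul_comm]
  all_goals exact Nat.mul_le_mul_left _ (by omega)

end Cfsg.Agent.S2337
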