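import Cfsg.Statements.S2338
import Cfsg.Agent.Chev.MinDegG2c

set_option autoImplicit false
open Cfsg

namespace Cfsg.Agent.S2338

open Cfsg.Agent.Chev Cfsg.Agent.Chev.MD Cfsg.Lie

/-- Lower bounds for the degrees of non-linear irreducible complex representations of the Chevalley group of type G₂ over a finite field with q elements: the degree is at least q³ + 1 when q ≡ 1 (mod 3) and q > 4, at least q³ − 1 when q ≡ 2 (mod 3) and q > 2, and at least q⁴ + q² + 1 when q ≡ 0 (mod 3) and q > 3. -/
theorem result {F : Type*} [Field F] [Fintype F] (k : ℕ) (ρ : Representation ℂ (Cfsg.Lie.chevG2.group F) (Fin k → ℂ)) (hρ : ρ.IsIrreducible) (hk : 2 ≤ k) :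
    (Fintype.card F % 3 = 1 → 4 < Fintype.card F → Fintype.card F ^ 3 + 1 ≤ k) ∧
    (Fintype.card F % 3 = 2 → 2 < Fintype.card F → Fintype.card F ^ 3 - 1 ≤ k) ∧
    (Fintype.card F % 3 = 0 → 3 < Fintype.card F → Fintype.card F ^ 4 + Fintype.card F ^ 2 + 1 ≤ k) := by
  classical
  have hq : IsPrimePow (Fintype.card F) := Fintype.isPrimePow_card_of_field
  have hs : 2 < Fintype.card F → IsSimpleGroup (chevG2.group F) := fun h =>
    (isSimpleGroup_group (D := chevG2) (F := F) (by simp) fun _ => by
      obtain ⟨t, h1, h2⟩ := exists_pow_ne_one (K := F) (n := 1) one_pos (by omega)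
      exact ⟨t, h1, by simpa using h2⟩).1
  have h3 : (3 : F) = 0 ↔ Fintype.card F % 3 = 0 := by
    have : Fact (Nat.Prime 3) := ⟨by norm_num⟩
    rw [← Nat.dvd_iff_mod_eq_zero, ← prime_dvd_char_iff_dvd_card (R := F) 3]
    have hp : (ringChar F).Prime := CharP.char_is_prime F (ringChar F)
    constructor
    · intro e
      have hd : ringChar F ∣ 3 := (ringChar.spec F 3).mp (by simpa using e)
      rw [(Nat.prime_dvd_prime_iff_eq hp (by norm_num)).mp hd]
    · intro e
      have hd : 3 = ringChar F := (Nat.prime_dvd_prime_iff_eq (by norm_num) hp).mp e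
      have := (ringChar.spec F 3).mpr (by rw [← hd])
      simpa using this
  refine ⟨fun h1 h2 => ?_, fun h1 h2 => ?_, fun h1 h2 => ?_⟩
  · have := hs (by omega)
    have : Fact (Nat.Prime 3) := ⟨by norm_num⟩
    obtain ⟨ω, hω⟩ := exists_prime_orderOf_dvd_card (G := Fˣ) 3 (by rw [Fintype.card_units]; omega)
    refine (G2.bound_ne_three isSt_xC (isND_xC rootTableG2) Gs_xC h2 (fun e => by
      have := h3.mp e; omega) ρ hk).2 ω (fun e => ?_) ?_
    · rw [Units.val_eq_one.mp e, orderOf_one] at hω
      omega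
    · rw [← Units.val_pow_eq_pow_val, ← hω, pow_orderOf_eq_one, Units.val_one]
  · have := hs h2
    exact (G2.bound_ne_three isSt_xC (isND_xC rootTableG2) Gs_xC (by omega) (fun e => by
      have := h3.mp e; omega) ρ hk).1
  · have := hs (by omega)
    refine G2.bound_three isSt_xC (by simpa using h3.mpr h1) (isND_xC rootTableG2) Gs_xC ?_ ρ hk
    by_contra h4
    rw [show Fintype.card F = 6 by omega] at hq
    exact absurd hq (by decide +kernel)

end Cfsg.Agent.S2338
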