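import Cfsg.Statements.S2339
import Cfsg.Agent.Chev.MinDegSL
import Cfsg.Agent.Chev.CoxPoinE8

set_option autoImplicit false
open Cfsg

namespace Cfsg.Agent.S2339

open Cfsg.Agent.Chev Cfsg.Agent.Chev.MD Cfsg.Lie

theorem chk : chkSL encE8 (nbrs encE8) = true := by decide +kernel

theorem len : (nbrs encE8).length = 2 * 28 := by decide +kernel

theorem expos : (List.range' 120 120).map (expo encE8) =
    [0, 0, 1, 0, 1, 2, 0, 1, 2, 3, 0, 1, 2, 3, 4, 0, 1, 2, 3, 4, 5, 0, 1, 2, 3, 4, 5, 2, 3, 4, 5,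
    6, 4, 5, 6, 7, 6, 7, 8, 8, 9, 10, 0, 1, 2, 3, 4, 5, 6, 3, 4, 5, 6, 7, 5, 6, 7, 8, 7, 8, 9, 9,
    10, 11, 6, 7, 8, 9, 8, 9, 10, 10, 11, 12, 9, 10, 11, 11, 12, 13, 12, 13, 14, 15, 10, 11, 12, 12,
    13, 14, 13, 14, 15, 16, 14, 15, 16, 17, 18, 15, 16, 17, 18, 19, 20, 21, 16, 17, 18, 19, 20, 21,
    22, 22, 23, 24, 25, 26, 27, 28] := by decide +kernel

theorem perp (i : Nd chevE8) (hi : (i : ℕ) ≠ 7) : A (sr i) (top chevE8) = 0 := by
  rw [A_sr_left]
  exact (by decide +kernel : ∀ i : Fin 8, (i : ℕ) ≠ 7 → chevE8.cartan i 239 = 0) i hi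

theorem arith {q d n : ℕ} (hq : IsPrimePow q) (h1 : q * ((q ^ 12 + 1) * (q ^ 10 + 1) * (q ^ 6 + 1)) ≤ d + 8)
    (h2 : d ∣ n * (q * q ^ 28)) (h3 : n ∣ (q ^ 30 - 1) * ((q ^ 12 + 1) * (q ^ 10 + 1) * (q ^ 6 + 1))) :
    q * ((q ^ 12 + 1) * (q ^ 10 + 1) * (q ^ 6 + 1)) ≤ d := by
  by_contra h
  obtain ⟨i, hi⟩ := Nat.exists_eq_add_of_le (not_le.mp h).le
  have h4 := dvd_gap hi.symm h2 h3
  have h0 : 0 < i := by omega
  have h8 : i ≤ 8 := by omega
  by_cases h9 : q ≤ 8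
  · have := hq.two_le
    obtain rfl : d = q * ((q ^ 12 + 1) * (q ^ 10 + 1) * (q ^ 6 + 1)) - i := by omega
    revert h4
    clear h h1 h2 h3 hi
    interval_cases q <;> interval_cases i <;> decide +kernel
  · obtain ⟨p, f, hp, -, e⟩ := (isPrimePow_nat_iff q).mp hq
    have hq1 : 1 ≤ q := by omega
    have hle : ∀ k, k ≤ 24 → q ^ k ≤ q ^ 24 := fun k hk => Nat.pow_le_pow_right hq1 hk
    have h5 : 9 ^ 5 * q ^ 24 ≤ q ^ 29 := by
      rw [show q ^ 29 = q ^ 5 * q ^ 24 by ring]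
      exact Nat.mul_le_mul_right _ (Nat.pow_le_pow_left (by omega) 5)
    have h6 : i * i ≤ 64 := by nlinarith
    refine no_gap (T := q ^ 24 + q ^ 20 + q ^ 18 + q ^ 14 + q ^ 12 + q ^ 8 + q ^ 2) hp e.symm hi.symm
      h0 (by omega) h4 (by ring) (by
        have : q * i ≤ q ^ 2 := by rw [sq]; exact Nat.mul_le_mul_left _ (by omega)
        omega) ?_
    have h7 : q * ((q ^ 12 + 1) * (q ^ 10 + 1) * (q ^ 6 + 1)) =
      q ^ 29 + (q ^ 23 + q ^ 19 + q ^ 17 + q ^ 13 + q ^ 11 + q ^ 7 + q) := by ring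
    have := Nat.mul_le_mul_right
      (q ^ 24 + q ^ 20 + q ^ 18 + q ^ 14 + q ^ 12 + q ^ 8 + q ^ 2 + 1) h6
    have := hle 20; have := hle 18; have := hle 14; have := hle 12; have := hle 8
    have := hle 2
    have : 1 ≤ q ^ 24 := Nat.one_le_pow _ _ hq1
    omega

/-- For the Chevalley group of type E₈ over a finite field with q elements, every irreducible complex representation of degree at least 2 has degree at least q(q¹² + 1)(q¹⁰ + 1)(q⁶ + 1). -/
theorem result {F : Type*} [Field F] [Fintype F] (k : ℕ) (ρ : Representation ℂ (Cfsg.Lie.chevE8.group F) (Fin k → ℂ)) (hρ : ρ.IsIrreducible) (hk : 2 ≤ k) :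
    Fintype.card F * (Fintype.card F ^ 12 + 1) * (Fintype.card F ^ 10 + 1) * (Fintype.card F ^ 6 + 1) ≤ k := by
  obtain ⟨T⟩ := exists_rootTable (D := chevE8) (by simp)
  have hs := (isSimpleGroup_group (D := chevE8) (F := F) (by simp) (by
    rintro (h | h) <;> exact absurd (congrArg ChevalleyDatum.rank h) (by decide))).1
  have hN : T.N = 120 := T.N_eq
  have hq : IsPrimePow (Fintype.card F) := Fintype.isPrimePow_card_of_field
  have h2 := hq.two_le
  have hi := index_cent_dvd isSt_xC (isND_xC (F := F) T) Gs_xC (k := 7) perp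
    (a := cartanE8) (cm_E8 ▸ T.isCartan) (c := [1, 1, 1, 1, 1, 1, 1, 1]) (show ∀ i < 8, _ by decide)
    (show checkFull 8 _ _ 7 orbE8_7 = true from checkE8_7)
  rcases sl_bound encE8_agree rfl chk encE8_A isSt_xC (isND_xC T) len (by norm_num) ρ hk with
    h | ⟨h3, h4⟩
  · generalize Fintype.card F = q at *
    refine Nat.le_of_mul_le_mul_left (le_trans ?_ h) (by omega : 0 < q)
    have hle : ∀ k, k ≤ 24 → q ^ k ≤ q ^ 24 := fun k hk => Nat.pow_le_pow_right (by omega) hk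
    have h5 : 2 ^ 4 * q ^ 24 ≤ q ^ 28 := by
      rw [show q ^ 28 = q ^ 4 * q ^ 24 by ring]
      exact Nat.mul_le_mul_right _ (Nat.pow_le_pow_left h2 4)
    have h6 : 4 * q ^ 28 ≤ q ^ 30 := by
      rw [show q ^ 30 = q ^ 2 * q ^ 28 by ring]
      exact Nat.mul_le_mul_right _ (Nat.pow_le_pow_left h2 2)
    have h7 : 2 * (q ^ 2 - 1) * q ^ 28 + 2 * q ^ 28 = 2 * q ^ 30 := by
      have : 1 ≤ q ^ 2 := Nat.one_le_pow _ _ (by omega)
      zify [this]; ring
    have h8 : q * (q * (q ^ 12 + 1) * (q ^ 10 + 1) * (q ^ 6 + 1)) =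
      q ^ 30 + (q ^ 24 + q ^ 20 + q ^ 18 + q ^ 14 + q ^ 12 + q ^ 8 + q ^ 2) := by ring
    have := hle 20; have := hle 18; have := hle 14; have := hle 12; have := hle 8
    have := hle 2
    omega
  · rw [hN, expos] at h3
    rw [sumE8_7] at hi
    generalize Fintype.card F = q at *
    have e1 : 1 ≤ q := by omega
    have e2 : 1 ≤ q ^ 30 := Nat.one_le_pow _ _ e1
    rw [show q * (q ^ 12 + 1) * (q ^ 10 + 1) * (q ^ 6 + 1) =
      q * ((q ^ 12 + 1) * (q ^ 10 + 1) * (q ^ 6 + 1)) by ring]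
    refine arith hq (le_trans (le_of_eq ?_) (Nat.add_le_add_right h3 8)) h4 (hi.trans (dvd_of_eq ?_))
    · simp only [List.map_cons, List.map_nil, List.sum_cons, List.sum_nil]
      zify [e1]
      ring
    · zify [e1, e2]
      ring

end Cfsg.Agent.S2339
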