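import Cfsg.Statements.S2340
import Cfsg.Agent.Chev.MinDegSL

set_option autoImplicit false
open Cfsg

namespace Cfsg.Agent.S2340

open Cfsg.Agent.Chev Cfsg.Agent.Chev.MD Cfsg.Lie

theorem chk : chkSL encE6 (nbrs encE6) = true := by decide +kernel

theorem len : (nbrs encE6).length = 2 * 10 := by decide +kernel

theorem expos : (List.range' 36 36).map (expo encE6) =
    [0, 0, 1, 0, 1, 2, 0, 1, 2, 3, 0, 1, 2, 3, 2, 3, 4, 4, 5, 6, 0, 1, 2, 3, 4, 3, 4, 5, 5, 6, 7,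
    6, 7, 8, 9, 10] := by decide +kernel

theorem perp (i : Nd chevE6) (hi : (i : ℕ) ≠ 1) : A (sr i) (top chevE6) = 0 := by
  rw [A_sr_left]
  exact (by decide +kernel : ∀ i : Fin 6, (i : ℕ) ≠ 1 → chevE6.cartan i 71 = 0) i hi

/-- The orbit of the highest root. -/
def orb : List (List ℤ × ℕ) :=
  [([0, 1, 0, 0, 0, 0], 0), ([0, -1, 0, 1, 0, 0], 1), ([0, 0, 1, -1, 1, 0], 2), ([1, 0, -1, 0, 1, 0], 3), ([0, 0, 1, 0, -1, 1], 3), ([-1, 0, 0, 0, 1, 0], 4), ([1, 0, -1, 1, -1, 1], 4), ([0, 0, 1, 0, 0, -1], 4), ([-1, 0, 0, 1, -1, 1], 5), ([1, 1, 0, -1, 0, 1], 5), ([1, 0, -1, 1, 0, -1], 5), ([-1, 1, 1, -1, 0, 1], 6), ([-1, 0, 0, 1, 0, -1], 6), ([1, -1, 0, 0, 0, 1], 6), ([1, 1, 0, -1, 1, -1], 6), ([-1, -1, 1, 0, 0, 1], 7), ([0, 1, -1, 0, 0, 1], 7), ([-1, 1, 1, -1, 1, -1], 7), ([1, -1, 0, 0, 1, -1], 7), ([1, 1, 0, 0, -1, 0], 7), ([0, -1, -1, 1, 0, 1], 8), ([-1, -1, 1, 0, 1, -1],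 8), ([0, 1, -1, 0, 1, -1], 8), ([-1, 1, 1, 0, -1, 0], 8), ([1, -1, 0, 1, -1, 0], 8), ([0, 0, 0, -1, 1, 1], 9), ([0, -1, -1, 1, 1, -1], 9), ([-1, -1, 1, 1, -1, 0], 9), ([0, 1, -1, 1, -1, 0], 9), ([1, 0, 1, -1, 0, 0], 9), ([0, 0, 0, 0, -1, 2], 10), ([0, 0, 0, -1, 2, -1], 10), ([0, -1, -1, 2, -1, 0], 10), ([-1, 0, 2, -1, 0, 0], 10), ([0, 2, 0, -1, 0, 0], 10), ([2, 0, -1, 0, 0, 0], 10), ([0, 0, 0, 0, 1, -2], 11), ([0, 0, 0, 1, -2, 1], 11), ([0, 1, 1, -2, 1, 0], 11), ([1, 0, -2, 1, 0, 0], 11), ([0, -2, 0, 1, 0, 0], 11), ([-2, 0, 1, 0, 0, 0], 11), ([0, 0, 0, 1, -1, -1], 12), ([0, 1, 1, -1, -1, 1], 12), ([0, -1, 1, -1, 1, 0], 12), ([1, 1, -1, -1, 1, 0], 12), ([-1, 0, -1, 1, 0, 0], 12), ([0, 1, 1, -1, 0, -1], 13), ([0, -1, 1, 0, -1, 1], 13), ([1, 1, -1, 0, -1, 1], 13), ([1, -1, -1, 0, 1, 0], 13), ([-1, 1, 0, -1, 1, 0], 13), ([0, -1, 1, 0, 0, -1], 14), ([1, 1, -1, 0, 0, -1],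 14), ([1, -1, -1, 1, -1, 1], 14), ([-1, 1, 0, 0, -1, 1], 14), ([-1, -1, 0, 0, 1, 0], 14), ([1, -1, -1, 1, 0, -1], 15), ([-1, 1, 0, 0, 0, -1], 15), ([-1, -1, 0, 1, -1, 1], 15), ([1, 0, 0, -1, 0, 1], 15), ([-1, -1, 0, 1, 0, -1], 16), ([1, 0, 0, -1, 1, -1], 16), ([-1, 0, 1, -1, 0, 1], 16), ([-1, 0, 1, -1, 1, -1], 17), ([1, 0, 0, 0, -1, 0], 17), ([0, 0, -1, 0, 0, 1], 17), ([0, 0, -1, 0, 1, -1], 18), ([-1, 0, 1, 0, -1, 0], 18), ([0, 0, -1, 1, -1, 0], 19), ([0, 1, 0, -1, 0, 0], 20), ([0, -1, 0, 0, 0, 0], 21)]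

theorem orb_chk : checkFull 6 cartanE6 [1, 1, 1, 1, 1, 1] 1 orb = true := by decide +kernel

theorem arith {q d n : ℕ} (hq : IsPrimePow q) (h1 : q * ((q ^ 6 + q ^ 3 + 1) * (q ^ 4 + 1)) ≤ d + 6)
    (h2 : d ∣ n * (q * q ^ 10)) (h3 : n ∣ (q ^ 12 - 1) * ((q ^ 6 + q ^ 3 + 1) * (q ^ 4 + 1))) :
    q * ((q ^ 6 + q ^ 3 + 1) * (q ^ 4 + 1)) ≤ d := by
  by_contra h
  obtain ⟨i, hi⟩ := Nat.exists_eq_add_of_le (not_le.mp h).le
  have h4 := dvd_gap hi.symm h2 h3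
  have h0 : 0 < i := by omega
  have h8 : i ≤ 6 := by omega
  by_cases h9 : q ≤ 6
  · have := hq.two_le
    obtain rfl : d = q * ((q ^ 6 + q ^ 3 + 1) * (q ^ 4 + 1)) - i := by omega
    revert h4
    clear h h1 h2 h3 hi
    interval_cases q <;> interval_cases i <;> decide +kernel
  · obtain ⟨p, f, hp, -, e⟩ := (isPrimePow_nat_iff q).mp hq
    have hq1 : 1 ≤ q := by omega
    have hle : ∀ k, k ≤ 8 → q ^ k ≤ q ^ 8 := fun k hk => Nat.pow_le_pow_right hq1 hk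
    have h5 : 7 ^ 2 * q ^ 9 ≤ q ^ 11 := by
      rw [show q ^ 11 = q ^ 2 * q ^ 9 by ring]
      exact Nat.mul_le_mul_right _ (Nat.pow_le_pow_left (by omega) 2)
    have h5' : 7 * q ^ 8 ≤ q ^ 9 := by
      rw [show q ^ 9 = q * q ^ 8 by ring]
      exact Nat.mul_le_mul_right _ (by omega)
    have h5'' : 7 ^ 2 * q ^ 6 ≤ q ^ 8 := by
      rw [show q ^ 8 = q ^ 2 * q ^ 6 by ring]
      exact Nat.mul_le_mul_right _ (Nat.pow_le_pow_left (by omega) 2)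
    have h6 : i * i ≤ 36 := by nlinarith
    refine no_gap (T := q ^ 9 + q ^ 8 + q ^ 6 + q ^ 5 + q ^ 2) hp e.symm hi.symm
      h0 (by omega) h4 (by ring) (by
        have : q * i ≤ q ^ 2 := by rw [sq]; exact Nat.mul_le_mul_left _ (by omega)
        omega) ?_
    have h7 : q * ((q ^ 6 + q ^ 3 + 1) * (q ^ 4 + 1)) =
      q ^ 11 + (q ^ 8 + q ^ 7 + q ^ 5 + q ^ 4 + q) := by ring
    have := Nat.mul_le_mul_right (q ^ 9 + q ^ 8 + q ^ 6 + q ^ 5 + q ^ 2 + 1) h6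
    have : q ^ 5 ≤ q ^ 6 := Nat.pow_le_pow_right hq1 (by omega)
    have : q ^ 2 ≤ q ^ 6 := Nat.pow_le_pow_right hq1 (by omega)
    have : 1 ≤ q ^ 6 := Nat.one_le_pow _ _ hq1
    omega

/-- For the Chevalley group of type E₆ over a finite field with q elements (the group generated by the root elements), every irreducible complex representation of degree at least 2 has degree at least q(q⁶ + q³ + 1)(q⁴ + 1). -/
theorem result {F : Type*} [Field F] [Fintype F] :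
    (∀ (k : ℕ) (ρ : Representation ℂ (Cfsg.Lie.chevE6.group F) (Fin k → ℂ)), ρ.IsIrreducible → 2 ≤ k → Fintype.card F * (Fintype.card F ^ 6 + Fintype.card F ^ 3 + 1) * (Fintype.card F ^ 4 + 1) ≤ k) := by
  intro k ρ hρ hk
  obtain ⟨T⟩ := exists_rootTable (D := chevE6) (by simp)
  have hs := (isSimpleGroup_group (D := chevE6) (F := F) (by simp) (by
    rintro (h | h) <;> exact absurd (congrArg ChevalleyDatum.rank h) (by decide))).1
  have hN : T.N = 36 := T.N_eq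
  have hq : IsPrimePow (Fintype.card F) := Fintype.isPrimePow_card_of_field
  have h2 := hq.two_le
  have hi := index_cent_dvd isSt_xC (isND_xC (F := F) T) Gs_xC (k := 1) perp
    (a := cartanE6) (cm_E6 ▸ T.isCartan) (c := [1, 1, 1, 1, 1, 1]) (show ∀ i < 6, _ by decide)
    orb_chk
  rcases sl_bound encE6_agree rfl chk encE6_A isSt_xC (isND_xC T) len (by norm_num) ρ hk with
    h | ⟨h3, h4⟩
  · generalize Fintype.card F = q at *
    refine Nat.le_of_mul_le_mul_left (le_trans ?_ h) (by omega : 0 < q)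
    have h5 : ∀ k, 2 * q ^ k ≤ q ^ (k + 1) := fun k => by
      rw [pow_succ, mul_comm]; exact Nat.mul_le_mul_left _ h2
    have h7 : 2 * (q ^ 2 - 1) * q ^ 10 + 2 * q ^ 10 = 2 * q ^ 12 := by
      have : 1 ≤ q ^ 2 := Nat.one_le_pow _ _ (by omega)
      zify [this]; ring
    have h8 : q * (q * (q ^ 6 + q ^ 3 + 1) * (q ^ 4 + 1)) =
      q ^ 12 + (q ^ 9 + q ^ 8 + q ^ 6 + q ^ 5 + q ^ 2) := by ring
    have := h5 2; have := h5 3; have := h5 4; have := h5 5; have := h5 6; have := h5 7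
    have := h5 8; have := h5 9; have := h5 10; have := h5 11
    norm_num at *
    omega
  · rw [hN, expos] at h3
    generalize Fintype.card F = q at *
    have e1 : 1 ≤ q := by omega
    have e2 : 1 ≤ q ^ 12 := Nat.one_le_pow _ _ e1
    rw [mul_assoc]
    refine arith hq (le_trans (le_of_eq ?_) (Nat.add_le_add_right h3 6)) h4 (hi.trans (dvd_of_eq ?_))
    · simp only [List.map_cons, List.map_nil, List.sum_cons, List.sum_nil]
      zify [e1]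
      ring
    · simp only [orb, List.map_cons, List.map_nil, List.sum_cons, List.sum_nil]
      zify [e1, e2]
      ring

end Cfsg.Agent.S2340
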