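import Cfsg.Statements.S2342
import Cfsg.Agent.Chev.MinDegG
import Cfsg.Agent.Chev.TwistD4F

set_option autoImplicit false
open Cfsg

namespace Cfsg.Agent.S2342

open Cfsg.Agent.Chev Cfsg.Agent.Chev.MD Cfsg.Lie

/-- Weights of the nodes. -/
def wt (i : ℕ) : ℤ := [1, 16, 1, 1].getD i 0

/-- The fixed roots. -/
def fx : List ℕ := [0, 1, 9, 14, 22, 23]

theorem rho_lt : ∀ r < chevD4.nroots, rhoD4 r < chevD4.nroots := by decide +kernel

/-- The graph automorphism on roots. -/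
def rho (r : Rt chevD4) : Rt chevD4 := ⟨rhoD4 r, rho_lt r r.2⟩

theorem comb : TwComb chevD4 rho (fw chevD4 wt) :=
  twComb_of_check encD4_agree encD4_A rfl rho_lt (fun _ _ => rfl) (fx := fx) (by decide +kernel)

theorem rho_spec : ∀ r < 24, rhoD4 (rhoD4 (rhoD4 r)) = r ∧
    epsD4 (rhoD4 (rhoD4 r)) * (epsD4 (rhoD4 r) * epsD4 r) = 1 ∧
    (rhoD4 r = r → epsD4 r = 1 ∧ r ∈ fx) := by decide +kernel

theorem mem_fx {r : Rt chevD4} (h : rho r = r) : (r : ℕ) ∈ fx :=
  ((rho_spec r r.2).2.2 (congrArg Fin.val h)).2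

theorem fx_spec : ∀ r ∈ fx, r < 24 ∧ rhoD4 r = r := by decide +kernel

theorem dom (a : Rt chevD4) (ha : rho a = a) (h : a ≠ top chevD4) :
    ∃ r, rho r = r ∧ Pos r ∧ A r a = -1 := by
  simp only [A_enc encD4_agree, pos_iff_le]
  obtain ⟨c, hc, e⟩ := (by decide +kernel : ∀ a ∈ fx, a ≠ 23 →
    ∃ c ∈ fx, 24 ≤ 2 * c ∧ encD4.pair c a = -1) a (mem_fx ha) fun e => h (Fin.ext e)
  exact ⟨⟨c, (fx_spec c hc).1⟩, Fin.ext (fx_spec c hc).2, e⟩

theorem fw_eq (r : Rt chevD4) : fw chevD4 wt (v r) = fE encD4 wt r := fw_v encD4_agree encD4_A rfl wt r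

theorem card_fib (r : Rt chevD4) (h : rho r ≠ r) :
    (Finset.univ.filter fun s => fw chevD4 wt (v s) = fw chevD4 wt (v r)).card = 3 := by
  rw [card_filter_enc (fun s => isZ (fE encD4 wt s - fE encD4 wt r)) _
    fun s => by rw [isZ_iff, sub_eq_zero, fw_eq, fw_eq]]
  exact (by decide +kernel : ∀ r < 24, rhoD4 r ≠ r →
    cntN 24 (fun s => isZ (fE encD4 wt s - fE encD4 wt r)) = 3) r r.2 fun e => h (Fin.ext e)

theorem card_nbr (a : Rt chevD4) (h : rho a = a) :
    (Finset.univ.filter fun s => A a s = 1).card = 2 * 4 := by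
  rw [card_filter_enc (fun s => isZ (encD4.pair a s - 1)) _
    fun s => by rw [isZ_iff, sub_eq_zero, A_enc encD4_agree]]
  exact (by decide +kernel : ∀ a ∈ fx, cntN 24 (fun s => isZ (encD4.pair a s - 1)) = 8) a (mem_fx h)

theorem perp (i : Nd chevD4) (hi : (oD4 i : ℕ) ≠ 1) : A (sr i) (top chevD4) = 0 := by
  rw [A_sr_left]
  exact (by decide +kernel : ∀ i : Fin 4, (oD4 i : ℕ) ≠ 1 → chevD4.cartan i 23 = 0) i hi

/-- The orbit of the highest root. -/
def orb : List (List ℤ × ℕ) :=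
  [([0, 1], 0), ([1, -1], 1), ([-1, 2], 4), ([1, -2], 5), ([-1, 1], 8), ([0, -1], 9)]

theorem orb_chk : checkFull 2 cartanG2 [3, 1] 1 orb = true := by decide +kernel

theorem cubic {K G : Type*} [Field K] [Group G] {x : ℕ → K → G} (h : IsSt0 chevD4 x) (a b c t : K) :
    (x 14 t)⁻¹ * ((x 18 a * x 13 b * x 12 c)⁻¹ * x 14 t * (x 18 a * x 13 b * x 12 c)) *
      (x 22 (a * b * c * t))⁻¹ ∈ XS x {k | ∃ r : Rt chevD4, (r : ℕ) = k ∧ rho r ≠ r ∧
        A (top chevD4) r = 1} := by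
  have hc := (by decide +kernel : [(18, 14), (13, 14), (13, 19), (12, 14), (12, 16), (12, 19),
    (12, 21)].map (fun p => chevD4.commTerms p.1 p.2) = [[(19, -1, 1, 1)], [(16, 1, 1, 1)],
    [(21, 1, 1, 1)], [(15, 1, 1, 1)], [(17, 1, 1, 1)], [(20, 1, 1, 1)], [(22, 1, 1, 1)]])
  simp only [List.map_cons, List.map_nil, List.cons.injEq] at hc
  have hm : ∀ k ∈ [15, 16, 17, 19, 20, 21], ∀ u, x k u ∈ XS x {k | ∃ r : Rt chevD4, (r : ℕ) = k ∧
      rho r ≠ r ∧ A (top chevD4) r = 1} := fun k hk u => by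
    obtain ⟨h1, h2, h3⟩ := (by decide +kernel : ∀ k ∈ [15, 16, 17, 19, 20, 21],
      k < 24 ∧ rhoD4 k ≠ k ∧ encD4.pair 23 k = 1) k hk
    exact mem_XS (by exact ⟨⟨k, h1⟩, rfl, fun e => h2 (congrArg Fin.val e), by
      rw [A_enc encD4_agree]; exact h3⟩) u
  have e := fun r s (H : r < chevD4.nroots ∧ s < chevD4.nroots ∧ s ≠ r ∧ s ≠ chevD4.neg r) =>
    h.conj_x H.1 H.2.1 H.2.2.1 H.2.2.2
  rw [conj_by_mul, conj_by_mul, e 18 14 (by decide)]
  simp only [ChevalleyDatum.commWord, hc, List.map_cons, List.map_nil, word_cons, word_nil, mul_one,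
    conj_mul_mul, e 13 14 (by decide), e 13 19 (by decide), e 12 14 (by decide), e 12 16 (by decide),
    e 12 19 (by decide), e 12 21 (by decide)]
  rw [show a * b * c * t = ((1 : ℤ) : K) * (-c) ^ 1 * (((1 : ℤ) : K) * (-b) ^ 1 *
    (((-1 : ℤ) : K) * (-a) ^ 1 * t ^ 1) ^ 1) ^ 1 by push_cast; ring]
  simp only [mul_assoc, inv_mul_cancel_left, mul_inv_cancel, mul_one]
  refine mul_mem ?_ (mul_mem ?_ (mul_mem ?_ (mul_mem ?_ (mul_mem ?_ ?_)))) <;>
    exact hm _ (by simp) _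

theorem arith {q d n m : ℕ} (hq : IsPrimePow q) (hm : m + q ^ 2 = q ^ 4 + 1)
    (h1 : q * m ≤ d + 1) (h2 : d ∣ n * (q * q ^ 4)) (h3 : n ∣ (q ^ 6 - 1) * m) : q * m ≤ d := by
  by_contra h
  have hi : d + 1 = q * m := by omega
  have h4 := dvd_gap hi h2 h3
  have h9 := hq.two_le
  obtain ⟨p, f, hp, -, e⟩ := (isPrimePow_nat_iff q).mp hq
  have h5 : ∀ k, 2 * q ^ k ≤ q ^ (k + 1) := fun k => by
    rw [pow_succ, mul_comm]; exact Nat.mul_le_mul_left _ h9
  have h6 : q * (q * m) + q ^ 4 = q ^ 6 + q ^ 2 := by linear_combination q ^ 2 * hm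
  have h7 : q * m + q ^ 3 = q ^ 5 + q := by linear_combination q * hm
  have h10 : d ∣ 1 * (1 * (q ^ 6 - 1)) :=
    dvd_of_prime_pow hp (m := m) (e := 4) (by rw [e, hi]) one_pos (by omega) (by rwa [e])
  have h11 : q * (q * m) = q * d + q := by rw [← hi, mul_add, mul_one]
  have := h5 1; have := h5 2; have := h5 3; have := h5 4; have := h5 5
  norm_num at *
  obtain ⟨R, hR⟩ : ∃ R, q ^ 6 - 1 = q * d + R := ⟨q ^ 6 - 1 - q * d, by omega⟩
  rw [hR] at h10
  have := Nat.le_of_dvd (by omega) ((Nat.dvd_add_right (Dvd.intro_left q rfl)).mp h10)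
  omega

/-- For the twisted group ³D₄(q), realised over the field with q³ elements (q a prime power), every irreducible complex representation of degree at least 2 has degree at least q(q⁴ − q² + 1). -/
theorem result {K : Type*} [Field K] [Fintype K] (q : ℕ) (hq : IsPrimePow q) (hK : Fintype.card K = q ^ 3) :
    (∀ (k : ℕ) (ρ : Representation ℂ (Cfsg.Lie.twistedD4 K q) (Fin k → ℂ)), ρ.IsIrreducible → 2 ≤ k → q * (q ^ 4 - q ^ 2 + 1) ≤ k) := by
  intro k ρ hρ hk
  obtain ⟨S, φ, hφ, h, hT⟩ := D4.exists_data hq hK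
  have h2 := hq.two_le
  let j := Subgroup.inclusion (D4.le_group (K := K) (q := q))
  have hj : Function.Injective j := Subgroup.inclusion_injective _
  have hr₀ : j.range = _ := (D4.tw S φ hφ).data.range_inclusion _ hT
  have hs := (D4.isSimpleGroup S φ hφ (D4.three_lt hq hK) j hj hr₀).1
  have hσ : ∀ r < chevD4.nroots, ∀ t, (D4.tw S φ hφ).σ (xC chevD4 K r t) =
      xC chevD4 K (rhoD4 r) (epsD4 r * φ t) := (D4.tw S φ hφ).hσ
  let Y : TwSys chevD4 (xC chevD4 K) := twSys3 S (σ := (D4.tw S φ hφ).σ) (φ := φ) comb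
    (fun r => ⟨epsD4 r, fun e => by rw [((rho_spec r r.2).2.2 (congrArg Fin.val e)).1]; simp,
      hσ r r.2⟩) (fun r t ht => (D4.tw S φ hφ).σ_hh r.2 ht) (fun r => Fin.ext (rho_spec r r.2).1) hφ
    (fun r t => by
      rw [hσ r r.2, hσ _ (rho_lt r r.2), hσ _ (rho_lt _ (rho_lt r r.2)), (rho_spec r r.2).1]
      simp only [map_mul, map_intCast, hφ, ← mul_assoc, ← Int.cast_mul]
      rw [mul_assoc (epsD4 _), (rho_spec r r.2).2.1, Int.cast_one, one_mul])
    (by
      obtain ⟨t, ht⟩ := exists_trace_ne_zero (d := 3) h2 (by omega) hK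
      rw [Finset.sum_range_succ, Finset.sum_range_succ, Finset.sum_range_one, pow_zero, pow_one,
        pow_one, pow_two, pow_mul, ← h, ← h] at ht
      exact ⟨t, ht⟩)
    (by
      obtain ⟨t, ht, e⟩ := exists_pow_ne_one (K := K) (n := 2 * (q - 1)) (by omega) (by
        obtain ⟨r, rfl⟩ : ∃ r, q = r + 2 := ⟨q - 2, by omega⟩
        rw [hK, Nat.lt_sub_iff_add_lt, show r + 2 - 1 = r + 1 from rfl]
        nlinarith [Nat.zero_le (r ^ 3)])
      have h3 : φ t ≠ 0 := by simpa using ht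
      have h4 : φ (φ t) ≠ 0 := by simpa using ht
      refine ⟨φ t / t, by rw [map_div₀, map_div₀, hφ]; field_simp, fun e' => e ?_⟩
      rw [← e', h, mul_comm, pow_mul, pow_sub₀ _ ht (by omega), pow_one, div_eq_mul_inv])
  have hr : ∀ g, g ∈ j.range ↔ Y.σ g = g := fun g => by
    rw [hr₀, D4.T_eq_Fix]; rfl
  have : Fintype Y.F := Fintype.ofFinite _
  have hF : Fintype.card Y.F = q := by
    rw [← Nat.card_eq_fintype_card, ← card_fixed (by omega) hK]
    exact Nat.card_congr (Equiv.subtypeEquivRight fun t => by rw [Y.mem_F, ← h]; rfl)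
  have hK' : Nat.card K = Fintype.card Y.F ^ 3 := by rw [hF, Nat.card_eq_fintype_card, hK]
  have htop : Y.ρ (top chevD4) = top chevD4 := Fin.ext (fx_spec 23 (by decide)).2
  have hi := tw_index_dvd (D4.tw S φ hφ) Y hj hr₀ hr htop _ (D4.orderOf_wJ S φ hφ) (q := q)
    (c := [3, 1]) (fun a => by
      rw [D4.card_UJ S φ hφ h hK (by omega)]; fin_cases a <;> rfl) isCartanForG2 orb_chk perp
  have e1 : 1 ≤ q := by omega
  have e2 : 1 ≤ q ^ 6 := Nat.one_le_pow _ _ e1
  have e3 : q ^ 2 ≤ q ^ 4 := Nat.pow_le_pow_right e1 (by omega)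
  have e4 : 1 ≤ q ^ 2 := Nat.one_le_pow _ _ e1
  let α : Rt chevD4 := ⟨22, by decide⟩
  let β : Rt chevD4 := ⟨14, by decide⟩
  have hα : Y.ρ α = α := Fin.ext (fx_spec 22 (by decide)).2
  have hβ : Y.ρ β = β := Fin.ext (fx_spec 14 (by decide)).2
  have a1 : A α (top chevD4) = 1 := by rw [A_enc encD4_agree]; decide +kernel
  have a2 : A (top chevD4) α = 1 := by rw [A_enc encD4_agree]; decide +kernel
  have a3 : A β (top chevD4) = 1 := by rw [A_enc encD4_agree]; decide +kernel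
  have a4 : A (top chevD4) β = 1 := by rw [A_enc encD4_agree]; decide +kernel
  rcases tw_dichotomy Y hj hr S.st S.nd hK' card_fib card_nbr htop dom hα a1 ρ hk with
    h3 | ⟨h3, h4⟩
  · rw [hF] at h3
    refine Nat.le_of_mul_le_mul_left (le_trans ?_ h3) (by omega : 0 < q)
    have h5 : ∀ k, 2 * q ^ k ≤ q ^ (k + 1) := fun k => by
      rw [pow_succ, mul_comm]; exact Nat.mul_le_mul_left _ h2
    have h7 : 2 * (q ^ 2 - 1) * q ^ 4 + 2 * q ^ 4 = 2 * q ^ 6 := by zify [e4]; ring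
    have h6 : q * (q * (q ^ 4 - q ^ 2 + 1)) + q ^ 4 = q ^ 6 + q ^ 2 := by zify [e3]; ring
    have := h5 2; have := h5 3; have := h5 4; have := h5 5
    norm_num at *
    omega
  · have l1 := Y.long_cls.mpr htop
    have l2 := Y.long_cls.mpr hα
    have l3 := Y.long_cls.mpr hβ
    have hco := fun {a} ha b => Y.heis_co_cls hj hr S.st.toIsSt0 S.nd (a := a) ha b
    have h5 := HeisSys.cubic_bound (R := Y.heis hj hr S.st.toIsSt0 S.nd) (ρ := ρ)
      (AddChar.FiniteField.primitiveChar_to_Complex_isPrimitive Y.F)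
      (tw_hN Y hj hr S.st S.nd hK' card_fib card_nbr) l1 l2 l3 ((hco hα _).trans a1)
      ((hco htop _).trans a2) ((hco hβ _).trans a3) ((hco htop _).trans a4)
      ((Y.card_X_long hj hr S.st.toIsSt0 S.nd l1).trans Nat.card_eq_fintype_card) h4
      (fun g hg => Y.heis_tor hj hr S.st rootTableD4 _ g l3 hg) (fun κ => ?_) fun l hl => ?_
    · rw [hF, Module.finrank_fin_fun] at h5
      rw [hF] at h3 hi
      refine arith hq (by omega) (Nat.le_of_mul_le_mul_left (le_trans (le_of_eq ?_)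
        ((Nat.add_le_add_right h5 q).trans (le_of_eq (by ring)))) (by omega : 0 < q)) h3
        (hi.trans (dvd_of_eq ?_))
      · zify [e1, e3]
        ring
      · simp only [orb, List.map_cons, List.map_nil, List.sum_cons, List.sum_nil]
        zify [e1, e2, e3]
        ring
    · obtain ⟨s, hs⟩ := exists_norm_three hK ((h _).symm.trans (Y.mem_F.mp κ.2))
      rw [← h, ← h] at hs
      obtain ⟨y, hy⟩ : xC chevD4 K 18 s * xC chevD4 K 13 (φ s) * xC chevD4 K 12 (φ (φ s)) ∈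
        j.range := hr₀ ▸ D4.par_pos_mem S φ hφ (a := 0) ⟨s, rfl⟩
      have hc : ∀ a : Rt chevD4, Y.ρ a = a → (a : ℕ) = 22 ∨ (a : ℕ) = 23 → ∀ t,
          Commute (Y.xx j (Y.cls a) t) y := fun a ha h1 t => hj (by
        rw [map_mul, map_mul, hy, Y.j_xx hr (Y.long_cls.mpr ha), Y.rep_cls ha]
        rcases h1 with e | e <;> rw [e] <;>
          exact ((D4.comm S _ _ (by decide +kernel) _ _).mul_right
            (D4.comm S _ _ (by decide +kernel) _ _)).mul_right (D4.comm S _ _ (by decide +kernel) _ _))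
      refine ⟨y, hc _ htop (.inr rfl), hc _ hα (.inl rfl), fun t M h1 h2 =>
        Y.mem_of_rad hj hr S.st.toIsSt0 S.nd htop ?_ h1 h2⟩
      have := cubic S.st.toIsSt0 s (φ s) (φ (φ s)) t
      rw [hs] at this
      simp only [map_mul, map_inv, hy]
      rw [show j ((Y.heis hj hr S.st.toIsSt0 S.nd).x (Y.cls β) t) = _ from Y.j_xx hr l3 t,
        show j ((Y.heis hj hr S.st.toIsSt0 S.nd).x (Y.cls α) (κ * t)) = _ from Y.j_xx hr l2 _,
        Y.rep_cls hα, Y.rep_cls hβ]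
      exact this
    · obtain ⟨g, hg⟩ := Y.exists_scale hj hr S.st rootTableD4 htop hl
      refine ⟨g, fun t => ?_, fun t => ?_, fun t => ?_⟩
      · exact (hg _ htop t).trans (by rw [A_self, zpow_ofNat]; rfl)
      · exact (hg _ hα t).trans (by rw [a2, zpow_one]; rfl)
      · exact (hg _ hβ t).trans (by rw [a4, zpow_one]; rfl)

end Cfsg.Agent.S2342
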