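import Cfsg.Statements.S2344
import Mathlib
import Cfsg.Agent.KSG.OrthOdd

set_option autoImplicit false
open Cfsg

namespace Cfsg.Agent.S2344

/-- For a finite field F of odd order q > 3 and n ≥ 3, every irreducible complex representation of degree at least 2 of Ω_{2n+1}(F) (the commutator subgroup of the isometry group of the quadratic form x₀² + x₁y₁ + ⋯ + x_ny_n) has degree at least (q^{2n} − 1)/(q² − 1). -/
theorem result {F : Type*} [Field F] [Fintype F] (n : ℕ) (hn : 3 ≤ n) (hodd : Odd (Fintype.card F)) (h3 : 3 < Fintype.card F) :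
    (∀ (k : ℕ) (ρ : Representation ℂ (Cfsg.Omega F (Cfsg.quadFormOdd n F)) (Fin k → ℂ)), ρ.IsIrreducible → 2 ≤ k → (Fintype.card F ^ (2 * n) - 1) / (Fintype.card F ^ 2 - 1) ≤ k) := by
  intro k ρ hρ hk
  obtain ⟨m, rfl⟩ := Nat.exists_eq_add_of_le' hn
  have h2 := Class.Orth.two_ne_zero_of_odd_card hodd
  obtain ⟨σ, hσ⟩ := KSG.OM.exists_rep (Class.Orth.nd_oddQF _ F h2) (by simp; omega)
    (Class.Orth.oddQF_apply _ F) ρ hρ hk
  have := KSG.OM.odd_bound (by simpa using h3) m σ (Class.Orth.nd_oddQF _ F h2) (by simp; ring)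
    ((Class.Orth.card_oddQF_zero _).trans (congrArg _ (by simp; omega))) hσ
  rw [Module.finrank_fin_fun, Nat.card_eq_fintype_card] at this
  refine Nat.div_le_of_le_mul ((Nat.cast_le (α := ℤ)).1 ?_)
  push_cast [Nat.cast_sub (Nat.one_le_pow _ _ (Fintype.card_pos (α := F)))]
  linear_combination this

end Cfsg.Agent.S2344
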