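import Cfsg.Statements.S2345
import Mathlib
import Cfsg.Agent.KSG.OrthEven

set_option autoImplicit false
open Cfsg

namespace Cfsg.Agent.S2345

/-- For a finite field F with q > 3 elements and n ≥ 4, every irreducible complex representation of degree at least 2 of Ω⁺_{2n}(F) (the commutator subgroup of the isometry group of the hyperbolic quadratic form x₁y₁ + ⋯ + x_ny_n) has degree at least (q^n − 1)(q^{n−1} + q)/(q² − 1). -/
theorem result {F : Type*} [Field F] [Fintype F] (n : ℕ) (hn : 4 ≤ n) (h3 : 3 < Fintype.card F) :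
    (∀ (k : ℕ) (ρ : Representation ℂ (Cfsg.Omega F (Cfsg.quadFormPlus n F)) (Fin k → ℂ)), ρ.IsIrreducible → 2 ≤ k → (Fintype.card F ^ n - 1) * (Fintype.card F ^ (n - 1) + Fintype.card F) / (Fintype.card F ^ 2 - 1) ≤ k) := by
  intro k ρ hρ hk
  obtain ⟨m, rfl⟩ := Nat.exists_eq_add_of_le' (show 3 ≤ n by omega)
  obtain ⟨σ, hσ⟩ := KSG.OM.exists_rep (Class.Orth.nd_plusQF _ F) (by simp; omega)
    (Class.Orth.plusQF_apply _ F) ρ hρ hk
  have := KSG.OM.even_bound (ε := 1) (Or.inl ⟨rfl, by simpa using h3⟩) m σ (Class.Orth.nd_plusQF _ F)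
    ⟨by simp; ring, by rw [Class.Orth.card_plusQF_zero]; ring⟩ (by simp) hσ
  rw [Module.finrank_fin_fun, Nat.card_eq_fintype_card] at this
  refine Nat.div_le_of_le_mul ((Nat.cast_le (α := ℤ)).1 ?_)
  push_cast [Nat.cast_sub (Nat.one_le_pow _ _ (Fintype.card_pos (α := F)))]
  linear_combination this

end Cfsg.Agent.S2345
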