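import Cfsg.Statements.S2346
import Mathlib
import Cfsg.Agent.KSG.OrthEven

set_option autoImplicit false
open Cfsg

namespace Cfsg.Agent.S2346

/-- For a finite field F with q elements, n ≥ 4, and a, b ∈ F with z₁² + a z₁z₂ + b z₂² anisotropic, every irreducible complex representation of degree at least 2 of Ω⁻_{2n}(F) (the commutator subgroup of the isometry group of x₁y₁ + ⋯ + x_{n−1}y_{n−1} + z₁² + a z₁z₂ + b z₂²) has degree at least (q^n + 1)(q^{n−1} − q)/(q² − 1). -/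
theorem result {F : Type*} [Field F] [Fintype F] (n : ℕ) (hn : 4 ≤ n) (a b : F) (hab : ∀ z₁ z₂ : F, z₁ ^ 2 + a * z₁ * z₂ + b * z₂ ^ 2 = 0 → z₁ = 0 ∧ z₂ = 0) :
    (∀ (k : ℕ) (ρ : Representation ℂ (Cfsg.Omega F (Cfsg.quadFormMinus (n - 1) F a b)) (Fin k → ℂ)), ρ.IsIrreducible → 2 ≤ k → (Fintype.card F ^ n + 1) * (Fintype.card F ^ (n - 1) - Fintype.card F) / (Fintype.card F ^ 2 - 1) ≤ k) := by
  intro k ρ hρ hk
  obtain ⟨m, rfl⟩ := Nat.exists_eq_add_of_le' (show 3 ≤ n by omega)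
  obtain ⟨σ, hσ⟩ := KSG.OM.exists_rep (Class.Orth.nd_minusQF _ hab) (by simp; omega)
    (Class.Orth.minusQF_apply _ F a b) ρ hρ hk
  have := KSG.OM.even_bound (ε := -1) (Or.inr rfl) m σ (Class.Orth.nd_minusQF _ hab)
    ⟨by simp; ring, by rw [Class.Orth.card_minusQF_zero _ hab]; simp; ring⟩ (by omega) hσ
  rw [Module.finrank_fin_fun, Nat.card_eq_fintype_card] at this
  refine Nat.div_le_of_le_mul ((Nat.cast_le (α := ℤ)).1 ?_)
  push_cast [Nat.cast_sub (Nat.one_le_pow _ _ (Fintype.card_pos (α := F))),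
    Nat.cast_sub (Nat.le_self_pow (n := m + 2) (by omega) _)]
  linear_combination this

end Cfsg.Agent.S2346
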