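import Cfsg.Statements.S2347
import Mathlib
import Cfsg.Agent.KSG.SpSiegel
import Cfsg.Agent.KSG.Weil
import Cfsg.Agent.S0269
import Cfsg.Agent.S0270

set_option autoImplicit false
open Cfsg

namespace Cfsg.Agent.S2347

/-- Smallest degree of a non-linear irreducible complex representation of the symplectic group Sp_{2n} over a finite field of odd order q, n ≥ 2: every irreducible complex representation of degree at least 2 has degree at least (q^n − 1)/2, and there is an irreducible complex representation of exactly that degree (a Weil representation). -/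
theorem result {F : Type*} [Field F] [Fintype F] [DecidableEq F] (n : ℕ) (hn : 2 ≤ n) (hodd : Odd (Fintype.card F)) :
    (∀ (k : ℕ) (ρ : Representation ℂ (Matrix.symplecticGroup (Fin n) F) (Fin k → ℂ)), ρ.IsIrreducible → 2 ≤ k → (Fintype.card F ^ n - 1) / 2 ≤ k) ∧
    (∃ ρ : Representation ℂ (Matrix.symplecticGroup (Fin n) F) (Fin ((Fintype.card F ^ n - 1) / 2) → ℂ), ρ.IsIrreducible) := by
  have hc : ringChar F ≠ 2 := by
    intro h
    have := FiniteField.even_card_of_char_two h
    obtain ⟨k, hk⟩ := hodd
    omega
  have h2 : (2 : F) ≠ 0 := Ring.two_ne_zero hc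
  have hψ : AddChar.FiniteField.primitiveChar_to_Complex F ≠ 1 := by
    simpa using AddChar.FiniteField.primitiveChar_to_Complex_isPrimitive F (a := 1) one_ne_zero
  have hq2 : 2 ≤ Fintype.card F := Fintype.one_lt_card
  have hq3 : 3 ≤ Fintype.card F := by
    obtain ⟨k, hk⟩ := hodd
    omega
  constructor
  · intro k ρ hρ hk
    have hperf := S0269.result (F := F) n (by omega)
    have hsimple := S0270.result (F := F) n hn (fun _ => hq3)
    have hK : ringChar ℂ ≠ ringChar F := by
      rw [ringChar.eq_zero]
      exact (CharP.ringChar_ne_zero_of_finite F).symm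
    have hv : (Pi.single ⟨0, by omega⟩ 1 : Fin n → F) ≠ 0 := by simp
    have := KSG.sp_bound_odd h2 hψ hK ρ (KSG.rep_ne_one_of_not_mem_center hperf ρ hρ hk
        (KSG.spUpper_not_mem_center (KSG.symSq_ne_zero hv)))
    rw [Nat.card_eq_fintype_card, Module.finrank_fin_fun] at this
    omega
  · have h1 := KSG.two_mul_finrank_parityPart_neg_one (n := n) h2
    have h3 : 3 ^ 1 ≤ Fintype.card F ^ n :=
      (Nat.pow_le_pow_left hq3 1).trans (Nat.pow_le_pow_right (by omega) (by omega))
    have hirr := KSG.weilPart_isIrreducible (n := n) h2 hψ (ε := -1) (by simp) (by omega)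
    have e : KSG.parityPart n F (-1) ≃ₗ[ℂ] (Fin ((Fintype.card F ^ n - 1) / 2) → ℂ) :=
      LinearEquiv.ofFinrankEq _ _ (by rw [Module.finrank_fin_fun]; omega)
    exact ⟨_, Char.isIrreducible_of_equiv
      (Char.transportEquiv (KSG.weilPart (n := n) h2 hψ (-1)).toRepresentation e)⟩

end Cfsg.Agent.S2347
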