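import Cfsg.Statements.S2356
import Mathlib
import Cfsg.Agent.Class.U.Invol3
import Cfsg.Agent.Class.Orth.SqClass

set_option autoImplicit false
open Cfsg

namespace Cfsg.Agent.S2356

/-- Let q be odd, F the field with q² elements, S = SU_3(F) (determinant-one isometries of the standard Hermitian form) and t an involution of S. Then: exactly q(q−1) involutions other than t commute with t; exactly q(q−2)(q²−1) involutions do not commute with t but commute with some involution commuting with t; exactly (q+1)(q²−1) involutions x do not commute with t and admit no involution commuting with both t and x; and every involution can be reached from t in at most three steps, each step going to an involution that commutes with the previous one (the commuting involution graph is connected of diameter 3). -/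
theorem result {F : Type*} [Field F] [Fintype F] {q : ℕ} (hq : Odd q)
    (hF : Fintype.card F = q ^ 2) (t : ↥(Cfsg.SU 3 F q)) (ht : t ≠ 1) (ht2 : t * t = 1) :
    Nat.card {x : ↥(Cfsg.SU 3 F q) // x ≠ 1 ∧ x * x = 1 ∧ x ≠ t ∧ Commute t x} = q * (q - 1) ∧
    Nat.card {x : ↥(Cfsg.SU 3 F q) // x ≠ 1 ∧ x * x = 1 ∧ ¬ Commute t x ∧
        ∃ y : ↥(Cfsg.SU 3 F q), y ≠ 1 ∧ y * y = 1 ∧ Commute t y ∧ Commute y x} = q * (q - 2) * (q ^ 2 - 1) ∧
    Nat.card {x : ↥(Cfsg.SU 3 F q) // x ≠ 1 ∧ x * x = 1 ∧ ¬ Commute t x ∧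
        ∀ y : ↥(Cfsg.SU 3 F q), y ≠ 1 → y * y = 1 → ¬ (Commute t y ∧ Commute y x)} = (q + 1) * (q ^ 2 - 1) ∧
    ∀ x : ↥(Cfsg.SU 3 F q), x ≠ 1 → x * x = 1 →
      ∃ y z : ↥(Cfsg.SU 3 F q), y ≠ 1 ∧ y * y = 1 ∧ z ≠ 1 ∧ z * z = 1 ∧
        Commute t y ∧ Commute y z ∧ Commute z x := by
  have := Class.U.UF.of_card hF
  have h2 : (2 : F) ≠ 0 := Class.Orth.two_ne_zero_of_odd_card (hF ▸ hq.pow)
  have h6 := Class.U.two_le_q F q
  have h7 : 1 ≤ q ^ 2 := Nat.one_le_pow 2 q (by omega)
  obtain ⟨u, hu⟩ := Class.U.exists_isT_of_invol h2 ht ht2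
  have k : ∀ {v x}, Class.U.IsT v x → ¬ Commute t x → ((∃ y, y ≠ 1 ∧ y * y = 1 ∧ Commute t y ∧ Commute y x) ↔
      hermForm 3 F q v u * Class.U.conj F q (hermForm 3 F q v u) ≠ 1) := fun hv hc => by
    refine ⟨fun ⟨y, y1, y2, y3, y4⟩ h => hc ?_, fun h => ?_⟩
    · obtain ⟨w, hw⟩ := Class.U.exists_isT_of_invol h2 y1 y2
      obtain rfl | h3 := (hu.commute_iff h2 hw).1 y3
      · exact y4
      obtain rfl | h4 := (hv.commute_iff h2 hw).1 y4.symm
      · exact y3
      exact (hu.commute_iff h2 hv).2 (.inl ((hu.eq_iff h2 hv).2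
        (Class.U.eq_smul_of_norm hu.1 hv.1 hw.1 h3 h4 h)))
    · obtain ⟨w, y, hw, w1, w2⟩ := Class.U.exists_isT_orth hu.1 hv.1 h
      exact ⟨y, hw.ne_one h2, hw.mul_self, (hu.commute_iff h2 hw).2 (.inr w1),
        ((hv.commute_iff h2 hw).2 (.inr w2)).symm⟩
  have k' : ∀ {v x}, Class.U.IsT v x → t = x →
      hermForm 3 F q v u * Class.U.conj F q (hermForm 3 F q v u) = 1 := fun hv e =>
    Class.U.norm_of_eq_smul hu.1 hv.1 ((hu.eq_iff h2 hv).1 e)
  have : Finite F := inferInstance
  refine ⟨Nat.eq_of_mul_eq_mul_left q.succ_pos ((Class.U.mul_card_invol h2 _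
    (fun v => hermForm 3 F q v u = 0) fun v x hv => ?_).trans ?_),
    Nat.eq_of_mul_eq_mul_left q.succ_pos ((Class.U.mul_card_invol h2 _
    (fun v => hermForm 3 F q v u ≠ 0 ∧ hermForm 3 F q v u * Class.U.conj F q (hermForm 3 F q v u) ≠ 1)
    fun v x hv => ?_).trans ?_), ?_, fun x x1 x2 => ?_⟩
  · rw [hu.commute_iff h2 hv]
    exact ⟨fun h => h.2.resolve_left h.1.symm, fun h => ⟨(hu.ne_of_orth h2 hv h).symm, .inr h⟩⟩
  · rw [Class.U.card_unit_orth hu.1]
    zify [h7, show 1 ≤ q by omega]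
    ring
  · rw [and_congr_right (k hv), hu.commute_iff h2 hv]
    have := k' hv
    tauto
  · classical
    have h3 := Class.U.card_unit_orth hu.1
    have h4 := Class.U.card_unit_norm hu.1
    have h5 := Class.U.card_norm_ne (n := 3) (F := F) (q := q) (map_one _) one_ne_zero
    simp only [Nat.card_eq_fintype_card, Fintype.card_subtype, ← Finset.filter_filter] at h3 h4 h5 ⊢
    have h8 := Finset.card_filter_add_card_filter_not (s := Finset.univ.filter
      fun v => hermForm 3 F q v v = 1) fun v => hermForm 3 F q v u = 0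
    have h9 := Finset.card_filter_add_card_filter_not (s := (Finset.univ.filter
      fun v => hermForm 3 F q v v = 1).filter fun v => ¬ hermForm 3 F q v u = 0)
      fun v => hermForm 3 F q v u * Class.U.conj F q (hermForm 3 F q v u) = 1
    rw [Finset.filter_comm, Finset.filter_true_of_mem (fun v hv h => by
      simpa [h] using (Finset.mem_filter.1 hv).2), h4, ← Nat.add_right_inj, h8, h3, h5,
      if_neg (by decide)] at h9
    zify [h6, h7] at h9 ⊢
    linear_combination h9
  · have h3 := Class.U.mul_card_invol h2 (fun x => x = t ∨ ¬ Commute t x ∧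
      ∀ y, y ≠ 1 → y * y = 1 → ¬ (Commute t y ∧ Commute y x))
      (fun v => hermForm 3 F q v u * Class.U.conj F q (hermForm 3 F q v u) = 1) fun v x hv => by
        refine ⟨?_, fun h => or_iff_not_imp_left.2 fun e => ?_⟩
        · rintro (rfl | h)
          · exact k' hv rfl
          · exact not_not.1 fun h' => ((k hv h.1).2 h').elim fun y hy => h.2 y hy.1 hy.2.1 hy.2.2
        · have hc : ¬ Commute t x := fun hc => by
            simpa [((hu.commute_iff h2 hv).1 hc).resolve_left (Ne.symm e)] using h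
          exact ⟨hc, fun y a b c => (k hv hc).1 ⟨y, a, b, c⟩ h⟩
    rw [Class.U.card_unit_norm hu.1, mul_right_inj' q.succ_ne_zero, mul_comm] at h3
    refine Nat.add_right_cancel (Eq.trans ?_ h3)
    refine (Set.ncard_insert_of_notMem (a := t) (s := Set.ofPred _)
      fun h => h.2.2.1 (Commute.refl t)).symm.trans (congrArg Set.ncard (Set.ext fun x => ?_))
    refine ⟨?_, fun h => h.2.2.imp_right fun h' => ⟨h.1, h.2.1, h'⟩⟩
    rintro (rfl | h)
    exacts [⟨ht, ht2, .inl rfl⟩, ⟨h.1, h.2.1, .inr h.2.2⟩]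
  · obtain ⟨v, hv⟩ := Class.U.exists_isT_of_invol h2 x1 x2
    obtain ⟨w, w1, w2, w3⟩ := Class.U.exists_unit_orth h2 hu.1 hv.1
    obtain ⟨y, hy⟩ := Class.U.exists_isT w1
    obtain ⟨a, z, hz, a1, a2⟩ := Class.U.exists_isT_orth w1 hv.1 w3
    exact ⟨y, z, hy.ne_one h2, hy.mul_self, hz.ne_one h2, hz.mul_self,
      (hu.commute_iff h2 hy).2 (.inr w2), (hy.commute_iff h2 hz).2 (.inr a1),
      ((hv.commute_iff h2 hz).2 (.inr a2)).symm⟩

end Cfsg.Agent.S2356
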