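import Mathlib
import Cfsg.Statements.S2369
import Cfsg.Agent.Chev.TwistF4Inv
-- import your own Cfsg.Agent.* helpers here

set_option autoImplicit false
open Cfsg

namespace Cfsg.Agent.S2369

open Cfsg.Lie Cfsg.Agent.Chev

theorem prime_dvd {p q k : ℕ} (hp : p.Prime) (hq : 1 ≤ q) (hk : k ∈ [1, 2])
    (h : p ∣ q ^ 12 * (q - 1) ^ 2 * (q ^ k + 1)) : p ∣ q * (q ^ 4 - 1) := by
  obtain ⟨r, rfl⟩ := Nat.exists_eq_add_of_le' hq
  rw [show (r + 1) ^ 4 = r * ((r + 1) ^ 1 + 1) * ((r + 1) ^ 2 + 1) + 1 by ring, Nat.add_sub_cancel]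
  rw [Nat.add_sub_cancel] at h
  rcases (hp.dvd_mul.1 h).imp_left hp.dvd_mul.1 with (h | h) | h
  · exact (hp.dvd_of_dvd_pow h).mul_right _
  · exact (((hp.dvd_of_dvd_pow h).mul_right _).mul_right _).mul_left _
  · simp only [List.mem_cons, List.not_mem_nil, or_false] at hk
    rcases hk with rfl | rfl
    · exact ((h.mul_left _).mul_right _).mul_left _
    · exact (h.mul_left _).mul_left _


/-- Let q = 2^(2m+1) with m ≥ 1 and let a, b be commuting elements of the large Ree group ²F₄(q) with a an involution. Then every prime divisor of the order of b divides q(q⁴ − 1). -/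
theorem result {K : Type*} [Field K] [Fintype K] (m : ℕ) (hm : 1 ≤ m) (hK : Fintype.card K = 2 ^ (2 * m + 1))
    (a b : ↥(Cfsg.Lie.twistedF4 K (2 ^ m))) (ha : orderOf a = 2) (hab : Commute a b) :
    (orderOf b).primeFactors ⊆ (2 ^ (2 * m + 1) * ((2 ^ (2 * m + 1)) ^ 4 - 1)).primeFactors := by
  obtain ⟨_, S, θ, hθ, -, hT⟩ := F4.exists_data hK
  have hj := Subgroup.inclusion_injective (F4.le_group (K := K) (e := 2 ^ m))
  have hr := (F4.tw S θ hθ).data.range_inclusion F4.le_group hT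
  set j := Subgroup.inclusion (F4.le_group (K := K) (e := 2 ^ m))
  obtain ⟨g, hg, h1⟩ := F4.exists_conj S θ hθ (j a) (hr.le ⟨a, rfl⟩) ((orderOf_injective j hj a).trans ha)
  obtain ⟨g, rfl⟩ := hr.ge hg
  have h2 : Commute (j (g * b * g⁻¹)) (j g * j a * (j g)⁻¹) := by
    simpa using (hab.symm.conj g).map j
  obtain ⟨J, h3, h4⟩ : ∃ J : Set ℕ, (¬ chevF4.InRootSub J 47 ∧ ¬ chevF4.InRootSub J 44) ∧
      j (g * b * g⁻¹) ∈ Ps chevF4 (xC chevF4 K) J := by
    simp only [List.mem_cons, List.not_mem_nil, or_false] at h1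
    unfold ChevalleyDatum.InRootSub
    rcases h1 with h1 | h1 <;> rw [h1] at h2
    exacts [⟨_, by decide +kernel, F4.mem_Ps_z h2⟩, ⟨_, by decide +kernel, F4.mem_Ps_v h2⟩]
  obtain ⟨k, hk, h5⟩ := F4.card_dvd_of_ne_top S θ hθ j hj hr (Subgroup.comap_mono (S.Bor_eq.trans_le (Bs_le_Ps J)))
    (F4.comap_Ps_ne_top S θ hθ j hj hr h3)
  have h6 := (Subgroup.orderOf_dvd_natCard _ (show g * b * g⁻¹ ∈ _ from h4)).trans h5
  rw [show g * b * g⁻¹ = MulAut.conj g b from rfl, MulEquiv.orderOf_eq, hK] at h6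
  intro p hp
  have h7 := Nat.prime_of_mem_primeFactors hp
  refine Nat.mem_primeFactors.2 ⟨h7, prime_dvd h7 Nat.one_le_two_pow hk ((Nat.dvd_of_mem_primeFactors hp).trans h6),
    mul_ne_zero (by positivity) (Nat.sub_ne_zero_of_lt (Nat.one_lt_pow (by omega) (Nat.one_lt_two_pow (by omega))))⟩

end Cfsg.Agent.S2369
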