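import Cfsg.Statements.S2379
import Cfsg.Agent.Class.Wr.Cyc

set_option autoImplicit false
open Cfsg

namespace Cfsg.Agent.S2379

open Cfsg.Agent.Class Cfsg.Agent.Class.Wr

/-- Sylow subgroups of `SL_n(q)` for large primes. Let `F` be a field with `q` elements and `r` a prime with `r > n` and `r ∤ q` (so `r` does not divide the order `n!` of the Weyl group). Let `d` be the multiplicative order of `q` modulo `r`, `a` the number of integers `i` with `2 ≤ i ≤ n` divisible by `d` (the degrees of the Weyl group are `2, …, n`), and `m` the `r`-part of the value at `q` of the `d`-th cyclotomic polynomial. Then every Sylow `r`-subgroup of `SL_n(q)` is a direct product of `a` cyclic groups of order `m`. -/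
theorem result {F : Type*} [Field F] [Fintype F] {q : ℕ} (hq : Fintype.card F = q) (n : ℕ)
    (r : ℕ) [Fact r.Prime] (hrn : n < r) (hrq : ¬ r ∣ q) (P : Sylow r (Matrix.SpecialLinearGroup (Fin n) F)) :
    Nonempty (↥(P : Subgroup (Matrix.SpecialLinearGroup (Fin n) F)) ≃*
      (Fin ((Finset.Icc 2 n).filter (fun i => orderOf (q : ZMod r) ∣ i)).card →
        Multiplicative (ZMod (r ^ padicValNat r ((Polynomial.cyclotomic (orderOf (q : ZMod r)) ℤ).eval (q : ℤ)).natAbs)))) := by
  classical
  rw [← Nat.card_eq_fintype_card] at hq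
  subst hq
  have h1 : 1 < Nat.card F := Finite.one_lt_card
  rw [val_cyclotomic h1 hrq]
  rcases n with _ | k
  · rw [show Finset.Icc 2 0 = ∅ from rfl, Finset.filter_empty, Finset.card_empty]
    have : Unique (P : Subgroup (Matrix.SpecialLinearGroup (Fin 0) F)) :=
      ⟨⟨1⟩, fun _ => Subtype.ext (Subtype.ext (Subsingleton.elim _ _))⟩
    exact ⟨MulEquiv.ofUnique⟩
  by_cases hd : orderOf (Nat.card F : ZMod r) = 1
  · obtain ⟨R⟩ : Nonempty (Sylow r (GL (Fin k) F)) := inferInstance
    obtain ⟨e⟩ := nonempty_sylow_GL_homocyclic (by omega) hrq R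
    have := finite_linEquiv (F := F) (V := Fin k → F)
    obtain ⟨R'⟩ : Nonempty (Sylow r ((Fin k → F) ≃ₗ[F] (Fin k → F))) := inferInstance
    obtain ⟨f⟩ := nonempty_sylow_equiv_of_equiv (glOf (Pi.basisFun F (Fin k))) R R'
    obtain ⟨g⟩ := nonempty_sylow_SL_equiv hrq (n := k) (by simp) (by
      rcases (Fact.out : r.Prime).eq_two_or_odd' with rfl | ho
      · rw [show k = 0 by omega, zero_add, pow_one]
      · have h2 := (dvd_pow_sub_one_iff (p := r) (q := Nat.card F) (by omega) 1).2 (by rw [hd])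
        rw [lte_odd ho h1 (by simpa using h2) _ k.succ_pos, padicValNat.eq_zero_of_not_dvd
          (Nat.not_dvd_of_pos_of_lt k.succ_pos hrn), add_zero]) R' P
    rw [hd] at e ⊢
    rw [Finset.filter_true_of_mem fun i _ => one_dvd i, Nat.card_Icc,
      show k + 1 + 1 - 2 = k / 1 by omega]
    exact ⟨(f.trans g).symm.trans e⟩
  · obtain ⟨R⟩ : Nonempty (Sylow r (GL (Fin (k + 1)) F)) := inferInstance
    obtain ⟨e⟩ := nonempty_sylow_GL_homocyclic hrn hrq R
    obtain ⟨f⟩ := nonempty_sylow_equiv Matrix.SpecialLinearGroup.toGL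
      Matrix.SpecialLinearGroup.toGL_injective (by
        rw [← card_units_mul_card_SL, padicValNat.mul Nat.card_pos.ne' Nat.card_pos.ne',
          padicValNat.eq_zero_of_not_dvd, zero_add]
        rw [Nat.card_units, ← pow_one (Nat.card F), dvd_pow_sub_one_iff (by omega), Nat.dvd_one]
        exact hd) P R
    have h2 : (Finset.Icc 2 (k + 1)).filter (fun i => orderOf (Nat.card F : ZMod r) ∣ i) =
        (Finset.Ioc 0 (k + 1)).filter (fun i => orderOf (Nat.card F : ZMod r) ∣ i) := by
      ext i
      simp only [Finset.mem_filter, Finset.mem_Icc, Finset.mem_Ioc]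
      refine ⟨fun h => ⟨⟨by omega, h.1.2⟩, h.2⟩, fun h => ⟨⟨?_, h.1.2⟩, h.2⟩⟩
      by_contra h3
      obtain rfl : i = 1 := by omega
      exact hd (Nat.dvd_one.1 h.2)
    rw [h2, Nat.Ioc_filter_dvd_card_eq_div]
    exact ⟨f.trans e⟩

end Cfsg.Agent.S2379
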