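import Cfsg.Statements.S2385
import Mathlib
import Cfsg.Agent.Class.FG.SelfDual
import Cfsg.Agent.Class.Wall.Exist

set_option autoImplicit false
open Cfsg

namespace Cfsg.Agent.S2385

/-- In the symplectic group `Sp_{2n}(q)`, `q` a power of the prime `p`, the number of conjugacy classes of elements of order prime to `p` is `q^n`. -/
theorem result {F : Type*} [Field F] [Fintype F] {q : ℕ} (hq : Fintype.card F = q) (p : ℕ) [Fact p.Prime] [CharP F p] (n : ℕ) :
    Nat.card {c : ConjClasses ↥(Matrix.symplecticGroup (Fin n) F) //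
      ∃ g : ↥(Matrix.symplecticGroup (Fin n) F), ConjClasses.mk g = c ∧ (orderOf g).Coprime p} = q ^ n := by
  classical
  have h1 : ∀ g : Matrix.symplecticGroup (Fin n) F, (orderOf g).Coprime p ↔
      ∀ b ∈ KSG.mdiv g.1, Irreducible b := fun g => by
    rw [← orderOf_injective (Matrix.symplecticGroup (Fin n) F).subtype.toHomUnits
      (fun a b e => Subtype.ext (congrArg Units.val e)) g]
    exact KSG.GL_coprime_orderOf_iff p _
  rw [Class.Wall.card_conjClasses_of_inv
    (fun g : Matrix.symplecticGroup (Fin n) F => KSG.mdiv g.1) _ (fun s => (∀ b ∈ s, KSG.IsPP b) ∧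
    (∀ b ∈ s, ¬ Polynomial.X ∣ b) ∧ (s.map Polynomial.natDegree).sum = 2 * n ∧
    (∀ b ∈ s, Irreducible b) ∧ Class.Wall.dual (RingHom.id F) s.prod = s.prod ∧ s.prod.coeff 0 = 1)
    (fun g k hg _ => (Class.Wall.Sp_isConj_iff_of_coprime p hg).trans
      (KSG.isConj_iff_mdiv (A := g.1) (B := k.1))) fun s => ?_,
    KSG.card_multiset_irreducible (2 * n) fun f => Class.Wall.dual (RingHom.id F) f = f ∧
      f.coeff 0 = 1, ← hq, ← Nat.card_eq_fintype_card, ← Class.FG.card_pal]
  · exact Nat.card_congr (Equiv.subtypeEquivRight fun f => and_congr_right fun _ =>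
      and_congr_right fun _ => and_iff_right_of_imp fun h => h.2.trans_ne one_ne_zero)
  constructor
  · rintro ⟨a, b, c, d, e, f⟩
    obtain ⟨A, rfl⟩ := Class.Wall.exists_Sp_mdiv_eq_iff.2 ⟨a, b, c,
      (Class.FG.map_dual_eq_iff a d (fun _ => rfl) b).2 e, fun x k hx _ => by
        rcases eq_or_ne k 1 with rfl | hk
        · rw [pow_one, Class.FG.count_eq_rootMultiplicity a d]
          exact (Class.FG.even_rootMultiplicity_iff (f.trans_ne one_ne_zero) e).2
            ⟨by rw [(Class.FG.coeff_zero_prod_ne a b).2, c]; simp, f⟩ x hx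
        · rw [Class.FG.count_pow_eq_zero a d x hk]; exact Even.zero⟩
    exact ⟨A, (h1 A).2 d, rfl⟩
  · rintro ⟨A, hA, rfl⟩
    obtain ⟨a, b, c, d, e⟩ := Class.Wall.exists_Sp_mdiv_eq_iff.1 ⟨A, rfl⟩
    have h2 := (h1 A).1 hA
    have h3 := (Class.FG.map_dual_eq_iff a h2 (fun _ => rfl) b).1 d
    exact ⟨a, b, c, h2, h3, ((Class.FG.even_rootMultiplicity_iff (Class.FG.coeff_zero_prod_ne a b).1
      h3).1 fun x hx => by
        rw [← Class.FG.count_eq_rootMultiplicity a h2]
        simpa using e x 1 hx odd_one).2⟩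

end Cfsg.Agent.S2385
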