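import Mathlib
import Cfsg.Statements.S2387
import Cfsg.Agent.KSG.SimCount
-- import your own Cfsg.Agent.* helpers here

set_option autoImplicit false
open scoped MatrixGroups
open Cfsg

namespace Cfsg.Agent.S2387

/-- In `GL_n(q)` with `n ≥ 1`, `q` a power of the prime `p`, the number of conjugacy classes of elements of order prime to `p` (diagonalisable over the algebraic closure; determined by the characteristic polynomial) is `(q - 1) q^(n-1)`. -/
theorem result {F : Type*} [Field F] [Fintype F] {q : ℕ} (hq : Fintype.card F = q) (p : ℕ) [Fact p.Prime] [CharP F p] (n : ℕ) (hn : 1 ≤ n) :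
    Nat.card {c : ConjClasses (GL (Fin n) F) // ∃ g : GL (Fin n) F, ConjClasses.mk g = c ∧ (orderOf g).Coprime p} = (q - 1) * q ^ (n - 1) := by
  classical
  have h := KSG.card_conjClasses_GL (n := Fin n) (F := F) (fun g => (orderOf g).Coprime p)
    (fun s => (∀ b ∈ s, Irreducible b) ∧ True) (fun A => by simp [KSG.GL_coprime_orderOf_iff p A])
  rw [KSG.card_multiset_irreducible (F := F) _ (fun _ => True), Fintype.card_fin] at h
  simp only [and_true] at h
  rw [h, KSG.card_monic_coeff_zero hn (fun c : F => c ≠ 0)]
  simp [hq]

end Cfsg.Agent.S2387
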