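import Cfsg.Statements.S2444
import Cfsg.Agent.Lin.Cyclic

set_option autoImplicit false
open Cfsg

namespace Cfsg.Agent.S2444

open Cfsg.Agent.Lin Polynomial Module

theorem exists_poly {F : Type*} [Field F] [Fintype F] (m : ℕ) (hm : 1 ≤ m)
    (hex : m = 1 → 4 ≤ Fintype.card F) : ∃ (p : F[X]) (μ : F), p.Monic ∧ p.natDegree = m ∧
      p.eval μ ≠ 0 ∧ (-1) ^ (m + 1) * (-μ * p.coeff 0) = 1 := by
  classical
  rcases hm.eq_or_lt with rfl | hm
  · have h4 := hex rfl
    obtain ⟨ν, hν⟩ : ∃ ν : F, ν ∉ ({0, 1, -1} : Finset F) := by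
      by_contra h
      push Not at h
      have h1 : (Finset.univ : Finset F) ⊆ {0, 1, -1} := fun x _ => h x
      have h2 := Finset.card_le_card h1
      have h3 : ({0, 1, -1} : Finset F).card ≤ 3 := Finset.card_le_three
      rw [Finset.card_univ] at h2
      omega
    simp only [Finset.mem_insert, Finset.mem_singleton, not_or] at hν
    refine ⟨X - C ν, ν⁻¹, monic_X_sub_C _, natDegree_X_sub_C _, ?_, by simp [hν.1]⟩
    simp only [eval_sub, eval_X, eval_C, sub_ne_zero]
    intro h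
    have : ν * ν = 1 := by nth_rewrite 1 [← h]; exact inv_mul_cancel₀ hν.1
    rcases mul_self_eq_one_iff.1 this with h | h
    · exact hν.2.1 h
    · exact hν.2.2 h
  · have hd : (C (-(-1) ^ m : F) * X + C ((-1) ^ m)).degree < (X ^ m : F[X]).degree := by
      rw [degree_X_pow]
      exact degree_linear_le.trans_lt (by exact_mod_cast hm)
    refine ⟨X ^ m + (C (-(-1) ^ m) * X + C ((-1) ^ m)), 1, (monic_X_pow m).add_of_left hd, ?_,
      by simp, ?_⟩
    · rw [natDegree_add_eq_left_of_degree_lt hd, natDegree_X_pow]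
    · rw [coeff_add, coeff_add, coeff_X_pow, if_neg (by omega), mul_coeff_zero, coeff_X_zero,
        coeff_C_zero, coeff_C_zero, pow_succ]
      have : ((-1 : F) ^ m) * (-1) ^ m = 1 := by rw [← mul_pow]; simp
      linear_combination this

theorem nonscalar {F V : Type*} [Field F] [Fintype F] [AddCommGroup V] [Module F V]
    [FiniteDimensional F V] (m : ℕ) (hm : 1 ≤ m) (hex : m = 1 → 4 ≤ Fintype.card F)
    (hV : finrank F V = m + 1) (g : V ≃ₗ[F] V) (hg : LinearMap.det (g : End F V) = 1) {v : V}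
    (hv : g v ∉ F ∙ v) : ∃ x y : End F V, LinearMap.det x = 1 ∧ LinearMap.det y = 1 ∧
      (g : End F V) * (y * x) = x * y := by
  obtain ⟨p, μ, h1, h2, h3, h4⟩ := exists_poly (F := F) m hm hex
  have h0 : p.coeff 0 ≠ 0 := by intro h; simp [h] at h4
  have hc : (p * (X - C μ)).coeff 0 = -μ * p.coeff 0 := by simp [mul_comm]
  obtain ⟨y, e, f, a1, a2, a3, a4, a5⟩ := exists_factor_simple g hv hV h1 h2 h0
    (h1.mul (monic_X_sub_C μ)) (by rw [h1.natDegree_mul (monic_X_sub_C _), natDegree_X_sub_C, h2])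
    h3 (by rw [hg, hc, one_mul])
  obtain ⟨x, hx⟩ := a1.conj a3 (a2.trans a4.symm)
  have hx0 : LinearMap.det (x : End F V) ≠ 0 := (LinearEquiv.isUnit_det' x).ne_zero
  obtain ⟨c, c1, c2⟩ := a5 _ (inv_ne_zero hx0)
  refine ⟨(x : End F V) * (c : End F V), y, by rw [map_mul, c1, mul_inv_cancel₀ hx0], ?_, ?_⟩
  · rw [LinearMap.det_eq_sign_charpoly_coeff, a2, hc, hV, h4]
  · ext u
    simp [c2, hx]

open Matrix in
theorem block {F κ : Type*} [Field F] [Fintype κ] [DecidableEq κ] (h : ℕ) (ζ : F)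
    (Y R : Matrix κ κ F) (hYR : Y * R = ζ ^ (h + 1) • (R * Y)) :
    ∃ x y : Matrix (κ × Fin (h + 1)) (κ × Fin (h + 1)) F,
      x.det = ((-1) ^ h) ^ Fintype.card κ * R.det ∧
      y.det = (ζ ^ ((h + 1) * h / 2)) ^ Fintype.card κ * Y.det ^ (h + 1) ∧ y * x = ζ • (x * y) := by
  let ρ := finRotate (h + 1)
  let σ : Equiv.Perm (κ × Fin (h + 1)) := Equiv.prodCongrRight fun _ => ρ.symm
  let Ys : Fin (h + 1) → Matrix κ κ F := fun j => ζ ^ (j : ℕ) • Y
  let Rs : Fin (h + 1) → Matrix κ κ F := fun j => if j = Fin.last h then R else 1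
  refine ⟨(blockDiagonal Rs).submatrix σ id, blockDiagonal Ys, ?_, ?_, ?_⟩
  · rw [det_permute, det_blockDiagonal, Equiv.Perm.sign_prodCongrRight]
    congr 1
    · simp [ρ, sign_finRotate]
    · rw [Fin.prod_univ_castSucc]
      simp [Rs, Fin.castSucc_ne_last]
  · rw [det_blockDiagonal]
    simp only [Ys, det_smul, Finset.prod_mul_distrib, Finset.prod_const, Finset.card_univ,
      Fintype.card_fin, Finset.prod_pow]
    congr 2
    rw [Finset.prod_pow_eq_pow_sum, Fin.sum_univ_eq_sum_range (fun i => i), Finset.sum_range_id]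
    simp
  · have h1 : blockDiagonal Ys = (blockDiagonal fun j => Ys (ρ j)).submatrix σ σ := by
      ext ⟨a, i⟩ ⟨b, j⟩
      simp [σ, blockDiagonal_apply]
    have h2 : blockDiagonal Ys = (blockDiagonal Ys).submatrix (Equiv.refl _) id := rfl
    conv_lhs => rw [h1, submatrix_mul_equiv, ← blockDiagonal_mul]
    conv_rhs => rw [h2, show (blockDiagonal Rs).submatrix σ id =
      (blockDiagonal Rs).submatrix σ (Equiv.refl _) from rfl, submatrix_mul_equiv,
      ← blockDiagonal_mul]
    change _ = (ζ • blockDiagonal fun k => Rs k * Ys k).submatrix σ id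
    rw [← blockDiagonal_smul]
    congr 2
    funext j
    by_cases hj : j = Fin.last h
    · subst hj
      simp [Ys, Rs, ρ, hYR, smul_smul, pow_succ']
    · have : ((ρ j : Fin (h + 1)) : ℕ) = j + 1 := by
        simp only [ρ]
        rw [coe_finRotate, if_neg hj]
      simp [Ys, Rs, hj, this, smul_smul, pow_succ']

open Matrix in
theorem scalar {F : Type*} [Field F] [Fintype F] (n : ℕ) (hn : 1 ≤ n) (ζ : F) (hζ : ζ ^ n = 1) :
    ∃ x y : Matrix (Fin n) (Fin n) F, x.det = 1 ∧ y.det = 1 ∧ y * x = ζ • (x * y) := by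
  classical
  suffices h : ∃ (ι : Type) (_ : Fintype ι) (_ : DecidableEq ι), Fintype.card ι = n ∧
      ∃ x y : Matrix ι ι F, x.det = 1 ∧ y.det = 1 ∧ y * x = ζ • (x * y) by
    obtain ⟨ι, _, _, hc, x, y, h1, h2, h3⟩ := h
    let e := Fintype.equivFinOfCardEq hc
    refine ⟨reindexAlgEquiv F F e x, reindexAlgEquiv F F e y, by simp [h1], by simp [h2], ?_⟩
    rw [← map_mul, ← map_mul, h3, map_smul]
  by_cases h1 : ζ ^ (n * (n - 1) / 2) = 1
  · obtain ⟨h, rfl⟩ : ∃ h, n = h + 1 := ⟨n - 1, by omega⟩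
    obtain ⟨x, y, a1, a2, a3⟩ := block (κ := Unit) h ζ 1 ((-1 : F) ^ h • 1) (by simp [hζ])
    refine ⟨Unit × Fin (h + 1), inferInstance, inferInstance, by simp, x, y, ?_, ?_, a3⟩
    · rw [a1]; simp [← mul_pow]
    · rw [a2]; simpa using h1
  · rcases Nat.even_or_odd' n with ⟨k, rfl | rfl⟩
    swap
    · exfalso; apply h1
      rw [show (2 * k + 1) * (2 * k + 1 - 1) / 2 = (2 * k + 1) * k by
        rw [Nat.add_sub_cancel, mul_left_comm, Nat.mul_div_cancel_left _ two_pos], pow_mul, hζ,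
        one_pow]
    have h2 : ζ ^ k = -1 := by
      have : ζ ^ k * ζ ^ k = 1 := by rw [← pow_add, ← two_mul, hζ]
      rcases mul_self_eq_one_iff.1 this with h | h
      · exfalso; apply h1
        rw [mul_assoc, Nat.mul_div_cancel_left _ two_pos, pow_mul, h, one_pow]
      · exact h
    have h3 : (-1 : F) ≠ 1 := fun h => by
      apply h1
      rw [mul_assoc, Nat.mul_div_cancel_left _ two_pos, pow_mul, h2, h, one_pow]
    have hζ0 : ζ ≠ 0 := by rintro rfl; rw [zero_pow (by omega)] at hζ; exact zero_ne_one hζ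
    have hodd : Fintype.card F % 2 = 1 := by
      by_contra h
      have h4 : ringChar F = 2 := FiniteField.even_card_iff_char_two.2 (by omega)
      have h5 : ((2 : ℕ) : F) = 0 := (ringChar.spec F 2).2 (by rw [h4])
      apply h3
      rw [neg_eq_iff_add_eq_zero]; push_cast at h5; linear_combination h5
    obtain ⟨a, b, hab⟩ := FiniteField.exists_root_sum_quadratic (R := F)
      (f := X ^ 2 + 1) (g := C (-ζ) * X ^ 2) (by rw [← C_1]; exact degree_X_pow_add_C two_pos _)
      (degree_C_mul_X_pow 2 (neg_ne_zero.2 hζ0)) hodd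
    simp only [eval_add, eval_pow, eval_X, eval_one, eval_mul, eval_C] at hab
    obtain ⟨h, rfl⟩ : ∃ h, k = h + 1 := ⟨k - 1, by omega⟩
    obtain ⟨x, y, a1, a2, a3⟩ := block (κ := Fin 2) h ζ !![0, ζ; 1, 0] !![a, b * ζ; -b, -a] (by
      rw [h2]; ext i j; fin_cases i <;> fin_cases j <;> simp [Matrix.mul_apply, mul_comm])
    refine ⟨Fin 2 × Fin (h + 1), inferInstance, inferInstance, by simp, x, y, ?_, ?_, a3⟩
    · rw [a1, det_fin_two_of, Fintype.card_fin, ← pow_mul, mul_comm h, pow_mul]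
      linear_combination -hab
    · rw [a2, det_fin_two_of, Fintype.card_fin, ← pow_mul,
        Nat.div_mul_cancel (by rw [mul_comm]; exact (Nat.even_mul_succ_self h).two_dvd), pow_mul,
        h2, zero_mul, mul_one, zero_sub, neg_pow ζ, h2, pow_succ]
      have : ((-1 : F) ^ h) * (-1) ^ h = 1 := by rw [← mul_pow]; simp
      linear_combination this

/-- In the special linear group SL(n,F) over a finite field F, with n ≥ 2 and (n, |F|) not (2,2) or (2,3), every element is a commutator a·b·a⁻¹·b⁻¹ of two elements of SL(n,F). -/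
theorem result {F : Type*} [Field F] [Fintype F] (n : ℕ) (hn : 2 ≤ n) (hex : n = 2 → 4 ≤ Fintype.card F) :
    ∀ g : Matrix.SpecialLinearGroup (Fin n) F, ∃ a b : Matrix.SpecialLinearGroup (Fin n) F, g = a * b * a⁻¹ * b⁻¹ := by
  intro g
  suffices h : ∃ x y : Matrix (Fin n) (Fin n) F, x.det = 1 ∧ y.det = 1 ∧
      g.1 * (y * x) = x * y by
    obtain ⟨x, y, h1, h2, h3⟩ := h
    let a : Matrix.SpecialLinearGroup (Fin n) F := ⟨x, h1⟩
    let b : Matrix.SpecialLinearGroup (Fin n) F := ⟨y, h2⟩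
    refine ⟨a, b, ?_⟩
    rw [eq_mul_inv_iff_mul_eq, eq_mul_inv_iff_mul_eq, mul_assoc]
    exact Subtype.ext h3
  by_cases hs : ∃ v, g.toLin' v ∉ F ∙ v
  · obtain ⟨v, hv⟩ := hs
    have he : (g.toLin' : End F (Fin n → F)) = Matrix.toLin' g.1 := rfl
    obtain ⟨x, y, h1, h2, h3⟩ := nonscalar (n - 1) (by omega) (fun h => hex (by omega))
      (by simp; omega) g.toLin' (by rw [he, LinearMap.det_toLin', g.2]) hv
    refine ⟨LinearMap.toMatrix' x, LinearMap.toMatrix' y, by simpa using h1, by simpa using h2, ?_⟩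
    rw [← LinearMap.toMatrix'_mul, ← LinearMap.toMatrix'_mul, ← h3, LinearMap.toMatrix'_mul _ (y * x),
      he, LinearMap.toMatrix'_toLin']
  · push Not at hs
    obtain ⟨a, ha⟩ := LinearMap.exists_eq_smul_id_of_forall_notLinearIndependent
      (f := Matrix.toLin' g.1) fun v hli => by
        obtain ⟨c, hc⟩ := Submodule.mem_span_singleton.1 (hs v)
        have := (LinearIndependent.pair_iff.1 hli) c (-1) (by rw [hc, neg_smul, one_smul]; exact add_neg_cancel _)
        simp at this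
    have hg : g.1 = a • 1 := by
      rw [← LinearMap.toMatrix'_toLin' g.1, ha, map_smul, LinearMap.toMatrix'_one]
    have hd := g.2
    rw [hg, Matrix.det_smul, Matrix.det_one, mul_one, Fintype.card_fin] at hd
    obtain ⟨x, y, h1, h2, h3⟩ := scalar n (by omega) a hd
    exact ⟨y, x, h2, h1, by rw [hg, h3, smul_mul_assoc, one_mul]⟩

end Cfsg.Agent.S2444
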