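import Mathlib
import Cfsg.Statements.S2446
import Cfsg.Agent.Comm.UFac
import Cfsg.Agent.Comm.UCent
import Cfsg.Agent.Class.U.Simple

set_option autoImplicit false
open Cfsg

namespace Cfsg.Agent.S2446

/-- In the special unitary group SU(n,q), n ≥ 3, realised over the field F with q² elements as the determinant-one isometries of the standard Hermitian form, and with (n,q) ≠ (3,2), every element is a commutator a·b·a⁻¹·b⁻¹ of two elements of SU(n,q). -/
theorem result {F : Type*} [Field F] [Fintype F] (n q : ℕ) (hn : 3 ≤ n) (hF : Fintype.card F = q ^ 2) (hex : ¬ (n = 3 ∧ q = 2)) :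
    ∀ g : Cfsg.SU n F q, ∃ a b : Cfsg.SU n F q, g = a * b * a⁻¹ * b⁻¹ := by
  open Cfsg.Agent.Class Cfsg.Agent.Class.U Cfsg.Agent.Comm Cfsg.Agent.Comm.UFpf Cfsg.Agent.Comm.UModel in
  have := UF.of_card hF
  intro g
  by_cases hs : ∀ u, hermForm n F q u u = 0 → ∃ l : F, g.1.1.mulVec u = l • u
  · obtain ⟨e, he⟩ := exists_scalar_of_fix_lines (by omega) hs
    have hg : g.1.1 = e • 1 := Matrix.ext_iff_mulVec.2 fun v => by simp [he, Matrix.smul_mulVec]
    have h1 := g.1.2
    rw [hg, Matrix.det_smul, Matrix.det_one, mul_one, Fintype.card_fin] at h1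
    have h2 := congrFun (congrFun (pres_iff.1 g.2) ⟨0, by omega⟩) ⟨0, by omega⟩
    obtain ⟨x, y, u1, u2, d1, d2, h3⟩ := UCent.scalar (q := q) n (by omega) h1
      (by simpa [hg, Matrix.mul_apply, Matrix.one_apply] using h2)
    refine ⟨mkSU y (pres_iff.2 u2) d2, mkSU x (pres_iff.2 u1) d1, ?_⟩
    rw [eq_mul_inv_iff_mul_eq, eq_mul_inv_iff_mul_eq, mul_assoc]
    refine Subtype.ext (Subtype.ext ?_)
    change g.1.1 * (x * y) = y * x
    rw [hg, h3, smul_mul_assoc, one_mul]
  push Not at hs
  obtain ⟨x, x1, x2⟩ := hs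
  have S : Setup (hs q : (Fin (n % 2) → F) →ₛₗ[conj F q] (Fin (n % 2) → F) →ₗ[F] F) :=
    ⟨conj_hs, fun a ha => by
      rcases Nat.mod_two_eq_zero_or_one n with h | h
      · exact funext fun i => absurd i.2 (by omega)
      · have : Unique (Fin (n % 2)) := h ▸ inferInstance
        exact funext fun i => by simpa [hs_apply, Subsingleton.elim default i] using ha,
      by simp; omega⟩
  obtain ⟨e, he⟩ := (S.formed (n / 2)).exists_equiv (n := n) (by simp; omega)
  let φ := (Isom.congr e he fun x => he x x).trans (guEquiv n F q).symm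
  have h1 : ∀ a v, ((φ a : GL (Fin n) F) : Matrix (Fin n) (Fin n) F).mulVec v = e (a.1 (e.symm v)) :=
    fun a v => by rw [← guEquiv_apply, MulEquiv.trans_apply, MulEquiv.apply_symm_apply]; rfl
  have h2 : ∀ a, (detGU (φ a) : F) = dt a := fun a => by
    rw [coe_detGU, dt_apply, ← LinearMap.det_conj _ e, ← LinearMap.det_toLin']
    exact congrArg _ (LinearMap.ext (h1 a))
  obtain ⟨g', hg'⟩ := φ.surjective (toGU g)
  obtain ⟨a, b, ha, hb, h3⟩ := S.sComm (m := n / 2) (by omega) (fun h => ⟨by simp; omega,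
    fun h' => hex ⟨by omega, h'⟩⟩) (g := g') (by rw [← h2, hg']; exact g.1.2) (x := e.symm x)
    (by rw [← he]; simpa using x1) (fun c h => x2 c (by
      have := h1 g' x
      rw [h, map_smul, e.apply_symm_apply, hg'] at this
      exact this))
  obtain ⟨a', ha'⟩ : φ a ∈ (toGU : SU n F q →* GU n F q).range := by
    rw [range_toGU]; exact Units.ext ((h2 a).trans ha)
  obtain ⟨b', hb'⟩ : φ b ∈ (toGU : SU n F q →* GU n F q).range := by
    rw [range_toGU]; exact Units.ext ((h2 b).trans hb)
  exact ⟨a', b', toGU_injective (by simp [ha', hb', ← hg', h3])⟩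

end Cfsg.Agent.S2446
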