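import Mathlib
import Cfsg.Statements.S2447
import Cfsg.Agent.Comm.ONeg

set_option autoImplicit false
open Cfsg

namespace Cfsg.Agent.S2447

/-- Let F be a finite field of odd order and n ≥ 3, and let Ω(2n+1,F) be the commutator subgroup of the orthogonal group of the non-singular quadratic form x₀² + Σ xᵢyᵢ in dimension 2n+1. Then every element of Ω(2n+1,F) is a commutator a·b·a⁻¹·b⁻¹ of two elements of Ω(2n+1,F). -/
theorem result {F : Type*} [Field F] [Fintype F] (hodd : Odd (Fintype.card F)) (n : ℕ) (hn : 3 ≤ n) :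
    ∀ g : Cfsg.Omega F (Cfsg.quadFormOdd n F), ∃ a b : Cfsg.Omega F (Cfsg.quadFormOdd n F), g = a * b * a⁻¹ * b⁻¹ := by
  open Cfsg.Agent.Class.Orth Cfsg.Agent.Comm in
  have h2 := two_ne_zero_of_odd_card hodd
  obtain ⟨e, he⟩ := Class.Orth.exists_equiv_odd_sumQF (F := F) n
  refine Comm.OFpf.OComm.result ((Class.Orth.oddEquiv n F).trans (Class.Orth.OG.congr e he))
    (Comm.ONeg.oComm_all ⟨fun x hx => ?_, fun x hx => by simpa using hx, by simp, hn⟩
      fun _ _ => inferInstance)
  have := hx 1
  simp only [QuadraticMap.polar, QuadraticMap.sq_apply] at this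
  exact (mul_eq_zero.1 (show 2 * x = 0 by linear_combination this)).resolve_left h2

end Cfsg.Agent.S2447
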