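import Mathlib
import Cfsg.Statements.S2449
import Cfsg.Agent.Comm.ONeg

set_option autoImplicit false
open Cfsg

namespace Cfsg.Agent.S2449

/-- Let F be a finite field and n ≥ 4, and let Ω⁻(2n,F) be the commutator subgroup of the orthogonal group of the quadratic form given by n − 1 hyperbolic planes plus an anisotropic binary form z₁² + a z₁z₂ + b z₂². Then every element of Ω⁻(2n,F) is a commutator a·b·a⁻¹·b⁻¹ of two elements of Ω⁻(2n,F). -/
theorem result {F : Type*} [Field F] [Fintype F] (n : ℕ) (hn : 4 ≤ n) (a b : F)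
    (hab : ∀ z₁ z₂ : F, z₁ ^ 2 + a * z₁ * z₂ + b * z₂ ^ 2 = 0 → z₁ = 0 ∧ z₂ = 0) :
    ∀ g : Cfsg.Omega F (Cfsg.quadFormMinus (n - 1) F a b), ∃ x y : Cfsg.Omega F (Cfsg.quadFormMinus (n - 1) F a b), g = x * y * x⁻¹ * y⁻¹ := by
  obtain ⟨e, he⟩ := Class.Orth.exists_equiv_minus_sumQF (F := F) (n - 1) a b
  refine Comm.OFpf.OComm.result
    ((Class.Orth.minusEquiv (n - 1) F a b).trans (Class.Orth.OG.congr e he))
    (Comm.ONeg.oComm_all ⟨Class.Orth.nd_binQF_of_disc (Class.Orth.disc_ne_zero_of_aniso hab),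
      fun x hx => ?_, by simp, by omega⟩ fun _ _ => inferInstance)
  have := hab _ _ ((Class.Orth.binQF_apply F a b x).symm.trans hx)
  ext i
  fin_cases i
  · exact this.1
  · exact this.2

end Cfsg.Agent.S2449
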