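import Cfsg.Statements.S2450
import Cfsg.Agent.KSG.PSL2

set_option autoImplicit false
open Cfsg

namespace Cfsg.Agent.S2450

open KSG KSG.M2 Matrix

section
variable {F : Type*} [Field F]

local notation "M₂" => Matrix (Fin 2) (Fin 2) F
local notation "SL₂" => Matrix.SpecialLinearGroup (Fin 2) F

theorem exists_conj_entry {g : SL₂} (hg : ¬ IsScal (g : M₂)) :
    ∃ u : SL₂, ((u * g * u⁻¹ : SL₂) : M₂) 1 0 ≠ 0 := by
  by_cases h10 : (g : M₂) 1 0 = 0
  · by_cases h01 : (g : M₂) 0 1 = 0
    · refine ⟨mkSL !![1, 0; 1, 1] (by simp [det_fin_two_of]), ?_⟩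
      intro h
      apply hg
      refine ⟨h01, h10, ?_⟩
      simp [mul_apply2, adjugate_fin_two, h10, h01, vecMul, dotProduct, Fin.sum_univ_two] at h
      linear_combination h
    · refine ⟨cmp 0, ?_⟩
      simpa [mul_apply2, adjugate_fin_two, vecMul, dotProduct, Fin.sum_univ_two] using h01
  · exact ⟨1, by simpa using h10⟩

open Polynomial in
theorem quad_not_const [Fintype F] (h4 : 4 ≤ Fintype.card F) {k l m t : F} (hk : k ≠ 0)
    (h : ∀ x : F, (k * x ^ 2 + l * x + m) ^ 2 = t ^ 2) : False := by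
  rcases two_eq_zero_or_odd (F := F) with h2 | h2
  · have := Polynomial.eq_zero_of_natDegree_lt_card_of_eval_eq_zero
      (C k * X ^ 2 + C l * X + C (m - t)) (f := id) Function.injective_id (fun x => by
        have : (k * x ^ 2 + l * x + m - t) ^ 2 = 0 := by
          linear_combination h x + (t ^ 2 - t * (k * x ^ 2 + l * x + m)) * h2
        simp only [eval_add, eval_mul, eval_C, eval_pow, eval_X, id]
        linear_combination pow_eq_zero_iff two_ne_zero |>.1 this)
      (lt_of_le_of_lt natDegree_quadratic_le (by omega))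
    have h1 := congrArg (fun p => coeff p 2) this
    simp [coeff_X, coeff_C] at h1
    exact hk h1
  · rw [Nat.card_eq_fintype_card] at h2
    have h5 : 4 < Fintype.card F := by obtain ⟨r, hr⟩ := h2; omega
    have := Polynomial.eq_zero_of_natDegree_lt_card_of_eval_eq_zero
      (C (k ^ 2) * X ^ 4 + C (2 * k * l) * X ^ 3 + C (l ^ 2 + 2 * k * m) * X ^ 2 +
        C (2 * l * m) * X + C (m ^ 2 - t ^ 2)) (f := id) Function.injective_id (fun x => by
        simp only [eval_add, eval_mul, eval_C, eval_pow, eval_X, id]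
        linear_combination h x)
      (lt_of_le_of_lt (by compute_degree) h5)
    have h1 := congrArg (fun p => coeff p 4) this
    simp only [coeff_add, coeff_C_mul, coeff_X_pow, coeff_X, coeff_C, coeff_zero] at h1
    simp at h1
    exact hk h1

end


/-- The Arad–Herzog conjecture for PSL(2,q): let F be a finite field with q ≥ 4 elements. For any two non-identity elements a, b of PSL(2,F), the set of products of a conjugate of a with a conjugate of b is not a single conjugacy class. -/
theorem result {F : Type*} [Field F] [Fintype F] (h4 : 4 ≤ Fintype.card F)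
    (a b : Matrix.ProjectiveSpecialLinearGroup (Fin 2) F) (ha : a ≠ 1) (hb : b ≠ 1) (c : Matrix.ProjectiveSpecialLinearGroup (Fin 2) F) :
    {g : Matrix.ProjectiveSpecialLinearGroup (Fin 2) F | ∃ u v : Matrix.ProjectiveSpecialLinearGroup (Fin 2) F, g = (u * a * u⁻¹) * (v * b * v⁻¹)} ≠ {g | IsConj c g} := by
  intro H
  obtain ⟨A, rfl⟩ := pr_surjective a
  obtain ⟨B, rfl⟩ := pr_surjective b
  obtain ⟨C, rfl⟩ := pr_surjective c
  rw [Ne, pr_eq_one_iff] at ha hb
  obtain ⟨u, hu⟩ := exists_conj_entry ha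
  obtain ⟨v, hv⟩ := exists_conj_entry hb
  have key : ∀ x : F, (((u * A * u⁻¹) * (upar 1 (one_pow 2) x * (v * B * v⁻¹) *
      (upar 1 (one_pow 2) x)⁻¹) : Matrix.SpecialLinearGroup (Fin 2) F) :
        Matrix (Fin 2) (Fin 2) F).trace ^ 2 = (C : Matrix (Fin 2) (Fin 2) F).trace ^ 2 := by
    intro x
    symm
    apply trace_sq_eq_of_isConj_pr
    have : pr ((u * A * u⁻¹) * (upar 1 (one_pow 2) x * (v * B * v⁻¹) *
      (upar 1 (one_pow 2) x)⁻¹)) ∈ {g | IsConj (pr C) g} := by
      rw [← H]
      refine ⟨pr u, pr (upar 1 (one_pow 2) x) * pr v, ?_⟩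
      simp only [map_mul, map_inv]
      group
    exact this
  generalize u * A * u⁻¹ = A' at hu key
  generalize v * B * v⁻¹ = B' at hv key
  refine quad_not_const h4 (k := -(A' 1 0 * B' 1 0))
    (l := A' 0 0 * B' 1 0 - A' 1 0 * B' 0 0 + A' 1 0 * B' 1 1 - A' 1 1 * B' 1 0)
    (m := A' 0 0 * B' 0 0 + A' 0 1 * B' 1 0 + A' 1 0 * B' 0 1 + A' 1 1 * B' 1 1)
    (t := (C : Matrix (Fin 2) (Fin 2) F).trace) (neg_ne_zero.2 (mul_ne_zero hu hv)) fun x => ?_
  rw [← key x]
  congr 1
  simp [mul_apply2, adjugate_fin_two, trace_fin_two, vecMul, dotProduct, Fin.sum_univ_two]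
  ring

end Cfsg.Agent.S2450
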