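import Cfsg.Statements.S2455
import Cfsg.Agent.KSG.Macbeath

set_option autoImplicit false
open Cfsg

namespace Cfsg.Agent.S2455

open KSG KSG.M2 Matrix


/-- A strong covering result in the direction of Thompson's conjecture (non-identity elements) for PSL(2,q), q odd: let F be a finite field of odd characteristic p with at least 5 elements and let x ∈ PSL(2,F) have order greater than 2 and not divisible by p (so x is not unipotent). Then every non-identity element of PSL(2,F) is a product of two conjugates of x. -/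
theorem result {F : Type*} [Field F] [Fintype F] (p : ℕ) [Fact p.Prime] [CharP F p] (hp : p ≠ 2) (h5 : 5 ≤ Fintype.card F)
    (x : Matrix.ProjectiveSpecialLinearGroup (Fin 2) F) (hx2 : 2 < orderOf x) (hxp : ¬ p ∣ orderOf x) : ∀ g : Matrix.ProjectiveSpecialLinearGroup (Fin 2) F, g ≠ 1 → ∃ u v : Matrix.ProjectiveSpecialLinearGroup (Fin 2) F, g = (u * x * u⁻¹) * (v * x * v⁻¹) := by
  obtain ⟨X, rfl⟩ := pr_surjective x
  have hpp : p.Prime := Fact.out
  have h2 : (2 : F) ≠ 0 := two_ne_zero_of_charP p hp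
  have hX : (X : Matrix (Fin 2) (Fin 2) F).trace ^ 2 ≠ 4 := by
    intro h
    rcases (Nat.dvd_prime hpp).1 (orderOf_dvd_of_pow_eq_one (pr_pow_char_eq_one p h)) with h1 | h1
    · omega
    · exact hxp (h1 ▸ dvd_rfl)
  have h0 : (X : Matrix (Fin 2) (Fin 2) F).trace ≠ 0 := by
    intro ht
    have : orderOf (pr X) ∣ 2 := by
      apply orderOf_dvd_of_pow_eq_one
      rw [sq, ← map_mul, SL_sq_eq_neg_one_iff.2 ht, pr_neg_one]
    have := Nat.le_of_dvd two_pos this
    omega
  intro g hg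
  obtain ⟨G, rfl⟩ := pr_surjective g
  rw [Ne, pr_eq_one_iff] at hg
  obtain ⟨Y, Z, hY, hZ, rfl⟩ : ∃ Y Z : Matrix.SpecialLinearGroup (Fin 2) F,
      (Y : Matrix (Fin 2) (Fin 2) F).trace ^ 2 = (X : Matrix (Fin 2) (Fin 2) F).trace ^ 2 ∧
      (Z : Matrix (Fin 2) (Fin 2) F).trace ^ 2 = (X : Matrix (Fin 2) (Fin 2) F).trace ^ 2 ∧
      G = Y * Z := by
    by_cases hG : (G : Matrix (Fin 2) (Fin 2) F).trace ^ 2 = 4
    · obtain ⟨ε, hε, h⟩ := exists_eps_of_trace_sq hG
      obtain ⟨Y, Z, hY, hZ, h⟩ := exists_mul_trace_of_par hg hε h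
        (α := (X : Matrix (Fin 2) (Fin 2) F).trace)
        (β := -((X : Matrix (Fin 2) (Fin 2) F).trace * ε)) (Or.inl fun h => by
          have hε0 : ε ≠ 0 := by rintro rfl; simp at hε
          exact mul_ne_zero h2 (mul_ne_zero h0 hε0) (by linear_combination -h))
      refine ⟨Y, Z, by rw [hY], ?_, h⟩
      rw [hZ]
      linear_combination (X : Matrix (Fin 2) (Fin 2) F).trace ^ 2 * hε
    · obtain ⟨Y, Z, hY, hZ, h⟩ := exists_mul_trace_of_ne hG (X : Matrix (Fin 2) (Fin 2) F).trace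
        (X : Matrix (Fin 2) (Fin 2) F).trace
      exact ⟨Y, Z, by rw [hY], by rw [hZ], h⟩
  obtain ⟨u, hu⟩ := exists_conj_pr_of_trace_sq hX hY
  obtain ⟨v, hv⟩ := exists_conj_pr_of_trace_sq hX hZ
  exact ⟨u, v, by rw [map_mul, hu, hv]⟩

end Cfsg.Agent.S2455
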