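import Cfsg.Statements.S2456
import Cfsg.Agent.KSG.Macbeath

set_option autoImplicit false
open Cfsg

namespace Cfsg.Agent.S2456

open KSG KSG.M2 Matrix


/-- A strong covering result in the direction of Thompson's conjecture (non-identity elements) for PSL(2,q), q even: let F be a finite field of characteristic 2 with q ≥ 4 elements and let x ∈ PSL(2,F) have order greater than 2 and not dividing q + 1. Then every non-identity element of PSL(2,F) is a product of two conjugates of x. -/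
theorem result {F : Type*} [Field F] [Fintype F] [CharP F 2] (h4 : 4 ≤ Fintype.card F)
    (x : Matrix.ProjectiveSpecialLinearGroup (Fin 2) F) (hx2 : 2 < orderOf x) (hxq : ¬ orderOf x ∣ Fintype.card F + 1) : ∀ g : Matrix.ProjectiveSpecialLinearGroup (Fin 2) F, g ≠ 1 → ∃ u v : Matrix.ProjectiveSpecialLinearGroup (Fin 2) F, g = (u * x * u⁻¹) * (v * x * v⁻¹) := by
  obtain ⟨X, rfl⟩ := pr_surjective x
  have h2 : (2 : F) = 0 := two_eq_zero_of_charP
  rw [← Nat.card_eq_fintype_card] at hxq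
  have hX : (X : Matrix (Fin 2) (Fin 2) F).trace ^ 2 ≠ 4 ∧
      ¬ NoEig (X : Matrix (Fin 2) (Fin 2) F) := by
    rcases orderOf_pr_cases 2 X with ⟨-, h⟩ | ⟨h, h', -⟩ | ⟨-, h⟩
    · have := Nat.le_of_dvd two_pos h; omega
    · exact ⟨h, h'⟩
    · rw [gcd_two_of_two_eq h2, Nat.div_one] at h; exact absurd h hxq
  obtain ⟨hX, hn⟩ := hX
  intro g hg
  obtain ⟨G, rfl⟩ := pr_surjective g
  rw [Ne, pr_eq_one_iff] at hg
  obtain ⟨Y, Z, hY, hZ, rfl⟩ : ∃ Y Z : Matrix.SpecialLinearGroup (Fin 2) F,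
      (Y : Matrix (Fin 2) (Fin 2) F).trace = (X : Matrix (Fin 2) (Fin 2) F).trace ∧
      (Z : Matrix (Fin 2) (Fin 2) F).trace = (X : Matrix (Fin 2) (Fin 2) F).trace ∧
      G = Y * Z := by
    by_cases hG : (G : Matrix (Fin 2) (Fin 2) F).trace ^ 2 = 4
    · obtain ⟨ε, hε, h⟩ := exists_eps_of_trace_sq hG
      refine exists_mul_trace_of_par hg hε h (Or.inr ?_)
      unfold NoEig at hn
      push Not at hn
      simpa using hn
    · exact exists_mul_trace_of_ne hG _ _
  obtain ⟨u, hu⟩ := exists_conj_pr_of_trace_sq hX (Y := Y) (by rw [hY])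
  obtain ⟨v, hv⟩ := exists_conj_pr_of_trace_sq hX (Y := Z) (by rw [hZ])
  exact ⟨u, v, by rw [map_mul, hu, hv]⟩

end Cfsg.Agent.S2456
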