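import Cfsg.Statements.S2457
import Mathlib
import Cfsg.Agent.Chev.SzCover
import Cfsg.Agent.Chev.SzLie

set_option autoImplicit false
open Cfsg

namespace Cfsg.Agent.S2457

/-- A strong covering result in the direction of Thompson's conjecture (non-identity elements) for the Suzuki groups: let q = 2^(2m+1) ≥ 8, F the field with q elements and Sz(q) the Suzuki group over F. For every element x of Sz(q) of order greater than 2, every non-identity element of Sz(q) is a product of two conjugates of x. -/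
theorem result {F : Type*} [Field F] [Fintype F] (m : ℕ) (hm : 1 ≤ m) (hF : Fintype.card F = 2 ^ (2 * m + 1))
    (x : Cfsg.Lie.Sz F (2 ^ (m + 1))) (hx2 : 2 < orderOf x) : ∀ g : Cfsg.Lie.Sz F (2 ^ (m + 1)), g ≠ 1 → ∃ u v : Cfsg.Lie.Sz F (2 ^ (m + 1)), g = (u * x * u⁻¹) * (v * x * v⁻¹) := by
  have hF' := Chev.SzField.of_fintype hm hF
  have := Fintype.ofFinite (Cfsg.Sz F m)
  intro g hg
  obtain ⟨x, rfl⟩ := (Chev.Suz.lieEquiv F).surjective x
  obtain ⟨g, rfl⟩ := (Chev.Suz.lieEquiv F).surjective g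
  rw [MulEquiv.orderOf_eq] at hx2
  obtain ⟨u, v, h⟩ := Chev.Suz.exists_eq_conj_mul_conj (x := x) (g := g)
    (fun h => absurd (Nat.le_of_dvd two_pos (orderOf_dvd_of_pow_eq_one h)) (by omega))
    (fun h => hg (by simp [h]))
  exact ⟨Chev.Suz.lieEquiv F u, Chev.Suz.lieEquiv F v, by simp [h]⟩

end Cfsg.Agent.S2457
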