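import Cfsg.Statements.S2459
import Mathlib
import Cfsg.Agent.Lin.Cyclic

set_option autoImplicit false
open Cfsg

namespace Cfsg.Agent.S2459

open Cfsg.Agent.Lin Polynomial Module Matrix in
theorem key {F : Type*} [Field F] {τ : F} (hτ : τ ≠ 2) (g : SpecialLinearGroup (Fin 3) F)
    (hg : g ∉ Subgroup.center _) : ∃ u v : SpecialLinearGroup (Fin 3) F,
      g = u * ⟨!![0, 0, 1; 1, 0, -(τ + 1); 0, 1, τ + 1], by simp [det_fin_three]⟩ * u⁻¹ *
        (v * ⟨!![0, 0, 1; 1, 0, -(τ + 1); 0, 1, τ + 1], by simp [det_fin_three]⟩ * v⁻¹) := by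
  set x : SpecialLinearGroup (Fin 3) F :=
    ⟨!![0, 0, 1; 1, 0, -(τ + 1); 0, 1, τ + 1], by simp [det_fin_three]⟩
  obtain ⟨v, hv⟩ : ∃ v, g.toLin' v ∉ F ∙ v := by
    by_contra! hs
    obtain ⟨a, ha⟩ := LinearMap.exists_eq_smul_id_of_forall_notLinearIndependent
      (f := toLin' g.1) fun v hli => by
        obtain ⟨c, hc⟩ := Submodule.mem_span_singleton.1 (hs v)
        simpa using (LinearIndependent.pair_iff.1 hli) c (-1)
          (by rw [hc, neg_smul, one_smul]; exact add_neg_cancel _)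
    refine hg (Subgroup.mem_center_iff.2 fun b => Subtype.ext ?_)
    change b.1 * g.1 = g.1 * b.1
    rw [← LinearMap.toMatrix'_toLin' g.1, ha]
    simp
  have h1 : (X ^ 2 - C τ * X + 1 : F[X]).Monic := by monicity!
  have h2 : (X ^ 2 - C τ * X + 1 : F[X]).natDegree = 2 := by compute_degree!
  obtain ⟨y, e, f, a1, a2, a3, a4, a5⟩ := exists_factor_simple g.toLin' hv (n := 2) (by simp) h1 h2
    (by simp) (h1.mul (monic_X_sub_C 1))
    (by rw [h1.natDegree_mul (monic_X_sub_C _), natDegree_X_sub_C, h2]) (μ := 1)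
    (fun e => hτ (by simp at e; linear_combination -e))
    (by simp [show (g.toLin' : End F (Fin 3 → F)) = toLin' g.1 from rfl])
  have h3 : ∀ {z f}, Gen z f → z.charpoly = y.charpoly → ∃ u : SpecialLinearGroup (Fin 3) F,
      u.1 * LinearMap.toMatrix' y = LinearMap.toMatrix' z * u.1 := fun hz e => by
    obtain ⟨w, hw⟩ := a1.conj hz e.symm
    have h0 : LinearMap.det (w : End F (Fin 3 → F)) ≠ 0 := (LinearEquiv.isUnit_det' w).ne_zero
    obtain ⟨c, c1, c2⟩ := a5 _ (inv_ne_zero h0)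
    refine ⟨⟨LinearMap.toMatrix' ((w : End F (Fin 3 → F)) * (c : End F (Fin 3 → F))), by
      rw [LinearMap.det_toMatrix', map_mul, c1, mul_inv_cancel₀ h0]⟩, ?_⟩
    rw [← LinearMap.toMatrix'_mul, ← LinearMap.toMatrix'_mul]
    exact congrArg _ (LinearMap.ext fun u => by simp [c2, hw])
  obtain ⟨u, hu⟩ := h3 a3 (a4.trans a2.symm)
  obtain ⟨w, hw⟩ := h3 (z := toLin' x.1) (f := ![1, 0, 0]) (fun U h4 h5 => by
    have h6 := h5 _ h4
    have h7 := h5 _ h6
    refine eq_top_iff.2 fun a _ => ?_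
    convert U.add_mem (U.add_mem (U.smul_mem (a 0) h4) (U.smul_mem (a 1) h6)) (U.smul_mem (a 2) h7)
    ext i; fin_cases i <;> simp [x, vecHead, vecTail]) (by
      rw [a2, charpoly_toLin', charpoly, det_fin_three]
      simp [x]; ring)
  rw [LinearMap.toMatrix'_mul, show (g.toLin' : End F (Fin 3 → F)) = toLin' g.1 from rfl,
    LinearMap.toMatrix'_toLin'] at hu
  rw [LinearMap.toMatrix'_toLin'] at hw
  rw [show LinearMap.toMatrix' y = (w⁻¹ * x * w).1 by
    change _ = adjugate w.1 * x.1 * w.1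
    rw [mul_assoc, ← hw, ← mul_assoc, adjugate_mul, w.2, one_smul, one_mul]] at hu
  replace hu : u * (w⁻¹ * x * w) = g * (w⁻¹ * x * w) * u := Subtype.ext hu
  let j : SpecialLinearGroup (Fin 3) F := ⟨!![0, 0, -1; 0, -1, 0; -1, 0, 0], by simp [det_fin_three]⟩
  have h4 : x * j * x = j := Subtype.ext <| show x.1 * j.1 * x.1 = j.1 by
    ext a b; fin_cases a <;> fin_cases b <;> simp [x, j, mul_apply, Fin.sum_univ_three]
  refine ⟨u * w⁻¹, w⁻¹ * j, ?_⟩
  rw [show w⁻¹ * j * x = w⁻¹ * x⁻¹ * (x * j * x) by group, h4,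
    show u * w⁻¹ * x = u * (w⁻¹ * x * w) * w⁻¹ by group, hu]
  group

/-- A form of Thompson's conjecture for PSL(3,q), q > 2 (covering the non-identity elements), with a semisimple class: for F a finite field of characteristic p with more than 2 elements there is an element x of PSL(3,F) of order prime to p such that every non-identity element of PSL(3,F) is a product of two conjugates of x. -/
theorem result {F : Type*} [Field F] [Fintype F] (p : ℕ) [Fact p.Prime] [CharP F p] (h3 : 3 ≤ Fintype.card F) :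
    ∃ x : Matrix.ProjectiveSpecialLinearGroup (Fin 3) F, ¬ p ∣ orderOf x ∧ ∀ g : Matrix.ProjectiveSpecialLinearGroup (Fin 3) F, g ≠ 1 → ∃ u v : Matrix.ProjectiveSpecialLinearGroup (Fin 3) F, g = (u * x * u⁻¹) * (v * x * v⁻¹) := by
  obtain ⟨τ, k, h1, h2, h4⟩ : ∃ (τ : F) (k : ℕ), τ ≠ 2 ∧ ¬ p ∣ k ∧
      (!![0, 0, 1; 1, 0, -(τ + 1); 0, 1, τ + 1] : Matrix (Fin 3) (Fin 3) F) ^ k = 1 := by
    rcases eq_or_ne p 3 with rfl | h
    · refine ⟨0, 4, fun e => ?_, by decide, ?_⟩
      · exact absurd ((CharP.cast_eq_zero_iff F 3 2).1 (by simp [← e])) (by decide)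
      · ext a b; fin_cases a <;> fin_cases b <;> simp [pow_succ, Matrix.mul_apply, Fin.sum_univ_three]
    have h5 := mt (Nat.prime_dvd_prime_iff_eq (Fact.out : p.Prime) Nat.prime_three).1 h
    refine ⟨-1, 3, fun e => h5 ((CharP.cast_eq_zero_iff F p 3).1 (by push_cast; linear_combination -e)),
      h5, ?_⟩
    ext a b; fin_cases a <;> fin_cases b <;> simp [pow_succ, Matrix.mul_apply, Fin.sum_univ_three]
  refine ⟨QuotientGroup.mk ⟨!![0, 0, 1; 1, 0, -(τ + 1); 0, 1, τ + 1], by simp [Matrix.det_fin_three]⟩,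
    fun e => h2 (e.trans (orderOf_dvd_of_pow_eq_one ?_)), fun g hg => ?_⟩
  · exact (QuotientGroup.mk_pow _ _ k).symm.trans (congrArg QuotientGroup.mk (a₂ := 1) (Subtype.ext h4))
  obtain ⟨g, rfl⟩ := QuotientGroup.mk_surjective g
  obtain ⟨u, v, h⟩ := key h1 g (mt (QuotientGroup.eq_one_iff g).2 hg)
  exact ⟨u, v, congrArg QuotientGroup.mk h⟩

end Cfsg.Agent.S2459
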