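import Mathlib
import Cfsg.Statements.S2460
import Cfsg.Agent.Comm.Sp4

set_option autoImplicit false
open Cfsg

namespace Cfsg.Agent.S2460

/-- A form of Thompson's conjecture for the simple groups PSp(4,q), q ≥ 3 (covering the non-identity elements), with a semisimple class: for F a finite field of characteristic p with at least 3 elements there is an element x of PSp(4,F) of order prime to p such that every non-identity element of PSp(4,F) is a product of two conjugates of x. -/
theorem result {F : Type*} [Field F] [Fintype F] (p : ℕ) [Fact p.Prime] [CharP F p] (h3 : 3 ≤ Fintype.card F) :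
    ∃ x : Cfsg.PSp 2 F, ¬ p ∣ orderOf x ∧ ∀ g : Cfsg.PSp 2 F, g ≠ 1 → ∃ u v : Cfsg.PSp 2 F, g = (u * x * u⁻¹) * (v * x * v⁻¹) := by
  obtain ⟨t, d, h⟩ := Cfsg.Agent.Comm.Sp4.exists_par h3
  refine ⟨QuotientGroup.mk (Cfsg.Agent.Comm.Sp4.xx h), ?_, ?_⟩
  · intro hp
    have h1 : orderOf (QuotientGroup.mk (Cfsg.Agent.Comm.Sp4.xx h) : Cfsg.PSp 2 F) ∣
        orderOf (Cfsg.Agent.Comm.Sp4.xx h) :=
      orderOf_map_dvd (QuotientGroup.mk' _) _
    obtain ⟨n, hn⟩ := hp.trans h1
    have h2 := h.not_dvd p n (by rw [← hn, pow_orderOf_eq_one])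
    have h4 := orderOf_dvd_of_pow_eq_one h2
    have hpos : 0 < orderOf (Cfsg.Agent.Comm.Sp4.xx h) := orderOf_pos _
    have hn0 : 0 < n := by
      rcases Nat.eq_zero_or_pos n with h0 | h0
      · rw [h0] at hn; omega
      · exact h0
    have h5 := Nat.le_of_dvd hn0 h4
    have h6 := (Fact.out : p.Prime).two_le
    nlinarith
  · intro g hg
    obtain ⟨g, rfl⟩ := QuotientGroup.mk_surjective g
    obtain ⟨z, y₁, y₂, hz, h1, h2, e⟩ := h.two (g := g)
      (fun hc => hg ((QuotientGroup.eq_one_iff g).2 hc))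
    obtain ⟨u, rfl⟩ := isConj_iff.1 h1
    obtain ⟨v, rfl⟩ := isConj_iff.1 h2
    refine ⟨QuotientGroup.mk u, QuotientGroup.mk v, ?_⟩
    rw [e, QuotientGroup.mk_mul, (QuotientGroup.eq_one_iff z).2 hz, one_mul]
    rfl

end Cfsg.Agent.S2460
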