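import Cfsg.Statements.S2461
import Cfsg.Agent.Comm.HexLie
import Cfsg.Agent.Comm.Sp4
import Cfsg.Agent.Chev.StChev
import Cfsg.Agent.Chev.TableData
-- import your own Cfsg.Agent.* helpers here

set_option autoImplicit false
open Cfsg

namespace Cfsg.Agent.S2461

open Cfsg.Lie Cfsg.Agent.Chev Cfsg.Agent.Lang Cfsg.Agent.Comm.Hex

/-- The short node. -/
def n0 : Fin chevG2.rank := (0 : Fin 2)

/-- The long node. -/
def n1 : Fin chevG2.rank := (1 : Fin 2)

theorem torChar_eq {K : Type*} [Field K] (c : Fin 2 → Kˣ) (r : ℕ) :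
    torChar chevG2 c r = c 0 ^ chevG2.cartan 0 r * c 1 ^ chevG2.cartan 1 r :=
  Fin.prod_univ_two fun i : Fin 2 => c i ^ chevG2.cartan i r

theorem nw_eq {K G : Type*} [Field K] [Group G] (y : ℕ → K → G) (l : List (Fin chevG2.rank)) :
    nw chevG2 y l = ((l.map fun i => decide (i = n0)).map
      fun e => if e then nw chevG2 y [n0] else nw chevG2 y [n1]).prod := by
  induction l with
  | nil => rfl
  | cons i l ih =>
    rw [nw_cons, ih, List.map_cons, List.map_cons, List.prod_cons]
    congr 1
    rcases (by decide : ∀ i : Fin chevG2.rank, i = n0 ∨ i = n1) i with rfl | rfl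
    · simp
    · simp [show n1 ≠ n0 by decide]

/-- A form of Thompson's conjecture for the simple Chevalley groups G₂(q), q ≥ 3 (covering the non-identity elements), with a semisimple class: for F a finite field of characteristic p with at least 3 elements there is an element x of the Chevalley group of type G₂ over F of order prime to p such that every non-identity element of that group is a product of two conjugates of x. -/
theorem result {F : Type*} [Field F] [Fintype F] (p : ℕ) [Fact p.Prime] [CharP F p] (h3 : 3 ≤ Fintype.card F) :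
    ∃ x : Cfsg.Lie.chevG2.group F, ¬ p ∣ orderOf x ∧ ∀ g : Cfsg.Lie.chevG2.group F, g ≠ 1 → ∃ u v : Cfsg.Lie.chevG2.group F, g = (u * x * u⁻¹) * (v * x * v⁻¹) := by
  obtain ⟨t, d, hp⟩ := Comm.Sp4.exists_par h3
  have hs := isSt_xC (D := chevG2) (F := F)
  have hd := hp.d_ne
  obtain ⟨x, -, h1, h2⟩ := main_lie rootTableG2 n1 (by simp) p (I := [n0]) (by decide +kernel) (MonoidHom.id _)
    (RingHom.id F) (MonoidHom.mulSingle (fun _ => Fˣ) n0) (powMonoidHom 3) (xC chevG2 F 7) (xC chevG2 F 4)
    (fun _ h => h) (fun t => ⟨t, rfl, by simp⟩) (fun _ => rfl) (fun _ => rfl)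
    (fun t => ⟨mem_XS (by exact ⟨n0, by simp, rfl⟩) t, rfl, hs.toIsSt0.x_neg (by decide) t⟩)
    (fun t => ⟨mem_XS (by exact ⟨n0, by simp, rfl⟩) t, rfl, hs.toIsSt0.x_neg (by decide) t⟩)
    (fun a => by
      erw [torChar_eq]
      change a ^ (-3 : ℤ) * 1 ^ _ = _
      simp [zpow_ofNat])
    (fun _ => rfl)
    (fun a => by
      have := hs.toIsSt0.nn_eq rootTableG2 (rootTableG2.simple_lt n0) (a : F)
      rw [← isR3_xC.torY_mulSingle hs rootTableG2] at this
      rw [nw_cons, nw_nil, mul_one]
      exact this)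
    (fun a => by
      erw [pw_mulSingle]
      funext (k : Fin 2)
      fin_cases k
      · exact zpow_neg_one a
      · exact zpow_zero a)
    (fun a => by
      funext (k : Fin 2)
      fin_cases k
      · exact (zpow_one _).trans (one_mul _).symm
      · exact (zpow_one _).trans (mul_one _).symm)
    (fun h hh _ => by
      obtain ⟨c, rfl⟩ := exists_torY hs isR3_xC rootTableG2 hh
      refine ⟨c n1, c n0, congrArg _ ?_⟩
      funext (k : Fin 2)
      fin_cases k
      · exact (one_mul _).symm
      · exact (mul_one _).symm)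
    (fun g _ => by
      obtain ⟨u, hu, n, hn, w, -, u', hu', rfl⟩ := exists_bruhat' hs rootTableG2 (g := g) 
        (Gs_xC.ge (Subgroup.mem_top g))
      obtain ⟨k, hk, l, rfl⟩ := hs.exists_nw rootTableG2 hn
      exact ⟨u, hu, rfl, u', rootTableG2.XS_invSet_le_Us w hu', rfl, k, hk, rfl, _, by rw [← nw_eq _ l, mul_assoc u k]⟩)
    (by
      have := (isSimpleGroup_group (D := chevG2) (F := F) (by simp) fun _ => ⟨d, hd, hp.hd⟩).1
      rw [MonoidHom.eqLocus_same]
      exact Subgroup.topEquiv.isSimpleGroup)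
    ⟨xC chevG2 F 0 1, mem_XS (by decide +kernel) _, rfl, fun e => one_ne_zero
      ((isND_xC rootTableG2).eq_zero_of_x_eq_one (r := 0) (rootTableG2.lt_iff.1 (by decide)) e)⟩
    (fun h2 a => by
      obtain ⟨b, hb⟩ := KSG.M2.exists_sq_of_two_eq_zero h2 (a : F)
      have : b ≠ 0 := by rintro rfl; exact a.ne_zero (by simp [← hb])
      exact ⟨Units.mk0 b this, Units.ext (by simp [← hb]; field_simp)⟩)
    (a := Units.mk0 d hd) (t := d * t) (mul_ne_zero hd hp.ht)
    (fun s h => hp.irr (s / d) (by
      simp only [powMonoidHom_apply, Units.val_pow_eq_pow_val, Units.val_mk0] at h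
      field_simp
      linear_combination h))
    (fun e η η' h1 h2 r hr => by
      simp only [powMonoidHom_apply, Units.val_pow_eq_pow_val, Units.val_mk0, RingHom.id_apply] at h1 h2
      have key : ∀ s, (η : AlgebraicClosure F) ≠ e s := fun s h => hp.irr (s / d) (by
        have : s ^ 2 - d * t * s + d ^ 3 = 0 := e.injective (by
          rw [map_add, map_sub, map_mul, map_pow, ← h1, ← h2, ← h, map_zero]; ring)
        field_simp
        linear_combination this)
      have he : e d ≠ 0 := by simpa using hd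
      erw [torChar_eq]
      change (1 * Units.map e.toMonoidHom (Units.mk0 d hd)) ^ _ * (η * Units.map e.toMonoidHom 1) ^ _ ≠ 1
      rw [one_mul, map_one, mul_one]
      intro h
      replace h := congrArg Units.val h
      simp only [Units.val_mul, Units.val_zpow_eq_zpow_val, Units.coe_map, Units.val_mk0, Units.val_one] at h
      change e d ^ _ * _ = 1 at h
      rcases (by decide +kernel : ∀ r < 12, r ∈ Sp chevG2 n1 → chevG2.cartan 1 r = 1 ∨ chevG2.cartan 1 r = -1 ∨
        (chevG2.cartan 0 r = 1 ∧ chevG2.cartan 1 r = 0)) r hr.1.1 hr with h4 | h4 | ⟨h4, h5⟩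
      · rw [h4, zpow_one] at h
        exact key (d ^ chevG2.cartan 0 r)⁻¹ (by rw [map_inv₀, map_zpow₀]; exact eq_inv_of_mul_eq_one_right h)
      · rw [h4, zpow_neg_one, mul_inv_eq_one₀ η.ne_zero] at h
        exact key (d ^ chevG2.cartan 0 r) (by rw [map_zpow₀, h])
      · rw [h4, h5, zpow_one, zpow_zero, mul_one] at h
        exact hp.hd (e.injective (h.trans (map_one e).symm)))
  exact ⟨x, h1, fun g hg => (h2 g rfl hg).imp fun u => Exists.imp fun v h => h.2.2⟩

end Cfsg.Agent.S2461
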