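import Cfsg.Statements.S2462
import Cfsg.Agent.Comm.HexLie
import Cfsg.Agent.Comm.Sp4
import Cfsg.Agent.Chev.TwAutD4
-- import your own Cfsg.Agent.* helpers here

set_option autoImplicit false
open Cfsg

namespace Cfsg.Agent.S2462

open Cfsg.Lie Cfsg.Agent.Chev Cfsg.Agent.Lang Cfsg.Agent.Comm.Hex

/-- The branch node. -/
def n1 : Fin chevD4.rank := (1 : Fin 4)

/-- The end nodes. -/
def ends : List (Fin chevD4.rank) := ([0, 2, 3] : List (Fin 4))

theorem chk1 (i k : Fin 4) : cvec chevD4 (actL chevD4 ends (chevD4.simple i)) k =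
    if i = 1 then 1 else if i = k then -1 else 0 := by
  fin_cases i <;> fin_cases k <;> decide +kernel

section

variable {K : Type*} [Field K] (S : ChevSys rootTableD4 (xC chevD4 K)) (φ : K →+* K) (hφ : ∀ t, φ (φ (φ t)) = t)

theorem torChar_eq (c : Fin 4 → Kˣ) (r : ℕ) : torChar chevD4 c r = c 0 ^ chevD4.cartan 0 r * c 1 ^ chevD4.cartan 1 r *
    c 2 ^ chevD4.cartan 2 r * c 3 ^ chevD4.cartan 3 r :=
  Fin.prod_univ_four fun i : Fin 4 => c i ^ chevD4.cartan i r

theorem tor_eq (c : Fin chevD4.rank → Kˣ) : S.tor c = torC chevD4 rootTableD4 K c :=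
  S.eq_of_conj fun _ hr t => (S.tor_conj c hr t).trans
    (torY_conj isSt_xC isR3_xC rootTableD4 c (rootTableD4.lt_iff.2 hr) t).symm

theorem π_nw (l : List (Fin chevD4.rank)) (n : S.R.N) (h : (n : chevD4.group K) = nw chevD4 (xC chevD4 K) l) :
    S.R.π n = rootTableD4.cs.wordProd l := by
  induction l generalizing n with
  | nil => exact (congrArg S.R.π (Subtype.ext h : n = 1)).trans (by simp)
  | cons i l ih =>
    have h1 : nw chevD4 (xC chevD4 K) l ∈ S.R.N := S.N_eq ▸ rootTableD4.nw_mem_Ns l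
    rw [show n = ⟨_, S.nn_mem i⟩ * ⟨_, h1⟩ from Subtype.ext h, map_mul, S.π_n i _ rfl, ih _ rfl,
      rootTableD4.cs.wordProd_cons]

/-- The torus of the end nodes. -/
def cc : Kˣ →* (Fin 4 → Kˣ) where
  toFun a := ![a, 1, Units.map φ.toMonoidHom a, Units.map φ.toMonoidHom (Units.map φ.toMonoidHom a)]
  map_one' := by funext i; fin_cases i <;> simp
  map_mul' a b := by funext i; fin_cases i <;> simp

/-- The fixed field. -/
abbrev FF : Subfield K := φ.eqLocusField (RingHom.id K)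

/-- The norm. -/
def nrm : K →* FF φ where
  toFun t := ⟨t * φ t * φ (φ t), show φ _ = _ by simp [hφ]; ring⟩
  map_one' := Subtype.ext (by simp)
  map_mul' a b := Subtype.ext (by simp; ring)

include S in
theorem sn_eq (a : Kˣ) : sn (fun t => xC chevD4 K 18 t * xC chevD4 K 13 (φ t) * xC chevD4 K 12 (φ (φ t)))
    (fun t => xC chevD4 K 5 t * xC chevD4 K 10 (φ t) * xC chevD4 K 11 (φ (φ t))) a =
      torC chevD4 rootTableD4 K (cc φ a) * nw chevD4 (xC chevD4 K) ends := by
  have c1 := S.comm4 18 5 13 10 (by decide +kernel) id φ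
  have c2 := (S.comm4 18 5 12 11 (by decide +kernel) id (φ.comp φ)).mul_left
    (S.comm4 13 10 12 11 (by decide +kernel) φ _)
  have h1 := c2.sn_mul 1
  have h2 := c2.sh_mul a
  rw [c1.sn_mul, sn_comp, sn_comp] at h1
  rw [c1.sh_mul, sh_comp, sh_comp] at h2
  have h3 : ∀ (i : Fin chevD4.rank) (b : Kˣ), sh (xC chevD4 K (chevD4.simple i))
      (xC chevD4 K (chevD4.neg (chevD4.simple i))) b = S.tor (Pi.mulSingle i b) := fun i b => by
    rw [S.sh_x (rootTableD4.simple_lt i), S.tor_mulSingle]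
  have h4 : cc φ a = Pi.mulSingle (0 : Fin 4) a * Pi.mulSingle (2 : Fin 4) (Units.map φ.toMonoidHom a) *
      Pi.mulSingle (3 : Fin 4) (Units.map φ.toMonoidHom (Units.map φ.toMonoidHom a)) := by
    funext i; fin_cases i <;> simp [cc]
  let f : (Fin 4 → Kˣ) →* chevD4.group K := S.tor
  have h5 : ∀ (i : Fin 4) (b : Kˣ), f (Pi.mulSingle i b) = sh (xC chevD4 K (chevD4.simple i))
      (xC chevD4 K (chevD4.neg (chevD4.simple i))) b := fun i b => (h3 i b).symm
  rw [← mul_inv_eq_iff_eq_mul]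
  refine Eq.trans ?_ (tor_eq S _)
  change _ = f (cc φ a)
  rw [h4, map_mul, map_mul, h5, h5, h5]
  refine Eq.trans ?_ h2
  rw [sh]
  congr 2
  refine Eq.trans ?_ h1.symm
  rw [map_one, map_one, mul_assoc]
  exact congrArg _ (congrArg _ (mul_one _))

theorem fix_X (t : K) : D4.sig S φ hφ (xC chevD4 K 18 t * xC chevD4 K 13 (φ t) * xC chevD4 K 12 (φ (φ t))) =
    xC chevD4 K 18 t * xC chevD4 K 13 (φ t) * xC chevD4 K 12 (φ (φ t)) :=
  ((D4.fix_pos S φ hφ 0 _).2 ⟨t, rfl⟩).2

theorem fix_Y (t : K) : D4.sig S φ hφ (xC chevD4 K 5 t * xC chevD4 K 10 (φ t) * xC chevD4 K 11 (φ (φ t))) =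
    xC chevD4 K 5 t * xC chevD4 K 10 (φ t) * xC chevD4 K 11 (φ (φ t)) :=
  ((D4.fix_neg S φ hφ 0 _).2 ⟨t, rfl⟩).2

theorem exists_word {w : rootTableD4.W} (hw : (D4.tw S φ hφ).data.F.τ w = w) :
    ∃ (l : List Bool) (m : S.R.N), (m : chevD4.group K) = (l.map fun e => if e then nw chevD4 (xC chevD4 K) ends
      else nw chevD4 (xC chevD4 K) [n1]).prod ∧ D4.sig S φ hφ m = m ∧ S.R.π m = w := by
  refine (D4.tw S φ hφ).data.F.fixed_induction rootTableD4.isCartan (p := fun w => ∃ (l : List Bool) (m : S.R.N),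
    (m : chevD4.group K) = (l.map fun e => if e then nw chevD4 (xC chevD4 K) ends
      else nw chevD4 (xC chevD4 K) [n1]).prod ∧ D4.sig S φ hφ m = m ∧ S.R.π m = w) ⟨[], 1, rfl, map_one _, map_one _⟩
    ?_ hw
  rintro _ a - - ⟨l, m, h1, h2, rfl⟩
  have h3 : ∀ l, nw chevD4 (xC chevD4 K) l ∈ S.R.N := fun l => S.N_eq ▸ rootTableD4.nw_mem_Ns l
  fin_cases a
  · refine ⟨l ++ [true], m * ⟨_, h3 ends⟩, by simp [h1], ?_, by rw [map_mul, π_nw S ends ⟨_, h3 ends⟩ rfl]; rfl⟩
    have := sn_eq S φ 1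
    erw [map_one, map_one, one_mul] at this
    change D4.sig S φ hφ (m * nw _ _ ends) = m * nw _ _ ends
    rw [map_mul, h2, ← this, sn, map_mul, map_mul, fix_X, fix_Y]
  · refine ⟨l ++ [false], m * ⟨_, h3 [n1]⟩, by simp [h1], ?_, by rw [map_mul, π_nw S [n1] ⟨_, h3 [n1]⟩ rfl]; rfl⟩
    change D4.sig S φ hφ (m * nw _ _ [n1]) = m * nw _ _ [n1]
    rw [map_mul, h2, nw_cons, nw_nil, mul_one]
    exact congrArg _ ((D4.tw S φ hφ).data.σ_eq (D4.nn_mem_T S φ hφ (map_one φ)))

include hφ in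
theorem fix_of_root {t n s : K} (ht : φ t = t) (hn : φ n = n) (h : s ^ 2 - t * s + n = 0) : φ s = s := by
  have h1 := congrArg φ h
  rw [map_add, map_sub, map_mul, map_pow, ht, hn, map_zero] at h1
  have h2 : (φ s - s) * (φ s + s - t) = 0 := by linear_combination h1 - h
  refine (mul_eq_zero.1 h2).elim sub_eq_zero.1 fun h3 => ?_
  have h4 := congrArg φ h3
  rw [map_sub, map_add, ht, map_zero] at h4
  have h5 : φ (φ s) = s := by linear_combination h4 - h3
  exact (congrArg φ h5).symm.trans (hφ s)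

include hφ in
theorem eq_one_of_mul {a : K} (ha : a ≠ 0) (h : a * φ a = φ (φ a)) : a = 1 := by
  have h1 := congrArg φ h
  rw [map_mul, hφ] at h1
  have h2 : φ a ^ 2 = 1 := mul_left_cancel₀ ha (by linear_combination h1 + φ a * h)
  have h3 : φ a = a := by
    rcases sq_eq_one_iff.1 h2 with h | h
    · rw [h, φ.injective (h.trans (map_one φ).symm)]
    · rw [h, φ.injective (show φ a = φ (-1) by simp [h])]
  rw [h3, h3] at h
  exact mul_left_cancel₀ ha (by rw [h, mul_one])

end

/-- A form of Thompson's conjecture for the triality groups ³D₄(q) (covering the non-identity elements) with a semisimple class: for q a power of the prime p and K the field with q³ elements there is an element x of ³D₄(q) (realised over K) of order prime to p such that every non-identity element of ³D₄(q) is a product of two conjugates of x. -/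
theorem result {K : Type*} [Field K] [Fintype K] (p : ℕ) [Fact p.Prime] [CharP K p] (q : ℕ) (hq : IsPrimePow q) (hK : Fintype.card K = q ^ 3) :
    ∃ x : Cfsg.Lie.twistedD4 K q, ¬ p ∣ orderOf x ∧ ∀ g : Cfsg.Lie.twistedD4 K q, g ≠ 1 → ∃ u v : Cfsg.Lie.twistedD4 K q, g = (u * x * u⁻¹) * (v * x * v⁻¹) := by
  obtain ⟨S, φ, hφ, hφq, hT⟩ := D4.exists_data hq hK
  have h3 := D4.three_lt hq hK
  have hs := isSt_xC (D := chevD4) (F := K)
  have hσ : ∀ r < chevD4.nroots, ∀ t, D4.sig S φ hφ (xC chevD4 K r t) = xC chevD4 K (rhoD4 r) (epsD4 r * φ t) :=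
    (D4.exists_sigma S φ hφ).choose_spec
  have hF : (D4.tw S φ hφ).data.T = (D4.sig S φ hφ).eqLocus (MonoidHom.id _) := D4.T_eq_Fix S φ hφ
  have h0 := D4.isSL2_zero S φ
  have hf : ∀ s : FF φ, φ s = s := fun s => s.2
  obtain ⟨a, t, ha, ht, hirr⟩ : ∃ (a : Kˣ) (t : FF φ), a ≠ 1 ∧ t ≠ 0 ∧
      ∀ s : FF φ, s ^ 2 - t * s + Units.map (nrm φ hφ) a ≠ 0 := by
    have := Fintype.ofFinite (FF φ)
    by_cases h : 3 ≤ Fintype.card (FF φ)
    · obtain ⟨t, d, hp⟩ := Comm.Sp4.exists_par h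
      have hd := hp.d_ne
      refine ⟨Units.mk0 (d : K) (by simpa using hd), d * t, fun e => hp.hd (Subtype.ext (congrArg Units.val e)),
        mul_ne_zero hd hp.ht, fun s h => hp.irr (s / d) ?_⟩
      have : (Units.map (nrm φ hφ) (Units.mk0 (d : K) (by simpa using hd)) : FF φ) = d ^ 3 :=
        Subtype.ext (show (d : K) * φ d * φ (φ d) = _ by simp [hf, pow_three, mul_assoc])
      rw [this] at h
      field_simp
      linear_combination h
    · have h1 : ∀ s : FF φ, s ≠ 0 → s = 1 := fun s hs => by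
        classical
        by_contra h1
        refine h (le_trans ?_ (Finset.card_le_univ {0, 1, s}))
        rw [Finset.card_eq_three.2 ⟨0, 1, s, zero_ne_one, hs.symm, Ne.symm h1, rfl⟩]
      obtain ⟨a, ha⟩ := exists_units_ne_one (K := K) (by omega)
      refine ⟨a, 1, ha, one_ne_zero, fun s => ?_⟩
      rw [h1 _ (Units.ne_zero _)]
      by_cases hs : s = 0
      · simp [hs]
      · simp [h1 s hs]
  obtain ⟨x, hx, h1, h2⟩ := main_lie rootTableD4 n1 (by simp) p (I := ends) (by decide +kernel) (D4.sig S φ hφ)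
    (FF φ).subtype (cc φ) (Units.map (nrm φ hφ))
    (fun t => xC chevD4 K 18 t * xC chevD4 K 13 (φ t) * xC chevD4 K 12 (φ (φ t)))
    (fun t => xC chevD4 K 5 t * xC chevD4 K 10 (φ t) * xC chevD4 K 11 (φ (φ t)))
    (fun _ h => (XS_le (K := (XS _ _).comap (D4.sig S φ hφ))).2 (fun r hr t => by
      rw [Subgroup.mem_comap, hσ r hr.1.1]
      exact mem_XS ((by decide +kernel : ∀ r < 24, r ∈ Sp chevD4 n1 → rhoD4 r ∈ Sp chevD4 n1) r hr.1.1 hr) _) h)
    (fun t => ⟨φ t, D4.sig_x S φ hφ 14 14 (by decide +kernel) t,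
      fun h => ⟨⟨t, h⟩, rfl⟩, fun ⟨s, h⟩ => h ▸ s.2⟩)
    (fun s => (D4.sig_x S φ hφ 9 9 (by decide +kernel) s).trans (congrArg _ s.2))
    (fun a => by
      erw [← tor_eq S]
      exact (D4.tw S φ hφ).σ_tor_of_mem ((D4.mem_fixT S φ hφ).2 ⟨rfl, (map_one φ).symm, rfl⟩))
    (fun t => ⟨mul_mem (mul_mem (mem_XS (by decide +kernel) _) (mem_XS (by decide +kernel) _))
      (mem_XS (by decide +kernel) _), fix_X S φ hφ t, h0.neg t⟩)
    (fun t => ⟨mul_mem (mul_mem (mem_XS (by decide +kernel) _) (mem_XS (by decide +kernel) _))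
      (mem_XS (by decide +kernel) _), fix_Y S φ hφ t,
      eq_inv_of_mul_eq_one_left ((h0.add' _ _).symm.trans (by rw [neg_add_cancel]; exact h0.zero'))⟩)
    (fun a => by
      erw [torChar_eq]
      change a ^ (-1 : ℤ) * 1 ^ _ * Units.map φ.toMonoidHom a ^ (-1 : ℤ) *
        Units.map φ.toMonoidHom (Units.map φ.toMonoidHom a) ^ (-1 : ℤ) = _
      apply Units.ext
      simp [nrm, mul_comm, mul_left_comm, mul_assoc])
    (fun d => Units.ext (Subtype.ext (show (d : K) * φ d * φ (φ d) = _ by simp [hf, pow_three, mul_assoc])))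
    (sn_eq S φ)
    (fun a => by
      funext (k : Fin 4)
      refine (Fin.prod_univ_four fun i : Fin 4 => cc φ a i ^ cvec chevD4 (actL chevD4 ends (chevD4.simple i)) k).trans ?_
      have := chk1
      simp only [this]
      change _ = (cc φ a⁻¹ : Fin 4 → Kˣ) k
      fin_cases k <;> simp [cc])
    (fun d => by
      funext (k : Fin 4)
      rw [show cvec chevD4 (actL chevD4 ends (chevD4.simple n1)) k = 1 from chk1 1 k, zpow_one]
      fin_cases k
      · exact (one_mul _).symm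
      · exact (mul_one _).symm
      · exact Units.ext ((hf d).symm.trans (one_mul _).symm)
      · exact Units.ext (((congrArg φ (hf d)).trans (hf d)).symm.trans (one_mul _).symm))
    (fun h hh e => by
      obtain ⟨c, rfl⟩ := S.exists_tor (S.H_eq ▸ hh)
      obtain ⟨c', hc, e'⟩ := D4.exists_fixT S φ hφ c (((D4.tw S φ hφ).σ_tor c).symm.trans e)
      obtain ⟨h2, h1, h3⟩ := (D4.mem_fixT S φ hφ).1 hc
      refine ⟨Units.mk0 ⟨c' (1 : Fin 4), h1.symm⟩ fun e => (c' (1 : Fin 4)).ne_zero (congrArg Subtype.val e),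
        c' (0 : Fin 4), ?_⟩
      rw [← e', tor_eq S]
      congr 1
      funext (k : Fin 4)
      fin_cases k
      · exact (one_mul _).symm
      · exact Units.ext (mul_one _).symm
      · exact Units.ext (h2.trans (one_mul _).symm)
      · exact Units.ext (h3.trans (one_mul _).symm))
    (fun g hg => by
      obtain ⟨b, hb, hbT, n, hn, u, hu, huT, rfl⟩ := (D4.tw S φ hφ).data.bruhat_T (hF.ge hg)
      obtain ⟨u₁, hu₁, h1, h, hh, h2, rfl⟩ := (D4.tw S φ hφ).data.mem_Bor_T hb hbT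
      obtain ⟨l, m, e, h3, h4⟩ := exists_word S φ hφ ((D4.tw S φ hφ).data.τ_π n (hF.le hn))
      refine ⟨u₁, S.U_eq ▸ hu₁, hF.le h1, u, S.U_eq ▸ S.R.Uw_le_U _ hu, hF.le huT, h * (n * (m : chevD4.group K)⁻¹),
        S.H_eq ▸ mul_mem hh (S.R.π_eq_iff.1 h4.symm), ?_, l, by rw [← e]; group⟩
      rw [map_mul, map_mul, map_inv, h3]
      exact congrArg₂ _ (hF.le h2) (congrArg (· * _) (hF.le hn)))
    (D4.isSimpleGroup S φ hφ h3 (Subgroup.subtype _) (Subgroup.subtype_injective _)
      ((Subgroup.range_subtype _).trans hF.symm)).1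
    ⟨xC chevD4 K 0 1, mem_XS (by decide +kernel) _, (D4.sig_x S φ hφ 0 0 (by decide +kernel) 1).trans
      (congrArg _ (map_one φ)), fun e => one_ne_zero
      ((isND_xC rootTableD4).eq_zero_of_x_eq_one (r := 0) (rootTableD4.lt_iff.1 (by decide)) e)⟩
    (fun h2 => by
      refine Finite.injective_iff_surjective.1 (injective_iff_map_eq_one
        ((MonoidHom.id Kˣ)⁻¹ * (Units.map (FF φ).subtype.toMonoidHom).comp (Units.map (nrm φ hφ))) |>.2 fun b hb => ?_)
      have h4 : (b : K)⁻¹ * (b * φ b * φ (φ b)) = 1 := by simpa [nrm] using congrArg Units.val hb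
      rw [mul_assoc, inv_mul_cancel_left₀ b.ne_zero] at h4
      have h5 : φ (φ b) * b = 1 := by simpa [hφ] using congrArg φ h4
      have h6 : φ b = b := mul_right_cancel₀ (by simp) (h4.trans (h5.symm.trans (mul_comm _ _)))
      rw [h6, h6] at h5
      have h7 : (2 : K) = 0 := (map_ofNat (FF φ).subtype 2).symm.trans ((congrArg _ h2).trans (map_zero _))
      have : ((b : K) - 1) ^ 2 = 0 := by linear_combination h5 + (1 - b) * h7
      exact Units.ext (sub_eq_zero.1 (pow_eq_zero_iff two_ne_zero |>.1 this)))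
    ht hirr
    (fun e η η' h1 h2 r hr => by
      have key : ∀ s, (η : AlgebraicClosure K) ≠ e s := fun s h => by
        have h4 : s ^ 2 - t * s + (Units.map (nrm φ hφ) a : FF φ) = 0 := e.injective (by
          rw [map_add, map_sub, map_mul, map_pow, map_zero, ← h]
          erw [← h1, ← h2]
          ring)
        exact hirr ⟨s, fix_of_root φ hφ t.2 (hf _) h4⟩ (Subtype.ext h4)
      erw [torChar_eq]
      change (1 * Units.map e.toMonoidHom a) ^ _ * (η * Units.map e.toMonoidHom 1) ^ _ *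
        (1 * Units.map e.toMonoidHom (Units.map φ.toMonoidHom a)) ^ _ *
        (1 * Units.map e.toMonoidHom (Units.map φ.toMonoidHom (Units.map φ.toMonoidHom a))) ^ _ ≠ 1
      rw [one_mul, one_mul, one_mul, map_one, mul_one, mul_right_comm _ (η ^ _), mul_right_comm _ (η ^ _)]
      intro h
      replace h := congrArg Units.val h
      simp only [Units.val_mul, Units.val_zpow_eq_zpow_val, Units.coe_map, Units.val_one] at h
      change e a ^ _ * e (φ a) ^ _ * e (φ (φ a)) ^ _ * _ = 1 at h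
      simp only [← map_zpow₀ e, ← map_mul e] at h
      have ha0 := a.ne_zero
      have ha1 : φ a ≠ 0 := by simp
      have ha2 : φ (φ a) ≠ 0 := by simp
      have ha' : (a : K) ≠ 1 := fun e => ha (Units.ext e)
      rcases (by decide +kernel : ∀ r < 24, r ∈ Sp chevD4 n1 → chevD4.cartan 1 r = 1 ∨ chevD4.cartan 1 r = -1 ∨
        (chevD4.cartan 1 r = 0 ∧ [chevD4.cartan 0 r, chevD4.cartan 2 r, chevD4.cartan 3 r] ∈
          [[1, 1, -1], [-1, 1, 1], [1, -1, 1]])) r hr.1.1 hr with h4 | h4 | ⟨h4, h5⟩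
      · rw [h4, zpow_one] at h
        exact key _ (by rw [map_inv₀]; exact eq_inv_of_mul_eq_one_right h)
      · rw [h4, zpow_neg_one, mul_inv_eq_one₀ η.ne_zero] at h
        exact key _ h.symm
      · rw [h4, zpow_zero, mul_one, ← map_one e, e.injective.eq_iff] at h
        simp only [List.mem_cons, List.cons.injEq, List.not_mem_nil, or_false, and_true] at h5
        rcases h5 with ⟨h5, h6, h7⟩ | ⟨h5, h6, h7⟩ | ⟨h5, h6, h7⟩ <;>
          simp only [h5, h6, h7, zpow_one, zpow_neg_one] at h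
        · exact ha' (eq_one_of_mul φ hφ ha0 ((mul_inv_eq_one₀ ha2).1 h))
        · refine ha' (φ.injective ((eq_one_of_mul φ hφ ha1 ?_).trans (map_one φ).symm))
          rw [hφ]; field_simp at h; exact h
        · refine ha' (φ.injective (φ.injective ((eq_one_of_mul φ hφ ha2 ?_).trans (by simp))))
          rw [hφ]; field_simp at h; rw [mul_comm]; exact h)
  have hj : ∀ g : chevD4.group K, D4.sig S φ hφ g = g → ∃ g' : twistedD4 K q,
      Subgroup.inclusion D4.le_group g' = g := fun g hg => ⟨⟨g, (hT.trans hF).ge hg⟩, rfl⟩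
  have hi := Subgroup.inclusion_injective (D4.le_group (K := K) (q := q))
  obtain ⟨x, rfl⟩ := hj x hx
  refine ⟨x, orderOf_injective _ hi x ▸ h1, fun g hg => ?_⟩
  obtain ⟨u, v, hu, hv, e⟩ := h2 (Subgroup.inclusion D4.le_group g) ((hT.trans hF).le g.2)
    fun e => hg (hi (e.trans (map_one _).symm))
  obtain ⟨u, rfl⟩ := hj u hu
  obtain ⟨v, rfl⟩ := hj v hv
  exact ⟨u, v, hi (by simpa using e)⟩

end Cfsg.Agent.S2462
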