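import Cfsg.Statements.S2466
import Mathlib
import Cfsg.Agent.KSG.AltOrders

set_option autoImplicit false
open Cfsg

namespace Cfsg.Agent.S2466


/-- Adjacency of odd primes in the prime graph of the alternating groups: let r ≠ s be odd primes at most n. The alternating group of degree n has an element of order r·s if and only if r + s ≤ n. -/
theorem result (n r s : ℕ) (hr : r.Prime) (hs : s.Prime) (hr2 : r ≠ 2) (hs2 : s ≠ 2) (hrs : r ≠ s) (hrn : r ≤ n) (hsn : s ≤ n) :
    (r * s ∈ Set.range (orderOf : alternatingGroup (Fin n) → ℕ)) ↔ r + s ≤ n := by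
  rw [KSG.mem_range_orderOf_alt_iff, Fintype.card_fin]
  constructor
  · rintro ⟨c, h1, h2, -, h4⟩
    obtain ⟨a, ha, hra⟩ := KSG.exists_mem_of_prime_dvd_lcm hr c (h4 ▸ Dvd.intro _ rfl)
    obtain ⟨b, hb, hsb⟩ := KSG.exists_mem_of_prime_dvd_lcm hs c (h4 ▸ Dvd.intro_left _ rfl)
    have ha2 := h2 a ha
    have hb2 := h2 b hb
    obtain ⟨c', rfl⟩ := Multiset.exists_cons_of_mem ha
    rw [Multiset.sum_cons] at h1
    by_cases hab : b = a
    · subst hab
      have h5 : r * s ∣ b := ((Nat.coprime_primes hr hs).2 hrs).mul_dvd_of_dvd_of_dvd hra hsb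
      have h6 := Nat.le_of_dvd (by omega) h5
      have := Nat.add_le_mul hr.two_le hs.two_le
      omega
    · have hb' : b ∈ c' := (Multiset.mem_cons.1 hb).resolve_left hab
      have := Multiset.single_le_sum (fun x _ => Nat.zero_le x) b hb'
      have := Nat.le_of_dvd (by omega) hra
      have := Nat.le_of_dvd (by omega) hsb
      omega
  · intro h
    refine ⟨{r, s}, by simpa using h, ?_, ?_, ?_⟩
    · simp [hr.two_le, hs.two_le]
    · have h1 := hr.odd_of_ne_two hr2
      have h2 := hs.odd_of_ne_two hs2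
      simp only [Multiset.insert_eq_cons, Multiset.sum_cons, Multiset.sum_singleton,
        Multiset.card_cons, Multiset.card_singleton]
      rw [Nat.odd_iff] at h1 h2
      rw [Nat.even_iff]
      omega
    · simp only [Multiset.insert_eq_cons, Multiset.lcm_cons, Multiset.lcm_singleton, normalize_eq,
        lcm_eq_nat_lcm]
      exact ((Nat.coprime_primes hr hs).2 hrs).lcm_eq_mul

end Cfsg.Agent.S2466
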