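import Cfsg.Statements.S2467
import Mathlib
import Cfsg.Agent.KSG.AltOrders

set_option autoImplicit false
open Cfsg

namespace Cfsg.Agent.S2467


/-- Adjacency of 2 and an odd prime in the prime graph of the alternating groups: let r be an odd prime at most n, with n ≥ 4. The alternating group of degree n has an element of order 2r if and only if r + 4 ≤ n. -/
theorem result (n r : ℕ) (hn : 4 ≤ n) (hr : r.Prime) (hr2 : r ≠ 2) (hrn : r ≤ n) :
    (2 * r ∈ Set.range (orderOf : alternatingGroup (Fin n) → ℕ)) ↔ r + 4 ≤ n := by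
  rw [KSG.mem_range_orderOf_alt_iff, Fintype.card_fin]
  have hodd := hr.odd_of_ne_two hr2
  constructor
  · rintro ⟨c, h1, h2, h3, h4⟩
    obtain ⟨a, ha, hra⟩ := KSG.exists_mem_of_prime_dvd_lcm hr c (h4 ▸ Dvd.intro_left _ rfl)
    obtain ⟨b, hb, hsb⟩ := KSG.exists_mem_of_prime_dvd_lcm Nat.prime_two c (h4 ▸ Dvd.intro _ rfl)
    rw [KSG.even_sum_add_card_iff] at h3
    have ha2 := h2 a ha
    obtain ⟨c', rfl⟩ := Multiset.exists_cons_of_mem ha
    rw [Multiset.sum_cons] at h1
    have h5 : (c'.filter Even).sum ≤ c'.sum := by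
      have := congrArg Multiset.sum (Multiset.filter_add_not Even c')
      rw [Multiset.sum_add] at this
      omega
    have h6 : Multiset.card (c'.filter Even) • 2 ≤ (c'.filter Even).sum :=
      Multiset.card_nsmul_le_sum fun x hx =>
        h2 x (Multiset.mem_cons_of_mem (Multiset.mem_of_mem_filter hx))
    rw [smul_eq_mul] at h6
    by_cases hae : Even a
    · rw [Multiset.filter_cons_of_pos _ hae, Multiset.card_cons, Nat.even_iff] at h3
      have h7 : 2 * r ∣ a := ((Nat.coprime_primes Nat.prime_two hr).2 hr2.symm).mul_dvd_of_dvd_of_dvd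
        hae.two_dvd hra
      have h8 := Nat.le_of_dvd (by omega) h7
      have := hr.two_le
      omega
    · rw [Multiset.filter_cons_of_neg _ hae, Nat.even_iff] at h3
      have hbe : Even b := even_iff_two_dvd.2 hsb
      have hb' : b ∈ c'.filter Even := by
        refine Multiset.mem_filter.2 ⟨(Multiset.mem_cons.1 hb).resolve_left ?_, hbe⟩
        rintro rfl
        exact hae hbe
      have := Multiset.card_pos_iff_exists_mem.2 ⟨b, hb'⟩
      have := Nat.le_of_dvd (by omega) hra
      omega
  · intro h
    refine ⟨{r, 2, 2}, by simpa using h, ?_, ?_, ?_⟩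
    · simp [hr.two_le]
    · simp only [Multiset.insert_eq_cons, Multiset.sum_cons, Multiset.sum_singleton,
        Multiset.card_cons, Multiset.card_singleton]
      rw [Nat.odd_iff] at hodd
      rw [Nat.even_iff]
      omega
    · simp only [Multiset.insert_eq_cons, Multiset.lcm_cons, Multiset.lcm_singleton, normalize_eq,
        lcm_eq_nat_lcm, Nat.lcm_self]
      rw [mul_comm]
      exact ((Nat.coprime_primes hr Nat.prime_two).2 hr2).lcm_eq_mul

end Cfsg.Agent.S2467
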