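import Cfsg.Statements.S2471
import Cfsg.Agent.KSG.PSL2

set_option autoImplicit false
open Cfsg

namespace Cfsg.Agent.S2471

open KSG KSG.M2 Matrix


/-- In PSL(2,q) with q odd, the characteristic p is isolated from 2 in the prime graph: for F a finite field of odd characteristic p with at least 5 elements, PSL(2,F) has no element of order 2p. -/
theorem result {F : Type*} [Field F] [Fintype F] (p : ℕ) [Fact p.Prime] [CharP F p] (hp : p ≠ 2) (h5 : 5 ≤ Fintype.card F) (g : Matrix.ProjectiveSpecialLinearGroup (Fin 2) F) :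
    orderOf g ≠ 2 * p := by
  obtain ⟨g, rfl⟩ := pr_surjective g
  have hpp : p.Prime := Fact.out
  have hq : p ∣ Nat.card F := by
    obtain ⟨n, -, hn⟩ := FiniteField.card F p
    rw [Nat.card_eq_fintype_card, hn]; exact dvd_pow_self p n.ne_zero
  have h1 : 1 < Nat.card F := Finite.one_lt_card
  have h2 := gcd_two_of_two_ne (two_ne_zero_of_charP (F := F) p hp)
  intro h
  rcases orderOf_pr_cases p g with ⟨-, H⟩ | ⟨-, -, H⟩ | ⟨-, H⟩ <;> rw [h] at H
  · have := Nat.le_of_dvd hpp.pos H
    have := hpp.pos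
    omega
  · have h3 : p ∣ Nat.card F - 1 :=
      ((Dvd.intro_left 2 rfl).trans H).trans (Nat.div_dvd_of_dvd (Nat.gcd_dvd_right _ _))
    have := (Nat.dvd_sub_iff_right h1.le hq).1 h3
    exact hpp.one_lt.ne' (Nat.dvd_one.1 this)
  · obtain ⟨k, hk⟩ := odd_card_of_two_ne (two_ne_zero_of_charP (F := F) p hp)
    have h3 : p ∣ Nat.card F + 1 :=
      ((Dvd.intro_left 2 rfl).trans H).trans (Nat.div_dvd_of_dvd (by rw [h2]; omega))
    have := (Nat.dvd_add_right hq).1 h3
    exact hpp.one_lt.ne' (Nat.dvd_one.1 this)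

end Cfsg.Agent.S2471
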