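import Cfsg.Statements.S2478
import Mathlib
import Cfsg.Agent.Class.FG.Linear
import Cfsg.Agent.S2387

set_option autoImplicit false
open Cfsg

namespace Cfsg.Agent.S2478

/-- The number of conjugacy classes of GL(n,q): for F a finite field with q elements and n ≥ 1, the number k of conjugacy classes of GL(n,F) satisfies q^n − q^(n−1) ≤ k ≤ q^n. -/
theorem result {F : Type*} [Field F] [Fintype F] (n : ℕ) (hn : 1 ≤ n) :
    Fintype.card F ^ n - Fintype.card F ^ (n - 1) ≤ Nat.card (ConjClasses (Matrix.GeneralLinearGroup (Fin n) F)) ∧ Nat.card (ConjClasses (Matrix.GeneralLinearGroup (Fin n) F)) ≤ Fintype.card F ^ n := by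
  obtain ⟨p, hp, -, hpp, -⟩ := FiniteField.card' F
  have := Fact.mk hpp
  have h1 : 1 ≤ Fintype.card F := Fintype.card_pos
  constructor
  · obtain ⟨m, rfl⟩ := Nat.exists_eq_add_of_le' hn
    rw [Nat.add_sub_cancel, pow_succ', ← Nat.sub_one_mul]
    exact (S2387.result rfl p (m + 1) hn).symm.le.trans (Finite.card_subtype_le _)
  · have h2 := Class.FG.card_conjClasses_GL_le (F := F) n
    have h3 := Class.FG.K_le_pow (Fintype.card F - 1) n
    rw [Nat.sub_add_cancel h1] at h3
    rw [Nat.card_eq_fintype_card (α := F)] at h2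
    exact h2.trans h3

end Cfsg.Agent.S2478
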