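import Cfsg.Statements.S2482
import Mathlib
import Cfsg.Agent.Class.FG.Slots
import Cfsg.Agent.Class.Wall.SpOdd
import Cfsg.Agent.S2385

set_option autoImplicit false
open Cfsg

namespace Cfsg.Agent.S2482

/-- The number of conjugacy classes of Sp(2n,q), q odd: for F a finite field of odd order q and n ≥ 1, the number k of conjugacy classes of Sp(2n,F) satisfies q^n ≤ k ≤ 10.8·q^n. -/
theorem result {F : Type*} [Field F] [Fintype F] (hodd : Odd (Fintype.card F)) (n : ℕ) (hn : 1 ≤ n) :
    Fintype.card F ^ n ≤ Nat.card (ConjClasses (Matrix.symplecticGroup (Fin n) F)) ∧ 5 * Nat.card (ConjClasses (Matrix.symplecticGroup (Fin n) F)) ≤ 54 * Fintype.card F ^ n := by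
  classical
  obtain ⟨p, hp, -, hpp, -⟩ := FiniteField.card' F
  have := Fact.mk hpp
  have h2 := Class.Orth.two_ne_zero_of_odd_card hodd
  have h3 : 3 ≤ Fintype.card F := by
    have := Fintype.one_lt_card (α := F)
    obtain ⟨k, hk⟩ := hodd
    omega
  have := Fintype.ofFinite (ConjClasses (Matrix.symplecticGroup (Fin n) F))
  refine ⟨S2385.result (F := F) rfl p n ▸ Finite.card_subtype_le _,
    le_trans (Nat.mul_le_mul_left _ ?_) (Class.FG.W_Sp_le h3 (2 * n) n)⟩
  rw [Nat.card_eq_fintype_card, ← Finset.card_univ, ← Nat.card_eq_fintype_card]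
  refine Class.FG.card_code_le h2 _
    (fun C => KSG.mdiv (Quotient.out C : Matrix.symplecticGroup (Fin n) F).1)
    (fun C c e => if Even e then Class.Wall.sg (Class.sympB n F) (Matrix.toLin' (Quotient.out C).1) c e
      else 1) (fun C _ => ?_) fun C _ D _ e h => Class.FG.eq_of_isConj_out
    ((Class.Wall.Sp_isConj_iff_sg h2).2 ⟨e, fun c i hc hi => by simpa only [if_pos hi] using h c i hc⟩)
  obtain ⟨a, b, c, d, e⟩ := Class.Wall.exists_Sp_mdiv_eq_iff.1 ⟨Quotient.out C, rfl⟩
  refine ⟨a, b, c, d, fun c i hc hi => e c i hc (Nat.not_even_iff_odd.1 hi), fun c i hc hi => ?_⟩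
  rw [ite_ne_right_iff] at hi
  exact ⟨hi.1, not_not.1 (mt (Class.Wall.sg_eq_one hc) hi.2)⟩

end Cfsg.Agent.S2482
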