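import Cfsg.Statements.S2483
import Cfsg.Agent.Lin.CovD

set_option autoImplicit false
open Cfsg

namespace Cfsg.Agent.S2483

open Cfsg.Agent.Lin Module Polynomial

section
variable {F : Type*} [Field F] {n : ℕ}

/-- special linear matrices as units of the endomorphism ring -/
noncomputable def th : Matrix.SpecialLinearGroup (Fin n) F →* (End F (Fin n → F))ˣ :=
  (Units.map (Matrix.toLinAlgEquiv' (R := F) (n := Fin n)).toRingEquiv.toMonoidHom).comp
    Matrix.SpecialLinearGroup.toGL

theorem th_val (A : Matrix.SpecialLinearGroup (Fin n) F) : (th A).1 = Matrix.toLin' A.1 := rfl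

theorem th_inj : Function.Injective (th (F := F) (n := n)) := fun _ _ h =>
  Subtype.ext (Matrix.toLin'.injective (congrArg Units.val h))

theorem dt_th (A : Matrix.SpecialLinearGroup (Fin n) F) : dt (th A) = 1 :=
  Units.ext (by simp [dt_val, th_val])

theorem th_surj {c : (End F (Fin n → F))ˣ} (h : dt c = 1) : ∃ A, th A = c :=
  ⟨⟨LinearMap.toMatrix' c.1, by simpa [dt_val] using congrArg Units.val h⟩,
    Units.ext (Matrix.toLin'_toMatrix' _)⟩

theorem mem_center_iff [NeZero n] {A : Matrix.SpecialLinearGroup (Fin n) F} :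
    A ∈ Subgroup.center _ ↔ ∃ a, th A = sc _ a := by
  refine ⟨fun h => ?_, fun ⟨a, h⟩ => Subgroup.mem_center_iff.2 fun B =>
    th_inj (by rw [map_mul, map_mul, h, sc_comm])⟩
  obtain ⟨r, h1, h2⟩ := Matrix.SpecialLinearGroup.mem_center_iff.1 h
  have h0 : r ≠ 0 := by rintro rfl; simp [NeZero.ne n] at h1
  exact ⟨Units.mk0 r h0, Units.ext ((congrArg Matrix.toLin' h2.symm).trans (by
    ext; simp [Pi.single_apply]))⟩

theorem exists_fun {X : Matrix.SpecialLinearGroup (Fin n) F} (k : ℕ) {M : (End F (Fin n → F))ˣ}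
    (h : Pr (th X) (List.replicate k 1) M) : ∃ f : Fin k → Matrix.SpecialLinearGroup (Fin n) F,
      th (List.ofFn fun i => f i * X * (f i)⁻¹).prod = M := by
  induction k generalizing M with
  | zero => exact ⟨Fin.elim0, by rw [show M = 1 from h]; simp⟩
  | succ k ih =>
    obtain ⟨c, N, h1, h2, rfl⟩ := h
    obtain ⟨c, rfl⟩ := th_surj h1
    obtain ⟨f, rfl⟩ := ih h2
    exact ⟨Fin.cons c f, by simp⟩

theorem exists_fix {V : Type*} [AddCommGroup V] [Module F V] [FiniteDimensional F V]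
    {x : (End F V)ˣ} (hx : R1 x) (k : ℕ) (f : Fin k → (End F V)ˣ) :
    ∃ S : Submodule F V, finrank F V ≤ finrank F S + k ∧
      ∀ v ∈ S, (List.ofFn fun i => f i * x * (f i)⁻¹).prod.1 v = v := by
  induction k with
  | zero => exact ⟨⊤, by simp, by simp⟩
  | succ k ih =>
    obtain ⟨S, h1, h2⟩ := ih fun i => f i.succ
    obtain ⟨θ, u, h⟩ := hx
    refine ⟨S ⊓ LinearMap.ker (θ ∘ₗ ((f 0)⁻¹).1), ?_, fun v hv => ?_⟩
    · by_cases h3 : ∃ w ∈ S, (θ ∘ₗ ((f 0)⁻¹).1) w ≠ 0
      · have := finrank_inf_ker h3.choose_spec.1 h3.choose_spec.2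
        omega
      · push Not at h3
        rw [inf_eq_left.2 h3]
        omega
    · rw [List.ofFn_succ, List.prod_cons, Units.val_mul, End.mul_apply, h2 v hv.1]
      simp [h, show θ (((f 0)⁻¹).1 v) = 0 from hv.2]

end

/-- The covering number of PSL(n,q) is n: let F be a finite field with q ≥ 4 elements and n ≥ 3. For every non-identity element x of PSL(n,F), every element of PSL(n,F) is a product of n conjugates of x; and for some non-identity x, some element is not a product of n − 1 conjugates of x. -/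
theorem result {F : Type*} [Field F] [Fintype F] (h4 : 4 ≤ Fintype.card F) (n : ℕ) (hn : 3 ≤ n) :
    (∀ x : Matrix.ProjectiveSpecialLinearGroup (Fin n) F, x ≠ 1 → ∀ g : Matrix.ProjectiveSpecialLinearGroup (Fin n) F, ∃ f : Fin n → Matrix.ProjectiveSpecialLinearGroup (Fin n) F, g = (List.ofFn fun i => f i * x * (f i)⁻¹).prod) ∧
    (∃ x : Matrix.ProjectiveSpecialLinearGroup (Fin n) F, x ≠ 1 ∧ ∃ g : Matrix.ProjectiveSpecialLinearGroup (Fin n) F, ∀ f : Fin (n - 1) → Matrix.ProjectiveSpecialLinearGroup (Fin n) F, g ≠ (List.ofFn fun i => f i * x * (f i)⁻¹).prod) := by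
  have : NeZero n := ⟨by omega⟩
  have hr : finrank F (Fin n → F) = n := by simp
  have hp : ∀ (k : ℕ) (X : Matrix.SpecialLinearGroup (Fin n) F)
      (f : Fin k → Matrix.SpecialLinearGroup (Fin n) F),
      (((List.ofFn fun i => f i * X * (f i)⁻¹).prod : Matrix.SpecialLinearGroup (Fin n) F) :
        Matrix.ProjectiveSpecialLinearGroup (Fin n) F) =
      (List.ofFn fun i => (f i : Matrix.ProjectiveSpecialLinearGroup (Fin n) F) * X * (f i)⁻¹).prod :=
    fun k X f => by
      rw [← QuotientGroup.mk'_apply, map_list_prod, List.map_ofFn]; rfl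
  constructor
  · intro x hx g
    obtain ⟨X, rfl⟩ := QuotientGroup.mk_surjective x
    obtain ⟨G, rfl⟩ := QuotientGroup.mk_surjective g
    have h1 : NS (th X) := by_contra fun h =>
      hx ((QuotientGroup.eq_one_iff _).2 (mem_center_iff.2 (eq_sc_of_not_NS h)))
    obtain ⟨h2, a, h3⟩ := cov h4 h1 (dt_th X) (hr.symm ▸ hn)
    rw [hr] at h2 h3
    by_cases h5 : NS (th G)
    · obtain ⟨f, hf⟩ := exists_fun n (h2 _ h5 (by simp [dt_th]) _ List.length_replicate)
      exact ⟨fun i => f i, by rw [← th_inj hf, hp]; rfl⟩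
    · obtain ⟨f, hf⟩ := exists_fun n h3
      refine ⟨fun i => f i, ((QuotientGroup.eq_one_iff _).2
        (mem_center_iff.2 (eq_sc_of_not_NS h5))).trans ?_⟩
      exact ((QuotientGroup.eq_one_iff _).2 (mem_center_iff.2 ⟨a, hf⟩)).symm.trans (hp _ _ _)
  · obtain ⟨m, rfl⟩ : ∃ m, n = m + 2 := ⟨n - 2, by omega⟩
    obtain ⟨X, hX⟩ := th_surj (c := dl (V := Fin (m + 2) → F) (LinearMap.proj 0) (Pi.single 1 1)
      (by simp)) (Units.ext (by simp [dt_dl]))
    obtain ⟨-, p, -, p1, p2, p3, p4⟩ := exists_rootless (monic_X_pow (R := F) (m + 2)) (by simp)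
      (c := (-1) ^ (m + 2)) (by simp)
    obtain ⟨E, -, e1⟩ := exists_cy (V := Fin (m + 2) → F) p1 (by simp [p2]) (by simp [p3])
    obtain ⟨G, rfl⟩ := th_surj (c := E) (Units.ext (by simp [dt_eq_coeff, e1, p3, ← mul_pow]))
    refine ⟨X, fun h => ?_, G, fun f h => ?_⟩
    · obtain ⟨a, ha⟩ := mem_center_iff.1 ((QuotientGroup.eq_one_iff _).1 h)
      simpa [dl_apply] using congrFun (LinearMap.congr_fun (congrArg Units.val (hX.symm.trans ha))
        (Pi.single 0 1)) 1
    choose f' hf using fun i => QuotientGroup.mk_surjective (f i)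
    obtain rfl : f = fun i => (f' i : Matrix.ProjectiveSpecialLinearGroup _ F) := (funext hf).symm
    obtain ⟨a, ha⟩ := mem_center_iff.1 (QuotientGroup.eq.1 (h.trans (hp _ _ _).symm).symm)
    obtain ⟨S, h1, h2⟩ := exists_fix (x := th X) (hX ▸ ⟨_, _, dl_apply _ _ _⟩) _ fun i => th (f' i)
    obtain ⟨v, hv, h0⟩ := S.exists_mem_ne_zero_of_ne_bot (by rintro rfl; simp at h1)
    rw [map_mul, map_inv, inv_mul_eq_iff_eq_mul, map_list_prod, List.map_ofFn] at ha
    refine p4 a (e1 ▸ (End.hasEigenvalue_iff_isRoot_charpoly _ _).1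
      (End.hasEigenvalue_of_hasEigenvector ⟨End.mem_eigenspace_iff.2 ?_, h0⟩))
    rw [ha, Units.val_mul, End.mul_apply, sc_apply, map_smul]
    exact congrArg _ (by simpa [Function.comp_def] using h2 v hv)

end Cfsg.Agent.S2483
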