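import Cfsg.Statements.S2485
import Cfsg.Agent.Class.PGL2Maximal
import Cfsg.Agent.Class.PGL2Torus

set_option autoImplicit false
open scoped Pointwise
open Cfsg

namespace Cfsg.Agent.S2485

section
open Matrix Subgroup Cfsg.Agent.KSG.M2 Cfsg.Agent.Class.Dickson
open scoped MatrixGroups Pointwise

variable {F : Type*} [Field F] [Fintype F]

local notation "M₂" => Matrix (Fin 2) (Fin 2) F

theorem cent_two {k : ℕ} (hk : Nat.card F + 1 = 2 ^ k) (h2 : (2 : F) ≠ 0) {A : GL (Fin 2) F}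
    (h0 : (A : M₂).trace = 0) (hA : NoEig (A : M₂)) : IsPGroup 2 (centralizer {pmk A}) := by
  have h1 := card_preimage_of_surjective (Matrix.ProjGenLinGroup.mk (n := Fin 2) (R := F))
    (fun g => (exists_pmk g).imp fun _ h => h.symm) (tor A)
  rw [← coe_comap, tor, comap_map_eq_self (fun g hg => mem_centralizer_singleton_iff.2
    (Units.ext (IsScal.comm ((pmk_eq_one_iff g).1 hg) _))), card_ker_pmk] at h1
  have h3 : 1 < Nat.card F := Finite.one_lt_card
  have h4 : Nat.card (tor A) = 2 ^ k := by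
    refine Nat.eq_of_mul_eq_mul_left (show 0 < Nat.card F - 1 by omega) ?_
    refine h1.symm.trans ((GL_card_centralizer_noEig hA).trans ?_)
    rw [mul_comm, ← hk, ← Nat.pow_two_sub_pow_two, one_pow]
  rintro ⟨g, hg⟩
  by_cases h : g ∈ tor A
  · exact ⟨k, Subtype.ext (show g ^ 2 ^ k = 1 from
      congrArg Subtype.val (show (⟨g, h⟩ : tor A) ^ 2 ^ k = 1 from h4 ▸ pow_card_eq_one'))⟩
  · exact ⟨1, Subtype.ext ((sq g).trans
      (mul_self_of_not_mem_tor h2 (mem_centralizer_singleton_iff.1 hg) h))⟩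

theorem exists_comm (h2 : (2 : F) ≠ 0) {A B : GL (Fin 2) F} (h0 : (A : M₂).trace = 0)
    (hA : NoEig (A : M₂)) (h1 : (B : M₂).trace = 0) :
    ∃ g, g ≠ 1 ∧ g * pmk A = pmk A * g ∧ g * pmk B = pmk B * g := by
  by_cases h : ((A : M₂) * B - B * A).det = 0
  · refine ⟨pmk A, pmk_ne_one_of_disc (disc_ne_of_trace h2 h0), rfl,
      comm_pmk_iff.2 (Or.inl (Units.ext ?_))⟩
    have k := fun c => hA c
    rw [trace_fin_two, ← eq_neg_iff_add_eq_zero] at h0 h1
    simp only [det_fin_two, trace_fin_two, Matrix.sub_apply, Matrix.mul_apply, Fin.sum_univ_two,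
      h0, h1] at h k
    have e : A 1 0 ≠ 0 := fun e => k (A 1 1) (by rw [e]; ring)
    have e1 : A 1 0 * B 1 1 = A 1 1 * B 1 0 := by
      by_contra ne
      refine k (A 1 1 - A 1 0 * (A 0 1 * B 1 0 - A 1 0 * B 0 1) / (2 * (A 1 0 * B 1 1 - A 1 1 * B 1 0))) ?_
      have := sub_ne_zero.2 ne
      field_simp
      linear_combination (-A 1 0 ^ 2) * h
    ext i j
    fin_cases i <;> fin_cases j <;> simp [Matrix.mul_apply, h0, h1] <;> grind
  have k : ∀ {X : GL (Fin 2) F}, (X : M₂).trace = 0 → ∀ Y : M₂, (X * Y - Y * X) * X = -(X * (X * Y - Y * X)) :=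
    fun {X} h Y => by
      have := sq_eq_trace_smul (X : M₂)
      rw [sub_mul, mul_sub, mul_assoc Y, ← mul_assoc (X : M₂), ← mul_assoc (X : M₂), this, h]; simp [add_comm, sub_eq_add_neg]
  refine ⟨pmk (GeneralLinearGroup.mkOfDetNeZero _ h), pmk_ne_one_of_disc (disc_ne_of_trace h2 (by
    simp [trace_mul_comm (A : M₂)])), comm_pmk_iff.2 (Or.inr ⟨h0, k h0 _⟩),
    comm_pmk_iff.2 (Or.inr ⟨h1, ?_⟩)⟩
  have := congrArg Neg.neg (k h1 A)
  rwa [← neg_mul, ← mul_neg, neg_sub] at this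

theorem main {k : ℕ} (hk : Nat.card F + 1 = 2 ^ k) (h4 : 4 ∣ 2 ^ k) (P Q : Sylow 2 PGL(2, F)) :
    (P : Subgroup PGL(2, F)) ⊓ Q ≠ ⊥ := by
  have h3 : Fintype.card F % 4 = 3 := by rw [← Nat.card_eq_fintype_card]; omega
  have h2 : (2 : F) ≠ 0 := two_ne_zero_of_odd_card (Nat.odd_iff.2 (by omega))
  let A := SpecialLinearGroup.toGL (cmp (0 : F))
  have h0 : (A : M₂).trace = 0 := trace_cmp 0
  have hA : NoEig (A : M₂) := fun c e => FiniteField.isSquare_neg_one_iff.not_left.2 h3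
    ⟨c, by simp [A, trace_fin_two] at e; linear_combination -e⟩
  obtain ⟨R, hR⟩ := (cent_two hk h2 h0 hA).exists_le_sylow
  have k : ∀ P : Sylow 2 PGL(2, F), ∃ B : GL (Fin 2) F, (B : M₂).trace = 0 ∧ NoEig (B : M₂) ∧
      ∀ g, g * pmk B = pmk B * g → g ∈ P := fun P => by
    obtain ⟨c, rfl⟩ := MulAction.exists_smul_eq PGL(2, F) R P
    obtain ⟨C, rfl⟩ := exists_pmk c
    refine ⟨C * A * C⁻¹, by rw [trace_conj_GL, h0], fun c => by
      rw [trace_conj_GL, det_conj_GL]; exact hA c, fun g hg => ?_⟩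
    refine (mem_pointwise_smul_iff_inv_smul_mem (a := MulAut.conj (pmk C))).2
      (hR (mem_centralizer_singleton_iff.2 ?_))
    simp only [map_mul, map_inv] at hg
    simpa [mul_assoc] using congrArg (fun x => (pmk C)⁻¹ * x * pmk C) hg
  obtain ⟨A, a1, a2, a3⟩ := k P
  obtain ⟨B, b1, -, b3⟩ := k Q
  obtain ⟨g, g1, g2, g3⟩ := exists_comm h2 a1 a2 b1
  exact fun e => g1 (mem_bot.1 (e ▸ ⟨a3 g g2, b3 g g3⟩))

end

open scoped Pointwise in
/-- Let q = 2^k − 1 ≥ 7 be a prime and let G = PGL(2,q), the general linear group of degree 2 over the field with q elements modulo its centre. Then any two Sylow 2-subgroups of G have a non-trivial intersection: for a Sylow 2-subgroup H and every x ∈ G, H ∩ H^x ≠ 1. -/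
theorem result {q k : ℕ} [Fact q.Prime] (hk : q + 1 = 2 ^ k) (hq : 7 ≤ q)
    (H : Sylow 2 (GL (Fin 2) (ZMod q) ⧸ Subgroup.center (GL (Fin 2) (ZMod q))))
    (x : GL (Fin 2) (ZMod q) ⧸ Subgroup.center (GL (Fin 2) (ZMod q))) :
    (H : Subgroup (GL (Fin 2) (ZMod q) ⧸ Subgroup.center (GL (Fin 2) (ZMod q)))) ⊓ MulAut.conj x • (H : Subgroup _) ≠ ⊥ := by
  exact main (F := ZMod q) (k := k) (by rw [Nat.card_zmod, hk]) (pow_dvd_pow 2 (show 2 ≤ k by
    by_contra! h
    interval_cases k <;> omega)) H (x • H)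

end Cfsg.Agent.S2485
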