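import Cfsg.Statements.S2486
import Cfsg.Agent.KSG.GLBN

set_option autoImplicit false
open scoped Pointwise
open Cfsg

namespace Cfsg.Agent.S2486

open Matrix _root_.Cfsg.Agent.KSG _root_.Cfsg.Agent.KSG.GLn

theorem zmod2 : ∀ a : ZMod 2, a ≠ 0 → a = 1 := by decide

theorem blk_le_rad {m : ℕ} : blk (ZMod 2) (id : Fin m → Fin m) ≤ rad (ZMod 2) id := by
  intro g hg
  rw [mem_rad]
  intro k l h
  rcases lt_or_eq_of_le h with h | h
  · rw [mem_blk.1 hg k l h, Matrix.one_apply_ne (show k ≠ l from ne_of_gt h)]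
  · obtain rfl : l = k := h
    rw [Matrix.one_apply_eq]
    apply zmod2
    have h1 : (g : Matrix (Fin m) (Fin m) (ZMod 2)).det ≠ 0 := g.det_ne_zero
    rw [Matrix.det_of_upperTriangular hg] at h1
    exact Finset.prod_ne_zero_iff.1 h1 l (Finset.mem_univ _)

theorem key (m : ℕ) : ∃ S : Sylow 2 (GL (Fin (m + 1)) (ZMod 2)), ∃ w, ∀ g,
    (∀ y ∈ S, g⁻¹ * y * g ∈ S → y = 1) → ∃ b ∈ S, ∃ b' ∈ S, g = b * w * b' := by
  obtain ⟨S, hS⟩ := (glSplit m (ZMod 2) 2).exists_sylow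
  have hS' : (S : Subgroup (GL (Fin (m + 1)) (ZMod 2))) = blk (ZMod 2) id :=
    hS.trans (le_antisymm (rad_le_blk _) blk_le_rad)
  have hm : ∀ y, y ∈ S ↔ y ∈ blk (ZMod 2) (id : Fin (m + 1) → Fin (m + 1)) := fun y => by
    rw [← hS']; rfl
  refine ⟨S, pm _ Fin.revPerm, fun g hg => ?_⟩
  obtain ⟨b, hb, w, b', hb', rfl⟩ := exists_bruhat_GL g
  have hb1 : b ∈ S := (hm b).2 hb
  have hb2 : b' ∈ S := (hm b').2 hb'
  refine ⟨b, hb1, b', hb2, ?_⟩
  have hw : StrictAnti w := by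
    intro i j hij
    by_contra hlt
    have hlt' : w i < w j := lt_of_le_of_ne (not_lt.1 hlt) (w.injective.ne hij.ne)
    have t1 : tr hlt'.ne (1 : ZMod 2) ∈ S := by
      rw [hm, mem_blk]
      intro k l h
      rw [tr_apply, Matrix.one_apply_ne (show k ≠ l from ne_of_gt h), if_neg, add_zero]
      rintro ⟨rfl, rfl⟩
      exact lt_asymm h hlt'
    have t2 : (pm _ w)⁻¹ * tr hlt'.ne (1 : ZMod 2) * pm _ w ∈ S := by
      rw [hm, mem_blk]
      intro k l h
      rw [conj_pm_apply, tr_apply, Matrix.one_apply_ne (w.injective.ne (show k ≠ l from ne_of_gt h)), if_neg,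
        add_zero]
      rintro ⟨h1, h2⟩
      rw [w.injective h1, w.injective h2] at hij
      exact lt_asymm h hij
    have t3 := hg (b * tr hlt'.ne (1 : ZMod 2) * b⁻¹) (mul_mem (mul_mem hb1 t1) (inv_mem hb1)) (by
      convert mul_mem (mul_mem (inv_mem hb2) t2) hb2 using 1
      group)
    have t4 : tr hlt'.ne (1 : ZMod 2) = 1 := by
      rw [mul_inv_eq_one, mul_eq_left] at t3
      exact t3
    have t5 := tr_apply hlt'.ne (1 : ZMod 2) (w i) (w j)
    rw [t4] at t5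
    simp at t5
  have hw' : StrictMono (w * Fin.revPerm : Equiv.Perm _) := fun i j h => hw (Fin.rev_lt_rev.2 h)
  have : w * Fin.revPerm = 1 := eq_one_of_forall_le fun j => hw'.apply_le
  rw [mul_eq_one_iff_eq_inv.1 this]
  rfl

theorem main {G L : Type*} [Group G] [Finite G] [Group L] (φ : L →* G) (hφ : Function.Injective φ)
    (N : Subgroup G) [hN : N.Normal] (hr : φ.range = N) (hidx : N.index = 2) (S : Sylow 2 L) (w : L)
    (hw : ∀ g, (∀ y ∈ S, g⁻¹ * y * g ∈ S → y = 1) → ∃ b ∈ S, ∃ b' ∈ S, g = b * w * b') :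
    ∃ H : Sylow 2 G, ∀ g : G, ∃ z ∈ H, z ≠ 1 ∧ g⁻¹ * z * g ∈ H := by
  obtain ⟨H, hH⟩ := (S.isPGroup'.map φ).exists_le_sylow
  have hS : ∀ y, φ y ∈ H ↔ y ∈ S := fun y => by
    have := S.is_maximal' (H.isPGroup'.comap_of_injective φ hφ) (Subgroup.map_le_iff_le_comap.1 hH)
    change y ∈ (H : Subgroup G).comap φ ↔ y ∈ (S : Subgroup L)
    rw [this]
  obtain ⟨t, ht, htN⟩ : ∃ t ∈ H, t ∉ N := by
    by_contra h
    push Not at h
    have h2 := Subgroup.index_dvd_of_le (show (H : Subgroup G) ≤ N from h)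
    rw [hidx] at h2
    exact H.not_dvd_index h2
  have hmem : ∀ g ∈ N, ∃ m, φ m = g := fun g hg => by rw [← hr] at hg; exact hg
  have hin : ∀ m, φ m ∈ N := fun m => hr ▸ ⟨m, rfl⟩
  have h1 : ∀ m, ∃ z ∈ H, z ≠ 1 ∧ (φ m)⁻¹ * z * φ m ∈ H := by
    intro m
    by_contra h
    push Not at h
    have h' : ∀ z ∈ H, (φ m)⁻¹ * z * φ m ∈ H → z = 1 := fun z hz h2 => by
      by_contra h3; exact h z hz h3 h2
    obtain ⟨b, hb, b', hb', rfl⟩ := hw m fun y hy h2 => hφ (by
      rw [map_one]; exact h' _ ((hS y).2 hy) (by simpa using (hS _).2 h2))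
    have h'' : ∀ z ∈ H, (φ w)⁻¹ * z * φ w ∈ H → z = 1 := fun z hz h2 => by
      have := h' (φ b * z * (φ b)⁻¹) (mul_mem (mul_mem ((hS b).2 hb) hz) (inv_mem ((hS b).2 hb))) (by
        convert mul_mem (mul_mem (inv_mem ((hS b').2 hb')) h2) ((hS b').2 hb') using 1
        simp only [map_mul]; group)
      rwa [mul_inv_eq_one, mul_eq_left] at this
    obtain ⟨m', hm'⟩ := hmem _ (hN.conj_mem _ (hin w) t)
    obtain ⟨c, hc, c', hc', rfl⟩ := hw m' fun y hy h2 => hφ (by
      have := h'' (t⁻¹ * φ y * t) (mul_mem (mul_mem (inv_mem ht) ((hS y).2 hy)) ht) (by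
        convert mul_mem (mul_mem (inv_mem ht) ((hS _).2 h2)) ht using 1
        simp only [map_mul, map_inv, hm']; group)
      rw [map_one]
      calc φ y = t * (t⁻¹ * φ y * t) * t⁻¹ := by group
        _ = 1 := by rw [this]; group)
    have := h'' ((φ c)⁻¹ * t) (mul_mem (inv_mem ((hS c).2 hc)) ht) (by
      convert mul_mem ((hS c').2 hc') ht using 1
      simp only [map_mul] at hm'
      calc (φ w)⁻¹ * ((φ c)⁻¹ * t) * φ w = (φ w)⁻¹ * (φ c)⁻¹ * (t * φ w * t⁻¹) * t := by group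
        _ = _ := by rw [← hm']; group)
    rw [inv_mul_eq_one] at this
    exact htN (this ▸ hin c)
  refine ⟨H, fun g => ?_⟩
  by_cases hg : g ∈ N
  · obtain ⟨m, rfl⟩ := hmem g hg
    exact h1 m
  · obtain ⟨m, hm⟩ := hmem (g * t⁻¹)
      ((Subgroup.mul_mem_iff_of_index_two hidx).2 (by simp [hg, htN]))
    obtain ⟨z, hz, hz1, hz2⟩ := h1 m
    refine ⟨z, hz, hz1, ?_⟩
    convert mul_mem (mul_mem (inv_mem ht) hz2) ht using 1
    rw [hm]; group

/-- Let n ≥ 4 and let G be a finite group with a normal subgroup N of index 2 isomorphic to SL(n,2) and with trivial centralizer in G (so G is the extension of the simple group L_n(2) by its inverse-transpose automorphism, its full automorphism group). Then any two Sylow 2-subgroups of G have a non-trivial intersection: for a Sylow 2-subgroup H and every x ∈ G, H ∩ H^x ≠ 1. -/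
theorem result {G : Type*} [Group G] [Finite G] {n : ℕ} (hn : 4 ≤ n) (N : Subgroup G) [N.Normal]
    (e : N ≃* Matrix.SpecialLinearGroup (Fin n) (ZMod 2)) (hidx : N.index = 2)
    (hC : Subgroup.centralizer (N : Set G) = ⊥)
    (H : Sylow 2 G) (x : G) :
    (H : Subgroup G) ⊓ MulAut.conj x • (H : Subgroup G) ≠ ⊥ := by
  obtain ⟨m, rfl⟩ : ∃ m, n = m + 1 := ⟨n - 1, by omega⟩
  obtain ⟨S, w, hw⟩ := key m
  have hb : Function.Bijective (Matrix.SpecialLinearGroup.toGL :
      Matrix.SpecialLinearGroup (Fin (m + 1)) (ZMod 2) →* GL (Fin (m + 1)) (ZMod 2)) :=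
    ⟨Matrix.SpecialLinearGroup.toGL_injective, fun g =>
      ⟨⟨g.1, zmod2 _ g.det_ne_zero⟩, Units.ext rfl⟩⟩
  let e' := e.trans (MulEquiv.ofBijective _ hb)
  obtain ⟨H0, h0⟩ := main (N.subtype.comp e'.symm.toMonoidHom)
    (N.subtype_injective.comp e'.symm.injective) N (by
      rw [MonoidHom.range_comp, MonoidHom.range_eq_top.2 e'.symm.surjective, ← MonoidHom.range_eq_map,
        Subgroup.range_subtype]) hidx S w hw
  obtain ⟨c, rfl⟩ := MulAction.exists_smul_eq G H0 H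
  obtain ⟨z, hz, hz1, hz2⟩ := h0 (c⁻¹ * x * c)
  intro h
  have : c * z * c⁻¹ ∈ ((c • H0 : Sylow 2 G) : Subgroup G) ⊓
      MulAut.conj x • ((c • H0 : Sylow 2 G) : Subgroup G) := by
    rw [Sylow.coe_subgroup_smul, Subgroup.mem_inf, Subgroup.mem_pointwise_smul_iff_inv_smul_mem,
      Subgroup.mem_pointwise_smul_iff_inv_smul_mem, Subgroup.mem_pointwise_smul_iff_inv_smul_mem]
    simp only [MulAut.smul_def, ← map_inv, MulAut.conj_apply]
    constructor
    · convert (show z ∈ (H0 : Subgroup G) from hz) using 1; group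
    · convert (show _ ∈ (H0 : Subgroup G) from hz2) using 1; group
  rw [h, Subgroup.mem_bot, mul_inv_eq_one, mul_eq_left] at this
  exact hz1 this

end Cfsg.Agent.S2486
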