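import Cfsg.Statements.S2487
import Cfsg.Agent.Class.Orth.Levi

set_option autoImplicit false
open scoped Pointwise
open Cfsg

namespace Cfsg.Agent.S2487

open Class.Orth QuadraticMap Module

section
variable {F V : Type*} [Field F] [AddCommGroup V] [Module F V] {Q : QuadraticForm F V}
  [FiniteDimensional F V]

theorem exists_common_fixer (hQ : ND Q) (U : Submodule F V) (hU : finrank F U + 2 ≤ finrank F V) :
    ∃ g ∈ fixer Q U, g ≠ 1 := by
  have hd := hQ.finrank_perp U
  by_cases h : ∃ v ∈ perp Q U, Q v ≠ 0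
  · obtain ⟨v, hv, hv0⟩ := h
    refine ⟨refl Q v, refl_mem_fixer hv, fun h => ?_⟩
    obtain ⟨x, hx⟩ := hQ.exists_polar_ne (ne_zero_of_Q_ne_zero hv0)
    have : (refl Q v).1 x = x := by rw [h]; rfl
    rw [refl_apply, sub_eq_self, polar_comm] at this
    exact smul_ne_zero (mul_ne_zero (inv_ne_zero hv0) hx) (ne_zero_of_Q_ne_zero hv0) this
  · push Not at h
    obtain ⟨b, hb⟩ := exists_linearIndependent_of_le_finrank (R := F) (M := perp Q U) (n := 2)
      (by omega)
    have hb' := hb.map' _ (Submodule.ker_subtype (perp Q U))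
    refine ⟨eichler Q (b 0) (b 1), eichler_mem_fixer (b 0).2 (b 1).2, fun h1 => ?_⟩
    obtain ⟨x, hx⟩ := hQ.exists_polar_eq (x := (b 0 : V)) (hb'.ne_zero 0) 1
    have : (eichler Q (b 0 : V) (b 1)).1 x = x := by rw [h1]; rfl
    rw [eichler_apply (h _ (b 0).2) (TS.polar_eq h (b 0).2 (b 1).2), polar_comm Q x (b 0), hx,
      add_sub_assoc, add_eq_left, sub_eq_add_neg, ← neg_smul] at this
    have h3 : LinearIndependent F ![(b 0 : V), b 1] := by
      have : ![(b 0 : V), b 1] = (perp Q U).subtype ∘ b := by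
        funext i; fin_cases i <;> rfl
      rwa [this]
    exact one_ne_zero (neg_eq_zero.1 (LinearIndependent.pair_iff.1 h3 _ _ this).2)

theorem pow_eight_eq_one (hQ : ND Q) (h01 : ∀ a : F, a = 0 ∨ a = 1) {E : Submodule F V}
    (hE : TS Q E) (hd : finrank F V = 2 * finrank F E) {e f : V} (he : e ∈ E) (hef : IsHyp Q e f)
    {g : OG Q} (hg : g ∈ fixer Q (E ⊓ LinearMap.ker (polarBilin Q f))) : g ^ 8 = 1 := by
  set U := E ⊓ LinearMap.ker (polarBilin Q f) with hU
  have h2 : (2 : F) = 0 := by
    rcases h01 2 with h | h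
    · exact h
    · exact absurd (show (1 : F) = 0 by linear_combination h) one_ne_zero
  have hEp : perp Q E = E := (Submodule.eq_of_le_of_finrank_eq (hE.le_perp le_rfl)
    (by have := hQ.finrank_perp E; omega)).symm
  have heU : e ∈ perp Q U := hE.le_perp inf_le_left he
  have hfU : f ∈ perp Q U := fun u hu => by rw [polar_comm]; exact hu.2
  have hdec : ∀ x ∈ perp Q U, hproj Q e f x ∈ U := fun x hx => by
    have h1 := mem_perp2.1 (hef.hproj_mem x)
    refine ⟨hEp ▸ fun z hz => ?_, h1.2⟩
    have h3 : z - polar Q f z • e ∈ U := ⟨E.sub_mem hz (E.smul_mem _ he), by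
      show polar Q f _ = 0
      rw [polar_sub_right, polar_smul_right', hef.pol']; ring⟩
    have h4 := hproj_mem_of_mem (Q := Q) heU hfU hx _ h3
    rwa [polar_sub_left, polar_smul_left', h1.1, mul_zero, sub_zero] at h4
  have hQU : ∀ x ∈ perp Q U, Q x = polar Q x f * polar Q x e := fun x hx => by
    rw [hef.Q_hproj, hE _ (hdec x hx).1, add_zero]
  have hpU : ∀ x ∈ perp Q U, ∀ y ∈ perp Q U,
      polar Q x y = polar Q x f * polar Q y e + polar Q x e * polar Q y f := fun x hx y hy => by
    simp only [polar.eq_1 Q x y, hQU x hx, hQU y hy, hQU _ ((perp Q U).add_mem hx hy),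
      polar_add_left]
    ring
  have hge := fixer_map_perp hg heU
  have hgf := fixer_map_perp hg hfU
  have q1 := hQU _ hge
  have q2 := hQU _ hgf
  have q3 := hpU _ hge _ hgf
  rw [OG.map_Q, hef.left] at q1
  rw [OG.map_Q, hef.right] at q2
  rw [OG.map_polar, hef.pol] at q3
  have hcong : ∀ x ∈ perp Q U, g.1 x - (polar Q x f • g.1 e + polar Q x e • g.1 f) ∈ U :=
    fun x hx => by
      have h1 := hdec x hx
      rw [← hg _ h1, hproj, map_sub, map_sub, map_smul, map_smul, sub_sub] at h1
      exact h1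
  have hsq : ∀ x ∈ perp Q U, g.1 (g.1 x) - x ∈ U := by
    have a1 := hcong _ hge
    have a2 := hcong _ hgf
    have a3 := hdec _ hge
    have a4 := hdec _ hgf
    simp only [hproj] at a3 a4
    have b : g.1 (g.1 e) - e ∈ U ∧ g.1 (g.1 f) - f ∈ U := by
      rcases h01 (polar Q (g.1 e) f) with h1 | h1 <;> rcases h01 (polar Q (g.1 e) e) with h3 | h3 <;>
        rcases h01 (polar Q (g.1 f) f) with h4 | h4 <;>
        rcases h01 (polar Q (g.1 f) e) with h5 | h5 <;>
        simp only [h1, h3, h4, h5, mul_zero, mul_one, zero_add, add_zero, one_ne_zero, zero_ne_one,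
          zero_smul, one_smul, sub_zero] at q1 q2 q3 a1 a2 a3 a4
      · exact ⟨by simpa using U.add_mem a1 a4, by simpa using U.add_mem a2 a3⟩
      · exact ⟨by simpa using U.add_mem a1 a3, by simpa using U.add_mem a2 a4⟩
    intro x hx
    have h1 := hdec x hx
    have h3 : g.1 (g.1 x) - x =
        polar Q x f • (g.1 (g.1 e) - e) + polar Q x e • (g.1 (g.1 f) - f) := by
      conv_lhs => rw [← hproj_add e f x (Q := Q)]
      simp only [map_add, map_smul, hg _ h1, smul_sub]
      abel
    rw [h3]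
    exact U.add_mem (U.smul_mem _ b.1) (U.smul_mem _ b.2)
  have hg2 : g * g ∈ fixer Q U := mul_mem hg hg
  let N : End F V := ((g * g).1 : End F V) - 1
  have hN : ∀ x, N x = (g * g).1 x - x := fun _ => rfl
  have hN3 : ∀ x, N (N (N x)) = 0 := fun x => by
    have h1 : N x ∈ perp Q U := fun u hu => by
      rw [hN, ← neg_sub, polar_neg_right, polar_fix_mov _ (hg2 u hu), neg_zero]
    have h3 : N (N x) ∈ U := hsq _ h1
    rw [hN, hg2 _ h3, sub_self]
  have hxx : ∀ x : V, x + x = 0 := fun x => by rw [← two_smul F x, h2, zero_smul]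
  have hG : ∀ x, (g * g).1 x = x + N x := fun x => by rw [hN]; abel
  refine OG.ext fun x => ?_
  have e8 : g ^ 8 = (g * g) * ((g * g) * ((g * g) * (g * g))) := by
    simp only [pow_succ, pow_zero, one_mul, mul_assoc]
  have h4 : ∀ y, (g * g).1 ((g * g).1 y) = y + N (N y) := fun y => by
    rw [hG, hG y, map_add, add_assoc, ← add_assoc (N y), hxx, zero_add]
  rw [e8, OG.mul_apply (g * g), OG.mul_apply (g * g), OG.mul_apply (g * g), h4, h4, map_add, map_add, hN3,
    add_zero, add_assoc, hxx, add_zero, OG.one_apply]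

end


/-- Let m ≥ 4 and let G be the full isometry group of the hyperbolic quadratic form x₁y₁ + ⋯ + x_m y_m on the 2m-dimensional space over the field with 2 elements (the orthogonal group O⁺(2m,2), which contains Ω⁺(2m,2) with index 2). Then any two Sylow 2-subgroups of G have a non-trivial intersection: for a Sylow 2-subgroup H and every x ∈ G, H ∩ H^x ≠ 1. -/
theorem result {F : Type*} [Field F] [Fintype F] (hF : Fintype.card F = 2) {m : ℕ} (hm : 4 ≤ m)
    (H : Sylow 2 (Cfsg.isometryGroup F (Cfsg.quadFormPlus m F)))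
    (x : Cfsg.isometryGroup F (Cfsg.quadFormPlus m F)) :
    (H : Subgroup (Cfsg.isometryGroup F (Cfsg.quadFormPlus m F))) ⊓ MulAut.conj x • (H : Subgroup _) ≠ ⊥ := by
  have hQ := nd_plusQF m F
  have h01 : ∀ a : F, a = 0 ∨ a = 1 := fun a => by
    by_contra hc
    push Not at hc
    have := Fintype.two_lt_card_iff.2 ⟨a, 0, 1, hc.1, hc.2, zero_ne_one⟩
    omega
  let i : Fin m := ⟨0, by omega⟩
  have hef := isHyp_plus (F := F) i
  have he : (Pi.single (.inl i) 1 : Fin m ⊕ Fin m → F) ∈ stdU m F := mem_stdU.2 (by simp)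
  set U := stdU m F ⊓ LinearMap.ker (polarBilin (plusQF m F) (Pi.single (.inr i) 1)) with hU
  have hdU : finrank F U < m := by
    conv_rhs => rw [← finrank_stdU (F := F) (m := m)]
    refine Submodule.finrank_lt_finrank_of_lt (lt_of_le_of_ne inf_le_left fun h => ?_)
    rw [← h] at he
    have : polar (plusQF m F) _ _ = 0 := he.2
    rw [hef.pol'] at this
    exact one_ne_zero this
  let e := plusEquiv m F
  have hP : IsPGroup 2 ((fixer (plusQF m F) U).comap e.toMonoidHom) := fun g => ⟨3, by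
    apply Subtype.ext
    apply e.injective
    rw [Subgroup.coe_pow, map_pow, OneMemClass.coe_one, map_one]
    exact pow_eight_eq_one hQ h01 ts_stdU (by rw [finrank_plus_space, finrank_stdU]) he hef g.2⟩
  obtain ⟨H₀, hH₀⟩ := hP.exists_le_sylow
  have : Finite (isometryGroup F (quadFormPlus m F)) := inferInstance
  have key : ∀ K : Sylow 2 (isometryGroup F (quadFormPlus m F)), ∃ y : OG (plusQF m F),
      ∀ g, e g ∈ fixer _ (omap y U) → g ∈ K := fun K => by
    obtain ⟨z, rfl⟩ := MulAction.exists_smul_eq (isometryGroup F (quadFormPlus m F)) H₀ K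
    refine ⟨e z, fun g hg => ?_⟩
    have h1 : z⁻¹ * g * z ∈ H₀ := hH₀ fun u hu => by
      show (e (z⁻¹ * g * z)).1 u = u
      rw [map_mul, map_mul, OG.mul_apply, OG.mul_apply, hg ((e z).1 u) ⟨u, hu, rfl⟩, map_inv,
        OG.inv_apply_apply]
    rw [← SetLike.mem_coe, Sylow.coe_smul, Set.mem_smul_set]
    exact ⟨_, h1, by simp [mul_assoc]⟩
  obtain ⟨y, hy⟩ := key H
  obtain ⟨y', hy'⟩ := key (x • H)
  obtain ⟨g, hg, hg1⟩ := exists_common_fixer hQ (omap y U ⊔ omap y' U) (by
    have h1 := Submodule.finrank_sup_add_finrank_inf_eq (omap y U) (omap y' U)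
    rw [finrank_omap, finrank_omap] at h1
    rw [finrank_plus_space]
    omega)
  obtain ⟨g, rfl⟩ := e.surjective g
  intro h
  have : g ∈ (H : Subgroup _) ⊓ MulAut.conj x • (H : Subgroup _) :=
    ⟨hy g fun u hu => hg u (Submodule.mem_sup_left hu),
      hy' g fun u hu => hg u (Submodule.mem_sup_right hu)⟩
  rw [h, Subgroup.mem_bot] at this
  exact hg1 (by rw [this, map_one])

end Cfsg.Agent.S2487
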