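import Cfsg.Statements.S2488
import Cfsg.Agent.S0065
-- import your own Cfsg.Agent.* helpers here

set_option autoImplicit false
open scoped Pointwise
open Cfsg

namespace Cfsg.Agent.S2488

open Equiv Equiv.Perm

def z0 : Perm (Fin 6) := swap 0 1 * swap 2 3

theorem c1 : (Finset.univ.filter fun w : Perm (Fin 6) => w * z0 = z0 * w ∧ sign w = 1).card ≤ 8 := by
  decide +kernel

theorem c2 : (Finset.univ.filter fun w : Perm (Fin 6) =>
    w * w = 1 ∧ (z0 * w) ^ 5 = 1 ∧ sign w = 1).card < 32 := by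
  decide +kernel

theorem c3 : (Finset.univ.filter fun w : Perm (Fin 6) =>
    w * w = 1 ∧ (z0 * w) ^ 5 ≠ 1 ∧ sign w = 1).card < 32 := by
  decide +kernel

theorem conj_z0 (z : Perm (Fin 6)) (hs : sign z = 1) (h2 : z * z = 1) (h1 : z ≠ 1) :
    ∃ π : Perm (Fin 6), π * z * π⁻¹ = z0 := by
  have : Fact (Nat.Prime 2) := ⟨Nat.prime_two⟩
  rw [← isConj_iff, isConj_iff_cycleType_eq]
  have hz0 : z0.cycleType = Multiset.replicate 2 2 := by decide +kernel
  have h := cycleType_of_pow_prime_eq_one (σ := z) (p := 2) (by rw [pow_two, h2])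
  have hle := sum_cycleType_le z
  have hsg := sign_of_cycleType z
  have hne : z.cycleType.card ≠ 0 := by
    intro h0
    exact h1 (cycleType_eq_zero.1 (Multiset.card_eq_zero.1 h0))
  rw [hz0]
  generalize z.cycleType.card = k at *
  rw [h, Multiset.sum_replicate, smul_eq_mul] at hle hsg
  rw [Fintype.card_fin] at hle
  rw [hs] at hsg
  have hk : k = 1 ∨ k = 2 ∨ k = 3 := by omega
  rcases hk with rfl | rfl | rfl
  · exact absurd hsg (by decide)
  · exact h
  · exact absurd hsg (by decide)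

theorem bound {α : Type*} [Finite α] (z : Perm (Fin 6)) (hs : sign z = 1) (h2 : z * z = 1)
    (h1 : z ≠ 1) (f : α → Perm (Fin 6)) (hf : Function.Injective f) (hsg : ∀ a, sign (f a) = 1) :
    ((∀ a, f a * z = z * f a) → Nat.card α ≤ 8) ∧
    ((∀ a, f a * f a = 1 ∧ (z * f a) ^ 5 = 1) → Nat.card α < 32) ∧
    ((∀ a, f a * f a = 1 ∧ (z * f a) ^ 5 ≠ 1) → Nat.card α < 32) := by
  classical
  obtain ⟨π, hπ⟩ := conj_z0 z hs h2 h1
  let c := MulAut.conj π
  have hc : c z = z0 := hπ
  have key : ∀ s : Finset (Perm (Fin 6)), (∀ a, c (f a) ∈ s) → Nat.card α ≤ s.card := by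
    intro s hs
    rw [← Fintype.card_coe s, ← Nat.card_eq_fintype_card]
    refine Nat.card_le_card_of_injective (fun a => (⟨c (f a), hs a⟩ : s)) ?_
    intro a b h
    exact hf (c.injective (congrArg Subtype.val h))
  have hsc : ∀ a, sign (c (f a)) = 1 := by
    intro a
    simp [c, hsg a]
  refine ⟨fun h => (key _ fun a => ?_).trans c1, fun h => (key _ fun a => ?_).trans_lt c2,
    fun h => (key _ fun a => ?_).trans_lt c3⟩
  · simp only [Finset.mem_filter, Finset.mem_univ, true_and]
    exact ⟨by rw [← hc, ← map_mul, ← map_mul, h], hsc a⟩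
  · simp only [Finset.mem_filter, Finset.mem_univ, true_and]
    exact ⟨by rw [← map_mul, (h a).1, map_one],
      by rw [← hc, ← map_mul, ← map_pow, (h a).2, map_one], hsc a⟩
  · simp only [Finset.mem_filter, Finset.mem_univ, true_and]
    refine ⟨by rw [← map_mul, (h a).1, map_one], ?_, hsc a⟩
    rw [← hc, ← map_mul, ← map_pow]
    intro h3
    exact (h a).2 (c.injective (h3.trans (map_one c).symm))

/-- Let G be a finite group with a normal subgroup N of index 4 isomorphic to the alternating group of degree 6 and with trivial centralizer in G (so G is the full automorphism group of A₆). Then any two Sylow 2-subgroups of G have a non-trivial intersection: for a Sylow 2-subgroup H and every x ∈ G, H ∩ H^x ≠ 1. -/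
theorem result {G : Type*} [Group G] [Finite G] (N : Subgroup G) [N.Normal]
    (e : N ≃* alternatingGroup (Fin 6)) (hidx : N.index = 4)
    (hC : Subgroup.centralizer (N : Set G) = ⊥)
    (H : Sylow 2 G) (x : G) :
    (H : Subgroup G) ⊓ MulAut.conj x • (H : Subgroup G) ≠ ⊥ := by
  classical
  have : Fact (Nat.Prime 2) := ⟨Nat.prime_two⟩
  have hA : Nat.card (alternatingGroup (Fin 6)) = 360 := by
    have := two_mul_nat_card_alternatingGroup (α := Fin 6)
    rw [Nat.card_perm, Nat.card_eq_fintype_card (α := Fin 6), Fintype.card_fin] at this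
    have h6 : Nat.factorial 6 = 720 := by decide
    omega
  have hN : Nat.card N = 360 := by rw [Nat.card_congr e.toEquiv, hA]
  have hG : Nat.card G = 1440 := by
    have := N.card_mul_index
    rw [hN, hidx] at this; omega
  have hH : Nat.card (H : Subgroup G) = 32 := by
    rw [Sylow.card_eq_multiplicity, hG]
    have : Nat.factorization 1440 2 = 5 := by
      rw [show (1440 : ℕ) = 2 ^ 5 * 45 by norm_num,
        Nat.factorization_mul (by norm_num) (by norm_num), Nat.factorization_pow]
      simp [Nat.Prime.factorization Nat.prime_two, Nat.factorization_eq_zero_of_not_dvd]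
    rw [this]; norm_num
  -- a central involution of `H` inside `N`
  have hne : N.subgroupOf (H : Subgroup G) ≠ ⊥ := by
    intro h
    have h1 : N.relIndex (H : Subgroup G) ∣ 4 := hidx ▸ Subgroup.relIndex_dvd_index_of_normal _ _
    rw [Subgroup.relIndex, h, Subgroup.index_bot, hH] at h1
    omega
  have : Group.IsNilpotent (H : Subgroup G) := H.isPGroup'.isNilpotent
  obtain ⟨z, hzN, hz1, hz2, hzH⟩ : ∃ z ∈ N, z ≠ 1 ∧ z * z = 1 ∧
      ∀ h ∈ (H : Subgroup G), h * z = z * h := by
    have h0 := Cfsg.Agent.S0065.result (N.subgroupOf (H : Subgroup G)) hne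
    set M := N.subgroupOf (H : Subgroup G) ⊓ Subgroup.center (H : Subgroup G)
    have hM : IsPGroup 2 M := H.isPGroup'.to_subgroup M
    have : Nontrivial M := (Subgroup.nontrivial_iff_ne_bot _).2 h0
    obtain ⟨n, hn0, hn⟩ := hM.nontrivial_iff_card.1 this
    obtain ⟨y, hy⟩ := exists_prime_orderOf_dvd_card' (G := M) 2
      (by rw [hn]; exact dvd_pow_self 2 hn0.ne')
    have hy' : orderOf ((y : (H : Subgroup G)) : G) = 2 := by
      rw [Subgroup.orderOf_coe, Subgroup.orderOf_coe, hy]
    refine ⟨(y : (H : Subgroup G)), y.2.1, ?_, ?_, fun h hh => ?_⟩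
    · intro h; rw [h, orderOf_one] at hy'; omega
    · rw [← pow_two]; exact orderOf_dvd_iff_pow_eq_one.1 (by rw [hy'])
    · exact congrArg Subtype.val (Subgroup.mem_center_iff.1 y.2.2 ⟨h, hh⟩)
  let ε : N →* Perm (Fin 6) := (alternatingGroup (Fin 6)).subtype.comp e.toMonoidHom
  have hε : Function.Injective ε := (Subgroup.subtype_injective _).comp e.injective
  have hεs : ∀ a, sign (ε a) = 1 := fun a => (e a).2
  let zN : N := ⟨z, hzN⟩
  have hz2' : ε zN * ε zN = 1 := by
    rw [← map_mul, show zN * zN = 1 from Subtype.ext hz2, map_one]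
  have hz1' : ε zN ≠ 1 := by
    intro h
    exact hz1 (congrArg Subtype.val (hε (h.trans (map_one ε).symm)))
  -- `H` is the centralizer of `z`
  let C := Subgroup.centralizer ({z} : Set G)
  have hHC : (H : Subgroup G) ≤ C := fun h hh =>
    Subgroup.mem_centralizer_singleton_iff.2 (hzH h hh)
  have hCcard : Nat.card C ≤ 32 := by
    have h1 : Nat.card (N.subgroupOf C) ≤ 8 := by
      refine (bound (ε zN) (hεs _) hz2' hz1'
        (fun a : N.subgroupOf C => ε ⟨(a : C), a.2⟩) ?_ (fun a => hεs _)).1 fun a => ?_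
      · intro a b h
        have h' := congrArg Subtype.val (hε h)
        exact Subtype.ext (Subtype.ext h')
      · rw [← map_mul, ← map_mul]
        congr 1
        exact Subtype.ext (Subgroup.mem_centralizer_singleton_iff.1 (a : C).2)
    have h2 : N.relIndex C ∣ 4 := hidx ▸ Subgroup.relIndex_dvd_index_of_normal _ _
    have h3 := (N.subgroupOf C).card_mul_index
    have h4 : (N.subgroupOf C).index ≤ 4 := Nat.le_of_dvd (by norm_num) h2
    rw [← h3]
    exact (Nat.mul_le_mul h1 h4)
  have hHC' : (H : Subgroup G) = C := Subgroup.eq_of_le_of_card_ge hHC (by rw [hH]; exact hCcard)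
  intro hbot
  let z' := x * z * x⁻¹
  have hz'N : ∀ h : G, h * z' * h⁻¹ ∈ N := fun h =>
    (inferInstance : N.Normal).conj_mem _ ((inferInstance : N.Normal).conj_mem _ hzN x) h
  let f : ↥(H : Subgroup G) → Perm (Fin 6) := fun h => ε ⟨h * z' * (h : G)⁻¹, hz'N h⟩
  have hf : Function.Injective f := by
    intro a b hab
    have h1 : (a : G) * z' * (a : G)⁻¹ = b * z' * (b : G)⁻¹ := congrArg Subtype.val (hε hab)
    have h2 : (b : G)⁻¹ * a ∈ (H : Subgroup G) ⊓ MulAut.conj x • (H : Subgroup G) := by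
      refine Subgroup.mem_inf.2 ⟨mul_mem (inv_mem b.2) a.2, ?_⟩
      rw [Subgroup.mem_pointwise_smul_iff_inv_smul_mem]
      apply hHC'.ge
      rw [← map_inv, MulAut.smul_def,
        MulAut.conj_apply, Subgroup.mem_centralizer_singleton_iff]
      have h3 : z = x⁻¹ * z' * x := by simp only [z']; group
      have h4 : (b : G)⁻¹ * a * z' = z' * ((b : G)⁻¹ * a) := by
        calc (b : G)⁻¹ * a * z' = (b : G)⁻¹ * (a * z' * (a : G)⁻¹) * a := by group
          _ = z' * ((b : G)⁻¹ * a) := by rw [h1]; group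
      rw [h3]
      calc x⁻¹ * ((b : G)⁻¹ * a) * x⁻¹⁻¹ * (x⁻¹ * z' * x) = x⁻¹ * ((b : G)⁻¹ * a * z') * x := by group
        _ = x⁻¹ * z' * x * (x⁻¹ * ((b : G)⁻¹ * a) * x⁻¹⁻¹) := by rw [h4]; group
    rw [hbot, Subgroup.mem_bot, inv_mul_eq_one] at h2
    exact Subtype.ext h2.symm
  have hb := bound (ε zN) (hεs _) hz2' hz1' f hf (fun a => hεs _)
  have hsq : ∀ a, f a * f a = 1 := by
    intro a
    rw [← map_mul, ← map_one ε]
    congr 1
    apply Subtype.ext
    show (a : G) * (x * z * x⁻¹) * (a : G)⁻¹ * (a * (x * z * x⁻¹) * (a : G)⁻¹) = 1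
    calc (a : G) * (x * z * x⁻¹) * (a : G)⁻¹ * (a * (x * z * x⁻¹) * (a : G)⁻¹)
        = a * x * (z * z) * x⁻¹ * (a : G)⁻¹ := by group
      _ = 1 := by rw [hz2]; group
  have h5 : ∀ a, (ε zN * f a) ^ 5 = 1 ↔ (z * z') ^ 5 = 1 := by
    intro a
    rw [← map_mul, ← map_pow, ← map_one ε, hε.eq_iff, Subtype.ext_iff]
    have : ((((zN * ⟨a * z' * (a : G)⁻¹, hz'N a⟩) ^ 5 : N)) : G) =
        a * (z * z') ^ 5 * (a : G)⁻¹ := by
      rw [← conj_pow]
      simp only [SubgroupClass.coe_pow, Subgroup.coe_mul, zN]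
      congr 1
      rw [← mul_assoc, ← mul_assoc, ← hzH a a.2]; group
    rw [this]
    simp [mul_inv_eq_one]
  by_cases h : (z * z') ^ 5 = 1
  · have := hb.2.1 fun a => ⟨hsq a, (h5 a).2 h⟩
    omega
  · have := hb.2.2 fun a => ⟨hsq a, fun h' => h ((h5 a).1 h')⟩
    omega

end Cfsg.Agent.S2488
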