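import Cfsg.Statements.S2490
import Cfsg.Agent.Char.M11Ord6

set_option autoImplicit false
open Cfsg

namespace Cfsg.Agent.S2490
open Cfsg.Agent.Char

/-- Let G be a finite group of order 7920 = 2⁴·3²·5·11 (the order of the smallest Mathieu group) and suppose its prime graph (vertices the prime divisors of the order, distinct p, q joined when there is an element of order pq) is disconnected: the prime divisors split into two non-empty parts with no element of order pq for p in one part and q in the other. Then G is simple. -/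
theorem result {G : Type*} [Group G] [Finite G] (hord : Nat.card G = 7920)
    (hdisc : (∃ A : Set ℕ, (∃ a ∈ A, a.Prime ∧ a ∣ Nat.card G) ∧ (∃ b ∉ A, b.Prime ∧ b ∣ Nat.card G) ∧
      ∀ a ∈ A, ∀ b ∉ A, a.Prime → b.Prime → a ∣ Nat.card G → b ∣ Nat.card G → ¬ ∃ g : G, orderOf g = a * b)) :
    IsSimpleGroup G := by
  obtain ⟨A, ⟨a, ha, ha', ha''⟩, ⟨b, hb, hb', hb''⟩, h⟩ := hdisc
  have key : ∀ n : ℕ, n ∣ Nat.card G → n.Prime → n = 2 ∨ n = 3 ∨ n = 5 ∨ n = 11 := by
    intro n h hn
    rw [hord, show 7920 = 2 ^ 4 * (3 ^ 2 * (5 * 11)) from rfl, hn.dvd_mul, hn.dvd_mul,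
      hn.dvd_mul] at h
    exact h.imp (fun h => (Nat.prime_dvd_prime_iff_eq hn (by norm_num)).1 (hn.dvd_of_dvd_pow h))
      fun h => h.imp
        (fun h => (Nat.prime_dvd_prime_iff_eq hn (by norm_num)).1 (hn.dvd_of_dvd_pow h))
        fun h => h.imp (Nat.prime_dvd_prime_iff_eq hn (by norm_num)).1
          (Nat.prime_dvd_prime_iff_eq hn (by norm_num)).1
  have h1 := key a ha'' ha'
  have h2 := key b hb'' hb'
  refine Cfsg.Agent.Char.M11Ord.simple_of_disc hord (fun q => q ∈ A ↔ 11 ∉ A) iff_not_self ?_ ?_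
  · by_cases h11 : 11 ∈ A
    · rcases h2 with rfl | rfl | rfl | rfl <;> simp [h11, hb] at *
    · rcases h1 with rfl | rfl | rfl | rfl <;> simp [h11, ha] at *
  · intro g k hg hk hc h3
    by_contra h4
    have h5 : orderOf g ≠ orderOf k := fun e => h4 (e ▸ h3)
    have h6 := hc.orderOf_mul_eq_mul_orderOf_of_coprime ((Nat.coprime_primes hg hk).2 h5)
    by_cases h7 : orderOf g ∈ A
    · exact h _ h7 _ (fun h8 => h4 (iff_of_true h8 (h3.1 h7))) hg hk (orderOf_dvd_natCard g) (orderOf_dvd_natCard k) ⟨_, h6⟩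
    · exact h _ (by_contra fun h8 => h4 (iff_of_false h8 fun h9 => h7 (h3.2 h9))) _ h7 hk hg (orderOf_dvd_natCard k) (orderOf_dvd_natCard g)
        ⟨_, h6.trans (mul_comm _ _)⟩

end Cfsg.Agent.S2490
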