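import Cfsg.Statements.S2493
import Cfsg.Agent.Perm.AltMult
import Cfsg.Agent.Perm.TwoInv

set_option autoImplicit false
open Cfsg

namespace Cfsg.Agent.S2493

open Cfsg.Agent.AltCover Cfsg.Agent.KSG Cfsg.Agent.TwoInv Subgroup Equiv Equiv.Perm
open scoped commutatorElement

section
variable {Ω : Type*} [Fintype Ω] [DecidableEq Ω]

theorem conj_alt {σ τ : alternatingGroup Ω} {a b : Ω} (hab : a ≠ b)
    (hc : swap a b * (σ : Perm Ω) = σ * swap a b) (h : IsConj (σ : Perm Ω) τ) :
    ∃ g : alternatingGroup Ω, g * σ * g⁻¹ = τ := by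
  obtain ⟨g, hg⟩ := isConj_iff.1 h
  rcases Int.units_eq_one_or (sign g) with he | he
  · exact ⟨⟨g, he⟩, Subtype.ext hg⟩
  · refine ⟨⟨g * swap a b, by simp [he, hab]⟩, Subtype.ext ?_⟩
    show g * swap a b * σ * (g * swap a b)⁻¹ = τ
    rw [mul_assoc g, hc, ← hg]; group

theorem dbl_mem {a b c d : Ω} (h : [a, b, c, d].Nodup) :
    swap a b * swap c d ∈ alternatingGroup Ω := by
  rw [mem_alternatingGroup, Perm.sign_mul, sign_swap (by grind), sign_swap (by grind)]; simp

variable {G : Type*} [Group G] (π : G →* alternatingGroup Ω) (hs : Function.Surjective π)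
  (hk : π.ker ≤ center G) {z : G} (hz : ∀ x, π x = 1 ↔ x = 1 ∨ x = z) (hz1 : z ≠ 1)
  (hd : z ∈ commutator G)
include hs hk hz hz1 hd

theorem zz : z * z = 1 := by
  rcases (hz (z * z)).1 (by rw [map_mul, (hz z).2 (Or.inr rfl), one_mul]) with h | h
  · exact h
  · exact absurd (mul_eq_left.1 h) hz1

theorem zc (g : G) : g * z = z * g := mem_center_iff.1 (hk ((hz z).2 (Or.inr rfl))) g

theorem lift_eq {x y : G} (h : π x = π y) : x = y ∨ x = y * z := by
  rcases (hz (y⁻¹ * x)).1 (by rw [map_mul, map_inv, h, inv_mul_cancel]) with k | k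
  · left; exact (inv_mul_eq_one.1 k).symm
  · right; rw [← k]; group

theorem sq_dbl {a b c d : Ω} (h : [a, b, c, d].Nodup) {x : G}
    (hx : (π x : Perm Ω) = swap a b * swap c d) : x * x = z := by
  have hzz := zz π hs hk hz hz1 hd
  have hzc := zc π hs hk hz hz1 hd
  refine ((hz (x * x)).1 (Subtype.ext (by
    rw [map_mul, Subgroup.coe_mul, hx]; exact dbl_sq h))).resolve_left fun hxx => hz1 ?_
  have hinv : ∀ (y : G) (a' b' c' d' : Ω), [a', b', c', d'].Nodup →
      (π y : Perm Ω) = swap a' b' * swap c' d' → y * y = 1 := by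
    intro y a' b' c' d' h' hy
    obtain ⟨g, hg⟩ := conj_alt (σ := π x) (τ := π y) (a := a) (b := b) (by grind)
      (by rw [hx, mul_assoc, ← (disjoint_swap_swap h).commute.eq])
      (by rw [hx, hy]; exact isConj_of_inv (dbl_sq h) (dbl_sq h') (by rw [card_dbl h, card_dbl h']))
    obtain ⟨g, rfl⟩ := hs g
    rcases lift_eq π hs hk hz hz1 hd (x := y) (y := g * x * g⁻¹) (by simp [hg]) with e | e
    · rw [e, conj_mul, hxx]; simp
    · rw [e, mul_assoc, ← mul_assoc z, ← hzc, mul_assoc _ z, hzz, mul_one, conj_mul, hxx]; simp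
  have huv : a ≠ b := by grind
  have hl : ∀ j, ∃ y : G, j ≠ a → j ≠ b → (π y : Perm Ω) = c3 j a b ∧ y * y * y = 1 := by
    intro j
    by_cases h : j = a
    · exact ⟨1, fun h' => absurd h h'⟩
    obtain ⟨y, hy⟩ := hs ⟨c3 j a b, c3_mem_alternatingGroup h huv⟩
    refine ⟨y * (y * y * y), fun h1 h2 => ?_⟩
    have hK : π (y * y * y) = 1 := Subtype.ext (by
      simp only [map_mul, hy, Subgroup.coe_mul]
      exact c3_carm_three huv h1 h2)
    refine ⟨by rw [map_mul, hK, mul_one, hy], ?_⟩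
    have : y * y * y * (y * y * y) = 1 := by
      rcases (hz _).1 hK with e | e
      · rw [e, one_mul]
      · rw [e, hzz]
    calc _ = (y * y * y * (y * y * y)) * (y * y * y * (y * y * y)) := by group
      _ = 1 := by rw [this, one_mul]
  choose y hy using hl
  obtain ⟨φ, hφ⟩ := exists_section π huv y (fun j h1 h2 => (hy j h1 h2).1)
    (fun j h1 h2 => (hy j h1 h2).2) (fun i j h1 h2 h3 h4 h5 => hinv _ i a b j (by grind) (by
      rw [map_mul, Subgroup.coe_mul, (hy i h1 h2).1, (hy j h3 h4).1]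
      ext w
      simp only [c3, Perm.mul_apply, swap_apply_def]
      grind))
  exact eq_one_of_section π hk φ hφ ((hz z).2 (Or.inr rfl)) hd

theorem exists_anti {a b c d : Ω} {x : G} (h : Two (π x : Perm Ω) a b c d) :
    ∃ y : G, y * x * y⁻¹ = x * z := by
  have hzz := zz π hs hk hz hz1 hd
  have hzc := zc π hs hk hz hz1 hd
  obtain ⟨h0, h1, h2, h3, h4⟩ := h
  have n1 : [a, c, b, d].Nodup := by grind
  have n2 : [a, d, b, c].Nodup := by grind
  obtain ⟨u, hu⟩ := hs ⟨_, dbl_mem h0⟩
  obtain ⟨s, hs'⟩ := hs ⟨c3 a b c, c3_mem_alternatingGroup (by grind) (by grind)⟩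
  have hu' : (π u : Perm Ω) = swap a b * swap c d := by rw [hu]
  have hs'' : (π s : Perm Ω) = c3 a b c := by rw [hs']
  have hr : (π (u⁻¹ * x) : Perm Ω) = swap a b * swap c d * π x := by
    rw [map_mul, map_inv, Subgroup.coe_mul, Subgroup.coe_inv, hu',
      inv_eq_of_mul_eq_one_right (dbl_sq h0)]
  have ra : (π (u⁻¹ * x) : Perm Ω) a = a := by
    rw [hr]; simp only [Perm.mul_apply, h1, swap_apply_def]; grind
  have rb : (π (u⁻¹ * x) : Perm Ω) b = b := by
    rw [hr]; simp only [Perm.mul_apply, h2, swap_apply_def]; grind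
  have rc : (π (u⁻¹ * x) : Perm Ω) c = c := by
    rw [hr]; simp only [Perm.mul_apply, h3, swap_apply_def]; grind
  have rd : (π (u⁻¹ * x) : Perm Ω) d = d := by
    rw [hr]; simp only [Perm.mul_apply, h4, swap_apply_def]; grind
  have c1 := commute_commutator π hk (x := u⁻¹ * x) (s := s) (t := u)
    (Subtype.ext (by
      rw [Subgroup.coe_mul, Subgroup.coe_mul, hs'']
      exact ((disj_swap ra rb).commute.mul_left (disj_swap rb rc).commute).eq))
    (Subtype.ext (by
      rw [Subgroup.coe_mul, Subgroup.coe_mul, hu']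
      exact ((disj_swap ra rb).commute.mul_left (disj_swap rc rd).commute).eq))
  have hy : (π ⁅s, u⁆ : Perm Ω) = swap a c * swap b d := by
    rw [commutatorElement_def, map_mul, map_mul, map_mul, map_inv, map_inv, Subgroup.coe_mul,
      Subgroup.coe_mul, Subgroup.coe_mul, Subgroup.coe_inv, Subgroup.coe_inv, hu', hs'',
      inv_eq_of_mul_eq_one_right (dbl_sq h0), c3_inv (by grind) (by grind) (by grind)]
    ext w
    simp only [c3, Perm.mul_apply, swap_apply_def]
    grind
  have e1 := sq_dbl π hs hk hz hz1 hd h0 hu'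
  have e2 := sq_dbl π hs hk hz hz1 hd n1 hy
  have e3 := sq_dbl π hs hk hz hz1 hd n2 (x := u * ⁅s, u⁆)
    (by rw [map_mul, Subgroup.coe_mul, hu', hy, klein h0])
  generalize ⁅s, u⁆ = y at c1 e2 e3
  have e4 : y * u * y⁻¹ = u * z := by
    have : y * u * y = u := by
      apply mul_left_cancel (a := u)
      rw [e1, ← e3]; group
    calc y * u * y⁻¹ = y * u * y * (y * y)⁻¹ := by group
      _ = u * z := by rw [this, e2, inv_eq_of_mul_eq_one_right hzz]
  refine ⟨y, ?_⟩
  calc y * x * y⁻¹ = y * u * y⁻¹ * (y * (u⁻¹ * x) * y⁻¹) := by group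
    _ = u * z * (u⁻¹ * x) := by rw [e4, c1.eq, mul_inv_cancel_right]
    _ = x * z := by rw [mul_assoc, ← hzc]; group

theorem main (hn : 5 ≤ Fintype.card Ω) (g : G) : ∃ a b : G, a * b * a⁻¹ * b⁻¹ = g := by
  have hzz := zz π hs hk hz hz1 hd
  have hzc := zc π hs hk hz hz1 hd
  obtain ⟨σ, σ', a, b, c, d, h1, h2, h3, h4⟩ := good hn (π g).2
  have h5 : sign σ' = 1 := by
    have := (π g).2
    rw [mem_alternatingGroup, h3, Perm.sign_mul, h2, one_mul] at this
    exact this
  obtain ⟨x, hx⟩ := hs ⟨σ, h2⟩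
  have hx' : (π x : Perm Ω) = σ := by rw [hx]
  obtain ⟨y, hy⟩ := exists_anti π hs hk hz hz1 hd (x := x) (hx' ▸ h1)
  obtain ⟨k, hk'⟩ := conj_alt (σ := (π x)⁻¹) (τ := ⟨σ', h5⟩) (a := a) (b := b)
    (by have := h1.1; grind) (by
      rw [Subgroup.coe_inv, hx']
      apply Commute.inv_right
      show _ * _ = _ * _
      rw [mul_swap_eq_swap_mul, h1.2.1, h1.2.2.1, swap_comm])
    (by rw [Subgroup.coe_inv, hx']; exact h4)
  obtain ⟨k, rfl⟩ := hs k
  rcases lift_eq π hs hk hz hz1 hd (x := g) (y := x * (k * x⁻¹ * k⁻¹)) (by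
    rw [map_mul, map_mul, map_mul, map_inv, map_inv, hk']
    exact Subtype.ext (by rw [h3, Subgroup.coe_mul, hx'])) with e | e
  · exact ⟨x, k, by rw [e]; group⟩
  · refine ⟨x, k * y, ?_⟩
    calc x * (k * y) * x⁻¹ * (k * y)⁻¹ = x * k * (y * x * y⁻¹)⁻¹ * k⁻¹ := by group
      _ = g := by
        rw [hy, hzc, mul_inv_rev, inv_eq_of_mul_eq_one_right hzz, e, ← mul_assoc, mul_assoc _ z,
          ← hzc]
        group

end


/-- Let n ≥ 5 and let G be a finite perfect group whose centre has order 2 with G/Z(G) isomorphic to the alternating group of degree n (the double cover of the alternating group). Then every element of G is a commutator. -/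
theorem result {G : Type*} [Group G] [Finite G] (hperf : commutator G = ⊤) {n : ℕ} (hn : 5 ≤ n)
    (hZ : Nat.card (Subgroup.center G) = 2) (e : G ⧸ Subgroup.center G ≃* alternatingGroup (Fin n))
    (g : G) :
    ∃ a b : G, a * b * a⁻¹ * b⁻¹ = g := by
  let π : G →* alternatingGroup (Fin n) := e.toMonoidHom.comp (QuotientGroup.mk' _)
  have hk : π.ker = center G := by
    ext x
    simp [π, MonoidHom.mem_ker]
  have hs : Function.Surjective π := e.surjective.comp (QuotientGroup.mk'_surjective _)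
  obtain ⟨z, hz1, hz⟩ := (Nat.card_eq_two_iff' (1 : center G)).1 hZ
  refine main π hs hk.le (z := z) (fun x => ?_) (fun h => hz1 (Subtype.ext h))
    (hperf ▸ mem_top _) (by simpa using hn) g
  rw [← MonoidHom.mem_ker, hk]
  constructor
  · intro hx
    by_cases h : x = 1
    · exact Or.inl h
    · exact Or.inr (congrArg Subtype.val (hz ⟨x, hx⟩ fun h' => h (congrArg Subtype.val h')))
  · rintro (rfl | rfl)
    · exact one_mem _
    · exact z.2

end Cfsg.Agent.S2493
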