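import Cfsg.Statements.S2495
import Mathlib
import Cfsg.Agent.Class.Spec.Cent

set_option autoImplicit false
open Cfsg

namespace Cfsg.Agent.S2495

/-- Let q be an odd prime power, n ≥ 4 even, and L = PSL(n,q). Then L has an element of order q^(n/2) + 1 if and only if the 2-part of n exceeds the 2-part of q − 1. -/
theorem result {F : Type*} [Field F] [Fintype F] {q : ℕ} (hF : Fintype.card F = q) (hodd : Odd q)
    {n : ℕ} (hn : 4 ≤ n) (heven : Even n) :
    (∃ g : Matrix.ProjectiveSpecialLinearGroup (Fin n) F, orderOf g = q ^ (n / 2) + 1) ↔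
      padicValNat 2 (q - 1) < padicValNat 2 n := by
  open Cfsg.Agent.Class Cfsg.Agent.Class.Spec in
  obtain ⟨p, hc, k, hp, -⟩ := FiniteField.card' F
  obtain ⟨h, rfl⟩ := heven.two_dvd
  have h1 : 1 < q := hF ▸ Fintype.one_lt_card
  obtain ⟨r, hr, hk⟩ := exists_prime_order (q := q) (n := 2 * h)
    (by obtain ⟨t, rfl⟩ := hodd; omega) (by omega)
  have := (models_PSL F (AlgebraicClosure F) p hp (2 * h)).half_mem_iff
    (isQ_card F (AlgebraicClosure F) hp) (by omega) hr (hF ▸ hk)
  rw [hF, show ((q : ℤ) - 1).natAbs = q - 1 by omega,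
    show ((q : ℤ) ^ h + 1).natAbs = q ^ h + 1 by rw [← Int.natAbs_natCast (q ^ h + 1)]; simp] at this
  rw [← this, Nat.mul_div_cancel_left _ two_pos]
  rfl

end Cfsg.Agent.S2495
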