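import Cfsg.Statements.S2496
import Mathlib
import Cfsg.Agent.Class.Spec.Cent

set_option autoImplicit false
open Cfsg

namespace Cfsg.Agent.S2496

/-- Let q be an odd prime power, n ≥ 4 even, and U = PSU(n,q) (realised over the field with q² elements). Then U has an element of order q^(n/2) + (−1)^(n/2) — that is, q^(n/2) + 1 when n/2 is even and q^(n/2) − 1 when n/2 is odd — if and only if the 2-part of n exceeds the 2-part of q + 1. -/
theorem result {F : Type*} [Field F] [Fintype F] {q : ℕ} (hF : Fintype.card F = q ^ 2) (hodd : Odd q)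
    {n : ℕ} (hn : 4 ≤ n) (heven : Even n) :
    (∃ g : Cfsg.PSU n F q, orderOf g = if Even (n / 2) then q ^ (n / 2) + 1 else q ^ (n / 2) - 1) ↔
      padicValNat 2 (q + 1) < padicValNat 2 n := by
  open Cfsg.Agent.Class Cfsg.Agent.Class.Spec in
  have := U.UF.of_card hF
  obtain ⟨p, k, hp, hc, hq, hk0⟩ := U.exists_prime_pow F q
  obtain ⟨h, rfl⟩ := heven.two_dvd
  have h1 := U.two_le_q F q
  obtain ⟨r, hr, hk⟩ := exists_prime_order_neg (q := q) (h := h)
    (by obtain ⟨t, rfl⟩ := hodd; omega) (by omega)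
  have := (models_PSU F (AlgebraicClosure F) p hp q (n := 2 * h) (by omega)).half_mem_iff
    (isQ_units (AlgebraicClosure F) hp ⟨k, hk0, by simp [hq]⟩) (by omega) hr hk
  rw [show ((-q : ℤ) - 1).natAbs = q + 1 by omega, show ((-q : ℤ) ^ h + 1).natAbs =
      if Even h then q ^ h + 1 else q ^ h - 1 by
    have h2 : 0 < q ^ h := by positivity
    split_ifs with h3
    · rw [h3.neg_pow, ← Nat.cast_pow]; omega
    · rw [(Nat.not_even_iff_odd.1 h3).neg_pow, ← Nat.cast_pow]; omega] at this
  rw [← this, Nat.mul_div_cancel_left _ two_pos]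
  rfl

end Cfsg.Agent.S2496
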