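import Cfsg.Statements.S2504
import Mathlib
import Cfsg.Agent.KSG.AbelAlt

set_option autoImplicit false
open Cfsg

namespace Cfsg.Agent.S2504

open Cfsg.Agent.KSG.AbelSym

theorem aux {n c : ℕ} (hc : talt n = c) :
    IsGreatest {c : ℕ | ∃ A : Subgroup (alternatingGroup (Fin n)), IsMulCommutative A ∧ Nat.card A = c} c := by
  subst hc
  constructor
  · exact Ex.exists_alt (α := Fin n) (by simpa using ex_talt n)
  · rintro _ ⟨A, h1, rfl⟩
    have := (ab_iff.2 (inferInstance : IsMulCommutative
      (A.map (alternatingGroup (Fin n)).subtype))).card_le_talt (Subgroup.map_subtype_le _)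
    rwa [Subgroup.card_subtype, Fintype.card_fin] at this


/-- The largest order of an abelian subgroup of the alternating group of degree n is 3^k when n = 3k, 4·3^(k−1) when n = 3k + 1, and 16·3^(k−2) when n = 3k + 2, for every k ≥ 2 (so for all degrees n ≥ 6). -/
theorem result (k : ℕ) (hk : 2 ≤ k) :
    IsGreatest {c : ℕ | ∃ A : Subgroup (alternatingGroup (Fin (3 * k))), IsMulCommutative A ∧ Nat.card A = c} (3 ^ k) ∧
    IsGreatest {c : ℕ | ∃ A : Subgroup (alternatingGroup (Fin (3 * k + 1))), IsMulCommutative A ∧ Nat.card A = c}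
      (4 * 3 ^ (k - 1)) ∧
    IsGreatest {c : ℕ | ∃ A : Subgroup (alternatingGroup (Fin (3 * k + 2))), IsMulCommutative A ∧ Nat.card A = c}
      (16 * 3 ^ (k - 2)) := by
  obtain ⟨j, rfl⟩ : ∃ j, k = j + 2 := ⟨k - 2, by omega⟩
  exact ⟨aux (talt_three_mul _), aux (talt_three_mul_add_four (j + 1)),
    aux (talt_three_mul_add_eight j)⟩

end Cfsg.Agent.S2504
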