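import Cfsg.Statements.S2505
import Mathlib
import Cfsg.Agent.KSG.AbelSym

set_option autoImplicit false
open Cfsg

namespace Cfsg.Agent.S2505

open Cfsg.Agent.KSG.AbelSym

theorem aux {n c : ℕ} (h : Ex false n c) (hc : fmax n = c) :
    IsGreatest {c : ℕ | ∃ A : Subgroup (Equiv.Perm (Fin n)), IsMulCommutative A ∧ Nat.card A = c} c := by
  constructor
  · obtain ⟨A, h1, h2, -⟩ := Ex.exists_perm (α := Fin n) (by simpa using h)
    exact ⟨A, h1, h2⟩
  · rintro _ ⟨A, h1, rfl⟩
    simpa [hc] using (ab_iff.2 h1).card_le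


/-- The largest order of an abelian subgroup of the symmetric group of degree n is 3^k when n = 3k, 4·3^(k−1) when n = 3k + 1, and 2·3^k when n = 3k + 2, for every k ≥ 1. -/
theorem result (k : ℕ) (hk : 1 ≤ k) :
    IsGreatest {c : ℕ | ∃ A : Subgroup (Equiv.Perm (Fin (3 * k))), IsMulCommutative A ∧ Nat.card A = c} (3 ^ k) ∧
    IsGreatest {c : ℕ | ∃ A : Subgroup (Equiv.Perm (Fin (3 * k + 1))), IsMulCommutative A ∧ Nat.card A = c}
      (4 * 3 ^ (k - 1)) ∧
    IsGreatest {c : ℕ | ∃ A : Subgroup (Equiv.Perm (Fin (3 * k + 2))), IsMulCommutative A ∧ Nat.card A = c}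
      (2 * 3 ^ k) := by
  obtain ⟨j, rfl⟩ : ∃ j, k = j + 1 := ⟨k - 1, by omega⟩
  refine ⟨aux (ex_three_mul _ _) (fmax_three_mul _), aux ?_ ?_, aux ?_ (fmax_three_mul_add_two _)⟩
  · have := (ex_three_mul false j).mul (ex_four false)
    rw [mul_comm (3 ^ j)] at this
    exact this
  · exact fmax_three_mul_add_four j
  · have := (ex_three_mul false (j + 1)).mul ex_two
    rwa [mul_comm (3 ^ (j + 1))] at this

end Cfsg.Agent.S2505
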