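import Cfsg.Statements.S2506
import Mathlib
import Cfsg.Agent.KSG.AbelAlt

set_option autoImplicit false
open scoped Pointwise
open Cfsg

namespace Cfsg.Agent.S2506

open Cfsg.Agent.KSG.AbelSym

theorem card_eq {n : ℕ} (A : Subgroup (alternatingGroup (Fin n))) (hA : IsMulCommutative A)
    (hAmax : ∀ C : Subgroup (alternatingGroup (Fin n)), IsMulCommutative C → Nat.card C ≤ Nat.card A) :
    Nat.card A = talt n := by
  apply le_antisymm
  · have := (ab_iff.2 (inferInstance : IsMulCommutative
      (A.map (alternatingGroup (Fin n)).subtype))).card_le_talt (Subgroup.map_subtype_le _)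
    rwa [Subgroup.card_subtype, Fintype.card_fin] at this
  · obtain ⟨C, h1, h2⟩ := Ex.exists_alt (α := Fin n) (by simpa using ex_talt n)
    exact h2 ▸ hAmax C h1


/-- In the alternating group of any degree, any two abelian subgroups of the largest possible order (among abelian subgroups) are conjugate. -/
theorem result (n : ℕ)
    (A B : Subgroup (alternatingGroup (Fin n))) (hA : IsMulCommutative A) (hB : IsMulCommutative B)
    (hAmax : ∀ C : Subgroup (alternatingGroup (Fin n)), IsMulCommutative C → Nat.card C ≤ Nat.card A)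
    (hBmax : ∀ C : Subgroup (alternatingGroup (Fin n)), IsMulCommutative C → Nat.card C ≤ Nat.card B) :
    ∃ g : alternatingGroup (Fin n), B = MulAut.conj g • A := by
  have cA := card_eq A hA hAmax
  have cB := card_eq B hB hBmax
  by_cases h12 : n = 1 ∨ n = 2
  · have : talt n = 1 := by rcases h12 with rfl | rfl <;> rfl
    rw [this, Subgroup.card_eq_one] at cA cB
    exact ⟨1, by simp [cA, cB]⟩
  by_cases h5 : n = 5
  · subst h5
    have : Fact (Nat.Prime 5) := ⟨by norm_num⟩
    have h60 : Nat.card (alternatingGroup (Fin 5)) = 60 := by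
      rw [nat_card_alternatingGroup]; simp [Nat.factorial]
    have hf : 5 ^ (Nat.card (alternatingGroup (Fin 5))).factorization 5 = talt 5 := by
      rw [h60]
      have : (60 : ℕ).factorization 5 = 1 := by
        rw [show (60 : ℕ) = 12 * 5 by norm_num, Nat.factorization_mul (by norm_num) (by norm_num)]
        simp [Nat.factorization_eq_zero_of_not_dvd (by norm_num : ¬ 5 ∣ 12),
          Nat.Prime.factorization_self (by norm_num : Nat.Prime 5)]
      rw [this]; rfl
    obtain ⟨g, hg⟩ := MulAction.exists_smul_eq (alternatingGroup (Fin 5))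
      (Sylow.ofCard A (cA.trans hf.symm)) (Sylow.ofCard B (cB.trans hf.symm))
    exact ⟨g, (congrArg Sylow.toSubgroup hg).symm⟩
  obtain ⟨σ, hs, hσ⟩ := exists_conj_comm
    (ab_iff.2 (inferInstance : IsMulCommutative (A.map (alternatingGroup (Fin n)).subtype)))
    (ab_iff.2 (inferInstance : IsMulCommutative (B.map (alternatingGroup (Fin n)).subtype)))
    (Subgroup.map_subtype_le _) (Subgroup.map_subtype_le _)
    (by rw [Subgroup.card_subtype, Fintype.card_fin, cA]) (by rw [Subgroup.card_subtype, Fintype.card_fin, cB])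
    (by simp; omega) (by simp; omega) (by simpa)
  refine ⟨⟨σ, hs⟩, ?_⟩
  set A' := MulAut.conj (⟨σ, hs⟩ : alternatingGroup (Fin n)) • A with hA'
  have cA' : Nat.card A' = Nat.card A := by
    rw [hA', Subgroup.pointwise_smul_def]
    exact Subgroup.card_map_of_injective (MulAut.conj _).injective
  have hcomm : ∀ a ∈ A', ∀ b ∈ B, a * b = b * a := by
    intro a ha b hb
    obtain ⟨a, ha', rfl⟩ := (Subgroup.mem_smul_pointwise_iff_exists _ _ _).1 ha
    exact Subtype.ext (hσ a.1 ⟨a, ha', rfl⟩ b.1 ⟨b, hb, rfl⟩)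
  have hA'c : ∀ a ∈ A', ∀ b ∈ A', a * b = b * a := by
    intro a ha b hb
    obtain ⟨a, ha', rfl⟩ := (Subgroup.mem_smul_pointwise_iff_exists _ _ _).1 ha
    obtain ⟨b, hb', rfl⟩ := (Subgroup.mem_smul_pointwise_iff_exists _ _ _).1 hb
    rw [← smul_mul', ← smul_mul', show a * b = b * a from congrArg Subtype.val (hA.1.1 ⟨a, ha'⟩ ⟨b, hb'⟩)]
  have hBc : ∀ a ∈ B, ∀ b ∈ B, a * b = b * a :=
    fun a ha b hb => congrArg Subtype.val (hB.1.1 ⟨a, ha⟩ ⟨b, hb⟩)
  have hsup : IsMulCommutative (Subgroup.closure ((A' : Set (alternatingGroup (Fin n))) ∪ (B : Set (alternatingGroup (Fin n))))) := by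
    apply Subgroup.isMulCommutative_closure
    rintro a (ha | ha) b (hb | hb)
    exacts [hA'c a ha b hb, hcomm a ha b hb, (hcomm b hb a ha).symm, hBc a ha b hb]
  have e1 : B = Subgroup.closure ((A' : Set (alternatingGroup (Fin n))) ∪ (B : Set (alternatingGroup (Fin n)))) :=
    Subgroup.eq_of_le_of_card_ge (fun x hx => Subgroup.subset_closure (Or.inr hx)) (hBmax _ hsup)
  have e2 : A' = Subgroup.closure ((A' : Set (alternatingGroup (Fin n))) ∪ (B : Set (alternatingGroup (Fin n)))) :=
    Subgroup.eq_of_le_of_card_ge (fun x hx => Subgroup.subset_closure (Or.inl hx))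
      (cA' ▸ hAmax _ hsup)
  exact e1.trans e2.symm

end Cfsg.Agent.S2506
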