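import Cfsg.Statements.S2510
import Mathlib
import Cfsg.Agent.Class.Spec.Cube

set_option autoImplicit false
open Cfsg

namespace Cfsg.Agent.S2510

/-- Let F be a finite field with q = p^a elements, n ≥ 2 (with q ≥ 4 when n = 2), L = PSL(n, F), and let r be a prime dividing q − 1 and not dividing n. Then for every m the direct product L × L × L × (ℤ/r)^m has the same set of element orders as L × L × L; and if n − 1 ≠ p^j for every j ≥ 0 (so never when n = 2, since 1 = p^0), then already L × L × (ℤ/r)^m has the same set of element orders as L × L. -/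
theorem result {F : Type*} [Field F] [Fintype F] (p a n r m : ℕ) (hp : p.Prime) (ha : 1 ≤ a) (hF : Fintype.card F = p ^ a)
    (hn : 2 ≤ n) (hn2 : n = 2 → 4 ≤ Fintype.card F) (hr : r.Prime) (hrq : r ∣ Fintype.card F - 1) (hrn : ¬ r ∣ n) :
    Set.range (orderOf : Matrix.ProjectiveSpecialLinearGroup (Fin n) F × Matrix.ProjectiveSpecialLinearGroup (Fin n) F × Matrix.ProjectiveSpecialLinearGroup (Fin n) F × Multiplicative (Fin m → ZMod r) → ℕ) =
      Set.range (orderOf : Matrix.ProjectiveSpecialLinearGroup (Fin n) F × Matrix.ProjectiveSpecialLinearGroup (Fin n) F × Matrix.ProjectiveSpecialLinearGroup (Fin n) F → ℕ) ∧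
    ((¬ ∃ j : ℕ, n - 1 = p ^ j) →
      Set.range (orderOf : Matrix.ProjectiveSpecialLinearGroup (Fin n) F × Matrix.ProjectiveSpecialLinearGroup (Fin n) F × Multiplicative (Fin m → ZMod r) → ℕ) =
        Set.range (orderOf : Matrix.ProjectiveSpecialLinearGroup (Fin n) F × Matrix.ProjectiveSpecialLinearGroup (Fin n) F → ℕ)) := by
  have hc : CharP F p := by
    have := Fact.mk hp
    obtain ⟨k, hk, e⟩ := FiniteField.card F (ringChar F)
    rw [hF] at e
    have h1 : p = ringChar F := (Nat.prime_dvd_prime_iff_eq hp hk).1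
      (hp.dvd_of_dvd_pow (e ▸ dvd_pow_self p (by omega)))
    rw [h1]; infer_instance
  have := Fact.mk hr
  refine (Cfsg.Agent.Class.Spec.models_PSL F (AlgebraicClosure F) p hp n).square_cube_lin
    (Cfsg.Agent.Class.Spec.isQ_card F _ hp) Cfsg.Agent.Class.Spec.pow_eq_one_pi_zmod hn hr ?_ hrn
  have := Int.natCast_dvd_natCast.2 hrq
  rwa [Nat.cast_sub Fintype.card_pos] at this

end Cfsg.Agent.S2510
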