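import Cfsg.Statements.S2511
import Mathlib
import Cfsg.Agent.Class.Spec.Cube

set_option autoImplicit false
open Cfsg

namespace Cfsg.Agent.S2511

/-- Let F be a finite field with q² elements, q = p^a, n ≥ 3 with (n, q) ≠ (3, 2), L = PSU(n, q) realised over F, and let r be a prime dividing q + 1 and not dividing n. Then for every m the direct product L × L × L × (ℤ/r)^m has the same set of element orders as L × L × L; and if n − 1 is not a power of p, then already L × L × (ℤ/r)^m has the same set of element orders as L × L. -/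
theorem result {F : Type*} [Field F] [Fintype F] (p a n q r m : ℕ) (hp : p.Prime) (ha : 1 ≤ a) (hq : q = p ^ a) (hF : Fintype.card F = q ^ 2)
    (hn : 3 ≤ n) (hn3 : ¬ (n = 3 ∧ q = 2)) (hr : r.Prime) (hrq : r ∣ q + 1) (hrn : ¬ r ∣ n) :
    Set.range (orderOf : Cfsg.PSU n F q × Cfsg.PSU n F q × Cfsg.PSU n F q × Multiplicative (Fin m → ZMod r) → ℕ) = Set.range (orderOf : Cfsg.PSU n F q × Cfsg.PSU n F q × Cfsg.PSU n F q → ℕ) ∧
    ((¬ ∃ j : ℕ, n - 1 = p ^ j) →
      Set.range (orderOf : Cfsg.PSU n F q × Cfsg.PSU n F q × Multiplicative (Fin m → ZMod r) → ℕ) = Set.range (orderOf : Cfsg.PSU n F q × Cfsg.PSU n F q → ℕ)) := by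
  have hc : CharP F p := by
    have := Fact.mk hp
    obtain ⟨k, hk, e⟩ := FiniteField.card F (ringChar F)
    rw [hF, hq, ← pow_mul] at e
    have h1 : p = ringChar F := (Nat.prime_dvd_prime_iff_eq hp hk).1
      (hp.dvd_of_dvd_pow (e ▸ dvd_pow_self p (by omega)))
    rw [h1]; infer_instance
  have := Fact.mk hr
  have := Cfsg.Agent.Class.U.UF.of_card hF
  refine (Cfsg.Agent.Class.Spec.models_PSU F (AlgebraicClosure F) p hp q (by omega)).square_cube_lin
    (Cfsg.Agent.Class.Spec.isQ_units _ hp ⟨a, ha, by simp [hq]⟩)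
    Cfsg.Agent.Class.Spec.pow_eq_one_pi_zmod (by omega) hr ?_ hrn
  have := Int.natCast_dvd_natCast.2 hrq
  rw [← dvd_neg]
  simpa [add_comm] using this

end Cfsg.Agent.S2511
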