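import Cfsg.Statements.S2512
import Mathlib
import Cfsg.Agent.Class.Spec.SpBlk

set_option autoImplicit false
open Cfsg

namespace Cfsg.Agent.S2512

/-- Let F be a finite field of odd order q = p^a, n ≥ 2 (with q ≥ 3 automatic), and L = PSp(2n, F). Then for every m the direct product L × L × L × (ℤ/2)^m has the same set of element orders as L × L × L; and if 2n − 1 is not a power of p, then already L × L × (ℤ/2)^m has the same set of element orders as L × L. -/
theorem result {F : Type*} [Field F] [Fintype F] (p a n m : ℕ) (hp : p.Prime) (ha : 1 ≤ a) (hF : Fintype.card F = p ^ a) (hodd : Odd (Fintype.card F))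
    (hn : 2 ≤ n) :
    Set.range (orderOf : Cfsg.PSp n F × Cfsg.PSp n F × Cfsg.PSp n F × Multiplicative (Fin m → ZMod 2) → ℕ) = Set.range (orderOf : Cfsg.PSp n F × Cfsg.PSp n F × Cfsg.PSp n F → ℕ) ∧
    ((¬ ∃ j : ℕ, 2 * n - 1 = p ^ j) →
      Set.range (orderOf : Cfsg.PSp n F × Cfsg.PSp n F × Multiplicative (Fin m → ZMod 2) → ℕ) = Set.range (orderOf : Cfsg.PSp n F × Cfsg.PSp n F → ℕ)) := by
  have hc : CharP F p := by
    have := Fact.mk hp
    obtain ⟨k, hk, e⟩ := FiniteField.card F (ringChar F)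
    rw [hF] at e
    have h1 : p = ringChar F := (Nat.prime_dvd_prime_iff_eq hp hk).1
      (hp.dvd_of_dvd_pow (e ▸ dvd_pow_self p (by omega)))
    rw [h1]; infer_instance
  refine (Cfsg.Agent.Class.Spec.models_PSp F (AlgebraicClosure F) p hp n).square_cube_sp
    (Cfsg.Agent.Class.Spec.isQ_card F _ hp) ?_ (by exact_mod_cast Fintype.card_pos)
    Cfsg.Agent.Class.Spec.pow_eq_one_pi_zmod hn
  rintro rfl
  rw [hF] at hodd
  exact (Nat.not_even_iff_odd.2 hodd) (Nat.even_pow.2 ⟨even_two, by omega⟩)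

end Cfsg.Agent.S2512
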