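import Cfsg.Statements.S2513
import Mathlib
import Cfsg.Agent.Class.Spec.Cube

set_option autoImplicit false
open Cfsg

namespace Cfsg.Agent.S2513

open Cfsg.Agent.Class.Spec in
theorem exists_mul_mem {n d : ℕ} (h0 : 0 < d) (hd : d ≤ n) : ∃ j, d ∣ j ∧ n / 2 < j ∧ j ≤ n := by
  refine ⟨d * (n / d), dvd_mul_right _ _, ?_, Nat.mul_div_le _ _⟩
  have h1 := Nat.div_add_mod n d
  have h2 := Nat.mod_lt n h0
  have h3 : d * 1 ≤ d * (n / d) := Nat.mul_le_mul_left _ (Nat.div_pos hd h0)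
  omega

/-- Let F be the field with two elements, n ≥ 2, L = PSL(n, F) and k₀ = ⌊(n + 3)/2⌋. Then for every k ≥ k₀ the direct product of k copies of L has the same set of element orders as the direct product of k₀ copies of L. -/
theorem result {F : Type*} [Field F] [Fintype F] (hF : Fintype.card F = 2) (n k : ℕ) (hn : 2 ≤ n) (hk : (n + 3) / 2 ≤ k) :
    Set.range (orderOf : (Fin k → Matrix.ProjectiveSpecialLinearGroup (Fin n) F) → ℕ) = Set.range (orderOf : (Fin ((n + 3) / 2) → Matrix.ProjectiveSpecialLinearGroup (Fin n) F) → ℕ) := by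
  open Cfsg.Agent.Class.Spec in
  have hc : CharP F 2 := by
    obtain ⟨k, hk, e⟩ := FiniteField.card F (ringChar F)
    rw [hF] at e
    have h1 : 2 = ringChar F := (Nat.prime_dvd_prime_iff_eq Nat.prime_two hk).1
      (Nat.prime_two.dvd_of_dvd_pow e.dvd)
    rw [h1]; infer_instance
  have hG := models_PSL F (AlgebraicClosure F) 2 Nat.prime_two n
  have hQ := isQ_card F (AlgebraicClosure F) Nat.prime_two
  rw [hF] at hG hQ
  have h1 : ∀ c : (AlgebraicClosure F)ˣ, c ^ ((2 : ℕ) : ℤ) = c → c = 1 := fun c hc => by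
    simpa [sq] using hc
  have h2 : ∀ j, ∃ g : Matrix.ProjectiveSpecialLinearGroup (Fin n) F, ∀ N : ℕ, g ^ N = 1 →
      (j = 0 → 2 ^ Nat.clog 2 n ∣ N) ∧ (0 < j → j ≤ n → ((2 : ℕ) : ℤ) ^ j - 1 ∣ N) := fun j => by
    rcases Nat.eq_zero_or_pos j with rfl | hj
    · obtain ⟨g, hg⟩ := hG.to_elt {(1, n)} ⟨valid_single (by simp) (by omega), by simp [jdet_single]⟩
      exact ⟨g, fun N hN => ⟨fun _ => (KB_single.1 ((hg N).1 hN).choose_spec).2, by simp⟩⟩
    by_cases hjn : j ≤ n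
    swap
    · exact ⟨1, fun N _ => ⟨by omega, by omega⟩⟩
    obtain ⟨γ, hγ⟩ := hQ.ex_int (hQ.not_dvd hj)
    have h3 := zpow_eq_self_iff.2 ((hγ _).2 dvd_rfl)
    obtain ⟨g, hg⟩ := hG.to_elt (blk ((2 : ℕ) : ℤ) j γ 1 + idb _ (n - j))
      ⟨((valid_blk h3 one_pos).add (valid_idb _)).cast (by omega), by
        rw [jdet_add, jdet_idb, jdet_blk, pow_one, mul_one, hγ, ← gs_mul]; norm_num⟩
    refine ⟨g, fun N hN => ⟨by omega, fun _ _ => ?_⟩⟩
    obtain ⟨c, hc⟩ := (hg N).1 hN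
    obtain ⟨h4, h5, -⟩ := (KB_blk_iff hj h3).1 (KB_add.1 hc).1
    rw [← hγ, zpow_natCast, h4, h1 c h5]
  choose g hg using h2
  refine range_orderOf_eq (fun x => ⟨fun i => g (if i.1 = 0 then 0 else n / 2 + i), ?_⟩)
    fun y => ⟨fun i => if h : i.1 < (n + 3) / 2 then y ⟨i, h⟩ else 1, ?_⟩
  · have h3 := pow_orderOf_eq_one fun i : Fin ((n + 3) / 2) => g (if i.1 = 0 then 0 else n / 2 + i)
    generalize (orderOf fun i : Fin ((n + 3) / 2) => g (if i.1 = 0 then 0 else n / 2 + i)) = N at h3 ⊢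
    have h4 := (hg _ N (congrFun h3 ⟨0, by omega⟩)).1 rfl
    have h5 : ∀ j, n / 2 < j → j ≤ n → ((2 : ℕ) : ℤ) ^ j - 1 ∣ N := fun j h5 h6 => by
      have := hg _ N (congrFun h3 ⟨j - n / 2, by omega⟩)
      simp only [show j - n / 2 ≠ 0 by omega, if_false, show n / 2 + (j - n / 2) = j by omega] at this
      exact this.2 (by omega) h6
    ext i
    obtain ⟨J, ⟨hJ, -⟩, h6⟩ := hG.of_elt (x i)
    refine (h6 N).2 ⟨1, fun ⟨α, a⟩ hx => ⟨?_, pow_clog_dvd h4 (hJ.le hx)⟩⟩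
    obtain ⟨d, J', hd, hk, -, -, hle, -⟩ := hQ.exists_blk hJ hx
    obtain ⟨j, h7, h8, h9⟩ := exists_mul_mem hd
      ((Nat.le_mul_of_pos_right d (hJ.pos _ hx)).trans hle)
    rw [← zpow_natCast]
    exact zpow_eq_one_of_dvd (zpow_eq_self_iff.1 ((hk j).2 h7)) (h5 j h8 h9)
  · have h3 := pow_orderOf_eq_one fun i : Fin k => if h : i.1 < (n + 3) / 2 then y ⟨i, h⟩ else 1
    ext i
    simpa using congrFun h3 ⟨i, by omega⟩

end Cfsg.Agent.S2513
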