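import Cfsg.Statements.S2514
import Mathlib

set_option autoImplicit false
open Cfsg

namespace Cfsg.Agent.S2514

theorem mem_range_of_dvd {X : Type*} [Group X] [Finite X] (z : X) {d : ℕ} (hd : d ∣ orderOf z) :
    d ∈ Set.range (orderOf : X → ℕ) :=
  ⟨z ^ (orderOf z / d), orderOf_pow_orderOf_div (orderOf_pos z).ne' hd⟩

theorem exists_maximal {X : Type*} [Group X] [Finite X] (x : X) :
    ∃ y : X, orderOf x ∣ orderOf y ∧ ∀ m ∈ Set.range (orderOf : X → ℕ), orderOf y ∣ m → m = orderOf y := by
  classical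
  have := Fintype.ofFinite X
  obtain ⟨y, hy, hmax⟩ := Finset.exists_max_image (Finset.univ.filter fun y : X => orderOf x ∣ orderOf y)
    orderOf ⟨x, by simp⟩
  simp only [Finset.mem_filter, Finset.mem_univ, true_and] at hy hmax
  refine ⟨y, hy, ?_⟩
  rintro _ ⟨w, rfl⟩ hw
  exact le_antisymm (hmax w (hy.trans hw)) (Nat.le_of_dvd (orderOf_pos w) hw)


/-- For a finite group X write μ(X) for the set of element orders of X that are maximal under divisibility. Let G and H be finite groups and k ≥ 1 such that μ(H) ⊆ μ(G) and μ(G) has fewer than k elements outside μ(H). Then the direct product of k copies of G has the same set of element orders as the direct product of k − 1 copies of G with H. -/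
theorem result {G H : Type*} [Group G] [Finite G] [Group H] [Finite H] (k : ℕ) (hk : 1 ≤ k)
    (hsub : {n : ℕ | n ∈ Set.range (orderOf : H → ℕ) ∧ ∀ m ∈ Set.range (orderOf : H → ℕ), n ∣ m → m = n} ⊆ {n : ℕ | n ∈ Set.range (orderOf : G → ℕ) ∧ ∀ m ∈ Set.range (orderOf : G → ℕ), n ∣ m → m = n})
    (hfew : ({n : ℕ | n ∈ Set.range (orderOf : G → ℕ) ∧ ∀ m ∈ Set.range (orderOf : G → ℕ), n ∣ m → m = n} \ {n : ℕ | n ∈ Set.range (orderOf : H → ℕ) ∧ ∀ m ∈ Set.range (orderOf : H → ℕ), n ∣ m → m = n}).ncard < k) :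
    Set.range (orderOf : (Fin k → G) → ℕ) = Set.range (orderOf : (Fin (k - 1) → G) × H → ℕ) := by
  classical
  obtain ⟨k, rfl⟩ := Nat.exists_eq_add_of_le' hk
  change Set.range (orderOf : (Fin (k + 1) → G) → ℕ) = Set.range (orderOf : (Fin k → G) × H → ℕ)
  apply Set.Subset.antisymm
  · rintro _ ⟨x, rfl⟩
    choose y hy hmax using fun i => exists_maximal (x i)
    have main : ∀ (i : Fin (k + 1)) (h : H),
        (orderOf (y i) ∣ orderOf h ∨ ∃ j, j ≠ i ∧ orderOf (y i) = orderOf (y j)) →
        orderOf x ∈ Set.range (orderOf : (Fin k → G) × H → ℕ) := by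
      intro i h hi
      let z : (Fin k → G) × H := (fun j => y (i.succAbove j), h)
      refine mem_range_of_dvd z ?_
      rw [orderOf_dvd_iff_pow_eq_one]
      have hz := pow_orderOf_eq_one z
      have hz1 : ∀ j, j ≠ i → orderOf (y j) ∣ orderOf z := by
        intro j hj
        obtain ⟨j', rfl⟩ := Fin.exists_succAbove_eq hj
        rw [orderOf_dvd_iff_pow_eq_one]
        exact congrFun (congrArg Prod.fst hz) j'
      have hz2 : orderOf h ∣ orderOf z := by
        rw [orderOf_dvd_iff_pow_eq_one]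
        exact congrArg Prod.snd hz
      funext j
      change x j ^ orderOf z = 1
      rw [← orderOf_dvd_iff_pow_eq_one]
      refine (hy j).trans ?_
      by_cases hj : j = i
      · subst hj
        rcases hi with hi | ⟨j', hj', hi⟩
        · exact hi.trans hz2
        · rw [hi]; exact hz1 j' hj'
      · exact hz1 j hj
    by_cases hex : ∃ i, orderOf (y i) ∈ {n : ℕ | n ∈ Set.range (orderOf : H → ℕ) ∧ ∀ m ∈ Set.range (orderOf : H → ℕ), n ∣ m → m = n}
    · obtain ⟨i, ⟨h, hh⟩, -⟩ := hex
      exact main i h (Or.inl (by rw [hh]))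
    · push Not at hex
      by_cases hinj : Function.Injective fun i => orderOf (y i)
      · exfalso
        have hfin : ({n : ℕ | n ∈ Set.range (orderOf : G → ℕ) ∧ ∀ m ∈ Set.range (orderOf : G → ℕ), n ∣ m → m = n} \ {n : ℕ | n ∈ Set.range (orderOf : H → ℕ) ∧ ∀ m ∈ Set.range (orderOf : H → ℕ), n ∣ m → m = n}).Finite :=
          (Set.finite_range (orderOf : G → ℕ)).subset fun n hn => hn.1.1
        have := Set.ncard_le_ncard (s := Set.range fun i => orderOf (y i)) (by
          rintro _ ⟨i, rfl⟩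
          exact ⟨⟨⟨y i, rfl⟩, hmax i⟩, hex i⟩) hfin
        rw [Set.ncard_range_of_injective hinj] at this
        simp only [Nat.card_eq_fintype_card, Fintype.card_fin] at this
        omega
      · rw [Function.not_injective_iff] at hinj
        obtain ⟨i, j, hij, hne⟩ := hinj
        exact main i 1 (Or.inr ⟨j, hne.symm, hij⟩)
  · rintro _ ⟨⟨x, h⟩, rfl⟩
    obtain ⟨h', hh', hmax⟩ := exists_maximal h
    obtain ⟨⟨g, hg⟩, -⟩ := hsub ⟨⟨h', rfl⟩, hmax⟩
    let z : Fin (k + 1) → G := Fin.cons g x
    refine mem_range_of_dvd z ?_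
    rw [orderOf_dvd_iff_pow_eq_one]
    have hz := pow_orderOf_eq_one z
    refine Prod.ext ?_ ?_
    · funext j
      exact congrFun hz j.succ
    · change h ^ orderOf z = 1
      rw [← orderOf_dvd_iff_pow_eq_one]
      refine hh'.trans ?_
      rw [← hg, orderOf_dvd_iff_pow_eq_one]
      exact congrFun hz 0

end Cfsg.Agent.S2514
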