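import Cfsg.Statements.S2516
import Mathlib

set_option autoImplicit false
open Cfsg

namespace Cfsg.Agent.S2516

theorem pow_left {F : Type*} [Field F] {V : Type*} [AddCommGroup V] [Module F V]
    {G : Type*} [Group G] (ρ : Representation F G V)
    (x : Multiplicative V ⋊[(MulAutMultiplicative V).symm.toMonoidHom.comp
        ((DistribMulAction.toAddAut ((V →ₗ[F] V)ˣ) V).comp ρ.asGroupHom)] G) (n : ℕ) :
    (x ^ n).left = Multiplicative.ofAdd ((∑ i ∈ Finset.range n, (ρ x.right) ^ i) (Multiplicative.toAdd x.left)) := by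
  induction n with
  | zero => rw [pow_zero, Finset.range_zero, Finset.sum_empty]; rfl
  | succ n ih =>
    rw [pow_succ, SemidirectProduct.mul_left, ih, Finset.sum_range_succ, LinearMap.add_apply, ofAdd_add]
    congr 1
    have : (x ^ n).right = x.right ^ n := map_pow SemidirectProduct.rightHom x n
    rw [this, ← map_pow]
    rfl


/-- Let F be a field of characteristic p > 0, V a non-zero finite-dimensional F-vector space, G a finite group and ρ a representation of G on V; form the semidirect product V ⋊ G. For g ∈ G of order k, the coset Vg contains an element of order pk if and only if the minimal polynomial of ρ(g) does not divide 1 + X + ⋯ + X^(k−1). -/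
theorem result {F : Type*} [Field F] (p : ℕ) [Fact p.Prime] [CharP F p] {V : Type*} [AddCommGroup V] [Module F V] [FiniteDimensional F V] [Nontrivial V]
    {G : Type*} [Group G] [Finite G] (ρ : Representation F G V) (g : G) :
    (∃ x : Multiplicative V ⋊[(MulAutMultiplicative V).symm.toMonoidHom.comp
        ((DistribMulAction.toAddAut ((V →ₗ[F] V)ˣ) V).comp ρ.asGroupHom)] G,
        x.right = g ∧ orderOf x = p * orderOf g) ↔
      ¬ (minpoly F (ρ g) ∣ ∑ i ∈ Finset.range (orderOf g), (Polynomial.X : Polynomial F) ^ i) := by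
  have hp : p.Prime := Fact.out
  set k := orderOf g with hk
  have hkpos : 0 < k := orderOf_pos g
  have hdvd : (minpoly F (ρ g) ∣ ∑ i ∈ Finset.range k, (Polynomial.X : Polynomial F) ^ i) ↔
      (∑ i ∈ Finset.range k, (ρ g) ^ i) = 0 := by
    rw [minpoly.dvd_iff]
    simp
  rw [hdvd]
  have hr : ∀ x : Multiplicative V ⋊[(MulAutMultiplicative V).symm.toMonoidHom.comp
        ((DistribMulAction.toAddAut ((V →ₗ[F] V)ˣ) V).comp ρ.asGroupHom)] G, x.right = g →
        x ^ k = SemidirectProduct.inl (Multiplicative.ofAdd ((∑ i ∈ Finset.range k, (ρ g) ^ i) (Multiplicative.toAdd x.left))) := by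
    intro x hx
    ext
    · rw [pow_left, hx]; rfl
    · have : (x ^ k).right = x.right ^ k := map_pow SemidirectProduct.rightHom x k
      rw [this, hx, hk, pow_orderOf_eq_one]; rfl
  constructor
  · rintro ⟨x, hx, ho⟩ h0
    have := hr x hx
    rw [h0] at this
    simp only [LinearMap.zero_apply, ofAdd_zero, map_one] at this
    have h1 := Nat.le_of_dvd hkpos (orderOf_dvd_of_pow_eq_one this)
    have := hp.two_le
    rw [ho] at h1
    nlinarith
  · intro h0
    obtain ⟨v, hv⟩ : ∃ v, (∑ i ∈ Finset.range k, (ρ g) ^ i) v ≠ 0 := by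
      by_contra h
      push Not at h
      exact h0 (LinearMap.ext h)
    refine ⟨⟨Multiplicative.ofAdd v, g⟩, rfl, ?_⟩
    set x : Multiplicative V ⋊[(MulAutMultiplicative V).symm.toMonoidHom.comp
        ((DistribMulAction.toAddAut ((V →ₗ[F] V)ˣ) V).comp ρ.asGroupHom)] G := ⟨Multiplicative.ofAdd v, g⟩ with hxdef
    have h1 := hr x rfl
    have h2 : orderOf (x ^ k) = p := by
      rw [h1, orderOf_injective _ SemidirectProduct.inl_injective]
      apply orderOf_eq_prime
      · rw [← ofAdd_nsmul, ← Nat.cast_smul_eq_nsmul F, CharP.cast_eq_zero, zero_smul]; rfl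
      · intro h; exact hv h
    have h3 : k ∣ orderOf x := orderOf_map_dvd SemidirectProduct.rightHom x
    have h4 := orderOf_pow_of_dvd (x := x) hkpos.ne' h3
    rw [h2] at h4
    rw [h4, Nat.div_mul_cancel h3]

end Cfsg.Agent.S2516
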