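import Cfsg.Statements.S2518
import Cfsg.Agent.Lang.SpecG2
import Cfsg.Agent.Misc.SpecL2

set_option autoImplicit false
open Cfsg Cfsg.Lie Cfsg.Agent.Chev Cfsg.Agent.Lang

namespace Cfsg.Agent.S2518

/-- Let F₃ be the field with 3 elements and F₁₃ the field with 13 elements. The Chevalley group G₂(F₃) and PSL(2, F₁₃) have the same prime graph: the same prime divisors of their orders, and for distinct primes r, s an element of order rs in one iff in the other. -/
theorem result {F : Type*} [Field F] [Fintype F] (hF : Fintype.card F = 3) {E : Type*} [Field E] [Fintype E] (hE : Fintype.card E = 13) :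
    ((∀ r : ℕ, r.Prime → (r ∣ Nat.card ↥(Cfsg.Lie.chevG2.group F) ↔ r ∣ Nat.card (Matrix.ProjectiveSpecialLinearGroup (Fin 2) E))) ∧
      (∀ r s : ℕ, r.Prime → s.Prime → r ≠ s → ((∃ x : ↥(Cfsg.Lie.chevG2.group F), orderOf x = r * s) ↔ (∃ y : (Matrix.ProjectiveSpecialLinearGroup (Fin 2) E), orderOf y = r * s)))) := by
  have : Fact (Nat.Prime 3) := ⟨by norm_num⟩
  have : Fact (Nat.Prime 13) := ⟨by norm_num⟩
  have := charP_of_card_eq_prime hF
  have := charP_of_card_eq_prime hE
  have hq : (Fintype.card F : ℤ) = 3 := by simp [hF]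
  have key : ∀ n, Squarefree n → ((∃ x : chevG2.group F, orderOf x = n) ↔
      ∃ y : Matrix.ProjectiveSpecialLinearGroup (Fin 2) E, orderOf y = n) := fun n hn => by
    refine Iff.trans ?_ (Misc.Spec.mem_range_orderOf_PSL2 (F := E) 13 n).symm
    rw [Nat.card_eq_fintype_card, hE]
    constructor
    · rintro ⟨x, rfl⟩
      have h := orderOf_G2 3 x hq
      have h2 : ∀ m : ℕ, m ≠ 0 → orderOf x ∣ 6 ^ m → orderOf x ∣ 6 := fun m => by
        intro h; exact (hn.dvd_pow_iff_dvd h).1
      norm_num at h ⊢
      norm_cast at h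
      rcases h with h | h | h | h | h | h
      · exact .inr (.inl (h2 3 (by simp) (h.trans (by norm_num))))
      · exact .inl h
      · exact .inr (.inr h)
      · exact .inr (.inl (h2 2 (by simp) (h.trans (by norm_num))))
      · exact .inr (.inl h)
      · exact .inr (.inl (h2 2 (by simp) ((h 2 (by simp)).trans (by norm_num))))
    · rintro (h | h | h)
      · exact Misc.Spec.mem_range_orderOf_of_dvd ((exists_orderOf_G2 3 hq).1 (by norm_num)) h
      · exact Misc.Spec.mem_range_orderOf_of_dvd ((exists_orderOf_G2 3 hq (N := 2)).2 (by norm_num)) h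
      · exact Misc.Spec.mem_range_orderOf_of_dvd ((exists_orderOf_G2 3 hq).1 (by norm_num)) h
  refine ⟨fun r hr => ?_, fun r s hr hs hrs => key _ (Nat.squarefree_mul_iff.2
    ⟨(Nat.coprime_primes hr hs).2 hrs, hr.squarefree, hs.squarefree⟩)⟩
  have := Fact.mk hr
  exact ⟨fun h => by
    obtain ⟨y, rfl⟩ := (key r hr.squarefree).1 (exists_prime_orderOf_dvd_card' r h)
    exact orderOf_dvd_natCard y, fun h => by
    obtain ⟨y, rfl⟩ := (key r hr.squarefree).2 (exists_prime_orderOf_dvd_card' r h)
    exact orderOf_dvd_natCard y⟩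

end Cfsg.Agent.S2518
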