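import Cfsg.Statements.S2519
import Cfsg.Agent.Lang.SpecG2

set_option autoImplicit false
open Cfsg Cfsg.Lie Cfsg.Agent.Chev Cfsg.Agent.Lang

namespace Cfsg.Agent.S2519

theorem anti {p q : ℤ} (h2 : 2 ≤ p) (hd : p ∣ q) (hq : 5 ≤ q) (hp : Prime p) :
    ∀ a ∈ [p * (q + 1), p * (q - 1), p * p, q ^ 2 - 1, q ^ 2 + q + 1, q ^ 2 - q + 1],
      ∀ b ∈ [p * (q + 1), p * (q - 1), p * p, q ^ 2 - 1, q ^ 2 + q + 1, q ^ 2 - q + 1],
        a ∣ b → b = a := by
  have h0 := Int.le_of_dvd (by omega) hd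
  obtain ⟨s, hs⟩ := hd
  have hc : ∀ a ∈ [q + 1, q - 1, q ^ 2 - 1, q ^ 2 + q + 1, q ^ 2 - q + 1], IsCoprime a p := by
    simp only [List.forall_mem_cons, List.not_mem_nil, hs]
    exact ⟨⟨1, -s, by ring⟩, ⟨-1, s, by ring⟩, ⟨-1, s * (p * s), by ring⟩,
      ⟨1, -s * (p * s + 1), by ring⟩, ⟨1, -s * (p * s - 1), by ring⟩, by simp⟩
  have h1 : ∀ a ∈ [q + 1, q - 1, q ^ 2 - 1, q ^ 2 + q + 1, q ^ 2 - q + 1], ¬ p ∣ a :=
    fun a ha h => hp.not_isUnit ((hc a ha).isUnit_of_dvd' h dvd_rfl)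
  have h3 : ∀ a ∈ [q ^ 2 - 1, q ^ 2 + q + 1, q ^ 2 - q + 1], ∀ b, 0 < b → b ≤ 2 * q → ¬ a ∣ b :=
    fun a ha b h h' e => by
      have := Int.le_of_dvd h e
      simp only [List.mem_cons, List.not_mem_nil, or_false] at ha
      rcases ha with rfl | rfl | rfl <;> nlinarith
  have h4 : ∀ a ∈ [q ^ 2 - 1, q ^ 2 + q + 1, q ^ 2 - q + 1], ∀ b, 0 < b → b ≤ 2 * q → ¬ a ∣ p * b :=
    fun a ha b h h' e => h3 a ha b h h' ((hc a (by simp_all)).dvd_of_dvd_mul_left e)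
  have h5 : ∀ a ∈ [q ^ 2 - 1, q ^ 2 + q + 1, q ^ 2 - q + 1], ∀ b, ¬ p * b ∣ a :=
    fun a ha b e => h1 a (by simp_all) ((dvd_mul_right _ _).trans e)
  have h6 : ∀ a b : ℤ, a ∣ b → a ∣ b - a ∧ a ∣ a - b := fun a b h =>
    ⟨dvd_sub h dvd_rfl, dvd_sub dvd_rfl h⟩
  simp only [List.forall_mem_cons, List.not_mem_nil, false_imp_iff, implies_true, and_true,
    mul_dvd_mul_iff_left hp.ne_zero, true_and] at h1 h3 h4 h5 ⊢
  simp only [h1, h5, false_imp_iff, and_true, true_and]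
  refine ⟨⟨fun h => ?_, fun h => ?_⟩, ⟨fun h => ?_, fun h => ?_⟩,
    ⟨fun h => ?_, fun h => ?_, fun h => ?_, fun h => ?_, fun h => ?_⟩,
    ⟨fun h => ?_, fun h => ?_, fun h => ?_, fun h => ?_, fun h => ?_⟩,
    fun h => ?_, fun h => ?_, fun h => ?_, fun h => ?_, fun h => ?_⟩ <;> exfalso
  · have := Int.le_of_dvd (by omega) h; omega
  · have := Int.le_of_dvd (by omega) h; omega
  · have := Int.le_of_dvd (by omega) (h6 _ _ h).1; omega
  · exact (hc (q - 1) (by simp)).isUnit_of_dvd' dvd_rfl h |>.elim fun u hu => by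
      rcases Int.units_eq_one_or u with rfl | rfl <;> simp at hu <;> omega
  · exact h4.1 _ (by omega) (by omega) h
  · exact h4.1 _ (by omega) (by omega) h
  · exact h4.1 _ (by omega) (by omega) h
  · exact h3.1 _ (by omega) (by omega) (h6 _ _ h).1
  · exact h3.1 _ (by omega) (by omega) (h6 _ _ h).2
  · exact h4.2.1 _ (by omega) (by omega) h
  · exact h4.2.1 _ (by omega) (by omega) h
  · exact h4.2.1 _ (by omega) (by omega) h
  · exact h3.2.1 _ (by omega) (by omega) (h6 _ _ h).2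
  · exact h3.2.1 _ (by omega) (by omega) (h6 _ _ h).2
  · exact h4.2.2 _ (by omega) (by omega) h
  · exact h4.2.2 _ (by omega) (by omega) h
  · exact h4.2.2 _ (by omega) (by omega) h
  · exact h3.2.2 _ (by omega) (by omega) (h6 _ _ h).1
  · exact h3.2.2 _ (by omega) (by omega) (h6 _ _ h).1

/-- Let F be a finite field of odd order q = p^a ≥ 5. The element orders of the Chevalley group G₂(F) that are maximal under divisibility are exactly p(q + 1), p(q − 1), q² − 1, q² + q + 1, q² − q + 1, together with p² when p is 3 or 5. -/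
theorem result {F : Type*} [Field F] [Fintype F] (p a : ℕ) (hp : p.Prime) (hp2 : p ≠ 2) (ha : 1 ≤ a) (hF : Fintype.card F = p ^ a) (hq5 : 5 ≤ Fintype.card F) :
    {n : ℕ | n ∈ Set.range (orderOf : ↥(Cfsg.Lie.chevG2.group F) → ℕ) ∧ ∀ m ∈ Set.range (orderOf : ↥(Cfsg.Lie.chevG2.group F) → ℕ), n ∣ m → m = n} =
      ({p * (p ^ a + 1), p * (p ^ a - 1), p ^ (2 * a) - 1, p ^ (2 * a) + p ^ a + 1, p ^ (2 * a) - p ^ a + 1} : Set ℕ) ∪
        (if p = 3 ∨ p = 5 then ({p ^ 2} : Set ℕ) else ∅) := by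
  have := Fact.mk hp
  have := charP_of_card_eq_prime_pow hF
  have hq : (Fintype.card F : ℤ) = p ^ a := by simp [hF]
  have h1 : 1 ≤ p ^ a := Nat.one_le_pow _ _ hp.pos
  have h2 : 1 ≤ p ^ (2 * a) := Nat.one_le_pow _ _ hp.pos
  have h3 : p ^ a ≤ p ^ (2 * a) := Nat.pow_le_pow_right hp.pos (by omega)
  have h4 : (p : ℤ) ^ (2 * a) = (p ^ a) ^ 2 := by ring
  set M := ({p * (p ^ a + 1), p * (p ^ a - 1), p ^ (2 * a) - 1, p ^ (2 * a) + p ^ a + 1,
    p ^ (2 * a) - p ^ a + 1} : Set ℕ) ∪ (if p = 3 ∨ p = 5 then ({p ^ 2} : Set ℕ) else ∅)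
  have hM : ∀ m, m ∈ M ↔ (m : ℤ) ∈ [(p : ℤ) * (p ^ a + 1), p * (p ^ a - 1), (p ^ a) ^ 2 - 1,
      (p ^ a) ^ 2 + p ^ a + 1, (p ^ a) ^ 2 - p ^ a + 1] ∨ (p = 3 ∨ p = 5) ∧ (m : ℤ) = p * p := by
    intro m
    simp only [M, Set.mem_union, Set.mem_insert_iff, Set.mem_singleton_iff, Set.mem_ite_empty_right,
      List.mem_cons, List.not_mem_nil, or_false, ← Nat.cast_inj (R := ℤ) (m := m)]
    push_cast [h1, h2, h3, h4, sq]
    rfl
  have key : M ⊆ Set.range (orderOf : chevG2.group F → ℕ) := by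
    rintro _ ((rfl | rfl | rfl | rfl | rfl) | h)
    · exact (exists_orderOf_G2 p hq).2 (by simp)
    · exact (exists_orderOf_G2 p hq).2 (by simp [h1])
    · exact (exists_orderOf_G2 p hq).1 (by simp [h2, h4])
    · exact (exists_orderOf_G2 p hq).1 (by simp [h4])
    · exact (exists_orderOf_G2 p hq).1 (by simp [h3, h4])
    · rw [Set.mem_ite_empty_right] at h
      exact h.2 ▸ exists_orderOf_G2_sq p h.1
  have h5 : ∀ x : chevG2.group F, ∃ m ∈ M, orderOf x ∣ m := fun x => by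
    simp only [← Int.natCast_dvd_natCast, M, Set.mem_union, Set.mem_insert_iff, or_and_right,
      exists_or, Set.mem_singleton_iff, exists_eq_left, Set.mem_ite_empty_right, and_assoc,
      exists_and_left]
    push_cast [h1, h2, h3, h4]
    rcases orderOf_G2 p x hq with h | h | h | h | h | h | h
    iterate 5 simp [h]
    · by_cases e : p = 3 ∨ p = 5
      · exact .inr (e.imp (fun e => ⟨e, by exact_mod_cast h 2 (by simp [e])⟩)
          fun e => ⟨e, by exact_mod_cast h 2 (by simp [e])⟩)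
      · have h6 : p ≠ 4 := by rintro rfl; exact absurd hp (by decide)
        have := hp.two_le
        exact .inl (.inl ((by exact_mod_cast h 1 (by rw [pow_one]; omega) : _ ∣ (p : ℤ) ^ 1).trans (by simp)))
    · exact absurd h.1 hp2
  ext n
  refine ⟨fun ⟨⟨x, hx⟩, h⟩ => ?_, fun hn => ⟨key hn, ?_⟩⟩
  · obtain ⟨m, hm, h6⟩ := h5 x
    exact h m (key hm) (hx ▸ h6) ▸ hm
  · rintro _ ⟨x, rfl⟩ h
    obtain ⟨m, hm, h6⟩ := h5 x
    have e : ∀ m ∈ M, (m : ℤ) ∈ [(p : ℤ) * (p ^ a + 1), p * (p ^ a - 1), p * p, (p ^ a) ^ 2 - 1,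
        (p ^ a) ^ 2 + p ^ a + 1, (p ^ a) ^ 2 - p ^ a + 1] := fun m hm => by
      have := (hM m).1 hm
      simp only [List.mem_cons] at this ⊢
      tauto
    obtain rfl : m = n := Int.natCast_inj.1 (anti (by exact_mod_cast hp.two_le)
      (dvd_pow_self _ (by omega)) (by rw [← hq]; exact_mod_cast hq5) (Nat.prime_iff_prime_int.1 hp) _
      (e n hn) _ (e m hm) (Int.natCast_dvd_natCast.2 (h.trans h6)))
    exact Nat.dvd_antisymm h6 h

end Cfsg.Agent.S2519
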