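import Cfsg.Statements.S2520
import Cfsg.Agent.Lang.SpecG2

set_option autoImplicit false
open Cfsg Cfsg.Lie Cfsg.Agent.Chev Cfsg.Agent.Lang

namespace Cfsg.Agent.S2520

/-- Let F be a finite field with q = 2^a ≥ 4 elements and G₂(F) the Chevalley group of type G₂ over it. Every element order of G₂(F) maximal under divisibility lies in the set {8, 12, 2(q + 1), 2(q − 1), q² − 1, q² + q + 1, q² − q + 1}, and every member of that set is an element order of G₂(F). -/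
theorem result {F : Type*} [Field F] [Fintype F] (a : ℕ) (ha : 2 ≤ a) (hF : Fintype.card F = 2 ^ a) :
    {n : ℕ | n ∈ Set.range (orderOf : ↥(Cfsg.Lie.chevG2.group F) → ℕ) ∧ ∀ m ∈ Set.range (orderOf : ↥(Cfsg.Lie.chevG2.group F) → ℕ), n ∣ m → m = n} ⊆ ({8, 12, 2 * (2 ^ a + 1), 2 * (2 ^ a - 1), 2 ^ (2 * a) - 1, 2 ^ (2 * a) + 2 ^ a + 1, 2 ^ (2 * a) - 2 ^ a + 1} : Set ℕ) ∧
    ({8, 12, 2 * (2 ^ a + 1), 2 * (2 ^ a - 1), 2 ^ (2 * a) - 1, 2 ^ (2 * a) + 2 ^ a + 1, 2 ^ (2 * a) - 2 ^ a + 1} : Set ℕ) ⊆ Set.range (orderOf : ↥(Cfsg.Lie.chevG2.group F) → ℕ) := by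
  have := charP_of_card_eq_prime_pow hF
  have hq : (Fintype.card F : ℤ) = 2 ^ a := by simp [hF]
  have h1 : 1 ≤ 2 ^ a := Nat.one_le_two_pow
  have h2 : 1 ≤ 2 ^ (2 * a) := Nat.one_le_two_pow
  have h3 : 2 ^ a ≤ 2 ^ (2 * a) := Nat.pow_le_pow_right two_pos (by omega)
  have h4 : (2 : ℤ) ^ (2 * a) = (2 ^ a) ^ 2 := by ring
  have key : ({8, 12, 2 * (2 ^ a + 1), 2 * (2 ^ a - 1), 2 ^ (2 * a) - 1, 2 ^ (2 * a) + 2 ^ a + 1,
      2 ^ (2 * a) - 2 ^ a + 1} : Set ℕ) ⊆ Set.range (orderOf : chevG2.group F → ℕ) := by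
    rintro _ (rfl | rfl | rfl | rfl | rfl | rfl | rfl)
    · exact exists_orderOf_G2_two.1
    · exact exists_orderOf_G2_two.2
    · exact (exists_orderOf_G2 2 hq).2 (by simp)
    · exact (exists_orderOf_G2 2 hq).2 (by simp [h1])
    · exact (exists_orderOf_G2 2 hq).1 (by simp [h2, h4])
    · exact (exists_orderOf_G2 2 hq).1 (by simp [h4])
    · exact (exists_orderOf_G2 2 hq).1 (by simp [h3, h4])
  refine ⟨?_, key⟩
  rintro _ ⟨⟨x, rfl⟩, h⟩
  obtain ⟨m, hm, h5⟩ : ∃ m ∈ ({8, 12, 2 * (2 ^ a + 1), 2 * (2 ^ a - 1), 2 ^ (2 * a) - 1,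
      2 ^ (2 * a) + 2 ^ a + 1, 2 ^ (2 * a) - 2 ^ a + 1} : Set ℕ), (orderOf x : ℤ) ∣ m := by
    simp only [Set.mem_insert_iff, Set.mem_singleton_iff, exists_eq_or_imp, exists_eq_left]
    push_cast [h1, h2, h3, h4]
    rcases orderOf_G2 2 x hq with h | h | h | h | h | h | h
    iterate 3 simp only [h, true_or, or_true]
    iterate 2 simp only [Nat.cast_ofNat] at h; simp only [h, true_or, or_true]
    · exact .inl (by exact_mod_cast h 3 (by simp))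
    · exact .inr (.inl (by exact_mod_cast h.2))
  exact h m (key hm) (Int.natCast_dvd_natCast.1 h5) ▸ hm

end Cfsg.Agent.S2520
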