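import Cfsg.Statements.S2524
import Mathlib
import Cfsg.Agent.KSG.WeilUniq
import Cfsg.Agent.KSG.CharTools

set_option autoImplicit false
open Cfsg

namespace Cfsg.Agent.S2524

open KSG Char Module Matrix Class.Sp

section
variable {F : Type*} [Field F] [Fintype F] [DecidableEq F] {n : ℕ}

local notation "Sp" => symplecticGroup (Fin n) F

theorem shift_ne {ψ : AddChar F ℂ} (hψ : ψ ≠ 1) {k : F} (hk : k ≠ 0) : ψ.mulShift k ≠ 1 := by
  obtain ⟨t, ht⟩ := AddChar.ne_one_iff.1 hψ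
  exact AddChar.ne_one_iff.2 ⟨t / k, by simpa [mul_div_cancel₀ _ hk] using ht⟩

/-- The Weil characters. -/
noncomputable def wch (h2 : (2 : F) ≠ 0) {ψ : AddChar F ℂ} (hψ : ψ ≠ 1) (n : ℕ) (ε : ℂ) :
    symplecticGroup (Fin n) F → ℂ := (weilPart (n := n) h2 hψ ε).toRepresentation.character

theorem wch_congr (h2 : (2 : F) ≠ 0) {ψ ψ' : AddChar F ℂ} (hψ : ψ ≠ 1) (hψ' : ψ' ≠ 1) (e : ψ = ψ')
    {ε : ℂ} : wch h2 hψ n ε = wch h2 hψ' n ε := by
  subst e; rfl

theorem wch_one (h2 : (2 : F) ≠ 0) {ψ : AddChar F ℂ} (hψ : ψ ≠ 1) {ε : ℂ} (hε : ε * ε = 1) :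
    2 * wch h2 hψ n ε 1 = (Fintype.card F : ℂ) ^ n + ε := by
  rw [wch, Representation.char_one]
  exact finrank_parityPart h2 hε

theorem wch_irr (h2 : (2 : F) ≠ 0) {ψ : AddChar F ℂ} (hψ : ψ ≠ 1) (hn : 2 ≤ n) {ε : ℂ}
    (hε : ε = 1 ∨ ε = -1) : IsIrrCharacter _ (wch h2 hψ n ε) := by
  have h1 := two_mul_finrank_parityPart_neg_one (n := n) h2
  have h3 := finrank_parityPart_one (n := n) h2
  have h4 : 1 < Fintype.card F ^ n := Nat.one_lt_pow (by omega) Fintype.one_lt_card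
  have := weilPart_isIrreducible (n := n) h2 hψ (ε := ε) (by rcases hε with rfl | rfl <;> simp)
    (by rcases hε with rfl | rfl <;> omega)
  exact isIrrCharacter_character _

theorem weil_char (h2 : (2 : F) ≠ 0) {ψ : AddChar F ℂ} (hψ : ψ ≠ 1) :
    (weilRep (n := n) h2 hψ).character = wch h2 hψ n 1 + wch h2 hψ n (-1) := by
  refine char_eq_add_of_isCompl (weilPart h2 hψ 1) (weilPart h2 hψ (-1)) ⟨?_, ?_⟩
  · refine Submodule.disjoint_def.2 fun w h1 h3 => ?_
    have h1 := mem_parityPart.1 h1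
    have h3 := mem_parityPart.1 h3
    have : (2 : ℂ) • w = 0 := by linear_combination (norm := module) h3 - h1
    simpa using this
  · rw [codisjoint_iff, eq_top_iff]
    intro w _
    refine Submodule.mem_sup.2 ⟨(1 / 2 : ℂ) • (w + parityOp n F w), mem_parityPart.2 ?_,
      (1 / 2 : ℂ) • (w - parityOp n F w), mem_parityPart.2 ?_, ?_⟩ <;>
    · ext x
      simp [parityOp_apply]
      ring

theorem weil_apply (h2 : (2 : F) ≠ 0) {ψ : AddChar F ℂ} (hψ : ψ ≠ 1) (hn : 2 ≤ n)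
    (b : Fin n → F) (c : F) (w : (Fin n → F) → ℂ) (y : Fin n → F) :
    weilRep h2 hψ (tv (Sum.elim 0 b) c) w y = ψ (c * (b ⬝ᵥ y) ^ 2) * w y := by
  have : (LinearMap.proj y : ((Fin n → F) → ℂ) →ₗ[ℂ] ℂ) ∘ₗ weilRep h2 hψ (tv (Sum.elim 0 b) c) =
      ψ (c * (b ⬝ᵥ y) ^ 2) • LinearMap.proj y := by
    refine LinearMap.pi_ext' fun z => LinearMap.ext_ring ?_
    simp only [LinearMap.comp_apply, LinearMap.coe_single, (hw_single b z).weil_tv h2 hψ hn]
    by_cases hz : z = y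
    · simp [hz]
    · simp [Ne.symm hz]
  simpa using LinearMap.congr_fun this w

theorem wch_ne (h2 : (2 : F) ≠ 0) {ψ : AddChar F ℂ} (hψ : ψ ≠ 1) (hn : 2 ≤ n) {ν : F} (hν0 : ν ≠ 0)
    (hν : ¬ IsSquare ν) {ε : ℂ} (hε : ε * ε = 1) :
    wch h2 hψ n ε ≠ wch h2 (shift_ne hψ hν0) n ε := by
  intro h
  let y : Fin n → F := Pi.single ⟨0, by omega⟩ 1
  let t : AddChar F Sp := ⟨fun c => tv (Sum.elim 0 y) c, tv_zero _, fun a b => (tv_mul_tv _ a b).symm⟩
  have h1 := finrank_wt_eq (τ := MonoidHom.compAddChar (weilPart (n := n) h2 hψ ε).toRepresentation t)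
    hψ LinearMap.id
  have h3 := finrank_wt_eq (τ := MonoidHom.compAddChar
    (weilPart (n := n) h2 (shift_ne hψ hν0) ε).toRepresentation t) hψ LinearMap.id
  change _ = _ * ∑ a, _ * wch h2 hψ n ε (t a) at h1
  change _ = _ * ∑ a, _ * wch h2 (shift_ne hψ hν0) n ε (t a) at h3
  rw [← h, ← h1, Nat.cast_inj, (Submodule.eq_bot_iff (wtSpace ψ (MonoidHom.compAddChar
    (weilPart (n := n) h2 (shift_ne hψ hν0) ε).toRepresentation t) LinearMap.id)).2, finrank_bot,
    eq_comm, Submodule.finrank_eq_zero, Submodule.eq_bot_iff] at h3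
  · have hy : y ≠ -y := fun e => h2 (by
      have := congrFun e ⟨0, by omega⟩
      simp only [y, Pi.single_eq_same, Pi.neg_apply] at this
      linear_combination this)
    have := h3 ⟨Pi.single y 1 + ε • Pi.single (-y) 1, mem_parityPart.2 (by
      ext x
      simp [parityOp_apply, Pi.single_apply, neg_eq_iff_eq_neg, mul_add, ← mul_assoc, hε, add_comm])⟩
      fun c => Subtype.ext (by
        ext x
        change weilRep h2 hψ (tv (Sum.elim 0 y) c) _ x = ψ c * _
        rw [weil_apply h2 hψ hn]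
        by_cases h1 : x = y
        · simp [h1, y]
        by_cases h3 : x = -y
        · simp [h3, y]
        · simp [h1, h3])
    simpa [hy] using congrFun (congrArg Subtype.val this) y
  · intro w hw
    refine Subtype.ext (funext fun x => ?_)
    by_contra hx
    obtain ⟨c, hc⟩ := addChar_mul_ne hψ (x := ν * (y ⬝ᵥ x) ^ 2) (y := 1) fun e => hν
      ⟨ν * (y ⬝ᵥ x), by linear_combination (-ν) * e⟩
    have := congrFun (congrArg Subtype.val (hw c)) x
    change weilRep h2 (shift_ne hψ hν0) (tv (Sum.elim 0 y) c) _ x = ψ c * _ at this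
    rw [weil_apply h2 _ hn] at this
    exact hc (by simpa [mul_left_comm] using mul_right_cancel₀ hx this)

theorem classify (h2 : (2 : F) ≠ 0) {ψ : AddChar F ℂ} (hψ : ψ ≠ 1) (hn : 2 ≤ n) {ν : F}
    (hν0 : ν ≠ 0) (hν : ¬ IsSquare ν) {χ : Sp → ℂ} (hχ : IsIrrCharacter _ χ) {d : ℕ} (hd : χ 1 = d)
    (h1 : d ≠ 1) (h : 2 * (Nat.card F + 1) * d <
      (Nat.card F ^ n - 1) * (Nat.card F ^ n - Nat.card F)) :
    (χ = wch h2 hψ n 1 ∨ χ = wch h2 hψ n (-1)) ∨
      χ = wch h2 (shift_ne hψ hν0) n 1 ∨ χ = wch h2 (shift_ne hψ hν0) n (-1) := by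
  have h0 := hχ.one_ne_zero
  have hχ' := hχ
  obtain ⟨m, ρ, hρ, rfl⟩ := hχ
  rw [Representation.char_one, Module.finrank_fin_fun, Nat.cast_inj] at hd
  subst hd
  rw [Representation.char_one, Module.finrank_fin_fun, Nat.cast_ne_zero] at h0
  have r1 : ∀ {ψ : AddChar F ℂ}, ψ ≠ 1 → R1 ψ ρ := fun hψ =>
    r1_of_small h2 hn hψ ρ (by rwa [Module.finrank_fin_fun])
  let i0 : Fin n := ⟨0, by omega⟩
  obtain ⟨c, hc⟩ : ∃ c, ρ (tv (Sum.elim (Pi.single i0 1) 0) c) ≠ 1 := by
    by_contra! H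
    obtain ⟨g, hg⟩ := exists_ne_one_of_irreducible ρ hρ (by omega)
    have : MonoidHom.ker ρ = ⊤ := eq_top_of_tv_mem fun u c => by
      by_cases hu : u = 0
      · rw [hu, tv_zero_vec]; exact one_mem _
      obtain ⟨g, rfl⟩ := exists_smul_eq (u := Sum.elim (Pi.single i0 1) 0)
        (fun e => by simpa using congrFun e (.inl i0)) hu
      rw [← conj_tv]
      exact (MonoidHom.normal_ker ρ).conj_mem _ (H c) g
    exact hg (by rw [← MonoidHom.mem_ker, this]; trivial)
  rw [tv_inl] at hc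
  obtain ⟨f, hf, hf0⟩ := exists_wt_of_ne_one hψ (Nat.cast_ne_zero.2 Nat.card_pos.ne') (siegelRep ρ) hc
  obtain ⟨v, hv, hv0⟩ := (Submodule.ne_bot_iff _).1 hf
  have hv1 : ∀ w c, ρ (tv (Sum.elim w 0) c) v = ψ (c * quadOf f w) • v := fun w c => by
    rw [tv_inl, quadOf_apply, ← smul_eq_mul, ← f.map_smul]; exact hv _
  set u0 : Fin n → F := Pi.single i0 1
  have hk : quadOf f u0 ≠ 0 := fun e => hf0 (by rw [map_smul, ← quadOf_apply, e, smul_zero])
  have hQ : ∀ b, (QuadraticMap.polar (quadOf f) u0 b / 2) ^ 2 = quadOf f u0 * quadOf f b := fun b =>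
    r1 hψ (Sum.elim u0 0) (Sum.elim b 0) (by simp [form_elim]) v hv0 _ _ _ (hv1 _) (hv1 _) fun c => by
      rw [show (Sum.elim u0 0 + Sum.elim b 0 : Fin n ⊕ Fin n → F) = Sum.elim (u0 + b) 0 by
        ext (i | i) <;> simp, hv1, QuadraticMap.polar]
      congr 3
      field_simp
      ring
  have main : ∀ (k a : F) (hk0 : k ≠ 0), quadOf f u0 = k * a ^ 2 →
      ρ.character = wch h2 (shift_ne hψ hk0) n 1 ∨ ρ.character = wch h2 (shift_ne hψ hk0) n (-1) := by
    intro k a hk0 ha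
    have ha0 : a ≠ 0 := by rintro rfl; simp [ha] at hk
    obtain ⟨y, hy⟩ := Class.GLStab.exists_dot_eq ((2 * k * a)⁻¹ • (quadOf f).polarBilin u0)
    have hy' : ∀ b, quadOf f b = k * (y ⬝ᵥ b) ^ 2 := fun b => by
      have := hQ b
      rw [ha] at this
      rw [hy]
      simp only [LinearMap.smul_apply, QuadraticMap.polarBilin_apply_apply, smul_eq_mul]
      field_simp at this ⊢
      linear_combination -this
    have : Nontrivial (Fin n) := Fin.nontrivial_iff_two_le.2 hn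
    obtain ⟨g, hg, hg'⟩ := Class.GLStab.exists_det_eq_mulVec_eq (u := y) (u' := u0)
      (by rintro rfl; simp [hy'] at hk) (by simp [u0]) (one_ne_zero (α := F))
    let g' : Matrix.SpecialLinearGroup (Fin n) F := ⟨g, hg⟩
    let G : Sp := lev g' * SymplecticGroup.symJ (Fin n) F
    obtain ⟨Φ, hΦ, hΦ'⟩ := exists_intw h2 (shift_ne hψ hk0) hn (r1 (shift_ne hψ hk0)) (i0 := i0) rfl
      (v := ρ G v) (fun e => hv0 (rep_injective ρ G (by simpa using e))) fun b c => by
        have e1 : G • (Sum.elim (g.1ᵀ *ᵥ b) 0 : Fin n ⊕ Fin n → F) =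
            Sum.elim (0 : Fin n → F) b := by
          have : SymplecticGroup.symJ (Fin n) F • (Sum.elim (g.1ᵀ *ᵥ b) 0 : Fin n ⊕ Fin n → F) =
              Sum.elim (0 : Fin n → F) (g.1ᵀ *ᵥ b) := by
            simp [smul_def, J, fromBlocks_mulVec]
          rw [mul_smul, this, lev_smul_R, mulVec_mulVec, ← transpose_mul]
          erw [sl_mul_inv g']
          simp
        rw [← e1, ← Module.End.mul_apply, ← map_mul, ← mul_tv, map_mul, Module.End.mul_apply, hv1,
          map_smul, hy', dotProduct_comm, mulVec_transpose, ← dotProduct_mulVec, hg']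
        simp [mul_left_comm, u0]
    have := Fintype.ofFinite Sp
    refine eq_or_eq_of_inner_add hχ' (wch_irr h2 _ hn (Or.inl rfl)) (wch_irr h2 _ hn (Or.inr rfl)) ?_
    rw [← weil_char, ← classInner_conj_symm, classInner_character, map_natCast, Nat.cast_ne_zero,
      Ne, Module.finrank_zero_iff]
    intro H
    have := H.elim (⟨Φ, fun g => LinearMap.ext (hΦ' g)⟩ : (weilRep h2 _).IntertwiningMap ρ) 0
    exact hΦ (congrArg Representation.IntertwiningMap.toLinearMap this)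
  by_cases hs : IsSquare (quadOf f u0)
  · obtain ⟨a, ha⟩ := hs
    left
    have := main 1 a one_ne_zero (by rw [ha]; ring)
    rwa [wch_congr h2 _ hψ (AddChar.mulShift_one ψ), wch_congr h2 _ hψ (AddChar.mulShift_one ψ)] at this
  · right
    have : IsSquare (quadOf f u0 * ν) := by
      rw [← quadraticChar_one_iff_isSquare (mul_ne_zero hk hν0), map_mul,
        quadraticChar_neg_one_iff_not_isSquare.2 hs, quadraticChar_neg_one_iff_not_isSquare.2 hν]
      simp
    obtain ⟨a, ha⟩ := this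
    exact main ν (a / ν) hν0 (by field_simp; linear_combination ha)

end


/-- Let F be a finite field of odd order q and G = Sp(2n, F) with n ≥ 2. Then G has exactly four irreducible complex characters of degree (q^n + 1)/2 or (q^n − 1)/2 (two of each), and every other non-principal irreducible character has degree at least (q^n − 1)(q^n − q)/(2(q + 1)). -/
theorem result {F : Type*} [Field F] [Fintype F] (hodd : Odd (Fintype.card F)) (n : ℕ) (hn : 2 ≤ n) :
    Nat.card {χ : Cfsg.IrrCharacter ↥(Matrix.symplecticGroup (Fin n) F) // (χ : ↥(Matrix.symplecticGroup (Fin n) F) → ℂ) 1 = (((Fintype.card F) ^ n + 1 : ℕ) : ℂ) / 2} = 2 ∧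
    Nat.card {χ : Cfsg.IrrCharacter ↥(Matrix.symplecticGroup (Fin n) F) // (χ : ↥(Matrix.symplecticGroup (Fin n) F) → ℂ) 1 = (((Fintype.card F) ^ n - 1 : ℕ) : ℂ) / 2} = 2 ∧
    ∀ χ : Cfsg.IrrCharacter ↥(Matrix.symplecticGroup (Fin n) F),
      (χ : ↥(Matrix.symplecticGroup (Fin n) F) → ℂ) 1 ≠ 1 →
      (χ : ↥(Matrix.symplecticGroup (Fin n) F) → ℂ) 1 ≠ (((Fintype.card F) ^ n + 1 : ℕ) : ℂ) / 2 →
      (χ : ↥(Matrix.symplecticGroup (Fin n) F) → ℂ) 1 ≠ (((Fintype.card F) ^ n - 1 : ℕ) : ℂ) / 2 →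
      (((Fintype.card F) ^ n - 1 : ℕ) : ℝ) * (((Fintype.card F) ^ n - Fintype.card F : ℕ) : ℝ) / (2 * ((Fintype.card F : ℕ) + 1 : ℝ)) ≤ ‖(χ : ↥(Matrix.symplecticGroup (Fin n) F) → ℂ) 1‖ := by
  classical
  have hc : ringChar F ≠ 2 := by
    intro h
    have := FiniteField.even_card_of_char_two h
    obtain ⟨k, hk⟩ := hodd
    omega
  have h2 : (2 : F) ≠ 0 := Ring.two_ne_zero hc
  have hψ : AddChar.FiniteField.primitiveChar_to_Complex F ≠ 1 := by
    simpa using AddChar.FiniteField.primitiveChar_to_Complex_isPrimitive F (a := 1) one_ne_zero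
  have hq2 : 2 ≤ Fintype.card F := Fintype.one_lt_card
  have hq3 : 3 ≤ Fintype.card F := by
    obtain ⟨k, hk⟩ := hodd
    omega
  obtain ⟨ν, hν⟩ := FiniteField.exists_nonsquare hc
  have hν0 : ν ≠ 0 := by rintro rfl; simp at hν
  have hx : Fintype.card F * Fintype.card F ≤ Fintype.card F ^ n := by
    rw [← sq]; exact Nat.pow_le_pow_right (by omega) hn
  have hx9 : 9 ≤ Fintype.card F ^ n := le_trans (Nat.mul_le_mul hq3 hq3) hx
  have cp : ∀ {x : ℂ}, x = ((Fintype.card F ^ n + 1 : ℕ) : ℂ) / 2 ↔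
      2 * x = (Fintype.card F : ℂ) ^ n + 1 := by
    intro x; rw [eq_div_iff two_ne_zero, mul_comm]; push_cast; rfl
  have cm : ∀ {x : ℂ}, x = ((Fintype.card F ^ n - 1 : ℕ) : ℂ) / 2 ↔
      2 * x = (Fintype.card F : ℂ) ^ n + -1 := by
    intro x; rw [eq_div_iff two_ne_zero, mul_comm, Nat.cast_sub (by omega)]; push_cast; rfl
  have two : ∀ ε : ℂ, ε = 1 ∨ ε = -1 → Nat.card {χ : IrrCharacter (symplecticGroup (Fin n) F) //
      2 * (χ : symplecticGroup (Fin n) F → ℂ) 1 = (Fintype.card F : ℂ) ^ n + ε} = 2 := by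
    intro ε hε
    have hε' : ε * ε = 1 := by rcases hε with rfl | rfl <;> simp
    refine Nat.card_eq_two_iff.2 ⟨⟨⟨_, wch_irr h2 hψ hn hε⟩, wch_one h2 hψ hε'⟩,
      ⟨⟨_, wch_irr h2 (shift_ne hψ hν0) hn hε⟩, wch_one h2 _ hε'⟩,
      fun e => wch_ne h2 hψ hn hν0 hν hε' (congrArg (·.1.1) e), Set.eq_univ_of_forall ?_⟩
    rintro ⟨⟨χ, hχ⟩, h⟩
    obtain ⟨d, -, hd⟩ := hχ.exists_nat_one
    simp only [hd] at h
    have h3 : 2 * d ≤ Fintype.card F ^ n + 1 ∧ Fintype.card F ^ n ≤ 2 * d + 1 := by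
      rcases hε with rfl | rfl
      · have : 2 * d = Fintype.card F ^ n + 1 := by exact_mod_cast h
        omega
      · have : 2 * d + 1 = Fintype.card F ^ n := by
          rw [← sub_eq_iff_eq_add, sub_neg_eq_add] at h; exact_mod_cast h
        omega
    have key := classify h2 hψ hn hν0 hν hχ hd (by omega) (by
      rw [Nat.card_eq_fintype_card]
      obtain ⟨y, hy⟩ : ∃ y, Fintype.card F ^ n = Fintype.card F * Fintype.card F + y :=
        Nat.exists_eq_add_of_le hx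
      obtain ⟨r, hr⟩ := Nat.exists_eq_add_of_le' hq3
      rw [hy] at h3 ⊢
      rw [hr] at h3 ⊢
      rw [show (r + 3) * (r + 3) + y - 1 = r * r + 6 * r + 8 + y by
          rw [Nat.sub_eq_iff_eq_add (by nlinarith)]; ring,
        show (r + 3) * (r + 3) + y - (r + 3) = r * r + 5 * r + 6 + y by
          rw [Nat.sub_eq_iff_eq_add (by nlinarith)]; ring]
      nlinarith [h3.1, Nat.zero_le r, Nat.zero_le y, Nat.zero_le (r * y), Nat.zero_le (r * r),
        Nat.zero_le (r * r * r), Nat.zero_le (r * r * y), Nat.zero_le (y * y)])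
    have ne : ∀ {ψ : AddChar F ℂ} (hψ : ψ ≠ 1) (ε' : ℂ), ε' * ε' = 1 → χ = wch h2 hψ n ε' →
        χ = wch h2 hψ n ε := by
      intro ψ hψ ε' h1 h3
      have := wch_one (n := n) h2 hψ h1
      rw [← h3, hd, h, add_right_inj] at this
      rwa [this]
    simp only [Set.mem_insert_iff, Set.mem_singleton_iff, Subtype.mk.injEq]
    rcases key with (e | e) | e | e
    · exact Or.inl (ne _ _ (by simp) e)
    · exact Or.inl (ne _ _ (by simp) e)
    · exact Or.inr (ne _ _ (by simp) e)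
    · exact Or.inr (ne _ _ (by simp) e)
  refine ⟨by simpa only [cp] using two 1 (Or.inl rfl), by simpa only [cm] using two (-1) (Or.inr rfl),
    fun χ h1 h3 h4 => ?_⟩
  obtain ⟨d, -, hd⟩ := χ.2.exists_nat_one
  rw [hd, Complex.norm_natCast, div_le_iff₀ (by positivity)]
  by_contra! H
  have key := classify h2 hψ hn hν0 hν χ.2 hd (by rintro rfl; exact h1 (by simpa using hd)) (by
    rw [Nat.card_eq_fintype_card, mul_comm]
    exact_mod_cast H)
  rw [Ne, cp] at h3
  rw [Ne, cm] at h4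
  rcases key with (e | e) | e | e
  · exact h3 (e ▸ wch_one h2 _ (by simp))
  · exact h4 (e ▸ wch_one h2 _ (by simp))
  · exact h3 (e ▸ wch_one h2 _ (by simp))
  · exact h4 (e ▸ wch_one h2 _ (by simp))

end Cfsg.Agent.S2524
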