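import Cfsg.Statements.S2525
import Cfsg.Agent.Lang.SpecF4
import Cfsg.Agent.S1062
import Cfsg.Agent.Misc.Spectrum

set_option autoImplicit false
open Cfsg Cfsg.Lie Cfsg.Agent.Chev Cfsg.Agent.Lang

namespace Cfsg.Agent.S2525

theorem dvd_sub_iff (q l k : ℕ) :
    (l : ℤ) ∣ q ^ k - 1 ↔ orderOf (q : ZMod l) ∣ k := by
  rw [← ZMod.intCast_zmod_eq_zero_iff_dvd, orderOf_dvd_iff_pow_eq_one]
  simp [sub_eq_zero]

theorem crit (q : ℕ) {l : ℕ} (hl : l.Prime) (h2 : l ≠ 2) (hq : ¬ l ∣ q) {e : ℕ}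
    (he : orderOf (q : ZMod l) = e := by rfl) :
    ((l : ℤ) ∣ q ^ 4 - 1 ↔ e = 1 ∨ e = 2 ∨ e = 4) ∧
    ((l : ℤ) ∣ (q ^ 3 - 1) * (q + 1) ↔ e = 1 ∨ e = 2 ∨ e = 3) ∧
    ((l : ℤ) ∣ (q ^ 3 + 1) * (q - 1) ↔ e = 1 ∨ e = 2 ∨ e = 6) ∧
    ((l : ℤ) ∣ q ^ 4 + 1 ↔ e = 8) ∧ ((l : ℤ) ∣ q ^ 4 - q ^ 2 + 1 ↔ e = 12) ∧
    ((l : ℤ) ∣ q ^ 3 - 1 ↔ e = 1 ∨ e = 3) ∧ ((l : ℤ) ∣ q ^ 3 + 1 ↔ e = 2 ∨ e = 6) ∧
    ((l : ℤ) ∣ q ^ 2 + 1 ↔ e = 4) := by
  have hp := Nat.prime_iff_prime_int.1 hl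
  have A : ∀ k, (l : ℤ) ∣ q ^ k - 1 ↔ e ∣ k := he ▸ dvd_sub_iff q l
  have B : ∀ k, (l : ℤ) ∣ q ^ k + 1 ↔ e ∣ 2 * k ∧ ¬ e ∣ k := fun k => by
    rw [← A, ← A, show (q : ℤ) ^ (2 * k) - 1 = (q ^ k + 1) * (q ^ k - 1) by ring, hp.dvd_mul]
    refine ⟨fun h => ⟨.inl h, fun h' => h2 ((Nat.prime_dvd_prime_iff_eq hl Nat.prime_two).1
      (Int.natCast_dvd_natCast.1 ?_))⟩, fun h => h.1.resolve_right h.2⟩
    simpa using dvd_sub h h'
  have C : ∀ k, 0 < k → ∀ P : ℕ → Prop, ¬ P 0 → (∀ e, P e → e ≤ k) →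
      (∀ e ≤ k, e ∣ k ↔ P e) → (e ∣ k ↔ P e) := fun k hk P _ h1 h =>
    ⟨fun h' => (h e (Nat.le_of_dvd hk h')).1 h', fun h' => (h e (h1 e h')).2 h'⟩
  have d1 : e ∣ 1 ↔ e = 1 := Nat.dvd_one
  have d2 : e ∣ 2 ↔ e = 1 ∨ e = 2 := Nat.dvd_prime Nat.prime_two
  have d3 : e ∣ 3 ↔ e = 1 ∨ e = 3 := Nat.dvd_prime Nat.prime_three
  have d4 := C 4 (by simp) (fun e => e = 1 ∨ e = 2 ∨ e = 4) (by simp) (by omega) (by decide)
  have d6 := C 6 (by simp) (fun e => e = 1 ∨ e = 2 ∨ e = 3 ∨ e = 6) (by simp) (by omega) (by decide)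
  have d8 := C 8 (by simp) (fun e => e = 1 ∨ e = 2 ∨ e = 4 ∨ e = 8) (by simp) (by omega) (by decide)
  have d12 := C 12 (by simp) (fun e => e = 1 ∨ e = 2 ∨ e = 3 ∨ e = 4 ∨ e = 6 ∨ e = 12) (by simp)
    (by omega) (by decide)
  have a1 := A 1
  have b1 := B 1
  have b2 := B 2
  have b6 := B 6
  rw [show (q : ℤ) ^ 6 + 1 = (q ^ 2 + 1) * (q ^ 4 - q ^ 2 + 1) by ring, hp.dvd_mul] at b6
  rw [pow_one] at a1 b1
  have h3 : (l : ℤ) ∣ q ^ 4 - q ^ 2 + 1 → e ≠ 4 := fun h e4 => by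
    have h4 := dvd_sub h ((b2.2 (by simp [e4])).mul_right (q ^ 2 - 2))
    rw [show (q : ℤ) ^ 4 - q ^ 2 + 1 - (q ^ 2 + 1) * (q ^ 2 - 2) = (3 : ℕ) by push_cast; ring] at h4
    obtain rfl := (Nat.prime_dvd_prime_iff_eq hl Nat.prime_three).1 (Int.natCast_dvd_natCast.1 h4)
    have := ZMod.orderOf_dvd_card_sub_one (a := (q : ZMod 3))
      (by rwa [Ne, ZMod.natCast_eq_zero_iff])
    rw [he, e4] at this
    simp at this
  simp only [hp.dvd_mul, A, B, a1, b1, Nat.reduceMul, d1, d2, d3, d4, d6, d8, d12] at b6 ⊢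
  refine ⟨trivial, by omega, by omega, by omega, ⟨fun h => ?_, fun h => ?_⟩, trivial, by omega,
    by omega⟩
  · have := b6.1 (.inr h)
    have := h3 h
    omega
  · exact (b6.2 (by omega)).resolve_left (by omega)

/-- Let F be a finite field with q = 2^n elements and G = F₄(F). For an odd prime r let e(r, q) be the multiplicative order of q modulo r. Two distinct primes r, s dividing the order of G are non-adjacent in the prime graph of G (no element of order rs) if and only if, up to swapping r and s, either r = 2 and e(s, q) ∈ {8, 12}, or r, s are both odd with k = e(r, q) < l = e(s, q) and one of: l ∈ {8, 12}; l = 6 and k ∈ {3, 4}; l = 4 and k = 3. -/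
theorem result {F : Type*} [Field F] [Fintype F] (n : ℕ) (hn : 1 ≤ n) (hF : Fintype.card F = 2 ^ n)
    (r s : ℕ) (hr : r.Prime) (hs : s.Prime) (hrs : r ≠ s) (hrG : r ∣ Nat.card ↥(Cfsg.Lie.chevF4.group F)) (hsG : s ∣ Nat.card ↥(Cfsg.Lie.chevF4.group F)) :
    (¬ ∃ x : ↥(Cfsg.Lie.chevF4.group F), orderOf x = r * s) ↔
      ((r = 2 ∧ orderOf ((Fintype.card F : ℕ) : ZMod s) ∈ ({8, 12} : Finset ℕ)) ∨ (s = 2 ∧ orderOf ((Fintype.card F : ℕ) : ZMod r) ∈ ({8, 12} : Finset ℕ)) ∨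
       (r ≠ 2 ∧ s ≠ 2 ∧
         ((orderOf ((Fintype.card F : ℕ) : ZMod r) < orderOf ((Fintype.card F : ℕ) : ZMod s) ∧ (orderOf ((Fintype.card F : ℕ) : ZMod s) ∈ ({8, 12} : Finset ℕ) ∨ (orderOf ((Fintype.card F : ℕ) : ZMod s) = 6 ∧ orderOf ((Fintype.card F : ℕ) : ZMod r) ∈ ({3, 4} : Finset ℕ)) ∨ (orderOf ((Fintype.card F : ℕ) : ZMod s) = 4 ∧ orderOf ((Fintype.card F : ℕ) : ZMod r) = 3))) ∨
          (orderOf ((Fintype.card F : ℕ) : ZMod s) < orderOf ((Fintype.card F : ℕ) : ZMod r) ∧ (orderOf ((Fintype.card F : ℕ) : ZMod r) ∈ ({8, 12} : Finset ℕ) ∨ (orderOf ((Fintype.card F : ℕ) : ZMod r) = 6 ∧ orderOf ((Fintype.card F : ℕ) : ZMod s) ∈ ({3, 4} : Finset ℕ)) ∨ (orderOf ((Fintype.card F : ℕ) : ZMod r) = 4 ∧ orderOf ((Fintype.card F : ℕ) : ZMod s) = 3)))))) := by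
  have := charP_of_card_eq_prime_pow hF
  generalize hq : Fintype.card F = q
  have hq' : (Fintype.card F : ℤ) = q := by rw [hq]
  have hq2 : (2 : ℤ) ∣ q := by rw [← hq, hF]; exact_mod_cast dvd_pow_self 2 (by omega)
  have hq1 : 2 ≤ q := hq ▸ Fintype.one_lt_card
  have hnd : ∀ l : ℕ, l.Prime → l ≠ 2 → ¬ l ∣ q := fun l hl h e =>
    h ((Nat.prime_dvd_prime_iff_eq hl Nat.prime_two).1 (hl.dvd_of_dvd_pow (hF ▸ hq ▸ e)))
  have hpos : ∀ m ∈ [(q : ℤ) ^ 4 - 1, ((q : ℤ) ^ 3 - 1) * (q + 1), ((q : ℤ) ^ 3 + 1) * (q - 1),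
      (q : ℤ) ^ 4 + 1, (q : ℤ) ^ 4 - q ^ 2 + 1, (q : ℤ) ^ 3 - 1, (q : ℤ) ^ 3 + 1, (q : ℤ) ^ 2 + 1],
      ((m.natAbs : ℕ) : ℤ) = m := by
    have h1 : (1 : ℤ) ≤ q := by omega
    have h2 : ∀ a b, a ≤ b → (q : ℤ) ^ a ≤ q ^ b := fun a b => pow_le_pow_right₀ h1
    have h3 := h2 0 3 (by simp)
    have h4 := h2 0 4 (by simp)
    have h5 := h2 2 4 (by simp)
    simp only [List.forall_mem_cons, Int.natCast_natAbs, abs_eq_self, pow_zero] at h3 h4 ⊢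
    exact ⟨by omega, mul_nonneg (by omega) (by omega), mul_nonneg (by omega) (by omega), by omega,
      by omega, by omega, by omega, by positivity, by simp⟩
  have he : ∀ l : ℕ, l.Prime → l ≠ 2 → l ∣ Nat.card (chevF4.group F) →
      orderOf (q : ZMod l) ∈ [1, 2, 3, 4, 6, 8, 12] := fun l hl h e => by
    have h1 : ∀ k, l ∣ q ^ k - 1 → orderOf (q : ZMod l) ∣ k := fun k e =>
      (dvd_sub_iff q l k).1 (by
        have := Int.natCast_dvd_natCast.2 e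
        rwa [Nat.cast_sub (Nat.one_le_pow _ _ (by omega)), Nat.cast_pow] at this)
    rw [S1062.result hq] at e
    simp only [hl.dvd_mul] at e
    have h2 : orderOf (q : ZMod l) ∣ 8 ∨ orderOf (q : ZMod l) ∣ 12 := by
      rcases e with (((e | e) | e) | e) | e
      · exact absurd (hl.dvd_of_dvd_pow e) (hnd l hl h)
      · exact .inl ((h1 _ e).trans (by simp))
      · exact .inr ((h1 _ e).trans (by simp))
      · exact .inl (h1 _ e)
      · exact .inr (h1 _ e)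
    exact (by decide : ∀ e ≤ 12, e ∣ 8 ∨ e ∣ 12 → e ∈ [1, 2, 3, 4, 6, 8, 12]) _
      (h2.elim (fun h => (Nat.le_of_dvd (by simp) h).trans (by simp)) (Nat.le_of_dvd (by simp))) h2
  have hd : ∀ l : ℕ, l.Prime → l ≠ 2 → ∀ m : ℤ, (l : ℤ) ∣ m * (2 : ℕ) ^ 4 → (l : ℤ) ∣ m :=
    fun l hl h m => (Nat.isCoprime_iff_coprime.2
      ((Nat.coprime_primes hl Nat.prime_two).2 h)).pow_right.dvd_of_dvd_mul_right
  have two : ∀ s : ℕ, s.Prime → s ≠ 2 → s ∣ Nat.card (chevF4.group F) →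
      ((¬ ∃ x : chevF4.group F, orderOf x = 2 * s) ↔
        orderOf (q : ZMod s) ∈ ({8, 12} : Finset ℕ)) := fun s hs h2 hG => by
    obtain ⟨a1, a2, a3, a4, a5, a6, a7, a8⟩ := crit q hs h2 (hnd s hs h2)
    refine ⟨fun h => by_contra fun h' => h ?_, ?_⟩
    · obtain ⟨m, hm, e⟩ : ∃ m ∈ [(q : ℤ) ^ 3 - 1, (q : ℤ) ^ 3 + 1, (q : ℤ) ^ 2 + 1], (s : ℤ) ∣ m := by
        have := he s hs h2 hG
        simp only [List.mem_cons, exists_eq_or_imp, a6, a7, a8, Finset.mem_insert,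
          Finset.mem_singleton, List.not_mem_nil, or_false, exists_eq_left] at this h' ⊢
        omega
      exact Misc.Spec.mem_range_orderOf_of_dvd ((exists_orderOf_F4 hq' (N := m.natAbs)).2
        (by rwa [hpos m (List.mem_of_mem_drop (i := 5) hm)]))
        (Nat.mul_dvd_mul_left 2 (Int.natCast_dvd.1 e))
    · rintro h ⟨x, hx⟩
      obtain ⟨m, h3, h4⟩ := orderOf_F4 2 x hq'
      rw [hx] at h3 h4
      have h5 := hd s hs h2 m ((Int.natCast_dvd_natCast.2 (dvd_mul_left s 2)).trans h3)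
      simp only [List.mem_cons, List.not_mem_nil, or_false, Finset.mem_insert,
        Finset.mem_singleton] at h h4
      rcases h4 with (rfl | rfl | rfl) | ⟨h6, h7 | h7⟩
      · have := a1.1 h5; omega
      · have := a2.1 h5; omega
      · have := a3.1 h5; omega
      · have h8 : (2 : ℤ) ∣ m := (Int.natCast_dvd_natCast.2 (dvd_mul_right 2 s)).trans h7
        have h9 := dvd_pow hq2 four_ne_zero
        have h10 := dvd_pow hq2 two_ne_zero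
        omega
      · exact h2 ((Nat.prime_dvd_prime_iff_eq hs Nat.prime_two).1
          (hs.dvd_of_dvd_pow (n := 7) ((dvd_mul_left s 2).trans h7)))
  by_cases h1 : r = 2
  · subst h1
    simpa [hrs.symm] using two s hs hrs.symm hsG
  by_cases h2 : s = 2
  · subst h2
    simpa [h1, mul_comm] using two r hr h1 hrG
  have key : (∃ x : chevF4.group F, orderOf x = r * s) ↔ ∃ m ∈ [(q : ℤ) ^ 4 - 1,
      ((q : ℤ) ^ 3 - 1) * (q + 1), ((q : ℤ) ^ 3 + 1) * (q - 1), (q : ℤ) ^ 4 + 1,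
      (q : ℤ) ^ 4 - q ^ 2 + 1],
      (r : ℤ) ∣ m ∧ (s : ℤ) ∣ m := by
    constructor
    · rintro ⟨x, hx⟩
      obtain ⟨m, h3, h4⟩ := orderOf_F4 2 x hq'
      rw [hx] at h3
      exact ⟨m, h4.elim (fun h => List.mem_of_mem_take (i := 3) h) fun h => List.mem_of_mem_drop (i := 3) h.1,
        hd r hr h1 m ((Int.natCast_dvd_natCast.2 (dvd_mul_right r s)).trans h3),
        hd s hs h2 m ((Int.natCast_dvd_natCast.2 (dvd_mul_left s r)).trans h3)⟩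
    · rintro ⟨m, hm, h3, h4⟩
      exact Misc.Spec.mem_range_orderOf_of_dvd ((exists_orderOf_F4 hq' (N := m.natAbs)).1
        (by rwa [hpos m (List.mem_of_mem_take (i := 5) hm)]))
        (((Nat.coprime_primes hr hs).2 hrs).mul_dvd_of_dvd_of_dvd (Int.natCast_dvd.1 h3)
          (Int.natCast_dvd.1 h4))
  obtain ⟨a1, a2, a3, a4, a5, -⟩ := crit q hr h1 (hnd r hr h1)
  obtain ⟨b1, b2, b3, b4, b5, -⟩ := crit q hs h2 (hnd s hs h2)
  have h3 := he r hr h1 hrG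
  have h4 := he s hs h2 hsG
  simp only [key, List.mem_cons, exists_eq_or_imp, a1, a2, a3, a4, a5, b1, b2, b3, b4, b5,
    List.not_mem_nil, false_and, exists_false, h1, h2, ne_eq, not_false_eq_true, true_and]
  revert h3 h4
  generalize orderOf (q : ZMod r) = a
  generalize orderOf (q : ZMod s) = b
  intro h3 h4
  revert h4 b
  revert h3 a
  decide

end Cfsg.Agent.S2525
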