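import Cfsg.Statements.S2556
import Mathlib
import Cfsg.Agent.TwoG.SzSylAut

set_option autoImplicit false
open Cfsg

namespace Cfsg.Agent.S2556

/-- Let S be a Sylow 2-subgroup of the Suzuki group Sz(q), q = 2ⁿ with n = 2m + 1 ≥ 3 (realised as 4 × 4 matrices over the field with q elements). Then the largest normal 2-subgroup of the automorphism group of S is elementary abelian of order 2^(n²), and the automorphism group of S has order 2^(n²) · n · (q − 1). -/
theorem result {S : Type*} [Group S] [Finite S] (m : ℕ) (hm : 1 ≤ m)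
    {F : Type*} [Field F] [Fintype F] (hF : Fintype.card F = 2 ^ (2 * m + 1))
    (P : Sylow 2 ↥(Cfsg.Lie.Sz F (2 ^ (m + 1)))) (hS : Nonempty (S ≃* ↥(P : Subgroup ↥(Cfsg.Lie.Sz F (2 ^ (m + 1)))))) :
    Cfsg.IsElementaryAbelian 2 (Cfsg.pCore 2 (MulAut S)) ∧ Nat.card ↥(Cfsg.pCore 2 (MulAut S)) = 2 ^ ((2 * m + 1) ^ 2) ∧
      Nat.card (MulAut S) = 2 ^ ((2 * m + 1) ^ 2) * ((2 * m + 1) * (2 ^ (2 * m + 1) - 1)) := by
  have := Chev.SzField.of_fintype hm hF
  obtain ⟨e1⟩ := hS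
  obtain ⟨e2⟩ := TwoG.SH.nonempty_equiv P
  let e := MulAut.congr (e1.trans e2.symm)
  have hc : pCore 2 (MulAut S) = (TwoG.SH.autK F).comap e.toMonoidHom := by
    rw [← TwoG.SH.pCore_mulAut]
    exact (Grp.comap_pCore_equiv 2 e).symm
  refine ⟨⟨⟨⟨fun a b => Subtype.ext (e.injective ?_)⟩⟩, fun a ha => e.injective ?_⟩, ?_, ?_⟩
  · rw [Subgroup.coe_mul, Subgroup.coe_mul, map_mul, map_mul]
    exact TwoG.SH.autK_comm (hc.le a.2) (hc.le b.2)
  · rw [map_pow, map_one]
    exact TwoG.SH.autK_sq (hc.le ha)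
  · rw [hc, Subgroup.comap_equiv_eq_map_symm', Subgroup.card_map_of_injective e.symm.injective,
      TwoG.SH.card_autK]
  · rw [Nat.card_congr e.toEquiv, TwoG.SH.card_mulAut]

end Cfsg.Agent.S2556
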