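import Cfsg.Statements.S2558
import Mathlib
import Cfsg.Agent.Class.Wall.OrthOdd

set_option autoImplicit false
open Cfsg

namespace Cfsg.Agent.S2558

/-- The number of conjugacy classes of the full orthogonal groups O⁺(2n,q) and O⁻(2n,q), q odd, 2n ≥ 4: for F a finite field of odd order q and n ≥ 2, the number k of conjugacy classes of the isometry group of the hyperbolic quadratic form Σ xᵢyᵢ on F^{2n}, and likewise of the elliptic form Σ xᵢyᵢ + (z₁² + a z₁z₂ + b z₂²) with anisotropic binary part, satisfies q^n/2 ≤ k ≤ 9.5·q^n. -/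
theorem result {F : Type*} [Field F] [Fintype F] (hodd : Odd (Fintype.card F)) (n : ℕ) (hn : 2 ≤ n) (a b : F) (hab : ∀ z₁ z₂ : F, z₁ ^ 2 + a * z₁ * z₂ + b * z₂ ^ 2 = 0 → z₁ = 0 ∧ z₂ = 0) :
    (Fintype.card F ^ n ≤ 2 * Nat.card (ConjClasses ↥(Cfsg.isometryGroup F (Cfsg.quadFormPlus n F))) ∧
      2 * Nat.card (ConjClasses ↥(Cfsg.isometryGroup F (Cfsg.quadFormPlus n F))) ≤ 19 * Fintype.card F ^ n) ∧
    (Fintype.card F ^ n ≤ 2 * Nat.card (ConjClasses ↥(Cfsg.isometryGroup F (Cfsg.quadFormMinus (n - 1) F a b))) ∧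
      2 * Nat.card (ConjClasses ↥(Cfsg.isometryGroup F (Cfsg.quadFormMinus (n - 1) F a b))) ≤ 19 * Fintype.card F ^ n) := by
  have h2 := Class.Orth.two_ne_zero_of_odd_card hodd
  have h3 : 3 ≤ Fintype.card F := by
    have := Fintype.one_lt_card (α := F)
    obtain ⟨k, hk⟩ := hodd
    omega
  have key : ∀ {ι : Type} [Fintype ι] [DecidableEq ι] {Q : QuadraticForm F (ι → F)} {q : (ι → F) → F},
      Class.Orth.ND Q → (∀ v, Q v = q v) → Fintype.card ι = 2 * n →
      Fintype.card F ^ n ≤ 2 * Nat.card (ConjClasses (isometryGroup F q)) ∧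
      2 * Nat.card (ConjClasses (isometryGroup F q)) ≤ 19 * Fintype.card F ^ n := fun hQ h hm => by
    have h4 := Class.Wall.two_mul_card_conjClasses_O_le h2 ((Class.Orth.nd_iff _).1 hQ) h
    have h5 := Class.Wall.pow_le_two_mul_card_conjClasses_O h2 ((Class.Orth.nd_iff _).1 hQ) h hm hn
    have h6 := Class.FG.W_O_even_le h3 (2 * n) n
    have h7 := Class.FG.W_pal_le h3 (2 * n) n
    rw [hm, Nat.card_eq_fintype_card (α := F)] at *
    omega
  exact ⟨key (Class.Orth.nd_plusQF n F) (Class.Orth.plusQF_apply n F) (by simp [two_mul]),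
    key (Class.Orth.nd_minusQF (n - 1) hab) (Class.Orth.minusQF_apply (n - 1) F a b) (by simp; omega)⟩

end Cfsg.Agent.S2558
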