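import Cfsg.Statements.S2559
import Mathlib
import Mathlib
import Cfsg.Agent.Class.Char2.Lower

set_option autoImplicit false
open Cfsg

namespace Cfsg.Agent.S2559

/-- The number of conjugacy classes of the full orthogonal groups O⁺(2n,q) and O⁻(2n,q), q even, 2n ≥ 4: for F a finite field of even order q and n ≥ 2, the number k of conjugacy classes of the isometry group of the hyperbolic quadratic form Σ xᵢyᵢ on F^{2n}, and likewise of the elliptic form Σ xᵢyᵢ + (z₁² + a z₁z₂ + b z₂²) with anisotropic binary part, satisfies q^n/2 ≤ k ≤ 15·q^n. -/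
theorem result {F : Type*} [Field F] [Fintype F] (heven : Even (Fintype.card F)) (n : ℕ) (hn : 2 ≤ n) (a b : F) (hab : ∀ z₁ z₂ : F, z₁ ^ 2 + a * z₁ * z₂ + b * z₂ ^ 2 = 0 → z₁ = 0 ∧ z₂ = 0) :
    (Fintype.card F ^ n ≤ 2 * Nat.card (ConjClasses ↥(Cfsg.isometryGroup F (Cfsg.quadFormPlus n F))) ∧
      Nat.card (ConjClasses ↥(Cfsg.isometryGroup F (Cfsg.quadFormPlus n F))) ≤ 15 * Fintype.card F ^ n) ∧
    (Fintype.card F ^ n ≤ 2 * Nat.card (ConjClasses ↥(Cfsg.isometryGroup F (Cfsg.quadFormMinus (n - 1) F a b))) ∧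
      Nat.card (ConjClasses ↥(Cfsg.isometryGroup F (Cfsg.quadFormMinus (n - 1) F a b))) ≤ 15 * Fintype.card F ^ n) := by
  have h2 : (2 : F) = 0 := by
    have := ringChar.of_eq (FiniteField.even_card_iff_char_two.2 (Nat.even_iff.1 heven))
    exact CharTwo.two_eq_zero
  have key : ∀ {ι : Type} [Fintype ι] [DecidableEq ι] {Q : QuadraticForm F (ι → F)} {q : (ι → F) → F},
      Class.Orth.ND Q → (∀ v, Q v = q v) → Fintype.card ι = 2 * n →
      Fintype.card F ^ n ≤ 2 * Nat.card (ConjClasses (isometryGroup F q)) ∧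
      Nat.card (ConjClasses (isometryGroup F q)) ≤ 15 * Fintype.card F ^ n := fun hQ h hm =>
    Nat.card_eq_fintype_card (α := F) ▸
      ⟨Class.Char2.pow_le_two_mul_card_conjClasses_O h2 ((Class.Orth.nd_iff _).1 hQ) h hm hn,
        Class.Char2.card_conjClasses_O_le h2 ((Class.Orth.nd_iff _).1 hQ) h hm⟩
  exact ⟨key (Class.Orth.nd_plusQF n F) (Class.Orth.plusQF_apply n F) (by simp [two_mul]),
    key (Class.Orth.nd_minusQF (n - 1) hab) (Class.Orth.minusQF_apply (n - 1) F a b) (by simp; omega)⟩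

end Cfsg.Agent.S2559
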