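import Cfsg.Statements.S2578
import Mathlib
import Cfsg.Agent.KSG.Cent
import Cfsg.Agent.Class.LinearBasic

set_option autoImplicit false
open Cfsg

namespace Cfsg.Agent.S2578

open Polynomial in
theorem exists_reg {F : Type*} [Field F] {n : ℕ} (hn : 1 ≤ n) :
    ∃ u : Matrix.SpecialLinearGroup (Fin n) F,
      KSG.mdiv (u : Matrix (Fin n) (Fin n) F) = {(X - C 1) ^ n} := by
  obtain ⟨A, hA⟩ := KSG.exists_mdiv_eq (n := Fin n) (s := ({(X - C 1) ^ n} : Multiset F[X]))
    (by simpa using ⟨X - C 1, n, irreducible_X_sub_C 1, monic_X_sub_C 1, hn, by simp⟩)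
    (by rw [Multiset.map_singleton, Multiset.sum_singleton, natDegree_pow, natDegree_X_sub_C]; simp)
  refine ⟨⟨A, ?_⟩, hA⟩
  rw [Matrix.det_eq_sign_charpoly_coeff, ← KSG.prod_mdiv, hA, Multiset.prod_singleton,
    coeff_zero_eq_eval_zero]
  simp [← mul_pow]

/-- Regular unipotent classes of SL_n(q): for n ≥ 2 over the field with q elements, the matrices u of determinant one with (u − 1)^n = 0 and rank(u − 1) = n − 1 form a single GL_n(q)-class which splits into exactly gcd(n, q − 1) conjugacy classes of SL_n(q). -/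
theorem result {F : Type*} [Field F] [Fintype F] {q : ℕ} (hF : Fintype.card F = q) {n : ℕ} (hn : 2 ≤ n) : Nat.card {C : ConjClasses (Matrix.SpecialLinearGroup (Fin n) F) // ∃ u : Matrix.SpecialLinearGroup (Fin n) F, ConjClasses.mk u = C ∧ ((u : Matrix (Fin n) (Fin n) F) - 1) ^ n = 0 ∧ ((u : Matrix (Fin n) (Fin n) F) - 1).rank = n - 1} = Nat.gcd n (q - 1) := by
  have : Nonempty (Fin n) := ⟨⟨0, by omega⟩⟩
  obtain ⟨x, hx⟩ := exists_reg (F := F) (n := n) (by omega)
  rw [KSG.card_conjClasses_split Matrix.SpecialLinearGroup.toGL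
    Matrix.SpecialLinearGroup.toGL_injective _ KSG.det_GL_surjective Class.range_toGL_eq_ker_det x]
  · obtain ⟨φ, hφ⟩ := KSG.exists_centralizer_equiv_of_mdiv (Matrix.SpecialLinearGroup.toGL x) hx
    rw [← hF, ← Nat.card_eq_fintype_card, ← Nat.card_units, Nat.gcd_comm,
      ← IsCyclic.index_powMonoidHom_range]
    congr 1
    ext d
    constructor
    · rintro ⟨g, hg, rfl⟩
      have h1 := hφ ⟨g, hg⟩
      rw [KSG.norm_eq_evalAt_pow 1 (show n ≠ 0 by omega)] at h1
      refine ⟨Units.mk0 _ ((KSG.isUnit_iff_evalAt 1 (show n ≠ 0 by omega) _).1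
        (φ ⟨g, hg⟩).isUnit), Units.ext ?_⟩
      exact h1.symm
    · rintro ⟨c, rfl⟩
      obtain ⟨g, hg, hd⟩ := KSG.exists_commute_det_eq_pow
        (hx ▸ Multiset.mem_singleton_self _ : _ ∈ KSG.mdiv (x : Matrix (Fin n) (Fin n) F))
        c c.ne_zero
      refine ⟨g, Subgroup.mem_centralizer_singleton_iff.2 (Units.ext hg), Units.ext ?_⟩
      rw [Polynomial.natDegree_pow, Polynomial.natDegree_X_sub_C, mul_one] at hd
      exact hd
  · intro y
    rw [KSG.isConj_GL_iff_mdiv]
    change _ ↔ KSG.mdiv (x : Matrix (Fin n) (Fin n) F) = KSG.mdiv (y : Matrix (Fin n) (Fin n) F)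
    rw [hx]
    constructor
    · rintro ⟨h1, h2⟩
      simpa using (KSG.mdiv_of_regular_unipotent h1 (by simpa using h2)).symm
    · intro h
      have h1 : ((y : Matrix (Fin n) (Fin n) F) - 1) ^ n = 0 := by
        rw [← KSG.aeval_X_sub_one_pow, KSG.aeval_eq_zero_iff_mdiv, ← h]
        simp
      have h2 := KSG.rank_add_card_mdiv_of_unipotent h1
      rw [← h] at h2
      simp at h2
      exact ⟨h1, by omega⟩

end Cfsg.Agent.S2578
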