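import Cfsg.Statements.S2731
import Mathlib
import Cfsg.Agent.KSG.AutOrth13

set_option autoImplicit false
open Cfsg

namespace Cfsg.Agent.S2731

open Cfsg.Agent.Class.Orth Cfsg.Agent.KSG Cfsg.Agent.KSG.SS QuadraticMap Module
set_option maxHeartbeats 1000000

/-- A criterion for the failure of local balance in almost simple groups whose socle is an odd-dimensional orthogonal group Ω_{2m+1}(F) (m ≥ 3, |F| odd; the form x₀² + Σ xᵢ yᵢ). Let F be a finite field of characteristic r and K the (simple) group in question; let A be a group of automorphisms of K containing all inner automorphisms, and x ∈ A an automorphism of prime order p ≠ r that is not inner-diagonal (not induced by a similarity of the form). Then the largest normal subgroup of C_A(x) of order prime to p is nontrivial if and only if x is a field automorphism of K (conjugate under Aut(K) to a non-identity standard field automorphism) and p does not divide the number of fixed points of x on K. -/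
theorem result {F : Type*} [Field F] [Fintype F] {r : ℕ} [Fact r.Prime] [CharP F r] (hodd : Odd (Fintype.card F)) {m : ℕ} (hm : 3 ≤ m) (hK : IsSimpleGroup (Cfsg.POmega F (Cfsg.quadFormOdd m F))) (A : Subgroup (MulAut (Cfsg.POmega F (Cfsg.quadFormOdd m F)))) (hinn : ∀ k : Cfsg.POmega F (Cfsg.quadFormOdd m F), MulAut.conj k ∈ A) {p : ℕ} [Fact p.Prime] (hpr : p ≠ r) (x : MulAut (Cfsg.POmega F (Cfsg.quadFormOdd m F))) (hxA : x ∈ A) (hord : orderOf x = p) (hnot : ¬ Cfsg.IsInnerDiagonalAutPOmegaOdd m x) :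
    Cfsg.pPrimeCore p ↥(A ⊓ Subgroup.centralizer {x}) ≠ ⊥ ↔ (Cfsg.IsFieldAutClassPOmega (Cfsg.quadFormOdd m F) x ∧ Nat.Coprime p (Nat.card ↥(MonoidHom.eqLocus x.toMonoidHom (MonoidHom.id (Cfsg.POmega F (Cfsg.quadFormOdd m F)))))) := by
  have h2 := two_ne_zero_of_odd_card hodd
  have hQ := nd_oddQF m F h2
  have h7 : 7 ≤ finrank F (Unit ⊕ (Fin m ⊕ Fin m) → F) := by rw [finrank_odd]; omega
  obtain ⟨t, ht⟩ := psi_surjective_odd h2 hm x
  have hσ : t.σ ≠ 1 := fun h => hnot ((isSimilarityInduced_iff _ (oddQF_apply m F) x).2 ⟨t, h, ht⟩)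
  have h1 : (matRep _ (oddQF_apply m F)).psi t ^ p = 1 := by rw [ht, ← hord, pow_orderOf_eq_one]
  have h3 := OmegaRep.orderOf_σ _ hQ (by omega) hσ Fact.out h1
  obtain ⟨g, -, hg⟩ := OmegaRep.isConj_odd _ hQ (by omega) hσ Fact.out h1
    (finrank_odd (F := F) m ▸ odd_two_mul_add_one m) (t' := fieldSS t.σ (map_oddQF m _))
    (by rw [← map_pow, fieldSS_pow _ _ (h3 ▸ pow_orderOf_eq_one _), map_one]) rfl
  rw [ht] at hg
  exact (OmegaRep.core_field _ hQ h7 hpr (by rintro _ ⟨k, rfl⟩; exact hinn k) hσ ht.symm hord).trans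
    (and_iff_right ⟨g, _, t.σ, hσ, (isFieldAut_iff _ (oddQF_apply m F) (map_oddQF m _) _).2 rfl,
      hg.symm⟩).symm

end Cfsg.Agent.S2731
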