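import Cfsg.Statements.S2733
import Mathlib
import Cfsg.Agent.KSG.AutOrth15

set_option autoImplicit false
open Cfsg

namespace Cfsg.Agent.S2733

open Cfsg.Agent.Class.Orth Cfsg.Agent.KSG Cfsg.Agent.KSG.SS QuadraticMap Module
set_option maxHeartbeats 1000000

/-- A criterion for the failure of local balance in almost simple groups whose socle is a minus-type orthogonal group PΩ⁻_{2m+2}(F) (m ≥ 3; the form Σ xᵢ yᵢ + z₁² + a z₁ z₂ + b z₂² with anisotropic binary part). Let F be a finite field of characteristic r and K the (simple) group in question; let A be a group of automorphisms of K containing all inner automorphisms, and x ∈ A an automorphism of prime order p ≠ r that is not inner-diagonal (not induced by a class-preserving similarity, classes read over a quadratic extension). Then the largest normal subgroup of C_A(x) of order prime to p is nontrivial if and only if x is a field automorphism of K (conjugate under Aut(K) to a non-identity standard field automorphism) and p does not divide the number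 of fixed points of x on K. -/
theorem result {F : Type*} [Field F] [Fintype F] {r : ℕ} [Fact r.Prime] [CharP F r] {m : ℕ} (hm : 3 ≤ m) (a b : F) (hab : (∀ z₁ z₂ : F, z₁ ^ 2 + a * z₁ * z₂ + b * z₂ ^ 2 = 0 → z₁ = 0 ∧ z₂ = 0)) (hK : IsSimpleGroup (Cfsg.POmega F (Cfsg.quadFormMinus m F a b))) (A : Subgroup (MulAut (Cfsg.POmega F (Cfsg.quadFormMinus m F a b)))) (hinn : ∀ k : Cfsg.POmega F (Cfsg.quadFormMinus m F a b), MulAut.conj k ∈ A) {p : ℕ} [Fact p.Prime] (hpr : p ≠ r) (x : MulAut (Cfsg.POmega F (Cfsg.quadFormMinus m F a b))) (hxA : x ∈ A) (hord : orderOf x = p) (hnot : ¬ Cfsg.IsInnerDiagonalAutPOmegaMinus m a b x) :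
    Cfsg.pPrimeCore p ↥(A ⊓ Subgroup.centralizer {x}) ≠ ⊥ ↔ (Cfsg.IsFieldAutClassPOmegaMinus m x ∧ Nat.Coprime p (Nat.card ↥(MonoidHom.eqLocus x.toMonoidHom (MonoidHom.id (Cfsg.POmega F (Cfsg.quadFormMinus m F a b)))))) := by
  have hQ := nd_minusQF m hab
  have h7 : 7 ≤ finrank F ((Fin m ⊕ Fin m) ⊕ Fin 2 → F) := by rw [finrank_minus]; omega
  have hle : Inn _ ≤ A := by rintro _ ⟨k, rfl⟩; exact hinn k
  obtain ⟨t, ht⟩ := psi_surjective_minus hm hab x
  have h1 : (matRep _ (minusQF_apply m F a b)).psi t ^ p = 1 := by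
    rw [ht, ← hord, pow_orderOf_eq_one]
  by_cases hσ : t.σ = 1
  · have ht' : t ∉ GOp _ := fun h => hnot ((isInnerDiagonal_minus_iff (by omega) hab x).2 ⟨t, h, ht⟩)
    obtain rfl : p = 2 := by_contra fun h => ht' (OmegaRep.mem_GOp_of_odd _ hQ (even_minus m) hσ
      (by omega) ((Fact.out : p.Prime).odd_of_ne_two h) h1)
    have h2 : (2 : F) ≠ 0 := fun h2 =>
      hpr (CharP.eq F (CharTwo.of_one_ne_zero_of_two_eq_zero one_ne_zero h2) ‹_›)
    refine iff_of_false (not_not.2 ?_) fun h => ?_
    · subst ht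
      exact OmegaRep.core_graph _ hQ (even_minus m) hσ h2 ht' h1 h7 hle
    · obtain ⟨t', h3, h4⟩ := exists_of_fieldClass_minus hm hab h.1
      exact h3 ((OmegaRep.σ_eq_of_psi_eq _ hQ (by omega) (h4.symm.trans ht.symm)).trans hσ)
  · refine (OmegaRep.core_field _ hQ h7 hpr hle hσ ht.symm hord).trans (and_iff_right ?_).symm
    subst ht
    exact fieldClass_minus (by omega) hab hσ Fact.out h1

end Cfsg.Agent.S2733
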