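import Cfsg.Statements.S2898
import Mathlib
import Cfsg.Agent.PLocal.ParChar

set_option autoImplicit false
set_option linter.unusedVariables false
open Cfsg

namespace Cfsg.Agent.S2898

open Subgroup Cfsg.Agent.PLocal Cfsg.Agent.PLocal.Amb Cfsg.Agent.Grp
open Cfsg.Agent.PLocal.CP (ncl IsCharP secCent)
open scoped commutatorElement

/-- Let G be a finite group of even order with parabolic characteristic 2. If the centre of G ⧸ O(G) is trivial, then O(G) = 1. -/
theorem result {G : Type*} [Group G] [Finite G] (h2 : 2 ∣ Nat.card G) (hG : Cfsg.IsOfParabolicCharacteristic 2 G) [hN : (Cfsg.oddCore G).Normal] (hZ : Subgroup.center (G ⧸ Cfsg.oddCore G) = ⊥) : Cfsg.oddCore G = ⊥ := by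
  have : Fact (Nat.Prime 2) := ⟨Nat.prime_two⟩
  set K := oddCore G with hK
  have hKc : (Nat.card K).Coprime 2 := pPrimeCore_coprime 2 G
  obtain ⟨S, hS⟩ := exists_isSyl 2 (⊤ : Subgroup G)
  have hfix : ∀ z ∈ S, z ≠ 1 → z ∈ 𝐂[S] → centralizer ({z} : Set G) ⊓ K = ⊥ := fun z hz hz1 hc =>
    WC.inf_eq_bot_of_isCharP (WC.parChar_isCharP_centralizer_singleton hG hS hz hz1 hc) hKc
      le_normalizer_of_normal
  have hS1 : S ≠ ⊥ := fun h0 => hS.eq_bot_iff.1 h0 (by rwa [card_top])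
  obtain ⟨z, hz, hzc, ho⟩ := WC.exists_orderOf_eq_centralizer hS.pgrp hS.pgrp le_normalizer hS1
  have hz1 : z ≠ 1 := WC.ne_one_of_orderOf_eq ho
  have hz2 : z * z = 1 := by rw [← sq, ← ho, pow_orderOf_eq_one]
  have hinv : ∀ k ∈ K, z * k * z⁻¹ = k⁻¹ := by
    let φ : K →* K := (MulAut.conjNormal z : MulAut K).toMonoidHom
    have hφ : MonoidHom.FixedPointFree φ := by
      intro k hk
      have h1 : z * k * z⁻¹ = k := congrArg Subtype.val hk
      have h2 : (k : G) ∈ centralizer ({z} : Set G) ⊓ K :=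
        ⟨mem_centralizer_singleton_iff.2 (mul_inv_eq_iff_eq_mul.1 h1).symm, k.2⟩
      rw [hfix z hz hz1 hzc] at h2
      exact Subtype.ext h2
    have hi : Function.Involutive φ := by
      intro k
      apply Subtype.ext
      change z * (z * k * z⁻¹) * z⁻¹ = k
      have : z⁻¹ = z := inv_eq_of_mul_eq_one_right hz2
      rw [this]
      calc z * (z * k * z) * z = (z * z) * k * (z * z) := by group
        _ = k := by rw [hz2]; group
    intro k hk
    have := congrFun (hφ.coe_eq_inv_of_involutive hi) ⟨k, hk⟩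
    exact congrArg Subtype.val this
  by_cases hC : S ⊓ 𝐂[K] = ⊥
  · exfalso
    have h1 : IsSyl 2 (S ⊓ 𝐂[K]) 𝐂[K] := hS.inf_of_le le_top le_normalizer_of_normal
    have h2 : 𝐂[K] ≤ K := le_pPrimeCore inferInstance
      ((Nat.Prime.coprime_iff_not_dvd Nat.prime_two).2 (h1.eq_bot_iff.1 hC)).symm
    have h3 : (z : G ⧸ K) ∈ center (G ⧸ K) := by
      rw [mem_center_iff]
      intro g
      obtain ⟨g, rfl⟩ := QuotientGroup.mk_surjective g
      rw [← QuotientGroup.mk_mul, ← QuotientGroup.mk_mul, QuotientGroup.eq]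
      refine h2 fun k hk => ?_
      have a1 := hinv (g * k * g⁻¹) (hN.conj_mem k hk g)
      have a2 := hinv k hk
      have a3 : k * (z⁻¹ * g⁻¹ * z * g) = z⁻¹ * (z * k * z⁻¹) * g⁻¹ * z * g := by group
      have a4 : z⁻¹ * g⁻¹ * z * g * k = z⁻¹ * g⁻¹ * (z * (g * k * g⁻¹) * z⁻¹) * z * g := by group
      calc k * ((g * z)⁻¹ * (z * g)) = k * (z⁻¹ * g⁻¹ * z * g) := by group
        _ = z⁻¹ * g⁻¹ * z * g * k := by rw [a3, a4, a1, a2]; group
        _ = (g * z)⁻¹ * (z * g) * k := by group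
    rw [hZ, mem_bot, QuotientGroup.eq_one_iff] at h3
    have h4 : z ∈ S ⊓ K := ⟨hz, h3⟩
    rw [inf_eq_bot_of_isPGroup_of_coprime hS.pgrp hKc] at h4
    exact hz1 h4
  · obtain ⟨y, hy, hyc, hyo⟩ := WC.exists_orderOf_eq_centralizer hS.pgrp
      (hS.pgrp.to_le inf_le_left) (le_normalizer_inf le_normalizer le_normalizer_of_normal) hC
    rw [← hfix y hy.1 (WC.ne_one_of_orderOf_eq hyo) hyc, eq_comm, inf_eq_right]
    exact WC.le_centralizer_singleton.2 hy.2

end Cfsg.Agent.S2898
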