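import Cfsg.Statements.S2905
import Mathlib
import Cfsg.Agent.PLocal.PMinimal

set_option autoImplicit false
open Cfsg

namespace Cfsg.Agent.S2905

open Subgroup Cfsg.Agent.PLocal Cfsg.Agent.PLocal.CP Cfsg.Agent.Grp
open scoped commutatorElement Cfsg.Agent.PLocal.Amb

/-- Let P be a finite p-minimal group (a Sylow p-subgroup S is not normal and lies in a unique maximal subgroup M of P) and let F be the normal core of M. Then: every subnormal subgroup N of P contained in M satisfies N ∩ S ≤ O_p(P); if O^p(P) has a normal Sylow p-subgroup then the order of P has at most two prime divisors; every normal subgroup N of P either contains O^p(P) or is contained in F; and O^p(P)F ⧸ F is a minimal normal subgroup of P ⧸ F. -/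
theorem result {P : Type*} [Group P] [Finite P] {p : ℕ} [Fact p.Prime] (hP : Cfsg.IsPMinimal p P) (S : Sylow p P) (M : Subgroup P) (hM : IsCoatom M) (hSM : (S : Subgroup P) ≤ M) [hF : M.normalCore.Normal] : (∀ N : Subgroup P, N.IsSubnormal → N ≤ M → N ⊓ (S : Subgroup P) ≤ Cfsg.pCore p P) ∧ ((∀ T : Sylow p ↥(Cfsg.pResidual p P), (T : Subgroup ↥(Cfsg.pResidual p P)).Normal) → (Nat.card P).primeFactors.card ≤ 2) ∧ (∀ N : Subgroup P, N.Normal → Cfsg.pResidual p P ≤ N ∨ N ≤ M.normalCore) ∧ (∀ N : Subgroup P, N.Normal → M.normalCore ≤ N → N ≤ Cfsg.pResidual p P ⊔ M.normalCore → N = M.normalCore ∨ N = Cfsg.pResidual p P ⊔ M.normalCore) ∧ M.normalCore < Cfsg.pResidual p P ⊔ M.normalCore := by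
  have hS := Amb.isSyl_top S
  obtain ⟨M', h⟩ := (isPMinimal_iff_top hS).1 hP
  obtain rfl : M = M' := (hM.le_iff_eq h.lt.ne).1 (h.max M hSM hM.lt_top) |>.symm
  have h3 : ∀ N : Subgroup P, N.Normal → pResidual p P ≤ N ∨ N ≤ M.normalCore := fun N _ => by
    rw [← Amb.pRes_top]
    exact (h.pRes_le_or hS.pgrp le_top le_normalizer_of_normal).imp_right normal_le_normalCore.2
  refine ⟨fun N hN hNM => ?_, fun hc => ?_, h3, fun N hN h1 h2 => ?_, ?_⟩
  · exact (h.pClosed_of_isSubnormal hS.pgrp hN hNM _ inf_le_left (hS.pgrp.to_le inf_le_right)).trans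
      (pCoreOf_le_pCore_of_subnormal hN)
  · obtain ⟨r, hr, -, R, hR, h1, h2⟩ :=
      h.exists_prime_of_pClosed hS (isPClosed_iff_pClosed.1 hc)
    have := Fact.mk hr
    have hn : (pCoreOf p (pResidual p P)).Normal := pCoreOf_normal p _
    have h4 := card_sup_dvd_of_le_normalizer h1
    rw [top_le_iff.1 (h2.ge.trans (sup_le (le_sup_left.trans le_sup_right) le_sup_left)),
      card_top] at h4
    have h5 := h4.trans (Nat.mul_dvd_mul_left _ (card_sup_dvd R _))
    obtain ⟨a, ha⟩ := IsPGroup.iff_card.1 hS.pgrp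
    obtain ⟨b, hb⟩ := IsPGroup.iff_card.1 hR.pgrp
    obtain ⟨c, hc⟩ := IsPGroup.iff_card.1 (CP.isPGroup_pCoreOf p (pResidual p P))
    rw [ha, hb, hc] at h5
    refine (Finset.card_le_card (t := {p, r}) fun q hq => ?_).trans Finset.card_le_two
    have hq' := Nat.prime_of_mem_primeFactors hq
    have h6 := (Nat.dvd_of_mem_primeFactors hq).trans h5
    rw [Finset.mem_insert, Finset.mem_singleton]
    rcases (Nat.Prime.dvd_mul hq').1 h6 with h7 | h7
    · exact Or.inl ((Nat.prime_dvd_prime_iff_eq hq' Fact.out).1 (hq'.dvd_of_dvd_pow h7))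
    rcases (Nat.Prime.dvd_mul hq').1 h7 with h7 | h7
    · exact Or.inr ((Nat.prime_dvd_prime_iff_eq hq' hr).1 (hq'.dvd_of_dvd_pow h7))
    · exact Or.inl ((Nat.prime_dvd_prime_iff_eq hq' Fact.out).1 (hq'.dvd_of_dvd_pow h7))
  · rcases h3 N hN with h4 | h4
    · exact Or.inr (le_antisymm h2 (sup_le h4 h1))
    · exact Or.inl (le_antisymm h4 h1)
  · refine lt_of_le_not_ge le_sup_right fun h1 => h.not_pRes_le hS ?_
    rw [Amb.pRes_top]
    exact le_sup_left.trans (h1.trans M.normalCore_le)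

end Cfsg.Agent.S2905
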