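import Cfsg.Statements.S2907
import Mathlib
import Cfsg.Agent.Grp.Extraspecial
import Cfsg.Agent.Grp.PFrattini

set_option autoImplicit false
open Cfsg

namespace Cfsg.Agent.S2907

open Subgroup
open scoped commutatorElement

/-- Let X be a finite semi-extraspecial p-group and x an element of X outside the centre. Then the index of C_X(x) in X equals the order of Z(X), and the commutators [x, y], y ∈ X, form exactly the centre Z(X). -/
theorem result {X : Type*} [Group X] [Finite X] {p : ℕ} [Fact p.Prime] (hX : Cfsg.IsSemiExtraspecial p X) (x : X) (hx : x ∉ Subgroup.center X) : (Subgroup.centralizer ({x} : Set X)).index = Nat.card ↥(Subgroup.center X) ∧ {z : X | ∃ y : X, z = x * y * x⁻¹ * y⁻¹} = (Subgroup.center X : Set X) := by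
  obtain ⟨⟨hP, -, hZ⟩, hY⟩ := hX
  have hc : ∀ a b : X, ⁅a, b⁆ ∈ center X := fun a b => by
    rw [← hZ]; exact commutator_mem_commutator (mem_top a) (mem_top b)
  let φ : X →* X := MonoidHom.mk' (fun y => ⁅x, y⁆) fun a b =>
    Grp.ES.comm_mul_right (mem_center_iff.1 (hc x b) a)
  have hφ : ∀ y, φ y = ⁅x, y⁆ := fun _ => rfl
  have hk : φ.ker = centralizer ({x} : Set X) := by
    ext y
    rw [MonoidHom.mem_ker, hφ, commutatorElement_eq_one_iff_mul_comm, mem_centralizer_iff]
    simp
  have hr : φ.range = center X := by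
    have h1 : φ.range ≤ center X := by rintro _ ⟨y, rfl⟩; exact hc x y
    by_contra hne
    have h2 : φ.range.subgroupOf (center X) ≠ ⊤ := by
      intro h; exact hne (le_antisymm h1 (subgroupOf_eq_top.1 h))
    obtain ⟨M, hM, hle⟩ := (eq_top_or_exists_le_coatom _).resolve_left h2
    have h3 : (M.map (center X).subtype).subgroupOf (center X) = M :=
      comap_map_eq_self_of_injective (center X).subtype_injective M
    obtain ⟨hn, h4⟩ := hY (M.map (center X).subtype) (map_subtype_le M) (by rw [h3]; exact hM)
    set Y := M.map (center X).subtype with hYd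
    have h5 : Nat.card ((center X).map (QuotientGroup.mk' Y)) = p := by
      rw [← relIndex_ker, QuotientGroup.ker_mk', relIndex, h3]
      exact Grp.PFrattini.index_of_isCoatom (hP.to_subgroup _) hM
    have h6 : (center X).map (QuotientGroup.mk' Y) ≤ center (X ⧸ Y) := by
      rintro _ ⟨z, hz, rfl⟩
      rw [mem_center_iff]
      intro g
      obtain ⟨g, rfl⟩ := QuotientGroup.mk'_surjective Y g
      rw [← map_mul, ← map_mul, mem_center_iff.1 hz g]
    have h7 := eq_of_le_of_card_ge h6 (by rw [h5, h4.2])
    have h8 : QuotientGroup.mk' Y x ∈ center (X ⧸ Y) := by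
      rw [mem_center_iff]
      intro g
      obtain ⟨g, rfl⟩ := QuotientGroup.mk'_surjective Y g
      symm
      rw [← commutatorElement_eq_one_iff_mul_comm, ← map_commutatorElement,
        QuotientGroup.mk'_apply, QuotientGroup.eq_one_iff]
      exact ⟨⟨_, hc x g⟩, hle ⟨g, rfl⟩, rfl⟩
    rw [← h7] at h8
    have h9 : x ∈ ((center X).map (QuotientGroup.mk' Y)).comap (QuotientGroup.mk' Y) := h8
    rw [comap_map_eq, QuotientGroup.ker_mk', sup_eq_left.2 (map_subtype_le M)] at h9
    exact hx h9
  refine ⟨?_, ?_⟩
  · rw [← hk, index_ker, hr]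
  · rw [← hr]
    ext z
    simp only [Set.mem_setOf_eq, SetLike.mem_coe, MonoidHom.mem_range, hφ, commutatorElement_def,
      eq_comm]

end Cfsg.Agent.S2907
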