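import Cfsg.Statements.S2908
import Mathlib
import Cfsg.Agent.PLocal.PIrred
import Cfsg.Agent.Solv.Coprime2
import Cfsg.Agent.PLocal.Layer

set_option autoImplicit false
open Cfsg

namespace Cfsg.Agent.S2908

open Subgroup Cfsg.Agent.PLocal Cfsg.Agent.PLocal.CP Cfsg.Agent.Grp
open scoped commutatorElement Cfsg.Agent.PLocal.Amb

/-- Let P be a p-subgroup of a finite group, normalized by a p-subgroup A and by a subgroup B of order prime to p that commutes elementwise with A. If [P, B] ≤ [P, A], then B centralizes P. -/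
theorem result {G : Type*} [Group G] [Finite G] {p : ℕ} [Fact p.Prime] (P A B : Subgroup G) (hP : IsPGroup p ↥P) (hA : IsPGroup p ↥A) (hB : ¬ p ∣ Nat.card ↥B) (hnA : A ≤ Subgroup.normalizer (P : Set G)) (hnB : B ≤ Subgroup.normalizer (P : Set G)) (hAB : ⁅A, B⁆ = ⊥) (hcomm : ⁅P, B⁆ ≤ ⁅P, A⁆) : ⁅P, B⁆ = ⊥ := by
  have hp : p.Prime := Fact.out
  have hcop : (Nat.card B).Coprime (Nat.card P) :=
    Solv.coprime_card_of_isPGroup hP (hp.coprime_iff_not_dvd.2 hB).symm
  have hs : Group.IsSolvable B ∨ Group.IsSolvable P := Or.inr (Solv.isSolvable_of_isPGroup hP)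
  have h1 := Solv.coprime_commutator_sup_centralizer B P hnB hcop hs
  have h2 := Solv.coprime_commutator_commutator B P hnB hcop hs
  have hAnB : A ≤ 𝐍[B] := le_normalizer_of_commutator_eq_bot hAB
  have hBnA : B ≤ 𝐍[A] := le_normalizer_of_commutator_eq_bot (by rw [Subgroup.commutator_comm, hAB])
  have hQP : ⁅P, B⁆ ≤ P := Solv.commutator_le_of_le_normalizer hnB
  set Q := ⁅P, B⁆ with hQ
  set C := P ⊓ 𝐂[B] with hC
  have hPQ₁ : P ⊔ A ≤ 𝐍[(⁅Q, P ⊔ A⁆ : Subgroup G)] := Solv.le_normalizer_commutator_right _ _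
  have hBQ₁ : B ≤ 𝐍[(⁅Q, P ⊔ A⁆ : Subgroup G)] :=
    Amb.le_normalizer_commutator (Solv.le_normalizer_commutator_right _ _)
      (Amb.le_normalizer_sup hnB hBnA)
  set Q₁ := ⁅Q, P ⊔ A⁆ with hQ₁
  have hAC : A ≤ 𝐍[C] := Amb.le_normalizer_inf hnA (Amb.le_normalizer_centralizer hAnB)
  have h3 : ⁅A, P⁆ ≤ C ⊔ Q₁ := by
    rw [← h1]
    refine commutator_sup_le ?_ (le_sup_left.trans le_normalizer) ?_ ?_
    · refine le_normalizer_sup_of_commutator_le ?_ (hQP.trans (le_sup_left.trans hPQ₁))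
      rw [Subgroup.commutator_comm]
      exact (commutator_mono le_rfl (inf_le_left.trans le_sup_left)).trans le_sup_right
    · rw [Subgroup.commutator_comm]
      exact (commutator_mono le_rfl le_sup_right).trans le_sup_right
    · rw [Subgroup.commutator_comm]
      exact (Solv.commutator_le_of_le_normalizer hAC).trans le_sup_left
  have h4 : ⁅B, C ⊔ Q₁⁆ ≤ Q₁ := by
    refine commutator_sup_le (inf_le_left.trans (le_sup_left.trans hPQ₁)) le_normalizer ?_ ?_
    · rw [Subgroup.commutator_comm, commutator_eq_bot_iff_le_centralizer.2 inf_le_right]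
      exact bot_le
    · rw [Subgroup.commutator_comm]
      exact Solv.commutator_le_of_le_normalizer hBQ₁
  have h5 : Q ≤ Q₁ := by
    rw [← h2, Subgroup.commutator_comm]
    refine le_trans (commutator_mono le_rfl ?_) h4
    exact hcomm.trans (by rw [Subgroup.commutator_comm]; exact h3)
  have h6 : IsPGroup p ↥(A ⊔ P) := Amb.isPGroup_sup hA hP hnA
  rw [sup_comm] at h6
  exact Solv.eq_bot_of_le_commutator_of_isNilpotent h6.isNilpotent (hQP.trans le_sup_left) le_rfl h5

end Cfsg.Agent.S2908
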