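import Cfsg.Statements.S2909
import Mathlib
import Cfsg.Agent.S2908
import Cfsg.Agent.Solv.Coprime3

set_option autoImplicit false
open Cfsg

namespace Cfsg.Agent.S2909

open Subgroup Cfsg.Agent.PLocal Cfsg.Agent.PLocal.CP Cfsg.Agent.Grp
open scoped commutatorElement Cfsg.Agent.PLocal.Amb

/-- Let p be a prime, E a normal p-subgroup of the finite group G, and U a non-cyclic elementary abelian p-subgroup of G such that either C_E(U) = C_E(u) for every nontrivial u ∈ U, or [E, U] = [E, ⟨u⟩] for every nontrivial u ∈ U. If R is a subgroup of order prime to p normalized by U, then [R, U] centralizes E. -/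
theorem result {G : Type*} [Group G] [Finite G] {p : ℕ} [Fact p.Prime] (E : Subgroup G) [E.Normal] (hE : IsPGroup p ↥E) (U : Subgroup G) (hU : Cfsg.IsElementaryAbelian p U) (hnc : ¬ IsCyclic ↥U) (hcond : (∀ u ∈ U, u ≠ 1 → E ⊓ Subgroup.centralizer (U : Set G) = E ⊓ Subgroup.centralizer ({u} : Set G)) ∨ (∀ u ∈ U, u ≠ 1 → ⁅E, U⁆ = ⁅E, Subgroup.zpowers u⁆)) (R : Subgroup G) (hR : ¬ p ∣ Nat.card ↥R) (hRU : U ≤ Subgroup.normalizer (R : Set G)) : ⁅R, U⁆ ≤ Subgroup.centralizer (E : Set G) := by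
  have hp : p.Prime := Fact.out
  have hUc := hU.1
  have hUp : IsPGroup p U := isPGroup_iff_mem.2 fun a ha => ⟨1, by rw [pow_one]; exact hU.2 a ha⟩
  have hRc : (Nat.card R).Coprime p := (hp.coprime_iff_not_dvd.2 hR).symm
  have hnE : ∀ L : Subgroup G, L ≤ 𝐍[E] := fun L => by rw [normalizer_eq_top]; exact le_top
  have hnC : ∀ L : Subgroup G, L ≤ 𝐍[𝐂[E]] := fun L => Amb.le_normalizer_centralizer (hnE L)
  suffices h : R ≤ secCent U 𝐂[E] from (le_secCent_iff.1 h).2
  refine Solv.le_of_centralizers_le U R hnc hRU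
    (Solv.coprime_card_of_isPGroup hUp hRc).symm _ fun u hu hu1 => ?_
  refine le_secCent_iff.2 ⟨hnC _, ?_⟩
  rw [← Amb.centralizer_zpowers]
  have hUu : U ≤ 𝐂[zpowers u] := (le_centralizer U).trans (Amb.centralizer_anti (zpowers_le.2 hu))
  have hnu : ∀ L : Subgroup G, L ≤ 𝐂[zpowers u] → L ≤ 𝐍[zpowers u] := fun L h =>
    h.trans (Amb.centralizer_le_normalizer' _)
  have h1 : ⁅R ⊓ 𝐂[zpowers u], U⁆ ≤ R ⊓ 𝐂[zpowers u] :=
    Solv.commutator_le_of_le_normalizer
      (Amb.le_normalizer_inf hRU (Amb.le_normalizer_centralizer (hnu _ hUu)))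
  have hB : (Nat.card ↥⁅R ⊓ 𝐂[zpowers u], U⁆).Coprime p :=
    Nat.Coprime.coprime_dvd_left (card_dvd_of_le (h1.trans inf_le_left)) hRc
  have hu' : IsPGroup p (zpowers u) := hUp.to_le (zpowers_le.2 hu)
  have key : ∀ D : Subgroup G, U ≤ D → R ⊓ 𝐂[zpowers u] ≤ 𝐍[D] → ⁅R ⊓ 𝐂[zpowers u], U⁆ ≤ D := by
    intro D h2 h3
    rw [Subgroup.commutator_comm]
    exact (commutator_mono h2 le_rfl).trans (Solv.commutator_le_of_le_normalizer h3)
  rcases hcond with h | h
  · have h2 := h u hu hu1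
    rw [← Amb.centralizer_zpowers] at h2
    refine Solv.p_times_q p (zpowers u) _ E hu' hB hE
      (le_centralizer_iff.1 (h1.trans inf_le_right)) (hnE _) (hnE _) ?_
    rw [le_centralizer_iff]
    refine key _ ?_ (Amb.le_normalizer_centralizer (Amb.le_normalizer_inf (hnE _)
      (Amb.le_normalizer_centralizer (hnu _ inf_le_right))))
    rw [← h2, le_centralizer_iff]
    exact inf_le_right
  · have h2 := h u hu hu1
    rw [le_centralizer_iff, ← commutator_eq_bot_iff_le_centralizer]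
    refine S2908.result E (zpowers u) _ hE hu'
      (hp.coprime_iff_not_dvd.1 hB.symm) (hnE _) (hnE _) ?_ ?_
    · rw [commutator_eq_bot_iff_le_centralizer, le_centralizer_iff]
      exact h1.trans inf_le_right
    · refine (le_secCent_iff'.1 (key _ ?_ ?_)).2
      · exact le_secCent_iff'.2 ⟨Amb.le_normalizer_commutator (hnE _) (hnu _ hUu), h2.le⟩
      · exact le_normalizer_secCent (hnE _)
          (Amb.le_normalizer_commutator (hnE _) (hnu _ inf_le_right))

end Cfsg.Agent.S2909
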