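import Cfsg.Statements.S2910
import Mathlib
import Cfsg.Agent.PLocal.FStarP
import Cfsg.Agent.Transfer.Frobenius
import Cfsg.Agent.Grp.CritExp
import Cfsg.Agent.PLocal.Thompson

set_option autoImplicit false
open Cfsg

namespace Cfsg.Agent.S2910

open Subgroup Cfsg.Agent.PLocal Cfsg.Agent.PLocal.CP Cfsg.Agent.Grp
open scoped commutatorElement Cfsg.Agent.PLocal.Amb

/-- Let p be an odd prime dividing the order of the finite group G and P a Sylow p-subgroup of G. If Ω₁(P) (generated by the elements of order dividing p) is contained in the centre of G, then G has a normal p-complement. In particular, if G is quasisimple then Ω₁(P) is not central in G. -/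
theorem result {G : Type*} [Group G] [Finite G] {p : ℕ} [Fact p.Prime] (hp : p ≠ 2) (hdiv : p ∣ Nat.card G) (P : Sylow p G) (hZ : Cfsg.omegaOne p (P : Subgroup G) ≤ Subgroup.center G) : Cfsg.HasNormalPComplement p G ∧ ¬ Cfsg.IsQuasisimple G := by
  have h1 : HasNormalPComplement p G := by
    refine Transfer.hasNormalPComplement_of_local P fun B hB _ g hg hc => ?_
    refine CritExp.mem_centralizer_of_fix (P.isPGroup'.to_le hB) hg hc fun x hx hxp => ?_
    rw [CritExp.expQ_of_ne hp] at hxp
    exact (mem_center_iff.1 (hZ (mem_omegaOne (hB hx) hxp)) g).symm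
  refine ⟨h1, fun h => ?_⟩
  have h2 := Transfer.hasNormalPComplement_iff_coprime.1 h1
  have h3 : 𝐎[p, (⊤ : Subgroup G)] = ⊤ := pRes_eq_of_perfect (qs_commutator_eq_top h)
  rw [Amb.pRes_top] at h3
  rw [h3, card_top] at h2
  exact (Fact.out : p.Prime).one_lt.ne' (Nat.eq_one_of_dvd_coprimes h2 hdiv dvd_rfl)

end Cfsg.Agent.S2910
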