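import Cfsg.Statements.S2912
import Cfsg.Agent.FT.BG3_7
import Cfsg.Agent.FT.RepHH
import Cfsg.Agent.FT.RepBridge
import Cfsg.Agent.PLocal.ElemAb
-- import your own Cfsg.Agent.* helpers here

set_option autoImplicit false
open Cfsg

namespace Cfsg.Agent.S2912

open Module Cfsg.Agent.FT Cfsg.Agent.FT.Rep
open scoped commutatorElement TensorProduct

theorem sum_finrank_le {F W : Type*} [Field F] [AddCommGroup W] [Module F W]
    [FiniteDimensional F W] {ι : Type*} [Fintype ι] (U : ι → Submodule F W) (h : iSupIndep U) :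
    ∑ i, finrank F (U i) ≤ finrank F W := by
  classical
  have := LinearMap.finrank_le_finrank_of_injective h.dfinsupp_lsum_injective
  rwa [show finrank F (Π₀ i, U i) = ∑ i, finrank F (U i) from Module.finrank_directSum F _] at this

theorem eigen_ge {F W : Type*} [Field F] [AddCommGroup W] [Module F W] [FiniteDimensional F W]
    [IsAlgClosed F] {Γ : Type*} [Group Γ] [Finite Γ] {p w : ℕ} (hp : p.Prime)
    (hE : IsExtraspecial p Γ) (hc : Nat.card Γ = p ^ (2 * w + 1)) (hn : (p : F) ≠ 0)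
    (σ : Γ →* End F W) {z : Γ} (hz : z ∈ Subgroup.center Γ) {c : F} (hc1 : c ≠ 1)
    (hev : (σ z).HasEigenvalue c) : p ^ w ≤ finrank F ((σ z).eigenspace c) := by
  have hinv : ∀ g, ∀ v ∈ (σ z).eigenspace c, σ g v ∈ (σ z).eigenspace c := by
    intro g v hv
    rw [End.mem_eigenspace_iff] at hv ⊢
    rw [← apply_mul, ← Subgroup.mem_center_iff.mp hz g, apply_mul, hv, map_smul]
  let τ0 : Γ →* End F ((σ z).eigenspace c) :=
    { toFun := fun g => (σ g).restrict (hinv g)
      map_one' := by ext y; simp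
      map_mul' := fun a b => by ext y; simp }
  have hZc : Nat.card (Subgroup.center Γ) = p := hE.2
  have hne : fix τ0 (Subgroup.center Γ) ≠ ⊤ := by
    intro h
    obtain ⟨v, hv, hv0⟩ := Submodule.exists_mem_ne_zero_of_ne_bot hev
    have h1 : τ0 z ⟨v, hv⟩ = ⟨v, hv⟩ :=
      (show (⟨v, hv⟩ : (σ z).eigenspace c) ∈ fix τ0 (Subgroup.center Γ) from
        h ▸ Submodule.mem_top) z hz
    have h2 : σ z v = v := congrArg Subtype.val h1
    rw [End.mem_eigenspace_iff.mp hv] at h2
    apply hc1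
    have : (c - 1) • v = 0 := by rw [sub_smul, h2, one_smul, sub_self]
    exact sub_eq_zero.mp ((smul_eq_zero.mp this).resolve_right hv0)
  obtain ⟨Y, τ, -, hY, hirr, hfix⟩ := exists_irr τ0 (Subgroup.center Γ) (by rwa [hZc]) hne
  have hcardT : Nat.card (⊤ : Subgroup Γ) = p ^ (2 * w + 1) := by rw [Subgroup.card_top, hc]
  have hsq := finrank_sq_eq τ (Q := ⊤) (Z := Subgroup.center Γ)
    (by rw [hcardT]; push_cast; exact pow_ne_zero _ hn) (le_of_eq hE.1.2.2)
    (fun y hy => hirr.scalar fun g => by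
      rw [← map_mul, ← map_mul, Subgroup.mem_center_iff.mp hy g])
    (fun g _ hg => by
      rw [Subgroup.mem_center_iff]
      intro a
      by_contra hne
      have h1 : ⁅a, g⁆ ≠ 1 := fun h => hne (commutatorElement_eq_one_iff_mul_comm.mp h)
      have h2 : ⁅a, g⁆ ∈ Subgroup.center Γ :=
        hE.1.2.2 ▸ Subgroup.commutator_mem_commutator (Subgroup.mem_top a) (Subgroup.mem_top g)
      have h3 := zpowers_eq_of_card_prime (by rwa [hZc]) h2 h1
      have h4 : Subgroup.center Γ ≤ τ.ker := by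
        rw [← h3, Subgroup.zpowers_le, MonoidHom.mem_ker]
        exact (rep_commutator_eq_one_iff τ a g).mpr (hg a trivial)
      rw [← fix_eq_top_iff_le_ker, hfix] at h4
      exact bot_ne_top h4)
  have hidx : (Subgroup.center Γ).relIndex ⊤ = p ^ (2 * w) := by
    rw [Subgroup.relIndex_top_right]
    have := (Subgroup.center Γ).card_mul_index
    rw [hZc, hc, pow_succ'] at this
    exact Nat.eq_of_mul_eq_mul_left hp.pos this
  have hpos : 0 < finrank F Y := finrank_pos
  rw [hidx] at hsq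
  have h5 : 0 < finrank F (fix (cnj τ) ⊤) := by
    by_contra h0
    rw [not_lt, Nat.le_zero] at h0
    rw [h0, mul_zero] at hsq
    exact (pow_pos hpos 2).ne' hsq
  have h6 : (p ^ w) ^ 2 ≤ finrank F Y ^ 2 := by
    rw [hsq, ← pow_mul, mul_comm w 2]
    exact Nat.le_mul_of_pos_right _ h5
  exact (Nat.pow_le_pow_iff_left two_ne_zero).mp h6 |>.trans (Submodule.finrank_le Y)

theorem core_bound {F W : Type*} [Field F] [AddCommGroup W] [Module F W] [FiniteDimensional F W]
    [IsAlgClosed F] {Γ : Type*} [Group Γ] [Finite Γ] {p r w : ℕ} (hp : p.Prime) (hr : 0 < r)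
    (hcop : p.Coprime r) (hE : IsExtraspecial p Γ) (hc : Nat.card Γ = p ^ (2 * w + 1))
    (hn : (p : F) ≠ 0) (σ : Γ →* End F W) (hne : fix σ (Subgroup.center Γ) ≠ ⊤)
    (hfrob : ∀ g c, (σ g).HasEigenvalue c → (σ g).HasEigenvalue (c ^ r)) (n : ℕ)
    (hmin : ∀ k : ℕ, 1 ≤ k → p ∣ r ^ k - 1 → n ≤ k) : n * p ^ w ≤ finrank F W := by
  have hZc : Nat.card (Subgroup.center Γ) = p := hE.2
  have hnt : Subgroup.center Γ ≠ ⊥ := by
    intro h
    rw [h, Subgroup.card_bot] at hZc
    exact hp.one_lt.ne hZc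
  obtain ⟨⟨z, hz⟩, hz1⟩ := Subgroup.ne_bot_iff_exists_ne_one.mp hnt
  have hz1' : z ≠ 1 := fun h => hz1 (Subtype.ext h)
  have hzp := zpowers_eq_of_card_prime (by rwa [hZc]) hz hz1'
  obtain ⟨Y, τ, hτ, hY, hirr, hfix⟩ := exists_irr σ (Subgroup.center Γ) (by rwa [hZc]) hne
  obtain ⟨c, hcz⟩ : ∃ c : F, τ z = c • 1 := hirr.scalar fun g => by
    rw [← map_mul, ← map_mul, Subgroup.mem_center_iff.mp hz g]
  have hc1 : c ≠ 1 := by
    rintro rfl
    have h4 : Subgroup.center Γ ≤ τ.ker := by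
      rw [← hzp, Subgroup.zpowers_le, MonoidHom.mem_ker, hcz, one_smul]
    rw [← fix_eq_top_iff_le_ker, hfix] at h4
    exact bot_ne_top h4
  obtain ⟨y, hy⟩ := exists_ne (0 : Y)
  have hzo : z ^ p = 1 := by
    have := Subgroup.orderOf_dvd_natCard _ hz
    rw [hZc] at this
    exact orderOf_dvd_iff_pow_eq_one.mp this
  have hcp : c ^ p = 1 := by
    have h1 : τ (z ^ p) y = c ^ p • y := by rw [map_pow, hcz, smul_pow, one_pow]; rfl
    rw [hzo, map_one] at h1
    have : (c ^ p - 1) • y = 0 := by rw [sub_smul, ← h1, one_smul]; exact sub_self _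
    exact sub_eq_zero.mp ((smul_eq_zero.mp this).resolve_right hy)
  haveI := Fact.mk hp
  have hord : orderOf c = p := orderOf_eq_prime hcp hc1
  have hev0 : (σ z).HasEigenvalue c := by
    refine End.hasEigenvalue_of_hasEigenvector (x := (y : W)) ⟨?_, fun h => hy (Subtype.ext h)⟩
    rw [End.mem_eigenspace_iff, ← hτ, hcz]
    rfl
  have hev : ∀ i : ℕ, (σ z).HasEigenvalue (c ^ r ^ i) := by
    intro i
    induction i with
    | zero => simpa using hev0
    | succ i ih => rw [pow_succ, pow_mul]; exact hfrob z _ ih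
  have hc0 : c ≠ 0 := by
    rintro rfl
    rw [zero_pow hp.ne_zero] at hcp
    exact zero_ne_one hcp
  have hlt : ∀ i j : ℕ, i < j → j < n → c ^ r ^ i ≠ c ^ r ^ j := by
    intro i j hij hjn h
    obtain ⟨k, rfl⟩ := Nat.exists_eq_add_of_lt hij
    have h0 : r ^ (i + k + 1) = r ^ i + r ^ i * (r ^ (k + 1) - 1) := by
      rw [Nat.mul_sub, mul_one, ← pow_add, ← add_assoc,
        Nat.add_sub_cancel' (Nat.pow_le_pow_right hr hij.le)]
    rw [h0, pow_add, eq_comm, mul_eq_left₀ (pow_ne_zero _ hc0), ← orderOf_dvd_iff_pow_eq_one,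
      hord] at h
    have h2 := hmin (k + 1) (by omega) ((hcop.pow_right i).dvd_of_dvd_mul_left h)
    omega
  have hinj : Function.Injective fun i : Fin n => c ^ r ^ (i : ℕ) := by
    intro i j h
    rcases lt_trichotomy (i : ℕ) j with h1 | h1 | h1
    · exact absurd h (hlt i j h1 j.2)
    · exact Fin.ext h1
    · exact absurd h.symm (hlt j i h1 i.2)
  have hsum := sum_finrank_le (fun i : Fin n => (σ z).eigenspace (c ^ r ^ (i : ℕ)))
    ((End.eigenspaces_iSupIndep (σ z)).comp hinj)
  refine le_trans ?_ hsum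
  calc n * p ^ w = ∑ _i : Fin n, p ^ w := by simp
    _ ≤ _ := Finset.sum_le_sum fun i _ => eigen_ge hp hE hc hn σ hz (fun h => ?_) (hev i)
  rw [← orderOf_dvd_iff_pow_eq_one, hord] at h
  exact hp.one_lt.ne' (Nat.Coprime.eq_one_of_dvd (hcop.pow_right i) h)

theorem rep_bound {Γ : Type*} [Group Γ] [Finite Γ] {p r w : ℕ} (hp : p.Prime) [hr : Fact r.Prime]
    (hpr : p ≠ r) (hE : IsExtraspecial p Γ) (hc : Nat.card Γ = p ^ (2 * w + 1))
    {M : Type*} [AddCommGroup M] [Module (ZMod r) M] [FiniteDimensional (ZMod r) M]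
    (ρ : Γ →* End (ZMod r) M) (hρ : Function.Injective ρ) (n : ℕ)
    (hmin : ∀ k : ℕ, 1 ≤ k → p ∣ r ^ k - 1 → n ≤ k) : n * p ^ w ≤ finrank (ZMod r) M := by
  have hn : (p : AlgebraicClosure (ZMod r)) ≠ 0 := by
    intro h
    rw [CharP.cast_eq_zero_iff _ r] at h
    exact hpr ((Nat.prime_dvd_prime_iff_eq hr.out hp).mp h).symm
  rw [← Module.finrank_baseChange (R := AlgebraicClosure (ZMod r))]
  refine core_bound hp hr.out.pos ((Nat.coprime_primes hp hr.out).mpr hpr) hE hc hn
    ((End.baseChangeHom (ZMod r) (AlgebraicClosure (ZMod r)) M).toMonoidHom.comp ρ) ?_ ?_ n hmin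
  · intro h
    have h1 := finrank_fix_baseChange (AlgebraicClosure (ZMod r)) ρ (Subgroup.center Γ)
    rw [h, finrank_top, Module.finrank_baseChange] at h1
    have h2 := Submodule.eq_top_of_finrank_eq h1.symm
    rw [fix_eq_top_iff] at h2
    have hZc : Nat.card (Subgroup.center Γ) = p := hE.2
    have : Subgroup.center Γ = ⊥ := by
      rw [eq_bot_iff]
      intro z hz
      exact hρ (by rw [h2 z hz, map_one])
    rw [this, Subgroup.card_bot] at hZc
    exact hp.one_lt.ne hZc
  · intro g c ih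
    rw [End.hasEigenvalue_iff_isRoot_charpoly] at ih ⊢
    have e : (((End.baseChangeHom (ZMod r) (AlgebraicClosure (ZMod r)) M).toMonoidHom.comp ρ)
        g).charpoly = (ρ g).charpoly.map (algebraMap (ZMod r) (AlgebraicClosure (ZMod r))) :=
      LinearMap.charpoly_baseChange (ρ g) _
    rw [e, Polynomial.IsRoot.def, Polynomial.eval_map_algebraMap] at ih ⊢
    have h2 := Polynomial.aeval_algHom_apply
      (FiniteField.frobeniusAlgHom (ZMod r) (AlgebraicClosure (ZMod r))) c (ρ g).charpoly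
    rw [ih, map_zero, FiniteField.coe_frobeniusAlgHom, ZMod.card] at h2
    exact h2


/-- Let p and r be distinct primes, let E be an extraspecial subgroup of order p^(2w+1) of a finite group, and let A be an elementary abelian r-subgroup normalized by E on which E acts faithfully (C_E(A) = 1). If n ≥ 1 is least with p dividing rⁿ − 1 (the smallest dimension of a faithful representation of a group of order p over the field with r elements), then the order of A is at least r^(n·p^w). -/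
theorem result {G : Type*} [Group G] [Finite G] {p r : ℕ} [Fact p.Prime] [hr : Fact r.Prime] (hpr : p ≠ r) (E A : Subgroup G) (w : ℕ) (hE : Cfsg.IsExtraspecial p ↥E) (hEcard : Nat.card ↥E = p ^ (2 * w + 1)) (hA : Cfsg.IsElementaryAbelian r A) (hnorm : E ≤ Subgroup.normalizer (A : Set G)) (hfaith : E ⊓ Subgroup.centralizer (A : Set G) = ⊥) (n : ℕ) (hn : 1 ≤ n) (hdiv : p ∣ r ^ n - 1) (hmin : ∀ k : ℕ, 1 ≤ k → p ∣ r ^ k - 1 → n ≤ k) : r ^ (n * p ^ w) ≤ Nat.card ↥A := by
  rw [PLocal.EA.card_eq_pow_finrank hA]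
  exact Nat.pow_le_pow_right hr.out.pos
    (rep_bound Fact.out hpr hE hEcard (PLocal.EA.rep hA E hnorm)
      (PLocal.EA.rep_injective hnorm hfaith) n hmin)

end Cfsg.Agent.S2912
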