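import Cfsg.Statements.S2925
import Mathlib
import Cfsg.Agent.PLocal.PTerm

set_option autoImplicit false
open Cfsg

namespace Cfsg.Agent.S2925

/-- Let K be a component of the finite group X and T a Sylow 2-subgroup of X. If some abelian normal subgroup Y of T does not normalize K, then K ⧸ Z(K) has abelian Sylow 2-subgroups. -/
theorem result {X : Type*} [Group X] [Finite X] (K : Subgroup X) (hK : Cfsg.IsComponent K) (T : Sylow 2 X) (Y : Subgroup X) (hYT : Y ≤ (T : Subgroup X)) (hYn : (Y.subgroupOf (T : Subgroup X)).Normal) (hYab : IsMulCommutative ↥Y) (hnot : ¬ Y ≤ Subgroup.normalizer (K : Set X)) (P : Sylow 2 (↥K ⧸ Subgroup.center ↥K)) : IsMulCommutative ↥(P : Subgroup (↥K ⧸ Subgroup.center ↥K)) := by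
  open Subgroup PLocal PLocal.Amb in
  obtain ⟨y, hy, hyK⟩ := SetLike.not_le_iff_exists.1 hnot
  have hc : ⁅K, cj(y, K)⁆ = ⊥ := comp_commute_of_ne hK (comp_conj hK y) fun h =>
    hyK (cj_eq_iff.1 h.symm)
  have hT : IsSyl 2 ((T : Subgroup X) ⊓ layer X ⊓ K) K :=
    ((isSyl_top T).inf_of_le le_top (by rw [normalizer_eq_top])).inf_of_le (comp_le_layer hK)
      (layer_le_normalizer_comp hK)
  set R := (T : Subgroup X) ⊓ layer X ⊓ K
  have hn : (T : Subgroup X) ≤ 𝐍[Y] := (normal_subgroupOf_iff_le_normalizer hYT).1 hYn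
  have hR : ⁅R, R⁆ ≤ 𝐂[K] := by
    rw [commutator_le]
    intro r hr s hs
    have h1 : ∀ r ∈ R, r * (y * r⁻¹ * y⁻¹) ∈ Y := fun r hr => by
      have := mul_mem (conj_mem_of_mem_normalizer (hn hr.1.1) hy) (inv_mem hy)
      simpa [mul_assoc] using this
    have h2 : ∀ r ∈ R, y * r⁻¹ * y⁻¹ ∈ 𝐂[K] := fun r hr =>
      le_centralizer_iff.1 (commutator_eq_bot_iff_le_centralizer.1 hc) (conj_mem_cj y (inv_mem hr.2))
    have h3 := congrArg Subtype.val (hYab.is_comm.comm ⟨_, h1 r hr⟩ ⟨_, h1 s hs⟩)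
    simp only [coe_mul] at h3
    set a := y * r⁻¹ * y⁻¹
    set b := y * s⁻¹ * y⁻¹
    have ha := h2 r hr
    have hb := h2 s hs
    have e1 : s * a = a * s := ha s hs.2
    have e2 : r * b = b * r := hb r hr.2
    have e3 : r * s * r⁻¹ * s⁻¹ = (s * r) * (b * a * b⁻¹ * a⁻¹) * (s * r)⁻¹ := by
      have e4 : r * s * (a * b) = s * r * (b * a) := by
        calc r * s * (a * b) = r * (s * a) * b := by group
          _ = r * a * (s * b) := by rw [e1]; group
          _ = s * (b * r) * a := by rw [h3]; group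
          _ = _ := by rw [← e2]; group
      calc r * s * r⁻¹ * s⁻¹ = r * s * (a * b) * (a * b)⁻¹ * (s * r)⁻¹ := by group
        _ = _ := by rw [e4]; group
    rw [commutatorElement_def, e3]
    exact conj_mem_of_mem_normalizer (normalizer_le_normalizer_centralizer K
      (le_normalizer (mul_mem hs.2 hr.2)))
      (mul_mem (mul_mem (mul_mem hb ha) (inv_mem hb)) (inv_mem ha))
  obtain ⟨S, hS⟩ := hT.exists_sylow
  have h1 := (isSyl_top S).map (QuotientGroup.mk' (center K))
  rw [map_top_of_surjective _ (QuotientGroup.mk'_surjective _), hS] at h1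
  obtain ⟨g, -, hg⟩ := (isSyl_top P).exists_cj_eq h1
  rw [← le_centralizer_iff_isMulCommutative, ← commutator_eq_bot_iff_le_centralizer, ← hg,
    commutator_cj, cj_eq_bot, ← commutator_le_iff_map_mk'_eq_bot, commutator_le]
  intro a ha b hb
  have := hR (commutator_mem_commutator (H₁ := R) (H₂ := R) ha hb)
  exact mem_center_iff.2 fun k => Subtype.ext (this k k.2)

end Cfsg.Agent.S2925
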