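import Cfsg.Statements.S2928
import Mathlib
import Cfsg.Agent.KSG.QsAlt

set_option autoImplicit false
open Cfsg

namespace Cfsg.Agent.S2928

open Equiv Equiv.Perm Subgroup KSG

/-- Let n ≥ 8 and let H be a subgroup of the symmetric group of degree n whose generalized Fitting subgroup F*(H) is quasisimple. If H contains a Sylow 2-subgroup of the alternating group of degree n, then F*(H) is isomorphic to an alternating group of degree m for some m ∈ {n − 3, n − 2, n − 1, n}. -/
theorem result (n : ℕ) (hn : 8 ≤ n) (H : Subgroup (Equiv.Perm (Fin n))) (hF : Cfsg.IsQuasisimple ↥(Cfsg.generalizedFittingSubgroup ↥H)) (hS : ∃ P : Sylow 2 ↥(alternatingGroup (Fin n)), ((P : Subgroup ↥(alternatingGroup (Fin n))).map (alternatingGroup (Fin n)).subtype) ≤ H) : ∃ m : ℕ, (m = n - 3 ∨ m = n - 2 ∨ m = n - 1 ∨ m = n) ∧ Nonempty (↥(Cfsg.generalizedFittingSubgroup ↥H) ≃* ↥(alternatingGroup (Fin m))) := by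
  obtain ⟨K, h1, h2, h3, h4, ⟨e⟩⟩ := fstar_map_subtype_facts H hF
  obtain ⟨P, hP⟩ := hS
  have hR := PLocal.Amb.isSyl_map_subtype P
  obtain ⟨t, ht, h5⟩ := exists_threeCycle_of_sylow_two (by simpa using hn) h1 h2 h3 hR hP
  obtain ⟨D, h6, rfl, h7⟩ := exists_eq_altOn_of_threeCycle h1 h2 h3 h4 ht h5
  obtain ⟨e'⟩ := nonempty_altOn_equiv D
  refine ⟨D.card, ?_, ⟨e.trans e'⟩⟩
  have h8 := Finset.card_add_card_compl D
  rw [Fintype.card_fin] at h8
  by_contra h9
  obtain ⟨a, ha, -⟩ := exists_mem_notMem_list (B := Dᶜ) [] (by simp only [List.length]; omega)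
  obtain ⟨b, hb, b1⟩ := exists_mem_notMem_list (B := Dᶜ) [a] (by simp only [List.length]; omega)
  obtain ⟨c, hc, c1⟩ := exists_mem_notMem_list (B := Dᶜ) [a, b] (by simp only [List.length]; omega)
  obtain ⟨d, hd, d1⟩ := exists_mem_notMem_list (B := Dᶜ) [a, b, c]
    (by simp only [List.length]; omega)
  simp only [List.mem_cons, List.not_mem_nil, or_false, not_or, Finset.mem_compl]
    at ha hb hc hd b1 c1 d1
  have ne : ∀ x ∈ D, ∀ y, y ∉ D → x ≠ y := fun x hx y hy e => hy (e ▸ hx)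
  have := eq_one_of_fix_of_isSyl h4 h7 hR hP (swap_mul_swap_mem_alt (Ne.symm b1) (Ne.symm d1.2.2))
    (by
      rw [(commute_swap_of_fix (swap_apply_of_ne_of_ne c1.1 c1.2)
        (swap_apply_of_ne_of_ne d1.1 d1.2.1)).mul_pow, pow_two, pow_two, swap_mul_self,
        swap_mul_self, one_mul])
    (fun x hx => by
      rw [Perm.mul_apply, swap_apply_of_ne_of_ne (ne x hx c hc) (ne x hx d hd),
        swap_apply_of_ne_of_ne (ne x hx a ha) (ne x hx b hb)])
  have := congrArg (· a) this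
  simp only [Perm.mul_apply, swap_apply_of_ne_of_ne (Ne.symm c1.1) (Ne.symm d1.1),
    swap_apply_left, Perm.one_apply] at this
  exact b1 this

end Cfsg.Agent.S2928
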