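import Cfsg.Statements.S2929
import Mathlib
import Cfsg.Agent.KSG.QsAlt

set_option autoImplicit false
open Cfsg

namespace Cfsg.Agent.S2929

open Equiv Equiv.Perm Subgroup KSG

/-- Let n ≥ 5 and let H be a subgroup of the symmetric group of degree n whose generalized Fitting subgroup F*(H) is quasisimple. If H contains a Sylow 3-subgroup of the symmetric group, then F*(H) is isomorphic to an alternating group of degree m for some m ∈ {n − 2, n − 1, n}. -/
theorem result (n : ℕ) (hn : 5 ≤ n) (H : Subgroup (Equiv.Perm (Fin n))) (hF : Cfsg.IsQuasisimple ↥(Cfsg.generalizedFittingSubgroup ↥H)) (hS : ∃ P : Sylow 3 (Equiv.Perm (Fin n)), (P : Subgroup (Equiv.Perm (Fin n))) ≤ H) : ∃ m : ℕ, (m = n - 2 ∨ m = n - 1 ∨ m = n) ∧ Nonempty (↥(Cfsg.generalizedFittingSubgroup ↥H) ≃* ↥(alternatingGroup (Fin m))) := by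
  obtain ⟨K, h1, h2, h3, h4, ⟨e⟩⟩ := fstar_map_subtype_facts H hF
  obtain ⟨P, hP⟩ := hS
  have : Fact (Nat.Prime 3) := ⟨Nat.prime_three⟩
  have hR := PLocal.Amb.isSyl_top P
  have pw : ∀ t : Perm (Fin n), IsThreeCycle t → t ^ 3 = 1 := fun t ht => by
    rw [← ht.orderOf, pow_orderOf_eq_one]
  obtain ⟨t, ht, h5⟩ : ∃ t ∈ H, IsThreeCycle t := by
    have h5 : IsThreeCycle (c3 (⟨0, by omega⟩ : Fin n) ⟨1, by omega⟩ ⟨2, by omega⟩) :=
      isThreeCycle_c3 (by simp) (by simp) (by simp)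
    obtain ⟨g, -, hg⟩ := isSyl_exists_conj_mem hR (mem_top _) (pw _ h5)
    exact ⟨_, hP hg, by rwa [IsThreeCycle, cycleType_conj]⟩
  obtain ⟨D, h6, rfl, h7⟩ := exists_eq_altOn_of_threeCycle h1 h2 h3 h4 ht h5
  obtain ⟨e'⟩ := nonempty_altOn_equiv D
  refine ⟨D.card, ?_, ⟨e.trans e'⟩⟩
  have h8 := Finset.card_add_card_compl D
  rw [Fintype.card_fin] at h8
  by_contra h9
  obtain ⟨a, ha, -⟩ := exists_mem_notMem_list (B := Dᶜ) [] (by simp only [List.length]; omega)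
  obtain ⟨b, hb, b1⟩ := exists_mem_notMem_list (B := Dᶜ) [a] (by simp only [List.length]; omega)
  obtain ⟨c, hc, c1⟩ := exists_mem_notMem_list (B := Dᶜ) [a, b] (by simp only [List.length]; omega)
  simp only [List.mem_cons, List.not_mem_nil, or_false, not_or, Finset.mem_compl]
    at ha hb hc b1 c1
  have ne : ∀ x ∈ D, ∀ y, y ∉ D → x ≠ y := fun x hx y hy e => hy (e ▸ hx)
  have h10 := isThreeCycle_c3 (Ne.symm b1) (Ne.symm c1.1) (Ne.symm c1.2)
  exact h10.ne_one (eq_one_of_fix_of_isSyl h4 h7 hR hP (mem_top _) (pw _ h10)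
    fun x hx => c3_apply_of_ne (ne x hx a ha) (ne x hx b hb) (ne x hx c hc))

end Cfsg.Agent.S2929
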