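import Cfsg.Statements.S2930
import Mathlib
import Mathlib
import Cfsg.Agent.KSG.SylowThreeMax
import Cfsg.Agent.S2119
import Cfsg.Agent.PLocal.FStar

set_option autoImplicit false
open Cfsg

namespace Cfsg.Agent.S2930

open Equiv Equiv.Perm Subgroup in
theorem map_three_six (ψ : MulAut (alternatingGroup (Fin 6))) {k : ℕ} (hk : ψ ^ 3 ^ k = 1)
    (x : alternatingGroup (Fin 6)) (hx : IsThreeCycle x.1) : IsThreeCycle (ψ x).1 := by
  classical
  by_contra h1
  have hall : ∀ (φ : MulAut (alternatingGroup (Fin 6))) (y z : alternatingGroup (Fin 6)),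
      IsThreeCycle y.1 → IsThreeCycle z.1 → IsThreeCycle (φ y).1 → IsThreeCycle (φ z).1 := by
    intro φ y z hy hz h
    obtain ⟨c, rfl⟩ := isConj_iff.1 (alternatingGroup.isThreeCycle_isConj (by simp) hy hz)
    rw [map_mul, map_mul, map_inv]
    exact (cycleType_conj (σ := (φ y).1) (τ := (φ c).1)).trans h
  have h2 : ¬ IsThreeCycle ((ψ ^ 2) x).1 := fun h => h1 (by
    have h3 : ∀ m : ℕ, IsThreeCycle (((ψ ^ 2) ^ m) x).1 := fun m => by
      induction m with
      | zero => exact hx
      | succ m ih => rw [pow_succ', MulAut.mul_apply]; exact hall _ x _ hx ih h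
    obtain ⟨m, hm⟩ : Odd (3 ^ k) := Odd.pow (by decide)
    have := h3 (m + 1)
    rwa [← pow_mul, show 2 * (m + 1) = 3 ^ k + 1 by omega, pow_succ, hk, one_mul] at this)
  have hC : (Finset.univ.filter fun g : Perm (Fin 6) => g.support.card = 3).card = 40 := by
    decide +kernel
  have hT : (Finset.univ.filter fun g : Perm (Fin 6) => g ^ 3 = 1).card = 81 := by
    decide +kernel
  let F : Fin 3 × {g : Perm (Fin 6) // g.support.card = 3} → Perm (Fin 6) := fun p =>
    ((ψ ^ p.1.val) ⟨p.2.1, (card_support_eq_three_iff.1 p.2.2).mem_alternatingGroup⟩).1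
  have h4 : ∀ (i j : ℕ) (y z : alternatingGroup (Fin 6)), IsThreeCycle y.1 → IsThreeCycle z.1 →
      (ψ ^ i) y = (ψ ^ (i + j)) z → IsThreeCycle ((ψ ^ j) x).1 := fun i j y z hy hz e => by
    rw [pow_add, MulAut.mul_apply] at e
    exact hall _ z x hz hx ((ψ ^ i).injective e ▸ hy)
  have hF : Function.Injective F := by
    rintro ⟨i, y, hy⟩ ⟨j, z, hz⟩ e
    have e' := Subtype.ext e
    have hy' := card_support_eq_three_iff.1 hy
    have hz' := card_support_eq_three_iff.1 hz
    have : i = j := by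
      fin_cases i <;> fin_cases j
      · rfl
      · exact absurd (h4 0 1 _ _ hy' hz' e') (by simpa using h1)
      · exact absurd (h4 0 2 _ _ hy' hz' e') h2
      · exact absurd (h4 0 1 _ _ hz' hy' e'.symm) (by simpa using h1)
      · rfl
      · exact absurd (h4 1 1 _ _ hy' hz' e') (by simpa using h1)
      · exact absurd (h4 0 2 _ _ hz' hy' e'.symm) h2
      · exact absurd (h4 1 1 _ _ hz' hy' e'.symm) (by simpa using h1)
      · rfl
    subst this
    simpa using (ψ ^ i.val).injective e'
  have := Finset.card_le_card_of_injOn (s := Finset.univ)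
    (t := Finset.univ.filter fun g : Perm (Fin 6) => g ^ 3 = 1) F (fun p _ => by
      have h5 := (card_support_eq_three_iff.1 p.2.2).orderOf ▸ pow_orderOf_eq_one p.2.1
      simp only [F, Finset.coe_filter, Finset.mem_univ, true_and, Set.mem_ofPred_eq]
      rw [← SubmonoidClass.coe_pow, ← map_pow, OneMemClass.coe_eq_one, map_eq_one_iff _
        (MulEquiv.injective _)]
      exact Subtype.ext h5) hF.injOn
  rw [hT, Finset.card_univ, Fintype.card_prod, Fintype.card_subtype, hC] at this
  simp at this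

open Equiv Equiv.Perm Subgroup in
theorem exists_inner {n : ℕ} (hn : 5 ≤ n) (ψ : MulAut (alternatingGroup (Fin n))) {k : ℕ}
    (hk : ψ ^ 3 ^ k = 1) : ∃ g, ψ = MulAut.conj g := by
  obtain ⟨g, hg⟩ := KSG.exists_conj_of_map_threeCycle (by simp; omega) ψ.toMonoidHom ψ.injective
    (by
      by_cases h6 : n = 6
      · subst h6; exact map_three_six ψ hk
      · exact S2119.map_threeCycle h6 ψ)
  have e : ψ = MulAut.conjNormal g := MulEquiv.ext fun x => Subtype.ext (hg x)
  have h1 : g ^ 3 ^ k = 1 := KSG.eq_one_of_commute_threeCycles (by simp; omega) fun σ hσ => by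
    rw [e, ← map_pow] at hk
    have := congrArg Subtype.val (DFunLike.congr_fun hk ⟨σ, hσ.mem_alternatingGroup⟩)
    rw [MulAut.conjNormal_apply] at this
    exact mul_inv_eq_iff_eq_mul.1 this
  have h2 : sign g = 1 := by
    have := congrArg sign h1
    rwa [map_pow, map_one, Int.units_pow_eq_pow_mod_two, Nat.odd_iff.1 (Odd.pow (by decide)),
      pow_one] at this
  exact ⟨⟨g, h2⟩, MulEquiv.ext fun x => Subtype.ext (hg x)⟩


/-- Let X be a finite 3-minimal group (a Sylow 3-subgroup is not normal and lies in a unique maximal subgroup) whose generalized Fitting subgroup is isomorphic to an alternating group of degree n ≥ 5. Then X = F*(X), and n = 6, n = 9, or n = 3ᵃ + 1 for some a ≥ 2. -/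
theorem result {X : Type*} [Group X] [Finite X] (hX : Cfsg.IsPMinimal 3 X) (n : ℕ) (hn : 5 ≤ n) (hF : Nonempty (↥(Cfsg.generalizedFittingSubgroup X) ≃* ↥(alternatingGroup (Fin n)))) : Cfsg.generalizedFittingSubgroup X = ⊤ ∧ (n = 6 ∨ n = 9 ∨ ∃ a : ℕ, 2 ≤ a ∧ n = 3 ^ a + 1) := by
  obtain ⟨e⟩ := hF
  obtain ⟨S⟩ : Nonempty (Sylow 3 X) := inferInstance
  obtain ⟨hS, M, hM, hu⟩ := hX S
  have hle : ∀ K : Subgroup X, (S : Subgroup X) ≤ K → K ≠ ⊤ → K ≤ M := fun K h1 h2 => by
    obtain ⟨M', h3, h4⟩ := (eq_top_or_exists_le_coatom K).resolve_left h2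
    exact hu M' ⟨h3, h1.trans h4⟩ ▸ h4
  have h1 : (S : Subgroup X) ≤ generalizedFittingSubgroup X := fun s hs => by
    obtain ⟨k, hk⟩ := S.isPGroup' ⟨s, hs⟩
    have hk' : s ^ 3 ^ k = 1 := congrArg Subtype.val hk
    obtain ⟨g, hg⟩ := exists_inner hn (MulAut.congr e (MulAut.conjNormal s)) (k := k)
      (by rw [← map_pow, ← map_pow, hk', map_one, map_one])
    have : ((e.symm g)⁻¹ : generalizedFittingSubgroup X) * s ∈ generalizedFittingSubgroup X := by
      refine PLocal.centralizer_fstar_le X fun y hy => ?_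
      have h2 : (e.symm (e (MulAut.conjNormal s (e.symm (e ⟨y, hy⟩))))).1 =
          (e.symm (g * e ⟨y, hy⟩ * g⁻¹)).1 :=
        congrArg (fun a => (e.symm a).1) (DFunLike.congr_fun hg (e ⟨y, hy⟩))
      simp only [MulEquiv.symm_apply_apply, MulAut.conjNormal_apply, map_mul, map_inv,
        Subgroup.coe_mul, Subgroup.coe_inv] at h2 ⊢
      calc _ = (e.symm g : X)⁻¹ * ((e.symm g : X) * y * (e.symm g : X)⁻¹) * s := by group
        _ = _ := by rw [← h2]; group
    exact (Subgroup.mul_mem_cancel_left _ (SetLike.coe_mem _)).1 this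
  have h2 : generalizedFittingSubgroup X = ⊤ := by
    by_contra h
    refine hM.1.1 (top_le_iff.1 ?_)
    rw [← S.normalizer_sup_eq_top' h1]
    exact sup_le (hle _ Subgroup.le_normalizer fun h3 => hS (Subgroup.normalizer_eq_top_iff.1 h3))
      (hle _ h1 h)
  refine ⟨h2, ?_⟩
  let e' : X ≃* alternatingGroup (Fin n) :=
    (Subgroup.topEquiv.symm.trans (MulEquiv.subgroupCongr h2.symm)).trans e
  let ρ : X →* Equiv.Perm (Fin n) := (alternatingGroup (Fin n)).subtype.comp e'.toMonoidHom
  have hρ : Function.Injective ρ := Subtype.val_injective.comp e'.injective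
  have hA : (⊤ : Subgroup X).map ρ = alternatingGroup (Fin n) := by
    rw [← Subgroup.map_map, Subgroup.map_top_of_surjective _ e'.surjective,
      ← MonoidHom.range_eq_map, Subgroup.range_subtype]
  by_contra hne
  simp only [not_or] at hne
  have := KSG.Syl3.alt_le_of_ne (hA ▸ (PLocal.Amb.isSyl_top S).map ρ) (J := M.map ρ)
    (by simpa using hn) (fun K h3 h4 => ?_) (by simpa using hne.1) (by simpa using hne.2.1)
    (by simpa using hne.2.2)
  · rw [← hA, Subgroup.map_le_map_iff_of_injective hρ] at this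
    exact hM.1.1 (top_le_iff.1 this)
  · refine le_trans ?_ (Subgroup.map_mono (hle (K.comap ρ) (Subgroup.map_le_iff_le_comap.1 h3)
      fun h5 => h4 (by rw [← hA, Subgroup.map_le_iff_le_comap, h5])))
    rw [Subgroup.map_comap_eq, inf_comm, MonoidHom.range_eq_map, hA]

end Cfsg.Agent.S2930
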