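import Cfsg.Statements.S2939
import Mathlib
import Cfsg.Agent.PLocal.SylCtrl

set_option autoImplicit false
open Cfsg

namespace Cfsg.Agent.S2939

open Cfsg.Agent.PLocal.SylCtrl Cfsg.Agent.FGS Cfsg.Agent.Fus

/-- one step in the factorisation of a fusing element -/
def R {G : Type*} [Group G] (p : ℕ) (𝓕 : Set (Subgroup G)) (S : Subgroup G) (A : Set G)
    (h h' : G) : Prop :=
  ∃ Y ∈ sylowMembers p 𝓕 S, h⁻¹ * h' ∈ Y ∧ conjRight h' A ⊆ (S : Set G) ∩ (Y : Set G)

theorem prod_take_ofFn {G : Type*} [Group G] {n : ℕ} (c : Fin (n + 1) → G) (k : ℕ) (hk : k ≤ n) :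
    ((List.ofFn fun i : Fin n => (c i.castSucc)⁻¹ * c i.succ).take k).prod =
      (c 0)⁻¹ * c ⟨k, Nat.lt_succ_of_le hk⟩ := by
  induction k with
  | zero => simp
  | succ k ih =>
    rw [List.prod_take_succ _ _ (by simpa using hk), ih (Nat.le_of_succ_le hk)]
    simp only [List.getElem_ofFn]
    rw [mul_assoc]
    congr 1
    exact mul_inv_cancel_left _ _

theorem factor_iff {G : Type*} [Group G] (p : ℕ) (𝓕 : Set (Subgroup G)) (S : Subgroup G)
    (A : Set G) (h : G) :
    (∃ (n : ℕ) (Y : Fin n → Subgroup G) (y : Fin n → G),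
      (∀ i : Fin n, Y i ∈ sylowMembers p 𝓕 S ∧ y i ∈ Y i) ∧ h = (List.ofFn y).prod ∧
      ∀ i : Fin n, conjRight (((List.ofFn y).take (i.val + 1)).prod) A ⊆ (S : Set G) ∩ (Y i : Set G)) ↔
    Relation.ReflTransGen (R p 𝓕 S A) 1 h := by
  rw [← exists_chain_iff_reflTransGen]
  constructor
  · rintro ⟨n, Y, y, h1, h2, h3⟩
    refine ⟨n, fun j => ((List.ofFn y).take j.val).prod, by simp, ?_, fun i => ?_⟩
    · simp only [Fin.val_last]
      rw [h2, List.take_of_length_le (by simp)]
    · refine ⟨Y i, (h1 i).1, ?_, h3 i⟩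
      simp only [Fin.val_castSucc, Fin.val_succ]
      rw [List.prod_take_succ _ _ (by simp)]
      simpa using (h1 i).2
  · rintro ⟨n, c, h0, hl, hc⟩
    choose Y hY using hc
    refine ⟨n, Y, fun i => (c i.castSucc)⁻¹ * c i.succ, fun i => ⟨(hY i).1, (hY i).2.1⟩, ?_,
      fun i => ?_⟩
    · have := prod_take_ofFn c n le_rfl
      rw [List.take_of_length_le (by simp), h0, inv_one, one_mul] at this
      rw [this, ← hl]
      rfl
    · rw [prod_take_ofFn c (i.val + 1) i.2, h0, inv_one, one_mul]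
      exact (hY i).2.2

/-- Let p be a prime dividing the order of the finite group G and 𝓕 a family of subgroups of G closed under conjugation, with conjugates taken as X^g = g⁻¹Xg. Then 𝓕 controls Sylow p-intersections in G (any two distinct Sylow p-subgroups S and T with S ∩ T ≠ 1 are joined by a chain S = S₀, S₁, …, Sₙ = T of Sylow p-subgroups where, for each i, some member Xᵢ of 𝓕 meets both S_{i-1} and Sᵢ in Sylow p-subgroups of Xᵢ, satisfies S ∩ T ≤ Sᵢ ∩ Xᵢ, and contains an element xᵢ with Sᵢ^{xᵢ} = S_{i-1}) if and only if 𝓕 strongly controls p-fusion in G (whenever A is a subset of a Sylow p-subgroup S, A contains an element other than 1, and A^g ⊆ S, the element g factorises as g = y₁⋯yₙy with y ∈ N_G(S) and each yᵢ in a member Yᵢ of 𝓕 that meets S in a Sylow p-subgroup of Yᵢ, with A^{y₁⋯yᵢ} ⊆ S ∩ Yᵢ for each i). -/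
theorem result {G : Type*} [Group G] [Finite G] {p : ℕ} [Fact p.Prime] (hdiv : p ∣ Nat.card G) (𝓕 : Set (Subgroup G)) (h𝓕 : Cfsg.IsNormalSet 𝓕) : Cfsg.ControlsSylowIntersections p 𝓕 ↔ Cfsg.FamilyStronglyControlsFusion p 𝓕 := by
  rw [controls_iff]
  constructor
  · intro hc S A g hAS ⟨a, ha, ha1⟩ hAg
    have hAT : A ⊆ ((S : Subgroup G) ⊓ (g • S : Sylow p G) : Subgroup G) := by
      intro x hx
      exact ⟨hAS hx, mem_mapConj.2 (hAg ⟨x, hx, rfl⟩)⟩
    have hne : (S : Subgroup G) ⊓ (g • S : Sylow p G) ≠ ⊥ := fun hb => by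
      have := hAT ha
      rw [hb] at this
      exact ha1 (Subgroup.mem_bot.1 this)
    have key : ∀ T : Sylow p G, Relation.ReflTransGen
        (Step p 𝓕 ((S : Subgroup G) ⊓ (g • S : Sylow p G))) S T →
        ∃ h : G, Relation.ReflTransGen (R p 𝓕 S A) 1 h ∧
          (T : Subgroup G).map (MulAut.conj h⁻¹).toMonoidHom = S := by
      intro T hT
      induction hT with
      | refl => exact ⟨1, Relation.ReflTransGen.refl, by rw [inv_one, mapConj_one]⟩
      | @tail b c _ hbc ih =>
        obtain ⟨h, hh, hb⟩ := ih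
        obtain ⟨X, x, h1, -, hx, h4, h5⟩ := hbc
        have e : (c : Subgroup G).map (MulAut.conj (x * h)⁻¹).toMonoidHom = S := by
          rw [mul_inv_rev, mapConj_mul, ← conjRight_eq x, h4, hb]
        have h6 := mapConj_mem_sylowMembers h𝓕 h1 h⁻¹
        rw [hb] at h6
        refine ⟨x * h, hh.tail ⟨_, h6, ?_, ?_⟩, e⟩
        · simpa [mul_assoc] using conj_mem_mapConj h⁻¹ hx
        · rintro _ ⟨y, hy, rfl⟩
          have hy' := h5 (hAT hy)
          constructor
          · have := conj_mem_mapConj (x * h)⁻¹ hy'.1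
            rw [e, inv_inv] at this
            exact this
          · have := conj_mem_mapConj h⁻¹ (X.mul_mem (X.mul_mem (X.inv_mem hx) hy'.2) hx)
            simpa [mul_assoc] using this
    obtain ⟨h, hh, hT⟩ := key _ (hc S (g • S) hne)
    obtain ⟨n, Y, y, k1, k2, k3⟩ := (factor_iff p 𝓕 S A h).2 hh
    rw [sylow_smul_coe, ← mapConj_mul, mapConj_eq_self_iff] at hT
    exact ⟨n, Y, y, h⁻¹ * g, hT, k1, by rw [← k2]; group, k3⟩
  · intro hc S T hne
    obtain ⟨g, rfl⟩ := MulAction.exists_smul_eq G S T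
    set D := (S : Subgroup G) ⊓ (g • S : Sylow p G) with hD
    obtain ⟨n, Y, y, y₀, k0, k1, k2, k3⟩ := hc S (D : Set G) g (fun x hx => hx.1)
      (by
        obtain ⟨⟨a, ha⟩, ha1⟩ := (Subgroup.ne_bot_iff_exists_ne_one).1 hne
        exact ⟨a, ha, fun h => ha1 (Subtype.ext h)⟩)
      (by
        rintro _ ⟨x, hx, rfl⟩
        exact mem_mapConj.1 hx.2)
    have hh := (factor_iff p 𝓕 S (D : Set G) _).1 ⟨n, Y, y, k1, rfl, k3⟩
    have key : ∀ h : G, Relation.ReflTransGen (R p 𝓕 S D) 1 h →
        Relation.ReflTransGen (Step p 𝓕 D) S (h • S) := by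
      intro h hh
      induction hh with
      | refl => rw [one_smul]
      | @tail b c _ hbc ih =>
        obtain ⟨Z, h1, h2, h3⟩ := hbc
        have e : Z.map (MulAut.conj c).toMonoidHom = Z.map (MulAut.conj b).toMonoidHom := by
          rw [mapConj_eq_mapConj_iff]
          exact Subgroup.le_normalizer h2
        refine ih.tail ⟨Z.map (MulAut.conj b).toMonoidHom, c * b⁻¹,
          mapConj_mem_sylowMembers h𝓕 h1 b, e ▸ mapConj_mem_sylowMembers h𝓕 h1 c, ?_, ?_, ?_⟩
        · simpa [mul_assoc] using conj_mem_mapConj b h2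
        · rw [conjRight_eq, sylow_smul_coe, sylow_smul_coe, ← mapConj_mul]
          simp
        · intro x hx
          have := h3 ⟨x, hx, rfl⟩
          rw [← e, sylow_smul_coe]
          exact ⟨mem_mapConj.2 this.1, mem_mapConj.2 this.2⟩
    have := key _ hh
    have e : g • S = (List.ofFn y).prod • S := by
      rw [k2, mul_smul, Sylow.smul_eq_iff_mem_normalizer.2 k0]
    rw [← e] at this
    exact this


end Cfsg.Agent.S2939
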