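import Cfsg.Statements.S2940
import Mathlib

set_option autoImplicit false
open Cfsg

namespace Cfsg.Agent.S2940

open scoped Pointwise

/-- If `D` contains a Sylow `p`-subgroup of `G`, every `p`-subgroup of `D` lies in a Sylow
`p`-subgroup of `G` contained in `D`. -/
theorem exists_sylow_between {G : Type*} [Group G] [Finite G] {p : ℕ} [Fact p.Prime]
    (P : Sylow p G) (D Q : Subgroup G) (hP : (P : Subgroup G) ≤ D) (hQ : IsPGroup p Q)
    (hQD : Q ≤ D) : ∃ U : Sylow p G, Q ≤ (U : Subgroup G) ∧ (U : Subgroup G) ≤ D := by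
  have hQ' : IsPGroup p (Q.subgroupOf D) := hQ.comap_subtype
  obtain ⟨R, hR⟩ := hQ'.exists_le_sylow
  obtain ⟨d, hd⟩ := MulAction.exists_smul_eq D (P.subtype hP) R
  refine ⟨(d : G) • P, ?_, ?_⟩
  · intro x hx
    have h1 : (⟨x, hQD hx⟩ : D) ∈ R := hR (Subgroup.mem_subgroupOf.mpr hx)
    rw [← hd] at h1
    change (⟨x, hQD hx⟩ : D) ∈ MulAut.conj d • (P.subtype hP : Subgroup D) at h1
    rw [Subgroup.mem_pointwise_smul_iff_inv_smul_mem] at h1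
    change x ∈ MulAut.conj (d : G) • (P : Subgroup G)
    rw [Subgroup.mem_pointwise_smul_iff_inv_smul_mem]
    exact h1
  · intro x hx
    change x ∈ MulAut.conj (d : G) • (P : Subgroup G) at hx
    obtain ⟨y, hy, rfl⟩ := hx
    exact D.mul_mem (D.mul_mem d.2 (hP hy)) (D.inv_mem d.2)

/-- Let S be a Sylow p-subgroup of the finite group G and G₁, G₂ subgroups containing S with G = G₁G₂. Then for every g ∈ G there is a Sylow p-subgroup U of G with S ∩ S^g ≤ U ≤ G₁ ∩ G₂^g (conjugates taken as X^g = g⁻¹Xg). -/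
theorem result {G : Type*} [Group G] [Finite G] {p : ℕ} [Fact p.Prime] (S : Sylow p G) (G₁ G₂ : Subgroup G) (h1 : (S : Subgroup G) ≤ G₁) (h2 : (S : Subgroup G) ≤ G₂) (hfact : ∀ g : G, ∃ g₁ ∈ G₁, ∃ g₂ ∈ G₂, g = g₁ * g₂) (g : G) : ∃ U : Sylow p G, (S : Subgroup G) ⊓ Cfsg.subgroupConjRight g (S : Subgroup G) ≤ (U : Subgroup G) ∧ (U : Subgroup G) ≤ G₁ ⊓ Cfsg.subgroupConjRight g G₂ := by
  obtain ⟨g₁, hg₁, g₂, hg₂, hg⟩ := hfact g⁻¹
  refine exists_sylow_between (g₁ • S) _ _ ?_ (S.isPGroup'.to_le inf_le_left)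
    (inf_le_inf h1 (Subgroup.map_mono h2))
  intro x hx
  change x ∈ MulAut.conj g₁ • (S : Subgroup G) at hx
  obtain ⟨y, hy, rfl⟩ := hx
  refine ⟨G₁.mul_mem (G₁.mul_mem hg₁ (h1 hy)) (G₁.inv_mem hg₁), ?_⟩
  refine ⟨g₂⁻¹ * y * g₂, G₂.mul_mem (G₂.mul_mem (G₂.inv_mem hg₂) (h2 hy)) hg₂, ?_⟩
  rw [hg]
  simp [mul_assoc]


end Cfsg.Agent.S2940
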