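import Cfsg.Statements.S2955
import Mathlib
import Cfsg.Agent.PLocal.SylCtrl

set_option autoImplicit false
open Cfsg

namespace Cfsg.Agent.S2955

open Cfsg.Agent.PLocal.SylCtrl Cfsg.Agent.FGS

/-- Let p be a prime dividing the order of the finite group G and 𝓕 a conjugation-closed family of subgroups that controls Sylow p-intersections in G. Suppose the Sylow p-subgroups of G are chain-connected: any two of them are joined by a chain of Sylow p-subgroups, consecutive ones distinct with nontrivial intersection, all containing the intersection of the two ends (equivalently, the graph on the Sylow p-subgroups whose edges are the distinct pairs meeting nontrivially is connected). Then for every Sylow p-subgroup S, G is generated by N_G(S) together with the members of 𝓕 that meet S in a Sylow p-subgroup of themselves. -/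
theorem result {G : Type*} [Group G] [Finite G] (p : ℕ) [Fact p.Prime] (hdiv : p ∣ Nat.card G)
    (𝓕 : Set (Subgroup G)) (h𝓕 : Cfsg.IsNormalSet 𝓕) (hc : Cfsg.ControlsSylowIntersections p 𝓕)
    (hconn : Cfsg.IsSylowChainConnected p G) (S : Sylow p G) :
    (⨆ X ∈ Cfsg.sylowMembers p 𝓕 (S : Subgroup G), X) ⊔ Subgroup.normalizer ((S : Subgroup G) : Set G) = ⊤ := by
  set K := (⨆ X ∈ Cfsg.sylowMembers p 𝓕 (S : Subgroup G), X) ⊔
    Subgroup.normalizer ((S : Subgroup G) : Set G) with hK
  have step : ∀ (D : Subgroup G) (T T' : Sylow p G), Step p 𝓕 D T T' →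
      (∃ k ∈ K, (T : Subgroup G).map (MulAut.conj k).toMonoidHom = S) →
      (∃ k ∈ K, (T' : Subgroup G).map (MulAut.conj k).toMonoidHom = S) := by
    rintro D T T' ⟨X, x, h1, -, hx, h4, -⟩ ⟨k, hk, hkT⟩
    have h5 := mapConj_mem_sylowMembers h𝓕 h1 k
    rw [hkT] at h5
    have h6 : X.map (MulAut.conj k).toMonoidHom ≤ K :=
      le_sup_of_le_left (le_iSup₂_of_le (f := fun X (_ : X ∈ Cfsg.sylowMembers p 𝓕 (S : Subgroup G)) => X)
        _ h5 le_rfl)
    have h7 : k * x⁻¹ * k⁻¹ ∈ K := h6 (conj_mem_mapConj k (X.inv_mem hx))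
    refine ⟨k * x⁻¹, ?_, ?_⟩
    · simpa using K.mul_mem h7 hk
    · rw [mapConj_mul, ← conjRight_eq, h4, hkT]
  have steps : ∀ (D : Subgroup G) (T T' : Sylow p G), Relation.ReflTransGen (Step p 𝓕 D) T T' →
      (∃ k ∈ K, (T : Subgroup G).map (MulAut.conj k).toMonoidHom = S) →
      (∃ k ∈ K, (T' : Subgroup G).map (MulAut.conj k).toMonoidHom = S) := by
    intro D T T' h hT
    induction h with
    | refl => exact hT
    | tail _ hbc ih => exact step D _ _ hbc ih
  have all : ∀ T : Sylow p G, ∃ k ∈ K, (T : Subgroup G).map (MulAut.conj k).toMonoidHom = S := by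
    intro T
    obtain ⟨n, c, h0, hl, -, hc'⟩ := hconn S T
    have key : ∀ j : Fin (n + 1), ∃ k ∈ K, (c j : Subgroup G).map (MulAut.conj k).toMonoidHom = S := by
      intro j
      induction j using Fin.induction with
      | zero => exact ⟨1, K.one_mem, by rw [mapConj_one, h0]⟩
      | succ i ih => exact steps _ _ _ (controls_iff.1 hc _ _ (hc' i).2) ih
    rw [← hl]
    exact key _
  rw [eq_top_iff]
  intro g _
  obtain ⟨k, hk, hkT⟩ := all (g • S)
  rw [sylow_smul_coe, ← mapConj_mul, mapConj_eq_self_iff] at hkT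
  have : k * g ∈ K := Subgroup.mem_sup_right hkT
  simpa using K.mul_mem (K.inv_mem hk) this


end Cfsg.Agent.S2955
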