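import Cfsg.Statements.S2956
import Mathlib
import Cfsg.Agent.PLocal.SylCtrl
import Cfsg.Agent.Grp.CardProduct

set_option autoImplicit false
open Cfsg

namespace Cfsg.Agent.S2956

open Cfsg.Agent.PLocal.SylCtrl Cfsg.Agent.FGS Cfsg.Agent.Fus

theorem exists_maximal_local {G : Type*} [Group G] [Finite G] {p : ℕ} {N : Subgroup G}
    (hN : Cfsg.IsPLocal p N) : ∃ M : Subgroup G, Cfsg.IsMaximalPLocal p M ∧ N ≤ M := by
  obtain ⟨M, ⟨hM1, hM2⟩, hmax⟩ :=
    (wellFounded_gt (α := Subgroup G)).has_min {M | Cfsg.IsPLocal p M ∧ N ≤ M} ⟨N, hN, le_rfl⟩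
  refine ⟨M, ⟨hM1, fun K hK hMK => ?_⟩, hM2⟩
  by_contra hne
  exact hmax K ⟨hK, hM2.trans hMK⟩ (lt_of_le_of_ne hMK (Ne.symm hne))

theorem lt_inf_normalizer {G : Type*} [Group G] [Finite G] {p : ℕ} [Fact p.Prime]
    {H T : Subgroup G} (hT : IsPGroup p T) (hHT : H < T) :
    H < T ⊓ Subgroup.normalizer (H : Set G) := by
  have : Group.IsNilpotent T := hT.isNilpotent
  have hlt : H.subgroupOf T < ⊤ := by
    rw [lt_top_iff_ne_top]
    intro htop
    exact hHT.not_ge (Subgroup.subgroupOf_eq_top.mp htop)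
  have hnc := Group.normalizerCondition_of_isNilpotent (G := T) _ hlt
  obtain ⟨x, hx, hxH⟩ := SetLike.exists_of_lt hnc
  refine lt_of_le_of_ne (le_inf hHT.le Subgroup.le_normalizer) fun h => hxH ?_
  rw [Subgroup.mem_subgroupOf, h]
  refine ⟨x.2, ?_⟩
  rw [← Subgroup.subgroupOf_normalizer_eq hHT.le] at hx
  exact Subgroup.mem_subgroupOf.mp hx

theorem inner {G : Type*} [Group G] [Finite G] {p : ℕ} [Fact p.Prime]
    {f : Subgroup G → Set (Subgroup G)} (hf : Cfsg.IsNormalizerFunctor p f)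
    (hf1 : ∀ P : Subgroup G, IsPGroup p ↥P → P ≠ ⊥ → ∀ F ∈ f P, F ≠ ⊥)
    {𝓖 : Set (Subgroup G)} (h1 : Cfsg.functorFamily p f ⊤ ⊆ 𝓖)
    (h2 : ∀ M, Cfsg.IsMaximalPLocal p M → ¬ Cfsg.IsFunctorRegular p f M → M ∈ 𝓖)
    {D : Subgroup G} (hD : D ≠ ⊥)
    (ih : ∀ S T : Sylow p G, D < (S : Subgroup G) ⊓ T → Relation.ReflTransGen (Step p 𝓖 D) S T)
    (k : ℕ) : ∀ M U U' : Subgroup G, Cfsg.IsMaximalPLocal p M → U ≤ M → SylIn p U M →
      U' ≤ M → SylIn p U' M → Nat.card G - Nat.card U = k → D < U → D < U' →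
      ∀ V V' : Sylow p G, U ≤ V → U' ≤ V' → Relation.ReflTransGen (Step p 𝓖 D) V V' := by
  induction k using Nat.strong_induction_on with
  | _ k ihk =>
  intro M U U' hM hUM hU hU'M hU' hk hDU hDU' V V' hV hV'
  have hinf : ∀ (W : Subgroup G) (Y : Sylow p G), W ≤ M → SylIn p W M → W ≤ Y →
      SylIn p (Y : Subgroup G) M := by
    intro W Y hWM hW hWY
    rw [← sylIn_inf_iff, hW.eq_of_le hWM (Y.isPGroup'.to_le inf_le_left) (le_inf hWY hWM)
      inf_le_right]
    exact hW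
  by_cases hreg : Cfsg.IsFunctorRegular p f M
  swap
  · obtain ⟨x, hx, hxU⟩ := hU.exists_conj_eq hUM hU' hU'M
    have hle : U ≤ ((x • V' : Sylow p G) : Subgroup G) := by
      rw [← hxU, sylow_smul_coe]
      exact Subgroup.map_mono hV'
    refine (ih V (x • V') (hDU.trans_le (le_inf hV hle))).tail ⟨M, x⁻¹, ?_, ?_, M.inv_mem hx, ?_, ?_⟩
    · exact mem_sylowMembers_iff.2 ⟨h2 M hM hreg, hinf U _ hUM hU hle⟩
    · exact mem_sylowMembers_iff.2 ⟨h2 M hM hreg, hinf U' _ hU'M hU' hV'⟩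
    · rw [conjRight_eq, inv_inv, sylow_smul_coe]
    · exact le_inf (hDU'.le.trans hV') (hDU'.le.trans hU'M)
  have hDle : D ≤ U ⊓ U' := le_inf hDU.le hDU'.le
  have hch := (regular_iff hf).1 hreg U U' hUM hU hU'M hU'
    (fun hb => hD (le_bot_iff.1 (hb ▸ hDle)))
  have key : ∀ W : Subgroup G, Relation.ReflTransGen (FStep p f M (U ⊓ U')) U W →
      W ≤ M ∧ SylIn p W M ∧ D < W ∧
        ∀ Y : Sylow p G, W ≤ Y → Relation.ReflTransGen (Step p 𝓖 D) V Y := by
    intro W hW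
    induction hW with
    | refl => exact ⟨hUM, hU, hDU, fun Y hY => ih V Y (hDU.trans_le (le_inf hV hY))⟩
    | @tail b c _ hbc ihW =>
      obtain ⟨hbM, hb, hDb, hbY⟩ := ihW
      obtain ⟨hcM, hc, hDc, F, hFb, hFc⟩ := hbc
      have hbp := hb.isPGroup hbM
      have hcp := hc.isPGroup hcM
      have hcard : Nat.card b = Nat.card c := hb.card_eq hbM hc hcM
      have hcardU : Nat.card U = Nat.card b := hU.card_eq hUM hb hbM
      have hDc' : D < c := by
        refine lt_of_le_of_ne (hDle.trans hDc) fun h => ?_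
        have := Grp.card_lt_card_of_lt hDb
        rw [h] at this
        omega
      refine ⟨hcM, hc, hDc', fun Y hY => ?_⟩
      have hbN := le_normalizer_of_mem_f hf hbp hFb
      have hcN := le_normalizer_of_mem_f hf hcp hFc
      obtain ⟨Y₀, hY₀⟩ := hbp.exists_le_sylow
      refine (hbY Y₀ hY₀).trans ?_
      by_cases hsyl : b = Y₀
      · have hc2 : c = Y := by
          refine Subgroup.eq_of_le_of_card_ge hY ?_
          rw [← hcard, hsyl]
          exact (sylIn_top Y₀).card_le le_top Y.isPGroup' le_top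
        have hmem : ⊤ ⊓ Subgroup.normalizer (F : Set G) ∈ 𝓖 :=
          h1 (mem_functorFamily_iff.2 ⟨b, le_top, hsyl ▸ sylIn_top Y₀, F, hFb, rfl⟩)
        rw [top_inf_eq] at hmem
        have s1 : SylIn p (Y₀ : Subgroup G) (Subgroup.normalizer (F : Set G)) :=
          sylIn_of_sylow_le Y₀ (hsyl ▸ hbN)
        have s2 : SylIn p (Y : Subgroup G) (Subgroup.normalizer (F : Set G)) :=
          sylIn_of_sylow_le Y (hc2 ▸ hcN)
        obtain ⟨x, hx, hxY⟩ := s1.exists_conj_eq (hsyl ▸ hbN) s2 (hc2 ▸ hcN)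
        refine Relation.ReflTransGen.single ⟨_, x⁻¹, mem_sylowMembers_iff.2 ⟨hmem, s1⟩,
          mem_sylowMembers_iff.2 ⟨hmem, s2⟩, Subgroup.inv_mem _ hx, ?_,
          le_inf (hDc'.le.trans hY) (hDc'.le.trans hcN)⟩
        rw [conjRight_eq, inv_inv, hxY]
      · have hbne : b ≠ ⊥ := fun h => hD (le_bot_iff.1 (h ▸ hDb.le))
        have hloc : Cfsg.IsPLocal p (Subgroup.normalizer (F : Set G)) :=
          ⟨F, hbp.to_le ((hf b hbp).1 F hFb).1, hf1 b hbp hbne F hFb, rfl⟩
        obtain ⟨M', hM', hNM'⟩ := exists_maximal_local hloc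
        have hlt := lt_inf_normalizer Y₀.isPGroup' (lt_of_le_of_ne hY₀ hsyl)
        obtain ⟨B, hB1, hB2, hB3⟩ := exists_sylIn (H := M') (Y₀.isPGroup'.to_le
          (inf_le_left : (Y₀ : Subgroup G) ⊓ Subgroup.normalizer (b : Set G) ≤ Y₀))
          (inf_le_right.trans (((hf b hbp).1 F hFb).2.trans hNM'))
        obtain ⟨C, hC1, hC2, hC3⟩ := exists_sylIn (H := M') hcp (hcN.trans hNM')
        obtain ⟨YB, hYB⟩ := (hB3.isPGroup hB2).exists_le_sylow
        obtain ⟨YC, hYC⟩ := (hC3.isPGroup hC2).exists_le_sylow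
        have hbB : b < B := hlt.trans_le hB1
        have hcB := Grp.card_lt_card_of_lt hbB
        have hBG : Nat.card B ≤ Nat.card G := Subgroup.card_le_card_group B
        have r1 := ih Y₀ YB (hDb.trans_le (le_inf hY₀ (hbB.le.trans hYB)))
        have r2 := ihk (Nat.card G - Nat.card B) (by omega) M' B C hM' hB2 hB3 hC2 hC3 rfl
          (hDb.trans hbB) (hDc'.trans_le hC1) YB YC hYB hYC
        have r3 := ih YC Y (hDc'.trans_le (le_inf (hC1.trans hYC) hY))
        exact (r1.trans r2).trans r3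
  exact (key U' hch).2.2.2 V' hV'

/-- Let p be a prime dividing the order of the finite group G, and f an assignment to every p-subgroup P of a set f(P) of subgroups of P, each normalized by N_G(P), compatible with conjugation, such that for P ≠ 1 the members of f(P) are nontrivial. Let 𝓕 be the family of the normalizers N_G(F) of the members F of f(S) over the Sylow p-subgroups S of G, and 𝓕' the family of the maximal p-local subgroups M of G that are singular for f (the corresponding family of normalizers inside M does not control Sylow p-intersections in M). Then 𝓕 ∪ 𝓕' controls Sylow p-intersections in G. -/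
theorem result {G : Type*} [Group G] [Finite G] (p : ℕ) [Fact p.Prime] (hdiv : p ∣ Nat.card G)
    (f : Subgroup G → Set (Subgroup G)) (hf : Cfsg.IsNormalizerFunctor p f)
    (hf1 : ∀ P : Subgroup G, IsPGroup p ↥P → P ≠ ⊥ → ∀ F ∈ f P, F ≠ ⊥)
    (𝓕 𝓕' : Set (Subgroup G)) (h𝓕 : 𝓕 = Cfsg.functorFamily p f ⊤)
    (h𝓕' : 𝓕' = {M | Cfsg.IsMaximalPLocal p M ∧ ¬ Cfsg.IsFunctorRegular p f M}) :
    Cfsg.ControlsSylowIntersections p (𝓕 ∪ 𝓕') := by
  rw [controls_iff]
  suffices H : ∀ D : Subgroup G, D ≠ ⊥ → ∀ S T : Sylow p G, D ≤ (S : Subgroup G) ⊓ T →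
      Relation.ReflTransGen (Step p (𝓕 ∪ 𝓕') D) S T from fun S T h => H _ h S T le_rfl
  intro D
  induction D using (wellFounded_gt (α := Subgroup G)).induction with
  | _ D ihD =>
  intro hD S T hle
  have ih : ∀ S T : Sylow p G, D < (S : Subgroup G) ⊓ T →
      Relation.ReflTransGen (Step p (𝓕 ∪ 𝓕') D) S T := by
    intro S T hlt
    refine Relation.ReflTransGen.mono ?_ _ _
      (ihD _ hlt (fun hb => hD (le_bot_iff.1 (hb ▸ hlt.le))) S T le_rfl)
    intro a b hab
    exact hab.mono subset_rfl hlt.le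
  rcases hle.lt_or_eq with hlt | heq
  · exact ih S T hlt
  by_cases hST : S = T
  · rw [hST]
  have hDS : D < S := by
    refine lt_of_le_of_ne (hle.trans inf_le_left) fun h => hST ?_
    exact Sylow.ext (S.is_maximal' T.isPGroup' (h ▸ hle.trans inf_le_right)).symm
  have hDT : D < T := by
    refine lt_of_le_of_ne (hle.trans inf_le_right) fun h => hST ?_
    exact Sylow.ext (T.is_maximal' S.isPGroup' (h ▸ hle.trans inf_le_left))
  obtain ⟨M, hM, hNM⟩ := exists_maximal_local (p := p)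
    ⟨D, S.isPGroup'.to_le hDS.le, hD, rfl⟩
  have l1 := lt_inf_normalizer S.isPGroup' hDS
  have l2 := lt_inf_normalizer T.isPGroup' hDT
  obtain ⟨B, hB1, hB2, hB3⟩ := exists_sylIn (H := M) (S.isPGroup'.to_le
    (inf_le_left : (S : Subgroup G) ⊓ Subgroup.normalizer (D : Set G) ≤ S)) (inf_le_right.trans hNM)
  obtain ⟨C, hC1, hC2, hC3⟩ := exists_sylIn (H := M) (T.isPGroup'.to_le
    (inf_le_left : (T : Subgroup G) ⊓ Subgroup.normalizer (D : Set G) ≤ T)) (inf_le_right.trans hNM)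
  obtain ⟨YB, hYB⟩ := (hB3.isPGroup hB2).exists_le_sylow
  obtain ⟨YC, hYC⟩ := (hC3.isPGroup hC2).exists_le_sylow
  have r1 := ih S YB (l1.trans_le (le_inf inf_le_left (hB1.trans hYB)))
  have r2 := inner hf hf1 (𝓖 := 𝓕 ∪ 𝓕') (h𝓕 ▸ Set.subset_union_left)
    (fun M h1 h2 => Or.inr (h𝓕' ▸ ⟨h1, h2⟩)) hD ih _ M B C hM hB2 hB3 hC2 hC3 rfl
    (l1.trans_le hB1) (l2.trans_le hC1) YB YC hYB hYC
  have r3 := ih YC T (l2.trans_le (le_inf (hC1.trans hYC) inf_le_left))
  exact (r1.trans r2).trans r3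


end Cfsg.Agent.S2956
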