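import Cfsg.Statements.S2957
import Mathlib
import Cfsg.Agent.PLocal.SylCtrl
import Cfsg.Agent.S2940

set_option autoImplicit false
open Cfsg

namespace Cfsg.Agent.S2957

open Cfsg.Agent.PLocal.SylCtrl Cfsg.Agent.FGS Cfsg.Agent.Fus

theorem lift_top {G : Type*} [Group G] [Finite G] {p : ℕ} [Fact p.Prime]
    {f : Subgroup G → Set (Subgroup G)} (hf : Cfsg.IsNormalizerFunctor p f) {M : Subgroup G}
    (hM : Cfsg.IsFunctorRegular p f M) (U U' : Sylow p G) (hU : (U : Subgroup G) ≤ M)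
    (hU' : (U' : Subgroup G) ≤ M) {D : Subgroup G} (hD : D ≠ ⊥) (h1 : D ≤ U) (h2 : D ≤ U') :
    Relation.ReflTransGen (FStep p f ⊤ D) (U : Subgroup G) (U' : Subgroup G) := by
  have hle : D ≤ (U : Subgroup G) ⊓ U' := le_inf h1 h2
  have h := (regular_iff hf).1 hM _ _ hU (sylIn_of_sylow_le U hU) hU' (sylIn_of_sylow_le U' hU')
    (fun hb => hD (le_bot_iff.1 (hb ▸ hle)))
  refine Relation.ReflTransGen.mono ?_ _ _ h
  rintro a b ⟨c1, c2, c3, c4⟩
  refine ⟨le_top, ?_, hle.trans c3, c4⟩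
  refine (sylIn_top U).of_card_ge le_top (c2.isPGroup c1) le_top ?_
  exact c2.card_le c1 U.isPGroup' hU

/-- Let p be a prime dividing the order of the finite group G, f an equivariant assignment of a set of subgroups f(P) of P to every p-subgroup P, each normalized by N_G(P), and S a Sylow p-subgroup. If G = G₁G₂ for subgroups G₁, G₂ both containing S and both regular for f (in each Gᵢ, the family of normalizers in Gᵢ of the members of f(P), P a Sylow p-subgroup of Gᵢ, controls Sylow p-intersections), then G itself is regular for f. -/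
theorem result {G : Type*} [Group G] [Finite G] (p : ℕ) [Fact p.Prime] (hdiv : p ∣ Nat.card G)
    (f : Subgroup G → Set (Subgroup G)) (hf : Cfsg.IsNormalizerFunctor p f) (S : Sylow p G)
    (G₁ G₂ : Subgroup G) (h₁ : (S : Subgroup G) ≤ G₁) (h₂ : (S : Subgroup G) ≤ G₂)
    (hprod : ∀ g : G, ∃ g₁ ∈ G₁, ∃ g₂ ∈ G₂, g = g₁ * g₂)
    (hr₁ : Cfsg.IsFunctorRegular p f G₁) (hr₂ : Cfsg.IsFunctorRegular p f G₂) :
    Cfsg.IsFunctorRegular p f ⊤ := by
  rw [regular_iff hf]
  intro U U' _ hU _ hU' hne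
  obtain ⟨S₁, rfl⟩ := sylIn_top_iff.1 hU
  obtain ⟨S₂, rfl⟩ := sylIn_top_iff.1 hU'
  obtain ⟨a, rfl⟩ := MulAction.exists_smul_eq G S S₁
  obtain ⟨g, rfl⟩ := MulAction.exists_smul_eq G (a • S) S₂
  have k1 : ((a • S : Sylow p G) : Subgroup G) ≤ G₁.map (MulAut.conj a).toMonoidHom :=
    Subgroup.map_mono h₁
  have k2 : ((a • S : Sylow p G) : Subgroup G) ≤ G₂.map (MulAut.conj a).toMonoidHom :=
    Subgroup.map_mono h₂
  obtain ⟨V, hV1, hV2⟩ := S2940.result (a • S) _ _ k1 k2 (fun x => by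
    obtain ⟨g₁, hg₁, g₂, hg₂, h⟩ := hprod (a⁻¹ * x * a)
    refine ⟨_, conj_mem_mapConj a hg₁, _, conj_mem_mapConj a hg₂, ?_⟩
    calc x = a * (a⁻¹ * x * a) * a⁻¹ := by group
      _ = _ := by rw [h]; group) g⁻¹
  rw [conjRight_eq, inv_inv] at hV1 hV2
  have r1 := lift_top hf (regular_mapConj hf hr₁ a) (a • S) V k1 (hV2.trans inf_le_left) hne
    inf_le_left hV1
  have r2 := lift_top hf (regular_mapConj hf (regular_mapConj hf hr₂ a) g) V (g • a • S)
    (hV2.trans inf_le_right) (Subgroup.map_mono k2) hne hV1 inf_le_right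
  exact r1.trans r2


end Cfsg.Agent.S2957
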