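import Cfsg.Statements.S2958
import Mathlib

set_option autoImplicit false
open Cfsg

namespace Cfsg.Agent.S2958



/-- Let X, A, B be subgroups of a group G such that G is generated by the conjugates of X and every conjugate of X is contained in A or in B. Then A = G or B = G. -/
theorem result {G : Type*} [Group G] (X A B : Subgroup G) (hgen : (⨆ g : G, X.map (MulAut.conj g).toMonoidHom) = ⊤) (hcover : ∀ g : G, X.map (MulAut.conj g).toMonoidHom ≤ A ∨ X.map (MulAut.conj g).toMonoidHom ≤ B) : A = ⊤ ∨ B = ⊤ := by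
  by_cases hall : ∀ g : G, X.map (MulAut.conj g).toMonoidHom ≤ A
  · left
    rw [eq_top_iff, ← hgen]
    exact iSup_le hall
  right
  push Not at hall
  obtain ⟨g₀, hg₀⟩ := hall
  set N : Subgroup G :=
    ⨆ g : {g : G // ¬ X.map (MulAut.conj g).toMonoidHom ≤ A}, X.map (MulAut.conj (g : G)).toMonoidHom
    with hN
  have hNB : N ≤ B := iSup_le fun g => (hcover g).resolve_left g.2
  have hmm : ∀ a g : G, (X.map (MulAut.conj g).toMonoidHom).map (MulAut.conj a).toMonoidHom =
      X.map (MulAut.conj (a * g)).toMonoidHom := by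
    intro a g
    rw [Subgroup.map_map]
    congr 1
    ext x
    simp [mul_assoc]
  have hAN' : ∀ a ∈ A, N.map (MulAut.conj a).toMonoidHom ≤ N := by
    intro a ha
    rw [hN, Subgroup.map_iSup]
    refine iSup_le fun g => ?_
    rw [hmm]
    refine le_iSup_of_le ⟨a * g, fun hle => g.2 ?_⟩ le_rfl
    rintro _ ⟨x, hx, rfl⟩
    have : (MulAut.conj (a * g)).toMonoidHom x ∈ A := hle ⟨x, hx, rfl⟩
    have h2 := A.mul_mem (A.mul_mem (A.inv_mem ha) this) ha
    convert h2 using 1
    simp [mul_assoc]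
  have hAN : A ≤ Subgroup.normalizer (N : Set G) := by
    intro a ha
    rw [Subgroup.mem_normalizer_iff]
    intro x
    constructor
    · intro hx
      exact hAN' a ha ⟨x, hx, rfl⟩
    · intro hx
      have := hAN' a⁻¹ (A.inv_mem ha) ⟨_, hx, rfl⟩
      simpa [mul_assoc] using this
  have hnorm : Subgroup.normalizer (N : Set G) = ⊤ := by
    rw [eq_top_iff, ← hgen]
    refine iSup_le fun g => ?_
    by_cases hg : X.map (MulAut.conj g).toMonoidHom ≤ A
    · exact hg.trans hAN
    · exact (le_iSup_of_le (f := fun g : {g : G // ¬ X.map (MulAut.conj g).toMonoidHom ≤ A} =>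
        X.map (MulAut.conj (g : G)).toMonoidHom) ⟨g, hg⟩ le_rfl).trans Subgroup.le_normalizer
  have hNn : N.Normal := Subgroup.normalizer_eq_top_iff.mp hnorm
  have h0 : X.map (MulAut.conj g₀).toMonoidHom ≤ N :=
    le_iSup_of_le (f := fun g : {g : G // ¬ X.map (MulAut.conj g).toMonoidHom ≤ A} =>
        X.map (MulAut.conj (g : G)).toMonoidHom) ⟨g₀, hg₀⟩ le_rfl
  rw [eq_top_iff, ← hgen]
  refine le_trans (iSup_le fun g => ?_) hNB
  rintro _ ⟨x, hx, rfl⟩
  have := hNn.conj_mem _ (h0 ⟨x, hx, rfl⟩) (g * g₀⁻¹)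
  convert this using 1
  simp [mul_assoc]


end Cfsg.Agent.S2958
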