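import Cfsg.Statements.S2963
import Mathlib
import Cfsg.Agent.KSG.SylowTwoMax

set_option autoImplicit false
open Cfsg

namespace Cfsg.Agent.S2963


/-- Let n be odd. If the symmetric group of degree n is a minimal parabolic group for the prime 2, that is, a Sylow 2-subgroup is not normal and lies in exactly one maximal subgroup, then n = 2^m + 1 for some natural number m. -/
theorem result (n : ℕ) (hn : Odd n) (h : Cfsg.IsPMinimal 2 (Equiv.Perm (Fin n))) : ∃ m : ℕ, n = 2 ^ m + 1 := by
  obtain ⟨R⟩ : Nonempty (Sylow 2 (Equiv.Perm (Fin n))) := inferInstance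
  by_cases h5 : 5 ≤ n
  · obtain ⟨k, -, hk⟩ := (KSG.unique_coatom_sylow_two_iff (MonoidHom.id (Equiv.Perm (Fin n)))
      Function.injective_id (fun x _ => ⟨x, rfl⟩) (by simpa using h5) R).1 (h R).2
    exact ⟨k, by simpa using hk⟩
  obtain ⟨m, rfl⟩ := hn
  rcases (by omega : m = 0 ∨ m = 1) with rfl | rfl
  · refine absurd ?_ (h R).1
    have : Subsingleton (Equiv.Perm (Fin (2 * 0 + 1))) := by
      change Subsingleton (Equiv.Perm (Fin 1)); infer_instance
    rw [Subsingleton.elim (R : Subgroup (Equiv.Perm (Fin (2 * 0 + 1)))) ⊤]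
    infer_instance
  · exact ⟨1, rfl⟩

end Cfsg.Agent.S2963
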