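import Mathlib
import Cfsg.Statements.S2989
import Cfsg.Agent.PLocal.PushCL
-- import your own Cfsg.Agent.* helpers here

set_option autoImplicit false
open Cfsg

namespace Cfsg.Agent.S2989

open Cfsg.Agent.PLocal Cfsg.Agent.PLocal.Push

/-- Let G be a finite group and S a Sylow p-subgroup of G in the basic pushing-up situation (G ≠ 1, C_G(O_p(G)) ≤ O_p(G), S lies in a unique maximal subgroup of G, and some quotient of G is isomorphic to PSL₂ over a field of order a power of p), and suppose that S centralizes Z(J(S)), where J(S) is generated by the abelian subgroups of S of largest order (that is, J̃(S) = C_S(Z(J(S))) = S). Call a subgroup R of S centrally large if |R|·|Z(R)| is as large as possible among subgroups of S, and let S_Φ be the subgroup generated by the Frattini subgroups Φ(Q) of those minimal centrally large subgroups Q of S whose Ω₁(Z(Q)) has the largest order among minimal centrally large subgroups. Then Z(S) or S_Φ is normal in G; and if S_Φ = 1, the minimal centrally large subgroups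 of S are exactly the abelian subgroups of S of largest order, and at least one of them is elementary abelian. -/
theorem result {G : Type*} [Group G] [Finite G] {p : ℕ} [Fact p.Prime] (S : Subgroup G) (hE : Cfsg.IsPushingUpSituation p S) (hJ : S ≤ Subgroup.centralizer (Cfsg.centerThompsonAOf S : Set G)) : ((S ⊓ Subgroup.centralizer (S : Set G)).Normal ∨ ((Cfsg.frattiniOfMinimalCLJoin p ↥S).map S.subtype).Normal) ∧ (Cfsg.frattiniOfMinimalCLJoin p ↥S = ⊥ → (∀ Q : Subgroup ↥S, Cfsg.IsMinimalCentrallyLarge Q ↔ Q ∈ Cfsg.maxAbelianSubgroups ↥S) ∧ ∃ A ∈ Cfsg.maxAbelianSubgroups ↥S, Cfsg.IsElementaryAbelian p A) := by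
  obtain ⟨M, h⟩ := pushE_of_situation hE
  refine ⟨(h.center_or_phiJoin hE.2.2.1 hJ).imp_left normal_of_le_center, fun h0 => ?_⟩
  obtain ⟨Q, hQ, hm⟩ := exists_mcl_omega (P := S) p
  have h1 : (frattini Q).map Q.subtype ≤ ⊥ := by
    rw [← h0]
    exact le_iSup_of_le (f := fun Q : {Q : Subgroup S // Cfsg.IsMinimalCentrallyLarge Q ∧
      Nat.card ↥(Cfsg.omegaOneCenter p Q) = Cfsg.maxOmegaCenterOfMinimalCL p S} =>
      (frattini ↥(Q : Subgroup S)).map (Q : Subgroup S).subtype) ⟨Q, hQ, hm⟩ le_rfl
  obtain ⟨h2, h3⟩ := (phi_le_iff (h.syl.pgrp.to_subgroup Q)).1 h1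
  have h4 : ∀ a ∈ Q, ∀ b ∈ Q, a * b = b * a := fun a ha b hb =>
    commutatorElement_eq_one_iff_mul_comm.1 (h2 (Subgroup.commutator_mem_commutator ha hb))
  have h5 : IsMulCommutative Q := ⟨⟨fun a b => Subtype.ext (h4 a a.2 b b.2)⟩⟩
  exact ⟨mcl_iff_maxAb hQ h5, Q, (mcl_iff_maxAb hQ h5 Q).1 hQ, isEA_iff.2 ⟨h4, h3⟩⟩

end Cfsg.Agent.S2989
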