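import Mathlib
import Cfsg.Statements.S2990
import Cfsg.Agent.PLocal.PushCL
-- import your own Cfsg.Agent.* helpers here

set_option autoImplicit false
open Cfsg

namespace Cfsg.Agent.S2990

open Cfsg.Agent.PLocal Cfsg.Agent.PLocal.Push

/-- Let G be a finite group and S a Sylow p-subgroup of G in the basic pushing-up situation (G ≠ 1, C_G(O_p(G)) ≤ O_p(G), S lies in a unique maximal subgroup of G, and some quotient of G is isomorphic to PSL₂ over a field of order a power of p), and suppose that S centralizes Z(J(S)), where J(S) is generated by the abelian subgroups of S of largest order (that is, J̃(S) = C_S(Z(J(S))) = S). Call a subgroup R of S centrally large if |R|·|Z(R)| is as large as possible among subgroups of S, let Q be a minimal centrally large subgroup of S and let S_MCL be the subgroup generated by all minimal centrally large subgroups of S. Then the derived subgroup [Q, Q] is characteristic in S; Z(S) ∩ [Q, Q] or S_MCL is normal in G; and if [Q, Q] = 1, the minimal centrally large subgroups of S are exactly the abelian subgroups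 of S of largest order. -/
theorem result {G : Type*} [Group G] [Finite G] {p : ℕ} [Fact p.Prime] (S : Subgroup G) (hE : Cfsg.IsPushingUpSituation p S) (hJ : S ≤ Subgroup.centralizer (Cfsg.centerThompsonAOf S : Set G)) (Q : Subgroup ↥S) (hQ : Cfsg.IsMinimalCentrallyLarge Q) : (⁅Q, Q⁆).Characteristic ∧ (((S ⊓ Subgroup.centralizer (S : Set G)) ⊓ (⁅Q, Q⁆).map S.subtype).Normal ∨ ((Cfsg.minimalCentrallyLargeJoin ↥S).map S.subtype).Normal) ∧ (⁅Q, Q⁆ = ⊥ → ∀ R : Subgroup ↥S, Cfsg.IsMinimalCentrallyLarge R ↔ R ∈ Cfsg.maxAbelianSubgroups ↥S) := by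
  obtain ⟨M, h⟩ := pushE_of_situation hE
  refine ⟨?_, h.commutator_or_mclJoin hE.2.2.1 hJ hQ, fun h0 => ?_⟩
  · rw [Subgroup.characteristic_iff_map_eq]
    intro e
    have h1 : Cfsg.IsCentrallyLarge (Q.map e.toMonoidHom) := by
      obtain ⟨h2, h3⟩ := isCentrallyLarge_iff.1 hQ.1
      refine isCentrallyLarge_iff.2 ⟨cd_map e h2, ?_⟩
      rw [centralizer_map_equiv]
      exact Subgroup.map_mono h3
    have h2 := mcl_of_card_le hQ h1 (Subgroup.card_map_of_injective e.injective).le
    rw [Subgroup.map_commutator, mcl_commutator_eq hQ h2]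
  · refine mcl_iff_maxAb hQ ⟨⟨fun a b => Subtype.ext ?_⟩⟩
    exact commutatorElement_eq_one_iff_mul_comm.1
      (h0.le (Subgroup.commutator_mem_commutator a.2 b.2))

end Cfsg.Agent.S2990
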