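import Mathlib
import Cfsg.Statements.S2998
import Cfsg.Agent.PLocal.IsolatedP
-- import your own Cfsg.Agent.* helpers here

set_option autoImplicit false
open Cfsg

namespace Cfsg.Agent.S2998

open Cfsg.Agent.PLocal Cfsg.Agent.PLocal.Amb

/-- Let G be a finite group, p a prime, P a Sylow p-subgroup of G and x ∈ P an element such that N_G(R) ≤ C_G(x) for every nontrivial subgroup R of P. Then P ≤ C_G(x); every G-conjugate of x lying in P equals x (so g ∈ C_G(x) whenever g x g⁻¹ ∈ P); and for every normal subgroup N of G, the image of x in G ⧸ N has the same property with respect to the image of P: the normalizer of every nontrivial subgroup of the image of P centralizes the image of x. -/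
theorem result {G : Type*} [Group G] [Finite G] {p : ℕ} [Fact p.Prime] (P : Sylow p G) (x : G) (hxP : x ∈ (P : Subgroup G)) (hlc : ∀ R : Subgroup G, R ≤ (P : Subgroup G) → R ≠ ⊥ → Subgroup.normalizer (R : Set G) ≤ Subgroup.centralizer ({x} : Set G)) : (P : Subgroup G) ≤ Subgroup.centralizer ({x} : Set G) ∧ (∀ g : G, g * x * g⁻¹ ∈ (P : Subgroup G) → g * x * g⁻¹ = x) ∧ ∀ (N : Subgroup G) [N.Normal], ∀ R : Subgroup (G ⧸ N), R ≤ (P : Subgroup G).map (QuotientGroup.mk' N) → R ≠ ⊥ → Subgroup.normalizer (R : Set (G ⧸ N)) ≤ Subgroup.centralizer ({(QuotientGroup.mk x : G ⧸ N)} : Set (G ⧸ N)) := by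
  have h1 : (P : Subgroup G) ≤ Subgroup.centralizer ({x} : Set G) := by
    by_cases hP : (P : Subgroup G) = ⊥
    · rw [hP]; exact bot_le
    · exact Subgroup.le_normalizer.trans (hlc _ le_rfl hP)
  refine ⟨h1, fun g hg => ?_, fun N _ R hR hR1 g' hg' => ?_⟩
  · obtain ⟨v, hv, hv2⟩ := Transfer.elem_control_of_strong
      (Transfer.controls_of_local P (Subgroup.centralizer ({x} : Set G))
        (fun B hB hB1 _ g hg => ⟨g, hlc B hB hB1 hg, fun _ _ => rfl⟩)) x hxP g hg
    rw [← hv2, mem_cent1.1 hv]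
  · obtain ⟨g, rfl⟩ := QuotientGroup.mk'_surjective N g'
    set K := R.comap (QuotientGroup.mk' N) with hK
    have hNK : N ≤ K := by
      intro n hn
      rw [hK, Subgroup.mem_comap, QuotientGroup.mk'_apply, (QuotientGroup.eq_one_iff n).2 hn]
      exact R.one_mem
    have hKP : K ≤ (P : Subgroup G) ⊔ N := by
      have := Subgroup.comap_mono (f := QuotientGroup.mk' N) hR
      rwa [Subgroup.comap_map_eq, QuotientGroup.ker_mk'] at this
    have hnN : (⊤ : Subgroup G) ≤ 𝐍[N] := (Subgroup.normalizer_eq_top N).ge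
    have hS := isSyl_inf_of_le_sup (isSyl_top P) le_top hnN hNK hKP
    have hgK : g ∈ 𝐍[K] := by
      apply mem_normalizer_of_cj_le
      rw [cj_le_iff_forall]
      intro y hy
      rw [hK, Subgroup.mem_comap] at hy ⊢
      simpa using conj_mem_of_mem_normalizer hg' hy
    have hne : (P : Subgroup G) ⊓ K ≠ ⊥ := by
      intro h0
      apply hR1
      rw [eq_bot_iff]
      intro r hr
      obtain ⟨u, hu, rfl⟩ := hR hr
      have : u ∈ (P : Subgroup G) ⊓ K := Subgroup.mem_inf.2 ⟨hu, hr⟩
      rw [h0, Subgroup.mem_bot] at this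
      rw [this, map_one]
      exact Subgroup.one_mem _
    obtain ⟨n, hn, h, hh, rfl⟩ := hS.frattini hgK
    have hc : ∀ c ∈ Subgroup.centralizer ({x} : Set G), QuotientGroup.mk' N c ∈
        Subgroup.centralizer ({(QuotientGroup.mk x : G ⧸ N)} : Set (G ⧸ N)) := by
      intro c hc
      rw [Subgroup.mem_centralizer_singleton_iff] at hc ⊢
      rw [QuotientGroup.mk'_apply, ← QuotientGroup.mk_mul, hc, QuotientGroup.mk_mul]
    rw [map_mul]
    refine Subgroup.mul_mem _ ?_ (hc h (hlc _ inf_le_left hne hh))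
    obtain ⟨a, ha, b, hb, rfl⟩ := (mem_sup_of_le_normalizer_right (le_top.trans hnN)).1 (hKP hn)
    rw [map_mul, QuotientGroup.mk'_apply N b, (QuotientGroup.eq_one_iff b).2 hb, mul_one]
    exact hc a (h1 ha)

end Cfsg.Agent.S2998
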