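import Cfsg.Statements.S2999
import Mathlib
import Cfsg.Agent.PLocal.SL2NatMin
import Cfsg.Agent.PLocal.ElemAb

set_option autoImplicit false
open Cfsg

namespace Cfsg.Agent.S2999

open Subgroup Cfsg.Agent.PLocal.Amb Cfsg.Agent.PLocal.SL2Nat

/-- Let p be a prime and let P and V be subgroups of a finite group with V elementary abelian, P normalizing V and acting faithfully on it (P ∩ C(V) = 1). Suppose P is p-minimal (a Sylow p-subgroup T of P is not normal and lies in a unique maximal subgroup M of P) and A ≤ T is an elementary abelian subgroup such that: |V/C_V(A)| ≤ |A| while |A₀|·|C_V(A₀)| < |A|·|C_V(A)| for every nontrivial proper subgroup A₀ of A; [C_V(T), P] ≠ 1; and P = ⟨A, xAx⁻¹⟩ for every x ∈ P outside M. Then, with q = |A|, there is a field F with q elements such that P ≅ SL₂(F), C_V(A) = [V, A]·C_V(P), and P acts on V/C_V(P) as SL₂(F) on its natural two-dimensional module. -/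
theorem result {G : Type*} [Group G] [Finite G] {p : ℕ} [Fact p.Prime] (V P : Subgroup G) (hV : Cfsg.IsElementaryAbelian p V) (hPV : P ≤ Subgroup.normalizer (V : Set G)) (hfaith : P ⊓ Subgroup.centralizer (V : Set G) = ⊥) (hmin : Cfsg.IsPMinimal p ↥P) (T : Sylow p ↥P) (M : Subgroup ↥P) (hM : IsCoatom M) (hTM : (T : Subgroup ↥P) ≤ M) (A : Subgroup G) (hAT : A ≤ ((T : Subgroup ↥P).map P.subtype)) (hAel : Cfsg.IsElementaryAbelian p A) (hi : Nat.card ↥V ≤ Nat.card ↥A * Nat.card ↥(V ⊓ Subgroup.centralizer ((A : Subgroup G) : Set G)) ∧ ∀ A₀ : Subgroup G, A₀ ≤ A → A₀ ≠ ⊥ → A₀ ≠ A → Nat.card ↥A₀ * Nat.card ↥(V ⊓ Subgroup.centralizer ((A₀ : Subgroup G) : Set G)) < Nat.card ↥A * Nat.card ↥(V ⊓ Subgroup.centralizer ((A : Subgroup G) : Set G))) (hii : ⁅(V ⊓ Subgroup.centralizer ((((T : Subgroup ↥P).map P.subtype) : Subgroup G) : Set G)), P⁆ ≠ ⊥) (hiii : ∀ x : ↥P, x ∉ M → A ⊔ A.map (MulAut.conj (x : G)).toMonoidHom = P) : ∃ (F : Type)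 (_ : Field F) (_ : Fintype F), Fintype.card F = Nat.card ↥A ∧ Nonempty (↥P ≃* Matrix.SpecialLinearGroup (Fin 2) F) ∧ (V ⊓ Subgroup.centralizer ((A : Subgroup G) : Set G)) = ⁅V, A⁆ ⊔ (V ⊓ Subgroup.centralizer ((P : Subgroup G) : Set G)) ∧ Cfsg.ActsAsSL2OnSection F ⊤ P V (V ⊓ Subgroup.centralizer ((P : Subgroup G) : Set G)) := by
  have hT := isSyl_map_subtype T
  obtain ⟨M', -, hM'⟩ := (hmin T).2
  have hMP : ¬ P ≤ M.map P.subtype := fun h =>
    hM.1 (eq_top_iff.2 fun y _ => mem_map_subtype.1 (h y.2))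
  have hgen : ∀ x ∈ P, x ∉ M.map P.subtype → A ⊔ cj(x, A) = P := fun x hx hxM =>
    hiii ⟨x, hx⟩ fun h => hxM (mem_map_subtype (x := ⟨x, hx⟩).2 h)
  obtain ⟨hO, hA0, hoff⟩ := minimal_offender (M := M.map P.subtype) hV hPV hfaith hT (map_mono hTM)
    (map_subtype_le _) hMP (by
      intro X h1 h2 h3
      have h4 : X.subgroupOf P ≠ ⊤ := fun h => h3 (le_antisymm h2 (subgroupOf_eq_top.1 h))
      obtain ⟨N, hN, h5⟩ := (eq_top_or_exists_le_coatom _).resolve_left h4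
      have h6 : (T : Subgroup P) ≤ X.subgroupOf P := map_le_iff_le_comap.1 h1
      rw [hM' N ⟨hN, h6.trans h5⟩, ← hM' M ⟨hM, hTM⟩] at h5
      rw [← map_subgroupOf_of_le h2]
      exact map_mono h5) hAT hAel hi.1 hi.2
    (fun h => hii (commutator_eq_bot_iff_le_centralizer.2 h)) hgen
  obtain ⟨x, hx, hxM⟩ := SetLike.not_le_iff_exists.1 hMP
  have o := hoff x hx hxM
  obtain ⟨n, hn⟩ := IsPGroup.iff_card.1 (Cfsg.Agent.PLocal.elemAb_isPGroup hAel)
  obtain ⟨F, _, _, hF⟩ := exists_field hn (fun h => hA0 (card_eq_one.1 h))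
  obtain ⟨D, -⟩ := o.natural (by rw [hgen x hx hxM]; exact le_sup_left) F (by simpa using hF)
  refine ⟨F, inferInstance, inferInstance, hF, D.nonempty_mulEquiv ?_, le_antisymm ?_ ?_, D.actsAs⟩
  · exact le_bot_iff.1 (hO ▸ le_pCoreOf (D.isPGroup_kerOf (fun u hu => hV.2 u hu.1) inf_le_right hfaith)
      D.kerOf_le D.le_normalizer_kerOf)
  · rw [Subgroup.commutator_comm]
    exact o.U₁_le_commutator_sup
  · refine sup_le ?_ o.le₀
    rw [Subgroup.commutator_comm, commutator_le]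
    exact o.comm_mem

end Cfsg.Agent.S2999
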