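import Cfsg.Statements.S3003
import Mathlib
import Cfsg.Agent.PLocal.ParChar
import Cfsg.Agent.PLocal.Hyperplane

set_option autoImplicit false
set_option linter.unusedVariables false
open Cfsg

namespace Cfsg.Agent.S3003

open Subgroup Cfsg.Agent.PLocal Cfsg.Agent.PLocal.Amb Cfsg.Agent.Grp
open Cfsg.Agent.PLocal.CP (ncl IsCharP secCent)
open scoped commutatorElement

/-- Let G be a finite group, p a prime and Q a large p-subgroup of G: C_G(Q) ≤ Q and N_G(U) ≤ N_G(Q) for every nontrivial subgroup U of C_G(Q). Let Q ≤ G₁ ≤ G, let R be a subgroup of order prime to p normalized by G₁, and let U ≤ G₁ be a p-subgroup. If U contains a nontrivial element which is G₁-conjugate to an element of Z(Q), then C_R(U) = 1. In particular, if U is elementary abelian of order at least p² and every maximal subgroup of U contains a nontrivial element G₁-conjugate into Z(Q), then R = 1. -/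
theorem result {G : Type*} [Group G] [Finite G] {p : ℕ} [Fact p.Prime] (Q : Subgroup G) (hQp : IsPGroup p ↥Q) (hlarge : Cfsg.IsLarge Q) (G₁ : Subgroup G) (hQG : Q ≤ G₁) (R : Subgroup G) (hR : (Nat.card ↥R).Coprime p) (hGR : G₁ ≤ Subgroup.normalizer (R : Set G)) (U : Subgroup G) (hUG : U ≤ G₁) (hUp : IsPGroup p ↥U) : ((∃ x ∈ U, x ≠ 1 ∧ ∃ g ∈ G₁, g * x * g⁻¹ ∈ Q ⊓ Subgroup.centralizer (Q : Set G)) → R ⊓ Subgroup.centralizer (U : Set G) = ⊥) ∧ (Cfsg.IsElementaryAbelian p U → p ^ 2 ≤ Nat.card ↥U → (∀ U₀ : Subgroup G, U₀ ≤ U → IsCoatom (U₀.subgroupOf U) → ∃ x ∈ U₀, x ≠ 1 ∧ ∃ g ∈ G₁, g * x * g⁻¹ ∈ Q ⊓ Subgroup.centralizer (Q : Set G)) → R = ⊥) := by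
  have key : ∀ U : Subgroup G, (∃ x ∈ U, x ≠ 1 ∧ ∃ g ∈ G₁, g * x * g⁻¹ ∈ Q ⊓ 𝐂[Q]) →
      R ⊓ 𝐂[U] = ⊥ := by
    rintro U ⟨x, hx, hx1, g, hg, hy⟩
    have hy1 : g * x * g⁻¹ ≠ 1 := by simpa using hx1
    have h0 : Q ⊓ R = ⊥ := inf_eq_bot_of_isPGroup_of_coprime hQp hR
    have h1 : R ⊓ 𝐍[Q] ≤ 𝐂[Q] := by
      rw [← commutator_eq_bot_iff_le_centralizer, eq_bot_iff, ← h0]
      exact le_inf (WC.commutator_le_right_of inf_le_right)
        ((commutator_mono inf_le_left le_rfl).trans (WC.commutator_le_left_of (hQG.trans hGR)))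
    rw [← cj_eq_bot (g := g), eq_bot_iff, ← h0, cj_inf, cj_of_mem_normalizer (hGR hg)]
    refine le_inf (le_trans (le_trans ?_ h1) hlarge.1) inf_le_left
    refine inf_le_inf_left _ (le_trans ?_ (WC.large_centralizer_le hlarge hy.2 hy1))
    rw [centralizer_singleton_conj]
    exact cj_mono g (WC.centralizer_le_centralizer_singleton hx)
  refine ⟨key U, fun hU hc h => ?_⟩
  have hp : p.Prime := Fact.out
  have hU1 : U ≠ ⊥ := by
    rintro rfl
    rw [card_bot] at hc
    have := hp.two_le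
    nlinarith
  rw [eq_bot_iff]
  refine le_of_hyperplane_centralizers_le hU hU1 (hUG.trans hGR) hR ⊥ fun B hB hi => ?_
  refine (key B (h B hB ?_)).le
  have hi' : (B.subgroupOf U).index = p := hi
  refine ⟨fun h0 => ?_, fun K hK => ?_⟩
  · rw [h0, index_top] at hi'
    exact hp.one_lt.ne hi'
  · have h1 := relIndex_mul_index hK.le
    rw [hi'] at h1
    rcases (Nat.dvd_prime hp).1 (Dvd.intro_left _ h1) with h2 | h2
    · exact index_eq_one.1 h2
    · rw [h2] at h1
      have h3 : (B.subgroupOf U).relIndex K = 1 :=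
        Nat.eq_of_mul_eq_mul_right hp.pos (by rw [h1, one_mul])
      exact absurd (relIndex_eq_one.1 h3) (not_le_of_gt hK)

end Cfsg.Agent.S3003
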