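import Mathlib
import Cfsg.Statements.S3008
import Cfsg.Agent.PLocal.CentrallyLarge
-- import your own Cfsg.Agent.* helpers here

set_option autoImplicit false
open Cfsg

namespace Cfsg.Agent.S3008



/-- Let P be a finite p-group, with J(P) generated by its abelian subgroups of largest order and J̃(P) = C_P(Z(J(P))); call R ≤ P centrally large if |R|·|Z(R)| is as large as possible, and let P_MCL be generated by the minimal centrally large subgroups. Then: for every centrally large Q, Q·J(P) ⊇ J̃(P); some minimal centrally large subgroup of P is normalized by both J(P) and P_MCL; if P = J(P) and d(P)² = |P|·|Z(P)|, where d(P) is the largest order of an abelian subgroup, then every minimal centrally large subgroup of P is abelian; and if every minimal centrally large subgroup is abelian then J̃(P) = J(P). -/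
theorem result {p : ℕ} [Fact p.Prime] (P : Type*) [Group P] [Finite P] (hP : IsPGroup p P) : (∀ Q : Subgroup P, Cfsg.IsCentrallyLarge Q → Subgroup.centralizer ((Cfsg.thompsonSubgroupA P ⊓ Subgroup.centralizer (Cfsg.thompsonSubgroupA P : Set P) : Subgroup P) : Set P) ≤ Q ⊔ Cfsg.thompsonSubgroupA P) ∧ (∃ Q : Subgroup P, Cfsg.IsMinimalCentrallyLarge Q ∧ Cfsg.thompsonSubgroupA P ≤ Subgroup.normalizer (Q : Set P) ∧ Cfsg.minimalCentrallyLargeJoin P ≤ Subgroup.normalizer (Q : Set P)) ∧ (Cfsg.thompsonSubgroupA P = ⊤ → (∀ A ∈ Cfsg.maxAbelianSubgroups P, Nat.card ↥A ^ 2 = Nat.card P * Nat.card ↥(Subgroup.center P)) → ∀ Q : Subgroup P, Cfsg.IsMinimalCentrallyLarge Q → IsMulCommutative ↥Q) ∧ ((∀ Q : Subgroup P, Cfsg.IsMinimalCentrallyLarge Q → IsMulCommutative ↥Q) → Subgroup.centralizer ((Cfsg.thompsonSubgroupA P ⊓ Subgroup.centralizer (Cfsg.thompsonSubgroupA P : Set P) : Subgroup P) : Set P) = Cfsg.thompsonSubgroupA P) := by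
  have := hP.isNilpotent
  refine ⟨fun Q hQ => PLocal.jTilde_le_of_cl (PLocal.cl_sup_thompsonA hQ) le_sup_right,
    PLocal.exists_mcl_normalized, fun hJ hd Q hQ => ?_, fun h => ?_⟩
  · obtain ⟨A, hA⟩ := @PLocal.exists_maxAb P _ _
    have h1 := PLocal.cl_sup_thompsonA hQ.1
    rw [hJ, sup_top_eq] at h1
    have h2 := (PLocal.isCentrallyLarge_iff.1 h1).1
    unfold IsCentralizerLarge at h2
    have hAm : IsMinimalCentrallyLarge A := by
      apply PLocal.mcl_of_maxAb hA
      rw [← h2, ← sq, hd A hA]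
      simp [Subgroup.centralizer_univ]
    exact ((PLocal.mcl_iff_maxAb hAm hA.1 Q).1 hQ).1
  · obtain ⟨Q, hQ⟩ := @PLocal.exists_isMinimalCentrallyLarge P _ _
    have h1 : Q ≤ thompsonSubgroupA P := le_sSup ((PLocal.mcl_iff_maxAb hQ (h Q hQ) Q).1 hQ)
    have h2 := PLocal.jTilde_le_of_cl (PLocal.cl_sup_thompsonA hQ.1) le_sup_right
    rw [sup_eq_right.2 h1] at h2
    exact le_antisymm h2 (Subgroup.le_centralizer_iff.1 inf_le_right)

end Cfsg.Agent.S3008
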