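import Cfsg.Statements.S3009
import Mathlib
import Cfsg.Agent.PLocal.SL2Irr
import Cfsg.Agent.PLocal.ElemAb

set_option autoImplicit false
open Cfsg

namespace Cfsg.Agent.S3009

open Subgroup Cfsg.Agent.PLocal.Amb Cfsg.Agent.PLocal.SL2Nat

/-- Let p be a prime and let G and V be subgroups of a finite group with V elementary abelian and normalized by G, and G isomorphic to SL₂(F) for a finite field F with pⁿ elements. Suppose G acts irreducibly and nontrivially on V by conjugation (no G-invariant subgroups of V other than 1 and V, and [V, G] ≠ 1), and let S be a Sylow p-subgroup of G and V₀ = C_V(S). If [V, S, S] = 1 or |V| ≤ |V₀|², then G acts on V as SL₂(F) on its natural two-dimensional module; in particular |V| = |F|². -/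
theorem result {X : Type*} [Group X] [Finite X] {p : ℕ} [Fact p.Prime] (G V : Subgroup X) (hV : Cfsg.IsElementaryAbelian p V) (hGV : G ≤ Subgroup.normalizer (V : Set X)) (F : Type) [Field F] [Fintype F] (n : ℕ) (hF : Fintype.card F = p ^ n) (hG : Nonempty (↥G ≃* Matrix.SpecialLinearGroup (Fin 2) F)) (hirr : ∀ U : Subgroup X, U ≤ V → G ≤ Subgroup.normalizer (U : Set X) → U = ⊥ ∨ U = V) (hnt : ⁅V, G⁆ ≠ ⊥) (S : Sylow p ↥G) (hyp : ⁅⁅V, (S : Subgroup ↥G).map G.subtype⁆, (S : Subgroup ↥G).map G.subtype⁆ = ⊥ ∨ Nat.card ↥V ≤ Nat.card ↥(V ⊓ Subgroup.centralizer (((S : Subgroup ↥G).map G.subtype : Subgroup X) : Set X)) ^ 2) : Cfsg.ActsAsSL2OnSection F ⊤ G V ⊥ := by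
  have := charP_of_card_eq_prime_pow hF
  obtain ⟨e⟩ := hG
  obtain ⟨D⟩ := natData_of_quad_or_small (Cfsg.Agent.PLocal.elemAb_le_centralizer hV)
    (Cfsg.Agent.PLocal.elemAb_isPGroup hV) hGV e hirr hnt (isSyl_map_subtype S) hyp
  exact D.actsAs

end Cfsg.Agent.S3009
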