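import Mathlib
import Cfsg.Statements.S3011
import Cfsg.Agent.PLocal.AmbSyl
import Cfsg.Agent.Misc.Four
import Cfsg.Agent.Inv.Isolated
import Cfsg.Agent.Grp.Cores
import Cfsg.Agent.S0200
-- import your own Cfsg.Agent.* helpers here

set_option autoImplicit false
open Cfsg

namespace Cfsg.Agent.S3011

open Cfsg.Agent.PLocal Cfsg.Agent.PLocal.Amb Subgroup

/-- Let G be a finite group and V a nontrivial elementary abelian 2-subgroup of G of order at most 4 such that, whenever an element of V inverts an element h of G of odd order, some nontrivial element of V commutes with h. Then V meets O₂(G) nontrivially. (The case of order at most 4 has a short argument from the Baer–Suzuki theorem.) -/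
theorem result {G : Type*} [Group G] [Finite G] (V : Subgroup G) (hV : Cfsg.IsElementaryAbelian 2 V) (hV1 : V ≠ ⊥) (hS : Cfsg.IsSidkiPair V) (h4 : Nat.card V ≤ 4) : V ⊓ Cfsg.pCore 2 G ≠ ⊥ := by
  by_contra h0
  have hsq : ∀ v ∈ V, v * v = 1 := fun v hv => by rw [← pow_two]; exact hV.2 v hv
  have hcomm : ∀ a ∈ V, ∀ b ∈ V, a * b = b * a := Misc.comm_of_sq hV.2
  have hmem : ∀ a ∈ V, ∀ b ∈ V, a ≠ 1 → b ≠ 1 → a ≠ b → ∀ w ∈ V,
      w = 1 ∨ w = a ∨ w = b ∨ w = a * b := by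
    intro a ha b hb ha1 hb1 hab w hw
    rw [← Misc.mem_closure_pair_iff (hsq a ha) (hsq b hb) (hcomm a ha b hb)]
    have h1 : closure {a, b} = V := eq_of_le_of_card_ge (by
      rw [closure_le]; rintro x (rfl | rfl) <;> assumption) (by
      rw [Misc.card_closure_pair (hsq a ha) (hsq b hb) (hcomm a ha b hb) ha1 hb1 hab]; exact h4)
    rwa [h1]
  have hno : ∀ v h : G, Odd (orderOf h) → v * h * v⁻¹ = h⁻¹ → v * h = h * v → h = 1 := by
    intro v h hh h1 h2
    rw [h2, mul_inv_cancel_right] at h1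
    exact Inv.eq_one_of_mul_self_of_odd (by nth_rewrite 1 [h1]; simp) hh
  have hex : ∀ v ∈ V, v ≠ 1 → ∃ h : G, h ≠ 1 ∧ Odd (orderOf h) ∧ v * h * v⁻¹ = h⁻¹ ∧
      ∃ w ∈ V, w ≠ 1 ∧ w ≠ v ∧ w * h = h * w := by
    intro v hv hv1
    obtain ⟨h, h1, h2, h3⟩ := S0200.result v (Inv.orderOf_eq_two_of_mul_self hv1 (hsq v hv))
      fun N hN hN2 hvN => hv1 (by
        rw [← mem_bot, ← h0]; exact mem_inf.2 ⟨hv, Grp.le_pCore hN hN2 hvN⟩)
    obtain ⟨w, hw, hw1, hw2⟩ := hS h v hv h2 h3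
    exact ⟨h, h1, h2, h3, w, hw, hw1, fun hwv => h1 (hno v h h2 h3 (hwv ▸ hw2)), hw2⟩
  obtain ⟨⟨a', ha'⟩, ha'1⟩ := (ne_bot_iff_exists_ne_one).1 hV1
  have ha'1 : a' ≠ 1 := fun h => ha'1 (Subtype.ext h)
  obtain ⟨h, h1, hodd, hinv', b, hb, hb1, hba, hbh⟩ := hex a' ha' ha'1
  obtain ⟨k, k1, kodd, kinv, a, ha, ha1, hab, hak⟩ := hex b hb hb1
  have hbh' : b * h * b⁻¹ = h := by rw [hbh, mul_inv_cancel_right]
  have hak' : a * k * a⁻¹ = k := by rw [hak, mul_inv_cancel_right]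
  have hinv : a * h * a⁻¹ = h⁻¹ := by
    rcases hmem a' ha' b hb ha'1 hb1 hba.symm a ha with h2 | h2 | h2 | h2
    · exact absurd h2 ha1
    · rw [h2, hinv']
    · exact absurd h2 hab
    · rw [h2]
      calc a' * b * h * (a' * b)⁻¹ = a' * (b * h * b⁻¹) * a'⁻¹ := by group
        _ = _ := by rw [hbh', hinv']
  have hch : a * b * h * (a * b)⁻¹ = h⁻¹ := by
    calc a * b * h * (a * b)⁻¹ = a * (b * h * b⁻¹) * a⁻¹ := by group
      _ = _ := by rw [hbh', hinv]
  have hck : a * b * k * (a * b)⁻¹ = k⁻¹ := by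
    calc a * b * k * (a * b)⁻¹ = a * (b * k * b⁻¹) * a⁻¹ := by group
      _ = (a * k * a⁻¹)⁻¹ := by rw [kinv]; group
      _ = _ := by rw [hak']
  have hy : a * (k⁻¹ * h * k) * a⁻¹ = (k⁻¹ * h * k)⁻¹ := by
    calc a * (k⁻¹ * h * k) * a⁻¹ = (a * k * a⁻¹)⁻¹ * (a * h * a⁻¹) * (a * k * a⁻¹) := by group
      _ = _ := by rw [hak', hinv]; group
  have hyo : Odd (orderOf (k⁻¹ * h * k)) := by
    have := Inv.orderOf_conj_eq k⁻¹ h
    rw [inv_inv] at this
    rwa [this]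
  have kodd2 : Odd (orderOf (k ^ 2)) := Inv.odd_orderOf_pow kodd 2
  obtain ⟨w, hw, hw1, hw2⟩ := hS _ a ha hyo hy
  rcases hmem a ha b hb ha1 hb1 hab w hw with h2 | h2 | h2 | h2
  · exact hw1 h2
  · have := hno a _ hyo hy (h2 ▸ hw2)
    apply h1
    calc h = k * (k⁻¹ * h * k) * k⁻¹ := by group
      _ = 1 := by rw [this]; group
  · rw [h2] at hw2
    have h3 : k * h * k⁻¹ = k⁻¹ * h * k := by
      calc k * h * k⁻¹ = (b * k * b⁻¹)⁻¹ * (b * h * b⁻¹) * (b * k * b⁻¹) := by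
            rw [kinv, hbh', inv_inv]
        _ = b * (k⁻¹ * h * k) * b⁻¹ := by group
        _ = _ := by rw [hw2, mul_inv_cancel_right]
    have h5 : Commute k h := by
      have h6 : k ^ 2 ∈ centralizer ({h} : Set G) := by
        rw [mem_centralizer_singleton_iff]
        calc k ^ 2 * h = k * (k * h * k⁻¹) * k := by rw [pow_two]; group
          _ = _ := by rw [h3, pow_two]; group
      exact mem_centralizer_singleton_iff.1
        (mem_of_pow_mem_of_coprime h6 (Nat.coprime_two_right.2 kodd))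
    have h6 : Odd (orderOf (k * h)) :=
      Odd.of_dvd_nat (kodd.mul hodd) h5.orderOf_mul_dvd_mul_orderOf
    have h7 : a * b * (k * h) * (a * b)⁻¹ = (k * h)⁻¹ := by
      calc a * b * (k * h) * (a * b)⁻¹ = (a * b * k * (a * b)⁻¹) * (a * b * h * (a * b)⁻¹) := by
            group
        _ = _ := by rw [hch, hck, h5.eq, mul_inv_rev]
    obtain ⟨u, hu, hu1, hu2⟩ := hS _ _ (mul_mem ha hb) h6 h7
    rcases hmem a ha b hb ha1 hb1 hab u hu with h2 | h2 | h2 | h2
    · exact hu1 h2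
    · rw [h2, ← mul_assoc, hak, mul_assoc, mul_assoc, mul_right_inj] at hu2
      exact h1 (hno a h hodd hinv hu2)
    · rw [h2, h5.eq, ← mul_assoc, hbh, mul_assoc, mul_assoc, mul_right_inj] at hu2
      exact k1 (hno b k kodd kinv hu2)
    · have h8 := hno _ _ h6 h7 (h2 ▸ hu2)
      have h9 : h = k⁻¹ := (eq_inv_of_mul_eq_one_right h8)
      refine h1 (hno a h hodd hinv ?_)
      rw [h9]
      exact (Commute.inv_right hak).eq
  · rw [h2] at hw2
    have h3 : k * h⁻¹ * k⁻¹ = k⁻¹ * h * k := by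
      calc k * h⁻¹ * k⁻¹ = (a * b * k * (a * b)⁻¹)⁻¹ * (a * b * h * (a * b)⁻¹) *
            (a * b * k * (a * b)⁻¹) := by rw [hch, hck, inv_inv]
        _ = a * b * (k⁻¹ * h * k) * (a * b)⁻¹ := by group
        _ = _ := by rw [hw2, mul_inv_cancel_right]
    have h5 : k ^ 2 * h * (k ^ 2)⁻¹ = h⁻¹ := by
      calc k ^ 2 * h * (k ^ 2)⁻¹ = (k * (k * h⁻¹ * k⁻¹) * k⁻¹)⁻¹ := by
            simp only [pow_two, mul_inv_rev, inv_inv, mul_assoc]
        _ = _ := by rw [h3]; group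
    exact h1 (Inv.eq_one_of_mul_self_of_odd (Inv.mul_self_of_inverted_by_odd h5 kodd2) hodd)

end Cfsg.Agent.S3011
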