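import Cfsg.Statements.S3012
import Mathlib

set_option autoImplicit false
open Cfsg

namespace Cfsg.Agent.S3012

theorem commute_of_commute_pow {G : Type*} [Group G] {w x : G} {n : ℕ} (hx : n.Coprime (orderOf x))
    (h : Commute w (x ^ n)) : Commute w x := by
  have : x ∈ Subgroup.zpowers (x ^ n) := by
    rw [mem_zpowers_pow_iff]
    exact hx
  obtain ⟨k, hk⟩ := Subgroup.mem_zpowers_iff.mp this
  rw [← hk]
  exact h.zpow_right k

/-- Let G be a finite group, V a nontrivial elementary abelian 2-subgroup of G satisfying the Sidki pair condition (every odd-order element inverted by an element of V commutes with a nontrivial element of V), and K a normal subgroup of G with V ∩ K = 1. Then the image of V in G/K satisfies the Sidki pair condition in G/K. -/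
theorem result {G : Type*} [Group G] [Finite G] (V K : Subgroup G) [K.Normal] (hV : Cfsg.IsElementaryAbelian 2 V) (hV1 : V ≠ ⊥) (hS : Cfsg.IsSidkiPair V) (hVK : V ⊓ K = ⊥) : Cfsg.IsSidkiPair (V.map (QuotientGroup.mk' K)) := by
  intro hb vb hvb hodd hinv
  obtain ⟨v, hv, rfl⟩ := Subgroup.mem_map.mp hvb
  obtain ⟨h, rfl⟩ := QuotientGroup.mk'_surjective K hb
  have hv2 : v ^ 2 = 1 := hV.2 v hv
  have hvv : v⁻¹ = v := by
    rw [pow_two] at hv2
    exact inv_eq_of_mul_eq_one_left hv2
  set y := h * v * h⁻¹ * v⁻¹ with hy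
  have hyinv : v * y * v⁻¹ = y⁻¹ := by
    have hv3 : v * v = 1 := by rw [← pow_two, hv2]
    rw [hy, hvv]
    calc v * (h * v * h⁻¹ * v) * v = v * h * v * h⁻¹ * (v * v) := by group
      _ = v * h * v * h⁻¹ := by rw [hv3, mul_one]
      _ = (h * v * h⁻¹ * v)⁻¹ := by
        simp only [mul_inv_rev, hvv, inv_inv]; group
  have hne : orderOf y ≠ 0 := (orderOf_pos y).ne'
  obtain ⟨a, m, hm, hym⟩ := Nat.exists_eq_two_pow_mul_odd hne
  have hodd2 : Odd (orderOf (y ^ 2 ^ a)) := by
    rw [orderOf_pow' y (by positivity), hym, Nat.gcd_eq_right (Dvd.intro _ rfl),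
      Nat.mul_div_cancel_left _ (by positivity)]
    exact hm
  have hinv2 : v * y ^ 2 ^ a * v⁻¹ = (y ^ 2 ^ a)⁻¹ := by
    rw [← conj_pow, hyinv, inv_pow]
  obtain ⟨w, hwV, hw1, hw⟩ := hS _ v hv hodd2 hinv2
  refine ⟨QuotientGroup.mk' K w, Subgroup.mem_map_of_mem _ hwV, ?_, ?_⟩
  · intro h1
    have : w ∈ V ⊓ K := ⟨hwV, (QuotientGroup.eq_one_iff w).mp h1⟩
    rw [hVK] at this
    exact hw1 (Subgroup.mem_bot.mp this)
  · have hyb : QuotientGroup.mk' K y = (QuotientGroup.mk' K h) ^ 2 := by
      have : QuotientGroup.mk' K v * (QuotientGroup.mk' K h)⁻¹ * (QuotientGroup.mk' K v)⁻¹ =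
          QuotientGroup.mk' K h := by
        rw [← conj_inv, hinv, inv_inv]
      rw [hy]
      simp only [map_mul, map_inv]
      rw [pow_two]
      conv_rhs => rw [← this]
      conv_rhs => enter [1]; rw [this]
      group
    have hc : Commute (QuotientGroup.mk' K w) ((QuotientGroup.mk' K h) ^ (2 * 2 ^ a)) := by
      rw [pow_mul, ← hyb, ← map_pow]
      exact Commute.map hw _
    refine commute_of_commute_pow ?_ hc
    rw [← pow_succ']
    exact Nat.Coprime.pow_left _ (Nat.coprime_two_left.mpr hodd)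


end Cfsg.Agent.S3012
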