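import Cfsg.Statements.S3013
import Mathlib

set_option autoImplicit false
open Cfsg

namespace Cfsg.Agent.S3013

theorem commute_of_commute_sq {G : Type*} [Group G] {w x : G} (hx : Odd (orderOf x))
    (h : Commute w (x ^ 2)) : Commute w x := by
  have : x ∈ Subgroup.zpowers (x ^ 2) := by
    rw [mem_zpowers_pow_iff]
    exact (Nat.coprime_two_left.mpr hx)
  obtain ⟨k, hk⟩ := Subgroup.mem_zpowers_iff.mp this
  rw [← hk]
  exact h.zpow_right k

/-- Let G be a finite group and V a nontrivial elementary abelian 2-subgroup of G satisfying the Sidki pair condition. Let v ∈ V and let x be an element of odd order inverted by v, and put C = C_G(v) ∩ C_G(x), the centralizer of the dihedral subgroup generated by v and x. Then C ∩ V is nontrivial and satisfies the Sidki pair condition inside C: every odd-order element of C inverted by an element of C ∩ V commutes with a nontrivial element of C ∩ V. -/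
theorem result {G : Type*} [Group G] [Finite G] (V : Subgroup G) (hV : Cfsg.IsElementaryAbelian 2 V) (hV1 : V ≠ ⊥) (hS : Cfsg.IsSidkiPair V) (v x : G) (hv : v ∈ V) (hx : Odd (orderOf x)) (hinv : v * x * v⁻¹ = x⁻¹) (C : Subgroup G) (hC : C = Subgroup.centralizer ({v} : Set G) ⊓ Subgroup.centralizer ({x} : Set G)) : C ⊓ V ≠ ⊥ ∧ Cfsg.IsSidkiPair ((C ⊓ V).subgroupOf C) := by
  have hcomm : ∀ a ∈ V, ∀ b ∈ V, a * b = b * a := by
    intro a ha b hb
    have := hV.1
    exact setLike_mul_comm ha hb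
  have hmemC : ∀ g : G, g ∈ C ↔ v * g = g * v ∧ x * g = g * x := by
    intro g
    simp [hC, Subgroup.mem_centralizer_iff]
  refine ⟨?_, ?_⟩
  · obtain ⟨w, hwV, hw1, hw⟩ := hS x v hv hx hinv
    intro hbot
    have : w ∈ C ⊓ V := ⟨(hmemC w).2 ⟨hcomm v hv w hwV, hw.symm⟩, hwV⟩
    rw [hbot] at this
    exact hw1 (Subgroup.mem_bot.mp this)
  · rintro ⟨h, hhC⟩ ⟨u, huC⟩ hu hodd hinv2
    have huV : u ∈ V := (Subgroup.mem_subgroupOf.mp hu).2
    have hodd' : Odd (orderOf h) := by
      rwa [← Subgroup.orderOf_coe] at hodd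
    have hinv2' : u * h * u⁻¹ = h⁻¹ := Subtype.ext_iff.mp hinv2
    obtain ⟨hvh, hxh⟩ := (hmemC h).1 hhC
    obtain ⟨hvu, hxu⟩ := (hmemC u).1 huC
    have hcxh : Commute x h := hxh
    have hodd3 : Odd (orderOf (x * h)) := by
      have := hcxh.orderOf_mul_dvd_mul_orderOf
      exact Odd.of_dvd_nat (hx.mul hodd') this
    have hux : u * x * u⁻¹ = x := by rw [← hxu]; group
    have hvh' : v * h * v⁻¹ = h := by rw [hvh]; group
    have hinv3 : (u * v) * (x * h) * (u * v)⁻¹ = (x * h)⁻¹ := by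
      calc (u * v) * (x * h) * (u * v)⁻¹
          = u * ((v * x * v⁻¹) * (v * h * v⁻¹)) * u⁻¹ := by group
        _ = u * (x⁻¹ * h) * u⁻¹ := by rw [hinv, hvh']
        _ = (u * x * u⁻¹)⁻¹ * (u * h * u⁻¹) := by group
        _ = x⁻¹ * h⁻¹ := by rw [hux, hinv2']
        _ = (x * h)⁻¹ := by rw [hxh, mul_inv_rev]
    obtain ⟨w, hwV, hw1, hw⟩ := hS (x * h) (u * v) (V.mul_mem huV hv) hodd3 hinv3
    have hw' : Commute w (x * h) := hw
    have hwu : Commute w u := hcomm w hwV u huV
    have hw2 : Commute w (x * h⁻¹) := by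
      have : x * h⁻¹ = u * (x * h) * u⁻¹ := by
        calc x * h⁻¹ = (u * x * u⁻¹) * (u * h * u⁻¹) := by rw [hux, hinv2']
          _ = u * (x * h) * u⁻¹ := by group
      rw [this]
      exact (hwu.mul_right hw').mul_right hwu.inv_right
    have hw3 : Commute w (x ^ 2) := by
      have : x ^ 2 = (x * h) * (x * h⁻¹) := by
        calc x ^ 2 = x * x * (h * h⁻¹) := by rw [mul_inv_cancel, mul_one, pow_two]
          _ = x * (x * h) * h⁻¹ := by group
          _ = x * (h * x) * h⁻¹ := by rw [hxh]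
          _ = (x * h) * (x * h⁻¹) := by group
      rw [this]
      exact hw'.mul_right hw2
    have hwx : Commute w x := commute_of_commute_sq hx hw3
    have hwh : Commute w h := by
      have : h = x⁻¹ * (x * h) := by group
      rw [this]
      exact hwx.inv_right.mul_right hw'
    have hwC : w ∈ C := (hmemC w).2 ⟨hcomm v hv w hwV, hwx.symm⟩
    refine ⟨⟨w, hwC⟩, Subgroup.mem_subgroupOf.mpr ⟨hwC, hwV⟩, ?_, Subtype.ext hwh⟩
    intro h1
    exact hw1 (Subtype.ext_iff.mp h1)


end Cfsg.Agent.S3013
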