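import Mathlib
import Cfsg.Statements.S3015
import Cfsg.Agent.PLocal.ExtClosed
-- import your own Cfsg.Agent.* helpers here

set_option autoImplicit false
open Cfsg

namespace Cfsg.Agent.S3015

open Cfsg.Agent.PLocal Cfsg.Agent.PLocal.Amb Subgroup

/-- Let G be a finite non-abelian simple group, M a maximal subgroup of G and H a normal subgroup of M of prime index in M. Then G is generated by H together with one of its conjugates. -/
theorem result {G : Type*} [Group G] [Finite G] [IsSimpleGroup G] (hG : ¬ IsMulCommutative G) (M H : Subgroup G) (hmaxM : IsCoatom M) (hHM : H ≤ M) (hHn : (H.subgroupOf M).Normal) (hidx : (H.relIndex M).Prime) : ∃ g : G, H ⊔ H.map (MulAut.conj g).toMonoidHom = ⊤ := by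
  by_contra h0
  push Not at h0
  have hn : M ≤ 𝐍[H] := (normal_subgroupOf_iff_le_normalizer hHM).1 hHn
  have hp : Fact (H.relIndex M).Prime := ⟨hidx⟩
  set p := H.relIndex M with hpdef
  have hmaxH : IsCoatom (H.subgroupOf M) := by
    refine ⟨fun h => hidx.one_lt.ne' (by rw [hpdef, relIndex, h, index_top]), fun K hK => ?_⟩
    have h1 : K.index ∣ p := index_dvd_of_le hK.le
    rcases (Nat.dvd_prime hidx).1 h1 with h2 | h2
    · exact index_eq_one.1 h2
    · exfalso
      have h3 := relIndex_mul_index hK.le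
      rw [h2] at h3
      change _ * p = p at h3
      exact hK.not_ge (relIndex_eq_one.1 (by simpa [hidx.ne_zero] using h3))
  have hHM' : H ≠ M := fun h => hmaxH.1 (subgroupOf_eq_top.2 h.ge)
  have hnorm : ∀ K : Subgroup G, K ≠ ⊥ → K ≤ M → M ≤ 𝐍[K] → 𝐍[K] = M := by
    intro K hK1 hK hK2
    by_contra h1
    have h2 := normalizer_eq_top_iff.1 (hmaxM.2 _ (lt_of_le_of_ne hK2 (Ne.symm h1)))
    rcases h2.eq_bot_or_eq_top with h3 | h3
    · exact hK1 h3
    · exact hmaxM.1 (top_le_iff.1 (h3 ▸ hK))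
  have hM1 : M ≠ ⊥ := fun h => hHM' (le_antisymm hHM (h.le.trans bot_le))
  have hNM : 𝐍[M] = M := hnorm M hM1 le_rfl le_normalizer
  by_cases hH1 : H = ⊥
  · obtain ⟨N, hN, h1, h2⟩ := exists_normal_inf_eq_of_ti hHM hn
      (commutator_le_of_isCoatom hHM hn hmaxH) (fun g hg y hy h1 => by
        by_contra h2
        have h3 : ∀ z ∈ M, z ∉ H → zpowers z = M := fun z hz hz1 =>
          eq_of_isCoatom_subgroupOf hmaxH (hH1.le.trans bot_le) ((zpowers_le).2 hz)
            fun h => hz1 (h ▸ mem_zpowers z)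
        have h4 : y ∉ H := by
          intro h
          rw [hH1, mem_bot] at h h2
          exact h2 (by rw [h]; simp)
        apply hg
        rw [← inv_mem_iff, ← hNM, ← cj_eq_iff]
        nth_rewrite 1 [← h3 y hy h4]
        rw [← h3 _ h1 h2, MonoidHom.map_zpowers]
        simp)
    rcases hN.eq_bot_or_eq_top with h3 | h3
    · apply hG
      refine ⟨⟨fun a b => ?_⟩⟩
      rw [← commutatorElement_eq_one_iff_mul_comm, ← mem_bot, ← h3]
      exact h1 (commutator_mem_commutator (mem_top _) (mem_top _))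
    · rw [h3, top_inf_eq] at h2
      exact hHM' h2.symm
  have hNH : 𝐍[H] = M := hnorm H hH1 hHM hn
  have hwc : ∀ g : G, cj(g, H) ≤ M → g ∈ M := by
    intro g hg
    have h1 : 𝐎[p, M] ≤ H := pRes_le_of_pow fun x hx => ⟨1, by
      rw [pow_one]
      exact (mem_subgroupOf (h := (⟨x, hx⟩ : M) ^ p)).1 (pow_index_mem (H.subgroupOf M) (⟨x, hx⟩ : M))⟩
    have h2 : 𝐎[p, H] = 𝐎[p, M] := pRes_eq_of_le h1 hHM
    have h3 : cj(g, 𝐎[p, M]) = 𝐎[p, M] := by
      apply eq_of_le_of_card_ge
      · rw [← h2, ← pRes_cj, h2]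
        exact pRes_mono hg
      · rw [card_cj]
    by_cases h4 : 𝐎[p, M] = ⊥
    · have hMp : IsPGroup p M := isPGroup_of_pRes_le IsPGroup.of_bot h4.le
      have h5 : (cj(g, H)).relIndex M = p := by
        have e1 := Grp.card_mul_relIndex_of_le hg
        have e2 := Grp.card_mul_relIndex_of_le hHM
        rw [card_cj, ← e2] at e1
        exact Nat.eq_of_mul_eq_mul_left Nat.card_pos e1
      have h6 : cj(g, H) < M := lt_of_le_of_ne hg fun h => hidx.one_lt.ne' (by
        rw [← h5, h, relIndex_self])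
      have h7 := lt_inf_normalizer hMp h6
      have h8 : M ⊓ 𝐍[cj(g, H)] = M := by
        have e1 := relIndex_mul_relIndex _ _ _ h7.le (inf_le_left : M ⊓ 𝐍[cj(g, H)] ≤ M)
        rw [h5] at e1
        rcases (Nat.dvd_prime hidx).1 (Dvd.intro _ e1) with h | h
        · exact absurd (relIndex_eq_one.1 h) h7.not_ge
        · rw [h] at e1
          exact le_antisymm inf_le_left (relIndex_eq_one.1 (by simpa [hidx.ne_zero] using e1))
      have h9 : M ≤ cj(g, M) := by
        nth_rewrite 2 [← hNH]
        rw [← normalizer_cj]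
        exact h8.ge.trans inf_le_right
      rw [← hNM, ← cj_eq_iff]
      exact (eq_of_le_of_card_ge h9 (card_cj g M).le).symm
    · rw [← hnorm _ h4 (pRes_le p M) (le_normalizer_pRes p M)]
      exact cj_eq_iff.1 h3
  have key := normalClosure_inf_eq_of_closed hHM (fun g => by
    by_contra h1
    have h2 := eq_of_isCoatom_subgroupOf hmaxH (le_inf le_sup_left hHM) inf_le_right h1
    have h3 : H ⊔ cj(g, H) = M := by
      by_contra h3
      exact h0 g (hmaxM.2 _ (lt_of_le_of_ne (h2.ge.trans inf_le_left) (Ne.symm h3)))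
    have h4 := hwc g (le_sup_right.trans h3.le)
    rw [cj_of_mem_normalizer (hn h4), sup_idem] at h3
    exact hHM' h3) hmaxH hmaxM
  rcases (normalClosure_normal (s := (H : Set G))).eq_bot_or_eq_top with h3 | h3
  · exact hH1 (le_bot_iff.1 (h3 ▸ le_normalClosure))
  · rw [h3, top_inf_eq] at key
    exact hHM' key.symm

end Cfsg.Agent.S3015
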