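import Mathlib
import Cfsg.Statements.S3016
import Cfsg.Agent.ExC.Step1
-- import your own Cfsg.Agent.* helpers here

set_option autoImplicit false
open Cfsg

namespace Cfsg.Agent.S3016

open Cfsg.Agent.PLocal Cfsg.Agent.PLocal.Amb Cfsg.Agent.ExC Subgroup

universe u

variable {p : ℕ} [hp : Fact p.Prime]

theorem card_quot_lt {G : Type*} [Group G] [Finite G] (N : Subgroup G) [N.Normal] (hN : N ≠ ⊥) :
    Nat.card (G ⧸ N) < Nat.card G := by
  rw [card_eq_card_quotient_mul_card_subgroup N]
  exact lt_mul_of_one_lt_right Nat.card_pos ((one_lt_card_iff_ne_bot N).2 hN)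

theorem card_sub_lt {G : Type*} [Group G] [Finite G] {L : Subgroup G} (hL : L ≠ ⊤) :
    Nat.card L < Nat.card G :=
  lt_of_le_of_ne (card_le_card_group L) fun h => hL (eq_top_of_card_eq L h)

theorem cent_ne_top {G : Type*} [Group G] {t : G} (h : t ∉ center G) :
    centralizer ({t} : Set G) ≠ ⊤ := fun h1 => h (mem_center_iff.2 fun g =>
  mem_centralizer_singleton_iff.1 (h1.ge (mem_top g)))

theorem aux2 (hp2 : p ≠ 2) (n : ℕ) : ∀ {G : Type u} [Group G] [Finite G] (H : Subgroup G),
    Nat.card G = n → IsPGroup p H → IsMulCommutative H → IsExtremelyClosed H →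
    𝐍[H] ⊔ pPrimeCore p G = ⊤ := by
  induction n using Nat.strong_induction_on with
  | _ n ih =>
  intro G _ _ H hn hH2 hHab hcl
  have hquot : ∀ (N : Subgroup G) [N.Normal], N ≠ ⊥ →
      𝐍[H.map (QuotientGroup.mk' N)] ⊔ pPrimeCore p (G ⧸ N) = ⊤ := fun N _ hN =>
    ih _ (hn ▸ card_quot_lt N hN) _ rfl (hH2.map _) (by infer_instance)
      (ext_map hH2 hcl _ (QuotientGroup.mk'_surjective N))
  have hsub : ∀ L : Subgroup G, L ≠ ⊤ → H ≤ L →
      ∀ c ∈ L, ∃ o ∈ (pPrimeCore p L).map L.subtype, cj(c, H) = cj(o, H) := by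
    intro L hL hHL c hc
    have h1 := ih _ (hn ▸ card_sub_lt hL) (H.subgroupOf L) rfl (Amb.isPGroup_subgroupOf hH2 L)
      (by infer_instance) (ext_subgroupOf hcl hHL)
    rw [sup_comm] at h1
    obtain ⟨o, ho, x, hx, h2⟩ := (mem_sup_of_le_normalizer_left
      (le_top.trans (normalizer_eq_top _).ge)).1 (h1.ge (mem_top (⟨c, hc⟩ : L)))
    rw [← subgroupOf_normalizer_eq hHL, mem_subgroupOf] at hx
    refine ⟨o, mem_map_of_mem _ ho, ?_⟩
    rw [show c = o * x from congrArg Subtype.val h2, cj_mul, cj_of_mem_normalizer hx]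
  have hcomap : ∀ (N : Subgroup G) [N.Normal], 𝐍[H.map (QuotientGroup.mk' N)] = ⊤ →
      𝐍[H ⊔ N] = ⊤ := by
    intro N _ h
    have h1 := (normalizer_eq_top_iff.1 h).comap (QuotientGroup.mk' N)
    rw [comap_map_eq, QuotientGroup.ker_mk'] at h1
    exact normalizer_eq_top_iff.2 h1
  by_cases hO : pPrimeCore p G = ⊥
  swap
  · have h1 := hquot _ hO
    rw [Grp.pPrimeCore_quotient_pPrimeCore, sup_bot_eq] at h1
    have h2 := hcomap _ h1
    have h3 : IsSyl p H (H ⊔ pPrimeCore p G) := by
      refine isSyl_of_not_dvd_relIndex hH2 le_sup_left fun h => ?_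
      have h4 := Grp.card_mul_card_eq_of_normal H (pPrimeCore p G)
      rw [Grp.inf_eq_bot_of_isPGroup_of_coprime hH2 (Grp.pPrimeCore_coprime p G), card_bot, one_mul,
        ← Grp.card_mul_relIndex_of_le (le_sup_left : H ≤ H ⊔ pPrimeCore p G)] at h4
      rw [← Nat.eq_of_mul_eq_mul_left Nat.card_pos h4] at h
      exact Grp.not_dvd_card_pPrimeCore p G h
    have h4 := h3.frattini_sup le_top h2.ge
    rw [top_inf_eq] at h4
    rw [eq_top_iff, ← h4]
    exact sup_le (sup_le (le_normalizer.trans le_sup_left) le_sup_right) le_sup_left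
  rw [hO, sup_bot_eq]
  by_contra hN
  have hB : ∀ t ∈ H, t ≠ 1 → t ∉ center G := by
    intro t ht ht2 htc
    have hZ : zpowers t ≤ center G := (zpowers_le).2 htc
    have hZn : (zpowers t).Normal := ⟨fun x hx g => by
      rw [mem_center_iff.1 (hZ hx) g, mul_inv_cancel_right]; exact hx⟩
    have h1 := hquot (zpowers t) (by rwa [Ne, zpowers_eq_bot])
    have h2 : pPrimeCore p (G ⧸ zpowers t) = ⊥ := by
      set K := (pPrimeCore p (G ⧸ zpowers t)).comap (QuotientGroup.mk' (zpowers t)) with hK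
      have h3 : K ≤ zpowers t ⊔ pPrimeCore p G := by
        refine le_sup_pPrimeCore_of_central (hH2.to_le ((zpowers_le).2 ht))
          (fun g _ x hx => (mem_center_iff.1 (hZ hx) g).symm) ?_
        have h4 := relIndex_ker K (QuotientGroup.mk' (zpowers t))
        rw [QuotientGroup.ker_mk', hK,
          map_comap_eq_self_of_surjective (QuotientGroup.mk'_surjective _)] at h4
        rw [h4]
        exact Grp.pPrimeCore_coprime p _
      rw [hO, sup_bot_eq] at h3
      rw [← map_comap_eq_self_of_surjective (QuotientGroup.mk'_surjective (zpowers t))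
        (pPrimeCore p _), Subgroup.map_eq_bot_iff, QuotientGroup.ker_mk']
      exact h3
    rw [h2, sup_bot_eq] at h1
    have h3 := hcomap _ h1
    rw [sup_eq_left.2 ((zpowers_le).2 ht)] at h3
    exact hN h3
  by_cases hKt : normalClosure (H : Set G) = ⊤
  · have hH1 : H ≠ ⊥ := by
      rintro rfl
      exact hN (normalizer_eq_top _)
    obtain ⟨h1, h2⟩ := step1 hp2 hH2 hHab hcl hH1 hKt (fun b hb hb1 u hu hu' => by
      have hHC := le_cent hHab hb
      obtain ⟨o, ho, e⟩ := hsub _ (cent_ne_top (hB b hb hb1)) hHC u u.2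
      set O := (pPrimeCore p (centralizer ({b} : Set G))).map (centralizer ({b} : Set G)).subtype
      have hOn : H ≤ 𝐍[O] := hHC.trans (le_normalizer_map_subtype _)
      have h3 : (u : G) ∈ O ⊔ H := by
        refine (sup_le le_sup_right ?_ : H ⊔ cj((u : G), H) ≤ O ⊔ H) hu'
        rw [e]
        exact cj_le_of_mem le_sup_right (mem_sup_left ho)
      have h4 := pRes_sup_le hH2 hOn (mem_pRes h3
        (Block.not_dvd_iff_coprime.1 (by rwa [orderOf_coe])))
      obtain ⟨v, hv, e'⟩ := h4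
      rwa [← show v = u from Subtype.ext e'])
    obtain ⟨P, hP⟩ := hH2.exists_le_sylow
    have hPn : (P : Subgroup G) ≤ 𝐍[H] :=
      le_normalizer.trans (ext_normalizer_le hH2 hcl P.isPGroup' hP)
    have hNC : 𝐍[H] ≤ 𝐂[H] := fun g hg b hb => by
      have := h1 b hb _ (conj_mem_of_mem_normalizer hg hb) (isConj_iff.2 ⟨g, rfl⟩)
      exact (mul_inv_eq_iff_eq_mul.1 this.symm).symm
    have hPH : (P : Subgroup G) = H := by
      obtain ⟨b, hb, hb1⟩ := (H.bot_or_exists_ne_one).resolve_left hH1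
      have h3 := h2 b hb hb1 P P.isPGroup'
        ((hPn.trans hNC).trans (centralizer_le (Set.singleton_subset_iff.2 hb)))
      by_contra h4
      have h5 := Grp.card_mul_relIndex_of_le hP
      obtain ⟨k, hk⟩ := P.isPGroup'.index (H.subgroupOf P)
      have h6 : k ≠ 0 := by
        rintro rfl
        exact h4 (le_antisymm (subgroupOf_eq_top.1 (index_eq_one.1 hk)) hP)
      have h7 : 3 ≤ H.relIndex P := by
        rw [relIndex, hk]
        exact (Nat.succ_le_of_lt (lt_of_le_of_ne hp.out.two_le hp2.symm)).trans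
          (Nat.le_self_pow h6 p)
      rw [← h5, mul_comm] at h3
      exact absurd (Nat.mul_le_mul_right _ h7) (not_le.2 h3)
    have h3 : 𝐍[(P : Subgroup G)] ≤ 𝐂[(P : Subgroup G)] := by rwa [hPH]
    have h4 := MonoidHom.ker_transferSylow_isComplement' P h3
    have h5 : (MonoidHom.transferSylow P h3).ker = ⊥ := by
      rw [eq_bot_iff, ← hO]
      refine Grp.le_pPrimeCore inferInstance ?_
      rw [h4.index_eq_card.symm]
      exact Block.not_dvd_iff_coprime.1 P.not_dvd_index
    have h6 := h4.sup_eq_top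
    rw [h5, bot_sup_eq, hPH] at h6
    exact hN (top_le_iff.1 (h6.ge.trans le_normalizer))
  · have hHK : H ≤ normalClosure (H : Set G) := le_normalClosure
    have h1 : normalClosure (H : Set G) ≤ 𝐍[H] := by
      intro c hc
      obtain ⟨o, ho, h2⟩ := hsub _ hKt hHK c hc
      have h3 := Grp.map_pPrimeCore_le_of_normal p _ ho
      rw [hO, mem_bot] at h3
      rw [← cj_eq_iff, h2, h3, cj_one]
    have h2 := (Grp.le_map_pCore hHK h1 hH2).trans (Grp.map_pCore_le_of_normal p _)
    exact hN (top_le_iff.1 ((normalizer_eq_top _).ge.trans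
      (ext_normalizer_le hH2 hcl (Grp.pCore_isPGroup p G) h2)))

theorem aux1 (hp2 : p ≠ 2) (n : ℕ) : ∀ {G : Type u} [Group G] [Finite G] (H : Subgroup G),
    Nat.card G = n → IsPGroup p H → IsMulCommutative H → IsExtremelyClosed H →
    normalClosure (H : Set G) ⊓ 𝐍[H] ≤ H := by
  induction n using Nat.strong_induction_on with
  | _ n ih =>
  intro G _ _ H hn hH hab hcl
  have hsub : ∀ L : Subgroup G, L ≠ ⊤ → H ≤ L →
      (normalClosure (H.subgroupOf L : Set L)).map L.subtype ⊓ 𝐍[H] ≤ H := by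
    rintro L hL hHL _ ⟨⟨x, hx, rfl⟩, hx'⟩
    exact ih _ (hn ▸ card_sub_lt hL) (H.subgroupOf L) rfl (Amb.isPGroup_subgroupOf hH L)
      (by infer_instance) (ext_subgroupOf hcl hHL)
      (mem_inf.2 ⟨hx, by rwa [← subgroupOf_normalizer_eq hHL, mem_subgroupOf]⟩)
  have hcj : ∀ L : Subgroup G, H ≤ L → ∀ k ∈ L,
      H ⊔ cj(k, H) ≤ (normalClosure (H.subgroupOf L : Set L)).map L.subtype := by
    intro L hHL k hk
    have h1 : H ≤ (normalClosure (H.subgroupOf L : Set L)).map L.subtype := fun x hx =>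
      ⟨⟨x, hHL hx⟩, le_normalClosure (H := H.subgroupOf L) hx, rfl⟩
    exact sup_le h1 ((cj_mono k h1).trans (cj_of_mem_normalizer
      (le_normalizer_map_subtype _ hk)).le)
  by_cases hKt : normalClosure (H : Set G) = ⊤
  swap
  · refine le_trans (inf_le_inf_right _ ?_) (hsub _ hKt le_normalClosure)
    refine (closure_le _).2 fun x hx => ?_
    obtain ⟨a, ha, hx⟩ := Group.mem_conjugatesOfSet_iff.1 hx
    obtain ⟨g, rfl⟩ := isConj_iff.1 hx
    obtain ⟨K, k, hK⟩ := exists_pair hH hab hcl g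
    have h1 : k ∈ normalClosure (H : Set G) := (sup_le le_normalClosure
      ((cj_mono k le_normalClosure).trans (cj_of_normal _ _).le) :
        H ⊔ cj(k, H) ≤ normalClosure (H : Set G)) (hK.gen k hK.mem)
    refine hcj _ le_normalClosure k h1 (mem_sup_right ?_)
    rw [mem_cj]
    convert conj_mem_of_mem_normalizer hK.nmem ha using 1
    group
  by_cases hB : ∃ t ∈ H, t ≠ 1 ∧ t ∈ center G
  · obtain ⟨t, ht, ht1, htc⟩ := hB
    have hZ : zpowers t ≤ center G := (zpowers_le).2 htc
    have hZn : (zpowers t).Normal := ⟨fun x hx g => by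
      rw [mem_center_iff.1 (hZ hx) g, mul_inv_cancel_right]; exact hx⟩
    have h1 := ih _ (hn ▸ card_quot_lt (zpowers t) (by rwa [Ne, zpowers_eq_bot]))
      (H.map (QuotientGroup.mk' (zpowers t))) rfl (hH.map _) (by infer_instance)
      (ext_map hH hcl _ (QuotientGroup.mk'_surjective _))
    rw [coe_map, ← map_normalClosure _ _ (QuotientGroup.mk'_surjective _), hKt,
      map_top_of_surjective _ (QuotientGroup.mk'_surjective _), top_inf_eq] at h1
    intro x hx
    have h2 := h1 (le_normalizer_map _ (mem_map_of_mem _ hx.2))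
    rwa [← mem_comap, comap_map_eq, QuotientGroup.ker_mk', sup_eq_left.2 (zpowers_le.2 ht)] at h2
  push Not at hB
  set X := pPrimeCore p G with hX
  have hXc : (Nat.card X).Coprime p := Grp.pPrimeCore_coprime p G
  have hHX : H ⊓ X = ⊥ := Grp.inf_eq_bot_of_isPGroup_of_coprime hH hXc
  have htop : X ⊔ H = ⊤ := by
    have h1 : (X ⊔ H).Normal := by
      rw [← normalizer_eq_top_iff, eq_top_iff, ← aux2 hp2 _ H rfl hH hab hcl]
      exact sup_le (le_normalizer_sup le_normalizer_of_normal le_rfl)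
        (le_sup_left.trans le_normalizer)
    exact top_le_iff.1 (hKt.ge.trans (normalClosure_le_normal (le_sup_right : H ≤ _)))
  have h1 := step2 hp2 hH hab hcl (Grp.not_dvd_card_pPrimeCore p G) htop hKt (fun b hb hb1 => by
    have hHC := le_cent hab hb
    refine ⟨X ⊓ (normalClosure (H.subgroupOf (centralizer ({b} : Set G)) :
      Set (centralizer ({b} : Set G)))).map (centralizer ({b} : Set G)).subtype, inf_le_inf_left _ (map_subtype_le _),
      le_normalizer_inf le_normalizer_of_normal (le_normalizer_map_subtype _), ?_,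
      fun u hu hu' => mem_inf.2 ⟨hu.1, hcj _ hHC u hu.2 hu'⟩⟩
    rw [eq_bot_iff, ← hHX]
    refine le_inf ?_ (inf_le_left.trans inf_le_left)
    exact (inf_le_inf inf_le_right (centralizer_le_normalizer (H : Set G))).trans
      (hsub _ (cent_ne_top (hB b hb hb1)) hHC))
  intro g hg
  obtain ⟨x, hx, y, hy, rfl⟩ := mem_sup_of_normal_left.1 (htop.ge (mem_top g))
  have h2 : x ∈ 𝐍[H] := (mul_mem_cancel_right (le_normalizer hy)).1 hg.2
  have h3 : x ∈ X ⊓ 𝐂[H] := by
    refine mem_inf.2 ⟨hx, fun s hs => ?_⟩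
    have h4 : x * s * x⁻¹ * s⁻¹ ∈ H ⊓ X := by
      refine mem_inf.2 ⟨mul_mem (conj_mem_of_mem_normalizer h2 hs) (inv_mem hs), ?_⟩
      rw [mul_assoc, mul_assoc, ← mul_assoc s]
      exact mul_mem hx ((inferInstance : X.Normal).conj_mem _ (inv_mem hx) s)
    rw [hHX, mem_bot, mul_inv_eq_one, mul_inv_eq_iff_eq_mul] at h4
    exact h4.symm
  rw [h1, mem_bot] at h3
  rwa [h3, one_mul]


/-- Let G be a finite group, p an odd prime, and H an abelian p-subgroup of G that is extremely closed (for every g, the subgroup generated by H and g H g⁻¹ meets N_G(H) exactly in H). Then the normal closure of H meets N_G(H) exactly in H, and G = N_G(H) O_{p'}(G). -/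
theorem result {G : Type*} [Group G] [Finite G] {p : ℕ} [Fact p.Prime] (hp : p ≠ 2) (H : Subgroup G) (hHp : IsPGroup p H) (hHab : IsMulCommutative H) (hcl : Cfsg.IsExtremelyClosed H) : Subgroup.normalClosure (H : Set G) ⊓ Subgroup.normalizer (H : Set G) = H ∧ Subgroup.normalizer (H : Set G) ⊔ Cfsg.pPrimeCore p G = ⊤ := by
  exact ⟨le_antisymm (aux1 hp _ H rfl hHp hHab hcl) (le_inf le_normalClosure le_normalizer),
    aux2 hp _ H rfl hHp hHab hcl⟩

end Cfsg.Agent.S3016
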