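import Cfsg.Statements.S3025
import Mathlib
import Cfsg.Agent.PLocal.AmbSyl
import Cfsg.Agent.Grp.UniqueOrderP

set_option autoImplicit false
open Cfsg

namespace Cfsg.Agent.S3025

open Subgroup Cfsg.Agent.PLocal.Amb

/-- Let F be a finite group and H a nontrivial subgroup of F that is contained in every nontrivial subgroup of F which H normalizes. Then F has a nontrivial normal subgroup N contained in every nontrivial normal subgroup of F (a unique minimal normal subgroup), N is simple, and one of the following holds: C_F(N) = 1; or H = N has prime order p, C_F(N) is cyclic of order a power of p, and F/C_F(N) is cyclic of order dividing p − 1; or H = N has order 2, N is central in F, and F is a generalized quaternion group. -/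
theorem result {F : Type*} [Group F] [Finite F] (H : Subgroup F) (hH : H ≠ ⊥)
    (hmin : ∀ R : Subgroup F, R ≠ ⊥ → H ≤ Subgroup.normalizer (R : Set F) → H ≤ R) :
    ∃ N : Subgroup F, N.Normal ∧ N ≠ ⊥ ∧ (∀ M : Subgroup F, M.Normal → M ≠ ⊥ → N ≤ M) ∧ IsSimpleGroup ↥N ∧
      (Subgroup.centralizer (N : Set F) = ⊥ ∨
       (H = N ∧ (Nat.card N).Prime ∧ IsCyclic ↥(Subgroup.centralizer (N : Set F)) ∧
          (∃ k : ℕ, 1 ≤ k ∧ Nat.card ↥(Subgroup.centralizer (N : Set F)) = Nat.card N ^ k) ∧
          (∃ g : F, Subgroup.centralizer (N : Set F) ⊔ Subgroup.zpowers g = ⊤) ∧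
          (Subgroup.centralizer (N : Set F)).index ∣ Nat.card N - 1) ∨
       (H = N ∧ Nat.card N = 2 ∧ Subgroup.centralizer (N : Set F) = ⊤ ∧
          ∃ k : ℕ, 1 ≤ k ∧ Nonempty (F ≃* QuaternionGroup (2 ^ k)))) := by
  set N := normalClosure (H : Set F) with hN
  have hHN : H ≤ N := le_normalClosure
  have hN1 : N ≠ ⊥ := fun e => hH (le_bot_iff.1 (e ▸ hHN))
  have hmin' : ∀ M : Subgroup F, M.Normal → M ≠ ⊥ → N ≤ M := fun M _ h1 =>
    normalClosure_le_normal (hmin M h1 le_normalizer_of_normal)
  have hsimple : IsSimpleGroup N := by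
    have : Nontrivial N := (nontrivial_iff_ne_bot N).2 hN1
    refine ⟨fun M hM => ?_⟩
    by_cases h1 : M = ⊥
    · exact Or.inl h1
    refine Or.inr (top_le_iff.1 fun x _ => ?_)
    have h2 : N ≤ 𝐍[M.map N.subtype] := le_normalizer_map_subtype M
    have h3 : N ≤ M.map N.subtype := by
      refine (closure_le _).2 fun y hy => ?_
      obtain ⟨a, ha, hc⟩ := Group.mem_conjugatesOfSet_iff.1 hy
      obtain ⟨g, rfl⟩ := isConj_iff.1 hc
      have h4 := hmin cj(g⁻¹, M.map N.subtype) (by
        rw [Ne, cj_eq_bot, map_eq_bot_iff_of_injective _ N.subtype_injective]; exact h1) (by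
        rw [normalizer_cj]
        intro y hy
        rw [mem_cj, inv_inv]
        exact h2 ((inferInstance : N.Normal).conj_mem y (hHN hy) g)) ha
      rw [mem_cj, inv_inv] at h4
      exact h4
    obtain ⟨y, hy, e⟩ := h3 x.2
    rwa [← Subtype.ext e]
  refine ⟨N, inferInstance, hN1, hmin', hsimple, ?_⟩
  by_cases hC : centralizer (N : Set F) = ⊥
  · exact Or.inl hC
  right
  have hNC : N ≤ centralizer (N : Set F) := hmin' _ inferInstance hC
  have : IsMulCommutative N := le_centralizer_iff_isMulCommutative.1 hNC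
  have hp : (Nat.card N).Prime := Group.is_simple_iff_prime_card.1 hsimple
  have := Fact.mk hp
  have hHN' : H = N := by
    refine eq_of_le_of_card_ge hHN (Nat.le_of_dvd Nat.card_pos ?_)
    rcases (Nat.dvd_prime hp).1 (card_dvd_of_le hHN) with e | e
    · exact absurd (card_eq_one.1 e) hH
    · rw [e]
  have key : ∀ x ∈ centralizer (N : Set F), x ≠ 1 → N ≤ zpowers x := fun x hx h1 => by
    rw [← hHN']
    refine hmin _ (by rwa [Ne, zpowers_eq_bot]) ?_
    rw [hHN']
    exact (le_centralizer_iff.1 (zpowers_le_of_mem hx)).trans (centralizer_le_normalizer' _)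
  have hP : IsPGroup (Nat.card N) (centralizer (N : Set F)) :=
    isPGroup_of_forall_coprime fun g hg hc => by
      by_contra h1
      have h2 := card_dvd_of_le (key g hg h1)
      rw [Nat.card_zpowers] at h2
      exact hp.one_lt.ne' (Nat.Coprime.eq_one_of_dvd hc.symm h2)
  have hker : (MulAut.conjNormal : F →* MulAut N).ker = centralizer (N : Set F) := by
    ext g
    simp only [MonoidHom.mem_ker, mem_centralizer_iff, MulEquiv.ext_iff, MulAut.one_apply,
      Subtype.ext_iff, MulAut.conjNormal_apply, Subtype.forall, SetLike.mem_coe]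
    exact forall₂_congr fun a _ => by rw [mul_inv_eq_iff_eq_mul, eq_comm]
  have hcyc : IsCyclic N := isCyclic_of_prime_card rfl
  have hidx : (centralizer (N : Set F)).index ∣ Nat.card N - 1 := by
    rw [← hker, index_ker, ← Nat.totient_prime hp, ← IsCyclic.card_mulAut]
    exact card_subgroup_dvd_card _
  rcases Grp.isCyclic_or_quaternion hP (fun x y hx hy => by
    have h1 : ∀ x : centralizer (N : Set F), orderOf x = Nat.card N → zpowers (x : F) = N :=
      fun x hx => (eq_of_le_of_card_ge (key x x.2 (fun e => by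
        rw [show x = 1 from Subtype.ext e, orderOf_one] at hx
        exact hp.one_lt.ne hx)) (by rw [Nat.card_zpowers, orderOf_coe, hx])).symm
    obtain ⟨k, hk⟩ : (y : F) ∈ zpowers (x : F) := by
      rw [h1 x hx]; exact (h1 y hy).le (mem_zpowers _)
    exact ⟨k, Subtype.ext (by simpa using hk)⟩) with h1 | ⟨h1, k, hk, ⟨e⟩⟩
  · refine Or.inl ⟨hHN', hp, h1, ?_, ?_, hidx⟩
    · obtain ⟨k, hk⟩ := hP.exists_card_eq
      refine ⟨k, Nat.one_le_iff_ne_zero.2 ?_, hk⟩
      rintro rfl
      exact hC (card_eq_one.1 (by simpa using hk))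
    · have h2 : IsCyclic (MulAut N) :=
        isCyclic_of_surjective _ (IsCyclic.mulAutMulEquiv N).symm.surjective
      obtain ⟨⟨_, g, rfl⟩, hg⟩ :=
        IsCyclic.exists_generator (α := (MulAut.conjNormal : F →* MulAut N).range)
      refine ⟨g, top_le_iff.1 fun x _ => ?_⟩
      obtain ⟨k, hk⟩ := hg ⟨_, x, rfl⟩
      have h3 : x * (g ^ k)⁻¹ ∈ centralizer (N : Set F) := by
        rw [← hker, MonoidHom.mem_ker, map_mul, map_inv, map_zpow, mul_inv_eq_one]
        exact (congrArg Subtype.val hk).symm
      have h4 := mul_mem (mem_sup_left h3 : _ ∈ centralizer (N : Set F) ⊔ zpowers g)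
        (mem_sup_right (zpow_mem (mem_zpowers g) k))
      simpa using h4
  · have h2 : centralizer (N : Set F) = ⊤ := by
      rw [h1] at hidx
      exact index_eq_one.1 (Nat.dvd_one.1 hidx)
    exact Or.inr ⟨hHN', h1, h2, k, hk, ⟨(topEquiv.symm.trans (MulEquiv.subgroupCongr h2.symm)).trans e⟩⟩

end Cfsg.Agent.S3025
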