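import Cfsg.Statements.S3027
import Mathlib
import Cfsg.Agent.PLocal.PIrred

set_option autoImplicit false
open Cfsg

namespace Cfsg.Agent.S3027

open Subgroup Cfsg.Agent.PLocal Cfsg.Agent.PLocal.CP Cfsg.Agent.Grp
open scoped commutatorElement Cfsg.Agent.PLocal.Amb

/-- Let G be a finite group and D a normal subgroup of G such that G/D is perfect (that is, G = G′D). Then among the subnormal subgroups B of G with BD = G there is a least one, and it is normal in G. -/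
theorem result {G : Type*} [Group G] [Finite G] (D : Subgroup G) [D.Normal] (hperf : ⁅(⊤ : Subgroup G), (⊤ : Subgroup G)⁆ ⊔ D = ⊤) :
    ∃ B : Subgroup G, B.Normal ∧ B ⊔ D = ⊤ ∧ ∀ B' : Subgroup G, B'.IsSubnormal → B' ⊔ D = ⊤ → B ≤ B' := by
  have hs := QuotientGroup.mk'_surjective D
  have key : ∀ X : Subgroup G, X ⊔ D = ⊤ ↔ X.map (QuotientGroup.mk' D) = ⊤ := by
    intro X
    rw [← (comap_injective hs).eq_iff, comap_map_eq, QuotientGroup.ker_mk', comap_top]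
  have hcomm : ∀ X Y : Subgroup G, X ⊔ D = ⊤ → Y ⊔ D = ⊤ → ⁅X, Y⁆ ⊔ D = ⊤ := by
    intro X Y hX hY
    rw [key] at hX hY hperf ⊢
    rw [map_commutator] at hperf ⊢
    rw [map_top_of_surjective _ hs] at hperf
    rwa [hX, hY]
  let 𝒩 : Subgroup G → Set (Subgroup G) := fun K => {X | X ≤ K ∧ K ≤ 𝐍[X] ∧ X ⊔ D = ⊤}
  have hinf : ∀ K X Y, X ≤ K → K ≤ 𝐍[X] → X ⊔ D = ⊤ → Y ≤ K → K ≤ 𝐍[Y] → Y ⊔ D = ⊤ →
      (X ⊓ Y) ⊔ D = ⊤ := fun K X Y h1 h2 h3 h4 h5 h6 => top_le_iff.1 ((hcomm X Y h3 h6).ge.trans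
    (sup_le_sup_right (le_inf (le_normalizer_iff_commutator_le_left.1 (h4.trans h2))
      (le_normalizer_iff_commutator_le_right.1 (h1.trans h5))) D))
  have hm : ∀ K, K ⊔ D = ⊤ → sInf (𝒩 K) ∈ 𝒩 K := fun K hK =>
    InfClosed.sInf_mem_of_nonempty (s := 𝒩 K) (fun X hX Y hY => ⟨inf_le_left.trans hX.1,
      le_normalizer_inf hX.2.1 hY.2.1, hinf K X Y hX.1 hX.2.1 hX.2.2 hY.1 hY.2.1 hY.2.2⟩)
      (Set.toFinite _) ⟨K, le_rfl, le_normalizer, hK⟩ subset_rfl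
  obtain ⟨-, h2, h3⟩ := hm ⊤ (top_sup_eq D)
  set B := sInf (𝒩 ⊤)
  have hB := normal_of_top_le h2
  have h4 : B ≤ sInf (𝒩 B) := by
    refine sInf_le ⟨le_top, ?_, (hm B h3).2.2⟩
    rw [Amb.le_normalizer_iff_cj]
    intro g _
    refine le_sInf fun X hX => Amb.cj_le_iff.2 (sInf_le ⟨?_, ?_, ?_⟩)
    · rw [← Amb.cj_of_normal g⁻¹ B]
      exact Amb.cj_mono _ hX.1
    · rw [Amb.normalizer_cj, ← Amb.cj_of_normal g⁻¹ B]
      exact Amb.cj_mono _ hX.2.1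
    · rw [← Amb.cj_of_normal g⁻¹ D, ← Amb.cj_sup, hX.2.2, Amb.cj_top]
  refine ⟨B, hB, h3, fun B' hB' h5 => ?_⟩
  have h6 : ∀ X K : Subgroup G, SnIn X K → K = ⊤ → X ⊔ D = ⊤ → B ≤ X := by
    intro X K h
    induction h with
    | refl => rintro rfl _; exact le_top
    | @step X Y K h7 h8 _ ih =>
      intro h9 h10
      have h11 := ih h9 (top_le_iff.1 (h10.ge.trans (sup_le_sup_right h7 D)))
      have h12 : B ⊓ X ∈ 𝒩 B := ⟨inf_le_left, le_normalizer_inf le_normalizer (h11.trans h8),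
        hinf Y B X h11 le_normalizer_of_normal h3 h7 h8 h10⟩
      exact h4.trans ((sInf_le h12).trans inf_le_right)
  exact h6 B' ⊤ (snIn_top_iff.2 hB') rfl h5

end Cfsg.Agent.S3027
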