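import Cfsg.Statements.S3044
import Mathlib
import Cfsg.Agent.PLocal.McBride

set_option autoImplicit false
open Cfsg

namespace Cfsg.Agent.S3044

open Subgroup Cfsg.Agent.PLocal Cfsg.Agent.PLocal.CP Cfsg.Agent.Grp
open scoped commutatorElement Cfsg.Agent.PLocal.Amb

/-- Let G be a finite group, p a prime, S a Sylow p-subgroup of G and P a p-minimal subgroup of G containing S (S is not normal in P and lies in exactly one maximal subgroup of P). Let L be the subgroup generated by N_G(S) and all p-minimal subgroups of G containing S other than P, and suppose P is isolated: O_p(L) is not contained in O_p(P). Put Y for the normal closure of O^p(P) in G. Then G = YL; P is again isolated in the subgroup YS (the subgroup L₀ generated by N_{YS}(S) and the p-minimal subgroups of YS containing S other than P has O_p(L₀) not contained in O_p(P)); and either Y = O^p(P), or p divides |Y/O_p(Y)|, Y/O_p(Y) is generated by its components (a central product of quasisimple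 groups), and S permutes these components transitively by conjugation. -/
theorem result {G : Type*} [Group G] [Finite G] {p : ℕ} [Fact p.Prime] (S : Sylow p G) (P : Subgroup G) (hSP : (S : Subgroup G) ≤ P) (hPmin : Cfsg.IsPMinimal p ↥P)
    (L Y : Subgroup G)
    (hL : L = Subgroup.normalizer ((S : Subgroup G) : Set G) ⊔ ⨆ P' : {P' : Subgroup G // (S : Subgroup G) ≤ P' ∧ Cfsg.IsPMinimal p ↥P' ∧ P' ≠ P}, (P' : Subgroup G))
    (hiso : ¬ (Cfsg.pCore p ↥L).map L.subtype ≤ (Cfsg.pCore p ↥P).map P.subtype)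
    (hY : Y = Subgroup.normalClosure (((Cfsg.pResidual p ↥P).map P.subtype : Subgroup G) : Set G)) :
    Y ⊔ L = ⊤ ∧
    ¬ (Cfsg.pCore p ↥((Subgroup.normalizer ((S : Subgroup G) : Set G) ⊓ (Y ⊔ (S : Subgroup G))) ⊔
          ⨆ P' : {P' : Subgroup G // (S : Subgroup G) ≤ P' ∧ P' ≤ Y ⊔ (S : Subgroup G) ∧ Cfsg.IsPMinimal p ↥P' ∧ P' ≠ P}, (P' : Subgroup G))).map
        (Subgroup.subtype _) ≤ (Cfsg.pCore p ↥P).map P.subtype ∧
    ((Cfsg.pResidual p ↥P).map P.subtype = Y ∨
     ∃ _ : (Cfsg.pCore p ↥Y).Normal,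
       p ∣ Nat.card (↥Y ⧸ Cfsg.pCore p ↥Y) ∧ Cfsg.layer (↥Y ⧸ Cfsg.pCore p ↥Y) = ⊤ ∧
       ∀ K₁ K₂ : Subgroup (↥Y ⧸ Cfsg.pCore p ↥Y), Cfsg.IsComponent K₁ → Cfsg.IsComponent K₂ →
         ∃ s ∈ (S : Subgroup G), ((K₂.comap (QuotientGroup.mk' (Cfsg.pCore p ↥Y))).map Y.subtype) = (((K₁.comap (QuotientGroup.mk' (Cfsg.pCore p ↥Y))).map Y.subtype)).map (MulAut.conj s).toMonoidHom) := by
  obtain ⟨M, hM⟩ := (isPMinimal_iff (Amb.isSyl_of_le S hSP)).1 hPmin
  have h : IsolSetup p (S : Subgroup G) 𝐎[p, P] (pCoreOf p L) L := by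
    refine isolSetup_of (Amb.isSyl_top S) hM (hL ▸ le_sup_left) (fun P' M' hM' hne => ?_) hiso
    rw [hL]
    exact le_sup_of_le_right (le_iSup_of_le ⟨P', hM'.le_top,
      (isPMinimal_iff (Amb.isSyl_of_le S hM'.le_top)).2 ⟨M', hM'⟩, hne⟩ le_rfl)
  rw [← ncl_top] at hY
  have hYn : Y.Normal := hY ▸ IsolSetup.ncl_normal _
  have hO := pCore_quotient_pCore p G
  have hq := h.quot
  have hY' : ncl ((𝐎[p, P]).map (QuotientGroup.mk' (pCore p G))) ⊤ =
      Y.map (QuotientGroup.mk' (pCore p G)) := by rw [IsolSetup.ncl_map_quot, hY]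
  obtain ⟨φ, hφ1, hφ2, hφ3⟩ := exists_quot_pCore_embedding p Y
  have e : (Y ⧸ pCore p Y) ≃* Y.map (QuotientGroup.mk' (pCore p G)) :=
    (MonoidHom.ofInjective hφ1).trans (MulEquiv.subgroupCongr hφ3)
  refine ⟨hY ▸ h.sup_eq, fun h1 => hiso (le_trans ?_ h1), ?_⟩
  · refine CP.le_pCoreOf (h.Q_le.trans (le_sup_of_le_left (le_inf le_normalizer le_sup_right)))
      (le_trans ?_ h.L_le) h.isPGroup_Q
    rw [hL]
    refine sup_le_sup inf_le_left (iSup_le ?_)
    rintro ⟨P', h1, -, h3, h4⟩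
    exact le_iSup_of_le ⟨P', h1, h3, h4⟩ le_rfl
  · by_cases hd : p ∣ Nat.card (Y.map (QuotientGroup.mk' (pCore p G)))
    swap
    · left
      rw [hY]
      refine h.eq_of_coprime_quot (Amb.pRes_pRes p P) ?_
      rw [← hY]
      exact ((Fact.out : p.Prime).coprime_iff_not_dvd.2 hd).symm
    right
    have hn : (Y.map (QuotientGroup.mk' (pCore p G))).Normal :=
      hYn.map _ (QuotientGroup.mk'_surjective _)
    have hcomp : ∀ K : Subgroup (Y ⧸ pCore p Y), IsComponent K ↔ IsComponent (K.map φ) := by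
      intro K
      have h1 : K.map φ = (K.map (MonoidHom.ofInjective hφ1).toMonoidHom).map φ.range.subtype := by
        rw [map_map]; rfl
      rw [h1, ← comp_iff_map_subtype (by rw [hφ3]; exact hn.isSubnormal), comp_map_equiv_iff]
    refine ⟨inferInstance, by rwa [Nat.card_congr e.toEquiv], ?_, fun K₁ K₂ h₁ h₂ => ?_⟩
    · have h1 := hq.ncl_le_sSup hO (by rwa [hY'])
      rw [hY', ← hφ3] at h1
      have h2 : φ.range ≤ (layer _).map φ := by
        refine h1.trans (sSup_le ?_)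
        rintro K ⟨h3, h4⟩
        rw [← map_comap_eq_self h4] at h3 ⊢
        exact map_mono (comp_le_layer ((hcomp _).2 h3))
      rw [MonoidHom.range_eq_map, map_le_map_iff_of_injective hφ1] at h2
      exact eq_top_iff.2 h2
    · have h3 : ∀ K : Subgroup (Y ⧸ pCore p Y), K.map φ ≤ Y.map (QuotientGroup.mk' (pCore p G)) :=
        fun K => hφ3 ▸ map_le_range φ K
      obtain ⟨_, ⟨s, hs, rfl⟩, h4⟩ := hq.exists_cj_eq hO (by rwa [hY']) ((hcomp _).1 h₁)
        ((hcomp _).1 h₂) (hY' ▸ h3 K₁) (hY' ▸ h3 K₂)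
      have h5 : ∀ K : Subgroup (Y ⧸ pCore p Y),
          (K.comap (QuotientGroup.mk' (pCore p Y))).map Y.subtype =
            Y ⊓ (K.map φ).comap (QuotientGroup.mk' (pCore p G)) := by
        intro K
        ext x
        constructor
        · rintro ⟨y, hy, rfl⟩
          exact ⟨y.2, _, hy, hφ2 y⟩
        · rintro ⟨hx, k, hk, he⟩
          refine ⟨⟨x, hx⟩, ?_, rfl⟩
          have : k = QuotientGroup.mk' _ (⟨x, hx⟩ : Y) := hφ1 (by rw [he, hφ2])
          rw [this] at hk
          exact hk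
      refine ⟨s, hs, ?_⟩
      rw [h5, h5, h4, Amb.cj_inf, Amb.cj_of_normal s Y]
      congr 1
      ext x
      simp only [mem_comap, Amb.mem_cj, map_mul, map_inv]

end Cfsg.Agent.S3044
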