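import Cfsg.Statements.S3045
import Mathlib
import Cfsg.Agent.PLocal.McBride

set_option autoImplicit false
open Cfsg

namespace Cfsg.Agent.S3045

open Subgroup Cfsg.Agent.PLocal Cfsg.Agent.PLocal.CP Cfsg.Agent.Grp
open scoped commutatorElement Cfsg.Agent.PLocal.Amb

/-- Let G be a finite group, p a prime, S a Sylow p-subgroup of G and P a p-minimal subgroup of G containing S. Let L be the subgroup generated by N_G(S) and all p-minimal subgroups of G containing S other than P, and suppose O_p(L) is not contained in O_p(P). Put Y for the normal closure of O^p(P) in G. Then O^p(P) is contained in the preimage in G of F*(G/O_p(G)); and if Y is solvable, then Y = O^p(P) and Y/O_p(Y) is a t-group of nilpotency class at most 2 for some prime t ≠ p. -/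
theorem result {G : Type*} [Group G] [Finite G] {p : ℕ} [Fact p.Prime] (S : Sylow p G) (P : Subgroup G) (hSP : (S : Subgroup G) ≤ P) (hPmin : Cfsg.IsPMinimal p ↥P)
    (L Y : Subgroup G)
    (hL : L = Subgroup.normalizer ((S : Subgroup G) : Set G) ⊔ ⨆ P' : {P' : Subgroup G // (S : Subgroup G) ≤ P' ∧ Cfsg.IsPMinimal p ↥P' ∧ P' ≠ P}, (P' : Subgroup G))
    (hiso : ¬ (Cfsg.pCore p ↥L).map L.subtype ≤ (Cfsg.pCore p ↥P).map P.subtype)
    (hY : Y = Subgroup.normalClosure (((Cfsg.pResidual p ↥P).map P.subtype : Subgroup G) : Set G)) [hn : (Cfsg.pCore p G).Normal] :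
    (Cfsg.pResidual p ↥P).map P.subtype ≤ (Cfsg.generalizedFittingSubgroup (G ⧸ Cfsg.pCore p G)).comap (QuotientGroup.mk' (Cfsg.pCore p G)) ∧
    (Group.IsSolvable ↥Y → (Cfsg.pResidual p ↥P).map P.subtype = Y ∧
       ∃ _ : (Cfsg.pCore p ↥Y).Normal, ∃ t : ℕ, t.Prime ∧ t ≠ p ∧ IsPGroup t (↥Y ⧸ Cfsg.pCore p ↥Y) ∧
         ∃ _ : Group.IsNilpotent (↥Y ⧸ Cfsg.pCore p ↥Y), Group.nilpotencyClass (↥Y ⧸ Cfsg.pCore p ↥Y) ≤ 2) := by
  obtain ⟨M, hM⟩ := (isPMinimal_iff (Amb.isSyl_of_le S hSP)).1 hPmin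
  have h : IsolSetup p (S : Subgroup G) 𝐎[p, P] (pCoreOf p L) L := by
    refine isolSetup_of (Amb.isSyl_top S) hM (hL ▸ le_sup_left) (fun P' M' hM' hne => ?_) hiso
    rw [hL]
    exact le_sup_of_le_right (le_iSup_of_le ⟨P', hM'.le_top,
      (isPMinimal_iff (Amb.isSyl_of_le S hM'.le_top)).2 ⟨M', hM'⟩, hne⟩ le_rfl)
  rw [← ncl_top] at hY
  have hYn : Y.Normal := hY ▸ IsolSetup.ncl_normal _
  have hO := pCore_quotient_pCore p G
  have hq := h.quot
  have hY' : ncl ((𝐎[p, P]).map (QuotientGroup.mk' (pCore p G))) ⊤ =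
      Y.map (QuotientGroup.mk' (pCore p G)) := by rw [IsolSetup.ncl_map_quot, hY]
  obtain ⟨φ, hφ1, hφ2, hφ3⟩ := exists_quot_pCore_embedding p Y
  have e : (Y ⧸ pCore p Y) ≃* Y.map (QuotientGroup.mk' (pCore p G)) :=
    (MonoidHom.ofInjective hφ1).trans (MulEquiv.subgroupCongr hφ3)
  refine ⟨map_le_iff_le_comap.1 ((le_ncl _ ⊤).trans (hq.ncl_le_fstar hO)), fun hs => ?_⟩
  have hs' : Group.IsSolvable (Y.map (QuotientGroup.mk' (pCore p G))) := isSolvable_map _ _
  have hc : (Nat.card (Y.map (QuotientGroup.mk' (pCore p G)))).Coprime p := by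
    by_contra hc
    rw [Nat.coprime_comm, (Fact.out : p.Prime).coprime_iff_not_dvd, not_not, ← hY'] at hc
    have h1 := hq.ncl_le_sSup hO hc
    refine IsolSetup.not_le_fitting hO hc (h1.trans (sSup_le ?_))
    rintro K ⟨h2, h3⟩
    rw [hY'] at h3
    exact absurd h3 (qsS_not_le_solvable h2.2 hs')
  refine ⟨by rw [hY]; exact h.eq_of_coprime_quot (Amb.pRes_pRes p P) (by rwa [← hY]),
    inferInstance, ?_⟩
  obtain ⟨t, ht, htp, hT⟩ := hq.exists_isPGroup (by rwa [hY'])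
  rw [hY'] at hT
  have hT' : IsPGroup t (Y ⧸ pCore p Y) := hT.of_equiv e.symm
  have := Fact.mk ht
  refine ⟨t, ht, htp, hT', hT'.isNilpotent, ?_⟩
  have h1 := hq.commutator_commutator_eq_bot hO (by rwa [hY'])
  rw [hY', ← hφ3, MonoidHom.range_eq_map, ← map_commutator, ← map_commutator,
    map_eq_bot_iff_of_injective _ hφ1] at h1
  have := hT'.isNilpotent
  rw [← Subgroup.lowerCentralSeries_eq_bot_iff_nilpotencyClass_le]
  exact h1

end Cfsg.Agent.S3045
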