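import Cfsg.Statements.S3047
import Cfsg.Agent.IsR1.Mod

set_option autoImplicit false
open Cfsg

namespace Cfsg.Agent.S3047

/-- Let p ≥ 5 be a prime, G a finite group all of whose composition factors are known simple groups, S a Sylow p-subgroup and P a p-minimal subgroup of G containing S such that O^p(P/O_p(P)) is isomorphic to SL₂(pᵃ), PSL₂(pᵃ), SU₃(pᵃ) or PSU₃(pᵃ) for some a ≥ 1. Let L be the subgroup generated by N_G(S) and the p-minimal subgroups of G containing S other than P. Then either O^p(P) is normal in G, or every p-element of the centre of L lies in O_p(P). -/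
theorem result {G : Type*} [Group G] [Finite G] {p : ℕ} [Fact p.Prime] (hp : 5 ≤ p) (hK : Cfsg.IsCompositionKGroup G)
    (S : Sylow p G) (P : Subgroup G) (hSP : (S : Subgroup G) ≤ P) (hPmin : Cfsg.IsPMinimal p ↥P) [hn : (Cfsg.pCore p ↥P).Normal]
    (hrk1 : ∃ (F : Type) (_ : Field F) (_ : Fintype F) (a : ℕ), 1 ≤ a ∧
      ((Fintype.card F = p ^ a ∧ (Nonempty (↥(Cfsg.pResidual p (↥P ⧸ Cfsg.pCore p ↥P)) ≃* Matrix.SpecialLinearGroup (Fin 2) F) ∨
                                  Nonempty (↥(Cfsg.pResidual p (↥P ⧸ Cfsg.pCore p ↥P)) ≃* Matrix.ProjectiveSpecialLinearGroup (Fin 2) F))) ∨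
       (Fintype.card F = p ^ (2 * a) ∧ (Nonempty (↥(Cfsg.pResidual p (↥P ⧸ Cfsg.pCore p ↥P)) ≃* ↥(Cfsg.SU 3 F (p ^ a))) ∨
                                        Nonempty (↥(Cfsg.pResidual p (↥P ⧸ Cfsg.pCore p ↥P)) ≃* Cfsg.PSU 3 F (p ^ a))))))
    (L : Subgroup G)
    (hL : L = Subgroup.normalizer ((S : Subgroup G) : Set G) ⊔ ⨆ P' : {P' : Subgroup G // (S : Subgroup G) ≤ P' ∧ Cfsg.IsPMinimal p ↥P' ∧ P' ≠ P}, (P' : Subgroup G)) :
    ((Cfsg.pResidual p ↥P).map P.subtype).Normal ∨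
    ∀ z ∈ L ⊓ Subgroup.centralizer (L : Set G), (∃ k : ℕ, orderOf z = p ^ k) → z ∈ (Cfsg.pCore p ↥P).map P.subtype := by
  have key : ∀ {X : Type} [Group X] [Finite X] {Y : Type} [Group Y] (π : X →* Y), Function.Surjective π →
      π.ker ≤ Subgroup.center X → (∃ (U : Subgroup X) (w d h : X), IsR1.R1 p ⊤ U w d h) →
      Nonempty (↥(Cfsg.pResidual p (↥P ⧸ Cfsg.pCore p ↥P)) ≃* Y) →
      ∃ U w d h, IsR1.R1 p (Cfsg.pResidual p (↥P ⧸ Cfsg.pCore p ↥P)) U w d h := by
    rintro X _ _ Y _ π h1 h2 ⟨U, w, d, h, R⟩ ⟨e⟩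
    have R' := R.map ((Subgroup.subtype _).comp (e.symm.toMonoidHom.comp π)) fun c _ hc x _ =>
      Subgroup.mem_center_iff.1 (h2 (e.symm.map_eq_one_iff.1 (Subtype.ext hc))) x
    rw [← Subgroup.map_map, Subgroup.map_top_of_surjective _ (e.symm.surjective.comp h1),
      ← MonoidHom.range_eq_map, Subgroup.range_subtype] at R'
    exact ⟨_, _, _, _, R'⟩
  obtain ⟨U, w, d, h, R⟩ : ∃ U w d h, IsR1.R1 p (Cfsg.pResidual p (↥P ⧸ Cfsg.pCore p ↥P)) U w d h := by
    obtain ⟨F, _, _, a, -, ⟨hF, e | e⟩ | ⟨hF, e⟩⟩ := hrk1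
    · have := charP_of_card_eq_prime_pow hF
      exact key (MonoidHom.id _) Function.surjective_id (by simp) (IsR1.r1_sl2 hp) e
    · have := charP_of_card_eq_prime_pow hF
      exact key (QuotientGroup.mk' _) (QuotientGroup.mk'_surjective _) (QuotientGroup.ker_mk' _).le
        (IsR1.r1_sl2 hp) e
    have := charP_of_card_eq_prime_pow hF
    have := Class.U.UF.of_card (hF.trans (pow_mul' p 2 a))
    rcases e with e | e
    · exact key (MonoidHom.id _) Function.surjective_id (by simp) (IsR1.r1_su3 hp) e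
    · exact key (QuotientGroup.mk' _) (QuotientGroup.mk'_surjective _) (QuotientGroup.ker_mk' _).le
        (IsR1.r1_su3 hp) e
  refine Or.inr fun z hz ⟨k, hk⟩ => ?_
  have c : ∀ n ∈ IsR1.NN (S : Subgroup G), n * z = z * n := fun n hn =>
    hz.2 n (hL ▸ Subgroup.mem_sup_left hn)
  have zS : z ∈ (S : Subgroup G) := by
    have := S.is_maximal' (S.2.to_sup_of_normal_left' (IsPGroup.of_card ((Nat.card_zpowers z).trans hk))
      (Subgroup.zpowers_le.2 (Subgroup.mem_normalizer_fintype fun s hs => by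
        rwa [← c s (Subgroup.le_normalizer hs), mul_inv_cancel_right]))) le_sup_left
    exact this.le (Subgroup.mem_sup_right (Subgroup.mem_zpowers z))
  have := IsR1.mem_pCore R ((S.subtype hSP).mapSurjective (QuotientGroup.mk'_surjective (Cfsg.pCore p P)))
    (z := QuotientGroup.mk' _ ⟨z, hSP zS⟩) ⟨_, zS, rfl⟩ fun n hn => by
      obtain ⟨n, rfl⟩ := QuotientGroup.mk'_surjective _ n
      rw [← map_mul, ← map_mul]
      refine congrArg _ (Subtype.ext (c n (Subgroup.mem_normalizer_fintype fun s hs => ?_)))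
      obtain ⟨s', hs', e⟩ := IsR1.cj hn (u := QuotientGroup.mk' _ ⟨s, hSP hs⟩) ⟨_, hs, rfl⟩
      rw [← map_mul, ← map_inv, ← map_mul, QuotientGroup.mk'_apply, QuotientGroup.mk'_apply,
        QuotientGroup.eq] at e
      exact (mul_mem_cancel_left (inv_mem hs')).1 (Grp.pCore_le_sylow (S.subtype hSP) e)
  rw [Grp.pCore_quotient_pCore] at this
  exact ⟨_, (QuotientGroup.eq_one_iff _).1 this, rfl⟩

end Cfsg.Agent.S3047
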