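import Cfsg.Statements.S3048
import Cfsg.Agent.S3012
import Cfsg.Agent.TT.LXLayer
import Cfsg.Agent.PLocal.AmbSyl
import Cfsg.Agent.Inv.Isolated

set_option autoImplicit false
universe u
open Cfsg

namespace Cfsg.Agent.S3048

open Subgroup Cfsg.Agent.PLocal Cfsg.Agent.PLocal.Amb
open scoped commutatorElement

variable {G : Type u} [Group G] [Finite G]

/-- A Sidki pair in a group all of whose proper sections satisfy the conclusion. -/
structure Min (V : Subgroup G) : Prop where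
  ea : IsElementaryAbelian 2 V
  ne : V ≠ ⊥
  sid : IsSidkiPair V
  min : ∀ (H : Type u) [Group H] [Finite H] (W : Subgroup H), Nat.card H < Nat.card G →
    IsElementaryAbelian 2 W → W ≠ ⊥ → IsSidkiPair W → W ⊓ pCore 2 H ≠ ⊥

theorem eq_one_of_inv {x : G} (hx : Odd (orderOf x)) (h : x = x⁻¹) : x = 1 :=
  Inv.eq_one_of_mul_self_of_odd (by nth_rewrite 1 [h]; simp) hx

omit [Finite G] in
theorem nt {M : Subgroup G} [M.Normal] : ⊤ ≤ 𝐍[M] := (normalizer_eq_top M).ge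

theorem core_normal (hO : pCore 2 G = ⊥) {M : Subgroup G} (hM : ⊤ ≤ 𝐍[M]) : pCoreOf 2 M = ⊥ := by
  rw [eq_bot_iff, ← hO, ← pCoreOf_top]
  exact pCoreOf_mono_of_normal le_top hM

namespace Min

variable {V : Subgroup G}

theorem sq (h : Min V) {v : G} (hv : v ∈ V) : v * v = 1 := by rw [← pow_two]; exact h.ea.2 v hv

theorem comm (h : Min V) {a b : G} (ha : a ∈ V) (hb : b ∈ V) : a * b = b * a :=
  have := h.ea.1
  setLike_mul_comm ha hb

theorem pg (h : Min V) : IsPGroup 2 V := isPGroup_iff.2 fun x hx => ⟨1, by simpa using h.ea.2 x hx⟩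

theorem quot (h : Min V) (K : Subgroup G) [K.Normal] (hK : K ≠ ⊥) (hVK : V ⊓ K = ⊥) :
    ∃ w ∈ V, w ≠ 1 ∧ (w : G ⧸ K) ∈ pCore 2 (G ⧸ K) := by
  have h1 := h.min (G ⧸ K) (V.map (QuotientGroup.mk' K)) (by
    rw [card_eq_card_quotient_mul_card_subgroup K]
    have := (one_lt_card_iff_ne_bot K).2 hK
    have : 0 < Nat.card (G ⧸ K) := Nat.card_pos
    nlinarith)
    ⟨have := h.ea.1; inferInstance, by
      rintro _ ⟨v, hv, rfl⟩
      rw [← map_pow, h.ea.2 v hv, map_one]⟩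
    (fun e => h.ne (by
      rw [Subgroup.map_eq_bot_iff, QuotientGroup.ker_mk'] at e
      rw [← hVK, inf_eq_left.2 e]))
    (S3012.result V K h.ea h.ne h.sid hVK)
  obtain ⟨⟨_, ⟨w, hw, rfl⟩, hw'⟩, h2⟩ := ne_bot_iff_exists_ne_one.1 h1
  exact ⟨w, hw, fun e => h2 (Subtype.ext (by simp [e])), hw'⟩

theorem core_eq_bot (h : Min V) (hVO : V ⊓ pCore 2 G = ⊥) : pCore 2 G = ⊥ := by
  by_contra hn
  obtain ⟨w, hw, hw1, hw2⟩ := h.quot _ hn hVO
  have : (pCore 2 (G ⧸ pCore 2 G)).comap (QuotientGroup.mk' _) ≤ pCore 2 G :=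
    le_pCore' ((isPGroup_pCore' 2 _).comap_of_ker_isPGroup _
      (by rw [QuotientGroup.ker_mk']; exact isPGroup_pCore' 2 G))
  exact hw1 (mem_bot.1 (hVO ▸ mem_inf.2 ⟨hw, this hw2⟩))

theorem key (h : Min V) {W M : Subgroup G} (hW : W ≤ V) (hW1 : W ≠ ⊥) (hn : W ≤ 𝐍[M])
    (hM : pCoreOf 2 M = ⊥) (ht : M ⊔ W ≠ ⊤) (hc : W ⊓ 𝐂[M] = ⊥) :
    ∃ x ∈ M, ∃ v ∈ W, Odd (orderOf x) ∧ v * x * v⁻¹ = x⁻¹ ∧ ∀ w ∈ W, w * x = x * w → w = 1 := by
  by_contra hno
  push Not at hno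
  have h1 := h.min (M ⊔ W : Subgroup G) (W.subgroupOf (M ⊔ W)) (by
      rw [← card_top (G := G)]
      exact Grp.card_lt_of_lt (lt_top_iff_ne_top.2 ht))
    ⟨⟨⟨fun a b => Subtype.ext (Subtype.ext (h.comm (hW a.2) (hW b.2)))⟩⟩,
      fun a ha => Subtype.ext (h.ea.2 _ (hW ha))⟩
    (fun e => hW1 (by rw [← map_subgroupOf_of_le (le_sup_right : W ≤ M ⊔ W), e, Subgroup.map_bot]))
    (by
      rintro ⟨x, hx⟩ ⟨v, hv⟩ hvW hodd hinv
      rw [← orderOf_coe] at hodd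
      obtain ⟨w, hw, e, h1⟩ := hno x (pRes_sup_le (h.pg.to_le hW) hn
        (mem_pRes hx (Nat.coprime_two_right.2 hodd))) v hvW hodd (congrArg Subtype.val hinv)
      exact ⟨⟨w, mem_sup_right hw⟩, hw, fun e => h1 (congrArg Subtype.val e), Subtype.ext e⟩)
  obtain ⟨⟨⟨w, hw0⟩, hw, hw'⟩, h2⟩ := ne_bot_iff_exists_ne_one.1 h1
  have hw : w ∈ W := hw
  have hw' : w ∈ pCoreOf 2 (M ⊔ W) := ⟨_, hw', rfl⟩
  refine h2 (Subtype.ext (Subtype.ext (mem_bot.1 (hc ▸ mem_inf.2 ⟨hw, fun m hm => ?_⟩))))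
  have h3 : m * w * m⁻¹ * w⁻¹ ∈ M ⊓ pCoreOf 2 (M ⊔ W) := mem_inf.2
    ⟨by simpa [mul_assoc] using M.mul_mem hm (conj_mem_of_mem_normalizer (hn hw) (M.inv_mem hm)),
      mul_mem (conj_mem_of_mem_normalizer (le_normalizer_pCoreOf 2 _ (mem_sup_left hm)) hw')
        (inv_mem hw')⟩
  have h4 := inf_pCoreOf_le (p := 2) (le_sup_left : M ≤ M ⊔ W) h3
  rw [hM, mem_bot, mul_inv_eq_one, mul_inv_eq_iff_eq_mul] at h4
  exact h4

theorem two (h : Min V) {M N : Subgroup G} (hM : V ≤ 𝐍[M]) (hN : V ≤ 𝐍[N]) (hMN : M ≤ 𝐂[N])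
    (oM : pCoreOf 2 M = ⊥) (oN : pCoreOf 2 N = ⊥) (hc : V ⊓ 𝐂[M] ⊓ 𝐂[N] = ⊥) :
    M ⊔ V = ⊤ ∨ N ⊔ V = ⊤ := by
  by_contra hn
  push Not at hn
  have sub : ∀ {K W : Subgroup G}, K ⊔ V ≠ ⊤ → W ≤ V → K ⊔ W ≠ ⊤ := fun h1 h2 e =>
    h1 (eq_top_iff.2 (e.ge.trans (sup_le_sup_left h2 _)))
  have h1 : V ⊓ 𝐂[N] ≠ ⊥ := fun e => by
    obtain ⟨x, -, v, hv, ho, hi, hx⟩ := h.key le_rfl h.ne hN oN hn.2 e
    obtain ⟨w, hw, hw1, e⟩ := h.sid x v hv ho hi
    exact hw1 (hx w hw e)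
  obtain ⟨x, hxM, v, hv, ho, hi, hx⟩ := h.key inf_le_left h1 (inf_le_left.trans hM) oM
    (sub hn.1 inf_le_left) (by rw [← hc, inf_right_comm])
  obtain ⟨hvV, hvN⟩ := mem_inf.1 hv
  have h2 : V ⊓ centralizer ({x} : Set G) ≠ ⊥ := fun e => by
    obtain ⟨w, hw, hw1, e'⟩ := h.sid x v hvV ho hi
    exact hw1 (mem_bot.1 (e ▸ mem_inf.2 ⟨hw, mem_centralizer_singleton_iff.2 e'⟩))
  obtain ⟨y, hyN, u, hu, ho', hi', hy⟩ := h.key inf_le_left h2 (inf_le_left.trans hN) oN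
    (sub hn.2 inf_le_left) (eq_bot_iff.2 fun w hw => hx w
      (mem_inf.2 ⟨(mem_inf.1 (mem_inf.1 hw).1).1, (mem_inf.1 hw).2⟩)
      (mem_centralizer_singleton_iff.1 (mem_inf.1 (mem_inf.1 hw).1).2))
  obtain ⟨huV, hux⟩ := mem_inf.1 hu
  have hux : u * x * u⁻¹ = x := by rw [mem_centralizer_singleton_iff.1 hux]; group
  have hvy : v * y * v⁻¹ = y := by rw [← hvN y hyN]; group
  have hxy : Commute x y := (hMN hxM y hyN).symm
  obtain ⟨w, hw, hw1, e⟩ := h.sid (x * y) (u * v) (V.mul_mem huV hvV)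
    (Odd.of_dvd_nat (ho.mul ho') hxy.orderOf_mul_dvd_mul_orderOf) (by
      calc _ = u * ((v * x * v⁻¹) * (v * y * v⁻¹)) * u⁻¹ := by group
        _ = (u * x * u⁻¹)⁻¹ * (u * y * u⁻¹) := by rw [hi, hvy]; group
        _ = _ := by rw [hux, hi', hxy.eq, mul_inv_rev])
  have e : Commute w (x * y) := e
  have hwu : Commute w u := h.comm hw huV
  have e2 : Commute w (x * y⁻¹) := by
    rw [← hi', ← hux, show u * x * u⁻¹ * (u * y * u⁻¹) = u * (x * y) * u⁻¹ by group]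
    exact (hwu.mul_right e).mul_right hwu.inv_right
  have e3 : x ^ 2 ∈ centralizer ({w} : Set G) := by
    rw [mem_centralizer_singleton_iff, show x ^ 2 = x * y * (x * y⁻¹) by
      rw [mul_assoc, ← mul_assoc y, ← hxy.eq, pow_two]; group]
    exact (e.mul_right e2).symm
  have e4 : Commute w x := (mem_centralizer_singleton_iff.1
    (mem_of_pow_mem_of_coprime e3 (Nat.coprime_two_right.2 ho))).symm
  refine hw1 (hy w (mem_inf.2 ⟨hw, mem_centralizer_singleton_iff.2 e4⟩) ?_)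
  have := e4.inv_right.mul_right e
  rwa [inv_mul_cancel_left] at this

theorem odd_fitting (hO : pCore 2 G = ⊥) {x : G} (hx : x ∈ fittingSubgroup G) :
    Odd (orderOf x) := by
  by_contra hn
  rw [Nat.not_odd_iff_even] at hn
  obtain ⟨k, hk⟩ := hn.two_dvd
  have h0 := orderOf_pos x
  have h1 : x ^ k ∈ pCore 2 G := Grp.le_pCore_of_le_fitting (P := zpowers (x ^ k))
    (isPGroup_zpowers ⟨1, by rw [← pow_mul, pow_one, mul_comm, ← hk, pow_orderOf_eq_one]⟩)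
    (zpowers_le.2 (pow_mem hx k)) (mem_zpowers _)
  rw [hO, mem_bot] at h1
  have := Nat.le_of_dvd (by omega) (orderOf_dvd_of_pow_eq_one h1)
  omega

theorem faithful (h : Min V) (hO : pCore 2 G = ⊥) : V ⊓ 𝐂[generalizedFittingSubgroup G] = ⊥ :=
  eq_bot_iff.2 fun w hw => eq_one_of_isPGroup_of_coprime h.pg (mem_inf.1 hw).1
    (Nat.coprime_two_right.2 (odd_fitting hO (centralizer_fstar_le_fitting G (mem_inf.1 hw).2)))

theorem sup_fstar (h : Min V) (hO : pCore 2 G = ⊥) : generalizedFittingSubgroup G ⊔ V = ⊤ := by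
  by_contra hn
  obtain ⟨x, -, v, hv, ho, hi, hx⟩ := h.key le_rfl h.ne (le_top.trans nt)
    (core_normal hO nt) hn (h.faithful hO)
  obtain ⟨w, hw, hw1, e⟩ := h.sid x v hv ho hi
  exact hw1 (hx w hw e)

/-- The elements of an abelian subgroup inverted by `w`. -/
def invs (Z : Subgroup G) (hZ : Z ≤ 𝐂[Z]) (w : G) : Subgroup G where
  carrier := {x | x ∈ Z ∧ w * x * w⁻¹ = x⁻¹}
  one_mem' := ⟨Z.one_mem, by simp⟩
  mul_mem' := by
    rintro a b ⟨ha, ha'⟩ ⟨hb, hb'⟩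
    refine ⟨Z.mul_mem ha hb, ?_⟩
    calc _ = (w * a * w⁻¹) * (w * b * w⁻¹) := by group
      _ = _ := by rw [ha', hb', hZ hb a ha, mul_inv_rev]
  inv_mem' := by
    rintro a ⟨ha, ha'⟩
    exact ⟨Z.inv_mem ha, by rw [← conj_inv, ha']⟩

theorem step (h : Min V) (hO : pCore 2 G = ⊥) {A Z : Subgroup G} [A.Normal] [Z.Normal]
    (hZA : Z ≤ A) (hZ : Z ≤ 𝐂[A]) (hodd : ∀ x ∈ Z, Odd (orderOf x)) (hAV : A ⊔ V = ⊤)
    (hf : V ⊓ 𝐂[A] = ⊥) {w : G} (hw : w ∈ V) (hw1 : w ≠ 1)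
    (hc : ∀ f ∈ A, f⁻¹ * (w * f * w⁻¹) ∈ Z) (g : G) :
    ∃ n ∈ invs Z (hZ.trans (centralizer_anti hZA)) w, ∃ v ∈ V, g = n * v := by
  set N := invs Z (hZ.trans (centralizer_anti hZA)) w
  have hNZ : N ≤ Z := fun x hx => hx.1
  have hdec : A ≤ (A ⊓ centralizer ({w} : Set G)) ⊔ N := by
    intro f hf
    obtain ⟨c, hc'⟩ : ∃ c, c = f⁻¹ * (w * f * w⁻¹) := ⟨_, rfl⟩
    have hcZ : c ∈ Z := hc' ▸ hc f hf
    have hcw : w * c * w⁻¹ = c⁻¹ := by
      calc _ = w * f⁻¹ * w⁻¹ * (w * w) * f * (w * w)⁻¹ := by rw [hc']; group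
        _ = _ := by rw [h.sq hw, hc']; group
    obtain ⟨k, hk⟩ := hodd c hcZ
    have hd : c ^ (k + 1) ∈ N := ⟨pow_mem hcZ _, by rw [← conj_pow, hcw, inv_pow]⟩
    have e : c = c ^ (k + 1) * c ^ (k + 1) := by
      rw [← pow_add, show k + 1 + (k + 1) = orderOf c + 1 by omega, pow_succ, pow_orderOf_eq_one,
        one_mul]
    rw [show f = f * c ^ (k + 1) * (c ^ (k + 1))⁻¹ by group]
    refine mul_mem (mem_sup_left (mem_inf.2 ⟨mul_mem hf (hZA (hNZ hd)), ?_⟩))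
      (mem_sup_right (inv_mem hd))
    rw [mem_centralizer_singleton_iff]
    calc f * c ^ (k + 1) * w = f * c * (w * c ^ (k + 1) * w⁻¹) * w := by
          rw [hd.2]; nth_rewrite 2 [e]; group
      _ = _ := by nth_rewrite 1 [hc']; group
  have vM : V ≤ 𝐍[A ⊓ centralizer ({w} : Set G)] :=
    le_normalizer_inf (le_top.trans nt)
      (le_trans (fun v hv => mem_centralizer_singleton_iff.2 (h.comm hv hw)) le_normalizer)
  have vN : V ≤ 𝐍[N] := by
    rw [le_normalizer_iff_cj]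
    intro v hv
    rw [cj_le_iff_forall]
    rintro x ⟨hx, hx'⟩
    refine ⟨Normal.conj_mem inferInstance x hx v, ?_⟩
    calc _ = (w * v) * x * (w * v)⁻¹ := by group
      _ = v * (w * x * w⁻¹) * v⁻¹ := by rw [h.comm hw hv]; group
      _ = _ := by rw [hx']; group
  have hNA : N ≤ 𝐂[A] := hNZ.trans hZ
  suffices hs : N ⊔ V = ⊤ from (mem_sup_of_le_normalizer_left vN).1 (hs.ge (mem_top g))
  refine (h.two vM vN (inf_le_left.trans (le_centralizer_iff.1 hNA))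
    (core_normal hO (hAV.ge.trans (sup_le (hdec.trans (sup_le le_normalizer
      ((hNA.trans (centralizer_anti inf_le_left)).trans (centralizer_le_normalizer' _)))) vM)))
    (core_normal hO (hAV.ge.trans (sup_le ((le_centralizer_iff.1 hNA).trans
      (centralizer_le_normalizer' _)) vN))) ?_).resolve_left fun e => ?_
  · rw [inf_assoc, ← centralizer_sup, eq_bot_iff, ← hf]
    exact inf_le_inf_left _ (centralizer_anti hdec)
  · have : (⊤ : Subgroup G) ≤ centralizer ({w} : Set G) := e.ge.trans (sup_le inf_le_right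
      fun v hv => mem_centralizer_singleton_iff.2 (h.comm hv hw))
    exact hw1 (mem_bot.1 (hf ▸ mem_inf.2 ⟨hw, fun a _ =>
      mem_centralizer_singleton_iff.1 (this (mem_top a))⟩))

theorem fitting_eq_bot (h : Min V) (hO : pCore 2 G = ⊥) : fittingSubgroup G = ⊥ := by
  by_contra hF
  set A := generalizedFittingSubgroup G
  obtain ⟨Z, hZ⟩ : ∃ Z, Z = 𝐂[A] := ⟨_, rfl⟩
  have : Z.Normal := hZ ▸ inferInstance
  have hZF : Z ≤ fittingSubgroup G := hZ ▸ centralizer_fstar_le_fitting G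
  have hodd : ∀ x ∈ Z, Odd (orderOf x) := fun x hx => odd_fitting hO (hZF hx)
  have hVZ : V ⊓ Z = ⊥ := hZ ▸ h.faithful hO
  have hZ1 : Z ≠ ⊥ := by
    have : Group.IsNilpotent (fittingSubgroup G) := Grp.isNilpotent_of_le_fitting le_rfl
    have := (nontrivial_iff_ne_bot _).2 hF
    obtain ⟨⟨⟨x, hx⟩, hx'⟩, h1⟩ := ne_bot_iff_exists_ne_one.1
      (Group.IsNilpotent.center_ne_bot (fittingSubgroup G))
    refine ne_bot_iff_exists_ne_one.2 ⟨⟨x, ?_⟩, fun e => h1 ?_⟩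
    · rw [hZ, show A = _ from fstar_def G, centralizer_sup]
      exact mem_inf.2 ⟨fitting_le_centralizer_layer hx, fun y hy =>
        congrArg Subtype.val (mem_center_iff.1 hx' ⟨y, hy⟩)⟩
    · have : x = 1 := congrArg Subtype.val e
      exact Subtype.ext (Subtype.ext this)
  have st := fun w => h.step (w := w) hO (hZF.trans fitting_le_fstar) hZ.le hodd (h.sup_fstar hO)
    (h.faithful hO)
  obtain ⟨w, hw, hw1, hw2⟩ := h.quot Z hZ1 hVZ
  have hZV : Z ⊔ V = ⊤ := by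
    refine eq_top_iff.2 fun g _ => ?_
    suffices hs : ∀ f ∈ A, f⁻¹ * (w * f * w⁻¹) ∈ Z by
      obtain ⟨n, hn, v, hv, rfl⟩ := st w hw hw1 hs g
      exact mul_mem_sup hn.1 hv
    intro f hf
    let D := (pCore 2 (G ⧸ Z)).comap (QuotientGroup.mk' Z) ⊓ A
    have hD : D ≤ fittingSubgroup G := by
      have := (isPGroup_pCore' 2 (G ⧸ Z)).isNilpotent
      refine Grp.le_fitting inferInstance (Subgroup.isNilpotent_of_ker_le_center
        (((QuotientGroup.mk' Z).comp D.subtype).codRestrict (pCore 2 (G ⧸ Z)) fun x => x.2.1)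
        fun x hx => ?_)
      have hx : (x : G) ∈ Z := (QuotientGroup.eq_one_iff _).1 (congrArg Subtype.val hx)
      exact mem_center_iff.2 fun y => Subtype.ext (hZ.le hx y y.2.2)
    have hc : f⁻¹ * (w * f * w⁻¹) ∈ D := mem_inf.2 ⟨by
      rw [show f⁻¹ * (w * f * w⁻¹) = f⁻¹ * w * f⁻¹⁻¹ * w⁻¹ by group]
      exact mul_mem (Normal.conj_mem inferInstance w hw2 _) (inv_mem hw2),
      mul_mem (inv_mem hf) (Normal.conj_mem inferInstance f hf w)⟩
    obtain ⟨k, hk⟩ := isPGroup_iff.1 (isPGroup_pCore' 2 (G ⧸ Z)) _ (mem_inf.1 hc).1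
    rw [← map_pow] at hk
    exact mem_of_pow_mem_of_coprime ((QuotientGroup.eq_one_iff _).1 hk)
      (Nat.Coprime.pow_right _ (Nat.coprime_two_right.2 (odd_fitting hO (hD hc))))
  have hall : ∀ w ∈ V, w ≠ 1 → ∀ x ∈ Z, w * x * w⁻¹ = x⁻¹ := by
    intro w hw hw1 x hx
    have h1 := st w hw hw1 fun f _ => by
      obtain ⟨z, hz, v, hv, rfl⟩ := (mem_sup_of_le_normalizer_left
        (le_top.trans nt)).1 (hZV.ge (mem_top f))
      have := Normal.conj_mem inferInstance _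
        (Z.mul_mem (Z.inv_mem hz) (Normal.conj_mem inferInstance z hz w)) v⁻¹
      convert this using 1
      calc _ = v⁻¹ * z⁻¹ * w * z * (v * w⁻¹) := by group
        _ = _ := by rw [h.comm hv (V.inv_mem hw)]; group
    obtain ⟨n, hn, v, hv, rfl⟩ := h1 x
    have : v = 1 := mem_bot.1 (hVZ ▸ mem_inf.2 ⟨hv, (Z.mul_mem_cancel_left hn.1).1 hx⟩)
    rw [this, mul_one]
    exact hn.2
  obtain ⟨⟨x, hx⟩, hx1⟩ := ne_bot_iff_exists_ne_one.1 hZ1
  obtain ⟨u, hu, hu1, e⟩ := h.sid x w hw (hodd x hx) (hall w hw hw1 x hx)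
  refine hx1 (Subtype.ext (eq_one_of_inv (hodd x hx) ?_))
  rw [← hall u hu hu1 x hx, e]; group

theorem commutator_le (h : Min V) {N : Subgroup G} (hn : ⊤ ≤ 𝐍[N]) (ht : N ⊔ V = ⊤)
    {L : Subgroup G} (hL : ⁅L, L⁆ = L) : L ≤ N := by
  rw [← hL, Subgroup.commutator_le]
  intro x _ y _
  obtain ⟨a, ha, v, hv, rfl⟩ := (mem_sup_of_le_normalizer_left (le_top.trans hn)).1
    (ht.ge (mem_top x))
  obtain ⟨b, hb, u, hu, rfl⟩ := (mem_sup_of_le_normalizer_left (le_top.trans hn)).1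
    (ht.ge (mem_top y))
  have := mul_mem (mul_mem (mul_mem ha (conj_mem_of_mem_normalizer (hn (mem_top v)) hb))
    (conj_mem_of_mem_normalizer (hn (mem_top u)) (inv_mem ha))) (inv_mem hb)
  convert this using 1
  rw [commutatorElement_def]
  calc _ = a * v * b * (u * v⁻¹) * a⁻¹ * u⁻¹ * b⁻¹ := by group
    _ = _ := by rw [h.comm hu (V.inv_mem hv)]; group

theorem comp_normal (h : Min V) (hO : pCore 2 G = ⊥) {L : Subgroup G} (hL : IsComponent L) :
    layer G = L := by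
  have hF := h.fitting_eq_bot hO
  have hE : generalizedFittingSubgroup G = layer G := by rw [fstar_def, hF, sup_bot_eq]
  have hEV : layer G ⊔ V = ⊤ := hE ▸ h.sup_fstar hO
  have hZ : ∀ y ∈ L, y ∈ 𝐂[L] → y = 1 := fun y h1 h2 =>
    mem_bot.1 (hF ▸ comp_inf_centralizer_le_fitting hL (mem_inf.2 ⟨h1, h2⟩))
  let P : Subgroup G → Prop := fun K => ∃ v ∈ V, K = cj(v, L)
  have hP : ∀ v ∈ V, ∀ K, P K ↔ P cj(v, K) := fun v hv K => by
    constructor
    · rintro ⟨u, hu, rfl⟩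
      exact ⟨v * u, V.mul_mem hv hu, (cj_mul _ _ _).symm⟩
    · rintro ⟨u, hu, e⟩
      exact ⟨v⁻¹ * u, V.mul_mem (V.inv_mem hv) hu, by rw [cj_mul, ← e, cj_inv_cj]⟩
  have nE : ∀ Q : Subgroup G → Prop, (∀ v ∈ V, ∀ K, Q K ↔ Q cj(v, K)) →
      ⊤ ≤ 𝐍[sSup {K : Subgroup G | IsComponent K ∧ Q K}] := fun Q hQ => by
    refine hEV.ge.trans (sup_le (fun e he => ?_) fun v hv => TT.LX.normalizer_sSup_comp Q (hQ v hv))
    refine mem_normalizer_of_cj_le ?_
    rw [cj_le_iff]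
    refine sSup_le fun K hK => ?_
    rw [← cj_le_iff, cj_of_mem_normalizer (layer_le_normalizer_comp hK.1 he)]
    exact le_sSup hK
  have nM := nE P hP
  have nN := nE (fun K => ¬ P K) fun v hv K => not_congr (hP v hv K)
  have hLM : L ≤ sSup {K : Subgroup G | IsComponent K ∧ P K} :=
    le_sSup ⟨hL, 1, V.one_mem, (cj_one L).symm⟩
  have hMN := commutator_eq_bot_iff_le_centralizer.1 (commutator_split_eq_bot (G := G) P)
  rcases h.two (le_top.trans nM) (le_top.trans nN) hMN (core_normal hO nM) (core_normal hO nN) (by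
      rw [inf_assoc, ← centralizer_sup, ← layer_eq_sup_split, ← hE, h.faithful hO]) with e | e
  swap
  · exact absurd (hLM.trans (hMN.trans (centralizer_anti
      (h.commutator_le nN e (comp_commutator hL))))) (qsS_not_le_centralizer hL.2)
  have hEM := h.commutator_le nM e (layer_commutator G)
  by_cases hVL : V ≤ 𝐍[L]
  · refine le_antisymm (hEM.trans (sSup_le ?_)) (comp_le_layer hL)
    rintro K ⟨-, v, hv, rfl⟩
    exact (cj_of_mem_normalizer (hVL hv)).le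
  exfalso
  have oL : pCoreOf 2 L = ⊥ := by
    rw [eq_bot_iff, ← core_normal hO (M := layer G) nt]
    exact pCoreOf_mono_of_normal (comp_le_layer hL) (layer_le_normalizer_comp hL)
  have hmv : ∀ v : G, v ∉ 𝐍[L] → ∀ y ∈ L, v * y * v⁻¹ ∈ 𝐂[L] := fun v hv y hy =>
    commutator_eq_bot_iff_le_centralizer.1 (comp_commute_of_ne (comp_conj hL v) hL
      fun e => hv (cj_eq_iff.1 e)) (conj_mem_cj v hy)
  by_cases h0 : V ⊓ 𝐍[L] = ⊥
  · have hmv' : ∀ v ∈ V, v ≠ 1 → ∀ y ∈ L, v * y * v⁻¹ ∈ 𝐂[L] := fun v hv h1 =>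
      hmv v fun e => h1 (mem_bot.1 (h0 ▸ mem_inf.2 ⟨hv, e⟩))
    obtain ⟨⟨v, hv⟩, hv1⟩ := ne_bot_iff_exists_ne_one.1 h.ne
    have hv1 : v ≠ 1 := fun e => hv1 (Subtype.ext e)
    obtain ⟨y, hy, ho, hy1⟩ : ∃ y ∈ L, (orderOf y).Coprime 2 ∧ y ≠ 1 := by
      by_contra hn
      push Not at hn
      exact comp_ne_bot hL ((pCoreOf_eq_self (isPGroup_of_forall_coprime hn)).symm.trans oL)
    rw [Nat.coprime_two_right] at ho
    have c1 := hmv' v hv hv1 _ (L.inv_mem hy)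
    have c2 : Commute y (v * y⁻¹ * v⁻¹) := c1 y hy
    have ho' : Odd (orderOf (y * (v * y⁻¹ * v⁻¹))) :=
      Odd.of_dvd_nat (ho.mul (by rwa [orderOf_conj', orderOf_inv])) c2.orderOf_mul_dvd_mul_orderOf
    have hi : v * (y * (v * y⁻¹ * v⁻¹)) * v⁻¹ = (y * (v * y⁻¹ * v⁻¹))⁻¹ := by
      calc _ = v * y * (v * v)⁻¹ * v * (v * v) * y⁻¹ * (v * v)⁻¹ := by group
        _ = _ := by rw [h.sq hv]; simp [mul_assoc, inv_eq_of_mul_eq_one_left (h.sq hv)]
    obtain ⟨w, hw, hw1, e⟩ := h.sid _ v hv ho' hi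
    have c3 : y * (v * y⁻¹ * v⁻¹) ∈ 𝐂[L] := by
      by_cases hwv : w = v
      · subst hwv
        rw [eq_one_of_inv ho' (by rw [← hi, e]; group)]
        exact one_mem _
      · have := mul_mem (hmv' w hw hw1 y hy) (hmv' _ (V.mul_mem hw hv) (fun e => hwv (by
          rw [eq_inv_of_mul_eq_one_left e, inv_eq_of_mul_eq_one_left (h.sq hv)])) _ (L.inv_mem hy))
        convert this using 1
        calc _ = w * (y * (v * y⁻¹ * v⁻¹)) * w⁻¹ := by rw [e]; group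
          _ = _ := by group
    exact hy1 (hZ y hy ((mul_mem_cancel_right c1).1 c3))
  obtain ⟨y, hy, u, hu, ho, hi, hc⟩ := h.key inf_le_left h0 inf_le_right oL
    (fun e => hVL (le_top.trans (e.ge.trans (sup_le le_normalizer inf_le_right)))) (by
      rw [eq_bot_iff, ← h.faithful hO, hE]
      intro w hw
      obtain ⟨hw, hw'⟩ := mem_inf.1 hw
      refine mem_inf.2 ⟨(mem_inf.1 hw).1, centralizer_anti hEM ?_⟩
      refine le_centralizer_iff.1 (sSup_le ?_ : _ ≤ 𝐂[zpowers w]) (mem_zpowers w)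
      rintro K ⟨-, v, hv, rfl⟩
      rw [cj_le_iff_forall, centralizer_zpowers]
      intro x hx
      rw [mem_centralizer_singleton_iff]
      calc v * x * v⁻¹ * w = v * (x * w) * v⁻¹ := by
            rw [mul_assoc, ← h.comm (mem_inf.1 hw).1 (V.inv_mem hv)]; group
        _ = _ := by rw [hw' x hx, ← mul_assoc, h.comm hv (mem_inf.1 hw).1]; group)
  obtain ⟨w, hw, hw1, e⟩ := h.sid y u (mem_inf.1 hu).1 ho hi
  by_cases hwL : w ∈ 𝐍[L]
  · exact hw1 (hc w (mem_inf.2 ⟨hw, hwL⟩) e)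
  · have := hmv w hwL y hy
    rw [e, mul_inv_cancel_right] at this
    exact h0 (eq_bot_iff.2 fun a ha => hc a ha (by rw [hZ y hy this]; simp))

end Min


/-- Minimal counterexample reduction for the Sidki pair problem. Let G be a finite group and V a nontrivial elementary abelian 2-subgroup satisfying the Sidki pair condition with V ∩ O₂(G) = 1. Suppose that for every finite group H of smaller order, every nontrivial elementary abelian 2-subgroup W of H satisfying the Sidki pair condition meets O₂(H) nontrivially, and that the same holds in G for every such subgroup W of order smaller than that of V. Then the generalized Fitting subgroup F*(G) is a non-abelian simple group and G = V F*(G). -/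
theorem result {G : Type u} [Group G] [Finite G] (V : Subgroup G) (hV : Cfsg.IsElementaryAbelian 2 V) (hV1 : V ≠ ⊥) (hS : Cfsg.IsSidkiPair V) (hVO : V ⊓ Cfsg.pCore 2 G = ⊥) (hminG : ∀ (H : Type u) [Group H] [Finite H] (W : Subgroup H), Nat.card H < Nat.card G → Cfsg.IsElementaryAbelian 2 W → W ≠ ⊥ → Cfsg.IsSidkiPair W → W ⊓ Cfsg.pCore 2 H ≠ ⊥) (hminV : ∀ W : Subgroup G, Nat.card W < Nat.card V → Cfsg.IsElementaryAbelian 2 W → W ≠ ⊥ → Cfsg.IsSidkiPair W → W ⊓ Cfsg.pCore 2 G ≠ ⊥) : IsSimpleGroup ↥(Cfsg.generalizedFittingSubgroup G) ∧ ¬ IsMulCommutative ↥(Cfsg.generalizedFittingSubgroup G) ∧ V ⊔ Cfsg.generalizedFittingSubgroup G = ⊤ := by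
  have h : Min V := ⟨hV, hV1, hS, hminG⟩
  have hO := h.core_eq_bot hVO
  have hF := h.fitting_eq_bot hO
  have hE : generalizedFittingSubgroup G = layer G := by rw [fstar_def, hF, sup_bot_eq]
  have := (nontrivial_iff_ne_bot V).2 hV1
  have : Nontrivial G := Subtype.val_injective (p := (· ∈ V)).nontrivial
  obtain ⟨L, hL⟩ : ∃ L : Subgroup G, IsComponent L := by
    by_contra hn
    push Not at hn
    exact fstar_ne_bot G (hE.trans (layer_eq_bot_iff.2 hn))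
  refine ⟨?_, ?_, by rw [sup_comm, h.sup_fstar hO]⟩ <;> rw [hE, h.comp_normal hO hL]
  · exact TT.isSimpleGroup_of_comp hL (eq_bot_iff.2 (hF ▸ comp_inf_centralizer_le_fitting hL))
  · exact qs_not_comm hL.2

end Cfsg.Agent.S3048
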