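import Mathlib
import Cfsg.Statements.S3049
import Cfsg.Agent.PLocal.ZStarMin
import Cfsg.Agent.PLocal.FStar
import Cfsg.Agent.PLocal.Thompson
import Cfsg.Agent.FT.PRank
-- import your own Cfsg.Agent.* helpers here

set_option autoImplicit false
open Cfsg

namespace Cfsg.Agent.S3049

open Cfsg.Agent.PLocal Cfsg.Agent.PLocal.Amb Subgroup
open scoped commutatorElement

theorem lemB {G : Type*} [Group G] [Finite G] {p : ℕ} [hp : Fact p.Prime] (hp2 : p ≠ 2)
    (hrank : PRankLE p 2 G) {x z : G} (hx : orderOf x = p) (hiso : IsIsolated x)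
    (hz : z ^ p = 1) (hzc : z ∈ center G) (hzx : z ∉ zpowers x) : HasNormalPComplement p G := by
  have hx1 : x ^ p = 1 := by rw [← hx, pow_orderOf_eq_one]
  have hxE := isEA_zpowers hx1
  have hzE := isEA_zpowers hz
  have hcz : ∀ L : Subgroup G, L ≤ 𝐂[zpowers z] := fun L g _ => by
    rw [centralizer_zpowers, mem_centralizer_singleton_iff]
    exact mem_center_iff.1 hzc g
  have hA := isEA_sup hxE hzE (hcz _)
  have hAc : p ^ 2 ≤ Nat.card ↥(zpowers x ⊔ zpowers z) := by
    apply FT.R2.pow_succ_le_card (isEA_isPGroup hA)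
    rw [pow_one]
    nth_rewrite 1 [← hx, ← Nat.card_zpowers]
    exact Grp.card_lt_card_of_lt (lt_of_le_of_ne le_sup_left fun h =>
      hzx (h ▸ mem_sup_right (mem_zpowers z)))
  obtain ⟨P, hP⟩ := (isEA_isPGroup hA).exists_le_sylow
  have hxP : x ∈ (P : Subgroup G) := hP (mem_sup_left (mem_zpowers x))
  have hPx := iso_le_centralizer hiso P.isPGroup' hxP
  refine Transfer.hasNormalPComplement_of_local_centric P fun B hB _ _ hcen g hg hgc => ?_
  have hxB : x ∈ B := hcen (mem_inf.2 ⟨hxP, fun b hb =>
    mem_centralizer_singleton_iff.1 (hPx (hB hb))⟩)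
  have hpB : IsPGroup p B := P.isPGroup'.to_le hB
  refine mem_centralizer_of_fix_order_p hp2 hpB hg hgc fun b hb hbp => ?_
  have hbA : zpowers b ≤ 𝐂[zpowers x ⊔ zpowers z] := by
    rw [centralizer_sup, centralizer_zpowers]
    exact le_inf ((zpowers_le).2 (hPx (hB hb))) (hcz _)
  have hE := isEA_sup (isEA_zpowers hbp) hA hbA
  have h1 : zpowers x ⊔ zpowers z = zpowers b ⊔ (zpowers x ⊔ zpowers z) :=
    eq_of_le_of_card_ge le_sup_right ((hrank _ hE.1 hE.2).trans hAc)
  have h2 : g ∈ 𝐂[zpowers x ⊔ zpowers z] := by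
    rw [centralizer_sup, centralizer_zpowers]
    exact mem_inf.2 ⟨iso_normalizer_le hiso hpB hxB hg, hcz ⊤ (mem_top g)⟩
  rw [mul_inv_eq_iff_eq_mul]
  exact (h2 b (h1 ▸ mem_sup_left (mem_zpowers b))).symm

theorem lemA {G : Type*} [Group G] [Finite G] {p : ℕ} [hp : Fact p.Prime]
    (hcore : pPrimeCore p G = ⊥) {L : Subgroup G} (hL : IsComponent L) :
    ¬ HasNormalPComplement p L := by
  intro h
  have h1 : 𝐎[p, L] = ⊥ := by
    rw [eq_bot_iff, ← hcore]
    refine Grp.le_pPrimeCore_of_isSubnormal
      (subnormal_of_le_normalizer hL.1 (pRes_le p L) (le_normalizer_pRes p L)) ?_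
    rw [card_map_of_injective L.subtype_injective]
    exact Transfer.hasNormalPComplement_iff_coprime.1 h
  exact qsS_not_le_solvable hL.2
    (Solv.isSolvable_of_isPGroup (isPGroup_of_pRes_le IsPGroup.of_bot h1.le)) le_rfl

/-- Let G be a finite group and p an odd prime with O_{p'}(G) = 1. Suppose that G has p-rank at most 2 (no elementary abelian subgroup of order p³) and that some element x of order p is isolated in G (no G-conjugate of x other than x commutes with x) and not central. Then the generalized Fitting subgroup F*(G) is a non-abelian simple group. Since O_{p'}(G) = 1, such an x is not central modulo O_{p'}(G): the hypotheses describe a counterexample to the Z*_p statement in p-rank at most 2. -/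
theorem result {G : Type*} [Group G] [Finite G] {p : ℕ} [Fact p.Prime] (hp : p ≠ 2) (hcore : Cfsg.pPrimeCore p G = ⊥)
    (hrank : Cfsg.PRankLE p 2 G) (x : G) (hx : orderOf x = p) (hiso : Cfsg.IsIsolated x) (hnc : x ∉ Subgroup.center G) :
    IsSimpleGroup ↥(Cfsg.generalizedFittingSubgroup G) ∧ ¬ IsMulCommutative ↥(Cfsg.generalizedFittingSubgroup G) := by
  have hx1 : x ^ p = 1 := by rw [← hx, pow_orderOf_eq_one]
  have hx' : ∃ k : ℕ, x ^ p ^ k = 1 := ⟨1, by rwa [pow_one]⟩
  obtain ⟨P, hP, hxP⟩ := exists_isSyl_ge (isPGroup_zpowers hx') le_top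
  have hxP' : x ∈ P := hxP (mem_zpowers x)
  have hPx := iso_le_centralizer hiso hP.pgrp hxP'
  obtain ⟨L, hL, hLx⟩ : ∃ L : Subgroup G, IsComponent L ∧ ¬ L ≤ centralizer ({x} : Set G) := by
    by_contra h
    push Not at h
    have h1 : layer G ≤ centralizer ({x} : Set G) := layer_le_iff.2 h
    have h2 : pCore p G ≤ centralizer ({x} : Set G) := by
      refine le_trans ?_ hPx
      rw [← pCoreOf_top]
      exact hP.pCoreOf_le
    have h3 : x ∈ pCore p G := centralizer_layer_inf_centralizer_pCore_le hcore (mem_inf.2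
      ⟨fun y hy => mem_centralizer_singleton_iff.1 (h1 hy),
        fun y hy => mem_centralizer_singleton_iff.1 (h2 hy)⟩)
    apply hnc
    rw [mem_center_iff]
    intro g
    exact mem_centralizer_singleton_iff.1 (iso_normalizer_le hiso (Grp.pCore_isPGroup p G) h3
      ((normalizer_eq_top _).ge (mem_top g)))
  set F := generalizedFittingSubgroup G with hF
  have hFL : F ≤ 𝐍[L] := by
    refine sup_le (layer_le_normalizer_comp hL) (le_trans ?_ (centralizer_le_normalizer' L))
    exact le_centralizer_iff.1 (comp_le_centralizer_fitting hL)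
  have hLF : L ≤ F := comp_le_fstar hL
  have hPF : IsSyl p (P ⊓ F) F := hP.inf_of_le le_top (normalizer_eq_top F).ge
  have hPL := hPF.inf_of_le hLF hFL
  have hxL : x ∈ 𝐍[L] := by
    rw [← cj_eq_iff]
    by_contra hne
    have h1 := comp_commute_of_ne (comp_conj hL x) hL hne
    apply lemA (p := p) hcore hL
    have h2 : L ≤ 𝐂[P ⊓ F ⊓ L] := by
      intro g hg y hy
      refine commute_of_commutator_eq_bot h1 ?_ hg
      rw [← mem_cent1.1 (show x ∈ centralizer ({y} : Set G) from
        mem_centralizer_singleton_iff.2 (mem_centralizer_singleton_iff.1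
          (hPx (mem_inf.1 (mem_inf.1 hy).1).1)).symm)]
      exact conj_mem_cj x (mem_inf.1 hy).2
    refine hasNormalPComplement_of_pElements_central fun B hB hpB => ?_
    exact h2.trans (centralizer_anti (hPL.le_of_normalizes hpB hB
      (hB.trans (h2.trans (centralizer_le_normalizer' _)))))
  have hD : F ⊓ 𝐂[L] = ⊥ := by
    by_contra hD
    have hn : F ≤ 𝐍[F ⊓ 𝐂[L]] := le_normalizer_inf le_normalizer (le_normalizer_centralizer hFL)
    have hPD := hPF.inf_of_le inf_le_left hn
    have hne : P ⊓ F ⊓ (F ⊓ 𝐂[L]) ≠ ⊥ := by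
      rw [Ne, hPD.eq_bot_iff]
      intro h
      apply hD
      rw [eq_bot_iff, ← hcore]
      exact Grp.le_pPrimeCore_of_isSubnormal (subnormal_of_le_normalizer
        (Subgroup.Normal.isSubnormal inferInstance) inf_le_left hn)
        ((Nat.Prime.coprime_iff_not_dvd Fact.out).2 h).symm
    obtain ⟨z, hz, hz1, hzp⟩ : ∃ z ∈ P ⊓ F ⊓ (F ⊓ 𝐂[L]), z ≠ 1 ∧ z ^ p = 1 := by
      by_contra h
      push Not at h
      apply omegaOne_ne_bot_of_isPGroup hPD.pgrp hne
      rw [eq_bot_iff, omegaOne_le_iff]
      intro y hy hyp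
      by_contra hy1
      exact h y hy hy1 hyp
    have hzP : z ∈ P := (mem_inf.1 (mem_inf.1 hz).1).1
    have hzL : z ∈ 𝐂[L] := (mem_inf.1 (mem_inf.1 hz).2).2
    have hxz : x ∈ centralizer ({z} : Set G) :=
      mem_centralizer_singleton_iff.2 (mem_centralizer_singleton_iff.1 (hPx hzP)).symm
    have hzz := self_mem_cent1 z
    have hB := lemB (G := centralizer ({z} : Set G)) hp (FT.R2.pRankLE_subgroup hrank _)
      (x := ⟨x, hxz⟩) (z := ⟨z, hzz⟩) (by rw [← orderOf_coe]; exact hx) (iso_subgroup hiso _ hxz)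
      (Subtype.ext hzp) (mem_center_iff.2 fun g => Subtype.ext
        (mem_centralizer_singleton_iff.1 g.2)) (by
      intro hzx
      have hzx' : z ∈ zpowers x := by
        obtain ⟨k, hk⟩ := hzx
        exact ⟨k, by simpa using congrArg Subtype.val hk⟩
      have h1 : zpowers z = zpowers x := by
        apply eq_of_le_of_card_ge ((zpowers_le).2 hzx')
        rw [Nat.card_zpowers, Nat.card_zpowers, hx, orderOf_eq_prime hzp hz1]
      apply hLx
      rw [← centralizer_zpowers, ← h1, centralizer_zpowers]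
      exact fun g hg => mem_centralizer_singleton_iff.2 (hzL g hg))
    exact lemA (p := p) hcore hL (Transfer.HasNormalPComplement.of_le hB
      fun g hg => mem_centralizer_singleton_iff.2 (hzL g hg))
  have hFeq : F = L := by
    refine le_antisymm (sup_le ?_ ?_) hLF
    · rw [layer_eq_comp_sup_centralizer hL]
      exact sup_le le_rfl ((inf_le_inf_right _ layer_le_fstar).trans (hD.le.trans bot_le))
    · exact (le_inf fitting_le_fstar (le_centralizer_iff.1
        (comp_le_centralizer_fitting hL))).trans (hD.le.trans bot_le)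
  rw [hFeq] at hD ⊢
  refine ⟨?_, qs_not_comm hL.2⟩
  have := qs_nontrivial hL.2
  refine ⟨fun N hN => ?_⟩
  rcases qs_normal hL.2 N hN with h | h
  · exact Or.inr h
  · left
    have h1 := map_mono (f := L.subtype) h
    rw [map_center_subtype, hD] at h1
    exact (map_eq_bot_iff_of_injective _ L.subtype_injective).1 (le_bot_iff.1 h1)

end Cfsg.Agent.S3049
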