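import Cfsg.Statements.S3054
import Mathlib
import Cfsg.Agent.PLocal.ESCube

set_option autoImplicit false
open Cfsg

namespace Cfsg.Agent.S3054

/-- Let p be an odd prime and G a finite group with a Sylow p-subgroup P that is extraspecial of order p³ and exponent p. Suppose P contains three distinct subgroups A of order p² (each is elementary abelian of rank 2) such that every automorphism of A of order p is induced by conjugation by an element of G; equivalently the automorphism group induced on A by its normalizer contains the special linear group of A. Then p ≤ 13. -/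
theorem result {G : Type*} [Group G] [Finite G]
    {p : ℕ} [Fact p.Prime] (hp : p ≠ 2) (P : Sylow p G) (hE : Cfsg.IsExtraspecial p ↥P)
    (hcard : Nat.card P = p ^ 3) (hexp : Monoid.exponent ↥P = p)
    (A : Fin 3 → Subgroup G) (hA : Function.Injective A) (hAP : ∀ i, A i ≤ (P : Subgroup G))
    (hAcard : ∀ i, Nat.card ↥(A i) = p ^ 2)
    (hSL : ∀ i, ∀ φ : MulAut ↥(A i), orderOf φ = p → ∃ g : G, ∀ a : ↥(A i), (φ a : G) = g * (a : G) * g⁻¹) :
    p ≤ 13 := by
  by_contra h13
  obtain ⟨z, hz⟩ := PLocal.ESCube.exists_es (P := (P : Subgroup G)) hE hcard hexp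
  obtain ⟨c, hc⟩ := hz.coord
  refine absurd (PLocal.ESCube.three hc A hA hAP hAcard (fun i => ?_) (by omega)).1 (by omega)
  obtain ⟨y, hy, hyz⟩ := hz.exists_not_mem (hAcard i)
  have hzA := hz.z_mem (hAP i) (hAcard i)
  have hcm : Commute (⟨z, hzA⟩ : A i) ⟨y, hy⟩ :=
    Subtype.ext (PLocal.ESCube.ES.comm_of_card (hAcard i) hzA hy)
  obtain ⟨e, he⟩ := Fus.AC.exists_equiv₂_of_gen (m := p) (n := p) (x := (⟨z, hzA⟩ : A i))
    (y := ⟨y, hy⟩) (Subtype.ext (hz.exp z hz.mem)) (Subtype.ext (hz.exp y (hAP i hy))) hcm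
    (Fus.AC.gen_of_card_sq (hAcard i) hcm (fun e => hz.z_ne (congrArg Subtype.val e))
      (fun ⟨k, hk⟩ => hyz ⟨k, congrArg Subtype.val hk⟩)) (by rw [hAcard, sq])
  let M : Matrix.SpecialLinearGroup (Fin 2) (ZMod p) := ⟨!![1, 0; 1, 1], by simp⟩
  have hM : ∀ n : ℕ, (M ^ n).1 = !![1, 0; (n : ZMod p), 1] := fun n => by
    induction n with
    | zero => ext i j; fin_cases i <;> fin_cases j <;> simp
    | succ n ih =>
      rw [pow_succ, Matrix.SpecialLinearGroup.coe_mul, ih]
      ext i j; fin_cases i <;> fin_cases j <;> simp [M, Matrix.mul_apply]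
  have hMo : orderOf M = p := orderOf_eq_prime (Subtype.ext (by
      rw [hM]; ext i j; fin_cases i <;> fin_cases j <;> simp))
    (fun e => by simpa [M] using congrArg (fun N => N.1 1 0) e)
  obtain ⟨g, hg⟩ := hSL i (MulAut.congr e (Fus.AC.sl2Hom _ M)) (by
    rw [MulEquiv.orderOf_eq, orderOf_injective _ (Fus.AC.sl2Hom_injective _), hMo])
  refine ⟨g, Subgroup.mem_normalizer_fintype fun a ha => ?_, fun h => hyz ?_⟩
  · rw [← hg ⟨a, ha⟩]; exact Subtype.prop _
  · have h1 := hg ⟨z, hzA⟩
    have h2 := he 1 0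
    have h3 := he 1 1
    simp only [zpow_one, zpow_zero, mul_one] at h2 h3
    have h4 : MulAut.congr e (Fus.AC.sl2Hom _ M) ⟨z, hzA⟩ = ⟨z, hzA⟩ * ⟨y, hy⟩ := by
      rw [← h3, ← h2, MulAut.congr_apply]
      simp only [MulEquiv.trans_apply, MulEquiv.symm_apply_apply]
      rw [Fus.AC.sl2Hom_apply]
      simp [M]
    rw [h4] at h1
    rw [← h1] at h
    exact (Subgroup.mul_mem_cancel_left _ (Subgroup.mem_zpowers z)).1 h

end Cfsg.Agent.S3054
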