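import Cfsg.Statements.S3055
import Mathlib
import Cfsg.Agent.PLocal.ESCube

set_option autoImplicit false
open Cfsg

namespace Cfsg.Agent.S3055

/-- Let p be an odd prime and G a finite group with a Sylow p-subgroup P that is extraspecial of order p³ and exponent p. If all nonidentity elements of P are conjugate in G, then p ≤ 7. -/
theorem result {G : Type*} [Group G] [Finite G]
    {p : ℕ} [Fact p.Prime] (hp : p ≠ 2) (P : Sylow p G) (hE : Cfsg.IsExtraspecial p ↥P)
    (hcard : Nat.card P = p ^ 3) (hexp : Monoid.exponent ↥P = p)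
    (hconj : ∀ x y : ↥P, x ≠ 1 → y ≠ 1 → ∃ g : G, g * (x : G) * g⁻¹ = (y : G)) :
    p ≤ 7 := by
  by_contra h7
  obtain ⟨z, hz⟩ := PLocal.ESCube.exists_es (P := (P : Subgroup G)) hE hcard hexp
  obtain ⟨c, hc⟩ := hz.coord
  have hpr : p.Prime := Fact.out
  -- the centralizers in `P` of noncentral elements
  have hcard2 : ∀ y ∈ (P : Subgroup G), y ∉ Subgroup.zpowers z →
      Nat.card ((P : Subgroup G) ⊓ Subgroup.centralizer {y} : Subgroup G) = p ^ 2 := by
    intro y hy hyz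
    obtain ⟨j, hj, e⟩ := (Nat.dvd_prime_pow hpr).1 (hz.card ▸ Subgroup.card_dvd_of_le
      (inf_le_left : (P : Subgroup G) ⊓ Subgroup.centralizer {y} ≤ P))
    have h1 : Subgroup.zpowers z < (P : Subgroup G) ⊓ Subgroup.centralizer {y} := by
      refine lt_of_le_of_ne (le_inf hz.Z_le fun w hw => Subgroup.mem_centralizer_singleton_iff.2
        (hz.commZ hw hy).symm.eq) fun e => hyz (e ▸ ⟨hy, ?_⟩)
      exact Subgroup.mem_centralizer_singleton_iff.2 rfl
    have h2 := lt_of_le_of_ne (Subgroup.card_le_of_le h1.le)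
      fun e => h1.ne (Subgroup.eq_of_le_of_card_ge h1.le e.ge)
    rw [hz.card_Z, e] at h2
    have h3 : j ≠ 3 := fun h3 => hyz ((hz.cent y hy).2 fun g hg =>
      Subgroup.mem_centralizer_singleton_iff.1 ((Subgroup.eq_of_le_of_card_ge inf_le_left
        (by rw [e, h3, hz.card])).ge hg).2)
    have h4 : 1 < j := (Nat.pow_lt_pow_iff_right hpr.one_lt).1 (by rwa [pow_one])
    rw [e, show j = 2 by omega]
  have hmove : ∀ A ≤ (P : Subgroup G), Nat.card A = p ^ 2 →
      ∃ g ∈ Subgroup.normalizer (A : Set G), g * z * g⁻¹ ∉ Subgroup.zpowers z := by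
    intro A hAP hA
    obtain ⟨y, hy, hyz⟩ := hz.exists_not_mem hA
    obtain ⟨g, hg⟩ := hconj ⟨z, hz.mem⟩ ⟨y, hAP hy⟩ (fun e => hz.z_ne (congrArg Subtype.val e))
      (fun e => hyz (by rw [show y = 1 from congrArg Subtype.val e]; exact one_mem _))
    have hg' : g * z * g⁻¹ = y := hg
    -- `g P g⁻¹` is a Sylow subgroup of `C(y)` containing `y`; it contains a conjugate of `A`
    have hQ : Fus.SylIn p ((g • P : Sylow p G) : Subgroup G) (Subgroup.centralizer {y}) :=
      Fus.sylIn_of_sylow_le _ (by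
        rintro _ ⟨u, hu, rfl⟩
        rw [Subgroup.mem_centralizer_singleton_iff, ← hg']
        have := (hz.commZ (Subgroup.mem_zpowers z) hu).eq
        show g * u * g⁻¹ * (g * z * g⁻¹) = g * z * g⁻¹ * (g * u * g⁻¹)
        calc g * u * g⁻¹ * (g * z * g⁻¹) = g * (u * z) * g⁻¹ := by group
          _ = _ := by rw [this]; group)
    obtain ⟨k, hk, hkA⟩ := hQ.exists_conj (P.isPGroup'.to_le hAP) fun a ha =>
      Subgroup.mem_centralizer_singleton_iff.2 (PLocal.ESCube.ES.comm_of_card hA ha hy)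
    set h := g⁻¹ * k with hh
    have hAh : ∀ a ∈ A, h * a * h⁻¹ ∈ (P : Subgroup G) := fun a ha => by
      obtain ⟨u, hu, e⟩ := hkA a ha
      have e' : g * u * g⁻¹ = k * a * k⁻¹ := e
      rw [show h * a * h⁻¹ = g⁻¹ * (k * a * k⁻¹) * g by rw [hh]; group, ← e',
        show g⁻¹ * (g * u * g⁻¹) * g = u by group]
      exact hu
    have hyh : h * y * h⁻¹ = z := by
      rw [show h * y * h⁻¹ = g⁻¹ * (k * y * k⁻¹) * g by rw [hh]; group,
        Subgroup.mem_centralizer_singleton_iff.1 hk, ← hg']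
      group
    clear_value h
    set A' := A.map (MulAut.conj h).toMonoidHom with hA'
    have hA'P : A' ≤ P := by
      rintro _ ⟨a, ha, rfl⟩; exact hAh a ha
    have hA'c : Nat.card A' = p ^ 2 := by
      rw [hA', Subgroup.card_map_of_injective (MulAut.conj h).injective, hA]
    obtain ⟨b, hb, hbA⟩ := hz.exists_not_mem' hA'c
    have hy1 : ∀ j : ℤ, y ^ j ≠ 1 → y ^ j ∉ Subgroup.zpowers z := fun j h1 h2 => by
      have := Fus.AC.eq_zpowers_of_card (p := p) (L := Subgroup.zpowers y) (by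
        rw [Nat.card_zpowers, orderOf_eq_prime (hz.exp y (hAP hy))
          fun e => hyz (e ▸ one_mem _)]) (Subgroup.zpow_mem_zpowers y j) h1
      exact hyz (Subgroup.zpowers_le.2 h2 (this ▸ Subgroup.mem_zpowers y))
    have hz' : h * z * h⁻¹ ∈ A' := Subgroup.mem_map_of_mem _ (hz.z_mem hAP hA)
    have hz'' : h * z * h⁻¹ ∉ Subgroup.zpowers z := by
      rintro ⟨j, hj⟩
      have e : y ^ j = z := by
        have hj' : z ^ j = h * z * h⁻¹ := hj
        nth_rewrite 1 [← hyh] at hj'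
        rw [conj_zpow] at hj'
        simpa using hj'
      exact hy1 j (e ▸ hz.z_ne) (e ▸ Subgroup.mem_zpowers z)
    have hne := hz.comm_ne hA'P hA'c hz' hz'' hb hbA
    obtain ⟨j, hj⟩ := Subgroup.mem_zpowers_iff.1 (hz.comm b hb _ (hA'P hz'))
    refine ⟨h⁻¹ * b * h, Subgroup.mem_normalizer_fintype fun a ha => ?_, fun hm => ?_⟩
    · obtain ⟨a', ha', e⟩ := (Subgroup.mem_normalizer_iff.1 (hz.le_normalizer hA'P hA'c hb) _).1
        (Subgroup.mem_map_of_mem (MulAut.conj h).toMonoidHom ha)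
      have e' : h * a' * h⁻¹ = b * (h * a * h⁻¹) * b⁻¹ := e
      rw [show h⁻¹ * b * h * a * (h⁻¹ * b * h)⁻¹ = h⁻¹ * (b * (h * a * h⁻¹) * b⁻¹) * h by group,
        ← e']
      simpa [mul_assoc] using ha'
    · have e : y ^ j = h⁻¹ * z ^ j * h := by rw [← hyh, conj_zpow]; group
      have e2 : h⁻¹ * b * h * z * (h⁻¹ * b * h)⁻¹ = y ^ j * z := by
        rw [e, hj, commutatorElement_def]; group
      rw [e2] at hm
      refine hy1 j (fun e3 => hne ?_)
        ((Subgroup.mul_mem_cancel_right _ (Subgroup.mem_zpowers z)).1 hm)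
      rw [← hj, ← hyh, conj_zpow, e3]; simp
  have hpt : ∀ A ≤ (P : Subgroup G), Nat.card A = p ^ 2 → ∀ a ∈ A, ∀ b ∈ A, ∀ (ha : c a ≠ 0)
      (hb : c b ≠ 0), Projectivization.mk (ZMod p) (c a) ha =
        Projectivization.mk (ZMod p) (c b) hb := by
    intro A hAP hA a haA b hbA ha hb
    have hzA := hz.z_mem hAP hA
    obtain ⟨r, s, e⟩ := Fus.AC.gen_of_card_sq hA (x := ⟨z, hzA⟩) (y := ⟨b, hbA⟩)
      (Subtype.ext (PLocal.ESCube.ES.comm_of_card hA hzA hbA))
      (fun e => hz.z_ne (congrArg Subtype.val e))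
      (fun ⟨k, hk⟩ => hb ((hc.zero b (hAP hbA)).2 ⟨k, congrArg Subtype.val hk⟩)) ⟨a, haA⟩
    have e' : a = z ^ r * b ^ s := congrArg Subtype.val e
    rw [Projectivization.mk_eq_mk_iff']
    refine ⟨s, ?_⟩
    rw [e', hc.add _ (zpow_mem hz.mem r) _ (zpow_mem (hAP hbA) s), hc.zpow (hAP hbA),
      (hc.zero _ (zpow_mem hz.mem r)).2 (Subgroup.zpow_mem_zpowers z r), zero_add]
  have hsub : ∀ x : Class.Dickson.P1 (ZMod p), ∃ A ≤ (P : Subgroup G), Nat.card A = p ^ 2 ∧
      ∀ a ∈ A, ∀ ha : c a ≠ 0, Projectivization.mk (ZMod p) (c a) ha = x := by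
    intro x
    obtain ⟨g, hg, e⟩ := hc.surj x.rep
    have hg0 : c g ≠ 0 := e ▸ x.rep_nonzero
    have h1 := hcard2 g hg fun h => hg0 ((hc.zero g hg).2 h)
    refine ⟨_, inf_le_left, h1, fun a ha ha0 => ?_⟩
    rw [hpt _ inf_le_left h1 a ha g ⟨hg, Subgroup.mem_centralizer_singleton_iff.2 rfl⟩ ha0 hg0]
    simp only [e, Projectivization.mk_rep]
  choose A hAP hA hAx using hsub
  have hAi : Function.Injective A := fun x x' e => by
    obtain ⟨y, hy, hyz⟩ := hz.exists_not_mem (hA x)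
    have hy0 : c y ≠ 0 := fun h => hyz ((hc.zero y (hAP x hy)).1 h)
    rw [← hAx x y hy hy0, ← hAx x' y (e ▸ hy) hy0]
  let x3 : Fin 3 → Class.Dickson.P1 (ZMod p) :=
    ![Class.Dickson.inf _, Class.Dickson.pt 0, Class.Dickson.pt 1]
  have hx3 : Function.Injective x3 := by
    intro i j e
    fin_cases i <;> fin_cases j <;>
      simp_all [x3, Class.Dickson.pt_ne_inf, Class.Dickson.inf_ne_pt, Class.Dickson.pt_inj]
  obtain ⟨h13, ⟨e⟩⟩ := PLocal.ESCube.three hc (A ∘ x3) (hAi.comp hx3) (fun i => hAP _)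
    (fun i => hA _) (fun i => hmove _ (hAP _) (hA _)) (by omega)
  have := PLocal.ESCube.card_le_twelve _ e fun x => by
    obtain ⟨g, hg, hgz⟩ := hmove _ (hAP x) (hA x)
    obtain ⟨y, hy, hy0, t, ht, h1, h2⟩ := hc.exists_point (hAP x) (hA x) hg hgz
    rw [hAx x y hy hy0] at h1
    exact ⟨t, ht, h1, fun e => by have := h2 2 e; rw [h13] at this; omega,
      fun e => by have := h2 3 e; rw [h13] at this; omega⟩
  rw [Nat.card_zmod] at this
  omega

end Cfsg.Agent.S3055
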