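import Mathlib
import Cfsg.Statements.S3057
import Cfsg.Agent.PLocal.SylowChain
import Cfsg.Agent.PLocal.PSolv
-- import your own Cfsg.Agent.* helpers here

set_option autoImplicit false
open Cfsg

namespace Cfsg.Agent.S3057

open Cfsg.Agent.PLocal Cfsg.Agent.PLocal.Amb Subgroup

/-- Let p be a prime and G a finite p-solvable group of order divisible by p, with Sylow p-subgroup P. Then the Sylow p-subgroups of G fail to be chain-connected through nontrivial intersections (equivalently, G has a strongly p-embedded subgroup) if and only if O_p(G) = 1 and P is cyclic or, for p = 2, generalized quaternion. -/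
theorem result {G : Type*} [Group G] [Finite G]
    (p : ℕ) [Fact p.Prime] (hdiv : p ∣ Nat.card G) (hsol : Cfsg.IsPSolvable p G) (P : Sylow p G) :
    ¬ Cfsg.IsSylowChainConnected p G ↔
      Cfsg.pCore p G = ⊥ ∧ (IsCyclic ↥P ∨ (p = 2 ∧ ∃ n : ℕ, Nonempty (↥P ≃* QuaternionGroup (2 ^ n)))) := by
  rw [not_chainConnected_iff]
  constructor
  · rintro ⟨H, h⟩
    refine ⟨SPE.eq_bot_of_normal h (Grp.pCore_isPGroup p G), ?_⟩
    obtain ⟨Q, -, hQ, -⟩ := SPE.exists_sylow_le h
    obtain ⟨g, hg⟩ := MulAction.exists_smul_eq G Q P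
    have h' := SPE.map_conj h g
    have hP : (P : Subgroup G) ≤ cj(g, H) := by
      rw [← hg, coe_smul_sylow]
      exact cj_mono g hQ
    generalize cj(g, H) = H' at h' hP
    rcases rank_one_or_exists_noncyclic P.isPGroup' with h1 | ⟨A, hAP, hA, hc⟩
    · exact h1
    exfalso
    have := hA.1
    set K := pPrimeCore p G with hK
    have hKH : K ≤ H' := spe_le_of_not_isCyclic h' (isEA_isPGroup hA) hc (hAP.trans hP)
      (le_top.trans (normalizer_eq_top _).ge) (Grp.pPrimeCore_coprime p G)
    have hKt : K ≠ ⊤ := fun h0 => SPE.ne_top h' (top_le_iff.1 (h0 ▸ hKH))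
    have : Nontrivial (G ⧸ K) := by
      rw [QuotientGroup.nontrivial_iff]; exact hKt
    have hO : pCore p (G ⧸ K) ≠ ⊥ :=
      (IsPSolvable.pCore_ne_bot_or (IsPSolvable.quotient hsol K)).resolve_right
        (not_not.2 (Grp.pPrimeCore_quotient_pPrimeCore p G))
    set N := (pCore p (G ⧸ K)).comap (QuotientGroup.mk' K) with hN
    have hNmap : N.map (QuotientGroup.mk' K) = pCore p (G ⧸ K) :=
      map_comap_eq_self_of_surjective (QuotientGroup.mk'_surjective K) _
    refine SPE.not_le_of_normal h' (N := N) ?_ ?_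
    · exact (dvd_card_of_ne_bot (Grp.pCore_isPGroup p _) hO hNmap.ge).trans (card_map_dvd _ _)
    · have h2 := ((isSyl_top P).map (QuotientGroup.mk' K))
      rw [← MonoidHom.range_eq_map, MonoidHom.range_eq_top.2 (QuotientGroup.mk'_surjective K)] at h2
      have h3 := comap_mono (f := QuotientGroup.mk' K) (pCoreOf_top (G := G ⧸ K) p ▸ h2.pCoreOf_le)
      rw [comap_map_eq, QuotientGroup.ker_mk'] at h3
      exact h3.trans (sup_le hP hKH)
  · rintro ⟨hO, h1⟩
    have hP : (P : Subgroup G) ≠ ⊥ := by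
      rw [Ne, (isSyl_top P).eq_bot_iff, not_not, card_top]
      exact hdiv
    obtain ⟨z, hz, hzo⟩ := exists_orderOf_eq_of_ne_bot P.isPGroup' hP
    have hZ : Nat.card (zpowers z) = p := by rw [Nat.card_zpowers, hzo]
    refine ⟨𝐍[zpowers z], hdiv, fun h => ?_, P, ?_⟩
    · have h2 := Grp.le_pCore (normalizer_eq_top_iff.1 h)
        (P.isPGroup'.to_le ((zpowers_le).2 hz))
      rw [hO, le_bot_iff] at h2
      rw [h2, card_bot] at hZ
      exact (Fact.out : p.Prime).one_lt.ne hZ
    · rw [kGeneratedCore_one_le_iff P.isPGroup']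
      intro A hA hA1 g hg
      obtain ⟨y, hy, hyo⟩ := exists_orderOf_eq_of_ne_bot (P.isPGroup'.to_le hA) hA1
      have h2 : zpowers y = zpowers z := eq_of_card_eq_prime_of_rank_one h1
        ((zpowers_le).2 (hA hy)) ((zpowers_le).2 hz) (by rw [Nat.card_zpowers, hyo]) hZ
      have h3 : zpowers z ≤ A := h2 ▸ (zpowers_le).2 hy
      rw [← cj_eq_iff]
      exact eq_of_card_eq_prime_of_rank_one h1 ((cj_le_of_mem_normalizer h3 hg).trans hA)
        (h3.trans hA) (by rw [card_cj, hZ]) hZ

end Cfsg.Agent.S3057
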