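import Mathlib
import Cfsg.Statements.S3059
import Cfsg.Agent.PLocal.SylowChain
-- import your own Cfsg.Agent.* helpers here

set_option autoImplicit false
open Cfsg

namespace Cfsg.Agent.S3059

open Cfsg.Agent.PLocal Cfsg.Agent.PLocal.Amb Subgroup

/-- Let p be a prime and H a strongly p-embedded subgroup of the finite group G in the classical sense: H is proper, p divides the order of H, and H ∩ gHg⁻¹ has order prime to p for every g outside H. Then for every normal subgroup N of G of order divisible by p, G = H · O^p(N), where O^p(N) is the subgroup generated by the elements of N of order prime to p. -/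
theorem result {G : Type*} [Group G] [Finite G]
    (p : ℕ) [Fact p.Prime] (H : Subgroup G) (hH : H ≠ ⊤) (hpH : p ∣ Nat.card H)
    (hse : ∀ g : G, g ∉ H → ¬ p ∣ Nat.card ↥(H ⊓ H.map (MulAut.conj g).toMonoidHom))
    (N : Subgroup G) [N.Normal] (hN : p ∣ Nat.card N) :
    H ⊔ Subgroup.closure {g : G | g ∈ N ∧ (orderOf g).Coprime p} = ⊤ := by
  have h := SPE.of_not_dvd_card_inf hH hpH hse
  obtain ⟨P, -, hP, -⟩ := SPE.exists_sylow_le h
  rw [← pRes_eq, eq_top_iff]
  intro g _
  obtain ⟨n, hn, m, hm, rfl⟩ := SPE.exists_mul_of_normal h hN g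
  refine mul_mem ?_ (mem_sup_left hm)
  have h1 := ((isSyl_top P).inf_of_le le_top (normalizer_eq_top N).ge).pRes_sup
  rw [← h1] at hn
  exact sup_le le_sup_right (inf_le_left.trans (hP.trans le_sup_left)) hn

end Cfsg.Agent.S3059
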