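import Mathlib
import Cfsg.Statements.S3063
import Cfsg.Agent.PLocal.CentrallyLarge
-- import your own Cfsg.Agent.* helpers here

set_option autoImplicit false
open Cfsg
open scoped commutatorElement

namespace Cfsg.Agent.S3063



/-- A weak replacement Theorem for metabelian p-groups: let S be a finite p-group whose derived subgroup is abelian and A an abelian subgroup of S of largest possible order. Then the normal closure of A in S contains an abelian subgroup B of the same order as A that is normal in S. -/
theorem result {S : Type*} [Group S] [Finite S] {p : ℕ} [Fact p.Prime]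
    (hS : IsPGroup p S) (hmeta : IsMulCommutative ↥(commutator S))
    (A : Subgroup S) (hA : A ∈ Cfsg.maxAbelianSubgroups S) :
    ∃ B ∈ Cfsg.maxAbelianSubgroups S, B.Normal ∧ B ≤ Subgroup.normalClosure (A : Set S) := by
  have := hS.isNilpotent
  obtain ⟨B, ⟨hB, hBA⟩, hmax⟩ := Set.exists_max_image
    {B : Subgroup S | B ∈ maxAbelianSubgroups S ∧ B ≤ Subgroup.normalClosure (A : Set S)}
    PLocal.ucsWeight (Set.toFinite _) ⟨A, hA, Subgroup.le_normalClosure⟩
  refine ⟨B, hB, ?_, hBA⟩
  rw [← Subgroup.normalizer_eq_top_iff, eq_top_iff]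
  intro x _
  by_contra hx
  have hM : IsMulCommutative (PLocal.commEl B x) := by
    apply PLocal.isMulCommutative_of_le hmeta
    rw [PLocal.commEl_le_iff]
    intro a _
    exact Subgroup.commutator_mem_commutator (Subgroup.mem_top a) (Subgroup.mem_top x)
  have hne : ¬ B ≤ Subgroup.centralizer (PLocal.commEl B x : Set S) := by
    intro h
    apply hx
    apply PLocal.mem_normalizer_of_commEl_le
    exact (Subgroup.le_centralizer_iff.1 h).trans (PLocal.maxAb_centralizer hB).le
  obtain ⟨h1, h2⟩ := PLocal.replA_weight hB.1 hM hne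
  refine absurd (hmax _ ⟨⟨PLocal.replA_comm hB.1 hM, fun C hC => (hB.2 C hC).trans h1⟩, ?_⟩) (not_le.2 h2)
  refine sup_le ?_ (inf_le_left.trans hBA)
  rw [PLocal.commEl_le_iff]
  intro a ha
  have : ⁅a, x⁆ = a * (x * a⁻¹ * x⁻¹) := by simp only [commutatorElement_def]; group
  rw [this]
  exact mul_mem (hBA ha) (Subgroup.normalClosure_normal.conj_mem _ (inv_mem (hBA ha)) x)

end Cfsg.Agent.S3063
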