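import Mathlib
import Cfsg.Statements.S3064
import Cfsg.Agent.PLocal.IsolatedP
import Cfsg.Agent.Char.Frobenius
import Cfsg.Agent.Solv.Frobenius
-- import your own Cfsg.Agent.* helpers here

set_option autoImplicit false
open Cfsg

namespace Cfsg.Agent.S3064

open Cfsg.Agent.PLocal Cfsg.Agent.PLocal.Amb Subgroup

universe u

theorem aux {p : ℕ} [hp : Fact p.Prime] (n : ℕ) : ∀ {G : Type u} [Group G] [Finite G] (x : G),
    Nat.card G = n → (∃ k : ℕ, x ^ p ^ k = 1) → IsIsolated x →
    (∀ H : Subgroup G, (Nat.card H).Coprime p → x ∈ 𝐍[H] → H ≤ centralizer ({x} : Set G)) →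
    x ∈ center G := by
  induction n using Nat.strong_induction_on with
  | _ n ih =>
  intro G _ _ x hn hx hiso hb
  by_contra hxZ
  set M := centralizer ({x} : Set G) with hM
  have hprop : ∀ H : Subgroup G, H ≠ ⊤ → x ∈ H → H ≤ M := by
    intro H hH hxH
    have hlt : Nat.card H < n := by
      rw [← hn]
      exact lt_of_le_of_ne (card_le_card_group H) fun h => hH (eq_top_of_card_eq H h)
    have := ih _ hlt (⟨x, hxH⟩ : H) rfl (by
      obtain ⟨k, hk⟩ := hx
      exact ⟨k, Subtype.ext (by simpa using hk)⟩) (iso_subgroup hiso H hxH) (by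
      intro K hK hxK y hy
      rw [normalizer_eq_subgroupOf, mem_subgroupOf] at hxK
      have := hb (K.map H.subtype) (by rwa [card_map_of_injective H.subtype_injective]) hxK
        (mem_map_of_mem H.subtype hy)
      rw [mem_centralizer_singleton_iff] at this ⊢
      exact Subtype.ext this)
    intro h hh
    rw [hM, mem_centralizer_singleton_iff]
    exact congrArg Subtype.val (mem_center_iff.1 this ⟨h, hh⟩)
  have hZM : center G ≤ M := center_le_centralizer _
  have hTI : ∀ g : G, g ∉ M → ∀ t ∈ M, g * t * g⁻¹ ∈ M → t ∈ center G := by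
    intro g hg t ht hgt
    by_contra htZ
    apply hg
    have h1 : centralizer ({t} : Set G) ≠ ⊤ := by
      intro h
      apply htZ
      rw [mem_center_iff]
      intro y
      exact mem_centralizer_singleton_iff.1 (h ▸ mem_top y)
    have h2 : x ∈ centralizer ({t} : Set G) := by
      rw [hM, mem_centralizer_singleton_iff] at ht
      exact mem_centralizer_singleton_iff.2 ht.symm
    have h3 : g⁻¹ * x * g⁻¹⁻¹ ∈ centralizer ({t} : Set G) := by
      rw [hM, mem_centralizer_singleton_iff] at hgt
      rw [mem_centralizer_singleton_iff, inv_inv]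
      calc g⁻¹ * x * g * t = g⁻¹ * (x * (g * t * g⁻¹)) * g := by group
        _ = g⁻¹ * ((g * t * g⁻¹) * x) * g := by rw [hgt]
        _ = _ := by group
    have h4 := hiso g⁻¹ (mem_centralizer_singleton_iff.1 (hprop _ h1 h2 h3)).symm
    exact inv_mem_iff.1 (mem_cent1.2 h4)
  set f := QuotientGroup.mk' (center G) with hf
  have hfs : Function.Surjective f := QuotientGroup.mk'_surjective _
  have hker : f.ker = center G := QuotientGroup.ker_mk' _
  have hmem : ∀ g : G, f g ∈ M.map f ↔ g ∈ M := by
    intro g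
    rw [← mem_comap, comap_map_eq, hker, sup_eq_left.2 hZM]
  have hTI' : ∀ g : G ⧸ center G, g ∉ M.map f → ∀ t ∈ M.map f, g * t * g⁻¹ ∈ M.map f → t = 1 := by
    intro g' hg t' ht hgt
    obtain ⟨g, rfl⟩ := hfs g'
    obtain ⟨t, rfl⟩ := hfs t'
    rw [← map_inv, ← map_mul, ← map_mul] at hgt
    rw [hmem] at hg ht hgt
    rw [← MonoidHom.mem_ker, hker]
    exact hTI g hg t ht hgt
  obtain ⟨N, -, hNn, hNc⟩ := Char.exists_frobenius_kernel hTI'
  have hfx : f x ≠ 1 := by rwa [Ne, ← MonoidHom.mem_ker, hker]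
  have hMtop : M ≠ ⊤ := by
    intro h
    apply hxZ
    rw [mem_center_iff]
    intro y
    exact mem_centralizer_singleton_iff.1 (show y ∈ M from h ▸ mem_top y)
  have hFC : IsFrobeniusComplement (M.map f) := by
    rw [Solv.Frob.isFrobeniusComplement_iff]
    refine ⟨fun h => hfx ?_, fun h => hMtop ?_, fun g h hh h1 h2 => ?_⟩
    · rw [← mem_bot, ← h, hmem]; exact self_mem_cent1 x
    · rw [eq_top_iff]; intro y _; rw [← hmem, h]; exact mem_top _
    · by_contra hg; exact h1 (hTI' g hg h hh h2)
  have hcop := Solv.Frob.coprime_card_index hFC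
  have hNp : (Nat.card N).Coprime p := by
    rw [← hNc.index_eq_card]
    refine (Nat.Coprime.coprime_dvd_left ?_ hcop).symm
    obtain ⟨k, hk⟩ := hx
    have h1 : orderOf (f x) ∣ p ^ k := orderOf_dvd_of_pow_eq_one (by rw [← map_pow, hk, map_one])
    obtain ⟨j, -, hj⟩ := (Nat.dvd_prime_pow hp.out).1 h1
    have hj0 : j ≠ 0 := by
      rintro rfl
      exact hfx (orderOf_eq_one_iff.1 (by simpa using hj))
    exact (hj ▸ dvd_pow_self p hj0).trans
      (orderOf_dvd_natCard _ ((hmem x).2 (self_mem_cent1 x)))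
  set K := N.comap f with hK
  have hKn : K.Normal := hNn.comap f
  -- the `p`-elements of `K` are central
  have hKc : ∀ B : Subgroup G, B ≤ K → IsPGroup p B → B ≤ center G := by
    intro B hB hpB y hy
    rw [← hker, MonoidHom.mem_ker]
    exact eq_one_of_isPGroup_of_coprime (hpB.map f) (mem_map_of_mem f hy)
      (Transfer.coprime_orderOf_of_mem hNp (hB hy))
  have hKp : HasNormalPComplement p K := by
    rw [Transfer.hasNormalPComplement_subgroup_iff_local]
    intro B hB hpB _ g _ _ _ b hb
    exact (mem_center_iff.1 (hKc B hB hpB hb) g).symm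
  have hL : 𝐎[p, K] ≤ M := by
    apply hb
    · rw [card_map_of_injective K.subtype_injective]
      exact Transfer.hasNormalPComplement_iff_coprime.1 hKp
    · exact normalizer_le_normalizer_pRes p K ((normalizer_eq_top K).ge (mem_top x))
  obtain ⟨T, hT⟩ := exists_isSyl p K
  have hKM : K ≤ M := by
    rw [← hT.pRes_sup]
    exact sup_le hL ((hKc T hT.le hT.pgrp).trans hZM)
  apply hMtop
  rw [eq_top_iff]
  intro g _
  obtain ⟨a, ha, b, hb, hab⟩ := Solv.exists_mul_of_isComplement' hNc (f g)
  obtain ⟨a, rfl⟩ := hfs a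
  rw [← hmem, hab]
  exact mul_mem ((hmem a).2 (hKM ha)) hb

/-- Let S be a Sylow p-subgroup of the finite group G and x an element of S such that (i) x is the only G-conjugate of x lying in S, and (ii) x centralizes every subgroup of order prime to p that it normalizes. Then x lies in the centre of G. -/
theorem result {G : Type*} [Group G] [Finite G] {p : ℕ} [Fact p.Prime]
    (S : Sylow p G) (x : G) (hx : x ∈ S)
    (hU : ∀ g : G, g⁻¹ * x * g ∈ S → g⁻¹ * x * g = x)
    (hb : ∀ H : Subgroup G, (Nat.card H).Coprime p → (∀ h ∈ H, x * h * x⁻¹ ∈ H) → ∀ h ∈ H, x * h = h * x) :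
    x ∈ Subgroup.center G := by
  refine aux (p := p) _ x rfl (isPGroup_iff.1 S.isPGroup' x hx)
    (iso_of_isSyl (isSyl_top S) hx fun g hg => ?_) fun H hH hxH h hh => ?_
  · simpa using hU g⁻¹ (by rw [inv_inv]; exact hg)
  · exact mem_centralizer_singleton_iff.2
      (hb H hH (fun h hh => conj_mem_of_mem_normalizer hxH hh) h hh).symm

end Cfsg.Agent.S3064
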