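import Mathlib
import Cfsg.Statements.S3075
import Cfsg.Agent.Solv.Supersolvable2
-- import your own Cfsg.Agent.* helpers here

set_option autoImplicit false
open Cfsg

namespace Cfsg.Agent.S3075

open Subgroup

theorem cyc {N : Type*} [Group N] [Finite N] {p : ℕ} [hp : Fact p.Prime] {A B : Subgroup N}
    (hA : Nat.card A = p ^ 2) (h : B < A) : IsCyclic B := by
  have h1 : Nat.card B ∣ p ^ 2 := hA ▸ card_dvd_of_le h.le
  obtain ⟨k, hk, e⟩ := (Nat.dvd_prime_pow hp.out).1 h1
  have h2 : k ≠ 2 := by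
    rintro rfl
    exact h.ne (eq_of_le_of_card_ge h.le (by rw [hA, e]))
  have : k = 0 ∨ k = 1 := by omega
  rcases this with rfl | rfl
  · have : Subsingleton B := (Nat.card_eq_one_iff_unique.1 (by simpa using e)).1
    infer_instance
  · exact isCyclic_of_prime_card (by simpa using e : Nat.card B = p)

/-- Let p be an odd prime and N a finite group with a normal elementary abelian subgroup A of order p² that is its own centralizer in N, such that N/A is isomorphic to SL₂(p) (over any field F with p elements). Then N splits over A: some subgroup U of N satisfies A ∩ U = 1 and AU = N. -/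
theorem result {N : Type*} [Group N] [Finite N] {p : ℕ} [Fact p.Prime] (hp : p ≠ 2)
    (A : Subgroup N) [A.Normal] (hAcomm : IsMulCommutative A) (hAcard : Nat.card A = p ^ 2) (hAexp : Monoid.exponent ↥A = p)
    (hAself : Subgroup.centralizer (A : Set N) = A)
    {F : Type*} [Field F] [Fintype F] (hF : Fintype.card F = p) (e : N ⧸ A ≃* Matrix.SpecialLinearGroup (Fin 2) F) :
    ∃ U : Subgroup N, A ⊓ U = ⊥ ∧ A ⊔ U = ⊤ := by
  have hpp : p.Prime := Fact.out
  have hodd : Odd p := hpp.odd_of_ne_two hp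
  obtain ⟨m, hm⟩ := hodd
  have comm : ∀ a ∈ A, ∀ b ∈ A, a * b = b * a := fun a ha b hb =>
    congrArg Subtype.val (hAcomm.is_comm.comm (⟨a, ha⟩ : A) ⟨b, hb⟩)
  have hpow : ∀ a ∈ A, a ^ p = 1 := fun a ha => by
    have := Monoid.pow_exponent_eq_one (⟨a, ha⟩ : A)
    rw [hAexp] at this
    exact congrArg Subtype.val this
  have hsq : ∀ a ∈ A, (a ^ (m + 1)) ^ 2 = a := fun a ha => by
    rw [← pow_mul, show (m + 1) * 2 = p + 1 by omega, pow_succ, hpow a ha, one_mul]
  have hchar : (2 : F) ≠ 0 := by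
    intro h2
    have h3 : ((Fintype.card F : ℕ) : F) = 0 := FiniteField.cast_card_eq_zero F
    rw [hF, hm] at h3
    push_cast at h3
    rw [h2] at h3
    simp at h3
  let π : N →* Matrix.SpecialLinearGroup (Fin 2) F := e.toMonoidHom.comp (QuotientGroup.mk' A)
  have hπ : Function.Surjective π := e.surjective.comp (QuotientGroup.mk'_surjective A)
  have hker : ∀ x, π x = 1 ↔ x ∈ A := fun x => by
    simp [π, QuotientGroup.eq_one_iff]
  obtain ⟨z0, hz0⟩ := hπ (-1)
  have hz : π (z0 ^ p) = -1 := by rw [map_pow, hz0, Odd.neg_one_pow ⟨m, hm⟩]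
  have hz2 : z0 ^ p * z0 ^ p = 1 := by
    have : z0 ^ 2 ∈ A := (hker _).1 (by rw [map_pow, hz0]; simp)
    rw [← pow_two, ← pow_mul, mul_comm, pow_mul, hpow _ this]
  set z := z0 ^ p with hzdef
  clear_value z
  have hzinv : z⁻¹ = z := inv_eq_of_mul_eq_one_right hz2
  have hzA : z ∉ A := by
    intro h
    have := (hker z).2 h
    rw [hz] at this
    have h1 := congrArg (fun M : Matrix.SpecialLinearGroup (Fin 2) F => M 0 0) this
    simp at h1
    apply hchar
    linear_combination -h1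
  have hconj : ∀ g : N, g⁻¹ * z * g * z⁻¹ ∈ A := fun g => (hker _).1 (by
    simp [map_mul, map_inv, hz])
  have hAn : A.Normal := inferInstance
  -- conjugation by `g⁻¹ z g` and by `z` agree on `A`
  have hact : ∀ g : N, ∀ a ∈ A, z * (g * a * g⁻¹) * z⁻¹ = g * (z * a * z⁻¹) * g⁻¹ := by
    intro g a ha
    have h1 := comm _ (hconj g) _ (hAn.conj_mem a ha z)
    have : z * (g * a * g⁻¹) * z⁻¹ =
        g * ((g⁻¹ * z * g * z⁻¹) * (z * a * z⁻¹) * (g⁻¹ * z * g * z⁻¹)⁻¹) * g⁻¹ := by group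
    rw [this, h1]; group
  let C : Subgroup N :=
    { carrier := {a | a ∈ A ∧ z * a * z⁻¹ = a}
      one_mem' := ⟨A.one_mem, by simp⟩
      mul_mem' := fun {a b} ha hb => ⟨A.mul_mem ha.1 hb.1, by
        rw [show z * (a * b) * z⁻¹ = (z * a * z⁻¹) * (z * b * z⁻¹) by group, ha.2, hb.2]⟩
      inv_mem' := fun {a} ha => ⟨A.inv_mem ha.1, by
        rw [show z * a⁻¹ * z⁻¹ = (z * a * z⁻¹)⁻¹ by group, ha.2]⟩ }
  let I : Subgroup N :=
    { carrier := {a | a ∈ A ∧ z * a * z⁻¹ = a⁻¹}
      one_mem' := ⟨A.one_mem, by simp⟩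
      mul_mem' := fun {a b} ha hb => ⟨A.mul_mem ha.1 hb.1, by
        rw [show z * (a * b) * z⁻¹ = (z * a * z⁻¹) * (z * b * z⁻¹) by group, ha.2, hb.2,
          comm a ha.1 b hb.1, mul_inv_rev]⟩
      inv_mem' := fun {a} ha => ⟨A.inv_mem ha.1, by
        rw [show z * a⁻¹ * z⁻¹ = (z * a * z⁻¹)⁻¹ by group, ha.2]⟩ }
  have hCn : C.Normal := ⟨fun a ha g => ⟨hAn.conj_mem a ha.1 g, by rw [hact g a ha.1, ha.2]⟩⟩
  have hIn : I.Normal := ⟨fun a ha g => ⟨hAn.conj_mem a ha.1 g, by
    rw [hact g a ha.1, ha.2]; group⟩⟩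
  have hC : C < A := by
    refine lt_of_le_of_ne (fun a ha => ha.1) fun h => hzA ?_
    rw [← hAself]
    intro a ha
    have : a ∈ C := h ▸ ha
    rw [← this.2]
    conv_rhs => rw [this.2]
    group
  have hI : I = A := by
    by_contra hI
    have hI' : I < A := lt_of_le_of_ne (fun a ha => ha.1) hI
    have := cyc hAcard hC
    have := cyc hAcard hI'
    have h1 := Cfsg.Agent.Solv.commutator_le_centralizer_of_cyclic_normal C
    have h2 := Cfsg.Agent.Solv.commutator_le_centralizer_of_cyclic_normal I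
    have h3 : commutator N ≤ A := by
      rw [← hAself]
      intro c hc a ha
      have hb : a ^ (m + 1) ∈ A := A.pow_mem ha _
      rw [← hsq a ha]
      set b := a ^ (m + 1)
      have hzb : z * b * z⁻¹ ∈ A := hAn.conj_mem b hb z
      have hzz : z * (z * b * z⁻¹) * z⁻¹ = b := by
        rw [show z * (z * b * z⁻¹) * z⁻¹ = (z * z) * b * (z * z)⁻¹ by group, hz2]; simp
      have k1 : b * (z * b * z⁻¹) ∈ C := ⟨A.mul_mem hb hzb, by
        rw [show z * (b * (z * b * z⁻¹)) * z⁻¹ = (z * b * z⁻¹) * (z * (z * b * z⁻¹) * z⁻¹) by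
          group, hzz, comm _ hb _ hzb]⟩
      have k2 : (z * b * z⁻¹)⁻¹ * b ∈ I := ⟨A.mul_mem (A.inv_mem hzb) hb, by
        rw [show z * ((z * b * z⁻¹)⁻¹ * b) * z⁻¹ = (z * (z * b * z⁻¹) * z⁻¹)⁻¹ * (z * b * z⁻¹) by
          simp only [mul_inv_rev, inv_inv, mul_assoc, inv_mul_cancel_left], hzz]; group⟩
      have e1 := h1 hc _ k1
      have e2 := h2 hc _ k2
      rw [show b ^ 2 = (b * (z * b * z⁻¹)) * ((z * b * z⁻¹)⁻¹ * b) by rw [pow_two]; group,
        mul_assoc, e2, ← mul_assoc, e1, mul_assoc]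
    obtain ⟨x, hx⟩ := hπ ⟨!![1, 1; 0, 1], by simp [Matrix.det_fin_two]⟩
    obtain ⟨y, hy⟩ := hπ ⟨!![1, 0; 1, 1], by simp [Matrix.det_fin_two]⟩
    have h4 := (hker _).2 (h3 (commutator_mem_commutator (mem_top x) (mem_top y)))
    rw [map_commutatorElement, commutatorElement_eq_one_iff_mul_comm, hx, hy] at h4
    have h5 : (!![1, 1; 0, 1] * !![1, 0; 1, 1] : Matrix (Fin 2) (Fin 2) F) =
        !![1, 0; 1, 1] * !![1, 1; 0, 1] := congrArg Subtype.val h4
    have h6 := congrFun (congrFun h5 0) 0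
    simp at h6
  have hinv : ∀ a ∈ A, z * a * z⁻¹ = a⁻¹ := fun a ha => (show a ∈ I from hI ▸ ha).2
  refine ⟨centralizer {z}, ?_, ?_⟩
  · rw [eq_bot_iff]
    rintro a ⟨ha, hc⟩
    have h1 : z * a = a * z := hc z rfl
    have h2 := hinv a ha
    rw [h1, mul_inv_cancel_right] at h2
    rw [mem_bot, ← hsq a ha, ← pow_mul, mul_comm, pow_mul, pow_two]
    conv_lhs => enter [1, 1]; rw [h2]
    simp
  · rw [eq_top_iff]
    intro g _
    have ha := hconj g
    set a := g⁻¹ * z * g * z⁻¹ with hadef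
    have hb : a ^ (m + 1) ∈ A := A.pow_mem ha _
    have h1 := hsq a ha
    set b := a ^ (m + 1)
    have h2 := hinv _ (A.inv_mem hb)
    have h3 : g * b ∈ centralizer {z} := by
      rw [mem_centralizer_singleton_iff]
      have h4 : b * z * b⁻¹ = g⁻¹ * z * g := by
        rw [show b * z * b⁻¹ = b * (z * b⁻¹ * z⁻¹) * z by group, h2, inv_inv, ← pow_two, h1,
          hadef]
        group
      rw [show g * b * z = g * (b * z * b⁻¹) * b by group, h4]
      group
    rw [show g = (g * b) * b⁻¹ by group]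
    exact mul_mem (mem_sup_right h3) (mem_sup_left (A.inv_mem hb))

end Cfsg.Agent.S3075
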