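import Cfsg.Statements.S3087
import Mathlib

set_option autoImplicit false
open Cfsg

namespace Cfsg.Agent.S3087

theorem card_mul_card_le {V : Type*} [AddGroup V] [Finite V] (H K L : AddSubgroup V) (hH : H ≤ L)
    (hK : K ≤ L) : Nat.card H * Nat.card K ≤ Nat.card L * Nat.card ↥(H ⊓ K) := by
  have key : ∀ X Y : AddSubgroup V, X ≤ Y → Nat.card X * X.relIndex Y = Nat.card Y := by
    intro X Y hXY
    have := AddSubgroup.relIndex_mul_relIndex ⊥ X Y bot_le hXY
    simpa using this
  have h1 := key (H ⊓ K) H inf_le_left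
  have h2 := key K L hK
  rw [AddSubgroup.inf_relIndex_left] at h1
  have h3 : K.relIndex H ≤ K.relIndex L :=
    AddSubgroup.relIndex_le_of_le_right hH (AddSubgroup.index_ne_zero_of_finite)
  rw [← h1, ← h2]
  calc Nat.card ↥(H ⊓ K) * K.relIndex H * Nat.card K
      ≤ Nat.card ↥(H ⊓ K) * K.relIndex L * Nat.card K := by gcongr
    _ = _ := by ring

/-- fixed points of a subgroup as an additive subgroup -/
def fixSub {G V : Type*} [Group G] [AddCommGroup V] {p : ℕ} [Module (ZMod p) V]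
    (ρ : Representation (ZMod p) G V) (B : Subgroup G) : AddSubgroup V where
  carrier := {v | ∀ b ∈ B, ρ b v = v}
  add_mem' := by
    intro x y hx hy b hb
    rw [map_add, hx b hb, hy b hb]
  zero_mem' := by intro b _; simp
  neg_mem' := by
    intro x hx b hb
    rw [map_neg, hx b hb]

/-- Let p be a prime, G a finite group acting linearly on a finite vector space V over the field with p elements, W a G-invariant subspace, and A a subgroup of G with |A|·|C_V(A)| ≥ |B|·|C_V(B)| for every subgroup B of A. Then |A|·|C_W(A)| ≥ |B|·|C_W(B)| for every subgroup B of A that contains C_A(W); that is, the image of A in the group induced on W satisfies the same maximality condition. -/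
theorem result {G V : Type*} [Group G] [Finite G] [AddCommGroup V] [Finite V] (p : ℕ) [Fact p.Prime] [Module (ZMod p) V]
    (ρ : Representation (ZMod p) G V) (W : Submodule (ZMod p) V) (hW : ∀ g : G, ∀ w ∈ W, ρ g w ∈ W)
    (A : Subgroup G)
    (hP : ∀ B : Subgroup G, B ≤ A →
      Nat.card ↥B * Nat.card {v : V // ∀ b ∈ B, ρ b v = v} ≤ Nat.card ↥A * Nat.card {v : V // ∀ a ∈ A, ρ a v = v})
    (B : Subgroup G) (hBA : B ≤ A) (hCB : ∀ a ∈ A, (∀ w ∈ W, ρ a w = w) → a ∈ B) :
    Nat.card ↥B * Nat.card {w : W // ∀ b ∈ B, ρ b w = w} ≤ Nat.card ↥A * Nat.card {w : W // ∀ a ∈ A, ρ a w = w} := by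
  have e1 : ∀ X : Subgroup G, Nat.card {v : V // ∀ b ∈ X, ρ b v = v} = Nat.card (fixSub ρ X) :=
    fun X => rfl
  have e2 : ∀ X : Subgroup G, Nat.card {w : W // ∀ b ∈ X, ρ b w = w} =
      Nat.card ↥(W.toAddSubgroup ⊓ fixSub ρ X) := by
    intro X
    exact Nat.card_congr
      { toFun := fun w => ⟨w.1.1, w.1.2, w.2⟩
        invFun := fun w => ⟨⟨w.1, w.2.1⟩, w.2.2⟩
        left_inv := fun _ => rfl
        right_inv := fun _ => rfl }
  have hAB : fixSub ρ A ≤ fixSub ρ B := fun v hv b hb => hv b (hBA hb)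
  have h1 := card_mul_card_le (W.toAddSubgroup ⊓ fixSub ρ B) (fixSub ρ A) (fixSub ρ B)
    inf_le_right hAB
  have h2 : W.toAddSubgroup ⊓ fixSub ρ B ⊓ fixSub ρ A = W.toAddSubgroup ⊓ fixSub ρ A := by
    rw [inf_assoc, inf_eq_right.mpr hAB]
  rw [h2] at h1
  have h3 := hP B hBA
  rw [e1, e1] at h3
  rw [e2, e2]
  have hpos : 0 < Nat.card (fixSub ρ A) := Nat.card_pos
  apply Nat.le_of_mul_le_mul_right _ hpos
  calc Nat.card B * Nat.card ↥(W.toAddSubgroup ⊓ fixSub ρ B) * Nat.card (fixSub ρ A)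
      = Nat.card B * (Nat.card ↥(W.toAddSubgroup ⊓ fixSub ρ B) * Nat.card (fixSub ρ A)) := by ring
    _ ≤ Nat.card B * (Nat.card (fixSub ρ B) * Nat.card ↥(W.toAddSubgroup ⊓ fixSub ρ A)) := by
        gcongr
    _ = (Nat.card B * Nat.card (fixSub ρ B)) * Nat.card ↥(W.toAddSubgroup ⊓ fixSub ρ A) := by ring
    _ ≤ (Nat.card A * Nat.card (fixSub ρ A)) * Nat.card ↥(W.toAddSubgroup ⊓ fixSub ρ A) := by
        gcongr
    _ = _ := by ring


end Cfsg.Agent.S3087
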