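import Cfsg.Statements.S3154
import Mathlib
import Cfsg.Agent.Mult.L34Lift
import Cfsg.Agent.Perm.ZassEven
import Cfsg.Agent.S0242

set_option autoImplicit false
open Cfsg

namespace Cfsg.Agent.S3154

/-- Let X be a finite quasisimple group whose centre is an elementary abelian 2-group and whose central quotient is isomorphic to the projective special linear group of dimension 3 over the field with 4 elements. Let T be a Sylow 2-subgroup of X and H ≠ K subgroups of T containing the centre Z(X) whose images in X/Z(X) are elementary abelian of order 16 (the two such subgroups of a Sylow 2-subgroup of the quotient). Then H and K are elementary abelian, H ∩ K is the centre of the subgroup they generate, and each of N_X(H), N_X(K) is a split extension of H, respectively K, by the projective special linear group of dimension 2 over the field with 4 elements (there is a complement isomorphic to that group). -/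
theorem result {X : Type*} [Group X] [Finite X] (hq : Cfsg.IsQuasisimple X) (hZ : Cfsg.IsElementaryAbelian 2 (Subgroup.center X))
    {F : Type*} [Field F] [Fintype F] (hF : Fintype.card F = 4) (hXL : Nonempty ((X ⧸ Subgroup.center X) ≃* Matrix.ProjectiveSpecialLinearGroup (Fin 3) F))
    (T : Sylow 2 X) (H K : Subgroup X) (hHK : H ≠ K) (hHT : H ≤ T) (hKT : K ≤ T) (hZH : Subgroup.center X ≤ H) (hZK : Subgroup.center X ≤ K)
    (hH : Cfsg.IsElementaryAbelian 2 (H.map (QuotientGroup.mk' (Subgroup.center X))) ∧ Nat.card ↥(H.map (QuotientGroup.mk' (Subgroup.center X))) = 16)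
    (hK : Cfsg.IsElementaryAbelian 2 (K.map (QuotientGroup.mk' (Subgroup.center X))) ∧ Nat.card ↥(K.map (QuotientGroup.mk' (Subgroup.center X))) = 16) :
    Cfsg.IsElementaryAbelian 2 H ∧ Cfsg.IsElementaryAbelian 2 K ∧
      H ⊓ K = (Subgroup.center ↥(H ⊔ K)).map (H ⊔ K).subtype ∧
      (∃ C : Subgroup X, C ≤ Subgroup.normalizer (H : Set X) ∧ C ⊓ H = ⊥ ∧ H ⊔ C = Subgroup.normalizer (H : Set X) ∧
        Nonempty (↥C ≃* Matrix.ProjectiveSpecialLinearGroup (Fin 2) F)) ∧
      (∃ C : Subgroup X, C ≤ Subgroup.normalizer (K : Set X) ∧ C ⊓ K = ⊥ ∧ K ⊔ C = Subgroup.normalizer (K : Set X) ∧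
        Nonempty (↥C ≃* Matrix.ProjectiveSpecialLinearGroup (Fin 2) F)) := by
  obtain ⟨e⟩ := hXL
  have hs := QuotientGroup.mk'_surjective (Subgroup.center X)
  have hk := QuotientGroup.ker_mk' (Subgroup.center X)
  have h2 : ∀ z ∈ (QuotientGroup.mk' (Subgroup.center X)).ker, z * z = 1 := fun z hz => by
    rw [← pow_two, hZ.2 z (hk ▸ hz)]
  let ρ0 := e.symm.toMonoidHom.comp (QuotientGroup.mk' _)
  have h0 : Function.Surjective ρ0 := e.symm.surjective.comp (QuotientGroup.mk'_surjective _)
  let S : Sylow 2 (Matrix.SpecialLinearGroup (Fin 3) F) := Sylow.ofCard (Mult.L34.U F) (by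
    have := S0242.result hF 3 (by norm_num)
    rw [Fin.prod_univ_three] at this
    rw [Mult.L34.card_U, hF, show Nat.card (Matrix.SpecialLinearGroup (Fin 3) F) = 2 ^ 6 * 945 by
      norm_num at this ⊢; omega, Nat.factorization_mul (by norm_num) (by norm_num),
      Nat.Prime.factorization_pow Nat.prime_two]
    simp [Nat.factorization_eq_zero_of_not_dvd])
  obtain ⟨g, hg⟩ := MulAction.exists_smul_eq (X ⧸ Subgroup.center X) (S.mapSurjective h0)
    (T.mapSurjective hs)
  let ρ := (MulAut.conj g).toMonoidHom.comp ρ0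
  have h : Mult.L34.Pr ρ := ⟨(MulAut.conj g).surjective.comp h0, fun x => by simp [ρ, ρ0]⟩
  have hT : (T : Subgroup X).map (QuotientGroup.mk' _) = (Mult.L34.U F).map ρ := by
    rw [← Subgroup.map_map]; exact (congrArg Sylow.toSubgroup hg).symm
  have e2 := Perm.ZassPSL.slEquivPsl (F := F) (by rw [Nat.card_eq_fintype_card, hF]; decide)
  have c1 := (Mult.L34.compl hF hs hk.le h2 h).imp fun C a =>
    And.intro a.1 (And.intro a.2.1 (And.intro a.2.2.1 (a.2.2.2.map (·.trans e2))))
  have c2 := (Mult.L34.compl hF hs hk.le h2 (h.comp Mult.L34.τ)).imp fun C a =>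
    And.intro a.1 (And.intro a.2.1 (And.intro a.2.2.1 (a.2.2.2.map (·.trans e2))))
  have i1 := Mult.L34.inf_eq hF hs hk.le h2 h
  rcases Mult.L34.eq_or hF hs (hk.le.trans hZH) (hT ▸ Subgroup.map_mono hHT) h hH.1 hH.2 with
    rfl | rfl <;> rcases Mult.L34.eq_or hF hs (hk.le.trans hZK) (hT ▸ Subgroup.map_mono hKT) h
      hK.1 hK.2 with rfl | rfl
  · exact absurd rfl hHK
  · exact ⟨Mult.L34.elem hF hs hk.le h2, Mult.L34.elem hF hs hk.le h2, i1, c1, c2⟩
  · exact ⟨Mult.L34.elem hF hs hk.le h2, Mult.L34.elem hF hs hk.le h2,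
      by rw [inf_comm, sup_comm]; exact i1, c2, c1⟩
  · exact absurd rfl hHK

end Cfsg.Agent.S3154
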