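import Cfsg.Statements.S3155
import Mathlib

set_option autoImplicit false
open Cfsg

namespace Cfsg.Agent.S3155


/-- Let B be the direct product of three cyclic groups of order 4. Then the automorphism of B inverting every element is not the square of any automorphism of B. -/
theorem result {B : Type*} [CommGroup B] [Finite B] (hB : Nonempty (B ≃* Multiplicative (ZMod 4 × ZMod 4 × ZMod 4)))
    (τ : B ≃* B) : τ.trans τ ≠ MulEquiv.inv B := by
  intro h
  obtain ⟨e⟩ := hB
  let σ : Multiplicative (ZMod 4 × ZMod 4 × ZMod 4) ≃* Multiplicative (ZMod 4 × ZMod 4 × ZMod 4) :=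
    (e.symm.trans τ).trans e
  let f : (ZMod 4 × ZMod 4 × ZMod 4) →+ (ZMod 4 × ZMod 4 × ZMod 4) :=
    (MulEquiv.toAdditive σ).toAddMonoidHom
  let g := AddMonoidHom.toZModLinearMap 4 f
  have hg : g ∘ₗ g = (-1 : ZMod 4) • LinearMap.id := by
    apply LinearMap.ext
    intro v
    have h1 := DFunLike.congr_fun h (e.symm (Multiplicative.ofAdd v))
    simp only [MulEquiv.trans_apply, MulEquiv.inv_apply] at h1
    have h2 : σ (σ (Multiplicative.ofAdd v)) = (Multiplicative.ofAdd v)⁻¹ := by
      simp only [σ, MulEquiv.trans_apply, MulEquiv.symm_apply_apply, h1, map_inv,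
        MulEquiv.apply_symm_apply]
    rw [LinearMap.smul_apply, LinearMap.id_apply, neg_one_smul]
    exact h2
  have h3 := congrArg LinearMap.det hg
  rw [LinearMap.det_comp, LinearMap.det_smul, LinearMap.det_id] at h3
  have : Fact (1 < 4) := ⟨by norm_num⟩
  have h4 : Module.finrank (ZMod 4) (ZMod 4 × ZMod 4 × ZMod 4) = 3 := by
    rw [Module.finrank_prod, Module.finrank_prod, Module.finrank_self]
  rw [h4] at h3
  revert h3
  generalize LinearMap.det g = d
  revert d
  decide

end Cfsg.Agent.S3155
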