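import Cfsg.Statements.S3161
import Mathlib
import Cfsg.Agent.TwoG.Delta

set_option autoImplicit false
open Cfsg

namespace Cfsg.Agent.S3161

/-- Let Q be a non-abelian finite 2-group admitting commuting automorphisms α of order 2 and ρ of order 2^n − 1, where n ≥ 2, such that the fixed points of α form an elementary abelian subgroup of order 2^n on whose nonidentity elements the group generated by ρ acts transitively. Then Q is isomorphic to a Sylow 2-subgroup of the projective special unitary group of dimension 3 with parameter 2^n (realised over the field with 4^n elements) or of the projective special linear group of dimension 3 over the field with 2^n elements. -/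
theorem result {Q : Type*} [Group Q] [Finite Q] (hQ : IsPGroup 2 Q) (hna : ¬ IsMulCommutative Q) (n : ℕ) (hn : 2 ≤ n)
    (α ρ : MulAut Q) (hα : orderOf α = 2) (hρ : orderOf ρ = 2 ^ n - 1) (hc : Commute α ρ)
    (C : Subgroup Q) (hC : ∀ x : Q, x ∈ C ↔ α x = x) (hCE : Cfsg.IsElementaryAbelian 2 C ∧ Nat.card ↥C = 2 ^ n)
    (htr : ∀ x y : Q, x ∈ C → y ∈ C → x ≠ 1 → y ≠ 1 → ∃ k : ℕ, (ρ ^ k) x = y) :
    (∃ (F : Type) (_ : Field F) (_ : Fintype F), Fintype.card F = 4 ^ n ∧
        ∃ S : Sylow 2 (Cfsg.PSU 3 F (2 ^ n)), Nonempty (Q ≃* ↥(S : Subgroup (Cfsg.PSU 3 F (2 ^ n))))) ∨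
      (∃ (F : Type) (_ : Field F) (_ : Fintype F), Fintype.card F = 2 ^ n ∧
        ∃ S : Sylow 2 (Matrix.ProjectiveSpecialLinearGroup (Fin 3) F), Nonempty (Q ≃* ↥(S : Subgroup (Matrix.ProjectiveSpecialLinearGroup (Fin 3) F)))) := by
  let _ : Fintype (GaloisField 2 n) := Fintype.ofFinite _
  have hF : Fintype.card (GaloisField 2 n) = 2 ^ n := by
    rw [← Nat.card_eq_fintype_card, GaloisField.card 2 n (by omega)]
  have hpow : ρ ^ (Fintype.card (GaloisField 2 n) - 1) = 1 := by rw [hF, ← hρ, pow_orderOf_eq_one]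
  obtain ⟨ψ, l, H⟩ := TwoG.exists_hyp (F := GaloisField 2 n) hQ
    (fun x => by
      have := pow_orderOf_eq_one α
      rw [hα, pow_two] at this
      exact DFunLike.congr_fun this x)
    (fun x => DFunLike.congr_fun hc.eq x) hC (fun x hx => by rw [← pow_two]; exact hCE.1.2 x hx)
    (hCE.2.trans hF.symm) hpow fun x hx y hy => htr x y hx hy
  rcases H.main (by rw [hF]; exact (Nat.pow_lt_pow_right (m := 1) one_lt_two hn :)) hpow (by
    by_contra h
    push Not at h
    exact hna ⟨⟨fun x y => commutatorElement_eq_one_iff_mul_comm.1 (h x y)⟩⟩) with ⟨E, _, _, hE, h⟩ | h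
  · rw [hF] at hE h
    exact Or.inl ⟨E, _, _, by rw [hE, ← pow_mul, mul_comm, pow_mul]; rfl, default, h _⟩
  · exact Or.inr ⟨_, _, _, hF, default, h _⟩

end Cfsg.Agent.S3161
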