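import Cfsg.Statements.S3162
import Mathlib
import Cfsg.Agent.Inv.UHAut
import Cfsg.Agent.Inv.Rank2Aut

set_option autoImplicit false
open Cfsg

namespace Cfsg.Agent.S3162

/-- Let S be a Sylow 2-subgroup of the special unitary group of dimension 3 with parameter q = 2^n (n ≥ 2; realised over the field with q² elements). Then the largest normal 2-subgroup of the automorphism group of S is elementary abelian of order 2^(2n²), and the automorphism group has order 2^(2n²) · 2n(q² − 1). -/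
theorem result {S : Type*} [Group S] [Finite S] (n : ℕ) (hn : 2 ≤ n) {F : Type*} [Field F] [Fintype F] (hF : Fintype.card F = 4 ^ n)
    (P : Sylow 2 ↥(Cfsg.SU 3 F (2 ^ n))) (hS : Nonempty (S ≃* ↥(P : Subgroup ↥(Cfsg.SU 3 F (2 ^ n))))) :
    Cfsg.IsElementaryAbelian 2 (Cfsg.pCore 2 (MulAut S)) ∧ Nat.card ↥(Cfsg.pCore 2 (MulAut S)) = 2 ^ (2 * n ^ 2) ∧
      Nat.card (MulAut S) = 2 ^ (2 * n ^ 2) * (2 * n * ((2 ^ n) ^ 2 - 1)) := by
  have h4 : (4 : ℕ) ^ n = (2 ^ n) ^ 2 := by rw [← pow_mul, mul_comm, pow_mul]; norm_num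
  have hU : Class.U.UF F (2 ^ n) := Class.U.UF.of_card (hF.trans h4)
  have : CharP F 2 := Inv.charP_two_of_card (n := n * 2) (by rw [hF, h4, pow_mul])
  obtain ⟨e1⟩ := hS
  obtain ⟨e2⟩ := Inv.UH.nonempty_equiv_sylow_SU3 P
  let e := MulAut.congr (e1.trans e2.symm)
  have hc : pCore 2 (MulAut S) = (Inv.UH.autK F (2 ^ n)).comap e.toMonoidHom := by
    rw [← Inv.UH.pCore_mulAut]
    exact (Grp.comap_pCore_equiv 2 e).symm
  refine ⟨⟨⟨⟨fun a b => Subtype.ext (e.injective ?_)⟩⟩, fun a ha => e.injective ?_⟩, ?_, ?_⟩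
  · rw [Subgroup.coe_mul, Subgroup.coe_mul, map_mul, map_mul]
    exact Inv.UH.autK_comm (hc.le a.2) (hc.le b.2)
  · rw [map_pow, map_one]
    exact Inv.UH.autK_sq (hc.le ha)
  · rw [hc, Subgroup.comap_equiv_eq_map_symm', Subgroup.card_map_of_injective e.symm.injective,
      Inv.UH.card_autK' rfl]
  · rw [Nat.card_congr e.toEquiv, Inv.UH.card_mulAut rfl]

end Cfsg.Agent.S3162
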