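import Cfsg.Statements.S3178
import Cfsg.Agent.Inv.QD
import Cfsg.Agent.Inv.AutTwo
import Cfsg.Agent.Inv.DihFusion
import Cfsg.Agent.Transfer.Frobenius
-- import your own Cfsg.Agent.* helpers here

set_option autoImplicit false
open Cfsg

namespace Cfsg.Agent.S3178

open Subgroup Cfsg.Agent.Inv Cfsg.Agent.PLocal.Amb

section
variable {G : Type*} [Group G] [Finite G] {S : Subgroup G} {k : ℕ}
  (c : CycExt S (2 ^ (k + 3)) (2 ^ (k + 2) + 1) 0)

theorem hh : (2 : ZMod (2 ^ (k + 3))) ^ (k + 2) * 2 = 0 := QDC.h_mul_two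

theorem h_mul (i : ZMod (2 ^ (k + 3))) : 2 ^ (k + 2) * i = 0 ∨ 2 ^ (k + 2) * i = 2 ^ (k + 2) := by
  rcases Z2.even_or_odd i with ⟨b, rfl⟩ | ⟨b, rfl⟩
  · left; linear_combination b * (hh (k := k))
  · right; linear_combination b * (hh (k := k))

theorem h_mul_of_four {i : ZMod (2 ^ (k + 3))} (h : 4 * i = 0) : 2 ^ (k + 2) * i = 0 := by
  rcases Z2.even_or_odd i with ⟨b, rfl⟩ | ⟨b, rfl⟩
  · linear_combination b * (hh (k := k))
  · obtain ⟨u, hu⟩ := Z2.exists_odd_mul_eq_one b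
    exfalso
    apply QDC.four_ne_zero' (k := k)
    linear_combination u * h - 4 * hu

include c

omit [Finite G] in
theorem sq_mem {x : G} (hx : x ∈ S) : x ^ 2 ∈ zpowers (c.r 1) := by
  rcases c.cases hx with ⟨i, rfl⟩ | ⟨i, rfl⟩
  · rw [c.r_pow]; exact c.mem_zpowers_r_one.2 ⟨_, rfl⟩
  · rw [c.s_sq]; exact c.mem_zpowers_r_one.2 ⟨_, rfl⟩

omit [Finite G] in
theorem comm_or {x y : G} (hx : x ∈ S) (hy : y ∈ S) :
    x * y = y * x ∨ x * y = y * x * c.r (2 ^ (k + 2)) := by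
  have h2 := hh (k := k)
  rcases c.cases hx with ⟨i, rfl⟩ | ⟨i, rfl⟩ <;> rcases c.cases hy with ⟨j, rfl⟩ | ⟨j, rfl⟩ <;>
    simp only [c.r_mul_r, c.r_mul_s, c.s_mul_r, c.s_mul_s, c.r_inj, c.s_inj]
  · left; ring
  · rcases h_mul i with h | h
    · left; linear_combination -h
    · right; linear_combination -h - (1 + 2 ^ (k + 1)) * h2
  · rcases h_mul j with h | h
    · left; linear_combination h
    · right; linear_combination h - 2 ^ (k + 1) * h2
  · rcases h_mul i with h | h <;> rcases h_mul j with h' | h'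
    · left; linear_combination h' - h
    · right; linear_combination h' - h
    · right; linear_combination h' - h - h2
    · left; linear_combination h' - h

omit [Finite G] in
theorem comm_z {x : G} (hx : x ∈ S) : x * c.r (2 ^ (k + 2)) = c.r (2 ^ (k + 2)) * x := by
  have h2 := hh (k := k)
  rcases c.cases hx with ⟨i, rfl⟩ | ⟨i, rfl⟩ <;>
    simp only [c.r_mul_r, c.r_mul_s, c.s_mul_r, c.s_mul_s, c.r_inj, c.s_inj]
  · ring
  · linear_combination 2 ^ (k + 1) * h2

omit [Finite G] in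
theorem comm_two {x : G} (hx : x ∈ S) : x * c.r 2 = c.r 2 * x := by
  have h2 := hh (k := k)
  rcases c.cases hx with ⟨i, rfl⟩ | ⟨i, rfl⟩ <;>
    simp only [c.r_mul_r, c.r_mul_s, c.s_mul_r, c.s_mul_s, c.r_inj, c.s_inj]
  · ring
  · linear_combination h2

omit [Finite G] in
theorem comm_four {x y : G} (hx : x ∈ S) (hy : y ∈ S) (h1 : x ^ 4 = 1) (h2 : y ^ 4 = 1) :
    x * y = y * x := by
  have h3 := hh (k := k)
  have hr : ∀ i, c.r i ^ 4 = 1 → 2 ^ (k + 2) * i = 0 := by
    intro i hi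
    rw [c.r_pow, c.r_eq_one] at hi
    exact h_mul_of_four (by exact_mod_cast hi)
  have hs : ∀ i, c.s i ^ 4 = 1 → 2 ^ (k + 2) * i = 0 := by
    intro i hi
    rw [show 4 = 2 * 2 from rfl, pow_mul, c.s_sq, c.r_pow, c.r_eq_one] at hi
    push_cast at hi
    exact h_mul_of_four (by linear_combination hi - i * h3)
  rcases c.cases hx with ⟨i, rfl⟩ | ⟨i, rfl⟩ <;> rcases c.cases hy with ⟨j, rfl⟩ | ⟨j, rfl⟩ <;>
    simp only [c.r_mul_r, c.r_mul_s, c.s_mul_r, c.s_mul_s, c.r_inj, c.s_inj]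
  · ring
  · linear_combination -hr i h1
  · linear_combination hr j h2
  · linear_combination hs j h2 - hs i h1

omit [Finite G] in
theorem inv_cases {x : G} (hx : x ∈ S) (h1 : x ^ 2 = 1) :
    (x = 1 ∨ x = c.r (2 ^ (k + 2))) ∨ (x = c.s 0 ∨ x = c.s (2 ^ (k + 2))) := by
  have h3 := hh (k := k)
  rcases c.cases hx with ⟨i, rfl⟩ | ⟨i, rfl⟩
  · left
    rw [c.r_pow, c.r_eq_one] at h1
    rcases (Z2.two_mul_eq_zero_iff (k := k + 2) i).1 (by exact_mod_cast h1) with h | h
    · left; rw [h, c.r_zero]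
    · right; rw [h]
  · right
    rw [c.s_sq, c.r_eq_one] at h1
    have h4 := h_mul_of_four (i := i) (by linear_combination 2 * h1 - i * h3)
    rcases (Z2.two_mul_eq_zero_iff (k := k + 2) i).1 (by linear_combination h1 - h4) with h | h
    · left; rw [h]
    · right; rw [h]

theorem isPGroup_aut {X : Subgroup G} (hXS : X ≤ S) (hX : IsPGroup 2 X) (h2 : c.r 2 ∈ X) :
    IsPGroup 2 (MulAut X) := by
  refine isPGroup_mulAut_of_oddAut hX fun f hf => ?_
  have h3 := hh (k := k)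
  set z := c.r (2 ^ (k + 2)) with hz
  have hzz : z * z = 1 := by rw [hz, c.r_mul_r, c.r_eq_one]; linear_combination h3
  have hz1 : z ≠ 1 := by rw [hz, Ne, c.r_eq_one]; exact QDC.h_ne_zero
  have hw : c.r (2 ^ (k + 1)) ∈ X := by
    have := X.pow_mem h2 (2 ^ k)
    rwa [c.r_pow, show ((2 ^ k : ℕ) : ZMod (2 ^ (k + 3))) * 2 = 2 ^ (k + 1) by push_cast; ring] at this
  have hwz : c.r (2 ^ (k + 1)) ^ 2 = z := by
    rw [c.r_pow, hz, c.r_inj]; push_cast; ring
  have hzX : z ∈ X := hwz ▸ X.pow_mem hw 2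
  have hzo : orderOf z = 2 := orderOf_two_of_mul_self hzz hz1
  have hzf : z ∈ hf.fixed := by
    refine hf.mem_fixed.2 ⟨hzX, ?_⟩
    refine eq_of_orderOf_two_of_mem_cyclic (H := zpowers (c.r 1)) inferInstance ?_
      (c.mem_zpowers_r_one.2 ⟨_, rfl⟩) (by rw [hf.orderOf_eq hzX, hzo]) hzo
    rw [← hwz, hf.pow hw]
    exact sq_mem c (hXS (hf.mem _ hw))
  have s2 : ∀ x ∈ X, x ^ 2 = 1 → x ∈ hf.fixed := by
    intro x hx h1
    have h1' : f x ^ 2 = 1 := by rw [← hf.pow hx, h1, hf.one]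
    have key : ∀ y, (y = 1 ∨ y = z) → y ∈ hf.fixed := by
      rintro y (rfl | rfl)
      · exact one_mem _
      · exact hzf
    rcases inv_cases c (hXS hx) h1 with h | h
    · exact key x h
    · rcases inv_cases c (hXS (hf.mem x hx)) h1' with h' | h'
      · exact hf.mem_fixed_of_apply hx (key _ h')
      · refine hf.mem_fixed_of_diff hx (key _ ?_)
        rcases h with h | h <;> rcases h' with h' | h' <;> rw [h', h]
        · left; group
        · right; rw [c.s_inv, c.s_mul_s, hz, c.r_inj]; linear_combination 2 ^ (k + 1) * h3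
        · right; rw [c.s_inv, c.s_mul_s, hz, c.r_inj]; linear_combination -(2 ^ (k + 1) + 1) * h3
        · left; group
  have s4 : ∀ x ∈ X, x ^ 4 = 1 → x ∈ hf.fixed := by
    intro x hx h1
    have h1' : f x ^ 4 = 1 := by rw [← hf.pow hx, h1, hf.one]
    have hc : Commute x (f x) := comm_four c (hXS hx) (hXS (hf.mem x hx)) h1 h1'
    have h4 := (hf.mem_fixed.1 (s2 _ (X.pow_mem hx 2) (by rw [← pow_mul, h1]))).2
    rw [hf.pow hx] at h4
    refine hf.mem_fixed_of_diff hx (s2 _ (X.mul_mem (inv_mem hx) (hf.mem x hx)) ?_)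
    rw [hc.inv_left.mul_pow, h4, inv_pow, inv_mul_cancel]
  intro x hx
  refine (hf.mem_fixed.1 ?_).2
  have hfx := hf.mem x hx
  have h5 : f x ^ 2 ∈ zpowers (x ^ 2) := by
    have ho : orderOf (f x ^ 2) = orderOf (x ^ 2) := by
      rw [← hf.pow hx, hf.orderOf_eq (X.pow_mem hx 2)]
    obtain ⟨i, hi⟩ := c.mem_zpowers_r_one.1 (sq_mem c (hXS hx))
    obtain ⟨j, hj⟩ := c.mem_zpowers_r_one.1 (sq_mem c (hXS hfx))
    rw [hi, hj] at ho ⊢
    obtain ⟨a, ha, b, rfl⟩ := Z2.exists_eq_two_pow_mul_odd i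
    obtain ⟨a', ha', b', rfl⟩ := Z2.exists_eq_two_pow_mul_odd j
    rw [c.orderOf_r, c.orderOf_r, Z2.addOrderOf_mul_odd, Z2.addOrderOf_mul_odd,
      Z2.addOrderOf_two_pow (k := a) (l := k + 3 - a) (by omega),
      Z2.addOrderOf_two_pow (k := a') (l := k + 3 - a') (by omega)] at ho
    have e : a' = a := by
      have := Nat.pow_right_injective le_rfl ho
      omega
    subst e
    obtain ⟨u, hu⟩ := Z2.exists_odd_mul_eq_one b
    exact c.mem_zpowers_r.2 ⟨u * (2 * b' + 1), by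
      rw [c.r_inj]; linear_combination -(2 ^ a' * (2 * b' + 1)) * hu⟩
  obtain ⟨m, hm⟩ := h5
  simp only at hm
  have hv : (x ^ m)⁻¹ * f x ∈ hf.fixed := by
    have hxm : (x ^ m)⁻¹ ∈ X := inv_mem (X.zpow_mem hx m)
    refine s4 _ (X.mul_mem hxm hfx) ?_
    have e1 : (x ^ m)⁻¹ * (x ^ m)⁻¹ * (f x * f x) = 1 := by
      rw [← sq (f x), ← hm, ← zpow_natCast]; group
    rcases comm_or c (hXS hfx) (hXS hxm) with h | h
    · have : ((x ^ m)⁻¹ * f x) ^ 2 = 1 := by
        rw [← e1, sq]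
        calc (x ^ m)⁻¹ * f x * ((x ^ m)⁻¹ * f x) = (x ^ m)⁻¹ * (f x * (x ^ m)⁻¹) * f x := by group
          _ = _ := by rw [h]; group
      rw [show 4 = 2 * 2 from rfl, pow_mul, this, one_pow]
    · have : ((x ^ m)⁻¹ * f x) ^ 2 = z := by
        have hc := comm_z c (hXS hfx)
        rw [← hz] at h hc
        rw [← one_mul z, ← e1, sq]
        calc (x ^ m)⁻¹ * f x * ((x ^ m)⁻¹ * f x) = (x ^ m)⁻¹ * (f x * (x ^ m)⁻¹) * f x := by group
          _ = (x ^ m)⁻¹ * (x ^ m)⁻¹ * (f x * (z * f x)) := by rw [h]; group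
          _ = _ := by rw [← hc]; group
      rw [show 4 = 2 * 2 from rfl, pow_mul, this, sq, hzz]
  refine hf.mem_fixed_of_zpow_mul le_rfl hx ?_ ⟨m, _, hv, by group⟩
  intro n hn
  rcases comm_or c (hXS (hf.mem_fixed.1 hn).1) (hXS hx) with h | h
  · rw [mul_assoc, h, inv_mul_cancel_left]; exact hn
  · rw [mul_assoc, h, mul_assoc, inv_mul_cancel_left]; exact mul_mem hn hzf

end

/-- Groups with a modular Sylow 2-subgroup have a normal 2-complement. Let S, of order 2^(n+1) with n ≥ 3, be a Sylow 2-subgroup of a finite group G, and suppose S contains an element a of order 2^n and an involution b with b a b⁻¹ = a^(2^(n-1) + 1); so S is the non-abelian 2-group with a cyclic subgroup of index 2 that is neither dihedral, semidihedral nor generalized quaternion. Then G has a normal 2-complement. -/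
theorem result {G : Type*} [Group G] [Finite G]
    (S : Sylow 2 G) (n : ℕ) (hn : 3 ≤ n) (hS : Nat.card ↥(S : Subgroup G) = 2 ^ (n + 1))
    (a b : G) (ha : a ∈ (S : Subgroup G)) (hb : b ∈ (S : Subgroup G))
    (hao : orderOf a = 2 ^ n) (hbo : orderOf b = 2) (hrel : b * a * b⁻¹ = a ^ (2 ^ (n - 1) + 1)) :
    Cfsg.HasNormalPComplement 2 G := by
  have : Fact (Nat.Prime 2) := ⟨Nat.prime_two⟩
  obtain ⟨k, rfl⟩ : ∃ k, n = k + 3 := ⟨n - 3, by omega⟩
  have hb' : b ∉ zpowers a := by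
    rintro ⟨m, rfl⟩
    simp only at hrel
    have h1 : a ^ m * a * (a ^ m)⁻¹ = a := by group
    rw [h1, pow_succ, right_eq_mul] at hrel
    have := orderOf_dvd_of_pow_eq_one hrel
    rw [hao] at this
    have := (Nat.pow_dvd_pow_iff_le_right (by norm_num)).1 this
    omega
  obtain ⟨c0, hr, hs⟩ := exists_cycExt hao (2 ^ (k + 2) + 1) 0 (y := b)
    (by rw [hrel]; norm_cast) (by rw [zpow_zero]; exact mul_self_of_orderOf_two hbo) hb'
  have hcl : closure {a, b} = (S : Subgroup G) := by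
    refine eq_of_le_of_card_ge ((closure_le _).2 ?_) ?_
    · rintro x (rfl | rfl)
      · exact ha
      · exact hb
    · rw [c0.card_eq, hS]; exact le_of_eq (by ring)
  obtain ⟨c, -, -⟩ := exists_cycExt' (S := (S : Subgroup G)) (ρ := 2 ^ (k + 2) + 1) (τ := 0) hao
    (2 ^ (k + 2) + 1) 0 (by push_cast; rfl) (by simp) (y := b)
    (by rw [hrel]; norm_cast) (by rw [zpow_zero]; exact mul_self_of_orderOf_two hbo) hb' hcl.symm
  refine Transfer.hasNormalPComplement_of_local_centric S fun B hB _ _ hc g hg ho => ?_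
  refine mem_centralizer_of_isPGroup_mulAut (isPGroup_aut c hB (S.isPGroup'.to_le hB) ?_) hg ho
  exact hc ⟨c.r_mem 2, mem_centralizer_iff.2 fun x hx => comm_two c (hB hx)⟩

end Cfsg.Agent.S3178
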