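import Cfsg.Statements.S3179
import Cfsg.Agent.S0243
import Cfsg.Agent.S0280
import Cfsg.Agent.S1163
import Cfsg.Agent.Misc.SpecL2
import Cfsg.Agent.Solv.FrobeniusAction
import Cfsg.Agent.PLocal.AmbSyl
-- import your own Cfsg.Agent.* helpers here

set_option autoImplicit false
open Cfsg

namespace Cfsg.Agent.S3179

open Subgroup Cfsg.Agent.PLocal.Amb

abbrev G5 := GL (Fin 5) (ZMod 2)

theorem card_G5 : Nat.card G5 = 9999360 := by
  have : Fact (Nat.Prime 2) := ⟨Nat.prime_two⟩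
  rw [Matrix.card_GL_field]
  simp [Fin.prod_univ_succ]

def a : G5 := ⟨!![0,1,0,0,0; 1,1,0,0,0; 0,0,1,0,0; 0,0,0,1,0; 0,0,0,0,1],
  !![1,1,0,0,0; 1,0,0,0,0; 0,0,1,0,0; 0,0,0,1,0; 0,0,0,0,1], by decide +kernel, by decide +kernel⟩
def b : G5 := ⟨!![1,0,0,0,0; 0,1,0,0,0; 0,0,0,1,0; 0,0,1,1,0; 0,0,0,0,1],
  !![1,0,0,0,0; 0,1,0,0,0; 0,0,1,1,0; 0,0,1,0,0; 0,0,0,0,1], by decide +kernel, by decide +kernel⟩

theorem facts : a ^ 3 = 1 ∧ b ^ 3 = 1 ∧ a * b = b * a ∧ a ≠ 1 ∧ b ≠ 1 ∧ b ≠ a ∧ b ≠ a ^ 2 := by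
  decide +kernel

theorem not_nine (g : G5) : ¬ 9 ∣ orderOf g := by
  have : Fact (Nat.Prime 3) := ⟨Nat.prime_three⟩
  obtain ⟨ha, hb, hab, ha1, hb1, h1, h2⟩ := facts
  have oa := orderOf_eq_prime ha ha1
  have ob := orderOf_eq_prime hb hb1
  intro h9
  have o9 : orderOf (g ^ (orderOf g / 9)) = 9 := orderOf_pow_orderOf_div (orderOf_pos g).ne' h9
  set x := g ^ (orderOf g / 9)
  obtain ⟨T, hT⟩ := exists_isSyl 3 (⊤ : Subgroup G5)
  have hTc : Nat.card T = 9 := by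
    rw [hT.card_eq_pow, card_top, card_G5]
    have : (9999360 : ℕ).factorization 3 = 2 := by
      rw [show (9999360 : ℕ) = 3 ^ 2 * 1111040 by norm_num, Nat.factorization_mul (by norm_num) (by norm_num),
        Nat.Prime.factorization_pow Nat.prime_three]
      simp [Nat.factorization_eq_zero_of_not_dvd]
    rw [this]; rfl
  have hx : IsSyl 3 (zpowers x) ⊤ := hT.of_card_ge (isPGroup_zpowers ⟨2, by
    rw [show 3 ^ 2 = 9 from rfl, ← o9, pow_orderOf_eq_one]⟩) le_top (by rw [Nat.card_zpowers, o9, hTc])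
  have hp : IsPGroup 3 ↥(zpowers a ⊔ zpowers b) :=
    isPGroup_sup (isPGroup_zpowers ⟨1, ha⟩) (isPGroup_zpowers ⟨1, hb⟩) (by
      refine le_trans ?_ (centralizer_le_normalizer' _)
      rw [centralizer_zpowers, zpowers_le, mem_centralizer_singleton_iff, hab])
  obtain ⟨y, -, hy⟩ := hx.exists_le_cj hp le_top
  rw [MonoidHom.map_zpowers] at hy
  have := Solv.Frob.mem_zpowers_of_orderOf_dvd (A := zpowers ((MulAut.conj y).toMonoidHom x)) (x := ⟨a, hy (mem_sup_left (mem_zpowers a))⟩)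
    (y := ⟨b, hy (mem_sup_right (mem_zpowers b))⟩) (by rw [orderOf_mk, orderOf_mk, oa, ob])
  obtain ⟨k, hk⟩ := this
  have hk' : a ^ k = b := congrArg Subtype.val hk
  rw [← zpow_mod_orderOf, oa] at hk'
  have h3 : k % 3 = 0 ∨ k % 3 = 1 ∨ k % 3 = 2 := by omega
  rcases h3 with h | h | h <;> simp only [Nat.cast_ofNat, h] at hk'
  · exact hb1 (by rw [← hk', zpow_zero])
  · exact h1 (by rw [← hk', zpow_one])
  · exact h2 (by rw [← hk']; rfl)

theorem bound {n k : ℕ} (h : 2 ^ n ≤ 2 ^ k) : n ≤ k := (Nat.pow_le_pow_iff_right (by norm_num)).1 h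

/-- Let X be a section of the general linear group GL(5, 2), that is, a quotient of a subgroup of it. If X is isomorphic to PSL(2, 2^n) for some n ≥ 2, to a Suzuki group over the field with 2^(2m+1) elements for some m ≥ 1, or to PSU(3, 2^n) for some n ≥ 2, then X is isomorphic to PSL(2, 4). -/
theorem result {H : Subgroup (GL (Fin 5) (ZMod 2))}
    {K : Subgroup ↥H} [K.Normal]
    (hX : (∃ (n : ℕ) (F : Type) (_ : Field F) (_ : Fintype F), 2 ≤ n ∧ Fintype.card F = 2 ^ n ∧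
        Nonempty (↥H ⧸ K ≃* Matrix.ProjectiveSpecialLinearGroup (Fin 2) F)) ∨
      (∃ (m : ℕ) (F : Type) (_ : Field F) (_ : Fintype F), 1 ≤ m ∧ Fintype.card F = 2 ^ (2 * m + 1) ∧
        Nonempty (↥H ⧸ K ≃* ↥(Cfsg.Lie.Sz F (2 ^ (m + 1))))) ∨
      (∃ (n : ℕ) (F : Type) (_ : Field F) (_ : Fintype F), 2 ≤ n ∧ Fintype.card F = 4 ^ n ∧
        Nonempty (↥H ⧸ K ≃* Cfsg.PSU 3 F (2 ^ n)))) :
    ∃ (F : Type) (_ : Field F) (_ : Fintype F), Fintype.card F = 4 ∧
      Nonempty (↥H ⧸ K ≃* Matrix.ProjectiveSpecialLinearGroup (Fin 2) F) := by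
  have hd : Nat.card (H ⧸ K) ∣ 9999360 := by
    rw [← card_G5]
    exact (card_quotient_dvd_card K).trans (card_subgroup_dvd_card H)
  have h2 : ∀ n, 2 ^ n ∣ 9999360 → n ≤ 10 := by
    intro n hn
    by_contra h
    have := (pow_dvd_pow 2 (show 11 ≤ n by omega)).trans hn
    omega
  rcases hX with ⟨n, F, _, _, hn, hF, ⟨e⟩⟩ | ⟨m, F, _, _, hm, hF, ⟨e⟩⟩ | ⟨n, F, _, _, hn, hF, ⟨e⟩⟩
  · have h1 := S0243.result hF 2 le_rfl
    rw [← Nat.card_congr e.toEquiv] at h1
    simp only [Fin.prod_univ_two, Fin.val_zero, Fin.val_one] at h1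
    have h3 : n ≤ 10 := by
      apply h2
      refine dvd_trans ?_ hd
      have h4 : (2 ^ n).Coprime (Nat.gcd 2 (2 ^ n - 1) * (2 ^ n - 1)) := by
        have h5 : (2 ^ n).Coprime (2 ^ n - 1) := by
          have : 2 ^ n = (2 ^ n - 1) + 1 := by have := Nat.one_le_two_pow (n := n); omega
          conv_lhs => rw [this]
          simp
        exact Nat.Coprime.mul_right (h5.coprime_dvd_right (Nat.gcd_dvd_right _ _)) h5
      refine h4.dvd_of_dvd_mul_left ?_
      rw [mul_assoc, h1]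
      exact Dvd.dvd.mul_left (Nat.dvd_sub (dvd_pow_self _ two_ne_zero) (by simp)) _
    by_cases h4 : n = 2
    · exact ⟨F, _, _, by rw [hF, h4]; rfl, ⟨e⟩⟩
    exfalso
    by_cases h5 : n = 3
    · obtain ⟨g, hg⟩ := Misc.Spec.exists_PSL2_orderOf_nonsplit (F := F)
      rw [Nat.card_eq_fintype_card, hF, h5] at hg
      obtain ⟨x, hx⟩ := QuotientGroup.mk'_surjective K (e.symm g)
      apply not_nine x
      have := orderOf_map_dvd (QuotientGroup.mk' K) x
      rw [hx, e.symm.orderOf_eq, hg] at this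
      rwa [orderOf_coe]
    have h6 := Nat.mul_dvd_mul_left (Nat.gcd 2 (2 ^ n - 1) * (2 ^ n - 1)) hd
    rw [mul_assoc, h1] at h6
    interval_cases n <;> first | omega | norm_num at h6
  · exfalso
    have h1 := (S1163.result hm hF).1
    rw [← Nat.card_congr e.toEquiv] at h1
    have h3 : 2 * m + 1 ≤ 10 := by
      apply h2
      refine dvd_trans ?_ hd
      rw [h1]
      exact Dvd.dvd.mul_right (Dvd.dvd.mul_right (dvd_pow_self _ two_ne_zero) _) _
    rw [h1] at hd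
    have h4 : m ≤ 4 := by omega
    interval_cases m <;> omega
  · exfalso
    have h1 := S0280.result (q := 2 ^ n) (by rw [hF, ← pow_mul, mul_comm, pow_mul]; rfl) 3 (by norm_num)
    rw [← Nat.card_congr e.toEquiv] at h1
    simp only [Finset.prod_range_succ, Finset.prod_range_zero] at h1
    have h3 : n ≤ 10 := by
      apply h2
      refine dvd_trans ?_ hd
      have h4 : (2 ^ n).Coprime (Nat.gcd 3 (2 ^ n + 1) * (2 ^ n + 1)) := by
        have h5 : (2 ^ n).Coprime (2 ^ n + 1) := by simp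
        exact Nat.Coprime.mul_right (h5.coprime_dvd_right (Nat.gcd_dvd_right _ _)) h5
      refine h4.dvd_of_dvd_mul_left ?_
      rw [mul_assoc, h1]
      exact Dvd.dvd.mul_right (dvd_pow_self _ (by norm_num)) _
    have h6 := Nat.mul_dvd_mul_left (Nat.gcd 3 (2 ^ n + 1) * (2 ^ n + 1)) hd
    rw [mul_assoc, h1] at h6
    interval_cases n <;> norm_num [Nat.even_iff] at h6

end Cfsg.Agent.S3179
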