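import Cfsg.Statements.S3180
import Mathlib
import Cfsg.Agent.PLocal.AmbSyl

set_option autoImplicit false
open Cfsg

namespace Cfsg.Agent.S3180

open Subgroup Cfsg.Agent.PLocal.Amb


/-- Let P be a Sylow p-subgroup of a finite group J and P₁ a subgroup of P that is weakly closed in P with respect to J. If J acts on a set and two points, each fixed by every element of P₁, lie in one J-orbit, then they lie in one orbit of the normalizer of P₁ in J. -/
theorem result {J : Type*} [Group J] [Finite J]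
    {p : ℕ} [Fact p.Prime] (P : Sylow p J) (P₁ : Subgroup J) (hW : Cfsg.IsWeaklyClosed P₁ (P : Subgroup J))
    {Ω : Type*} [MulAction J Ω] (x y : Ω) (hx : ∀ g ∈ P₁, g • x = x) (hy : ∀ g ∈ P₁, g • y = y)
    (hc : ∃ g : J, g • x = y) :
    ∃ g ∈ Subgroup.normalizer (P₁ : Set J), g • x = y := by
  obtain ⟨g, rfl⟩ := hc
  have hP₁ : IsPGroup p P₁ := P.2.to_le hW.1
  have h1 : P₁ ≤ MulAction.stabilizer J (g • x) := hy
  have h2 : cj(g, P₁) ≤ MulAction.stabilizer J (g • x) := by
    rw [cj_le_iff_forall]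
    intro a ha
    rw [MulAction.mem_stabilizer_iff, mul_smul, mul_smul, inv_smul_smul, hx a ha]
  obtain ⟨Q, hQ, hPQ⟩ := exists_isSyl_ge hP₁ h1
  obtain ⟨h, hh, hle⟩ := hQ.exists_cj_le (isPGroup_cj g hP₁) h2
  obtain ⟨k, -, hk⟩ := (isSyl_top P).exists_cj_le hQ.pgrp le_top
  have e1 : cj(k, P₁) = P₁ := hW.2 k ((cj_mono k hPQ).trans hk)
  have e2 : cj(k * (h * g), P₁) = P₁ := hW.2 _ (by
    rw [cj_mul, cj_mul]; exact (cj_mono k hle).trans hk)
  refine ⟨h * g, ?_, ?_⟩
  · have := mul_mem (inv_mem (cj_eq_iff.mp e1)) (cj_eq_iff.mp e2)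
    simpa using this
  · rw [mul_smul]; exact hh

end Cfsg.Agent.S3180
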