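import Cfsg.Statements.S3190
import Mathlib
import Cfsg.Agent.PLocal.AmbSyl
import Cfsg.Agent.Misc.Four
import Cfsg.Agent.Solv.Coprime2

set_option autoImplicit false
open Cfsg

namespace Cfsg.Agent.S3190

open Subgroup Cfsg.Agent.PLocal.Amb

theorem map_center_eq {G : Type*} [Group G] (U : Subgroup G) :
    (Subgroup.center ↥U).map U.subtype = U ⊓ 𝐂[U] := by
  ext x
  constructor
  · rintro ⟨y, hy, rfl⟩
    refine ⟨y.2, mem_centralizer_iff.mpr fun u hu => ?_⟩
    exact congrArg Subtype.val (Subgroup.mem_center_iff.mp hy ⟨u, hu⟩)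
  · rintro ⟨h1, h2⟩
    exact ⟨⟨x, h1⟩, Subgroup.mem_center_iff.mpr fun u => Subtype.ext
      (mem_centralizer_iff.mp h2 u u.2), rfl⟩


/-- Let p be an odd prime and, inside a finite group, let P be a p-subgroup normalized by a Klein four-group T. Let R be a subgroup of P, normal in P and normalized by T, such that P is the product of R with the centralizer of T in P. If T centralizes the centre of P, then T centralizes the centre of R. -/
theorem result {X : Type*} [Group X] [Finite X]
    {p : ℕ} (hp : p.Prime) (hodd : Odd p) (P T R : Subgroup X) (hP : IsPGroup p ↥P) (hT : IsKleinFour ↥T)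
    (hTP : T ≤ Subgroup.normalizer (P : Set X)) (hRP : R ≤ P) (hRn : (R.subgroupOf P).Normal)
    (hTR : T ≤ Subgroup.normalizer (R : Set X)) (hfac : R ⊔ (P ⊓ Subgroup.centralizer (T : Set X)) = P)
    (hZ : T ≤ Subgroup.centralizer (((Subgroup.center ↥P).map P.subtype : Subgroup X) : Set X)) :
    T ≤ Subgroup.centralizer (((Subgroup.center ↥R).map R.subtype : Subgroup X) : Set X) := by
  have := Fact.mk hp
  rw [map_center_eq] at hZ ⊢
  set Z := R ⊓ 𝐂[R] with hZdef
  have hPR : P ≤ 𝐍[R] := (normal_subgroupOf_iff_le_normalizer hRP).mp hRn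
  have hPZ : P ≤ 𝐍[Z] := le_normalizer_inf hPR (le_normalizer_centralizer hPR)
  have hTZ : T ≤ 𝐍[Z] := le_normalizer_inf hTR (le_normalizer_centralizer hTR)
  have hZp : IsPGroup p Z := hP.to_le (inf_le_left.trans hRP)
  have : IsMulCommutative Z := Misc.isMulCommutative_iff'.mpr fun a ha b hb =>
    mem_centralizer_iff.mp hb.2 a ha.1
  have hcop : (Nat.card T).Coprime (Nat.card Z) := by
    apply Solv.coprime_card_of_isPGroup hZp
    rw [hT.card_four]
    exact (Nat.Coprime.pow_left 2 (Nat.coprime_two_left.mpr hodd))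
  have h1 := Solv.coprime_centralizer_inf_commutator T Z hTZ hcop
  have hWZ : ⁅Z, T⁆ ≤ Z := Solv.commutator_le_of_le_normalizer hTZ
  have hPW : P ≤ 𝐍[⁅Z, T⁆] := by
    rw [← hfac]
    apply sup_le
    · refine le_trans ?_ (centralizer_le_normalizer' _)
      rw [le_centralizer_iff]
      exact hWZ.trans inf_le_right
    · exact le_normalizer_commutator (inf_le_left.trans hPZ)
        (inf_le_right.trans (centralizer_le_normalizer' _))
  have hW : ⁅Z, T⁆ = ⊥ := by
    by_contra hne
    apply inf_centralizer_ne_bot hP (hZp.to_le hWZ) hPW hne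
    rw [eq_bot_iff, ← h1]
    intro w hw
    refine ⟨⟨hWZ hw.1, ?_⟩, hw.1⟩
    exact le_centralizer_iff.mp hZ ⟨hRP (hWZ hw.1).1, hw.2⟩
  rw [le_centralizer_iff]
  exact commutator_eq_bot_iff_le_centralizer.mp hW

end Cfsg.Agent.S3190
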