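import Cfsg.Statements.S3195
import Cfsg.Agent.Inv.Basic

set_option autoImplicit false
open Cfsg

namespace Cfsg.Agent.S3195

theorem eq_one_of_odd {G : Type*} [Group G] {x : G} (hx : Odd (orderOf x)) (k : ℕ)
    (h : x ^ 2 ^ k = 1) : x = 1 := by
  have h1 : orderOf x ∣ 2 ^ k := orderOf_dvd_of_pow_eq_one h
  have h2 : (orderOf x).Coprime (2 ^ k) := (Nat.coprime_two_right.2 hx).pow_right k
  exact orderOf_eq_one_iff.1 (Nat.eq_one_of_dvd_coprimes h2 dvd_rfl h1)

theorem commute_of_sq {G : Type*} [Group G] {w u : G} (hw : Odd (orderOf w))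
    (h : Commute (w ^ 2) u) : Commute w u := by
  obtain ⟨k, hk⟩ := hw
  have h1 : w = (w ^ 2) ^ (k + 1) := by
    rw [← pow_mul, show 2 * (k + 1) = (2 * k + 1) + 1 by ring, pow_succ, ← hk, pow_orderOf_eq_one,
      one_mul]
  rw [h1]
  exact h.pow_left _

theorem conj_eq {G : Type*} [Group G] {t x : G} (h : t * x * t⁻¹ = x⁻¹) :
    x⁻¹ * t * x⁻¹⁻¹ = t * x ^ 2 := by
  rw [inv_inv, ← h, pow_two]; group

theorem comm_of_mul {G : Type*} [Group G] {s t x : G} (hst : Commute s t)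
    (h : Commute s (t * x)) : Commute s x := by
  have := (hst.inv_right).mul_right h
  rwa [inv_mul_cancel_left] at this

theorem not_comm_inv {G : Type*} [Group G] {t x : G} (hx : Odd (orderOf x)) (h1 : x ≠ 1)
    (h : t * x * t⁻¹ = x⁻¹) (hc : Commute t (x ^ 2)) : False := by
  have h2 : Commute x t := commute_of_sq hx hc.symm
  rw [← h2.eq, mul_inv_cancel_right] at h
  apply h1
  apply eq_one_of_odd hx 1
  rw [pow_one, pow_two]
  nth_rewrite 2 [h]
  exact mul_inv_cancel x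

theorem key {G : Type*} [Group G] {a b x y : G} (hab : Commute a b)
    (hx : Odd (orderOf x)) (hx1 : x ≠ 1) (hy : Odd (orderOf y)) (hy1 : y ≠ 1)
    (hax : a * x * a⁻¹ = x⁻¹) (hbx : Commute b x) (hby : b * y * b⁻¹ = y⁻¹) (hay : Commute a y)
    (H1 : ∀ g : G, Commute a (g * a * g⁻¹) ∨ Commute b (g * a * g⁻¹) ∨
      Commute (a * b) (g * a * g⁻¹))
    (H2 : ∀ g : G, Commute a (g * (a * b) * g⁻¹) ∨ Commute b (g * (a * b) * g⁻¹) ∨
      Commute (a * b) (g * (a * b) * g⁻¹)) : False := by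
  have hcx : (a * b) * x * (a * b)⁻¹ = x⁻¹ := by
    rw [← hax, mul_assoc a b, hbx.eq]; group
  have hcy : (a * b) * y * (a * b)⁻¹ = y⁻¹ := by
    rw [hab.eq, ← hby, mul_assoc b a, hay.eq]; group
  have hconj : ∀ s : G, Commute s ((y * x⁻¹) * a * (y * x⁻¹)⁻¹) →
      Commute (y⁻¹ * s * y⁻¹⁻¹) (a * x ^ 2) := by
    intro s hs
    rw [← conj_eq hax]
    have := hs.eq
    unfold Commute SemiconjBy
    calc y⁻¹ * s * y⁻¹⁻¹ * (x⁻¹ * a * x⁻¹⁻¹)
        = y⁻¹ * (s * ((y * x⁻¹) * a * (y * x⁻¹)⁻¹)) * y := by group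
      _ = y⁻¹ * (((y * x⁻¹) * a * (y * x⁻¹)⁻¹) * s) * y := by rw [this]
      _ = _ := by group
  have hxy : Commute x y := by
    rcases H1 (y * x⁻¹) with h | h | h
    · have h' := hconj a h
      rw [inv_inv, mul_assoc, hay.eq, inv_mul_cancel_left] at h'
      exact (not_comm_inv hx hx1 hax (comm_of_mul (Commute.refl a) h')).elim
    · have h' := hconj b h
      rw [conj_eq hby] at h'
      have h1 : Commute (b * y ^ 2) a := hab.symm.mul_left (hay.symm.pow_left 2)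
      have h2 := comm_of_mul h1 h'
      have h3 := comm_of_mul (hbx.symm.pow_left 2) h2.symm
      exact (commute_of_sq hy (commute_of_sq hx h3).symm).symm
    · have h' := hconj (a * b) h
      rw [conj_eq hcy] at h'
      have h1 : Commute (a * b * y ^ 2) a :=
        ((Commute.refl a).mul_left hab.symm).mul_left (hay.symm.pow_left 2)
      have h2 := comm_of_mul h1 h'
      have h3 : Commute x (a * b * y ^ 2) := commute_of_sq hx h2.symm
      have h4 : Commute ((a * b * y ^ 2) * (a * b * y ^ 2)) x := h3.symm.mul_left h3.symm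
      have h5 : y ^ 2 * x * (y ^ 2)⁻¹ = x⁻¹ := by
        have e1 : (a * b) * (y ^ 2 * x * (y ^ 2)⁻¹) * (a * b)⁻¹ = x := by
          calc (a * b) * (y ^ 2 * x * (y ^ 2)⁻¹) * (a * b)⁻¹
              = ((a * b * y ^ 2) * x) * (a * b * y ^ 2)⁻¹ := by group
            _ = x := by rw [← h3.eq]; group
        have e2 : (a * b) * x⁻¹ * (a * b)⁻¹ = x := by
          have := congrArg (·⁻¹) hcx
          simpa [mul_assoc] using this
        have := e1.trans e2.symm
        exact mul_left_cancel (mul_right_cancel this)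
      have h6 : Commute ((y ^ 2) ^ 2) x := by
        have e2 : y ^ 2 * x⁻¹ * (y ^ 2)⁻¹ = x := by
          have := congrArg (·⁻¹) h5
          simpa [mul_assoc] using this
        unfold Commute SemiconjBy
        calc (y ^ 2) ^ 2 * x = y ^ 2 * (y ^ 2 * x * (y ^ 2)⁻¹) * y ^ 2 := by group
          _ = (y ^ 2 * x⁻¹ * (y ^ 2)⁻¹) * (y ^ 2) ^ 2 := by rw [h5]; group
          _ = _ := by rw [e2]
      have hy2 : Odd (orderOf (y ^ 2)) := hy.of_dvd_nat (orderOf_pow_dvd 2)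
      exact (not_comm_inv hx hx1 h5 ((commute_of_sq hy2 h6).pow_right 2)).elim
  have hc : (a * b) * (x * y) * (a * b)⁻¹ = (x * y)⁻¹ := by
    calc (a * b) * (x * y) * (a * b)⁻¹
        = ((a * b) * x * (a * b)⁻¹) * ((a * b) * y * (a * b)⁻¹) := by group
      _ = (y * x)⁻¹ := by rw [hcx, hcy, mul_inv_rev]
      _ = _ := by rw [hxy.eq]
  have hsq : (x * y) ^ 2 = x ^ 2 * y ^ 2 := hxy.mul_pow 2
  have hxyo : Odd (orderOf (x * y)) :=
    (hx.mul hy).of_dvd_nat hxy.orderOf_mul_dvd_mul_orderOf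
  have hxy1 : x * y ≠ 1 := by
    intro h
    have h1 : x = y⁻¹ := eq_inv_of_mul_eq_one_left h
    exact not_comm_inv hx hx1 hax (h1 ▸ (hay.inv_right.pow_right 2))
  rcases H2 (x * y)⁻¹ with h | h | h
  · rw [conj_eq hc, hsq] at h
    have h1 := comm_of_mul ((Commute.refl a).mul_right hab) h
    rw [(hxy.pow_pow 2 2).eq] at h1
    exact not_comm_inv hx hx1 hax (comm_of_mul (hay.pow_right 2) h1)
  · rw [conj_eq hc, hsq] at h
    have h1 := comm_of_mul (hab.symm.mul_right (Commute.refl b)) h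
    exact not_comm_inv hy hy1 hby (comm_of_mul (hbx.pow_right 2) h1)
  · rw [conj_eq hc] at h
    exact not_comm_inv hxyo hxy1 hc (comm_of_mul (Commute.refl _) h)

/-- Let A be a Klein four-subgroup of a finite group G. If every G-conjugate of every involution of A commutes with some involution of A (its centralizer meets A nontrivially), then A meets the largest normal 2-subgroup O₂(G) nontrivially. -/
theorem result {G : Type*} [Group G] [Finite G]
    (A : Subgroup G) (hA : IsKleinFour ↥A)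
    (h : ∀ a ∈ A, a ≠ 1 → ∀ g : G, A ⊓ Subgroup.centralizer ({g * a * g⁻¹} : Set G) ≠ ⊥) :
    A ⊓ Cfsg.pCore 2 G ≠ ⊥ := by
  intro hbot
  have hsq : ∀ a ∈ A, a * a = 1 := fun a ha =>
    congrArg Subtype.val (IsKleinFour.mul_self (⟨a, ha⟩ : A))
  have hcomm : ∀ a ∈ A, ∀ b ∈ A, Commute a b := by
    intro a ha b hb
    have h1 := hsq _ (A.mul_mem ha hb)
    have h2 := hsq a ha
    have h3 := hsq b hb
    unfold Commute SemiconjBy
    calc a * b = (a * b)⁻¹ := eq_inv_of_mul_eq_one_left h1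
      _ = b * a := by
        rw [mul_inv_rev, ← eq_inv_of_mul_eq_one_left h2, ← eq_inv_of_mul_eq_one_left h3]
  have hinv : ∀ a ∈ A, a ≠ 1 → ∃ x : G, x ≠ 1 ∧ Odd (orderOf x) ∧ a * x * a⁻¹ = x⁻¹ := by
    intro a ha h1
    refine Cfsg.Agent.Inv.exists_odd_inverted_of_not_mem_pCore
      (Cfsg.Agent.Inv.orderOf_two_of_mul_self (hsq a ha) h1) fun hm => h1 ?_
    have : a ∈ A ⊓ Cfsg.pCore 2 G := ⟨ha, hm⟩
    rwa [hbot, Subgroup.mem_bot] at this
  have h' : ∀ a ∈ A, a ≠ 1 → ∀ g : G, ∃ s ∈ A, s ≠ 1 ∧ Commute s (g * a * g⁻¹) := by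
    intro a ha h1 g
    obtain ⟨⟨s, hs⟩, hs1⟩ := Subgroup.ne_bot_iff_exists_ne_one.1 (h a ha h1 g)
    exact ⟨s, hs.1, fun e => hs1 (Subtype.ext e),
      Subgroup.mem_centralizer_singleton_iff.1 hs.2⟩
  have h3 : ∀ a ∈ A, ∀ b ∈ A, a ≠ 1 → b ≠ 1 → a ≠ b → ∀ s ∈ A, s ≠ 1 →
      s = a ∨ s = b ∨ s = a * b := by
    intro a ha b hb ha1 hb1 hab s hs hs1
    by_cases e1 : s = a
    · exact Or.inl e1
    by_cases e2 : s = b
    · exact Or.inr (Or.inl e2)
    refine Or.inr (Or.inr ?_)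
    have := IsKleinFour.eq_mul_of_ne_all (G := A) (x := ⟨a, ha⟩) (y := ⟨b, hb⟩) (z := ⟨s, hs⟩)
      (fun e => ha1 (congrArg Subtype.val e)) (fun e => hb1 (congrArg Subtype.val e))
      (fun e => hab (congrArg Subtype.val e)) (fun e => hs1 (congrArg Subtype.val e))
      (fun e => e1 (congrArg Subtype.val e)) (fun e => e2 (congrArg Subtype.val e))
    exact congrArg Subtype.val this
  have hne : A ≠ ⊥ := by
    intro e
    have := hA.card_four
    rw [e, Subgroup.card_bot] at this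
    omega
  obtain ⟨⟨a₀, ha₀⟩, ha₀1⟩ := Subgroup.ne_bot_iff_exists_ne_one.1 hne
  have ha₀1' : a₀ ≠ 1 := fun e => ha₀1 (Subtype.ext e)
  obtain ⟨x, hx1, hx, hax⟩ := hinv a₀ ha₀ ha₀1'
  obtain ⟨b, hb, hb1, hbx⟩ := h' a₀ ha₀ ha₀1' x⁻¹
  rw [conj_eq hax] at hbx
  have hbx' : Commute b x := (commute_of_sq hx (comm_of_mul (hcomm b hb a₀ ha₀) hbx).symm).symm
  have hab₀ : a₀ ≠ b := by
    rintro rfl
    exact not_comm_inv hx hx1 hax (hbx'.pow_right 2)
  obtain ⟨y, hy1, hy, hby⟩ := hinv b hb hb1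
  obtain ⟨a, ha, ha1, hay⟩ := h' b hb hb1 y⁻¹
  rw [conj_eq hby] at hay
  have hay' : Commute a y := (commute_of_sq hy (comm_of_mul (hcomm a ha b hb) hay).symm).symm
  have hab : a ≠ b := by
    rintro rfl
    exact not_comm_inv hy hy1 hby (hay'.pow_right 2)
  have hax' : a * x * a⁻¹ = x⁻¹ := by
    rcases h3 a₀ ha₀ b hb ha₀1' hb1 hab₀ a ha ha1 with e | e | e
    · rw [e, hax]
    · exact (hab e).elim
    · rw [e, ← hax, mul_assoc a₀ b, hbx'.eq]; group
  have hab1 : a * b ≠ 1 := by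
    intro e
    apply hab
    rw [eq_inv_of_mul_eq_one_left e, ← eq_inv_of_mul_eq_one_left (hsq b hb)]
  have H : ∀ t ∈ A, t ≠ 1 → ∀ g : G, Commute a (g * t * g⁻¹) ∨ Commute b (g * t * g⁻¹) ∨
      Commute (a * b) (g * t * g⁻¹) := by
    intro t ht ht1 g
    obtain ⟨s, hs, hs1, hsc⟩ := h' t ht ht1 g
    rcases h3 a ha b hb ha1 hb1 hab s hs hs1 with e | e | e
    · exact Or.inl (e ▸ hsc)
    · exact Or.inr (Or.inl (e ▸ hsc))
    · exact Or.inr (Or.inr (e ▸ hsc))
  exact key (hcomm a ha b hb) hx hx1 hy hy1 hax' hbx' hby hay' (H a ha ha1)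
    (H _ (A.mul_mem ha hb) hab1)

end Cfsg.Agent.S3195
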