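import Cfsg.Statements.S3196
import Cfsg.Agent.Inv.BaerSuzuki
import Cfsg.Agent.Grp.Cores

set_option autoImplicit false
open Cfsg

namespace Cfsg.Agent.S3196

/-- The combinatorial core, for a set `S` of group elements. -/
theorem core {G : Type*} [Group G] (S : Set G)
    (F2 : ∀ x ∈ S, ∀ y ∈ S, Commute x y → ∀ i j : ℤ, x ^ i * y ^ j ≠ 1 → x ^ i * y ^ j ∈ S)
    (F3 : ∀ x ∈ S, ∀ y ∈ S, Commute x y → (∃ t, Commute x t ∧ ¬ Commute y t) → ∀ w ∈ S,
      ∃ i j : ℤ, x ^ i * y ^ j ≠ 1 ∧ Commute (x ^ i * y ^ j) w)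
    (F4 : ∀ x ∈ S, ∀ i : ℤ, x ^ i ≠ 1 → ∃ m : ℤ, (x ^ i) ^ m = x)
    (F5 : ∀ x ∈ S, ∀ g : G, g⁻¹ * x * g ∈ S)
    {x₀ w₀ y : G} (hx₀ : x₀ ∈ S) (hw₀ : w₀ ∈ S) (hy : y ∈ S) (hxw₀ : ¬ Commute x₀ w₀)
    (hyx₀ : Commute y x₀) (hyw₀ : Commute y w₀) : ∃ v ∈ S, ∀ u ∈ S, Commute v u := by
  by_contra hno
  push Not at hno
  have F4' : ∀ x ∈ S, ∀ i : ℤ, x ^ i ≠ 1 → ∀ t, Commute (x ^ i) t → Commute x t := by
    intro x hx i hi t ht
    obtain ⟨m, hm⟩ := F4 x hx i hi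
    rw [← hm]
    exact ht.zpow_left m
  have cancel : ∀ a b t : G, Commute a t → Commute (a * b) t → Commute b t := by
    intro a b t h1 h2
    have := h1.inv_left.mul_left h2
    rwa [inv_mul_cancel_left] at this
  have cancel' : ∀ a b t : G, Commute b t → Commute (a * b) t → Commute a t := by
    intro a b t h1 h2
    have := h2.mul_left h1.inv_left
    rwa [mul_inv_cancel_right] at this
  obtain ⟨z₀, hz₀, hyz₀⟩ := hno y hy
  obtain ⟨a, b, hx1, hxz⟩ := F3 y hy x₀ hx₀ hyx₀ ⟨w₀, hyw₀, hxw₀⟩ z₀ hz₀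
  obtain ⟨c', d, hw1, hwz⟩ := F3 y hy w₀ hw₀ hyw₀ ⟨x₀, hyx₀, fun h => hxw₀ h.symm⟩ z₀ hz₀
  have hb : x₀ ^ b ≠ 1 := by
    intro e
    rw [e, mul_one] at hx1 hxz
    exact hyz₀ (F4' y hy a hx1 _ hxz)
  have hd : w₀ ^ d ≠ 1 := by
    intro e
    rw [e, mul_one] at hw1 hwz
    exact hyz₀ (F4' y hy c' hw1 _ hwz)
  have hx : y ^ a * x₀ ^ b ∈ S := F2 y hy x₀ hx₀ hyx₀ a b hx1
  have hw : y ^ c' * w₀ ^ d ∈ S := F2 y hy w₀ hw₀ hyw₀ c' d hw1
  have hyx : Commute y (y ^ a * x₀ ^ b) :=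
    ((Commute.refl y).zpow_right a).mul_right (hyx₀.zpow_right b)
  have hyw : Commute y (y ^ c' * w₀ ^ d) :=
    ((Commute.refl y).zpow_right c').mul_right (hyw₀.zpow_right d)
  have hxw : ¬ Commute (y ^ a * x₀ ^ b) (y ^ c' * w₀ ^ d) := by
    intro h
    have h1 := cancel _ _ _ (hyw.zpow_left a) h
    have h2 := F4' x₀ hx₀ b hb _ h1
    have h3 := cancel _ _ _ (hyx₀.zpow_left c') h2.symm
    exact hxw₀ (F4' w₀ hw₀ d hd _ h3).symm
  generalize y ^ a * x₀ ^ b = x at hx hyx hxw hxz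
  generalize y ^ c' * w₀ ^ d = w at hw hyw hxw hwz
  have hyx1 : y ^ (1 : ℤ) * x ^ (1 : ℤ) ≠ 1 := by
    rw [zpow_one, zpow_one]
    intro e
    apply hxw
    rw [eq_inv_of_mul_eq_one_right e]
    exact hyw.inv_left
  have hyxS := F2 y hy x hx hyx 1 1 hyx1
  rw [zpow_one, zpow_one] at hyxS
  obtain ⟨i, j, h1, h2⟩ := F3 z₀ hz₀ w hw hwz.symm ⟨x, hxz.symm, fun h => hxw h.symm⟩ _ hyxS
  have hi : z₀ ^ i ≠ 1 := by
    intro e
    rw [e, one_mul] at h1 h2
    exact hxw (cancel _ _ _ hyw (F4' w hw j h1 _ h2).symm)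
  have hz : z₀ ^ i ∈ S := by
    have := F2 z₀ hz₀ z₀ hz₀ (Commute.refl _) i 0 (by simpa using hi)
    simpa using this
  have hyz : ¬ Commute y (z₀ ^ i) := fun h => hyz₀ (F4' z₀ hz₀ i hi _ h.symm).symm
  have hxz' : Commute x (z₀ ^ i) := hxz.zpow_right i
  have hwz' : Commute (w ^ j) (z₀ ^ i) := hwz.zpow_zpow j i
  have hyw' : Commute y (w ^ j) := hyw.zpow_right j
  generalize z₀ ^ i = z at h2 hz hyz hxz' hwz'
  generalize w ^ j = w' at h2 hwz' hyw'
  have hc : y⁻¹ * z⁻¹ * y * z = w' * x * w'⁻¹ * x⁻¹ := by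
    have e1 : z * w' * (y * x) = z * y * (w' * x) := by
      rw [mul_assoc z w', ← mul_assoc w', ← hyw'.eq]; group
    have e2 : y * x * (z * w') = y * z * (x * w') := by
      rw [mul_assoc y x, ← mul_assoc x, hxz'.eq]; group
    have e3 := h2.eq
    rw [e1, e2] at e3
    calc y⁻¹ * z⁻¹ * y * z = y⁻¹ * z⁻¹ * (y * z * (x * w')) * (x * w')⁻¹ := by group
      _ = _ := by rw [← e3]; group
  have hcy : Commute (y⁻¹ * z⁻¹ * y * z) y := by
    rw [hc]
    exact ((hyw'.symm.mul_left hyx.symm).mul_left hyw'.symm.inv_left).mul_left hyx.symm.inv_left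
  have hcz : Commute (y⁻¹ * z⁻¹ * y * z) z := by
    rw [hc]
    exact ((hwz'.mul_left hxz').mul_left hwz'.inv_left).mul_left hxz'.inv_left
  have hc1 : y⁻¹ * z⁻¹ * y * z ≠ 1 := by
    intro e
    apply hyz
    calc y * z = z * y * (y⁻¹ * z⁻¹ * y * z) := by group
      _ = z * y := by rw [e, mul_one]
  have hcS : y⁻¹ * z⁻¹ * y * z ∈ S := by
    have e : y⁻¹ * z⁻¹ * y * z = y ^ (-1 : ℤ) * (z⁻¹ * y * z) ^ (1 : ℤ) := by group
    have hcom : Commute y (z⁻¹ * y * z) := by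
      have : z⁻¹ * y * z = y * (y⁻¹ * z⁻¹ * y * z) := by group
      rw [this]
      exact (Commute.refl y).mul_right hcy.symm
    rw [e] at hc1 ⊢
    exact F2 y hy _ (F5 y hy z) hcom _ _ hc1
  obtain ⟨u, hu, hcu⟩ := hno _ hcS
  have hcdef : ∀ c, c = y⁻¹ * z⁻¹ * y * z → ∀ k l : ℤ, Commute c y → Commute c z →
      c = (c ^ k * y)⁻¹ * (c ^ l * z)⁻¹ * (c ^ k * y) * (c ^ l * z) := by
    intro c hc k l h1 h2
    have a1 : (c ^ l * z)⁻¹ * (c ^ k * y) * (c ^ l * z) = c ^ k * (z⁻¹ * y * z) := by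
      have b1 : (c ^ l)⁻¹ * (c ^ k * y) * c ^ l = c ^ k * y := by
        have : Commute (c ^ l) (c ^ k * y) :=
          ((Commute.refl c).zpow_zpow l k).mul_right (h1.zpow_left l)
        rw [mul_assoc, ← this.eq, inv_mul_cancel_left]
      calc (c ^ l * z)⁻¹ * (c ^ k * y) * (c ^ l * z)
          = z⁻¹ * ((c ^ l)⁻¹ * (c ^ k * y) * c ^ l) * z := by group
        _ = z⁻¹ * c ^ k * y * z := by rw [b1]; group
        _ = _ := by rw [← (h2.zpow_left k).inv_right.eq]; group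
    calc c = (c ^ k * y)⁻¹ * (c ^ k * (z⁻¹ * y * z)) := by
          nth_rewrite 1 [hc]; group
      _ = _ := by rw [← a1]; group
  generalize hcc : y⁻¹ * z⁻¹ * y * z = c at hcy hcz hcS hcu hcdef
  have lift : ∀ t ∈ S, Commute c t → (∃ r, Commute c r ∧ ¬ Commute t r) →
      ∃ k : ℤ, Commute (c ^ k * t) u := by
    intro t ht hct hr
    obtain ⟨a, s, h1, h2⟩ := F3 c hcS t ht hct hr u hu
    have hs : t ^ s ≠ 1 := by
      intro e
      rw [e, mul_one] at h1 h2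
      exact hcu (F4' c hcS a h1 _ h2)
    obtain ⟨m, hm⟩ := F4 t ht s hs
    refine ⟨a * m, ?_⟩
    have := h2.zpow_left m
    rwa [(hct.zpow_zpow a s).mul_zpow, hm, ← zpow_mul] at this
  obtain ⟨k, hk⟩ := lift y hy hcy ⟨z, hcz, hyz⟩
  obtain ⟨l, hl⟩ := lift z hz hcz ⟨y, hcy, fun h => hyz h.symm⟩
  apply hcu
  rw [hcdef c rfl k l hcy hcz]
  exact ((hk.inv_left.mul_left hl.inv_left).mul_left hk).mul_left hl

/-- Let p be a prime and K a set of subgroups of order p of a finite group G, closed under conjugation, such that at least two distinct members of K commute elementwise, and whenever two distinct members X, Y of K commute: every subgroup of order p of the group XY they generate belongs to K, and every member W of K has centralizer meeting XY nontrivially. Then some member V of K commutes elementwise with every member of K and lies in O_p(G); in particular G is not simple. -/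
theorem result {G : Type*} [Group G] [Finite G]
    {p : ℕ} (hp : p.Prime) (K : Set (Subgroup G)) (hK : ∀ X ∈ K, Nat.card ↥X = p)
    (hKc : ∀ X ∈ K, ∀ g : G, X.map (MulAut.conj g).toMonoidHom ∈ K)
    (hex : ∃ X ∈ K, ∃ Y ∈ K, X ≠ Y ∧ ∀ x ∈ X, ∀ y ∈ Y, x * y = y * x)
    (ha : ∀ X ∈ K, ∀ Y ∈ K, X ≠ Y → (∀ x ∈ X, ∀ y ∈ Y, x * y = y * x) →
      ∀ Z : Subgroup G, Z ≤ X ⊔ Y → Nat.card ↥Z = p → Z ∈ K)
    (hb : ∀ X ∈ K, ∀ Y ∈ K, X ≠ Y → (∀ x ∈ X, ∀ y ∈ Y, x * y = y * x) →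
      ∀ W ∈ K, (X ⊔ Y) ⊓ Subgroup.centralizer (W : Set G) ≠ ⊥) :
    (∃ V ∈ K, (∀ W ∈ K, ∀ v ∈ V, ∀ w ∈ W, v * w = w * v) ∧ V ≤ Cfsg.pCore p G) ∧ ¬ IsSimpleGroup G := by
  have : Fact p.Prime := ⟨hp⟩
  have hgen : ∀ X : Subgroup G, Nat.card X = p → ∀ x ∈ X, x ≠ 1 → Subgroup.zpowers x = X := by
    intro X hX x hx h1
    have hle : Subgroup.zpowers x ≤ X := by simpa using hx
    have hd : Nat.card (Subgroup.zpowers x) ∣ p := hX ▸ Subgroup.card_dvd_of_le hle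
    rcases (Nat.dvd_prime hp).1 hd with e | e
    · exact (h1 (by simpa using e)).elim
    · exact Subgroup.eq_of_le_of_card_ge hle (by rw [e, hX])
  have hne : ∀ X : Subgroup G, Nat.card X = p → ∃ x ∈ X, x ≠ 1 := by
    intro X hX
    have : X ≠ ⊥ := by
      intro e
      rw [e, Subgroup.card_bot] at hX
      exact hp.one_lt.ne hX
    obtain ⟨⟨x, hx⟩, h1⟩ := Subgroup.ne_bot_iff_exists_ne_one.1 this
    exact ⟨x, hx, fun e => h1 (Subtype.ext e)⟩
  have hcomm : ∀ x y : G, Commute x y → ∀ a ∈ Subgroup.zpowers x, ∀ b ∈ Subgroup.zpowers y,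
      a * b = b * a := by
    rintro x y h a ⟨i, rfl⟩ b ⟨j, rfl⟩
    exact (h.zpow_zpow i j).eq
  have hmem : ∀ x y : G, Commute x y → ∀ v ∈ Subgroup.zpowers x ⊔ Subgroup.zpowers y,
      ∃ i j : ℤ, v = x ^ i * y ^ j := by
    intro x y h v hv
    let T : Subgroup G :=
      { carrier := {v | ∃ i j : ℤ, v = x ^ i * y ^ j}
        one_mem' := ⟨0, 0, by simp⟩
        mul_mem' := by
          rintro _ _ ⟨i, j, rfl⟩ ⟨k, l, rfl⟩
          refine ⟨i + k, j + l, ?_⟩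
          rw [zpow_add, zpow_add, mul_assoc, ← mul_assoc (y ^ j), ← (h.zpow_zpow k j).eq]
          group
        inv_mem' := by
          rintro _ ⟨i, j, rfl⟩
          refine ⟨-i, -j, ?_⟩
          rw [(h.zpow_zpow i j).eq]
          group }
    have : Subgroup.zpowers x ⊔ Subgroup.zpowers y ≤ T := by
      refine sup_le ?_ ?_
      · rintro _ ⟨i, rfl⟩; exact ⟨i, 0, by simp⟩
      · rintro _ ⟨i, rfl⟩; exact ⟨0, i, by simp⟩
    exact this hv
  let S : Set G := {x | Subgroup.zpowers x ∈ K}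
  have hord : ∀ x ∈ S, orderOf x = p := fun x hx => by
    rw [← Nat.card_zpowers]; exact hK _ hx
  have F2 : ∀ x ∈ S, ∀ y ∈ S, Commute x y → ∀ i j : ℤ, x ^ i * y ^ j ≠ 1 →
      x ^ i * y ^ j ∈ S := by
    intro x hx y hy h i j h1
    have hle : x ^ i * y ^ j ∈ Subgroup.zpowers x ⊔ Subgroup.zpowers y :=
      Subgroup.mul_mem_sup ⟨i, rfl⟩ ⟨j, rfl⟩
    by_cases e : Subgroup.zpowers x = Subgroup.zpowers y
    · rw [← e, sup_idem] at hle
      change Subgroup.zpowers _ ∈ K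
      rw [hgen _ (hK _ hx) _ hle h1]
      exact hx
    · refine ha _ hx _ hy e (hcomm x y h) _ (by simpa using hle) ?_
      rw [Nat.card_zpowers]
      refine orderOf_eq_prime ?_ h1
      rw [(h.zpow_zpow i j).mul_pow, ← zpow_natCast, ← zpow_natCast, ← zpow_mul, ← zpow_mul,
        mul_comm i, mul_comm j, zpow_mul, zpow_mul, zpow_natCast, zpow_natCast]
      nth_rewrite 1 [← hord x hx]
      rw [← hord y hy, pow_orderOf_eq_one, pow_orderOf_eq_one]
      simp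
  have F3' : ∀ x ∈ S, ∀ y ∈ S, Commute x y → Subgroup.zpowers x ≠ Subgroup.zpowers y →
      ∀ w ∈ S, ∃ i j : ℤ, x ^ i * y ^ j ≠ 1 ∧ Commute (x ^ i * y ^ j) w := by
    intro x hx y hy h e w hw
    obtain ⟨⟨v, hv⟩, h1⟩ := Subgroup.ne_bot_iff_exists_ne_one.1 (hb _ hx _ hy e (hcomm x y h) _ hw)
    obtain ⟨i, j, rfl⟩ := hmem x y h v hv.1
    exact ⟨i, j, fun e => h1 (Subtype.ext e),
      ((Subgroup.mem_centralizer_iff.1 hv.2) w (Subgroup.mem_zpowers w)).symm⟩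
  have hdist : ∀ x y t : G, Commute x t → ¬ Commute y t →
      Subgroup.zpowers x ≠ Subgroup.zpowers y := by
    intro x y t h1 h2 e
    have : y ∈ Subgroup.zpowers x := e ▸ Subgroup.mem_zpowers y
    obtain ⟨i, rfl⟩ := this
    exact h2 (h1.zpow_left i)
  have F4 : ∀ x ∈ S, ∀ i : ℤ, x ^ i ≠ 1 → ∃ m : ℤ, (x ^ i) ^ m = x := by
    intro x hx i hi
    have := hgen _ (hK _ hx) (x ^ i) ⟨i, rfl⟩ hi
    have h2 : x ∈ Subgroup.zpowers (x ^ i) := this ▸ Subgroup.mem_zpowers x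
    exact h2
  have F5 : ∀ x ∈ S, ∀ g : G, g⁻¹ * x * g ∈ S := by
    intro x hx g
    have := hKc _ hx g⁻¹
    rw [MonoidHom.map_zpowers] at this
    change Subgroup.zpowers _ ∈ K
    simpa using this
  have main : ∃ v ∈ S, ∀ u ∈ S, Commute v u := by
    obtain ⟨X, hX, Y, hY, hXY, hc⟩ := hex
    obtain ⟨x, hx, hx1⟩ := hne X (hK X hX)
    obtain ⟨y, hy, hy1⟩ := hne Y (hK Y hY)
    have ex := hgen X (hK X hX) x hx hx1
    have ey := hgen Y (hK Y hY) y hy hy1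
    have hxS : x ∈ S := by change _ ∈ K; rw [ex]; exact hX
    have hyS : y ∈ S := by change _ ∈ K; rw [ey]; exact hY
    have hxy : Commute x y := hc x hx y hy
    by_cases hall : ∀ u ∈ S, Commute x u
    · exact ⟨x, hxS, hall⟩
    push Not at hall
    obtain ⟨w, hw, hxw⟩ := hall
    obtain ⟨i, j, h1, h2⟩ := F3' x hxS y hyS hxy (by rw [ex, ey]; exact hXY) w hw
    exact core S F2 (fun x hx y hy h ⟨t, h1, h2⟩ => F3' x hx y hy h (hdist x y t h1 h2)) F4 F5
      hxS hw (F2 x hxS y hyS hxy i j h1) hxw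
      (((Commute.refl x).zpow_left i).mul_left (hxy.symm.zpow_left j)) h2
  obtain ⟨v, hv, hall⟩ := main
  have hall' : ∀ W ∈ K, ∀ a ∈ Subgroup.zpowers v, ∀ w ∈ W, a * w = w * a := by
    intro W hW
    obtain ⟨w, hw, hw1⟩ := hne W (hK W hW)
    have ew := hgen W (hK W hW) w hw hw1
    have hwS : w ∈ S := by change _ ∈ K; rw [ew]; exact hW
    rw [← ew]
    exact hcomm v w (hall w hwS)
  have hpg : ∀ W ∈ K, IsPGroup p W := fun W hW => IsPGroup.of_card (n := 1) (by rw [hK W hW, pow_one])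
  have hcore : Subgroup.zpowers v ≤ Cfsg.pCore p G := by
    refine Cfsg.Agent.Inv.baer_suzuki_pCore _ fun g => ?_
    refine Cfsg.Agent.Inv.isPGroup_sup_of_le_normalizer (hpg _ hv) (hpg _ (hKc _ hv g)) ?_
    refine le_trans ?_ (Subgroup.centralizer_le_normalizer _)
    intro a ha
    rw [Subgroup.mem_centralizer_iff]
    intro w hw
    exact (hall' _ (hKc _ hv g) a ha w hw).symm
  refine ⟨⟨_, hv, hall', hcore⟩, fun hs => ?_⟩
  have hv1 : v ≠ 1 := by
    intro e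
    have := hord v hv
    rw [e, orderOf_one] at this
    exact hp.one_lt.ne this
  have htop : Cfsg.pCore p G = ⊤ := by
    rcases hs.eq_bot_or_eq_top_of_normal (Cfsg.pCore p G) inferInstance with e | e
    · rw [e] at hcore
      exact (hv1 (Subgroup.mem_bot.1 (hcore (Subgroup.mem_zpowers v)))).elim
    · exact e
  have hG : IsPGroup p G := Cfsg.Agent.Grp.pCore_eq_top_iff.1 htop
  have hZ : Subgroup.center G = ⊤ := by
    rcases hs.eq_bot_or_eq_top_of_normal (Subgroup.center G) inferInstance with e | e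
    · have := hG.center_nontrivial
      rw [e] at this
      exact (not_nontrivial _ this).elim
    · exact e
  have hT : ∀ X ∈ K, X = ⊤ := by
    intro X hX
    have hn : X.Normal := ⟨fun n hn g => by
      have : g ∈ Subgroup.center G := hZ ▸ Subgroup.mem_top g
      rw [← Subgroup.mem_center_iff.1 this n, mul_inv_cancel_right]
      exact hn⟩
    rcases hs.eq_bot_or_eq_top_of_normal X hn with e | e
    · have := hK X hX
      rw [e, Subgroup.card_bot] at this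
      exact (hp.one_lt.ne this).elim
    · exact e
  obtain ⟨X, hX, Y, hY, hXY, -⟩ := hex
  exact hXY ((hT X hX).trans (hT Y hY).symm)

end Cfsg.Agent.S3196
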