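import Cfsg.Statements.S3200
import Cfsg.Agent.S0564
import Cfsg.Agent.Solv.Hall
import Cfsg.Agent.Transfer.PCompl
import Cfsg.Agent.Grp.PChain
-- import your own Cfsg.Agent.* helpers here

set_option autoImplicit false
open Cfsg

namespace Cfsg.Agent.S3200

open Subgroup
open scoped Pointwise IsMulCommutative

/-- Let H be a finite group in which a Sylow 2-subgroup has an abelian complement (an abelian subgroup meeting it trivially whose product with it is all of H). Then H is solvable, and every subgroup and every quotient group of H again has a Sylow 2-subgroup with an abelian complement. -/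
theorem result {H : Type*} [Group H] [Finite H]
    (S : Sylow 2 H) (C : Subgroup H) (hC : IsMulCommutative ↥C) (hSC : Subgroup.IsComplement' (S : Subgroup H) C) :
    Group.IsSolvable H ∧
    (∀ L : Subgroup H, ∃ (P : Sylow 2 ↥L) (D : Subgroup ↥L), IsMulCommutative ↥D ∧ Subgroup.IsComplement' (P : Subgroup ↥L) D) ∧
    (∀ (N : Subgroup H) [N.Normal], ∃ (P : Sylow 2 (H ⧸ N)) (D : Subgroup (H ⧸ N)),
      IsMulCommutative ↥D ∧ Subgroup.IsComplement' (P : Subgroup (H ⧸ N)) D) := by
  have : Fact (Nat.Prime 2) := ⟨Nat.prime_two⟩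
  have hsol : Group.IsSolvable H := by
    refine S0564.result (S : Subgroup H) C S.isPGroup'.isNilpotent inferInstance fun g => ?_
    obtain ⟨⟨a, b⟩, h⟩ := hSC.2 g
    exact ⟨a, a.2, b, b.2, h.symm⟩
  have hc : (Nat.card C).Coprime 2 := Transfer.coprime_card_of_isComplement'_sylow hSC.symm
  obtain ⟨k, hk⟩ := Transfer.index_of_isComplement'_sylow hSC.symm
  refine ⟨hsol, fun L => ?_, fun N _ => ?_⟩
  · obtain ⟨P⟩ : Nonempty (Sylow 2 L) := inferInstance
    obtain ⟨j, hj⟩ := IsPGroup.iff_card.1 P.isPGroup'
    have h1 : (P : Subgroup L).index.Coprime 2 :=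
      ((Nat.Prime.coprime_iff_not_dvd Nat.prime_two).2 P.not_dvd_index).symm
    have h2 : Nat.card L = (P : Subgroup L).index * 2 ^ j := by rw [← hj, index_mul_card]
    obtain ⟨D, hD⟩ := Solv.exists_hall L inferInstance _ _ h2 (h1.pow_right j)
    have h3 := Solv.index_eq_of_card_eq_mul h2 hD
    refine ⟨P, D, ?_, (Transfer.isComplement'_sylow_of_index (hD ▸ h1) h3 P).symm⟩
    obtain ⟨g, hg⟩ := Solv.exists_le_conj_hall (H := C) (K := D.map L.subtype)
      (by rw [hk]; exact hc.pow_right k)
      (by rw [hk, card_map_of_injective L.subtype_injective, hD]; exact h1.pow_right k)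
    apply Grp.PChain.isMulCommutative_of_commute
    intro a ha b hb
    have ha' := mem_pointwise_smul_iff_inv_smul_mem.1 (hg (mem_map_of_mem _ ha))
    have hb' := mem_pointwise_smul_iff_inv_smul_mem.1 (hg (mem_map_of_mem _ hb))
    have := (Grp.PChain.commute_of_mem hC ha' hb').eq
    rw [← smul_mul', ← smul_mul', smul_left_cancel_iff] at this
    exact Subtype.ext this
  · have hs := QuotientGroup.mk'_surjective N
    obtain ⟨j, -, hj⟩ := (Nat.dvd_prime_pow Nat.prime_two).1 (hk ▸ C.index_map_dvd hs)
    refine ⟨S.mapSurjective hs, C.map (QuotientGroup.mk' N), inferInstance,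
      (Transfer.isComplement'_sylow_of_index ?_ hj _).symm⟩
    exact Nat.Coprime.of_dvd_left (card_map_dvd _ _) hc

end Cfsg.Agent.S3200
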