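import Cfsg.Statements.S3202
import Cfsg.Agent.Inv.RankOne

set_option autoImplicit false
open Cfsg

namespace Cfsg.Agent.S3202

/-- Generators of a `2`-group with a generalized quaternion quotient. -/
theorem exists_gens {S : Type*} [Group S] [Finite S] (hS : IsPGroup 2 S) (C : Subgroup S)
    [C.Normal] (hna : ¬ IsMulCommutative (S ⧸ C)) (hu : ∃! x : S ⧸ C, orderOf x = 2) :
    ∃ x y : S, (∀ s : S, ∃ i : ℕ, ∃ d ∈ C, s = x ^ i * d ∨ s = x ^ i * y * d) ∧
      y * x * y⁻¹ * x ∈ C ∧ (y * y ∉ C ∧ y * y * (y * y) ∈ C) ∧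
      (x * y * (x * y) ∉ C ∧ x * y * (x * y) * (x * y * (x * y)) ∈ C) ∧
      ∀ i : ℤ, x ^ i * y ∉ C := by
  rcases Cfsg.Agent.Inv.cyclic_or_quaternion_of_unique_involution (hS.to_quotient C)
    (fun a b ha hb => hu.unique ha hb) with hc | ⟨n, ⟨e⟩⟩
  · exact (hna hc.isMulCommutative).elim
  let φ : S →* QuaternionGroup (2 ^ (n + 1)) := e.toMonoidHom.comp (QuotientGroup.mk' C)
  have hsurj : Function.Surjective φ := e.surjective.comp (QuotientGroup.mk'_surjective C)
  have hker : ∀ s, φ s = 1 ↔ s ∈ C := fun s => by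
    simp [φ]
  obtain ⟨x, hx⟩ := hsurj (QuaternionGroup.a 1)
  obtain ⟨y, hy⟩ := hsurj (QuaternionGroup.xa 0)
  have h4 : ∀ s : S, (∃ i, φ s = QuaternionGroup.xa i) → s * s ∉ C ∧ s * s * (s * s) ∈ C := by
    rintro s ⟨i, hs⟩
    have ho : orderOf (φ s) = 4 := by rw [hs, QuaternionGroup.orderOf_xa]
    constructor
    · intro h
      have := (hker _).2 h
      rw [map_mul, ← pow_two, ← orderOf_dvd_iff_pow_eq_one, ho] at this
      omega
    · rw [← hker, show s * s * (s * s) = s ^ 4 by simp [pow_succ, mul_assoc], map_pow, ← ho, pow_orderOf_eq_one]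
  refine ⟨x, y, fun s => ?_, ?_, h4 y ⟨_, hy⟩, h4 (x * y) ⟨_, by rw [map_mul, hx, hy]; rfl⟩, ?_⟩
  · rcases hs : φ s with i | i
    · refine ⟨i.val, (x ^ i.val)⁻¹ * s, ?_, Or.inl (by group)⟩
      rw [← hker, map_mul, map_inv, map_pow, hx, hs, QuaternionGroup.a_one_pow,
        ZMod.natCast_zmod_val, inv_mul_cancel]
    · refine ⟨(-i).val, (x ^ (-i).val * y)⁻¹ * s, ?_, Or.inr (by group)⟩
      rw [← hker, map_mul, map_inv, map_mul, map_pow, hx, hy, hs, QuaternionGroup.a_one_pow,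
        ZMod.natCast_zmod_val, QuaternionGroup.a_mul_xa, zero_sub, neg_neg, inv_mul_cancel]
  · rw [← hker, map_mul, map_mul, map_mul, map_inv, hx, hy, mul_assoc, mul_eq_one_iff_eq_inv,
      mul_inv_rev, inv_inv, eq_inv_mul_iff_mul_eq]
    simp
  · intro i h
    have h1 := (hker _).2 h
    rw [map_mul, map_zpow, hx, hy] at h1
    have h2 : (QuaternionGroup.xa 0 : QuaternionGroup (2 ^ (n + 1))) ∈
        Subgroup.zpowers (QuaternionGroup.a 1) := by
      rw [eq_inv_of_mul_eq_one_right h1]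
      exact inv_mem ⟨i, rfl⟩
    obtain ⟨k, hk⟩ := (mem_powers_iff_mem_zpowers.2 h2)
    simp only [QuaternionGroup.a_one_pow] at hk
    cases hk

/-- Let S be a finite 2-group of 2-rank exactly 2 and D a maximal subgroup of the centre of S such that S/D is a non-abelian group with exactly one involution (a generalized quaternion group). Then S has a nontrivial cyclic characteristic subgroup. -/
theorem result {S : Type*} [Group S]
    [Finite S] (hS : IsPGroup 2 S) (hr2 : Cfsg.PRankLE 2 2 S) (hr1 : ¬ Cfsg.PRankLE 2 1 S)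
    (D : Subgroup ↥(Subgroup.center S)) (hD : IsCoatom D)
    (hq : ∃ (_ : (D.map (Subgroup.center S).subtype).Normal),
      ¬ IsMulCommutative (S ⧸ D.map (Subgroup.center S).subtype) ∧
      ∃! x : S ⧸ D.map (Subgroup.center S).subtype, orderOf x = 2) :
    ∃ C : Subgroup S, C ≠ ⊥ ∧ IsCyclic ↥C ∧ C.Characteristic := by
  obtain ⟨hn, hna, hu⟩ := hq
  set C := D.map (Subgroup.center S).subtype with hC
  have hCZ : C ≤ Subgroup.center S := Subgroup.map_subtype_le _
  obtain ⟨x, y, hgen, hd, -, -, -⟩ := exists_gens hS C hna hu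
  have htop : ∀ H : Subgroup S, x ∈ H → y ∈ H → C ≤ H → ∀ s, s ∈ H := by
    intro H hx hy hCH s
    obtain ⟨i, d, hd, rfl | rfl⟩ := hgen s
    · exact mul_mem (pow_mem hx i) (hCH hd)
    · exact mul_mem (mul_mem (pow_mem hx i) hy) (hCH hd)
  set d := y * x * y⁻¹ * x with hdd
  have hdc : ∀ g, g * d = d * g := Subgroup.mem_center_iff.1 (hCZ hd)
  set c := x * y * x⁻¹ * y⁻¹ with hc
  have hc2 : c = x * x * d⁻¹ := by rw [hc, hdd]; group
  have hcx : x * c * x⁻¹ = c := by
    rw [hc2, mul_assoc, mul_assoc, ← mul_inv_rev, hdc x]; group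
  have hcy : y * c * y⁻¹ = c⁻¹ := by
    have e1 : y * x * y⁻¹ = d * x⁻¹ := by rw [hdd]; group
    calc y * c * y⁻¹ = (y * x * y⁻¹) * (y * x * y⁻¹) * (y * d * y⁻¹)⁻¹ := by rw [hc2]; group
      _ = d * x⁻¹ * (d * x⁻¹) * d⁻¹ := by rw [hdc y, mul_inv_cancel_right, e1]
      _ = d * x⁻¹ * (x⁻¹ * d) * d⁻¹ := by rw [hdc x⁻¹]
      _ = c⁻¹ := by rw [hc2]; group
  have hN : (Subgroup.zpowers c).Normal := by
    rw [← Subgroup.normalizer_eq_top_iff, Subgroup.eq_top_iff']
    have key : ∀ g : S, g * c * g⁻¹ ∈ Subgroup.zpowers c →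
        g ∈ Subgroup.normalizer (Subgroup.zpowers c : Set S) := by
      intro g hg
      refine Subgroup.mem_normalizer_fintype ?_
      rintro _ ⟨k, rfl⟩
      simp only
      rw [← conj_zpow]
      exact zpow_mem hg k
    refine htop _ (key x (by rw [hcx]; simp)) (key y (by rw [hcy]; simp)) fun g hg => key g ?_
    rw [← Subgroup.mem_center_iff.1 (hCZ hg) c]
    simp
  let ψ := QuotientGroup.mk' (Subgroup.zpowers c)
  have hxy : ψ x * ψ y = ψ y * ψ x := by
    have : ψ (x * y * x⁻¹ * y⁻¹) = 1 := (QuotientGroup.eq_one_iff _).2 (Subgroup.mem_zpowers c)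
    rw [map_mul, map_mul, map_mul, map_inv, map_inv] at this
    calc ψ x * ψ y = (ψ x * ψ y * (ψ x)⁻¹ * (ψ y)⁻¹) * (ψ y * ψ x) := by group
      _ = _ := by rw [this, one_mul]
  have hcen : ∀ t : S, ∀ g ∈ C, ψ g * ψ t = ψ t * ψ g := fun t g hg => by
    rw [← map_mul, ← map_mul, Subgroup.mem_center_iff.1 (hCZ hg) t]
  have step : ∀ t : S, ψ x * ψ t = ψ t * ψ x → ψ y * ψ t = ψ t * ψ y →
      ∀ s, ψ s * ψ t = ψ t * ψ s := by
    intro t h1 h2 s
    exact Subgroup.mem_centralizer_singleton_iff.1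
      (htop ((Subgroup.centralizer {ψ t}).comap ψ) (Subgroup.mem_centralizer_singleton_iff.2 h1)
        (Subgroup.mem_centralizer_singleton_iff.2 h2)
        (fun g hg => Subgroup.mem_centralizer_singleton_iff.2 (hcen t g hg)) s)
  have hall : ∀ s t : S, ψ s * ψ t = ψ t * ψ s := fun s t =>
    step t (step x rfl hxy.symm t).symm (step y hxy rfl t).symm s
  have hle : commutator S ≤ Subgroup.zpowers c := by
    rw [commutator_def, Subgroup.commutator_le]
    intro s _ t _
    rw [← QuotientGroup.eq_one_iff]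
    change ψ _ = 1
    rw [map_commutatorElement, commutatorElement_eq_one_iff_mul_comm]
    exact hall s t
  refine ⟨commutator S, fun h => hna ⟨⟨fun a b => ?_⟩⟩, Subgroup.isCyclic_of_le hle, inferInstance⟩
  obtain ⟨a, rfl⟩ := QuotientGroup.mk_surjective a
  obtain ⟨b, rfl⟩ := QuotientGroup.mk_surjective b
  have : a * b * a⁻¹ * b⁻¹ ∈ commutator S :=
    Subgroup.commutator_mem_commutator (Subgroup.mem_top a) (Subgroup.mem_top b)
  rw [h, Subgroup.mem_bot] at this
  rw [← QuotientGroup.mk_mul, ← QuotientGroup.mk_mul]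
  congr 1
  calc a * b = (a * b * a⁻¹ * b⁻¹) * (b * a) := by group
    _ = _ := by rw [this, one_mul]

end Cfsg.Agent.S3202
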