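import Cfsg.Statements.S3201
import Cfsg.Agent.S3202
import Cfsg.Agent.Grp.PFrattini
import Cfsg.Agent.Grp.UniqueOrderP
import Cfsg.Agent.Misc.Four
import Cfsg.Agent.Inv.Basic

set_option autoImplicit false
open Cfsg

namespace Cfsg.Agent.S3201

/-- Let S be a finite 2-group whose centre Z(S) has n ≥ 2 distinct maximal subgroups C₁, …, Cₙ with trivial intersection such that each quotient S/Cᵢ is a non-abelian group with exactly one involution (a generalized quaternion group). Then S is the internal direct product of an elementary abelian subgroup and a non-abelian subgroup with exactly one involution. -/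
theorem result {S : Type*} [Group S] [Finite S]
    (hS : IsPGroup 2 S) (n : ℕ) (hn : 2 ≤ n) (C : Fin n → Subgroup ↥(Subgroup.center S))
    (hCmax : ∀ i, IsCoatom (C i)) (hCinj : Function.Injective C) (hCint : ⨅ i, C i = ⊥)
    (hCq : ∀ i, ∃ (_ : ((C i).map (Subgroup.center S).subtype).Normal),
      ¬ IsMulCommutative (S ⧸ (C i).map (Subgroup.center S).subtype) ∧
      ∃! x : S ⧸ (C i).map (Subgroup.center S).subtype, orderOf x = 2) :
    ∃ E Q : Subgroup S, Cfsg.IsInternalDirectProduct E Q ⊤ ∧ Cfsg.IsElementaryAbelian 2 E ∧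
      ¬ IsMulCommutative ↥Q ∧ ∃! x : ↥Q, orderOf x = 2 := by
  have hZ : IsPGroup 2 (Subgroup.center S) := hS.to_subgroup _
  have hmemC : ∀ i, ∀ z (hz : z ∈ Subgroup.center S),
      z ∈ (C i).map (Subgroup.center S).subtype ↔ (⟨z, hz⟩ : Subgroup.center S) ∈ C i := by
    intro i z hz
    constructor
    · rintro ⟨w, hw, rfl⟩
      exact hw
    · intro h
      exact ⟨_, h, rfl⟩
  have hone : ∀ z ∈ Subgroup.center S, (∀ i, z ∈ (C i).map (Subgroup.center S).subtype) →
      z = 1 := by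
    intro z hz h
    have : (⟨z, hz⟩ : Subgroup.center S) ∈ ⨅ i, C i :=
      Subgroup.mem_iInf.2 fun i => (hmemC i z hz).1 (h i)
    rw [hCint, Subgroup.mem_bot] at this
    exact congrArg Subtype.val this
  have hidx : ∀ i, (C i).index = 2 := fun i =>
    Cfsg.Agent.Grp.PFrattini.index_of_isCoatom hZ (hCmax i)
  have hsq : ∀ z ∈ Subgroup.center S, z * z = 1 := fun z hz =>
    hone _ (mul_mem hz hz) fun i => (hmemC i _ (mul_mem hz hz)).2
      (Subgroup.mul_self_mem_of_index_two (hidx i) ⟨z, hz⟩)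
  have hW : ∀ z ∈ Subgroup.center S, ∀ z' ∈ Subgroup.center S,
      (∀ i, z ∉ (C i).map (Subgroup.center S).subtype) →
      (∀ i, z' ∉ (C i).map (Subgroup.center S).subtype) → z = z' := by
    intro z hz z' hz' h1 h2
    have : z * z' = 1 := hone _ (mul_mem hz hz') fun i => (hmemC i _ (mul_mem hz hz')).2
      ((Subgroup.mul_mem_iff_of_index_two (hidx i) (a := ⟨z, hz⟩) (b := ⟨z', hz'⟩)).2
        ⟨fun h => (h1 i ((hmemC i z hz).2 h)).elim, fun h => (h2 i ((hmemC i z' hz').2 h)).elim⟩)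
    rw [eq_inv_of_mul_eq_one_left this, ← eq_inv_of_mul_eq_one_left (hsq z' hz')]
  have hL1 : ∀ i, ∀ s : S, s * s ∈ (C i).map (Subgroup.center S).subtype →
      s ∈ Subgroup.center S := by
    intro i s hs
    obtain ⟨hn, -, hu⟩ := hCq i
    by_cases h1 : s ∈ (C i).map (Subgroup.center S).subtype
    · exact Subgroup.map_subtype_le _ h1
    obtain ⟨⟨z, hz⟩, hzC⟩ : ∃ z, z ∉ C i := by
      by_contra hc
      push Not at hc
      exact (hCmax i).1 ((Subgroup.eq_top_iff' _).2 hc)
    have o1 : orderOf (QuotientGroup.mk s : S ⧸ (C i).map (Subgroup.center S).subtype) = 2 :=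
      Cfsg.Agent.Inv.orderOf_two_of_mul_self
        (by rw [← QuotientGroup.mk_mul, QuotientGroup.eq_one_iff]; exact hs)
        (by rw [Ne, QuotientGroup.eq_one_iff]; exact h1)
    have o2 : orderOf (QuotientGroup.mk z : S ⧸ (C i).map (Subgroup.center S).subtype) = 2 :=
      Cfsg.Agent.Inv.orderOf_two_of_mul_self
        (by rw [← QuotientGroup.mk_mul, hsq z hz]; rfl)
        (by rw [Ne, QuotientGroup.eq_one_iff, hmemC i z hz]; exact hzC)
    have := QuotientGroup.eq.1 (hu.unique o2 o1)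
    simpa using mul_mem hz (Subgroup.map_subtype_le _ this)
  have hL2 : ∀ s : S, s ∉ Subgroup.center S → ∀ i,
      s * s ∉ (C i).map (Subgroup.center S).subtype := fun s hs i h => hs (hL1 i s h)
  let i₀ : Fin n := ⟨0, by omega⟩
  obtain ⟨hn₀, hna, hu⟩ := hCq i₀
  set E := (C i₀).map (Subgroup.center S).subtype with hE
  have hEZ : E ≤ Subgroup.center S := Subgroup.map_subtype_le _
  obtain ⟨x, y, hgen, -, ⟨hy1, hy2⟩, ⟨hxy1, hxy2⟩, hny⟩ :=
    Cfsg.Agent.S3202.exists_gens hS E hna hu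
  have hyZ : y ∉ Subgroup.center S := fun h => hy1 (by rw [hsq y h]; exact one_mem _)
  have hxyZ : x * y ∉ Subgroup.center S := fun h => hxy1 (by rw [hsq _ h]; exact one_mem _)
  have hw : y * y ∈ Subgroup.center S := hL1 i₀ _ hy2
  have e1 : x * y * (x * y) = y * y := hW _ (hL1 i₀ _ hxy2) _ hw (hL2 _ hxyZ) (hL2 _ hyZ)
  have hinv : y * x * y⁻¹ = x⁻¹ := by
    calc y * x * y⁻¹ = x⁻¹ * (x * y * (x * y)) * (y * y)⁻¹ := by group
      _ = x⁻¹ := by rw [e1]; group
  have hxZ : x ∉ Subgroup.center S := by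
    intro hx
    apply hna
    have hc : ∀ s : S, s ∈ Subgroup.center S ⊔ Subgroup.zpowers y := by
      intro s
      obtain ⟨i, d, hd, rfl | rfl⟩ := hgen s
      · exact Subgroup.mem_sup_left (mul_mem (pow_mem hx i) (hEZ hd))
      · exact mul_mem (Subgroup.mul_mem_sup (pow_mem hx i) (Subgroup.mem_zpowers y))
          (Subgroup.mem_sup_left (hEZ hd))
    refine (hyZ (Subgroup.mem_center_iff.2 fun g => ?_)).elim
    have : Subgroup.center S ⊔ Subgroup.zpowers y ≤ Subgroup.centralizer {y} := by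
      refine sup_le (Subgroup.center_le_centralizer _) ?_
      rw [Subgroup.zpowers_le, Subgroup.mem_centralizer_singleton_iff]
    exact Subgroup.mem_centralizer_singleton_iff.1 (this (hc g))
  have hwx : y * y ∈ Subgroup.zpowers x := by
    obtain ⟨m, h1, h2⟩ := Cfsg.Agent.Grp.exists_pow_not_mem_pow_mem hS hxZ
    rw [pow_two] at h2
    rw [← hW _ h2 _ hw (hL2 _ h1) (hL2 _ hyZ)]
    exact mul_mem (pow_mem (Subgroup.mem_zpowers x) _) (pow_mem (Subgroup.mem_zpowers x) _)
  have hxE : ∀ g ∈ Subgroup.zpowers x, g ∈ E → g = 1 := by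
    intro g hg hgE
    by_contra h1
    have := Cfsg.Agent.Misc.eq_of_isCyclic_of_orderOf_two hg hwx
      (Cfsg.Agent.Inv.orderOf_two_of_mul_self (hsq g (hEZ hgE)) h1)
      (Cfsg.Agent.Inv.orderOf_two_of_mul_self (hsq _ hw) fun e => hy1 (e ▸ one_mem _))
    exact hy1 (this ▸ hgE)
  have hconj : ∀ g ∈ Subgroup.zpowers x, y * g * y⁻¹ ∈ Subgroup.zpowers x := fun g hg => by
    rw [Cfsg.Agent.Inv.conj_eq_inv_of_mem_zpowers hinv hg]
    exact inv_mem hg
  let Q : Subgroup S :=
    { carrier := {s | s ∈ Subgroup.zpowers x ∨ s * y⁻¹ ∈ Subgroup.zpowers x}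
      one_mem' := Or.inl (one_mem _)
      mul_mem' := by
        rintro a b (ha | ha) (hb | hb)
        · exact Or.inl (mul_mem ha hb)
        · exact Or.inr (by rw [mul_assoc]; exact mul_mem ha hb)
        · refine Or.inr ?_
          rw [show a * b * y⁻¹ = (a * y⁻¹) * (y * b * y⁻¹) by group]
          exact mul_mem ha (hconj b hb)
        · refine Or.inl ?_
          rw [show a * b = (a * y⁻¹) * (y * (b * y⁻¹) * y⁻¹) * (y * y) by group]
          exact mul_mem (mul_mem ha (hconj _ hb)) hwx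
      inv_mem' := by
        rintro a (ha | ha)
        · exact Or.inl (inv_mem ha)
        · refine Or.inr ?_
          have hc := Subgroup.mem_center_iff.1 hw
          have : a⁻¹ * y⁻¹ = (y * (a * y⁻¹)⁻¹ * y⁻¹) * (y * y)⁻¹ := by
            rw [show y * (a * y⁻¹)⁻¹ * y⁻¹ = y * y * (a⁻¹ * y⁻¹) by group, ← hc]
            group
          rw [this]
          exact mul_mem (hconj _ (inv_mem ha)) (inv_mem hwx) }
  have hxQ : x ∈ Q := Or.inl (Subgroup.mem_zpowers x)
  have hyQ : y ∈ Q := Or.inr (by simp)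
  have hEQ : ∀ g ∈ E, g ∈ Q → g = 1 := by
    rintro g hg (h | ⟨i, h⟩)
    · exact hxE g h hg
    · refine (hny i ?_).elim
      simp only at h
      rw [h, inv_mul_cancel_right]
      exact hg
  have hdec : ∀ s : S, ∃ q ∈ Q, ∃ d ∈ E, s = q * d := by
    intro s
    obtain ⟨i, d, hd, h | h⟩ := hgen s
    · exact ⟨_, pow_mem hxQ i, d, hd, h⟩
    · exact ⟨_, mul_mem (pow_mem hxQ i) hyQ, d, hd, h⟩
  have hbij : Function.Bijective ((QuotientGroup.mk' E).comp Q.subtype) := by
    constructor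
    · rw [injective_iff_map_eq_one]
      intro q hq
      exact Subtype.ext (hEQ q ((QuotientGroup.eq_one_iff _).1 hq) q.2)
    · intro t
      obtain ⟨s, rfl⟩ := QuotientGroup.mk_surjective t
      obtain ⟨q, hq, d, hd, rfl⟩ := hdec s
      exact ⟨⟨q, hq⟩, by simp [(QuotientGroup.eq_one_iff d).2 hd]⟩
  let e := MulEquiv.ofBijective _ hbij
  refine ⟨E, Q, ⟨le_top, le_top, fun a ha b _ => (Subgroup.mem_center_iff.1 (hEZ ha) b).symm,
    ?_, ?_⟩, ?_, ?_, ?_⟩
  · exact (Subgroup.eq_bot_iff_forall _).2 fun g hg => hEQ g hg.1 hg.2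
  · refine (Subgroup.eq_top_iff' _).2 fun s => ?_
    obtain ⟨q, hq, d, hd, rfl⟩ := hdec s
    exact mul_mem (Subgroup.mem_sup_right hq) (Subgroup.mem_sup_left hd)
  · exact Cfsg.Agent.Misc.isElementaryAbelian_two_iff.2 fun a ha => by
      rw [pow_two]; exact hsq a (hEZ ha)
  · intro h
    refine hna ⟨⟨fun a b => ?_⟩⟩
    obtain ⟨a, rfl⟩ := e.surjective a
    obtain ⟨b, rfl⟩ := e.surjective b
    rw [← map_mul, ← map_mul, h.is_comm.comm]
  · obtain ⟨t, ht, hu'⟩ := hu
    refine ⟨e.symm t, by simpa using ht, fun q hq => ?_⟩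
    rw [MulEquiv.eq_symm_apply]
    exact hu' _ (by simpa using hq)

end Cfsg.Agent.S3201
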