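import Cfsg.Statements.S3208
import Mathlib
import Cfsg.Agent.PLocal.AmbSyl
import Cfsg.Agent.Grp.Cores
import Cfsg.Agent.Inv.SylowTwo

set_option autoImplicit false
open Cfsg

namespace Cfsg.Agent.S3208

open Subgroup Cfsg.Agent.PLocal.Amb


/-- Let j be an involution of a finite group G, H a subgroup of G, and T a Sylow 2-subgroup of H ∩ C_G(j) containing j such that ⟨j⟩ is a characteristic subgroup of T. Then T is a Sylow 2-subgroup of H. -/
theorem result {G : Type*} [Group G] [Finite G]
    (j : G) (hj : orderOf j = 2) (H T : Subgroup G) (hT : T ≤ H ⊓ Subgroup.centralizer ({j} : Set G)) (h2 : IsPGroup 2 ↥T)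
    (hSyl : ¬ 2 ∣ T.relIndex (H ⊓ Subgroup.centralizer ({j} : Set G))) (hjT : j ∈ T)
    (hchar : ((Subgroup.zpowers j).subgroupOf T).Characteristic) :
    ¬ 2 ∣ T.relIndex H := by
  have h1 : IsSyl 2 T (H ⊓ centralizer ({j} : Set G)) := isSyl_of_not_dvd_relIndex h2 hT hSyl
  have h3 := Grp.normalizer_le_normalizer_map_of_characteristic T ((zpowers j).subgroupOf T)
  rw [map_subgroupOf_of_le (zpowers_le.mpr hjT)] at h3
  have h4 : H ⊓ 𝐍[T] ≤ H ⊓ centralizer ({j} : Set G) := by
    refine inf_le_inf_left _ fun n hn => ?_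
    have := Inv.eq_of_orderOf_two_of_mem_cyclic inferInstance
      (conj_mem_of_mem_normalizer (h3 hn) (mem_zpowers j)) (mem_zpowers j)
      (by rw [orderOf_conj', hj]) hj
    rw [mem_centralizer_singleton_iff, ← mul_inv_eq_iff_eq_mul]
    exact this
  exact (isSyl_of_isSyl_normalizer
    (h1.mono (le_inf (hT.trans inf_le_left) le_normalizer) h4)).not_dvd_relIndex

end Cfsg.Agent.S3208
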