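import Cfsg.Statements.S3210
import Cfsg.Agent.Misc.SL2Central

set_option autoImplicit false
open Cfsg

namespace Cfsg.Agent.S3210

/-- Let G be a finite group with subgroups L₁ ≅ SL₂(q₁) and L₂ ≅ SL₂(q₂), q₁ and q₂ odd prime powers, which commute elementwise and meet in ⟨j⟩ for an involution j, and suppose L₁L₂ has index 2 in C_G(j). Then every element n of C_G(j) outside L₁L₂ either normalizes both L₁ and L₂, or conjugates L₁ onto L₂; in the second case q₁ = q₂ and there is an element n′ of C_G(j) outside L₁L₂ conjugating L₁ onto L₂ with n′² ∈ ⟨j⟩. -/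
theorem result {G : Type*} [Group G] [Finite G]
    {F₁ : Type*} [Field F₁] [Fintype F₁] {F₂ : Type*} [Field F₂] [Fintype F₂]
    (hF₁ : Odd (Fintype.card F₁)) (hF₂ : Odd (Fintype.card F₂)) (L₁ L₂ : Subgroup G)
    (e₁ : ↥L₁ ≃* Matrix.SpecialLinearGroup (Fin 2) F₁) (e₂ : ↥L₂ ≃* Matrix.SpecialLinearGroup (Fin 2) F₂)
    (hc : ∀ x ∈ L₁, ∀ y ∈ L₂, x * y = y * x) (j : G) (hj : orderOf j = 2) (hm : L₁ ⊓ L₂ = Subgroup.zpowers j)
    (hle : L₁ ⊔ L₂ ≤ Subgroup.centralizer ({j} : Set G)) (hi : (L₁ ⊔ L₂).relIndex (Subgroup.centralizer ({j} : Set G)) = 2) (n : G) (hn : n ∈ Subgroup.centralizer ({j} : Set G)) (hn' : n ∉ L₁ ⊔ L₂) :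
    (L₁.map (MulAut.conj n).toMonoidHom = L₁ ∧ L₂.map (MulAut.conj n).toMonoidHom = L₂) ∨
      (L₁.map (MulAut.conj n).toMonoidHom = L₂ ∧ Fintype.card F₁ = Fintype.card F₂ ∧
        ∃ n' ∈ Subgroup.centralizer ({j} : Set G), n' ∉ L₁ ⊔ L₂ ∧ L₁.map (MulAut.conj n').toMonoidHom = L₂ ∧ n' ^ 2 ∈ Subgroup.zpowers j) := by
  have P := Cfsg.Agent.Misc.SL2C.pair_of_equiv hF₁ hF₂ e₁ e₂ hc hj hm
  have hnorm : ((L₁ ⊔ L₂).subgroupOf (Subgroup.centralizer ({j} : Set G))).Normal :=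
    Subgroup.normal_of_index_eq_two hi
  have hnN : n ∈ Subgroup.normalizer ((L₁ ⊔ L₂ : Subgroup G) : Set G) :=
    (Subgroup.normal_subgroupOf_iff_le_normalizer hle).1 hnorm hn
  have hnj : n * j * n⁻¹ = j := by
    rw [Subgroup.mem_centralizer_singleton_iff.1 hn, mul_inv_cancel_right]
  have hcard : ∀ (m : G) (L : Subgroup G),
      Nat.card (L.map (MulAut.conj m).toMonoidHom) = Nat.card L := fun m L =>
    Subgroup.card_map_of_injective (MulAut.conj m).injective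
  have hmap : ∀ (m : G) (L L' : Subgroup G), (∀ a ∈ L, m * a * m⁻¹ ∈ L') →
      L.map (MulAut.conj m).toMonoidHom ≤ L' := by
    rintro m L L' h _ ⟨a, ha, rfl⟩
    exact h a ha
  rcases P.conj_factors hnN hnj with ⟨h1, h2⟩ | ⟨h1, h2⟩
  · exact Or.inl ⟨Subgroup.eq_of_le_of_card_ge (hmap n _ _ h1) (hcard n _).ge,
      Subgroup.eq_of_le_of_card_ge (hmap n _ _ h2) (hcard n _).ge⟩
  right
  have c1 : Nat.card L₁ ≤ Nat.card L₂ :=
    (hcard n L₁).ge.trans (Subgroup.card_le_of_le (hmap n _ _ h1))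
  have c2 : Nat.card L₂ ≤ Nat.card L₁ :=
    (hcard n L₂).ge.trans (Subgroup.card_le_of_le (hmap n _ _ h2))
  refine ⟨Subgroup.eq_of_le_of_card_ge (hmap n _ _ h1) (c2.trans (hcard n _).ge), ?_, ?_⟩
  · have e := le_antisymm c1 c2
    rw [Nat.card_congr e₁.toEquiv, Nat.card_congr e₂.toEquiv, Cfsg.Agent.KSG.M2.card_SL2,
      Cfsg.Agent.KSG.M2.card_SL2, Nat.card_eq_fintype_card, Nat.card_eq_fintype_card] at e
    have p1 : 1 < Fintype.card F₁ := Fintype.one_lt_card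
    have p2 : 1 < Fintype.card F₂ := Fintype.one_lt_card
    have mono : ∀ a b : ℕ, 1 < a → a < b → a * (a ^ 2 - 1) < b * (b ^ 2 - 1) := by
      intro a b ha hab
      have : a ^ 2 < b ^ 2 := Nat.pow_lt_pow_left hab (by norm_num)
      have : 1 < a ^ 2 := Nat.one_lt_pow (by norm_num) ha
      exact Nat.mul_lt_mul'' hab (by omega)
    rcases lt_trichotomy (Fintype.card F₁) (Fintype.card F₂) with h | h | h
    · exact absurd e (mono _ _ p1 h).ne
    · exact h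
    · exact absurd e (mono _ _ p2 h).ne'
  · have hsq : n * n ∈ L₁ ⊔ L₂ := by
      have := Subgroup.mul_self_mem_of_index_two hi ⟨n, hn⟩
      exact this
    obtain ⟨a, ha, b, hb, hab⟩ := Cfsg.Agent.Misc.SL2C.exists_mul_of_mem_sup hc hsq
    have ha' : a ∈ L₁ ⊔ L₂ := Subgroup.mem_sup_left ha
    refine ⟨n * a⁻¹, mul_mem hn (inv_mem (hle ha')), fun h => hn' ?_, ?_, ?_⟩
    · simpa using mul_mem h ha'
    · refine Subgroup.eq_of_le_of_card_ge (hmap _ _ _ fun x hx => ?_) (c2.trans (hcard _ _).ge)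
      have := h1 _ (mul_mem (mul_mem (inv_mem ha) hx) ha)
      simpa [mul_assoc] using this
    · have e1 : (n * a⁻¹) ^ 2 = (n * a * n⁻¹)⁻¹ * b := by
        calc (n * a⁻¹) ^ 2 = (n * a * n⁻¹)⁻¹ * (n * n) * a⁻¹ := by rw [pow_two]; group
          _ = _ := by rw [hab, hc a ha b hb]; group
      have e2 : (n * a * n⁻¹)⁻¹ * b = (n * b * n⁻¹) * a⁻¹ := by
        have e3 : (n * a * n⁻¹) * (n * b * n⁻¹) = b * a := by
          calc (n * a * n⁻¹) * (n * b * n⁻¹) = n * (a * b) * n⁻¹ := by group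
            _ = n * n := by rw [← hab]; group
            _ = _ := by rw [hab, hc a ha b hb]
        calc (n * a * n⁻¹)⁻¹ * b = (n * a * n⁻¹)⁻¹ * (b * a) * a⁻¹ := by group
          _ = _ := by rw [← e3]; group
      rw [← hm, e1]
      exact Subgroup.mem_inf.2 ⟨e2 ▸ L₁.mul_mem (h2 b hb) (L₁.inv_mem ha),
        L₂.mul_mem (L₂.inv_mem (h1 a ha)) hb⟩

end Cfsg.Agent.S3210
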