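import Cfsg.Statements.S3213
import Mathlib

set_option autoImplicit false
open Cfsg

namespace Cfsg.Agent.S3213

open Matrix Module

theorem key5 (x : SpecialLinearGroup (Fin 2) (ZMod 5)) (h3 : x ^ 3 = 1) (h1 : x ≠ 1) :
    ∃ h : SpecialLinearGroup (Fin 2) (ZMod 5), (x * (h * x * h⁻¹)) ^ 10 = 1 ∧ (x * (h * x * h⁻¹)) ^ 2 ≠ 1 := by
  have k : ∀ a b c d : ZMod 5, a * d - b * c = 1 → !![a, b; c, d] ^ 3 = 1 → !![a, b; c, d] ≠ 1 →
      ((!![a, b; c, d] * (!![0, 1; 4, 2] * !![a, b; c, d] * !![2, -1; -4, 0])) ^ 10 = 1 ∧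
        (!![a, b; c, d] * (!![0, 1; 4, 2] * !![a, b; c, d] * !![2, -1; -4, 0])) ^ 2 ≠ 1) ∨
      ((!![a, b; c, d] * (!![1, 3; 2, 2] * !![a, b; c, d] * !![2, -3; -2, 1])) ^ 10 = 1 ∧
        (!![a, b; c, d] * (!![1, 3; 2, 2] * !![a, b; c, d] * !![2, -3; -2, 1])) ^ 2 ≠ 1) := by
    decide +kernel
  have hx : x.1 = !![x.1 0 0, x.1 0 1; x.1 1 0, x.1 1 1] := eta_fin_two _
  have := k (x.1 0 0) (x.1 0 1) (x.1 1 0) (x.1 1 1) (by rw [← det_fin_two]; exact x.2)
    (by rw [← hx]; exact congrArg Subtype.val h3) (by rw [← hx]; exact fun h => h1 (Subtype.ext h))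
  rw [← hx] at this
  have aux : ∀ (h h' : SpecialLinearGroup (Fin 2) (ZMod 5)), h * h' = 1 →
      ((x.1 * (h.1 * x.1 * h'.1)) ^ 10 = 1 ∧ (x.1 * (h.1 * x.1 * h'.1)) ^ 2 ≠ 1) →
      (x * (h * x * h⁻¹)) ^ 10 = 1 ∧ (x * (h * x * h⁻¹)) ^ 2 ≠ 1 := by
    intro h h' e k
    rw [inv_eq_of_mul_eq_one_right e]
    exact ⟨Subtype.ext k.1, fun k' => k.2 (congrArg Subtype.val k')⟩
  rcases this with h | h
  · exact ⟨_, aux ⟨!![0, 1; 4, 2], by decide⟩ ⟨!![2, -1; -4, 0], by decide⟩ (Subtype.ext (by decide)) h⟩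
  · exact ⟨_, aux ⟨!![1, 3; 2, 2], by decide⟩ ⟨!![2, -3; -2, 1], by decide⟩ (Subtype.ext (by decide)) h⟩

theorem keyK {K : Type*} [Field K] [Fintype K] (hK : Fintype.card K = 5)
    (x : SpecialLinearGroup (Fin 2) K) (hx : orderOf x = 3) :
    ∃ h : SpecialLinearGroup (Fin 2) K, (x * (h * x * h⁻¹)) ^ 10 = 1 ∧ (x * (h * x * h⁻¹)) ^ 2 ≠ 1 := by
  haveI : Fact (Nat.Prime 5) := ⟨by norm_num⟩
  let e : ZMod 5 ≃+* K := ZMod.ringEquivOfPrime K Fact.out hK
  let f := SpecialLinearGroup.map (n := Fin 2) e.toRingHom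
  let g := SpecialLinearGroup.map (n := Fin 2) e.symm.toRingHom
  have hfg : ∀ y, f (g y) = y := fun y => Subtype.ext (by ext i j; simp [f, g])
  have hgf : ∀ y, g (f y) = y := fun y => Subtype.ext (by ext i j; simp [f, g])
  obtain ⟨h, h1, h2⟩ := key5 (g x) (by rw [← map_pow, ← hx, pow_orderOf_eq_one, map_one])
    (fun h => by rw [← hfg x, h, map_one] at hx; simp at hx)
  refine ⟨f h, ?_, fun h' => h2 ?_⟩
  · simpa [hfg] using congrArg f h1
  · simpa [hgf] using congrArg g h'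

theorem finrank_ker_comp_le {F V : Type*} [Field F] [AddCommGroup V] [Module F V] [FiniteDimensional F V]
    (A B : V →ₗ[F] V) :
    finrank F (LinearMap.ker (A ∘ₗ B)) ≤ finrank F (LinearMap.ker A) + finrank F (LinearMap.ker B) := by
  rw [← LinearMap.finrank_range_add_finrank_ker (B.domRestrict (LinearMap.ker (A ∘ₗ B)))]
  refine add_le_add (Submodule.finrank_mono ?_) ?_
  · rintro _ ⟨v, rfl⟩; exact v.2
  · rw [← Submodule.finrank_map_subtype_eq]
    refine Submodule.finrank_mono ?_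
    rintro _ ⟨v, hv, rfl⟩; exact hv

/-- Let F be the field with 3 elements and K the field with 5 elements. For every injective homomorphism φ from SL₂(K) into the symplectic group Sp₄(F) (4 × 4 matrices g with g J gᵀ = J for the standard alternating matrix J) and every element x of order 3 of SL₂(K), the vectors of F⁴ fixed by φ(x) form a 2-dimensional subspace that is totally isotropic for the alternating form defined by J. -/
theorem result {F : Type*} [Field F] [Fintype F] (hF : Fintype.card F = 3)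
    {K : Type*} [Field K] [Fintype K] (hK : Fintype.card K = 5)
    (φ : Matrix.SpecialLinearGroup (Fin 2) K →* ↥(Matrix.symplecticGroup (Fin 2) F)) (hφ : Function.Injective φ)
    (x : Matrix.SpecialLinearGroup (Fin 2) K) (hx : orderOf x = 3) :
    Module.finrank F ↥(LinearMap.ker (Matrix.toLin' ((φ x : Matrix (Fin 2 ⊕ Fin 2) (Fin 2 ⊕ Fin 2) F)) - LinearMap.id)) = 2 ∧
      ∀ v w : Fin 2 ⊕ Fin 2 → F, (φ x : Matrix (Fin 2 ⊕ Fin 2) (Fin 2 ⊕ Fin 2) F).mulVec v = v →
        (φ x : Matrix (Fin 2 ⊕ Fin 2) (Fin 2 ⊕ Fin 2) F).mulVec w = w →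
          dotProduct v ((Matrix.J (Fin 2) F).mulVec w) = 0 := by
  classical
  have h3 : (3 : F) = 0 := by
    have := FiniteField.cast_card_eq_zero F
    rw [hF] at this; simpa using this
  let ρ : SpecialLinearGroup (Fin 2) K →* Matrix (Fin 2 ⊕ Fin 2) (Fin 2 ⊕ Fin 2) F :=
    (symplecticGroup (Fin 2) F).subtype.comp φ
  have hρ : ∀ y, ρ y = 1 → y = 1 := fun y h => hφ (by rw [map_one]; exact Subtype.ext h)
  let C : SpecialLinearGroup (Fin 2) K → Submodule F (Fin 2 ⊕ Fin 2 → F) :=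
    fun y => LinearMap.ker (toLin' (ρ y) - LinearMap.id)
  have hC : ∀ y v, v ∈ C y ↔ ρ y *ᵥ v = v := fun y v => by simp [C, sub_eq_zero]
  have hV : finrank F (Fin 2 ⊕ Fin 2 → F) = 4 := by simp
  have htop : ∀ y, finrank F (C y) = 4 → y = 1 := fun y h => by
    have := Submodule.eq_top_of_finrank_eq (h.trans hV.symm)
    refine hρ y (mulVec_injective (funext fun v => ?_))
    rw [one_mulVec, ← hC, this]; trivial
  have hx1 : x ≠ 1 := fun h => by rw [h] at hx; simp at hx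
  set A := toLin' (ρ x) - LinearMap.id with hA
  have hA3 : A ∘ₗ A ∘ₗ A = 0 := by
    have h1 : (ρ x - 1) * ((ρ x - 1) * (ρ x - 1)) = 0 := by
      have h2 : ρ x ^ 3 = 1 := by rw [← map_pow, ← hx, pow_orderOf_eq_one, map_one]
      have h4 : (ρ x - 1) * ((ρ x - 1) * (ρ x - 1)) = ρ x ^ 3 - 1 - (3 : F) • (ρ x ^ 2 - ρ x) := by
        rw [show (3 : F) = 1 + 1 + 1 by norm_num, add_smul, add_smul, one_smul]; noncomm_ring
      rw [h4, h2, h3, zero_smul]; simp
    have h5 : A = toLin' (ρ x - 1) := by simp [hA]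
    rw [h5, ← toLin'_mul, ← toLin'_mul, h1, map_zero]
  have hge : 2 ≤ finrank F (C x) := by
    have h1 := finrank_ker_comp_le A (A ∘ₗ A)
    have h2 := finrank_ker_comp_le A A
    rw [hA3, LinearMap.ker_zero, finrank_top, hV] at h1
    change 2 ≤ finrank F (LinearMap.ker A)
    omega
  have hle : ∀ y, finrank F (C y) ≤ 4 := fun y => hV ▸ Submodule.finrank_le _
  have hne3 : finrank F (C x) ≠ 3 := by
    intro hc
    obtain ⟨h, h1, h2⟩ := keyK hK x hx
    have hc' : 3 ≤ finrank F (C (h * x * h⁻¹)) := by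
      rw [← hc]
      refine LinearMap.finrank_le_finrank_of_injective
        (f := (toLin' (ρ h)).restrict (p := C x) (q := C (h * x * h⁻¹)) fun v hv => ?_) ?_
      · rw [hC] at hv ⊢
        rw [toLin'_apply, mulVec_mulVec, ← map_mul, inv_mul_cancel_right, map_mul, ← mulVec_mulVec, hv]
      · intro v w hvw
        have := congrArg (fun u => ρ h⁻¹ *ᵥ u.1) hvw
        simp only [LinearMap.restrict_coe_apply, toLin'_apply, mulVec_mulVec, ← map_mul, inv_mul_cancel,
          map_one, one_mulVec] at this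
        exact Subtype.ext this
    set g := (x * (h * x * h⁻¹)) ^ 2 with hg
    have hg2 : 2 ≤ finrank F (C g) := by
      have h4 := Submodule.finrank_sup_add_finrank_inf_eq (C x) (C (h * x * h⁻¹))
      have h5 : finrank F ↥(C x ⊔ C (h * x * h⁻¹)) ≤ 4 := hV ▸ Submodule.finrank_le _
      have h6 : C x ⊓ C (h * x * h⁻¹) ≤ C g := fun v hv => by
        have a := (hC _ _).1 hv.1
        have b := (hC _ _).1 hv.2
        have c : ρ (x * (h * x * h⁻¹)) *ᵥ v = v := by rw [map_mul, ← mulVec_mulVec, b, a]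
        rw [hC, hg, pow_two, map_mul, ← mulVec_mulVec, c, c]
      have := Submodule.finrank_mono h6
      omega
    haveI : Fact (Nat.Prime 5) := ⟨by norm_num⟩
    have hg5 : g ^ 5 ^ 1 = 1 := by rw [hg, ← pow_mul]; exact h1
    let τ : SpecialLinearGroup (Fin 2) K →* Function.End (Fin 2 ⊕ Fin 2 → F) :=
      { toFun := fun y v => ρ y *ᵥ v
        map_one' := by funext v; rw [map_one, one_mulVec]; rfl
        map_mul' := fun a b => by funext v; rw [map_mul, ← mulVec_mulVec]; rfl }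
    have hm := Equiv.Perm.card_fixedPoints_modEq (p := 5) (n := 1) (f := τ g)
      (by rw [← map_pow, hg5, map_one])
    have hcard : Fintype.card (Function.fixedPoints (τ g)) = 3 ^ finrank F (C g) := by
      rw [← hF, ← Module.card_eq_pow_finrank (K := F)]
      exact Fintype.card_congr (Equiv.subtypeEquivRight fun v => (hC g v).symm)
    rw [hcard, Module.card_eq_pow_finrank (K := F), hV, hF] at hm
    have h7 := hle g
    have h8 : finrank F (C g) ≠ 4 := fun h => h2 (htop g h)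
    generalize finrank F (C g) = k at *
    interval_cases k <;> first | omega | exact absurd hm (by decide)
  have h2 : finrank F (C x) = 2 := by
    have := hle x
    have : finrank F (C x) ≠ 4 := fun h => hx1 (htop x h)
    omega
  refine ⟨h2, fun v w hv hw => ?_⟩
  have hS : (ρ x)ᵀ * J (Fin 2) F * ρ x = J (Fin 2) F := SymplecticGroup.mem_iff'.1 (φ x).2
  have hperp : ∀ c ∈ C x, ∀ u, c ⬝ᵥ (J (Fin 2) F *ᵥ A u) = 0 := fun c hc u => by
    rw [hC] at hc
    have : c ⬝ᵥ (J (Fin 2) F *ᵥ (ρ x *ᵥ u)) = c ⬝ᵥ (J (Fin 2) F *ᵥ u) := by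
      conv_rhs => rw [← hS, ← mulVec_mulVec, ← mulVec_mulVec, dotProduct_mulVec, vecMul_transpose, hc]
    rw [hA, LinearMap.sub_apply, toLin'_apply, LinearMap.id_apply, mulVec_sub, dotProduct_sub, this, sub_self]
  have hskew : ∀ a b : Fin 2 ⊕ Fin 2 → F, a ⬝ᵥ (J (Fin 2) F *ᵥ b) = -(b ⬝ᵥ (J (Fin 2) F *ᵥ a)) := fun a b => by
    rw [dotProduct_mulVec, ← mulVec_transpose, J_transpose, neg_mulVec, neg_dotProduct, dotProduct_comm]
  have halt : ∀ a : Fin 2 ⊕ Fin 2 → F, a ⬝ᵥ (J (Fin 2) F *ᵥ a) = 0 := fun a => by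
    have := hskew a a
    linear_combination (-1 : F) * this + (a ⬝ᵥ (J (Fin 2) F *ᵥ a)) * h3
  obtain ⟨u, hu0, huC⟩ : ∃ u, A u ≠ 0 ∧ A u ∈ C x := by
    obtain ⟨u, hu⟩ : ∃ u, A u ≠ 0 := by
      by_contra hh
      push Not at hh
      have : C x = ⊤ := eq_top_iff.2 fun v _ => hh v
      rw [this, finrank_top, hV] at h2; omega
    by_cases h' : A (A u) = 0
    · exact ⟨u, hu, h'⟩
    · exact ⟨A u, h', LinearMap.congr_fun hA3 u⟩
  by_contra hne
  have hli : LinearIndependent F ![(⟨A u, huC⟩ : C x), ⟨v, (hC _ _).2 hv⟩, ⟨w, (hC _ _).2 hw⟩] := by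
    rw [Fintype.linearIndependent_iff]
    intro c hc
    have hc' : c 0 • A u + c 1 • v + c 2 • w = 0 := by
      simpa [Fin.sum_univ_three] using congrArg Subtype.val hc
    have e1 := congrArg (fun z => v ⬝ᵥ (J (Fin 2) F *ᵥ z)) hc'
    have e2 := congrArg (fun z => w ⬝ᵥ (J (Fin 2) F *ᵥ z)) hc'
    simp only [mulVec_add, mulVec_smul, dotProduct_add, dotProduct_smul, hperp _ ((hC _ _).2 hv),
      hperp _ ((hC _ _).2 hw), halt, hskew w v, smul_eq_mul, mul_zero, zero_add, add_zero, mulVec_zero,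
      dotProduct_zero, mul_neg, neg_eq_zero] at e1 e2
    have c2 := (mul_eq_zero.1 e1).resolve_right hne
    have c1 := (mul_eq_zero.1 e2).resolve_right hne
    rw [c1, c2, zero_smul, zero_smul, add_zero, add_zero] at hc'
    have c0 := (smul_eq_zero.1 hc').resolve_right hu0
    intro i; fin_cases i <;> assumption
  have := hli.fintype_card_le_finrank
  simp [h2] at this

end Cfsg.Agent.S3213
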