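import Mathlib
import Cfsg.Statements.S3252
import Cfsg.Agent.H41.ZProdC

set_option autoImplicit false
open Cfsg

namespace Cfsg.Agent.S3252

/-- Let G be a finite non-solvable group that is the product G = AB of a cyclic subgroup A and a subgroup B all of whose Sylow subgroups are cyclic. Then the quotient of G by its largest solvable normal subgroup is isomorphic to PGL₂(p) for some prime p > 3. -/
theorem result {G : Type*} [Group G] [Finite G] (hG : ¬ Group.IsSolvable G)
    (A B : Subgroup G) (hA : IsCyclic ↥A) (hB : ∀ (q : ℕ) [Fact q.Prime] (Q : Sylow q ↥B), IsCyclic ↥(Q : Subgroup ↥B))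
    (hAB : ∀ g : G, ∃ a ∈ A, ∃ b ∈ B, g = a * b)
    (R : Subgroup G) [hR : R.Normal] (hRs : Group.IsSolvable ↥R) (hRmax : ∀ N : Subgroup G, N.Normal → Group.IsSolvable ↥N → N ≤ R) :
    ∃ (F : Type) (_ : Field F) (_ : Fintype F) (p : ℕ), p.Prime ∧ 3 < p ∧ Fintype.card F = p ∧
      Nonempty ((G ⧸ R) ≃* (GL (Fin 2) F ⧸ Subgroup.center (GL (Fin 2) F))) := by
  haveI : IsZGroup B := ⟨fun q hq Q => @hB q ⟨hq⟩ Q⟩
  let π := QuotientGroup.mk' R
  haveI : IsCyclic (A.map π) := isCyclic_of_surjective _ (π.subgroupMap_surjective A)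
  haveI : IsZGroup (B.map π) := IsZGroup.of_surjective (π.subgroupMap_surjective B)
  refine ZProd.main (A := A.map π) (B := B.map π) (fun h => hG
    (Group.isSolvable_of_ker_le_range R.subtype π (by simp [π]))) (fun N hN hs => ?_) fun g => ?_
  · have h := hRmax (N.comap π) inferInstance (FGS.isSolvable_comap π hs (by
      rw [QuotientGroup.ker_mk']; exact hRs))
    rw [eq_bot_iff]
    intro x hx
    obtain ⟨x, rfl⟩ := QuotientGroup.mk'_surjective R x
    exact (QuotientGroup.eq_one_iff x).2 (h hx)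
  · obtain ⟨g, rfl⟩ := QuotientGroup.mk'_surjective R g
    obtain ⟨a, ha, b, hb, rfl⟩ := hAB g
    exact ⟨π a, Subgroup.mem_map_of_mem π ha, π b, Subgroup.mem_map_of_mem π hb, map_mul π a b⟩

end Cfsg.Agent.S3252
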