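import Cfsg.Statements.S3265
import Cfsg.Agent.Perm.LocFus

set_option autoImplicit false
open Cfsg

namespace Cfsg.Agent.S3265

open Cfsg.Agent.LocFus Cfsg.Agent.TwoInv Equiv Equiv.Perm

/-- Let n ≥ 5 and let X be a conjugacy class of involutions of the symmetric group of degree n. The graph on X joining two distinct involutions whose product has odd order is connected and has diameter exactly 2. -/
theorem result (n : ℕ) (hn : 5 ≤ n) (t : Equiv.Perm (Fin n)) (ht : orderOf t = 2) :
    (SimpleGraph.fromRel fun x y : {x : Equiv.Perm (Fin n) // IsConj t x} =>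
        Odd (orderOf (x.1 * y.1))).Connected ∧
      (SimpleGraph.fromRel fun x y : {x : Equiv.Perm (Fin n) // IsConj t x} =>
        Odd (orderOf (x.1 * y.1))).diam = 2 := by
  have t2 : t * t = 1 := by rw [← pow_two, ← ht, pow_orderOf_eq_one]
  have t1 : t ≠ 1 := fun h => by rw [h, orderOf_one] at ht; omega
  have sq : ∀ x, IsConj t x → x * x = 1 ∧ x.support.card = t.support.card := fun x hx => by
    obtain ⟨g, rfl⟩ := isConj_iff.1 hx
    exact ⟨by rw [conj_mul, t2]; simp, card_support_conj⟩
  set G := SimpleGraph.fromRel fun x y : {x : Equiv.Perm (Fin n) // IsConj t x} =>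
    Odd (orderOf (x.1 * y.1)) with hG
  have one : ∀ u v, Odd (orderOf (u.1 * v.1)) → G.edist u v ≤ 1 := fun u v h =>
    SimpleGraph.edist_le_one_iff_adj_or_eq.2 (by
      by_cases e : u = v
      · exact Or.inr e
      · exact Or.inl ((SimpleGraph.fromRel_adj _ _ _).2 ⟨e, Or.inl h⟩))
  have le : G.ediam ≤ 2 := SimpleGraph.ediam_le_of_edist_le fun u v => by
    obtain ⟨z, z1, z2, z3, z4⟩ := exists_mid (by simpa using hn) (sq _ u.2).1 (sq _ v.2).1
      ((sq _ v.2).2.trans (sq _ u.2).2.symm)
    let w : {x : Equiv.Perm (Fin n) // IsConj t x} :=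
      ⟨z, isConj_of_inv t2 z1 (z2.trans (sq _ u.2).2)⟩
    refine (SimpleGraph.edist_triangle (v := w)).trans ?_
    rw [SimpleGraph.edist_comm (u := w)]
    exact (add_le_add (one u w z3) (one v w z4)).trans_eq one_add_one_eq_two
  obtain ⟨y, y1, y2⟩ : ∃ y, IsConj t y ∧ orderOf (t * y) = 2 := by
    have tt := inv_iff.1 t2
    obtain ⟨a, ha⟩ : ∃ x, t x ≠ x := by
      by_contra h; push Not at h; exact t1 (Equiv.ext h)
    have : Fact (Nat.Prime 2) := ⟨Nat.prime_two⟩
    by_cases h : ∃ c, c ≠ a ∧ c ≠ t a ∧ t c ≠ c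
    · obtain ⟨c, c1, c2, c3⟩ := h
      refine ⟨swap (t a) c * t * (swap (t a) c)⁻¹, isConj_iff.2 ⟨_, rfl⟩, ?_⟩
      have e : t * (swap (t a) c * t * (swap (t a) c)⁻¹) = swap a (t c) * swap (t a) c := by
        rw [swap_inv, ← mul_assoc, ← mul_assoc, mul_swap_eq_swap_mul t, tt, mul_assoc _ t t, t2,
          mul_one]
      have nd : [a, t c, t a, c].Nodup := by
        have k1 : t c ≠ a := fun h => c2 (by rw [← h, tt])
        have k2 : t c ≠ t a := fun h => c1 (t.injective h)
        simp [ha.symm, c1.symm, c2.symm, c3, k1.symm, k2]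
      rw [e]
      exact orderOf_eq_prime (by rw [pow_two, dbl_sq nd]) fun h => by
        have := card_dbl nd
        rw [h] at this
        simp at this
    · push Not at h
      have e : t = swap a (t a) := by
        ext1 z
        by_cases k1 : z = a
        · rw [k1, swap_apply_left]
        by_cases k2 : z = t a
        · rw [k2, swap_apply_right, tt]
        · rw [swap_apply_of_ne_of_ne k1 k2, h z k1 k2]
      obtain ⟨c, d, cd, hc, hd⟩ := exists_two_not_mem (S := {a, t a})
        (by have := Finset.card_le_two (a := a) (b := t a); simp only [Fintype.card_fin]; omega)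
      simp only [Finset.mem_insert, Finset.mem_singleton, not_or] at hc hd
      have nd : [a, t a, c, d].Nodup := by
        simp [ha.symm, cd, Ne.symm hc.1, Ne.symm hc.2, Ne.symm hd.1, Ne.symm hd.2]
      refine ⟨swap c d, e ▸ isConj_swap ha.symm cd, ?_⟩
      rw [e]
      exact orderOf_eq_prime (by rw [pow_two, dbl_sq nd]) fun h => by
        have := card_dbl nd
        rw [h] at this
        simp at this
  have ge : 2 ≤ G.ediam := by
    refine le_trans ?_ (SimpleGraph.edist_le_ediam (u := ⟨t, IsConj.refl t⟩) (v := ⟨y, y1⟩))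
    refine Order.add_one_le_of_lt (show (1 : ℕ∞) < _ from not_le.1 fun h => ?_)
    rcases SimpleGraph.edist_le_one_iff_adj_or_eq.1 h with h | h
    · rcases ((SimpleGraph.fromRel_adj _ _ _).1 h).2 with h | h
      · rw [y2] at h; exact absurd h (by decide)
      · have : y * t = (t * y)⁻¹ := by
          rw [mul_inv_rev, inv_eq_of_mul_eq_one_right t2, inv_eq_of_mul_eq_one_right (sq y y1).1]
        simp only at h
        rw [this, orderOf_inv, y2] at h; exact absurd h (by decide)
    · rw [← show t = y from congrArg Subtype.val h, t2, orderOf_one] at y2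
      omega
  have e : G.ediam = 2 := le_antisymm le ge
  have : Nonempty {x : Equiv.Perm (Fin n) // IsConj t x} := ⟨⟨t, IsConj.refl t⟩⟩
  exact ⟨SimpleGraph.connected_of_ediam_ne_top (by rw [e]; decide), by
    rw [SimpleGraph.diam, e]; rfl⟩

end Cfsg.Agent.S3265
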