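import Cfsg.Statements.S3276
import Mathlib
import Cfsg.Agent.PLocal.AmbSyl
import Cfsg.Agent.Inv.Basic
import Cfsg.Agent.Misc.Four

set_option autoImplicit false
open Cfsg

namespace Cfsg.Agent.S3276

open Subgroup Cfsg.Agent.PLocal.Amb


/-- Let x and y be commuting, non-conjugate involutions of a finite group G, and suppose that for every involution u commuting with x, each conjugate of y that commutes with u also commutes with y. Then the normal closure of y is a proper, normal, elementary abelian 2-subgroup of G; and if y is the only involution of that normal closure commuting with x, it has order at most 4. -/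
theorem result {G : Type*} [Group G] [Finite G] (x y : G) (hx : orderOf x = 2) (hy : orderOf y = 2)
    (hxy : Commute x y) (hnc : ¬ IsConj x y)
    (hstar : ∀ u : G, orderOf u = 2 → Commute u x → ∀ g : G, Commute (g * y * g⁻¹) u → Commute (g * y * g⁻¹) y) :
    Subgroup.normalClosure ({y} : Set G) ≠ ⊤ ∧ Cfsg.IsElementaryAbelian 2 (Subgroup.normalClosure ({y} : Set G)) ∧
      ((∀ u ∈ Subgroup.normalClosure ({y} : Set G), orderOf u = 2 → Commute u x → u = y) →
        Nat.card ↥(Subgroup.normalClosure ({y} : Set G)) ≤ 4) := by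
  have hxx := Inv.mul_self_of_orderOf_two hx
  have hyy := Inv.mul_self_of_orderOf_two hy
  have H1 : ∀ g : G, Commute (g * y * g⁻¹) y := by
    intro g
    have hwo : orderOf (g * y * g⁻¹) = 2 := by rw [orderOf_conj', hy]
    have hww := Inv.mul_self_of_orderOf_two hwo
    have hev : Even (orderOf (g * y * g⁻¹ * x)) := by
      by_contra h
      exact hnc ((Inv.isConj_of_odd_orderOf_mul hww hxx (Nat.not_even_iff_odd.mp h)).trans
        (isConj_iff.mpr ⟨g⁻¹, by group⟩))
    obtain ⟨u, -, huo, huw, hux⟩ := Inv.exists_central_involution_of_even hww hxx hev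
    exact hstar u huo hux g huw.symm
  have H2 : ∀ a ∈ Group.conjugatesOfSet ({y} : Set G), ∀ b ∈ Group.conjugatesOfSet ({y} : Set G),
      a * b = b * a := by
    intro a ha b hb
    rw [Group.mem_conjugatesOfSet_iff] at ha hb
    obtain ⟨y1, hy1, ha⟩ := ha
    obtain ⟨y2, hy2, hb⟩ := hb
    rw [Set.mem_singleton_iff.mp hy1] at ha
    rw [Set.mem_singleton_iff.mp hy2] at hb
    obtain ⟨g, rfl⟩ := isConj_iff.mp ha
    obtain ⟨h, rfl⟩ := isConj_iff.mp hb
    have := (H1 (h⁻¹ * g)).eq
    calc g * y * g⁻¹ * (h * y * h⁻¹) = h * (h⁻¹ * g * y * (h⁻¹ * g)⁻¹ * y) * h⁻¹ := by group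
      _ = _ := by rw [this]; group
  have hcomm : IsMulCommutative (normalClosure ({y} : Set G)) :=
    Subgroup.isMulCommutative_closure H2
  have hsq : ∀ a ∈ normalClosure ({y} : Set G), a ^ 2 = 1 := by
    intro a ha
    induction ha using Subgroup.closure_induction with
    | mem a ha =>
      rw [Group.mem_conjugatesOfSet_iff] at ha
      obtain ⟨_, rfl, ha⟩ := ha
      exact Inv.sq_of_orderOf_two (by rw [← Inv.orderOf_eq_of_isConj ha, hy])
    | one => simp
    | mul a b ha hb iha ihb =>
      have : Commute a b := Misc.isMulCommutative_iff'.mp hcomm a ha b hb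
      rw [this.mul_pow, iha, ihb, one_mul]
    | inv a ha iha => rw [inv_pow, iha, inv_one]
  refine ⟨fun htop => ?_, ⟨hcomm, hsq⟩, fun h => ?_⟩
  · have hc : ∀ a b : G, a * b = b * a := fun a b =>
      Misc.isMulCommutative_iff'.mp hcomm a (htop ▸ mem_top a) b (htop ▸ mem_top b)
    have hn : (zpowers y).Normal := ⟨fun n hn g => by rw [hc g n, mul_inv_cancel_right]; exact hn⟩
    have : normalClosure ({y} : Set G) ≤ zpowers y :=
      normalClosure_le_normal (Set.singleton_subset_iff.mpr (mem_zpowers y))
    rcases (Misc.mem_zpowers_two hyy).mp (this (htop ▸ mem_top x)) with h | h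
    · exact Inv.ne_one_of_orderOf_two hx h
    · exact hnc (h ▸ IsConj.refl _)
  · have h1 := Misc.card_le_card_inf_centralizer_sq hsq hxx
      (fun e he => (normalClosure_normal).conj_mem e he x)
    have h2 : normalClosure ({y} : Set G) ⊓ centralizer {x} ≤ zpowers y := by
      intro u hu
      by_cases hu1 : u = 1
      · rw [hu1]; exact one_mem _
      · rw [h u hu.1 (Inv.orderOf_two_of_mul_self (by rw [← sq]; exact hsq u hu.1) hu1)
          (mem_centralizer_singleton_iff.mp hu.2)]
        exact mem_zpowers y
    have h3 := Subgroup.card_le_of_le h2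
    rw [Misc.card_zpowers_two hy] at h3
    calc _ ≤ _ := h1
      _ ≤ 2 ^ 2 := Nat.pow_le_pow_left h3 2

end Cfsg.Agent.S3276
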