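import Cfsg.Statements.S3299
import Cfsg.Agent.TT.TransferParity
import Cfsg.Agent.TT.O2C
import Cfsg.Agent.S1756

set_option autoImplicit false
open Cfsg

namespace Cfsg.Agent.S3299

open Subgroup

/-- Let G be a finite group with no nontrivial 2-group quotient (O^2(G) = G), z an involution of G with H = C_G(z), and suppose E = O_2(H) is extraspecial with C_G(E) ≤ E and of order 2^(2n+1) with n ≥ 2. Then E is contained in every normal subgroup of H of index 2. -/
theorem result {G : Type*} [Group G] [Finite G] (hres : Cfsg.pResidual 2 G = ⊤) (z : G) (hz : orderOf z = 2)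
    (E : Subgroup G) (hE : E = (Cfsg.pCore 2 ↥(Subgroup.centralizer ({z} : Set G))).map (Subgroup.centralizer ({z} : Set G)).subtype)
    (hext : Cfsg.IsExtraspecial 2 ↥E) (hcent : Subgroup.centralizer (E : Set G) ≤ E) (n : ℕ) (hn : 2 ≤ n) (hcard : Nat.card ↥E = 2 ^ (2 * n + 1))
    (K : Subgroup G) (hKH : K ≤ Subgroup.centralizer ({z} : Set G))
    (hKn : ∀ h ∈ Subgroup.centralizer ({z} : Set G), K.map (MulAut.conj h).toMonoidHom = K)
    (hKi : K.relIndex (Subgroup.centralizer ({z} : Set G)) = 2) : E ≤ K := by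
  have h : TT.LX E z := by
    subst hE
    exact TT.LX_O2C hz hext hcent
  have h8 := TT.eight_lt_of_width hn hcard
  have hEH : E ≤ centralizer ({z} : Set G) := fun x hx =>
    mem_centralizer_singleton_iff.2 (h.z_comm x hx)
  have hmul : ∀ x ∈ centralizer ({z} : Set G), ∀ y ∈ centralizer ({z} : Set G),
      x * y ∈ K ↔ (x ∈ K ↔ y ∈ K) := fun x hx y hy =>
    mul_mem_iff_of_index_two (H := K.subgroupOf (centralizer ({z} : Set G))) hKi
      (a := ⟨x, hx⟩) (b := ⟨y, hy⟩)
  have hcomm : ∀ x ∈ centralizer ({z} : Set G), ∀ y ∈ centralizer ({z} : Set G), ∀ u : G,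
      x * y = y * x * u → u ∈ K := fun x hx y hy u e => by
    have : u = (y * x)⁻¹ * (x * y) := by rw [e]; group
    rw [this, hmul _ (inv_mem (mul_mem hy hx)) _ (mul_mem hx hy), inv_mem_iff, hmul y hy x hx,
      hmul x hx y hy]
    tauto
  have hzK : z ∈ K := by
    obtain ⟨x, hx, y, hy, e⟩ := h.toXS.exists_noncomm_pair
    exact hcomm x (hEH hx) y (hEH hy) z e
  have hinv : ∀ t ∈ E, t * t = 1 → t ∈ K := by
    intro t htE ht
    by_contra htK
    have ht1 : t ≠ 1 := fun e => htK (e ▸ one_mem K)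
    have htz : t ≠ z := fun e => htK (e ▸ hzK)
    have hD : ∀ g : G, g * z * g⁻¹ ≠ t := by
      rintro g rfl
      obtain ⟨x, hx, y, hy, h1, h2, e⟩ := (h.map_conj g).toXS.exists_noncomm_in_centralizer
        (by rwa [card_map_of_injective (MulAut.conj g).injective]) (h.mem_map_conj_of_card h8 htE)
      exact htK (hcomm x (mem_centralizer_singleton_iff.2 h1) y
        (mem_centralizer_singleton_iff.2 h2) _ e)
    obtain ⟨g, hg, h1, -, -⟩ := TT.exists_other_fixed hKi (TT.hom_units_eq_one hres · t) ht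
      (hEH htE) htK (T := E ⊓ centralizer ({t} : Set G)) (h.toXS.isPGroup.to_le inf_le_left)
      (inf_le_left.trans hEH) fun x hx => mem_centralizer_singleton_iff.1 hx.2
    have h2 : ∀ x ∈ E, x * t = t * x → x * (g * z * g⁻¹) = g * z * g⁻¹ * x := fun x hx e => by
      have := mem_centralizer_singleton_iff.1 (h1 x ⟨hx, mem_centralizer_singleton_iff.2 e⟩)
      calc _ = g * (g⁻¹ * x * g * z) * g⁻¹ := by group
        _ = _ := by rw [this]; group
    have hd := (h.map_conj g).toXS
    have hdE : g * z * g⁻¹ ∈ E := by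
      have := S1756.result E hext _ hd.orderOf_z
        (h.mem_normalizer (h2 z h.z_mem (h.z_comm t htE).symm).symm) (by
          have e1 := h.toXS.card_centralizer htE ht1 htz
          have e2 : Nat.card (E ⊓ centralizer ({t} : Set G) : Subgroup G) ≤
              Nat.card (centralizer ({g * z * g⁻¹} : Set G) ⊓ E : Subgroup G) :=
            card_le_of_le fun x hx => ⟨mem_centralizer_singleton_iff.2
              (h2 x hx.1 (mem_centralizer_singleton_iff.1 hx.2)), hx.1⟩
          have e3 := Grp.card_mul_relIndex_of_le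
            (inf_le_right : centralizer ({g * z * g⁻¹} : Set G) ⊓ E ≤ E)
          have e4 : 0 < Nat.card (centralizer ({g * z * g⁻¹} : Set G) ⊓ E : Subgroup G) :=
            Nat.card_pos
          nlinarith)
      rwa [sup_eq_left.2 hcent] at this
    rcases h.toXS.eq_of_comm_centralizer htE hdE h2 with e | e | e | e
    · exact hd.z_ne e
    · exact hg (mem_centralizer_singleton_iff.2 (TT.comm_of_conj_eq e))
    · exact hD g e
    · obtain ⟨q, -, hq⟩ := h.toXS.exists_conj_eq htE ht1 htz
      refine hD (q⁻¹ * g) ?_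
      calc _ = q⁻¹ * (g * z * g⁻¹) * q := by group
        _ = t := by rw [e, ← hq]; group
  intro x hx
  by_contra hxK
  have hx2 : x * x = z := (h.toXS.sq hx).resolve_left fun e => hxK (hinv x hx e)
  have hsq : ∀ y ∈ E, y * x = x * y → y ∈ K → y * y = 1 := fun y hy e hyK => by
    by_contra hne
    refine hxK ((mul_mem_cancel_right hyK).1 (hinv _ (mul_mem hx hy) ?_))
    rw [mul_assoc, ← mul_assoc y, e, mul_assoc, ← mul_assoc, hx2,
      (h.toXS.sq hy).resolve_left hne, h.z_sq]
  obtain ⟨a, ha, b, hb, h1, h2, e⟩ := h.toXS.exists_noncomm_in_centralizer h8 hx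
  have key : ∀ a ∈ E, a * x = x * a → ∃ a' ∈ E, a' * x = x * a' ∧ a' ∈ K ∧
      ∀ b : G, b * x = x * b → a' * b = b * a' → a * b = b * a := fun a ha h1 => by
    by_cases haK : a ∈ K
    · exact ⟨a, ha, h1, haK, fun _ _ e => e⟩
    · refine ⟨a * x, mul_mem ha hx, TT.comm_mul_left h1 rfl,
        (hmul a (hEH ha) x (hEH hx)).2 (iff_of_false haK hxK), fun b h2 e => ?_⟩
      simpa using TT.comm_mul_left e (TT.comm_inv_left h2.symm)
  obtain ⟨a', ha', h1', haK, h3⟩ := key a ha h1
  obtain ⟨b', hb', h2', hbK, h4⟩ := key b hb h2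
  have e' : a' * b' = b' * a' := by
    rw [← TT.inv_eq_of_mul_self (hsq _ (mul_mem ha' hb') (TT.comm_mul_left h1' h2')
      (mul_mem haK hbK)), mul_inv_rev, TT.inv_eq_of_mul_self (hsq _ ha' h1' haK),
      TT.inv_eq_of_mul_self (hsq _ hb' h2' hbK)]
  rw [h3 b h2 (h4 a' h1' e'.symm).symm] at e
  exact h.z_ne (left_eq_mul.1 e)


end Cfsg.Agent.S3299
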