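import Cfsg.Statements.S3301
import Cfsg.Agent.TT.BadP

set_option autoImplicit false
open Cfsg

namespace Cfsg.Agent.S3301

open Subgroup
open scoped commutatorElement

theorem exists_index_two {M : Type*} [CommGroup M] [Finite M] {q : M} {k : ℕ}
    (hq : orderOf q = 2 ^ k) (h2 : q ^ 2 ≠ 1) :
    ∃ C : Subgroup M, C.index = 2 ∧ ∀ m : M, m ^ 2 = 1 → m ∈ C := by
  haveI : Fact (Nat.Prime 2) := ⟨Nat.prime_two⟩
  let s : M →* M := powMonoidHom 2
  let N : Subgroup M := s.range ⊔ s.ker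
  have hN : N ≠ ⊤ := by
    intro hN
    let t : s.range →* s.range := powMonoidHom 2
    have ht : Function.Surjective t := by
      rintro ⟨_, m, rfl⟩
      obtain ⟨_, ⟨a, rfl⟩, b, hb, rfl⟩ := mem_sup.1 (hN ▸ mem_top m : m ∈ N)
      refine ⟨⟨_, a, rfl⟩, Subtype.ext ?_⟩
      show s (s a) = s (s a * b)
      rw [map_mul, MonoidHom.mem_ker.1 hb, mul_one]
    have hi := Finite.injective_iff_surjective.2 ht
    have : ∀ j : ℕ, ∀ x : s.range, x ^ 2 ^ j = 1 → x = 1 := by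
      intro j
      induction j with
      | zero => intro x hx; simpa using hx
      | succ j ih =>
        intro x hx
        rw [pow_succ, pow_mul] at hx
        exact ih x (hi (hx.trans (map_one t).symm))
    refine h2 (congrArg Subtype.val (this k ⟨_, q, rfl⟩ (Subtype.ext ?_)))
    show (q ^ 2) ^ 2 ^ k = 1
    rw [← pow_mul, mul_comm, pow_mul, ← hq, pow_orderOf_eq_one, one_pow]
  have hp : IsPGroup 2 (M ⧸ N) := fun x => by
    obtain ⟨x, rfl⟩ := QuotientGroup.mk_surjective x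
    exact ⟨1, (QuotientGroup.eq_one_iff (x ^ 2)).2 (mem_sup_left ⟨x, rfl⟩)⟩
  obtain ⟨n, hn⟩ := IsPGroup.iff_card.1 hp
  obtain ⟨n, rfl⟩ : ∃ m, n = m + 1 := by
    rcases n with _ | n
    · exact absurd (index_eq_one.1 hn) hN
    · exact ⟨n, rfl⟩
  obtain ⟨C, hC⟩ := Sylow.exists_subgroup_card_pow_prime (G := M ⧸ N) 2 (n := n)
    (hn ▸ pow_dvd_pow 2 n.le_succ)
  refine ⟨C.comap (QuotientGroup.mk' N), ?_, fun m hm => ?_⟩
  · rw [index_comap_of_surjective _ (QuotientGroup.mk'_surjective N)]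
    have := C.card_mul_index
    rw [hC, hn, pow_succ] at this
    exact Nat.eq_of_mul_eq_mul_left (by positivity) this
  · show QuotientGroup.mk' N m ∈ C
    rw [show QuotientGroup.mk' N m = 1 from (QuotientGroup.eq_one_iff m).2 (mem_sup_right hm)]
    exact one_mem C

variable {G : Type*} [Group G] [Finite G] {z : G} {K P : Subgroup G}

/-- The elements of `C(d)` whose square is a commutator in `C(d)` lie in `K_d`. -/
def K2 (z : G) (K : Subgroup G) : Prop := ∀ d, IsConj z d → ∀ x a b : G, x * d = d * x →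
  a * d = d * a → b * d = d * b → a * b = b * a * (x * x) → x ∈ TT.Kd z K d

theorem facts (h : TT.MB z K P) (h2 : K2 z K) {e f : G} (he : TT.Cen z P e) (hf : TT.Cen z P f)
    (hef : ¬ TT.Rel z K P e f) :
    (∃ a ∈ P ⊓ TT.O2C e, a * a = e) ∧ (∀ x ∈ P ⊓ TT.O2C e, ∀ y ∈ P ⊓ TT.O2C e, x * y = y * x) ∧
      (∀ x ∈ P ⊓ TT.O2C e, x ∈ TT.Kd z K f ↔ x * x = 1) ∧
      (∀ x ∈ TT.O2C e, x ∈ TT.Kd z K e) ∧ f ∉ TT.O2C e := by
  have hl := h.toKS.lx_of he.1
  have h1 : ∀ x ∈ P, x * x = 1 → x ∈ TT.Kd z K f := fun x hx e =>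
    h2 f hf.1 x 1 1 (hf.2 x hx) (by simp) (by simp) (by simp [e])
  obtain ⟨a, ha, haK⟩ := h.exists_not_mem he hf hef
  have ha2 : a * a = e := (hl.toXS.sq ha.2).resolve_left fun e' => haK (h1 a ha.1 e')
  have hc : ∀ x ∈ P ⊓ TT.O2C e, ∀ y ∈ P ⊓ TT.O2C e, x * y = y * x := fun x hx y hy =>
    (hl.comm x hx.2 y hy.2).resolve_right fun e' =>
      haK (h2 f hf.1 a x y (hf.2 a ha.1) (hf.2 x hx.1) (hf.2 y hy.1) (ha2 ▸ e'))
  refine ⟨⟨a, ha, ha2⟩, hc, fun x hx => ⟨fun hxK => ?_, h1 x hx.1⟩, fun x hx => ?_, fun hfe => ?_⟩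
  · by_contra hne
    refine haK ((mul_mem_cancel_left hxK).1 (h1 _ (mul_mem hx.1 ha.1) ?_))
    rw [mul_assoc, ← mul_assoc a, hc a ha x hx, mul_assoc, ← mul_assoc, ha2,
      (hl.toXS.sq hx.2).resolve_left hne, hl.z_sq]
  · rcases hl.toXS.sq hx with e' | e'
    · exact h2 e he.1 x 1 1 (hl.z_comm x hx) (by simp) (by simp) (by simp [e'])
    · obtain ⟨u, hu, v, hv, e''⟩ := hl.toXS.exists_noncomm_pair
      exact h2 e he.1 x u v (hl.z_comm x hx) (hl.z_comm u hu) (hl.z_comm v hv) (e'.symm ▸ e'')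
  · have hf2 := (h.toKS.lx_of hf.1).z_sq
    refine hl.z_ne (ha2.symm.trans ?_)
    rcases hl.toXS.eq_of_comm_centralizer hfe ha.2 (fun q hq e' =>
      hc q ⟨h.mem_of_comm he hf hef hq e', hq⟩ a ha) with e' | e' | e' | e' <;> rw [e']
    · exact one_mul 1
    · exact hl.z_sq
    · exact hf2
    · rw [mul_assoc, ← mul_assoc e, ← hl.z_comm f hfe, mul_assoc, hl.z_sq, mul_one, hf2]

theorem mul_mem_P (h : TT.MB z K P) (h2 : K2 z K) {e f : G} (he : TT.Cen z P e)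
    (hf : TT.Cen z P f) (hef : ¬ TT.Rel z K P e f) {q r : G} (hq : q ∈ TT.O2C e)
    (hqn : q ∈ normalizer (P : Set G)) (hqP : q ∉ P) (hr : r ∈ TT.O2C e)
    (hrn : r ∈ normalizer (P : Set G)) (hrP : r ∉ P) : q * r ∈ P := by
  have hl := h.toKS.lx_of he.1
  obtain ⟨-, hc, hK, -⟩ := facts h h2 he hf hef
  obtain ⟨⟨b, hb, hb2⟩, -, -, hbK, -⟩ := facts h h2 hf he fun e' => hef e'.symm
  have key : ∀ q ∈ TT.O2C e, q ∈ normalizer (P : Set G) → q ∉ P →
      b⁻¹ * (q * b * q⁻¹) * (b⁻¹ * (q * b * q⁻¹)) = e := by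
    intro q hq hqn hqP
    have hm := h.comm_mem he hq hqn hb.1
    refine (hl.toXS.sq hm.2).resolve_left fun e' => ?_
    have h3 : q * b * q⁻¹ ∈ TT.Kd z K f :=
      (mul_mem_cancel_left (inv_mem (hbK b hb.2))).1 ((hK _ hm).2 e')
    have hf' := hf.conj (inv_mem hqn)
    have h4 : ¬ TT.Rel z K P f (q⁻¹ * f * q⁻¹⁻¹) := fun e'' => by
      obtain ⟨x, hx, hx'⟩ := h.exists_comm_not_mem he hf hef hq hqn hqP
      refine hx' ((h.toKS.mul_mem_Kd hf.1 (TT.comm_inv_left (hf.2 x hx))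
        (hf.2 _ ((mem_normalizer_iff.1 hqn x).1 hx))).2 ?_)
      rw [inv_mem_iff, e'' x hx, ← TT.conj_mem_Kd q⁻¹ (x := q * x * q⁻¹),
        show q⁻¹ * (q * x * q⁻¹) * q⁻¹⁻¹ = x by group]
    have h5 := ((facts h h2 hf hf' h4).2.2.1 b hb).1 (by
      rwa [← TT.conj_mem_Kd q⁻¹, show q⁻¹ * (q * b * q⁻¹) * q⁻¹⁻¹ = b by group] at h3)
    exact (h.toKS.lx_of hf.1).z_ne (hb2.symm.trans h5)
  by_contra hne
  have k1 := key q hq hqn hqP
  have k2 := key r hr hrn hrP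
  have k3 := key _ (mul_mem hq hr) (mul_mem hqn hrn) hne
  have m1 := h.comm_mem he hq hqn hb.1
  have m2 := h.comm_mem he hr hrn hb.1
  have m3 : q * (b⁻¹ * (r * b * r⁻¹)) * q⁻¹ ∈ P ⊓ TT.O2C e :=
    mem_inf.2 ⟨(mem_normalizer_iff.1 hqn _).1 m2.1,
      mul_mem (mul_mem hq (mem_inf.1 m2).2) (inv_mem hq)⟩
  have k4 : q * (b⁻¹ * (r * b * r⁻¹)) * q⁻¹ * (q * (b⁻¹ * (r * b * r⁻¹)) * q⁻¹) = e := by
    rw [← TT.conj_eq_of_comm (hl.z_comm q hq), ← k2]; group
  rw [show b⁻¹ * (q * r * b * (q * r)⁻¹) =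
    b⁻¹ * (q * b * q⁻¹) * (q * (b⁻¹ * (r * b * r⁻¹)) * q⁻¹) by group] at k3
  generalize b⁻¹ * (q * b * q⁻¹) = u at *
  generalize q * (b⁻¹ * (r * b * r⁻¹)) * q⁻¹ = v at *
  rw [mul_assoc, ← mul_assoc v, ← hc u m1 v m3, mul_assoc, ← mul_assoc, k1, k4, hl.z_sq] at k3
  exact hl.z_ne k3.symm

theorem contra (h : TT.MB z K P) (h2 : K2 z K) : False := by
  haveI : Fact (Nat.Prime 2) := ⟨Nat.prime_two⟩
  obtain ⟨e, d, he, hd, hed⟩ := h.ex
  have hl := h.toKS.lx_of he.1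
  have hl' := h.toKS.lx_of hd.1
  obtain ⟨⟨a, ha, ha2⟩, hc, -, -, hdE⟩ := facts h h2 he hd hed
  obtain ⟨⟨b, hb, hb2⟩, -, -, -, heD⟩ := facts h h2 hd he fun e' => hed e'.symm
  have hde : d * e = e * d := he.2 d (h.mem hd)
  have hdn := hl.mem_normalizer hde
  have hn := hl.norm d hde
  have hX : ∀ x ∈ TT.O2C e, x * d = d * x → x ∈ P := fun x hx e' => h.mem_of_comm he hd hed hx e'
  have hkk : ∀ q ∈ TT.O2C e, ∀ y, TT.Eqv e y (d * q * d⁻¹ * q⁻¹) → y * d = d * y → y * y = 1 := by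
    intro q hq y hy hyd
    have hk : d * q * d⁻¹ * q⁻¹ ∈ TT.O2C e := mul_mem (hn q hq) (inv_mem hq)
    have e1 : d * (d * q * d⁻¹ * q⁻¹) * d⁻¹ = (d * q * d⁻¹ * q⁻¹)⁻¹ := by
      calc _ = (d * d) * q * d⁻¹ * q⁻¹ * d⁻¹ := by group
        _ = _ := by
          simp only [hl'.z_sq, mul_inv_rev, inv_inv, hl'.toXS.z_inv, one_mul, mul_assoc]
    generalize d * q * d⁻¹ * q⁻¹ = k at *
    have hkd : k * d = d * k := by
      rcases hy with rfl | rfl
      · exact hyd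
      · simpa using TT.comm_mul_left hyd (TT.comm_inv_left hde.symm)
    rw [TT.conj_eq_of_comm hkd.symm] at e1
    have hk2 : k * k = 1 := by rw [eq_inv_iff_mul_eq_one] at e1; exact e1
    rcases hy with rfl | rfl
    · exact hk2
    · rw [mul_assoc, ← mul_assoc e, ← hl.z_comm k hk, mul_assoc, hl.z_sq, mul_one, hk2]
  have hK := fun y hy => hl.toXS.exists_comm_eqv hdn (y := y) hy
  obtain ⟨q₀, hq₀, hq₀d, hq₀a⟩ : ∃ q ∈ TT.O2C e, d * q * d⁻¹ = q * e ∧ q * a ≠ a * q := by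
    by_contra hcon
    push Not at hcon
    obtain ⟨q, hq, hy⟩ := hK a ha.2 fun q hq e' => e'.elim (fun e'' =>
      hc q ⟨hX q hq (TT.comm_of_conj_eq e'').symm, hq⟩ a ha) (hcon q hq)
    exact hl.z_ne (ha2.symm.trans (hkk q hq a hy (hd.2 a ha.1)))
  have hq₀P : q₀ ∉ P := fun e' => by
    rw [TT.conj_eq_of_comm (hd.2 _ e').symm] at hq₀d
    exact hl.z_ne (left_eq_mul.1 hq₀d)
  have hQ0 : ∀ y ∈ TT.O2C e, (∀ x ∈ P ⊓ TT.O2C e, x * y = y * x) → q₀ * y = y * q₀ →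
      ∀ q ∈ TT.O2C e, TT.Eqv e (d * q * d⁻¹) q → q * y = y * q := by
    intro y hy h3 h4 q hq e'
    rcases e' with e' | e'
    · exact h3 q ⟨hX q hq (TT.comm_of_conj_eq e').symm, hq⟩
    · have h5 : d * (q * q₀) * d⁻¹ = q * q₀ := by
        calc _ = (d * q * d⁻¹) * (d * q₀ * d⁻¹) := by group
          _ = _ := by rw [e', hq₀d, mul_assoc, ← mul_assoc e, ← hl.z_comm q₀ hq₀, mul_assoc,
            hl.z_sq, mul_one]
      have := h3 _ ⟨hX _ (mul_mem hq hq₀) (TT.comm_of_conj_eq h5).symm, mul_mem hq hq₀⟩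
      simpa using TT.comm_mul_left this (TT.comm_inv_left h4)
  have hnorm : ∀ q ∈ TT.O2C e, (∀ x ∈ P, x * (d * q * d⁻¹ * q⁻¹) = d * q * d⁻¹ * q⁻¹ * x) →
      q ∈ normalizer (P : Set G) := fun q hq h3 => by
    refine h.mem_normalizer_of he hd hed hq fun x hx => ?_
    rw [show q * d * q⁻¹ = (d * q * d⁻¹ * q⁻¹)⁻¹ * d by group]
    exact (TT.comm_mul_left (TT.comm_inv_left (h3 x hx).symm) (hd.2 x hx).symm).symm
  have hq₀n := hnorm q₀ hq₀ fun x hx => by
    rw [hq₀d, TT.conj_eq_of_comm (hl.z_comm q₀ hq₀)]; exact he.2 x hx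
  by_cases hW : TT.O2C e ⊓ TT.O2C d = ⊥
  · have hCX : ∀ y ∈ TT.O2C e, (∀ x ∈ P ⊓ TT.O2C e, x * y = y * x) → y ∈ P := by
      have h3 : ∀ y ∈ TT.O2C e, (∀ x ∈ P ⊓ TT.O2C e, x * y = y * x) → q₀ * y = y * q₀ →
          y ∈ P := by
        intro y hy h3 h4
        by_contra hyP
        obtain ⟨q, hq, hyq⟩ := hK y hy (hQ0 y hy h3 h4)
        have hk : d * q * d⁻¹ * q⁻¹ ∈ TT.O2C e := mul_mem (hn q hq) (inv_mem hq)
        have e1 : d * (d * q * d⁻¹ * q⁻¹) * d⁻¹ = (d * q * d⁻¹ * q⁻¹)⁻¹ := by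
          calc _ = (d * d) * q * d⁻¹ * q⁻¹ * d⁻¹ := by group
            _ = _ := by
              simp only [hl'.z_sq, mul_inv_rev, inv_inv, hl'.toXS.z_inv, one_mul, mul_assoc]
        have e2 : TT.Eqv e (d * y * d⁻¹) y :=
          (hyq.conj hde).trans hl.z_sq (TT.Eqv.trans hl.z_sq (e1 ▸ hl.toXS.inv hk)
            (hyq.symm hl.z_sq))
        have e3 := e2.resolve_left fun e' => hyP (hX y hy (TT.comm_of_conj_eq e').symm)
        have h5 : d * (y * q₀) * d⁻¹ = y * q₀ := by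
          calc _ = (d * y * d⁻¹) * (d * q₀ * d⁻¹) := by group
            _ = _ := by rw [e3, hq₀d, mul_assoc, ← mul_assoc e, ← hl.z_comm q₀ hq₀, mul_assoc,
              hl.z_sq, mul_one]
        have h6 := hc _ ⟨hX _ (mul_mem hy hq₀) (TT.comm_of_conj_eq h5).symm, mul_mem hy hq₀⟩ a ha
        exact hq₀a (by simpa using TT.comm_mul_left (TT.comm_inv_left (h3 a ha).symm) h6)
      intro y hy h4
      by_cases h5 : q₀ * y = y * q₀
      · exact h3 y hy h4 h5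
      · exact (mul_mem_cancel_right (mem_inf.1 ha).1).1 (h3 _ (mul_mem hy ha.2)
          (fun x hx => (TT.comm_mul_left (h4 x hx).symm (hc a ha x hx)).symm)
          (hl.toXS.mul_comm_of_not_comm hq₀ hy ha.2 (Ne.symm h5) (Ne.symm hq₀a)).symm)
    have hbe : b * e = e * b := he.2 b hb.1
    have hbX : ∀ x ∈ P ⊓ TT.O2C e, x * b = b * x := fun x hx => by
      have : b * x * b⁻¹ * x⁻¹ ∈ TT.O2C e ⊓ TT.O2C d := mem_inf.2
        ⟨mul_mem (hl.norm b hbe x hx.2) (inv_mem hx.2), by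
          have := mul_mem (mem_inf.1 hb).2
            (hl'.norm x (hd.2 x hx.1) _ (inv_mem (mem_inf.1 hb).2))
          simpa only [mul_assoc] using this⟩
      rw [hW, mem_bot, mul_inv_eq_one] at this
      exact (TT.comm_of_conj_eq this).symm
    refine hdE (hl.mem_of_trivial fun y hy => ?_)
    have hy' := hl.norm b hbe y hy
    have hm := mul_mem hy' (inv_mem hy)
    have hcP := hCX _ hm fun x hx => by
      by_cases h3 : y * x = x * y
      · exact (TT.comm_mul_left (TT.comm_mul_left (TT.comm_mul_left (hbX x hx).symm h3)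
          (TT.comm_inv_left (hbX x hx).symm)) (TT.comm_inv_left h3)).symm
      · refine (hl.toXS.mul_comm_of_not_comm hx.2 hy' (inv_mem hy) (fun h4 => h3 ?_)
          fun h4 => h3 (by simpa using TT.comm_inv_left h4)).symm
        have := TT.comm_mul_left (TT.comm_mul_left (TT.comm_inv_left (hbX x hx).symm) h4)
          (hbX x hx).symm
        rwa [show b⁻¹ * (b * y * b⁻¹) * b = y by group] at this
    have e1 : d * y * d⁻¹ = (b * y * b⁻¹ * y⁻¹) * (b * y * b⁻¹ * y⁻¹) * y := by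
      calc _ = b * (b * y * b⁻¹ * y⁻¹) * y * b⁻¹ := by rw [← hb2]; group
        _ = _ := by rw [← hbX _ ⟨hcP, hm⟩]; group
    rw [e1]
    rcases hl.toXS.sq hm with e' | e' <;> rw [e']
    exacts [Or.inl (one_mul y), Or.inr (hl.z_comm y hy).symm]
  · have hPn : P ≤ normalizer ((TT.O2C e ⊓ TT.O2C d : Subgroup G) : Set G) :=
      Solv.le_normalizer_inf (fun x hx => hl.mem_normalizer (he.2 x hx))
        fun x hx => hl'.mem_normalizer (hd.2 x hx)
    obtain ⟨w, hw, hw1, hwP⟩ : ∃ w ∈ TT.O2C e ⊓ TT.O2C d, w ≠ 1 ∧ ∀ x ∈ P, x * w = w * x := by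
      let act : MulAction P (TT.O2C e ⊓ TT.O2C d : Subgroup G) :=
        { smul := fun q k => ⟨q * k * (q : G)⁻¹, (mem_normalizer_iff.1 (hPn q.2) _).1 k.2⟩
          one_smul := fun k => Subtype.ext (by show ((1 : P) : G) * k * ((1 : P) : G)⁻¹ = k; simp)
          mul_smul := fun a b k => Subtype.ext (by
            show ((a * b : P) : G) * k * ((a * b : P) : G)⁻¹ = a * (b * k * (b : G)⁻¹) * (a : G)⁻¹
            simp [mul_assoc]) }
      have h1 : (1 : (TT.O2C e ⊓ TT.O2C d : Subgroup G)) ∈ MulAction.fixedPoints P _ :=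
        fun q => Subtype.ext (by
          show (q : G) * 1 * (q : G)⁻¹ = 1
          simp)
      obtain ⟨n, hn'⟩ := IsPGroup.iff_card.1 ((TT.O2C_isPGroup e).to_le
        (inf_le_left : TT.O2C e ⊓ TT.O2C d ≤ _))
      obtain ⟨k, hk, hne⟩ := h.two.exists_fixed_point_of_prime_dvd_card_of_fixed_point _
        (hn' ▸ dvd_pow_self 2 fun e' => hW (card_eq_one.1 (by rw [hn', e', pow_zero]))) h1
      exact ⟨k, k.2, fun e' => hne (Subtype.ext e'.symm), fun x hx =>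
        TT.comm_of_conj_eq (congrArg Subtype.val (hk ⟨x, hx⟩))⟩
    have hwe : w ≠ e := fun e' => heD (e' ▸ hw.2)
    have hwd := hl'.z_comm w hw.2
    have hw2 : w * w = 1 := (hl.toXS.sq hw.1).resolve_right fun e' => heD (e' ▸ mul_mem hw.2 hw.2)
    have hwq : q₀ * w = w * q₀ := by
      by_contra h3
      obtain ⟨q, hq, hy⟩ := hK _ (mul_mem hw.1 ha.2) (hQ0 _ (mul_mem hw.1 ha.2)
        (fun x hx => (TT.comm_mul_left (hwP x hx.1).symm (hc a ha x hx)).symm)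
        (hl.toXS.mul_comm_of_not_comm hq₀ hw.1 ha.2 (Ne.symm h3) (Ne.symm hq₀a)).symm)
      have := hkk q hq _ hy (TT.comm_mul_left hwd (hd.2 a ha.1))
      rw [mul_assoc, ← mul_assoc a, hwP a ha.1, mul_assoc, ← mul_assoc, hw2, ha2, one_mul] at this
      exact hl.z_ne this
    obtain ⟨q, hq, hy⟩ := hK w hw.1 (hQ0 w hw.1 (fun x hx => hwP x hx.1) hwq)
    have hy' := hy.symm hl.z_sq
    have hqn := hnorm q hq fun x hx => by
      rcases hy' with e' | e' <;> rw [e']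
      exacts [hwP x hx, (TT.comm_mul_left (hwP x hx).symm (he.2 x hx).symm).symm]
    have hnot : ¬ TT.Eqv e (d * q * d⁻¹) q := fun e' => by
      have : TT.Eqv e (d * q * d⁻¹ * q⁻¹) 1 := by
        have := e'.mul_right (TT.comm_inv_left (hl.z_comm q hq))
        rwa [mul_inv_cancel] at this
      rcases hy.trans hl.z_sq this with e'' | e''
      exacts [hw1 e'', hwe (by simpa using e'')]
    have hm := mul_mem_P h h2 he hd hed hq hqn
      (fun e' => hnot (Or.inl (TT.conj_eq_of_comm (hd.2 q e').symm))) hq₀ hq₀n hq₀P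
    have e1 := TT.conj_eq_of_comm (hd.2 _ hm).symm
    rw [show d * (q * q₀) * d⁻¹ = (d * q * d⁻¹) * (d * q₀ * d⁻¹) by group, hq₀d,
      hl.z_comm q₀ hq₀, ← mul_assoc] at e1
    exact hnot (TT.Eqv.symm hl.z_sq (Or.inr (mul_right_cancel e1).symm))

/-- Let G be a finite group with no nontrivial 2-group quotient (O^2(G) = G), z an involution of G with H = C_G(z), and suppose E = O_2(H) is extraspecial with C_G(E) ≤ E. Then the Sylow 2-subgroups of H/[H, H] are elementary abelian: every element of 2-power order of the abelianization of H has order at most 2. -/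
theorem result {G : Type*} [Group G] [Finite G] (hres : Cfsg.pResidual 2 G = ⊤) (z : G) (hz : orderOf z = 2)
    (E : Subgroup G) (hE : E = (Cfsg.pCore 2 ↥(Subgroup.centralizer ({z} : Set G))).map (Subgroup.centralizer ({z} : Set G)).subtype)
    (hext : Cfsg.IsExtraspecial 2 ↥E) (hcent : Subgroup.centralizer (E : Set G) ≤ E) :
    ∀ q : Abelianization ↥(Subgroup.centralizer ({z} : Set G)), (∃ k : ℕ, orderOf q = 2 ^ k) → q ^ 2 = 1 := by
  rintro q ⟨k, hk⟩
  by_contra h2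
  obtain ⟨C, hC, hC2⟩ := exists_index_two hk h2
  subst hE
  have h : TT.KS z ((C.comap Abelianization.of).map (centralizer ({z} : Set G)).subtype) :=
    ⟨TT.LX_O2C hz hext hcent, map_subtype_le _, by
      rw [relIndex, subgroupOf, comap_map_eq_self_of_injective (subtype_injective _),
        index_comap_of_surjective _ (f := Abelianization.of) (QuotientGroup.mk'_surjective _),
        hC]⟩
  obtain ⟨P, hP⟩ := h.exists_MB hres
  refine contra hP fun d hd x a b hx ha hb e => ?_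
  obtain ⟨g, rfl⟩ := isConj_iff.1 hd
  have hc : ∀ x : G, x * (g * z * g⁻¹) = g * z * g⁻¹ * x →
      g⁻¹ * x * g ∈ centralizer ({z} : Set G) := fun x hx => mem_centralizer_singleton_iff.2 (by
    calc _ = g⁻¹ * (x * (g * z * g⁻¹)) * g := by group
      _ = _ := by rw [hx]; group)
  rw [h.mem_Kd]
  refine ⟨⟨_, hc x hx⟩, hC2 _ ?_, rfl⟩
  have e' : (⟨_, hc a ha⟩ : centralizer ({z} : Set G)) * ⟨_, hc b hb⟩ =
      ⟨_, hc b hb⟩ * ⟨_, hc a ha⟩ * ⟨_, hc x hx⟩ ^ 2 := Subtype.ext (by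
    show g⁻¹ * a * g * (g⁻¹ * b * g) = g⁻¹ * b * g * (g⁻¹ * a * g) * (g⁻¹ * x * g) ^ 2
    calc _ = g⁻¹ * (a * b) * g := by group
      _ = _ := by rw [e, pow_two]; group)
  have := congrArg Abelianization.of e'
  rw [map_mul, map_mul, map_mul, mul_comm, map_pow] at this
  exact left_eq_mul.1 this


end Cfsg.Agent.S3301
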