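import Cfsg.Statements.S3313
import Cfsg.Agent.LES.HJNorm

set_option autoImplicit false
open Cfsg

namespace Cfsg.Agent.S3313

/-- The order of a simple group with the involution pattern of the Hall–Janko group. Let G be a non-abelian finite simple group with exactly two conjugacy classes of involutions, represented by z and t, such that: F*(C_G(z)) is an extraspecial 2-group; Q = O₂(C_G(z)) has order 32 and C_G(z) is the semidirect product of Q by a subgroup isomorphic to A₅; every involution of Q is conjugate to z and every other involution of C_G(z) is conjugate to t; C_G(t) is an internal direct product V × B with V a four-group containing t and B ≅ A₅; every involution of B is conjugate to z and every other involution of C_G(t) is conjugate to t. Then |G| = 604800. -/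
theorem result {G : Type*} [Group G] [Finite G]
    [IsSimpleGroup G] (hna : ¬ IsMulCommutative G) (z t : G) (hz : orderOf z = 2) (ht : orderOf t = 2)
    (hzt : ¬ IsConj z t) (hcl : ∀ x : G, orderOf x = 2 → IsConj x z ∨ IsConj x t)
    (hex : Cfsg.IsExtraspecial 2 ↥(Cfsg.generalizedFittingSubgroup ↥(Subgroup.centralizer ({z} : Set G))))
    (hQ : Nat.card ↥(Cfsg.pCore 2 ↥(Subgroup.centralizer ({z} : Set G))) = 32)
    (K : Subgroup G) (hK : Nonempty (↥K ≃* alternatingGroup (Fin 5)))
    (hKC : K ⊔ (Cfsg.pCore 2 ↥(Subgroup.centralizer ({z} : Set G))).map (Subgroup.centralizer ({z} : Set G)).subtype = Subgroup.centralizer ({z} : Set G))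
    (hKQ : K ⊓ (Cfsg.pCore 2 ↥(Subgroup.centralizer ({z} : Set G))).map (Subgroup.centralizer ({z} : Set G)).subtype = ⊥)
    (hQz : ∀ x ∈ (Cfsg.pCore 2 ↥(Subgroup.centralizer ({z} : Set G))).map (Subgroup.centralizer ({z} : Set G)).subtype, orderOf x = 2 → IsConj x z)
    (hCz : ∀ x ∈ Subgroup.centralizer ({z} : Set G), orderOf x = 2 →
      x ∉ (Cfsg.pCore 2 ↥(Subgroup.centralizer ({z} : Set G))).map (Subgroup.centralizer ({z} : Set G)).subtype → IsConj x t)
    (V B : Subgroup G) (hVB : Cfsg.IsInternalDirectProduct V B (Subgroup.centralizer ({t} : Set G)))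
    (hV : Nat.card ↥V = 4) (hV2 : ∀ v ∈ V, v ^ 2 = 1) (htV : t ∈ V) (hB : Nonempty (↥B ≃* alternatingGroup (Fin 5)))
    (hBz : ∀ x ∈ B, orderOf x = 2 → IsConj x z)
    (hCt : ∀ x ∈ Subgroup.centralizer ({t} : Set G), orderOf x = 2 → x ∉ B → IsConj x t) :
    Nat.card G = 604800 := by
  have hF : Cfsg.generalizedFittingSubgroup (Subgroup.centralizer ({z} : Set G)) =
      Cfsg.pCore 2 (Subgroup.centralizer ({z} : Set G)) := by
    have h := LES.eq_O2C_of_fstar_eq hz _ rfl hex
    exact Subgroup.map_injective (Subgroup.subtype_injective _) h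
  have := Cfsg.pCore_normal 2 (Subgroup.centralizer ({z} : Set G))
  have lx := LES.LX_of_fstar_eq hz _ hF (hF ▸ hex)
  have hc : Nat.card ((Cfsg.pCore 2 (Subgroup.centralizer ({z} : Set G))).map
      (Subgroup.centralizer ({z} : Set G)).subtype) = 32 := by rw [LES.card_map_subtype, hQ]
  obtain ⟨s, h1, h2, h3, h4⟩ := LES.exists_noncentral_invol lx.toXS (by rw [hc]; norm_num)
  obtain ⟨g, hg⟩ := isConj_iff.mp (hQz s h1 (TT.orderOf_eq_two_of h3 h2)).symm
  have h5 := Grp.card_sup_mul_card_inf_of_le_normalizer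
    ((le_sup_left.trans hKC.le).trans lx.centralizer_le_normalizer)
  obtain ⟨eK⟩ := hK
  rw [hKC, hKQ, hc, Nat.card_congr eK.toEquiv, nat_card_alternatingGroup, Nat.card_fin,
    Subgroup.card_bot, mul_one] at h5
  obtain ⟨a, π, t, U, L, x, d⟩ := LES.exists_HJC_of_card lx hc h5 ⟨g, hg ▸ h1, hg ▸ h4⟩
    ⟨z, t, hz, ht, hzt⟩
  exact d.card_G
end Cfsg.Agent.S3313
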