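import Mathlib
import Cfsg.Statements.S3315
import Cfsg.Agent.H41.U3Cent

set_option autoImplicit false
open Cfsg

namespace Cfsg.Agent.S3315

/-- Let S be a Sylow 2-subgroup of SU₃(2ⁿ), n ≥ 2 (realised over the field with 4ⁿ elements). If a finite 2-group R contains a subgroup S' of index 2 isomorphic to S, then the centre of S' is contained in the centre of R. -/
theorem result {R : Type*} [Group R] [Finite R]
    (hR : IsPGroup 2 R) (n : ℕ) (hn : 2 ≤ n) {F : Type*} [Field F] [Fintype F] (hF : Fintype.card F = 4 ^ n)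
    (P : Sylow 2 ↥(Cfsg.SU 3 F (2 ^ n))) (S' : Subgroup R) (hS : Nonempty (↥S' ≃* ↥(P : Subgroup ↥(Cfsg.SU 3 F (2 ^ n)))))
    (hidx : S'.index = 2) :
    (Subgroup.center ↥S').map S'.subtype ≤ Subgroup.center R := by
  have hU : Class.U.UF F (2 ^ n) := Class.U.UF.of_card (by rw [hF, ← pow_mul, mul_comm, pow_mul]; rfl)
  have : CharP F 2 := by
    obtain ⟨p, k, hp, h1, h2, h3⟩ := Class.U.exists_prime_pow F (2 ^ n)
    rwa [(Nat.prime_dvd_prime_iff_eq hp Nat.prime_two).1
      (hp.dvd_of_dvd_pow (h2 ▸ dvd_pow_self p h3.ne' : p ∣ 2 ^ n))] at h1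
  obtain ⟨e₁⟩ := hS
  obtain ⟨e₂⟩ := Inv.UH.nonempty_equiv_sylow_SU3 P
  let e := e₁.trans e₂.symm
  have := Subgroup.normal_of_index_eq_two hidx
  rintro _ ⟨z, hz, rfl⟩
  refine Subgroup.mem_center_iff.2 fun r => ?_
  have h1 := H41.U3Cent.fix (MulAut.congr e (MulAut.conjNormal r))
    (e ⟨r * r, Subgroup.mul_self_mem_of_index_two hidx r⟩) (fun x => by
      simp only [MulAut.congr_apply, MulEquiv.trans_apply, MulEquiv.symm_apply_apply]
      rw [← e.apply_symm_apply x, ← map_inv, ← map_mul, ← map_mul, e.symm_apply_apply]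
      exact congrArg e (Subtype.ext (by simp [mul_assoc]))) (z := e z)
    (Subgroup.mem_center_iff.2 fun y => by
      rw [← e.apply_symm_apply y, ← map_mul, ← map_mul, Subgroup.mem_center_iff.1 hz])
  simp only [MulAut.congr_apply, MulEquiv.trans_apply, MulEquiv.symm_apply_apply] at h1
  exact mul_inv_eq_iff_eq_mul.1 (congrArg Subtype.val (e.injective h1))

end Cfsg.Agent.S3315
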