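import Cfsg.Statements.S3324
import Cfsg.Agent.Hay.Act
import Cfsg.Agent.S0051

set_option autoImplicit false
open Cfsg

namespace Cfsg.Agent.S3324

open Subgroup

open Cfsg.Agent.Hay Cfsg.Agent.PLocal.Amb


/-- Let p be an odd prime and q = pⁿ with q ≡ 3 (mod 4), and let C₀ be the centralizer in PSp(4, q) of an element x of order p lying in the centre of a Sylow p-subgroup. Let G be a finite group with an element α of order p such that C_G(α) ≅ C₀, such that C_G(z) = C_G(α) for every nontrivial z in the centre of C_G(α), and in which not all elements of order p that are central in some Sylow p-subgroup are conjugate. Let P be a Sylow p-subgroup of G contained in C_G(α) (P has order q⁴) and M an elementary abelian subgroup of P of order q³. If N_G(M) does not have a normal Sylow p-subgroup, then M has a complement J in N_G(M) with J isomorphic to PGL(2, q) × C, C cyclic of order (q − 1)/2. -/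
theorem result
    {G : Type*} [Group G] [Finite G] {F : Type*} [Field F] [Fintype F] (p n : ℕ) [Fact p.Prime] (hp : p ≠ 2)
    (hn : 1 ≤ n) (hq4 : p ^ n % 4 = 3) (hF : Fintype.card F = p ^ n)
    (x : Cfsg.PSp 2 F) (hx : orderOf x = p) (Px : Sylow p (Cfsg.PSp 2 F)) (hxP : x ∈ (Px : Subgroup (Cfsg.PSp 2 F)))
    (hxc : ∀ y ∈ (Px : Subgroup (Cfsg.PSp 2 F)), y * x = x * y)
    (α : G) (hα : orderOf α = p)
    (e : ↥(Subgroup.centralizer ({α} : Set G)) ≃* ↥(Subgroup.centralizer ({x} : Set (Cfsg.PSp 2 F))))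
    (hb : ∀ z ∈ Subgroup.centralizer ({α} : Set G), z ≠ 1 → (∀ c ∈ Subgroup.centralizer ({α} : Set G), c * z = z * c) →
      Subgroup.centralizer ({z} : Set G) = Subgroup.centralizer ({α} : Set G))
    (hc : ∃ (u v : G) (Pu Pv : Sylow p G), orderOf u = p ∧ orderOf v = p ∧
      u ∈ (Pu : Subgroup G) ∧ (∀ y ∈ (Pu : Subgroup G), y * u = u * y) ∧
      v ∈ (Pv : Subgroup G) ∧ (∀ y ∈ (Pv : Subgroup G), y * v = v * y) ∧ ∀ g : G, g * u * g⁻¹ ≠ v)
    (P : Sylow p G) (hP : (P : Subgroup G) ≤ Subgroup.centralizer ({α} : Set G))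
    (M : Subgroup G) (hMP : M ≤ P) (hMc : IsMulCommutative ↥M) (hMe : ∀ m ∈ M, m ^ p = 1) (hMcard : Nat.card ↥M = p ^ (3 * n))
    (hnc : ∃ Q R : Sylow p ↥(Subgroup.normalizer (M : Set G)), Q ≠ R) :
    ∃ J : Subgroup G, J ≤ Subgroup.normalizer (M : Set G) ∧ M ⊔ J = Subgroup.normalizer (M : Set G) ∧ M ⊓ J = ⊥ ∧
      Nonempty (↥J ≃* (Matrix.ProjGenLinGroup (Fin 2) F × Multiplicative (ZMod ((p ^ n - 1) / 2)))) := by
  have hch : CharP F p := by
    obtain ⟨r, hr⟩ := CharP.exists F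
    obtain ⟨k, hk, e⟩ := FiniteField.card F r
    rwa [(Nat.prime_dvd_prime_iff_eq hk Fact.out).1 (hk.dvd_of_dvd_pow (n := n) (by
      rw [← hF, e]; exact dvd_pow_self r k.ne_zero))] at hr
  have nsq : ¬ IsSquare (-1 : F) := nsq_of (hF ▸ hq4)
  have h2 : (2 : F) ≠ 0 := fun e => nsq ⟨1, by linear_combination -e⟩
  have o1 : ∀ {H : Type _} [Group H] {y : H}, orderOf y = p → y ≠ 1 := fun hy e =>
    (Fact.out : p.Prime).one_lt.ne (by rw [← hy, e, orderOf_one])
  obtain ⟨ι0, h0, -⟩ := exists_HS h2 (fun e => (Fact.out : p.Prime).one_lt.ne (by rw [← hx, e, orderOf_one]))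
    Px hxP hxc e hb
  obtain ⟨g, hg⟩ := h0.exists_syl P
  have h := h0.conj g
  generalize (MulAut.conj g).toMonoidHom.comp ι0 = ι at hg h
  obtain rfl : M = (M0 F).map ι := h.eq_M (hg ▸ hMP) (fun a ha b hb => congrArg Subtype.val
    (hMc.is_comm.comm (⟨a, ha⟩ : M) ⟨b, hb⟩)) (by rw [hMcard, Nat.card_eq_fintype_card, hF, ← pow_mul, mul_comm])
  obtain ⟨ρ, hρ⟩ := h.exists_rho
  obtain ⟨u, v, Pu, Pv, hu, hv, u1, u2, v1, v2, huv⟩ := hc
  have hC := h.ch hρ nsq (h.nt_of (o1 hu) (o1 hv) u1 u2 v1 v2 huv)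
  have hPN := h.P_le_norm
  obtain ⟨m, hm⟩ : ∃ m, (ρ m (1, 0, 0)).2 ≠ 0 := by
    by_contra! h1
    obtain ⟨Q, R, hQ⟩ := hnc
    have k : ∀ Q : Sylow p 𝐍[(M0 F).map ι], (Q : Subgroup 𝐍[(M0 F).map ι]) = ((P0 F).map ι).subgroupOf 𝐍[(M0 F).map ι] :=
      fun Q =>
      (Q.is_maximal' ((h.isP le_rfl).comap_subtype) fun y hy => h.le_P (Q.isPGroup'.map (Subgroup.subtype _))
        ((map_subtype_le _).trans (h.norm_le hρ h1)) (map_subtype_le _) (mem_map_of_mem _ hy)).symm
    exact hQ (Sylow.ext ((k Q).trans (k R).symm))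
  have hMN : (M0 F).map ι ≤ 𝐍[(M0 F).map ι] := le_normalizer
  have : IsMulCommutative (((M0 F).map ι).subgroupOf 𝐍[(M0 F).map ι]) := inferInstance
  obtain ⟨H, hH⟩ := Cfsg.Agent.S0051.result (((M0 F).map ι).subgroupOf 𝐍[(M0 F).map ι]) (((P0 F).map ι).subgroupOf _)
    (comap_mono (map_mono M0_le_P0)) (by
      rw [Nat.card_congr (subgroupOfEquivOfLe hMN).toEquiv, hMcard]
      refine Nat.Coprime.pow_left _ ((Nat.Prime.coprime_iff_not_dvd Fact.out).2 fun e => P.not_dvd_index ?_)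
      rw [← hg]
      exact e.trans (relIndex_dvd_index_of_le hPN)) (((A0 F).map ι).subgroupOf _)
    (comap_mono (map_mono A0_le)) (by
      rw [subgroupOf, subgroupOf, ← comap_inf, ← map_inf _ _ _ h.inj, A0_inf, Subgroup.map_bot]
      exact bot_subgroupOf _) (by
      rw [← subgroupOf_sup hMN ((map_mono A0_le).trans hPN), ← Subgroup.map_sup, A0_sup])
  refine ⟨H.map (Subgroup.subtype _), map_subtype_le _, ?_, ?_, ?_⟩
  · have := congrArg (Subgroup.map (Subgroup.subtype _)) hH.sup_eq_top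
    rwa [Subgroup.map_sup, map_subgroupOf_eq_of_le hMN, ← MonoidHom.range_eq_map, range_subtype] at this
  · have := congrArg (Subgroup.map (Subgroup.subtype _)) (disjoint_iff.1 hH.disjoint)
    rwa [map_inf _ _ _ (subtype_injective _), map_subgroupOf_eq_of_le hMN, Subgroup.map_bot] at this
  · obtain ⟨e1⟩ := hC.range_eq hm
    obtain ⟨e2⟩ := syP_range nsq hC.sq
    rw [hF] at e2
    refine ⟨(H.equivMapOfInjective _ (subtype_injective _)).symm.trans ((MulEquiv.ofBijective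
      (ρ.rangeRestrict.comp H.subtype) ⟨(injective_iff_map_eq_one _).2 fun y hy => ?_, ?_⟩).trans (e1.trans e2))⟩
    · exact Subtype.ext (disjoint_def.1 hH.disjoint ((h.rho_eq_one hρ).1 (congrArg Subtype.val hy)) y.2)
    · rintro ⟨_, y, rfl⟩
      obtain ⟨⟨a, b⟩, rfl⟩ := hH.2 y
      refine ⟨b, Subtype.ext ?_⟩
      change ρ b = ρ (a * b)
      rw [map_mul, (h.rho_eq_one hρ).2 a.2, one_mul]

end Cfsg.Agent.S3324
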