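import Cfsg.Statements.S3341
import Cfsg.Agent.Char.Nine
-- import your own Cfsg.Agent.* helpers here

set_option autoImplicit false
open Cfsg

namespace Cfsg.Agent.S3341

/-- Let G be a finite simple group whose Sylow 3-subgroup S is elementary abelian of order 9, such that G has more than one conjugacy class of elements of order 3 and C_G(s) = S for every non-identity s in S. Then G is isomorphic to the alternating group of degree 6. -/
theorem result {G : Type*} [Group G] [Finite G] [IsSimpleGroup G]
    (P : Sylow 3 G) (S : Subgroup G) (hSP : S = P) (hcomm : IsMulCommutative S) (hexp : ∀ a ∈ S, a ^ 3 = 1)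
    (hcard : Nat.card S = 9)
    (hclasses : ∃ a b : G, orderOf a = 3 ∧ orderOf b = 3 ∧ ∀ g : G, g * a * g⁻¹ ≠ b)
    (hcent : ∀ s ∈ S, s ≠ 1 → Subgroup.centralizer ({s} : Set G) = S) :
    Nonempty (G ≃* alternatingGroup (Fin 6)) := by
  classical
  subst hSP
  have hG : ¬ IsMulCommutative G := fun h => by
    have h1 := Subgroup.card_subgroup_dvd_card (P : Subgroup G)
    have h2 : (Nat.card G).Prime := by
      by_contra h3
      exact Small.not_comm_of_card h3 h
    rw [hcard] at h1
    have := (Nat.dvd_prime h2).1 h1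
    have h4 : Nat.card G = 9 := by omega
    rw [h4] at h2
    exact absurd h2 (by norm_num)
  have h3 : 3 ∣ Nat.card G := Dvd.dvd.trans (by rw [hcard]; norm_num)
    (Subgroup.card_subgroup_dvd_card (P : Subgroup G))
  have hn1 := Small.card_sylow_ne_one hG h3
  have hn2 := Char.Euclid.card_sylow_modEq_nine P hcard fun s hs h =>
    (hcent s hs h).le.trans Subgroup.le_normalizer
  have hn3 := Small.card_sylow_mul_card_normalizer P
  obtain ⟨a, b, ha, hb, hab⟩ := hclasses
  have key : ∀ x : G, orderOf x = 3 → ∃ s ∈ (P : Subgroup G), s ≠ 1 ∧ IsConj x s := fun x hx => by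
    obtain ⟨Q, hQ⟩ := Small.exists_mem_sylow_of_pow (p := 3) (g := x) (k := 1)
      (by rw [pow_one, ← hx, pow_orderOf_eq_one])
    obtain ⟨g, rfl⟩ := MulAction.exists_smul_eq G P Q
    refine ⟨g⁻¹ * x * g, ?_, fun h => ?_, isConj_iff.2 ⟨g⁻¹, by simp⟩⟩
    · have : x ∈ ((g • P : Sylow 3 G) : Subgroup G) := hQ
      rw [Sylow.coe_subgroup_smul, Subgroup.mem_pointwise_smul_iff_inv_smul_mem] at this
      simpa using this
    · have : x = 1 := by simpa [mul_assoc, inv_mul_eq_one] using h
      rw [this, orderOf_one] at hx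
      omega
  obtain ⟨s, hs, hs1, hsa⟩ := key a ha
  obtain ⟨t, ht, ht1, htb⟩ := key b hb
  have hst : ¬ IsConj s t := fun h => by
    obtain ⟨g, hg⟩ := isConj_iff.1 ((hsa.trans h).trans htb.symm)
    exact hab g hg
  obtain ⟨c, hcS, hc1, hca, hca'⟩ := Char.Euclid.exists_basis hcard (a := s)
  have hac : Commute s c := by
    have := hcS
    rw [← hcent s hs hs1] at this
    exact (Subgroup.mem_centralizer_singleton_iff.1 this).symm
  have hφ := Char.Euclid.el2_injective (hexp s hs) (hexp c hcS) hac hs1 hc1 hca hca'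
  have hrg := Char.Euclid.range_el2 _ _ hac hφ hcard hs hcS
  set φ := Char.Euclid.el2 (hexp s hs) (hexp c hcS) hac with hφdef
  obtain ⟨u, hu⟩ : s ∈ φ.range := hrg ▸ hs
  obtain ⟨v, hv⟩ : t ∈ φ.range := hrg ▸ ht
  have hu1 : u ≠ 1 := fun h => hs1 (by rw [← hu, h, map_one])
  have hv1 : v ≠ 1 := fun h => ht1 (by rw [← hv, h, map_one])
  have h1 := Char.Euclid.card_cl_mul _ _ hac hcard hφ hrg hcent hu1
  have h2 := Char.Euclid.card_cl_mul _ _ hac hcard hφ hrg hcent hv1
  rw [← hφdef] at h1 h2
  have h4 : (Finset.univ.filter fun w => IsConj (φ u) (φ w)).card +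
      (Finset.univ.filter fun w => IsConj (φ v) (φ w)).card ≤ 8 := by
    rw [← Finset.card_union_of_disjoint (Finset.disjoint_filter.2 fun w _ h h' =>
      hst (by rw [← hu, ← hv]; exact h.trans h'.symm))]
    refine (Finset.card_le_card (t := Finset.univ.erase 1) fun w hw => ?_).trans (by decide)
    refine Finset.mem_erase.2 ⟨?_, Finset.mem_univ _⟩
    rintro rfl
    simp only [Finset.mem_union, Finset.mem_filter, Finset.mem_univ, true_and, map_one,
      isConj_one_left, hu, hv] at hw
    exact hw.elim hs1 ht1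
  have h5 : ¬ 27 ∣ Nat.card (Subgroup.normalizer ((P : Subgroup G) : Set G)) := fun h => by
    have h6 := h.trans (Subgroup.card_subgroup_dvd_card _)
    rw [← (P : Subgroup G).card_mul_index, hcard] at h6
    exact P.not_dvd_index (Nat.dvd_of_mul_dvd_mul_left (by norm_num : 0 < 9) h6)
  have h6 : 0 < Nat.card (Subgroup.normalizer ((P : Subgroup G) : Set G)) := Nat.card_pos
  have h7 : Nat.card (Subgroup.normalizer ((P : Subgroup G) : Set G)) = 9 ∨
      Nat.card (Subgroup.normalizer ((P : Subgroup G) : Set G)) = 18 ∨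
      Nat.card (Subgroup.normalizer ((P : Subgroup G) : Set G)) = 36 := by omega
  rcases h7 with h7 | h7 | h7
  · refine absurd ?_ (Small.not_normalizer_le_centralizer hG P h3)
    rw [← Subgroup.eq_of_le_of_card_ge Subgroup.le_normalizer (by omega)]
    exact Subgroup.le_centralizer _
  · have := Char.Euclid.card_le_of_eighteen hcard hexp hcent h7
    unfold Nat.ModEq at hn2
    rw [h7] at hn3
    omega
  · refine (Char.Euclid.normal_or_alt6 P hcard hexp hcent h7).resolve_left fun h => ?_
    exact Small.sylow_normalizer_ne_top hG P h3 (Subgroup.normalizer_eq_top _)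

end Cfsg.Agent.S3341
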