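import Cfsg.Statements.S3349
import Mathlib


set_option autoImplicit false
open Cfsg

namespace Cfsg.Agent.S3349

/-- Let Q be a finite extraspecial p-group and α an automorphism of Q fixing every element of some maximal abelian subgroup of Q. Then the order of α is a power of p. -/
theorem result {Q : Type*} [Group Q] [Finite Q]
    (p : ℕ) [Fact p.Prime] (hQ : Cfsg.IsExtraspecial p Q) (α : MulAut Q)
    (A : Subgroup Q) (hA : IsMulCommutative A) (hmax : ∀ B : Subgroup Q, A ≤ B → IsMulCommutative B → B = A)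
    (hfix : ∀ a ∈ A, α a = a) :
    ∃ k : ℕ, orderOf α = p ^ k := by
  obtain ⟨⟨hP, -, hcomm⟩, -⟩ := hQ
  have hC : ∀ c : Q, (∀ a ∈ A, a * c = c * a) → c ∈ A := by
    intro c hc
    have h1 : IsMulCommutative (Subgroup.closure ((A : Set Q) ∪ {c})) := by
      apply Subgroup.isMulCommutative_closure
      rintro x (hx | rfl) y (hy | rfl)
      · exact setLike_mul_comm hx hy
      · exact hc x hx
      · exact (hc y hy).symm
      · rfl
    have h2 := hmax _ (fun a ha => Subgroup.subset_closure (Or.inl ha)) h1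
    rw [← h2]
    exact Subgroup.subset_closure (Or.inr rfl)
  have hN : A.Normal := by
    apply Subgroup.Normal.of_commutator_le
    rw [hcomm]
    intro z hz
    exact hC z fun a _ => Subgroup.mem_center_iff.1 hz a
  have hc : ∀ x : Q, x⁻¹ * α x ∈ A := by
    intro x
    apply hC
    intro a ha
    have h1 := hfix _ (hN.conj_mem a ha x)
    rw [map_mul, map_mul, map_inv, hfix a ha] at h1
    calc a * (x⁻¹ * α x) = x⁻¹ * (x * a * x⁻¹) * α x := by group
      _ = x⁻¹ * (α x * a * (α x)⁻¹) * α x := by rw [h1]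
      _ = x⁻¹ * α x * a := by group
  have hpow : ∀ (k : ℕ) (x : Q), (α ^ k) x = x * (x⁻¹ * α x) ^ k := by
    intro k x
    induction k with
    | zero => simp
    | succ k ih =>
      rw [pow_succ', MulAut.mul_apply, ih, map_mul, hfix _ (A.pow_mem (hc x) k), pow_succ',
        ← mul_assoc, mul_inv_cancel_left]
  obtain ⟨n, hn⟩ := IsPGroup.iff_card.1 hP
  have : α ^ (p ^ n) = 1 := by
    ext x
    rw [hpow, ← hn, pow_card_eq_one', mul_one, MulAut.one_apply]
  obtain ⟨k, -, hk⟩ := (Nat.dvd_prime_pow Fact.out).1 (orderOf_dvd_of_pow_eq_one this)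
  exact ⟨k, hk⟩

end Cfsg.Agent.S3349
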