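import Cfsg.Statements.S3376
import Cfsg.Agent.S0065
-- import your own Cfsg.Agent.* helpers here

set_option autoImplicit false
open Cfsg

namespace Cfsg.Agent.S3376

open Equiv Equiv.Perm

theorem cycleType_of_fpf (σ : Perm (Fin 9)) (h3 : σ ^ 3 = 1) (hf : ∀ x, σ x ≠ x) :
    σ.cycleType = Multiset.replicate 3 3 := by
  haveI : Fact (Nat.Prime 3) := ⟨by norm_num⟩
  have h := cycleType_of_pow_prime_eq_one h3
  have hs : σ.support = Finset.univ := by
    ext x; simp [mem_support, hf x]
  have hsum := sum_cycleType σ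
  rw [hs, Finset.card_univ, Fintype.card_fin, h, Multiset.sum_replicate, smul_eq_mul] at hsum
  have : σ.cycleType.card = 3 := by omega
  rw [h, this]

theorem card_cent (σ : Perm (Fin 9)) (h : σ.cycleType = Multiset.replicate 3 3) :
    Nat.card (Subgroup.centralizer ({σ} : Set (Perm (Fin 9)))) = 162 := by
  rw [nat_card_centralizer, h]
  simp only [Fintype.card_fin]
  decide

/-- embedding from a subgroup of index nine -/
theorem iso_of_index {G : Type*} [Group G] [Finite G] (hG : Nat.card G = 162) (K : Subgroup G)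
    (hK : K.index = 9) (hcore : K.normalCore = ⊥) (z : G) (hz3 : z ^ 3 = 1) (hzK : z ∉ K)
    (hzc : ∀ g, g * z = z * g) (c : Perm (Fin 9)) (hc3 : c ^ 3 = 1) (hcf : ∀ x, c x ≠ x) :
    Nonempty (G ≃* Subgroup.centralizer ({c} : Set (Perm (Fin 9)))) := by
  classical
  have hq : Nat.card (G ⧸ K) = 9 := hK
  let e : (G ⧸ K) ≃ Fin 9 := Finite.equivFinOfCardEq hq
  let φ : G →* Perm (Fin 9) := (e.permCongrHom : Perm (G ⧸ K) →* Perm (Fin 9)).comp
    (MulAction.toPermHom G (G ⧸ K))
  have hinj : Function.Injective φ := by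
    have h1 : Function.Injective (MulAction.toPermHom G (G ⧸ K)) := by
      rw [← MonoidHom.ker_eq_bot_iff, ← Subgroup.normalCore_eq_ker, hcore]
    exact e.permCongrHom.injective.comp h1
  have hσ3 : φ z ^ 3 = 1 := by rw [← map_pow, hz3, map_one]
  have hσf : ∀ x, φ z x ≠ x := by
    intro x hx
    obtain ⟨y, rfl⟩ := e.surjective x
    obtain ⟨g, rfl⟩ := QuotientGroup.mk_surjective y
    have : z • (g : G ⧸ K) = g := by
      apply e.injective
      simpa [φ] using hx
    rw [MulAction.Quotient.smul_mk, smul_eq_mul, eq_comm, QuotientGroup.eq] at this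
    apply hzK
    have h2 : g⁻¹ * (z * g) = z := by rw [← hzc g]; group
    rwa [h2] at this
  have hconj : IsConj (φ z) c := by
    rw [isConj_iff_cycleType_eq, cycleType_of_fpf _ hσ3 hσf, cycleType_of_fpf _ hc3 hcf]
  obtain ⟨π, hπ⟩ := isConj_iff.1 hconj
  let ψ : G →* Perm (Fin 9) := (MulAut.conj π).toMonoidHom.comp φ
  have hψinj : Function.Injective ψ := (MulAut.conj π).injective.comp hinj
  have hmem : ∀ g, ψ g ∈ Subgroup.centralizer ({c} : Set (Perm (Fin 9))) := by
    intro g
    rw [Subgroup.mem_centralizer_singleton_iff]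
    have : c = ψ z := by simp [ψ, ← hπ]
    rw [this, ← map_mul, ← map_mul, hzc]
  let ψ' := ψ.codRestrict _ hmem
  have hinj' : Function.Injective ψ' := by
    intro a b h
    exact hψinj (congrArg Subtype.val h)
  refine ⟨MulEquiv.ofBijective ψ' ?_⟩
  rw [Nat.bijective_iff_injective_and_card]
  exact ⟨hinj', by rw [hG, card_cent _ (cycleType_of_fpf _ hc3 hcf)]⟩

/-- Let G be a group of order 162 = 3⁴·2 with Sylow 3-subgroup S and Sylow 2-subgroup T, having an elementary abelian normal subgroup J of order 27, such that Z = Z(S) has order 3, Z centralizes T, and C_S(T) ≠ S. Then G is isomorphic to the centralizer in Sym(9) of a product of three disjoint 3-cycles. -/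
theorem result {G : Type*} [Group G] [Finite G] (hG : Nat.card G = 162)
    (S : Sylow 3 G) (T : Sylow 2 G) (J : Subgroup G) [hJn : J.Normal] (hJcomm : IsMulCommutative J)
    (hJexp : ∀ a ∈ J, a ^ 3 = 1) (hJcard : Nat.card J = 27)
    (Z : Subgroup G) (hZ : Z = (S : Subgroup G) ⊓ Subgroup.centralizer ((S : Subgroup G) : Set G)) (hZcard : Nat.card Z = 3)
    (hZT : Z ≤ Subgroup.centralizer ((T : Subgroup G) : Set G))
    (hST : (S : Subgroup G) ⊓ Subgroup.centralizer ((T : Subgroup G) : Set G) ≠ S) :
    Nonempty (G ≃* Subgroup.centralizer ({Equiv.swap (0 : Fin 9) 1 * Equiv.swap 1 2 * Equiv.swap 3 4 * Equiv.swap 4 5 * Equiv.swap 6 7 * Equiv.swap 7 8} : Set (Equiv.Perm (Fin 9)))) := by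
  classical
  haveI : Fact (Nat.Prime 3) := ⟨by norm_num⟩
  have hS : Nat.card (S : Subgroup G) = 81 := by
    rw [Sylow.card_eq_multiplicity, hG]
    have : Nat.factorization 162 3 = 4 := by
      rw [show (162 : ℕ) = 3 ^ 4 * 2 by norm_num,
        Nat.factorization_mul (by norm_num) (by norm_num), Nat.factorization_pow]
      simp [Nat.Prime.factorization (show Nat.Prime 3 by norm_num),
        Nat.Prime.factorization Nat.prime_two]
    rw [this]; norm_num
  have hT : Nat.card (T : Subgroup G) = 2 := by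
    rw [Sylow.card_eq_multiplicity, hG]
    have : Nat.factorization 162 2 = 1 := by
      rw [show (162 : ℕ) = 3 ^ 4 * 2 by norm_num,
        Nat.factorization_mul (by norm_num) (by norm_num), Nat.factorization_pow]
      simp [Nat.Prime.factorization (show Nat.Prime 3 by norm_num),
        Nat.Prime.factorization Nat.prime_two]
    rw [this]; norm_num
  have hSidx : (S : Subgroup G).index = 2 := by
    have := (S : Subgroup G).card_mul_index
    rw [hS, hG] at this; omega
  haveI hSn : (S : Subgroup G).Normal := Subgroup.normal_of_index_eq_two hSidx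
  have hJp : IsPGroup 3 J := IsPGroup.of_card (n := 3) (by rw [hJcard]; norm_num)
  have hJS : J ≤ S := by
    obtain ⟨Q, hQ⟩ := hJp.exists_le_sylow
    have : Q = S := by
      have := Sylow.unique_of_normal S hSn
      exact Subsingleton.elim _ _
    rwa [this] at hQ
  -- the involution
  obtain ⟨t, ht1, htT⟩ : ∃ t : G, t ≠ 1 ∧ ∀ x, x ∈ (T : Subgroup G) ↔ x = 1 ∨ x = t := by
    obtain ⟨y, hy, huniq⟩ := (Nat.card_eq_two_iff' (1 : (T : Subgroup G))).1 hT
    refine ⟨y, fun h => hy (Subtype.ext h), fun x => ⟨fun hx => ?_, ?_⟩⟩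
    · by_cases h : (⟨x, hx⟩ : (T : Subgroup G)) = 1
      · left; exact congrArg Subtype.val h
      · right; exact congrArg Subtype.val (huniq _ h)
    · rintro (rfl | rfl)
      · exact one_mem _
      · exact y.2
  have htmem : t ∈ (T : Subgroup G) := (htT t).2 (Or.inr rfl)
  have ht2 : t * t = 1 := by
    rcases (htT (t * t)).1 (mul_mem htmem htmem) with h | h
    · exact h
    · exact absurd (mul_left_cancel (h.trans (mul_one t).symm)) ht1
  have htS : t ∉ (S : Subgroup G) := by
    intro h
    have h1 : orderOf t ∣ 81 := by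
      rw [← hS]; exact Subgroup.orderOf_dvd_natCard _ h
    have h2 : orderOf t ∣ 2 := orderOf_dvd_of_pow_eq_one (by rw [pow_two, ht2])
    have : orderOf t ∣ 1 := by
      have := Nat.dvd_gcd h1 h2
      simpa using this
    exact ht1 (orderOf_eq_one_iff.1 (Nat.dvd_one.1 this))
  -- every element is `s` or `s * t`
  have hdec : ∀ g : G, g ∈ (S : Subgroup G) ∨ g * t ∈ (S : Subgroup G) := by
    intro g
    by_cases hg : g ∈ (S : Subgroup G)
    · exact Or.inl hg
    · right
      rw [Subgroup.mul_mem_iff_of_index_two hSidx]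
      simp [hg, htS]
  -- generator of Z
  obtain ⟨z, hzZ, hz1⟩ : ∃ z ∈ Z, z ≠ 1 := by
    by_contra h
    push Not at h
    have : Z = ⊥ := (Subgroup.eq_bot_iff_forall _).2 h
    rw [this] at hZcard; simp at hZcard
  have hZle : ∀ x ∈ Z, x ∈ (S : Subgroup G) ∧ ∀ s ∈ (S : Subgroup G), s * x = x * s := by
    intro x hx
    rw [hZ] at hx
    exact ⟨hx.1, fun s hs => hx.2 s hs⟩
  have hzc : ∀ g, g * z = z * g := by
    intro g
    have h1 : t * z = z * t := hZT hzZ t htmem
    rcases hdec g with h | h
    · exact (hZle z hzZ).2 g h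
    · have h2 := (hZle z hzZ).2 _ h
      have : g * z * t = z * g * t := by
        rw [mul_assoc, ← h1, ← mul_assoc, h2, mul_assoc]
      exact mul_right_cancel this
  have hz3 : z ^ 3 = 1 := by
    have := Subgroup.orderOf_dvd_natCard Z hzZ
    rw [hZcard] at this
    exact orderOf_dvd_iff_pow_eq_one.1 this
  have hZz : ∀ x ∈ Z, ∀ H : Subgroup G, x ≠ 1 → x ∈ H → z ∈ H := by
    intro x hx H hx1 hxH
    have h1 : Z ⊓ H = Z := by
      have hd : Nat.card (Z ⊓ H : Subgroup G) ∣ 3 := by
        rw [← hZcard]; exact Subgroup.card_dvd_of_le inf_le_left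
      rcases (Nat.dvd_prime (by norm_num)).1 hd with h | h
      · have : Z ⊓ H = ⊥ := Subgroup.card_eq_one.1 h
        have h2 : x ∈ Z ⊓ H := ⟨hx, hxH⟩
        rw [this] at h2
        exact absurd h2 hx1
      · exact Subgroup.eq_of_le_of_card_ge inf_le_left (by rw [h, hZcard])
    rw [← h1] at hzZ
    exact hzZ.2
  -- normal subgroups meeting S contain z
  have hnorm : ∀ H : Subgroup G, H.Normal → H ⊓ (S : Subgroup G) ≠ ⊥ → z ∈ H := by
    intro H hH hne
    have hSp : IsPGroup 3 (S : Subgroup G) := S.isPGroup'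
    haveI : (H.subgroupOf (S : Subgroup G)).Normal := inferInstance
    have hne' : H.subgroupOf (S : Subgroup G) ≠ ⊥ := by
      intro h
      rw [Subgroup.subgroupOf_eq_bot] at h
      exact hne (disjoint_iff.1 h)
    haveI : Group.IsNilpotent (S : Subgroup G) := hSp.isNilpotent
    have := Cfsg.Agent.S0065.result (H.subgroupOf (S : Subgroup G)) hne'
    obtain ⟨y, hy⟩ := Subgroup.ne_bot_iff_exists_ne_one.1 this
    have hy1 : ((y : (S : Subgroup G)) : G) ≠ 1 := fun h => hy (Subtype.ext (Subtype.ext h))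
    refine hZz _ ?_ H hy1 y.2.1
    rw [hZ]
    refine ⟨(y : (S : Subgroup G)).2, fun s hs => ?_⟩
    exact congrArg Subtype.val (Subgroup.mem_center_iff.1 y.2.2 ⟨s, hs⟩)
  have hzJ : z ∈ J := hnorm J hJn (by
    rw [inf_eq_left.2 hJS]
    intro h; rw [h] at hJcard; simp at hJcard)
  -- a character of J
  letI : CommGroup J := { (inferInstance : Group J) with mul_comm := fun a b => hJcomm.is_comm.comm a b }
  obtain ⟨φ, hφ⟩ := CommGroup.exists_apply_ne_one_of_hasEnoughRootsOfUnity J ℂ
    (a := ⟨z, hzJ⟩) (fun h => hz1 (congrArg Subtype.val h))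
  let ψ : J →* ℂˣ := φ * φ.comp (MulAut.conjNormal t).toMonoidHom
  have hψ : ∀ a : J, ψ a = φ a * φ (MulAut.conjNormal t a) := fun a => rfl
  have hψz : ψ ⟨z, hzJ⟩ ≠ 1 := by
    rw [hψ]
    have : MulAut.conjNormal t (⟨z, hzJ⟩ : J) = ⟨z, hzJ⟩ := by
      apply Subtype.ext
      simp only [MulAut.conjNormal_apply]
      rw [hzc t]; group
    rw [this]
    intro h
    have h3 : φ ⟨z, hzJ⟩ ^ 3 = 1 := by
      rw [← map_pow]
      have : (⟨z, hzJ⟩ : J) ^ 3 = 1 := Subtype.ext hz3
      rw [this, map_one]
    apply hφ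
    rw [pow_succ, pow_two, h, one_mul] at h3
    exact h3
  have hψt : ∀ a : J, ψ (MulAut.conjNormal t a) = ψ a := by
    intro a
    rw [hψ, hψ, mul_comm]
    congr 2
    rw [← MulAut.mul_apply, ← map_mul, ht2, map_one, MulAut.one_apply]
  have hrange : Nat.card ψ.range = 3 := by
    have h1 : ψ.range ≤ rootsOfUnity 3 ℂ := by
      rintro _ ⟨a, rfl⟩
      rw [mem_rootsOfUnity, ← map_pow]
      have : a ^ 3 = 1 := Subtype.ext (hJexp a a.2)
      rw [this, map_one]
    have h2 : Nat.card (rootsOfUnity 3 ℂ) = 3 := by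
      rw [Complex.card_rootsOfUnity]
    have hd : Nat.card ψ.range ∣ 3 := h2 ▸ Subgroup.card_dvd_of_le h1
    rcases (Nat.dvd_prime (by norm_num)).1 hd with h | h
    · have : ψ.range = ⊥ := Subgroup.card_eq_one.1 h
      have h3 : ψ ⟨z, hzJ⟩ ∈ ψ.range := ⟨_, rfl⟩
      rw [this] at h3
      exact absurd h3 hψz
    · exact h
  have hker : Nat.card ψ.ker = 9 := by
    have := ψ.ker.card_mul_index
    rw [Subgroup.index_ker, hrange, hJcard] at this
    omega
  let J0 : Subgroup G := ψ.ker.map J.subtype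
  have hJ0 : Nat.card J0 = 9 := by
    rw [Subgroup.card_map_of_injective J.subtype_injective, hker]
  have hJ0mem : ∀ x, x ∈ J0 ↔ ∃ h : x ∈ J, ψ ⟨x, h⟩ = 1 := by
    intro x
    constructor
    · rintro ⟨a, ha, rfl⟩; exact ⟨a.2, ha⟩
    · rintro ⟨h, h2⟩; exact ⟨⟨x, h⟩, h2, rfl⟩
  have hJ0t : ∀ x ∈ J0, t * x * t ∈ J0 := by
    intro x hx
    obtain ⟨h, h2⟩ := (hJ0mem x).1 hx
    have ti : t⁻¹ = t := inv_eq_of_mul_eq_one_right ht2
    have h3 : t * x * t ∈ J := by
      have := hJn.conj_mem x h t
      rwa [ti] at this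
    refine (hJ0mem _).2 ⟨h3, ?_⟩
    rw [← h2, ← hψt ⟨x, h⟩]
    congr 1
    apply Subtype.ext
    simp [ti]
  let K : Subgroup G :=
    { carrier := {x | x ∈ J0 ∨ x * t ∈ J0}
      one_mem' := Or.inl (one_mem _)
      mul_mem' := by
        rintro a b (ha | ha) (hb | hb)
        · exact Or.inl (mul_mem ha hb)
        · right; rw [mul_assoc]; exact mul_mem ha hb
        · right
          have := mul_mem ha (hJ0t b hb)
          have e : a * t * (t * b * t) = a * (t * t) * b * t := by group
          rwa [e, ht2, mul_one] at this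
        · left
          have := mul_mem ha (hJ0t _ hb)
          have e : a * t * (t * (b * t) * t) = a * (t * t) * b * (t * t) := by group
          rwa [e, ht2, mul_one, mul_one] at this
      inv_mem' := by
        rintro a (ha | ha)
        · exact Or.inl (inv_mem ha)
        · right
          have := hJ0t _ (inv_mem ha)
          have e : t * (a * t)⁻¹ * t = a⁻¹ * t := by group
          rwa [e] at this }
  have hKmem : ∀ x, x ∈ K ↔ x ∈ J0 ∨ x * t ∈ J0 := fun x => Iff.rfl
  have hJ0S : J0 ≤ S := fun x hx => hJS ((hJ0mem x).1 hx).1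
  have hKS : ∀ x ∈ K, x ∈ (S : Subgroup G) → x ∈ J0 := by
    intro x hx hxS
    rcases hx with h | h
    · exact h
    · exfalso
      apply htS
      have := mul_mem (inv_mem hxS) (hJ0S h)
      simpa using this
  have hzK : z ∉ K := by
    intro h
    obtain ⟨h1, h2⟩ := (hJ0mem z).1 (hKS z h (hZle z hzZ).1)
    exact hψz h2
  have htK : t ∈ K := Or.inr (by rw [ht2]; exact one_mem _)
  have hKcard : Nat.card K = 18 := by
    have h1 : (S : Subgroup G).relIndex K = 2 := by
      have hd : (S : Subgroup G).relIndex K ∣ 2 := hSidx ▸ Subgroup.relIndex_dvd_index_of_normal _ _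
      rcases (Nat.dvd_prime Nat.prime_two).1 hd with h | h
      · exact absurd (Subgroup.relIndex_eq_one.1 h htK) htS
      · exact h
    have h2 : Nat.card ((S : Subgroup G).subgroupOf K) = 9 := by
      rw [← hJ0, ← Subgroup.inf_subgroupOf_right,
        Nat.card_congr (Subgroup.subgroupOfEquivOfLe inf_le_right).toEquiv]
      congr 2
      ext x
      exact ⟨fun h => hKS x h.2 h.1, fun h => ⟨hJ0S h, Or.inl h⟩⟩
    have := ((S : Subgroup G).subgroupOf K).card_mul_index
    rw [h2, ← Subgroup.relIndex, h1] at this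
    omega
  have hKidx : K.index = 9 := by
    have := K.card_mul_index
    rw [hKcard, hG] at this; omega
  have hcore : K.normalCore = ⊥ := by
    have h1 : K.normalCore ⊓ (S : Subgroup G) = ⊥ := by
      by_contra h
      exact hzK (K.normalCore_le (hnorm _ inferInstance h))
    rw [Subgroup.eq_bot_iff_forall]
    intro x hx
    by_contra hx1
    apply hST
    rw [inf_eq_left]
    have hxS : x ∉ (S : Subgroup G) := by
      intro h
      have : x ∈ K.normalCore ⊓ (S : Subgroup G) := ⟨hx, h⟩
      rw [h1] at this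
      exact hx1 this
    -- x is central on S, and conjugate to t
    have hcomm : ∀ s ∈ (S : Subgroup G), ∀ y ∈ K.normalCore, s * y = y * s := by
      intro s hs y hy
      have : s * y * s⁻¹ * y⁻¹ ∈ K.normalCore ⊓ (S : Subgroup G) := by
        rw [Subgroup.mem_inf]
        constructor
        · exact mul_mem ((inferInstance : K.normalCore.Normal).conj_mem y hy s) (inv_mem hy)
        · have := mul_mem hs (hSn.conj_mem _ (inv_mem hs) y)
          have e : s * (y * s⁻¹ * y⁻¹) = s * y * s⁻¹ * y⁻¹ := by group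
          rwa [e] at this
      rw [h1, Subgroup.mem_bot] at this
      calc s * y = s * y * s⁻¹ * y⁻¹ * (y * s) := by group
        _ = y * s := by rw [this, one_mul]
    have hx2 : x * x = 1 := by
      have : x * x ∈ K.normalCore ⊓ (S : Subgroup G) :=
        Subgroup.mem_inf.2 ⟨mul_mem hx hx, by rw [Subgroup.mul_mem_iff_of_index_two hSidx]⟩
      rwa [h1] at this
    have hxt : x * t ∈ (S : Subgroup G) := (hdec x).resolve_left hxS
    have hxt1 : x * t = 1 := by
      have h2 := hcomm _ hxt x hx
      have h3 : (x * t) ^ 2 = 1 := by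
        have : t * x = x * t := by
          apply mul_left_cancel (a := x)
          rw [← mul_assoc, h2]
        calc (x * t) ^ 2 = x * (t * x) * t := by rw [pow_two]; group
          _ = (x * x) * (t * t) := by rw [this]; group
          _ = 1 := by rw [hx2, ht2, mul_one]
      have h4 : orderOf (x * t) ∣ 81 := by
        rw [← hS]; exact Subgroup.orderOf_dvd_natCard _ hxt
      have h5 := Nat.dvd_gcd h4 (orderOf_dvd_of_pow_eq_one h3)
      exact orderOf_eq_one_iff.1 (Nat.dvd_one.1 (by simpa using h5))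
    have hxe : x = t := by
      rw [← mul_one x, ← ht2, ← mul_assoc, hxt1, one_mul]
    intro s hs y hy
    rcases (htT y).1 hy with rfl | rfl
    · simp
    · rw [← hxe]; exact (hcomm s hs x hx).symm
  exact iso_of_index hG K hKidx hcore z hz3 hzK hzc _ (by decide) (by decide)

end Cfsg.Agent.S3376
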