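import Cfsg.Statements.S3389
import Mathlib


set_option autoImplicit false
open Cfsg

namespace Cfsg.Agent.S3389

theorem lemA {G : Type*} [Group G] [Finite G] {Ω : Type*} [Finite Ω] [MulAction G Ω]
    (k : ℕ) (hfix : ∀ g : G, g ≠ 1 → Nat.card (MulAction.fixedBy Ω g) ≤ k)
    (p : ℕ) [Fact p.Prime] (hp : k < p) (S : Subgroup G) (hS : IsPGroup p S) (h : G) (hh : h ∈ S)
    (hh1 : h ≠ 1) (α : Ω) (hα : h • α = α) : S ≤ MulAction.stabilizer G α := by
  obtain ⟨j, hj⟩ := hS.card_orbit (α := Ω) α
  let Z : Subgroup S := Subgroup.zpowers ⟨h, hh⟩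
  have hZ : IsPGroup p Z := hS.to_subgroup Z
  have hmod := hZ.card_modEq_card_fixedPoints (MulAction.orbit S α)
  have hle : Nat.card (MulAction.fixedPoints Z (MulAction.orbit S α)) ≤ k := by
    refine le_trans ?_ (hfix h hh1)
    refine Nat.card_le_card_of_injective (fun x => ⟨x.1.1, ?_⟩) ?_
    · have := x.2 ⟨⟨h, hh⟩, Subgroup.mem_zpowers _⟩
      exact congrArg Subtype.val this
    · intro x y hxy
      exact Subtype.ext (Subtype.ext (Subtype.mk.inj hxy))
  have hpos : 0 < Nat.card (MulAction.fixedPoints Z (MulAction.orbit S α)) := by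
    have : Nonempty (MulAction.fixedPoints Z (MulAction.orbit S α)) := by
      refine ⟨⟨⟨α, MulAction.mem_orbit_self α⟩, ?_⟩⟩
      rintro ⟨z, hz⟩
      apply Subtype.ext
      have h1 : Z ≤ MulAction.stabilizer S α := by
        rw [Subgroup.zpowers_le]; exact hα
      exact h1 hz
    exact Nat.card_pos
  have hj0 : j = 0 := by
    by_contra hj0
    rw [hj] at hmod
    have h1 : p ∣ Nat.card (MulAction.fixedPoints Z (MulAction.orbit S α)) :=
      (Nat.ModEq.dvd_iff hmod dvd_rfl).1 (dvd_pow_self p hj0)
    have := Nat.le_of_dvd hpos h1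
    omega
  rw [hj0, pow_zero] at hj
  have hsub := (Nat.card_eq_one_iff_unique.1 hj).1
  intro s hs
  have := hsub.elim ⟨(⟨s, hs⟩ : S) • α, MulAction.mem_orbit _ _⟩ ⟨α, MulAction.mem_orbit_self α⟩
  exact congrArg Subtype.val this


/-- Let G be a finite group acting faithfully and transitively on a finite set Ω with fixity k ≥ 1: every non-identity element fixes at most k points and some non-identity element fixes exactly k points. Then |Z(G)| divides k; if k = 2 then |G| is even; and for every prime p > k dividing |G| and every point α, either p does not divide |G_α| or G_α contains a Sylow p-subgroup of G. -/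
theorem result {G : Type*} [Group G] [Finite G] {Ω : Type*} [Fintype Ω] [MulAction G Ω] [FaithfulSMul G Ω]
    (htr : MulAction.IsPretransitive G Ω) (k : ℕ) (hk : 1 ≤ k)
    (hfix : ∀ g : G, g ≠ 1 → Nat.card (MulAction.fixedBy Ω g) ≤ k) (hex : ∃ g : G, g ≠ 1 ∧ Nat.card (MulAction.fixedBy Ω g) = k) :
    Nat.card (Subgroup.center G) ∣ k ∧ (k = 2 → 2 ∣ Nat.card G) ∧
      ∀ (p : ℕ), p.Prime → k < p → p ∣ Nat.card G → ∀ α : Ω,
        ¬ p ∣ Nat.card (MulAction.stabilizer G α) ∨ ¬ p ∣ (MulAction.stabilizer G α).index := by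
  refine ⟨?_, ?_, ?_⟩
  · obtain ⟨g, hg1, hg⟩ := hex
    let Z := Subgroup.center G
    let X : SubMulAction Z Ω :=
      { carrier := MulAction.fixedBy Ω g
        smul_mem' := by
          intro z x hx
          show g • ((z : G) • x) = (z : G) • x
          have hx' : g • x = x := hx
          rw [smul_smul, Subgroup.mem_center_iff.1 z.2 g, mul_smul, hx'] }
    have hfree : ∀ x : X, MulAction.stabilizer Z x = ⊥ := by
      intro x
      rw [eq_bot_iff]
      intro z hz
      have hz' : (z : G) • (x : Ω) = x := congrArg Subtype.val hz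
      rw [Subgroup.mem_bot]
      apply Subtype.ext
      apply eq_of_smul_eq_smul (α := Ω)
      intro y
      obtain ⟨a, rfl⟩ := htr.exists_smul_eq (x : Ω) y
      rw [smul_smul, ← Subgroup.mem_center_iff.1 z.2 a, mul_smul, hz']
      simp
    have e := MulAction.selfEquivOrbitsQuotientProd hfree
    have hc := Nat.card_congr e
    rw [Nat.card_prod] at hc
    have : Nat.card X = k := hg
    rw [this] at hc
    exact Dvd.intro_left _ hc.symm
  · rintro rfl
    by_contra hodd
    obtain ⟨g, hg1, hg⟩ := hex
    have ho : orderOf g ≠ 1 := by simpa using hg1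
    let r := (orderOf g).minFac
    have hr : r.Prime := Nat.minFac_prime ho
    have := Fact.mk hr
    have hr2 : 2 < r := by
      have h2 := hr.two_le
      have : r ≠ 2 := by
        intro h
        apply hodd
        rw [← h]
        exact (Nat.minFac_dvd _).trans (orderOf_dvd_natCard g)
      omega
    obtain ⟨⟨α, hα⟩, ⟨β, hβ⟩, hαβ, huniv⟩ := Nat.card_eq_two_iff.1 hg
    have hαβ' : α ≠ β := fun h => hαβ (Subtype.ext h)
    set h := g ^ (orderOf g / r) with hh
    have hho : orderOf h = r := orderOf_pow_orderOf_div (orderOf_pos g).ne' (Nat.minFac_dvd _)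
    have hh1 : h ≠ 1 := by
      intro h0; rw [h0, orderOf_one] at hho; omega
    have hhα : h • α = α := (MulAction.stabilizer G α).pow_mem hα _
    have hhβ : h • β = β := (MulAction.stabilizer G β).pow_mem hβ _
    have hPz : IsPGroup r (Subgroup.zpowers h) :=
      IsPGroup.of_card (n := 1) (by rw [Nat.card_zpowers, hho, pow_one])
    obtain ⟨S, hS⟩ := hPz.exists_le_sylow
    have hhS : h ∈ (S : Subgroup G) := hS (Subgroup.mem_zpowers h)
    have hSα := lemA 2 hfix r hr2 S S.isPGroup' h hhS hh1 α hhα
    have hSβ := lemA 2 hfix r hr2 S S.isPGroup' h hhS hh1 β hhβ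
    obtain ⟨x, hx⟩ := htr.exists_smul_eq β α
    have hxS : ((x • S : Sylow r G) : Subgroup G) ≤ MulAction.stabilizer G α := by
      intro y hy
      rw [Sylow.coe_subgroup_smul, Subgroup.mem_pointwise_smul_iff_inv_smul_mem] at hy
      have h1 : (x⁻¹ * y * x) • β = β := by
        have := hSβ hy
        simpa using this
      show y • α = α
      rw [← hx]
      calc y • x • β = x • (x⁻¹ * y * x) • β := by simp [mul_smul]
        _ = x • β := by rw [h1]
    obtain ⟨y, hy⟩ := MulAction.exists_smul_eq (MulAction.stabilizer G α)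
      ((x • S).subtype hxS) (S.subtype hSα)
    have hyx : ((y : G) * x) • S = S := by
      rw [mul_smul]
      have := Sylow.smul_subtype hxS y
      rw [this] at hy
      exact Sylow.subtype_injective hy
    set n := (y : G) * x with hn
    have hnβ : n • β = α := by rw [hn, mul_smul, hx]; exact y.2
    have hnS : n ∈ Subgroup.normalizer ((S : Subgroup G) : Set G) :=
      Sylow.smul_eq_iff_mem_normalizer.1 hyx
    have hnα : h • n • α = n • α := by
      have h1 : n⁻¹ * h * n ∈ (S : Subgroup G) := by
        have := (Subgroup.mem_normalizer_iff''.1 hnS h).1 hhS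
        exact this
      have h2 : (n⁻¹ * h * n) • α = α := hSα h1
      calc h • n • α = n • (n⁻¹ * h * n) • α := by simp [mul_smul]
        _ = n • α := by rw [h2]
    have hnα' : n • α = β := by
      by_contra hne
      have hne2 : n • α ≠ α := by
        intro h0
        exact hαβ' (MulAction.injective n (h0.trans hnβ.symm))
      have h3 : ({α, β, n • α} : Set Ω) ⊆ MulAction.fixedBy Ω h := by
        rintro z (rfl | rfl | rfl)
        exacts [hhα, hhβ, hnα]
      have h4 := Set.ncard_le_ncard h3
      rw [Set.ncard_eq_three.2 ⟨α, β, n • α, hαβ', hne2.symm, Ne.symm hne, rfl⟩] at h4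
      have h5 := hfix h hh1
      rw [Nat.card_coe_set_eq] at h5
      omega
    have hn2 : n ^ 2 ∈ MulAction.stabilizer G α := by
      show n ^ 2 • α = α
      rw [pow_two, mul_smul, hnα', hnβ]
    have hno : Odd (orderOf n) := by
      rw [← Nat.not_even_iff_odd, even_iff_two_dvd]
      exact fun h => hodd (h.trans (orderOf_dvd_natCard n))
    obtain ⟨m, hm⟩ := hno
    have h6 : (n ^ 2) ^ m * n = 1 := by rw [← pow_mul, ← pow_succ, ← hm, pow_orderOf_eq_one]
    have h7 : n ∈ MulAction.stabilizer G α := by
      rw [eq_inv_of_mul_eq_one_right h6]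
      exact inv_mem (pow_mem hn2 m)
    exact hαβ' ((show n • α = α from h7).symm.trans hnα')
  · intro p hp hkp _ α
    have := Fact.mk hp
    by_cases h1 : p ∣ Nat.card (MulAction.stabilizer G α)
    · right
      obtain ⟨⟨h, hα⟩, hh⟩ := exists_prime_orderOf_dvd_card' p h1
      rw [Subgroup.orderOf_mk] at hh
      have hh1 : h ≠ 1 := by
        intro h0; rw [h0, orderOf_one] at hh; exact hp.one_lt.ne hh
      have hPz : IsPGroup p (Subgroup.zpowers h) :=
        IsPGroup.of_card (n := 1) (by rw [Nat.card_zpowers, hh, pow_one])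
      obtain ⟨S, hS⟩ := hPz.exists_le_sylow
      have hSα := lemA k hfix p hkp S S.isPGroup' h (hS (Subgroup.mem_zpowers h)) hh1 α hα
      exact fun hd => S.not_dvd_index (hd.trans (Subgroup.index_dvd_of_le hSα))
    · exact Or.inl h1

end Cfsg.Agent.S3389
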