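import Cfsg.Statements.S3391
import Mathlib
import Cfsg.Agent.Chev.SzNorm
import Cfsg.Agent.Chev.SzLie

set_option autoImplicit false
open Cfsg

namespace Cfsg.Agent.S3391

theorem sq_fix {G : Type*} [Group G] {Ω : Type*} [Finite Ω] [MulAction G Ω] {h g : G} {α : Ω}
    (hfix : Nat.card (MulAction.fixedBy Ω h) ≤ 2) (h1 : h • α = α) (h2 : h • g • α = g • α)
    (h3 : h • g • g • α = g • g • α) : g ^ 2 • α = α := by
  rw [sq, mul_smul]
  by_contra hne
  have e1 : g • α ≠ α := fun e => hne (by rw [e, e])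
  have e2 : g • g • α ≠ g • α := fun e => e1 (smul_left_cancel g e)
  have h4 : ({α, g • α, g • g • α} : Set Ω) ⊆ MulAction.fixedBy Ω h := by
    rintro _ (rfl | rfl | rfl) <;> assumption
  have h5 := Set.ncard_le_ncard h4
  rw [Set.ncard_eq_three.2 ⟨_, _, _, e1.symm, Ne.symm hne, e2.symm, rfl⟩] at h5
  exact absurd (h5.trans hfix) (by norm_num)

theorem sq_mem {G : Type*} [Group G] {Ω : Type*} [Finite Ω] [MulAction G Ω]
    (hfix : ∀ g : G, g ≠ 1 → Nat.card (MulAction.fixedBy Ω g) ≤ 2) {α : Ω} {X : Subgroup G}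
    (hX : X ≤ MulAction.stabilizer G α) (h0 : X ≠ ⊥) {g : G} (hg : g ∈ Subgroup.normalizer (X : Set G)) :
    g ^ 2 ∈ MulAction.stabilizer G α := by
  obtain ⟨⟨x, hx⟩, h1⟩ := Subgroup.ne_bot_iff_exists_ne_one.1 h0
  have key : ∀ g ∈ Subgroup.normalizer (X : Set G), x • g • α = g • α := by
    intro g hg
    have : (g⁻¹ * x * g) • α = α := hX ((Subgroup.mem_normalizer_iff''.1 hg x).1 hx)
    rwa [mul_smul, mul_smul, inv_smul_eq_iff] at this
  exact sq_fix (hfix x fun h => h1 (Subtype.ext h)) (hX hx) (key g hg)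
    (by rw [← mul_smul g g]; exact key _ (Subgroup.mul_mem _ hg hg))

open Chev Chev.Suz MulAction in
theorem aux {F : Type*} [Field F] {m : ℕ} [SzField F m] {Ω : Type*} [Finite Ω] [MulAction (Sz F m) Ω]
    (hfix : ∀ g : Sz F m, g ≠ 1 → Nat.card (MulAction.fixedBy Ω g) ≤ 2) (α : Ω)
    (h0 : stabilizer (Sz F m) α ≠ ⊥) (h1 : stabilizer (Sz F m) α ≠ ⊤) :
    (∃ p : suzukiOvoid F m, stabilizer (Sz F m) α = stabilizer (Sz F m) p) ∨
      Nat.card (stabilizer (Sz F m) α) = 2 ^ (2 * m + 1) - 1 := by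
  have hc : ∀ x ∈ stabilizer (Sz F m) α, x ≠ 1 → ∀ g, g * x = x * g → g ^ 2 ∈ stabilizer (Sz F m) α := by
    intro x hx hx1 g hg
    exact sq_mem hfix (Subgroup.zpowers_le.2 hx) (by simpa using hx1)
      (Subgroup.centralizer_le_normalizer _ (by
        rintro _ ⟨i, rfl⟩; exact ((show Commute g x from hg).zpow_right i).eq.symm))
  by_cases h2 : ∃ s ∈ stabilizer (Sz F m) α, s ^ 2 = 1 ∧ s ≠ 1
  · left
    obtain ⟨s, hs, h2, h3⟩ := h2
    obtain ⟨p, hp⟩ := exists_mem_Zp h2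
    refine ⟨p, ?_⟩
    obtain ⟨k, rfl⟩ := exists_smul_inf p
    have hZ : Zp (k • inf F) ≤ stabilizer (Sz F m) α := by
      intro z hz
      obtain ⟨b, hb⟩ := mem_Zp_inf.1 ((conj_mem_Zp_iff k z _).2 hz)
      obtain ⟨c, hc'⟩ := mem_Zp_inf.1 ((conj_mem_Zp_iff k s _).2 hp)
      obtain ⟨a, rfl⟩ := mul_th_surj b
      have e1 : z = (k * uu a 0 * k⁻¹) ^ 2 := by rw [conj_pow, uu_sq, ← hb]; group
      have e2 : s = k * uu 0 c * k⁻¹ := by rw [← hc']; group
      rw [e1]
      apply hc s hs h3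
      rw [e2, conj_mul, conj_mul, uu_zero_comm]
    have hB : ∀ g ∈ stabilizer (Sz F m) (k • inf F), g ^ 2 ∈ stabilizer (Sz F m) α :=
      fun g hg => sq_mem hfix hZ (Zp_ne_bot _) (by rwa [normalizer_Zp])
    let M := (stabilizer (Sz F m) α).comap (MulAut.conj k).toMonoidHom
    have hM : ∀ g : Sz F m, g • inf F = inf F → g ^ 2 ∈ M := by
      intro g hg
      have := hB _ ((conj_fix_iff' k g _).2 hg)
      rwa [conj_pow] at this
    have hh2 : ∀ l : Fˣ, ∃ l' : Fˣ, l = l' ^ 2 := by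
      intro l
      obtain ⟨a, ha⟩ := exists_sq (l : F)
      have : a ≠ 0 := by rintro rfl; exact l.ne_zero (by simpa using ha.symm)
      exact ⟨Units.mk0 a this, by ext; simpa using ha.symm⟩
    have hH : ∀ l : Fˣ, hh l ∈ M := by
      intro l
      obtain ⟨l, rfl⟩ := hh2 l
      rw [← hh_pow]; exact hM _ (hh_smul_inf l)
    have hQ : ∀ a b : F, uu a b ∈ M := by
      intro a b
      obtain ⟨l, hl⟩ := exists_unit_ne_one F
      refine mem_of_commutator_mem hl (hH l) (uu_mem_Qp a b) (M.mul_mem ?_ (M.inv_mem (hH l)))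
      obtain ⟨l, rfl⟩ := hh2 l
      rw [← hh_pow, ← conj_pow]
      exact hM _ (by simp [mul_smul, uu_inv])
    have hle : stabilizer (Sz F m) (k • inf F) ≤ stabilizer (Sz F m) α := by
      intro g hg
      obtain ⟨a, b, l, h⟩ := (smul_inf_eq_iff _).1 ((conj_fix_iff k g _).2 hg)
      have : k⁻¹ * g * k ∈ M := h ▸ M.mul_mem (hQ a b) (hH l)
      simpa [M, mul_assoc] using this
    have : IsPreprimitive (Sz F m) (suzukiOvoid F m) := isPreprimitive_of_is_two_pretransitive inferInstance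
    have : Nontrivial (suzukiOvoid F m) := ⟨_, _, inf_ne_pt 0 0⟩
    exact ((IsPreprimitive.isCoatom_stabilizer_of_isPreprimitive (Sz F m) (k • inf F)).le_iff.1 hle).resolve_left h1
  · right
    push Not at h2
    have h3 : ∀ p, ∀ g ∈ stabilizer (Sz F m) α, g ∈ Qp p → g = 1 := fun p g hg hq =>
      h2 g hg (h2 _ (Subgroup.pow_mem _ hg 2) (by rw [← pow_four_eq, hq.2]))
    obtain ⟨⟨x, hx⟩, h4⟩ := Subgroup.ne_bot_iff_exists_ne_one.1 h0
    have h5 : x ≠ 1 := fun h => h4 (Subtype.ext h)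
    have hU := isTorus_tor h5 (fun p hp => h5 (h3 p x hx hp))
    have hle : tor x ≤ stabilizer (Sz F m) α := by
      intro u hu
      obtain ⟨n, hn⟩ := exists_pow_eq_self_of_coprime (Odd.coprime_two_left (hU.odd_orderOf hu))
      rw [← hn]; exact Subgroup.pow_mem _ (hc x hx h5 u (mem_tor.1 hu)) n
    have hge : stabilizer (Sz F m) α ≤ tor x := by
      rcases subgroup_cases (stabilizer (Sz F m) α) with ⟨p, hp⟩ | ⟨U, hU', h⟩ | ⟨K₀, -, k, h⟩
      · intro g hg
        rw [mem_tor, ← commutatorElement_eq_one_iff_mul_comm]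
        exact h3 p _ (Subgroup.commutator_le_self _ (Subgroup.commutator_mem_commutator hg hx))
          (commutator_stabilizer_le p (Subgroup.commutator_mem_commutator (hp hg) (hp hx)))
      · have h6 : stabilizer (Sz F m) α ≤ U := by
          intro g hg
          by_cases hg1 : g = 1
          · rw [hg1]; exact U.one_mem
          exact hU'.mem_of_odd (h hg) (odd_orderOf_of_not_mem_Qp fun p hp => hg1 (h3 p g hg hp))
        rwa [← hU'.eq_tor (h6 hx) h5]
      · exfalso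
        have := h2 (k * uu 0 1 * k⁻¹) (h ▸ ⟨_, uu_mem_subSz.2 ⟨K₀.zero_mem, K₀.one_mem⟩, rfl⟩)
          (by rw [conj_pow, uu_sq_eq_one.2 rfl]; simp)
        simp [uu_eq_one] at this
    rw [le_antisymm hge hle]
    rcases hU.cases with ⟨p, p', h, e⟩ | ⟨y, hy, e⟩
    · rw [e, card_stab_stab h]
    · obtain ⟨z, hz, z1, z2⟩ := hy.exists_order_four
      exact absurd (h2 _ (sq_mem hfix hle hU.ne_bot (e ▸ hz)) (by rw [← pow_four_eq, z2])) z1

open Chev Chev.Suz MulAction in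
theorem aux2 {F : Type*} [Field F] {m : ℕ} [SzField F m] {Ω : Type*} [Fintype Ω] [MulAction (Sz F m) Ω]
    (htr : MulAction.IsPretransitive (Sz F m) Ω)
    (hfix : ∀ g : Sz F m, g ≠ 1 → Nat.card (MulAction.fixedBy Ω g) ≤ 2)
    (hex : ∃ g : Sz F m, g ≠ 1 ∧ Nat.card (MulAction.fixedBy Ω g) = 2) :
    (Fintype.card Ω = (2 ^ (2 * m + 1)) ^ 2 + 1 ∧ MulAction.IsMultiplyPretransitive (Sz F m) Ω 2) ∨
    (Fintype.card Ω = (2 ^ (2 * m + 1)) ^ 2 * ((2 ^ (2 * m + 1)) ^ 2 + 1) ∧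
      ∀ α : Ω, Nat.card (MulAction.stabilizer (Sz F m) α) = 2 ^ (2 * m + 1) - 1) := by
  obtain ⟨g, g1, hg⟩ := hex
  obtain ⟨α, β, hab, h⟩ := Set.ncard_eq_two.1 hg
  have h1 : g • α = α := by have : α ∈ fixedBy Ω g := by rw [h]; simp
                            exact this
  have hcard : ∀ γ : Ω, Nat.card (stabilizer (Sz F m) γ) * Fintype.card Ω = Nat.card (Sz F m) := by
    intro γ
    rw [← Nat.card_eq_fintype_card, ← index_stabilizer_of_transitive (Sz F m) γ, Subgroup.card_mul_index]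
  have h8 := eight_le_q F
  rcases aux hfix α (fun h => g1 (by rw [← Subgroup.mem_bot, ← h]; exact h1)) (fun h => by
    obtain ⟨k, hk⟩ := htr.exists_smul_eq α β
    exact hab ((show k ∈ stabilizer (Sz F m) α from h ▸ Subgroup.mem_top k).symm.trans hk)) with ⟨p, hp⟩ | hc
  · left
    refine ⟨by rw [← Nat.card_eq_fintype_card, ← index_stabilizer_of_transitive (Sz F m) α, hp,
      Suz.index_stabilizer], ?_⟩
    rw [is_two_pretransitive_iff]
    intro a b c d hab hcd
    have key : ∀ x y : Sz F m, x • α = y • α ↔ x • p = y • p := by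
      intro x y
      rw [← inv_smul_eq_iff, ← mul_smul, ← mem_stabilizer_iff, hp,
        mem_stabilizer_iff, mul_smul, inv_smul_eq_iff]
    obtain ⟨a, rfl⟩ := htr.exists_smul_eq α a
    obtain ⟨b, rfl⟩ := htr.exists_smul_eq α b
    obtain ⟨c, rfl⟩ := htr.exists_smul_eq α c
    obtain ⟨d, rfl⟩ := htr.exists_smul_eq α d
    obtain ⟨g, h1, h2⟩ := (is_two_pretransitive_iff.1 (instTwoPretransitiveOvoid (F := F)))
      ((key a b).not.1 hab) ((key c d).not.1 hcd)
    exact ⟨g, by rw [← mul_smul, key, mul_smul, h1], by rw [← mul_smul, key, mul_smul, h2]⟩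
  · right
    have h2 := hcard α
    rw [hc, card_Sz, mul_comm] at h2
    have h3 := Nat.eq_of_mul_eq_mul_right (by omega) h2
    refine ⟨h3, fun γ => ?_⟩
    have h4 := hcard γ
    rw [h3, card_Sz, mul_comm] at h4
    exact Nat.eq_of_mul_eq_mul_left (by positivity) h4

/-- Let q = 2^{2m+1} ≥ 8 and let G be isomorphic to the Suzuki group Sz(q). If G acts faithfully and transitively on a finite set Ω with fixity 2 (every non-identity element fixes at most two points, and some fixes exactly two), then either |Ω| = q² + 1 and the action is 2-transitive, or |Ω| = q²(q² + 1) and the point stabilizers have order q − 1. -/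
theorem result {G : Type*} [Group G] [Finite G] (F : Type) [Field F] [Fintype F] (m : ℕ) (hm : 1 ≤ m) (hF : Fintype.card F = 2 ^ (2 * m + 1))
    (e : G ≃* ↥(Cfsg.Lie.Sz F (2 ^ (m + 1)))) {Ω : Type*} [Fintype Ω] [MulAction G Ω] [FaithfulSMul G Ω] (htr : MulAction.IsPretransitive G Ω)
    (hfix : ∀ g : G, g ≠ 1 → Nat.card (MulAction.fixedBy Ω g) ≤ 2) (hex : ∃ g : G, g ≠ 1 ∧ Nat.card (MulAction.fixedBy Ω g) = 2) :
    (Fintype.card Ω = Fintype.card F ^ 2 + 1 ∧ MulAction.IsMultiplyPretransitive G Ω 2) ∨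
    (Fintype.card Ω = Fintype.card F ^ 2 * (Fintype.card F ^ 2 + 1) ∧ ∀ α : Ω, Nat.card (MulAction.stabilizer G α) = Fintype.card F - 1) := by
  have hF' := Chev.SzField.of_fintype hm hF
  let e' := (Chev.Suz.lieEquiv F).trans e.symm
  let _ : MulAction (Sz F m) Ω := MulAction.compHom Ω e'.toMonoidHom
  have hsm : ∀ (g : Sz F m) (x : Ω), g • x = e' g • x := fun _ _ => rfl
  rw [hF]
  rcases aux2 (F := F) (Ω := Ω) ⟨fun x y => by
      obtain ⟨g, hg⟩ := htr.exists_smul_eq x y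
      exact ⟨e'.symm g, by rwa [hsm, e'.apply_symm_apply]⟩⟩
    (fun g hg => hfix (e' g) (by simpa using hg)) (by
      obtain ⟨g, h1, h2⟩ := hex
      refine ⟨e'.symm g, by simpa using h1, ?_⟩
      rw [← h2]; congr 2; ext x; simp [hsm]) with ⟨h1, h2⟩ | ⟨h1, h2⟩
  · refine Or.inl ⟨h1, ?_⟩
    rw [MulAction.is_two_pretransitive_iff] at h2 ⊢
    intro a b c d hab hcd
    obtain ⟨g, h⟩ := h2 hab hcd
    exact ⟨e' g, h⟩
  · refine Or.inr ⟨h1, fun α => ?_⟩
    rw [← h2 α]
    exact Nat.card_congr (e'.toEquiv.subtypeEquiv fun _ => Iff.rfl).symm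

end Cfsg.Agent.S3391
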