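import Cfsg.Statements.S3399
import Cfsg.Agent.PrF.Main

set_option autoImplicit false
open Cfsg

namespace Cfsg.Agent.S3399

/-- Let G be a transitive permutation group of finite degree n and K a nontrivial subgroup of G that is pronormal in G (K and gKg⁻¹ are conjugate inside ⟨K, gKg⁻¹⟩ for every g ∈ G). If K fixes exactly f points, then f ≤ (n − 1)/2, that is, 2f + 1 ≤ n. -/
theorem result (n : ℕ) (G : Subgroup (Equiv.Perm (Fin n)))
    (htrans : ∀ a b : Fin n, ∃ g ∈ G, g a = b)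
    (K : Subgroup (Equiv.Perm (Fin n))) (hKG : K ≤ G) (hK : K ≠ ⊥)
    (hpro : ∀ g ∈ G, ∃ w ∈ K ⊔ K.map (MulAut.conj g).toMonoidHom,
      K.map (MulAut.conj w).toMonoidHom = K.map (MulAut.conj g).toMonoidHom) :
    2 * Nat.card {a : Fin n // ∀ k ∈ K, k a = a} + 1 ≤ n := by
  have hP : PrF.Prn (K.subgroupOf G) := by
    intro g
    obtain ⟨w, hw, e⟩ := hpro g g.2
    have hmem : ∀ (t x : Equiv.Perm (Fin n)), x ∈ K.map (MulAut.conj t).toMonoidHom ↔ t⁻¹ * x * t ∈ K := by
      intro t x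
      constructor
      · rintro ⟨k, hk, rfl⟩
        simpa [mul_assoc] using hk
      · intro h
        exact ⟨_, h, by simp [mul_assoc]⟩
    have hwG : w ∈ G := by
      refine (sup_le hKG ?_ : _ ≤ G) hw
      rintro _ ⟨k, hk, rfl⟩
      exact G.mul_mem (G.mul_mem g.2 (hKG hk)) (G.inv_mem g.2)
    refine ⟨g⁻¹ * ⟨w, hwG⟩, ?_, ?_⟩
    · rw [Subgroup.mem_normalizer_iff]
      intro x
      simp only [Subgroup.mem_subgroupOf, Subgroup.coe_mul, Subgroup.coe_inv]
      have h1 := hmem w (w * x * w⁻¹)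
      have h2 := hmem g (w * x * w⁻¹)
      rw [e] at h1
      have h3 := h1.symm.trans h2
      simpa [mul_assoc] using h3
    · intro R h1 h2
      have : w ∈ R.map G.subtype := by
        refine (sup_le ?_ ?_ : _ ≤ R.map G.subtype) hw
        · intro k hk
          exact ⟨⟨k, hKG hk⟩, h1 hk, rfl⟩
        · rintro _ ⟨k, hk, rfl⟩
          exact ⟨_, h2 ⟨k, hKG hk⟩ hk, rfl⟩
      obtain ⟨w', hw', e'⟩ := this
      have : w' = ⟨w, hwG⟩ := Subtype.ext e'
      rw [mul_inv_cancel_left, ← this]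
      exact hw'
  have ht : MulAction.IsPretransitive G (Fin n) := ⟨fun a b => by
    obtain ⟨g, hg, e⟩ := htrans a b
    exact ⟨⟨g, hg⟩, e⟩⟩
  have hFx : PrF.Fx (K.subgroupOf G) (Fin n) = {a | ∀ k ∈ K, k a = a} := by
    ext a
    exact ⟨fun h k hk => h ⟨k, hKG hk⟩ hk, fun h k hk => h k hk⟩
  have hF : PrF.Fx (K.subgroupOf G) (Fin n) ≠ Set.univ := by
    intro e
    apply hK
    rw [eq_bot_iff]
    intro k hk
    rw [Subgroup.mem_bot]
    ext a
    have : a ∈ PrF.Fx (K.subgroupOf G) (Fin n) := e ▸ Set.mem_univ a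
    rw [hFx] at this
    exact congrArg Fin.val (this k hk)
  have h := (PrF.th.{0, 0} _ G (Fin n) (K.subgroupOf G) rfl hP ht hF).1
  rw [PrF.dd_univ, hFx, Nat.card_eq_fintype_card, Fintype.card_fin] at h
  have e : Nat.card {a : Fin n // ∀ k ∈ K, k a = a} = ({a | ∀ k ∈ K, k a = a} : Set (Fin n)).ncard := rfl
  omega

end Cfsg.Agent.S3399
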