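import Cfsg.Statements.S3412
import Cfsg.Agent.Char.PSL33

set_option autoImplicit false
open Cfsg

namespace Cfsg.Agent.S3412
open Cfsg.Agent.Char

/-- Let H be a finite group whose commuting graph (vertices the non-identity elements, two joined when they commute) is isomorphic to that of PSL_3(3): there is a bijection between the non-identity elements of H and of PSL_3(3) under which two elements commute exactly when their images do. Then H ≅ PSL_3(3). -/
theorem result {H : Type*} [Group H] [Finite H]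
    (f : {h : H // h ≠ 1} ≃ {g : Matrix.ProjectiveSpecialLinearGroup (Fin 3) (ZMod 3) // g ≠ 1})
    (hf : ∀ x y : {h : H // h ≠ 1}, (x : H) * y = y * x ↔ ((f x) : Matrix.ProjectiveSpecialLinearGroup (Fin 3) (ZMod 3)) * (f y) = (f y) * (f x)) :
    Nonempty (H ≃* Matrix.ProjectiveSpecialLinearGroup (Fin 3) (ZMod 3)) := by
  classical
  haveI : Fact (Nat.Prime 3) := ⟨by norm_num⟩
  haveI := Fintype.ofFinite (Matrix.ProjectiveSpecialLinearGroup (Fin 3) (ZMod 3))
  haveI := Fintype.ofFinite H
  obtain ⟨S, h⟩ := GL23.exists_fused_PSL (ZMod.card 3)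
  let e := ((Equiv.optionSubtypeNe (1 : H)).symm.trans f.optionCongr).trans
    (Equiv.optionSubtypeNe 1)
  have h1 : e 1 = 1 := by simp [e]
  have h2 : ∀ x (hx : x ≠ 1), e x = f ⟨x, hx⟩ := fun x hx => by
    simp [e, Equiv.optionSubtypeNe_symm_of_ne hx]
  obtain ⟨S', h'⟩ := h.exists_fused_of_graph e h1 fun x y => by
    by_cases hx : x = 1
    · simp [hx, h1]
    by_cases hy : y = 1
    · simp [hy, h1]
    rw [h2 x hx, h2 y hy]
    exact hf ⟨x, hx⟩ ⟨y, hy⟩
  exact h'.equivPSL (by
    rw [Nat.card_congr e, Spor.PlaneThree.card_PSL_three_three (ZMod.card 3)]) (ZMod.card 3)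

end Cfsg.Agent.S3412
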