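import Cfsg.Statements.S3415
import Mathlib
import Cfsg.Agent.BN2.Red

set_option autoImplicit false
open Cfsg

namespace Cfsg.Agent.S3415

/-- Let G be a finite group with an irreducible (B,N)-pair of rank at least 2 such that B contains no non-trivial normal subgroup of G, and write H = B ∩ N. If U and U' are nilpotent normal subgroups of B with UH = B = U'H, then U = U': the splitting of a split (B,N)-pair is unique. -/
theorem result {G : Type*} [Group G] [Finite G]
    (P : Cfsg.BNPair G) (h2 : 2 ≤ P.rank) (hirr : P.Irreducible) (hcore : P.B.normalCore = ⊥)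
    (U U' : Subgroup G) (hU : U ≤ P.B) (hU' : U' ≤ P.B)
    (hUn : ∀ b ∈ P.B, ∀ u ∈ U, b * u * b⁻¹ ∈ U) (hU'n : ∀ b ∈ P.B, ∀ u ∈ U', b * u * b⁻¹ ∈ U')
    (hUnil : Group.IsNilpotent U) (hU'nil : Group.IsNilpotent U')
    (hUH : U ⊔ (P.B ⊓ P.N) = P.B) (hU'H : U' ⊔ (P.B ⊓ P.N) = P.B) : U = U' := by
  let T := St.Tits.ofBN P id Function.bijective_id (MulEquiv.refl _)
  have := T.finite_W
  have : Nontrivial P.S := Finite.one_lt_card_iff_nontrivial.1 h2
  have hi := UL.irred_ofBN P id Function.bijective_id (MulEquiv.refl _) hirr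
  have hf := (BNP.faith_iff T).2 hcore
  exact ((BN2.spl_ofBN P _ _ _ hU hUn hUnil hUH).eq_fitting hi hf).trans
    ((BN2.spl_ofBN P _ _ _ hU' hU'n hU'nil hU'H).eq_fitting hi hf).symm

end Cfsg.Agent.S3415
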