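import Cfsg.Statements.S3421
import Mathlib
import Cfsg.Agent.Part.SepTI
import Cfsg.Agent.Misc.SpecL2
import Cfsg.Agent.KSG.PSL2

set_option autoImplicit false
open Cfsg

namespace Cfsg.Agent.S3421

open Subgroup Cfsg.Agent.PLocal.Amb Cfsg.Agent.Part


/-- Let F be a finite field with more than 3 elements. A finite group G is isomorphic to PSL(2, F) if and only if G has the same set of element orders and the same order as PSL(2, F). -/
theorem result {G : Type*} [Group G] [Finite G] {F : Type*} [Field F] [Fintype F] (hF : 3 < Fintype.card F) :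
    Nonempty (G ≃* Matrix.ProjectiveSpecialLinearGroup (Fin 2) F) ↔
      (Set.range (orderOf : G → ℕ) = Set.range (orderOf : Matrix.ProjectiveSpecialLinearGroup (Fin 2) F → ℕ) ∧
        Nat.card G = Nat.card (Matrix.ProjectiveSpecialLinearGroup (Fin 2) F)) := by
  refine ⟨fun ⟨e⟩ => ⟨?_, Nat.card_congr e.toEquiv⟩, fun ⟨h1, h2⟩ => ?_⟩
  · ext n
    exact ⟨fun ⟨x, hx⟩ => ⟨e x, by rw [e.orderOf_eq, hx]⟩, fun ⟨x, hx⟩ => ⟨e.symm x, by
      rw [e.symm.orderOf_eq, hx]⟩⟩
  obtain ⟨p, hpF⟩ := CharP.exists F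
  obtain ⟨f, hp, hq⟩ := FiniteField.card F p
  have := Fact.mk hp
  rw [← Nat.card_eq_fintype_card] at hF hq
  have h3 := Misc.Spec.mem_range_orderOf_PSL2 (F := F) p
  rw [← h1] at h3
  have h4 := KSG.M2.card_PSL2 (F := F)
  have hb := Misc.Spec.gcd_two_dvd_add_one (F := F)
  rw [← h2, KSG.M2.card_sq_sub_one] at h4
  set q := Nat.card F with hqF
  set d := Nat.gcd 2 (q - 1) with hd
  have hd0 : d = 1 ∨ d = 2 := (Nat.dvd_prime Nat.prime_two).1 (Nat.gcd_dvd_left _ _)
  obtain ⟨a, ha⟩ : d ∣ q - 1 := Nat.gcd_dvd_right _ _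
  obtain ⟨b, hb⟩ := hb
  have hdp : 0 < d := by omega
  rw [ha, ← mul_assoc, mul_comm d, ← mul_assoc, Nat.mul_div_cancel _ hdp] at h4
  rw [ha, hb, Nat.mul_div_cancel_left _ hdp, Nat.mul_div_cancel_left _ hdp] at h3
  have hpq : p ∣ q := hq ▸ dvd_pow_self p f.ne_zero
  have hqm : q.Coprime ((q + 1) * a) := by
    refine Nat.Coprime.mul_right (by simp) (Nat.Coprime.coprime_dvd_right (Dvd.intro_left d ha.symm) ?_)
    exact (Nat.coprime_self_sub_right (by omega)).2 (Nat.coprime_one_right q)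
  have hpm : ((q + 1) * a).Coprime p := (hqm.coprime_dvd_left hpq).symm
  have h5 : ∀ x : G, x ^ p = 1 ∨ x ^ ((q + 1) * a) = 1 := fun x => by
    rcases (h3 _).1 ⟨x, rfl⟩ with h | h | h
    · exact Or.inl (orderOf_dvd_iff_pow_eq_one.1 h)
    · exact Or.inr (orderOf_dvd_iff_pow_eq_one.1 (h.mul_left _))
    · exact Or.inr (orderOf_dvd_iff_pow_eq_one.1 ((h.trans (Dvd.intro_left d hb.symm)).mul_right _))
  have hS : Sep p G := fun x => (h5 x).imp id fun h =>
    hpm.coprime_dvd_left (orderOf_dvd_of_pow_eq_one h)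
  have hpe : ∀ x : G, (∃ k, x ^ p ^ k = 1) → x ^ p = 1 := fun x hx =>
    hS.pow_eq_one (isPGroup_zpowers hx) (mem_zpowers x)
  have hP : ∀ P : Sylow p G, Nat.card (P : Subgroup G) = q := fun P => by
    have h6 := (P : Subgroup G).card_mul_index
    obtain ⟨k, hk⟩ := P.isPGroup'.exists_card_eq
    rw [h4, mul_assoc] at h6
    refine Nat.dvd_antisymm ((hk ▸ hpm.symm.pow_left k).dvd_of_dvd_mul_right (Dvd.intro _ h6)) ?_
    exact (hq ▸ ((Nat.Prime.coprime_iff_not_dvd hp).2 P.not_dvd_index).pow_left f).dvd_of_dvd_mul_right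
      (Dvd.intro _ h6.symm)
  obtain ⟨P⟩ : Nonempty (Sylow p G) := inferInstance
  have hB := Small.card_pElements_of_TI P hS.ti
  rw [hP] at hB
  set B : Set G := {g | g ≠ 1 ∧ ∃ k, g ^ p ^ k = 1} with hBd
  have h6 : (q + 1) * a ∣ Bᶜ.ncard := by
    have := S3993.result (G := G) ((q + 1) * a) (by rw [h4, mul_assoc]; exact Dvd.intro_left _ rfl)
    convert this using 1
    refine congrArg Set.ncard (?_ : Bᶜ = {g | g ^ ((q + 1) * a) = 1})
    ext g
    simp only [hBd, Set.mem_compl_iff, Set.mem_setOf_eq, not_and]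
    refine ⟨fun h => (h5 g).elim (fun e => ?_) id, fun h g1 hg => g1 ?_⟩
    · by_cases g1 : g = 1
      · rw [g1, one_pow]
      · exact absurd ⟨1, by rwa [pow_one]⟩ (h g1)
    · exact orderOf_eq_one_iff.1 (Nat.eq_one_of_dvd_coprimes hpm (orderOf_dvd_of_pow_eq_one h)
        (orderOf_dvd_of_pow_eq_one (hpe g hg)))
  have h7 : q ∣ B.ncard + 1 := by
    have := S3993.result (G := G) q (by rw [h4, mul_assoc]; exact Dvd.intro _ rfl)
    rw [← Set.ncard_insert_of_notMem (a := 1) (by simp [hBd])]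
    convert this using 1
    refine congrArg Set.ncard (?_ : insert 1 B = {g | g ^ q = 1})
    ext g
    simp only [hBd, Set.mem_insert_iff, Set.mem_setOf_eq]
    refine ⟨?_, fun h => or_iff_not_imp_left.2 fun g1 => ⟨g1, f, hq ▸ h⟩⟩
    rintro (rfl | ⟨-, h⟩)
    · exact one_pow _
    · exact orderOf_dvd_iff_pow_eq_one.1 ((orderOf_dvd_of_pow_eq_one (hpe g h)).trans hpq)
  have h8 := Set.ncard_add_ncard_compl B
  have h9 : 0 < Bᶜ.ncard := (Set.ncard_pos (Set.toFinite _)).2 ⟨1, by simp [hBd]⟩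
  obtain ⟨k, hk⟩ : (q + 1) * a ∣ B.ncard :=
    (Nat.dvd_add_left h6).1 (by rw [h8, h4, mul_assoc]; exact Dvd.intro_left _ rfl)
  have hkq : k < q := by
    refine Nat.lt_of_mul_lt_mul_left (a := (q + 1) * a) ?_
    rw [← hk, mul_comm, ← mul_assoc, ← h4]
    omega
  have ha' : (q : ℤ) - 1 = d * a := by
    have := congrArg (Nat.cast : ℕ → ℤ) ha
    rwa [Nat.cast_sub (by omega), Nat.cast_mul] at this
  have hkd : k = d := by
    have h10 : (q : ℤ) ∣ ((k : ℤ) - d) * (((q + 1) * a : ℕ) : ℤ) := by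
      obtain ⟨c, hc⟩ := h7
      have hc' := congrArg (Nat.cast : ℕ → ℤ) hc
      rw [hk] at hc'
      push_cast at hc' ⊢
      exact ⟨c - q, by linear_combination hc' + (q + 1) * ha'⟩
    have h11 := Int.eq_zero_of_abs_lt_dvd ((Nat.isCoprime_iff_coprime.2 hqm).dvd_of_dvd_mul_right h10)
      (by rw [abs_lt]; omega)
    omega
  have hn : Nat.card (Sylow p G) = q + 1 := by
    refine Nat.eq_of_mul_eq_mul_right (show 0 < q - 1 by omega) ?_
    rw [← hB, ha]
    exact hk.trans (by rw [hkd]; ring)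
  refine psl_of_TI hF hd (by rw [h4, ha]; ring) hP hn hS.ti (fun u g hu1 hu hc => ?_)
    (fun N hN hc => ?_) rfl
  · exact (hS g).elim (fun e => ⟨1, by rwa [pow_one]⟩) fun e =>
      ⟨0, by rw [hS.eq_one (hpe u hu) hu1 e hc, one_pow]⟩
  by_contra! h10
  obtain ⟨j, hj⟩ := (isPGroup_iff.2 fun x hx => ⟨1, by rw [pow_one, pow_two, h10 x hx]⟩ :
    IsPGroup 2 N).exists_card_eq
  rw [hc] at hj
  have h11 : 8 ∣ q + 1 := by
    rw [hj]
    refine pow_dvd_pow 2 (show 3 ≤ j from ?_)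
    by_contra h
    have := Nat.pow_le_pow_right two_pos (show j ≤ 2 by omega)
    omega
  have hd2 : d = 2 := Nat.gcd_eq_left (by omega)
  obtain ⟨w, hw⟩ := (h3 b).2 (Or.inr (Or.inr dvd_rfl))
  have h12 : N.index = q * a := by
    refine Nat.eq_of_mul_eq_mul_left (show 0 < q + 1 by omega) ?_
    rw [← hc, N.card_mul_index, h4, hc]
    ring
  have h13 : w ∈ N := by
    refine mem_of_pow_mem_of_coprime (N.pow_index_mem w) ?_
    rw [hw, h12]
    refine Nat.Coprime.coprime_dvd_left (Dvd.intro_left d (hb.symm.trans hj)) (Nat.Coprime.pow_left _ ?_)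
    rw [Nat.coprime_two_left, Nat.odd_mul, Nat.odd_iff, Nat.odd_iff]
    rw [hd2] at ha
    omega
  have h14 := Nat.le_of_dvd two_pos (hw ▸ orderOf_dvd_of_pow_eq_one (by rw [pow_two, h10 w h13]))
  rw [hd2] at hb
  omega

end Cfsg.Agent.S3421
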