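import Cfsg.Statements.S3488
import Mathlib
import Cfsg.Agent.Misc.SpecAffL2
import Cfsg.Agent.Misc.SpecPerm

set_option autoImplicit false
open Cfsg

namespace Cfsg.Agent.S3488

open Matrix Misc.Spec

def emb (F : Type*) [Field F] :
    Aff (Matrix.SpecialLinearGroup (Fin 2) F) (Fin 2 → F) →* Matrix.SpecialLinearGroup (Fin 3) F where
  toFun x := KSG.M2.mkSL !![x.right 0 0, x.right 0 1, x.left.toAdd 0; x.right 1 0, x.right 1 1, x.left.toAdd 1;
      0, 0, 1] (by
    have := x.right.det_coe
    rw [det_fin_two] at this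
    simp [det_fin_three]
    linear_combination this)
  map_one' := by
    apply Subtype.ext
    ext i j
    fin_cases i <;> fin_cases j <;> simp
  map_mul' x y := by
    apply Subtype.ext
    ext i j
    fin_cases i <;> fin_cases j <;>
      simp [Matrix.mul_apply, Fin.sum_univ_three, Fin.sum_univ_two, addAct_apply,
        Matrix.SpecialLinearGroup.smul_def, Matrix.mulVec, dotProduct, add_comm]

theorem emb_coe {F : Type*} [Field F] (x : Aff (Matrix.SpecialLinearGroup (Fin 2) F) (Fin 2 → F)) :
    (emb F x : Matrix (Fin 3) (Fin 3) F) = !![x.right 0 0, x.right 0 1, x.left.toAdd 0;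
      x.right 1 0, x.right 1 1, x.left.toAdd 1; 0, 0, 1] := rfl

theorem emb_injective (F : Type*) [Field F] : Function.Injective (emb F) := by
  rw [injective_iff_map_eq_one]
  intro x hx
  have h := fun i j => congrFun (congrFun (congrArg Subtype.val hx) i) j
  have h00 := h 0 0
  have h01 := h 0 1
  have h02 := h 0 2
  have h10 := h 1 0
  have h11 := h 1 1
  have h12 := h 1 2
  simp [emb_coe] at h00 h01 h02 h10 h11 h12
  apply SemidirectProduct.ext
  · apply Multiplicative.toAdd.injective
    funext i
    fin_cases i <;> simp [h02, h12]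
  · apply Subtype.ext
    ext i j
    fin_cases i <;> fin_cases j <;> simp [h00, h01, h10, h11]

theorem emb_range (F : Type*) [Field F] : (emb F).range = Subgroup.closure {M : Matrix.SpecialLinearGroup (Fin 3) F |
        (M : Matrix (Fin 3) (Fin 3) F) 2 0 = 0 ∧ (M : Matrix (Fin 3) (Fin 3) F) 2 1 = 0 ∧ (M : Matrix (Fin 3) (Fin 3) F) 2 2 = 1} := by
  apply le_antisymm
  · rintro _ ⟨x, rfl⟩
    apply Subgroup.subset_closure
    simp [emb_coe]
  · rw [Subgroup.closure_le]
    rintro M ⟨h0, h1, h2⟩
    have hd := M.det_coe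
    rw [det_fin_three, h0, h1, h2] at hd
    refine ⟨⟨Multiplicative.ofAdd ![M 0 2, M 1 2], ⟨!![M 0 0, M 0 1; M 1 0, M 1 1], ?_⟩⟩, ?_⟩
    · rw [det_fin_two_of]; linear_combination hd
    · apply Subtype.ext
      ext i j
      fin_cases i <;> fin_cases j <;> simp [emb_coe, h0, h1, h2]

/-- Let F be the field with four elements. The affine group F² ⋊ SL(2,F), realised as the subgroup of SL(3,F) of matrices with last row (0, 0, 1), has exactly the same set of element orders as the alternating group of degree 6 (namely {1, 2, 3, 4, 5}); so the alternating group of degree 6 is not determined by its element orders. -/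
theorem result {F : Type*} [Field F] [Fintype F] (hF : Fintype.card F = 4) :
    Set.range (orderOf : Subgroup.closure {M : Matrix.SpecialLinearGroup (Fin 3) F |
        (M : Matrix (Fin 3) (Fin 3) F) 2 0 = 0 ∧ (M : Matrix (Fin 3) (Fin 3) F) 2 1 = 0 ∧ (M : Matrix (Fin 3) (Fin 3) F) 2 2 = 1} → ℕ) =
      Set.range (orderOf : alternatingGroup (Fin 6) → ℕ) := by
  haveI : CharP F 2 := by
    obtain ⟨p, hp⟩ := CharP.exists F
    obtain ⟨n, hp', hn⟩ := FiniteField.card F p
    have : p ∣ 2 ^ 2 := by rw [show 2 ^ 2 = 4 by rfl, ← hF, hn]; exact dvd_pow_self _ n.ne_zero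
    rwa [(Nat.prime_dvd_prime_iff_eq hp' Nat.prime_two).1 (hp'.dvd_of_dvd_pow this)] at hp
  rw [← emb_range, ← range_orderOf_congr (MonoidHom.ofInjective (emb_injective F)),
    range_orderOf_alt6]
  ext n
  rw [mem_range_orderOf_aff_SL2, Nat.card_eq_fintype_card, hF]
  constructor
  · rintro (h | h | h) <;> have := Nat.le_of_dvd (by norm_num) h <;> norm_num at this <;>
      interval_cases n <;> simp_all
  · intro h
    simp only [Set.mem_setOf_eq, List.mem_cons, List.not_mem_nil, or_false] at h
    rcases h with rfl | rfl | rfl | rfl | rfl <;> norm_num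

end Cfsg.Agent.S3488
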