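import Cfsg.Statements.S3493
import Cfsg.Agent.Perm.Onl
import Cfsg.Agent.S0205

set_option autoImplicit false
open Cfsg

namespace Cfsg.Agent.S3493

open Cfsg.Agent.Perm Cfsg.Agent.Perm.Onl

section
open MulAction
variable {G : Type*} [Group G] {Ω : Type*} [MulAction G Ω]

theorem between {H : Subgroup G} {ω : Ω} (hp : IsPreprimitive H (orbit H ω)) {B : Subgroup G}
    (h1 : H ⊓ stabilizer G ω ≤ B) : H ⊓ B ≤ stabilizer G ω ∨ H ≤ B := by
  rcases PrimUtil.eq_or_eq_top_of_stabilizer_le hp (α := ⟨ω, mem_orbit_self ω⟩)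
    (H := B.subgroupOf H) (fun h hh => h1 ⟨h.2, congrArg Subtype.val hh⟩) with h | h
  · left
    intro x hx
    have : (⟨x, hx.1⟩ : H) ∈ B.subgroupOf H := hx.2
    rw [h] at this
    exact congrArg Subtype.val this
  · exact Or.inr (Subgroup.subgroupOf_eq_top.1 h)

theorem mem_norm {E : Subgroup G} {x : G} (h1 : ∀ e ∈ E, x * e * x⁻¹ ∈ E)
    (h2 : ∀ e ∈ E, x⁻¹ * e * x⁻¹⁻¹ ∈ E) : x ∈ Subgroup.normalizer (E : Set G) := by
  rw [Subgroup.mem_normalizer_iff]
  refine fun e => ⟨h1 e, fun he => ?_⟩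
  have := h2 _ he
  simpa [mul_assoc] using this

theorem diag [Finite G] [FaithfulSMul G Ω] {N S : Subgroup G} (hS : Fac N S)
    (htr : IsPretransitive N Ω) {α : Ω}
    (hbt : ∀ (ω : Ω) (B : Subgroup G), stabilizer G α ⊓ stabilizer G ω ≤ B →
      stabilizer G α ⊓ B ≤ stabilizer G ω ∨ stabilizer G α ≤ B)
    {L : Subgroup G} (hL : L.Normal) (hLS : L ≤ ext S S le_rfl)
    (hp : proj S (L ⊓ stabilizer G α) = S) : False := by
  have hsr : ∀ s ∈ S, ∀ ω : Ω, s • ω = ω → s = 1 := fun s hs ω hω =>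
    hS.semireg_of_proj htr inf_le_right hp hs hω
  have hnS : ∀ d ∈ L, ∀ s ∈ S, d * s * d⁻¹ ∈ S := by
    intro d hd s hs
    obtain ⟨a, ha, c, hc, rfl⟩ := hLS hd
    have : a * c * s * (a * c)⁻¹ = a * s * a⁻¹ := by
      calc a * c * s * (a * c)⁻¹ = a * (c * s) * c⁻¹ * a⁻¹ := by group
        _ = _ := by rw [(hc s hs).eq]; group
    rw [this]; exact S.mul_mem (S.mul_mem ha hs) (S.inv_mem ha)
  have no_inv : ∀ s ∈ S, ∀ t ∈ S, t * s * t⁻¹ = s⁻¹ → s = s⁻¹ := by
    intro s hs t ht hts
    by_contra hne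
    set D := L ⊓ stabilizer G α with hD
    set E := D ⊓ Subgroup.centralizer {s} with hE
    have hDn : ∀ q ∈ stabilizer G α, ∀ d ∈ D, q * d * q⁻¹ ∈ D := fun q hq d hd =>
      ⟨hL.conj_mem d hd.1 q, (stabilizer G α).mul_mem ((stabilizer G α).mul_mem hq hd.2)
        ((stabilizer G α).inv_mem hq)⟩
    have hA : ∀ a ∈ stabilizer G α ⊓ stabilizer G (s • α), ∀ e ∈ E, a * e * a⁻¹ ∈ E := by
      intro a ha e he
      have h1 := hDn a ha.1 e he.1
      refine ⟨h1, ?_⟩
      have he' : e • s • α = s • α := by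
        rw [← mul_smul, Subgroup.mem_centralizer_singleton_iff.1 he.2, mul_smul, he.1.2]
      have h2 : (a * e * a⁻¹) • s • α = s • α :=
        (stabilizer G (s • α)).mul_mem ((stabilizer G _).mul_mem ha.2 he')
          ((stabilizer G _).inv_mem ha.2)
      set d := a * e * a⁻¹
      have h3 := hsr (s⁻¹ * (d * s * d⁻¹)) (S.mul_mem (S.inv_mem hs) (hnS d h1.1 s hs)) α (by
        have : d⁻¹ • α = α := (stabilizer G α).inv_mem h1.2
        rw [mul_smul, mul_smul, mul_smul, this, h2, inv_smul_smul])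
      refine Subgroup.mem_centralizer_singleton_iff.2 ?_
      rw [inv_mul_eq_one] at h3
      calc d * s = d * s * d⁻¹ * d := by group
        _ = s * d := by rw [← h3]
    obtain ⟨-, c, hc, hy⟩ : t ∈ proj S D := hp.symm ▸ ht
    have hys : t * c * s * (t * c)⁻¹ = s⁻¹ := by
      calc t * c * s * (t * c)⁻¹ = t * (c * s) * c⁻¹ * t⁻¹ := by group
        _ = _ := by rw [(hc s hs).eq, ← hts]; group
    set y := t * c
    have hinv : ∀ z ∈ D, z * s * z⁻¹ = s⁻¹ → ∀ e ∈ E, z * e * z⁻¹ ∈ E := by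
      intro z hz hzs e he
      refine ⟨hDn z hz.2 e he.1, ?_⟩
      refine Subgroup.mem_centralizer_singleton_iff.2 ?_
      have h1 := Subgroup.mem_centralizer_singleton_iff.1 he.2
      have h2 : s = z * s⁻¹ * z⁻¹ := by
        calc s = (s⁻¹)⁻¹ := by group
          _ = (z * s * z⁻¹)⁻¹ := by rw [hzs]
          _ = _ := by group
      have h3 : e * s⁻¹ = s⁻¹ * e := by
        calc e * s⁻¹ = s⁻¹ * (s * e) * s⁻¹ := by group
          _ = _ := by rw [← h1]; group
      calc z * e * z⁻¹ * s = z * e * z⁻¹ * (z * s⁻¹ * z⁻¹) := by rw [← h2]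
        _ = z * (e * s⁻¹) * z⁻¹ := by group
        _ = (z * s⁻¹ * z⁻¹) * (z * e * z⁻¹) := by rw [h3]; group
        _ = _ := by rw [← h2]
    rcases hbt (s • α) (Subgroup.normalizer (E : Set G)) (fun a ha =>
      mem_norm (hA a ha) (hA _ (Subgroup.inv_mem _ ha))) with h | h
    · have h1 : y • s • α = s • α := h ⟨hy.2, mem_norm (hinv y hy hys)
        (hinv _ (D.inv_mem hy) (by
          calc y⁻¹ * s * y⁻¹⁻¹ = y⁻¹ * (y * s * y⁻¹)⁻¹ * y := by rw [hys]; group
            _ = s⁻¹ := by group))⟩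
      have h2 : y⁻¹ • α = α := (stabilizer G α).inv_mem hy.2
      have h3 := hsr (s⁻¹ * s⁻¹) (S.mul_mem (S.inv_mem hs) (S.inv_mem hs)) α (by
        have h4 : (y * s * y⁻¹) • α = s • α := by rw [mul_smul, mul_smul, h2, h1]
        rw [hys] at h4
        rw [mul_smul, h4, inv_smul_smul])
      exact hne (by simpa using (eq_inv_of_mul_eq_one_left h3).symm)
    · obtain ⟨-, cs, hcs, hds⟩ : s ∈ proj S D := hp.symm ▸ hs
      have hdE : s * cs ∈ E := ⟨hds, Subgroup.mem_centralizer_singleton_iff.2 (by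
        rw [mul_assoc, (hcs s hs).eq])⟩
      have : s = 1 := hS.eq_one_of_conj_comm hs fun a ha => by
        obtain ⟨-, c', hc', hd⟩ : a ∈ proj S D := hp.symm ▸ ha
        have h1 := (Subgroup.mem_normalizer_iff.1 (h hd.2) _).1 hdE
        have h2 := Subgroup.mem_centralizer_singleton_iff.1 h1.2
        have hw := (hc'.mul hcs).mul hc'.inv
        have h3 : a * c' * (s * cs) * (a * c')⁻¹ = a * s * a⁻¹ * (c' * cs * c'⁻¹) := by
          calc a * c' * (s * cs) * (a * c')⁻¹ = a * (c' * s) * cs * c'⁻¹ * a⁻¹ := by group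
            _ = a * s * ((c' * cs * c'⁻¹) * a⁻¹) := by rw [(hc' s hs).eq]; group
            _ = _ := by rw [(hw _ (S.inv_mem ha)).eq]; group
        rw [h3] at h2
        set w := c' * cs * c'⁻¹
        change a * s * a⁻¹ * s = s * (a * s * a⁻¹)
        calc a * s * a⁻¹ * s = a * s * a⁻¹ * (s * w) * w⁻¹ := by group
          _ = a * s * a⁻¹ * w * s * w⁻¹ := by rw [← (hw s hs).eq]; group
          _ = _ := by rw [h2]; group
      exact hne (by rw [this, inv_one])
  have heven : 2 ∣ Nat.card S := by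
    by_contra h
    exact hS.not_isSolvable (S0205.result (Nat.odd_iff.2 (by omega)))
  obtain ⟨t, ht⟩ := exists_prime_orderOf_dvd_card' (p := 2) heven
  have ht2 : (t : G) * t = 1 := by
    have := pow_orderOf_eq_one t
    rw [ht, sq] at this
    exact congrArg Subtype.val this
  have hti : (t : G)⁻¹ = t := inv_eq_of_mul_eq_one_left ht2
  have : (t : G) = 1 := hS.eq_one_of_conj_comm t.2 fun a ha => by
    set u := a * t * a⁻¹ with hu
    have hui : u⁻¹ = u := by rw [hu]; simp [mul_assoc, hti]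
    have := no_inv (u * t) (S.mul_mem (S.mul_mem (S.mul_mem ha t.2) (S.inv_mem ha)) t.2) t t.2 (by
      rw [mul_inv_rev, hui, hti, mul_assoc, mul_assoc, ht2, mul_one])
    rw [mul_inv_rev, hui, hti] at this
    exact this
  have h1 : t = 1 := Subtype.ext this
  rw [h1, orderOf_one] at ht
  exact absurd ht (by norm_num)

theorem prod [Finite G] [FaithfulSMul G Ω] {N S : Subgroup G} (hS : Fac N S)
    (hprim : IsPreprimitive G Ω) (htr : IsPretransitive N Ω) {α : Ω}
    (hbt : ∀ (ω : Ω) (B : Subgroup G), stabilizer G α ⊓ stabilizer G ω ≤ B →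
      stabilizer G α ⊓ B ≤ stabilizer G ω ∨ stabilizer G α ≤ B)
    (hSN : S ≠ N) (hp : proj S (N ⊓ stabilizer G α) ≠ S) : False := by
  have hR := hS.proj_le_stab hprim α hp
  obtain ⟨g, hg⟩ := hS.exists_cj_ne hSN
  obtain ⟨q₀, hq₀, e⟩ := hS.exists_stab_cj htr α g
  rw [← e] at hg
  let Q : Subgroup G :=
    { carrier := {q | cj q S = S}
      one_mem' := cj_one S
      mul_mem' := fun {a b} ha hb => by
        change cj (a * b) S = S
        rw [cj_mul, hb, ha]
      inv_mem' := fun {a} ha => by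
        change cj a⁻¹ S = S
        conv_lhs => rw [← ha]
        rw [← cj_mul, inv_mul_cancel, cj_one] }
  -- the normaliser of `S` in `G_α` fixes `S α` pointwise
  have hfix : ∀ q ∈ stabilizer G α, cj q S = S → ∀ s ∈ S, q • s • α = s • α := by
    intro q hq hqS s hs
    by_cases hsα : s • α = α
    · rw [hsα]; exact hq
    rcases hbt (s • α) Q (fun a ha => by
      by_contra hc
      have hu := hS.cm_of_ne (hS.conj a) hc (conj_mem_cj hs)
      refine hsα (hR ⟨hs, _, hu.inv, N.mul_mem (hS.le hs) (N.inv_mem ((hS.conj a).le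
        (conj_mem_cj hs))), ?_⟩)
      change (s * (a * s * a⁻¹)⁻¹) • α = α
      rw [← (hu.inv s hs).eq, mul_smul, inv_smul_eq_iff, mul_smul, mul_smul,
        (show a⁻¹ • α = α from (stabilizer G α).inv_mem ha.1)]
      exact ha.2.symm) with h | h
    · exact h ⟨hq, hqS⟩
    · exact absurd (h hq₀) hg
  have h1 : ∀ s ∈ S, s • α = α → s = 1 := by
    rcases hS.normal_eq (K := S ⊓ stabilizer G α) inf_le_left (fun a ha k hk =>
      ⟨S.mul_mem (S.mul_mem ha hk.1) (S.inv_mem ha), by
        change (a * k * a⁻¹) • α = α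
        rw [mul_smul, mul_smul, hfix k hk.2 (hS.cj_eq (hS.le hk.1)) _ (S.inv_mem ha),
          smul_inv_smul]⟩) with h | h
    · intro s hs hsα
      have : s ∈ S ⊓ stabilizer G α := ⟨hs, hsα⟩
      rwa [h, Subgroup.mem_bot] at this
    · exact absurd (inf_eq_left.1 h) (hS.not_le_stab htr α)
  obtain ⟨s, hs, t, ht, hst⟩ := hS.exists_not_comm
  have h2 := hS.le_stab hprim α (R := Subgroup.zpowers s) (by simpa using hs)
    (fun h => hst (by
      rw [← h] at ht
      obtain ⟨k, rfl⟩ := ht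
      exact Commute.self_zpow s k))
    (fun r hr => by rw [h1 r hr.1 (hR hr)]; exact one_mem _)
    (fun q hq hqS r hr => by
      have hrS : r ∈ S := (Subgroup.zpowers_le.2 hs) hr
      have := h1 (r⁻¹ * (q * r * q⁻¹)) (S.mul_mem (S.inv_mem hrS) (hqS ▸ conj_mem_cj hrS)) (by
        rw [mul_smul, mul_smul, mul_smul,
          (show q⁻¹ • α = α from (stabilizer G α).inv_mem hq), hfix q hq hqS r hrS, inv_smul_smul])
      rw [inv_mul_eq_one] at this
      rw [← this]; exact hr)
  rw [h1 s hs (h2 (Subgroup.mem_zpowers s))] at hst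
  exact hst (Commute.one_left t)

end

open Cfsg.Agent.Perm Cfsg.Agent.Perm.Onl

/-- An extremely primitive permutation group is of affine type or almost simple. Let a finite group G act faithfully and primitively on a finite set Ω with at least two points, in such a way that every point stabilizer acts primitively on each of its own orbits in Ω (an orbit of size one counts as primitive). Then either G has a non-trivial abelian normal subgroup whose elements other than the identity fix no point (affine type), or G has a non-abelian simple normal subgroup with trivial centralizer (almost simple). -/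
theorem result {G : Type*} [Group G] [Finite G] {Ω : Type*} [Fintype Ω] [MulAction G Ω] [FaithfulSMul G Ω] (hΩ : 2 ≤ Fintype.card Ω) (hprim : MulAction.IsPreprimitive G Ω) (hep : ∀ (α : Ω) (ω : Ω), MulAction.IsPreprimitive (MulAction.stabilizer G α) (MulAction.orbit (MulAction.stabilizer G α) ω)) :
    (∃ N : Subgroup G, N.Normal ∧ N ≠ ⊥ ∧ IsMulCommutative N ∧ ∀ ω : Ω, MulAction.stabilizer N ω = ⊥) ∨ (∃ T : Subgroup G, T.Normal ∧ IsSimpleGroup T ∧ ¬ IsMulCommutative T ∧ Subgroup.centralizer (T : Set G) = ⊥) := by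
  have : Nontrivial Ω := Fintype.one_lt_card_iff_nontrivial.1 hΩ
  obtain ⟨α⟩ : Nonempty Ω := inferInstance
  rcases exists_setup hprim with ⟨N, hn, hN, hc, htr, hmin, hst⟩ | h | ⟨N, S, hS, htr, hC⟩
  · exact Or.inl ⟨N, hn, hN, hc, hst⟩
  · exact Or.inr h
  exfalso
  have hbt := fun ω B => between (hep α ω) (B := B)
  have := hS.normal
  by_cases hp : proj S ((N ⊔ Subgroup.centralizer (N : Set G)) ⊓ MulAction.stabilizer G α) = S
  · refine diag hS htr (fun ω B => hbt ω B) (L := N ⊔ Subgroup.centralizer (N : Set G))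
      inferInstance (sup_le ?_ ?_) hp
    · intro n hn
      obtain ⟨s, hs, c, -, hc, e⟩ := hS.decomp hn
      exact ⟨s, hs, c, hc, e⟩
    · intro c hc
      exact ⟨1, one_mem _, c, fun t ht => cm_iff.2 hc t (hS.le ht), by simp⟩
  · have hSN : S ≠ N := by
      intro h1
      refine hp (le_antisymm (proj_le _ _) fun s hs => ?_)
      obtain ⟨c, hc⟩ := (hC h1).exists_smul_eq α (s⁻¹ • α)
      refine ⟨hs, c, fun t ht => cm_iff.2 c.2 t (hS.le ht),
        Subgroup.mul_mem_sup (hS.le hs) c.2, ?_⟩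
      change (s * c) • α = α
      rw [mul_smul]
      change s • (c • α) = α
      rw [hc, smul_inv_smul]
    refine prod hS hprim htr (fun ω B => hbt ω B) hSN fun h1 => hp (le_antisymm (proj_le _ _) ?_)
    exact h1.ge.trans (proj_mono S (inf_le_inf_right _ le_sup_left))


end Cfsg.Agent.S3493
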