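import Cfsg.Statements.S3495
import Mathlib
import Cfsg.Agent.Perm.ExtPrim
import Cfsg.Agent.Grp.CardProduct

set_option autoImplicit false
open Cfsg

namespace Cfsg.Agent.S3495

/-- Let a finite group G act faithfully and primitively on a finite set Ω with non-trivial point stabilizers, each acting primitively on every one of its orbits (an extremely primitive group), and suppose G has an elementary abelian normal p-subgroup N acting regularly on Ω (affine type). Then every non-trivial subgroup M of a point stabilizer G_α that is normal in G_α has the same orbits on Ω as G_α, and normalizes no subgroup of N other than 1 and N. -/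
theorem result {G : Type*} [Group G] [Finite G] {Ω : Type*} [Fintype Ω] [MulAction G Ω] [FaithfulSMul G Ω] (hprim : MulAction.IsPreprimitive G Ω) (hH : ∀ α : Ω, MulAction.stabilizer G α ≠ ⊥) (hep : ∀ (α : Ω) (ω : Ω), MulAction.IsPreprimitive (MulAction.stabilizer G α) (MulAction.orbit (MulAction.stabilizer G α) ω))
    (N : Subgroup G) [N.Normal] (hNc : IsMulCommutative N) (p : ℕ) (hp : p.Prime) (hNp : ∀ n ∈ N, n ^ p = 1)
    (hNtr : MulAction.IsPretransitive N Ω) (hNreg : ∀ ω : Ω, MulAction.stabilizer N ω = ⊥) (α : Ω) (M : Subgroup G) (hM : M ≠ ⊥) (hMle : M ≤ MulAction.stabilizer G α)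
    (hMn : MulAction.stabilizer G α ≤ Subgroup.normalizer (M : Set G)) :
    (∀ ω : Ω, MulAction.orbit M ω = MulAction.orbit (MulAction.stabilizer G α) ω) ∧
    (∀ L : Subgroup G, L ≤ N → M ≤ Subgroup.normalizer (L : Set G) → L = ⊥ ∨ L = N) := by
  have h1 := fun ω h hh => Perm.ExtPrim.exists_smul_eq hprim hep hM hMle hMn ω (h := h) hh
  have hreg : ∀ n ∈ N, n • α = α → n = 1 := by
    intro n hn h
    have : (⟨n, hn⟩ : N) ∈ MulAction.stabilizer N α := h
    rw [hNreg] at this
    exact congrArg Subtype.val (Subgroup.mem_bot.1 this)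
  have hreg2 : ∀ a ∈ N, ∀ b ∈ N, a • α = b • α → a = b := by
    intro a ha b hb h
    have := hreg (b⁻¹ * a) (N.mul_mem (N.inv_mem hb) ha) (by rw [mul_smul, h, inv_smul_smul])
    exact (inv_mul_eq_one.1 this).symm
  refine ⟨fun ω => ?_, fun L hL hML => ?_⟩
  · ext x
    rw [Perm.PrimUtil.mem_orbit_subgroup_iff, Perm.PrimUtil.mem_orbit_subgroup_iff]
    constructor
    · rintro ⟨h, hh, rfl⟩
      exact ⟨h, hMle hh, rfl⟩
    · rintro ⟨h, hh, rfl⟩
      exact h1 ω h hh
  · have key : ∀ h ∈ MulAction.stabilizer G α, ∀ l ∈ L, h * l * h⁻¹ ∈ L := by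
      intro h hh l hl
      obtain ⟨k, hk, e⟩ := h1 (l • α) h hh
      have h2 : k * l * k⁻¹ ∈ L := (Subgroup.mem_normalizer_iff.1 (hML hk) l).1 hl
      have h3 : h * l * h⁻¹ = k * l * k⁻¹ := by
        apply hreg2 _ (Subgroup.Normal.conj_mem inferInstance l (hL hl) h) _ (hL h2)
        have a1 : h⁻¹ • α = α := inv_mem hh
        have a2 : k⁻¹ • α = α := inv_mem (hMle hk)
        rw [mul_smul, mul_smul, mul_smul, mul_smul, a1, a2, e]
      rwa [h3]
    have hn : MulAction.stabilizer G α ≤ Subgroup.normalizer (L : Set G) := by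
      intro a ha
      rw [Subgroup.mem_normalizer_iff]
      intro m
      exact ⟨key a ha m, fun hm => by simpa [mul_assoc] using key a⁻¹ (inv_mem ha) _ hm⟩
    rcases Perm.PrimUtil.eq_or_eq_top_of_stabilizer_le hprim
      (le_sup_right : MulAction.stabilizer G α ≤ L ⊔ MulAction.stabilizer G α) with h | h
    · left
      rw [eq_bot_iff]
      intro l hl
      have : l ∈ MulAction.stabilizer G α := h ▸ Subgroup.mem_sup_left hl
      exact hreg l (hL hl) this
    · right
      refine le_antisymm hL fun n hn' => ?_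
      obtain ⟨a, ha, b, hb, e⟩ := (Grp.mem_sup_of_le_normalizer' hn).1 (h ▸ Subgroup.mem_top n)
      have : n = a := hreg2 n hn' a (hL ha) (by rw [← e, mul_smul, show b • α = α from hb])
      rwa [this]

end Cfsg.Agent.S3495
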