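import Cfsg.Statements.S3496
import Mathlib
import Cfsg.Agent.Perm.Huppert
import Cfsg.Agent.Perm.ExtPrimAb
import Cfsg.Agent.PLocal.ElemAb
import Cfsg.Agent.Grp.Fitting
import Cfsg.Agent.Grp.Card
import Cfsg.Agent.Grp.MinNormal
import Cfsg.Agent.S0547
import Cfsg.Agent.S0548
import Cfsg.Agent.S3495

set_option autoImplicit false
open Cfsg

namespace Cfsg.Agent.S3496

open MulAction Module Cfsg.Agent.Perm

section lin
variable {p : ℕ} [Fact p.Prime] {V : Type*} [AddCommGroup V] [Module (ZMod p) V] [Finite V]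
  {H : Type*} [Group H] [Finite H]

theorem not_dvd_of_irr (ρ : H →* End (ZMod p) V) (A : Subgroup H)
    (hc : ∀ a ∈ A, ∀ b ∈ A, a * b = b * a) {q : ℕ} (hq : ∀ a ∈ A, a ^ q = 1)
    (hirr : ∀ W : Submodule (ZMod p) V, (∀ a ∈ A, ∀ v ∈ W, ρ a v ∈ W) → W = ⊥ ∨ W = ⊤)
    {d : ℕ} (hd : 0 < d) (hn : Nat.card V = p ^ d) {i : ℕ} (hi0 : 0 < i) (hid : i < d) :
    ¬ q ∣ p ^ i - 1 := by
  intro hdvd
  have hp : p.Prime := Fact.out
  have := SemiLin.nontrivial_of_card hd hn
  obtain ⟨v₀, hv₀⟩ := exists_ne (0 : V)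
  have hcomm : ∀ a ∈ ρ '' A, ∀ b ∈ ρ '' A, a * b = b * a := by
    rintro _ ⟨a, ha, rfl⟩ _ ⟨b, hb, rfl⟩
    rw [← map_mul, hc a ha b hb, map_mul]
  obtain ⟨f, hf1, hf⟩ := SemiLin.exists_field_structure (ρ '' A) hcomm
    (fun W hW => hirr W fun a ha v hv => hW _ ⟨a, ha, rfl⟩ v hv) hv₀ hn
  have hsc : ∀ a ∈ A, ∀ v, f (ρ a v) = f (ρ a v₀) * f v := fun a ha =>
    hf _ fun s hs => hcomm _ ⟨a, ha, rfl⟩ s hs
  have hpow : ∀ a ∈ A, ∀ k : ℕ, f (ρ (a ^ k) v₀) = f (ρ a v₀) ^ k := by
    intro a ha k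
    induction k with
    | zero => rw [pow_zero, map_one, pow_zero, End.one_apply, hf1]
    | succ k ih => rw [pow_succ', map_mul, End.mul_apply, hsc a ha, ih, pow_succ']
  have hfix : ∀ a ∈ A, f (ρ a v₀) ^ p ^ i = f (ρ a v₀) := by
    intro a ha
    obtain ⟨c, hc⟩ := hdvd
    have h1 : p ^ i = q * c + 1 := by
      have := pow_pos hp.pos i
      omega
    rw [← hpow a ha, h1, pow_succ, pow_mul, hq a ha, one_pow, one_mul]
  let W : Submodule (ZMod p) V :=
    { carrier := {v | f v ^ p ^ i = f v}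
      add_mem' := fun {a b} ha hb => by
        change f (a + b) ^ p ^ i = f (a + b)
        rw [map_add, add_pow_char_pow, ha, hb]
      zero_mem' := by
        change f 0 ^ p ^ i = f 0
        rw [map_zero, zero_pow (pow_pos hp.pos i).ne']
      smul_mem' := fun c v hv => by
        change f (c • v) ^ p ^ i = f (c • v)
        rw [map_smul, Algebra.smul_def, mul_pow, ← map_pow, ZMod.pow_card_pow, hv] }
  rcases hirr W (fun a ha v hv => by
    change f (ρ a v) ^ p ^ i = f (ρ a v)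
    rw [hsc a ha, mul_pow, hfix a ha, show f v ^ p ^ i = f v from hv]) with h | h
  · have : v₀ ∈ W := by
      change f v₀ ^ p ^ i = f v₀
      rw [hf1, one_pow]
    rw [h, Submodule.mem_bot] at this
    exact hv₀ this
  · obtain ⟨g, hg⟩ := IsCyclic.exists_ofOrder_eq_natCard (α := (GaloisField p d)ˣ)
    rw [Nat.card_units, GaloisField.card p d hd.ne'] at hg
    have h1 : f.symm g ∈ W := h ▸ Submodule.mem_top
    have h2 : (g : GaloisField p d) ^ p ^ i = g := by
      have : f (f.symm g) ^ p ^ i = f (f.symm g) := h1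
      rwa [f.apply_symm_apply] at this
    have hpi := Nat.one_lt_pow hi0.ne' hp.one_lt
    have h3 : g ^ (p ^ i - 1) = 1 := by
      have h4 : g ^ p ^ i = g := Units.ext (by rw [Units.val_pow_eq_pow_val, h2])
      have h5 : p ^ i = (p ^ i - 1) + 1 := by omega
      rw [h5, pow_succ] at h4
      exact mul_eq_right.mp h4
    have h4 := Nat.le_of_dvd (by omega) (orderOf_dvd_of_pow_eq_one h3)
    have h5 := Nat.pow_lt_pow_right hp.one_lt hid
    omega

theorem exists_cyclic_quot (ρ : H →* End (ZMod p) V) (hρ : Function.Injective ρ) {d : ℕ}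
    (hd : 0 < d) (f : V ≃ₗ[ZMod p] GaloisField p d) (hf : ∀ g : H, ∃ (a : GaloisField p d)
      (σ : GaloisField p d ≃+* GaloisField p d), a ≠ 0 ∧ ∀ v, f (ρ g v) = a * σ (f v)) :
    ∃ (Z : Subgroup H) (h : H), Z.Normal ∧ IsMulCommutative Z ∧ Z.index ∣ d ∧
      Z ⊔ Subgroup.zpowers h = ⊤ := by
  choose a σ ha hσ using hf
  let ψ0 : H → Gal(GaloisField p d/ZMod p) := fun g => AlgEquiv.ofRingEquiv (f := σ g) fun c =>
    RingHom.congr_fun (Subsingleton.elim ((σ g : GaloisField p d →+* GaloisField p d).comp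
      (algebraMap (ZMod p) _)) (algebraMap (ZMod p) _)) c
  have key : ∀ g h y, a (g * h) * σ (g * h) y = a g * σ g (a h) * σ g (σ h y) := by
    intro g h y
    obtain ⟨v, rfl⟩ := f.surjective y
    rw [← hσ, map_mul, End.mul_apply, hσ, hσ, map_mul, mul_assoc]
  let ψ : H →* Gal(GaloisField p d/ZMod p) := MonoidHom.mk' ψ0 fun g h => by
    ext y
    have h1 := key g h 1
    simp only [map_one, mul_one] at h1
    have h2 := key g h y
    rw [← h1] at h2
    exact mul_left_cancel₀ (ha _) h2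
  obtain ⟨⟨_, h, rfl⟩, hh⟩ := IsCyclic.exists_generator (α := ψ.range)
  refine ⟨ψ.ker, h, inferInstance, ⟨⟨fun x y => Subtype.ext (hρ ?_)⟩⟩, ?_, ?_⟩
  · have hx : ∀ z, σ x z = z := fun z => AlgEquiv.congr_fun (MonoidHom.mem_ker.mp x.2) z
    have hy : ∀ z, σ y z = z := fun z => AlgEquiv.congr_fun (MonoidHom.mem_ker.mp y.2) z
    ext v
    apply f.injective
    rw [Subgroup.coe_mul, Subgroup.coe_mul, map_mul, map_mul, End.mul_apply, End.mul_apply, hσ, hσ,
      hσ, hσ, hx, hy, hx, hy, mul_left_comm]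
  · have h1 := Subgroup.card_subgroup_dvd_card ψ.range
    rwa [IsGalois.card_aut_eq_finrank, GaloisField.finrank p hd.ne', ← Subgroup.index_ker] at h1
  · rw [eq_top_iff]
    intro g _
    obtain ⟨k, hk⟩ := hh ⟨ψ g, g, rfl⟩
    have h1 : ψ h ^ k = ψ g := congrArg Subtype.val hk
    have h2 : g * (h ^ k)⁻¹ ∈ ψ.ker := by
      rw [MonoidHom.mem_ker, map_mul, map_inv, map_zpow, h1, mul_inv_cancel]
    rw [← inv_mul_cancel_right g (h ^ k)]
    exact Subgroup.mul_mem_sup h2 ⟨k, rfl⟩

end lin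

/-- The soluble extremely primitive groups. Let a finite solvable group G act faithfully and primitively on a finite set Ω with p ^ d points (p prime), with non-trivial point stabilizers each acting primitively on every one of its orbits. Then there is a prime q such that every orbit of a point stabilizer G_α other than {α} has exactly q points, q divides p ^ d − 1 but no p ^ i − 1 with 0 < i < d, and G_α has a normal subgroup T of order q with G_α generated by T and one further element and the order of G_α dividing q·d (so G_α is cyclic of order q, or an extension of T by a cyclic group of order dividing d). -/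
theorem result {G : Type*} [Group G] [Finite G] {Ω : Type*} [Fintype Ω] [MulAction G Ω] [FaithfulSMul G Ω] [Group.IsSolvable G] (p d : ℕ) (hp : p.Prime) (hcard : Fintype.card Ω = p ^ d)
    (hprim : MulAction.IsPreprimitive G Ω) (hH : ∀ α : Ω, MulAction.stabilizer G α ≠ ⊥) (hep : ∀ (α : Ω) (ω : Ω), MulAction.IsPreprimitive (MulAction.stabilizer G α) (MulAction.orbit (MulAction.stabilizer G α) ω)) (α : Ω) :
    ∃ q : ℕ, q.Prime ∧ (∀ ω : Ω, ω ≠ α → Nat.card (MulAction.orbit (MulAction.stabilizer G α) ω) = q) ∧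
      q ∣ p ^ d - 1 ∧ (∀ i : ℕ, 0 < i → i < d → ¬ q ∣ p ^ i - 1) ∧
      ∃ T : Subgroup G, T ≤ MulAction.stabilizer G α ∧ MulAction.stabilizer G α ≤ Subgroup.normalizer (T : Set G) ∧ Nat.card T = q ∧
        (∃ h : G, MulAction.stabilizer G α = T ⊔ Subgroup.zpowers h) ∧ Nat.card (MulAction.stabilizer G α) ∣ q * d := by
  have hα : Nonempty Ω := ⟨α⟩
  have hnt : Nontrivial (stabilizer G α) := (Subgroup.nontrivial_iff_ne_bot _).mpr (hH α)
  have hntG : Nontrivial G := (stabilizer G α).subtype_injective.nontrivial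
  set V := fittingSubgroup (stabilizer G α) with hVdef
  have hV0 : V ≠ ⊥ := by
    obtain ⟨r, K, hr, hK, hK0, hKc, -⟩ := Grp.exists_minNormal_elementaryAbelian (stabilizer G α)
    intro h
    exact hK0 (le_bot_iff.mp (h ▸ Grp.le_fitting hK (Grp.isNilpotent_of_isMulCommutative K)))
  obtain ⟨q, hq, hVc, hVq⟩ := ExtPrim.fitting_elemAb hprim hep hV0
  obtain ⟨p', M, hp', hMn, hM0, hMc, hMp, hMP, hmin⟩ := Grp.exists_minNormal_elementaryAbelian G
  obtain ⟨hMt, hMr, p'', d', hp'', hd, hc1, hc2⟩ := S0547.result hprim M hM0 hmin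
  obtain ⟨-, hfaith, -⟩ := S0548.result hprim M hM0 hmin α
  have hfp' := Fact.mk hp'
  rw [Nat.card_eq_fintype_card, hcard] at hc1
  obtain rfl : p'' = p := (Nat.prime_dvd_prime_iff_eq hp'' hp).mp
    (hp''.dvd_of_dvd_pow (hc1 ▸ dvd_pow_self _ hd.ne'))
  obtain rfl : d = d' := Nat.pow_right_injective hp.two_le hc1
  obtain rfl : p'' = p' := by
    obtain ⟨k, hk⟩ := hMP.exists_card_eq
    have : p'' ∣ p' ^ k := by rw [← hk, hc2]; exact dvd_pow_self _ hd.ne'
    exact (Nat.prime_dvd_prime_iff_eq hp'' hp').1 (hp''.dvd_of_dvd_pow this)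
  have hE : IsElementaryAbelian p'' M := ⟨hMc, hMp⟩
  have hHN : stabilizer G α ≤ Subgroup.normalizer (M : Set G) := by
    rw [Subgroup.normalizer_eq_top]; exact le_top
  let ρ : stabilizer G α →* Module.End (ZMod p'') (PLocal.EA hE) := PLocal.EA.rep hE _ hHN
  have hρ : Function.Injective ρ := PLocal.EA.rep_injective hHN hfaith
  have hcardE : Nat.card (PLocal.EA hE) = p'' ^ d := by rw [PLocal.EA.card_eq, hc2]
  set T := V.map (stabilizer G α).subtype with hT
  have hT0 : T ≠ ⊥ := by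
    rwa [hT, Ne, Subgroup.map_eq_bot_iff_of_injective _ (stabilizer G α).subtype_injective]
  have hTle : T ≤ stabilizer G α := Subgroup.map_subtype_le _
  have hTn : stabilizer G α ≤ Subgroup.normalizer (T : Set G) := by
    have := Subgroup.le_normalizer_map (H := V) (stabilizer G α).subtype
    rwa [Subgroup.normalizer_eq_top, ← MonoidHom.range_eq_map, Subgroup.range_subtype] at this
  have hirr : ∀ W : Submodule (ZMod p'') (PLocal.EA hE),
      (∀ a ∈ V, ∀ v ∈ W, ρ a v ∈ W) → W = ⊥ ∨ W = ⊤ := by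
    intro W hW
    have h1 := (S3495.result hprim hH hep M hMc p'' hp hMp hMt hMr α T hT0 hTle hTn).2
      (PLocal.EA.grp W) (PLocal.EA.grp_le W) (PLocal.EA.le_normalizer_grp (hTle.trans hHN) (by
        rintro ⟨_, x, hx, rfl⟩ v hv
        exact hW x hx v hv))
    rcases h1 with h1 | h1
    · left
      rw [eq_bot_iff]
      intro v hv
      have h2 : v.val ∈ PLocal.EA.grp W := ⟨v, hv, rfl⟩
      rw [h1, Subgroup.mem_bot, PLocal.EA.val_eq_one_iff] at h2
      exact h2
    · right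
      rw [eq_top_iff]
      intro v _
      obtain ⟨w, hw, hwv⟩ := PLocal.EA.mem_grp.mp (h1.symm ▸ v.val_mem : v.val ∈ PLocal.EA.grp W)
      rwa [← PLocal.EA.val_injective hwv]
  have := SemiLin.nontrivial_of_card hd hcardE
  have hcyc : IsCyclic V := SemiLin.isCyclic_of_irr hρ hVc hirr
  have hVcard : Nat.card V = q := by
    obtain ⟨g, hg⟩ := IsCyclic.exists_ofOrder_eq_natCard (α := V)
    have h1 : Nat.card V ∣ q := hg ▸ orderOf_dvd_of_pow_eq_one (Subtype.ext (hVq g g.2))
    exact ((Nat.dvd_prime hq).mp h1).resolve_left (Subgroup.card_eq_one.not.mpr hV0)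
  obtain ⟨f, hf⟩ := SemiLin.semilinear_of_normal ρ V
    (fun a ha b hb => by rw [← map_mul, hVc a ha b hb, map_mul]) hirr hcardE
  obtain ⟨Z, h, hZn, hZc, hZi, hZh⟩ := exists_cyclic_quot ρ hρ hd f hf
  have hZV : Z ≤ V := Grp.le_fitting hZn (Grp.isNilpotent_of_isMulCommutative Z)
  refine ⟨q, hq, fun ω hω => ?_, ?_, fun i hi0 hid => not_dvd_of_irr ρ V hVc hVq hirr hd hcardE
    hi0 hid, T, hTle, hTn, ?_, ⟨h, ?_⟩, ?_⟩
  · rw [ExtPrim.card_orbit_of_comm hprim hep V hV0 hVc hω, hVcard]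
  · have := ExtPrim.card_dvd_of_comm hprim hep V hV0 hVc
    rwa [hVcard, Nat.card_eq_fintype_card, hcard] at this
  · rw [hT, Subgroup.card_map_of_injective (stabilizer G α).subtype_injective, hVcard]
  · have h1 : V ⊔ Subgroup.zpowers h = ⊤ := eq_top_iff.mpr (hZh.ge.trans (sup_le_sup_right hZV _))
    have h2 := congrArg (Subgroup.map (stabilizer G α).subtype) h1
    rw [Subgroup.map_sup, MonoidHom.map_zpowers, ← MonoidHom.range_eq_map,
      Subgroup.range_subtype] at h2
    exact h2.symm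
  · rw [← Z.card_mul_index]
    exact Nat.mul_dvd_mul (hVcard ▸ Subgroup.card_dvd_of_le hZV) hZi

end Cfsg.Agent.S3496
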