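import Cfsg.Statements.S3497
import Mathlib
import Cfsg.Agent.Perm.ExtPrimAb
import Cfsg.Agent.PLocal.ElemAb

set_option autoImplicit false
open Cfsg

namespace Cfsg.Agent.S3497

/-- Restrictions on the point stabilizer of an extremely primitive group. Let a finite group G act faithfully and primitively on a finite set Ω with point stabilizers H = G_α whose order is neither 1 nor a prime, each acting primitively on every one of its orbits. Then H has trivial center, the Fitting subgroup F(H) is an elementary abelian p-group for some prime p, and if F(H) ≠ 1 has order p ^ e then p ^ e divides the number of points minus one and H / F(H) embeds in GL_e(p) (there is a homomorphism from H to GL_e(p) with kernel exactly F(H)). -/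
theorem result {G : Type*} [Group G] [Finite G] {Ω : Type*} [Fintype Ω] [MulAction G Ω] [FaithfulSMul G Ω] (hprim : MulAction.IsPreprimitive G Ω) (hep : ∀ (α : Ω) (ω : Ω), MulAction.IsPreprimitive (MulAction.stabilizer G α) (MulAction.orbit (MulAction.stabilizer G α) ω)) (α : Ω)
    (hH1 : MulAction.stabilizer G α ≠ ⊥) (hHp : ¬ (Nat.card (MulAction.stabilizer G α)).Prime) :
    Subgroup.center (MulAction.stabilizer G α) = ⊥ ∧
    IsMulCommutative (Cfsg.fittingSubgroup (MulAction.stabilizer G α)) ∧
    ∃ p e : ℕ, p.Prime ∧ Nat.card (Cfsg.fittingSubgroup (MulAction.stabilizer G α)) = p ^ e ∧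
      (∀ x ∈ Cfsg.fittingSubgroup (MulAction.stabilizer G α), x ^ p = 1) ∧
      (Cfsg.fittingSubgroup (MulAction.stabilizer G α) ≠ ⊥ →
        p ^ e ∣ Fintype.card Ω - 1 ∧
        ∃ φ : MulAction.stabilizer G α →* GL (Fin e) (ZMod p), φ.ker = Cfsg.fittingSubgroup (MulAction.stabilizer G α)) := by
  classical
  have hZ : Subgroup.center (MulAction.stabilizer G α) = ⊥ := by
    by_contra hZ
    obtain ⟨z, hz, hz1⟩ := (Subgroup.bot_or_exists_ne_one _).resolve_left hZ
    obtain ⟨p, hp, hpd⟩ := Nat.exists_prime_and_dvd (n := orderOf z) (by rwa [Ne, orderOf_eq_one_iff])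
    set y := z ^ (orderOf z / p) with hy
    have hyo : orderOf y = p := by
      rw [hy, orderOf_pow_orderOf_div (orderOf_pos z).ne' hpd]
    have hyZ : y ∈ Subgroup.center (MulAction.stabilizer G α) := Subgroup.pow_mem _ hz _
    have hle : Subgroup.zpowers y ≤ Subgroup.center (MulAction.stabilizer G α) := by
      rwa [Subgroup.zpowers_le]
    haveI : (Subgroup.zpowers y).Normal := ⟨fun n hn g => by
      rwa [Subgroup.mem_center_iff.1 (hle hn) g, mul_inv_cancel_right]⟩
    have hne : Subgroup.zpowers y ≠ ⊥ := by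
      rw [Ne, Subgroup.zpowers_eq_bot]
      intro h
      rw [h, orderOf_one] at hyo
      exact hp.one_lt.ne hyo
    have htop : Subgroup.zpowers y = ⊤ := by
      rw [eq_top_iff]
      intro c _
      exact Perm.ExtPrim.centralizer_le_of_comm hprim hep _ hne
        (fun v _ w hw => Subgroup.mem_center_iff.1 (hle hw) v)
        (fun v hv => Subgroup.mem_center_iff.1 (hle hv) c)
    apply hHp
    rw [← Subgroup.card_top, ← htop, Nat.card_zpowers, hyo]
    exact hp
  refine ⟨hZ, ?_⟩
  by_cases hF : Cfsg.fittingSubgroup (MulAction.stabilizer G α) = ⊥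
  · refine ⟨by rw [hF]; infer_instance, 2, 0, Nat.prime_two, by rw [hF]; simp, ?_, fun h => absurd hF h⟩
    intro x hx
    rw [hF, Subgroup.mem_bot] at hx
    simp [hx]
  obtain ⟨p, hp, hc, hpw⟩ := Perm.ExtPrim.fitting_elemAb hprim hep hF
  have hcm : IsMulCommutative (Cfsg.fittingSubgroup (MulAction.stabilizer G α)) :=
    ⟨⟨fun a b => Subtype.ext (hc _ a.2 _ b.2)⟩⟩
  have hV : IsElementaryAbelian p (Cfsg.fittingSubgroup (MulAction.stabilizer G α)) := ⟨hcm, hpw⟩
  haveI := Fact.mk hp
  have hcard := PLocal.EA.card_eq_pow_finrank (hV := hV)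
  refine ⟨hcm, p, _, hp, hcard, hpw, fun _ => ⟨?_, ?_⟩⟩
  · rw [← hcard, ← Nat.card_eq_fintype_card]
    exact Perm.ExtPrim.card_dvd_of_comm hprim hep _ hF hc
  · have hn : (⊤ : Subgroup (MulAction.stabilizer G α)) ≤
        Subgroup.normalizer (Cfsg.fittingSubgroup (MulAction.stabilizer G α) : Set (MulAction.stabilizer G α)) := by
      rw [Subgroup.normalizer_eq_top]
    let ρ := PLocal.EA.rep hV ⊤ hn
    let b := Module.finBasis (ZMod p) (PLocal.EA hV)
    let ψ : MulAction.stabilizer G α →* Matrix (Fin (Module.finrank (ZMod p) (PLocal.EA hV)))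
        (Fin (Module.finrank (ZMod p) (PLocal.EA hV))) (ZMod p) :=
      ((LinearMap.toMatrixAlgEquiv b).toMonoidHom.comp ρ).comp Subgroup.topEquiv.symm.toMonoidHom
    refine ⟨ψ.toHomUnits, ?_⟩
    ext h
    rw [MonoidHom.mem_ker, ← Units.val_eq_one, MonoidHom.coe_toHomUnits]
    have : ψ h = 1 ↔ ρ ⟨h, trivial⟩ = 1 := by
      change LinearMap.toMatrixAlgEquiv b (ρ ⟨h, trivial⟩) = 1 ↔ _
      exact map_eq_one_iff _ (LinearMap.toMatrixAlgEquiv b).injective
    rw [this, PLocal.EA.rep_eq_one_iff, Subgroup.mem_centralizer_iff]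
    constructor
    · intro hh
      exact Perm.ExtPrim.centralizer_le_of_comm hprim hep _ hF hc fun v hv => (hh v hv).symm
    · intro hh v hv
      exact hc _ hv _ hh

end Cfsg.Agent.S3497
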