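import Cfsg.Statements.S3498
import Mathlib


set_option autoImplicit false
open Cfsg

namespace Cfsg.Agent.S3498

/-- A maximal subgroup of a finite almost simple group does not have prime order. Here G is almost simple in the sense that it has a non-abelian simple normal subgroup T with trivial centralizer. -/
theorem result {G : Type*} [Group G] [Finite G] (T : Subgroup G) [T.Normal] (hT : IsSimpleGroup T) (hTc : ¬ IsMulCommutative T)
    (hC : Subgroup.centralizer (T : Set G) = ⊥) (H : Subgroup G) (hmax : IsCoatom H) : ¬ (Nat.card H).Prime := by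
  intro hp
  have := Fact.mk hp
  have hns : ¬ Group.IsSolvable T := fun h => hTc (IsSimpleGroup.comm_iff_isSolvable.2 h |> fun h' => ⟨⟨h'⟩⟩)
  have hle : ∀ M : Subgroup G, M.Normal → M ≠ ⊥ → T ≤ M := by
    intro M hM hM1
    rcases hT.eq_bot_or_eq_top_of_normal (M.subgroupOf T) inferInstance with h | h
    · exfalso
      apply hM1
      rw [eq_bot_iff, ← hC]
      have hd : Disjoint M T := Subgroup.subgroupOf_eq_bot.1 h
      intro m hm t ht
      exact (Subgroup.commute_of_normal_of_disjoint M T hM inferInstance hd m t hm ht).eq.symm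
    · exact Subgroup.subgroupOf_eq_top.1 h
  have hpg : ∀ (q : ℕ) [Fact q.Prime] (M : Subgroup G), M.Normal → IsPGroup q M → M = ⊥ := by
    intro q _ M hM hq
    by_contra h1
    have := (hq.to_le (hle M hM h1)).isNilpotent
    exact hns inferInstance
  have hHp : IsPGroup (Nat.card H) H := IsPGroup.of_card (n := 1) (by simp)
  have hH1 : H ≠ ⊥ := by
    intro h; rw [h] at hp; simp at hp; exact Nat.not_prime_one hp
  have hNH : Subgroup.normalizer (H : Set G) = H := by
    rcases (Subgroup.le_normalizer (H := H)).eq_or_lt with h | h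
    · exact h.symm
    · exact absurd (hpg _ H (Subgroup.normalizer_eq_top_iff.1 (hmax.2 _ h)) hHp) hH1
  obtain ⟨P, hP⟩ := hHp.exists_le_sylow
  have hPH : (P : Subgroup G) = H := by
    rcases hP.eq_or_lt with h | h
    · exact h.symm
    · have h2 := hpg _ P (by rw [hmax.2 _ h]; infer_instance) P.isPGroup'
      exact absurd (eq_bot_iff.2 (h2 ▸ hP)) hH1
  have hcyc : IsCyclic H := isCyclic_of_prime_card rfl
  have hNC : Subgroup.normalizer ((P : Subgroup G) : Set G) ≤
      Subgroup.centralizer ((P : Subgroup G) : Set G) := by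
    rw [hPH, hNH, Subgroup.le_centralizer_iff_isMulCommutative]
    exact hcyc.isMulCommutative
  have hcompl := MonoidHom.ker_transferSylow_isComplement' P hNC
  set K := (MonoidHom.transferSylow P hNC).ker with hK
  have hK1 : K ≠ ⊥ := by
    intro h
    apply hmax.1
    rw [← hPH, ← hcompl.sup_eq_top, h, bot_sup_eq]
  have hcK : Nat.card K ≠ 1 := by rwa [Ne, Subgroup.card_eq_one]
  obtain ⟨q, hq, hqK⟩ := Nat.exists_prime_and_dvd hcK
  have := Fact.mk hq
  obtain ⟨Q⟩ : Nonempty (Sylow q K) := inferInstance
  have hQ1 : (Q : Subgroup K).map K.subtype ≠ ⊥ := by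
    rw [Ne, Subgroup.map_eq_bot_iff_of_injective _ K.subtype_injective]
    exact Q.ne_bot_of_dvd_card hqK
  have hfr := Sylow.normalizer_sup_eq_top Q
  set N := Subgroup.normalizer (((Q : Subgroup K).map K.subtype : Subgroup G) : Set G) with hN
  have hidx : N.index ∣ Nat.card K := by
    rw [← Subgroup.relIndex_top_right, ← hfr]
    have h1 : N.relIndex (N ⊔ K) = N.relIndex K := by
      have h2 := Subgroup.card_mul_index (N.subgroupOf K)
      have h3 := Subgroup.relIndex_sup_right N K
      have h4 := Subgroup.relIndex_inf_mul_relIndex N K (N ⊔ K)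
      have h5 := Subgroup.relIndex_inf_mul_relIndex K N (N ⊔ K)
      rw [inf_eq_left.2 (le_sup_right : K ≤ N ⊔ K)] at h4
      rw [inf_eq_left.2 (le_sup_left : N ≤ N ⊔ K), inf_comm K N, ← h4, h3, mul_comm] at h5
      exact Nat.eq_of_mul_eq_mul_right (Nat.pos_of_ne_zero Subgroup.index_ne_zero_of_finite) h5
    rw [h1]
    exact Subgroup.relIndex_dvd_card N K
  have hnd : ¬ Nat.card H ∣ N.index := by
    intro h
    have h1 := h.trans hidx
    rw [← hcompl.index_eq_card] at h1
    exact P.not_dvd_index h1
  obtain ⟨R⟩ : Nonempty (Sylow (Nat.card H) N) := inferInstance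
  obtain ⟨R', hR'⟩ := (R.isPGroup'.map N.subtype).exists_le_sylow
  have hRR : (R : Subgroup N).map N.subtype = R' := by
    refine Subgroup.eq_of_le_of_card_ge hR' ?_
    rw [Subgroup.card_map_of_injective N.subtype_injective, Sylow.card_eq_multiplicity,
      Sylow.card_eq_multiplicity, ← N.card_mul_index,
      Nat.factorization_mul Nat.card_pos.ne' Subgroup.index_ne_zero_of_finite, Finsupp.add_apply,
      Nat.factorization_eq_zero_of_not_dvd hnd, add_zero]
  have hR'N : (R' : Subgroup G) ≤ N := hRR ▸ Subgroup.map_subtype_le _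
  obtain ⟨g, hg⟩ := MulAction.exists_smul_eq G P R'
  have hco : IsCoatom (R' : Subgroup G) := by
    rw [← hg, Sylow.coe_subgroup_smul, hPH]
    exact (OrderIso.isCoatom_iff (MulAut.conj g).mapSubgroup H).2 hmax
  have hQp : IsPGroup q ((Q : Subgroup K).map K.subtype) := Q.isPGroup'.map _
  rcases hR'N.eq_or_lt with h | h
  · have h1 : (Q : Subgroup K).map K.subtype ≤ R' := h ▸ Subgroup.le_normalizer
    have hqp : q ≠ Nat.card H := by
      rintro rfl
      rw [← hcompl.index_eq_card] at hqK
      exact P.not_dvd_index hqK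
    have := IsPGroup.disjoint_of_ne q (Nat.card H) hqp _ _ hQp R'.isPGroup'
    exact hQ1 (this.eq_bot_of_le h1)
  · exact hQ1 (hpg q _ (Subgroup.normalizer_eq_top_iff.1 (hco.2 _ h)) hQp)

end Cfsg.Agent.S3498
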