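import Cfsg.Statements.S3504
import Mathlib


set_option autoImplicit false
open Cfsg

namespace Cfsg.Agent.S3504

/-- For n ≥ 5, the fixed-point-free permutations of prime order in the symmetric group of degree n form a single conjugacy class if and only if n is a prime power. -/
theorem result (n : ℕ) (hn : 5 ≤ n) :
    Nat.card {c : ConjClasses (Equiv.Perm (Fin n)) // ∃ g : Equiv.Perm (Fin n), ConjClasses.mk g = c ∧ (orderOf g).Prime ∧ ∀ i : Fin n, g i ≠ i} = 1 ↔ IsPrimePow n := by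
  have hn0 : n ≠ 0 := by omega
  have h1 : ∀ g : Equiv.Perm (Fin n), (orderOf g).Prime → (∀ i, g i ≠ i) →
      orderOf g ∣ n ∧ g.cycleType = Multiset.replicate (n / orderOf g) (orderOf g) := by
    intro g hg hfix
    obtain ⟨k, hk⟩ := Equiv.Perm.cycleType_prime_order hg
    have hs := Equiv.Perm.sum_cycleType g
    have hsupp : g.support = Finset.univ := by
      ext i; simp [hfix i]
    rw [hsupp, hk] at hs
    simp only [Multiset.sum_replicate, smul_eq_mul, Finset.card_univ, Fintype.card_fin] at hs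
    refine ⟨Dvd.intro_left _ hs, ?_⟩
    rw [hk]
    congr 1
    exact (Nat.div_eq_of_eq_mul_left hg.pos hs.symm).symm
  have h2 : ∀ r : ℕ, r.Prime → r ∣ n →
      ∃ g : Equiv.Perm (Fin n), orderOf g = r ∧ ∀ i, g i ≠ i := by
    intro r hr hrn
    obtain ⟨k, rfl⟩ := hrn
    have hk : k ≠ 0 := by rintro rfl; simp at hn0
    obtain ⟨g, hg⟩ := (Equiv.Perm.exists_with_cycleType_iff (Fin (r * k))
      (m := Multiset.replicate k r)).2 ⟨by simp [mul_comm], fun a ha => by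
        rw [Multiset.eq_of_mem_replicate ha]; exact hr.two_le⟩
    refine ⟨g, ?_, fun i => ?_⟩
    · rw [← Equiv.Perm.lcm_cycleType, hg]
      apply Nat.dvd_antisymm
      · exact Multiset.lcm_dvd.2 fun b hb => by rw [Multiset.eq_of_mem_replicate hb]
      · exact Multiset.dvd_lcm (Multiset.mem_replicate.2 ⟨hk, rfl⟩)
    · have hs := Equiv.Perm.sum_cycleType g
      rw [hg] at hs
      have : g.support = Finset.univ := Finset.eq_univ_of_card _ (by simp [← hs, mul_comm])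
      rw [← Equiv.Perm.mem_support, this]
      exact Finset.mem_univ _
  rw [isPrimePow_iff_unique_prime_dvd, Nat.card_eq_one_iff_unique]
  constructor
  · rintro ⟨hs, ⟨⟨c, g, rfl, hg, hfix⟩⟩⟩
    refine ⟨orderOf g, ⟨hg, (h1 g hg hfix).1⟩, ?_⟩
    rintro r ⟨hr, hrn⟩
    obtain ⟨g', hg', hfix'⟩ := h2 r hr hrn
    have := hs.elim ⟨ConjClasses.mk g, g, rfl, hg, hfix⟩ ⟨ConjClasses.mk g', g', rfl, hg' ▸ hr, hfix'⟩
    have h3 := ConjClasses.mk_eq_mk_iff_isConj.1 (Subtype.mk.inj this)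
    rw [← hg', ← Equiv.Perm.lcm_cycleType, ← Equiv.Perm.lcm_cycleType,
      Equiv.Perm.isConj_iff_cycleType_eq.1 h3]
  · rintro ⟨r, ⟨hr, hrn⟩, hu⟩
    obtain ⟨g, hg, hfix⟩ := h2 r hr hrn
    refine ⟨⟨?_⟩, ⟨⟨ConjClasses.mk g, g, rfl, hg ▸ hr, hfix⟩⟩⟩
    rintro ⟨_, a, rfl, ha, hfa⟩ ⟨_, b, rfl, hb, hfb⟩
    apply Subtype.ext
    apply ConjClasses.mk_eq_mk_iff_isConj.2
    rw [Equiv.Perm.isConj_iff_cycleType_eq, (h1 a ha hfa).2, (h1 b hb hfb).2,
      hu _ ⟨ha, (h1 a ha hfa).1⟩, hu _ ⟨hb, (h1 b hb hfb).1⟩]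

end Cfsg.Agent.S3504
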