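import Cfsg.Statements.S3508
import Mathlib
import Cfsg.Agent.PLocal.ElemAb

set_option autoImplicit false
open Cfsg

namespace Cfsg.Agent.S3508

open PLocal in
theorem val_sum_pow {G : Type*} [Group G] {p : ℕ} {N : Subgroup G} [N.Normal]
    (hV : IsElementaryAbelian p N) (h : G) (hh : h ∈ Subgroup.normalizer (N : Set G))
    (v : EA hV) (k : ℕ) :
    (v.val * h) ^ k = ((∑ i ∈ Finset.range k, (EA.conjMap hV h hh) ^ i) v).val * h ^ k := by
  have hp : ∀ (i : ℕ) (w : EA hV), (((EA.conjMap hV h hh) ^ i) w).val = h ^ i * w.val * (h ^ i)⁻¹ := by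
    intro i
    induction i with
    | zero => simp
    | succ i ih =>
      intro w
      rw [pow_succ', Module.End.mul_apply, EA.val_conjMap, ih, pow_succ']
      group
  induction k with
  | zero => simp
  | succ k ih =>
    rw [pow_succ, ih, Finset.sum_range_succ, LinearMap.add_apply, EA.val_add, hp, pow_succ]
    group


/-- Let a finite group G act faithfully on a set Ω with p ^ m points (p prime) and have an elementary abelian normal p-subgroup N acting regularly on Ω (so G is a group of affine transformations of an m-dimensional space over the field with p elements). If G contains an element of order p ^ r with r ≥ 1, then p ^ (r − 1) ≤ m. In particular an element of order p ^ m forces m ≤ 2, and m ≤ 1 when p is odd. -/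
theorem result {G : Type*} [Group G] [Finite G] {Ω : Type*} [Fintype Ω] [MulAction G Ω] [FaithfulSMul G Ω] (p m : ℕ) (hp : p.Prime) (hcard : Fintype.card Ω = p ^ m)
    (N : Subgroup G) [N.Normal] (hNc : IsMulCommutative N) (hNp : ∀ n ∈ N, n ^ p = 1)
    (hNtr : MulAction.IsPretransitive N Ω) (hNreg : ∀ ω : Ω, MulAction.stabilizer N ω = ⊥)
    (g : G) (r : ℕ) (hr : 1 ≤ r) (hg : orderOf g = p ^ r) :
    p ^ (r - 1) ≤ m ∧ (r = m → m ≤ 2 ∧ (2 < p → m ≤ 1)) := by
  have := Fact.mk hp
  have main : p ^ (r - 1) ≤ m := by
    by_contra hlt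
    push Not at hlt
    have hV : IsElementaryAbelian p N := ⟨hNc, hNp⟩
    have hΩ : Nonempty Ω := by
      rw [← Fintype.card_pos_iff, hcard]; exact pow_pos hp.pos _
    obtain ⟨α⟩ := hΩ
    have hreg : ∀ n ∈ N, ∀ ω : Ω, n • ω = ω → n = 1 := by
      intro n hn ω h
      have : (⟨n, hn⟩ : N) ∈ MulAction.stabilizer N ω := h
      rw [hNreg] at this
      exact congrArg Subtype.val (Subgroup.mem_bot.1 this)
    have hcN : Nat.card N = p ^ m := by
      have h1 := MulAction.index_stabilizer_of_transitive N α
      rw [hNreg, Subgroup.index_bot, Nat.card_eq_fintype_card (α := Ω), hcard] at h1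
      exact h1
    have hdim : Module.finrank (ZMod p) (PLocal.EA hV) = m := by
      have := PLocal.EA.card_eq_pow_finrank hV
      rw [hcN] at this
      exact (Nat.pow_right_injective hp.two_le this).symm
    obtain ⟨n, hn⟩ := hNtr.exists_smul_eq α (g • α)
    set h : G := (n : G)⁻¹ * g with hh
    have hhα : h • α = α := by
      rw [hh, mul_smul, ← hn]; exact inv_smul_smul _ _
    have hhN : h ∈ Subgroup.normalizer (N : Set G) := by
      rw [Subgroup.normalizer_eq_top]; trivial
    set A := PLocal.EA.conjMap hV h hhN with hA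
    have hgn : g = (PLocal.EA.of hV n n.2).val * h := by simp [hh]
    have hfaith : ∀ k : ℕ, A ^ k = 1 ↔ h ^ k = 1 := by
      intro k
      have hp' : ∀ (w : PLocal.EA hV), ((A ^ k) w).val = h ^ k * w.val * (h ^ k)⁻¹ := by
        induction k with
        | zero => simp
        | succ i ih =>
          intro w
          rw [pow_succ', Module.End.mul_apply, hA, PLocal.EA.val_conjMap, ih, pow_succ']
          group
      constructor
      · intro h1
        apply eq_of_smul_eq_smul (α := Ω)
        intro y
        obtain ⟨x, rfl⟩ := hNtr.exists_smul_eq α y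
        have h2 := hp' (PLocal.EA.of hV x x.2)
        rw [h1] at h2
        simp only [Module.End.one_apply, PLocal.EA.val_of] at h2
        have h3 : (h ^ k) • α = α := (MulAction.stabilizer G α).pow_mem hhα k
        have h4 : h ^ k * x = x * h ^ k := by
          conv_rhs => rw [h2]
          group
        rw [one_smul, Subgroup.smul_def, smul_smul, h4, mul_smul, h3]
      · intro h1
        ext w
        rw [hp', h1]; simp
    have hpow : h ^ (p ^ r) = 1 := by
      have h1 := val_sum_pow hV h hhN (PLocal.EA.of hV n n.2) (p ^ r)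
      rw [← hgn, ← hg, pow_orderOf_eq_one] at h1
      have h2 : h ^ orderOf g ∈ N := by
        rw [eq_inv_of_mul_eq_one_right h1.symm]
        exact N.inv_mem (PLocal.EA.val_mem _)
      rw [← hg]
      exact hreg _ h2 α ((MulAction.stabilizer G α).pow_mem hhα _)
    by_cases hm : m = 0
    · subst hm
      have hs : Subsingleton Ω := by
        rw [← Fintype.card_le_one_iff_subsingleton, hcard]; simp
      have : g = 1 := eq_of_smul_eq_smul (α := Ω) fun y => Subsingleton.elim _ _
      rw [this, orderOf_one] at hg
      have := Nat.one_lt_pow (by omega : r ≠ 0) hp.one_lt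
      omega
    have hnt : Nontrivial (PLocal.EA hV) := Module.nontrivial_of_finrank_pos (R := ZMod p) (by omega)
    have hch : CharP (Module.End (ZMod p) (PLocal.EA hV)) p :=
      charP_of_injective_algebraMap (algebraMap (ZMod p) _).injective p
    have hsub : ∀ k : ℕ, (A - 1) ^ (p ^ k) = A ^ (p ^ k) - 1 := by
      intro k
      rw [sub_pow_char_pow_of_commute _ _ (Commute.one_right A), one_pow]
    have hnil : IsNilpotent (A - 1) := ⟨p ^ r, by rw [hsub, (hfaith _).2 hpow, sub_self]⟩
    have hm0 : (A - 1) ^ m = 0 := by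
      have h1 := (LinearMap.isNilpotent_iff_charpoly _).1 hnil
      have h2 := LinearMap.aeval_self_charpoly (A - 1)
      rw [h1, hdim] at h2
      simpa using h2
    set k := p ^ (r - 1) with hk
    have hk1 : (A - 1) ^ (k - 1) = 0 := pow_eq_zero_of_le (by omega) hm0
    have hk2 : h ^ k = 1 := by
      rw [← hfaith, ← sub_eq_zero, hk, ← hsub]
      exact pow_eq_zero_of_le (by omega) hm0
    have hsum : ∑ i ∈ Finset.range k, A ^ i = (A - 1) ^ (k - 1) := by
      have hpoly : ∑ i ∈ Finset.range k, (Polynomial.X : Polynomial (ZMod p)) ^ i =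
          (Polynomial.X - 1) ^ (k - 1) := by
        have hne : (Polynomial.X - 1 : Polynomial (ZMod p)) ≠ 0 := Polynomial.X_sub_C_ne_zero 1
        apply mul_right_cancel₀ hne
        rw [geom_sum_mul, ← pow_succ, Nat.sub_add_cancel (by omega), hk, sub_pow_char_pow, one_pow]
      have := congrArg (Polynomial.aeval A) hpoly
      simpa using this
    have h5 := val_sum_pow hV h hhN (PLocal.EA.of hV n n.2) k
    rw [← hgn, ← hA, hsum, hk1, hk2] at h5
    simp only [LinearMap.zero_apply, PLocal.EA.val_zero, mul_one] at h5
    have h6 := orderOf_dvd_of_pow_eq_one h5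
    rw [hg, hk, Nat.pow_dvd_pow_iff_le_right hp.one_lt] at h6
    omega
  refine ⟨main, ?_⟩
  rintro rfl
  have h2 : ∀ k : ℕ, k + 3 < 2 ^ (k + 2) + 1 := by
    intro k
    induction k with
    | zero => norm_num
    | succ k ih => rw [pow_succ]; omega
  have h3 : ∀ k : ℕ, k + 2 < 3 ^ (k + 1) := by
    intro k
    induction k with
    | zero => norm_num
    | succ k ih => rw [pow_succ]; omega
  constructor
  · by_contra hc
    obtain ⟨k, rfl⟩ : ∃ k, r = k + 3 := ⟨r - 3, by omega⟩
    have h4 : 2 ^ (k + 2) ≤ p ^ (k + 2) := Nat.pow_le_pow_left hp.two_le _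
    have h5 : ∀ k : ℕ, k + 3 < 2 ^ (k + 2) := by
      intro k
      induction k with
      | zero => norm_num
      | succ k ih => rw [pow_succ]; omega
    have := h5 k
    simp only [Nat.add_succ_sub_one] at main
    omega
  · intro hp2
    by_contra hc
    obtain ⟨k, rfl⟩ : ∃ k, r = k + 2 := ⟨r - 2, by omega⟩
    have h4 : 3 ^ (k + 1) ≤ p ^ (k + 1) := Nat.pow_le_pow_left hp2 _
    have := h3 k
    simp only [Nat.add_succ_sub_one] at main
    omega

end Cfsg.Agent.S3508
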