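import Cfsg.Statements.S3511
import Mathlib

set_option autoImplicit false
open Cfsg

namespace Cfsg.Agent.S3511


/-- Let a finite group G act faithfully on a set Ω. If every element of G of square-free order has a regular cycle (an orbit of the cyclic group it generates with trivial stabilizer), then every element of G has a regular cycle. -/
theorem result {G : Type*} [Group G] [Finite G] {Ω : Type*} [MulAction G Ω] [FaithfulSMul G Ω]
    (h : ∀ g : G, Squarefree (orderOf g) → ∃ ω : Ω, MulAction.stabilizer (Subgroup.zpowers g) ω = ⊥) (g : G) :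
    ∃ ω : Ω, MulAction.stabilizer (Subgroup.zpowers g) ω = ⊥ := by
  classical
  set n := orderOf g with hn
  have hn0 : n ≠ 0 := (orderOf_pos g).ne'
  set r := UniqueFactorizationMonoid.radical n with hr
  obtain ⟨c, hc⟩ : r ∣ n := UniqueFactorizationMonoid.radical_dvd_self
  have hc0 : c ≠ 0 := by rintro rfl; simp at hc; exact hn0 hc
  have hord : orderOf (g ^ c) = r := by
    rw [orderOf_pow' _ hc0, ← hn, hc, Nat.gcd_eq_right (Dvd.intro_left _ rfl)]
    exact Nat.mul_div_cancel _ (Nat.pos_of_ne_zero hc0)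
  obtain ⟨ω, hω⟩ := h (g ^ c) (by rw [hord]; exact UniqueFactorizationMonoid.squarefree_radical)
  refine ⟨ω, ?_⟩
  by_contra hne
  have hcard : Nat.card (MulAction.stabilizer (Subgroup.zpowers g) ω) ≠ 1 := by
    rwa [Ne, Subgroup.card_eq_one]
  obtain ⟨p, hp, hpd⟩ := Nat.exists_prime_and_dvd hcard
  haveI := Fact.mk hp
  obtain ⟨⟨⟨y, hyg⟩, hy⟩, hyo⟩ := exists_prime_orderOf_dvd_card' p hpd
  have hyo' : orderOf y = p := by
    rw [← hyo, ← Subgroup.orderOf_coe, ← Subgroup.orderOf_coe]
  obtain ⟨j, rfl⟩ := (mem_zpowers_iff_mem_range_orderOf.mp hyg) |> Finset.mem_image.mp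
    |>.imp fun j hj => hj.2
  have h1 : n ∣ j * p := by
    rw [hn, orderOf_dvd_iff_pow_eq_one, pow_mul, ← hyo', pow_orderOf_eq_one]
  have hpn : p ∣ n := by rw [← hyo', hn]; exact orderOf_pow_dvd j
  obtain ⟨r', hr'⟩ : p ∣ r :=
    (UniqueFactorizationMonoid.dvd_radical_iff_of_irreducible hp.prime.irreducible hn0).mpr hpn
  have h2 : c ∣ j := by
    rw [hc, hr'] at h1
    have : c * p ∣ j * p := Dvd.dvd.trans ⟨r', by ring⟩ h1
    exact Nat.dvd_of_mul_dvd_mul_right hp.pos this
  obtain ⟨i, rfl⟩ := h2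
  have hmem : g ^ (c * i) ∈ Subgroup.zpowers (g ^ c) := by
    rw [pow_mul]; exact Subgroup.npow_mem_zpowers _ _
  have : (⟨g ^ (c * i), hmem⟩ : Subgroup.zpowers (g ^ c)) ∈
      MulAction.stabilizer (Subgroup.zpowers (g ^ c)) ω := hy
  rw [hω, Subgroup.mem_bot, Subtype.ext_iff] at this
  simp only [OneMemClass.coe_one] at this
  rw [this, orderOf_one] at hyo'
  exact hp.one_lt.ne hyo'

end Cfsg.Agent.S3511
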