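import Cfsg.Statements.S3514
import Mathlib
import Cfsg.Agent.Grp.CardProduct

set_option autoImplicit false
open Cfsg

namespace Cfsg.Agent.S3514

theorem relIndex_dvd_index {G : Type*} [Group G] [Finite G] (N K : Subgroup G) [K.Normal] :
    N.relIndex K ∣ N.index := by
  have h1 : N.relIndex (N ⊔ K) = N.relIndex K := by
    have h3 := Subgroup.relIndex_sup_right N K
    have h4 := Subgroup.relIndex_inf_mul_relIndex N K (N ⊔ K)
    have h5 := Subgroup.relIndex_inf_mul_relIndex K N (N ⊔ K)
    rw [inf_eq_left.2 (le_sup_right : K ≤ N ⊔ K)] at h4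
    rw [inf_eq_left.2 (le_sup_left : N ≤ N ⊔ K), inf_comm K N, ← h4, h3, mul_comm] at h5
    exact Nat.eq_of_mul_eq_mul_right (Nat.pos_of_ne_zero Subgroup.index_ne_zero_of_finite) h5
  rw [← h1]
  exact Subgroup.relIndex_dvd_index_of_le le_sup_left

theorem card_orbit_eq {G : Type*} [Group G] {X : Type*} [MulAction G X] (H : Subgroup G) (v : X) :
    Nat.card {u : X | ∃ h ∈ H, h • v = u} = (MulAction.stabilizer G v).relIndex H := by
  have h1 : {u : X | ∃ h ∈ H, h • v = u} = MulAction.orbit H v := by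
    ext x
    exact ⟨fun ⟨h, hh, e⟩ => ⟨⟨h, hh⟩, e⟩, fun ⟨h, hh⟩ => ⟨h, h.2, hh⟩⟩
  rw [h1, Nat.card_coe_set_eq, ← MulAction.index_stabilizer]
  rfl


/-- Let p be a prime, V a finite vector space over the field with p elements, and H a group of linear transformations of V all of whose orbits on V have size coprime to p. (i) Every normal subgroup K of H has all its orbits on V of size coprime to p. (ii) If N is a group of linear transformations of V of order coprime to p that is normalized by H, then the group generated by N and H has all its orbits on V of size coprime to p. -/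
theorem result (p : ℕ) [Fact p.Prime] {V : Type*} [AddCommGroup V] [Module (ZMod p) V] [Finite V]
    (H : Subgroup (V ≃ₗ[ZMod p] V)) (hH : ∀ v : V, ¬ p ∣ Nat.card {u : V | ∃ h ∈ H, h v = u}) :
    (∀ K : Subgroup (V ≃ₗ[ZMod p] V), K ≤ H → H ≤ Subgroup.normalizer (K : Set (V ≃ₗ[ZMod p] V)) →
        ∀ v : V, ¬ p ∣ Nat.card {u : V | ∃ k ∈ K, k v = u}) ∧
    (∀ N : Subgroup (V ≃ₗ[ZMod p] V), ¬ p ∣ Nat.card N → H ≤ Subgroup.normalizer (N : Set (V ≃ₗ[ZMod p] V)) →
        ∀ v : V, ¬ p ∣ Nat.card {u : V | ∃ x ∈ N ⊔ H, x v = u}) := by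
  have hfin : Finite (V ≃ₗ[ZMod p] V) :=
    Finite.of_injective (fun f : V ≃ₗ[ZMod p] V => (f : V → V)) DFunLike.coe_injective
  have e := fun (H : Subgroup (V ≃ₗ[ZMod p] V)) (v : V) => card_orbit_eq H v
  simp only [LinearEquiv.smul_def] at e
  simp only [e] at hH ⊢
  refine ⟨fun K hK hn v hd => hH v (hd.trans ?_), fun N hN hn v hd => ?_⟩
  · set S := MulAction.stabilizer (V ≃ₗ[ZMod p] V) v
    have hN : (K.subgroupOf H).Normal := (Subgroup.normal_subgroupOf_iff_le_normalizer hK).2 hn
    have h1 : S.relIndex K = (S.subgroupOf H).relIndex (K.subgroupOf H) :=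
      (Subgroup.relIndex_subgroupOf hK).symm
    rw [h1]
    exact relIndex_dvd_index _ _
  · set S := MulAction.stabilizer (V ≃ₗ[ZMod p] V) v
    have h1 : S.relIndex (N ⊔ H) ∣ (S ⊓ H).relIndex (N ⊔ H) :=
      Subgroup.relIndex_dvd_of_le_left _ inf_le_left
    have h2 := Subgroup.relIndex_mul_relIndex (S ⊓ H) H (N ⊔ H) inf_le_right le_sup_right
    rw [Subgroup.inf_relIndex_right] at h2
    rw [← h2] at h1
    rcases (Nat.Prime.dvd_mul Fact.out).1 (hd.trans h1) with h | h
    · exact hH v h
    · apply hN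
      refine h.trans ?_
      have h3 := Grp.card_mul_card_eq_of_le_normalizer hn
      have h4 := Subgroup.card_mul_index (H.subgroupOf (N ⊔ H))
      rw [Nat.card_congr (Subgroup.subgroupOfEquivOfLe le_sup_right).toEquiv] at h4
      rw [sup_comm H N, ← h4, ← mul_assoc, mul_comm _ (Nat.card H), mul_assoc] at h3
      exact Dvd.intro_left _ (Nat.eq_of_mul_eq_mul_left Nat.card_pos h3).symm

end Cfsg.Agent.S3514
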