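import Cfsg.Statements.S3515
import Mathlib
import Cfsg.Agent.Perm.AffineClosure

set_option autoImplicit false
open Cfsg

namespace Cfsg.Agent.S3515

theorem key : ∀ τ : Equiv.Perm (Fin 2 → ZMod 2), τ 0 = 0 → τ (Pi.single 0 1) = Pi.single 0 1 →
        τ (Pi.single 1 1) = Pi.single 1 1 → τ = 1 := by
      intro τ h0 h1 h2
      have hall : ∀ x : Fin 2 → ZMod 2, x = 0 ∨ x = Pi.single 0 1 ∨ x = Pi.single 1 1 ∨ x = 1 := by
        decide
      ext1 x
      rcases hall x with rfl | rfl | rfl | rfl
      · exact h0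
      · exact h1
      · exact h2
      · rcases hall (τ 1) with h | h | h | h
        · exact absurd (τ.injective (h.trans h0.symm)) (by decide)
        · exact absurd (τ.injective (h.trans h1.symm)) (by decide)
        · exact absurd (τ.injective (h.trans h2.symm)) (by decide)
        · exact h


/-- Every primitive affine permutation group of degree p² is 3-closed. Let p be a prime and G a group of permutations of the plane V = F_p² consisting of affine maps x ↦ Ax + b, containing all translations, and acting primitively on V. Then any permutation σ of V that agrees on every triple of points with some element of G (σ preserves every G-orbit on ordered triples) already lies in G. -/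
theorem result (p : ℕ) [Fact p.Prime] (G : Subgroup (Equiv.Perm (Fin 2 → ZMod p)))
    (haff : (G : Set (Equiv.Perm (Fin 2 → ZMod p))) ⊆ {τ : Equiv.Perm (Fin 2 → ZMod p) | ∃ (A : (Fin 2 → ZMod p) ≃ₗ[ZMod p] (Fin 2 → ZMod p)) (b : Fin 2 → ZMod p), ∀ x, τ x = A x + b})
    (htrans : ∀ b : Fin 2 → ZMod p, ∃ g ∈ G, ∀ x, g x = x + b) (hprim : MulAction.IsPreprimitive G (Fin 2 → ZMod p))
    (σ : Equiv.Perm (Fin 2 → ZMod p)) (hσ : (∀ t : Fin 3 → (Fin 2 → ZMod p), ∃ g ∈ G, ∀ i, σ (t i) = g (t i))) : σ ∈ G := by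
  obtain ⟨g, hg, hgt⟩ := hσ ![0, Pi.single 0 1, Pi.single 1 1]
  have e0 : σ 0 = g 0 := hgt 0
  have e1 : σ (Pi.single 0 1) = g (Pi.single 0 1) := hgt 1
  have e2 : σ (Pi.single 1 1) = g (Pi.single 1 1) := hgt 2
  suffices h : σ = g by rwa [h]
  by_cases hp : p = 2
  · subst hp
    have := key (g⁻¹ * σ) (by simp [e0]) (by simp [e1]) (by simp [e2])
    exact (inv_mul_eq_one.1 this).symm
  · obtain ⟨A, b, hA⟩ := Perm.AffClos.affine_of_three hp σ (fun x y z => by
      obtain ⟨g, hg, hgt⟩ := hσ ![x, y, z]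
      obtain ⟨A, b, hA⟩ := haff hg
      exact ⟨A, b, (hgt 0).trans (hA _), (hgt 1).trans (hA _), (hgt 2).trans (hA _)⟩)
    obtain ⟨B, c, hB⟩ := haff hg
    rw [hA, hB] at e0 e1 e2
    simp only [map_zero, zero_add] at e0
    subst e0
    have hAB : (A : (Fin 2 → ZMod p) →ₗ[ZMod p] (Fin 2 → ZMod p)) = B := by
      apply (Pi.basisFun (ZMod p) (Fin 2)).ext
      intro i
      fin_cases i
      · simpa using e1
      · simpa using e2
    ext1 x
    rw [hA, hB]
    congr 1
    exact LinearMap.congr_fun hAB x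

end Cfsg.Agent.S3515
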