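import Cfsg.Statements.S3516
import Mathlib
import Cfsg.Agent.Perm.AffineClosure

set_option autoImplicit false
open Cfsg

namespace Cfsg.Agent.S3516

/-- Let p be an odd prime, d ≥ 3, and G a group of affine permutations x ↦ Ax + b of V = F_p^d containing all translations and all maps x ↦ Ax with A of determinant 1. Then the 3-closure of G is the full affine group: a permutation σ of V agrees on every triple of points with some element of G if and only if σ is an affine map. -/
theorem result (p : ℕ) [Fact p.Prime] (hp : p ≠ 2) (d : ℕ) (hd : 3 ≤ d) (G : Subgroup (Equiv.Perm (Fin d → ZMod p)))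
    (haff : (G : Set (Equiv.Perm (Fin d → ZMod p))) ⊆ {τ : Equiv.Perm (Fin d → ZMod p) | ∃ (A : (Fin d → ZMod p) ≃ₗ[ZMod p] (Fin d → ZMod p)) (b : Fin d → ZMod p), ∀ x, τ x = A x + b})
    (htrans : ∀ b : Fin d → ZMod p, ∃ g ∈ G, ∀ x, g x = x + b)
    (hsl : ∀ A : (Fin d → ZMod p) ≃ₗ[ZMod p] (Fin d → ZMod p), LinearMap.det (A : (Fin d → ZMod p) →ₗ[ZMod p] (Fin d → ZMod p)) = 1 → ∃ g ∈ G, ∀ x, g x = A x)
    (σ : Equiv.Perm (Fin d → ZMod p)) :
    (∀ t : Fin 3 → (Fin d → ZMod p), ∃ g ∈ G, ∀ i, σ (t i) = g (t i)) ↔ σ ∈ {τ : Equiv.Perm (Fin d → ZMod p) | ∃ (A : (Fin d → ZMod p) ≃ₗ[ZMod p] (Fin d → ZMod p)) (b : Fin d → ZMod p), ∀ x, τ x = A x + b} := by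
  constructor
  · intro hσ
    exact Perm.AffClos.affine_of_three hp σ (fun x y z => by
      obtain ⟨g, hg, hgt⟩ := hσ ![x, y, z]
      obtain ⟨A, b, hA⟩ := haff hg
      exact ⟨A, b, (hgt 0).trans (hA _), (hgt 1).trans (hA _), (hgt 2).trans (hA _)⟩)
  · rintro ⟨A, b, hA⟩ t
    let W : Submodule (ZMod p) (Fin d → ZMod p) := Submodule.span _ {t 1 - t 0, t 2 - t 0}
    have hW : W < ⊤ := by
      apply Submodule.lt_top_of_finrank_lt_finrank
      have h1 : Module.finrank (ZMod p) W ≤ 2 := by
        classical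
        refine (finrank_span_le_card _).trans ?_
        rw [Set.toFinset_insert, Set.toFinset_singleton]
        exact Finset.card_le_two
      simp only [Module.finrank_fintype_fun_eq_card, Fintype.card_fin]
      omega
    obtain ⟨f, hf0, hf⟩ := W.exists_le_ker_of_lt_top hW
    obtain ⟨w, hw⟩ : ∃ w, f w ≠ 0 := by
      by_contra h
      push Not at h
      exact hf0 (LinearMap.ext h)
    set c : ZMod p := LinearMap.det (A : (Fin d → ZMod p) →ₗ[ZMod p] (Fin d → ZMod p)) with hc
    have hc0 : c ≠ 0 := (LinearEquiv.isUnit_det' A).ne_zero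
    let v : Fin d → ZMod p := ((c⁻¹ - 1) * (f w)⁻¹) • w
    have hv : 1 + f v = c⁻¹ := by
      simp only [v, map_smul, smul_eq_mul]
      field_simp
      ring
    let B := LinearEquiv.dilatransvection (f := f) (v := v) (by rw [hv]; exact (inv_ne_zero hc0).isUnit)
    have hB : ∀ x ∈ W, B x = x := by
      intro x hx
      rw [LinearEquiv.dilatransvection.apply, show f x = 0 from hf hx, zero_smul, add_zero]
    obtain ⟨g, hg, hgx⟩ := hsl (B.trans A) (by
      rw [LinearEquiv.coe_trans, LinearMap.det_comp, ← hc,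
        LinearEquiv.dilatransvection.coe_toLinearMap, LinearMap.transvection.det, hv,
        mul_inv_cancel₀ hc0])
    obtain ⟨u, hu, hux⟩ := htrans (σ (t 0) - g (t 0))
    refine ⟨u * g, G.mul_mem hu hg, fun i => ?_⟩
    have h2 : B (t i - t 0) = t i - t 0 := by
      apply hB
      fin_cases i
      · simp
      · exact Submodule.subset_span (by simp)
      · exact Submodule.subset_span (by simp)
    have h3 := congrArg A h2
    rw [Equiv.Perm.mul_apply, hux, hgx, hgx, hA, hA]
    simp only [map_sub, LinearEquiv.trans_apply] at h3 ⊢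
    linear_combination -h3

end Cfsg.Agent.S3516
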