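import Cfsg.Statements.S3517
import Mathlib
import Cfsg.Agent.KSG.QuadOrbit

set_option autoImplicit false
open Cfsg

namespace Cfsg.Agent.S3517

theorem one_vec {V : Type*} [AddCommGroup V] [Module (ZMod 2) V] [FiniteDimensional (ZMod 2) V]
    (u v : V) (h : u = 0 ↔ v = 0) : ∃ A : V ≃ₗ[ZMod 2] V, A u = v := by
  by_cases hu : u = 0
  · exact ⟨LinearEquiv.refl _ _, by rw [hu, h.1 hu]; simp⟩
  · obtain ⟨g, hg⟩ := KSG.exists_linearEquiv_of_linearIndependent (F := ZMod 2)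
      (v := fun _ : Unit => u) (w := fun _ : Unit => v) (linearIndependent_unique_iff.2 hu)
      (linearIndependent_unique_iff.2 (fun e => hu (h.2 e)))
    exact ⟨g, hg ()⟩

theorem li_pair {V : Type*} [AddCommGroup V] [Module (ZMod 2) V] {u v : V} (hu : u ≠ 0)
    (hv : v ≠ 0) (huv : u ≠ v) : LinearIndependent (ZMod 2) ![u, v] := by
  rw [LinearIndependent.pair_iff' hu]
  intro a
  have ha : ∀ a : ZMod 2, a = 0 ∨ a = 1 := by decide
  rcases ha a with rfl | rfl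
  · simpa using hv.symm
  · simpa using huv


/-- For d ≥ 3, the 3-closure of the affine group AGL_d(2) acting on F_2^d is the full symmetric group: every permutation of F_2^d agrees on every ordered triple of points with some affine map (AGL_d(2) is 3-transitive). -/
theorem result (d : ℕ) (hd : 3 ≤ d) (σ : Equiv.Perm (Fin d → ZMod 2)) (t : Fin 3 → (Fin d → ZMod 2)) :
    ∃ (A : (Fin d → ZMod 2) ≃ₗ[ZMod 2] (Fin d → ZMod 2)) (b : Fin d → ZMod 2), ∀ i, σ (t i) = A (t i) + b := by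
  have key : ∃ A : (Fin d → ZMod 2) ≃ₗ[ZMod 2] (Fin d → ZMod 2),
      A (t 1 - t 0) = σ (t 1) - σ (t 0) ∧ A (t 2 - t 0) = σ (t 2) - σ (t 0) := by
    have e : ∀ i j, t i - t 0 = t j - t 0 ↔ σ (t i) - σ (t 0) = σ (t j) - σ (t 0) := by
      intro i j; simp
    have e0 : ∀ i, t i - t 0 = 0 ↔ σ (t i) - σ (t 0) = 0 := by
      intro i; simp [sub_eq_zero]
    by_cases h1 : t 1 - t 0 = 0
    · obtain ⟨A, hA⟩ := one_vec _ _ (e0 2)
      exact ⟨A, by rw [h1, (e0 1).1 h1, map_zero], hA⟩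
    by_cases h2 : t 2 - t 0 = 0
    · obtain ⟨A, hA⟩ := one_vec _ _ (e0 1)
      exact ⟨A, hA, by rw [h2, (e0 2).1 h2, map_zero]⟩
    by_cases h3 : t 1 - t 0 = t 2 - t 0
    · obtain ⟨A, hA⟩ := one_vec _ _ (e0 1)
      exact ⟨A, hA, by rw [← h3, ← (e 1 2).1 h3, hA]⟩
    obtain ⟨g, hg⟩ := KSG.exists_linearEquiv_of_linearIndependent (li_pair h1 h2 h3)
      (li_pair (fun h => h1 ((e0 1).2 h)) (fun h => h2 ((e0 2).2 h)) (fun h => h3 ((e 1 2).2 h)))
    exact ⟨g, hg 0, hg 1⟩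
  obtain ⟨A, h1, h2⟩ := key
  refine ⟨A, σ (t 0) - A (t 0), fun i => ?_⟩
  rw [map_sub] at h1 h2
  fin_cases i
  · simp
  · simp only [Fin.mk_one]; linear_combination -h1
  · simp only [Fin.reduceFinMk]; linear_combination -h2

end Cfsg.Agent.S3517
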