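import Cfsg.Statements.S3518
import Mathlib
import Cfsg.Agent.Perm.AffineClosure
import Cfsg.Agent.Perm.PrimeDegree
import Cfsg.Agent.S0675
import Cfsg.Agent.Grp.MinNormal
import Cfsg.Agent.Perm.MultTrans

set_option autoImplicit false
open Cfsg

namespace Cfsg.Agent.S3518

theorem part2 (p : ℕ) [Fact p.Prime] (x y u v : ZMod p) (h : x = y ↔ u = v) :
    ∃ g ∈ Cfsg.affineGroup (ZMod p), g x = u ∧ g y = v := by
  by_cases hxy : x = y
  · refine ⟨Equiv.addRight (u - x), ⟨1, u - x, fun z => by simp⟩, by simp, ?_⟩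
    rw [← hxy, ← h.1 hxy]; simp
  · have huv : u - v ≠ 0 := sub_ne_zero.2 fun e => hxy (h.2 e)
    have hxy' : x - y ≠ 0 := sub_ne_zero.2 hxy
    have ha : (u - v) / (x - y) ≠ 0 := div_ne_zero huv hxy'
    refine ⟨(Equiv.mulLeft₀ _ ha).trans (Equiv.addRight (u - (u - v) / (x - y) * x)),
      ⟨Units.mk0 _ ha, _, fun z => rfl⟩, by simp, ?_⟩
    simp only [Equiv.trans_apply, Equiv.mulLeft₀_apply, Equiv.coe_addRight]
    field_simp
    ring

theorem affine_ext {p : ℕ} {g h : Equiv.Perm (ZMod p)} (hg : g ∈ Cfsg.affineGroup (ZMod p))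
    (hh : h ∈ Cfsg.affineGroup (ZMod p)) (h0 : g 0 = h 0) (h1 : g 1 = h 1) : g = h := by
  obtain ⟨a, b, ha⟩ := hg
  obtain ⟨c, d, hc⟩ := hh
  rw [ha, hc] at h0 h1
  ext x
  rw [ha, hc]
  linear_combination (1 - x) * h0 + x * h1


/-- Closures of subgroups of the one-dimensional affine group. Let p be a prime and G a group of permutations of F_p lying in the affine group AGL₁(p) = {x ↦ ax + b, a ≠ 0} and containing all translations. (1) If G is a proper subgroup of AGL₁(p), then G is 2-closed: a permutation of F_p agreeing on every ordered pair of points with some element of G lies in G. (2) Every permutation of F_p agrees on every ordered pair with some element of AGL₁(p) (the 2-closure of AGL₁(p) is the symmetric group). (3) AGL₁(p) is 3-closed: a permutation agreeing on every ordered triple with some affine map is affine. -/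
theorem result (p : ℕ) [Fact p.Prime] (G : Subgroup (Equiv.Perm (ZMod p))) (hG : G ≤ Cfsg.affineGroup (ZMod p))
    (htrans : ∀ b : ZMod p, ∃ g ∈ G, ∀ x, g x = x + b) :
    (G ≠ Cfsg.affineGroup (ZMod p) → ∀ σ : Equiv.Perm (ZMod p), (∀ t : Fin 2 → ZMod p, ∃ g ∈ G, ∀ i, σ (t i) = g (t i)) → σ ∈ G) ∧
    (∀ σ : Equiv.Perm (ZMod p), (∀ t : Fin 2 → ZMod p, ∃ g ∈ Cfsg.affineGroup (ZMod p), ∀ i, σ (t i) = g (t i))) ∧
    (∀ σ : Equiv.Perm (ZMod p), (∀ t : Fin 3 → ZMod p, ∃ g ∈ Cfsg.affineGroup (ZMod p), ∀ i, σ (t i) = g (t i)) → σ ∈ Cfsg.affineGroup (ZMod p)) := by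
  refine ⟨fun hne σ hσ => ?_, fun σ t => ?_, fun σ hσ => ?_⟩
  · let C : Subgroup (Equiv.Perm (ZMod p)) :=
      { carrier := {σ | ∀ x y, ∃ g ∈ G, σ x = g x ∧ σ y = g y}
        mul_mem' := by
          intro a b ha hb x y
          obtain ⟨g, hg, h1, h2⟩ := hb x y
          obtain ⟨k, hk, h3, h4⟩ := ha (b x) (b y)
          exact ⟨k * g, G.mul_mem hk hg, by simp [← h1, h3], by simp [← h2, h4]⟩
        one_mem' := fun x y => ⟨1, G.one_mem, rfl, rfl⟩
        inv_mem' := by
          intro a ha x y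
          obtain ⟨g, hg, h1, h2⟩ := ha (a⁻¹ x) (a⁻¹ y)
          refine ⟨g⁻¹, G.inv_mem hg, ?_, ?_⟩
          · rw [eq_comm, Equiv.Perm.inv_eq_iff_eq, ← h1]; simp
          · rw [eq_comm, Equiv.Perm.inv_eq_iff_eq, ← h2]; simp }
    have hGC : G ≤ C := fun g hg x y => ⟨g, hg, rfl, rfl⟩
    have hσC : σ ∈ C := fun x y => by
      obtain ⟨g, hg, h⟩ := hσ ![x, y]
      exact ⟨g, hg, h 0, h 1⟩
    have htr : MulAction.IsPretransitive C (ZMod p) := ⟨fun x y => by
      obtain ⟨g, hg, h⟩ := htrans (y - x)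
      exact ⟨⟨g, hGC hg⟩, by show g x = y; rw [h]; ring⟩⟩
    have hcard : Nat.card (ZMod p) = p := Nat.card_zmod p
    suffices haff : σ ∈ Cfsg.affineGroup (ZMod p) by
      obtain ⟨g, hg, h0, h1⟩ := hσC 0 1
      rwa [affine_ext haff (hG hg) h0 h1]
    rcases S0675.result (α := ZMod p) (by rw [ZMod.card]; exact Fact.out) C with hs | h2
    · obtain ⟨c, hcG, hc⟩ := htrans 1
      have hnt : Nontrivial C := by
        refine ⟨⟨⟨c, hGC hcG⟩, 1, fun e => ?_⟩⟩
        have := hc 0
        rw [show c = 1 from congrArg Subtype.val e] at this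
        simp at this
      obtain ⟨q, M, hq, hM, hM1, -, -, hMq, -⟩ := Grp.exists_minNormal_elementaryAbelian C
      have hpM := Perm.prime_dvd_card_normal_of_prime_degree hcard M hM1
      have := Fact.mk hq
      obtain ⟨k, hk⟩ := IsPGroup.iff_card.1 hMq
      have hpq : p = q := (Nat.prime_dvd_prime_iff_eq Fact.out hq).1
        ((Fact.out : p.Prime).dvd_of_dvd_pow (hk ▸ hpM))
      subst hpq
      let c' : C := ⟨c, hGC hcG⟩
      have hc' : ∀ i, c' • (Equiv.refl (ZMod p)) i = (Equiv.refl (ZMod p)) (i + 1) := hc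
      have hco : orderOf c' = p := by
        apply orderOf_eq_prime
        · apply eq_of_smul_eq_smul (α := ZMod p)
          intro x
          have := Perm.pow_smul_coord hc' p x
          simpa using this
        · intro e
          have := hc' 0
          rw [e] at this
          simp at this
      have hz : IsPGroup p (Subgroup.zpowers c') :=
        IsPGroup.of_card (n := 1) (by rw [Nat.card_zpowers, hco, pow_one])
      obtain ⟨P, hP⟩ := hz.exists_le_sylow
      have hPc := Perm.card_sylow_of_prime_degree hcard P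
      have h1 : Subgroup.zpowers c' = P :=
        Subgroup.eq_of_le_of_card_ge hP (by rw [hPc, Nat.card_zpowers, hco])
      have h2 : M = P := Subgroup.eq_of_le_of_card_ge (hMq.le_sylow_of_normal P)
        (by rw [hPc]; exact Nat.le_of_dvd Nat.card_pos hpM)
      obtain ⟨a, b, hab⟩ := Perm.affine_of_mem_normalizer (g := (⟨σ, hσC⟩ : C)) hc' (by
        rw [h1, ← h2, Subgroup.normalizer_eq_top]; trivial)
      have hab' : ∀ i, σ i = a * i + b := hab
      have ha : a ≠ 0 := by
        intro e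
        have := σ.injective (show σ 0 = σ 1 by rw [hab', hab', e]; simp)
        exact zero_ne_one this
      exact ⟨Units.mk0 a ha, b, hab'⟩
    · exfalso
      apply hne
      refine le_antisymm hG fun τ hτ => ?_
      obtain ⟨k, hk⟩ := Perm.exists_smul_eq_of_injective h2 (by simp) ![0, 1] ![τ 0, τ 1]
        (by intro i j; fin_cases i <;> fin_cases j <;> simp)
        (by intro i j; fin_cases i <;> fin_cases j <;> simp)
      obtain ⟨g, hg, h0, h1⟩ := k.2 0 1
      rwa [affine_ext hτ (hG hg) ((hk 0).symm.trans h0) ((hk 1).symm.trans h1)]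
  · obtain ⟨g, hg, h0, h1⟩ := part2 p (t 0) (t 1) (σ (t 0)) (σ (t 1)) (by simp)
    refine ⟨g, hg, fun i => ?_⟩
    fin_cases i
    exacts [h0.symm, h1.symm]
  · obtain ⟨g, hg, h⟩ := hσ ![0, 1, 0]
    suffices e : σ = g by rwa [e]
    ext x
    obtain ⟨k, hk, h'⟩ := hσ ![0, 1, x]
    rw [affine_ext hg hk ((h 0).symm.trans (h' 0)) ((h 1).symm.trans (h' 1))]
    exact h' 2

end Cfsg.Agent.S3518
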