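import Cfsg.Statements.S3526
import Mathlib
import Cfsg.Agent.KSG.PrimeGraph
import Cfsg.Agent.FT.BG3_8
import Cfsg.Agent.Solv.FrobeniusAction
import Cfsg.Agent.S0205

set_option autoImplicit false
open Cfsg

namespace Cfsg.Agent.S3526

open Subgroup KSG.PG
open scoped commutatorElement

theorem not_dvd_of_cyc {X : Type*} [Group X] [Finite X] (S : Set X) (F : Subgroup X) [F.Normal]
    (hc : closure S ≤ centralizer (F : Set X)) {r : ℕ} (hr : r.Prime)
    (hS : ∀ s ∈ S, ¬ r ∣ orderOf s)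
    (hcyc : ∀ B : Subgroup (X ⧸ F), IsPGroup r B → IsCyclic B) :
    ¬ r ∣ Nat.card ↥(closure S ⊓ F) := by
  intro hd
  have := Fact.mk hr
  obtain ⟨⟨z, hz0⟩, hz⟩ := exists_prime_orderOf_dvd_card' r hd
  rw [orderOf_mk] at hz
  obtain ⟨hz1, hz2⟩ := hz0
  obtain ⟨P⟩ : Nonempty (Sylow r (closure S)) := inferInstance
  let f : P →* X ⧸ F := (QuotientGroup.mk' F).comp ((closure S).subtype.comp (P : Subgroup (closure S)).subtype)
  have := hcyc f.range (P.isPGroup'.of_surjective _ f.rangeRestrict_surjective)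
  have hcomm := MonoidHom.isMulCommutative_of_isCyclic_of_ker_le_center f.rangeRestrict (by
    intro a ha
    rw [MonoidHom.ker_rangeRestrict] at ha
    have ha' : a.1.1 ∈ F := (QuotientGroup.eq_one_iff _).1 ha
    exact mem_center_iff.2 fun b => Subtype.ext (Subtype.ext (hc b.1.2 _ ha').symm))
  let _ : CommGroup P := { (inferInstance : Group P) with mul_comm := hcomm.is_comm.comm }
  let τ := MonoidHom.transfer (H := (P : Subgroup (closure S))) (MonoidHom.id P)
  have h1 : τ = 1 := by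
    refine MonoidHom.eq_of_eqOn_dense (closure_closure_coe_preimage (k := S)) fun s hs => ?_
    obtain ⟨k, hk⟩ := P.isPGroup'.exists_card_eq
    rw [MonoidHom.one_apply, ← orderOf_eq_one_iff]
    refine Nat.eq_one_of_dvd_coprimes (a := r ^ k) (b := orderOf s.1)
      (Nat.Coprime.pow_left _ ((Nat.Prime.coprime_iff_not_dvd hr).2 (hS _ hs)))
      (hk ▸ orderOf_dvd_natCard _) ?_
    rw [orderOf_coe]
    exact orderOf_map_dvd τ s
  have h2 := MonoidHom.transfer_eq_pow (H := (P : Subgroup (closure S))) (MonoidHom.id P)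
    ⟨z, hz1⟩ fun k g _ => by
      have : Commute g ⟨z, hz1⟩ := Subtype.ext (hc g.2 z hz2).symm
      rw [mul_assoc, ← (this.pow_right k).eq, inv_mul_cancel_left]
  change τ _ = _ at h2
  rw [h1] at h2
  have h3 : z ^ (P : Subgroup (closure S)).index = 1 :=
    congrArg (fun a : P => a.1.1) h2.symm
  have h4 := orderOf_dvd_of_pow_eq_one h3
  rw [hz] at h4
  exact P.not_dvd_index h4

theorem cyc {H Y : Type*} [Group H] [Finite H] [Group Y] (N : Subgroup H) [N.Normal]
    (ψ : H →* Y) (hψ : Function.Surjective ψ) (hN : N ≤ ψ.ker) {r q : ℕ} (hr : r.Prime)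
    (hq : q.Prime) (h2 : r ≠ 2) (hrq : r ≠ q) (hd : q ∣ Nat.card N) (hE : ¬ E H r q)
    (B : Subgroup Y) (hB : IsPGroup r B) : IsCyclic B := by
  have := Fact.mk hr
  have := Fact.mk hq
  have := Finite.of_surjective ψ hψ
  obtain ⟨Q⟩ : Nonempty (Sylow q N) := inferInstance
  have hF := Q.normalizer_sup_eq_top
  set Q0 := (Q : Subgroup N).map N.subtype with hQ0
  set M := normalizer (Q0 : Set H) with hM
  have hs : Function.Surjective (ψ.comp M.subtype) := by
    rw [← MonoidHom.range_eq_top, MonoidHom.range_comp, range_subtype, eq_top_iff,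
      ← map_top_of_surjective ψ hψ, ← hF, Subgroup.map_sup, (map_eq_bot_iff N).2 hN, sup_bot_eq]
  obtain ⟨P', hP'⟩ := hB.exists_le_sylow
  obtain ⟨P, rfl⟩ := Sylow.mapSurjective_surjective hs r P'
  have h1 : IsCyclic ((P : Subgroup M).map M.subtype) := by
    refine Solv.Frob.isCyclic_of_fpf_of_isPGroup (K := Q0) (P.isPGroup'.map _) h2 ?_
      (map_subtype_le _) fun a ha h1 => ?_
    · rw [hQ0, Ne, map_eq_bot_iff_of_injective _ N.subtype_injective]
      exact Q.ne_bot_of_dvd_card hd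
    · rw [eq_bot_iff]
      rintro b ⟨hb1, hb2⟩
      by_contra hb
      refine hE (E.of_commute hr hq hrq ?_ ?_ (mem_centralizer_singleton_iff.1 hb2).symm)
      · simpa using (P.isPGroup'.map M.subtype).dvd_orderOf (g := ⟨a, ha⟩)
          (fun e => h1 (congrArg Subtype.val e))
      · simpa using (Q.isPGroup'.map N.subtype).dvd_orderOf (g := ⟨b, hb1⟩)
          (fun e => hb (congrArg Subtype.val e))
  have h3 : IsCyclic (P.mapSurjective hs : Subgroup Y) := by
    rw [Sylow.coe_mapSurjective, ← map_map]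
    exact isCyclic_of_surjective _ (ψ.subgroupMap_surjective _)
  exact isCyclic_of_le hP'

theorem exists_lift {H Y : Type*} [Group H] [Group Y] {N L : Subgroup H} [N.Normal]
    (h : L ⊔ N = ⊤) (f : L →* Y) (hf : N.subgroupOf L ≤ f.ker) :
    ∃ ψ : H →* Y, N ≤ ψ.ker ∧ ∀ l : L, ψ l = f l := by
  let g : L →* H ⧸ N := (QuotientGroup.mk' N).comp L.subtype
  have hg : Function.Surjective g := by
    rw [← MonoidHom.range_eq_top, MonoidHom.range_comp, range_subtype, eq_top_iff,
      ← map_top_of_surjective _ (QuotientGroup.mk'_surjective N), ← h, Subgroup.map_sup,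
      QuotientGroup.map_mk'_self, sup_bot_eq]
  have hk : g.ker ≤ f.ker := by
    rwa [← MonoidHom.comap_ker, QuotientGroup.ker_mk']
  refine ⟨(g.liftOfSurjective hg ⟨f, hk⟩).comp (QuotientGroup.mk' N), fun n hn => ?_, fun l => ?_⟩
  · rw [MonoidHom.mem_ker, MonoidHom.comp_apply, QuotientGroup.mk'_apply,
      (QuotientGroup.eq_one_iff _).2 hn, map_one]
  · exact g.liftOfRightInverse_comp_apply _ (Function.rightInverse_surjInv hg) ⟨f, hk⟩ l

theorem exists_elt {H : Type*} [Group H] [Finite H] {N L : Subgroup H} [N.Normal]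
    (h : L ⊔ N = ⊤) {x : H} (hp : (orderOf x).Prime) (hd : ¬ orderOf x ∣ Nat.card N) :
    ∃ l : L, orderOf l = orderOf x ∧ x⁻¹ * l ∈ N := by
  obtain ⟨l, hl, n, hn, e⟩ := (mem_sup_of_normal_right).1 (h ▸ mem_top x)
  obtain ⟨m, hm1, hm2⟩ := Nat.chineseRemainder ((Nat.Prime.coprime_iff_not_dvd hp).2 hd) 1 0
  have e1 : (l : H ⧸ N) = x := by rw [← e]; simp [hn]
  have e2 : ((l ^ m : H) : H ⧸ N) = x := by
    rw [QuotientGroup.mk_pow, e1, ← QuotientGroup.mk_pow, pow_eq_pow_iff_modEq.2 hm1, pow_one]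
  have e3 : l ^ orderOf x ∈ N := by
    rw [← QuotientGroup.eq_one_iff, QuotientGroup.mk_pow, e1, ← QuotientGroup.mk_pow,
      pow_orderOf_eq_one, QuotientGroup.mk_one]
  have := Fact.mk hp
  refine ⟨⟨l ^ m, L.pow_mem hl m⟩, ?_, QuotientGroup.eq.1 e2.symm⟩
  rw [orderOf_mk]
  refine orderOf_eq_prime ?_ fun e4 => hd (N.orderOf_dvd_natCard ?_)
  · rw [← pow_mul, mul_comm, pow_mul]
    exact orderOf_dvd_iff_pow_eq_one.1 ((N.orderOf_dvd_natCard e3).trans
      (Nat.modEq_zero_iff_dvd.1 hm2))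
  · rwa [e4, QuotientGroup.mk_one, eq_comm, QuotientGroup.eq_one_iff] at e2

theorem nilp {H : Type*} [Group H] [Finite H] {N L : Subgroup H} [N.Normal] (h : L ⊔ N = ⊤)
    (hmin : ∀ L0 ≤ L, L0 ⊔ N = ⊤ → L0 = L) : Group.IsNilpotent (N.subgroupOf L) := by
  suffices hh : ∀ (r : ℕ) (_ : Fact r.Prime) (R : Sylow r (N.subgroupOf L)),
      (R : Subgroup (N.subgroupOf L)).Normal from
    (Group.isNilpotent_of_finite_tfae.out 3 0 rfl rfl).1 hh
  intro r _ R
  have hF := R.normalizer_sup_eq_top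
  set R0 := (R : Subgroup (N.subgroupOf L)).map (N.subgroupOf L).subtype with hR0
  have h1 := hmin ((normalizer (R0 : Set L)).map L.subtype) (map_subtype_le _) (by
    rw [eq_top_iff, ← h]
    refine sup_le ?_ le_sup_right
    conv_lhs => rw [← L.range_subtype, MonoidHom.range_eq_map, ← hF, Subgroup.map_sup,
      subgroupOf_map_subtype]
    exact sup_le_sup_left inf_le_left _)
  have h2 : normalizer (R0 : Set L) = ⊤ := by
    apply map_injective L.subtype_injective
    rw [h1, ← MonoidHom.range_eq_map, range_subtype]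
  have h3 : R0.Normal := normalizer_eq_top_iff.1 h2
  have h4 := h3.comap (N.subgroupOf L).subtype
  rwa [hR0, comap_map_eq_self_of_injective (subtype_injective _)] at h4

theorem case1 {H : Type} [Group H] [Finite H] {N L : Subgroup H} [N.Normal] (h : L ⊔ N = ⊤)
    [Group.IsNilpotent (N.subgroupOf L)] {r : ℕ} (hr : r.Prime)
    (hd : r ∣ Nat.card (N.subgroupOf L))
    (hE : ∀ q : ℕ, q.Prime → r ≠ q → q ∣ Nat.card N → E H r q) :
    ∃ (W : Type) (_ : Group W) (_ : Finite W), Same H W ∧ Cl W := by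
  have := Fact.mk hr
  set D := N.subgroupOf L with hD
  let U := (pPrimeCore r D).map D.subtype
  have : U.Normal := Grp.normal_map_subtype_of_characteristic _ _
  let φ : L ⧸ U →* H ⧸ N := QuotientGroup.map U N L.subtype (map_subtype_le _)
  have h1 : Nat.card φ.ker = Nat.card (pCore r D) := by
    have a := Grp.card_comap_mk' U φ.ker
    have b : φ.ker.comap (QuotientGroup.mk' U) = D := by
      ext x
      exact QuotientGroup.eq_one_iff (N := N) (x : H)
    have c := (Grp.isComplement'_pCore_pPrimeCore_of_isNilpotent (G := D) r).card_mul_card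
    rw [b, ← c, card_map_of_injective (subtype_injective _)] at a
    exact (Nat.eq_of_mul_eq_mul_right Nat.card_pos a).symm
  obtain ⟨k, hk⟩ := (Grp.pCore_isPGroup r D).exists_card_eq
  obtain ⟨W, _, _, M, a, b, c, -⟩ := fp (QuotientGroup.mk' N) φ (fun x => by
      obtain ⟨l, hl, n, hn, rfl⟩ := (mem_sup_of_normal_right).1 (h ▸ mem_top x)
      exact ⟨(⟨l, hl⟩ : L), by
        change (l : H ⧸ N) = _
        simp [hn]⟩)
    (fun p _ d => (d.trans (card_quotient_dvd_card U)).trans (card_subgroup_dvd_card L))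
    (fun p q _ _ _ e => (e.of_surj _ (QuotientGroup.mk'_surjective U)).of_inj _ L.subtype_injective)
    (fun p q hp hq hpq d1 d2 => by
      rw [h1, hk] at d1
      rw [QuotientGroup.ker_mk'] at d2
      obtain rfl := (Nat.prime_dvd_prime_iff_eq hp hr).1 (hp.dvd_of_dvd_pow d1)
      exact hE q hq hpq d2)
  refine ⟨W, inferInstance, inferInstance, a, cl_of_isPGroup hr b (fun e => ?_)
    (IsPGroup.of_card (c.trans (h1.trans hk)))⟩
  have c' := (Grp.isComplement'_pCore_pPrimeCore_of_isNilpotent (G := D) r).card_mul_card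
  rw [← h1, ← c, e, card_bot, one_mul] at c'
  exact Grp.not_dvd_card_pPrimeCore r D (c' ▸ hd)

theorem case2 {H : Type} [Group H] [Finite H] {N L V : Subgroup H} [N.Normal] (h : L ⊔ N = ⊤)
    (hV : IsPGroup 2 V) (hV0 : V ≠ ⊥) (hVc : ∀ a b : V, a * b = b * a)
    (hLV : L ≤ normalizer (V : Set H)) (h2 : 2 ∣ Nat.card N)
    (hN : ∀ q : ℕ, q.Prime → 2 ≠ q → q ∣ Nat.card N → E H 2 q)
    (hbad : ∀ r : ℕ, r.Prime → r ∣ Nat.card (N.subgroupOf L) →
      ∃ q : ℕ, q.Prime ∧ r ≠ q ∧ q ∣ Nat.card N ∧ ¬ E H r q) :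
    ∃ (W : Type) (_ : Group W) (_ : Finite W), Same H W ∧ Cl W := by
  have := (nontrivial_iff_ne_bot V).2 hV0
  set D := N.subgroupOf L with hD
  have hDN : Nat.card D ∣ Nat.card N := by
    rw [← card_map_of_injective (K := D) L.subtype_injective, subgroupOf_map_subtype]
    exact card_dvd_of_le inf_le_left
  have hD2 : ¬ 2 ∣ Nat.card D := fun d => by
    obtain ⟨q, a, b, c, e⟩ := hbad 2 Nat.prime_two d
    exact e (hN q a b c)
  let ρ : L →* MulAut V := V.normalizerMonoidHom.comp (inclusion hLV)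
  let σ := ρ.rangeRestrict
  have hσ : Function.Surjective σ := ρ.rangeRestrict_surjective
  let A : Set L := {l | (orderOf l).Prime ∧ orderOf l ≠ 2 ∧ ¬ E H 2 (orderOf l)}
  have hA : ∀ l ∈ A, ¬ orderOf l ∣ Nat.card N := fun l hl d => hl.2.2 (hN _ hl.1 hl.2.1.symm d)
  have hfix : ∀ l ∈ A, ∀ v ∈ V, Commute (l : H) v → v = 1 := fun l hl v hv hc => by
    by_contra e
    refine hl.2.2 (E.of_commute Nat.prime_two hl.1 hl.2.1.symm ?_ (orderOf_coe l).symm.dvd hc.symm)
    simpa using hV.dvd_orderOf (g := ⟨v, hv⟩) (fun e' => e (congrArg Subtype.val e'))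
  let F := D.map σ
  have : F.Normal := Normal.map inferInstance σ hσ
  obtain ⟨k, hk⟩ := hV.exists_card_eq
  have hc : closure (σ '' A) ≤ centralizer (F : Set ρ.range) := by
    rw [closure_le]
    rintro _ ⟨l, hl, rfl⟩ _ ⟨d, hd, rfl⟩
    have hcard : Nat.card (zpowers (l : H)) = orderOf l := by rw [Nat.card_zpowers, orderOf_coe]
    have hK : Nat.card ↥(N ⊓ L) = Nat.card D := by
      rw [← card_map_of_injective (K := D) L.subtype_injective, subgroupOf_map_subtype]
    have hh := FT.hall_higman_solv (K := N ⊓ L) (R := zpowers (l : H)) (hcard ▸ hl.1)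
      ((zpowers_le.2 l.2).trans (le_trans (by
        rw [normalizer_eq_top (H := N)]; exact le_inf le_top le_normalizer)
          inf_normalizer_le_normalizer_inf))
      (by
        rw [hcard, hK]
        exact ((Nat.Prime.coprime_iff_not_dvd hl.1).2 fun e => hA l hl (e.trans hDN)).symm)
      (fun Q hQ hQ2 _ => FT.Rep.abelian_of_two_group_of_odd
        (by rw [hK]; exact Nat.not_even_iff_odd.1 fun e => hD2 e.two_dvd) hQ hQ2)
      V (by have := hV.isNilpotent; infer_instance) (inf_le_right.trans hLV)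
      ((zpowers_le.2 l.2).trans hLV)
      (by
        rw [hK, hk]
        exact Nat.Coprime.pow_right _ ((Nat.Prime.coprime_iff_not_dvd Nat.prime_two).2 hD2).symm)
      (by
        rw [hcard, hk]
        exact Nat.Coprime.pow_right _ ((Nat.coprime_primes hl.1 Nat.prime_two).2 hl.2.1))
      (by
        rw [eq_bot_iff]
        rintro v ⟨hv1, hv2⟩
        exact hfix l hl v hv1 (hv2 l (mem_zpowers _)))
      (commutator_mem_commutator (show (d : H) ∈ N ⊓ L from ⟨hd, d.2⟩) (mem_zpowers (l : H)))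
    rw [← commutatorElement_eq_one_iff_mul_comm, ← map_commutatorElement]
    refine Subtype.ext (MulEquiv.ext fun v => Subtype.ext ?_)
    have := hh v v.2
    change (⁅(d : H), (l : H)⁆) * v * (⁅(d : H), (l : H)⁆)⁻¹ = v
    rw [← this, mul_inv_cancel_right]
  obtain ⟨ψ, hψ1, hψ2⟩ := exists_lift h ((QuotientGroup.mk' F).comp σ) (fun d hd =>
    (QuotientGroup.eq_one_iff _).2 (mem_map_of_mem σ hd))
  have hψ : Function.Surjective ψ := fun y => by
    obtain ⟨l, rfl⟩ := ((QuotientGroup.mk'_surjective F).comp hσ) y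
    exact ⟨l, hψ2 l⟩
  have hZ : closure (σ '' A) ⊓ F = ⊥ := by
    by_contra e
    obtain ⟨r, hr, hd⟩ := Nat.exists_prime_and_dvd ((one_lt_card_iff_ne_bot _).2 e).ne'
    have hrD : r ∣ Nat.card D := hd.trans ((card_dvd_of_le inf_le_right).trans (card_map_dvd _ _))
    obtain ⟨q, a, b, c, e'⟩ := hbad r hr hrD
    refine not_dvd_of_cyc _ F hc hr ?_ (cyc N ψ hψ hψ1 hr a (by rintro rfl; exact hD2 hrD) b c e') hd
    rintro _ ⟨l, hl, rfl⟩ d
    obtain rfl := (Nat.prime_dvd_prime_iff_eq hr hl.1).1 (d.trans (orderOf_map_dvd σ l))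
    exact hA l hl (hrD.trans hDN)
  let ι : closure (σ '' A) →* _ := (QuotientGroup.mk' F).comp (closure (σ '' A)).subtype
  have hι : Function.Injective ι := by
    rw [injective_iff_map_eq_one]
    intro a ha
    exact Subtype.ext (mem_bot.1 (hZ.le ⟨a.2, (QuotientGroup.eq_one_iff _).1 ha⟩))
  let θ : ι.range.comap ψ →* MulAut V := (ρ.range.subtype.comp (closure (σ '' A)).subtype).comp
    ((MonoidHom.ofInjective hι).symm.toMonoidHom.comp (ψ.subgroupComap ι.range))
  refine exists_coind (ι.range.comap ψ) θ hV hVc (h2.trans (card_subgroup_dvd_card N))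
    fun x hp hp2 hE => ?_
  obtain ⟨l, e1, e2⟩ := exists_elt h hp (fun d => hE (hN _ hp hp2.symm d))
  have hl : l ∈ A := ⟨e1 ▸ hp, e1 ▸ hp2, e1 ▸ hE⟩
  have e3 : ι ⟨σ l, subset_closure ⟨l, hl, rfl⟩⟩ = ψ x := by
    have := hψ1 e2
    rw [MonoidHom.mem_ker, map_mul, map_inv, inv_mul_eq_one, hψ2] at this
    exact this.symm
  refine ⟨⟨_, e3⟩, fun t ht => ?_⟩
  have e4 : θ ⟨x, ⟨_, e3⟩⟩ = ρ l := by
    have : ψ.subgroupComap ι.range ⟨x, ⟨_, e3⟩⟩ =
        MonoidHom.ofInjective hι ⟨σ l, subset_closure ⟨l, hl, rfl⟩⟩ := Subtype.ext e3.symm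
    simp only [θ, MonoidHom.comp_apply, this]
    simp [σ]
  rw [e4] at ht
  have : (l : H) * t * (l : H)⁻¹ = t := congrArg Subtype.val ht
  exact Subtype.ext (hfix l hl t t.2 (mul_inv_eq_iff_eq_mul.1 this))

theorem mc {H : Type} [Group H] [Finite H] (N : Subgroup H) [N.Normal] (h2 : 2 ∣ Nat.card N)
    (hN : ∀ q : ℕ, q.Prime → 2 ≠ q → q ∣ Nat.card N → E H 2 q) :
    ∃ (W : Type) (_ : Group W) (_ : Finite W), Same H W ∧ Cl W := by
  obtain ⟨Q⟩ : Nonempty (Sylow 2 N) := inferInstance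
  have hF := Q.normalizer_sup_eq_top
  set T := (Q : Subgroup N).map N.subtype with hT
  have hT2 : IsPGroup 2 T := Q.isPGroup'.map _
  have hT0 : T ≠ ⊥ := by
    rw [hT, Ne, map_eq_bot_iff_of_injective _ N.subtype_injective]
    exact Q.ne_bot_of_dvd_card h2
  obtain ⟨L, ⟨h, hL⟩, hmin⟩ := (wellFounded_lt (α := Subgroup H)).has_min
    {L | L ⊔ N = ⊤ ∧ L ≤ normalizer (T : Set H)} ⟨_, hF, le_rfl⟩
  have := nilp h fun L0 a b => by
    by_contra e
    exact hmin L0 ⟨b, a.trans hL⟩ (lt_of_le_of_ne a e)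
  by_cases e : ∃ r : ℕ, r.Prime ∧ r ∣ Nat.card (N.subgroupOf L) ∧
      ∀ q : ℕ, q.Prime → r ≠ q → q ∣ Nat.card N → E H r q
  · obtain ⟨r, a, b, c⟩ := e
    exact case1 h a b c
  push Not at e
  have := (nontrivial_iff_ne_bot T).2 hT0
  refine case2 (V := (center T).map T.subtype) h ((hT2.to_subgroup _).map _) ?_ ?_ ?_ h2 hN e
  · rw [Ne, map_eq_bot_iff_of_injective _ T.subtype_injective, ← Ne, ← nontrivial_iff_ne_bot]
    exact hT2.center_nontrivial
  · rintro ⟨_, a, ha, rfl⟩ ⟨_, b, hb, rfl⟩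
    exact Subtype.ext ((show ((a * b : T) : H) = (b * a : T) by rw [mem_center_iff.1 hb a]))
  · exact hL.trans (Grp.normalizer_le_normalizer_map_of_characteristic _ _)

theorem main {H : Type} [Group H] [Finite H] [Nontrivial H]
    (hn : ¬ ∃ (W : Type) (_ : Group W) (_ : Finite W), Same H W ∧ Cl W) :
    ∃ N : Subgroup H, N.Normal ∧ IsSimpleGroup ↥N ∧ ¬ IsMulCommutative ↥N ∧
      Subgroup.centralizer (N : Set H) = ⊥ := by
  have hc : ¬ Cl H := fun c => hn ⟨H, inferInstance, inferInstance, Same.refl, c⟩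
  have hs : ∀ N : Subgroup H, N.Normal → N ≠ ⊥ → ¬ Group.IsSolvable N := fun N _ h0 _ => by
    obtain ⟨p, M, a, b, c, -, -, -, d, -⟩ := Grp.exists_minNormal_elementaryAbelian_le N h0
    exact hc (cl_of_isPGroup a b c d)
  have he : ∀ N : Subgroup H, N.Normal → N ≠ ⊥ → 2 ∣ Nat.card N := fun N a b => by
    by_contra e
    exact hs N a b (S0205.result (Nat.not_even_iff_odd.1 fun e' => e e'.two_dvd))
  obtain ⟨S, hS, h0, hmin⟩ := Grp.exists_minNormal H
  have := (nontrivial_iff_ne_bot S).2 h0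
  refine ⟨S, hS, ?_, fun e => hs S hS h0 (Group.isSolvable_of_comm e.is_comm.comm), ?_⟩
  · obtain ⟨B, hB, hB0, hBm⟩ := Grp.exists_minNormal S
    by_cases e : B = ⊤
    · exact ⟨fun K hK => e ▸ hBm K hK (e ▸ le_top)⟩
    refine absurd ⟨S, hS, h0, fun p q hp hq hpq d1 d2 => ?_⟩ hc
    have hd : ∀ r : ℕ, r.Prime → r ∣ Nat.card S → r ∣ Nat.card B := fun r hr d => by
      by_contra e'
      have := Fact.mk hr
      have a := Grp.le_pPrimeCore hB ((Nat.Prime.coprime_iff_not_dvd hr).2 e').symm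
      rcases hmin _ (Grp.normal_map_subtype_of_characteristic S (pPrimeCore r S))
        (map_subtype_le _) with b | b
      · rw [map_eq_bot_iff_of_injective _ S.subtype_injective] at b
        exact hB0 (le_bot_iff.1 (b ▸ a))
      · refine Grp.not_dvd_card_pPrimeCore r S ?_
        rwa [← card_map_of_injective (K := pPrimeCore r S) S.subtype_injective, b]
    obtain ⟨g, hg⟩ : ∃ g : H, ¬ B ≤ B.comap (MulAut.conjNormal g : MulAut S).toMonoidHom := by
      by_contra e'
      push Not at e'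
      rcases hmin (B.map S.subtype) ⟨by
        rintro _ ⟨b, hb, rfl⟩ g
        exact ⟨_, e' g hb, rfl⟩⟩ (map_subtype_le _) with b | b
      · exact hB0 ((map_eq_bot_iff_of_injective _ S.subtype_injective).1 b)
      · apply e
        apply map_injective S.subtype_injective
        rw [b, ← MonoidHom.range_eq_map, range_subtype]
    set B' := B.comap (MulAut.conjNormal g : MulAut S).toMonoidHom with hB'
    have hdis : Disjoint B B' := by
      rcases hBm (B ⊓ B') inferInstance inf_le_left with b | b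
      · exact disjoint_iff.2 b
      · exact absurd (inf_eq_left.1 b) hg
    have := Fact.mk hp
    have := Fact.mk hq
    obtain ⟨x, hx⟩ := exists_prime_orderOf_dvd_card' p (hd p hp d1)
    obtain ⟨y, hy⟩ := exists_prime_orderOf_dvd_card' q (hd q hq d2)
    refine E.of_inj S.subtype S.subtype_injective (E.of_commute hp hq hpq (x := x)
      (y := (MulAut.conjNormal g : MulAut S).symm y) (by rw [orderOf_coe, hx])
      (by rw [MulEquiv.orderOf_eq, orderOf_coe, hy]) ?_)
    exact commute_of_normal_of_disjoint B B' hB inferInstance hdis _ _ x.2 (by simp [hB'])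
  · by_contra e
    obtain ⟨⟨t, ht⟩, ht2⟩ := exists_prime_orderOf_dvd_card' 2 (he _ inferInstance e)
    rw [orderOf_mk] at ht2
    refine hn (mc S (he S hS h0) fun q hq h2 d => ?_)
    have := Fact.mk hq
    obtain ⟨⟨y, hy⟩, hy2⟩ := exists_prime_orderOf_dvd_card' q d
    rw [orderOf_mk] at hy2
    exact E.of_commute Nat.prime_two hq h2 ht2.symm.dvd hy2.symm.dvd (ht y hy).symm


/-- The prime graph of a finite group has the prime divisors of its order as vertices, two distinct primes p, q being joined when the group has an element of order pq; two groups have the same prime graph when they have the same prime divisors and the same joined pairs. Suppose only finitely many finite groups, up to isomorphism, have the same prime graph as the non-trivial finite group G (equivalently, their orders are bounded). Then G is almost simple (it has a non-abelian simple normal subgroup with trivial centralizer), and so is every finite group with the same prime graph as G. -/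
theorem result {G : Type*} [Group G] [Finite G] [Nontrivial G]
    (h : ∃ n : ℕ, ∀ (H : Type) [Group H] [Finite H],
      ((∀ p : ℕ, p.Prime → (p ∣ Nat.card G ↔ p ∣ Nat.card H)) ∧
      (∀ p q : ℕ, p.Prime → q.Prime → p ≠ q → ((∃ g : G, orderOf g = p * q) ↔ (∃ g : H, orderOf g = p * q)))) → Nat.card H ≤ n) :
    (∃ N : Subgroup G, N.Normal ∧ IsSimpleGroup ↥N ∧ ¬ IsMulCommutative ↥N ∧ Subgroup.centralizer (N : Set G) = ⊥) ∧
    ∀ (H : Type) [Group H] [Finite H],
      ((∀ p : ℕ, p.Prime → (p ∣ Nat.card G ↔ p ∣ Nat.card H)) ∧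
      (∀ p q : ℕ, p.Prime → q.Prime → p ≠ q → ((∃ g : G, orderOf g = p * q) ↔ (∃ g : H, orderOf g = p * q)))) →
      ∃ N : Subgroup H, N.Normal ∧ IsSimpleGroup ↥N ∧ ¬ IsMulCommutative ↥N ∧ Subgroup.centralizer (N : Set H) = ⊥ := by
  obtain ⟨n, hn⟩ := h
  have key : ∀ (H : Type) [Group H] [Finite H], Same G H → ∃ N : Subgroup H, N.Normal ∧
      IsSimpleGroup ↥N ∧ ¬ IsMulCommutative ↥N ∧ Subgroup.centralizer (N : Set H) = ⊥ := by
    intro H _ _ hs
    obtain ⟨p, hp, hd⟩ := Nat.exists_prime_and_dvd (Finite.one_lt_card (α := G)).ne'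
    have : Nontrivial H := Finite.one_lt_card_iff_nontrivial.1
      (hp.one_lt.trans_le (Nat.le_of_dvd Nat.card_pos ((hs.1 p hp).1 hd)))
    refine main ?_
    rintro ⟨W, _, _, a, b⟩
    obtain ⟨W', _, _, a', -, c⟩ := b.unbounded n
    exact absurd (hn W' ((hs.trans a).trans a')) c.not_ge
  refine ⟨?_, key⟩
  obtain ⟨H, _, _, ⟨e⟩⟩ : ∃ (H : Type) (_ : Group H) (_ : Finite H), Nonempty (H ≃* G) := by
    let e := Finite.equivFin G
    let _ := e.symm.group
    exact ⟨_, _, inferInstance, ⟨e.symm.mulEquiv⟩⟩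
  obtain ⟨N, a, b, c, d⟩ := key H (same_of_equiv e)
  refine ⟨N.map e.toMonoidHom, a.map _ e.surjective, ?_, fun c' => c ?_, ?_⟩
  · exact (e.subgroupMap N).symm.isSimpleGroup
  · exact ⟨⟨fun x y => (e.subgroupMap N).injective (by
      rw [map_mul, map_mul]; exact c'.is_comm.comm _ _)⟩⟩
  · rw [eq_bot_iff]
    intro x hx
    obtain ⟨x, rfl⟩ := e.surjective x
    have : x ∈ centralizer (N : Set H) := fun y hy => e.injective (by
      simpa using hx _ ⟨y, hy, rfl⟩)
    rw [d, mem_bot] at this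
    simp [this]

end Cfsg.Agent.S3526
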