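import Cfsg.Statements.S3532
import Mathlib
import Cfsg.Agent.Misc.SpecL2
import Cfsg.Agent.Misc.SpecFun

set_option autoImplicit false
open Cfsg

namespace Cfsg.Agent.S3532

/-- Let q ≥ 4 be a prime power and L = PSL(2,q). There is a finite solvable group with the same set of element orders as L × L (so L × L is not determined by its spectrum). -/
theorem result {F : Type*} [Field F] [Fintype F] (hF : 4 ≤ Fintype.card F) :
    ∃ (H : Type) (_ : Group H) (_ : Finite H), Group.IsSolvable H ∧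
      Set.range (orderOf : H → ℕ) = Set.range (orderOf : Matrix.ProjectiveSpecialLinearGroup (Fin 2) F × Matrix.ProjectiveSpecialLinearGroup (Fin 2) F → ℕ) := by
  obtain ⟨p, hpF⟩ := CharP.exists F
  obtain ⟨k, hp, hk⟩ := FiniteField.card F p
  haveI := Fact.mk hp
  have hq : p ∣ Nat.card F := by
    rw [Nat.card_eq_fintype_card, hk]; exact dvd_pow_self _ k.ne_zero
  have h1 : 1 < Nat.card F := Finite.one_lt_card
  have hL := fun n => Misc.Spec.mem_range_orderOf_PSL2 (F := F) p n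
  have ha : ¬ p ∣ (Nat.card F - 1) / Nat.gcd 2 (Nat.card F - 1) := by
    intro h
    have := h.trans (Nat.div_dvd_of_dvd (Nat.gcd_dvd_right _ _))
    have := (Nat.dvd_sub_iff_right h1.le hq).1 this
    exact hp.ne_one (Nat.dvd_one.1 this)
  have hb : ¬ p ∣ (Nat.card F + 1) / Nat.gcd 2 (Nat.card F - 1) := by
    intro h
    have := h.trans (Nat.div_dvd_of_dvd Misc.Spec.gcd_two_dvd_add_one)
    have := (Nat.dvd_add_right hq).1 this
    exact hp.ne_one (Nat.dvd_one.1 this)
  generalize (Nat.card F - 1) / Nat.gcd 2 (Nat.card F - 1) = a at *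
  generalize (Nat.card F + 1) / Nat.gcd 2 (Nat.card F - 1) = b at *
  obtain ⟨A, a1, a2, a3, hA⟩ := Misc.Spec.exists_frob_spec p hp a ha
  obtain ⟨B, b1, b2, b3, hB⟩ := Misc.Spec.exists_frob_spec p hp b hb
  refine ⟨A × B, inferInstance, inferInstance, inferInstance, ?_⟩
  ext n
  rw [Misc.Spec.mem_range_orderOf_prod, Misc.Spec.mem_range_orderOf_prod]
  simp only [hA, hB, hL]
  constructor
  · rintro ⟨x, hx, y, hy, rfl⟩
    exact ⟨x, by tauto, y, by tauto, rfl⟩
  · rintro ⟨x, hx | hx | hx, y, hy | hy | hy, rfl⟩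
    · exact ⟨x, by tauto, y, by tauto, rfl⟩
    · exact ⟨y, by tauto, x, by tauto, Nat.lcm_comm _ _⟩
    · exact ⟨x, by tauto, y, by tauto, rfl⟩
    · exact ⟨x, by tauto, y, by tauto, rfl⟩
    · exact ⟨x.lcm y, Or.inr (Nat.lcm_dvd hx hy), 1, Or.inl (one_dvd _), Nat.lcm_one_right _⟩
    · exact ⟨x, by tauto, y, by tauto, rfl⟩
    · exact ⟨y, by tauto, x, by tauto, Nat.lcm_comm _ _⟩
    · exact ⟨y, by tauto, x, by tauto, Nat.lcm_comm _ _⟩
    · exact ⟨1, Or.inl (one_dvd _), x.lcm y, Or.inr (Nat.lcm_dvd hx hy), Nat.lcm_one_left _⟩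

end Cfsg.Agent.S3532
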