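import Cfsg.Statements.S3547
import Mathlib
import Cfsg.Agent.Perm.Derangement

set_option autoImplicit false
open Cfsg

namespace Cfsg.Agent.S3547

/-- Let G act faithfully and transitively on a finite set Ω, let D be the subgroup generated by the derangements, and let r_G and r_D be the numbers of orbits of G and of D on ordered pairs of points (the permutation ranks). Then r_D − 1 = (r_G − 1)·[G : D]. -/
theorem result {G Ω : Type*} [Group G] [Finite G] [MulAction G Ω] [FaithfulSMul G Ω] [Finite Ω]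
    (htrans : MulAction.IsPretransitive G Ω) :
    Nat.card (MulAction.orbitRel.Quotient ↥(Subgroup.closure {g : G | ∀ ω : Ω, g • ω ≠ ω}) (Ω × Ω)) - 1 =
      (Nat.card (MulAction.orbitRel.Quotient G (Ω × Ω)) - 1) * (Subgroup.closure {g : G | ∀ ω : Ω, g • ω ≠ ω}).index := by
  classical
  rcases isEmpty_or_nonempty Ω with hΩ | hΩ
  · simp
  have := Fintype.ofFinite G
  set D := Perm.Der.derSub G Ω with hD
  have h1 := Perm.Der.burnside G (Ω × Ω)
  have h2 := Perm.Der.burnside_subgroup (Ω := Ω × Ω) D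
  rw [← Finset.sum_filter_add_sum_filter_not Finset.univ (· ∈ D), h2] at h1
  have h3 := Finset.card_filter_add_card_filter_not (s := (Finset.univ : Finset G)) (· ∈ D)
  rw [Perm.Der.card_filter_mem, Finset.card_univ, ← Nat.card_eq_fintype_card] at h3
  have h4 : ∑ g ∈ Finset.univ.filter (fun g => ¬ g ∈ D), Nat.card (MulAction.fixedBy (Ω × Ω) g) =
      (Finset.univ.filter (fun g => ¬ g ∈ D)).card := by
    rw [Finset.card_eq_sum_ones]
    refine Finset.sum_congr rfl fun g hg => ?_
    rw [Perm.Der.card_fixedBy_prod, (Perm.Der.derSub_main htrans).2 g (Finset.mem_filter.1 hg).2]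
  rw [h4] at h1
  have h5 := D.card_mul_index
  have hpos : 0 < Nat.card D := Nat.card_pos
  have n1 : Nonempty (MulAction.orbitRel.Quotient G (Ω × Ω)) :=
    ⟨Quotient.mk _ (Classical.arbitrary _)⟩
  have n2 : Nonempty (MulAction.orbitRel.Quotient D (Ω × Ω)) :=
    ⟨Quotient.mk _ (Classical.arbitrary _)⟩
  have hG : 0 < Nat.card (MulAction.orbitRel.Quotient G (Ω × Ω)) := Nat.card_pos
  have hDp : 0 < Nat.card (MulAction.orbitRel.Quotient D (Ω × Ω)) := Nat.card_pos
  obtain ⟨a, ha⟩ : ∃ a, Nat.card (MulAction.orbitRel.Quotient G (Ω × Ω)) = a + 1 := ⟨_, (Nat.succ_pred_eq_of_pos hG).symm⟩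
  obtain ⟨b, hb⟩ : ∃ b, Nat.card (MulAction.orbitRel.Quotient D (Ω × Ω)) = b + 1 := ⟨_, (Nat.succ_pred_eq_of_pos hDp).symm⟩
  rw [ha, hb] at h1 ⊢
  simp only [Nat.add_sub_cancel]
  apply Nat.eq_of_mul_eq_mul_right hpos
  rw [mul_assoc, mul_comm D.index, h5]
  nlinarith

end Cfsg.Agent.S3547
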