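import Cfsg.Statements.S3548
import Mathlib
import Cfsg.Agent.Perm.Derangement

set_option autoImplicit false
open Cfsg

namespace Cfsg.Agent.S3548

/-- Let G act faithfully and transitively on a finite set with n ≥ 2 points and let D be the subgroup generated by the derangements. Then the index of D in G divides n − 1, and if it equals n − 1 then n is a prime power. -/
theorem result {G Ω : Type*} [Group G] [Finite G] [MulAction G Ω] [FaithfulSMul G Ω] [Finite Ω]
    (htrans : MulAction.IsPretransitive G Ω) (hΩ : 2 ≤ Nat.card Ω) :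
    (Subgroup.closure {g : G | ∀ ω : Ω, g • ω ≠ ω}).index ∣ Nat.card Ω - 1 ∧
    ((Subgroup.closure {g : G | ∀ ω : Ω, g • ω ≠ ω}).index = Nat.card Ω - 1 → IsPrimePow (Nat.card Ω)) := by
  have hnt : Nontrivial Ω := Finite.one_lt_card_iff_nontrivial.1 hΩ
  refine ⟨Perm.Der.index_dvd_card_sub_one htrans, fun h => ?_⟩
  obtain ⟨α⟩ : Nonempty Ω := inferInstance
  set D := Perm.Der.derSub G Ω with hD
  have hDn : D.Normal := Perm.Der.derSub_normal
  have hDt := (Perm.Der.derSub_main htrans).1
  have key : ∀ β : Ω, β ≠ α → MulAction.orbit (MulAction.stabilizer G α) β = {α}ᶜ ∧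
      D ⊓ MulAction.stabilizer G α ≤ MulAction.stabilizer G β := by
    intro β hβ
    have hsub : MulAction.orbit (MulAction.stabilizer G α) β ⊆ {α}ᶜ := by
      rintro _ ⟨g, rfl⟩ e
      exact hβ (MulAction.injective (g : G) (e.trans (show (g : G) • α = α from g.2).symm))
    have h1 := Set.ncard_le_ncard hsub
    have h2 := Perm.Der.ncard_orbit_subgroup (MulAction.stabilizer G α) β
    have h3 := Perm.Der.relIndex_two_point htrans hβ
    have h4 : ({α}ᶜ : Set Ω).ncard = Nat.card Ω - 1 := by rw [Set.ncard_compl, Set.ncard_singleton]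
    have h5 : (MulAction.stabilizer G β).relIndex (D ⊓ MulAction.stabilizer G α) ≠ 0 :=
      Subgroup.index_ne_zero_of_finite
    rw [← hD, h] at h3
    have h6 : (MulAction.stabilizer G β).relIndex (D ⊓ MulAction.stabilizer G α) = 1 := by
      by_contra h6
      have : 2 * (Nat.card Ω - 1) ≤ (MulAction.stabilizer G β).relIndex (D ⊓ MulAction.stabilizer G α) * (Nat.card Ω - 1) :=
        Nat.mul_le_mul_right _ (by omega)
      omega
    refine ⟨Set.eq_of_subset_of_ncard_le hsub (by rw [h2, h3, h6, h4, one_mul]), ?_⟩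
    exact Subgroup.relIndex_eq_one.1 h6
  have hreg : ∀ d ∈ D, d • α = α → d = 1 := by
    intro d hd hdα
    apply eq_of_smul_eq_smul (α := Ω)
    intro y
    rw [one_smul]
    by_cases hy : y = α
    · rw [hy, hdα]
    · exact (key y hy).2 ⟨hd, hdα⟩
  have hcard : Nat.card D = Nat.card Ω := by
    have h1 := MulAction.index_stabilizer_of_transitive D α
    have h2 : MulAction.stabilizer D α = ⊥ := by
      rw [eq_bot_iff]
      intro d hd
      exact Subgroup.mem_bot.2 (Subtype.ext (hreg d d.2 hd))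
    rwa [h2, Subgroup.index_bot] at h1
  have hord : ∀ d ∈ D, ∀ d' ∈ D, d ≠ 1 → d' ≠ 1 → orderOf d = orderOf d' := by
    intro d hd d' hd' h1 h1'
    have h2 : d' • α ∈ MulAction.orbit (MulAction.stabilizer G α) (d • α) := by
      rw [(key _ fun e => h1 (hreg d hd e)).1]
      exact fun e => h1' (hreg d' hd' e)
    obtain ⟨g, hg⟩ := h2
    have h3 : d'⁻¹ * (g * d * (g : G)⁻¹) = 1 := by
      apply hreg _ (mul_mem (inv_mem hd') (hDn.conj_mem d hd g))
      have h4 : (g : G)⁻¹ • α = α := (MulAction.stabilizer G α).inv_mem g.2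
      rw [mul_smul, mul_smul, mul_smul, h4, inv_smul_eq_iff]
      exact hg
    rw [inv_mul_eq_one.1 h3]
    exact ((MulAut.conj (g : G)).orderOf_eq d).symm
  rw [← hcard, isPrimePow_iff_unique_prime_dvd]
  obtain ⟨p, hp, hpd⟩ := Nat.exists_prime_and_dvd (n := Nat.card D) (by omega)
  refine ⟨p, ⟨hp, hpd⟩, ?_⟩
  rintro q ⟨hq, hqd⟩
  have := Fact.mk hp
  have := Fact.mk hq
  obtain ⟨a, ha⟩ := exists_prime_orderOf_dvd_card' p hpd
  obtain ⟨b, hb⟩ := exists_prime_orderOf_dvd_card' q hqd
  rw [← Subgroup.orderOf_coe] at ha hb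
  rw [← ha, ← hb]
  refine hord b b.2 a a.2 ?_ ?_
  · intro e; rw [e, orderOf_one] at hb; exact hq.one_lt.ne hb
  · intro e; rw [e, orderOf_one] at ha; exact hp.one_lt.ne ha

end Cfsg.Agent.S3548
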