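import Cfsg.Statements.S3550
import Cfsg.Agent.DrG.Top

set_option autoImplicit false
open Cfsg

namespace Cfsg.Agent.S3550

/-- Let G act faithfully and primitively on a finite set with n ≥ 2 points and suppose G has no non-trivial abelian normal subgroup (G is not of affine type). Let D be the subgroup generated by the derangements. Then the index of D in G is at most √n − 1. -/
theorem result {G Ω : Type*} [Group G] [Finite G] [MulAction G Ω] [FaithfulSMul G Ω] [Finite Ω]
    (hprim : MulAction.IsPreprimitive G Ω) (hΩ : 2 ≤ Nat.card Ω) (hna : ∀ N : Subgroup G, N.Normal → IsMulCommutative ↥N → N = ⊥) :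
    ((Subgroup.closure {g : G | ∀ ω : Ω, g • ω ≠ ω}).index : ℝ) ≤ Real.sqrt (Nat.card Ω) - 1 := by
  have htr := hprim.toIsPretransitive
  have hnt : Nontrivial Ω := Finite.one_lt_card_iff_nontrivial.1 hΩ
  rcases le_or_gt (Nat.card Ω) 3 with h3 | h3
  · have hb := hna _ (Perm.Der.derSub_normal (G := G) (Ω := Ω))
      (Subgroup.isMulCommutative_closure fun g hg k hk =>
        eq_of_smul_eq_smul (α := Ω) (DrG.der_comm h3 hg hk))
    obtain ⟨a, b, ab⟩ := exists_pair_ne Ω
    obtain ⟨d, hd⟩ := (Perm.Der.derSub_main htr).1.exists_smul_eq a b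
    have e : (d : G) = 1 := Subgroup.mem_bot.1 (hb.le d.2)
    rw [Subgroup.smul_def, e, one_smul] at hd
    exact (ab hd).elim
  refine (DrG.ex_or htr h3).resolve_left fun h => ?_
  obtain ⟨V, α, hV⟩ := h.exists_reg
  have hb := hna V (hV.normal h) ⟨⟨fun a b => Subtype.ext (hV.comm _ a.2 _ b.2)⟩⟩
  obtain ⟨β, hβ⟩ := exists_ne α
  obtain ⟨v, hv, e⟩ := hV.tr β
  rw [Subgroup.mem_bot.1 (hb.le hv), one_smul] at e
  exact hβ e.symm

end Cfsg.Agent.S3550
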