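import Cfsg.Statements.S3559
import Mathlib
import Cfsg.Agent.Perm.BGroup

set_option autoImplicit false
open Cfsg

namespace Cfsg.Agent.S3559

/-- Let G act faithfully and transitively on a finite set whose number of points n ≥ 2 is not a prime power, and suppose G has a cyclic subgroup acting regularly (transitively with trivial point stabilizers). Then G is imprimitive or doubly transitive. -/
theorem result {G Ω : Type*} [Group G] [Finite G] [MulAction G Ω] [FaithfulSMul G Ω] [Finite Ω]
    (htrans : MulAction.IsPretransitive G Ω) (hn : 2 ≤ Nat.card Ω) (hnp : ¬ IsPrimePow (Nat.card Ω))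
    (C : Subgroup G) (hcyc : IsCyclic ↥C) (hC : MulAction.IsPretransitive ↥C Ω ∧ ∀ a : Ω, MulAction.stabilizer ↥C a = ⊥) :
    ¬ MulAction.IsPreprimitive G Ω ∨ MulAction.IsMultiplyPretransitive G Ω 2 := by
  by_contra hcon
  rw [not_or, not_not] at hcon
  letI := hcyc.commGroup
  haveI : Nonempty Ω := (Nat.card_pos_iff.1 (by omega)).1
  obtain ⟨α⟩ := ‹Nonempty Ω›
  have hreg : Function.Bijective fun h : C => C.subtype h • α := by
    refine ⟨fun x y h => ?_, fun b => hC.1.exists_smul_eq α b⟩
    have : y⁻¹ * x ∈ MulAction.stabilizer C α := by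
      rw [MulAction.mem_stabilizer_iff, mul_smul, inv_smul_eq_iff]; exact h
    rw [hC.2] at this
    exact (inv_mul_eq_one.1 this).symm
  have hc : Nat.card C = Nat.card Ω := Nat.card_eq_of_bijective _ hreg
  have hp := Nat.minFac_prime (n := Nat.card Ω) (by omega)
  refine (Perm.BGroup.imprimitive_of_not_two_trans C.subtype α hreg hp ?_ ?_ hcon.2).1 hcon.1
  · have := IsCyclic.card_powMonoidHom_ker C (Nat.card Ω).minFac
    rw [hc, Nat.gcd_eq_right (Nat.minFac_dvd _)] at this
    exact this
  · rw [hc]
    refine lt_of_le_of_ne (Nat.minFac_le (by omega)) fun h => hnp (h ▸ hp.isPrimePow)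

end Cfsg.Agent.S3559
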