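import Cfsg.Statements.S3560
import Mathlib


set_option autoImplicit false
open Cfsg

namespace Cfsg.Agent.S3560

/-- adjacency in the Hamming graph -/
def Adj {ι X : Type*} (y z : ι → X) : Prop := ∃ i, y i ≠ z i ∧ ∀ j, j ≠ i → y j = z j

theorem exists_perm {X : Type*} {a a' b b' : X} (h : a = a' ↔ b = b') :
    ∃ σ : Equiv.Perm X, σ a = b ∧ σ a' = b' := by
  classical
  by_cases h1 : a = a'
  · exact ⟨Equiv.swap a b, by simp, by rw [← h1, ← h.1 h1]; simp⟩
  · refine ⟨Equiv.swap (Equiv.swap a b a') b' * Equiv.swap a b, ?_, by simp⟩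
    rw [Equiv.Perm.mul_apply, Equiv.swap_apply_left, Equiv.swap_apply_of_ne_of_ne]
    · intro h2
      exact h1 ((Equiv.swap a b).injective ((Equiv.swap_apply_left a b).trans h2))
    · exact fun h2 => h1 (h.2 h2)

/-- the wreath product elements -/
def wr {ι X : Type*} (σ : ι → Equiv.Perm X) (ρ : Equiv.Perm ι) : Equiv.Perm (ι → X) :=
  (Equiv.arrowCongr ρ.symm (Equiv.refl X)).trans (Equiv.piCongrRight σ)

theorem wr_apply {ι X : Type*} (σ : ι → Equiv.Perm X) (ρ : Equiv.Perm ι) (y : ι → X) (i : ι) :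
    wr σ ρ y i = σ i (y (ρ i)) := rfl

theorem adj_wr {ι X : Type*} (σ : ι → Equiv.Perm X) (ρ : Equiv.Perm ι) (y z : ι → X) :
    Adj (wr σ ρ y) (wr σ ρ z) ↔ Adj y z := by
  simp only [Adj, wr_apply, ne_eq, EmbeddingLike.apply_eq_iff_eq]
  constructor
  · rintro ⟨i, h1, h2⟩
    refine ⟨ρ i, h1, fun j hj => ?_⟩
    simpa using h2 (ρ.symm j) fun h => hj (by rw [← h]; simp)
  · rintro ⟨i, h1, h2⟩
    refine ⟨ρ.symm i, by simpa using h1, fun j hj => h2 _ fun h => hj (by rw [← h]; simp)⟩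

theorem arc_trans {ι X : Type*} {y y' z z' : ι → X} (h : Adj y y') (h' : Adj z z') :
    ∃ σ ρ, wr σ ρ y = z ∧ wr σ ρ y' = z' := by
  classical
  obtain ⟨i, h1, h2⟩ := h
  obtain ⟨j, h3, h4⟩ := h'
  have : ∀ l, ∃ σ : Equiv.Perm X, σ (y (Equiv.swap i j l)) = z l ∧
      σ (y' (Equiv.swap i j l)) = z' l := fun l => exists_perm (by
    by_cases hl : l = j
    · subst hl; simp [h1, h3]
    · refine iff_of_true (h2 _ fun h => hl ?_) (h4 l hl)
      exact (Equiv.swap i j).injective (h.trans (Equiv.swap_apply_right i j).symm))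
  choose σ h5 h6 using this
  exact ⟨σ, Equiv.swap i j, funext h5, funext h6⟩

/-- the automorphism group of the Hamming graph, transported -/
def hamAut {Ω ι X : Type*} (φ : Ω ≃ (ι → X)) : Subgroup (Equiv.Perm Ω) where
  carrier := {g | ∀ a b, Adj (φ (g a)) (φ (g b)) ↔ Adj (φ a) (φ b)}
  one_mem' := fun _ _ => Iff.rfl
  mul_mem' := fun {g h} hg hh a b => (hg (h a) (h b)).trans (hh a b)
  inv_mem' := fun {g} hg a b => by rw [← hg]; simp

theorem wr_mem {Ω ι X : Type*} (φ : Ω ≃ (ι → X)) (σ : ι → Equiv.Perm X) (ρ : Equiv.Perm ι) :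
    φ.symm.permCongr (wr σ ρ) ∈ hamAut φ := fun a b => by
  simp [adj_wr]

theorem exists_third {m : ℕ} (hm : 3 ≤ m) (a b : Fin m) : ∃ v : Fin m, v ≠ a ∧ v ≠ b := by
  by_contra h
  push Not at h
  have : (Finset.univ : Finset (Fin m)) ⊆ {a, b} := fun v _ => by
    by_cases hv : v = a
    · simp [hv]
    · simp [h v hv]
  have h2 := (Finset.card_le_card this).trans Finset.card_le_two
  simp at h2
  omega

theorem prim {Ω ι : Type*} [Finite ι] {m : ℕ} (hm : 3 ≤ m) (φ : Ω ≃ (ι → Fin m)) :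
    MulAction.IsPreprimitive (hamAut φ) Ω := by
  classical
  haveI : MulAction.IsPretransitive (hamAut φ) Ω := ⟨fun a b =>
    ⟨⟨_, wr_mem φ (fun i => Equiv.swap (φ a i) (φ b i)) 1⟩, φ.injective (by
      ext i; simp [wr_apply])⟩⟩
  refine ⟨fun {B} hB => ?_⟩
  by_cases hs : B.Subsingleton
  · exact Or.inl hs
  right
  obtain ⟨a, ha, b, hb, hab⟩ := Set.not_subsingleton_iff.1 hs
  have key : ∀ σ ρ, ∀ x ∈ B, ∀ y ∈ B, φ.symm (wr σ ρ (φ x)) ∈ B → φ.symm (wr σ ρ (φ y)) ∈ B := by
    intro σ ρ x hx y hy h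
    have := MulAction.isBlock_iff_smul_eq_of_mem.1 hB (g := ⟨_, wr_mem φ σ ρ⟩) hx h
    rw [← this]
    exact Set.smul_mem_smul_set hy
  obtain ⟨i, hi⟩ := Function.ne_iff.1 (φ.injective.ne hab)
  obtain ⟨v, hv1, hv2⟩ := exists_third hm (φ a i) (φ b i)
  have h1 := key (Function.update 1 i (Equiv.swap (φ b i) v)) 1 a ha b hb (by
    convert ha
    rw [Equiv.symm_apply_eq]
    ext j
    by_cases hj : j = i
    · subst hj; simp [wr_apply, Equiv.swap_apply_of_ne_of_ne hi hv1.symm]
    · simp [wr_apply, hj])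
  have h2 : Adj (φ b) (wr (Function.update 1 i (Equiv.swap (φ b i) v)) 1 (φ b)) :=
    ⟨i, by simpa [wr_apply] using hv2.symm, fun j hj => by simp [wr_apply, hj]⟩
  have h3 : ∀ z z', φ.symm z ∈ B → Adj z z' → φ.symm z' ∈ B := by
    intro z z' hz hadj
    obtain ⟨σ, ρ, h4, h5⟩ := arc_trans h2 hadj
    have := key σ ρ b hb _ h1 (h4 ▸ hz)
    rwa [Equiv.apply_symm_apply, h5] at this
  refine Set.eq_univ_of_forall fun w => ?_
  have h4 : ∀ s : Finset ι, φ.symm (s.piecewise (φ w) (φ b)) ∈ B := by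
    intro s
    induction s using Finset.induction_on with
    | empty => simpa using hb
    | insert j s hj ih =>
      by_cases h5 : φ w j = φ b j
      · convert ih using 2
        ext l
        by_cases hl : l = j
        · subst hl; simp [hj, h5]
        · simp [Finset.piecewise, hl]
      · exact h3 _ _ ih ⟨j, by simpa [hj] using Ne.symm h5, fun l hl => by
          simp [Finset.piecewise, hl]⟩
  haveI := Fintype.ofFinite ι
  simpa using h4 Finset.univ

/-- Let K be a finite group isomorphic to a direct product of r ≥ 2 groups all of the same order m ≥ 3. Then K is not a B-group: there is a primitive but not doubly transitive permutation group (on some finite set) containing a regular subgroup isomorphic to K. -/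
theorem result {K : Type*} [Group K] [Finite K] {ι : Type*} [Fintype ι] (F : ι → Type*) [∀ i, Group (F i)]
    (hr : 2 ≤ Fintype.card ι) (m : ℕ) (hm : 3 ≤ m) (hcard : ∀ i, Nat.card (F i) = m) (e : K ≃* (∀ i, F i)) :
    ∃ (n : ℕ) (G R : Subgroup (Equiv.Perm (Fin n))), R ≤ G ∧ Nonempty (↥R ≃* K) ∧
      MulAction.IsPretransitive ↥R (Fin n) ∧ (∀ a : Fin n, MulAction.stabilizer ↥R a = ⊥) ∧
      MulAction.IsPreprimitive ↥G (Fin n) ∧ ¬ MulAction.IsMultiplyPretransitive ↥G (Fin n) 2 := by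
  classical
  haveI : ∀ i, Finite (F i) := fun i => Nat.finite_of_card_ne_zero (by rw [hcard]; omega)
  let β : ∀ i, F i ≃ Fin m := fun i => Finite.equivFinOfCardEq (hcard i)
  let ψ : K ≃ Fin (Nat.card K) := Finite.equivFin K
  let φ : Fin (Nat.card K) ≃ (ι → Fin m) := ψ.symm.trans (e.toEquiv.trans (Equiv.piCongrRight β))
  let f : K →* Equiv.Perm (Fin (Nat.card K)) :=
    ψ.permCongrHom.toMonoidHom.comp (MulAction.toPermHom K K)
  have hf : ∀ k a, f k a = ψ (k * ψ.symm a) := fun k a => rfl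
  have hinj : Function.Injective f := ψ.permCongrHom.injective.comp MulAction.toPerm_injective
  refine ⟨Nat.card K, hamAut φ, f.range, ?_, ⟨(MonoidHom.ofInjective hinj).symm⟩,
    ⟨fun a b => ⟨⟨_, ψ.symm b * (ψ.symm a)⁻¹, rfl⟩, ?_⟩⟩, fun a => ?_, prim hm φ, fun h => ?_⟩
  · rintro _ ⟨k, rfl⟩
    convert wr_mem φ (fun i => (β i).permCongr (Equiv.mulLeft (e k i))) 1
    ext a
    congr 1
    apply φ.injective
    ext i
    simp [hf, φ, wr_apply]
  · change f _ a = b
    rw [hf]; simp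
  · refine eq_bot_iff.2 ?_
    rintro ⟨_, k, rfl⟩ hk
    have h1 : f k a = a := hk
    rw [hf, ← Equiv.eq_symm_apply, mul_eq_right] at h1
    subst h1
    exact Subtype.ext (map_one f)
  · have h' : ∀ a b c d : Fin (Nat.card K), a ≠ b → c ≠ d →
        ∃ g : hamAut φ, g • a = c ∧ g • b = d :=
      fun a b c d => MulAction.is_two_pretransitive_iff.1 h
    obtain ⟨i, j, hij⟩ := Fintype.exists_pair_of_one_lt_card (α := ι) hr
    let c : ι → Fin m := fun _ => ⟨0, by omega⟩
    let v : Fin m := ⟨1, by omega⟩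
    have hv : ∀ l, v ≠ c l := fun l h => by simpa [v, c] using congrArg Fin.val h
    obtain ⟨g, h1, h2⟩ := h' (φ.symm c)
      (φ.symm (Function.update c i v)) (φ.symm c) (φ.symm fun _ => v)
      (φ.symm.injective.ne fun h => hv i (by simpa using (congrFun h i).symm))
      (φ.symm.injective.ne fun h => hv i (congrFun h i).symm)
    have h3 := (g.2 (φ.symm c) (φ.symm (Function.update c i v))).2
      ⟨i, by simpa using (hv i).symm, fun l hl => by simp [hl]⟩
    rw [show (g : Equiv.Perm _) (φ.symm c) = _ from h1,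
      show (g : Equiv.Perm _) (φ.symm (Function.update c i v)) = _ from h2] at h3
    obtain ⟨l, -, h4⟩ := h3
    by_cases hl : i = l
    · exact hv j (by simpa using (h4 j (hl ▸ hij.symm)).symm)
    · exact hv i (by simpa using (h4 i hl).symm)

end Cfsg.Agent.S3560
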