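import Cfsg.Statements.S3571
import Cfsg.Agent.Perm.AltDer
import Cfsg.Agent.S2119

set_option autoImplicit false
open Cfsg
open scoped Pointwise

namespace Cfsg.Agent.S3571

/-- Let G be an almost simple group whose socle is an alternating group of degree m ≥ 5 (G has a normal subgroup T isomorphic to that alternating group with trivial centralizer), acting faithfully and primitively on a finite set Ω with at least two points, and let r be the largest prime divisor of the number of points. Then G contains an element of order r fixing no point. -/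
theorem result {G Ω : Type*} [Group G] [Finite G] [MulAction G Ω] [FaithfulSMul G Ω] [Finite Ω]
    (T : Subgroup G) (hT : T.Normal) (hTc : Subgroup.centralizer (T : Set G) = ⊥) (m : ℕ) (hm : 5 ≤ m)
    (eT : ↥T ≃* ↥(alternatingGroup (Fin m))) (hprim : MulAction.IsPreprimitive G Ω) (hΩ : 2 ≤ Nat.card Ω)
    (r : ℕ) (hr : r.Prime) (hrd : r ∣ Nat.card Ω) (hmax : ∀ s : ℕ, s.Prime → s ∣ Nat.card Ω → s ≤ r) :
    ∃ g : G, orderOf g = r ∧ ∀ ω : Ω, g • ω ≠ ω := by
  classical
  have := Fintype.ofFinite Ω
  have : Nontrivial Ω := Finite.one_lt_card_iff_nontrivial.1 hΩ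
  obtain ⟨w⟩ : Nonempty Ω := inferInstance
  have hA5 : Nontrivial (alternatingGroup (Fin m)) :=
    (alternatingGroup.isSimpleGroup (α := Fin m) (by simpa using hm)).toNontrivial
  have hTt : MulAction.IsPretransitive T Ω := by
    refine hprim.isQuasiPreprimitive.isPretransitive_of_normal fun h => ?_
    obtain ⟨x, hx⟩ := exists_ne (1 : alternatingGroup (Fin m))
    apply hx
    rw [← eT.apply_symm_apply x, map_eq_one_iff _ eT.injective]
    refine Subtype.ext (FaithfulSMul.eq_of_smul_eq_smul (α := Ω) fun a => ?_)
    rw [OneMemClass.coe_one, one_smul]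
    exact (h ▸ Set.mem_univ a : a ∈ MulAction.fixedPoints T Ω) (eT.symm x)
  set φ : T →* Equiv.Perm (Fin m) := (alternatingGroup (Fin m)).subtype.comp eT.toMonoidHom with hφ
  have φi : Function.Injective φ := Subtype.val_injective.comp eT.injective
  set L : Subgroup (Equiv.Perm (Fin m)) := (MulAction.stabilizer T w).map φ with hL
  have memL : ∀ t : T, φ t ∈ L ↔ (t : G) • w = w := fun t => by
    rw [hL, Subgroup.mem_map_iff_mem φi]; rfl
  have surj : ∀ σ ∈ alternatingGroup (Fin m), ∃ t, φ t = σ := fun σ hσ =>
    ⟨eT.symm ⟨σ, hσ⟩, by simp [hφ]⟩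
  have hA : L ≤ alternatingGroup (Fin m) := by
    rintro _ ⟨t, -, rfl⟩
    exact (eT t).2
  have hi : L.relIndex (alternatingGroup (Fin m)) = Nat.card Ω := by
    rw [← MulAction.index_stabilizer_of_transitive T w, Subgroup.relIndex,
      ← (L.subgroupOf (alternatingGroup (Fin m))).index_comap_of_surjective
        (f := eT.toMonoidHom) eT.surjective]
    congr 1
    ext t
    exact memL t
  have hne : ¬ alternatingGroup (Fin m) ≤ L := fun h => by
    rw [Subgroup.relIndex_eq_one.2 h] at hi
    omega
  obtain ⟨x, hx, ox, hg⟩ := Perm.AltDer.core (β := Fin m) (by simpa using hm) hA hne hr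
    (hi ▸ hrd) (hi ▸ hmax) (by
      intro h8 D hD hDu hDL σ hσ hσD
      rw [Fintype.card_fin] at h8 hD
      have hb := S2119.result m (by omega) (by omega)
      set Φ : G →* Equiv.Perm (Fin m) := ((MulEquiv.ofBijective _ hb).symm.toMonoidHom.comp
        (MulAut.congr eT).toMonoidHom).comp (MulAut.conjNormal (H := T)) with hΦ
      have Φs : ∀ (g : G) (t : T), φ (MulAut.conjNormal g t) = Φ g * φ t * (Φ g)⁻¹ := by
        intro g t
        have e : MulAut.conjNormal (H := alternatingGroup (Fin m)) (Φ g) =
            MulAut.congr eT (MulAut.conjNormal g) :=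
          (MulEquiv.ofBijective _ hb).apply_symm_apply _
        have := congrArg (fun f : MulAut (alternatingGroup (Fin m)) => (f (eT t) : Equiv.Perm (Fin m))) e
        simp only [MulAut.conjNormal_apply, MulAut.congr_apply, MulEquiv.trans_apply,
          MulEquiv.symm_apply_apply] at this
        exact this.symm
      have Φt : ∀ t : T, Φ t = φ t := by
        intro t
        apply hb.1
        ext1 y
        obtain ⟨u, rfl⟩ := eT.surjective y
        refine Subtype.ext ?_
        rw [MulAut.conjNormal_apply, MulAut.conjNormal_apply]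
        change Φ t * φ u * (Φ t)⁻¹ = φ t * φ u * (φ t)⁻¹
        rw [← Φs, ← map_inv, ← map_mul, ← map_mul]
        rfl
      have hH : MulAction.stabilizer G w ≤ (MulAction.stabilizer (Equiv.Perm (Fin m)) D).comap Φ := by
        intro h hh
        have hc : ∀ k ∈ MulAction.stabilizer G w, ∀ l ∈ L, Φ k * l * (Φ k)⁻¹ ∈ L := by
          rintro k hk _ ⟨t, ht, rfl⟩
          rw [← Φs, memL, MulAut.conjNormal_apply, mul_smul, mul_smul,
            (MulAction.stabilizer G w).inv_mem hk, show (t : G) • w = w from ht]
          exact hk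
        obtain ⟨a, ha, hb⟩ : ∃ a ∈ D, Φ h a ∈ D := by
          by_contra hcon
          push Not at hcon
          have hd : Disjoint D (D.image (Φ h)) := by
            rw [Finset.disjoint_right]
            intro b hb
            obtain ⟨a, ha, rfl⟩ := Finset.mem_image.1 hb
            exact hcon a ha
          have := Finset.card_le_univ (D ∪ D.image (Φ h))
          rw [Finset.card_union_of_disjoint hd, Finset.card_image_of_injective _ (Φ h).injective,
            Fintype.card_fin] at this
          omega
        rw [Subgroup.mem_comap, MulAction.mem_stabilizer_finset']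
        intro b hb'
        obtain ⟨l, hl, rfl⟩ := (hDL a ha b).1 hb'
        exact (hDL _ hb _).2 ⟨_, hc h hh l hl, by simp⟩
      have hco := (MulAction.isCoatom_stabilizer_iff_preprimitive G w).2 hprim
      have hM : (MulAction.stabilizer (Equiv.Perm (Fin m)) D).comap Φ ≠ ⊤ := by
        intro e
        obtain ⟨a, ha⟩ : D.Nonempty := Finset.card_pos.1 (by omega)
        obtain ⟨b, hb⟩ : ∃ b, b ∉ D := by
          by_contra hcon
          push Not at hcon
          exact hDu (Finset.eq_univ_of_forall hcon)
        have := alternatingGroup.isPretransitive_of_three_le_card (Fin m) (by simp; omega)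
        obtain ⟨s, hs⟩ := MulAction.exists_smul_eq (alternatingGroup (Fin m)) a b
        obtain ⟨t, ht⟩ := surj s s.2
        have h1 : (t : G) ∈ (MulAction.stabilizer (Equiv.Perm (Fin m)) D).comap Φ :=
          e ▸ Subgroup.mem_top _
        rw [Subgroup.mem_comap, Φt, ht, MulAction.mem_stabilizer_finset'] at h1
        exact hb (hs ▸ h1 ha)
      obtain ⟨t, rfl⟩ := surj σ hσ
      rw [memL]
      change (t : G) ∈ MulAction.stabilizer G w
      rw [← (hco.le_iff_eq hM).1 hH, Subgroup.mem_comap, Φt]
      exact hσD)
  obtain ⟨t, rfl⟩ := surj x hx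
  refine ⟨t, by rw [Subgroup.orderOf_coe, ← orderOf_injective φ φi, ox], fun v hv => ?_⟩
  obtain ⟨u, rfl⟩ := MulAction.exists_smul_eq T w v
  refine hg (φ u⁻¹) (eT u⁻¹).2 ?_
  rw [← map_inv, ← map_mul, ← map_mul, memL, inv_inv, Subgroup.coe_mul, Subgroup.coe_mul, mul_smul,
    mul_smul]
  change (u : G)⁻¹ • (t : G) • u • w = w
  rw [hv]
  exact inv_smul_smul (u : G) w

end Cfsg.Agent.S3571
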