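import Cfsg.Statements.S3572
import Cfsg.Agent.Perm.DihSR4

set_option autoImplicit false
open Cfsg

namespace Cfsg.Agent.S3572

/-- A finite primitive permutation group containing a dihedral subgroup that acts regularly (transitively with trivial point stabilizers) is doubly transitive. -/
theorem result {G Ω : Type*} [Group G] [Finite G] [MulAction G Ω] [FaithfulSMul G Ω] [Finite Ω]
    (hprim : MulAction.IsPreprimitive G Ω) (D : Subgroup G) (m : ℕ) (hD : Nonempty (↥D ≃* DihedralGroup m))
    (hDreg : MulAction.IsPretransitive ↥D Ω ∧ ∀ a : Ω, MulAction.stabilizer ↥D a = ⊥) :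
    MulAction.IsMultiplyPretransitive G Ω 2 := by
  classical
  obtain ⟨φ⟩ := hD
  haveI : Finite (DihedralGroup m) := Finite.of_equiv _ φ.toEquiv
  haveI : NeZero m := ⟨by rintro rfl; exact not_finite (DihedralGroup 0)⟩
  rcases isEmpty_or_nonempty Ω with hΩ | ⟨⟨a0⟩⟩
  · exact MulAction.is_two_pretransitive_iff.2 fun {a} => isEmptyElim a
  let ι : DihedralGroup m →* G := D.subtype.comp φ.symm.toMonoidHom
  have hreg : Function.Bijective fun h => ι h • a0 := by
    refine ⟨fun x y hxy => ?_, fun b => ?_⟩
    · have : (φ.symm y)⁻¹ * φ.symm x ∈ MulAction.stabilizer D a0 := by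
        rw [MulAction.mem_stabilizer_iff, mul_smul, inv_smul_eq_iff]; exact hxy
      rw [hDreg.2, Subgroup.mem_bot, inv_mul_eq_one] at this
      exact (φ.symm.injective this).symm
    · obtain ⟨d, hd⟩ := hDreg.1.exists_smul_eq a0 b
      exact ⟨φ d, by simp only [ι]; simpa [Subgroup.smul_def] using hd⟩
  let e : DihedralGroup m ≃ Ω := Equiv.ofBijective _ hreg
  have he : ∀ h, e h = ι h • a0 := fun h => rfl
  letI : MulAction G (DihedralGroup m) :=
    { smul := fun g x => e.symm (g • e x)
      one_smul := fun x => by change e.symm ((1 : G) • e x) = x; simp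
      mul_smul := fun g h x => by
        change e.symm ((g * h) • e x) = e.symm (g • e (e.symm (h • e x))); simp [mul_smul] }
  have hs : ∀ (g : G) (x : DihedralGroup m), g • x = e.symm (g • e x) := fun _ _ => rfl
  have hι : ∀ h x : DihedralGroup m, ι h • x = h * x := fun h x => by
    rw [hs, Equiv.symm_apply_eq, he, he, map_mul, mul_smul]
  let E : Setoid (DihedralGroup m) :=
    { r := fun x y => ∃ s : G, s • (1 : DihedralGroup m) = 1 ∧ s • x = y
      iseqv := ⟨fun x => ⟨1, one_smul _ _, one_smul _ _⟩,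
        fun ⟨s, h1, h2⟩ => ⟨s⁻¹, inv_smul_eq_iff.2 h1.symm, inv_smul_eq_iff.2 h2.symm⟩,
        fun ⟨s, h1, h2⟩ ⟨t, h3, h4⟩ => ⟨t * s, by rw [mul_smul, h1, h3], by rw [mul_smul, h2, h4]⟩⟩ }
  have two : ∀ (g : G) (x y : DihedralGroup m), E (x⁻¹ * y) ((g • x)⁻¹ * g • y) := fun g x y =>
    ⟨ι (g • x)⁻¹ * g * ι x, by simp only [mul_smul, hι]; simp, by simp only [mul_smul, hι]; simp⟩
  have hE : DihSR.SR E :=
    { one := fun x hx => by
        obtain ⟨s, h1, h2⟩ := hx
        exact smul_left_cancel s (h2.trans h1.symm)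
      inv := fun x y hx => by
        obtain ⟨s, h1, h2⟩ := hx
        simpa [h1, h2] using two s x 1
      mul := fun f g hf hg x y hx => by
        obtain ⟨s, h1, h2⟩ := hx
        rw [DihSR.coeff_mul', DihSR.coeff_mul', ← h2]
        refine Fintype.sum_equiv (MulAction.toPerm s) _ _ fun z => ?_
        rw [MulAction.toPerm_apply, hf z (s • z) ⟨s, h1, rfl⟩, hg _ _ (two s z x)]
      prim := fun K hK => by
        have h5 : ∀ (g : G) (a b : Ω), (e.symm a)⁻¹ * e.symm b ∈ K →
            (e.symm (g • a))⁻¹ * e.symm (g • b) ∈ K := fun g a b h => by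
          simpa [hs] using hK _ _ (two g (e.symm a) (e.symm b)) h
        have hB : MulAction.IsBlock G {a : Ω | e.symm a ∈ K} := by
          refine MulAction.isBlock_iff_smul_eq_of_mem.2 fun g a ha hga => ?_
          ext b
          rw [Set.mem_smul_set_iff_inv_smul_mem]
          constructor
          · intro hb
            have := K.mul_mem hga (h5 g a _ (K.mul_mem (K.inv_mem ha) hb))
            simpa using this
          · intro hb
            have := h5 g⁻¹ _ _ (K.mul_mem (K.inv_mem hga) hb)
            rw [inv_smul_smul] at this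
            simpa using K.mul_mem ha this
        rcases hprim.isTrivialBlock_of_isBlock hB with h | h
        · exact Or.inl (eq_bot_iff.2 fun x hx => Subgroup.mem_bot.2
            (e.injective (h (by simpa using hx) (by simp))))
        · refine Or.inr (eq_top_iff.2 fun y _ => ?_)
          have : e y ∈ {a : Ω | e.symm a ∈ K} := h ▸ Set.mem_univ _
          simpa using this }
  refine MulAction.is_two_pretransitive_iff.2 fun {a b c d} hab hcd => ?_
  obtain ⟨a, rfl⟩ := e.surjective a
  obtain ⟨b, rfl⟩ := e.surjective b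
  obtain ⟨c, rfl⟩ := e.surjective c
  obtain ⟨d, rfl⟩ := e.surjective d
  obtain ⟨s, h1, h2⟩ := hE.main (x := a⁻¹ * b) (y := c⁻¹ * d)
    (fun h => hab (congrArg e (inv_mul_eq_one.1 h))) fun h => hcd (congrArg e (inv_mul_eq_one.1 h))
  refine ⟨ι c * s * ι a⁻¹, ?_, ?_⟩
  · rw [← Equiv.symm_apply_eq, ← hs]
    simp only [mul_smul, hι]
    simp [h1]
  · rw [← Equiv.symm_apply_eq, ← hs]
    simp only [mul_smul, hι]
    simp [h2]

end Cfsg.Agent.S3572
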