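import Cfsg.Statements.S3573
import Cfsg.Agent.Perm.PrimeOrd

set_option autoImplicit false
open Cfsg

namespace Cfsg.Agent.S3573

open Cfsg.Agent.PrimeOrd

/-- Let 1 ≤ k with 2k < n and consider the symmetric group of degree n acting on the k-subsets of an n-set. Let r be a prime dividing the number C(n,k) of k-subsets. If r is odd, then every permutation of order r fixes some k-subset if and only if r ≤ k and the remainder of k modulo r is at most the remainder of n modulo r. If r = 2, then every involution fixes some k-subset if and only if k is even or n is odd. -/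
theorem result (n k : ℕ) (hk : 1 ≤ k) (hkn : 2 * k < n) (r : ℕ) (hr : r.Prime) (hrd : r ∣ Nat.choose n k) :
    (r ≠ 2 → ((∀ σ : Equiv.Perm (Fin n), orderOf σ = r → ∃ s : Finset (Fin n), s.card = k ∧ s.image σ = s) ↔
      (r ≤ k ∧ k % r ≤ n % r))) ∧
    (r = 2 → ((∀ σ : Equiv.Perm (Fin n), orderOf σ = 2 → ∃ s : Finset (Fin n), s.card = k ∧ s.image σ = s) ↔
      (Even k ∨ Odd n))) := by
  have := Fact.mk hr
  have hrn : r ≤ n := (hr.dvd_factorial).1 (hrd.trans (Nat.choose_mul_factorial_mul_factorial
    (show k ≤ n by omega) ▸ (dvd_mul_right _ _).trans (dvd_mul_right _ _)))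
  have key : (∀ σ : Equiv.Perm (Fin n), orderOf σ = r →
      ∃ s : Finset (Fin n), s.card = k ∧ s.image σ = s) ↔ k % r ≤ n % r := by
    have n1 := Nat.div_add_mod' n r
    have n2 := Nat.mod_lt n hr.pos
    have k1 := Nat.div_add_mod' k r
    have k2 := Nat.mod_lt k hr.pos
    constructor
    · intro h
      obtain ⟨σ, h1, h2⟩ := exists_model (Ω := Fin n) hr (i := n / r)
        (by rw [Fintype.card_fin]; omega)
      obtain ⟨s, s1, s2⟩ := h σ (orderOf_eq hr h1 (by omega))
      obtain ⟨i, hi⟩ := dvd_card_inter hr h1 (inv_iff_of_image s2)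
      have e1 := Finset.card_inter_add_card_sdiff s σ.support
      have e2 : (s \ σ.support).card ≤ σ.supportᶜ.card :=
        Finset.card_le_card fun x hx => Finset.mem_compl.2 (Finset.mem_sdiff.1 hx).2
      rw [Finset.card_compl, Fintype.card_fin] at e2
      rw [← s1, ← e1, hi, Nat.mul_add_mod]
      exact (Nat.mod_le _ _).trans (by omega)
    · intro h σ hσ
      have h1 : σ ^ r = 1 := hσ ▸ pow_orderOf_eq_one σ
      obtain ⟨c, hc⟩ := dvd_card_support hr h1
      rw [mul_comm] at hc
      have h2 : c * r ≤ n := by simpa [hc] using Finset.card_le_univ σ.support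
      have h3 : c ≤ n / r := (Nat.le_div_iff_mul_le hr.pos).2 h2
      have h4 := Nat.mul_le_mul_right r h3
      rcases le_total c (k / r) with h5 | h5
      · have := Nat.mul_le_mul_right r h5
        exact exists_inv hr h1 hc le_rfl (by omega) (by simp; omega)
      · have := Nat.mul_le_mul_right r h5
        exact exists_inv hr h1 hc h5 (by omega) (by rw [Nat.sub_mul, Fintype.card_fin]; omega)
  rw [← show (∀ σ : Equiv.Perm (Fin n), orderOf σ = r →
      ∃ s : Finset (Fin n), s.card = k ∧ s.image σ = s) ↔ _ from Iff.rfl] at key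
  refine ⟨fun _ => key.trans ⟨fun h => ⟨?_, h⟩, fun h => h.2⟩, fun h => ?_⟩
  · by_contra hlt
    have h1 := Choose.choose_modEq_choose_mod_mul_choose_div_nat (n := n) (k := k) (p := r)
    rw [Nat.div_eq_of_lt (show k < r by omega), Nat.choose_zero_right, mul_one] at h1
    have h2 := (h1.dvd_iff dvd_rfl).1 hrd
    have h3 := (hr.dvd_factorial).1 (h2.trans (Nat.choose_mul_factorial_mul_factorial h ▸
      (dvd_mul_right _ _).trans (dvd_mul_right _ _)))
    have := Nat.mod_lt n hr.pos
    omega
  · subst h
    rw [key, Nat.even_iff, Nat.odd_iff]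
    omega

end Cfsg.Agent.S3573
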