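import Cfsg.Statements.S3575
import Cfsg.Agent.Perm.PrimeOrd

set_option autoImplicit false
open Cfsg

namespace Cfsg.Agent.S3575

open Cfsg.Agent.PrimeOrd Equiv Equiv.Perm Finset

theorem dvd_aux (a b : ℕ) (ha : 2 ≤ a := by assumption) :
    a.factorial ^ b * b.factorial ∣ (a * b).factorial := by
  obtain ⟨a, rfl⟩ : ∃ c, a = c + 1 := ⟨a - 1, by omega⟩
  induction b with
  | zero => simp
  | succ b ih =>
    have h1 := Nat.factorial_mul_factorial_dvd_factorial_add a ((a + 1) * b)
    have e : (a + 1) * (b + 1) = (a + (a + 1) * b) + 1 := by ring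
    rw [e, Nat.factorial_succ (a + (a + 1) * b), ← e, pow_succ, Nat.factorial_succ b]
    conv_lhs => rw [show (a + 1).factorial ^ b * (a + 1).factorial * ((b + 1) * b.factorial) =
      (a + 1) * (b + 1) * (a.factorial * ((a + 1).factorial ^ b * b.factorial)) by
        nth_rewrite 2 [Nat.factorial_succ a]; ring]
    exact Nat.mul_dvd_mul_left _ ((Nat.mul_dvd_mul_left _ ih).trans h1)

theorem arith (a b r : ℕ) (ha : 2 ≤ a) (hb : 2 ≤ b) (hr : 2 ≤ r) (hrn : r ≤ a * b) :
    (∀ c, 0 < c → c * r ≤ a * b → ∃ s, s * r ≤ b ∧ s * a ≤ c ∧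
      c ≤ s * a + (b - s * r) * (a / r)) ↔
    (r ≤ a ∧ (a % r = 0 ∨ (b % r = 0 ∧ a % r = 1) ∨ (a % r ≠ 0 ∧ b % r ≠ 0 ∧
      (b % r) * (a % r) < r ∧ (b < r ∨ (b % r + r) * (a % r) ≤ (b % r) * a + r)))) := by
  have a1 := Nat.div_add_mod' a r
  have a2 := Nat.mod_lt a (show 0 < r by omega)
  have b1 := Nat.div_add_mod' b r
  have b2 := Nat.mod_lt b (show 0 < r by omega)
  generalize a / r = α at *
  generalize a % r = l at *
  generalize b / r = β at *
  generalize b % r = k at *
  have up : ∀ s, s * r ≤ b → s * a + (b - s * r) * α = b * α + s * l := fun s hs => by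
    obtain ⟨d, hd⟩ := Nat.exists_eq_add_of_le hs
    rw [hd, Nat.add_sub_cancel_left, ← a1]; ring
  have le : ∀ s, s * r ≤ b ↔ s ≤ β := fun s =>
    ⟨fun h => by by_contra h'; nlinarith, fun h => by nlinarith⟩
  have tot : a * b = (b * α + β * l) * r + k * l := by rw [← a1]; nth_rewrite 1 [← b1]; rw [← b1]; ring
  have step1 : (∀ c, 0 < c → c * r ≤ a * b → ∃ s, s * r ≤ b ∧ s * a ≤ c ∧
      c ≤ s * a + (b - s * r) * α) ↔
      ∀ c, 0 < c → c * r ≤ a * b → ∃ s ≤ β, s * a ≤ c ∧ c ≤ b * α + s * l := by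
    refine forall_congr' fun c => forall_congr' fun _ => forall_congr' fun _ =>
      exists_congr fun s => ?_
    rw [← le]
    exact and_congr_right fun h => by rw [up s h]
  have step2 : (r ≤ a ∧ (l = 0 ∨ (k = 0 ∧ l = 1) ∨ (l ≠ 0 ∧ k ≠ 0 ∧
      k * l < r ∧ (b < r ∨ (k + r) * l ≤ k * a + r)))) ↔
      (0 < α ∧ k * l < r ∧ (β = 0 ∨ l ≤ k * α + 1)) := by
    have e1 : r ≤ a ↔ 0 < α := ⟨fun h => by
      rcases Nat.eq_zero_or_pos α with h0 | h0
      · rw [h0] at a1; omega
      · exact h0, fun h => by nlinarith⟩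
    have e2 : b < r ↔ β = 0 := ⟨fun h => by
      rcases Nat.eq_zero_or_pos β with h0 | h0
      · exact h0
      · nlinarith, fun h => by rw [h] at b1; omega⟩
    have e3 : (k + r) * l ≤ k * a + r ↔ l ≤ k * α + 1 := by
      rw [← a1, show (k + r) * l = l * r + k * l by ring,
        show k * (α * r + l) + r = (k * α + 1) * r + k * l by ring, Nat.add_le_add_iff_right,
        Nat.mul_le_mul_right_iff (by omega)]
    rw [e1, e2, e3]
    refine and_congr_right fun _ => ⟨?_, fun ⟨h1, h2⟩ => ?_⟩
    · rintro (rfl | ⟨rfl, rfl⟩ | ⟨-, -, h1, h2⟩)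
      · exact ⟨by omega, by omega⟩
      · exact ⟨by omega, by omega⟩
      · exact ⟨h1, h2⟩
    · by_cases h3 : l = 0
      · exact Or.inl h3
      by_cases h4 : k = 0
      · subst h4
        refine Or.inr (Or.inl ⟨rfl, ?_⟩)
        rcases h2 with h2 | h2
        · rw [h2] at b1; omega
        · omega
      · exact Or.inr (Or.inr ⟨h3, h4, h1, h2⟩)
  rw [step1, step2]
  constructor
  · intro h
    refine ⟨?_, ?_, ?_⟩
    · obtain ⟨s, -, s2, s3⟩ := h 1 one_pos (by omega)
      have : s = 0 := by by_contra h0; nlinarith [Nat.pos_of_ne_zero h0]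
      subst this
      by_contra h0
      rw [show α = 0 by omega] at s3
      omega
    · by_contra h0
      obtain ⟨s, s1, -, s3⟩ := h (b * α + β * l + 1) (by omega) (by rw [tot]; nlinarith)
      nlinarith
    · by_contra h0
      push Not at h0
      obtain ⟨γ, rfl⟩ : ∃ γ, β = γ + 1 := ⟨β - 1, by omega⟩
      obtain ⟨s, s1, s2, s3⟩ := h (b * α + γ * l + 1) (by omega) (by
        rw [tot]
        exact le_add_right (Nat.mul_le_mul_right _ (by nlinarith)))
      have : s = γ + 1 := by by_contra h1; nlinarith [show s ≤ γ by omega]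
      subst this
      rw [← a1, ← b1] at s2
      nlinarith
  · rintro ⟨h1, h2, h3⟩ c c1 c2
    have c3 : c ≤ b * α + β * l := by
      by_contra h0
      rw [tot] at c2
      nlinarith
    have : ∀ s ≤ β, c ≤ b * α + s * l → ∃ s ≤ β, s * a ≤ c ∧ c ≤ b * α + s * l := by
      intro s
      induction s with
      | zero => exact fun _ h => ⟨0, by omega, by omega, h⟩
      | succ s ih =>
        intro s1 s2
        by_cases h0 : c ≤ b * α + s * l
        · exact ih (by omega) h0
        · refine ⟨s + 1, s1, ?_, s2⟩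
          have h4 : l ≤ k * α + 1 := by omega
          have h5 := Nat.mul_le_mul_right (r * α) s1
          rw [← a1]
          rw [← b1] at h0
          nlinarith
    exact this β le_rfl c3

theorem nec {a b r c : ℕ} (hr : r.Prime) (ha : 0 < a) {σ : Perm (Fin (a * b))} (h1 : σ ^ r = 1)
    (hc : #σ.support = c * r) {f : Fin (a * b) → Fin b}
    (hf : ∀ j : Fin b, Nat.card {x : Fin (a * b) // f x = j} = a) {π : Perm (Fin b)}
    (hπ : ∀ x, f (σ x) = π (f x)) :
    ∃ s, s * r ≤ b ∧ s * a ≤ c ∧ c ≤ s * a + (b - s * r) * (a / r) := by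
  have fib : ∀ j, #(univ.filter fun x => f x = j) = a := fun j => by
    have := hf j
    rwa [Nat.card_eq_fintype_card, Fintype.card_subtype] at this
  have pw : ∀ (n : ℕ) x, f ((σ ^ n) x) = (π ^ n) (f x) := fun n => by
    induction n with
    | zero => intro x; rfl
    | succ n ih => intro x; rw [pow_succ', pow_succ', mul_apply, mul_apply, hπ, ih]
  have h2 : π ^ r = 1 := Equiv.ext fun j => by
    obtain ⟨x, hx⟩ := card_pos.1 (show 0 < #(univ.filter fun x => f x = j) by rw [fib]; exact ha)
    rw [← (mem_filter.1 hx).2, ← pw, h1]; rfl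
  obtain ⟨s, hs⟩ := dvd_card_support hr h2
  rw [mul_comm] at hs
  have e : c * r = s * r * a + ∑ j ∈ π.supportᶜ, #((univ.filter fun x => f x = j) ∩ σ.support) := by
    rw [← hc, card_eq_sum_card_fiberwise (f := f) (t := univ) (by simp),
      ← sum_add_sum_compl π.support, ← hs, ← smul_eq_mul #π.support, ← sum_const]
    congr 1
    · refine sum_congr rfl fun j hj => Eq.trans ?_ (fib j)
      congr 1
      ext x
      simp only [mem_filter, mem_univ, true_and, and_iff_right_iff_imp, mem_support]
      rintro rfl h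
      exact mem_support.1 hj (by rw [← hπ, h])
    · refine sum_congr rfl fun j hj => ?_
      congr 1
      ext x
      simp [and_comm]
  have le : ∑ j ∈ π.supportᶜ, #((univ.filter fun x => f x = j) ∩ σ.support) ≤ (b - s * r) * (a / r * r) := by
    rw [← hs, show b - #π.support = #π.supportᶜ by rw [card_compl, Fintype.card_fin],
      ← smul_eq_mul #π.supportᶜ]
    refine sum_le_card_nsmul _ _ _ fun j hj => ?_
    have hj' : π j = j := by simpa using hj
    obtain ⟨i, hi⟩ := dvd_card_inter hr h1 (B := (univ.filter fun x => f x = j)) fun x => by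
      simp only [mem_filter, mem_univ, true_and, hπ]
      conv_lhs => rw [← hj']
      exact π.injective.eq_iff
    have := (card_le_card inter_subset_left).trans_eq (fib j) (a := #((univ.filter fun x => f x = j) ∩ σ.support))
    rw [hi, mul_comm] at this ⊢
    exact Nat.mul_le_mul_right _ ((Nat.le_div_iff_mul_le hr.pos).2 this)
  refine ⟨s, by simpa [hs] using card_le_univ π.support, ?_, ?_⟩
  · exact Nat.le_of_mul_le_mul_right (c := r) (by rw [e, mul_right_comm]; omega) hr.pos
  · exact Nat.le_of_mul_le_mul_right (c := r)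
      (by rw [e, add_mul, mul_right_comm s a, mul_assoc _ (a / r)]; omega) hr.pos

theorem suff {a b r c s : ℕ} (hr : r.Prime) {σ : Perm (Fin (a * b))} (h1 : σ ^ r = 1)
    (hc : #σ.support = c * r) (s1 : s * r ≤ b) (s2 : s * a ≤ c)
    (s3 : c ≤ s * a + (b - s * r) * (a / r)) :
    ∃ f : Fin (a * b) → Fin b, (∀ j : Fin b, Nat.card {x : Fin (a * b) // f x = j} = a) ∧
      ∃ π : Equiv.Perm (Fin b), ∀ x : Fin (a * b), f (σ x) = π (f x) := by
  obtain ⟨π, p1, p2⟩ := exists_model (Ω := Fin b) hr (i := s) (by simpa using s1)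
  obtain ⟨i, i1, i2⟩ := exists_distrib π.supportᶜ (a / r) (c - s * a)
    (by rw [card_compl, Fintype.card_fin, p2]; omega)
  choose ν n1 n2 using fun j => exists_model (Ω := Fin a) hr (i := i j)
    (by rw [Fintype.card_fin]; exact (Nat.le_div_iff_mul_le hr.pos).1 (i1 j))
  let μ : Fin b → Perm (Fin a) := fun j => if π j = j then ν j else 1
  have m1 : ∀ j, μ (π j) = μ j := fun j => by
    by_cases h : π j = j
    · rw [h]
    · simp only [μ, if_neg h, if_neg (fun e => h (π.injective e) : ¬ π (π j) = π j)]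
  have t1 : skew π μ ^ r = 1 := Equiv.ext fun x => by
    rw [skew_pow m1, p1]
    by_cases h : π x.1 = x.1 <;> simp [μ, h, n1]
  have t2 : #(skew π μ).support = c * r := by
    rw [card_support_skew, p2, Fintype.card_fin, sum_congr rfl (g := fun j => i j * r) fun j hj => by
      simp only [μ, if_pos (show π j = j by simpa using hj), n2], ← sum_mul, i2, Nat.sub_mul,
      mul_right_comm]
    have := Nat.mul_le_mul_right r s2
    omega
  obtain ⟨e, he⟩ := transfer hr h1 t1 (by simp [mul_comm]) (hc.trans t2.symm)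
  refine ⟨fun x => (e x).1, fun j => ?_, π, fun x => by simp only [he, skew_apply]⟩
  rw [Nat.card_congr (show {x // (e x).1 = j} ≃ Fin a from
    ⟨fun x => (e x.1).2, fun y => ⟨e.symm (j, y), by simp⟩,
      fun x => Subtype.ext (by simp only [← x.2]; simp), fun y => by simp⟩)]
  simp


/-- Let a, b ≥ 2 and consider the symmetric group of degree a·b acting on the partitions of an (a·b)-set into b parts of size a (encoded as maps onto a b-element set all of whose fibres have a elements; a permutation fixes such a partition when it permutes the fibres). Let r be a prime dividing the number (ab)!/((a!)^b·b!) of such partitions, and let ℓ and k be the remainders of a and b modulo r. Then every permutation of order r fixes some such partition if and only if r ≤ a and one of the following holds: ℓ = 0; or k = 0 and ℓ = 1; or ℓ and k are non-zero, k·ℓ < r, and either b < r or (k + r)·ℓ ≤ k·a + r. -/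
theorem result (a b : ℕ) (ha : 2 ≤ a) (hb : 2 ≤ b) (r : ℕ) (hr : r.Prime)
    (hrd : r ∣ (a * b).factorial / (a.factorial ^ b * b.factorial)) :
    (∀ σ : Equiv.Perm (Fin (a * b)), orderOf σ = r →
        ∃ f : Fin (a * b) → Fin b, (∀ j : Fin b, Nat.card {x : Fin (a * b) // f x = j} = a) ∧
          ∃ π : Equiv.Perm (Fin b), ∀ x : Fin (a * b), f (σ x) = π (f x)) ↔
      (r ≤ a ∧ (a % r = 0 ∨ (b % r = 0 ∧ a % r = 1) ∨
        (a % r ≠ 0 ∧ b % r ≠ 0 ∧ (b % r) * (a % r) < r ∧ (b < r ∨ (b % r + r) * (a % r) ≤ (b % r) * a + r)))) := by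
  have hrn : r ≤ a * b := (hr.dvd_factorial).1 (hrd.trans (Nat.div_dvd_of_dvd (dvd_aux a b)))
  rw [← arith a b r ha hb hr.two_le hrn]
  constructor
  · intro h c h1 h2
    obtain ⟨σ, s1, s2⟩ := exists_model (Ω := Fin (a * b)) hr (i := c) (by simpa using h2)
    obtain ⟨f, f1, π, f2⟩ := h σ (orderOf_eq hr s1 (by
      rw [s2]; exact (Nat.mul_pos h1 hr.pos).ne'))
    exact nec hr (by omega) s1 s2 f1 f2
  · intro h σ hσ
    have h1 : σ ^ r = 1 := hσ ▸ pow_orderOf_eq_one σ
    obtain ⟨c, hc⟩ := dvd_card_support hr h1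
    rw [mul_comm r] at hc
    have h2 : c * r ≤ a * b := by simpa [hc] using Finset.card_le_univ σ.support
    obtain ⟨s, s1, s2, s3⟩ := h c (Nat.pos_of_ne_zero fun h0 => by
      rw [h0, zero_mul, card_eq_zero, support_eq_empty_iff] at hc
      rw [hc, orderOf_one] at hσ
      exact hr.one_lt.ne hσ) h2
    exact suff hr h1 hc s1 s2 s3

end Cfsg.Agent.S3575
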