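import Cfsg.Statements.S3580
import Mathlib
import Cfsg.Agent.SFP.Main

set_option autoImplicit false
open Cfsg

set_option linter.style.haveILetI false
set_option linter.unusedVariables false

namespace Cfsg.Agent.S3580

open Cfsg.Agent.SFP Cfsg.Agent.PLocal.Amb MulAction in
theorem orbits_le {G Ω : Type*} [Group G] [MulAction G Ω] [Finite Ω] {p : ℕ} [Fact p.Prime]
    {S : Subgroup G} (hS : IsPGroup p S) :
    p * Nat.card (orbitRel.Quotient ↥S Ω) ≤
      p * fx S (Set.univ : Set Ω) + mv S (Set.univ : Set Ω) := by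
  classical
  have key : ∀ (n : ℕ) (Δ : Set Ω), Δ.ncard = n → Inv S Δ →
      p * ((Quotient.mk (orbitRel ↥S Ω)) '' Δ).ncard ≤ p * fx S Δ + mv S Δ := by
    intro n
    induction n using Nat.strong_induction_on with
    | _ n ih =>
    intro Δ hn hΔ
    rcases Δ.eq_empty_or_nonempty with rfl | ⟨x, hx⟩
    · simp
    have hsub := orb_subset hΔ hx
    have hU : Δ = orb S x ∪ (Δ \ orb S x) := (Set.union_diff_cancel hsub).symm
    have hd : Disjoint (orb S x) (Δ \ orb S x) := Set.disjoint_sdiff_right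
    have hlt : (Δ \ orb S x).ncard < n := by
      rw [← hn]
      exact Set.ncard_lt_ncard ⟨Set.diff_subset, fun h => (h hx).2 (mem_orb_self S x)⟩
        (Set.toFinite _)
    have h1 := ih _ hlt _ rfl (hΔ.diff (inv_orb S x))
    have h2 : (Quotient.mk (orbitRel ↥S Ω)) '' orb S x ⊆ {Quotient.mk (orbitRel ↥S Ω) x} := by
      rintro _ ⟨_, ⟨g, hg, rfl⟩, rfl⟩
      exact Quotient.sound ⟨⟨g, hg⟩, rfl⟩
    have h3 : ((Quotient.mk (orbitRel ↥S Ω)) '' Δ).ncard ≤
        1 + ((Quotient.mk (orbitRel ↥S Ω)) '' (Δ \ orb S x)).ncard := by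
      conv_lhs => rw [hU, Set.image_union]
      refine (Set.ncard_union_le _ _).trans (Nat.add_le_add_right ?_ _)
      simpa using Set.ncard_le_ncard h2 (Set.toFinite _)
    have h4 : p ≤ p * fx S (orb S x) + mv S (orb S x) := by
      by_cases hf : Fx S x
      · have : fx S (orb S x) ≠ 0 := fx_ne_zero_iff.2 ⟨x, mem_orb_self S x, hf⟩
        have := Nat.mul_le_mul_left p (Nat.one_le_iff_ne_zero.2 this)
        omega
      · have h5 := (one_le_qq_iff hS (inv_orb S x)).2 ⟨x, mem_orb_self S x, hf⟩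
        have h6 := mv_eq hS (inv_orb S x)
        have := Nat.mul_le_mul_left p h5
        omega
    have h7 := fx_union S hd
    have h8 := mv_union S hd
    rw [← hU] at h7 h8
    have := Nat.mul_le_mul_left p h3
    rw [h7, h8]
    nlinarith
  have h := key _ Set.univ rfl (inv_univ S)
  rwa [Set.image_univ, Set.range_quotient_mk, Set.ncard_univ] at h

/-- Let G act faithfully and transitively on a finite set Ω, let p be an odd prime dividing the order of G and P a Sylow p-subgroup of G. Then the number of orbits of P on Ω is at most (p/(2p − 1))·(number of points). -/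
theorem result {G Ω : Type*} [Group G] [Finite G] [MulAction G Ω] [FaithfulSMul G Ω] [Finite Ω]
    (htrans : MulAction.IsPretransitive G Ω) (p : ℕ) [Fact p.Prime] (hp2 : p ≠ 2) (hpG : p ∣ Nat.card G)
    (P : Sylow p G) :
    (2 * p - 1) * Nat.card (MulAction.orbitRel.Quotient ↥(P : Subgroup G) Ω) ≤ p * Nat.card Ω := by
  open Cfsg.Agent.SFP Cfsg.Agent.PLocal.Amb MulAction in
  have hp : p.Prime := Fact.out
  have hg : Gn p (og p (⊤ : Subgroup G)) P := gn_og (isSyl_top P)
  have hn : (⊤ : Subgroup G) ≤ 𝐍[og p (⊤ : Subgroup G)] := le_normalizer_og p ⊤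
  have hno : ∀ x ∈ (Set.univ : Set Ω), ¬ Fx (og p (⊤ : Subgroup G)) x := by
    intro x _ hx
    apply P.ne_bot_of_dvd_card hpG
    rw [eq_bot_iff]
    intro g hgP
    rw [Subgroup.mem_bot]
    refine eq_of_smul_eq_smul (α := Ω) fun y => ?_
    obtain ⟨k, rfl⟩ := exists_smul_eq G x y
    rw [one_smul]
    exact (fx_smul_iff_of_mem_normalizer (hn trivial)).2 hx g (hg.syl.le hgP)
  have hE := thmE hg (inv_univ _) hno
  have ho := orbits_le (Ω := Ω) P.isPGroup'
  have hs := fx_add_mv (P : Subgroup G) (Set.univ : Set Ω)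
  rw [Set.ncard_univ] at hs
  obtain ⟨k, rfl⟩ : ∃ k, p = k + 1 := ⟨p - 1, by have := hp.pos; omega⟩
  have e1 : 2 * (k + 1) - 1 = 2 * k + 1 := by omega
  rw [e1, Nat.add_sub_cancel] at *
  apply Nat.le_of_mul_le_mul_left _ (Nat.succ_pos k)
  rw [← hs]
  have h1 := Nat.mul_le_mul_left (2 * k + 1) ho
  have h2 := Nat.mul_le_mul_left k hE
  simp only [Nat.succ_eq_add_one]
  nlinarith

end Cfsg.Agent.S3580
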