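import Cfsg.Statements.S3593
import Mathlib
import Cfsg.Agent.Math.Nse
import Cfsg.Agent.S0421
import Cfsg.Agent.Spor.MathieuDefs

set_option autoImplicit false
open Cfsg

set_option linter.style.haveILetI false
set_option linter.unusedVariables false

namespace Cfsg.Agent.S3593

open Cfsg.Agent.Char Cfsg.Agent.Math Cfsg.Agent.Math.M12

/-- Let M be the Mathieu group M₁₂ (order 95040). If a finite group G has the same order as M and the same set of values of the function 'number of elements of order n' (taken over the element orders n that occur), then G is isomorphic to M. -/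
theorem result {G : Type*} [Group G] [Finite G]
    (hcard : Nat.card G = Nat.card ↥Cfsg.Spor.M12)
    (hnse : {c : ℕ | 0 < c ∧ ∃ n : ℕ, c = Nat.card {g : G // orderOf g = n}} =
      {c : ℕ | 0 < c ∧ ∃ n : ℕ, c = Nat.card {g : ↥Cfsg.Spor.M12 // orderOf g = n}}) :
    Nonempty (G ≃* ↥Cfsg.Spor.M12) := by
  have hM := Spor.isM12_M12
  haveI := hM.1
  obtain ⟨x, ⟨D⟩⟩ := exists_BD (hG hM.2) 11 (by rw [hM.2]; norm_num) (by rw [hM.2]; norm_num)
    (by norm_num)
  obtain ⟨-, h1, h2⟩ := data11 hM.2 D
  have := Nse.simple_of_nse D h2 (by rw [h1]; norm_num) (by omega) hcard (m := 8640) hM.2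
    (by norm_num) (Nse.hq_of (B := 93) (by norm_num) (by decide +kernel)) hnse
  obtain ⟨e⟩ := S0421.result ⟨this, hcard.trans hM.2⟩ _ Spor.squareDodecad_mem_dodecads
  exact ⟨e.trans Spor.stabEquivM12⟩

end Cfsg.Agent.S3593
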