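import Cfsg.Statements.S3598
import Mathlib
import Cfsg.Agent.Char.DegVan
import Cfsg.Agent.Class.SmallGroupIso

set_option autoImplicit false
open Cfsg

namespace Cfsg.Agent.S3598

open Char DegVan

theorem alt5 {G : Type*} [Group G] [Finite G] (hG : Nat.card G = 60)
    (h : ∀ χ : IrrCharacter G, χ ≠ irrOne G → charDegree χ.1 = 3 ∨ charDegree χ.1 = 4 ∨
      charDegree χ.1 = 5) : Nonempty (G ≃* alternatingGroup (Fin 5)) := by
  have v3 : ∀ (χ : IrrCharacter G) (g : G), charDegree χ.1 = 3 → 3 ∣ orderOf g → χ.1 g = 0 :=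
    fun χ g h1 h2 => van_of_defect χ Nat.prime_three h1 (r := 20) hG (by norm_num) h2
  have v4 : ∀ (χ : IrrCharacter G) (g : G), charDegree χ.1 = 4 → 2 ∣ orderOf g → χ.1 g = 0 :=
    fun χ g h1 h2 => van_of_defect χ Nat.prime_two h1 (r := 15) hG (by norm_num) h2
  have v5 : ∀ (χ : IrrCharacter G) (g : G), charDegree χ.1 = 5 → 5 ∣ orderOf g → χ.1 g = 0 :=
    fun χ g h1 h2 => van_of_defect χ Nat.prime_five h1 (r := 12) hG (by norm_num) h2
  refine Class.SmallIso.alt5_of_orders hG (fun g hg => ?_) (fun g hg => ?_) (fun g hg => ?_)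
  · refine absurd (eq_one_of_van (g := g) (m := 5) (by rintro rfl; simp at hg) fun χ hχ => ?_)
      (by norm_num)
    rcases h χ hχ with h | h | h
    · exact Or.inl (v3 χ g h (by rw [hg]; norm_num))
    · exact Or.inl (v4 χ g h (by rw [hg]; norm_num))
    · exact Or.inr (by rw [h])
  · refine absurd (eq_one_of_van (g := g) (m := 3) (by rintro rfl; simp at hg) fun χ hχ => ?_)
      (by norm_num)
    rcases h χ hχ with h | h | h
    · exact Or.inr (by rw [h])
    · exact Or.inl (v4 χ g h (by rw [hg]; norm_num))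
    · exact Or.inl (v5 χ g h (by rw [hg]; norm_num))
  · refine absurd (eq_one_of_van (g := g) (m := 4) (by rintro rfl; simp at hg) fun χ hχ => ?_)
      (by norm_num)
    rcases h χ hχ with h | h | h
    · exact Or.inl (v3 χ g h (by rw [hg]; norm_num))
    · exact Or.inr (by rw [h])
    · exact Or.inl (v5 χ g h (by rw [hg]; norm_num))

/-- No element of order divisible by `p r`. -/
theorem no_mixed {G : Type*} [Group G] [Finite G] {p k : ℕ} (hp : p.Prime) (hk : 0 < k)
    (hq : p ^ 2 = 4 * k + 1) (hG : Nat.card G = (4 * k + 1) * (4 * k * (2 * k + 1)))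
    (h : ∀ χ : IrrCharacter G, χ ≠ irrOne G → charDegree χ.1 = 4 * k + 1 ∨
      charDegree χ.1 = 4 * k + 1 + 1 ∨ charDegree χ.1 + 1 = 4 * k + 1 ∨
      2 * charDegree χ.1 = 4 * k + 1 + 1) {g : G} (hg : p ∣ orderOf g) {r : ℕ} (hr : r.Prime)
    (hrg : r ∣ orderOf g) : r = p := by
  have hg1 : g ≠ 1 := by
    rintro rfl
    rw [orderOf_one, Nat.dvd_one] at hg
    exact hp.one_lt.ne' hg
  have hpq : p ∣ 4 * k + 1 := hq ▸ dvd_pow_self p two_ne_zero
  have c1 : Nat.Coprime (4 * k + 1) (4 * k) := by simp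
  have c2 : Nat.Coprime (4 * k + 1) (2 * k + 1) := by
    rw [Nat.coprime_comm, show 4 * k + 1 = 2 * k + (2 * k + 1) by ring, Nat.coprime_add_self_right]
    simp
  have c3 : Nat.Coprime (4 * k) (2 * k + 1) := by
    rw [show 4 * k = 2 * (2 * k) by ring]
    exact Nat.Coprime.mul_left (by simp) (by simp)
  have nd : ∀ {s a b : ℕ}, s.Prime → a.Coprime b → s ∣ a → ¬ s ∣ b := fun hs hc ha hb =>
    hs.one_lt.ne' (Nat.eq_one_of_dvd_coprimes hc ha hb)
  have vq : ∀ χ : IrrCharacter G, charDegree χ.1 = 4 * k + 1 → χ.1 g = 0 := fun χ h1 =>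
    van_of_defect χ hp h1 hG (nd hp (c1.mul_right c2) hpq) hg
  have hd : r ∣ (4 * k + 1) * (4 * k * (2 * k + 1)) := hG ▸ hrg.trans (orderOf_dvd_natCard g)
  rcases hr.dvd_mul.1 hd with h1 | h1
  · exact (Nat.prime_dvd_prime_iff_eq hr hp).1 (hr.dvd_of_dvd_pow (hq ▸ h1))
  exfalso
  rcases hr.dvd_mul.1 h1 with h1 | h1
  · refine absurd (eq_one_of_van (g := g) (m := 2 * k + 1) hg1 fun χ hχ => ?_) (by omega)
    rcases h χ hχ with h | h | h | h
    · exact Or.inl (vq χ h)
    · exact Or.inr ⟨2, by omega⟩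
    · exact Or.inl (van_of_defect χ hr (d := 4 * k) (r := (4 * k + 1) * (2 * k + 1)) (by omega)
        (by rw [hG]; ring) (nd hr (c1.symm.mul_right c3) h1) hrg)
    · exact Or.inr ⟨1, by omega⟩
  · have c4 : Nat.Coprime (2 * k + 1) (2 * k) := by simp
    refine absurd (eq_one_of_van (g := g) (m := 4 * k) hg1 fun χ hχ => ?_) (by omega)
    rcases h χ hχ with h | h | h | h
    · exact Or.inl (vq χ h)
    · exact Or.inl (van_of_defect χ hr (d := 4 * k + 1 + 1) (r := (4 * k + 1) * (2 * k)) h
        (by rw [hG]; ring) (nd hr (c2.symm.mul_right c4) h1) hrg)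
    · exact Or.inr ⟨1, by omega⟩
    · exact Or.inl (van_of_defect χ hr (d := 2 * k + 1) (r := (4 * k + 1) * (4 * k)) (by omega)
        (by rw [hG]; ring) (nd hr (c2.symm.mul_right c3.symm) h1) hrg)

/-- Let p be a prime and F a field with p² elements. If a finite group G has, for every d, the same number of irreducible complex characters of degree d as PSL(2,F) (the same first column of the character table, with multiplicities), then G is isomorphic to PSL(2,F). -/
theorem result {F : Type*} [Field F] [Fintype F] (p : ℕ) (hp : p.Prime)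
    (hF : Fintype.card F = p ^ 2) {G : Type*} [Group G] [Finite G]
    (h : ∀ d : ℕ, Nat.card {χ : Cfsg.IrrCharacter G // (χ : G → ℂ) 1 = (d : ℂ)} =
      Nat.card {χ : Cfsg.IrrCharacter (Matrix.ProjectiveSpecialLinearGroup (Fin 2) F) // (χ : Matrix.ProjectiveSpecialLinearGroup (Fin 2) F → ℂ) 1 = (d : ℂ)}) :
    Nonempty (G ≃* Matrix.ProjectiveSpecialLinearGroup (Fin 2) F) := by
  classical
  obtain ⟨e, he⟩ := exists_equiv h
  have hc := card_eq_of_equiv e he
  have h4 : 4 ≤ Fintype.card F := by rw [hF]; nlinarith [hp.two_le]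
  have h3 : Fintype.card F % 4 ≠ 3 := by
    rw [hF, Nat.pow_mod]
    have : p % 4 < 4 := Nat.mod_lt _ (by norm_num)
    generalize p % 4 = a at this
    interval_cases a <;> norm_num
  have h1 : e (irrOne G) = irrOne _ := by
    by_contra hne
    have h5 := psl_deg h4 h3 _ hne
    rw [he, show charDegree (irrOne G).1 = 1 from charDegree_const_one] at h5
    omega
  have hd : ∀ χ : IrrCharacter G, χ ≠ irrOne G → charDegree χ.1 = Fintype.card F ∨
      charDegree χ.1 = Fintype.card F + 1 ∨ charDegree χ.1 + 1 = Fintype.card F ∨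
      2 * charDegree χ.1 = Fintype.card F + 1 := fun χ hχ => by
    rw [← he]
    exact psl_deg h4 h3 _ fun h => hχ (e.injective (h.trans h1.symm))
  rcases hp.eq_two_or_odd' with rfl | ho
  · have hL : Nat.card (Matrix.ProjectiveSpecialLinearGroup (Fin 2) F) = 60 := by
      have := Class.Dickson.gcd_mul_card_PSL2 (K := F)
      rw [Nat.card_eq_fintype_card (α := F), hF] at this
      norm_num at this
      rwa [Nat.card_eq_fintype_card]
    obtain ⟨a⟩ := alt5 (hc.trans hL) fun χ hχ => by have := hd χ hχ; omega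
    obtain ⟨b⟩ := alt5 hL fun χ hχ => by have := psl_deg h4 h3 χ hχ; omega
    exact ⟨a.trans b.symm⟩
  · have : Fact p.Prime := ⟨hp⟩
    have ho' : Odd (Fintype.card F) := hF ▸ ho.pow
    obtain ⟨k, hk⟩ : ∃ k, Fintype.card F = 4 * k + 1 :=
      ⟨Fintype.card F / 4, by have := Nat.odd_iff.1 ho'; omega⟩
    have hL := Perm.ZassPSL.two_mul_card_PSL (F := F) (by rwa [Nat.card_eq_fintype_card])
    rw [← hc, Nat.card_eq_fintype_card (α := F), hk, Nat.add_sub_cancel] at hL
    have hG : Nat.card G = (4 * k + 1) * (4 * k * (2 * k + 1)) := by linarith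
    rw [hk] at hd
    have hq : p ^ 2 = 4 * k + 1 := hF.symm.trans hk
    obtain ⟨P⟩ : Nonempty (Sylow p G) := inferInstance
    have hP : Nat.card (P : Subgroup G) = p ^ 2 := by
      have c1 : Nat.Coprime (4 * k + 1) (4 * k) := by simp
      have c2 : Nat.Coprime (4 * k + 1) (2 * k + 1) := by
        rw [Nat.coprime_comm, show 4 * k + 1 = 2 * k + (2 * k + 1) by ring,
          Nat.coprime_add_self_right]
        simp
      have c3 : ¬ p ∣ 4 * k * (2 * k + 1) := fun hh => hp.one_lt.ne'
        (Nat.eq_one_of_dvd_coprimes (c1.mul_right c2) (hq ▸ dvd_pow_self p two_ne_zero) hh)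
      rw [P.card_eq_multiplicity, hG, ← hq, Nat.factorization_mul (pow_ne_zero _ hp.ne_zero)
        (by rintro h0; exact c3 (h0 ▸ dvd_zero p)), Finsupp.add_apply,
        Nat.factorization_eq_zero_of_not_dvd c3, hp.factorization_pow]
      simp
    have hab : ∀ x ∈ (P : Subgroup G), ∀ y ∈ (P : Subgroup G), x * y = y * x := fun x hx y hy =>
      congrArg Subtype.val ((IsPGroup.commutative_of_card_eq_prime_sq hP) ⟨x, hx⟩ ⟨y, hy⟩)
    refine psl_of_cent P hab (fun x hx hx1 g hg => ?_) (hP.trans hF.symm) (by omega) hc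
    have hle : (P : Subgroup G) ≤ Subgroup.centralizer {x} := fun y hy =>
      Subgroup.mem_centralizer_singleton_iff.2 (hab y hy x hx)
    obtain ⟨n, hn⟩ := IsPGroup.iff_orderOf.1 P.isPGroup' ⟨x, hx⟩
    rw [← Subgroup.orderOf_coe] at hn
    have hn0 : n ≠ 0 := by
      rintro rfl
      exact hx1 (orderOf_eq_one_iff.1 hn)
    have hC : IsPGroup p (Subgroup.centralizer ({x} : Set G)) := by
      rw [IsPGroup.iff_card]
      refine ⟨_, Nat.eq_prime_pow_of_unique_prime_dvd Nat.card_pos.ne' fun {r} hr hrd => ?_⟩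
      by_contra hrp
      have : Fact r.Prime := ⟨hr⟩
      obtain ⟨y, hy⟩ := exists_prime_orderOf_dvd_card' r hrd
      rw [← Subgroup.orderOf_coe] at hy
      have hxy : Commute (y : G) x := Subgroup.mem_centralizer_singleton_iff.1 y.2
      have ho := hxy.orderOf_mul_eq_mul_orderOf_of_coprime (by
        rw [hy, show orderOf x = p ^ n from hn]
        exact ((Nat.coprime_primes hr hp).2 hrp).pow_right n)
      rw [hy, show orderOf x = p ^ n from hn] at ho
      exact hrp (no_mixed hp (by omega) hq hG hd (g := y * x)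
        (ho ▸ (dvd_pow_self p hn0).mul_left r) hr (ho ▸ Dvd.intro _ rfl))
    rw [← P.is_maximal' hC hle]
    exact Subgroup.mem_centralizer_singleton_iff.2 hg

end Cfsg.Agent.S3598
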