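import Cfsg.Statements.S3599
import Mathlib


set_option autoImplicit false
open Cfsg

namespace Cfsg.Agent.S3599

open Subgroup

structure Pre (A : Type) [Group A] (p q : ℕ) : Prop where
  pow : ∀ g : A, g ^ p = 1 ∨ g ^ q = 1
  exp : ∃ x : A, x ≠ 1 ∧ x ^ p = 1
  exq : ∃ y : A, y ≠ 1 ∧ y ^ q = 1
  cl : ∀ x y : A, x ^ p = 1 → y ^ p = 1 → (x * y) ^ p = 1

theorem eq_one_of {A : Type*} [Group A] {x : A} {m n : ℕ} (h : m.Coprime n) (h1 : x ^ m = 1)
    (h2 : x ^ n = 1) : x = 1 := by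
  have := pow_gcd_eq_one.2 ⟨h1, h2⟩
  rwa [h, pow_one] at this

theorem exists_pre {p q : ℕ} (hp : p.Prime) (hq : q.Prime) (hpq : p ≠ q) :
    ∃ (A : Type) (_ : Group A) (_ : Finite A), Pre A p q := by
  have := Fact.mk hp
  have := Fact.mk hq
  have hc : p.Coprime q := (Nat.coprime_primes hp hq).2 hpq
  obtain ⟨F, _, _, _, u, hu1, hu⟩ : ∃ (F : Type) (_ : Field F) (_ : Finite F) (_ : CharP F p)
      (u : F), u ≠ 1 ∧ u ^ q = 1 := by
    have h0 : q - 1 ≠ 0 := by have := hq.two_le; omega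
    obtain ⟨u, hu⟩ := exists_prime_orderOf_dvd_card' (G := (GaloisField p (q - 1))ˣ) q (by
      rw [Nat.card_units, GaloisField.card p _ h0]
      have := Nat.ModEq.pow_totient hc
      rw [Nat.totient_prime hq] at this
      exact (Nat.modEq_iff_dvd' (Nat.one_le_pow _ _ hp.pos)).1 this.symm)
    refine ⟨GaloisField p (q - 1), inferInstance, inferInstance, inferInstance, u, fun e => ?_, ?_⟩
    · rw [Units.val_eq_one.1 e, orderOf_one] at hu
      exact hq.one_lt.ne hu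
    · rw [← Units.val_pow_eq_pow_val, orderOf_dvd_iff_pow_eq_one.1 hu.dvd, Units.val_one]
  have ha0 : ∀ a : F, a ^ q = 1 → a ≠ 0 := fun a ha e => by
    rw [e, zero_pow hq.ne_zero] at ha; exact zero_ne_one ha
  let A : Subgroup (Equiv.Perm F) :=
    { carrier := {σ | ∃ a b : F, a ^ q = 1 ∧ ∀ x, σ x = a * x + b}
      one_mem' := ⟨1, 0, one_pow _, fun x => by simp⟩
      mul_mem' := by
        rintro σ τ ⟨a, b, ha, h⟩ ⟨c, d, hc, h'⟩
        exact ⟨a * c, a * d + b, by rw [mul_pow, ha, hc, one_mul], fun x => by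
          rw [Equiv.Perm.mul_apply, h, h']; ring⟩
      inv_mem' := by
        rintro σ ⟨a, b, ha, h⟩
        refine ⟨a⁻¹, -(a⁻¹ * b), by rw [inv_pow, ha, inv_one], fun x => ?_⟩
        rw [Equiv.Perm.inv_eq_iff_eq, h]
        field_simp [ha0 a ha]
        ring }
  have hpow : ∀ (σ : Equiv.Perm F) (a b : F), (∀ x, σ x = a * x + b) → ∀ (n : ℕ) (x : F),
      (σ ^ n) x = a ^ n * x + (∑ i ∈ Finset.range n, a ^ i) * b := fun σ a b h n x => by
    induction n with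
    | zero => simp
    | succ n ih => rw [pow_succ', Equiv.Perm.mul_apply, h, ih, geom_sum_succ]; ring
  have h1 : ∀ (σ : A) (b : F), (∀ x, σ.1 x = 1 * x + b) → σ ^ p = 1 := fun σ b h =>
    Subtype.ext (Equiv.ext fun x => by
      rw [Subgroup.coe_pow, hpow _ _ _ h]; simp)
  have h2 : ∀ (σ : A) (a b : F), a ≠ 1 → a ^ q = 1 → (∀ x, σ.1 x = a * x + b) → σ ^ q = 1 :=
    fun σ a b ha1 ha h => Subtype.ext (Equiv.ext fun x => by
      have := mul_geom_sum a q
      rw [ha, sub_self] at this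
      rw [Subgroup.coe_pow, hpow _ _ _ h, ha,
        (mul_eq_zero.1 this).resolve_left (sub_ne_zero.2 ha1)]
      simp)
  have h3 : ∀ σ : A, σ ^ p = 1 → ∃ b : F, ∀ x, σ.1 x = 1 * x + b := by
    rintro ⟨σ, a, b, ha, h⟩ e
    have e1 : σ ^ p = 1 := congrArg Subtype.val e
    have e2 := hpow σ a b h p 0
    have e3 := hpow σ a b h p 1
    rw [e1, Equiv.Perm.one_apply] at e2 e3
    have e4 : a ^ p = 1 := by linear_combination e2 - e3
    have e5 := pow_gcd_eq_one.2 ⟨e4, ha⟩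
    rw [hc, pow_one] at e5
    exact ⟨b, e5 ▸ h⟩
  refine ⟨A, inferInstance, inferInstance, fun σ => ?_, ⟨⟨Equiv.addRight 1, 1, 1, one_pow _,
    fun x => by simp⟩, fun e => ?_, h1 _ 1 fun x => by simp⟩,
    ⟨⟨Equiv.mulLeft₀ u (ha0 u hu), u, 0, hu, fun x => by simp⟩, fun e => ?_,
      h2 _ u 0 hu1 hu fun x => by simp⟩, fun x y hx hy => ?_⟩
  · obtain ⟨a, b, ha, h⟩ := σ.2
    by_cases ha1 : a = 1
    · exact Or.inl (h1 σ b (ha1 ▸ h))
    · exact Or.inr (h2 σ a b ha1 ha h)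
  · simpa using congrArg (fun σ : A => σ.1 0) e
  · exact hu1 (by simpa using congrArg (fun σ : A => σ.1 1) e)
  · obtain ⟨b, hb⟩ := h3 x hx
    obtain ⟨c, hc⟩ := h3 y hy
    exact h1 _ (c + b) fun z => by rw [Subgroup.coe_mul, Equiv.Perm.mul_apply, hb, hc]; ring

structure Crit (A : Type) [Group A] (p q : ℕ) : Prop extends Pre A p q where
  min : ∀ K : Subgroup A, (∃ x ∈ K, x ≠ 1 ∧ x ^ p = 1) → (∃ y ∈ K, y ≠ 1 ∧ y ^ q = 1) → K = ⊤

theorem exists_crit {p q : ℕ} (hp : p.Prime) (hq : q.Prime) (hpq : p ≠ q) :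
    ∃ (A : Type) (_ : Group A) (_ : Finite A), Crit A p q := by
  obtain ⟨A, _, _, h⟩ := exists_pre hp hq hpq
  obtain ⟨H, ⟨⟨x, hx, hx1, hxp⟩, y, hy, hy1, hyq⟩, hmin⟩ := (wellFounded_lt (α := Subgroup A)).has_min
    {K | (∃ x ∈ K, x ≠ 1 ∧ x ^ p = 1) ∧ ∃ y ∈ K, y ≠ 1 ∧ y ^ q = 1}
    ⟨⊤, by simpa using h.exp, by simpa using h.exq⟩
  refine ⟨H, inferInstance, inferInstance, ⟨fun g => (h.pow g).imp Subtype.ext Subtype.ext,
    ⟨⟨x, hx⟩, fun e => hx1 (congrArg Subtype.val e), Subtype.ext hxp⟩,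
    ⟨⟨y, hy⟩, fun e => hy1 (congrArg Subtype.val e), Subtype.ext hyq⟩, fun a b ha hb =>
      Subtype.ext (h.cl a b (congrArg Subtype.val ha) (congrArg Subtype.val hb))⟩, ?_⟩
  rintro K ⟨a, ha, ha1, hap⟩ ⟨b, hb, hb1, hbq⟩
  have := eq_of_le_of_not_lt (map_subtype_le K) (hmin _ ⟨⟨a, mem_map_of_mem _ ha,
    fun e => ha1 (Subtype.ext e), congrArg Subtype.val hap⟩, b, mem_map_of_mem _ hb,
    fun e => hb1 (Subtype.ext e), congrArg Subtype.val hbq⟩)
  refine eq_top_iff.2 fun g _ => ?_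
  obtain ⟨k, hk, e⟩ := this.ge g.2
  exact (Subtype.ext e : k = g) ▸ hk

section
variable {A : Type} [Group A] {p q : ℕ}

theorem Pre.not_comm (h : Pre A p q) (hc : p.Coprime q) {x y : A} (hx : x ^ p = 1) (hy : y ^ q = 1)
    (e : Commute x y) : x = 1 ∨ y = 1 := by
  rcases h.pow (x * y) with h1 | h1
  · rw [e.mul_pow, hx, one_mul] at h1
    exact Or.inr (eq_one_of hc h1 hy)
  · rw [e.mul_pow, hy, mul_one] at h1
    exact Or.inl (eq_one_of hc hx h1)

theorem Pre.not_cl (h : Pre A p q) (hc : p.Coprime q) :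
    ¬ ∀ x y : A, x ^ q = 1 → y ^ q = 1 → (x * y) ^ q = 1 := fun hq => by
  obtain ⟨x, hx1, hx⟩ := h.exp
  obtain ⟨y, hy1, hy⟩ := h.exq
  have e1 := hq (x * y * x⁻¹) y⁻¹ (by rw [conj_pow, hy]; group) (by rw [inv_pow, hy, inv_one])
  have e2 := h.cl x (y * x⁻¹ * y⁻¹) hx (by rw [conj_pow, inv_pow, hx]; group)
  rw [show x * (y * x⁻¹ * y⁻¹) = x * y * x⁻¹ * y⁻¹ by group] at e2
  exact (h.not_comm hc hx hy
    (commutatorElement_eq_one_iff_commute.1 (eq_one_of hc e2 e1))).elim hx1 hy1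

theorem Crit.normal (h : Crit A p q) (hc : p.Coprime q) (N : Subgroup A) [hN : N.Normal] {n : A}
    (hn : n ∈ N) (hn1 : n ≠ 1) {v : A} (hv : v ^ p = 1) : v ∈ N := by
  let V : Subgroup A :=
    { carrier := {x | x ^ p = 1}
      one_mem' := one_pow _
      mul_mem' := fun ha hb => h.cl _ _ ha hb
      inv_mem' := fun {a} (ha : a ^ p = 1) => show a⁻¹ ^ p = 1 by rw [inv_pow, ha, inv_one] }
  have hV : V.Normal := ⟨fun a (ha : a ^ p = 1) g => show _ ^ p = 1 by rw [conj_pow, ha]; group⟩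
  obtain ⟨y, hy1, hy⟩ := h.exq
  by_cases hb : ∃ x ∈ N ⊓ V, x ≠ 1
  · obtain ⟨x, hx, hx1⟩ := hb
    have := (h.min (N ⊓ V ⊔ zpowers y) ⟨x, mem_sup_left hx, hx1, hx.2⟩
      ⟨y, mem_sup_right (mem_zpowers y), hy1, hy⟩).ge (mem_top v)
    obtain ⟨a, ha, _, ⟨k, rfl⟩, rfl⟩ := mem_sup_of_normal_left.1 this
    have h1 : (y ^ k) ^ p = 1 := (V.mul_mem_cancel_left ha.2).1 hv
    show a * y ^ k ∈ N
    rw [eq_one_of hc h1 (by rw [← zpow_natCast, ← zpow_mul, mul_comm, zpow_mul, zpow_natCast, hy,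
      one_zpow]), mul_one]
    exact ha.1
  · push Not at hb
    obtain ⟨x, hx1, hx⟩ := h.exp
    have hd : Disjoint V N := disjoint_def.2 fun h1 h2 => hb _ ⟨h2, h1⟩
    exact ((h.not_comm hc hx ((h.pow n).resolve_left fun e => hn1 (hb n ⟨hn, e⟩))
      (commute_of_normal_of_disjoint V N hV hN hd x n hx hn)).elim hx1 hn1).elim
end

/-- A finite group is critical with respect to a set Ω of natural numbers when its set of element orders is Ω while no proper section H/N (H a subgroup, N normal in H, (H, N) ≠ (whole group, 1)) has Ω as its set of element orders. Let s ≥ 1 and let p(j,0), p(j,1) (j < s) be 2s pairwise distinct primes, and let Ω be the set of all products c(0)·…·c(s−1) with each c(j) ∈ {1, p(j,0), p(j,1)}. Then there are 2^s pairwise non-isomorphic finite groups critical with respect to Ω. -/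
theorem result (s : ℕ) (hs : 1 ≤ s) (p : Fin s → Fin 2 → ℕ)
    (hp : ∀ j i, (p j i).Prime) (hinj : ∀ j i j' i', p j i = p j' i' → j = j' ∧ i = i') :
    ∃ (G : Fin (2 ^ s) → Type) (_ : ∀ a, Group (G a)) (_ : ∀ a, Fintype (G a)),
      (∀ a b, a ≠ b → ¬ Nonempty (G a ≃* G b)) ∧
      ∀ a, Set.range (orderOf : (G a) → ℕ) = {m : ℕ | ∃ c : Fin s → ℕ, (∀ j, c j = 1 ∨ c j = p j 0 ∨ c j = p j 1) ∧ m = ∏ j, c j} ∧
      ∀ (H : Subgroup (G a)) (N : Subgroup ↥H) [N.Normal], (H ≠ ⊤ ∨ N ≠ ⊥) → Set.range (orderOf : (↥H ⧸ N) → ℕ) ≠ {m : ℕ | ∃ c : Fin s → ℕ, (∀ j, c j = 1 ∨ c j = p j 0 ∨ c j = p j 1) ∧ m = ∏ j, c j} := by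
  classical
  have hcop : ∀ j i j' i', ¬ (j = j' ∧ i = i') → (p j i).Coprime (p j' i') := fun j i j' i' h =>
    (Nat.coprime_primes (hp j i) (hp j' i')).2 fun e => h (hinj _ _ _ _ e)
  have hrev : ∀ i : Fin 2, i ≠ i.rev := by decide
  have hc : ∀ j i, (p j i).Coprime (p j i.rev) := fun j i => hcop _ _ _ _ fun h => hrev i h.2
  choose A _ _ hA using fun (j : Fin s) (i : Fin 2) =>
    exists_crit (hp j i) (hp j i.rev) fun e => hrev i (hinj _ _ _ _ e).2
  have hi2 : ∀ i k : Fin 2, k = i ∨ k = i.rev := by decide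
  have hpow : ∀ j i (g : A j i), ∃ k, g ^ p j k = 1 := fun j i g =>
    ((hA j i).pow g).elim (fun h => ⟨_, h⟩) fun h => ⟨_, h⟩
  have hex : ∀ j i k, ∃ g : A j i, orderOf g = p j k := fun j i k => by
    have := Fact.mk (hp j k)
    rcases hi2 i k with rfl | rfl
    · obtain ⟨x, h1, h2⟩ := (hA j k).exp
      exact ⟨x, orderOf_eq_prime h2 h1⟩
    · obtain ⟨x, h1, h2⟩ := (hA j i).exq
      exact ⟨x, orderOf_eq_prime h2 h1⟩
  have key : ∀ j k, ∃ M, (p j k).Coprime M ∧ ∀ (ε : Fin s → Fin 2) (g : ∀ j, A j (ε j)),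
      ∃ v : A j (ε j), v ^ p j k = 1 ∧ g ^ M = Pi.mulSingle j v := fun j k => by
    refine ⟨∏ x ∈ Finset.univ.erase (j, k), p x.1 x.2, Nat.Coprime.prod_right fun x hx =>
      hcop _ _ _ _ fun e => (Finset.mem_erase.1 hx).1 (Prod.ext e.1.symm e.2.symm), fun ε g => ?_⟩
    have hd : ∀ j' k', (j', k') ≠ (j, k) → p j' k' ∣ ∏ x ∈ Finset.univ.erase (j, k), p x.1 x.2 :=
      fun j' k' h => Finset.dvd_prod_of_mem (fun x : Fin s × Fin 2 => p x.1 x.2)
        (Finset.mem_erase.2 ⟨h, Finset.mem_univ _⟩)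
    generalize ∏ x ∈ Finset.univ.erase (j, k), p x.1 x.2 = M at hd
    refine ⟨g j ^ M, ?_, funext fun j' => ?_⟩
    · obtain ⟨k', hk'⟩ := hpow _ _ (g j)
      by_cases e : k' = k
      · rw [← pow_mul, mul_comm, pow_mul, ← e, hk', one_pow]
      · obtain ⟨m, rfl⟩ := hd j k' (by simpa using e)
        rw [pow_mul, hk', one_pow, one_pow]
    · by_cases e : j' = j
      · subst e; simp
      · obtain ⟨k', hk'⟩ := hpow _ _ (g j')
        obtain ⟨m, rfl⟩ := hd j' k' (by simp [e])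
        rw [Pi.mulSingle_eq_of_ne e, Pi.pow_apply, pow_mul, hk', one_pow]
  refine ⟨fun a => ∀ j, A j (finFunctionFinEquiv.symm a j), fun a => inferInstance,
    fun a => Fintype.ofFinite _, fun a b hab => ?_, fun a => ?_⟩
  · obtain ⟨j, hj⟩ := Function.ne_iff.1 (finFunctionFinEquiv.symm.injective.ne hab)
    revert hj
    beta_reduce
    generalize finFunctionFinEquiv.symm a = ε
    generalize finFunctionFinEquiv.symm b = δ
    rintro hj ⟨e⟩
    have hδ : ε j = (δ j).rev := (hi2 _ _).resolve_left hj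
    have h1 : ∀ x y : (∀ j, A j (ε j)), x ^ p j (ε j) = 1 → y ^ p j (ε j) = 1 →
        (x * y) ^ p j (ε j) = 1 := fun x y hx hy => funext fun j' => by
      by_cases e : j' = j
      · subst e
        exact (hA _ _).cl _ _ (congrFun hx j') (congrFun hy j')
      · have : ∀ z : (∀ j, A j (ε j)), z ^ p j (ε j) = 1 → z j' = 1 := fun z hz => by
          obtain ⟨k, hk⟩ := hpow _ _ (z j')
          exact eq_one_of (hcop _ _ _ _ fun h => e h.1) hk (congrFun hz j')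
        simp [this x hx, this y hy]
    refine (hA j (δ j)).not_cl (hc _ _) fun x y hx hy => ?_
    rw [← hδ] at hx hy ⊢
    have := h1 (e.symm (MonoidHom.mulSingle _ j x)) (e.symm (MonoidHom.mulSingle _ j y))
      (by rw [← map_pow, ← map_pow, hx, map_one, map_one])
      (by rw [← map_pow, ← map_pow, hy, map_one, map_one])
    rw [← map_mul, ← map_mul, ← map_pow, ← map_pow, EmbeddingLike.map_eq_one_iff] at this
    simpa using congrFun this j
  beta_reduce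
  generalize finFunctionFinEquiv.symm a = ε
  have hord : ∀ g : (∀ j, A j (ε j)), (∀ j, orderOf (g j) = 1 ∨ orderOf (g j) = p j 0 ∨
      orderOf (g j) = p j 1) ∧ orderOf g = ∏ j, orderOf (g j) := fun g => by
    have h1 : ∀ j, ∃ k, orderOf (g j) ∣ p j k := fun j =>
      (hpow _ _ (g j)).imp fun k hk => orderOf_dvd_of_pow_eq_one hk
    refine ⟨fun j => ?_, ?_⟩
    · obtain ⟨k, hk⟩ := h1 j
      rcases (Nat.dvd_prime (hp j k)).1 hk with h | h
      · exact Or.inl h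
      · rcases hi2 0 k with rfl | rfl
        exacts [Or.inr (Or.inl h), Or.inr (Or.inr h)]
    · rw [Pi.orderOf, Finset.lcm_eq_prod]
      intro j _ j' _ hjj
      obtain ⟨k, hk⟩ := h1 j
      obtain ⟨k', hk'⟩ := h1 j'
      exact ((hcop _ _ _ _ fun h => hjj h.1).coprime_dvd_left hk).coprime_dvd_right hk'
  refine ⟨Set.ext fun m => ⟨?_, ?_⟩, fun H N _ hHN hspec => ?_⟩
  · rintro ⟨g, rfl⟩
    exact ⟨_, (hord g).1, (hord g).2⟩
  · rintro ⟨c, hc, rfl⟩
    choose g hg using fun j => show ∃ g : A j (ε j), orderOf g = c j by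
      rcases hc j with h | h | h <;> rw [h]
      exacts [⟨1, orderOf_one⟩, hex _ _ _, hex _ _ _]
    exact ⟨g, by simp only [(hord g).2, hg]⟩
  have h1 : ∀ j k, ∃ (v : A j (ε j)) (hv : Pi.mulSingle j v ∈ H), v ^ p j k = 1 ∧
      (⟨_, hv⟩ : H) ∉ N := fun j k => by
    obtain ⟨x, hx⟩ : p j k ∈ Set.range (orderOf : (H ⧸ N) → ℕ) := by
      rw [hspec]
      refine ⟨Pi.mulSingle j (p j k), fun j' => ?_, by simp⟩
      by_cases e : j' = j
      · subst e
        rcases hi2 0 k with rfl | rfl <;> simp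
      · simp [e]
    induction x using QuotientGroup.induction_on with | H x => ?_
    obtain ⟨M, hM, h⟩ := key j k
    obtain ⟨v, hv, e⟩ := h ε x
    refine ⟨v, e ▸ pow_mem x.2 M, hv, fun hN => ?_⟩
    have : x ^ M ∈ N := by convert hN; exact e
    rw [← QuotientGroup.eq_one_iff, QuotientGroup.mk_pow, ← orderOf_dvd_iff_pow_eq_one, hx] at this
    exact (hp j k).one_lt.ne' (Nat.eq_one_of_dvd_coprimes hM dvd_rfl this)
  have hH : H = ⊤ := by
    refine eq_top_iff.2 fun g _ => pi_mem_of_mulSingle_mem g fun j => ?_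
    have h2 : ∀ k, ∃ v ∈ H.comap (MonoidHom.mulSingle (fun j => A j (ε j)) j), v ≠ 1 ∧
        v ^ p j k = 1 := fun k => by
      obtain ⟨v, hv, h2, h3⟩ := h1 j k
      refine ⟨v, hv, ?_, h2⟩
      rintro rfl
      exact h3 (by convert N.one_mem; simp)
    exact ((hA j (ε j)).min _ (h2 _) (h2 _)).ge (mem_top (g j))
  subst hH
  obtain ⟨⟨n, hn⟩, hn1⟩ := ne_bot_iff_exists_ne_one.1 (hHN.resolve_left (by simp))
  obtain ⟨j, hj⟩ := Function.ne_iff.1 (fun e : n.1 = 1 => hn1 (Subtype.ext (Subtype.ext e)))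
  obtain ⟨k, hk⟩ := hpow _ _ (n.1 j)
  obtain ⟨M, hM, h⟩ := key j k
  obtain ⟨w, -, e⟩ := h ε n
  obtain ⟨v, hv, h2, h3⟩ := h1 j (ε j)
  let f : A j (ε j) →* (⊤ : Subgroup (∀ j, A j (ε j))) :=
    topEquiv.symm.toMonoidHom.comp (MonoidHom.mulSingle (fun j => A j (ε j)) j)
  refine h3 ((hA j (ε j)).normal (hc _ _) (N.comap f) (n := w) ?_ (fun e1 => ?_) h2)
  · have : f w = n ^ M := Subtype.ext e.symm
    rw [mem_comap, this]
    exact pow_mem hn M
  · have := congrFun e j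
    rw [e1, Pi.pow_apply, Pi.mulSingle_eq_same] at this
    exact hj (eq_one_of hM hk this)

end Cfsg.Agent.S3599
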