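import Cfsg.Statements.S3619
import Cfsg.Agent.Perm.JordanSet

set_option autoImplicit false
open Cfsg

namespace Cfsg.Agent.S3619

open MulAction in

/-- Let G act faithfully on a finite set in such a way that every non-trivial normal subgroup of G is transitive (G is quasiprimitive). Let Γ be a subset with more than one point and not the whole set, such that the pointwise stabilizer of the complement of Γ acts transitively on Γ (a Jordan set). If that pointwise stabilizer acts primitively on Γ, then G is k-fold transitive where k is one more than the number of points outside Γ (the Jordan set is a trivial one). -/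
theorem result {G Ω : Type*} [Group G] [Finite G] [MulAction G Ω] [FaithfulSMul G Ω] [Finite Ω]
    (hqp : ∀ N : Subgroup G, N.Normal → N ≠ ⊥ → MulAction.IsPretransitive ↥N Ω)
    (Γ : Set Ω) (hΓ1 : 1 < Γ.ncard) (hΓ2 : Γ.ncard < Nat.card Ω)
    (hJ : MulAction.IsPretransitive ↥(fixingSubgroup G Γᶜ) ↥(SubMulAction.ofFixingSubgroup G Γᶜ))
    (hJp : MulAction.IsPreprimitive ↥(fixingSubgroup G Γᶜ) ↥(SubMulAction.ofFixingSubgroup G Γᶜ)) :
    MulAction.IsMultiplyPretransitive G Ω (Nat.card Ω - Γ.ncard + 1) := by
  have h3 := Set.ncard_add_ncard_compl Γ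
  have hF := Perm.JordanSet.flat_of_isPretransitive hJ
  obtain ⟨a, ha, b, hb, hab⟩ := (Set.one_lt_ncard Γ.toFinite).1 hΓ1
  obtain ⟨h, hh, hha⟩ := hF a (by simpa using ha) b (by simpa using hb)
  have hh1 : h ≠ 1 := by rintro rfl; exact hab (by simpa using hha)
  have htr : IsPretransitive G Ω := by
    have := hqp ⊤ inferInstance fun h0 => hh1 (Subgroup.mem_bot.1 (h0 ▸ Subgroup.mem_top h))
    exact ⟨fun x y => by obtain ⟨g, hg⟩ := exists_smul_eq (⊤ : Subgroup G) x y; exact ⟨g, hg⟩⟩
  have hprim : IsPreprimitive G Ω := by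
    refine Perm.isPreprimitive_of_rel fun r hr hinv => ?_
    by_contra! h0
    obtain ⟨⟨x, y, hxy, hne⟩, u, v, huv⟩ := h0
    let N : Subgroup G :=
      { carrier := {g | ∀ z, r z (g • z)}
        one_mem' := fun z => by simpa using hr.refl z
        mul_mem' := fun {g k} hg hk z => by rw [mul_smul]; exact hr.trans (hk z) (hg _)
        inv_mem' := fun {g} hg z => by simpa using hr.symm (hg (g⁻¹ • z)) }
    have hN : N.Normal := ⟨fun g hg k z => by
      simpa [mul_smul] using hinv k _ _ (hg (k⁻¹ • z))⟩
    have key : ¬ ∀ x ∈ Γ, ∀ y ∈ Γ, r x y := fun h1 => by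
      have h2 : h ∈ N := fun z => by
        by_cases hz : z ∈ Γ
        · exact h1 z hz _ (by simpa using Perm.smul_notMem_of_fix hh (a := z) (by simpa using hz))
        · rw [hh z hz]; exact hr.refl z
      obtain ⟨g, hg⟩ := (hqp N hN fun h0 => hh1 (Subgroup.mem_bot.1 (h0 ▸ h2))).exists_smul_eq u v
      exact huv (hg ▸ g.2 u)
    rcases Perm.rel_trivial_of_isPreprimitive_fixing hJp r hr (fun g _ => hinv g) with h1 | h1
    · obtain ⟨g, rfl⟩ := exists_smul_eq G a x
      obtain ⟨z, rfl⟩ := MulAction.surjective g y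
      have h2 : r a z := by simpa using hinv g⁻¹ _ _ hxy
      have hz : z ∉ Γ := fun hz => hne (by rw [h1 a z (by simpa using ha) (by simpa using hz) h2])
      have h4 := hinv h _ _ h2
      rw [hh z hz, hha] at h4
      exact hab (h1 a b (by simpa using ha) (by simpa using hb) (hr.trans h2 (hr.symm h4)))
    · exact key fun x hx y hy => h1 x y (by simpa using hx) (by simpa using hy)
  have h4 := hprim.isMultiplyPreprimitive (s := Γᶜ) (n := Γᶜ.ncard - 1) (by omega) (by omega) hJp
  rw [show Nat.card Ω - Γ.ncard + 1 = Γᶜ.ncard - 1 + 2 by omega]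
  exact h4.isMultiplyPretransitive

end Cfsg.Agent.S3619
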