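import Cfsg.Statements.S3620
import Mathlib
import Cfsg.Agent.Perm.Marggraf

set_option autoImplicit false
open Cfsg

namespace Cfsg.Agent.S3620

open MulAction Equiv Cfsg.Agent.Perm Cfsg.Agent.Perm.JordanSet

theorem comm_fix {α : Type*} {g h : Perm α} {S : Set α} (H : ∀ x, g x ≠ x → h x ≠ x → x ∈ S)
    {x : α} (h1 : x ∉ S) (h2 : g⁻¹ x ∉ S) (h3 : h⁻¹ x ∉ S) : (g * h * g⁻¹ * h⁻¹) x = x := by
  have H' : ∀ y ∉ S, g y = y ∨ h y = y := fun y hy => by
    by_contra! e
    exact hy (H y e.1 e.2)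
  have key : h x = x → (g * h * g⁻¹ * h⁻¹) x = x := fun e => by
    have e1 : h⁻¹ x = x := by rw [Perm.inv_eq_iff_eq, e]
    have e2 : h (g⁻¹ x) = g⁻¹ x := (H' _ h2).elim (fun e2 => by
      rw [Perm.coe_inv, apply_symm_apply] at e2
      rw [Perm.coe_inv, ← e2, e]) id
    simp only [Perm.mul_apply, e1, e2]
    simp
  rcases H' x h1 with e | e
  · rcases H' _ h3 with e2 | e2
    · have e3 : g⁻¹ (h⁻¹ x) = h⁻¹ x := by rw [Perm.inv_eq_iff_eq, e2]
      simp only [Perm.mul_apply, e3]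
      simpa using e
    · refine key ?_
      rw [Perm.coe_inv, apply_symm_apply] at e2
      conv_lhs => rw [e2]
      simp
  · exact key e

theorem stab_alt {α : Type*} [Fintype α] [DecidableEq α] (c : α) {σ : Perm α}
    (hσ : σ ∈ alternatingGroup α) (hc : σ c = c) :
    σ ∈ Subgroup.closure {s : Perm α | s.IsThreeCycle ∧ s c = c} := by
  have h1 : ∀ x, σ x ≠ c ↔ x ≠ c := fun x => by
    rw [← σ.injective.ne_iff (x := x), hc]
  have h2 : ∀ x, σ x ≠ x → x ≠ c := fun x hx e => hx (by rw [e, hc])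
  have h3 : σ.subtypePerm h1 ∈ alternatingGroup {x // x ≠ c} := by
    rw [Perm.mem_alternatingGroup, Perm.sign_subtypePerm σ h1 h2]; exact hσ
  rw [← Perm.closure_three_cycles_eq_alternating] at h3
  have h4 := Subgroup.mem_map_of_mem Perm.ofSubtype h3
  rw [Perm.ofSubtype_subtypePerm h1 h2, MonoidHom.map_closure] at h4
  refine Subgroup.closure_mono ?_ h4
  rintro _ ⟨s, hs, rfl⟩
  exact ⟨Perm.cycleType_ofSubtype.trans hs, Perm.ofSubtype_apply_of_not_mem s (by simp)⟩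

theorem inj {G Ω S : Type*} [Group G] [MulAction G Ω] [Finite Ω] [MulAction G S] [Nontrivial S]
    (π : Ω → S) (hs : Function.Surjective π) (hπ : ∀ (g : G) x, π (g • x) = g • π x)
    (hprim : IsPreprimitive G S) (htr : IsPretransitive G Ω)
    (hqp : ∀ N : Subgroup G, N.Normal → N ≠ ⊥ → IsPretransitive N Ω)
    {Γ : Set Ω} (h1 : 1 < Γ.ncard) (h2 : 2 * Γ.ncard < Nat.card Ω) (hF : Flat G Γᶜ) :
    Function.Injective π := by
  classical
  haveI : Finite S := Finite.of_surjective π hs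
  haveI := Fintype.ofFinite S
  set φ := toPermHom G S with hφ
  have hφa : ∀ g x, φ g x = g • x := fun _ _ => rfl
  have hker : φ.ker = ⊥ := by
    by_contra h0
    obtain ⟨σ, τ, hne⟩ := exists_pair_ne S
    obtain ⟨x, rfl⟩ := hs σ
    obtain ⟨y, rfl⟩ := hs τ
    obtain ⟨g, hg⟩ := (hqp _ inferInstance h0).exists_smul_eq x y
    exact hne (by rw [← hg]; change _ = π ((g : G) • x); rw [hπ, ← hφa, g.2]; rfl)
  have hinj : Function.Injective φ := (MonoidHom.ker_eq_bot_iff φ).1 hker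
  have hF' : ∀ x ∈ Γ, ∀ y ∈ Γ, ∃ g : G, (∀ z ∉ Γ, g • z = z) ∧ g • x = y := fun x hx y hy =>
    hF x (by simpa using hx) y (by simpa using hy)
  obtain ⟨x₀, hx₀, x₁, hx₁, hne⟩ : ∃ x ∈ Γ, ∃ y ∈ Γ, π x ≠ π y := by
    by_contra! h
    obtain ⟨a, ha, b, hb, hab⟩ := (Set.one_lt_ncard Γ.toFinite).1 h1
    obtain ⟨j, hj, hja⟩ := hF' a ha b hb
    have : j = 1 := hinj (Equiv.ext fun σ => by
      obtain ⟨z, rfl⟩ := hs σ
      rw [map_one, hφa, ← hπ]
      by_cases hz : z ∈ Γ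
      · exact h _ (by simpa using smul_notMem_of_fix (s := Γᶜ) hj (a := z) (by simpa using hz))
          _ hz
      · rw [hj z hz]; rfl)
    exact hab (by rw [← hja, this, one_smul])
  have hsat : ∀ x ∈ Γ, ∀ y, π x = π y → y ∈ Γ := fun x hx y e => by
    by_contra hy
    have : ∀ z ∈ Γ, π z = π y := fun z hz => by
      obtain ⟨k, h3, h4⟩ := hF' x hx z hz
      rw [← h4, hπ, e, ← hπ, h3 y hy]
    exact hne ((this _ hx₀).trans (this _ hx₁).symm)
  have hpre : π ⁻¹' (π '' Γ) = Γ :=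
    Set.Subset.antisymm (fun y ⟨x, hx, e⟩ => hsat x hx y e) (Set.subset_preimage_image π Γ)
  have hfix : ∀ g : G, (∀ z ∉ Γ, g • z = z) → ∀ σ ∉ π '' Γ, g • σ = σ := fun g hg σ hσ => by
    obtain ⟨z, rfl⟩ := hs σ
    rw [← hπ, hg z fun h => hσ ⟨z, h, rfl⟩]
  have hfib : ∀ σ, (π ⁻¹' {σ}).ncard = (π ⁻¹' {π x₀}).ncard := fun σ => by
    obtain ⟨z, rfl⟩ := hs σ
    obtain ⟨g, rfl⟩ := exists_smul_eq G x₀ z
    rw [← ncard_img g (π ⁻¹' {π x₀})]
    congr 1
    ext y
    refine ⟨fun h => ⟨g⁻¹ • y, ?_, by simp⟩, ?_⟩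
    · rw [Set.mem_preimage, hπ, show π y = _ from h, hπ]; simp
    · rintro ⟨w, hw, rfl⟩
      change π (g • w) = π (g • x₀)
      rw [hπ, show π w = _ from hw, hπ]
  have hcard : ∀ T : Set S, (π ⁻¹' T).ncard = (π ⁻¹' {π x₀}).ncard * T.ncard := fun T => by
    induction T, T.toFinite using Set.Finite.induction_on with
    | empty => simp
    | @insert σ T h3 _ ih =>
      rw [Set.ncard_insert_of_notMem h3, Set.insert_eq, Set.preimage_union, Set.ncard_union_eq
        (Disjoint.preimage π (Set.disjoint_singleton_left.2 h3)), ih, hfib]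
      ring
  have h3 : 2 * (π '' Γ).ncard < Nat.card S := by
    have e1 := hcard (π '' Γ)
    have e2 := hcard Set.univ
    rw [hpre] at e1
    rw [Set.preimage_univ, Set.ncard_univ, Set.ncard_univ] at e2
    rw [e1, e2, mul_left_comm] at h2
    exact lt_of_mul_lt_mul_left h2 (Nat.zero_le _)
  have h4 : 1 < (π '' Γ).ncard :=
    (Set.one_lt_ncard (π '' Γ).toFinite).2 ⟨_, ⟨_, hx₀, rfl⟩, _, ⟨_, hx₁, rfl⟩, hne⟩
  have h5 := Set.ncard_add_ncard_compl (π '' Γ)
  have halt : alternatingGroup S ≤ φ.range := marggraf hprim (D := (π '' Γ)ᶜ) (fun σ hσ τ hτ => by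
    obtain ⟨x, hx, rfl⟩ := not_not.1 hσ
    obtain ⟨y, hy, rfl⟩ := not_not.1 hτ
    obtain ⟨g, h6, h7⟩ := hF' x hx y hy
    exact ⟨g, hfix g h6, by rw [← hπ, h7]⟩) (by omega) (by omega)
  have hmt : IsMultiplyPretransitive G S (Nat.card S - 2) :=
    multTrans_range.1 (multTrans_of_le halt (alternatingGroup.isMultiplyPretransitive S))
  obtain ⟨T, hT, hTc⟩ := Set.exists_subset_card_eq
    (show (π '' Γ).ncard - 1 ≤ (π '' Γ)ᶜ.ncard by omega)
  have hT0 : π x₀ ∉ T := fun h => hT h ⟨_, hx₀, rfl⟩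
  obtain ⟨g, hg⟩ := exists_smul_finset_eq (isMultiplyPretransitive_of_le (G := G) (α := S)
    (n := Nat.card S - 2) (m := (π '' Γ).ncard) (by omega) (by omega))
    (π '' Γ).toFinite.toFinset (insert (π x₀) T).toFinite.toFinset
    (by rw [← Set.ncard_eq_toFinset_card])
    (by rw [← Set.ncard_eq_toFinset_card, Set.ncard_insert_of_notMem hT0]; omega)
  have hg' : ∀ σ, g⁻¹ • σ ∈ π '' Γ ↔ σ ∈ insert (π x₀) T := fun σ => by
    rw [← (insert (π x₀) T).toFinite.mem_toFinset, ← hg, Finset.mem_image]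
    simp only [Set.Finite.mem_toFinset]
    exact ⟨fun h => ⟨_, h, by simp⟩, fun ⟨τ, h, e⟩ => by rw [← e, inv_smul_smul]; exact h⟩
  have hmove : ∀ σ ∈ π '' Γ, ∃ k : G, (∀ z ∉ Γ, k • z = z) ∧ k • σ ≠ σ := by
    rintro _ ⟨x, hx, rfl⟩
    obtain ⟨y, hy, hxy⟩ : ∃ y ∈ Γ, π y ≠ π x := by
      by_cases e : π x₀ = π x
      · exact ⟨x₁, hx₁, e ▸ hne.symm⟩
      · exact ⟨x₀, hx₀, e⟩
    obtain ⟨k, h6, h7⟩ := hF' x hx y hy
    exact ⟨k, h6, by rwa [← hπ, h7]⟩
  obtain ⟨j, hj, hj0⟩ := hmove _ ⟨_, hx₀, rfl⟩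
  obtain ⟨k, hk, hk0⟩ := hmove _ ((hg' _).2 (Set.mem_insert _ _))
  set l := g * k * g⁻¹ with hl
  have hl0 : l • π x₀ ≠ π x₀ := fun e => hk0 (by
    rw [hl, mul_smul, mul_smul, smul_eq_iff_eq_inv_smul] at e; exact e)
  have hboth : ∀ σ, σ ∈ π '' Γ → g⁻¹ • σ ∈ π '' Γ → σ = π x₀ := fun σ h6 h7 =>
    ((hg' σ).1 h7).resolve_right fun h => hT h h6
  have hH : ∀ σ, φ j σ ≠ σ → φ l σ ≠ σ → σ = π x₀ := fun σ h6 h7 => hboth σ
    (by by_contra h; exact h6 (hfix j hj σ h))
    (by by_contra h; exact h7 (by rw [hφa, hl, mul_smul, mul_smul, hfix k hk _ h, smul_inv_smul]))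
  have hc3 : (φ (j * l * j⁻¹ * l⁻¹)).IsThreeCycle := by
    simp only [map_mul, map_inv]
    exact isThreeCycle_commutator hj0 hl0 hH
  have hsupp : (φ (j * l * j⁻¹ * l⁻¹)).support = {π x₀, j • π x₀, l • π x₀} := by
    refine Finset.eq_of_subset_of_card_le (fun σ hσ => ?_)
      (hc3.card_support ▸ Finset.card_le_three)
    by_contra h6
    simp only [Finset.mem_insert, Finset.mem_singleton, not_or] at h6
    refine Perm.mem_support.1 hσ ?_
    simp only [map_mul, map_inv]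
    refine comm_fix (S := {π x₀}) hH h6.1 (fun e => h6.2.1 ?_) fun e => h6.2.2 ?_ <;>
      exact Perm.inv_eq_iff_eq.1 e
  have hP : ∀ x, (j * l * j⁻¹ * l⁻¹) • π x = π x → (j * l * j⁻¹ * l⁻¹) • x = x := fun x hx => by
    have h6 : π x ∉ (φ (j * l * j⁻¹ * l⁻¹)).support := Perm.notMem_support.2 hx
    simp only [hsupp, Finset.mem_insert, Finset.mem_singleton, not_or] at h6
    have := comm_fix (g := toPermHom G Ω j) (h := toPermHom G Ω l) (S := π ⁻¹' {π x₀})
      (fun y h7 h8 => hboth _ ⟨y, by by_contra h; exact h7 (hj y h), rfl⟩ ⟨g⁻¹ • y, by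
        by_contra h
        exact h8 (by
          change l • y = y
          rw [hl, mul_smul, mul_smul, hk _ h, smul_inv_smul]), hπ _ _⟩) (x := x) h6.1
      (fun e => h6.2.1 (by
        rw [← show π (j⁻¹ • x) = π x₀ from e, hπ, smul_inv_smul]))
      (fun e => h6.2.2 (by
        rw [← show π (l⁻¹ • x) = π x₀ from e, hπ, smul_inv_smul]))
    simp only [← map_inv, ← map_mul] at this
    exact this
  generalize j * l * j⁻¹ * l⁻¹ = c at hc3 hP
  have hall : ∀ τ : Perm S, τ.IsThreeCycle →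
      ∃ d : G, φ d = τ ∧ ∀ x, d • π x = π x → d • x = x := fun τ hτ => by
    obtain ⟨ρ, hρ⟩ := isConj_iff.1 (alternatingGroup.isThreeCycle_isConj (α := S) (by omega)
      (σ := ⟨_, hc3.mem_alternatingGroup⟩) (τ := ⟨τ, hτ.mem_alternatingGroup⟩) hc3 hτ)
    obtain ⟨e, he⟩ := halt ρ.2
    refine ⟨e * c * e⁻¹, by rw [map_mul, map_mul, map_inv, he]; exact congrArg Subtype.val hρ,
      fun x hx => ?_⟩
    rw [mul_smul, mul_smul, smul_eq_iff_eq_inv_smul, ← hπ] at hx
    rw [mul_smul, mul_smul, hP _ hx, smul_inv_smul]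
  intro x y hxy
  obtain ⟨a, ha⟩ := (hqp ((alternatingGroup S).comap φ) inferInstance fun h0 => by
    have : c ∈ (alternatingGroup S).comap φ := hc3.mem_alternatingGroup
    rw [h0, Subgroup.mem_bot] at this
    exact hc3.ne_one (by rw [this, map_one])).exists_smul_eq x y
  have ha' : (a : G) • x = y := ha
  have h6 : Subgroup.closure {s : Perm S | s.IsThreeCycle ∧ s (π x) = π x} ≤
      (stabilizer G x ⊓ fixingSubgroup G (π ⁻¹' {π x})).map φ := by
    rw [Subgroup.closure_le]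
    rintro s ⟨h7, h8⟩
    obtain ⟨d, rfl, hd⟩ := hall s h7
    exact ⟨d, ⟨hd x h8, (mem_fixingSubgroup_iff G).2 fun z hz =>
      hd z (by rw [show π z = π x from hz]; exact h8)⟩, rfl⟩
  obtain ⟨w, hw, e⟩ := h6 (stab_alt (π x) a.2 (by rw [hφa, ← hπ, ha', hxy]))
  rw [← ha', ← hinj e]
  exact hw.1.symm


/-- Let G act faithfully on a finite set in such a way that every non-trivial normal subgroup of G is transitive (G is quasiprimitive). Let Γ be a subset with more than one point and fewer than half of the points, such that the pointwise stabilizer of the complement of Γ acts transitively on Γ. Then G induces every even permutation of the set (G is the alternating or the symmetric group). -/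
theorem result {G Ω : Type*} [Group G] [Finite G] [MulAction G Ω] [FaithfulSMul G Ω] [Fintype Ω] [DecidableEq Ω]
    (hqp : ∀ N : Subgroup G, N.Normal → N ≠ ⊥ → MulAction.IsPretransitive ↥N Ω)
    (Γ : Set Ω) (hΓ1 : 1 < Γ.ncard) (hΓ2 : 2 * Γ.ncard < Fintype.card Ω)
    (hJ : MulAction.IsPretransitive ↥(fixingSubgroup G Γᶜ) ↥(SubMulAction.ofFixingSubgroup G Γᶜ)) :
    ∀ σ : Equiv.Perm Ω, Equiv.Perm.sign σ = 1 → ∃ x : G, (MulAction.toPerm x : Equiv.Perm Ω) = σ := by
  have h3 := Set.ncard_add_ncard_compl Γ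
  rw [← Nat.card_eq_fintype_card] at hΓ2
  have hF := flat_of_isPretransitive hJ
  obtain ⟨a, ha, b, hb, hab⟩ := (Set.one_lt_ncard Γ.toFinite).1 hΓ1
  obtain ⟨h, hh, hha⟩ := hF a (by simpa using ha) b (by simpa using hb)
  have hh1 : h ≠ 1 := by rintro rfl; exact hab (by simpa using hha)
  have htr : IsPretransitive G Ω := by
    have := hqp ⊤ inferInstance fun h0 => hh1 (Subgroup.mem_bot.1 (h0 ▸ Subgroup.mem_top h))
    exact ⟨fun x y => by obtain ⟨g, hg⟩ := exists_smul_eq (⊤ : Subgroup G) x y; exact ⟨g, hg⟩⟩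
  haveI : Finite (Setoid Ω) := Finite.of_injective (fun r : Setoid Ω => (r : Ω → Ω → Prop))
    fun r s e => Setoid.ext fun x y => by rw [show (r : Ω → Ω → Prop) = s from e]
  obtain ⟨r, ⟨hinv, hne⟩, hmax⟩ := exists_maximal_of_wellFoundedGT (fun r : Setoid Ω =>
    (∀ (g : G) x y, r x y → r (g • x) (g • y)) ∧ ¬ ∀ x y, r x y)
    ⟨⊥, fun g x y e => congrArg (g • ·) e, fun e => hab (e a b)⟩
  letI : MulAction G (Quotient r) :=
    { smul := fun g => Quotient.map (g • ·) (hinv g)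
      one_smul := fun σ => Quotient.inductionOn σ fun x => congrArg (Quotient.mk r) (one_smul G x)
      mul_smul := fun g k σ => Quotient.inductionOn σ fun x =>
        congrArg (Quotient.mk r) (mul_smul g k x) }
  have hπ : ∀ (g : G) x, Quotient.mk r (g • x) = g • Quotient.mk r x := fun _ _ => rfl
  haveI : Nontrivial (Quotient r) := by
    push Not at hne
    obtain ⟨x, y, hxy⟩ := hne
    exact ⟨⟨Quotient.mk r x, Quotient.mk r y, fun e => hxy (Quotient.exact e)⟩⟩
  have key : ∀ s : Ω → Ω → Prop, Equivalence s → (∀ (g : G) x y, s x y → s (g • x) (g • y)) →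
      (∀ x y, r x y → s x y) → (∀ x y, s x y → r x y) ∨ ∀ x y, s x y := fun s hs h4 h5 => by
    by_cases h6 : ∀ x y, s x y
    · exact Or.inr h6
    · exact Or.inl fun x y e => hmax (y := ⟨s, hs⟩) ⟨h4, h6⟩ (fun x y => h5 x y) e
  haveI : IsPretransitive G (Quotient r) := ⟨fun σ τ => Quotient.inductionOn₂ σ τ fun x y => by
    obtain ⟨g, rfl⟩ := exists_smul_eq G x y
    exact ⟨g, rfl⟩⟩
  have hinj := inj (Quotient.mk r) Quotient.mk_surjective hπ (isPreprimitive_of_rel fun s hs h4 =>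
    (key (fun x y => s (Quotient.mk r x) (Quotient.mk r y)) (hs.comap _)
      (fun g x y => h4 g _ _) fun x y e => Quotient.sound e ▸ hs.refl _).imp
      (fun h5 σ τ => Quotient.inductionOn₂ σ τ fun x y e => Quotient.sound (h5 x y e))
      fun h5 σ τ => Quotient.inductionOn₂ σ τ h5) htr hqp hΓ1 hΓ2 hF
  have hprim : IsPreprimitive G Ω := isPreprimitive_of_rel fun s hs h4 =>
    (key s hs h4 fun x y e => hinj (Quotient.sound e) ▸ hs.refl _).imp_left
      fun h5 x y e => hinj (Quotient.sound (h5 x y e))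
  intro σ hσ
  exact marggraf hprim hF (by omega) (by omega) hσ

end Cfsg.Agent.S3620
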