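import Cfsg.Statements.S3627
import Cfsg.Agent.Spor.SpecJ1
import Cfsg.Agent.Misc.SpecFun
-- import your own Cfsg.Agent.* helpers here

set_option autoImplicit false
open Cfsg

namespace Cfsg.Agent.S3627

theorem exp7 : ∀ v : ZMod 7, 7 • v = 0 := by decide

theorem spec_aff : Set.range (orderOf : Misc.Spec.Aff ℤˣ (ZMod 7) → ℕ) = {n | n ∈ [1, 2, 7]} := by
  have : Fact (Nat.Prime 7) := ⟨by norm_num⟩
  ext n
  rw [Misc.Spec.mem_range_orderOf_aff_of_fpf 7 (by norm_num) (by decide)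
    (fun g hg => ⟨1, by revert g; decide⟩)]
  have h2 : orderOf (-1 : ℤˣ) = 2 := orderOf_eq_prime (by decide) (by decide)
  constructor
  · rintro (rfl | ⟨g, rfl⟩)
    · simp
    · rcases Int.units_eq_one_or g with rfl | rfl <;> simp [h2]
  · intro h
    simp only [Set.mem_ofPred_eq, List.mem_cons, List.not_mem_nil, or_false] at h
    rcases h with rfl | rfl | rfl
    exacts [Or.inr ⟨1, orderOf_one⟩, Or.inr ⟨-1, h2⟩, Or.inl rfl]

theorem spec_prod {K : Type*} [Monoid K] (A A1 A2 A3 : List ℕ)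
    (h : Set.range (orderOf : K → ℕ) = {n | n ∈ A})
    (h1 : (∀ a ∈ [1, 2, 3, 5, 6, 7, 10, 11, 15, 19], ∀ b ∈ A, a.lcm b ∈ A1) ∧ ∀ c ∈ A1, ∃ a ∈ [1, 2, 3, 5, 6, 7, 10, 11, 15, 19], ∃ b ∈ A, a.lcm b = c)
    (h2 : (∀ a ∈ [1, 2, 3, 5, 6, 7, 10, 11, 15, 19], ∀ b ∈ A1, a.lcm b ∈ A2) ∧ ∀ c ∈ A2, ∃ a ∈ [1, 2, 3, 5, 6, 7, 10, 11, 15, 19], ∃ b ∈ A1, a.lcm b = c)
    (h3 : (∀ a ∈ [1, 2, 3, 5, 6, 7, 10, 11, 15, 19], ∀ b ∈ A2, a.lcm b ∈ A3) ∧ ∀ c ∈ A3, ∃ a ∈ [1, 2, 3, 5, 6, 7, 10, 11, 15, 19], ∃ b ∈ A2, a.lcm b = c) :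
    Set.range (orderOf : ↥Cfsg.Spor.J1 × ↥Cfsg.Spor.J1 × ↥Cfsg.Spor.J1 × K → ℕ) = {n | n ∈ A3} :=
  have hJ := Spor.SpecJ1.range_orderOf_J1
  Misc.Spec.range_orderOf_prod_eq _ _ _ hJ (Misc.Spec.range_orderOf_prod_eq _ _ _ hJ
    (Misc.Spec.range_orderOf_prod_eq _ _ _ hJ h h1.1 h1.2) h2.1 h2.2) h3.1 h3.2

/-- Let J be the first Janko group. Then there are finite groups of arbitrarily large order with exactly the same set of element orders as J × J × J × J. -/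
theorem result (N : ℕ) : ∃ (H : Type) (_ : Group H) (_ : Fintype H), N < Fintype.card H ∧
      Set.range (orderOf : H → ℕ) = Set.range (orderOf : ↥Cfsg.Spor.J1 × ↥Cfsg.Spor.J1 × ↥Cfsg.Spor.J1 × ↥Cfsg.Spor.J1 → ℕ) := by
  have : Fact (Nat.Prime 7) := ⟨by norm_num⟩
  obtain ⟨K, _, _, h1, h2⟩ := Misc.Spec.exists_large_isospectral_aff (G := ℤˣ) (V := ZMod 7) 7
    (by norm_num) exp7 N
  have : Finite Cfsg.Spor.J1 := Nat.finite_of_card_ne_zero (by rw [Spor.J1c.card_J1]; norm_num)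
  let _ : Fintype (↥Cfsg.Spor.J1 × ↥Cfsg.Spor.J1 × ↥Cfsg.Spor.J1 × K) := Fintype.ofFinite _
  refine ⟨↥Cfsg.Spor.J1 × ↥Cfsg.Spor.J1 × ↥Cfsg.Spor.J1 × K, inferInstance, inferInstance,
    h1.trans_le (Fintype.card_le_of_surjective (fun x => x.2.2.2) fun k => ⟨(1, 1, 1, k), rfl⟩), ?_⟩
  rw [spec_prod _ [1, 2, 3, 5, 6, 7, 10, 11, 14, 15, 19, 21, 22, 30, 35, 38, 42, 70, 77, 105, 133] [1, 2, 3, 5, 6, 7, 10, 11, 14, 15, 19, 21, 22, 30, 33, 35, 38, 42, 55, 57, 66, 70, 77, 95, 105, 110, 114, 133, 154, 165, 190, 209, 210, 231, 266, 285, 330, 385, 399, 418, 462, 570, 665, 770, 798, 1155, 1330, 1463, 1995] [1, 2, 3, 5, 6, 7, 10, 11, 14, 15, 19, 21, 22, 30, 33, 35, 38, 42, 55, 57, 66, 70, 77, 95, 105, 110, 114, 133, 154, 165, 190, 209, 210, 231, 266, 285, 330, 385, 399, 418, 462, 570, 627, 665, 770, 798, 1045, 1155, 1254, 1330, 1463, 1995, 2090, 2310, 2926, 3135, 3990,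 4389, 6270, 7315, 8778, 14630, 21945] (h2.trans spec_aff)
      (by decide +kernel) (by decide +kernel) (by decide +kernel),
    spec_prod _ [1, 2, 3, 5, 6, 7, 10, 11, 14, 15, 19, 21, 22, 30, 33, 35, 38, 42, 55, 57, 66, 70, 77, 95, 105, 110, 114, 133, 165, 190, 209, 285] [1, 2, 3, 5, 6, 7, 10, 11, 14, 15, 19, 21, 22, 30, 33, 35, 38, 42, 55, 57, 66, 70, 77, 95, 105, 110, 114, 133, 154, 165, 190, 209, 210, 231, 266, 285, 330, 385, 399, 418, 462, 570, 627, 665, 770, 798, 1045, 1155, 1254, 1330, 1463, 1995, 2090, 3135] [1, 2, 3, 5, 6, 7, 10, 11, 14, 15, 19, 21, 22, 30, 33, 35, 38, 42, 55, 57, 66, 70, 77, 95, 105, 110, 114, 133, 154, 165, 190, 209, 210, 231, 266, 285, 330, 385, 399, 418, 462, 570, 627, 665, 770, 798, 1045, 1155, 1254, 1330, 1463, 1995, 2090, 2310, 2926, 3135, 3990, 4389, 6270, 7315, 8778, 14630, 21945] Spor.SpecJ1.range_orderOf_J1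
      (by decide +kernel) (by decide +kernel) (by decide +kernel)]

end Cfsg.Agent.S3627
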