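import Cfsg.Statements.S3639
import Mathlib
import Cfsg.Agent.Chev.SzNorm
import Cfsg.Agent.Chev.SzLie

set_option autoImplicit false
open Cfsg

namespace Cfsg.Agent.S3639

open Chev Chev.Suz MulAction Matrix in
theorem fpf_vec {F : Type*} [Field F] {m : ℕ} [SzField F m] {g : Sz F m} (h1 : g ≠ 1)
    (h : ∀ p, g ∉ Qp p) {v : Fin 4 → F} (hv : mat g *ᵥ v = v) : v = 0 := by
  rcases trichotomy g with h2 | ⟨p, h2⟩ | ⟨p, p', h2, h3, h4⟩
  · rcases h2.irreducible (LinearMap.ker (Matrix.toLin' (mat g) - LinearMap.id)) (by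
      intro w hw
      simp only [LinearMap.mem_ker, LinearMap.sub_apply, toLin'_apply, LinearMap.id_apply,
        sub_eq_zero] at hw ⊢
      rw [hw, hw]) with h3 | h3
    · rw [← Submodule.mem_bot F, ← h3]; simp [hv]
    · exfalso
      apply h1
      apply mat_injective
      apply Matrix.toLin'.injective
      rw [LinearMap.ker_eq_top, sub_eq_zero] at h3
      rw [h3, mat_one, toLin'_one]
  · exact absurd h2 (h p)
  · obtain ⟨k, rfl, rfl⟩ := exists_smul_pair h2
    obtain ⟨l, hl⟩ := eq_hh_of_fix (k⁻¹ * g * k) ((conj_fix_iff k g _).2 h3) ((conj_fix_iff k g _).2 h4)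
    have hl1 : l ≠ 1 := by
      rintro rfl
      exact h1 (by simpa using (conj_pow_eq_one_iff k g 1).1 (by simpa using hl))
    have h5 : hMat (l : F) *ᵥ (mat k⁻¹ *ᵥ v) = mat k⁻¹ *ᵥ v := by
      rw [← mat_hh, ← hl, mulVec_mulVec, ← mat_mul, mul_inv_cancel_right, mat_mul, ← mulVec_mulVec, hv]
    have h6 : mat k⁻¹ *ᵥ v = 0 := by
      generalize mat k⁻¹ *ᵥ v = w at h5
      have e1 : (l : F) ≠ 1 := by simpa using hl1
      have e2 : (l : F) * th F l ≠ 1 := fun h => e1 (mul_th_inj (by simpa using h))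
      have e3 : (l : F)⁻¹ ≠ 1 := by simpa using hl1
      have e4 : ((l : F) * th F l)⁻¹ ≠ 1 := by simpa only [ne_eq, inv_eq_one] using e2
      have key : ∀ c x : F, c ≠ 1 → c * x = x → x = 0 := fun c x hc hx => by
        by_contra h0; exact hc (mul_right_cancel₀ h0 (by rw [hx, one_mul]))
      ext i
      have := congrFun h5 i
      fin_cases i <;> simp [hMat, mulVec, dotProduct, Fin.sum_univ_succ] at this
      exacts [key _ _ e2 this, key _ _ e1 this, key _ _ e3 (by simpa using this), key _ _ e4 (by rw [mul_inv, mul_comm (l : F)⁻¹]; exact this)]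
    calc v = mat k *ᵥ (mat k⁻¹ *ᵥ v) := by rw [mulVec_mulVec, ← mat_mul, mul_inv_cancel, mat_one, one_mulVec]
      _ = 0 := by rw [h6, mulVec_zero]

open Chev Chev.Suz Matrix in
/-- The action on a direct power of the natural module. -/
def act (F : Type*) [Field F] (m N : ℕ) : Sz F m →* MulAut (Multiplicative (Fin N → Fin 4 → F)) where
  toFun g :=
    { toFun := fun w => Multiplicative.ofAdd fun i => mat g *ᵥ (w.toAdd i)
      invFun := fun w => Multiplicative.ofAdd fun i => mat g⁻¹ *ᵥ (w.toAdd i)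
      left_inv := fun w => by simp [← mat_mul]
      right_inv := fun w => by simp [← mat_mul]
      map_mul' := fun v w => by
        apply Multiplicative.toAdd.injective
        funext i
        simp [mulVec_add] }
  map_one' := by ext w; simp
  map_mul' g h := by ext w; simp

open Chev Chev.Suz Matrix SemidirectProduct in
theorem aux {F : Type*} [Field F] {m : ℕ} [SzField F m] (N : ℕ) {r s : ℕ} (hr : r.Prime) (hs : s.Prime)
    (hrs : r ≠ s) (y : Multiplicative (Fin N → Fin 4 → F) ⋊[act F m N] Sz F m) (hy : orderOf y = r * s) :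
    orderOf y.right = r * s := by
  have h2 : ∀ z : Multiplicative (Fin N → Fin 4 → F) ⋊[act F m N] Sz F m, z.right = 1 → z ^ 2 = 1 := by
    intro z hz
    rw [← inl_left_mul_inr_right z, hz, map_one, mul_one, ← map_pow]
    have : z.left ^ 2 = 1 := by
      apply Multiplicative.toAdd.injective
      ext i j
      simp [CharTwo.two_eq_zero]
    rw [this, map_one]
  have h3 : r * s ∣ orderOf y.right * 2 := by
    rw [← hy, orderOf_dvd_iff_pow_eq_one, pow_mul]
    apply h2
    rw [← rightHom_eq_right, map_pow, pow_orderOf_eq_one]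
  have h4 : orderOf y.right ∣ r * s := hy ▸ orderOf_map_dvd rightHom y
  have key : ∀ s : ℕ, s.Prime → s ≠ 2 → orderOf y ≠ 2 * s := by
    intro s hs hs2 hy
    have hso := hs.odd_of_ne_two hs2
    have e1 : orderOf (y ^ 2) = s := by
      rw [orderOf_pow_of_dvd two_ne_zero (hy ▸ dvd_mul_right _ _), hy]; simp
    have e2 : orderOf (y ^ s) = 2 := by
      rw [orderOf_pow_of_dvd hs.ne_zero (hy ▸ dvd_mul_left _ _), hy, Nat.mul_div_cancel _ hs.pos]
    have e3 : (y ^ 2).right ≠ 1 := by
      intro h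
      have := orderOf_dvd_of_pow_eq_one (h2 _ h)
      rw [e1] at this
      exact hs2 ((Nat.prime_dvd_prime_iff_eq hs Nat.prime_two).1 this)
    have e4 : Odd (orderOf (y ^ 2).right) := hso.of_dvd_nat (by
      have := orderOf_map_dvd rightHom (y ^ 2)
      rwa [e1, rightHom_eq_right] at this)
    have e5 : y ^ s * y ^ 2 = y ^ 2 * y ^ s := by group
    have e6 : (y ^ s).right = 1 := by
      have e9 := congrArg SemidirectProduct.right e5
      rw [mul_right, mul_right] at e9
      refine (isTorus_tor_of_odd e3 e4).eq_one_of_pow (mem_tor.2 e9) ?_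
      have e6 : (y ^ s) ^ 2 = 1 := orderOf_dvd_iff_pow_eq_one.1 e2.dvd
      rw [pow_four_eq, ← rightHom_eq_right, ← map_pow, e6, map_one, one_pow]
    have e7 := congrArg SemidirectProduct.left e5
    rw [mul_left, mul_left, e6, map_one, MulAut.one_apply, mul_comm, mul_right_inj] at e7
    have e8 : (y ^ s).left = 1 := by
      apply Multiplicative.toAdd.injective
      funext i
      exact fpf_vec e3 (not_mem_Qp_of_odd e3 e4) (congrFun (congrArg Multiplicative.toAdd e7) i).symm
    have : y ^ s = 1 := SemidirectProduct.ext e8 e6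
    rw [this, orderOf_one] at e2
    exact absurd e2 (by norm_num)
  have hr2 : r ≠ 2 := by rintro rfl; exact key s hs hrs.symm hy
  have hs2 : s ≠ 2 := by rintro rfl; exact key r hr hrs (hy.trans (mul_comm _ _))
  exact Nat.dvd_antisymm h4
    (((hr.odd_of_ne_two hr2).mul (hs.odd_of_ne_two hs2)).coprime_two_right.dvd_of_dvd_mul_right h3)

/-- Let S be the Suzuki group over the field with q = 2^(2m+1) ≥ 8 elements. Then there are finite groups of arbitrarily large order with the same prime graph as S. -/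
theorem result {F : Type*} [Field F] [Fintype F] {m : ℕ} (hm : 1 ≤ m) (hF : Fintype.card F = 2 ^ (2 * m + 1)) (N : ℕ) :
    ∃ (H : Type) (_ : Group H) (_ : Fintype H), N < Fintype.card H ∧ ((∀ r : ℕ, r.Prime → (r ∣ Nat.card ↥(Cfsg.Lie.Sz F (2 ^ (m + 1))) ↔ r ∣ Nat.card H)) ∧
      (∀ r s : ℕ, r.Prime → s.Prime → r ≠ s → ((∃ x : ↥(Cfsg.Lie.Sz F (2 ^ (m + 1))), orderOf x = r * s) ↔ (∃ y : H, orderOf y = r * s)))) := by
  have hF' := Chev.SzField.of_fintype hm hF
  let H := Multiplicative (Fin N → Fin 4 → F) ⋊[act F m N] Sz F m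
  have : Finite H := Finite.of_equiv _ SemidirectProduct.equivProd.symm
  let e : Shrink.{0} H ≃* H := Shrink.mulEquiv
  have : Finite (Shrink.{0} H) := Finite.of_equiv _ e.toEquiv.symm
  have hc : Nat.card (Shrink.{0} H) = ((2 ^ (2 * m + 1)) ^ 4) ^ N * Nat.card (Sz F m) := by
    rw [Nat.card_congr e.toEquiv, SemidirectProduct.card, Nat.card_congr Multiplicative.toAdd,
      Nat.card_fun, Nat.card_fun, Chev.Suz.card_F]
    simp
  let _ := Fintype.ofFinite (Shrink.{0} H)
  refine ⟨Shrink.{0} H, inferInstance, inferInstance, ?_, ?_, ?_⟩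
  · rw [← Nat.card_eq_fintype_card, hc]
    have h8 := Chev.Suz.eight_le_q F
    calc N < ((2 ^ (2 * m + 1)) ^ 4) ^ N := Nat.lt_pow_self (Nat.one_lt_pow (by norm_num) (by omega))
      _ ≤ _ := Nat.le_mul_of_pos_right _ Nat.card_pos
  · intro r hr
    rw [hc, ← Nat.card_congr (Chev.Suz.lieEquiv F).toEquiv]
    refine ⟨fun h => h.mul_left _, fun h => (hr.dvd_mul.1 h).elim (fun h => ?_) id⟩
    rw [Chev.Suz.card_Sz]
    exact (((hr.dvd_of_dvd_pow (hr.dvd_of_dvd_pow h)).trans (dvd_pow_self _ two_ne_zero)).mul_right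
      _).mul_right _
  · intro r s hr hs hrs
    constructor
    · rintro ⟨x, hx⟩
      refine ⟨e.symm (SemidirectProduct.inr ((Chev.Suz.lieEquiv F).symm x)), ?_⟩
      rw [MulEquiv.orderOf_eq, orderOf_injective _ SemidirectProduct.inr_injective,
        MulEquiv.orderOf_eq, hx]
    · rintro ⟨y, hy⟩
      exact ⟨Chev.Suz.lieEquiv F (e y).right, by
        rw [MulEquiv.orderOf_eq, aux N hr hs hrs _ (by rw [MulEquiv.orderOf_eq, hy])]⟩

end Cfsg.Agent.S3639
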