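import Cfsg.Statements.S3641
import Mathlib
import Cfsg.Agent.Perm.SylZass
import Cfsg.Agent.Grp.Card
import Cfsg.Agent.Grp.CardProduct
import Cfsg.Agent.Misc.SpecL2
import Cfsg.Agent.CIT.Spec

set_option autoImplicit false
open Cfsg

namespace Cfsg.Agent.S3641

open MulAction Matrix MatrixGroups Cfsg.Agent.Perm Cfsg.Agent.Perm.Zass Cfsg.Agent.Perm.SylZass

theorem no_extra {G : Type*} [Group G] [Finite G] {p r : ℕ} [hp : Fact p.Prime] [Fact r.Prime]
    (K : Subgroup G) [K.Normal]
    (hK : ∀ P : Sylow p G, K ≤ Subgroup.normalizer (P : Set G)) (S : Sylow r G)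
    (hS : (S : Subgroup G) ≤ K) (h1 : p ∣ Nat.card (Sylow r G))
    (h2 : ¬ p ^ 2 ∣ Nat.card (Sylow r G)) (h3 : ¬ p ≡ 1 [MOD r]) : False := by
  obtain ⟨P⟩ := (inferInstance : Nonempty (Sylow p G))
  have hR := normal_inf_of_le_normalizer K hK P
  set R := K ⊓ (P : Subgroup G) with hRdef
  set N := Subgroup.normalizer (S : Set G) with hN
  have hn : Nat.card (Sylow r G) = N.index := S.card_eq_index_normalizer
  have e1 := Grp.card_sup_mul_card_inf N R
  have e2 := Grp.card_mul_relIndex (le_sup_left : N ≤ N ⊔ R)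
  have e3 : N.relIndex (N ⊔ R) * Nat.card (N ⊓ R : Subgroup G) = Nat.card R := by
    apply Nat.eq_of_mul_eq_mul_left (Nat.card_pos (α := N))
    rw [← mul_assoc, e2, e1]
  obtain ⟨j, hj⟩ := (P.isPGroup'.to_inf_right (H := K)).exists_card_eq
  obtain ⟨i, -, hi⟩ := (Nat.dvd_prime_pow hp.out).mp (hj ▸ Dvd.intro _ e3 :
    N.relIndex (N ⊔ R) ∣ p ^ j)
  have e4 := relIndex_normalizer_modEq S (N ⊔ R) (Subgroup.le_normalizer.trans le_sup_left)
  have e5 : N.relIndex (N ⊔ R) ∣ Nat.card (Sylow r G) :=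
    hn ▸ Subgroup.relIndex_dvd_index_of_le le_sup_left
  rw [← hN, hi] at e4
  rw [hi] at e5
  have hi0 : i = 0 := by
    by_contra h0
    by_cases hi1 : i = 1
    · rw [hi1, pow_one] at e4
      exact h3 e4
    · exact h2 ((pow_dvd_pow p (by omega)).trans e5)
  rw [hi0, pow_zero, Subgroup.relIndex_eq_one] at hi
  have hRN : R ≤ N ⊓ K := le_inf (le_sup_right.trans hi) inf_le_left
  have e6 := Grp.card_sup_mul_card_inf N K
  rw [S.normalizer_sup_eq_top' hS, Subgroup.card_top, ← N.card_mul_index, mul_assoc] at e6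
  have e7 := Nat.eq_of_mul_eq_mul_left (Nat.card_pos (α := N)) e6
  obtain ⟨c, hc⟩ := Subgroup.card_dvd_of_le hRN
  obtain ⟨d, hd⟩ := hn ▸ h1
  have e8 := Grp.card_sup_mul_card_inf (P : Subgroup G) K
  rw [inf_comm, ← hRdef, ← e7, hc, hd] at e8
  have e9 : Nat.card ((P : Subgroup G) ⊔ K : Subgroup G) = Nat.card P * (p * (d * c)) := by
    apply Nat.eq_of_mul_eq_mul_right (Nat.card_pos (α := R))
    rw [e8]
    ring
  have e10 := Subgroup.card_subgroup_dvd_card ((P : Subgroup G) ⊔ K)
  rw [e9, ← (P : Subgroup G).card_mul_index] at e10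
  exact P.not_dvd_index ((Dvd.intro _ rfl).trans
    (Nat.dvd_of_mul_dvd_mul_left (Nat.card_pos (α := P)) e10))

section zass
variable {H Ω : Type*} [Group H] [MulAction H Ω] [Finite Ω]

theorem sylow_two (hZ : IsZassenhausGroup H Ω) (hΩ : Nat.card Ω = 18) {a b : Ω} (hab : a ≠ b)
    (hd : Nat.card ↥(stabilizer H a ⊓ stabilizer H b) = 8 ∨
      Nat.card ↥(stabilizer H a ⊓ stabilizer H b) = 16) : Nat.card (Sylow 2 H) = 153 := by
  have := finite_of_finite hZ
  set D := stabilizer H a ⊓ stabilizer H b with hD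
  set Q := Subgroup.normalizer (D : Set H) with hQ
  have hQc : Nat.card Q = Nat.card D * 2 := card_normalizer_two hZ hab
  have hG : Nat.card H = Nat.card D * (Nat.card Ω - 1) * Nat.card Ω := card_eq hZ hab
  have hi : Q.index = 153 := by
    have := Q.card_mul_index
    rw [hQc, hG, hΩ] at this
    rcases hd with h | h <;> rw [h] at this <;> omega
  have hp : IsPGroup 2 Q := by
    rcases hd with h | h
    · exact IsPGroup.of_card (n := 4) (by rw [hQc, h]; norm_num)
    · exact IsPGroup.of_card (n := 5) (by rw [hQc, h]; norm_num)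
  let T : Sylow 2 H := hp.toSylow (by rw [hi]; norm_num)
  rw [T.card_eq_index_normalizer, ← hi]
  congr 1
  refine le_antisymm ?_ Subgroup.le_normalizer
  intro g hg
  have hg' : g ∈ Subgroup.normalizer (Q : Set H) := hg
  have hDQ : D ≤ Q := Subgroup.le_normalizer
  have hle : D.map (MulAut.conj g⁻¹).toMonoidHom ≤ Q := by
    rintro _ ⟨x, hx, rfl⟩
    exact (Subgroup.mem_normalizer_iff.mp (Subgroup.inv_mem _ hg') x).mp (hDQ hx)
  have h1 := Grp.card_mul_card_le_of_le hDQ hle
  rw [Grp.card_map_conj, hQc] at h1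
  have h2 : D ⊓ D.map (MulAut.conj g⁻¹).toMonoidHom ≠ ⊥ := by
    intro hb
    rw [hb, Subgroup.card_bot] at h1
    rcases hd with h | h <;> rw [h] at h1 <;> omega
  obtain ⟨⟨x, hx1, hx2⟩, hx3⟩ := Subgroup.ne_bot_iff_exists_ne_one.mp h2
  have hx4 : g * x * g⁻¹ ∈ D := by
    have := Grp.mem_map_conj_iff.mp hx2
    rwa [inv_inv] at this
  exact (mem_normalizer_two_iff hZ hab).mpr
    (pair_of_conj_mem hZ hab hx1 (fun h => hx3 (Subtype.ext h)) hx4)

theorem sylow_three (hZ : IsZassenhausGroup H Ω) (hΩ : Nat.card Ω = 18) {a b : Ω} (hab : a ≠ b)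
    (hd : Nat.card ↥(stabilizer H a ⊓ stabilizer H b) = 8 ∨
      Nat.card ↥(stabilizer H a ⊓ stabilizer H b) = 16) {x : H} (hx : orderOf x = 9)
    (hdvd : Nat.card (Sylow 3 H) ∣ 136) : Nat.card (Sylow 3 H) = 136 := by
  have := finite_of_finite hZ
  have : Fact (Nat.Prime 3) := ⟨by norm_num⟩
  have hG : Nat.card H = _ := card_eq hZ hab
  rw [hΩ] at hG
  have hc : Nat.card (Subgroup.zpowers x) = 9 := by rw [Nat.card_zpowers, hx]
  have hp : IsPGroup 3 (Subgroup.zpowers x) := IsPGroup.of_card (n := 2) (by rw [hc]; norm_num)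
  have hi : ¬ 3 ∣ (Subgroup.zpowers x).index := by
    have := (Subgroup.zpowers x).card_mul_index
    rw [hc, hG] at this
    rcases hd with h | h <;> rw [h] at this <;> omega
  let T : Sylow 3 H := hp.toSylow hi
  have hnf : ∀ y : H, orderOf y = 9 → ∀ c : Ω, y • c ≠ c := by
    intro y hy c hc
    obtain ⟨d, hcd⟩ := exists_ne hZ c
    have h1 := card_stabilizer hZ hcd
    rw [card_two_eq hZ hcd hab, hΩ] at h1
    have h2 : orderOf y ∣ Nat.card (stabilizer H c) :=
      Subgroup.orderOf_dvd_natCard _ (mem_stabilizer_iff.mpr hc)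
    rw [hy, h1] at h2
    rcases hd with h | h <;> rw [h] at h2 <;> omega
  set C := Subgroup.centralizer ((Subgroup.zpowers x : Subgroup H) : Set H) with hC
  have hsr : ∀ c : Ω, stabilizer C c = ⊥ := by
    intro c
    rw [eq_bot_iff]
    intro g hg
    have hgc : (g : H) • c = c := hg
    have hcomm : x * g = g * x := g.2 x (Subgroup.mem_zpowers x)
    have hx2 : orderOf (x * x) = 9 := by
      rw [← sq, orderOf_pow' x two_ne_zero, hx]
      norm_num
    refine Subtype.ext (eq_one_of_fix_three hZ (a := c) (b := x • c) (c := x • x • c)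
      (hnf x hx c).symm (hnf x hx _).symm ?_ hgc ?_ ?_)
    · rw [← mul_smul]
      exact (hnf _ hx2 c).symm
    · rw [← mul_smul, ← hcomm, mul_smul, hgc]
    · rw [← mul_smul, ← hcomm, mul_smul, ← mul_smul (g : H), ← hcomm, mul_smul, hgc]
  have hCd : Nat.card C ∣ 18 := by
    rw [← hΩ, Nat.card_congr (selfEquivOrbitsQuotientProd hsr), Nat.card_prod]
    exact Dvd.intro_left _ rfl
  set N := Subgroup.normalizer ((Subgroup.zpowers x : Subgroup H) : Set H) with hN
  have key := Subgroup.card_dvd_of_injective _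
    (QuotientGroup.kerLift_injective (Subgroup.zpowers x).normalizerMonoidHom)
  rw [Subgroup.normalizerMonoidHom_ker, ← Subgroup.index, ← Subgroup.relIndex,
    IsCyclic.card_mulAut, hc] at key
  have h6 : Nat.totient 9 = 6 := by decide
  rw [h6] at key
  have e1 := Grp.card_mul_relIndex (Subgroup.centralizer_le_normalizer
    ((Subgroup.zpowers x : Subgroup H) : Set H))
  have e2 : Nat.card N ∣ 108 := by
    rw [← e1]
    exact Nat.mul_dvd_mul hCd key
  have e3 : Nat.card (Sylow 3 H) = N.index := T.card_eq_index_normalizer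
  have e4 := N.card_mul_index
  have e5 := card_sylow_modEq_one 3 H
  rw [← e3, hG] at e4
  generalize Nat.card (Sylow 3 H) = n at *
  have e6 := Nat.le_of_dvd (by norm_num) e2
  have e7 := Nat.le_of_dvd (by norm_num) hdvd
  have e8 : n ∈ Nat.divisors 136 := Nat.mem_divisors.mpr ⟨hdvd, by norm_num⟩
  have e9 : Nat.divisors 136 = {1, 2, 4, 8, 17, 34, 68, 136} := by decide
  rw [e9] at e8
  simp only [Finset.mem_insert, Finset.mem_singleton] at e8
  unfold Nat.ModEq at e5
  generalize Nat.card N = m at e2 e4 e6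
  obtain ⟨k, hk⟩ := e2
  rcases e8 with rfl | rfl | rfl | rfl | rfl | rfl | rfl | rfl <;> rcases hd with h | h <;>
    rw [h] at e4 <;> first | rfl | omega | skip
  · obtain rfl : m = 72 := by omega
    omega

end zass

/-- Let G be a finite group with trivial centre whose set of Sylow numbers (numbers of Sylow r-subgroups, r over the prime divisors of its order) is exactly {18, 136, 153}. Then G is isomorphic to PSL(2, 17) or to PGL(2, 17). -/
theorem result {G : Type*} [Group G] [Finite G] (hZ : Subgroup.center G = ⊥) (hNS : {c : ℕ | ∃ r : ℕ, r.Prime ∧ r ∣ Nat.card G ∧ c = Nat.card (Sylow r G)} = ({18, 136, 153} : Set ℕ))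
    {F : Type*} [Field F] [Fintype F] (hF : Fintype.card F = 17) :
    Nonempty (G ≃* Matrix.ProjectiveSpecialLinearGroup (Fin 2) F) ∨ Nonempty (G ≃* (GL (Fin 2) F ⧸ Subgroup.center (GL (Fin 2) F))) := by
  have hmem : ∀ r : ℕ, r.Prime → r ∣ Nat.card G → Nat.card (Sylow r G) = 18 ∨
      Nat.card (Sylow r G) = 136 ∨ Nat.card (Sylow r G) = 153 := by
    intro r hr hd
    have : Nat.card (Sylow r G) ∈ ({18, 136, 153} : Set ℕ) := hNS ▸ ⟨r, hr, hd, rfl⟩
    simpa using this
  have hcong : ∀ (r n : ℕ), r.Prime → Nat.card (Sylow r G) = n + 1 → r ∣ n := by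
    intro r n hr h
    have : Fact r.Prime := ⟨hr⟩
    have h1 := card_sylow_modEq_one r G
    rw [h] at h1
    exact (Nat.modEq_zero_iff_dvd).mp (Nat.ModEq.add_right_cancel' 1 (by simpa using h1))
  have h17p : Fact (Nat.Prime 17) := ⟨by norm_num⟩
  have h3p : Fact (Nat.Prime 3) := ⟨by norm_num⟩
  have h18 : Nat.card (Sylow 17 G) = 18 := by
    obtain ⟨r, hr, -, h⟩ : (18 : ℕ) ∈ {c : ℕ | ∃ r : ℕ, r.Prime ∧ r ∣ Nat.card G ∧
      c = Nat.card (Sylow r G)} := hNS ▸ (by simp)
    obtain rfl := (Nat.prime_dvd_prime_iff_eq hr h17p.out).mp (hcong r 17 hr h.symm)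
    exact h.symm
  have hd18 : 18 ∣ Nat.card G := by
    obtain ⟨P⟩ := (inferInstance : Nonempty (Sylow 17 G))
    exact h18 ▸ P.card_dvd_index.trans (Subgroup.index_dvd_card _)
  have h153 : Nat.card (Sylow 2 G) = 153 := by
    rcases hmem 2 Nat.prime_two (Dvd.dvd.trans (by norm_num) hd18) with h | h | h
    · exact absurd (hcong 2 17 Nat.prime_two h) (by norm_num)
    · exact absurd (hcong 2 135 Nat.prime_two h) (by norm_num)
    · exact h
  have h136 : Nat.card (Sylow 3 G) = 136 := by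
    rcases hmem 3 Nat.prime_three (Dvd.dvd.trans (by norm_num) hd18) with h | h | h
    · exact absurd (hcong 3 17 Nat.prime_three h) (by norm_num)
    · exact h
    · exact absurd (hcong 3 152 Nat.prime_three h) (by norm_num)
  have hpp : ¬ IsPrimePow (17 + 1) := by decide
  have hnt : Nontrivial (Sylow 17 G) := Finite.one_lt_card_iff_nontrivial.mp (by omega)
  obtain ⟨a, b, hab⟩ := exists_pair_ne (Sylow 17 G)
  have hF' : Nat.card F = 17 := by rw [Nat.card_eq_fintype_card, hF]
  obtain ⟨hZa, -, -⟩ := isZassenhaus_ind h18 hpp a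
  have hcase := ind_psl_or_pgl h18 hpp hab hF'
  have hd : Nat.card ↥(stabilizer (Ind G 17) a ⊓ stabilizer (Ind G 17) b) = 8 ∨
      Nat.card ↥(stabilizer (Ind G 17) a ⊓ stabilizer (Ind G 17) b) = 16 := by
    rcases hcase with ⟨h, -⟩ | ⟨h, -⟩ <;> omega
  have hchar : CharP F 17 := CIT.charP_of_card (n := 1) h17p.out (by rw [hF]; norm_num)
  obtain ⟨x, hx⟩ : ∃ x : Ind G 17, orderOf x = 9 := by
    rcases hcase with ⟨-, ⟨e⟩⟩ | ⟨-, ⟨e⟩⟩
    · obtain ⟨y, hy⟩ := (Misc.Spec.mem_range_orderOf_PSL2 (F := F) 17 9).mpr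
        (by rw [hF']; norm_num)
      exact ⟨e.symm y, by rw [e.symm.orderOf_eq, hy]⟩
    · obtain ⟨y, hy⟩ := (Misc.Spec.mem_range_orderOf_PGL2 (F := F) 17 9).mpr
        (by rw [hF']; norm_num)
      exact ⟨e.symm y, (e.symm.orderOf_eq y).trans hy⟩
  have hs := proj_surjective (G := G) 17
  have k2 := ker_le_normalizer_of_card_eq hs ((sylow_two hZa h18 hab hd).trans h153.symm)
  have k3 := ker_le_normalizer_of_card_eq hs ((sylow_three hZa h18 hab hd hx
    (h136 ▸ card_sylow_dvd_of_surjective hs 3)).trans h136.symm)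
  have k17 : ∀ P : Sylow 17 G, (proj G 17).ker ≤ Subgroup.normalizer (P : Set G) := ker_proj_le
  have hcardI : Nat.card (Ind G 17) ∣ 2 ^ 5 * 3 ^ 2 * 17 := by
    have := card_eq hZa hab
    rw [h18] at this
    rcases hd with h | h <;> rw [this, h] <;> norm_num
  have hker : (proj G 17).ker = ⊥ := by
    by_contra hne
    refine center_ne_bot_of_le_normalizer _ hne ?_ (by rw [hZ, inf_bot_eq])
    intro r hr S
    by_cases h2 : r = 2
    · subst h2
      exact k2 S
    by_cases h3 : r = 3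
    · subst h3
      exact k3 S
    by_cases h17 : r = 17
    · subst h17
      exact k17 S
    by_cases hrd : r ∣ Nat.card G
    · exfalso
      have hSK : (S : Subgroup G) ≤ (proj G 17).ker := by
        rw [← Subgroup.map_eq_bot_iff]
        obtain ⟨k, hk⟩ := (S.isPGroup'.map (proj G 17)).exists_card_eq
        rcases Nat.eq_zero_or_pos k with rfl | hk0
        · rwa [pow_zero, Subgroup.card_eq_one] at hk
        exfalso
        have h1 : r ∣ 2 ^ 5 * 3 ^ 2 * 17 := (dvd_pow_self r hk0.ne').trans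
          (hk ▸ (Subgroup.card_subgroup_dvd_card _).trans hcardI)
        rcases hr.out.dvd_mul.mp h1 with h1 | h1
        · rcases hr.out.dvd_mul.mp h1 with h1 | h1
          · exact h2 ((Nat.prime_dvd_prime_iff_eq hr.out Nat.prime_two).mp
              (hr.out.dvd_of_dvd_pow h1))
          · exact h3 ((Nat.prime_dvd_prime_iff_eq hr.out Nat.prime_three).mp
              (hr.out.dvd_of_dvd_pow h1))
        · exact h17 ((Nat.prime_dvd_prime_iff_eq hr.out h17p.out).mp h1)
      have hne1 : ¬ 17 ≡ 1 [MOD r] := by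
        intro h
        have h1 : r ∣ 2 ^ 4 := (Nat.modEq_iff_dvd' (by norm_num)).mp h.symm
        exact h2 ((Nat.prime_dvd_prime_iff_eq hr.out Nat.prime_two).mp (hr.out.dvd_of_dvd_pow h1))
      rcases hmem r hr.out hrd with h | h | h
      · exact h17 ((Nat.prime_dvd_prime_iff_eq hr.out h17p.out).mp (hcong r 17 hr.out h))
      · exact no_extra _ k17 S hSK (by rw [h]; norm_num) (by rw [h]; norm_num) hne1
      · exact no_extra _ k17 S hSK (by rw [h]; norm_num) (by rw [h]; norm_num) hne1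
    · have hb : (S : Subgroup G) = ⊥ := by
        obtain ⟨k, hk⟩ := S.isPGroup'.exists_card_eq
        rcases Nat.eq_zero_or_pos k with rfl | hk0
        · rwa [pow_zero, Subgroup.card_eq_one] at hk
        · exact absurd ((dvd_pow_self r hk0.ne').trans
            (hk ▸ Subgroup.card_subgroup_dvd_card _)) hrd
      have hn : (S : Subgroup G).Normal := hb ▸ inferInstance
      exact le_top.trans (Subgroup.normalizer_eq_top (S : Subgroup G)).ge
  have e0 : G ≃* Ind G 17 := MulEquiv.ofBijective (proj G 17)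
    ⟨(MonoidHom.ker_eq_bot_iff _).mp hker, hs⟩
  rcases hcase with ⟨-, ⟨e⟩⟩ | ⟨-, ⟨e⟩⟩
  · exact Or.inl ⟨e0.trans e⟩
  · exact Or.inr ⟨e0.trans e⟩

end Cfsg.Agent.S3641
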