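import Cfsg.Statements.S3648
import Mathlib
import Cfsg.Agent.Perm.SylPGL
import Cfsg.Agent.H41.NseBase
import Cfsg.Agent.Class.PSL2Dickson
import Cfsg.Agent.Class.PSL2Small

set_option autoImplicit false
open Cfsg

namespace Cfsg.Agent.S3648

open Subgroup FGS.SO H41.Nse Class.Dickson
open scoped MatrixGroups

section L
variable {F : Type*} [Field F] [Fintype F] {p : ℕ} [hp : Fact p.Prime] [CharP F p]

theorem mem_unip_of_dvd {g : PGL(2, F)} (hg : p ∣ orderOf g) : ∃ x, g ∈ unip x := by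
  classical
  have hp' : p.Prime := hp.out
  have hy : orderOf (g ^ (orderOf g / p)) = p := orderOf_pow_orderOf_div (orderOf_pos g).ne' hg
  have hc : Commute g (g ^ (orderOf g / p)) := (Commute.refl g).pow_right _
  have hfix : ∀ z : P1 F, g • z = z → (g ^ (orderOf g / p)) • z = z := fun z hz =>
    pow_mem (show g ∈ MulAction.stabilizer PGL(2, F) z from hz) _
  generalize g ^ (orderOf g / p) = y at hy hc hfix
  have hP : IsPGroup p (zpowers y) := IsPGroup.of_card (n := 1) (by rw [Nat.card_zpowers, hy, pow_one])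
  obtain ⟨n, -, hn⟩ := FiniteField.card F p
  obtain ⟨x, hx⟩ := hP.nonempty_fixed_point_of_prime_not_dvd_card (P1 F) (by
    rw [card_P1, Nat.card_eq_fintype_card, hn]
    intro h
    exact hp'.one_lt.ne' (Nat.dvd_one.1 ((Nat.dvd_add_right (dvd_pow_self p n.ne_zero)).1 h)))
  have hx : y • x = x := hx ⟨y, mem_zpowers y⟩
  have hu : ∀ z, y • z = z → z = x := by
    intro z hz
    by_contra hne
    obtain ⟨h, rfl, rfl⟩ := exists_smul_inf_pt (Ne.symm hne)
    obtain ⟨a, ha⟩ := exists_dil_of_fix (g := h⁻¹ * y * h) ((conj_smul_eq_iff _ _ _ _).2 hx)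
      ((conj_smul_eq_iff _ _ _ _).2 hz)
    have h1 : orderOf (h⁻¹ * y * h) = p := by
      rw [← hy]
      simpa using (MulAut.conj h⁻¹).orderOf_eq y
    rw [ha, ← dilHom_apply, orderOf_injective _ dilHom_injective] at h1
    have h2 := orderOf_dvd_natCard a
    rw [h1, Nat.card_units, Nat.card_eq_fintype_card, hn] at h2
    exact hp'.one_lt.ne' (Nat.dvd_one.1 ((Nat.dvd_sub_iff_right (Nat.one_le_pow _ _ hp'.pos)
      (dvd_pow_self p n.ne_zero)).1 h2))
  exact ⟨x, Or.inr ⟨hu _ (by rw [smul_smul, ← hc.eq, mul_smul, hx]), fun z hz => hu z (hfix z hz)⟩⟩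

theorem order_eq {g : PGL(2, F)} (hg : p ∣ orderOf g) : orderOf g = p := by
  obtain ⟨x, hx⟩ := mem_unip_of_dvd hg
  exact Nat.dvd_antisymm (orderOf_dvd_of_pow_eq_one (pow_eq_one_of_mem_unip p hx)) hg

omit hp [CharP F p] in
theorem sq_le_inv (h2 : (2 : F) ≠ 0) : Fintype.card F ^ 2 ≤ s PGL(2, F) 2 := by
  classical
  have hm : (-1 : F) ≠ 1 := fun h => h2 (by linear_combination -h)
  let f : F × F → GL (Fin 2) F := fun x => if h : x.2 = 0 then gl2 1 x.1 0 (-1) (by simp)
    else gl2 x.1 (-x.1 ^ 2 - x.2) 1 (-x.1) (by convert h using 1; ring)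
  have hf : ∀ x, orderOf (pmk (f x)) = 2 := by
    intro x
    refine orderOf_eq_prime ?_ ?_
    · rw [sq, ← map_mul, pmk_eq_one_iff]
      simp only [gl_mul_apply, f]
      split_ifs <;> simp [gl2_coe] <;> ring_nf <;> simp
    · rw [Ne, pmk_eq_one_iff]
      simp only [f]
      split_ifs <;> simp [gl2_coe, hm.symm]
  rw [sq, ← Fintype.card_prod, ← Nat.card_eq_fintype_card]
  refine Nat.card_le_card_of_injective (fun x => (⟨pmk (f x), hf x⟩ : {g // orderOf g = 2})) ?_
  rintro ⟨a, b⟩ ⟨c, d⟩ h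
  obtain ⟨e, he⟩ := (pmk_eq_pmk_iff _ _).1 (congrArg Subtype.val h)
  have h00 := he 0 0
  have h01 := he 0 1
  have h10 := he 1 0
  simp only [f] at h00 h01 h10
  split_ifs at h00 h01 h10 with h3 h4 h4 <;> simp [gl2_coe] at h00 h01 h10
  · rw [← h00, one_mul] at h01
    rw [h3, h4, h01]
  · rw [← h10] at h00; simp at h00
  · rw [← h10, one_mul] at h00 h01
    rw [h00] at h01 ⊢
    congr 1
    linear_combination h01

end L

section G
variable {G : Type*} [Group G] [Finite G] {p : ℕ}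

theorem isPGroup_cent (hp : p.Prime) (h : ∀ g : G, p ∣ orderOf g → orderOf g = p) {x : G}
    (hx : orderOf x = p) : IsPGroup p (centralizer ({x} : Set G)) := by
  have : Fact p.Prime := ⟨hp⟩
  rw [IsPGroup.iff_card]
  refine ⟨_, Nat.eq_prime_pow_of_unique_prime_dvd Nat.card_pos.ne' fun {r} hr hrd => ?_⟩
  by_contra hrp
  have : Fact r.Prime := ⟨hr⟩
  obtain ⟨y, hy⟩ := exists_prime_orderOf_dvd_card' r hrd
  rw [← Subgroup.orderOf_coe] at hy
  have hxy : Commute (y : G) x := Subgroup.mem_centralizer_singleton_iff.1 y.2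
  have ho := hxy.orderOf_mul_eq_mul_orderOf_of_coprime (by
    rw [hy, hx]
    exact (Nat.coprime_primes hr hp).2 hrp)
  rw [hy, hx] at ho
  have := h (y * x) (ho ▸ Dvd.intro_left _ rfl)
  rw [ho] at this
  exact hr.one_lt.ne' (Nat.eq_of_mul_eq_mul_right hp.pos (this.trans (one_mul p).symm))

theorem card_split (hp : p.Prime) {k N : ℕ} (hG : Nat.card G = p ^ k * N) (hN : ¬ p ∣ N)
    (h : ∀ g : G, p ∣ orderOf g → orderOf g = p) :
    s G p + ∑ j ∈ N.divisors, s G j = Nat.card G := by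
  classical
  have hN0 : N ≠ 0 := by rintro rfl; exact hN (dvd_zero p)
  rw [← Finset.sum_insert (fun h => hN (Nat.dvd_of_mem_divisors h))]
  refine sum_eq _ fun g => ?_
  by_cases hg : p ∣ orderOf g
  · exact Finset.mem_insert.2 (Or.inl (h g hg))
  · exact Finset.mem_insert_of_mem (Nat.mem_divisors.2 ⟨(((Nat.Prime.coprime_iff_not_dvd hp).2
      hg).symm.pow_right k).dvd_of_dvd_mul_left (hG ▸ orderOf_dvd_natCard g), hN0⟩)

theorem dvd_s (hp : p.Prime) {k n : ℕ} (hk : p ^ k ∣ Nat.card G)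
    (h : ∀ g : G, p ∣ orderOf g → orderOf g = p) (hn : n ≠ 1) (hpn : n ≠ p) : p ^ k ∣ s G n := by
  by_cases hd : p ∣ n
  · rw [s_eq_zero_iff.2 fun g hg => hpn (hg.symm.trans (h g (hg ▸ hd)))]
    exact dvd_zero _
  · refine pow_dvd_s hp hk (s_eq_zero_iff.2 fun g hg => hn ?_) dvd_rfl hd
    have := h g (hg ▸ Dvd.intro _ rfl)
    rw [hg] at this
    exact Nat.eq_of_mul_eq_mul_left hp.pos (this.trans (mul_one p).symm)

theorem lower {q c : ℕ} (hq : 2 < q) (hG : Nat.card G = q * (q ^ 2 - 1)) (hc : q ^ 2 - 1 ∣ c)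
    (h : ∀ n, n ≠ 1 → s G n = c ∨ q ∣ s G n) :
    (q - 1) * (q ^ 2 - 1) ≤ ∑ j ∈ (q ^ 2 - 1).divisors, s G j := by
  classical
  obtain ⟨k, rfl⟩ : ∃ k, q = k + 1 := ⟨q - 1, by omega⟩
  rw [show (k + 1) ^ 2 - 1 = k * (k + 2) from Nat.sub_eq_of_eq_add (by ring)] at *
  have h0 : k * (k + 2) ≠ 0 := Nat.mul_ne_zero (by omega) (by omega)
  have h1 := dvd_sum (G := G) (d := k * (k + 2)) (hG ▸ Dvd.intro_left _ rfl)
  rw [← Finset.add_sum_erase _ _ (Nat.one_mem_divisors.2 h0), s_one,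
    ← Finset.sum_filter_add_sum_filter_not _ (fun j => s G j = c)] at h1 ⊢
  have h2 : k * (k + 2) ∣ ∑ j ∈ ((k * (k + 2)).divisors.erase 1).filter (fun j => s G j = c),
      s G j := Finset.dvd_sum fun j hj => (Finset.mem_filter.1 hj).2 ▸ hc
  have h3 : k + 1 ∣ ∑ j ∈ ((k * (k + 2)).divisors.erase 1).filter (fun j => ¬ s G j = c),
      s G j := Finset.dvd_sum fun j hj => (h j (Finset.ne_of_mem_erase
        (Finset.mem_filter.1 hj).1)).resolve_left (Finset.mem_filter.1 hj).2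
  generalize ∑ j ∈ ((k * (k + 2)).divisors.erase 1).filter (fun j => s G j = c), s G j = A at *
  generalize ∑ j ∈ ((k * (k + 2)).divisors.erase 1).filter (fun j => ¬ s G j = c), s G j = B at *
  obtain ⟨t, rfl⟩ := h3
  rw [add_left_comm] at h1 ⊢
  obtain ⟨u, hu⟩ := (Nat.dvd_add_right h2).1 h1
  have h4 : (k + 1) ∣ u + 1 := by
    have : (k + 1) * t + (u + 1) = (k + 1) * ((k + 1) * u) := by linear_combination hu
    exact (Nat.dvd_add_right (Dvd.intro _ rfl)).1 (this ▸ Dvd.intro _ rfl)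
  have h5 := Nat.le_of_dvd (by omega) h4
  rw [hu, Nat.add_sub_cancel, mul_comm k]
  exact (Nat.mul_le_mul_left _ (by omega)).trans (Nat.le_add_left _ _)

theorem comm_sylow [hp : Fact p.Prime] (hp2 : p ≠ 2) (P : Sylow p G)
    (h : ∀ g : G, p ∣ orderOf g → orderOf g = p) (h1 : 1 < Nat.card (P : Subgroup G))
    (hs : s G p ≤ (P : Subgroup G).index) :
    ∀ x ∈ (P : Subgroup G), ∀ y ∈ (P : Subgroup G), x * y = y * x := by
  classical
  have hp' : p.Prime := hp.out
  have hnt : Nontrivial (P : Subgroup G) := Finite.one_lt_card_iff_nontrivial.1 h1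
  have := P.isPGroup'.center_nontrivial
  obtain ⟨⟨⟨z, hz⟩, hzc⟩, hz1⟩ := exists_ne (1 : center (P : Subgroup G))
  have hz1 : z ≠ 1 := fun h => hz1 (Subtype.ext (Subtype.ext h))
  have hzo : orderOf z = p := by
    obtain ⟨n, hn⟩ := IsPGroup.iff_orderOf.1 P.isPGroup' ⟨z, hz⟩
    rw [← Subgroup.orderOf_coe] at hn
    refine h z (hn ▸ dvd_pow_self p ?_)
    rintro rfl
    exact hz1 (orderOf_eq_one_iff.1 hn)
  have hle : (P : Subgroup G) ≤ centralizer {z} := fun y hy =>
    mem_centralizer_singleton_iff.2 (congrArg Subtype.val (mem_center_iff.1 hzc ⟨y, hy⟩))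
  have hC := P.is_maximal' (isPGroup_cent hp' h hzo) hle
  let f : G ⧸ centralizer ({z} : Set G) → {g : G // orderOf g = p} := fun c =>
    ⟨c.out * z * c.out⁻¹, ((MulAut.conj c.out).orderOf_eq z).trans hzo⟩
  have hf : Function.Injective f := by
    intro c d e
    have e1 : c.out * z * c.out⁻¹ = d.out * z * d.out⁻¹ := congrArg Subtype.val e
    rw [← c.out_eq, ← d.out_eq]
    refine QuotientGroup.eq.2 (mem_centralizer_singleton_iff.2 ?_)
    calc c.out⁻¹ * d.out * z = c.out⁻¹ * (d.out * z * d.out⁻¹) * d.out := by group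
      _ = _ := by rw [← e1]; group
  obtain ⟨c, hc⟩ := (hf.bijective_of_nat_card_le (by rw [← hC] at hs; exact hs)).2
    ⟨z⁻¹, (orderOf_inv z).trans hzo⟩
  have hc : c.out * z * c.out⁻¹ = z⁻¹ := congrArg Subtype.val hc
  generalize c.out = g at hc
  have hzz : z⁻¹ ≠ z := fun e => by
    have : orderOf z ∣ 2 := orderOf_dvd_of_pow_eq_one (by rw [sq]; nth_rewrite 1 [← e]; simp)
    exact hp2 ((Nat.prime_dvd_prime_iff_eq hp' Nat.prime_two).1 (hzo ▸ this))
  have key : ∀ g : G, g * z * g⁻¹ = z⁻¹ → g * g = 1 := by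
    intro g hg
    have e1 : g * g ∈ (P : Subgroup G) := by
      rw [← hC, mem_centralizer_singleton_iff]
      have : g * g * z * (g * g)⁻¹ = z := by
        calc g * g * z * (g * g)⁻¹ = g * (g * z * g⁻¹) * g⁻¹ := by group
          _ = g * z⁻¹ * g⁻¹ := by rw [hg]
          _ = (g * z * g⁻¹)⁻¹ := by group
          _ = z := by rw [hg, inv_inv]
      exact mul_inv_eq_iff_eq_mul.1 this
    by_contra hne
    obtain ⟨n, hn⟩ := IsPGroup.iff_orderOf.1 P.isPGroup' ⟨_, e1⟩
    rw [← Subgroup.orderOf_coe] at hn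
    have hn0 : n ≠ 0 := by
      rintro rfl
      exact hne (orderOf_eq_one_iff.1 hn)
    have hn' : orderOf (g ^ 2) = p ^ n := by rw [sq]; exact hn
    have e2 : orderOf g = p := h g ((hn' ▸ dvd_pow_self p hn0 : p ∣ orderOf (g ^ 2)).trans
      (orderOf_pow_dvd 2))
    obtain ⟨m, hm⟩ := hp'.odd_of_ne_two hp2
    have e3 : g ∈ (P : Subgroup G) := by
      have : g = (g * g) ^ (m + 1) := by
        rw [← sq, ← pow_mul, show 2 * (m + 1) = p + 1 by omega, pow_succ, ← e2, pow_orderOf_eq_one,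
          one_mul]
      rw [this]
      exact pow_mem e1 _
    rw [mem_centralizer_singleton_iff.1 (hle e3), mul_inv_cancel_right] at hg
    exact hzz hg.symm
  have hi : ∀ u ∈ (P : Subgroup G), g * u * g = u⁻¹ := by
    intro u hu
    have := key (g * u) (by
      rw [mul_inv_rev, ← hc, mul_assoc g u, mem_centralizer_singleton_iff.1 (hle hu)]
      group)
    exact eq_inv_of_mul_eq_one_left (by rw [← this]; group)
  intro x hx y hy
  have e := hi _ (mul_mem hx hy)
  rw [mul_inv_rev, ← hi x hx, ← hi y hy] at e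
  have e' : g * (x * y) * g = g * (y * (g * g) * x) * g := by rw [e]; group
  rw [key g hc, mul_one] at e'
  exact mul_left_cancel (mul_right_cancel e')

end G

/-- For a finite group X let nse(X) be the set of values of the function 'number of elements of order k' over the element orders k that occur. Let F be a finite field of odd order q > 3 and P = PGL(2, F) = GL(2, F) modulo its centre. If G is a finite group with the same order as P and nse(G) = nse(P), then G is isomorphic to P. -/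
theorem result {F : Type*} [Field F] [Fintype F] (hodd : Odd (Fintype.card F)) (h3 : 3 < Fintype.card F)
    {G : Type*} [Group G] [Finite G] (hcard : Nat.card G = Nat.card (GL (Fin 2) F ⧸ Subgroup.center (GL (Fin 2) F)))
    (hnse : {c : ℕ | 0 < c ∧ ∃ n : ℕ, c = Nat.card {g : G // orderOf g = n}} = {c : ℕ | 0 < c ∧ ∃ n : ℕ, c = Nat.card {g : (GL (Fin 2) F ⧸ Subgroup.center (GL (Fin 2) F)) // orderOf g = n}}) :
    Nonempty (G ≃* (GL (Fin 2) F ⧸ Subgroup.center (GL (Fin 2) F))) := by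
  classical
  change Nat.card G = Nat.card PGL(2, F) at hcard
  change {c : ℕ | 0 < c ∧ ∃ n : ℕ, c = s G n} = {c : ℕ | 0 < c ∧ ∃ n : ℕ, c = s PGL(2, F) n} at hnse
  change Nonempty (G ≃* PGL(2, F))
  obtain ⟨p, _, f, hp, hf⟩ := FiniteField.card' F
  have : Fact p.Prime := ⟨hp⟩
  have hp2 : p ≠ 2 := by
    rintro rfl
    rw [hf] at hodd
    exact (Nat.not_even_iff_odd.2 hodd) ((Nat.even_pow' f.ne_zero).2 even_two)
  have hL := card_PGL2 (K := F)
  rw [Nat.card_eq_fintype_card (α := F)] at hL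
  have hpq : p ∣ Fintype.card F := hf ▸ dvd_pow_self p f.ne_zero
  have hN : ¬ p ∣ Fintype.card F ^ 2 - 1 := fun h => hp.one_lt.ne' (Nat.dvd_one.1
    ((Nat.dvd_sub_iff_right (Nat.one_le_pow _ _ (by omega)) (hpq.pow two_ne_zero)).1 h))
  have hLo : ∀ g : PGL(2, F), p ∣ orderOf g → orderOf g = p := fun g => order_eq
  have h2 : Fintype.card F ^ 2 ≤ s PGL(2, F) 2 := sq_le_inv (F := F) fun h => hp2
    ((Nat.prime_dvd_prime_iff_eq hp Nat.prime_two).1 ((CharP.cast_eq_zero_iff F p 2).1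
      (by exact_mod_cast h)))
  have hev : 2 ∣ Nat.card PGL(2, F) := by
    rw [hL]
    exact (Nat.Odd.sub_odd hodd.pow odd_one).two_dvd.mul_left _
  have hs2 : s G 2 = s PGL(2, F) 2 := by
    obtain ⟨-, n, hn⟩ : s PGL(2, F) 2 ∈ {c : ℕ | 0 < c ∧ ∃ n : ℕ, c = s G n} :=
      hnse ▸ ⟨by nlinarith, 2, rfl⟩
    have := (prime_dvd Nat.prime_two hev).1
    refine eq_two_of_odd (k := n) (Nat.pos_of_ne_zero ?_) hn.symm (by omega) (by nlinarith)
    rintro rfl
    rw [s_eq_zero_iff.2 fun g : G => (orderOf_pos g).ne'] at hn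
    omega
  have hc : Fintype.card F ^ 2 - 1 ∣ s PGL(2, F) p := by
    have e1 := card_split hp (hL.trans (by rw [hf])) (hf ▸ hN) hLo
    rw [← hf] at e1
    exact (Nat.dvd_add_left (dvd_sum (hL ▸ Dvd.intro_left _ rfl))).1
      (e1 ▸ hL ▸ Dvd.intro_left _ rfl)
  have hval : ∀ n, n ≠ 1 → s G n = s PGL(2, F) p ∨ Fintype.card F ∣ s G n := by
    intro n hn
    rcases Nat.eq_zero_or_pos (s G n) with h | h
    · exact Or.inr (h ▸ dvd_zero _)
    obtain ⟨-, m, hm⟩ : s G n ∈ {c : ℕ | 0 < c ∧ ∃ n : ℕ, c = s PGL(2, F) n} :=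
      hnse ▸ ⟨h, n, rfl⟩
    by_cases hm1 : m = 1
    · rw [hm1, s_one] at hm
      rw [(eq_of_s_eq_one hm).resolve_left hn, hs2] at hm
      nlinarith
    by_cases hmp : m = p
    · exact Or.inl (hmp ▸ hm)
    · exact Or.inr (hm ▸ hf ▸ dvd_s hp (hL ▸ hf ▸ Dvd.intro _ rfl) hLo hm1 hmp)
  have hG := hcard.trans hL
  have hpG : p ∣ Nat.card G := hG ▸ hpq.mul_right _
  have hsp : Fintype.card F ^ 2 - 1 ≤ s G p := by
    refine Nat.le_of_dvd (Nat.pos_of_ne_zero (s_ne_zero_of_prime hp hpG)) ?_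
    rcases hval p hp.ne_one with h | h
    · exact h ▸ hc
    · exact absurd (Nat.dvd_one.1 ((Nat.dvd_add_left (hpq.trans h)).1 (prime_dvd hp hpG).1))
        hp.one_lt.ne'
  have hlow := lower (by omega) hG hc hval
  have hnm : p ∉ (Fintype.card F ^ 2 - 1).divisors := fun h => hN (Nat.dvd_of_mem_divisors h)
  have hsum := sum_le (G := G) (insert p (Fintype.card F ^ 2 - 1).divisors)
  have hsum' := sum_eq_card_filter (G := G) (insert p (Fintype.card F ^ 2 - 1).divisors)
  rw [Finset.sum_insert hnm] at hsum hsum'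
  have hqq : Fintype.card F * (Fintype.card F ^ 2 - 1) = (Fintype.card F ^ 2 - 1) +
      (Fintype.card F - 1) * (Fintype.card F ^ 2 - 1) := by
    obtain ⟨k, hk⟩ : ∃ k, Fintype.card F = k + 1 := ⟨Fintype.card F - 1, by omega⟩
    rw [hk, Nat.add_sub_cancel]
    ring
  have hGo : ∀ g : G, p ∣ orderOf g → orderOf g = p := by
    intro g hg
    obtain ⟨y, hy⟩ := ((Subtype.val_injective (p := fun g : G => orderOf g ∈ insert p
      (Fintype.card F ^ 2 - 1).divisors)).bijective_of_nat_card_le (by omega)).2 g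
    rcases Finset.mem_insert.1 (hy ▸ y.2) with h | h
    · exact h
    · exact absurd (hg.trans (Nat.dvd_of_mem_divisors h)) hN
  obtain ⟨P⟩ : Nonempty (Sylow p G) := inferInstance
  have hP : Nat.card (P : Subgroup G) = Fintype.card F := by
    rw [P.card_eq_multiplicity, hG, Nat.factorization_mul (by omega)
      (by rintro h0; exact hN (h0 ▸ dvd_zero p)), Finsupp.add_apply,
      Nat.factorization_eq_zero_of_not_dvd hN, hf, hp.factorization_pow]
    simp
  have hidx : (P : Subgroup G).index = Fintype.card F ^ 2 - 1 := by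
    have := card_mul_index (P : Subgroup G)
    rw [hP, hG] at this
    exact Nat.eq_of_mul_eq_mul_left (by omega) this
  have hab := comm_sylow hp2 P hGo (by omega) (by omega)
  refine SylPGL.pgl_of_cent P hab (fun x hx hx1 g hg => ?_) hP hodd h3 hcard (hs2 ▸ h2 :
    _ ≤ s G 2)
  have hxo : orderOf x = p := by
    obtain ⟨n, hn⟩ := IsPGroup.iff_orderOf.1 P.isPGroup' ⟨x, hx⟩
    rw [← Subgroup.orderOf_coe] at hn
    refine hGo x (hn ▸ dvd_pow_self p ?_)
    rintro rfl
    exact hx1 (orderOf_eq_one_iff.1 hn)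
  rw [← P.is_maximal' (isPGroup_cent hp hGo hxo) fun y hy =>
    mem_centralizer_singleton_iff.2 (hab y hy x hx)]
  exact mem_centralizer_singleton_iff.2 hg

end Cfsg.Agent.S3648
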