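import Cfsg.Statements.S3660
import Mathlib
import Cfsg.Agent.Misc.SpecAffL2

set_option autoImplicit false
open Cfsg

namespace Cfsg.Agent.S3660

theorem not_dvd_four {p q : ℕ} (hp : p.Prime) (hq : q.Prime) (h : p ≠ q) : ¬ p * q ∣ 4 := by
  intro hd
  have h1 : p ∣ 2 ^ 2 := (dvd_mul_right p q).trans hd
  have h2 : q ∣ 2 ^ 2 := (dvd_mul_left q p).trans hd
  exact h (((Nat.prime_dvd_prime_iff_eq hp Nat.prime_two).1 (hp.dvd_of_dvd_pow h1)).trans
    ((Nat.prime_dvd_prime_iff_eq hq Nat.prime_two).1 (hq.dvd_of_dvd_pow h2)).symm)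

/-- The prime graph of a finite group has the prime divisors of its order as vertices, two distinct primes p, q being joined when the group has an element of order pq; two groups have the same prime graph when they have the same prime divisors and the same joined pairs. Let F be a finite field of characteristic 2 with at least 4 elements. Then there are finite groups of arbitrarily large order with the same prime graph as PSL(2,F); in particular PSL(2,F) is not determined by its prime graph. -/
theorem result {F : Type*} [Field F] [Fintype F] [CharP F 2] (hF : 4 ≤ Fintype.card F) (N : ℕ) :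
    ∃ (H : Type) (_ : Group H) (_ : Finite H), N < Nat.card H ∧
      ((∀ p : ℕ, p.Prime → (p ∣ Nat.card (Matrix.ProjectiveSpecialLinearGroup (Fin 2) F) ↔ p ∣ Nat.card H)) ∧
      (∀ p q : ℕ, p.Prime → q.Prime → p ≠ q → ((∃ g : (Matrix.ProjectiveSpecialLinearGroup (Fin 2) F), orderOf g = p * q) ↔ (∃ g : H, orderOf g = p * q)))) := by
  obtain ⟨H, i1, i2, h1, h2⟩ := Misc.Spec.exists_large_aff_SL2 (F := F) N
  have h3 := fun n => Misc.Spec.mem_range_orderOf_PSL2_char_two (F := F) n
  simp only [Set.mem_range] at h2 h3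
  refine ⟨H, i1, inferInstance, by rwa [Nat.card_eq_fintype_card], fun p hp => ?_,
    fun p q hp hq hpq => ?_⟩
  · rw [Misc.Spec.prime_dvd_card_iff hp, Misc.Spec.prime_dvd_card_iff hp, h2, h3]
    have : p ∣ 2 ↔ p ∣ 4 := ⟨fun h => h.trans (by norm_num), fun h =>
      hp.dvd_of_dvd_pow (show p ∣ 2 ^ 2 from h)⟩
    rw [this]
  · rw [h2, h3]
    have a1 := not_dvd_four hp hq hpq
    have a2 : ¬ p * q ∣ 2 := fun h => a1 (h.trans (by norm_num))
    simp [a1, a2]

end Cfsg.Agent.S3660
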