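import Cfsg.Statements.S3664
import Mathlib
import Cfsg.Agent.Chev.PrimeGraphAff
import Cfsg.Agent.Chev.SzAut
import Cfsg.Agent.Chev.SzPartition
import Cfsg.Agent.Class.Spec.Adj
import Cfsg.Agent.Class.Sp.Gen
import Cfsg.Agent.PLocal.RelSylow

set_option autoImplicit false
open Cfsg

namespace Cfsg.Agent.S3664

open Matrix Chev Chev.Suz SemidirectProduct

/-- The field with eight elements. -/
def GF8 : Type := Fin 8

instance instDecEq : DecidableEq GF8 := inferInstanceAs (DecidableEq (Fin 8))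
instance instFintype : Fintype GF8 := inferInstanceAs (Fintype (Fin 8))
instance instZero : Zero GF8 := ⟨(0 : Fin 8)⟩
instance instOne : One GF8 := ⟨(1 : Fin 8)⟩
instance instAdd : Add GF8 := ⟨fun a b => Fin.ofNat 8 (a.1 ^^^ b.1)⟩
instance instNeg : Neg GF8 := ⟨id⟩
instance instMul : Mul GF8 := ⟨fun a b =>
  Fin.ofNat 8 (0x73157889d3f0cfa868356ee0467b98bcbd10fac688000000 >>> (3 * (8 * a.1 + b.1)))⟩
instance instInv : Inv GF8 := ⟨fun a => a * a * a * a * a * a⟩

instance instField : Field GF8 := Field.ofMinimalAxioms GF8 (by decide +kernel) (by decide +kernel)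
  (by decide +kernel) (by decide +kernel) (by decide +kernel) (by decide +kernel) (by decide +kernel)
  (by decide +kernel) (by decide +kernel) ⟨0, 1, by decide⟩

instance instSz : SzField GF8 1 := ⟨le_rfl, by rw [Nat.card_eq_fintype_card]; rfl⟩

/-- Elements of the field. -/
def c (n : Fin 8) : GF8 := n

/-- The field automorphisms. -/
noncomputable def fa : (GF8 ≃+* GF8) →* MulAut (Sz GF8 1) where
  toFun := fieldAut
  map_one' := by ext1 g; exact mat_injective (by ext; simp)
  map_mul' σ τ := by ext1 g; exact mat_injective (by ext; simp)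

/-- The automorphism group of `Sz(8)`. -/
abbrev G0 := Sz GF8 1 ⋊[fa] (GF8 ≃+* GF8)

/-- The tensor product of the natural module with its Frobenius twist. -/
abbrev M := Matrix (Fin 4) (Fin 4) GF8

/-- The action of a matrix. -/
def ac (A X : Matrix (Fin 4) (Fin 4) GF8) : Matrix (Fin 4) (Fin 4) GF8 :=
  A * X * (A.map fun x => x ^ 2)ᵀ

theorem map_sq (A B : Matrix (Fin 4) (Fin 4) GF8) :
    ((A * B).map fun x => x ^ 2) = (A.map fun x => x ^ 2) * B.map fun x => x ^ 2 :=
  Matrix.map_mul (f := frobenius GF8 2)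

theorem ac_mul (A B X : Matrix (Fin 4) (Fin 4) GF8) : ac (A * B) X = ac A (ac B X) := by
  simp only [ac, map_sq, transpose_mul, Matrix.mul_assoc]

noncomputable instance instAct : DistribMulAction G0 M where
  smul y X := ac (mat y.left) (X.map y.right)
  one_smul X := by
    show ac 1 (Matrix.map X id) = X
    simp [ac]
  mul_smul y z X := by
    show ac (mat y.left * (mat z.left).map y.right) _ = ac _ (Matrix.map (ac _ _) _)
    rw [ac_mul, ac, ac, ac, ac, Matrix.map_mul, Matrix.map_mul, transpose_map]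
    simp only [Matrix.map_map, Function.comp_def, map_pow]
    rfl
  smul_zero y := by
    show ac _ (Matrix.map (0 : Matrix _ _ _) _) = (0 : Matrix _ _ _)
    simp [ac]
  smul_add y X Y := by
    show ac _ (Matrix.map (X + Y : Matrix _ _ _) _) = (ac _ _ + ac _ _ : Matrix _ _ _)
    rw [Matrix.map_add _ (map_add _), ac, ac, ac, Matrix.mul_add, Matrix.add_mul]

theorem inl_smul (g : Sz GF8 1) (X : M) : (inl g : G0) • X = ac (mat g) X := rfl

/-- Elements of odd order. -/
noncomputable def x (b : Fin 8) : Sz GF8 1 := uu 0 (c b) * tt GF8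

/-- Their matrices. -/
def xm (b : Fin 8) : Matrix (Fin 4) (Fin 4) GF8 :=
  !![c b ^ 4, c b, 0, 1; c b, 0, 1, 0; 0, 1, 0, 0; 1, 0, 0, 0]

theorem mat_x (b : Fin 8) : mat (x b) = xm b := by
  ext i j
  fin_cases i <;> fin_cases j <;> simp [x, xm, uMat, suzukiForm, ff, th_def]

theorem mat_pow (g : Sz GF8 1) (n : ℕ) : mat (g ^ n) = mat g ^ n := rfl

theorem orderOf_x {b : Fin 8} {p : ℕ} (hp : p.Prime) (h : xm b ^ p = 1) (h1 : xm b ≠ 1) :
    orderOf (x b) = p :=
  haveI := Fact.mk hp
  orderOf_eq_prime (mat_injective (by rw [mat_pow, mat_x, h, mat_one]))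
    fun e => h1 (by rw [← mat_x, e, mat_one])

theorem o2 : orderOf (x 0) = 2 := orderOf_x (by norm_num) (by decide +kernel) (by decide +kernel)
theorem o5 : orderOf (x 1) = 5 := orderOf_x (by norm_num) (by decide +kernel) (by decide +kernel)
theorem o7 : orderOf (x 2) = 7 := orderOf_x (by norm_num) (by decide +kernel) (by decide +kernel)
theorem o13 : orderOf (x 3) = 13 := orderOf_x (by norm_num) (by decide +kernel) (by decide +kernel)

theorem exists_conj {G : Type*} [Group G] [Finite G] {p : ℕ} (hp : p.Prime) {a b : G}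
    (ha : orderOf a = p) (hb : orderOf b = p) (h : ¬ p ^ 2 ∣ Nat.card G) :
    ∃ k : G, ∃ i, 0 < i ∧ i < p ∧ k * b * k⁻¹ = a ^ i := by
  classical
  have := Fact.mk hp
  obtain ⟨k, -, hk⟩ := PLocal.RelSylow.exists_conj_mem (T := Subgroup.zpowers a) (H := ⊤)
    (P := Subgroup.zpowers b) (p := p) (IsPGroup.of_card (n := 1) (by rw [Nat.card_zpowers, ha, pow_one]))
    (fun e => h (by
      rw [← (Subgroup.zpowers a).card_mul_index, Nat.card_zpowers, ha, sq]
      exact Nat.mul_dvd_mul_left _ (by simpa using e))) le_top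
    (IsPGroup.of_card (n := 1) (by rw [Nat.card_zpowers, hb, pow_one]))
  obtain ⟨i, hi, e⟩ := Finset.mem_image.1
    (mem_zpowers_iff_mem_range_orderOf.1 (hk b (Subgroup.mem_zpowers b)))
  refine ⟨k, i, Nat.pos_of_ne_zero ?_, ha ▸ Finset.mem_range.1 hi, e.symm⟩
  rintro rfl
  rw [pow_zero, eq_comm, conj_eq_one_iff] at e
  rw [e, orderOf_one] at hb
  exact hp.one_lt.ne hb

theorem cardS : Nat.card (Sz GF8 1) = 29120 := by rw [card_Sz]; norm_num

theorem cardG : Nat.card G0 = 87360 := by rw [SemidirectProduct.card, cardS, card_ringAut]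

instance instFinA : Finite (GF8 ≃+* GF8) := Nat.finite_of_card_ne_zero (by rw [card_ringAut]; norm_num)

instance instFin : Finite G0 := Nat.finite_of_card_ne_zero (by rw [cardG]; norm_num)

theorem right_eq_one {y : G0} (h : (orderOf y).Coprime 3) : y = inl y.left := by
  have h1 := orderOf_dvd_natCard y.right
  rw [card_ringAut] at h1
  exact SemidirectProduct.ext rfl (orderOf_eq_one_iff.1 (Nat.eq_one_of_dvd_coprimes h
    (orderOf_map_dvd rightHom y) h1))

theorem not_fix : ¬ FixOrd G0 M 13 := by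
  rintro ⟨y, hy, X, hX, h⟩
  obtain ⟨k, i, h0, hi, e⟩ := exists_conj (by norm_num)
    ((orderOf_injective (inl : _ →* G0) inl_injective _).trans o13) hy (by rw [cardG]; norm_num)
  have h1 : (inl (x 3) : G0) ^ i • k • X = k • X := by
    rw [← e, ← mul_smul, inv_mul_cancel_right, mul_smul, h]
  replace hX : k • X ≠ 0 := fun h => hX ((smul_eq_zero_iff_eq k).1 h)
  generalize k • X = Y at h1 hX
  have h2 : ∀ n, ac (xm 3 ^ n) Y = Y := fun n => by
    obtain ⟨m, hm⟩ := exists_pow_eq_self_of_coprime (x := x 3) (n := i)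
      (o13 ▸ ((Nat.coprime_of_lt_prime h0.ne' hi (by norm_num))).symm)
    rw [← mat_x, ← mat_pow, ← inl_smul, ← hm, map_pow, map_pow, map_pow]
    exact MulAction.mem_stabilizer_iff.1 (pow_mem (pow_mem (MulAction.mem_stabilizer_iff.2 h1) m) n)
  have h3 : ∀ a b c d, ∑ n : Fin 13, (xm 3 ^ n.1) a b * (xm 3 ^ n.1) c d ^ 2 = 0 := by
    decide +kernel
  refine hX (Matrix.ext fun a c => ?_)
  have h4 : ∑ n : Fin 13, ac (xm 3 ^ n.1) Y a c = 0 := by
    simp only [ac, Matrix.mul_apply, transpose_apply, map_apply, Finset.sum_mul]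
    rw [Finset.sum_comm]
    refine Finset.sum_eq_zero fun d _ => ?_
    rw [Finset.sum_comm]
    refine Finset.sum_eq_zero fun b _ => ?_
    simp only [mul_right_comm _ (Y b d), ← Finset.sum_mul]
    rw [h3, zero_mul]
  simp only [h2, Finset.sum_const, Finset.card_univ, Fintype.card_fin] at h4
  exact (by decide +kernel : ∀ z : GF8, 13 • z = 0 → z = 0) _ h4

theorem not_three {s : ℕ} (hs : s = 7 ∨ s = 13) (y : G0) : orderOf y ≠ 3 * s := fun hy => by
  have h1 : orderOf (y ^ 3) = s := by
    rw [orderOf_pow_of_dvd (by norm_num) (hy ▸ dvd_mul_right _ _), hy]; simp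
  have h2 := right_eq_one (y := y ^ 3) (by rcases hs with rfl | rfl <;> rw [h1] <;> norm_num)
  rw [h2, orderOf_injective _ inl_injective] at h1
  have h3 := congrArg (fun z : G0 => mat z.left) (show y * y ^ 3 = y ^ 3 * y by group)
  generalize (y ^ 3).left = g at h1 h2
  simp only [h2, mul_left, left_inl, right_inl] at h3
  replace h3 : mat y.left * (mat g).map y.right = mat g * mat y.left := by simpa [fa] using h3
  have h4 : y.right (mat g).trace = (mat g).trace := by
    rw [AddMonoidHom.map_trace, ← Matrix.one_mul (Matrix.map _ _), ← mat_one, ← inv_mul_cancel y.left,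
      mat_mul, Matrix.mul_assoc, h3, trace_mul_comm, Matrix.mul_assoc, ← mat_mul, mul_inv_cancel, mat_one,
      Matrix.mul_one]
  have h5 : (mat g).trace ≠ 0 ∧ (mat g).trace ≠ 1 := by
    have : ∀ k : Sz GF8 1, (mat (k * g * k⁻¹)).trace = (mat g).trace := fun k => by
      rw [mat_mul, trace_mul_comm, ← mat_mul, inv_mul_cancel_left]
    rcases hs with rfl | rfl
    · obtain ⟨k, i, h0, hi, e⟩ := exists_conj (by norm_num) o7 h1 (by rw [cardS]; norm_num)
      rw [← this k, e, mat_pow, mat_x]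
      interval_cases i <;> decide +kernel
    · obtain ⟨k, i, h0, hi, e⟩ := exists_conj (by norm_num) o13 h1 (by rw [cardS]; norm_num)
      rw [← this k, e, mat_pow, mat_x]
      interval_cases i <;> decide +kernel
  have h6 : y.right = 1 := RingEquiv.ext fun z => by
    obtain ⟨i, rfl⟩ | rfl : (∃ i : Fin 7, z = (mat g).trace ^ i.1) ∨ z = 0 := by
      revert h5 z; generalize (mat g).trace = w; revert w; decide +kernel
    · rw [map_pow, h4]; rfl
    · simp
  have h7 := orderOf_dvd_natCard y.left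
  rw [← orderOf_injective (inl : _ →* G0) inl_injective, show inl y.left = y from
    SemidirectProduct.ext rfl h6.symm, hy, cardS] at h7
  rcases hs with rfl | rfl <;> norm_num at h7

theorem coprime_three (y : G0) {n : ℕ} (hy : orderOf y = n) (h : n.Coprime 3) :
    n ∣ 4 ∨ n ∣ 7 ∨ n ∣ 13 ∨ n ∣ 5 := by
  have := orderOf_dvd_cases y.left
  rwa [← orderOf_injective (inl : _ →* G0) inl_injective, ← right_eq_one (hy ▸ h), hy] at this

theorem exists_three {g : Sz GF8 1} (h : ∀ i j, mat g i j = 0 ∨ mat g i j = 1) {s : ℕ}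
    (hg : orderOf g = s) (hs : s.Coprime 3) : ∃ y : G0, orderOf y = s * 3 := by
  obtain ⟨σ, hσ⟩ := exists_prime_orderOf_dvd_card' (G := GF8 ≃+* GF8) 3 (by rw [card_ringAut])
  rw [← orderOf_injective (inl : _ →* G0) inl_injective] at hg
  rw [← orderOf_injective (inr : _ →* G0) inr_injective] at hσ
  refine ⟨inl g * inr σ, ?_⟩
  rw [Commute.orderOf_mul_eq_mul_orderOf_of_coprime _ (by rwa [hg, hσ]), hg, hσ]
  refine SemidirectProduct.ext (mat_injective (Matrix.ext fun i j => ?_)) (by
    rw [mul_right, mul_right]; simp)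
  rw [mul_left, mul_left, left_inl, right_inl, left_inr, right_inr]
  rcases h i j with h | h <;> simp [fa, h]

theorem primes {r : ℕ} (hr : r.Prime) (h : r ∣ 2 * 3 * 5 * 7 * 13) : r ∈ [2, 3, 5, 7, 13] := by
  simp only [hr.dvd_mul, Nat.prime_dvd_prime_iff_eq hr Nat.prime_two,
    Nat.prime_dvd_prime_iff_eq hr Nat.prime_three, Nat.prime_dvd_prime_iff_eq hr Nat.prime_five,
    Nat.prime_dvd_prime_iff_eq hr (by norm_num : Nat.Prime 7),
    Nat.prime_dvd_prime_iff_eq hr (by norm_num : Nat.Prime 13)] at h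
  simpa [or_assoc] using h

theorem graph {G : Type*} [Group G] [Finite G]
    (h1 : ∀ r : ℕ, r.Prime → r ∣ Nat.card G → r ∣ 2 * 3 * 5 * 7 * 13)
    (h2 : ∀ n ∈ [6, 10, 14, 15, 13], ∃ g : G, orderOf g = n)
    (h3 : ∀ n ∈ [26, 21, 39, 35, 65, 91], ¬ ∃ g : G, orderOf g = n) :
    (∀ r : ℕ, r.Prime → (r ∣ Nat.card G ↔ r ∣ 2 * 3 * 5 * 7 * 13)) ∧ ∀ r s : ℕ, r.Prime → s.Prime →
      r ≠ s → ((∃ g : G, orderOf g = r * s) ↔ r * s ∈ [6, 10, 14, 15]) := by
  refine ⟨fun r hr => ⟨h1 r hr, fun h => ?_⟩, fun r s hr hs hrs => ⟨fun ⟨g, hg⟩ => ?_, fun h =>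
    h2 _ (List.mem_append_left [13] h)⟩⟩
  · obtain ⟨n, hn, h'⟩ : ∃ n ∈ [6, 10, 14, 15, 13], r ∣ n := by
      have := primes hr h; clear h hr; revert r; decide
    obtain ⟨g, rfl⟩ := h2 n hn
    exact h'.trans (orderOf_dvd_natCard g)
  · have a := primes hr (h1 r hr ((dvd_mul_right r s).trans (hg ▸ orderOf_dvd_natCard g)))
    have b := primes hs (h1 s hs ((dvd_mul_left s r).trans (hg ▸ orderOf_dvd_natCard g)))
    have : ∀ r ∈ [2, 3, 5, 7, 13], ∀ s ∈ [2, 3, 5, 7, 13], r ≠ s →
        r * s ∈ [6, 10, 14, 15] ∨ r * s ∈ [26, 21, 39, 35, 65, 91] := by decide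
    exact (this r a s b hrs).resolve_right fun h => h3 _ h ⟨g, hg⟩

open Class.Spec in
theorem graphSp {F : Type*} [Field F] [Fintype F] (hF : Fintype.card F = 3) :
    (∀ r : ℕ, r.Prime → (r ∣ Nat.card (PSp 3 F) ↔ r ∣ 2 * 3 * 5 * 7 * 13)) ∧ ∀ r s : ℕ, r.Prime →
      s.Prime → r ≠ s → ((∃ g : PSp 3 F, orderOf g = r * s) ↔ r * s ∈ [6, 10, 14, 15]) := by
  have : CharP F 3 := charP_of_card_eq_prime_pow (f := 1) hF
  have hG := models_PSp F (AlgebraicClosure F) 3 Nat.prime_three 3
  have hQ := isQ_card F (AlgebraicClosure F) Nat.prime_three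
  rw [hF] at hG hQ
  have ho : ∀ r k : ℕ, orderOf ((3 : ℕ) : ZMod r) = k → ∀ j, (r : ℤ) ∣ ((3 : ℕ) : ℤ) ^ j - 1 ↔ k ∣ j :=
    fun r k h j => h ▸ int_dvd_iff_orderOf (by norm_num) j
  have h5 := ho 5 4 ((orderOf_eq_iff (by norm_num)).2 (by decide))
  have h7 := ho 7 6 ((orderOf_eq_iff (by norm_num)).2 (by decide))
  have h13 := ho 13 3 ((orderOf_eq_iff (by norm_num)).2 (by decide))
  have p5 := Nat.prime_five
  have p7 : Nat.Prime 7 := by norm_num
  have p13 : Nat.Prime 13 := by norm_num
  refine graph (fun r hr h => ?_) ?_ ?_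
  · have := h.trans (Subgroup.card_quotient_dvd_card _)
    rw [Class.Sp.card_Sp, Nat.card_eq_fintype_card, hF] at this
    exact hr.dvd_of_dvd_pow (n := 10) (this.trans (by decide +kernel))
  · have h30 : ∀ n, n ∣ 30 → n ∈ Set.range (orderOf : PSp 3 F → ℕ) := fun n hn => by
      obtain ⟨J, a, b, c, d⟩ := hQ.exists_tor_sp (d := 2) (m := 5) two_pos (by norm_num) (by norm_num)
      have e : SpB ((3 : ℕ) : ℤ) (-1 : (AlgebraicClosure F)ˣ) 2 1 {(-1, 2)} := .pm (by simp) 1 rfl
      refine hG.mem_of_dvd (J := J + {(-1, 2)}) ⟨a.add (e.valid hQ two_pos), b.add (e.spC hQ)⟩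
        fun N ⟨z, hN⟩ => hn.trans ?_
      obtain ⟨h1, h2⟩ := KB_add.1 hN
      have h3 : 5 ∣ N := prime_dvd_of_dvd_mul p5 (by norm_num) ((c N).1 ⟨z, h1⟩)
      obtain ⟨α, k, hα⟩ := a.exists_mem (by norm_num)
      rw [KB_single, ← (h1 _ hα).1, ((d N).2 (by exact_mod_cast h3) _ hα).1,
        ← orderOf_dvd_iff_pow_eq_one, ← orderOf_units, Units.coe_neg_one, orderOf_neg_one, if_neg (by
          rw [ringChar.eq _ 3]; norm_num)] at h2
      have h4 : 3 ∣ N := by simpa [show Nat.clog 3 2 = 1 by decide] using h2.2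
      omega
    have h28 : ∀ m : ℕ, (m = 14 ∨ m = 13) → m ∈ Set.range (orderOf : PSp 3 F → ℕ) := fun m hm => by
      obtain ⟨J, a, b, c, -⟩ := hQ.exists_tor_sp (d := 3) (m := 2 * m) three_pos
        (by rcases hm with rfl | rfl <;> norm_num) (by rcases hm with rfl | rfl <;> norm_num)
      exact hG.mem_of_dvd ⟨a, b⟩ fun N hN => by
        exact_mod_cast (mul_dvd_mul_iff_left two_ne_zero).1 ((c N).1 hN)
    simp only [List.forall_mem_cons]
    exact ⟨h30 _ (by norm_num), h30 _ (by norm_num), h28 _ (Or.inl rfl), h30 _ (by norm_num),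
      h28 _ (Or.inr rfl), by simp⟩
  · simp only [List.forall_mem_cons]
    refine ⟨fun h => ?_, fun h => ?_, fun h => ?_, fun h => ?_, fun h => ?_, fun h => ?_, by simp⟩
    · obtain ⟨J, ⟨hJ, hs⟩, h1⟩ := (hG.mem_range_iff _).1 h
      obtain ⟨α, a, hx, h2⟩ := exists_eig (r := 13) (s := 2) h1 p13 two_ne_zero (by norm_num)
        hs.kills_scalar (by norm_num)
      obtain ⟨d, B, J', e1, e0, e2, rfl, e3, e4, -⟩ := hQ.exists_spB_prime hJ hs hx h2 (by norm_num)
      have ha := hJ.pos _ hx
      have hd : d ≤ 3 := (Nat.le_mul_of_pos_right d ha).trans e3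
      have e5 := e2.imp (h2 _) (h2 _)
      obtain rfl : d = 3 := by interval_cases d <;> first | rfl | norm_num at e5
      obtain rfl : a = 1 := by simp only at ha; omega
      rw [e4.eq_zero, add_zero] at h1
      have := (h1 13).1 ((e0.PK_iff hQ).2 ⟨by
        simpa using e2.resolve_right fun h => by simpa using h2 _ h, by simp⟩)
      norm_num at this
    · simpa using (hG.adj_char_sp hQ p7 (η := 3) (by norm_num) (by norm_num) three_pos h7
        (by decide)).1 h
    · simpa using (hG.adj_char_sp hQ p13 (η := 3) (by norm_num) (by norm_num) three_pos h13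
        (by decide)).1 h
    · have := (hG.adj_sp hQ p5 p7 (η := 2) (θ := 3) (by norm_num) (by norm_num) (by norm_num)
        (by norm_num) (by norm_num) two_pos h5 h7 (by decide) (by decide) (by norm_num) le_rfl).1 h
      omega
    · have := (hG.adj_sp hQ p5 p13 (η := 2) (θ := 3) (by norm_num) (by norm_num) (by norm_num)
        (by norm_num) (by norm_num) two_pos h5 h13 (by decide) (by decide) (by norm_num) le_rfl).1 h
      omega
    · have := (hG.adj_sp hQ p7 p13 (η := 3) (θ := 3) (by norm_num) (by norm_num) (by norm_num)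
        (by norm_num) (by norm_num) three_pos h7 h13 (by decide) (by decide) le_rfl le_rfl).1 h
      omega

/-- The prime graph of a finite group has the prime divisors of its order as vertices, two distinct primes p, q being joined when the group has an element of order pq; two groups have the same prime graph when they have the same prime divisors and the same joined pairs. Let F be the field with 3 elements and L = PSp(6,F). There are finite groups of arbitrarily large order with the same prime graph as L (a prime graph shared by the orthogonal groups Ω₇(3) and PΩ⁺₈(3)). -/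
theorem result {F : Type*} [Field F] [Fintype F] (hF : Fintype.card F = 3) (N : ℕ) :
    ∃ (H : Type) (_ : Group H) (_ : Finite H), N < Nat.card H ∧
      ((∀ p : ℕ, p.Prime → (p ∣ Nat.card (Cfsg.PSp 3 F) ↔ p ∣ Nat.card H)) ∧
      (∀ p q : ℕ, p.Prime → q.Prime → p ≠ q → ((∃ g : (Cfsg.PSp 3 F), orderOf g = p * q) ↔ (∃ g : H, orderOf g = p * q)))) := by
  obtain ⟨H, _, _, h1, h2, h3⟩ := exists_large_aff G0 M Nat.prime_two (fun m =>
    Matrix.ext fun i j => (two_nsmul (m i j)).trans (CharTwo.add_self_eq_zero _)) N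
  obtain ⟨k1, k2⟩ := graphSp hF
  have p2 := Nat.prime_two
  have p3 := Nat.prime_three
  have p5 := Nat.prime_five
  have p7 : Nat.Prime 7 := by norm_num
  have p13 : Nat.Prime 13 := by norm_num
  obtain ⟨k3, k4⟩ := graph (G := H) (fun r hr h => by
    rcases (h2 r hr).1 h with rfl | h
    · norm_num
    · exact hr.dvd_of_dvd_pow (n := 6) ((cardG ▸ h).trans (by norm_num))) (by
    simp only [List.forall_mem_cons]
    refine ⟨(h3 2 3 p2 p3 (by norm_num)).2 (Or.inl (exists_three ?_ o2 (by norm_num))),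
      (h3 2 5 p2 p5 (by norm_num)).2 (Or.inr (Or.inl ⟨rfl, inl (x 1),
        (orderOf_injective _ inl_injective _).trans o5, xm 0, by decide +kernel, ?_⟩)),
      (h3 2 7 p2 p7 (by norm_num)).2 (Or.inr (Or.inl ⟨rfl, inl (x 2),
        (orderOf_injective _ inl_injective _).trans o7,
        !![0, 0, c 6, c 2; 0, 0, c 5, c 3; c 3, c 5, 0, 0; c 2, c 6, 0, 0], by decide +kernel, ?_⟩)),
      (h3 5 3 p5 p3 (by norm_num)).2 (Or.inl (exists_three ?_ o5 (by norm_num))),
      haveI := Fact.mk p13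
      exists_prime_orderOf_dvd_card' 13 ((h2 13 p13).2 (Or.inr (by rw [cardG]; norm_num))), by simp⟩
    · rw [mat_x]; intro i j; fin_cases i <;> fin_cases j <;> decide +kernel
    · rw [inl_smul, mat_x]; decide +kernel
    · rw [inl_smul, mat_x]; decide +kernel
    · rw [mat_x]; intro i j; fin_cases i <;> fin_cases j <;> decide +kernel) (by
    simp only [List.forall_mem_cons]
    refine ⟨fun h => ?_, fun h => ?_, fun h => ?_, fun h => ?_, fun h => ?_, fun h => ?_, by simp⟩
    · rcases (h3 2 13 p2 p13 (by norm_num)).1 h with ⟨g, h⟩ | ⟨-, h⟩ | ⟨h, -⟩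
      exacts [by simpa using coprime_three g h (by norm_num), not_fix h, by norm_num at h]
    · simpa [not_three (Or.inl rfl)] using (h3 3 7 p3 p7 (by norm_num)).1 h
    · simpa [not_three (Or.inr rfl)] using (h3 3 13 p3 p13 (by norm_num)).1 h
    · rcases (h3 5 7 p5 p7 (by norm_num)).1 h with ⟨g, h⟩ | ⟨h, -⟩ | ⟨h, -⟩
      exacts [by simpa using coprime_three g h (by norm_num), by norm_num at h, by norm_num at h]
    · rcases (h3 5 13 p5 p13 (by norm_num)).1 h with ⟨g, h⟩ | ⟨h, -⟩ | ⟨h, -⟩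
      exacts [by simpa using coprime_three g h (by norm_num), by norm_num at h, by norm_num at h]
    · rcases (h3 7 13 p7 p13 (by norm_num)).1 h with ⟨g, h⟩ | ⟨h, -⟩ | ⟨h, -⟩
      exacts [by simpa using coprime_three g h (by norm_num), by norm_num at h, by norm_num at h])
  exact ⟨H, inferInstance, inferInstance, h1, fun r hr => (k1 r hr).trans (k3 r hr).symm,
    fun r s hr hs hrs => (k2 r s hr hs hrs).trans (k4 r s hr hs hrs).symm⟩

end Cfsg.Agent.S3664
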