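import Cfsg.Statements.S3663
import Mathlib
import Cfsg.Agent.S3664
import Cfsg.Agent.Chev.U34Mod
import Cfsg.Agent.Class.FieldTransport

set_option autoImplicit false
open Cfsg

namespace Cfsg.Agent.S3663

open Matrix Chev Chev.U34 Cfsg.Agent.Class

instance instFin : Finite (SU 3 K 4) := Nat.finite_of_card_ne_zero (by rw [cardG]; norm_num)

instance instNt : Nontrivial M := ⟨⟨⟨F0, F0_mem⟩, 0, fun e =>
  (by decide +kernel : F0 (L 0) (L 1) ≠ 0) (congrFun₂ (congrArg Subtype.val e) (L 0) (L 1))⟩⟩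

theorem orderOf_el {A : Matrix (Fin 3) (Fin 3) K} (h1 h2) {n : ℕ} (hn : 0 < n) (h : A ^ n = 1)
    (h' : ∀ m < n, 0 < m → A ^ m ≠ 1) : orderOf (el A h1 h2) = n :=
  (orderOf_eq_iff hn).2 ⟨Subtype.ext (Subtype.ext h), fun m a b e =>
    h' m a b (congrArg (fun g : SU 3 K 4 => g.1.1) e)⟩

theorem o13 : orderOf g13 = 13 :=
  orderOf_el _ _ (by norm_num) (by decide +kernel) (by decide +kernel)

/-- The orbit of a point. -/
def orb (x : Fin 3 → K) : ℕ := ∑ n ∈ Finset.range 65, if h x (L n) = 0 then n / 13 else 0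

theorem isoL : ∀ n < 65, Iso (L n) ∧ orb (L n) = n / 13 ∧ (n % 13 ≠ 12 → L (n + 1) = g13 • L n) := by
  decide +kernel

theorem eq_zero {F : M} (hF : ∀ x y, F.1 (g13 • x) (g13 • y) = F.1 x y) : F = 0 := by
  obtain ⟨F, h0, h1, h2, h3⟩ := F
  have r : ∀ x, Iso x → F x x = 0 := fun x hx => by simpa using h1 x x x hx hx hx
  have l0 := (isoL 0 (by norm_num)).1
  have d : ∀ x, Iso x → F (g13 • x) x = F (g13 • L 0) (L 0) := fun x hx => by
    have a := h1 _ _ _ ((iso_act g13).2 hx) ((iso_act g13).2 l0) hx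
    have b := h1 _ _ _ ((iso_act g13).2 l0) l0 hx
    have c := h1 _ _ _ hx l0 hx
    have e := hF x (L 0)
    have f := r x hx
    simp only at e
    linear_combination e + c + f - a - b
  have d1 : ∀ n : ℕ, F (g13 ^ n • L 0) (L 0) = n * F (g13 • L 0) (L 0) := fun n => by
    induction n with
    | zero => simp [r _ l0]
    | succ n ih =>
      rw [pow_succ', mul_smul, ← h1 _ _ _ ((iso_act _).2 ((iso_act _).2 l0)) ((iso_act _).2 l0) l0,
        ih, d _ ((iso_act _).2 l0)]
      push_cast; ring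
  have d2 : F (g13 • L 0) (L 0) = 0 := by
    have := d1 13
    rw [← o13, pow_orderOf_eq_one, one_smul, r _ l0, o13] at this
    exact (by decide : ∀ z : ZMod 5, 0 = ((13 : ℕ) : ZMod 5) * z → z = 0) _ this
  have a1 : ∀ n < 65, F (L n) (L 0) = F (L (13 * (n / 13))) (L 0) := fun n hn => by
    induction n with
    | zero => rfl
    | succ n ih =>
      by_cases e : n % 13 = 12
      · rw [show 13 * ((n + 1) / 13) = n + 1 by omega]
      · obtain ⟨i, -, j⟩ := isoL n (by omega)
        rw [j e, ← h1 _ _ _ ((iso_act _).2 i) i l0, d _ i, d2, zero_add, ih (by omega),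
          show (n + 1) / 13 = n / 13 by omega]
  have a2 : ∀ x, Iso x → F x (L 0) = F (L (13 * orb x)) (L 0) ∧ orb x < 5 := fun x hx => by
    obtain ⟨n, hn, s, hs, rfl⟩ := cover hx
    obtain ⟨i, j, -⟩ := isoL n hn
    rw [show orb (s • L n) = n / 13 by
      simp only [← j, orb, h_eq, U.herm_smul_left, mul_eq_zero, hs, false_or],
      ← h1 _ _ _ hx i l0, h2 _ _ i hs, zero_add]
    exact ⟨a1 n hn, by omega⟩
  have a3 : ∀ m < 13, ∀ s : Multiset ℕ, h (L 0) (L m) ≠ 0 → (Finset.univ.filter fun c : K =>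
      Iso (L 0 + c • L m)).val.map (fun c => orb (L 0 + c • L m)) = s →
      (s.map fun j => F (L (13 * j)) (L 0)).sum = 0 := fun m hm s e hs => by
    obtain ⟨i, j, -⟩ := isoL m (by omega)
    rw [← hs, Multiset.map_map, ← h3 _ _ l0 i e]
    refine (Finset.sum_filter _ _).trans (Finset.sum_congr rfl fun c _ => ?_)
    split_ifs with hc
    · have := (a2 _ i).1
      rw [j, show m / 13 = 0 by omega, mul_zero, r _ l0] at this
      rw [Function.comp, ← (a2 _ hc).1, ← h1 _ _ _ hc i l0, this, add_zero]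
    · exact (h0 _ _ fun h => hc h.1).symm
  have b1 := a3 1 (by norm_num) {0, 2, 3, 2} (by decide +kernel) (by decide +kernel)
  have b2 := a3 2 (by norm_num) {0, 1, 1, 2} (by decide +kernel) (by decide +kernel)
  have b3 := a3 3 (by norm_num) {0, 3, 4, 3} (by decide +kernel) (by decide +kernel)
  have b4 := a3 4 (by norm_num) {0, 4, 4, 2} (by decide +kernel) (by decide +kernel)
  simp only [Multiset.insert_eq_cons, Multiset.map_cons, Multiset.map_singleton, Multiset.sum_cons,
    Multiset.sum_singleton, mul_zero, r _ l0, zero_add] at b1 b2 b3 b4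
  obtain ⟨c1, c2, c3, c4⟩ := (by decide : ∀ a b c d : ZMod 5, b + (c + b) = 0 → a + (a + b) = 0 →
    c + (d + c) = 0 → d + (d + b) = 0 → a = 0 ∧ b = 0 ∧ c = 0 ∧ d = 0) _ _ _ _ b1 b2 b3 b4
  have a4 : ∀ x, Iso x → F x (L 0) = 0 := fun x hx => by
    obtain ⟨i, j⟩ := a2 x hx
    rw [i]
    generalize orb x = t at j
    interval_cases t
    exacts [r _ l0, c1, c2, c3, c4]
  refine Subtype.ext (funext₂ fun x y => ?_)
  by_cases e : Iso x ∧ Iso y
  · have := h1 _ _ _ e.1 e.2 l0
    rwa [a4 _ e.1, a4 _ e.2, add_zero] at this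
  · exact h0 _ _ e

theorem not_fix : ¬ FixOrd (SU 3 K 4) M 13 := by
  rintro ⟨y, hy, X, hX, h⟩
  obtain ⟨k, i, h0, hi, e⟩ := S3664.exists_conj (by norm_num) o13 hy (by rw [cardG]; norm_num)
  have h1 : g13 ^ i • k • X = k • X := by
    rw [← e, ← mul_smul, inv_mul_cancel_right, mul_smul, h]
  replace hX : k • X ≠ 0 := fun h => hX ((smul_eq_zero_iff_eq k).1 h)
  generalize k • X = Y at h1 hX
  obtain ⟨m, hm⟩ := exists_pow_eq_self_of_coprime (x := g13) (n := i)
    (o13 ▸ ((Nat.coprime_of_lt_prime h0.ne' hi (by norm_num))).symm)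
  have h2 : g13⁻¹ • Y = Y := by
    rw [← hm]
    exact MulAction.mem_stabilizer_iff.1 (inv_mem (pow_mem (MulAction.mem_stabilizer_iff.2 h1) m))
  refine hX (eq_zero fun x y => ?_)
  rw [← congrFun₂ (congrArg Subtype.val h2) x y, ← inv_inv g13]
  rfl

/-- The prime graph of a finite group has the prime divisors of its order as vertices, two distinct primes p, q being joined when the group has an element of order pq; two groups have the same prime graph when they have the same prime divisors and the same joined pairs. Let F be the field with 16 elements and L = PSU(3,4) realised over F. There are finite groups of arbitrarily large order with the same prime graph as L. -/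
theorem result {F : Type*} [Field F] [Fintype F] (hF : Fintype.card F = 16) (N : ℕ) :
    ∃ (H : Type) (_ : Group H) (_ : Finite H), N < Nat.card H ∧
      ((∀ p : ℕ, p.Prime → (p ∣ Nat.card (Cfsg.PSU 3 F 4) ↔ p ∣ Nat.card H)) ∧
      (∀ p q : ℕ, p.Prime → q.Prime → p ≠ q → ((∃ g : (Cfsg.PSU 3 F 4), orderOf g = p * q) ↔ (∃ g : H, orderOf g = p * q)))) := by
  have hZ : Subgroup.center (SU 3 K 4) = ⊥ := by
    rw [← Subgroup.card_eq_one, U.card_center (by norm_num)]; norm_num
  refine exists_large_same M (((QuotientGroup.quotientMulEquivOfEq hZ).trans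
    QuotientGroup.quotientBot).symm.trans (psuCongr 3 4 (FiniteField.ringEquivOfCardEq
      (by rw [hF]; rfl)))) Nat.prime_five (fun m => Subtype.ext (funext₂ fun x y =>
      (by decide : ∀ z : ZMod 5, 5 • z = 0) _)) (by rw [cardG]; norm_num) (fun s hs h5 hf => ?_) N
  have hd : s ∣ 2 * 3 * 5 * 13 := by
    obtain ⟨g, rfl, -⟩ := hf
    exact hs.dvd_of_dvd_pow (n := 6) ((cardG ▸ orderOf_dvd_natCard g).trans (by norm_num))
  simp only [hs.dvd_mul, Nat.prime_dvd_prime_iff_eq hs Nat.prime_two,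
    Nat.prime_dvd_prime_iff_eq hs Nat.prime_three, Nat.prime_dvd_prime_iff_eq hs Nat.prime_five,
    Nat.prime_dvd_prime_iff_eq hs (by norm_num : Nat.Prime 13)] at hd
  rcases hd with ((rfl | rfl) | rfl) | rfl
  · exact ⟨el !![k 14, k 8, k 4; k 4, k 5, k 10; k 15, k 4, k 4] (by decide +kernel)
      (by decide +kernel), orderOf_el _ _ (by norm_num) (by decide +kernel) (by decide +kernel)⟩
  · exact ⟨el !![k 1, k 5, k 4; k 14, k 5, k 12; k 9, k 1, k 6] (by decide +kernel)
      (by decide +kernel), orderOf_el _ _ (by norm_num) (by decide +kernel) (by decide +kernel)⟩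
  · exact absurd rfl h5
  · exact absurd hf not_fix

end Cfsg.Agent.S3663
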