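import Cfsg.Statements.S3670
import Mathlib
import Mathlib
import Cfsg.Agent.Small.U33Deg
import Cfsg.Agent.Small.U33Dec
import Cfsg.Agent.Class.FieldTransport
import Cfsg.Agent.Class.U.Simple
import Cfsg.Agent.Char.PermRank
import Cfsg.Agent.Char.PermChar
import Cfsg.Agent.Misc.SpecFun

set_option autoImplicit false
set_option linter.style.haveILetI false
set_option linter.unusedVariables false
open Cfsg

namespace Cfsg.Agent.S3670

open Cfsg.Agent.Class Cfsg.Agent.Class.U Cfsg.Agent.Char Cfsg.Agent.Small Cfsg.Agent.Block MulAction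

open Cfsg.Agent.U33
local notation "𝐡" => hermForm 3 GF9 3

theorem cardG : Nat.card G = 6048 := by
  have h := card_SU_mul (F := GF9) (q := 3) (n := 3) (by norm_num)
  rw [card_GU] at h
  have h' : 4 * Nat.card G = 24192 := h.trans (by decide)
  omega

theorem mem_Xs {v : V} : v ∈ Xs ↔ v ≠ 0 ∧ 𝐡 v v = 0 := by simp [Xs]

theorem smul_mem (g : G) : g • u0 ∈ Xs :=
  mem_Xs.2 ⟨(smul_ne_zero_iff_ne g).2 u0_ne, by rw [SU_herm, hu0]⟩

theorem exists_smul {v : V} (hv : v ∈ Xs) : ∃ g : G, g • u0 = v :=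
  exists_SU_smul_eq le_rfl u0_ne (mem_Xs.1 hv).1 hu0 (mem_Xs.1 hv).2

theorem sum_orbit (f : V → ℂ) : ∑ g : G, f (g • u0) = 27 * ∑ v ∈ Xs, f v := by
  classical
  have key : ∀ f : V → ℂ, ∑ g : G, f (g • u0) =
      (Finset.univ.filter fun g : G => g • u0 = u0).card * ∑ v ∈ Xs, f v := by
    intro f
    rw [← Finset.sum_fiberwise_of_maps_to (fun g _ => smul_mem g), Finset.mul_sum]
    refine Finset.sum_congr rfl fun v hv => ?_
    obtain ⟨k, rfl⟩ := exists_smul hv
    rw [Finset.sum_congr rfl (g := fun _ => f (k • u0)) fun g hg => by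
      rw [(Finset.mem_filter.1 hg).2], Finset.sum_const, nsmul_eq_mul]
    congr 2
    refine Finset.card_equiv (Equiv.mulLeft k⁻¹) fun g => ?_
    simp [mul_smul, inv_smul_eq_iff]
  have h1 := key fun _ => 1
  rw [Finset.sum_const, Finset.sum_const, Finset.card_univ, ← Nat.card_eq_fintype_card, cardG,
    d0] at h1
  rw [key f]
  congr 1
  simp only [nsmul_eq_mul] at h1
  push_cast at h1
  linear_combination (-1 / 224) * h1

def B : Subgroup G where
  carrier := {g | ∃ c : GF9, g • u0 = c • u0}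
  one_mem' := ⟨1, by simp⟩
  mul_mem' := by
    rintro a b ⟨c, hc⟩ ⟨d, hd⟩
    exact ⟨d * c, by rw [mul_smul, hd, SU_smul_comm, hc, smul_smul]⟩
  inv_mem' := by
    rintro a ⟨c, hc⟩
    have h0 : c ≠ 0 := by
      rintro rfl
      exact (mem_Xs.1 (smul_mem a)).1 (by rw [hc, zero_smul])
    refine ⟨c⁻¹, ?_⟩
    rw [inv_smul_eq_iff, SU_smul_comm, hc, smul_smul, inv_mul_cancel₀ h0, one_smul]

theorem mem_B {g : G} : g ∈ B ↔ g • u0 = (g • u0) 0 • u0 := by
  refine ⟨?_, fun h => ⟨_, h⟩⟩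
  rintro ⟨c, hc⟩
  rw [hc]
  simp [u0]

noncomputable instance fintB : Fintype B := Fintype.ofFinite _

def lam : B →* GF9 where
  toFun g := (g.1 • u0) 0
  map_one' := by simp [u0]
  map_mul' a b := by
    change ((a.1 * b.1) • u0) 0 = _
    rw [mul_smul, mem_B.1 b.2, SU_smul_comm]
    simp [u0, mul_comm]

theorem smul_lam (g : B) : g.1 • u0 = lam g • u0 := mem_B.1 g.2

theorem lam_eq {g : B} {c : GF9} (h : g.1 • u0 = c • u0) : lam g = c := by
  change (g.1 • u0) 0 = c
  rw [h]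
  simp [u0]

theorem cardB : Nat.card B = 216 := by
  classical
  have h := sum_orbit fun v => if v = v 0 • u0 then 1 else 0
  rw [Finset.sum_boole, Finset.sum_boole, d3] at h
  rw [Nat.card_eq_fintype_card, Fintype.card_of_subtype _ (fun g : G => (by
    simp [mem_B] : g ∈ Finset.univ.filter (fun g : G => g • u0 = (g • u0) 0 • u0) ↔ g ∈ B))]
  exact_mod_cast h

theorem indexB : B.index = 28 := by
  have := B.card_mul_index
  rw [cardB, cardG] at this
  omega

theorem herm_ne {x : G} (hx : x ∉ B) : 𝐡 u0 (x • u0) ≠ 0 := fun h =>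
  hx (mem_B.2 (d2 _ (mem_Xs.1 (smul_mem x)).2 h))

theorem lam_rel {x : G} (hx : x ∉ B) (y : B) (hy : x * y * x⁻¹ ∈ B) :
    lam y * lam ⟨_, hy⟩ ^ 3 = 1 := by
  have h0 := herm_ne (x := x⁻¹) fun h => hx (by simpa using B.inv_mem h)
  have h1 := smul_lam ⟨_, hy⟩
  have h2 : y.1 • x⁻¹ • u0 = lam ⟨_, hy⟩ • x⁻¹ • u0 := by
    rw [← SU_smul_comm, ← h1, ← mul_smul, ← mul_smul]
    change _ = (x⁻¹ * (x * y * x⁻¹)) • u0
    rw [← mul_assoc, ← mul_assoc, inv_mul_cancel, one_mul]
  have h3 := SU_herm y.1 u0 (x⁻¹ • u0)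
  rw [h2, smul_lam, herm_smul_left, herm_smul_right, conj_apply] at h3
  exact mul_right_cancel₀ h0 (by linear_combination h3)

theorem two_trans : IsMultiplyPretransitive G (G ⧸ B) 2 := by
  have key : ∀ x y : G, x ∉ B → y ∉ B → ∃ b ∈ B, y⁻¹ * b * x ∈ B := by
    intro x y hx hy
    have h1 := herm_ne hx
    have h2 := herm_ne hy
    obtain ⟨g, g1, g2⟩ := exists_SU_pair (n := 3) le_rfl (u' := (𝐡 u0 (x • u0) / 𝐡 u0 (y • u0)) • u0)
      (v' := y • u0) hu0 (mem_Xs.1 (smul_mem x)).2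
      (by rw [herm_smul_left, herm_smul_right, hu0]; simp) (mem_Xs.1 (smul_mem y)).2
      (by rw [herm_smul_left, div_mul_cancel₀ _ h2]) h1
    exact ⟨g, ⟨_, g1⟩, 1, by rw [mul_smul, mul_smul, g2]; simp⟩
  rw [is_two_pretransitive_iff]
  intro a b c d hab hcd
  obtain ⟨a, rfl⟩ := QuotientGroup.mk_surjective a
  obtain ⟨b, rfl⟩ := QuotientGroup.mk_surjective b
  obtain ⟨c, rfl⟩ := QuotientGroup.mk_surjective c
  obtain ⟨d, rfl⟩ := QuotientGroup.mk_surjective d
  obtain ⟨g, g1, g2⟩ := key (a⁻¹ * b) (c⁻¹ * d) (fun h => hab (QuotientGroup.eq.2 h))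
    (fun h => hcd (QuotientGroup.eq.2 h))
  refine ⟨c * g * a⁻¹, ?_, ?_⟩ <;> rw [MulAction.Quotient.smul_mk, smul_eq_mul, eq_comm,
    QuotientGroup.eq]
  · simpa [mul_assoc] using g1
  · simpa [mul_assoc] using g2

def eeH : GF9 →* ℂ where
  toFun c := ee c
  map_one' := by simp [ee]
  map_mul' a b := by simp [ee_mul]

noncomputable def eta : B →* ℂˣ := (eeH.comp lam).toHomUnits

theorem eta_apply (b : B) : (eta b : ℂ) = ee (lam b) := rfl

noncomputable def psi : G → ℂ := indFun B fun b => (eta b : ℂ)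

theorem psi_apply (g : G) : psi g = (∑ w ∈ Xs, ph w (g • w) : ℤ) / 8 := by
  have h1 : ∀ k : G, extendByZero B (fun b => (eta b : ℂ)) (k⁻¹ * g * k) =
      ph (k • u0) (g • k • u0) := by
    intro k
    have e : ∀ c : GF9, g • k • u0 = c • k • u0 ↔ (k⁻¹ * g * k) • u0 = c • u0 := fun c => by
      rw [mul_smul, mul_smul, inv_smul_eq_iff, SU_smul_comm]
    simp only [ph, e]
    by_cases hk : k⁻¹ * g * k ∈ B
    · rw [extendByZero_of_mem B _ hk, eta_apply, Finset.sum_eq_single (lam ⟨_, hk⟩),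
        if_pos (smul_lam ⟨_, hk⟩)]
      · intro c _ hc
        exact if_neg fun h => hc (lam_eq (g := ⟨_, hk⟩) h).symm
      · simp
    · rw [extendByZero_of_not_mem B _ hk, Finset.sum_eq_zero fun c _ => if_neg fun h => hk ⟨c, h⟩]
      simp
  rw [psi, indFun_apply, cardB]
  simp only [h1]
  rw [sum_orbit fun w => (ph w (g • w) : ℂ)]
  push_cast
  ring

theorem inner_one : classInner (indFun B fun _ => 1) (indFun B fun _ => 1) = 2 ∧
    IsIrrCharacter G (indFun B (fun _ => 1) - fun _ => 1) := by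
  have h : indFun B (fun _ => 1) = permChar G (G ⧸ B) :=
    funext fun g => (PermChar.indFun_one_eq_card_fixedBy B g)
  haveI : Nontrivial (G ⧸ B) := Finite.one_lt_card_iff_nontrivial.1 (by
    change 1 < B.index
    rw [indexB]; norm_num)
  rw [h, classInner_permChar_permChar, (card_orbits_prod_eq_two_iff _).2 two_trans]
  exact ⟨by norm_num, (isIrr_permChar_sub_one_iff _).2 two_trans⟩

theorem tv_smul (c : GF9) (v : V) : tv a0 (c • v) = tv (c ^ 4 * a0) v := by
  funext x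
  rw [tv, tv, herm_smul_right, smul_smul, conj_apply]
  congr 2
  ring

theorem deg_six : (∃ d ∈ charDegrees G, 6 ∣ d) ∧ ∃ d ∈ charDegrees G, 21 ∣ d := by
  haveI : IsSimpleGroup G := by
    have h : Subgroup.center G = ⊥ := by
      rw [← Subgroup.card_eq_one, card_center (by norm_num)]; simp
    haveI := isSimpleGroup_PSU (F := GF9) (q := 3) (n := 3) le_rfl (by norm_num)
    exact ((QuotientGroup.quotientMulEquivOfEq h).trans QuotientGroup.quotientBot).symm.isSimpleGroup
  obtain ⟨τ, hτ⟩ := exists_transvection (u := u0) (a := a0) hu0 (by rw [conj_apply]; decide +kernel)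
  have hτ' : ∀ x, τ • x = tv a0 u0 x := hτ.smul_zero_vec
  have hA : ∀ g : G, psi (g * τ * g⁻¹ * τ) = (P a0 (g • u0) : ℤ) / 8 := by
    intro g
    have : ∀ w, (g * τ * g⁻¹ * τ) • w = tv a0 (g • u0) (tv a0 u0 w) := fun w => by
      rw [mul_smul, mul_smul, mul_smul, hτ', hτ', tv, smul_add, smul_inv_smul, SU_smul_comm,
        ← SU_herm g, smul_inv_smul]
      rfl
    simp only [psi_apply, P, this]
  have hψ : IsCharacter G psi := isCharacter_indFun _ (isIrrCharacter_hom eta).isCharacter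
  have hB : ∀ v ∈ Xs, ∀ k : G, k • u0 = u0 → P a0 (k • v) = P a0 v := by
    intro v hv k hk
    obtain ⟨g, rfl⟩ := exists_smul hv
    have h1 : k * τ = τ * k := SU_ext fun x => by
      rw [mul_smul, mul_smul, hτ', hτ', tv, tv, smul_add, SU_smul_comm, hk, ← SU_herm k x, hk]
    have h2 := hA (k * g)
    rw [show k * g * τ * (k * g)⁻¹ * τ = k * (g * τ * g⁻¹ * τ) * k⁻¹ by
      rw [mul_assoc k (_ * τ), mul_assoc _ τ k⁻¹, show τ * k⁻¹ = k⁻¹ * τ by
        rw [eq_inv_mul_iff_mul_eq, ← mul_assoc, h1, mul_inv_cancel_right]]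
      group, hψ.isClassFunction, hA, mul_smul] at h2
    exact_mod_cast ((div_left_inj' (by norm_num)).1 h2).symm
  have hC : ∀ v ∈ Xs, P a0 v = if 𝐡 u0 v = 0 then (if v 0 ^ 4 = 1 then 8 else 224) else
      if 𝐡 u0 v ^ 4 = 1 then 8 else 0 := by
    intro v hv
    obtain ⟨hv0, hv⟩ := mem_Xs.1 hv
    have e : ∀ (c : GF9) (w : V), P a0 (c • w) = P (c ^ 4 * a0) w := fun c w => by
      simp only [P, tv_smul]
    have n1 : (-1 : GF9) ≠ 1 := by decide +kernel
    split_ifs with h h' h'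
    · rw [d2 v hv h, e, h', one_mul, d1.1]
    · have : v 0 ≠ 0 := fun h0 => hv0 (by rw [d2 v hv h, h0, zero_smul])
      rw [d2 v hv h, e, (d7 _ this).resolve_left h', neg_one_mul, d1.2.1]
    all_goals
      obtain ⟨c, hc, hc'⟩ := d6 _ h
      obtain ⟨k, k1, k2⟩ := exists_SU_pair (n := 3) le_rfl (u' := u0) (v' := c • v1) hu0 hv hu0
        (by rw [herm_smul_left, herm_smul_right, hv1]; simp) hc.symm h
      rw [← hB v (mem_Xs.2 ⟨hv0, hv⟩) k k1, k2, e, hc']
    · rw [h', neg_one_mul, d1.2.2.2]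
    · rw [(d7 _ h).resolve_left h', neg_neg, one_mul, d1.2.2.1]
  refine degrees_of_6048 cardG inner_one.2 ?_ hψ ?_ ?_ ?_ (τ := τ) ?_ ?_
  · rw [Pi.sub_apply, indFun_one, indexB]; norm_num
  · rw [← inner_one.1, psi, classInner_indFun_indFun_eq, classInner_indFun_indFun_eq]
    congr 1
    refine Finset.sum_congr rfl fun x _ => mackeySum_eq_of_forall eta x fun y hy => ?_
    by_cases hx : x ∈ B
    · have : (⟨_, hy⟩ : B) = ⟨x, hx⟩ * y * ⟨x, hx⟩⁻¹ := rfl
      rw [this, map_mul, map_mul, map_inv, mul_comm (eta _), mul_inv_cancel_right]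
    · exact Units.ext (by rw [eta_apply, eta_apply, ee_eq _ _ (lam_rel hx y hy)])
  · rw [psi, indFun_one, indexB]; simp
  · rw [psi, classInner_indFun_left _ _ (isClassFunction_const 1)]
    refine (isIrrCharacter_hom eta).inner_eq_zero isIrrCharacter_one fun h => ?_
    obtain ⟨g, hg⟩ := exists_smul (v := (⟨1, 1⟩ : GF9) • u0) (by decide +kernel)
    have hg' : g ∈ B := ⟨_, hg⟩
    have := congrFun h ⟨g, hg'⟩
    rw [eta_apply, lam_eq (g := ⟨g, hg'⟩) hg, show ee ⟨1, 1⟩ = -1 by decide +kernel] at this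
    norm_num at this
  · rw [psi_apply]
    simp only [hτ', d4]
    norm_num
  · simp only [hA]
    rw [sum_orbit fun v => ((P a0 v : ℤ) : ℂ) / 8, ← Finset.sum_div, ← Int.cast_sum,
      Finset.sum_congr rfl hC, d5]
    norm_num

theorem deg_28 : 28 ∈ charDegrees G := by
  obtain ⟨μ, hμ⟩ := CommGroup.exists_apply_ne_one_of_hasEnoughRootsOfUnity GF9ˣ ℂ
    (a := -1) (by decide +kernel)
  refine ⟨⟨_, isIrr_indFun_of_mackey (isIrrCharacter_hom (μ.comp lam.toHomUnits)) fun x hx => ?_⟩,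
    charDegree_eq_of_eq ?_⟩
  · have h0 := herm_ne (x := x⁻¹) fun h => hx (by simpa using B.inv_mem h)
    have h1 := (mem_Xs.1 (smul_mem x⁻¹)).2
    obtain ⟨y, y1, y2⟩ := exists_SU_pair (n := 3) le_rfl (u' := (⟨1, 1⟩ : GF9) • u0)
      (v' := (⟨2, 2⟩ : GF9) • x⁻¹ • u0) hu0 h1 (by decide +kernel)
      (by rw [herm_smul_left, herm_smul_right, h1]; simp)
      (by rw [herm_smul_left, herm_smul_right, ← mul_assoc, conj_apply,
        show (⟨1, 1⟩ : GF9) * ⟨2, 2⟩ ^ 3 = 1 by decide +kernel, one_mul]) h0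
    have y3 : (x * y * x⁻¹) • u0 = (⟨2, 2⟩ : GF9) • u0 := by
      rw [mul_smul, mul_smul, y2, SU_smul_comm, smul_inv_smul]
    have hy : y ∈ B := ⟨_, y1⟩
    have hy' : x * y * x⁻¹ ∈ B := ⟨_, y3⟩
    refine mackeySum_eq_zero_of_ne _ x ⟨y, hy⟩ hy' fun h => hμ ?_
    have e : lam.toHomUnits ⟨_, hy'⟩ = -1 * lam.toHomUnits ⟨y, hy⟩ := Units.ext (by
      rw [Units.val_mul, MonoidHom.coe_toHomUnits, MonoidHom.coe_toHomUnits,
        lam_eq (g := ⟨_, hy'⟩) y3, lam_eq (g := ⟨_, hy⟩) y1]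
      decide +kernel)
    rw [MonoidHom.comp_apply, MonoidHom.comp_apply, e, map_mul] at h
    simpa using h
  · change indFun B _ 1 = _
    rw [indFun_one, indexB]; simp

abbrev F8 := GaloisField 2 3
abbrev K := F8ˣ × (ZMod 9)ˣ
abbrev W := F8 × ZMod 9 × ZMod 2

noncomputable instance actKW : DistribMulAction K W where
  smul k w := ((k.1 : F8) * w.1, (k.2 : ZMod 9) * w.2.1, w.2.2)
  one_smul w := Prod.ext (one_mul _) (Prod.ext (one_mul _) rfl)
  mul_smul a b w := Prod.ext (mul_assoc _ _ _) (Prod.ext (mul_assoc _ _ _) rfl)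
  smul_zero k := Prod.ext (mul_zero _) (Prod.ext (mul_zero _) rfl)
  smul_add k v w := Prod.ext (mul_add _ _ _) (Prod.ext (mul_add _ _ _) rfl)

theorem cardF8 : Nat.card F8 = 8 := GaloisField.card 2 3 (by norm_num)

theorem cardK : Nat.card K = 42 := by
  rw [Nat.card_prod, Nat.card_units, cardF8, Nat.card_eq_fintype_card, ZMod.card_units_eq_totient]
  decide

theorem deg_42 : 42 ∈ charDegrees (Misc.Spec.Aff K W) := by
  haveI := Fintype.ofFinite F8
  have h1 := AddChar.FiniteField.primitiveChar_to_Complex_isPrimitive F8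
  have h2 := ZMod.isPrimitive_stdAddChar 9
  set ψ := AddChar.FiniteField.primitiveChar_to_Complex F8
  let l : Multiplicative W →* ℂ := 
    { toFun w := ψ w.toAdd.1 * ZMod.stdAddChar w.toAdd.2.1
      map_one' := by simp
      map_mul' a b := by
        simp only [toAdd_mul, Prod.fst_add, Prod.snd_add, AddChar.map_add_eq_mul]
        ring }
  rw [← cardK]
  refine card_mem_charDegrees_semidirect _ l.toHomUnits fun k hk => ?_
  by_contra! h
  have h' : ∀ w : W, ψ (k.1 * w.1) * ZMod.stdAddChar ((k.2 : ZMod 9) * w.2.1) =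
      ψ w.1 * ZMod.stdAddChar w.2.1 := fun w => congrArg Units.val (h (Multiplicative.ofAdd w))
  apply hk
  refine Prod.ext (Units.ext ?_) (Units.ext ?_)
  · by_contra h3
    refine h1 (sub_ne_zero.2 h3) (AddChar.ext _ _ fun x => ?_)
    have := h' (x, 0, 0)
    simp only [mul_zero, AddChar.map_zero_eq_one, mul_one] at this
    rw [AddChar.mulShift_apply, sub_mul, AddChar.map_sub_eq_div, this]
    simpa using (AddChar.val_isUnit _ x).ne_zero
  · by_contra h3
    refine h2 (sub_ne_zero.2 h3) (AddChar.ext _ _ fun x => ?_)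
    have := h' (0, x, 0)
    simp only [mul_zero, AddChar.map_zero_eq_one, one_mul] at this
    rw [AddChar.mulShift_apply, sub_mul, AddChar.map_sub_eq_div, this]
    simpa using (AddChar.val_isUnit _ x).ne_zero

theorem graph_eq {H : Type*} [Group H] [Finite H] (hH : Nat.card H = 6048)
    (h1 : ∃ d ∈ charDegrees H, 6 ∣ d) (h2 : ∃ d ∈ charDegrees H, 21 ∣ d)
    (h3 : ∃ d ∈ charDegrees H, 14 ∣ d) : degreePrimes H = {2, 3, 7} ∧
      ∀ p q, (degreeGraph H).Adj p q ↔
        p ≠ q ∧ p ∈ ({2, 3, 7} : Set ℕ) ∧ q ∈ ({2, 3, 7} : Set ℕ) := by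
  have key : ∀ p : ℕ, p.Prime → ∀ d ∈ charDegrees H, p ∣ d → p ∈ ({2, 3, 7} : Set ℕ) := by
    rintro p hp _ ⟨χ, rfl⟩ h
    have h4 : p ∣ 2 ^ 5 * (3 ^ 3 * 7) := (h.trans (Block.charDegree_dvd_card χ.2)).trans hH.dvd
    rcases hp.dvd_mul.1 h4 with h | h
    · simp [(Nat.prime_dvd_prime_iff_eq hp Nat.prime_two).1 (hp.dvd_of_dvd_pow h)]
    rcases hp.dvd_mul.1 h with h | h
    · simp [(Nat.prime_dvd_prime_iff_eq hp Nat.prime_three).1 (hp.dvd_of_dvd_pow h)]
    · simp [(Nat.prime_dvd_prime_iff_eq hp (by norm_num)).1 h]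
  obtain ⟨a, ha, ha'⟩ := h1
  obtain ⟨b, hb, hb'⟩ := h2
  obtain ⟨c, hc, hc'⟩ := h3
  refine ⟨Set.ext fun p => ⟨fun ⟨hp, d, hd, h⟩ => key p hp d hd h, ?_⟩, fun p q =>
    ⟨fun ⟨h, hp, hq, d, hd, h'⟩ => ⟨h, key p hp d hd ((dvd_mul_right _ _).trans h'),
      key q hq d hd ((dvd_mul_left _ _).trans h')⟩, ?_⟩⟩
  · rintro (rfl | rfl | rfl)
    exacts [⟨by norm_num, a, ha, by omega⟩, ⟨by norm_num, a, ha, by omega⟩,
      ⟨by norm_num, b, hb, by omega⟩]
  · rintro ⟨h, rfl | rfl | rfl, rfl | rfl | rfl⟩ <;> first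
      | exact (h rfl).elim
      | exact ⟨h, by norm_num, by norm_num, a, ha, ha'⟩
      | exact ⟨h, by norm_num, by norm_num, b, hb, hb'⟩
      | exact ⟨h, by norm_num, by norm_num, c, hc, hc'⟩

/-- The character degree graph of a finite group has as vertices the primes dividing some irreducible complex character degree, two distinct primes being joined when their product divides some irreducible character degree; two groups have the same character degree graph when they have the same vertices and the same joined pairs. Let F be the field with 9 elements and L = PSU(3,3) realised over F (order 6048). There is a finite solvable group of order 6048 with the same character degree graph as L; so L is not determined by its order together with its character degree graph. -/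
theorem result {F : Type*} [Field F] [Fintype F] (hF : Fintype.card F = 9) :
    ∃ (H : Type) (_ : Group H) (_ : Fintype H), Group.IsSolvable H ∧ Nat.card H = 6048 ∧ Cfsg.degreePrimes H = Cfsg.degreePrimes (Cfsg.PSU 3 F 3) ∧ Cfsg.degreeGraph H = Cfsg.degreeGraph (Cfsg.PSU 3 F 3) := by
  haveI : Finite (Misc.Spec.Aff K W) := Misc.Spec.aff_finite
  have hc : Nat.card (Misc.Spec.Aff K W) = 6048 := by
    rw [Nat.card_congr SemidirectProduct.equivProd, Nat.card_prod, cardK]
    change Nat.card W * _ = _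
    rw [Nat.card_prod, Nat.card_prod, cardF8, Nat.card_zmod, Nat.card_zmod]
  have h : Subgroup.center G = ⊥ := by
    rw [← Subgroup.card_eq_one, card_center (by norm_num)]; simp
  have e : PSU 3 F 3 ≃* G := (Class.psuCongr 3 3 (Class.ringEquivGF9 hF)).trans
    ((QuotientGroup.quotientMulEquivOfEq h).trans QuotientGroup.quotientBot)
  haveI : Finite (PSU 3 F 3) := Finite.of_equiv _ e.symm.toEquiv
  have he : charDegrees (PSU 3 F 3) = charDegrees G := by
    ext d
    exact ⟨fun ⟨χ, h⟩ => ⟨⟨_, χ.2.comp_mulEquiv e.symm⟩, by simp [← h, charDegree]⟩,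
      fun ⟨χ, h⟩ => ⟨⟨_, χ.2.comp_mulEquiv e⟩, by simp [← h, charDegree]⟩⟩
  obtain ⟨h1, h2⟩ := graph_eq hc ⟨_, deg_42, by norm_num⟩ ⟨_, deg_42, by norm_num⟩
    ⟨_, deg_42, by norm_num⟩
  obtain ⟨h3, h4⟩ := graph_eq ((Nat.card_congr e.toEquiv).trans cardG) (he ▸ deg_six.1)
    (he ▸ deg_six.2) ⟨_, he ▸ deg_28, by norm_num⟩
  refine ⟨_, inferInstance, Fintype.ofFinite _, Misc.Spec.aff_isSolvable, hc, h1.trans h3.symm, ?_⟩
  ext p q
  rw [h2, h4]

end Cfsg.Agent.S3670
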