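import Cfsg.Statements.S3678
import Mathlib
import Cfsg.Agent.Misc.SpecAffL2

set_option autoImplicit false
open Cfsg

namespace Cfsg.Agent.S3678

theorem aux (a b c : ℕ) (n : ℕ) (h : n ∣ a ∨ n ∣ b ∨ n ∣ c) (ha : 0 < a) (hb : 0 < b) (hc : 0 < c) :
    n ≤ max a (max b c) := by
  rcases h with h | h | h
  · have := Nat.le_of_dvd ha h; omega
  · have := Nat.le_of_dvd hb h; omega
  · have := Nat.le_of_dvd hc h; omega

/-- The prime graph of a finite group has the prime divisors of its order as vertices, two distinct primes p, q being joined when the group has an element of order pq; two groups have the same prime graph when they have the same prime divisors and the same joined pairs. Let F be the field with 7 elements. There are finite groups of arbitrarily large order with the same prime graph as PSL(2,F) (the graph on {2, 3, 7} with no edges, which is also the prime graph of PSL(2,8)). -/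
theorem result {F : Type*} [Field F] [Fintype F] (hF : Fintype.card F = 7) (N : ℕ) :
    ∃ (H : Type) (_ : Group H) (_ : Finite H), N < Nat.card H ∧
      ((∀ p : ℕ, p.Prime → (p ∣ Nat.card (Matrix.ProjectiveSpecialLinearGroup (Fin 2) F) ↔ p ∣ Nat.card H)) ∧
      (∀ p q : ℕ, p.Prime → q.Prime → p ≠ q → ((∃ g : (Matrix.ProjectiveSpecialLinearGroup (Fin 2) F), orderOf g = p * q) ↔ (∃ g : H, orderOf g = p * q)))) := by
  haveI : Fact (Nat.Prime 2) := ⟨Nat.prime_two⟩
  haveI : Fact (Nat.Prime 7) := ⟨by norm_num⟩
  obtain ⟨H, i1, i2, h1, h2⟩ := Misc.Spec.exists_large_aff_SL2 (F := GaloisField 2 3) N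
  haveI : CharP F 7 := by
    obtain ⟨p, hp⟩ := CharP.exists F
    obtain ⟨n, hp', hn⟩ := FiniteField.card F p
    have : p ∣ 7 := by rw [← hF, hn]; exact dvd_pow_self _ n.ne_zero
    rwa [(Nat.prime_dvd_prime_iff_eq hp' (by norm_num)).1 this] at hp
  have h3 := fun n => Misc.Spec.mem_range_orderOf_PSL2 (F := F) 7 n
  rw [GaloisField.card 2 3 (by norm_num)] at h2
  rw [Nat.card_eq_fintype_card, hF] at h3
  simp only [Set.mem_range] at h2 h3
  norm_num at h2 h3
  refine ⟨H, i1, inferInstance, by rwa [Nat.card_eq_fintype_card], fun p hp => ?_,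
    fun p q hp hq hpq => ?_⟩
  · rw [Misc.Spec.prime_dvd_card_iff hp, Misc.Spec.prime_dvd_card_iff hp, h2, h3]
    have : p ∣ 3 ↔ p ∣ 9 := ⟨fun h => h.trans (by norm_num), fun h =>
      hp.dvd_of_dvd_pow (show p ∣ 3 ^ 2 from h)⟩
    rw [this]; tauto
  · rw [h2, h3]
    have := hp.two_le
    have := hq.two_le
    constructor <;> intro h <;> exfalso <;>
      have h' := aux _ _ _ _ h (by norm_num) (by norm_num) (by norm_num) <;>
      norm_num at h' <;>
      have hp4 : p ≤ 4 := by nlinarith
    all_goals
      have hq4 : q ≤ 4 := by nlinarith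
      interval_cases p <;> interval_cases q <;> simp_all (config := {decide := true})

end Cfsg.Agent.S3678
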