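import Cfsg.Statements.S3682
import Mathlib
import Cfsg.Agent.PLocal.ThompsonWielandt2

set_option autoImplicit false
open Cfsg

namespace Cfsg.Agent.S3682

open Subgroup PLocal PLocal.Amb PLocal.TW

/-- Wielandt's bound toward the Sims conjecture. Let a finite group G act faithfully and primitively on a set Ω, let a and b be points, and suppose the orbit of b under the stabilizer of a has length d ≥ 2. Then there are a prime p and a normal p-subgroup P of the stabilizer of a, all of whose elements fix b, such that the index of P in the stabilizer of a divides d! · ((d - 1)!)^d. -/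
theorem result {G Ω : Type*} [Group G] [Finite G] [MulAction G Ω] [FaithfulSMul G Ω] [Finite Ω]
    (hprim : MulAction.IsPreprimitive G Ω) (a b : Ω) (d : ℕ) (hd : Nat.card (MulAction.orbit (MulAction.stabilizer G a) b) = d) (h2 : 2 ≤ d) :
    ∃ p : ℕ, p.Prime ∧ ∃ P : Subgroup (MulAction.stabilizer G a), P.Normal ∧ IsPGroup p P ∧ (∀ g : P, ((g : MulAction.stabilizer G a) : G) • b = b) ∧
      P.index ∣ Nat.factorial d * (Nat.factorial (d - 1)) ^ d := by
  obtain ⟨hne, ⟨g, hg⟩, hP, h1, h2⟩ := stabilizer_pair hprim a b hd h2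
  rcases core2_dichotomy hne hg hP h1 h2 with h | ⟨-, -, p, hp, pA, -⟩
  · refine ⟨2, Nat.prime_two, ⊥, inferInstance, IsPGroup.of_bot, fun x => ?_, by rwa [index_bot]⟩
    rw [mem_bot.1 x.2]; simp
  · refine ⟨p, hp, (core2 _ (MulAction.stabilizer G b)).subgroupOf _,
      normal_subgroupOf' (le_normalizer_coreIn _ _), isPGroup_subgroupOf pA _, fun x => ?_,
      relIndex_core2_dvd h1 h2⟩
    exact (snIn_core2 _ _).le x.2

end Cfsg.Agent.S3682
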