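import Cfsg.Statements.S3683
import Mathlib
import Cfsg.Agent.Perm.PrimUtil

set_option autoImplicit false
open Cfsg

namespace Cfsg.Agent.S3683

/-- Let a finite group G act faithfully and primitively on a set Ω, and suppose the stabilizer of a point a fixes a second point b ≠ a (a suborbit of length 1 other than {a}). Then the stabilizer of a is trivial and G is cyclic of prime order. -/
theorem result {G Ω : Type*} [Group G] [Finite G] [MulAction G Ω] [FaithfulSMul G Ω] [Finite Ω]
    (hprim : MulAction.IsPreprimitive G Ω) (a b : Ω) (hab : a ≠ b) (hfix : ∀ g : G, g • a = a → g • b = b) :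
    MulAction.stabilizer G a = ⊥ ∧ IsCyclic G ∧ (Nat.card G).Prime := by
  have hb : MulAction.stabilizer G a = ⊥ := by
    by_contra h
    exact hab (Perm.PrimUtil.eq_of_stabilizer_le hprim h (fun g hg => hfix g hg))
  have hco := Perm.PrimUtil.isCoatom_stabilizer hprim hab.symm a
  rw [hb] at hco
  have hall : ∀ H : Subgroup G, H = ⊥ ∨ H = ⊤ := fun H => by
    by_cases h : H = ⊥
    · exact Or.inl h
    · exact Or.inr (hco.2 H (bot_lt_iff_ne_bot.2 h))
  haveI : Nontrivial G := by
    rw [← Subgroup.nontrivial_iff]; exact ⟨⊥, ⊤, hco.1⟩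
  have h1 : Nat.card G ≠ 1 := Finite.one_lt_card.ne'
  obtain ⟨p, hp, hd⟩ := Nat.exists_prime_and_dvd h1
  haveI := Fact.mk hp
  obtain ⟨g, hg⟩ := exists_prime_orderOf_dvd_card' p hd
  have : Subgroup.zpowers g = ⊤ := by
    rcases hall (Subgroup.zpowers g) with h | h
    · rw [Subgroup.zpowers_eq_bot] at h
      rw [h, orderOf_one] at hg
      exact absurd hg.symm hp.ne_one
    · exact h
  have hc : Nat.card G = p := by rw [← hg, ← Nat.card_zpowers, this, Subgroup.card_top]
  exact ⟨hb, isCyclic_of_prime_card hc, hc ▸ hp⟩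

end Cfsg.Agent.S3683
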