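import Cfsg.Statements.S3684
import Mathlib
import Cfsg.Agent.Perm.PrimUtil
import Cfsg.Agent.Perm.Derangement
import Cfsg.Agent.Inv.Dihedral

set_option autoImplicit false
open Cfsg

namespace Cfsg.Agent.S3684

/-- Let a finite group G act faithfully and primitively on a set Ω, and suppose the stabilizer of a point a has an orbit of length 2. Then the stabilizer of a has order 2 and G is isomorphic to the dihedral group of order 2p for some prime p. -/
theorem result {G Ω : Type*} [Group G] [Finite G] [MulAction G Ω] [FaithfulSMul G Ω] [Finite Ω]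
    (hprim : MulAction.IsPreprimitive G Ω) (a b : Ω) (h2 : Nat.card (MulAction.orbit (MulAction.stabilizer G a) b) = 2) :
    Nat.card (MulAction.stabilizer G a) = 2 ∧ ∃ p : ℕ, p.Prime ∧ Nonempty (G ≃* DihedralGroup p) := by
  haveI := hprim.toIsPretransitive
  have hi : (MulAction.stabilizer G b).relIndex (MulAction.stabilizer G a) = 2 := by
    rw [← Perm.Der.ncard_orbit_subgroup]; exact h2
  have hab : a ≠ b := by
    rintro rfl
    rw [Subgroup.relIndex_self] at hi; omega
  have hne : MulAction.stabilizer G a ≠ ⊥ := by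
    intro h; rw [h, Subgroup.relIndex_bot_right] at hi; omega
  have hc := Perm.PrimUtil.card_stabilizer_eq (G := G) a b
  set A := MulAction.stabilizer G a
  set B := MulAction.stabilizer G b
  have e1 : Nat.card (A ⊓ B : Subgroup G) * B.relIndex A = Nat.card A := by
    rw [← Subgroup.inf_relIndex_left, Subgroup.relIndex,
      ← Nat.card_congr (Subgroup.subgroupOfEquivOfLe (inf_le_left : A ⊓ B ≤ A)).toEquiv,
      Subgroup.card_mul_index]
  have e2 : Nat.card (A ⊓ B : Subgroup G) * A.relIndex B = Nat.card B := by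
    rw [← Subgroup.inf_relIndex_right, Subgroup.relIndex,
      ← Nat.card_congr (Subgroup.subgroupOfEquivOfLe (inf_le_right : A ⊓ B ≤ B)).toEquiv,
      Subgroup.card_mul_index]
  have hpos : 0 < Nat.card (A ⊓ B : Subgroup G) := Nat.card_pos
  have hi' : A.relIndex B = 2 := by
    rw [hi] at e1
    exact Nat.eq_of_mul_eq_mul_left hpos (by rw [e2, e1, hc])
  have hsup : A ⊔ B = ⊤ := Perm.PrimUtil.stabilizer_sup_stabilizer hprim hne hab
  have hnorm : (A ⊓ B).Normal := by
    rw [← Subgroup.normalizer_eq_top_iff, eq_top_iff, ← hsup]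
    apply sup_le
    · apply Subgroup.le_normalizer_of_normal_subgroupOf (hK := ?_) inf_le_left
      apply Subgroup.normal_of_index_eq_two
      rw [← Subgroup.relIndex, Subgroup.inf_relIndex_left, hi]
    · apply Subgroup.le_normalizer_of_normal_subgroupOf (hK := ?_) inf_le_right
      apply Subgroup.normal_of_index_eq_two
      rw [← Subgroup.relIndex, Subgroup.inf_relIndex_right, hi']
  have hbot : A ⊓ B = ⊥ :=
    Perm.PrimUtil.eq_bot_of_normal_of_le_stabilizer (Ω := Ω) _ hnorm (α := a) inf_le_left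
  rw [hbot, Subgroup.card_bot, hi] at e1
  have hA : Nat.card A = 2 := by omega
  have hB : Nat.card B = 2 := by omega
  refine ⟨hA, ?_⟩
  haveI : Fact (Nat.Prime 2) := ⟨Nat.prime_two⟩
  have gen : ∀ C : Subgroup G, Nat.card C = 2 → ∃ s : G, orderOf s = 2 ∧ Subgroup.zpowers s = C := by
    intro C hC
    obtain ⟨s, hs⟩ := exists_prime_orderOf_dvd_card' (G := C) 2 (by rw [hC])
    refine ⟨s, by simpa using hs, Subgroup.eq_of_le_of_card_ge (by simp) ?_⟩
    rw [Nat.card_zpowers, hC, Subgroup.orderOf_coe, hs]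
  obtain ⟨s, hs, hsA⟩ := gen A hA
  obtain ⟨t, ht, htB⟩ := gen B hB
  have hst : s ≠ t := by
    rintro rfl
    rw [← hsA, ← htB, inf_idem, hsA] at hbot
    exact hne hbot
  have hs2 : s * s = 1 := by rw [← pow_two, ← hs, pow_orderOf_eq_one]
  have ht2 : t * t = 1 := by rw [← pow_two, ← ht, pow_orderOf_eq_one]
  have hinv : s * (s * t) * s⁻¹ = (s * t)⁻¹ := by
    rw [← mul_assoc, hs2, one_mul, mul_inv_rev, inv_eq_of_mul_eq_one_right ht2]
  have hnot := Inv.Dihedral.not_mem_zpowers_mul hs ht hst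
  have htop : Subgroup.closure ({s * t, s} : Set G) = ⊤ := by
    rw [← Inv.Dihedral.closure_pair_eq, eq_top_iff, ← hsup, ← hsA, ← htB]
    apply sup_le <;> rw [Subgroup.zpowers_le] <;> apply Subgroup.subset_closure <;> simp
  have hn0 : orderOf (s * t) ≠ 0 := (orderOf_pos _).ne'
  obtain ⟨e⟩ := Inv.Dihedral.nonempty_closure_equiv_dihedral hn0 rfl hs2 hinv hnot
  rw [htop] at e
  refine ⟨orderOf (s * t), ?_, ⟨Subgroup.topEquiv.symm.trans e⟩⟩
  have hn1 : orderOf (s * t) ≠ 1 := by
    rw [Ne, orderOf_eq_one_iff]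
    intro h
    apply hst
    rw [eq_inv_of_mul_eq_one_left h, inv_eq_of_mul_eq_one_right ht2]
  obtain ⟨p, hp, k, hk⟩ := Nat.exists_prime_and_dvd hn1
  have hk0 : k ≠ 0 := by rintro rfl; exact hn0 (by rw [hk, mul_zero])
  have hy : orderOf ((s * t) ^ k) = p := by
    rw [orderOf_pow_of_dvd hk0 ⟨p, by rw [hk, mul_comm]⟩, hk, Nat.mul_div_cancel _ (Nat.pos_of_ne_zero hk0)]
  have hinv' : s * (s * t) ^ k * s⁻¹ = ((s * t) ^ k)⁻¹ := by
    rw [← conj_pow, hinv, inv_pow]
  have hnot' : s ∉ Subgroup.zpowers ((s * t) ^ k) := fun h =>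
    hnot (Subgroup.zpowers_le.2 (Subgroup.pow_mem _ (Subgroup.mem_zpowers _) k) h)
  obtain ⟨e'⟩ := Inv.Dihedral.nonempty_closure_equiv_dihedral hp.ne_zero hy hs2 hinv' hnot'
  have c1 := Nat.card_congr e'.toEquiv
  have c2 := Nat.card_congr e.toEquiv
  rw [DihedralGroup.nat_card] at c1 c2
  rcases Perm.PrimUtil.eq_or_eq_top_of_stabilizer_le hprim (α := a)
    (H := Subgroup.closure ({(s * t) ^ k, s} : Set G)) (by
      show A ≤ _
      rw [← hsA, Subgroup.zpowers_le]; apply Subgroup.subset_closure; simp) with h | h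
  · rw [h] at c1
    have : Nat.card A = 2 * p := c1
    have := hp.two_le
    omega
  · rw [h, c2] at c1
    have : orderOf (s * t) = p := by omega
    exact this ▸ hp

end Cfsg.Agent.S3684
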