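import Cfsg.Statements.S3687
import Cfsg.Agent.Perm.AltSub

set_option autoImplicit false
open Cfsg

namespace Cfsg.Agent.S3687

open Subgroup Equiv Equiv.Perm PLocal PLocal.Amb PLocal.TW AltSub


/-- Let a finite group G act faithfully and primitively on a set Ω, let a and b be points such that the orbit Δ of b under the stabilizer H of a has d ≥ 6 elements, and suppose that the permutation group induced by H on Δ contains the alternating group of Δ (the image of H in the symmetric group of Δ has index at most 2) while H does not act faithfully on Δ. Then either H induces exactly the alternating group of Δ and H is isomorphic to the direct product of the alternating groups of degrees d and d - 1; or H induces the full symmetric group of Δ and H is isomorphic to one of: the direct product of the symmetric groups of degrees d and d - 1, the direct product of the symmetric group of degree d with the alternating group of degree d - 1, or the subgroup of the direct product of the symmetric groups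 of degrees d and d - 1 consisting of the pairs of permutations with equal signs. -/
theorem result {G Ω : Type*} [Group G] [Finite G] [MulAction G Ω] [FaithfulSMul G Ω] [Finite Ω]
    (hprim : MulAction.IsPreprimitive G Ω) (a b : Ω) (d : ℕ) (hd : Nat.card (MulAction.orbit (MulAction.stabilizer G a) b) = d) (h6 : 6 ≤ d)
    (halt : (MulAction.toPermHom (MulAction.stabilizer G a) (MulAction.orbit (MulAction.stabilizer G a) b)).range.index ≤ 2)
    (hunf : ¬ Function.Injective (MulAction.toPermHom (MulAction.stabilizer G a) (MulAction.orbit (MulAction.stabilizer G a) b))) :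
    ((MulAction.toPermHom (MulAction.stabilizer G a) (MulAction.orbit (MulAction.stabilizer G a) b)).range.index = 2 ∧
      Nonempty (MulAction.stabilizer G a ≃* alternatingGroup (Fin d) × alternatingGroup (Fin (d - 1)))) ∨
    ((MulAction.toPermHom (MulAction.stabilizer G a) (MulAction.orbit (MulAction.stabilizer G a) b)).range = ⊤ ∧
      (Nonempty (MulAction.stabilizer G a ≃* Equiv.Perm (Fin d) × Equiv.Perm (Fin (d - 1))) ∨
       Nonempty (MulAction.stabilizer G a ≃* Equiv.Perm (Fin d) × alternatingGroup (Fin (d - 1))) ∨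
       Nonempty (MulAction.stabilizer G a ≃* ((Equiv.Perm.sign.comp (MonoidHom.fst (Equiv.Perm (Fin d)) (Equiv.Perm (Fin (d - 1))))) *
         (Equiv.Perm.sign.comp (MonoidHom.snd (Equiv.Perm (Fin d)) (Equiv.Perm (Fin (d - 1)))))).ker))) := by
  classical
  obtain ⟨hne, ⟨g, hg⟩, hP, h1, h2⟩ := stabilizer_pair hprim a b hd (by omega)
  set M := MulAction.stabilizer G a
  set M' := MulAction.stabilizer G b
  set φ := MulAction.toPermHom M (MulAction.orbit M b)
  haveI := Fintype.ofFinite (MulAction.orbit M b)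
  let e : MulAction.orbit M b ≃ Fin d := Finite.equivFinOfCardEq hd
  let f : G → Perm (Fin d) := fun x => if h : x ∈ M then e.permCongr (φ ⟨x, h⟩) else 1
  have hf : ∀ x : M, f x = e.permCongr (φ x) := fun x => dif_pos x.2
  have h : Act M M' f (e ⟨b, MulAction.mem_orbit_self b⟩) := by
    refine ⟨fun x hx y hy => ?_, fun x hx => ?_, fun j => ?_⟩
    · rw [hf ⟨x, hx⟩, hf ⟨y, hy⟩, ← permCongr_mul, ← map_mul]; exact hf ⟨_, mul_mem hx hy⟩
    · rw [hf ⟨x, hx⟩, permCongr_apply, symm_apply_apply, e.apply_eq_iff_eq, Subtype.ext_iff]; rfl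
    · obtain ⟨⟨_, m, rfl⟩, rfl⟩ := e.surjective j
      exact ⟨m, m.2, by rw [hf, permCongr_apply, symm_apply_apply]; rfl⟩
  have hA := alternatingGroup_le_of_index_le_two halt
  have hb : Big f M := fun σ hσ => by
    obtain ⟨x, hx⟩ := hA (show e.symm.permCongr σ ∈ _ by simpa using hσ)
    exact ⟨x, x.2, by rw [hf, hx]; ext; simp⟩
  obtain ⟨f', i', h'⟩ := exists_act M' M h2
  have h0 := h.core2_eq_bot hb (by simpa using h6) hne hg hP
  obtain ⟨b', hK⟩ := h.paired h' hb (by simp; omega) hg h0
  have hc : Nat.card (core1 M' M) = Nat.card (core1 M M') := by rw [hK, card_cj]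
  have n0 : core1 M M' ≠ core1 M' M := fun e0 => by
    have := hP (core1 M M') (fun e1 => hunf ((injective_iff_map_eq_one _).2 fun x hx =>
      Subtype.ext (mem_bot.1 (e1.le (h.mem_core.2 ⟨x.2, by rw [hf, hx]; ext; simp⟩)))))
      (coreIn_le_right _ _) (le_normalizer_coreIn _ _)
    exact hne (eq_of_le_of_card_ge ((le_normalizer_coreIn _ _).trans (e0 ▸ this))
      (by rw [hg, card_cj])).symm
  have n1 := mt (fun h => eq_of_le_of_card_ge h hc.le) n0
  have n2 := mt (fun h => eq_of_le_of_card_ge h hc.ge) n0.symm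
  obtain ⟨ψ, hψ, p1, p2, p3, p4⟩ := h.prod h' hb b' (by simpa using h6) hc n1 n2 (h0.elim
    (h.disj h' hb b' (by simpa using h6) hK n1 n2) fun h0 => (inf_comm _ _).trans
      (h'.disj h b' hb (by simpa using h6) (g := g⁻¹) (by rw [hK, cj_inv_cj]) n2 n1 h0))
  let e' : {j // j ≠ i'} ≃ Fin (d - 1) := Fintype.equivFinOfCardEq (by simp)
  let χ := e'.permCongrHom.toMonoidHom.comp hψ.hom
  have hχ : ∀ x : M, χ x = e'.permCongr (ψ x) := fun _ => rfl
  have key := classify h.hm.hom χ (fun x e1 e2 => Subtype.ext (p1 x x.2 e1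
    ((map_eq_one_iff _ e'.permCongrHom.injective).1 e2))) (fun σ hσ => by
      obtain ⟨x, hx, e1, e2⟩ := p2 σ hσ
      exact ⟨⟨x, hx⟩, e1, by rw [hχ, e2]; ext; simp⟩) fun σ hσ => by
      obtain ⟨x, hx, e1, e2⟩ := p3 (e'.symm.permCongr σ) (by simpa using hσ)
      exact ⟨⟨x, hx⟩, e1, by rw [hχ, e2]; ext; simp⟩
  have s1 : ∀ x : M, sign (h.hm.hom x) = sign (φ x) := fun x => by
    rw [← sign_permCongr e, ← hf]; rfl
  by_cases h3 : φ.range.index = 2
  · have h4 : ∀ x : M, sign (φ x) = 1 := fun x =>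
      (eq_alternatingGroup_of_index_eq_two h3).le ⟨x, rfl⟩
    obtain ⟨ε⟩ := key ((alternatingGroup _).prod (alternatingGroup _)) (fun x =>
      ⟨(s1 x).trans (h4 x), show sign (χ x) = 1 by
        rw [hχ, sign_permCongr, p4 (fun x hx => (s1 ⟨x, hx⟩).trans (h4 _)) x x.2]⟩)
      fun y hy => ⟨1, by simpa using ⟨hy.1.symm, hy.2.symm⟩⟩
    exact Or.inl ⟨h3, ⟨ε.trans (prodEquiv _ _)⟩⟩
  have h4 : φ.range = ⊤ := index_eq_one.1 (by
    have := index_ne_zero_of_finite (H := φ.range); omega)
  refine Or.inr ⟨h4, ?_⟩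
  haveI : Nontrivial (MulAction.orbit M b) := Finite.one_lt_card_iff_nontrivial.1 (by omega)
  obtain ⟨σ, hσ⟩ := sign_surjective (MulAction.orbit M b) (-1)
  obtain ⟨x, rfl⟩ := h4.ge (mem_top σ)
  rw [← s1] at hσ
  by_cases h5 : ∀ y, sign (χ y) = 1
  · obtain ⟨ε⟩ := key ((⊤ : Subgroup _).prod (alternatingGroup _)) (fun x => ⟨trivial, h5 x⟩)
      fun y hy => by
        rcases Int.units_eq_one_or (sign y.1) with e1 | e1
        · exact ⟨1, by simpa using ⟨e1.symm, hy.2.symm⟩⟩
        · exact ⟨x, hσ.trans e1.symm, (h5 x).trans hy.2.symm⟩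
    exact Or.inr (Or.inl ⟨ε.trans ((prodEquiv _ _).trans (topEquiv.prodCongr (MulEquiv.refl _)))⟩)
  obtain ⟨y, hy⟩ := not_forall.1 h5
  rw [← Ne, Int.units_ne_iff_eq_neg] at hy
  by_cases h7 : ∀ z, sign (h.hm.hom z) = sign (χ z)
  · refine Or.inr (Or.inr (key _ (fun z => ?_) fun z hz => ?_))
    · simp [MonoidHom.mem_ker, h7]
    · replace hz : sign z.1 * sign z.2 = 1 := hz
      rw [mul_eq_one_iff_eq_inv, Int.units_inv_eq_self] at hz
      rcases Int.units_eq_one_or (sign z.2) with e1 | e1
      · exact ⟨1, by simp [hz, e1]⟩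
      · exact ⟨y, by simp [hz, e1, h7, hy]⟩
  obtain ⟨z, hz⟩ := not_forall.1 h7
  obtain ⟨ε⟩ := key ⊤ (fun _ => trivial) fun w _ => by
    have : ∃ i j k : Fin 2, sign (h.hm.hom x) ^ i.1 * sign (h.hm.hom y) ^ j.1 *
        sign (h.hm.hom z) ^ k.1 = sign w.1 ∧
        sign (χ x) ^ i.1 * sign (χ y) ^ j.1 * sign (χ z) ^ k.1 = sign w.2 := by
      rw [hσ, hy]
      revert hz
      generalize sign (h.hm.hom y) = a1, sign (h.hm.hom z) = a2, sign w.1 = a3, sign (χ x) = a4,
        sign (χ z) = a5, sign w.2 = a6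
      revert a1 a2 a3 a4 a5 a6
      decide
    obtain ⟨i, j, k, e1, e2⟩ := this
    exact ⟨x ^ i.1 * y ^ j.1 * z ^ k.1, by simpa using e1, by simpa using e2⟩
  exact Or.inl ⟨ε.trans topEquiv⟩

end Cfsg.Agent.S3687
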