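import Cfsg.Statements.S3693
import Mathlib
import Cfsg.Agent.PLocal.ThompsonWielandt2

set_option autoImplicit false
open Cfsg

namespace Cfsg.Agent.S3693

open Subgroup PLocal PLocal.Amb PLocal.TW

/-- Let a finite group G act faithfully and primitively on a set Ω, let a and b be points such that the orbit Δ of b under the stabilizer H of a has length d ≥ 2, and consider the permutation group induced on Δ by the elements of H fixing b. If that induced group has trivial Fitting subgroup (no non-trivial nilpotent normal subgroup), then the two-point stabilizer of a and b has trivial Fitting subgroup and the order of H divides d! · ((d - 1)!)^d. -/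
theorem result {G Ω : Type*} [Group G] [Finite G] [MulAction G Ω] [FaithfulSMul G Ω] [Finite Ω]
    (hprim : MulAction.IsPreprimitive G Ω) (a b : Ω) (d : ℕ) (hd : Nat.card (MulAction.orbit (MulAction.stabilizer G a) b) = d) (h2 : 2 ≤ d)
    (hF : Cfsg.fittingSubgroup ↥(((MulAction.stabilizer G b).subgroupOf (MulAction.stabilizer G a)).map (MulAction.toPermHom (MulAction.stabilizer G a) (MulAction.orbit (MulAction.stabilizer G a) b))) = ⊥) :
    Cfsg.fittingSubgroup ↥(MulAction.stabilizer G a ⊓ MulAction.stabilizer G b) = ⊥ ∧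
      Nat.card (MulAction.stabilizer G a) ∣ Nat.factorial d * (Nat.factorial (d - 1)) ^ d := by
  obtain ⟨hne, ⟨g, hg⟩, hP, h1, h2⟩ := stabilizer_pair hprim a b hd h2
  have hP2 : Prim (MulAction.stabilizer G b) := hg ▸ hP.cj g
  have key : ∀ p : ℕ, p.Prime →
      pCoreOf p (MulAction.stabilizer G a ⊓ MulAction.stabilizer G b) = ⊥ := by
    intro p hp
    have : Fact p.Prime := ⟨hp⟩
    let H := MulAction.stabilizer G a
    let D := H ⊓ MulAction.stabilizer G b
    let Q := pCoreOf p D
    let f := MulAction.toPermHom H (MulAction.orbit H b)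
    have hQD : Q ≤ D := pCoreOf_le p D
    have h3 : (Q.subgroupOf H).map f ≤ fitOf (((MulAction.stabilizer G b).subgroupOf H).map f) := by
      refine Grp.le_map_fitting (map_mono (comap_mono (hQD.trans inf_le_right))) ?_ ?_
      · refine le_trans (map_mono ?_) (le_normalizer_map f)
        rw [normalizer_eq_subgroupOf, map_subgroupOf_of_le (hQD.trans inf_le_left)]
        intro x hx
        exact le_normalizer_pCoreOf p D (mem_inf.2 ⟨x.2, hx⟩)
      · exact ((isPGroup_subgroupOf (isPGroup_pCoreOf p D) H).map f).isNilpotent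
    rw [fitOf, hF, Subgroup.map_bot, le_bot_iff, Subgroup.map_eq_bot_iff] at h3
    have h4 : Q ≤ coreIn D H := fun x hx => by
      have hxH : x ∈ H := (hQD hx).1
      refine mem_coreIn.2 ⟨hxH, fun m hm => mem_inf.2 ⟨H.mul_mem (H.mul_mem hm hxH) (H.inv_mem hm), ?_⟩⟩
      have h5 : f ⟨x, hxH⟩ = 1 := h3 (mem_subgroupOf.2 hx)
      have h6 := congrArg Subtype.val
        (DFunLike.congr_fun h5 ⟨(⟨m, hm⟩ : H)⁻¹ • b, MulAction.mem_orbit _ _⟩)
      have h7 : x • m⁻¹ • b = m⁻¹ • b := h6
      rw [MulAction.mem_stabilizer_iff, mul_smul, mul_smul, h7, smul_inv_smul]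
    have h5 : Q = pCoreOf p (coreIn D H) := le_antisymm
      (le_pCoreOf (isPGroup_pCoreOf p D) h4
        ((coreIn_le_left _ _).trans (le_normalizer_pCoreOf p D)))
      (pCoreOf_mono_of_normal (coreIn_le_left _ _) (inf_le_left.trans (le_normalizer_coreIn _ _)))
    refine pCoreOf_inf_eq_bot hne hP hP2 (by rw [hg, pCoreOf_cj, card_cj]) ?_
    change H ≤ 𝐍[Q]
    rw [h5]
    exact (le_normalizer_coreIn _ _).trans (normalizer_le_normalizer_pCoreOf p _)
  refine ⟨Grp.fitting_eq_bot_iff.2 fun p hp => pCoreOf_eq_bot_iff.1 (key p hp), ?_⟩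
  rcases core2_dichotomy hne hg hP h1 h2 with h | ⟨h0, -, p, hp, pA, -⟩
  · exact h
  · refine absurd (le_bot_iff.1 ?_) h0
    rw [← key p hp]
    exact le_pCoreOf pA (le_inf (coreIn_le_right _ _) (snIn_core2 _ _).le)
      (inf_le_left.trans (le_normalizer_coreIn _ _))

end Cfsg.Agent.S3693
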