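import Cfsg.Statements.S3696
import Mathlib

set_option autoImplicit false
open Cfsg

namespace Cfsg.Agent.S3696

open Subgroup

theorem amgm (m q n c : ℕ) (hc : 0 < c) (hq : q ≤ n) (h : c * m ^ m ≤ (n - q) ^ m) :
    q * c * (m + 1) ^ (m + 1) ≤ n ^ (m + 1) := by
  rcases Nat.eq_zero_or_pos m with rfl | hm
  · simp at h ⊢
    nlinarith
  obtain ⟨s, rfl⟩ : ∃ s, n = q + s := ⟨n - q, by omega⟩
  rw [Nat.add_sub_cancel_left] at h
  have hs : 0 < s := by
    rcases Nat.eq_zero_or_pos s with rfl | hs
    · rw [zero_pow hm.ne'] at h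
      have := Nat.mul_pos hc (pow_pos hm m)
      omega
    · exact hs
  have hmR : (0 : ℝ) < m := by exact_mod_cast hm
  have hsR : (0 : ℝ) < s := by exact_mod_cast hs
  have hqR : (0 : ℝ) ≤ q := by positivity
  have hR : (c : ℝ) ≤ (s / m) ^ m := by
    rw [div_pow, le_div_iff₀ (by positivity)]; exact_mod_cast h
  set a : ℝ := s / m with ha
  have ha0 : 0 < a := by positivity
  have hb := one_add_mul_le_pow (a := (q / a - 1) / (m + 1 : ℝ)) (by
    rw [le_div_iff₀ (by positivity)]
    have : 0 ≤ q / a := by positivity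
    nlinarith) (m + 1)
  have e1 : (1 : ℝ) + ((m + 1 : ℕ) : ℝ) * ((q / a - 1) / (m + 1 : ℝ)) = q / a := by
    push_cast; field_simp; ring
  have e2 : (1 : ℝ) + (q / a - 1) / (m + 1 : ℝ) = (q + s) / ((m + 1) * a) := by
    rw [ha]; field_simp; ring
  rw [e1, e2, div_pow, div_le_div_iff₀ ha0 (by positivity), mul_pow, pow_succ a] at hb
  have h3 : (q : ℝ) * ((m + 1) ^ (m + 1) * a ^ m) ≤ (q + s) ^ (m + 1) := by
    have : (q : ℝ) * ((m + 1) ^ (m + 1) * a ^ m) * a ≤ (q + s) ^ (m + 1) * a := by
      calc _ = (q : ℝ) * ((m + 1) ^ (m + 1) * (a ^ m * a)) := by ring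
        _ ≤ _ := hb
    exact le_of_mul_le_mul_right this ha0
  have h4 : (q : ℝ) * c * (m + 1) ^ (m + 1) ≤ (q + s) ^ (m + 1) := by
    calc _ = (q : ℝ) * ((m + 1) ^ (m + 1) * c) := by ring
      _ ≤ (q : ℝ) * ((m + 1) ^ (m + 1) * a ^ m) := by gcongr
      _ ≤ _ := h3
  exact_mod_cast h4

open Classical in
theorem main {G : Type*} [CommGroup G] [Finite G] {p : ℕ} (hp : p.Prime) (hG : IsPGroup p G)
    {ι : Type*} [Fintype ι] (H : ι → Subgroup G) (hH : ∀ g, (∀ i, g ∈ H i) → g = 1) (k : ℕ) :
    ∀ (A : Subgroup G) (n : ℕ), Nat.card ↥(A ⊓ (powMonoidHom p : G →* G).ker) = p ^ k →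
      (∑ i, if A ≤ H i then 0 else (H i).relIndex A) ≤ n → Nat.card A * k ^ k ≤ n ^ k := by
  have := Fact.mk hp
  induction k with
  | zero =>
    intro A n h1 _
    simp only [pow_zero, mul_one] at h1 ⊢
    by_contra! h
    obtain ⟨j, hj⟩ := (hG.to_subgroup A).exists_card_eq
    have hj0 : j ≠ 0 := by rintro rfl; simp [hj] at h
    obtain ⟨z, hz⟩ := exists_prime_orderOf_dvd_card' (G := A) p (hj ▸ dvd_pow_self p hj0)
    rw [Subgroup.card_eq_one] at h1
    have : (z : G) ∈ A ⊓ (powMonoidHom p : G →* G).ker := ⟨z.2, by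
      change (z : G) ^ p = 1
      rw [← hz, ← Subgroup.orderOf_coe, pow_orderOf_eq_one]⟩
    rw [h1, mem_bot] at this
    rw [← Subgroup.orderOf_coe, this, orderOf_one] at hz
    exact hp.one_lt.ne hz
  | succ k ih =>
    intro A n h1 h2
    set E := A ⊓ (powMonoidHom p : G →* G).ker with hE
    obtain ⟨i, hi⟩ : ∃ i, ¬ E ≤ H i := by
      by_contra! h
      have : E = ⊥ := eq_bot_iff.2 fun g hg => hH g fun i => h i hg
      rw [this, card_bot] at h1
      exact (Nat.one_lt_pow (by omega) hp.one_lt).ne h1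
    obtain ⟨j, hj⟩ := ((hG.to_subgroup E).to_subgroup ((H i).subgroupOf E)).exists_card_eq
    have hjk : j ≤ k := by
      by_contra! h
      apply hi
      rw [← subgroupOf_eq_top]
      apply eq_top_of_le_card
      rw [h1, hj]
      exact Nat.pow_le_pow_right hp.pos h
    obtain ⟨M, hM, hle⟩ := Sylow.exists_subgroup_card_pow_prime_le p (G := E) (m := k)
      (by rw [h1]; exact pow_dvd_pow p (by omega)) _ hj hjk
    let K := (H i ⊓ A) ⊔ M.map E.subtype
    have hKA : K ≤ A := sup_le inf_le_right ((map_subtype_le M).trans inf_le_left)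
    have hKE : K ⊓ (powMonoidHom p : G →* G).ker = M.map E.subtype := by
      apply le_antisymm
      · rintro x ⟨hx, hx'⟩
        obtain ⟨y, hy, z, hz, rfl⟩ := mem_sup.1 hx
        have hz' : z ∈ E := map_subtype_le M hz
        have hy' : y ∈ E := ⟨hy.2, (Subgroup.mul_mem_cancel_right _ hz'.2).1 hx'⟩
        exact mul_mem ⟨⟨y, hy'⟩, hle hy.1, rfl⟩ hz
      · exact le_inf le_sup_right ((map_subtype_le M).trans inf_le_right)
    have hc : Nat.card ↥(K ⊓ (powMonoidHom p : G →* G).ker) = p ^ k := by
      rw [hKE, card_map_of_injective E.subtype_injective, hM]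
    have hAK : ¬ A ≤ K := by
      intro h
      rw [le_antisymm hKA h, h1] at hc
      exact absurd (Nat.pow_right_injective hp.two_le hc) (by omega)
    set q := K.relIndex A with hq
    have hq2 : 2 ≤ q := by
      have h0 : q ≠ 0 := index_ne_zero_of_finite
      have h1 : q ≠ 1 := fun h => hAK (relIndex_eq_one.1 h)
      omega
    have hA : Nat.card A = q * Nat.card K := by
      rw [hq, relIndex, mul_comm, ← (K.subgroupOf A).card_mul_index,
        Nat.card_congr (subgroupOfEquivOfLe hKA).toEquiv]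
    have hr : (H i).relIndex A = (H i).relIndex K * q := by
      rw [← inf_relIndex_right (H i) A, ← relIndex_mul_relIndex (H i ⊓ A) K A le_sup_left hKA,
        ← inf_relIndex_right (H i) K, ← inf_relIndex_right (H i ⊓ A) K, inf_assoc,
        inf_eq_right.2 hKA]
    have hs : (∑ j, if K ≤ H j then 0 else (H j).relIndex K) + q ≤
        ∑ j, if A ≤ H j then 0 else (H j).relIndex A := by
      rw [← Finset.add_sum_erase _ _ (Finset.mem_univ i),
        ← Finset.add_sum_erase _ _ (Finset.mem_univ i), add_right_comm]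
      refine add_le_add ?_ (Finset.sum_le_sum fun j _ => ?_)
      · rw [if_neg (fun h => hi (inf_le_left.trans h)), hr]
        have h0 : (H i).relIndex K ≠ 0 := index_ne_zero_of_finite
        split_ifs with h
        · rw [relIndex_eq_one.2 h]; simp
        · have h1 : (H i).relIndex K ≠ 1 := fun h' => h (relIndex_eq_one.1 h')
          have h2 : 2 ≤ (H i).relIndex K := by omega
          nlinarith
      · split_ifs with h3 h4 h4
        · rfl
        · exact Nat.zero_le _
        · exact (h3 (hKA.trans h4)).elim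
        · exact relIndex_le_of_le_right hKA index_ne_zero_of_finite
    rw [hA]
    exact amgm k q n _ Nat.card_pos (by omega) (ih K (n - q) hc (by omega))


/-- Let p be a prime, Ω a finite set with n ≥ p elements, and A an abelian p-subgroup of the symmetric group on Ω whose elements of order dividing p number p^k (so k is the rank of A). Then |A| · k^k ≤ n^k, that is, |A| ≤ (n/k)^k. -/
theorem result {Ω : Type*} [Fintype Ω] [DecidableEq Ω]
    (p : ℕ) (hp : p.Prime) (hn : p ≤ Fintype.card Ω) (A : Subgroup (Equiv.Perm Ω)) (hA : IsPGroup p A) (hab : IsMulCommutative A)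
    (k : ℕ) (hk : Nat.card {x : A // x ^ p = 1} = p ^ k) :
    Nat.card A * k ^ k ≤ Fintype.card Ω ^ k := by
  classical
  let _ : CommGroup A := { (inferInstance : Group A) with mul_comm := hab.is_comm.comm }
  have := Fintype.ofFinite (MulAction.orbitRel.Quotient A Ω)
  have h := main hp hA (fun ω : MulAction.orbitRel.Quotient A Ω => MulAction.stabilizer A ω.out)
    (fun g hg => by
      ext x
      obtain ⟨a, ha⟩ : (Quotient.mk (MulAction.orbitRel A Ω) x).out ∈ MulAction.orbit A x :=
        Quotient.mk_out (s := MulAction.orbitRel A Ω) x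
      have h1 := hg (Quotient.mk _ x)
      rw [MulAction.mem_stabilizer_iff, ← ha, ← mul_smul, mul_comm, mul_smul] at h1
      exact smul_left_cancel a h1) k ⊤ (Fintype.card Ω) (by
      rw [top_inf_eq]; exact hk) (by
      rw [← Nat.card_eq_fintype_card,
        Nat.card_congr (MulAction.selfEquivSigmaOrbitsQuotientStabilizer A Ω), Nat.card_sigma]
      refine Finset.sum_le_sum fun ω _ => ?_
      split_ifs
      · exact Nat.zero_le _
      · rw [relIndex_top_right]; rfl)
  rwa [card_top] at h

end Cfsg.Agent.S3696
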