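import Mathlib
import Cfsg.Statements.S3713
import Cfsg.Agent.CT.SpCT

set_option autoImplicit false
open Cfsg

namespace Cfsg.Agent.S3713

/-- A presentation of the symplectic group as the universal completion of an amalgam of small subgroups. Let F be a field with more than two elements, n ≥ 2, and Sp the group of 2n × 2n matrices over F preserving the standard alternating form, acting on column vectors; write e_k, f_k for the standard basis vectors of the two halves (a hyperbolic basis). For each k let S_k be the subgroup of Sp fixing e_l and f_l for all l ≠ k (a copy of SL(2, F) on the plane of e_k, f_k), and for each i with i + 1 < n let M_i be the subgroup fixing every e_l and fixing f_l for all l other than i, i+1 (an abelian group isomorphic to the additive group of F³). Then Sp is the universal completion of the amalgam formed by the S_k, the M_i and the subgroups generated by two of them: for every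 group H and homomorphisms σ_k : S_k → H, μ_i : M_i → H such that for each pair of these subgroups some homomorphism on the subgroup they generate restricts to the given ones, there is exactly one homomorphism Sp → H restricting to every σ_k and μ_i. -/
theorem result
    (F : Type*) [Field F] (hF : ∃ a : F, a ≠ 0 ∧ a ≠ 1) (n : ℕ) (hn : 2 ≤ n)
    (S M : Fin n → Subgroup ↥(Matrix.symplecticGroup (Fin n) F))
    (hS : ∀ j : Fin n, S j = Subgroup.closure {A : ↥(Matrix.symplecticGroup (Fin n) F) | ∀ k : Fin n, k ≠ j →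
      ((A : ↥(Matrix.symplecticGroup (Fin n) F)) : Matrix (Fin n ⊕ Fin n) (Fin n ⊕ Fin n) F).mulVec (Pi.single (Sum.inl k) (1 : F)) = (Pi.single (Sum.inl k) (1 : F)) ∧ ((A : ↥(Matrix.symplecticGroup (Fin n) F)) : Matrix (Fin n ⊕ Fin n) (Fin n ⊕ Fin n) F).mulVec (Pi.single (Sum.inr k) (1 : F)) = (Pi.single (Sum.inr k) (1 : F))})
    (hM : ∀ i : Fin n, (i : ℕ) + 1 < n → M i = Subgroup.closure {A : ↥(Matrix.symplecticGroup (Fin n) F) |
      (∀ k : Fin n, ((A : ↥(Matrix.symplecticGroup (Fin n) F)) : Matrix (Fin n ⊕ Fin n) (Fin n ⊕ Fin n) F).mulVec (Pi.single (Sum.inl k) (1 : F)) = (Pi.single (Sum.inl k) (1 : F))) ∧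
        ∀ k : Fin n, (k : ℕ) ≠ i → (k : ℕ) ≠ (i : ℕ) + 1 → ((A : ↥(Matrix.symplecticGroup (Fin n) F)) : Matrix (Fin n ⊕ Fin n) (Fin n ⊕ Fin n) F).mulVec (Pi.single (Sum.inr k) (1 : F)) = (Pi.single (Sum.inr k) (1 : F))})
    {H : Type*} [Group H] (σ : ∀ j : Fin n, ↥(S j) →* H) (μ : ∀ i : Fin n, ↥(M i) →* H)
    (hSS : ∀ j l : Fin n, j ≠ l → ∃ Ψ : ↥(S j ⊔ S l) →* H,
      (∀ (g : ↥(Matrix.symplecticGroup (Fin n) F)) (hg : g ∈ S j), Ψ ⟨g, Subgroup.mem_sup_left hg⟩ = σ j ⟨g, hg⟩) ∧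
        (∀ (g : ↥(Matrix.symplecticGroup (Fin n) F)) (hg : g ∈ S l), Ψ ⟨g, Subgroup.mem_sup_right hg⟩ = σ l ⟨g, hg⟩))
    (hMM : ∀ i i' : Fin n, i ≠ i' → (i : ℕ) + 1 < n → (i' : ℕ) + 1 < n → ∃ Ψ : ↥(M i ⊔ M i') →* H,
      (∀ (g : ↥(Matrix.symplecticGroup (Fin n) F)) (hg : g ∈ M i), Ψ ⟨g, Subgroup.mem_sup_left hg⟩ = μ i ⟨g, hg⟩) ∧
        (∀ (g : ↥(Matrix.symplecticGroup (Fin n) F)) (hg : g ∈ M i'), Ψ ⟨g, Subgroup.mem_sup_right hg⟩ = μ i' ⟨g, hg⟩))
    (hMS : ∀ i j : Fin n, (i : ℕ) + 1 < n → ∃ Ψ : ↥(M i ⊔ S j) →* H,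
      (∀ (g : ↥(Matrix.symplecticGroup (Fin n) F)) (hg : g ∈ M i), Ψ ⟨g, Subgroup.mem_sup_left hg⟩ = μ i ⟨g, hg⟩) ∧
        (∀ (g : ↥(Matrix.symplecticGroup (Fin n) F)) (hg : g ∈ S j), Ψ ⟨g, Subgroup.mem_sup_right hg⟩ = σ j ⟨g, hg⟩)) :
    ∃! Φ : ↥(Matrix.symplecticGroup (Fin n) F) →* H,
      (∀ (j : Fin n) (g : ↥(Matrix.symplecticGroup (Fin n) F)) (hg : g ∈ S j), Φ g = σ j ⟨g, hg⟩) ∧
        (∀ (i : Fin n), (i : ℕ) + 1 < n → ∀ (g : ↥(Matrix.symplecticGroup (Fin n) F)) (hg : g ∈ M i), Φ g = μ i ⟨g, hg⟩) := by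
  have eS : ∀ j, S j = CT.Sp.SS F j := fun j => by
    rw [hS, ← Subgroup.closure_eq (CT.Sp.SS F j)]
    congr 1
    ext A
    exact ⟨fun h a ha => by
      rcases a with a | a
      exacts [(h a ha).1, (h a ha).2], fun h k hk => ⟨h (.inl k) hk, h (.inr k) hk⟩⟩
  have eM : ∀ i j : Fin n, (i : ℕ) + 1 = j → M i = CT.Sp.MM F i j := fun i j e => by
    rw [hM i (by omega), ← Subgroup.closure_eq (CT.Sp.MM F i j)]
    congr 1
    ext A
    refine ⟨fun h a ha => ?_, fun h => ⟨fun k => h (.inl k) (by simp), fun k h1 h2 =>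
      h (.inr k) ⟨by simpa [Fin.ext_iff] using h1, by simpa [Fin.ext_iff, ← e] using h2⟩⟩⟩
    rcases a with a | a
    · exact h.1 a
    · exact h.2 a (by simpa [Fin.ext_iff] using ha.1) (by simpa [Fin.ext_iff, ← e] using ha.2)
  obtain ⟨A, h1, h2, h3, -⟩ := CT.Sp.exists_lift hF (MonoidHom.fst _ H)
    (fun j => CT.Sp.graph (σ j)) (fun j => CT.Sp.graph (μ j))
    (fun j => (CT.Sp.map_graph _).trans (eS j)) (fun i j e => (CT.Sp.map_graph _).trans (eM i j e))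
    (fun j => CT.Sp.inj_graph _) (fun j l h => CT.Sp.inj_sup (hSS j l h))
    (fun i j hi hj => by
      by_cases h : i = j
      · subst h; rw [sup_idem]; exact CT.Sp.inj_graph _
      · exact CT.Sp.inj_sup (hMM i j h hi hj))
    (fun i j h => CT.Sp.inj_sup (hMS i j h)) (n - 1) ⟨0, by omega⟩ (by simp; omega)
  have surj : ∀ s, ∃ g ∈ A, g.1 = s := fun s => h2.ge (show s ∈ _ from fun a ha => by simp at ha)
  obtain ⟨Φ, hΦ⟩ := CT.exists_hom_of_graph A h1 surj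
  obtain ⟨h4, h5⟩ := (h3 A).1 le_rfl
  refine ⟨Φ, ⟨fun j g hg => hΦ _ (h4 j (Nat.zero_le _) ⟨⟨g, hg⟩, rfl⟩),
    fun i hi g hg => hΦ _ (h5 i (Nat.zero_le _) hi ⟨⟨g, hg⟩, rfl⟩)⟩, fun Ψ ⟨p, q⟩ => ?_⟩
  have := (h3 ((MonoidHom.id _).prod Ψ).range).2 ⟨fun j _ => by
    rintro _ ⟨g, rfl⟩; exact ⟨g, Prod.ext rfl (p j g g.2)⟩, fun j _ hj => by
    rintro _ ⟨g, rfl⟩; exact ⟨g, Prod.ext rfl (q j hj g g.2)⟩⟩
  ext1 s
  obtain ⟨g, hg, rfl⟩ := surj s
  rw [hΦ g hg]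
  obtain ⟨t, rfl⟩ := this hg
  rfl

end Cfsg.Agent.S3713
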