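import Cfsg.Statements.S3716
import Cfsg.Agent.Char.NineD8
import Cfsg.Agent.Grp.AutCard
-- import your own Cfsg.Agent.* helpers here

set_option autoImplicit false
open Cfsg

namespace Cfsg.Agent.S3716

/-- Let G be a finite group with an elementary abelian Sylow 3-subgroup M of order 9 which is self-centralizing (C_G(M) = M), let N = N_G(M), and suppose C_G(g) ≤ N for every nonidentity g ∈ M. If the Sylow 2-subgroups of N are dihedral of order 8, then G is not simple. -/
theorem result {G : Type*} [Group G] [Finite G] (M : Sylow 3 G) (hM9 : Nat.card ↥(M : Subgroup G) = 9)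
    (hMel : ∀ m ∈ (M : Subgroup G), m ^ 3 = 1)
    (hCM : Subgroup.centralizer ((M : Subgroup G) : Set G) = (M : Subgroup G))
    (N : Subgroup G) (hN : N = Subgroup.normalizer ((M : Subgroup G) : Set G))
    (hCg : ∀ g ∈ (M : Subgroup G), g ≠ 1 → Subgroup.centralizer ({g} : Set G) ≤ N)
    (hS : ∀ S : Sylow 2 ↥N, Nonempty (↥(S : Subgroup ↥N) ≃* DihedralGroup 4)) :
    ¬ IsSimpleGroup G := by
  intro hG
  subst hN
  obtain ⟨D⟩ := (inferInstance : Nonempty (Sylow 2 (Subgroup.normalizer ((M : Subgroup G) : Set G))))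
  obtain ⟨e⟩ := hS D
  have hD : Nat.card (D : Subgroup (Subgroup.normalizer ((M : Subgroup G) : Set G))) = 8 := by
    rw [Nat.card_congr e.toEquiv]; simp [DihedralGroup.card]
  have h27 : ¬ 3 ^ (2 + 1) ∣ Nat.card G := fun h => by
    rw [← (M : Subgroup G).card_mul_index, hM9] at h
    exact M.not_dvd_index (Nat.dvd_of_mul_dvd_mul_left (by norm_num : 0 < 9) h)
  have h72 : Nat.card (Subgroup.normalizer ((M : Subgroup G) : Set G)) = 72 := by
    have h1 := Small.relIndex_centralizer_dvd_card_mulAut (M : Subgroup G)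
    have h2 := Small.card_centralizer_mul_relIndex (M : Subgroup G)
    rw [Grp.card_mulAut_of_elemAb (p := 3) (r := 2)
      (IsPGroup.isMulCommutative_of_card_eq_prime_sq (p := 3) hM9).is_comm.comm
      (fun x => Subtype.ext (hMel x x.2)) hM9] at h1
    rw [hCM] at h1 h2
    rw [hM9] at h2
    have h3 : ¬ 3 ^ (2 + 1) ∣ Nat.card (Subgroup.normalizer ((M : Subgroup G) : Set G)) :=
      fun h => h27 (h.trans (Subgroup.card_subgroup_dvd_card _))
    have h4 := (D : Subgroup (Subgroup.normalizer ((M : Subgroup G) : Set G))).card_mul_index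
    have h5 := D.not_dvd_index
    rw [hD] at h4
    have h6 : (M : Subgroup G).relIndex (Subgroup.normalizer ((M : Subgroup G) : Set G)) ∣ 48 := h1
    have := Nat.le_of_dvd (by norm_num) h6
    generalize (M : Subgroup G).relIndex (Subgroup.normalizer ((M : Subgroup G) : Set G)) = k at *
    have h7 : k = 8 ∨ k = 24 ∨ k = 40 := by omega
    rcases h7 with rfl | rfl | rfl
    · omega
    · omega
    · exact absurd h6 (by norm_num)
  obtain ⟨φ, h, hr⟩ := Char.Euclid.exists_split_D8 hM9 hCM.le
    ((Subgroup.subtype _).comp ((Subgroup.subtype _).comp e.symm.toMonoidHom))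
    ((Subgroup.subtype_injective _).comp ((Subgroup.subtype_injective _).comp e.symm.injective))
    (fun w => ((e.symm w : D) : Subgroup.normalizer ((M : Subgroup G) : Set G)).2) h72
  obtain ⟨μ, h1, -, -, h2⟩ := h.exists_sign (by rw [hr]) (by rw [hr]; exact hCg) h27
  rcases hG.eq_bot_or_eq_top_of_normal μ.ker inferInstance with h3 | h3
  · have : φ (Char.Euclid.v2 1 0) ∈ μ.ker := h2 _
    rw [h3, Subgroup.mem_bot, ← φ.map_one] at this
    exact absurd (h.inj this) (by decide)
  · have : ∀ g, μ g = 1 := fun g => (h3 ▸ Subgroup.mem_top g : g ∈ μ.ker)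
    have h4 := congrArg Units.val (h1.symm.trans (this _))
    norm_num at h4

end Cfsg.Agent.S3716
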