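import Cfsg.Statements.S3779
import Mathlib
import Cfsg.Agent.FGS.LcsLie
import Cfsg.Agent.S0032
import Cfsg.Agent.S0033

set_option autoImplicit false
open Cfsg

namespace Cfsg.Agent.S3779

open Cfsg.Agent.FGS Cfsg.Agent.FGS.GradedLie Cfsg.Agent.FGS.LcsLie

universe u

theorem not_dvd_card {G : Type*} [Group G] [Finite G] {p : ℕ} (hp : p.Prime) (α : MulAut G)
    (hα : orderOf α = p) (hfpf : ∀ g : G, α g = g → g = 1) : ¬ p ∣ Nat.card G := by
  have : Fact p.Prime := ⟨hp⟩
  have hP : IsPGroup p (Subgroup.zpowers α) :=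
    IsPGroup.of_card (n := 1) (by rw [Nat.card_zpowers, hα, pow_one])
  have h1 := hP.card_modEq_card_fixedPoints G
  have h2 : Nat.card (MulAction.fixedPoints (Subgroup.zpowers α) G) = 1 := by
    rw [Nat.card_eq_one_iff_exists]
    refine ⟨⟨1, fun a => map_one (a : MulAut G)⟩, fun x => Subtype.ext (hfpf _ ?_)⟩
    exact x.2 ⟨α, Subgroup.mem_zpowers α⟩
  rw [h2] at h1
  intro h
  exact hp.one_lt.ne' (Nat.dvd_one.1 ((Nat.ModEq.dvd_iff h1 dvd_rfl).1 h))

theorem iterate_eq {G : Type*} [Group G] (α : MulAut G) (k : ℕ) (g : G) :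
    (α ^ k) g = (⇑α)^[k] g := by
  induction k generalizing g with
  | zero => rfl
  | succ k ih => rw [pow_succ, MulAut.mul_apply, ih, Function.iterate_succ_apply]

theorem lcs_eq_bot {G : Type u} [Group G] [Finite G] {p : ℕ} (hp : p.Prime) (α : MulAut G)
    (hα : orderOf α = p) (hfpf : ∀ g : G, α g = g → g = 1) {c : ℕ} (hc : GradedBound.{u} p c) :
    (⊤ : Subgroup G).lowerCentralSeries c = ⊥ := by
  have : Fact p.Prime := ⟨hp⟩
  have hnil := Cfsg.Agent.S0033.result α hfpf p hp hα
  have hcop := (Nat.Prime.coprime_iff_not_dvd hp).2 (not_dvd_card hp α hα hfpf)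
  have h1 : gam G c ≤ gam G (c + 1) := by
    intro g hg
    have h2 := pow_mem_lcs_succ hc (α : G →* G) (fun g => by
      change (⇑α)^[p] g = g
      rw [← iterate_eq, ← hα, pow_orderOf_eq_one]; rfl) 1 (fun n g _ h => by
      rw [pow_one]
      refine Cfsg.Agent.S0032.result α hfpf _ (fun x hx => map_mem (α : G →* G) hx) g ?_
      simpa using inv_mem h) hg
    rw [one_mul, ← QuotientGroup.eq_one_iff, QuotientGroup.mk_pow] at h2
    rw [← QuotientGroup.eq_one_iff, ← orderOf_eq_one_iff]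
    refine Nat.eq_one_of_dvd_coprimes (hcop.pow_left (c + 1)) (orderOf_dvd_of_pow_eq_one h2) ?_
    exact (orderOf_dvd_natCard _).trans (Subgroup.card_quotient_dvd_card _)
  have h3 : ∀ k, gam G c ≤ gam G (c + k) := by
    intro k
    induction k with
    | zero => exact le_rfl
    | succ k ih => exact h1.trans (Subgroup.commutator_mono ih le_rfl)
  obtain ⟨n, hn⟩ := Subgroup.nilpotent_iff_lowerCentralSeries.1 hnil
  exact le_bot_iff.1 ((h3 n).trans ((gam_anti (Nat.le_add_left n c)).trans hn.le))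

/-- Let G be a finite group with an automorphism of prime order p fixing only the identity. Then G is nilpotent; if p = 2 then G is abelian, if p = 3 then G has class at most 2, and in general the class of G is at most ξ = 1 + (p−1) + (p−1)² + ⋯ + (p−1)^(n−1) with n = 2^(p−1) − 1 (the Higman–Kreknin–Kostrikin bound). -/
theorem result {G : Type*} [Group G] [Finite G] {p : ℕ} (hp : p.Prime) (α : MulAut G) (hα : orderOf α = p) (hfpf : ∀ g : G, α g = g → g = 1) : (p = 2 → (⊤ : Subgroup G).lowerCentralSeries 1 = ⊥) ∧ (p = 3 → (⊤ : Subgroup G).lowerCentralSeries 2 = ⊥) ∧ (⊤ : Subgroup G).lowerCentralSeries (Finset.sum (Finset.range (2 ^ (p - 1) - 1)) (fun i => (p - 1) ^ i)) = ⊥ := by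
  have : Fact p.Prime := ⟨hp⟩
  have h := lcs_eq_bot hp α hα hfpf (gradedBound_xi p)
  refine ⟨?_, ?_, h⟩
  · rintro rfl
    simpa using h
  · rintro rfl
    exact lcs_eq_bot hp α hα hfpf gradedBound_three

end Cfsg.Agent.S3779
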