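import Cfsg.Statements.S3803
import Mathlib
import Cfsg.Agent.FGS.OddOnTwo

set_option autoImplicit false
open Cfsg

namespace Cfsg.Agent.S3803


/-- Let P be a 2-subgroup and A a subgroup of odd order of a finite group, with A normalizing P. Let D ≤ P with 1 < |D| < |P|. If every subgroup of P of order |D|, and also every subgroup of P of order 4 in case |D| = 2, is normalized by A, then A centralizes P. -/
theorem result {X : Type*} [Group X] [Finite X] (P A D : Subgroup X) (hP : IsPGroup 2 P) (hA : Odd (Nat.card A))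
    (hAP : A ≤ Subgroup.normalizer (P : Set X)) (hDP : D ≤ P) (hD1 : 1 < Nat.card D) (hD2 : Nat.card D < Nat.card P)
    (hinv : ∀ E : Subgroup X, E ≤ P → (Nat.card E = Nat.card D ∨ (Nat.card D = 2 ∧ Nat.card E = 4)) → A ≤ Subgroup.normalizer (E : Set X)) :
    A ≤ Subgroup.centralizer (P : Set X) := by
  have h2 : Fact (Nat.Prime 2) := ⟨Nat.prime_two⟩
  obtain ⟨n, hn⟩ := hP.exists_card_eq
  obtain ⟨d, hd⟩ := (hP.to_le hDP).exists_card_eq
  rw [hd] at hD1 hD2 hinv
  rw [hn, Nat.pow_lt_pow_iff_right (by norm_num)] at hD2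
  have hup : ∀ (E : Subgroup X) (i j : ℕ), E ≤ P → Nat.card E = 2 ^ i → i ≤ j → j ≤ n →
      ∃ K : Subgroup X, E ≤ K ∧ K ≤ P ∧ Nat.card K = 2 ^ j := by
    intro E i j hE hi hij hj
    obtain ⟨K, hK, hEK⟩ := Sylow.exists_subgroup_card_pow_prime_le (G := P) 2 (n := i) (m := j)
      (hn ▸ pow_dvd_pow 2 hj) (E.subgroupOf P)
      (by rw [Nat.card_congr (Subgroup.subgroupOfEquivOfLe hE).toEquiv, hi]) hij
    refine ⟨K.map P.subtype, fun x hx => ⟨⟨x, hE hx⟩, hEK hx, rfl⟩, Subgroup.map_subtype_le K, ?_⟩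
    rw [Subgroup.card_subtype, hK]
  refine FGS.le_centralizer_of_pow_sq hP (Nat.coprime_two_right.2 hA) hAP fun x hx hx4 a ha => ?_
  obtain ⟨i, hi, hio⟩ := (Nat.dvd_prime_pow Nat.prime_two).1 (orderOf_dvd_of_pow_eq_one hx4)
  have hxP : Subgroup.zpowers x ≤ P := Subgroup.zpowers_le.2 hx
  have hd0 : d ≠ 0 := by rintro rfl; simp at hD1
  by_cases hd1 : d = 1
  · subst hd1
    rcases i with _ | i
    · rw [orderOf_eq_one_iff.1 hio, mul_one, one_mul]
    refine (FGS.le_centralizer_of_isCyclic_two (hP.to_le hxP) inferInstance hA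
      (hinv _ hxP ?_) ha x (Subgroup.mem_zpowers x)).symm
    rw [Nat.card_zpowers, hio]
    rcases i with _ | i
    · left; rfl
    · right; rw [show i = 0 by omega]; exact ⟨rfl, rfl⟩
  obtain ⟨E, hxE, hEP, hE⟩ := hup _ i d hxP (by rw [Nat.card_zpowers, hio]) (by omega) hD2.le
  suffices h : A ≤ Subgroup.centralizer (E : Set X) from
    (h ha x (hxE (Subgroup.mem_zpowers x))).symm
  by_cases hc : IsCyclic E
  · exact FGS.le_centralizer_of_isCyclic_two (hP.to_le hEP) hc hA (hinv E hEP (Or.inl hE))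
  obtain ⟨K, hEK, hKP, hK⟩ := hup E d (d + 1) hEP hE (Nat.le_succ d) hD2
  have hK2 : IsPGroup 2 K := hP.to_le hKP
  have hco : ∀ M : Subgroup K, IsCoatom M → A ≤ Subgroup.normalizer (M.map K.subtype : Set X) := by
    intro M hM
    refine hinv _ ((Subgroup.map_subtype_le M).trans hKP) (Or.inl ?_)
    have := M.card_mul_index
    rw [Grp.PFrattini.index_of_isCoatom hK2 hM, hK, pow_succ] at this
    rw [Subgroup.card_subtype]
    omega
  refine (FGS.le_centralizer_of_coatoms_two hK2 hA ?_ hco).trans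
    (Subgroup.centralizer_le (SetLike.coe_subset_coe.2 hEK))
  -- `K` is generated by its maximal subgroups
  have hnorm : ∀ a ∈ A, ∀ k ∈ K, a * k * a⁻¹ ∈ K := by
    intro a ha k hk
    rcases eq_top_or_exists_le_coatom (Subgroup.zpowers (⟨k, hk⟩ : K)) with h | ⟨M, hM, hkM⟩
    · have : IsCyclic K := isCyclic_iff_exists_zpowers_eq_top.2 ⟨_, h⟩
      exact absurd (Subgroup.isCyclic_of_le hEK) hc
    · exact Subgroup.map_subtype_le M ((Subgroup.mem_normalizer_iff.1 (hco M hM ha) k).1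
        ⟨⟨k, hk⟩, hkM (Subgroup.mem_zpowers _), rfl⟩)
  intro a ha
  rw [Subgroup.mem_normalizer_iff]
  refine fun m => ⟨hnorm a ha m, fun h => ?_⟩
  simpa [mul_assoc] using hnorm a⁻¹ (A.inv_mem ha) _ h

end Cfsg.Agent.S3803
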