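import Cfsg.Statements.S3805
import Cfsg.Agent.Char.NineD8
import Cfsg.Agent.Char.NormThree
-- import your own Cfsg.Agent.* helpers here

set_option autoImplicit false
open Cfsg

namespace Cfsg.Agent.S3805

open Cfsg.Agent.Char Cfsg.Agent.Char.Euclid Subgroup

/-- the diagonal sign action -/
def act (w : W2) (v : V2) : V2 :=
  v2 ((-1) ^ w.toAdd.1.val * v.toAdd.1) ((-1) ^ w.toAdd.2.val * v.toAdd.2)

theorem act_mul : ∀ (k : W2) (a b : V2), act k (a * b) = act k a * act k b := by decide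

theorem act_act : ∀ (k l : W2) (a : V2), act k (act l a) = act (k * l) a := by decide

theorem act_one : ∀ a : V2, act 1 a = a := by decide

theorem exists_split {G : Type*} [Group G] [Finite G] {S : Subgroup G} (hS : Nat.card S = 9)
    (h3 : ∀ s ∈ S, s ^ 3 = 1) (hC : centralizer (S : Set G) ≤ S) (κ : W2 →* G)
    (hκ : Function.Injective κ) (hκN : ∀ w, κ w ∈ normalizer (S : Set G))
    (hN : Nat.card (normalizer (S : Set G)) = 36) :
    ∃ (φ : V2 →* G) (κ' : W2 →* G), Split φ κ' act (normalizer (S : Set G)) ∧ φ.range = S := by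
  classical
  have hc : ∀ x ∈ S, ∀ y ∈ S, x * y = y * x := fun x hx y hy => congrArg Subtype.val
    ((IsPGroup.isMulCommutative_of_card_eq_prime_sq (p := 3) hS).is_comm.comm ⟨x, hx⟩ ⟨y, hy⟩)
  have hm : ∀ w, ∀ s ∈ S, κ w * s * (κ w)⁻¹ ∈ S := fun w s hs =>
    (mem_normalizer_iff.1 (hκN w) s).1 hs
  have odd : ∀ s ∈ S, s = s⁻¹ → s = 1 := fun s hs e => by
    have h2 : s ^ 2 = 1 := by rw [pow_two]; nth_rw 2 [e]; simp
    rw [← h3 s hs, pow_succ, h2, one_mul]
  have ww : ∀ w : W2, w * w = 1 := by decide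
  have faith : ∀ w, (∀ s ∈ S, κ w * s * (κ w)⁻¹ = s) → w = 1 := fun w h => by
    have h1 : κ w ∈ S := hC (mem_centralizer_iff.2 fun s hs =>
      (mul_inv_eq_iff_eq_mul.1 (h s hs)).symm)
    exact hκ (by
      rw [map_one]
      exact odd _ h1 (eq_inv_of_mul_eq_one_left (by rw [← map_mul, ww, map_one])))
  have cm : ∀ w w' s, κ (w * w') * s * (κ (w * w'))⁻¹ = κ w * (κ w' * s * (κ w')⁻¹) * (κ w)⁻¹ :=
    fun w w' s => by rw [map_mul]; group
  have inv2 : ∀ w s, κ w * (κ w * s * (κ w)⁻¹) * (κ w)⁻¹ = s := fun w s => by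
    rw [← cm, ww, map_one]; simp
  have alt : ∀ w, (∃ a ∈ S, a ≠ 1 ∧ κ w * a * (κ w)⁻¹ = a) ∨
      ∀ s ∈ S, κ w * s * (κ w)⁻¹ = s⁻¹ := fun w => by
    by_contra h
    push Not at h
    obtain ⟨h, s, hs, h2⟩ := h
    refine h (s * (κ w * s * (κ w)⁻¹)) (mul_mem hs (hm _ s hs))
      (fun e => h2 (eq_inv_of_mul_eq_one_right e)) ?_
    rw [← conj_mul, inv2, hc _ hs _ (hm _ s hs)]
  obtain ⟨w, u, hw, hu, hwu, a, haS, ha1, hwa⟩ : ∃ w u : W2, w ≠ 1 ∧ u ≠ 1 ∧ w * u ≠ 1 ∧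
      ∃ a ∈ S, a ≠ 1 ∧ κ w * a * (κ w)⁻¹ = a := by
    rcases alt (.ofAdd (1, 0)) with h | h
    · exact ⟨_, .ofAdd (0, 1), by decide, by decide, by decide, h⟩
    rcases alt (.ofAdd (0, 1)) with h' | h'
    · exact ⟨_, .ofAdd (1, 0), by decide, by decide, by decide, h'⟩
    refine absurd (faith (.ofAdd (1, 0) * .ofAdd (0, 1)) fun s hs => ?_) (by decide)
    rw [cm, h' s hs, h _ (inv_mem hs), inv_inv]
  obtain ⟨c, hcS, hc1, hwc⟩ : ∃ c ∈ S, c ≠ 1 ∧ κ w * c * (κ w)⁻¹ = c⁻¹ := by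
    by_contra h
    push Not at h
    refine hw (faith w fun s hs => by_contra fun h2 => ?_)
    refine h (s * (κ w * s * (κ w)⁻¹)⁻¹) (mul_mem hs (inv_mem (hm _ s hs)))
      (fun e => h2 (mul_inv_eq_one.1 e).symm) ?_
    rw [← conj_mul, ← conj_inv (a := (κ w * s * (κ w)⁻¹)), inv2, mul_inv_rev, inv_inv]
  have hac : Commute a c := hc a haS c hcS
  have hφ := el2_injective (h3 a haS) (h3 c hcS) hac ha1 hc1
    (fun e => ha1 (odd a haS (by rw [e, hwa] at hwc; exact hwc)))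
    (fun e => ha1 (odd a haS (by rw [e, ← conj_inv, hwa, inv_inv] at hwc; exact hwc.symm)))
  have hr := range_el2 _ _ hac hφ hS haS hcS
  set φ := el2 (h3 a haS) (h3 c hcS) hac with hφdef
  have e10 : φ (v2 1 0) = a := by rw [hφdef, el2_apply]; simp [ZMod.val_one]
  have e01 : φ (v2 0 1) = c := by rw [hφdef, el2_apply]; simp [ZMod.val_one]
  have key : ∀ (g : G) (k : W2), g * φ (v2 1 0) * g⁻¹ = φ (act k (v2 1 0)) →
      g * φ (v2 0 1) * g⁻¹ = φ (act k (v2 0 1)) → ∀ v, g * φ v * g⁻¹ = φ (act k v) :=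
    fun g k h1 h2 => V2_hom_ext (f := (MulAut.conj g).toMonoidHom.comp φ)
      (g := φ.comp (MonoidHom.mk' (act k) (act_mul k))) h1 h2
  have hw' := key (κ w) (.ofAdd (0, 1)) (by rw [e10, hwa, ← e10]; rfl)
    (by rw [e01, hwc, ← e01, ← map_inv]; rfl)
  obtain ⟨k, hk⟩ : ∃ k, ∀ v, κ u * φ v * (κ u)⁻¹ = φ (act k v) := by
    obtain ⟨x, hx⟩ : κ u * φ (v2 1 0) * (κ u)⁻¹ ∈ φ.range := hr ▸ hm _ _ (e10 ▸ haS)
    obtain ⟨y, hy⟩ : κ u * φ (v2 0 1) * (κ u)⁻¹ ∈ φ.range := hr ▸ hm _ _ (e01 ▸ hcS)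
    have h1 : act (.ofAdd (0, 1)) x = x := hφ (by
      rw [← hw', hx, ← cm, mul_comm w u, cm, hw']; rfl)
    have h2 : act (.ofAdd (0, 1)) y = y⁻¹ := hφ (by
      rw [← hw', map_inv, hy, ← cm, mul_comm w u, cm, hw', conj_inv,
        ← map_inv φ]; rfl)
    have h4 : x ≠ 1 := fun e => ha1 (by
      rw [e, map_one, e10] at hx
      simpa [mul_inv_eq_iff_eq_mul] using hx.symm)
    have h5 : y ≠ 1 := fun e => hc1 (by
      rw [e, map_one, e01] at hy
      simpa [mul_inv_eq_iff_eq_mul] using hy.symm)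
    obtain ⟨k, k1, k2⟩ : ∃ k, act k (v2 1 0) = x ∧ act k (v2 0 1) = y := by
      clear * - h1 h2 h4 h5
      revert x y
      decide
    exact ⟨k, key _ k (by rw [k1, hx]) (by rw [k2, hy])⟩
  have hwu' : ∀ v, κ (w * u) * φ v * (κ (w * u))⁻¹ = φ (act (.ofAdd (0, 1) * k) v) := fun v => by
    rw [cm, hk, hw', act_act]
  have ne : ∀ (x : W2), x ≠ 1 → ¬ ∀ v, κ x * φ v * (κ x)⁻¹ = φ (act 1 v) := fun x hx h =>
    hx (faith x fun s hs => by
      rw [← hr] at hs
      obtain ⟨v, rfl⟩ := hs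
      rw [h, act_one])
  obtain ⟨t, ht⟩ : ∃ t, ∀ v, κ t * φ v * (κ t)⁻¹ = φ (act (.ofAdd (1, 0)) v) := by
    have : ∀ k : W2, k = 1 ∨ .ofAdd (0, 1) * k = 1 ∨ k = .ofAdd (1, 0) ∨
        .ofAdd (0, 1) * k = .ofAdd (1, 0) := by decide
    rcases this k with h | h | h | h
    · exact absurd (h ▸ hk) (ne u hu)
    · exact absurd (h ▸ hwu') (ne _ hwu)
    · exact ⟨u, h ▸ hk⟩
    · exact ⟨_, h ▸ hwu'⟩
  have sq : ∀ x : W2, κ x ^ 2 = 1 := fun x => by rw [pow_two, ← map_mul, ww, map_one]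
  refine ⟨φ, fourHom (sq t) (sq w) ((Commute.all t w).map κ), Split.of_card hφ (fun x v => ?_)
    (by decide) (fun v => le_normalizer (hr ▸ ⟨v, rfl⟩))
    (fun x => mul_mem (pow_mem (hκN _) _) (pow_mem (hκN _) _)) (by rw [hN]; simp), hr⟩
  have : ∀ x : W2, x = .ofAdd (0, 0) ∨ x = .ofAdd (1, 0) ∨ x = .ofAdd (0, 1) ∨
      x = .ofAdd (1, 1) := by decide
  have e1 : (1 : ZMod 2).val = 1 := rfl
  rcases this x with rfl | rfl | rfl | rfl
  · rw [show (.ofAdd (0, 0) : W2) = 1 from rfl, act_one]; simp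
  · simpa [fourHom, e1] using ht v
  · simpa [fourHom, e1] using hw' v
  · have h1 := cm t w (φ v)
    rw [hw', ht, map_mul, act_act,
      show (.ofAdd (1, 0) * .ofAdd (0, 1) : W2) = .ofAdd (1, 1) from rfl] at h1
    simpa [fourHom, e1] using h1

theorem card_le {G : Type*} [Group G] [Finite G] {H : Subgroup G} {φ : V2 →* G} {κ : W2 →* G}
    (h : Split φ κ act H) (hN : normalizer (φ.range : Set G) ≤ H)
    (hC : ∀ t ∈ φ.range, t ≠ 1 → centralizer ({t} : Set G) ≤ H) : Nat.card G < 324 := by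
  classical
  have hV : ∀ v : V2, v ^ 3 = 1 := by decide
  have hW : ∀ w : W2, w ^ 3 = 1 → w = 1 := by decide
  have hf := fun (u : V2) (hu : u ≠ 1) => h.mem_of_conj hV hW hN hC hu
  have hP := fun (u : V2) (hu : u ≠ 1) => h.isConj_iff' (hf u hu)
  have h3 : ∀ v, φ v ^ 3 = 1 := fun v => by rw [← map_pow, hV, map_one]
  have hne : ∀ v, v ≠ 1 → φ v ≠ 1 := fun v hv e => hv (h.inj (by rw [e, map_one]))
  have q : ∀ v, IsRat (φ v) := fun v => isRat_of_cube (h3 v) (by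
    rw [← map_inv, ← show act (.ofAdd (1, 1)) v = v⁻¹ by revert v; decide]
    exact h.isConj_act _ v)
  have cc : ∀ (u : V2) (k m : ℕ), u ≠ 1 →
      (Finset.univ.filter fun v => ∃ w, act w u = v).card = k → k * m = 36 → 0 < k →
      Nat.card (centralizer ({φ u} : Set G)) = m := fun u k m hu hk hm h0 => by
    have := h.card_centralizer (hf u hu)
    rw [hk, show Nat.card V2 * Nat.card W2 = 36 by simp, ← hm] at this
    exact Nat.eq_of_mul_eq_mul_left h0 this
  have cube : ∀ {x y : G}, x ^ 3 = 1 → IsConj x y → y ^ 3 = 1 := fun hx h => by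
    obtain ⟨g, rfl⟩ := isConj_iff.1 h
    rw [conj_pow, hx]; simp
  have p : ∀ a b c, a ≠ 1 → b ≠ 1 → c ≠ 1 → (¬ (∃ w, act w a = b) ∨ ¬ ∃ w, act w b = c⁻¹) →
      pairs (φ a) (φ b) (φ c) = (Finset.univ.filter fun v : V2 => (∃ w, act w a = v) ∧
        ∃ w, act w b = v⁻¹ * c).card := fun a b c ha hb hc hn => by
    refine pairs_eq φ h.inj _ _ _ (hP _ ha) (hP _ hb) fun x y hx hy hxy => ?_
    refine mem_of_triangle hC (fun x hx => h.mem_range_of_pow hW hx) (cube (h3 _) hx)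
      (cube (h3 _) hy) (hxy ▸ h3 _) (hxy ▸ ⟨c, rfl⟩) (hxy ▸ hne _ hc) (hn.imp (fun h1 e => ?_)
        fun h1 e => ?_)
    · exact h1 ((hP _ ha _).1 ((hx.trans e).trans hy.symm))
    · exact h1 ((hP _ hb _).1 (by rw [map_inv, ← hxy]; exact hy.trans e))
  have c1 := cc (v2 1 0) 2 18 (by decide) (by decide) rfl (by norm_num)
  have c2 := cc (v2 0 1) 2 18 (by decide) (by decide) rfl (by norm_num)
  have c3 := cc (v2 1 1) 4 9 (by decide) (by decide) rfl (by norm_num)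
  have f1 := pairs_mul (q (v2 1 0)) (q (v2 1 0)) (q (v2 1 1))
  have f2 := pairs_mul (q (v2 1 0)) (q (v2 1 0)) (q (v2 0 1))
  have f3 := pairs_mul (q (v2 1 0)) (q (v2 0 1)) (q (v2 1 1))
  have f4 := pairs_mul (q (v2 1 0)) (q (v2 0 1)) (q (v2 0 1))
  rw [p _ _ _ (by decide) (by decide) (by decide) (by decide)] at f1 f2 f3 f4
  rw [show (Finset.univ.filter fun v : V2 => (∃ w, act w (v2 1 0) = v) ∧
    ∃ w, act w (v2 1 0) = v⁻¹ * v2 1 1).card = 0 by decide] at f1
  rw [show (Finset.univ.filter fun v : V2 => (∃ w, act w (v2 1 0) = v) ∧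
    ∃ w, act w (v2 1 0) = v⁻¹ * v2 0 1).card = 0 by decide] at f2
  rw [show (Finset.univ.filter fun v : V2 => (∃ w, act w (v2 1 0) = v) ∧
    ∃ w, act w (v2 0 1) = v⁻¹ * v2 1 1).card = 1 by decide, c1, c2] at f3
  rw [show (Finset.univ.filter fun v : V2 => (∃ w, act w (v2 1 0) = v) ∧
    ∃ w, act w (v2 0 1) = v⁻¹ * v2 0 1).card = 0 by decide] at f4
  have hD : ∀ χ : IrrCharacter G, ∃ D : ℤ, iv χ (φ (v2 1 1)) - iv χ (φ (v2 0 1)) = 3 * D :=
    fun χ => by
      have d1 := dvd_iv_one_sub Nat.prime_three (q (v2 1 1)) (h3 _) χ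
      have d2 := dvd_iv_one_sub Nat.prime_three (q (v2 0 1)) (h3 _) χ
      push_cast at d1 d2
      exact (by omega : (3 : ℤ) ∣ iv χ (φ (v2 1 1)) - iv χ (φ (v2 0 1)))
  choose D hD using hD
  have o : ∀ {u v : V2}, u ≠ 1 → ¬ (∃ w, act w u = v) →
      ∑ χ, iv χ (φ u) * iv χ (φ v) = 0 := fun h1 h2 =>
    sum_iv_of_not_isConj (q _) (q _) (by rwa [hP _ h1])
  have lin : ∀ f : IrrCharacter G → ℤ, 3 * ∑ χ, D χ * f χ = ∑ χ, f χ * iv χ (φ (v2 1 1)) -
      ∑ χ, f χ * iv χ (φ (v2 0 1)) := fun f => by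
    rw [Finset.mul_sum, ← Finset.sum_sub_distrib]
    exact Finset.sum_congr rfl fun χ _ => by linear_combination - f χ * hD χ
  have n1 := lin fun χ => iv χ (φ (v2 1 0))
  rw [o (by decide) (by decide), o (by decide) (by decide)] at n1
  have n2 := lin fun χ => iv χ (φ (v2 0 1))
  rw [o (by decide) (by decide), sum_iv_of_isConj (q _) (IsConj.refl _), c2] at n2
  have n3 := lin fun χ => iv χ (φ (v2 1 1))
  rw [sum_iv_of_isConj (q _) (IsConj.refl _), c3, o (by decide) (by decide)] at n3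
  have n4 := lin fun χ => iv χ 1
  rw [sum_iv_one_mul (q _) (hne _ (by decide)), sum_iv_one_mul (q _) (hne _ (by decide))] at n4
  have n5 : ∑ χ, D χ ^ 2 = 3 := by
    have := lin D
    simp only [← pow_two] at this
    push_cast at n2 n3
    omega
  have h0 : (0 : ℚ) < Nat.card G := by exact_mod_cast Nat.card_pos
  have linq : ∀ f : IrrCharacter G → ℚ, 3 * ∑ χ, (D χ * f χ) / iv χ 1 =
      ∑ χ, f χ * iv χ (φ (v2 1 1)) / iv χ 1 - ∑ χ, f χ * iv χ (φ (v2 0 1)) / iv χ 1 := fun f => by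
    rw [Finset.mul_sum, ← Finset.sum_sub_distrib]
    refine Finset.sum_congr rfl fun χ _ => ?_
    have : (iv χ (φ (v2 1 1)) - iv χ (φ (v2 0 1)) : ℚ) = 3 * D χ := by exact_mod_cast hD χ
    linear_combination - f χ / iv χ 1 * this
  obtain ⟨l, hl⟩ := prop_of_norm_three D (fun χ => iv χ 1) (fun χ => iv χ (φ (v2 1 0))) iv_one_pos
    n5 (by omega) (by omega) (by
      have := linq fun χ => iv χ (φ (v2 1 0)) * iv χ (φ (v2 1 0))
      simp only [pow_two]
      push_cast at f1 f2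
      nlinarith)
  have f5 := linq fun χ => iv χ (φ (v2 1 0)) * iv χ (φ (v2 0 1))
  have f6 : ∑ χ, (D χ * (iv χ (φ (v2 1 0)) * iv χ (φ (v2 0 1))) : ℚ) / iv χ 1 =
      l * ((∑ χ, D χ * iv χ (φ (v2 0 1)) : ℤ) : ℚ) := by
    push_cast
    rw [Finset.mul_sum]
    refine Finset.sum_congr rfl fun χ _ => ?_
    have : (iv χ 1 : ℚ) ≠ 0 := by exact_mod_cast (iv_one_pos χ).ne'
    by_cases h1 : D χ = 0
    · simp [h1]
    · rw [hl χ h1]; field_simp
  rw [show ∑ χ, D χ * iv χ (φ (v2 0 1)) = -6 by push_cast at n2; omega] at f6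
  have f7 : (Nat.card G : ℚ) * l = -18 := by
    push_cast at f3 f4 f6
    linear_combination (1 / 18) * (Nat.card G : ℚ) * (3 * f6 - f5) + (1 / 18) * (f3 - f4)
  obtain ⟨i, hi⟩ : ∃ i, D i ≠ 0 := by
    by_contra h1
    push Not at h1
    simp [h1] at n5
  have hi1 : i ≠ irrOne G := by
    rintro rfl
    have := hD (irrOne G)
    rw [iv_irrOne, iv_irrOne] at this
    omega
  have f8 : (Nat.card G : ℤ) * iv i (φ (v2 1 0)) = -18 * iv i 1 := by
    have : (Nat.card G : ℚ) * iv i (φ (v2 1 0)) = -18 * iv i 1 := by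
      rw [hl i hi, ← mul_assoc, f7]
    exact_mod_cast this
  have f9 := sq_add_sq_le_card hi1
  rw [iv_irrOne] at f9
  have h1 := iv_one_pos i
  have h2 : (0 : ℤ) < Nat.card G := by exact_mod_cast Nat.card_pos
  have h4 : iv i (φ (v2 1 0)) ≤ -1 := by nlinarith
  have h5 : (Nat.card G : ℤ) ≤ 18 * iv i 1 := by nlinarith
  have h6 : iv i 1 ≤ 17 := by nlinarith
  omega

/-- Let G be a finite group whose Sylow 3-subgroup T is elementary abelian of order 9 and self-centralizing, with N_G(T)/T a Klein four-group, and suppose that the centralizer of every nonidentity element of T lies in N_G(T). Then T is normal in G. -/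
theorem result {G : Type*} [Group G] [Finite G]
    (T : Sylow 3 G) (hT : Cfsg.IsElementaryAbelian 3 (T : Subgroup G)) (hcard : Nat.card T = 9)
    (hC : Subgroup.centralizer ((T : Subgroup G) : Set G) = T)
    [hn : ((T : Subgroup G).subgroupOf (Subgroup.normalizer ((T : Subgroup G) : Set G))).Normal]
    (hK : IsKleinFour (↥(Subgroup.normalizer ((T : Subgroup G) : Set G)) ⧸
      (T : Subgroup G).subgroupOf (Subgroup.normalizer ((T : Subgroup G) : Set G))))
    (hloc : ∀ t ∈ (T : Subgroup G), t ≠ 1 →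
      Subgroup.centralizer ({t} : Set G) ≤ Subgroup.normalizer ((T : Subgroup G) : Set G)) :
    Subgroup.normalizer ((T : Subgroup G) : Set G) = ⊤ := by
  have h1 : Nat.card ((T : Subgroup G).subgroupOf (normalizer ((T : Subgroup G) : Set G))) = 9 := by
    rw [Nat.card_congr (subgroupOfEquivOfLe le_normalizer).toEquiv, hcard]
  have h2 : ((T : Subgroup G).subgroupOf (normalizer ((T : Subgroup G) : Set G))).index = 4 := by
    rw [index_eq_card, hK.card_four]
  have h36 : Nat.card (normalizer ((T : Subgroup G) : Set G)) = 36 := by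
    rw [← ((T : Subgroup G).subgroupOf (normalizer ((T : Subgroup G) : Set G))).card_mul_index,
      h1, h2]
  obtain ⟨D, hD⟩ := exists_left_complement'_of_coprime
    (N := (T : Subgroup G).subgroupOf (normalizer ((T : Subgroup G) : Set G)))
    (by rw [h1, h2]; norm_num)
  obtain ⟨eN⟩ := IsKleinFour.nonempty_mulEquiv (G₂ := W2) (G₁ := ↥(normalizer
    ((T : Subgroup G) : Set G)) ⧸ (T : Subgroup G).subgroupOf (normalizer ((T : Subgroup G) : Set G)))
  have e := hD.QuotientMulEquiv.symm.trans eN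
  obtain ⟨φ, κ, h, hr⟩ := exists_split hcard hT.2 hC.le
    ((Subgroup.subtype _).comp ((Subgroup.subtype _).comp e.symm.toMonoidHom))
    ((Subgroup.subtype_injective _).comp ((Subgroup.subtype_injective _).comp e.symm.injective))
    (fun w => ((e.symm w : D) : Subgroup.normalizer ((T : Subgroup G) : Set G)).2) h36
  rw [← hr] at h hloc h36 ⊢
  have h3 := card_le h le_rfl hloc
  by_contra hne
  obtain ⟨g, hg⟩ : ∃ g, g ∉ normalizer (φ.range : Set G) := by
    by_contra h2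
    push Not at h2
    exact hne (eq_top_iff.2 fun g _ => h2 g)
  have hV : ∀ v : V2, v ^ 3 = 1 := by decide
  have hW : ∀ w : W2, w ^ 3 = 1 → w = 1 := by decide
  have h4 := Split.card_mul_le (φ := φ) (H := normalizer (φ.range : Set G)) (g := g) fun v hv => by
    by_contra hv1
    obtain ⟨u, hu⟩ := h.mem_range_of_pow hW hv (by rw [conj_pow, ← map_pow, hV]; simp)
    exact hg (h.mem_of_conj hV hW le_rfl hloc hv1 g u hu.symm)
  rw [h36, show Nat.card V2 = 9 by simp] at h4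
  omega

end Cfsg.Agent.S3805
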