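import Cfsg.Statements.S3814
import Cfsg.Agent.SzSq.Tri

set_option autoImplicit false
open Cfsg

namespace Cfsg.Agent.S3814

/-- A criterion for nonsolvability from element orders: let G be a finite group and σ a set of at least four primes such that for all distinct p, q ∈ σ the product pq is the order of some element of G, while for all pairwise distinct p, q, r ∈ σ no element of G has order pqr. Then G is not solvable. -/
theorem result {G : Type*} [Group G] [Finite G]
    (σ : Finset ℕ) (hσ : 4 ≤ σ.card) (hprime : ∀ p ∈ σ, p.Prime)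
    (h2 : ∀ p ∈ σ, ∀ q ∈ σ, p ≠ q → ∃ g : G, orderOf g = p * q)
    (h3 : ∀ p ∈ σ, ∀ q ∈ σ, ∀ r ∈ σ, p ≠ q → q ≠ r → p ≠ r → ∀ g : G, orderOf g ≠ p * q * r) :
    ¬ Group.IsSolvable G := by
-----
  intro hs
  obtain ⟨τ, hτ, h4⟩ := Finset.exists_subset_card_eq hσ
  refine SzSq.not_solvable_of_pairs (X := (⊤ : Subgroup G)) inferInstance h4
    (fun p hp => hprime p (hτ hp)) (fun t ht u hu htu => ?_) fun a b c ha hb hc h1 h2' h3' ab bc ac => ?_
  · obtain ⟨g, hg⟩ := h2 t (hτ ht) u (hτ hu) htu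
    exact SzSq.hasPair_of_orderOf (hprime t (hτ ht)) (hprime u (hτ hu)) (Subgroup.mem_top g) (hg ▸ dvd_rfl)
  · exact h3 _ (hτ ha) _ (hτ hb) _ (hτ hc) h1 h2' h3' _ (SzSq.orderOf_mul_three (hprime _ (hτ ha))
      (hprime _ (hτ hb)) (hprime _ (hτ hc)) h1 h2' h3' ab bc ac)

end Cfsg.Agent.S3814
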