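import Cfsg.Statements.S3819
import Cfsg.Agent.MinS.TwoGen1
import Cfsg.Agent.PLocal.PSolv

set_option autoImplicit false
open Cfsg

namespace Cfsg.Agent.S3819

open Subgroup Cfsg.Agent.PLocal Cfsg.Agent.PLocal.Amb Cfsg.Agent.TwoGen
open scoped commutatorElement

/-- ambient extension lemma for `q`-solvability -/
theorem psolv_sup {G : Type*} [Group G] [Finite G] {q : ℕ} [Fact q.Prime] {N K : Subgroup G}
    (hN : IsPSolvable q N) (hK : IsPSolvable q K) (hn : K ≤ 𝐍[N]) : IsPSolvable q ↥(K ⊔ N) := by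
  have hn' : K ⊔ N ≤ 𝐍[N] := sup_le hn le_normalizer
  have := normal_subgroupOf' hn'
  have h1 := IsPSolvable.sup_of_normal (IsPSolvable.subgroupOf hK (K ⊔ N))
    (IsPSolvable.subgroupOf hN (K ⊔ N))
  rw [← subgroupOf_sup le_sup_left le_sup_right, subgroupOf_self] at h1
  exact isPSolvable_top_iff.1 h1

theorem aux {G : Type*} [Group G] [Finite G] {q : ℕ} [Fact q.Prime] {H M : Subgroup G} {z : G}
    (hM : IsPSolvable q M) (hMH : M ≤ H) (hn : H ≤ 𝐍[M]) (hz : z ∈ H)
    (hzq : IsPGroup q (zpowers z)) :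
    ppcOf q (H ⊓ centralizer {z}) ⊓ M ≤ ppcOf q H := by
  set X := ppcOf q (H ⊓ centralizer {z}) with hX
  set L := zpowers z ⊔ M with hL
  have hLH : L ≤ H := sup_le (zpowers_le.2 hz) hMH
  have hLs : IsPSolvable q L :=
    psolv_sup hM (isPSolvable_of_isPGroup hzq) ((zpowers_le.2 hz).trans hn)
  have h1 : L ⊓ X ≤ ppcOf q L := by
    refine PCA.le_pPrimeCore_of_normal_in_centralizer (PCA.isPConstrained_of_isPSolvable hLs)
      le_sup_left hzq (coprime_of_not_dvd (Sig.not_dvd_of_le inf_le_right (not_dvd_ppcOf _))) ?_ ?_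
    · rw [Amb.centralizer_zpowers]
      exact inf_le_inf_left _ ((ppcOf_le q _).trans inf_le_right)
    · rw [Amb.centralizer_zpowers]
      exact le_normalizer_inf (inf_le_left.trans le_normalizer)
        ((inf_le_inf_right _ hLH).trans (le_normalizer_ppcOf q _))
  have h2 : ppcOf q L ⊓ M ≤ ppcOf q M :=
    le_ppcOf (Sig.not_dvd_of_le inf_le_left (not_dvd_ppcOf _)) inf_le_right
      (le_normalizer_inf (le_sup_right.trans (le_normalizer_ppcOf q L)) le_normalizer)
  have h3 : ppcOf q M ≤ ppcOf q H :=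
    le_ppcOf (not_dvd_ppcOf _) ((ppcOf_le q M).trans hMH)
      (hn.trans (GW.BT.normalizer_le_ppcOf q M))
  exact fun x hx => h3 (h2 ⟨h1 ⟨mem_sup_right hx.2, hx.1⟩, hx.2⟩)

/-- Let G be a finite group with Sylow p-subgroup P and H = O_{p'}(G), and suppose G = PH and the commutator subgroup [H, P] is solvable. Let q be a prime and z an element of q-power order of C_H(P). Then (O_{q'}(C_H(z)) ∩ O_{q'}(C_H(P))) · [O_{q'}(C_H(z)), P] ≤ O_{q'}(H). -/
theorem result {G : Type*} [Group G] [Finite G] {p : ℕ} [Fact p.Prime]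
    (P : Sylow p G) (hPH : Cfsg.pPrimeCore p G ⊔ (P : Subgroup G) = ⊤)
    (hsol : Group.IsSolvable ↥⁅Cfsg.pPrimeCore p G, (P : Subgroup G)⁆)
    {q : ℕ} [Fact q.Prime] (z : G) (hzH : z ∈ Cfsg.pPrimeCore p G) (hzP : z ∈ Subgroup.centralizer ((P : Subgroup G) : Set G))
    (hz : ∃ k : ℕ, orderOf z = q ^ k) :
    ((Cfsg.pPrimeCore q ↥(Cfsg.pPrimeCore p G ⊓ Subgroup.centralizer ({z} : Set G))).map
        (Cfsg.pPrimeCore p G ⊓ Subgroup.centralizer ({z} : Set G)).subtype ⊓
      (Cfsg.pPrimeCore q ↥(Cfsg.pPrimeCore p G ⊓ Subgroup.centralizer ((P : Subgroup G) : Set G))).map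
        (Cfsg.pPrimeCore p G ⊓ Subgroup.centralizer ((P : Subgroup G) : Set G)).subtype) ⊔
    ⁅(Cfsg.pPrimeCore q ↥(Cfsg.pPrimeCore p G ⊓ Subgroup.centralizer ({z} : Set G))).map
        (Cfsg.pPrimeCore p G ⊓ Subgroup.centralizer ({z} : Set G)).subtype, (P : Subgroup G)⁆ ≤
    (Cfsg.pPrimeCore q ↥(Cfsg.pPrimeCore p G)).map (Cfsg.pPrimeCore p G).subtype := by
  set H := pPrimeCore p G with hH
  set K := ⁅H, (P : Subgroup G)⁆ with hK
  set D := ppcOf q (H ⊓ 𝐂[(P : Subgroup G)]) with hD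
  have hPH' : (P : Subgroup G) ≤ 𝐍[H] := by rw [normalizer_eq_top]; exact le_top
  have hKH : K ≤ H := Solv.commutator_le_of_le_normalizer hPH'
  have hDH : D ≤ H := (ppcOf_le q _).trans inf_le_left
  have hHK : H ≤ 𝐍[K] := Solv.le_normalizer_commutator_left _ _
  have hcop : (Nat.card (P : Subgroup G)).Coprime (Nat.card H) :=
    Sig.cop_of_isPGroup P.isPGroup' (not_dvd_of_coprime (Grp.coprime_of_le_pPrimeCore le_rfl))
  have hdec := Solv.coprime_commutator_sup_centralizer (P : Subgroup G) H hPH' hcop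
    (Or.inl (Solv.isSolvable_of_isPGroup P.isPGroup'))
  have hn : H ≤ 𝐍[D ⊔ K] := by
    rw [← hdec]
    exact sup_le (le_sup_right.trans le_normalizer)
      (le_normalizer_sup (le_normalizer_ppcOf q _) (inf_le_left.trans hHK))
  have hM : IsPSolvable q ↥(D ⊔ K) :=
    psolv_sup isPSolvable_of_isSolvable (isPSolvable_of_coprime (coprime_ppcOf q _)) (hDH.trans hHK)
  obtain ⟨k, hk⟩ := hz
  have key := aux hM (sup_le hDH hKH) hn hzH
    (isPGroup_zpowers ⟨k, by rw [← hk, pow_orderOf_eq_one]⟩)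
  refine sup_le (le_trans (inf_le_inf_left _ le_sup_left) key) (le_trans (le_inf ?_ ?_) key)
  · refine Solv.commutator_le_of_le_normalizer (le_trans ?_ (GW.BT.normalizer_le_ppcOf q _))
    refine le_normalizer_inf hPH' ?_
    rw [← Amb.centralizer_zpowers]
    exact le_normalizer_centralizer ((le_centralizer_iff.1 (zpowers_le.2 hzP)).trans
      (centralizer_le_normalizer' _))
  · exact le_trans (commutator_mono ((ppcOf_le q _).trans inf_le_left) le_rfl) le_sup_right

end Cfsg.Agent.S3819
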