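import Cfsg.Statements.S3821
import Mathlib
import Cfsg.Agent.FGS.Conj

set_option autoImplicit false
open Cfsg

namespace Cfsg.Agent.S3821

theorem map_conj_subtype {G : Type*} [Group G] (A H : Subgroup G) (hHA : H ≤ A) (a : A) :
    ((H.subgroupOf A).map (MulAut.conj a).toMonoidHom).map A.subtype =
      H.map (MulAut.conj (a : G)).toMonoidHom := by
  ext x
  rw [FGS.mem_mapConj]
  constructor
  · rintro ⟨y, hy, rfl⟩
    rw [SetLike.mem_coe, FGS.mem_mapConj, Subgroup.mem_subgroupOf] at hy
    exact hy
  · intro hx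
    have hxA : x ∈ A := by
      have := A.mul_mem (A.mul_mem a.2 (hHA hx)) (A.inv_mem a.2)
      simpa [mul_assoc] using this
    refine ⟨⟨x, hxA⟩, ?_, rfl⟩
    rw [SetLike.mem_coe, FGS.mem_mapConj, Subgroup.mem_subgroupOf]
    exact hx

/-- Let A be a normal subgroup of the finite group G and H a subgroup of A. Then H is pronormal in G (H and gHg⁻¹ conjugate inside ⟨H, gHg⁻¹⟩ for every g ∈ G) if and only if H is pronormal in A and G = A · N_G(H). -/
theorem result {G : Type*} [Group G] [Finite G] (A H : Subgroup G) [A.Normal] (hHA : H ≤ A) :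
    Cfsg.IsPronormal H ↔ (Cfsg.IsPronormal (H.subgroupOf A) ∧ A ⊔ Subgroup.normalizer (H : Set G) = ⊤) := by
  have hsub : (H.subgroupOf A).map A.subtype = H := Subgroup.map_subgroupOf_eq_of_le hHA
  constructor
  · intro h
    refine ⟨fun a => ?_, ?_⟩
    · obtain ⟨x, hx, he⟩ := h a
      have hx' : x ∈ (H.subgroupOf A ⊔ (H.subgroupOf A).map (MulAut.conj a).toMonoidHom).map
          A.subtype := by
        rw [Subgroup.map_sup, map_conj_subtype A H hHA, hsub]; exact hx
      obtain ⟨y, hy, rfl⟩ := hx'
      refine ⟨y, hy, ?_⟩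
      apply Subgroup.map_injective A.subtype_injective
      rw [map_conj_subtype A H hHA, map_conj_subtype A H hHA]
      exact he
    · rw [eq_top_iff]
      intro g _
      obtain ⟨x, hx, he⟩ := h g
      have hxA : x ∈ A := by
        refine (sup_le hHA ?_ : _ ≤ A) hx
        rw [FGS.mapConj_le_iff']
        intro y hy
        exact Subgroup.Normal.conj_mem inferInstance _ (hHA hy) g
      have hn := FGS.mapConj_eq_mapConj_iff.1 he
      have : g = x * (x⁻¹ * g) := by group
      rw [this]
      exact Subgroup.mul_mem_sup hxA hn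
  · rintro ⟨h, htop⟩ g
    have hg : g ∈ A ⊔ Subgroup.normalizer (H : Set G) := htop ▸ Subgroup.mem_top g
    rw [← SetLike.mem_coe, Subgroup.normal_mul] at hg
    obtain ⟨a, ha, n, hn, rfl⟩ := hg
    have e : H.map (MulAut.conj (a * n)).toMonoidHom = H.map (MulAut.conj a).toMonoidHom := by
      rw [FGS.mapConj_mul, FGS.mapConj_of_mem_normalizer hn]
    simp only [e]
    obtain ⟨x, hx, he⟩ := h ⟨a, ha⟩
    refine ⟨x, ?_, ?_⟩
    · have := Subgroup.mem_map_of_mem A.subtype hx
      rw [Subgroup.map_sup, map_conj_subtype A H hHA, hsub] at this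
      exact this
    · have := congrArg (Subgroup.map A.subtype) he
      rw [map_conj_subtype A H hHA, map_conj_subtype A H hHA] at this
      exact this

end Cfsg.Agent.S3821
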