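import Cfsg.Statements.S3825
import Mathlib
import Cfsg.Agent.Grp.Card

set_option autoImplicit false
open Cfsg

namespace Cfsg.Agent.S3825


/-- Let U be a subgroup of a finite group H and w an involution of H normalizing U and commuting with exactly two elements of U, the identity and y. If V is a non-cyclic elementary abelian 2-subgroup of U containing y which is normal in U and invariant under w, then V is a Sylow 2-subgroup of U, V has order 4, and U/V is abelian. -/
theorem result {H : Type*} [Group H] [Finite H] (U : Subgroup H) (w : H) (hw : orderOf w = 2)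
    (hwU : w ∈ Subgroup.normalizer (U : Set H)) (y : H) (hy : y ≠ 1) (hyU : y ∈ U)
    (hfix : ∀ u ∈ U, w * u * w⁻¹ = u ↔ (u = 1 ∨ u = y))
    (V : Subgroup H) (hVU : V ≤ U) (hVn : (V.subgroupOf U).Normal) (hVw : ∀ v ∈ V, w * v * w⁻¹ ∈ V)
    (hVe : Cfsg.IsElementaryAbelian 2 V) (hVc : ¬ IsCyclic ↥V) (hyV : y ∈ V) :
    ¬ 2 ∣ V.relIndex U ∧ Nat.card ↥V = 4 ∧ ⁅U, U⁆ ≤ V := by
  classical
  have hw2 : w * w = 1 := by rw [← sq, ← hw, pow_orderOf_eq_one]
  have hwi : w⁻¹ = w := inv_eq_of_mul_eq_one_right hw2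
  have hww : ∀ u, w * (w * u * w⁻¹) * w⁻¹ = u := fun u => by
    calc _ = (w * w) * u * (w * w)⁻¹ := by group
      _ = u := by rw [hw2]; simp
  have hc : ∀ a ∈ V, ∀ b ∈ V, a * b = b * a := fun a ha b hb =>
    congrArg Subtype.val (hVe.1.is_comm.comm (⟨a, ha⟩ : V) ⟨b, hb⟩)
  have hsq : ∀ a ∈ V, a * a = 1 := fun a ha => by rw [← sq]; exact hVe.2 a ha
  have hyo : orderOf y = 2 := orderOf_eq_prime (hVe.2 y hyV) hy
  have hzp : ∀ u, u ∈ Subgroup.zpowers y ↔ (u = 1 ∨ u = y) := fun u => by
    constructor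
    · intro hu
      rw [mem_zpowers_iff_mem_range_orderOf, hyo] at hu
      simp only [Finset.mem_image, Finset.mem_range] at hu
      obtain ⟨k, hk, rfl⟩ := hu
      interval_cases k <;> simp
    · rintro (rfl | rfl)
      · exact Subgroup.one_mem _
      · exact Subgroup.mem_zpowers _
  let f : V →* H := MonoidHom.mk' (fun v => v * (w * v * w⁻¹)) (fun a b => by
    have := hc _ b.2 _ (hVw _ a.2)
    simp only [Subgroup.coe_mul]
    calc _ = a * (b * (w * a * w⁻¹)) * (w * b * w⁻¹) := by group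
      _ = _ := by rw [this]; group)
  have hf : ∀ v : V, f v = v * (w * v * w⁻¹) := fun _ => rfl
  have hker : f.ker = (Subgroup.zpowers y).subgroupOf V := by
    ext v
    rw [MonoidHom.mem_ker, Subgroup.mem_subgroupOf, hzp, ← hfix _ (hVU v.2), hf,
      mul_eq_one_iff_inv_eq, inv_eq_of_mul_eq_one_right (hsq _ v.2), eq_comm]
  have hran : f.range ≤ Subgroup.zpowers y := by
    rintro _ ⟨v, rfl⟩
    rw [hzp, hf, ← hfix _ (hVU (V.mul_mem v.2 (hVw _ v.2)))]
    calc _ = (w * v * w⁻¹) * (w * (w * v * w⁻¹) * w⁻¹) := by group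
      _ = _ := by rw [hww, hc _ (hVw _ v.2) _ v.2]
  have hyc : Nat.card (Subgroup.zpowers y) = 2 := by rw [Nat.card_zpowers, hyo]
  have hVc' : Nat.card V = 2 * Nat.card f.range := by
    rw [← Subgroup.index_ker, ← f.ker.card_mul_index, hker,
      Grp.card_subgroupOf_of_le (Subgroup.zpowers_le.2 hyV), hyc]
  have hr2 : Nat.card f.range = 2 := by
    have h1 := Subgroup.card_dvd_of_le hran
    rw [hyc] at h1
    rcases (Nat.dvd_prime Nat.prime_two).1 h1 with h | h
    · rw [h] at hVc'
      exact absurd (isCyclic_of_prime_card (p := 2) hVc') hVc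
    · exact h
  have hran' : f.range = Subgroup.zpowers y := Subgroup.eq_of_le_of_card_ge hran (by rw [hr2, hyc])
  let a : U ≃* U := U.normalizerMonoidHom ⟨w, hwU⟩
  have ha : ∀ u : U, (a u : H) = w * u * w⁻¹ := fun _ => rfl
  let φ : U ⧸ V.subgroupOf U →* U ⧸ V.subgroupOf U :=
    QuotientGroup.map _ _ a.toMonoidHom (fun v hv => hVw _ hv)
  have hφ : ∀ u : U, φ u = (a u : U) := fun _ => rfl
  have hinv : Function.Involutive φ := by
    intro x
    obtain ⟨u, rfl⟩ := QuotientGroup.mk_surjective x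
    rw [hφ, hφ]
    congr 1
    exact Subtype.ext (hww u)
  have hfpf : MonoidHom.FixedPointFree φ := by
    intro x hx
    obtain ⟨u, rfl⟩ := QuotientGroup.mk_surjective x
    rw [hφ, eq_comm, QuotientGroup.eq, Subgroup.mem_subgroupOf] at hx
    rw [QuotientGroup.eq_one_iff, Subgroup.mem_subgroupOf]
    set v : H := ((u⁻¹ * a u : U) : H) with hv
    have h1 : w * u * w⁻¹ = u * v := by rw [hv]; simp [ha]
    have h2 : (⟨v, hx⟩ : V) ∈ f.ker := by
      rw [MonoidHom.mem_ker, hf]
      have := hww u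
      rw [h1] at this
      calc v * (w * v * w⁻¹) = (u : H)⁻¹ * ((u * v) * (w * v * w⁻¹)) := by group
        _ = (u : H)⁻¹ * (w * (u * v) * w⁻¹) := by
          conv_lhs => rw [← h1]
          group
        _ = 1 := by rw [this]; group
    rw [hker, Subgroup.mem_subgroupOf, ← hran'] at h2
    obtain ⟨t, ht⟩ := h2
    rw [hf] at ht
    have h3 : w * (u * t) * w⁻¹ = u * t := by
      calc _ = (w * u * w⁻¹) * (w * t * w⁻¹) := by group
        _ = u * (t * ((w * t * w⁻¹) * (w * t * w⁻¹))) := by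
          rw [h1, ← show t * (w * t * w⁻¹) = v from ht]; group
        _ = _ := by rw [hsq _ (hVw _ t.2), mul_one]
    have h4 : (u : H) * t ∈ V := by
      rcases (hfix _ (U.mul_mem u.2 (hVU t.2))).1 h3 with h | h
      · rw [h]; exact V.one_mem
      · rw [h]; exact hyV
    simpa using V.mul_mem h4 (V.inv_mem t.2)
  refine ⟨?_, by rw [hVc', hr2], ?_⟩
  · have := hfpf.odd_card_of_involutive hinv
    exact this.not_two_dvd_nat
  · have : IsMulCommutative (U ⧸ V.subgroupOf U) := ⟨⟨hfpf.commute_all_of_involutive hinv⟩⟩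
    have := Subgroup.map_mono (f := U.subtype)
      (Subgroup.Normal.quotient_commutative_iff_commutator_le.1 this)
    rwa [Subgroup.map_subtype_commutator, Subgroup.map_subgroupOf_eq_of_le hVU] at this

end Cfsg.Agent.S3825
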