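import Cfsg.Statements.S3836
import Mathlib
import Cfsg.Agent.PLocal.NStable

set_option autoImplicit false
open Cfsg

namespace Cfsg.Agent.S3836

/-- Let G be a finite group that is p-stable in the normalizer form: for every p-subgroup Q and every x ∈ N_G(Q) with [Q, x, x] = 1, the image of x in N_G(Q)/C_G(Q) lies in O_p(N_G(Q)/C_G(Q)). Then every subgroup of G is p-stable in the same sense. -/
theorem result {G : Type*} [Group G] [Finite G] {p : ℕ} [Fact p.Prime] (hst : Cfsg.IsNormalizerPStable p G) (H : Subgroup G) : Cfsg.IsNormalizerPStable p ↥H := by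
  rw [PLocal.CF.isNormalizerPStable_iff] at hst ⊢
  intro P hP g hg hq
  have hN : ∀ x : H, x ∈ Subgroup.normalizer (P : Set H) ↔
      (x : G) ∈ Subgroup.normalizer (P.map H.subtype : Set G) := by
    intro x
    rw [Subgroup.mem_normalizer_iff, Subgroup.mem_normalizer_iff]
    constructor
    · intro h y
      constructor
      · rintro ⟨z, hz, rfl⟩
        exact ⟨_, (h z).1 hz, rfl⟩
      · rintro ⟨z, hz, e⟩
        refine ⟨x⁻¹ * z * x, (h _).2 (by simpa [mul_assoc] using hz), ?_⟩
        simp only [Subgroup.coe_subtype] at e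
        simp [e, mul_assoc]
    · intro h y
      have := h y
      rw [← Subgroup.mem_map_iff_mem H.subtype_injective,
        ← Subgroup.mem_map_iff_mem H.subtype_injective (x := x * y * x⁻¹)]
      exact this
  obtain ⟨D, h1, h2, h3, h4⟩ := hst (P.map H.subtype) (hP.map _) g ((hN g).1 hg) (by
    have := congrArg (Subgroup.map H.subtype) hq
    rwa [Subgroup.map_commutator, Subgroup.map_commutator, MonoidHom.map_zpowers,
      Subgroup.map_bot] at this)
  refine ⟨D.subgroupOf H, fun x hx => (hN x).2 (h1 hx), fun x hx => ?_, h3, fun x hx => ?_⟩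
  · have := h2 ((hN x).1 hx)
    rw [Subgroup.mem_normalizer_iff] at this ⊢
    exact fun y => this y
  · obtain ⟨k, hk⟩ := h4 x hx
    exact ⟨k, fun y hy => Subtype.ext (hk y ⟨y, hy, rfl⟩)⟩

end Cfsg.Agent.S3836
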