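import Cfsg.Statements.S3838
import Mathlib
import Cfsg.Agent.Transfer.Frobenius
import Cfsg.Agent.Transfer.Tate
import Cfsg.Agent.Transfer.Focal
import Cfsg.Agent.FGS.SylowCount
import Cfsg.Agent.Grp.Frattini

set_option autoImplicit false
open Cfsg

namespace Cfsg.Agent.S3838

/-- Let G be a finite group with Sylow p-subgroup P such that N_G(P) has a normal p-complement. Then N_G(Q) has a normal p-complement for every subgroup Q with [P, P] ≤ Q ≤ Φ(P). -/
theorem result {G : Type*} [Group G] [Finite G] {p : ℕ} [Fact p.Prime] (P : Sylow p G) (hN : Cfsg.HasNormalPComplement p ↥(Subgroup.normalizer ((P : Subgroup G) : Set G))) (Q : Subgroup G) (h1 : (commutator ↥(P : Subgroup G)).map (P : Subgroup G).subtype ≤ Q) (h2 : Q ≤ (frattini ↥(P : Subgroup G)).map (P : Subgroup G).subtype) : Cfsg.HasNormalPComplement p ↥(Subgroup.normalizer (Q : Set G)) := by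
  have hQP : Q ≤ P := h2.trans (Subgroup.map_subtype_le _)
  have hc : ∀ u ∈ (P : Subgroup G), ∀ x ∈ (P : Subgroup G), u * x * u⁻¹ * x⁻¹ ∈ Q :=
    fun u hu x hx => h1 ⟨_, Subgroup.commutator_mem_commutator (Subgroup.mem_top (⟨u, hu⟩ : P))
      (Subgroup.mem_top (⟨x, hx⟩ : P)), rfl⟩
  have hle : (P : Subgroup G) ≤ Subgroup.normalizer (Q : Set G) := fun u hu => by
    apply Subgroup.mem_normalizer_fintype
    intro x hx
    simpa using mul_mem (hc u hu x (hQP hx)) hx
  set H := Subgroup.normalizer (Q : Set G) with hH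
  let P' : Sylow p H := P.subtype hle
  let f := QuotientGroup.mk' (Q.subgroupOf H)
  have hf : Function.Surjective f := QuotientGroup.mk'_surjective _
  have h3 : HasNormalPComplement p (H ⧸ Q.subgroupOf H) := by
    refine Transfer.hasNormalPComplement_of_normalizer_le_centralizer (P'.mapSurjective hf) ?_
    intro γ hγ
    obtain ⟨g, rfl⟩ := hf γ
    have h4 : g ∈ f.ker ⊔ Subgroup.normalizer ((P' : Subgroup H) : Set H) :=
      FGS.comap_normalizer_map_sylow f hf P' ▸ hγ
    rw [sup_eq_right.2 (fun x hx => Subgroup.le_normalizer (by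
      rw [QuotientGroup.ker_mk'] at hx; exact hQP hx))] at h4
    have h5 : (g : G) ∈ Subgroup.normalizer ((P : Subgroup G) : Set G) := by
      apply Subgroup.mem_normalizer_fintype
      intro x hx
      exact (Subgroup.mem_normalizer_iff.1 h4 ⟨x, hle hx⟩).1 hx
    obtain ⟨u, v, hu, hv, ⟨k, hk⟩, hv', e⟩ := Transfer.exists_pPart_mul (p := p) (g : G)
    have hu' := Subgroup.zpowers_le.2 h5 hu
    have hv'' := Subgroup.zpowers_le.2 h5 hv
    have huP : u ∈ (P : Subgroup G) := by
      have : IsPGroup p (Subgroup.zpowers u) := IsPGroup.of_card_dvd_pow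
        (by rw [Nat.card_zpowers]; exact orderOf_dvd_of_pow_eq_one hk)
      have := this.inf_normalizer_sylow P
      exact (this.le ⟨Subgroup.mem_zpowers u, hu'⟩).2
    have hvC := Transfer.HasNormalPComplement.mem_centralizer_of_le hN P.2 Subgroup.le_normalizer
      hv'' hv'' hv'
    rintro _ ⟨x, hx, rfl⟩
    rw [eq_comm, ← mul_inv_eq_one, mul_inv_rev, ← mul_assoc, ← map_mul, ← map_inv, ← map_inv,
      ← map_mul, ← map_mul]
    refine (QuotientGroup.eq_one_iff _).2 ?_
    show (g : G) * x * (g : G)⁻¹ * (x : G)⁻¹ ∈ Q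
    rw [e, show u * v * x * (u * v)⁻¹ = u * (v * x) * v⁻¹ * u⁻¹ by group, ← hvC x hx]
    simpa [mul_assoc] using hc u huP x hx
  refine Transfer.hasNormalPComplement_of_inf_pResidual_le_frattini P' fun x hx => ?_
  have h4 : f x ∈ pResidual p _ ⊓ (P'.mapSurjective hf : Subgroup _) :=
    ⟨Transfer.map_pResidual_le f ⟨x, hx.1, rfl⟩, ⟨x, hx.2, rfl⟩⟩
  rw [(Transfer.hasNormalPComplement_iff_inf_eq_bot _).1 h3, Subgroup.mem_bot] at h4
  obtain ⟨y, hy, e⟩ := h2 ((QuotientGroup.eq_one_iff x).1 h4)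
  have := Grp.map_frattini_equiv (Subgroup.subgroupOfEquivOfLe hle).symm
  exact ⟨_, this.le ⟨y, hy, rfl⟩, Subtype.ext e⟩

end Cfsg.Agent.S3838
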