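import Cfsg.Statements.S3839
import Mathlib
import Cfsg.Agent.Transfer.Frobenius
import Cfsg.Agent.PLocal.RelSylow
import Cfsg.Agent.Inv.BaerSuzuki
import Cfsg.Agent.FGS.PrimePart
import Cfsg.Agent.Grp.CardProduct

set_option autoImplicit false
open Cfsg

namespace Cfsg.Agent.S3839

open Subgroup

/-- The stabilizer of the chain `B ≥ U ≥ 1`. -/
def stab {G : Type*} [Group G] (B U : Subgroup G) : Subgroup G where
  carrier := {n | n ∈ normalizer (B : Set G) ∧ (∀ y ∈ B, n * y * n⁻¹ * y⁻¹ ∈ U) ∧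
    n ∈ centralizer (U : Set G)}
  one_mem' := ⟨one_mem _, fun y _ => by simp, one_mem _⟩
  mul_mem' := by
    rintro a b ⟨a1, a2, a3⟩ ⟨b1, b2, b3⟩
    refine ⟨mul_mem a1 b1, fun y hy => ?_, mul_mem a3 b3⟩
    rw [show a * b * y * (a * b)⁻¹ * y⁻¹ = a * (b * y * b⁻¹ * y⁻¹) * a⁻¹ * (a * y * a⁻¹ * y⁻¹) by
      group, ← a3 _ (b2 y hy), mul_inv_cancel_right]
    exact mul_mem (b2 y hy) (a2 y hy)
  inv_mem' := by
    rintro a ⟨a1, a2, a3⟩
    refine ⟨inv_mem a1, fun y hy => ?_, inv_mem a3⟩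
    have := inv_mem (a2 _ ((mem_normalizer_iff.1 (inv_mem a1) y).1 hy))
    simpa [mul_assoc] using this

theorem core {G : Type*} [Group G] [Finite G] {p : ℕ} [Fact p.Prime] (S : Sylow p G)
    (D : Subgroup G) (hD : Cfsg.IsStronglyClosed D (S : Subgroup G))
    (h : ∀ U : Subgroup G, U ≤ D → D ⊓ centralizer (U : Set G) ≤ U →
      Cfsg.HasNormalPComplement p ↥(normalizer (U : Set G))) (B : Subgroup G) (hBS : B ≤ S)
    (ih : ∀ R : Subgroup G, B < R → IsPGroup p R → ∀ g ∈ normalizer (R : Set G),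
      (orderOf g).Coprime p → g ∈ centralizer (R : Set G))
    (g : G) (hg : g ∈ normalizer (B : Set G)) (hc : (orderOf g).Coprime p) :
    g ∈ centralizer (B : Set G) := by
  have hB : IsPGroup p B := S.2.to_le hBS
  set U := B ⊓ D with hU
  have hNU : normalizer (B : Set G) ≤ normalizer (U : Set G) := fun n hn => by
    apply mem_normalizer_fintype
    intro y hy
    have := (mem_normalizer_iff.1 hn y).1 hy.1
    exact ⟨this, hD.2 y hy.2 n (hBS this)⟩
  by_cases hC : D ⊓ centralizer (U : Set G) ≤ U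
  · exact Transfer.HasNormalPComplement.mem_centralizer_of_le (h U inf_le_right hC) hB
      (le_normalizer.trans hNU) (hNU hg) hg hc
  have hDS : ∀ s ∈ (S : Subgroup G), ∀ d ∈ D, s * d * s⁻¹ ∈ D := fun s hs d hd =>
    hD.2 d hd s (mul_mem (mul_mem hs (hD.1 hd)) (inv_mem hs))
  have hcU : ∀ n ∈ normalizer (B : Set G), ∀ c ∈ centralizer (U : Set G),
      n * c * n⁻¹ ∈ centralizer (U : Set G) := fun n hn c hc u hu => by
    have := hc _ ((mem_normalizer_iff.1 (inv_mem (hNU hn)) u).1 hu)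
    calc u * (n * c * n⁻¹) = n * (n⁻¹ * u * n⁻¹⁻¹ * c) * n⁻¹ := by group
      _ = _ := by rw [this]; group
  obtain ⟨x, hx1, hx2, hx3⟩ : ∃ x ∈ stab B U, x ∈ (S : Subgroup G) ∧ x ∉ B := by
    have h1 : B < (D ⊓ centralizer (U : Set G)) ⊔ B := lt_of_le_of_ne le_sup_right fun e =>
      hC (le_inf (le_sup_left.trans e.ge) inf_le_left)
    obtain ⟨t, ht, htB⟩ := SetLike.exists_of_lt (Inv.lt_inf_normalizer_of_lt_pgroup
      (S.2.to_le (sup_le (inf_le_left.trans hD.1) hBS)) h1)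
    obtain ⟨c, hc, b, hb, rfl⟩ := (Grp.mem_sup_of_le_normalizer' (fun b hb => by
      apply mem_normalizer_fintype
      exact fun c hc => ⟨hDS b (hBS hb) c hc.1, hcU b (le_normalizer hb) c hc.2⟩)).1 ht.1
    have hcN := (mul_mem_cancel_right (le_normalizer hb)).1 ht.2
    refine ⟨c, ⟨hcN, fun y hy => ⟨B.mul_mem ((mem_normalizer_iff.1 hcN y).1 hy) (B.inv_mem hy), ?_⟩,
      hc.2⟩, hD.1 hc.1, fun e => htB (mul_mem e hb)⟩
    simpa [mul_assoc] using D.mul_mem hc.1 (hDS y (hBS hy) _ (D.inv_mem hc.1))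
  have hK : normalizer (B : Set G) ≤ normalizer (stab B U : Set G) := fun n hn => by
    apply mem_normalizer_fintype
    rintro k ⟨k1, k2, k3⟩
    refine ⟨mul_mem (mul_mem hn k1) (inv_mem hn), fun y hy => ?_, hcU n hn k k3⟩
    have := (mem_normalizer_iff.1 (hNU hn) _).1 (k2 _ ((mem_normalizer_iff.1 (inv_mem hn) y).1 hy))
    simpa [mul_assoc] using this
  obtain ⟨R, h1, h2, h3, h4⟩ := PLocal.RelSylow.exists_relSylow (zpowers_le.2 hx1)
    (PLocal.RelSylow.isPGroup_zpowers_of_mem S.2 hx2)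
  obtain ⟨k, hk, e⟩ := PLocal.RelSylow.frattini h2 h3 h4 hK hg
  obtain ⟨a, ha⟩ := Transfer.exists_pow_coprime_orderOf (p := p) (k * g)
  have h5 := ih (R ⊔ B) (lt_of_le_of_ne le_sup_right fun e =>
    hx3 ((le_sup_left.trans e.ge) (h1 (mem_zpowers x))))
    (Inv.isPGroup_sup_of_le_normalizer h3 hB fun r hr => (h2 hr).1) _
    (pow_mem (normalizer_inf_normalizer_le_normalizer_sup _ _ ⟨e, mul_mem hk.1 hg⟩) _) ha
  have h6 : (k * g) ^ p ^ a ∈ stab B U :=
    ⟨pow_mem (mul_mem hk.1 hg) _, fun y hy => by rw [← h5 y (mem_sup_right hy)]; simp,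
      fun u hu => h5 u (mem_sup_right hu.1)⟩
  have h7 : ∀ m : ℕ, (k * g) ^ m * (g ^ m)⁻¹ ∈ stab B U := by
    intro m
    induction m with
    | zero => simp
    | succ m ihm =>
      rw [show (k * g) ^ (m + 1) * (g ^ (m + 1))⁻¹ = k * (g * ((k * g) ^ m * (g ^ m)⁻¹) * g⁻¹) by
        rw [pow_succ']; group]
      exact mul_mem hk ((mem_normalizer_iff.1 (hK hg) _).1 ihm)
  have h8 : g ∈ stab B U := FGS.mem_of_pow_mem_of_coprime (hc.pow_right a)
    (inv_mem_iff.1 ((mul_mem_cancel_left h6).1 (h7 _)))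
  obtain ⟨b, hb⟩ := hB.exists_card_eq
  refine FGS.mem_of_pow_mem_of_coprime (hc.pow_right b) fun y hy => ?_
  have h9 : ∀ m : ℕ, g ^ m * y * (g ^ m)⁻¹ = (g * y * g⁻¹ * y⁻¹) ^ m * y := by
    intro m
    induction m with
    | zero => simp
    | succ m ihm =>
      have := h8.2.2 _ (pow_mem (h8.2.1 y hy) m)
      calc g ^ (m + 1) * y * (g ^ (m + 1))⁻¹ = g * (g ^ m * y * (g ^ m)⁻¹) * g⁻¹ := by group
        _ = g * (g * y * g⁻¹ * y⁻¹) ^ m * y * g⁻¹ := by rw [ihm]; simp only [mul_assoc]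
        _ = _ := by rw [← this, pow_succ]; simp only [mul_assoc, inv_mul_cancel, mul_one]
  have h10 := h9 (p ^ b)
  have h11 : (g * y * g⁻¹ * y⁻¹) ^ p ^ b = 1 := by
    rw [← hb]
    exact congrArg Subtype.val (pow_card_eq_one' (x := (⟨_, (h8.2.1 y hy).1⟩ : B)))
  rw [h11, one_mul, mul_inv_eq_iff_eq_mul] at h10
  exact h10.symm

/-- A Frobenius normal p-complement criterion relative to a strongly closed subgroup. Let G be a finite group, S a Sylow p-subgroup and D a subgroup of S strongly closed in S with respect to G. Then G has a normal p-complement if and only if N_G(U) has a normal p-complement for every subgroup U of D with C_D(U) ≤ U. -/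
theorem result {G : Type*} [Group G] [Finite G] {p : ℕ} [Fact p.Prime] (S : Sylow p G) (D : Subgroup G) (hD : Cfsg.IsStronglyClosed D (S : Subgroup G)) : Cfsg.HasNormalPComplement p G ↔ ∀ U : Subgroup G, U ≤ D → D ⊓ Subgroup.centralizer (U : Set G) ≤ U → Cfsg.HasNormalPComplement p ↥(Subgroup.normalizer (U : Set G)) := by
  refine ⟨fun h U _ _ => Transfer.HasNormalPComplement.subgroup h _, fun h => ?_⟩
  rw [Transfer.hasNormalPComplement_iff_local]
  suffices ∀ (n : ℕ) (B : Subgroup G), B.index = n → IsPGroup p B → ∀ g ∈ normalizer (B : Set G),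
      (orderOf g).Coprime p → g ∈ centralizer (B : Set G) from fun B hB _ => this _ B rfl hB
  intro n
  induction n using Nat.strong_induction_on with
  | _ n ih =>
    intro B hn hB g hg hc
    obtain ⟨t, ht⟩ := PLocal.RelSylow.exists_conj_mem_sylow' S hB
    have := core S D hD h (B.map (MulAut.conj t).toMonoidHom)
      (PLocal.RelSylow.map_conj_le_iff.2 ht) (fun R hR => ih _ (by
        rw [← hn, ← index_map_equiv B (MulAut.conj t)]
        exact index_strictAnti hR) R rfl) (t * g * t⁻¹)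
      (by rw [PLocal.RelSylow.normalizer_map_conj]; exact PLocal.RelSylow.conj_mem_map_conj hg)
      (by rwa [← orderOf_injective (MulAut.conj t).toMonoidHom (MulAut.conj t).injective g] at hc)
    rw [PLocal.RelSylow.centralizer_map_conj, PLocal.RelSylow.mem_map_conj] at this
    simpa [mul_assoc] using this

end Cfsg.Agent.S3839
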