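import Cfsg.Statements.S3858
import Mathlib
import Cfsg.Agent.PLocal.RelSylow
import Cfsg.Agent.Grp.Frattini

set_option autoImplicit false
open Cfsg

namespace Cfsg.Agent.S3858

open PLocal.RelSylow in
theorem norm_ne_top {G : Type*} [Group G] [Finite G] (T : Subgroup G) [T.Normal]
    (hT : IsSimpleGroup T) (hna : ¬ IsMulCommutative T) {r : ℕ} [Fact r.Prime] (R : Sylow r G)
    (hR0 : (R : Subgroup G) ⊓ T ≠ ⊥) :
    Subgroup.normalizer (((R : Subgroup G) ⊓ T : Subgroup G) : Set G) ≠ ⊤ := by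
  intro h
  have hn : ((R : Subgroup G) ⊓ T).Normal := Subgroup.normalizer_eq_top_iff.1 h
  rcases hT.eq_bot_or_eq_top_of_normal (((R : Subgroup G) ⊓ T).subgroupOf T) inferInstance with h | h
  · rw [Subgroup.subgroupOf_eq_bot, disjoint_iff, inf_assoc, inf_idem] at h
    exact hR0 h
  · have hp : IsPGroup r T := R.2.to_le ((Subgroup.subgroupOf_eq_top.1 h).trans inf_le_left)
    have := hp.isNilpotent
    exact hna ⟨⟨IsSimpleGroup.comm_iff_isSolvable.2 inferInstance⟩⟩

open PLocal.RelSylow in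
theorem conj_le {G : Type*} [Group G] [Finite G] {r : ℕ} [Fact r.Prime] (R : Sylow r G)
    (M : Subgroup G) (hM : ¬ r ∣ M.index) :
    ∃ g : G, (R : Subgroup G) ≤ M.map (MulAut.conj g).toMonoidHom := by
  obtain ⟨Q, -, h1, h2, h3⟩ := exists_relSylow (bot_le : ⊥ ≤ M) (IsPGroup.of_bot (p := r))
  obtain ⟨S, hS⟩ := exists_sylow_eq h2 (by
    rw [← Subgroup.relIndex_mul_index h1]
    exact fun h => ((Fact.out : r.Prime).dvd_mul.1 h).elim h3 hM)
  obtain ⟨h, hh⟩ := exists_conj_mem_sylow' S R.2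
  exact ⟨h⁻¹, fun x hx => mem_map_conj.2 (h1 (hS ▸ by simpa using hh x hx))⟩

theorem isCoatom_conj {G : Type*} [Group G] {M : Subgroup G} (hM : IsCoatom M) (g : G) :
    IsCoatom (M.map (MulAut.conj g).toMonoidHom) :=
  Grp.isCoatom_map_of_ker_le _ (MulAut.conj g).surjective hM <|
    ((MonoidHom.ker_eq_bot_iff (MulAut.conj g).toMonoidHom).2 (MulAut.conj g).injective).le.trans bot_le

/-- Let G be a finite group with a normal non-abelian simple subgroup T whose centralizer is trivial (G almost simple with socle T), r a prime and R a Sylow r-subgroup of G meeting T nontrivially. Then R lies in exactly one maximal subgroup of G if and only if G has exactly one conjugacy class of maximal subgroups whose index is prime to r. -/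
theorem result {G : Type*} [Group G] [Finite G] (T : Subgroup G) [T.Normal] (hT : IsSimpleGroup T) (hna : ¬ IsMulCommutative T)
    (hC : Subgroup.centralizer (T : Set G) = ⊥) {r : ℕ} [Fact r.Prime] (R : Sylow r G) (hR0 : (R : Subgroup G) ⊓ T ≠ ⊥) :
    (∃! M : Subgroup G, IsCoatom M ∧ (R : Subgroup G) ≤ M) ↔
      ((∃ M : Subgroup G, IsCoatom M ∧ ¬ r ∣ M.index) ∧
        ∀ M₁ M₂ : Subgroup G, IsCoatom M₁ → ¬ r ∣ M₁.index → IsCoatom M₂ → ¬ r ∣ M₂.index → ∃ g : G, M₂ = M₁.map (MulAut.conj g).toMonoidHom) := by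
  have hi : ∀ M : Subgroup G, (R : Subgroup G) ≤ M → ¬ r ∣ M.index := fun M hM h =>
    R.not_dvd_index (h.trans (Subgroup.index_dvd_of_le hM))
  constructor
  · rintro ⟨M, hM, hu⟩
    refine ⟨⟨M, hM.1, hi M hM.2⟩, fun M₁ M₂ h1 h2 h3 h4 => ?_⟩
    obtain ⟨a, ha⟩ := conj_le R M₁ h2
    obtain ⟨b, hb⟩ := conj_le R M₂ h4
    refine ⟨b⁻¹ * a, ?_⟩
    rw [PLocal.RelSylow.map_conj_mul, hu _ ⟨isCoatom_conj h1 a, ha⟩,
      ← hu _ ⟨isCoatom_conj h3 b, hb⟩, ← PLocal.RelSylow.map_conj_mul, inv_mul_cancel,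
      PLocal.RelSylow.map_conj_one]
  · rintro ⟨-, h⟩
    have hN : Subgroup.normalizer ((R : Subgroup G) : Set G) ≠ ⊤ := fun e =>
      norm_ne_top T hT hna R hR0 (by
        haveI := Subgroup.normalizer_eq_top_iff.1 e
        exact Subgroup.normalizer_eq_top_iff.2 inferInstance)
    obtain ⟨M, h1, h2⟩ := (eq_top_or_exists_le_coatom _).resolve_left hN
    have hRM : (R : Subgroup G) ≤ M := Subgroup.le_normalizer.trans h2
    refine ⟨M, ⟨h1, hRM⟩, fun K hK => ?_⟩
    obtain ⟨g, hg⟩ := h M K h1 (hi M hRM) hK.1 (hi K hK.2)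
    obtain ⟨k, hk, e⟩ := PLocal.RelSylow.exists_conj_mem_sylow R hK.2
      (P := (R : Subgroup G).map (MulAut.conj g).toMonoidHom) (hg ▸ Subgroup.map_mono hRM)
      (R.2.map _)
    have h3 : k * g ∈ M := h2 (PLocal.RelSylow.mem_normalizer_of_finite fun x hx => by
      have := e _ (PLocal.RelSylow.conj_mem_map_conj (g := g) hx)
      simpa [mul_assoc] using this)
    rw [← PLocal.RelSylow.map_conj_eq_self_iff.2 (Subgroup.le_normalizer h3),
      PLocal.RelSylow.map_conj_mul, ← hg,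
      PLocal.RelSylow.map_conj_eq_self_iff.2 (Subgroup.le_normalizer hk)]

end Cfsg.Agent.S3858
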