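import Cfsg.Statements.S3859
import Mathlib
import Cfsg.Agent.PLocal.RelSylow
import Cfsg.Agent.Grp.Frattini

set_option autoImplicit false
open Cfsg

namespace Cfsg.Agent.S3859

open PLocal.RelSylow in
theorem norm_ne_top {G : Type*} [Group G] [Finite G] (T : Subgroup G) [T.Normal]
    (hT : IsSimpleGroup T) (hna : ¬ IsMulCommutative T) {r : ℕ} [Fact r.Prime] (R : Sylow r G)
    (hR0 : (R : Subgroup G) ⊓ T ≠ ⊥) :
    Subgroup.normalizer (((R : Subgroup G) ⊓ T : Subgroup G) : Set G) ≠ ⊤ := by
  intro h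
  have hn : ((R : Subgroup G) ⊓ T).Normal := Subgroup.normalizer_eq_top_iff.1 h
  rcases hT.eq_bot_or_eq_top_of_normal (((R : Subgroup G) ⊓ T).subgroupOf T) inferInstance with h | h
  · rw [Subgroup.subgroupOf_eq_bot, disjoint_iff, inf_assoc, inf_idem] at h
    exact hR0 h
  · have hp : IsPGroup r T := R.2.to_le ((Subgroup.subgroupOf_eq_top.1 h).trans inf_le_left)
    have := hp.isNilpotent
    exact hna ⟨⟨IsSimpleGroup.comm_iff_isSolvable.2 inferInstance⟩⟩


/-- Let G be a finite group with a normal non-abelian simple subgroup T whose centralizer is trivial (G almost simple with socle T), r a prime and R a Sylow r-subgroup of G meeting T nontrivially. If R lies in exactly one maximal subgroup of G, then G/T is an r-group. -/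
theorem result {G : Type*} [Group G] [Finite G] (T : Subgroup G) [T.Normal] (hT : IsSimpleGroup T) (hna : ¬ IsMulCommutative T)
    (hC : Subgroup.centralizer (T : Set G) = ⊥) {r : ℕ} [Fact r.Prime] (R : Sylow r G) (hR0 : (R : Subgroup G) ⊓ T ≠ ⊥)
    (huniq : ∃! M : Subgroup G, IsCoatom M ∧ (R : Subgroup G) ≤ M) : IsPGroup r (G ⧸ T) := by
  obtain ⟨M, hM, hu⟩ := huniq
  have key : ∀ K : Subgroup G, K ≠ ⊤ → (R : Subgroup G) ≤ K → K ≤ M := fun K hK hRK => by
    obtain ⟨M', h1, h2⟩ := (eq_top_or_exists_le_coatom K).resolve_left hK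
    exact hu M' ⟨h1, hRK.trans h2⟩ ▸ h2
  have h1 := key _ (norm_ne_top T hT hna R hR0) (fun x hx => by
    apply Subgroup.mem_normalizer_fintype
    exact fun y hy => ⟨(R : Subgroup G).mul_mem ((R : Subgroup G).mul_mem hx hy.1)
      ((R : Subgroup G).inv_mem hx), Subgroup.Normal.conj_mem inferInstance _ hy.2 _⟩)
  have h2 := Grp.frattini_argument (inf_le_right : (R : Subgroup G) ⊓ T ≤ T) R.2.to_inf_left
    (PLocal.RelSylow.sylow_inf_normal R T)
  have h3 : (R : Subgroup G) ⊔ T = ⊤ := by
    by_contra h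
    exact hM.1.1 (eq_top_iff.2 (h2.ge.trans (sup_le h1 (le_sup_right.trans (key _ h le_sup_left)))))
  have h4 : (R : Subgroup G).map (QuotientGroup.mk' T) = ⊤ := by
    have := congrArg (Subgroup.map (QuotientGroup.mk' T)) h3
    rwa [Subgroup.map_sup, QuotientGroup.map_mk'_self, sup_bot_eq,
      Subgroup.map_top_of_surjective _ (QuotientGroup.mk'_surjective T)] at this
  have h5 := R.2.map (QuotientGroup.mk' T)
  rw [h4] at h5
  exact h5.of_equiv Subgroup.topEquiv

end Cfsg.Agent.S3859
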