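import Cfsg.Statements.S3862
import Mathlib
import Cfsg.Agent.Transfer.Frobenius

set_option autoImplicit false
open Cfsg

namespace Cfsg.Agent.S3862

/-- If every 2-element of the finite group G that is conjugate to its inverse lies in the centre of G, then G has a normal 2-complement. -/
theorem result {G : Type*} [Group G] [Finite G] (h : ∀ x : G, (∃ j : ℕ, orderOf x = 2 ^ j) → IsConj x x⁻¹ → x ∈ Subgroup.center G) : Cfsg.HasNormalPComplement 2 G := by
  rw [Transfer.hasNormalPComplement_iff_local]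
  intro B hB _ g hg hc
  have key : ∀ (k : ℕ) (x : G), x ∈ B → x ^ 2 ^ k = 1 → g * x * g⁻¹ = x := by
    intro k
    induction k with
    | zero => intro x _ hx; rw [pow_zero, pow_one] at hx; simp [hx]
    | succ k ih =>
      intro x hx hk
      have h1 := ih (x ^ 2) (pow_mem hx 2) (by rw [← pow_mul, ← pow_succ', hk])
      set y := g * x * g⁻¹ with hy
      have h2 : y * y = x * x := by rw [← sq, ← sq, ← h1, hy, conj_pow]
      have hw : x⁻¹ * y ∈ B := mul_mem (inv_mem hx) ((Subgroup.mem_normalizer_iff.1 hg x).1 hx)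
      obtain ⟨j, hj⟩ := IsPGroup.iff_orderOf.1 hB ⟨_, hw⟩
      have h3 := h (x⁻¹ * y) ⟨j, by rw [← hj, Subgroup.orderOf_mk]⟩ (isConj_iff.2 ⟨x, by
        calc x * (x⁻¹ * y) * x⁻¹ = y⁻¹ * (y * y) * x⁻¹ := by group
          _ = _ := by rw [h2]; group⟩)
      set w := x⁻¹ * y with hw'
      have h4 : ∀ n : ℕ, g ^ n * x * (g ^ n)⁻¹ = x * w ^ n := by
        intro n
        induction n with
        | zero => simp
        | succ n ih =>
          have e := Subgroup.mem_center_iff.1 (pow_mem h3 n) g
          calc g ^ (n + 1) * x * (g ^ (n + 1))⁻¹ = g * (g ^ n * x * (g ^ n)⁻¹) * g⁻¹ := by group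
            _ = y * (g * w ^ n) * g⁻¹ := by rw [ih, hy]; group
            _ = x * w * (w ^ n * g) * g⁻¹ := by rw [e, hw', mul_inv_cancel_left]
            _ = x * w ^ (n + 1) := by group
      have h5 := h4 (orderOf g)
      rw [pow_orderOf_eq_one, one_mul, inv_one, mul_one, left_eq_mul,
        ← orderOf_dvd_iff_pow_eq_one] at h5
      have h6 := Transfer.eq_one_of_mem_isPGroup_of_coprime hB hw (hc.coprime_dvd_left h5)
      exact (inv_mul_eq_one.1 h6).symm
  intro x hx
  obtain ⟨k, hk⟩ := hB ⟨x, hx⟩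
  have := key k x hx (congrArg Subtype.val hk)
  rw [mul_inv_eq_iff_eq_mul] at this
  exact this.symm

end Cfsg.Agent.S3862
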