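import Cfsg.Statements.S3864
import Mathlib
import Cfsg.Agent.Inv.DihFusion

set_option autoImplicit false
open Cfsg

namespace Cfsg.Agent.S3864

/-- Let G be a finite group whose Sylow 2-subgroups are dihedral of order 2 ^ n with n ≥ 3, and count the conjugacy classes of involutions of G. Then exactly one of the following holds: there is one class of involutions and no normal subgroup of index 2; there are two classes of involutions, a normal subgroup of index 2 and none of index 4; there are three classes of involutions and G has a normal 2-complement. -/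
theorem result {G : Type*} [Group G] [Finite G] (P : Sylow 2 G) (n : ℕ) (hn : 3 ≤ n) (hdih : Nonempty (↥(P : Subgroup G) ≃* DihedralGroup (2 ^ (n - 1)))) : (Nat.card {C : ConjClasses G // ∃ g : G, ConjClasses.mk g = C ∧ orderOf g = 2} = 1 ∧ ∀ N : Subgroup G, N.Normal → N.index ≠ 2) ∨ (Nat.card {C : ConjClasses G // ∃ g : G, ConjClasses.mk g = C ∧ orderOf g = 2} = 2 ∧ (∃ N : Subgroup G, N.Normal ∧ N.index = 2) ∧ ∀ N : Subgroup G, N.Normal → N.index ≠ 4) ∨ (Nat.card {C : ConjClasses G // ∃ g : G, ConjClasses.mk g = C ∧ orderOf g = 2} = 3 ∧ Cfsg.HasNormalPComplement 2 G) := by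
  obtain ⟨e⟩ := hdih
  have hc : Nat.card {C : ConjClasses G // ∃ g : G, ConjClasses.mk g = C ∧ orderOf g = 2} =
      Nat.card {C : ConjClasses G // ∃ g : G, orderOf g = 2 ∧ ConjClasses.mk g = C} :=
    Nat.card_congr (Equiv.subtypeEquivRight fun C => by simp only [and_comm])
  rw [hc]
  obtain ⟨n, rfl⟩ := Nat.exists_eq_add_of_le' hn
  have h0 : 0 < 2 ^ n := by positivity
  rcases Inv.kleinFour_or_DC P.isPGroup' (m := 2 ^ (n + 2)) (by rw [pow_add]; omega) e with
    hK | ⟨k, -, ⟨c⟩⟩
  · have := hK.card_four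
    rw [Inv.card_of_equiv_dihedral e, show n + 3 - 1 = n + 2 from rfl, pow_add] at this
    omega
  have two : ∀ a, IsConj (c.r (2 ^ (k + 1))) (c.s a) → ¬ IsConj (c.r (2 ^ (k + 1))) (c.s (a + 1)) →
      Nat.card {C : ConjClasses G // ∃ g : G, orderOf g = 2 ∧ ConjClasses.mk g = C} = 2 ∧
        (∃ N : Subgroup G, N.Normal ∧ N.index = 2) ∧ ∀ N : Subgroup G, N.Normal → N.index ≠ 4 := by
    intro a h1 h2
    refine ⟨Inv.card_classes_eq_two _ _ _ c.orderOf_z (c.orderOf_s _) h2 fun t ht => ?_,
      ⟨_, inferInstance, c.index_pResidual_eq_two h1 h2⟩, fun N hN h4 => ?_⟩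
    · rcases c.isConj_of_orderOf_two a ht with h | h | h
      · exact Or.inl h
      · exact Or.inl (h.trans h1.symm)
      · exact Or.inr h
    · have := Subgroup.index_dvd_of_le (Transfer.pResidual_le_of_isPGroup_quotient (p := 2)
        (N := N) (IsPGroup.of_card (n := 2) h4))
      rw [h4, c.index_pResidual_eq_two h1 h2] at this
      omega
  by_cases h1 : IsConj (c.r (2 ^ (k + 1))) (c.s 0) <;>
    by_cases h2 : IsConj (c.r (2 ^ (k + 1))) (c.s (0 + 1))
  · exact Or.inl ⟨Inv.card_classes_eq_one _ _ c.orderOf_z fun t ht => c.isConj_of_all h1 h2 ht,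
      fun N _ => Inv.index_ne_two_of_pResidual_eq_top (c.pResidual_eq_top h1 h2) N⟩
  · exact Or.inr (Or.inl (two 0 h1 h2))
  · refine Or.inr (Or.inl (two _ h2 fun h => h1 (h.trans ?_)))
    have := c.isConj_s 0 1
    rwa [show (0 : ZMod (2 ^ (k + 2))) + 2 * 1 = 0 + 1 + 1 by ring] at this
  · refine Or.inr (Or.inr ⟨Inv.card_classes_eq_three _ _ _ _ c.orderOf_z (c.orderOf_s _)
      (c.orderOf_s _) h1 h2 ?_ fun t ht => c.isConj_of_orderOf_two 0 ht,
      c.hasNormalPComplement h1 h2⟩)
    simpa using c.not_isConj_s h1 0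

end Cfsg.Agent.S3864
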