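import Cfsg.Statements.S3867
import Mathlib
import Cfsg.Agent.FGS.SylowCount
import Cfsg.Agent.Grp.CardProduct

set_option autoImplicit false
open Cfsg

namespace Cfsg.Agent.S3867

theorem pow_mem_of_sup {G : Type*} [Group G] {p : ℕ} {P M : Subgroup G} [M.Normal] (hP : IsPGroup p P)
    {y : G} (hy : y ∈ P ⊔ M) : ∃ k, y ^ p ^ k ∈ M := by
  obtain ⟨x, hx, m, hm, rfl⟩ := Subgroup.mem_sup_of_normal_right.1 hy
  obtain ⟨k, hk⟩ := hP ⟨x, hx⟩
  refine ⟨k, ?_⟩
  rw [← QuotientGroup.eq_one_iff, QuotientGroup.mk_pow, QuotientGroup.mk_mul,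
    (QuotientGroup.eq_one_iff m).2 hm, mul_one, ← QuotientGroup.mk_pow,
    show x ^ p ^ k = 1 from congrArg Subtype.val hk, QuotientGroup.mk_one]

theorem key {G : Type*} [Group G] [Finite G] {p : ℕ} (P : Sylow p G) (M N : Subgroup G) [M.Normal]
    [N.Normal] (hMN : M ⊓ N = ⊥) {m n : G} (hm : m ∈ M) (hn : n ∈ N)
    (h : n * m ∈ Subgroup.normalizer ((P : Subgroup G) : Set G)) :
    m ∈ Subgroup.normalizer ((P : Subgroup G) : Set G) := by
  have h1 : IsPGroup p ((P ⊔ M) ⊓ (P ⊔ N) : Subgroup G) := by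
    rintro ⟨y, hy1, hy2⟩
    obtain ⟨a, ha⟩ := pow_mem_of_sup P.2 hy1
    obtain ⟨b, hb⟩ := pow_mem_of_sup P.2 hy2
    refine ⟨a + b, Subtype.ext ?_⟩
    show y ^ p ^ (a + b) = 1
    rw [← Subgroup.mem_bot, ← hMN]
    exact ⟨by rw [pow_add, pow_mul]; exact pow_mem ha _,
      by rw [add_comm, pow_add, pow_mul]; exact pow_mem hb _⟩
  have h2 := P.3 h1 (le_inf le_sup_left le_sup_left)
  apply Subgroup.mem_normalizer_fintype
  intro x hx
  rw [SetLike.mem_coe, ← h2]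
  refine ⟨mul_mem (mul_mem (Subgroup.mem_sup_right hm) (Subgroup.mem_sup_left hx))
    (Subgroup.mem_sup_right (inv_mem hm)), ?_⟩
  have := (Subgroup.mem_normalizer_iff.1 h x).1 hx
  rw [show m * x * m⁻¹ = n⁻¹ * (n * m * x * (n * m)⁻¹) * n by group]
  exact mul_mem (mul_mem (Subgroup.mem_sup_right (inv_mem hn)) (Subgroup.mem_sup_left this))
    (Subgroup.mem_sup_right hn)

/-- Let M and N be nontrivial normal subgroups of the finite group G with M ⊓ N trivial, and let p be a prime. Writing n(X) for the number of Sylow p-subgroups of a group X, one has n(G) · n(G/MN) = n(G/M) · n(G/N). -/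
theorem result {G : Type*} [Group G] [Finite G] (p : ℕ) [Fact p.Prime] (M N : Subgroup G) [M.Normal] [N.Normal] (hM : M ≠ ⊥) (hN : N ≠ ⊥) (hMN : M ⊓ N = ⊥) : Nat.card (Sylow p G) * Nat.card (Sylow p (G ⧸ (M ⊔ N))) = Nat.card (Sylow p (G ⧸ M)) * Nat.card (Sylow p (G ⧸ N)) := by
  obtain ⟨P⟩ : Nonempty (Sylow p G) := inferInstance
  have h1 := FGS.card_sylow_eq_quotient_mul M P
  have h2 := FGS.card_sylow_eq_quotient_mul N P
  have h3 := FGS.card_sylow_eq_quotient_mul (M ⊔ N) P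
  set X := Subgroup.normalizer ((P : Subgroup G) : Set G) with hX
  have e : X ⊓ (M ⊔ N) = X ⊓ M ⊔ X ⊓ N := by
    refine le_antisymm ?_ (sup_le (inf_le_inf_left _ le_sup_left) (inf_le_inf_left _ le_sup_right))
    rintro y ⟨hy, hy2⟩
    obtain ⟨m, hm, n, hn, rfl⟩ := Subgroup.mem_sup_of_normal_right.1 hy2
    have hn' := key P N M (by rw [inf_comm, hMN]) hn hm hy
    exact mul_mem (Subgroup.mem_sup_left ⟨(X.mul_mem_cancel_right hn').1 hy, hm⟩)
      (Subgroup.mem_sup_right ⟨hn', hn⟩)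
  have a1 := Grp.card_inf_mul_relIndex' X M
  have a2 := Grp.card_inf_mul_relIndex' X N
  have a3 := Grp.card_inf_mul_relIndex' X (M ⊔ N)
  have a4 := Grp.card_sup_of_disjoint M N hMN
  have a5 := Grp.card_mul_card_eq_of_le_normalizer (H := X ⊓ M) (K := X ⊓ N) (by
    intro y hy
    apply Subgroup.mem_normalizer_fintype
    exact fun z hz => ⟨X.mul_mem (X.mul_mem hy.1 hz.1) (X.inv_mem hy.1),
      Subgroup.Normal.conj_mem inferInstance _ hz.2 _⟩)
  rw [← e, eq_bot_iff.2 ((inf_le_inf inf_le_right inf_le_right).trans hMN.le), Subgroup.card_bot,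
    one_mul] at a5
  have a6 : X.relIndex (M ⊔ N) = X.relIndex M * X.relIndex N := by
    apply Nat.eq_of_mul_eq_mul_left (Nat.card_pos (α := (X ⊓ (M ⊔ N) : Subgroup G)))
    rw [a3, a4, ← a5, ← a1, ← a2]; ring
  have p1 : 0 < X.relIndex M := Nat.pos_of_ne_zero Subgroup.index_ne_zero_of_finite
  have p2 : 0 < X.relIndex N := Nat.pos_of_ne_zero Subgroup.index_ne_zero_of_finite
  apply Nat.eq_of_mul_eq_mul_right (mul_pos p1 p2)
  rw [mul_assoc, ← a6, ← h3, a6, mul_mul_mul_comm, ← h1, ← h2]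

end Cfsg.Agent.S3867
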