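import Cfsg.Statements.S3878
import Mathlib
import Cfsg.Agent.Class.PSL2Dickson
import Cfsg.Agent.Class.PSL2Small

set_option autoImplicit false
open Cfsg

namespace Cfsg.Agent.S3878

open Matrix MatrixGroups Cfsg.Agent.Class.Dickson in
theorem no_hall {π : Set ℕ} {p q r l : ℕ} (hp : p.Prime) (hq : q.Prime) (hr : r.Prime)
    [hl : Fact l.Prime] (hl2 : 2 < l) (hpπ : p ∈ π) (hqπ : q ∈ π) (hrπ : r ∉ π)
    (h1 : p ^ 7 ∣ l - 1) (h2 : r ^ 2 ∣ l - 1) (h3 : q ^ 7 ∣ l + 1) :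
    ¬ IsEPiGroup π PSL(2, ZMod l) := by
  rintro ⟨H, hH1, hH2⟩
  have hodd : Odd l := hl.out.odd_of_ne_two (by omega)
  obtain ⟨m, hm⟩ := hodd
  have hcF : Nat.card (ZMod l) = l := Nat.card_zmod l
  have hcF' : Fintype.card (ZMod l) = l := ZMod.card l
  have hg : Nat.gcd 2 (l - 1) = 2 := by
    have : l - 1 = 2 * m := by omega
    rw [this]; simp
  have hsq : l ^ 2 - 1 = (l + 1) * (l - 1) := by
    have := Nat.sq_sub_sq l 1
    simpa using this
  have hG : 2 * Nat.card PSL(2, ZMod l) = l * ((l + 1) * (l - 1)) := by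
    have := gcd_mul_card_PSL2 (K := ZMod l)
    rw [hcF, hg, hsq] at this
    exact this
  have key : ∀ s : ℕ, s.Prime → s ∈ π → s ^ 7 ∣ l * ((l + 1) * (l - 1)) → s ^ 6 ∣ Nat.card H := by
    intro s hs hsπ hd
    rw [← hG] at hd
    have h6 : s ^ 6 ∣ Nat.card PSL(2, ZMod l) := by
      by_cases h2s : s = 2
      · subst h2s
        rw [pow_succ'] at hd
        exact Nat.dvd_of_mul_dvd_mul_left (by norm_num) hd
      · have hc : (s ^ 7).Coprime 2 :=
          Nat.Coprime.pow_left _ ((Nat.coprime_primes hs Nat.prime_two).2 h2s)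
        exact (pow_dvd_pow s (by norm_num)).trans (hc.dvd_of_dvd_mul_left hd)
    rw [← H.card_mul_index] at h6
    exact (Nat.Coprime.pow_left _ ((Nat.Prime.coprime_iff_not_dvd hs).2
      (hH2 s hs hsπ))).dvd_of_dvd_mul_right h6
  have hp6 : p ^ 6 ∣ Nat.card H :=
    key p hp hpπ (Dvd.dvd.mul_left (Dvd.dvd.mul_left h1 _) _)
  have hq6 : q ^ 6 ∣ Nat.card H :=
    key q hq hqπ (Dvd.dvd.mul_left (Dvd.dvd.mul_right h3 _) _)
  have hp1 : p ^ 6 ∣ l - 1 := (pow_dvd_pow p (by norm_num)).trans h1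
  have hq1 : q ^ 6 ∣ l + 1 := (pow_dvd_pow q (by norm_num)).trans h3
  have big : ∀ s : ℕ, s.Prime → 64 ≤ s ^ 6 := fun s hs =>
    calc 64 = 2 ^ 6 := by norm_num
      _ ≤ s ^ 6 := Nat.pow_le_pow_left hs.two_le 6
  have nd2 : ∀ s : ℕ, s.Prime → ¬ s ^ 6 ∣ 2 := fun s hs h => by
    have := Nat.le_of_dvd (by norm_num) h
    have := big s hs
    omega
  have hr' : ¬ r ∣ Nat.card H := fun h => hrπ (hH1 r hr h)
  have small : ∀ n : ℕ, 0 < n → n ≤ 60 → Nat.card H ≠ n := fun n h0 hn e => by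
    have := Nat.le_of_dvd (e ▸ h0) hp6
    have := big p hp
    omega
  have case2 : ¬ (Nat.card H ∣ l + 1 ∨ Nat.card H ∣ l - 1) := by
    rintro (h | h)
    · apply nd2 p hp
      have := Nat.dvd_sub (hp6.trans h) hp1
      rwa [show l + 1 - (l - 1) = 2 by omega] at this
    · apply nd2 q hq
      have := Nat.dvd_sub hq1 (hq6.trans h)
      rwa [show l + 1 - (l - 1) = 2 by omega] at this
  rcases dickson_PSL2 H with ⟨x, hx⟩ | ⟨n, hn, hc⟩ | ⟨⟨e⟩⟩ | ⟨⟨e⟩⟩ | ⟨⟨e⟩⟩ | ⟨L, h, hL⟩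
  · have h4 := gcd_mul_card_stabilizer x
    rw [hcF, hg] at h4
    have h5 : q ^ 6 ∣ l * (l - 1) := by
      rw [← h4]
      exact Dvd.dvd.mul_left (hq6.trans (Subgroup.card_dvd_of_le hx)) _
    apply nd2 q hq
    have e : l * (l - 1) = (l + 1) * (l - 2) + 2 := by
      obtain ⟨k, rfl⟩ : ∃ k, l = k + 2 := ⟨l - 2, by omega⟩
      simp only [show k + 2 - 1 = k + 1 by omega, show k + 2 - 2 = k by omega]
      ring
    rw [e] at h5
    exact (Nat.dvd_add_right (Dvd.dvd.mul_right hq1 _)).1 h5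
  · rw [hcF', hg] at hn
    apply case2
    have h2n : Nat.card H ∣ 2 * n := by
      rcases hc with ⟨-, hc⟩ | ⟨⟨e⟩⟩
      · rw [hc]; exact Dvd.intro_left _ rfl
      · rw [Nat.card_congr e.toEquiv, DihedralGroup.nat_card]
    rcases hn with hn | hn
    · left
      refine h2n.trans ?_
      have : l + 1 = 2 * ((l + 1) / 2) := by omega
      rw [this]; exact Nat.mul_dvd_mul_left 2 hn
    · right
      refine h2n.trans ?_
      have : l - 1 = 2 * ((l - 1) / 2) := by omega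
      rw [this]; exact Nat.mul_dvd_mul_left 2 hn
  · apply small 12 (by norm_num) (by norm_num)
    rw [Nat.card_congr e.toEquiv, Nat.card_eq_fintype_card, card_alternatingGroup]
    simp [Nat.factorial]
  · apply small 24 (by norm_num) (by norm_num)
    rw [Nat.card_congr e.toEquiv, Nat.card_eq_fintype_card, Fintype.card_perm]
    simp [Nat.factorial]
  · apply small 60 (by norm_num) (by norm_num)
    rw [Nat.card_congr e.toEquiv, Nat.card_eq_fintype_card, card_alternatingGroup]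
    simp [Nat.factorial]
  · have hLt : L = ⊤ := by
      rw [eq_top_iff]
      intro x _
      obtain ⟨k, rfl⟩ := ZMod.natCast_zmod_surjective x
      exact natCast_mem L k
    have hcL : Nat.card L = l := by
      rw [hLt]
      exact (Nat.card_congr Subfield.topEquiv.toEquiv).trans hcF
    have hr1 : r ∣ l - 1 := (Dvd.intro_left (r ^ 1) (by ring)).trans h2
    apply hr'
    rcases hL with hL | ⟨-, hL⟩
    · obtain ⟨e⟩ := nonempty_equiv_of_map_eq_pgl hL
      rw [Nat.card_congr e.toEquiv, card_PGL2, hcL, hsq]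
      exact Dvd.dvd.mul_left (Dvd.dvd.mul_left hr1 _) _
    · obtain ⟨e⟩ := nonempty_equiv_of_map_eq_psl hL
      rw [Nat.card_congr e.toEquiv]
      have h5 := gcd_mul_card_PSL2 (K := L)
      rw [hcL, hg, hsq] at h5
      have h6 : r ^ 2 ∣ 2 * Nat.card PSL(2, L) := by
        rw [h5]; exact Dvd.dvd.mul_left (Dvd.dvd.mul_left h2 _) _
      by_cases h2r : r = 2
      · subst h2r
        rw [pow_two] at h6
        exact Nat.dvd_of_mul_dvd_mul_left (by norm_num) h6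
      · have hc : r.Coprime 2 := (Nat.coprime_primes hr Nat.prime_two).2 h2r
        exact hc.dvd_of_dvd_mul_left ((Dvd.intro_left (r ^ 1) (by ring)).trans h6)

theorem exists_prime {p q r : ℕ} (hp : p.Prime) (hq : q.Prime) (hr : r.Prime) (hpq : p ≠ q)
    (hrq : r ≠ q) (hrp : r ≠ p) :
    ∃ l : ℕ, l.Prime ∧ 2 < l ∧ p ^ 7 ∣ l - 1 ∧ r ^ 2 ∣ l - 1 ∧ q ^ 7 ∣ l + 1 := by
  have c1 : (p ^ 7).Coprime (r ^ 2) :=
    Nat.Coprime.pow _ _ ((Nat.coprime_primes hp hr).2 hrp.symm)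
  have c2 : (p ^ 7 * r ^ 2).Coprime (q ^ 7) :=
    Nat.Coprime.mul_left (Nat.Coprime.pow _ _ ((Nat.coprime_primes hp hq).2 hpq))
      (Nat.Coprime.pow _ _ ((Nat.coprime_primes hr hq).2 hrq))
  have hq7 : 0 < q ^ 7 := pow_pos hq.pos 7
  obtain ⟨a, ha1, ha2⟩ := Nat.chineseRemainder c2 1 (q ^ 7 - 1)
  have hA : a.Coprime (p ^ 7 * r ^ 2) := by
    rw [Nat.Coprime, ha1.gcd_eq]; simp
  have hB : a.Coprime (q ^ 7) := by
    rw [Nat.Coprime, ha2.gcd_eq]
    have : (q ^ 7 - 1).Coprime (q ^ 7 - 1 + 1) := by simp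
    rwa [Nat.sub_add_cancel hq7] at this
  have hne : p ^ 7 * r ^ 2 * q ^ 7 ≠ 0 :=
    mul_ne_zero (mul_ne_zero (pow_ne_zero _ hp.ne_zero) (pow_ne_zero _ hr.ne_zero)) hq7.ne'
  obtain ⟨l, hl2, hl, hla⟩ := Nat.forall_exists_prime_gt_and_modEq 2 hne (Nat.Coprime.mul_right hA hB)
  have m1 : l ≡ 1 [MOD p ^ 7 * r ^ 2] := (hla.of_mul_right _).trans ha1
  have m2 : l ≡ q ^ 7 - 1 [MOD q ^ 7] := (hla.of_mul_left _).trans ha2
  have d1 : p ^ 7 * r ^ 2 ∣ l - 1 := (Nat.modEq_iff_dvd' (by omega)).1 m1.symm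
  refine ⟨l, hl, hl2, (Dvd.intro _ rfl).trans d1, (Dvd.intro_left _ rfl).trans d1, ?_⟩
  have m3 : l + 1 ≡ q ^ 7 - 1 + 1 [MOD q ^ 7] := m2.add_right 1
  rw [Nat.sub_add_cancel hq7] at m3
  exact (Nat.modEq_zero_iff_dvd).1 (m3.trans (Nat.modEq_zero_iff_dvd.2 dvd_rfl))

theorem e_of_d {π : Set ℕ} {G : Type} [Group G] [Finite G] (h : IsDPiGroup π G) :
    IsEPiGroup π G := by
  have hb : IsPiSubgroup π (⊥ : Subgroup G) := fun p hp hd => by
    rw [Subgroup.card_bot] at hd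
    exact absurd (Nat.dvd_one.1 hd) hp.one_lt.ne'
  obtain ⟨H, -, hH⟩ := Finite.exists_le_maximal hb
  refine ⟨H, hH.prop, fun p hp hpπ hd => ?_⟩
  haveI := Fact.mk hp
  obtain ⟨P⟩ : Nonempty (Sylow p G) := inferInstance
  have hP : IsPiSubgroup π (P : Subgroup G) := fun s hs hsd => by
    obtain ⟨n, hn⟩ := IsPGroup.iff_card.1 P.isPGroup'
    rw [hn] at hsd
    rwa [(Nat.prime_dvd_prime_iff_eq hs hp).1 (hs.dvd_of_dvd_pow hsd)]
  obtain ⟨K, hPK, hK⟩ := Finite.exists_le_maximal hP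
  obtain ⟨g, hg⟩ := h H K hH hK
  have hi : K.index = H.index := by
    rw [hg]
    exact Subgroup.index_map_equiv H (MulAut.conj g)
  exact P.not_dvd_index ((hi ▸ hd : p ∣ K.index).trans (Subgroup.index_dvd_of_le hPK))

theorem d_of_cond {π : Set ℕ}
    (h : (∀ p q : ℕ, p.Prime → q.Prime → p ∈ π → q ∈ π → p = q) ∨ ∀ p : ℕ, p.Prime → p ∈ π)
    (G : Type) [Group G] [Finite G] : IsDPiGroup π G := by
  intro H K hH hK
  rcases h with h | h
  · by_cases hex : ∃ p : ℕ, p.Prime ∧ p ∈ π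
    · obtain ⟨p, hp, hpπ⟩ := hex
      haveI := Fact.mk hp
      have iff : ∀ X : Subgroup G, IsPiSubgroup π X ↔ IsPGroup p X := by
        intro X
        constructor
        · intro hX
          rw [IsPGroup.iff_card]
          refine ⟨_, Nat.eq_prime_pow_of_unique_prime_dvd Nat.card_pos.ne' ?_⟩
          intro s hs hsd
          exact h s p hs hp (hX s hs hsd) hpπ
        · intro hX s hs hsd
          obtain ⟨n, hn⟩ := IsPGroup.iff_card.1 hX
          rw [hn] at hsd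
          rwa [(Nat.prime_dvd_prime_iff_eq hs hp).1 (hs.dvd_of_dvd_pow hsd)]
      have syl : ∀ X : Subgroup G, Maximal (IsPiSubgroup π) X → ∃ P : Sylow p G, (P : Subgroup G) = X := by
        intro X hX
        obtain ⟨P, hP⟩ := ((iff X).1 hX.prop).exists_le_sylow
        exact ⟨P, (hX.eq_of_le ((iff _).2 P.isPGroup') hP).symm⟩
      obtain ⟨P, rfl⟩ := syl H hH
      obtain ⟨Q, rfl⟩ := syl K hK
      obtain ⟨g, rfl⟩ := MulAction.exists_smul_eq G P Q
      exact ⟨g, rfl⟩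
    · push Not at hex
      have triv : ∀ X : Subgroup G, IsPiSubgroup π X → X = ⊥ := by
        intro X hX
        rw [← Subgroup.card_eq_one]
        by_contra hne
        obtain ⟨s, hs, hsd⟩ := Nat.exists_prime_and_dvd hne
        exact hex s hs (hX s hs hsd)
      refine ⟨1, ?_⟩
      rw [triv H hH.prop, triv K hK.prop, Subgroup.map_bot]
  · have ht : IsPiSubgroup π (⊤ : Subgroup G) := fun s hs _ => h s hs
    refine ⟨1, ?_⟩
    rw [hH.eq_of_le ht le_top, hK.eq_of_le ht le_top]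
    exact (Subgroup.map_top_of_surjective _ (MulAut.conj (1 : G)).surjective).symm

theorem cond_of_e {π : Set ℕ} (h : ∀ (G : Type) [Group G] [Finite G], IsEPiGroup π G) :
    (∀ p q : ℕ, p.Prime → q.Prime → p ∈ π → q ∈ π → p = q) ∨ ∀ p : ℕ, p.Prime → p ∈ π := by
  by_contra hc
  push Not at hc
  obtain ⟨⟨p, q, hp, hq, hpπ, hqπ, hpq⟩, r, hr, hrπ⟩ := hc
  obtain ⟨l, hl, hl2, h1, h2, h3⟩ := exists_prime hp hq hr hpq (fun e => hrπ (e ▸ hqπ))
    (fun e => hrπ (e ▸ hpπ))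
  haveI := Fact.mk hl
  exact no_hall hp hq hr hl2 hpπ hqπ hrπ h1 h2 h3 (h _)

/-- For a set of primes π the following are equivalent: every finite group has a Hall π-subgroup; in every finite group the maximal π-subgroups are pairwise conjugate; π contains at most one prime or contains every prime. -/
theorem result (π : Set ℕ) :
    ((∀ (G : Type) [Group G] [Finite G], Cfsg.IsEPiGroup π G) ↔
      ((∀ p q : ℕ, p.Prime → q.Prime → p ∈ π → q ∈ π → p = q) ∨ ∀ p : ℕ, p.Prime → p ∈ π)) ∧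
    ((∀ (G : Type) [Group G] [Finite G], Cfsg.IsDPiGroup π G) ↔
      ((∀ p q : ℕ, p.Prime → q.Prime → p ∈ π → q ∈ π → p = q) ∨ ∀ p : ℕ, p.Prime → p ∈ π)) := by
  refine ⟨⟨cond_of_e, fun h G _ _ => e_of_d (d_of_cond h G)⟩,
    ⟨fun h => cond_of_e fun G _ _ => e_of_d (h G), fun h G _ _ => d_of_cond h G⟩⟩

end Cfsg.Agent.S3878
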