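import Cfsg.Statements.S3881
import Mathlib
import Cfsg.Agent.FGS.Metacyclic2

set_option autoImplicit false
open Cfsg

namespace Cfsg.Agent.S3881

/-- Let p be an odd prime and G a finite metacyclic p-group (G has a cyclic normal subgroup with cyclic quotient). Suppose G is non-abelian with |G'| = p^n. Then for 1 ≤ i ≤ n the number of elements of G whose conjugacy class has exactly p^i elements is |Z(G)| · (p^(2i) − p^(2i−2)). -/
theorem result {G : Type*} [Group G] [Finite G] {p : ℕ} [Fact p.Prime] (hp : p ≠ 2) (hG : IsPGroup p G) (hmc : Cfsg.IsMetacyclic G) (n : ℕ) (hn : n ≠ 0) (hGn : Nat.card ↥(commutator G) = p ^ n) (i : ℕ) (hi : 1 ≤ i) (hin : i ≤ n) :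
    Nat.card {g : G // (Subgroup.centralizer ({g} : Set G)).index = p ^ i} =
      Nat.card ↥(Subgroup.center G) * (p ^ (2 * i) - p ^ (2 * i - 2)) := by
  obtain ⟨D⟩ := FGS.MC.exists_data hG hmc
  have hp' : p.Prime := Fact.out
  have hn' : D.n = n := Nat.pow_right_injective hp'.two_le (D.card_commutator.symm.trans hGn)
  subst hn'
  obtain ⟨j, rfl⟩ : ∃ j, i = j + 1 := ⟨i - 1, by omega⟩
  have h1 := D.card_c_mem hp {v | addOrderOf v = p ^ (j + 1)}
  simp only [D.index_centralizer hp]
  refine h1.trans ?_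
  rw [mul_comm]
  congr 1
  have e : {v : ZMod (p ^ D.n) × ZMod (p ^ D.n) | addOrderOf v = p ^ (j + 1)} =
      {v | p ^ (j + 1) • v = 0} \ {v | p ^ j • v = 0} := by
    ext v
    simp only [Set.mem_setOf_eq, Set.mem_diff, D.nsmul_eq_zero_iff]
    obtain ⟨k, -, hk⟩ := D.exists_addOrderOf v
    rw [hk, Nat.pow_le_pow_iff_right hp'.one_lt, Nat.pow_le_pow_iff_right hp'.one_lt,
      (Nat.pow_right_injective hp'.two_le).eq_iff]
    omega
  rw [e, Nat.card_coe_set_eq, Set.ncard_diff (fun v hv => by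
    simp only [Set.mem_setOf_eq] at hv ⊢
    rw [pow_succ', mul_smul, hv, smul_zero]), ← Nat.card_coe_set_eq, ← Nat.card_coe_set_eq]
  have a1 := FGS.MC.card_torsion (p := p) hin
  have a2 := FGS.MC.card_torsion (p := p) (show j ≤ D.n by omega)
  rw [show 2 * (j + 1) - 2 = 2 * j by omega, ← a1, ← a2]
  rfl

end Cfsg.Agent.S3881
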