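import Cfsg.Statements.S3883
import Mathlib
import Cfsg.Agent.FGS.Metacyclic2

set_option autoImplicit false
open Cfsg

namespace Cfsg.Agent.S3883

/-- Let p be an odd prime and G a finite metacyclic p-group (G has a cyclic normal subgroup with cyclic quotient). Suppose G is non-abelian. Then an element g of G lies outside the Frattini subgroup if and only if its centralizer C_G(g) is abelian. -/
theorem result {G : Type*} [Group G] [Finite G] {p : ℕ} [Fact p.Prime] (hp : p ≠ 2) (hG : IsPGroup p G) (hmc : Cfsg.IsMetacyclic G) (hna : ¬ IsMulCommutative G) (g : G) :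
    g ∉ frattini G ↔ IsMulCommutative ↥(Subgroup.centralizer ({g} : Set G)) := by
  obtain ⟨D⟩ := FGS.MC.exists_data hG hmc
  have hp' : p.Prime := Fact.out
  have hn := D.n_ne_zero hp hna
  have hF : frattini G = Subgroup.closure {x : G | ∃ y : G, y ^ p ^ 1 = x} := by
    apply le_antisymm
    · rw [Grp.PFrattini.frattini_le_iff hG]
      refine ⟨?_, fun g => Subgroup.subset_closure ⟨g, by rw [pow_one]⟩⟩
      rw [D.commutator_eq, Subgroup.zpowers_le]
      obtain ⟨s, hs⟩ := D.dvd
      exact Subgroup.subset_closure ⟨D.a ^ s, by rw [pow_one, hs, ← pow_mul, mul_comm]⟩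
    · rw [Subgroup.closure_le]
      rintro _ ⟨y, rfl⟩
      rw [pow_one]
      exact Grp.PFrattini.pow_mem_frattini hG y
  rw [hF, D.mem_agemo_iff hp (by omega), D.nsmul_eq_zero_iff, FGS.MC.comm_iff_card_le hp hG hmc]
  have h1 := (Subgroup.centralizer ({g} : Set G)).card_mul_index
  have h2 := (commutator G).index_mul_card
  rw [D.index_centralizer hp] at h1
  rw [D.card_commutator] at h2
  obtain ⟨k, hk, e⟩ := D.exists_addOrderOf (D.c g)
  rw [e] at h1 ⊢
  rw [Nat.pow_le_pow_iff_right hp'.one_lt]
  constructor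
  · intro h
    have : k = D.n := by omega
    subst this
    exact (Nat.eq_of_mul_eq_mul_right (pow_pos hp'.pos _) (h1.trans h2.symm)).le
  · intro h h3
    have h4 : p ^ k < p ^ D.n := Nat.pow_lt_pow_right hp'.one_lt (by omega)
    have h5 : 0 < (commutator G).index := Nat.pos_of_ne_zero Subgroup.index_ne_zero_of_finite
    have h6 := Nat.mul_le_mul_right (p ^ k) h
    have h7 := Nat.mul_lt_mul_of_pos_left h4 h5
    omega

end Cfsg.Agent.S3883
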