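import Cfsg.Statements.S3884
import Mathlib
import Cfsg.Agent.FGS.Metacyclic2

set_option autoImplicit false
open Cfsg

namespace Cfsg.Agent.S3884

open Subgroup FGS.MC in
theorem pow_formula {G : Type*} [Group G] {p : ℕ} [Fact p.Prime] (D : Data p G) (i j k : ℕ) :
    (D.a ^ i * D.b ^ j) ^ k = D.a ^ (i * phi (D.t * phi D.t j) k) * D.b ^ (j * k) := by
  induction k with
  | zero => simp [phi_zero]
  | succ k ih => rw [pow_succ, ih, D.mul_eq, phi_succ, ← one_add_pow, ← pow_mul, mul_add, mul_add,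
      mul_one]

theorem exists_solve {p : ℕ} [hp : Fact p.Prime] (m u w : ℕ) (hu : ¬ p ∣ u) :
    ∃ i : ℕ, p ^ m ∣ i * u + w := by
  haveI : NeZero (p ^ m) := ⟨pow_ne_zero _ hp.out.ne_zero⟩
  obtain ⟨v, hv⟩ : IsUnit (u : ZMod (p ^ m)) := by
    rw [ZMod.isUnit_iff_coprime]
    exact Nat.Coprime.pow_right m ((Nat.Prime.coprime_iff_not_dvd hp.out).2 hu).symm
  refine ⟨(-(w : ZMod (p ^ m)) * ↑v⁻¹).val, ?_⟩
  rw [← ZMod.natCast_eq_zero_iff]
  push_cast
  rw [ZMod.natCast_zmod_val, ← hv]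
  simp

open Subgroup Pointwise in
theorem finish {G : Type*} [Group G] [Finite G] (x y : G)
    (h : ∀ g : G, ∃ i j : ℤ, g = x ^ i * y ^ j) (hle : orderOf x * orderOf y ≤ Nat.card G) :
    ∃ A B : Subgroup G, IsCyclic ↥A ∧ IsCyclic ↥B ∧ A ⊓ B = ⊥ ∧
      Nat.card ↥A * Nat.card ↥B = Nat.card G := by
  have h1 := Grp.card_mul_card_eq (zpowers x) (zpowers y)
  have h2 : (zpowers x : Set G) * (zpowers y : Set G) = Set.univ := by
    rw [Set.eq_univ_iff_forall]
    intro g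
    obtain ⟨i, j, rfl⟩ := h g
    exact ⟨_, ⟨i, rfl⟩, _, ⟨j, rfl⟩, rfl⟩
  rw [h2, Nat.card_univ] at h1
  have h3 : 0 < Nat.card G := Nat.card_pos
  have h4 : 0 < Nat.card (zpowers x ⊓ zpowers y : Subgroup G) := Nat.card_pos
  have h5 : Nat.card (zpowers x ⊓ zpowers y : Subgroup G) = 1 := by
    rw [Nat.card_zpowers, Nat.card_zpowers] at h1
    nlinarith
  exact ⟨zpowers x, zpowers y, inferInstance, inferInstance, card_eq_one.1 h5, by
    rw [h1, h5, one_mul]⟩

/-- Let p be an odd prime and G a finite metacyclic p-group (G has a cyclic normal subgroup with cyclic quotient). Then G is the product of two cyclic subgroups with trivial intersection: there are cyclic subgroups A and B with A ∩ B = 1 and |A| · |B| = |G|. -/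
theorem result {G : Type*} [Group G] [Finite G] {p : ℕ} [Fact p.Prime] (hp : p ≠ 2) (hG : IsPGroup p G) (hmc : Cfsg.IsMetacyclic G) : ∃ A B : Subgroup G, IsCyclic ↥A ∧ IsCyclic ↥B ∧ A ⊓ B = ⊥ ∧ Nat.card ↥A * Nat.card ↥B = Nat.card G := by
  open Subgroup FGS.MC in
  obtain ⟨D⟩ := exists_data hG hmc
  have hp' : p.Prime := Fact.out
  haveI hN : (Subgroup.zpowers D.a).Normal := ⟨by
    rintro _ ⟨k, rfl⟩ g
    obtain ⟨i, j, rfl⟩ := D.gen g
    simp only
    rw [← conj_zpow]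
    apply zpow_mem
    have := FGS.MC.conj_pow_of_conj D.conj j 1
    rw [pow_one] at this
    rw [mul_assoc (D.a ^ i), this, ← mul_assoc, mul_inv_rev, mul_assoc, mul_inv_cancel_left]
    exact mul_mem (mul_mem (pow_mem (Subgroup.mem_zpowers _) _) (pow_mem (Subgroup.mem_zpowers _) _))
      (inv_mem (pow_mem (Subgroup.mem_zpowers _) _))⟩
  obtain ⟨m, hm⟩ := IsPGroup.iff_orderOf.1 hG D.a
  obtain ⟨f, hf⟩ := hG.index (Subgroup.zpowers D.a)
  have hcard : p ^ m * p ^ f = Nat.card G := by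
    rw [← hm, ← hf, ← Nat.card_zpowers, Subgroup.card_mul_index]
  have hb := (Subgroup.zpowers D.a).pow_index_mem D.b
  rw [hf, ← mem_powers_iff_mem_zpowers] at hb
  obtain ⟨w, hw⟩ := hb
  simp only at hw
  have case1 : ∀ w', D.a ^ (p ^ f * w') = D.b ^ p ^ f → ∃ A B : Subgroup G, IsCyclic ↥A ∧
      IsCyclic ↥B ∧ A ⊓ B = ⊥ ∧ Nat.card ↥A * Nat.card ↥B = Nat.card G := by
    intro w' hw'
    obtain ⟨u, hu, e⟩ := FGS.MC.phi_eq_mul_unit hp (D.dvd.mul_right (FGS.MC.phi D.t 1)) f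
      hp'.not_dvd_one
    rw [mul_one] at e
    obtain ⟨i, hi⟩ := exists_solve m u w' hu
    refine finish D.a (D.a ^ i * D.b ^ 1) (fun g => ?_) ?_
    · obtain ⟨s, r, rfl⟩ := D.gen g
      refine ⟨s - (i * FGS.MC.phi (D.t * FGS.MC.phi D.t 1) r : ℕ), r, ?_⟩
      rw [zpow_natCast, pow_formula, one_mul, ← zpow_natCast D.a (i * _), ← mul_assoc,
        ← zpow_add, sub_add_cancel, zpow_natCast]
    · rw [← hcard, hm]
      refine Nat.mul_le_mul_left _ (Nat.le_of_dvd (pow_pos hp'.pos _)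
        (orderOf_dvd_of_pow_eq_one ?_))
      rw [pow_formula, one_mul, ← hw', ← pow_add, e, ← orderOf_dvd_iff_pow_eq_one, hm,
        mul_left_comm, ← mul_add]
      exact hi.mul_left _
  by_cases h1 : p ^ f ∣ w
  · obtain ⟨w', rfl⟩ := h1
    exact case1 w' hw
  by_cases h2 : p ^ m ∣ w
  · refine case1 0 ?_
    rw [← hw, mul_zero, pow_zero, eq_comm, ← orderOf_dvd_iff_pow_eq_one, hm]
    exact h2
  have hw0 : w ≠ 0 := by rintro rfl; exact h1 (dvd_zero _)
  obtain ⟨g, w', hw', rfl⟩ := Nat.exists_eq_pow_mul_and_not_dvd hw0 p hp'.ne_one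
  have hgf : g ≤ f := by
    by_contra h
    exact h1 ((pow_dvd_pow p (by omega)).mul_right _)
  have hgm : g ≤ m := by
    by_contra h
    exact h2 ((pow_dvd_pow p (by omega)).mul_right _)
  obtain ⟨u, hu, e⟩ := FGS.MC.phi_eq_mul_unit hp
    (D.dvd.mul_right (FGS.MC.phi D.t (p ^ (f - g)))) g hp'.not_dvd_one
  rw [mul_one] at e
  obtain ⟨i, hi⟩ := exists_solve (m + 1) u w' hu
  have hi' : ¬ p ∣ i := fun h => hw' ((Nat.dvd_add_right (h.mul_right u)).1
    ((dvd_pow_self p (by omega)).trans hi))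
  refine finish (D.a ^ i * D.b ^ p ^ (f - g)) D.b (fun x => ?_) ?_
  · obtain ⟨s, r, rfl⟩ := D.gen x
    obtain ⟨v, hv⟩ : IsUnit (i : ZMod (p ^ m)) := by
      rw [ZMod.isUnit_iff_coprime]
      exact Nat.Coprime.pow_right m ((Nat.Prime.coprime_iff_not_dvd hp').2 hi').symm
    obtain ⟨k, hk⟩ := FGS.MC.phi_surjective hp (D.dvd.mul_right (FGS.MC.phi D.t (p ^ (f - g)))) m
      (↑v⁻¹ * s)
    refine ⟨k, r - (p ^ (f - g) * k : ℕ), ?_⟩
    rw [zpow_natCast, pow_formula, mul_assoc, ← zpow_natCast D.b (_ * k), ← zpow_add,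
      add_sub_cancel, zpow_natCast, mul_left_inj, pow_eq_pow_iff_modEq, hm,
      ← ZMod.natCast_eq_natCast_iff, Nat.cast_mul, hk, ← hv]
    simp
  · have a1 : orderOf (D.a ^ i * D.b ^ p ^ (f - g)) ∣ p ^ g := by
      apply orderOf_dvd_of_pow_eq_one
      rw [pow_formula, ← pow_add, Nat.sub_add_cancel hgf, ← hw, ← pow_add, e,
        ← orderOf_dvd_iff_pow_eq_one, hm, mul_left_comm, ← mul_add]
      exact ((pow_dvd_pow p (by omega)).trans hi).mul_left _
    have a2 : orderOf D.b ∣ p ^ f * p ^ (m - g) := by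
      apply orderOf_dvd_of_pow_eq_one
      rw [pow_mul, ← hw, ← pow_mul, ← orderOf_dvd_iff_pow_eq_one, hm, mul_right_comm, ← pow_add,
        Nat.add_sub_cancel' hgm]
      exact dvd_mul_right _ _
    refine (Nat.le_of_dvd (by have := hp'.pos; positivity) (mul_dvd_mul a1 a2)).trans (le_of_eq ?_)
    rw [← hcard, mul_left_comm, ← pow_add, Nat.add_sub_cancel' hgm, mul_comm]

end Cfsg.Agent.S3884
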