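import Cfsg.Statements.S3886
import Mathlib
import Cfsg.Agent.FGS.Metacyclic2
import Cfsg.Agent.PLocal.ChermakDelgado

set_option autoImplicit false
open Cfsg

namespace Cfsg.Agent.S3886

/-- Let p be an odd prime and G a finite metacyclic p-group (G has a cyclic normal subgroup with cyclic quotient). Then the largest value of |R| · |Z(R)| over subgroups R of G is |G : G'|², and the subgroups attaining it (the centrally large subgroups) are exactly the non-abelian subgroups together with the maximal abelian subgroups of G. -/
theorem result {G : Type*} [Group G] [Finite G] {p : ℕ} [Fact p.Prime] (hp : p ≠ 2) (hG : IsPGroup p G) (hmc : Cfsg.IsMetacyclic G) : Cfsg.maxCentralProduct G = (commutator G).index ^ 2 ∧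
    ∀ R : Subgroup G, Cfsg.IsCentrallyLarge R ↔ (¬ IsMulCommutative ↥R ∨ Maximal (fun K : Subgroup G => IsMulCommutative ↥K) R) := by
  have h0 : Cfsg.maxCentralProduct G = Nat.card G * Nat.card (Subgroup.center G) := by
    rw [PLocal.maxCentralProduct_eq]
    apply le_antisymm
    · obtain ⟨R, hR⟩ := PLocal.exists_isCentralizerLarge (G := G)
      rw [← hR, ← FGS.MC.card_sup_mul hp hG hmc R]
      exact Nat.mul_le_mul_right _ (Subgroup.card_le_of_le le_sup_left)
    · have := PLocal.cd_le_max (⊤ : Subgroup G)
      rwa [Subgroup.card_top, Subgroup.coe_top, Subgroup.centralizer_univ] at this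
  refine ⟨h0.trans (FGS.MC.card_mul_card_center hp hG hmc), fun R => ?_⟩
  unfold Cfsg.IsCentrallyLarge
  by_cases hR : IsMulCommutative R
  · have : Subgroup.center R = ⊤ := eq_top_iff.2 fun x _ => Subgroup.mem_center_iff.2 fun y => mul_comm' y x
    rw [FGS.MC.maximal_comm_iff hp hG hmc, h0, FGS.MC.card_mul_card_center hp hG hmc, this,
      Subgroup.card_top, ← sq, (Nat.pow_left_injective two_ne_zero).eq_iff]
    simp [hR]
  · simp [hR, h0, FGS.MC.card_mul_card_center_of_not_comm hp hG hmc R hR]

end Cfsg.Agent.S3886
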