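import Cfsg.Statements.S3887
import Mathlib
import Cfsg.Agent.FGS.Metacyclic2
import Cfsg.Agent.PLocal.ChermakDelgado

set_option autoImplicit false
open Cfsg

namespace Cfsg.Agent.S3887

/-- Let p be an odd prime and G a finite metacyclic p-group (G has a cyclic normal subgroup with cyclic quotient). Then a subgroup R of G maximizes |R| · |C_G(R)| over all subgroups of G if and only if R contains the center of G. -/
theorem result {G : Type*} [Group G] [Finite G] {p : ℕ} [Fact p.Prime] (hp : p ≠ 2) (hG : IsPGroup p G) (hmc : Cfsg.IsMetacyclic G) (R : Subgroup G) : Cfsg.IsCentralizerLarge R ↔ Subgroup.center G ≤ R := by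
  have h0 : Cfsg.maxCentralizerProduct G = Nat.card G * Nat.card (Subgroup.center G) := by
    apply le_antisymm
    · obtain ⟨R, hR⟩ := PLocal.exists_isCentralizerLarge (G := G)
      rw [← hR, ← FGS.MC.card_sup_mul hp hG hmc R]
      exact Nat.mul_le_mul_right _ (Subgroup.card_le_of_le le_sup_left)
    · have := PLocal.cd_le_max (⊤ : Subgroup G)
      rwa [Subgroup.card_top, Subgroup.coe_top, Subgroup.centralizer_univ] at this
  unfold Cfsg.IsCentralizerLarge
  rw [h0, ← FGS.MC.card_sup_mul hp hG hmc R, Nat.mul_left_inj Nat.card_pos.ne']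
  constructor
  · intro h
    rw [Subgroup.eq_of_le_of_card_ge (le_sup_left : R ≤ R ⊔ Subgroup.center G) h.ge]
    exact le_sup_right
  · intro h
    rw [sup_eq_left.2 h]

end Cfsg.Agent.S3887
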