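import Cfsg.Statements.S3897
import Mathlib
import Cfsg.Agent.FGS.PClassCount

set_option autoImplicit false
open Cfsg

namespace Cfsg.Agent.S3897

/-- Let p be an odd prime and G a finite group with Sylow p-subgroup P, and write k_p(G) for the number of conjugacy classes of G consisting of p-elements (elements of p-power order, the identity included). Then k_p(G) > (p + 1)|P|/(2p) if and only if G has a normal p-complement and P is abelian. -/
theorem result {G : Type*} [Group G] [Finite G] {p : ℕ} [Fact p.Prime] (hp : p ≠ 2) (P : Sylow p G) :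
    (p + 1) * Nat.card ↥(P : Subgroup G) < 2 * p * Nat.card {c : ConjClasses G // ∀ x ∈ c.carrier, ∃ k : ℕ, orderOf x = p ^ k} ↔
      Cfsg.HasNormalPComplement p G ∧ IsMulCommutative ↥(P : Subgroup G) := by
  refine ⟨FGS.PCC.nilp_comm_of_lt hp P, fun ⟨h1, h2⟩ => ?_⟩
  have e := FGS.PCC.kp_eq_card_conjClasses P h1
  rw [FGS.PCC.card_conjClasses_of_comm _ h2] at e
  rw [show Nat.card {c : ConjClasses G // ∀ x ∈ c.carrier, ∃ k : ℕ, orderOf x = p ^ k} =
    Nat.card ↥(P : Subgroup G) from e]
  have h3 : 2 ≤ p := (Fact.out : p.Prime).two_le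
  exact Nat.mul_lt_mul_of_pos_right (by omega) Nat.card_pos

end Cfsg.Agent.S3897
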