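import Cfsg.Statements.S3898
import Mathlib
import Cfsg.Agent.FGS.PClassCount

set_option autoImplicit false
open Cfsg

namespace Cfsg.Agent.S3898

/-- Let π be a finite set of primes containing 2 and G a finite group. Write k_π(G) for the number of conjugacy classes of G consisting of π-elements (elements all of whose order's prime divisors lie in π) and |G|_π for the π-part of the order of G. If k_π(G) > |G|_π/2, then G has a normal π-complement (a normal subgroup of order prime to π whose index is a π-number) and an abelian Hall subgroup for the set of odd primes in π. -/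
theorem result {G : Type*} [Group G] [Finite G] (π : Finset ℕ) (hπ : ∀ r ∈ π, r.Prime) (h2 : 2 ∈ π)
    (hk : π.prod (fun r => r ^ (Nat.card G).factorization r) < 2 * Nat.card {c : ConjClasses G // ∀ x ∈ c.carrier, ∀ r : ℕ, r.Prime → r ∣ orderOf x → r ∈ π}) :
    (∃ N : Subgroup G, N.Normal ∧ (∀ r : ℕ, r.Prime → r ∣ Nat.card ↥N → r ∉ π) ∧ ∀ r : ℕ, r.Prime → r ∣ N.index → r ∈ π) ∧ ∃ H : Subgroup G, Cfsg.IsPiHall ((↑π : Set ℕ) \ {2}) H ∧ IsMulCommutative ↥H := by
  have key : ∀ r ∈ π, ∀ [Fact r.Prime] (P : Sylow r G),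
      Nat.card (P : Subgroup G) < 2 * FGS.PCC.kp r G := by
    intro r hr _ P
    have e1 := FGS.PCC.kpi_mul_le π hπ hr P
    have e2 : FGS.PCC.part π G < 2 * FGS.PCC.kpi π G := hk
    have hP : 0 < Nat.card (P : Subgroup G) := Nat.card_pos
    set a := FGS.PCC.part π G
    set b := FGS.PCC.kpi π G
    set c := FGS.PCC.kp r G
    set d := Nat.card (P : Subgroup G)
    apply Nat.lt_of_mul_lt_mul_left (a := a)
    calc a * d < 2 * b * d := Nat.mul_lt_mul_of_pos_right e2 hP
      _ = 2 * (b * d) := by ring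
      _ ≤ 2 * (c * a) := Nat.mul_le_mul_left _ e1
      _ = _ := by ring
  have hG2 : HasNormalPComplement 2 G := by
    by_contra hn
    exact absurd (key 2 h2 default) (not_lt.2
      (FGS.PCC.half_bound_of_not_hasNormalPComplement default hn (Or.inl rfl)))
  set K := pResidual 2 G with hKdef
  have hKodd : (Nat.card K).Coprime 2 := Transfer.hasNormalPComplement_iff_coprime.1 hG2
  obtain ⟨k, hKi⟩ := Transfer.index_pResidual (p := 2) (G := G)
  have hσ : ∀ r ∈ π.erase 2, r.Prime := fun r hr => hπ r (Finset.mem_of_mem_erase hr)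
  obtain ⟨N, H, hN, hmem, hc, hH, h1, h3⟩ :=
    FGS.PCC.exists_normal_compl_abelian (G := K) (π.erase 2) hσ (by
    intro r hr
    haveI : Fact r.Prime := ⟨hσ r hr⟩
    have hr2 : r ≠ 2 := (Finset.mem_erase.1 hr).1
    have hri : ¬ r ∣ K.index := fun hd => hr2 ((Nat.prime_dvd_prime_iff_eq (hσ r hr)
      Nat.prime_two).1 ((hσ r hr).dvd_of_dvd_pow (hKi ▸ hd)))
    have key2 : ∀ P : Sylow r K, Nat.card (P : Subgroup K) < 2 * FGS.PCC.kp r K := by
      intro P
      have e1 := key r (Finset.mem_of_mem_erase hr) default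
      have e2 := FGS.PCC.kp_le_kp_subgroup K hri
      have e3 : Nat.card (P : Subgroup K) ≤ Nat.card ((default : Sylow r G) : Subgroup G) := by
        rw [Sylow.card_eq_multiplicity, Sylow.card_eq_multiplicity]
        exact Nat.pow_le_pow_right (hσ r hr).pos ((Nat.factorization_le_iff_dvd
          Nat.card_pos.ne' Nat.card_pos.ne').2 (Subgroup.card_subgroup_dvd_card K) r)
      omega
    refine ⟨?_, fun P => ?_⟩
    · by_contra hn
      exact absurd (key2 default) (not_lt.2 (FGS.PCC.half_bound_of_not_hasNormalPComplement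
        default hn (Or.inr (Nat.coprime_two_right.1 hKodd))))
    · by_contra hn
      exact absurd (key2 P) (not_lt.2 (FGS.PCC.half_bound_of_not_comm P hr2 hn)))
  have hN2 : ∀ q : ℕ, q.Prime → q ∣ Nat.card N → q ∉ π := by
    intro q hq hd hqπ
    refine h1 q hq hd (Finset.mem_erase.2 ⟨?_, hqπ⟩)
    rintro rfl
    have := hKodd.coprime_dvd_left (hd.trans (Subgroup.card_subgroup_dvd_card N))
    simp at this
  have two : ∀ q : ℕ, q.Prime → q ∣ K.index → q = 2 := fun q hq hd =>
    (Nat.prime_dvd_prime_iff_eq hq Nat.prime_two).1 (hq.dvd_of_dvd_pow (hKi ▸ hd))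
  refine ⟨⟨N.map K.subtype, ⟨?_⟩, fun q hq hd => hN2 q hq ?_, fun q hq hd => ?_⟩,
    H.map K.subtype, ⟨fun q hq hd => ?_, fun q hq hqπ hd => ?_⟩, inferInstance⟩
  · rintro _ ⟨x, hx, rfl⟩ g
    have hm : g * x * g⁻¹ ∈ K := (inferInstance : K.Normal).conj_mem _ x.2 g
    refine ⟨⟨_, hm⟩, (hmem _).2 fun r hr => ?_, rfl⟩
    rw [← Subgroup.orderOf_coe]
    have := (hmem x).1 hx r hr
    rw [← Subgroup.orderOf_coe] at this
    rwa [show orderOf (g * (x : G) * g⁻¹) = orderOf (x : G) from (MulAut.conj g).orderOf_eq _]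
  · rwa [Subgroup.card_subtype] at hd
  · rw [Subgroup.index_map_subtype] at hd
    rcases (Nat.Prime.dvd_mul hq).1 hd with h | h
    · exact Finset.mem_of_mem_erase (h3 q hq h)
    · exact two q hq h ▸ h2
  · rw [Subgroup.card_subtype, ← hc.symm.index_eq_card] at hd
    have := Finset.mem_erase.1 (h3 q hq hd)
    exact ⟨this.2, this.1⟩
  · rw [Subgroup.index_map_subtype] at hd
    rcases (Nat.Prime.dvd_mul hq).1 hd with h | h
    · exact hN2 q hq (hc.index_eq_card ▸ h) hqπ.1
    · exact hqπ.2 (two q hq h)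

end Cfsg.Agent.S3898
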