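import Cfsg.Statements.S3899
import Mathlib
import Cfsg.Agent.FGS.PClassCount

set_option autoImplicit false
open Cfsg

namespace Cfsg.Agent.S3899

/-- Let π be a finite non-empty set of odd primes with smallest member p and G a finite group. Write k_π(G) for the number of conjugacy classes of G consisting of π-elements (elements all of whose order's prime divisors lie in π) and |G|_π for the π-part of the order of G. If k_π(G) > (p + 1)|G|_π/(2p), then G has a normal π-complement (a normal subgroup of order prime to π whose index is a π-number) and an abelian Hall π-subgroup. -/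
theorem result {G : Type*} [Group G] [Finite G] (π : Finset ℕ) (hπ : ∀ r ∈ π, r.Prime) (h2 : 2 ∉ π) (p : ℕ) (hp : p ∈ π)
    (hmin : ∀ r ∈ π, p ≤ r) (hk : (p + 1) * π.prod (fun r => r ^ (Nat.card G).factorization r) < 2 * p * Nat.card {c : ConjClasses G // ∀ x ∈ c.carrier, ∀ r : ℕ, r.Prime → r ∣ orderOf x → r ∈ π}) :
    (∃ N : Subgroup G, N.Normal ∧ (∀ r : ℕ, r.Prime → r ∣ Nat.card ↥N → r ∉ π) ∧ ∀ r : ℕ, r.Prime → r ∣ N.index → r ∈ π) ∧ ∃ H : Subgroup G, Cfsg.IsPiHall (↑π : Set ℕ) H ∧ IsMulCommutative ↥H := by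
  obtain ⟨N, H, hN, -, hc, hH, h1, h3⟩ := FGS.PCC.exists_normal_compl_abelian (G := G) π hπ (by
    intro r hr
    haveI : Fact r.Prime := ⟨hπ r hr⟩
    have hr2 : r ≠ 2 := fun e => h2 (e ▸ hr)
    have key : ∀ P : Sylow r G, (r + 1) * Nat.card (P : Subgroup G) < 2 * r * FGS.PCC.kp r G := by
      intro P
      have e1 := FGS.PCC.kpi_mul_le π hπ hr P
      have e2 : (p + 1) * FGS.PCC.part π G < 2 * p * FGS.PCC.kpi π G := hk
      have hpr := hmin r hr
      have hP : 0 < Nat.card (P : Subgroup G) := Nat.card_pos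
      have hp0 : 0 < p := (hπ p hp).pos
      set a := FGS.PCC.part π G
      set b := FGS.PCC.kpi π G
      set c := FGS.PCC.kp r G
      set d := Nat.card (P : Subgroup G)
      have e3 : (p + 1) * a * d < 2 * p * c * a := by
        calc (p + 1) * a * d < 2 * p * b * d := Nat.mul_lt_mul_of_pos_right e2 hP
          _ = 2 * p * (b * d) := by ring
          _ ≤ 2 * p * (c * a) := Nat.mul_le_mul_left _ e1
          _ = _ := by ring
      have e4 : (p + 1) * d < 2 * p * c := by
        apply Nat.lt_of_mul_lt_mul_right (a := a)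
        calc (p + 1) * d * a = (p + 1) * a * d := by ring
          _ < _ := e3
      apply Nat.lt_of_mul_lt_mul_left (a := p)
      obtain ⟨t, rfl⟩ := Nat.exists_eq_add_of_le hpr
      have hr0 : 0 < p + t := by omega
      calc p * ((p + t + 1) * d) ≤ (p + t) * ((p + 1) * d) := by nlinarith [Nat.zero_le (t * d)]
        _ < (p + t) * (2 * p * c) := Nat.mul_lt_mul_of_pos_left e4 hr0
        _ = _ := by ring
    exact ⟨(FGS.PCC.nilp_comm_of_lt hr2 default (key _)).1,
      fun P => (FGS.PCC.nilp_comm_of_lt hr2 P (key P)).2⟩)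
  refine ⟨⟨N, hN, h1, h3⟩, H, ⟨fun q hq hd => h3 q hq ?_, fun q hq hqπ hd => h1 q hq ?_ hqπ⟩, hH⟩
  · rwa [hc.symm.index_eq_card]
  · rwa [← hc.index_eq_card]

end Cfsg.Agent.S3899
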