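import Cfsg.Statements.S3903
import Mathlib
import Cfsg.Agent.FGS.NilCover
import Cfsg.Agent.FGS.PrimePart
import Cfsg.Agent.S0556
import Cfsg.Agent.Transfer.PCompl
import Cfsg.Agent.Small.Count
import Cfsg.Agent.Grp.MinNormal

set_option autoImplicit false
open Cfsg

namespace Cfsg.Agent.S3903

/-- Let N be a proper normal subgroup of the finite group G such that every element x of G outside N has prime power order and has centralizer C_G(x) a maximal subgroup of G. Then N is solvable. -/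
theorem result {G : Type*} [Group G] [Finite G] (N : Subgroup G) [N.Normal] (hN : N ≠ ⊤)
    (h : ∀ x : G, x ∉ N → IsPrimePow (orderOf x) ∧ IsCoatom (Subgroup.centralizer ({x} : Set G))) : Group.IsSolvable ↥N := by
  classical
  have hp1 : ∀ x : G, x ∉ N → ∃ p : ℕ, p.Prime ∧ (∃ k, x ^ p ^ k = 1) ∧
      IsPGroup p (Subgroup.centralizer ({x} : Set G)) := by
    intro x hx
    obtain ⟨p, k, hp, hk, e⟩ := (isPrimePow_nat_iff _).1 (h x hx).1
    haveI := Fact.mk hp
    refine ⟨p, hp, ⟨k, by rw [e, pow_orderOf_eq_one]⟩, ?_⟩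
    rintro ⟨y, hy⟩
    obtain ⟨u, v, hu, hv, ⟨j, hj⟩, hvp, rfl⟩ := Transfer.exists_pPart_mul (p := p) y
    have hvc : Commute x v := (Subgroup.mem_centralizer_singleton_iff.1
      (Subgroup.zpowers_le.2 hy hv)).symm
    have hcop : (orderOf x).Coprime (orderOf v) := e ▸ (hvp.symm.pow_left k)
    have hxv : x * v ∉ N := fun hm => hx (FGS.mem_of_pow_mem_of_coprime hcop (by
      have := pow_mem hm (orderOf v)
      rwa [hvc.mul_pow, pow_orderOf_eq_one, mul_one] at this))
    have h1 := (h _ hxv).1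
    rw [hvc.orderOf_mul_eq_mul_orderOf_of_coprime hcop] at h1
    have hv1 : v = 1 := by
      rcases (Nat.Coprime.isPrimePow_dvd_mul hcop h1).1 dvd_rfl with h2 | h2
      · exact orderOf_eq_one_iff.1 (Nat.eq_one_of_dvd_one ((Nat.mul_dvd_mul_iff_left
          (orderOf_pos x)).1 (by rwa [mul_one])))
      · exfalso
        have : orderOf x = 1 := Nat.eq_one_of_dvd_one ((Nat.mul_dvd_mul_iff_right
          (orderOf_pos v)).1 (by rwa [one_mul]))
        exact hx (orderOf_eq_one_iff.1 this ▸ N.one_mem)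
    exact ⟨j, Subtype.ext (by simp [hv1, hj])⟩
  obtain ⟨x, -, hx⟩ := SetLike.not_le_iff_exists.1 (fun h' => hN (top_le_iff.1 h'))
  obtain ⟨p, hp, hxp, hC⟩ := hp1 x hx
  haveI := Fact.mk hp
  by_cases hG : IsPGroup p G
  · haveI := hG.isNilpotent
    infer_instance
  -- a maximal `p`-subgroup is a Sylow subgroup
  have syl : ∀ C : Subgroup G, IsCoatom C → IsPGroup p C → ∃ P : Sylow p G, (P : Subgroup G) = C := by
    intro C hC1 hC2
    obtain ⟨P, hP⟩ := hC2.exists_le_sylow
    refine ⟨P, (hC1.le_iff_eq fun e => hG ?_).1 hP⟩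
    exact (e ▸ P.isPGroup').of_equiv Subgroup.topEquiv
  obtain ⟨P, hP⟩ := syl _ (h x hx).2 hC
  have hPc : IsCoatom (P : Subgroup G) := hP ▸ (h x hx).2
  have hxP : x ∈ (P : Subgroup G) := hP ▸ Subgroup.mem_centralizer_singleton_iff.2 rfl
  by_cases hNP : N ≤ P
  · haveI := (P.isPGroup'.to_le hNP).isNilpotent
    infer_instance
  have hsup : (P : Subgroup G) ⊔ N = ⊤ := hPc.2 _ (left_lt_sup.2 hNP)
  suffices hab : IsMulCommutative (P : Subgroup G) by
    haveI : Group.IsSolvable G := ⟨⟨3, S0556.result _ hPc⟩⟩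
    infer_instance
  by_cases hn : (P : Subgroup G).Normal
  · -- every element outside `N` is a `p`-element, so lies in `P`; impossible
    exfalso
    obtain ⟨n, hnN, hnP⟩ := SetLike.not_le_iff_exists.1 hNP
    have hxn : x * n ∉ N := fun hm => hx ((mul_mem_cancel_right hnN).1 hm)
    obtain ⟨q, hq, ⟨k, hk⟩, -⟩ := hp1 _ hxn
    by_cases e : q = p
    · subst e
      haveI := Sylow.unique_of_normal P hn
      obtain ⟨Q, hQ⟩ := Small.exists_mem_sylow_of_pow hk
      rw [Subsingleton.elim Q P] at hQ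
      exact hnP ((mul_mem_cancel_left hxP).1 hQ)
    · obtain ⟨j, hj⟩ := hxp
      apply hx
      refine FGS.mem_of_pow_mem_of_coprime (m := q ^ k) ((Nat.Coprime.pow j k
        ((Nat.coprime_primes hp hq).2 (Ne.symm e))).coprime_dvd_left
        (orderOf_dvd_of_pow_eq_one hj)) ?_
      rw [← QuotientGroup.eq_one_iff, QuotientGroup.mk_pow]
      have := congrArg (QuotientGroup.mk : G → G ⧸ N) hk
      rwa [QuotientGroup.mk_pow, QuotientGroup.mk_mul, (QuotientGroup.eq_one_iff n).2 hnN,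
        mul_one] at this
  have hself : Subgroup.normalizer ((P : Subgroup G) : Set G) = P :=
    ((hPc.le_iff_eq fun e => hn (Subgroup.normalizer_eq_top_iff.1 e)).1 Subgroup.le_normalizer)
  -- every element outside `N` has a Sylow `p`-subgroup as centralizer
  have hall : ∀ y : G, y ∉ N → ∃ g : G, Subgroup.centralizer ({g⁻¹ * y * g} : Set G) = P := by
    intro y hy
    obtain ⟨q, hq, ⟨k, hk⟩, hCq⟩ := hp1 y hy
    have e : q = p := by
      by_contra e
      obtain ⟨a, ha, n, hn', rfl⟩ := Subgroup.mem_sup_of_normal_right.1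
        (hsup ▸ Subgroup.mem_top y)
      obtain ⟨j, hj⟩ := P.isPGroup' ⟨a, ha⟩
      have hj' : a ^ p ^ j = 1 := congrArg Subtype.val hj
      apply hy
      refine mul_mem (FGS.mem_of_pow_mem_of_coprime (m := q ^ k) ((Nat.Coprime.pow j k
        ((Nat.coprime_primes hp hq).2 (Ne.symm e))).coprime_dvd_left
        (orderOf_dvd_of_pow_eq_one hj')) ?_) hn'
      rw [← QuotientGroup.eq_one_iff, QuotientGroup.mk_pow]
      have := congrArg (QuotientGroup.mk : G → G ⧸ N) hk
      rwa [QuotientGroup.mk_pow, QuotientGroup.mk_mul, (QuotientGroup.eq_one_iff n).2 hn',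
        mul_one] at this
    subst e
    obtain ⟨Q, hQ⟩ := syl _ (h y hy).2 hCq
    obtain ⟨g, rfl⟩ := MulAction.exists_smul_eq G P Q
    refine ⟨g, ?_⟩
    ext a
    rw [Subgroup.mem_centralizer_singleton_iff]
    have : g * a * g⁻¹ ∈ ((g • P : Sylow q G) : Subgroup G) ↔ a ∈ (P : Subgroup G) :=
      Subgroup.smul_mem_pointwise_smul_iff (a := MulAut.conj g)
    rw [← this, hQ, Subgroup.mem_centralizer_singleton_iff]
    constructor
    · intro e
      calc g * a * g⁻¹ * y = g * (a * (g⁻¹ * y * g)) * g⁻¹ := by group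
        _ = _ := by rw [e]; group
    · intro e
      calc a * (g⁻¹ * y * g) = g⁻¹ * (g * a * g⁻¹ * y) * g := by group
        _ = _ := by rw [e]; group
  -- counting: the elements outside `N`
  let Z : Type _ := {z : G // z ∉ N ∧ Subgroup.centralizer ({z} : Set G) = P}
  let f : (G ⧸ (P : Subgroup G)) × Z → {y : G // y ∉ N} := fun t =>
    ⟨t.1.out * t.2.1 * t.1.out⁻¹, fun hm => t.2.2.1 (by
      simpa [mul_assoc] using (inferInstance : N.Normal).conj_mem _ hm t.1.out⁻¹)⟩
  have hf : Function.Surjective f := by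
    rintro ⟨y, hy⟩
    obtain ⟨g, hg⟩ := hall y hy
    obtain ⟨a, ha⟩ := QuotientGroup.mk_out_eq_mul (P : Subgroup G) g
    refine ⟨(QuotientGroup.mk g, ⟨g⁻¹ * y * g, fun hm => hy (by
      simpa [mul_assoc] using (inferInstance : N.Normal).conj_mem _ hm g), hg⟩), Subtype.ext ?_⟩
    show (QuotientGroup.mk g : G ⧸ (P : Subgroup G)).out * (g⁻¹ * y * g) *
      (QuotientGroup.mk g : G ⧸ (P : Subgroup G)).out⁻¹ = y
    have hc : (a : G) * (g⁻¹ * y * g) = (g⁻¹ * y * g) * a :=
      Subgroup.mem_centralizer_singleton_iff.1 (hg.ge a.2)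
    rw [ha]
    calc g * a * (g⁻¹ * y * g) * (g * a)⁻¹ = g * (a * (g⁻¹ * y * g)) * (g * a)⁻¹ := by group
      _ = y := by rw [hc]; group
  have c1 := Nat.card_le_card_of_surjective f hf
  have cc : ∀ (H : Subgroup G), Nat.card {y : G // y ∈ H ∧ y ∉ N} + Nat.card (H ⊓ N : Subgroup G) =
      Nat.card H := by
    intro H
    rw [← Nat.card_sum]
    refine Nat.card_congr ⟨fun t => t.elim (fun y => ⟨y.1, y.2.1⟩) fun y => ⟨y.1, y.2.1⟩,
      fun y => if hy : (y : G) ∈ N then Sum.inr ⟨y.1, y.2, hy⟩ else Sum.inl ⟨y.1, y.2, hy⟩, ?_, ?_⟩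
    · rintro (⟨y, h1, h2⟩ | ⟨y, h1, h2⟩)
      · simp [h2]
      · have h2' : y ∈ N := h2
        simp [h2']
    · intro y
      by_cases hy : (y : G) ∈ N <;> simp [hy]
  have c2 := cc ⊤
  have c3 := cc P
  rw [top_inf_eq, Subgroup.card_top, show Nat.card {y : G // y ∈ (⊤ : Subgroup G) ∧ y ∉ N} =
    Nat.card {y : G // y ∉ N} by simp] at c2
  have c4 := Grp.card_sup_mul_card_inf (P : Subgroup G) N
  rw [hsup, Subgroup.card_top] at c4
  have c5 := (P : Subgroup G).card_mul_index
  rw [Nat.card_prod, ← Subgroup.index] at c1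
  have hPpos : 0 < Nat.card (P : Subgroup G) := Nat.card_pos
  have c6 : (P : Subgroup G).index * Nat.card ((P : Subgroup G) ⊓ N : Subgroup G) = Nat.card N := by
    apply Nat.eq_of_mul_eq_mul_left hPpos
    rw [← mul_assoc, c5, c4]
  have c7 : Nat.card {y : G // y ∈ (P : Subgroup G) ∧ y ∉ N} ≤ Nat.card Z := by
    apply Nat.le_of_mul_le_mul_left (c := (P : Subgroup G).index) _
      (Nat.pos_of_ne_zero Subgroup.index_ne_zero_of_finite)
    have : (P : Subgroup G).index * Nat.card {y : G // y ∈ (P : Subgroup G) ∧ y ∉ N} +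
        Nat.card N = Nat.card G := by rw [← c6, ← mul_add, c3, mul_comm, c5]
    omega
  let i : Z → {y : G // y ∈ (P : Subgroup G) ∧ y ∉ N} := fun z =>
    ⟨z.1, z.2.2.le (Subgroup.mem_centralizer_singleton_iff.2 rfl), z.2.1⟩
  have hi : Function.Injective i := fun a b e => Subtype.ext (congrArg (fun t => t.1) e)
  have hs := (hi.bijective_of_nat_card_le c7).2
  have key : ∀ y ∈ (P : Subgroup G), y ∉ N → ∀ a ∈ (P : Subgroup G), a * y = y * a := by
    intro y hy hyN a ha
    obtain ⟨z, hz⟩ := hs ⟨y, hy, hyN⟩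
    have hz' : z.1 = y := congrArg (fun t => t.1) hz
    exact hz' ▸ Subgroup.mem_centralizer_singleton_iff.1 (z.2.2.ge ha)
  refine ⟨⟨fun a b => Subtype.ext ?_⟩⟩
  show (a : G) * b = b * a
  by_cases hb : (b : G) ∈ N
  · have h1 := key (x * b) (mul_mem hxP b.2) (fun hm => hx ((mul_mem_cancel_right hb).1 hm)) a a.2
    rw [← mul_assoc, key x hxP hx a a.2, mul_assoc, mul_assoc] at h1
    exact mul_left_cancel h1
  · exact key b b.2 hb a a.2

end Cfsg.Agent.S3903
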