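import Cfsg.Statements.S3904
import Mathlib
import Cfsg.Agent.FGS.CentMax

set_option autoImplicit false
open Cfsg

namespace Cfsg.Agent.S3904

open Subgroup FGS.CentMax


/-- Let G be a non-abelian finite group in which the centralizer of every non-central element is a maximal subgroup. Then G/Z(G) is either an elementary abelian p-group for some prime p, or a minimal non-abelian group (non-abelian with all proper subgroups abelian) of order p^a · q for distinct primes p, q with a normal Sylow p-subgroup. -/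
theorem result {G : Type*} [Group G] [Finite G] (hna : ¬ IsMulCommutative G)
    (h : ∀ x : G, x ∉ Subgroup.center G → IsCoatom (Subgroup.centralizer ({x} : Set G))) :
    (∃ p : ℕ, p.Prime ∧ Cfsg.IsElementaryAbelian p (⊤ : Subgroup (G ⧸ Subgroup.center G))) ∨
    (¬ IsMulCommutative (G ⧸ Subgroup.center G) ∧ (∀ H : Subgroup (G ⧸ Subgroup.center G), H ≠ ⊤ → IsMulCommutative ↥H) ∧
      ∃ p q a : ℕ, p.Prime ∧ q.Prime ∧ p ≠ q ∧ Nat.card (G ⧸ Subgroup.center G) = p ^ a * q ∧
        ∀ P : Subgroup (G ⧸ Subgroup.center G), Nat.card ↥P = p ^ a → P.Normal) := by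
  have H : Hyp (⊤ : Subgroup G) (center G) :=
    ⟨fun x => by simp [mem_center_iff], fun x _ hx => h x hx⟩
  have hs := QuotientGroup.mk'_surjective (center G)
  by_cases hc : ∀ x ∈ (⊤ : Subgroup G), ∀ y ∈ (⊤ : Subgroup G),
      QuotientGroup.mk' (center G) x * QuotientGroup.mk' (center G) y =
        QuotientGroup.mk' (center G) y * QuotientGroup.mk' (center G) x
  · obtain ⟨p, pp, hp⟩ := H.caseA hc
    refine Or.inl ⟨p, pp, ⟨⟨fun a b => Subtype.ext ?_⟩⟩, fun a _ => ?_⟩
    · obtain ⟨x, hx⟩ := hs a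
      obtain ⟨y, hy⟩ := hs b
      rw [coe_mul, coe_mul, ← hx, ← hy]
      exact hc x trivial y trivial
    · obtain ⟨x, rfl⟩ := hs a
      rw [← map_pow]
      exact (QuotientGroup.eq_one_iff _).2 (hp x trivial)
  right
  obtain ⟨p, K, pp, hKn, hK1, -, hKc, hKp, hmin, hf, hcomm, hm⟩ := H.caseB hc
  haveI : Fact p.Prime := ⟨pp⟩
  have hkk : ∀ a ∈ K, ∀ b ∈ K, a * b = b * a := fun a ha b hb =>
    congrArg Subtype.val (hKc.1.1 ⟨a, ha⟩ ⟨b, hb⟩)
  have hK2 : K ≠ ⊤ := fun e => hc fun x _ y _ => hkk _ (e ▸ mem_top _) _ (e ▸ mem_top _)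
  have hm' : ∀ L : Subgroup (G ⧸ center G), K ≤ L → L = K ∨ L = ⊤ := fun L hL => by
    rcases hm (L.comap (QuotientGroup.mk' (center G))) (comap_mono hL) le_top with e | e
    · exact Or.inl (comap_injective hs e)
    · exact Or.inr (comap_injective hs (e.trans (comap_top _).symm))
  obtain ⟨hq, hpq, -⟩ := frob pp K hK1 hK2 hKp (fun x hx => by
    obtain ⟨x, rfl⟩ := hs x
    exact hf x trivial hx) hm'
  obtain ⟨a, ha⟩ := IsPGroup.iff_card.1 (Grp.isPGroup_of_pow_eq_one hKp)
  refine ⟨fun hc' => hc fun x _ y _ => hc'.1.1 _ _, fun L hL => ?_, p, K.index, a, pp, hq, hpq,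
    by rw [← ha, K.card_mul_index], fun P hP => ?_⟩
  · by_cases hLK : L ≤ K
    · exact ⟨⟨fun a b => Subtype.ext (hkk _ (hLK a.2) _ (hLK b.2))⟩⟩
    have h1 : K ⊔ L = ⊤ := (hm' _ le_sup_left).resolve_left fun e => hLK (e ▸ le_sup_right)
    have h2 : (K ⊓ L).Normal := ⟨fun y hy g => ⟨hKn.conj_mem y hy.1 g, by
      obtain ⟨k, hk, l, hl, rfl⟩ := mem_sup_of_normal_left.1 (h1 ▸ mem_top g)
      have : k * l * y * (k * l)⁻¹ = l * y * l⁻¹ := by
        calc _ = k * (l * y * l⁻¹) * k⁻¹ := by group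
          _ = _ := by rw [hkk k hk _ (hKn.conj_mem y hy.1 l), mul_inv_cancel_right]
      rw [this]
      exact L.mul_mem (L.mul_mem hl hy.2) (inv_mem hl)⟩⟩
    rcases hmin _ h2 inf_le_left with e | e
    · refine ⟨⟨fun a b => Subtype.ext ?_⟩⟩
      obtain ⟨x, hx⟩ := hs a
      obtain ⟨y, hy⟩ := hs b
      have h3 := hcomm y trivial x
      simp only [map_mul, map_inv, hx, hy] at h3
      have h4 := mem_bot.1 (e ▸ mem_inf.2 ⟨h3,
        mul_mem (mul_mem (mul_mem a.2 b.2) (inv_mem a.2)) (inv_mem b.2)⟩)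
      rwa [mul_inv_eq_one, mul_inv_eq_iff_eq_mul] at h4
    · rcases hm' L (e ▸ inf_le_right) with e' | e'
      · exact absurd e'.le hLK
      · exact absurd e' hL
  · have hle : P ≤ K := fun x hx => by
      rw [← QuotientGroup.eq_one_iff, ← orderOf_eq_one_iff, ← Nat.dvd_one,
        ← Nat.Coprime.gcd_eq_one (Nat.Coprime.pow_left a ((Nat.coprime_primes pp hq).2 hpq))]
      exact Nat.dvd_gcd ((orderOf_map_dvd (QuotientGroup.mk' K) x).trans
        (hP ▸ P.orderOf_dvd_natCard hx)) (orderOf_dvd_natCard _)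
    rw [eq_of_le_of_card_ge hle (by rw [ha, hP])]
    exact hKn

end Cfsg.Agent.S3904
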