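import Cfsg.Statements.S3905
import Mathlib
import Cfsg.Agent.FGS.CentMax

set_option autoImplicit false
open Cfsg

namespace Cfsg.Agent.S3905

open Subgroup FGS.CentMax


/-- Let N be a normal subgroup of the finite group G such that for every element x of N outside the center of N the centralizer C_G(x) is a maximal subgroup of G. Then N/Z(N) is either an elementary abelian p-group for some prime p, or a Frobenius group whose kernel is an elementary abelian normal subgroup and whose complement has prime order. -/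
theorem result {G : Type*} [Group G] [Finite G] (N : Subgroup G) [N.Normal]
    (h : ∀ x : G, x ∈ N → x ∉ Subgroup.centralizer (N : Set G) → IsCoatom (Subgroup.centralizer ({x} : Set G))) :
    (∃ p : ℕ, p.Prime ∧ Cfsg.IsElementaryAbelian p (⊤ : Subgroup (↥N ⧸ Subgroup.center ↥N))) ∨
    (∃ (Q K : Subgroup (↥N ⧸ Subgroup.center ↥N)) (p : ℕ), p.Prime ∧ Cfsg.IsFrobeniusComplement Q ∧ (Nat.card ↥Q).Prime ∧
      K.Normal ∧ (K : Set (↥N ⧸ Subgroup.center ↥N)) = Cfsg.frobeniusKernel Q ∧ Cfsg.IsElementaryAbelian p K) := by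
  set Z : Subgroup G := N ⊓ centralizer (N : Set G)
  have H : Hyp N Z := ⟨fun x => Iff.rfl, fun x hx hz => h x hx fun h' => hz ⟨hx, h'⟩⟩
  have hs := QuotientGroup.mk'_surjective (center N)
  have hZ : ∀ a : N, a ∈ center N ↔ (a : G) ∈ Z := fun a => by
    rw [mem_center_iff, H.mem]
    exact ⟨fun h => ⟨a.2, fun n hn => congrArg Subtype.val (h ⟨n, hn⟩)⟩,
      fun h n => Subtype.ext (h.2 n n.2)⟩
  let φ : N ⧸ center N →* G ⧸ Z :=
    QuotientGroup.map (center N) Z N.subtype fun a ha => (hZ a).1 ha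
  have hφ : ∀ a : N, φ (QuotientGroup.mk' (center N) a) = QuotientGroup.mk' Z a := fun a => rfl
  have hinj : Function.Injective φ := (injective_iff_map_eq_one φ).2 fun a ha => by
    obtain ⟨a, rfl⟩ := hs a
    exact (QuotientGroup.eq_one_iff _).2 ((hZ a).2 ((QuotientGroup.eq_one_iff _).1 ha))
  by_cases hc : ∀ x ∈ N, ∀ y ∈ N, QuotientGroup.mk' Z x * QuotientGroup.mk' Z y =
        QuotientGroup.mk' Z y * QuotientGroup.mk' Z x
  · obtain ⟨p, pp, hp⟩ := H.caseA hc
    refine Or.inl ⟨p, pp, ⟨⟨fun a b => Subtype.ext (hinj ?_)⟩⟩, fun a _ => ?_⟩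
    · obtain ⟨x, hx⟩ := hs a
      obtain ⟨y, hy⟩ := hs b
      rw [coe_mul, coe_mul, ← hx, ← hy, map_mul, map_mul, hφ, hφ]
      exact hc x x.2 y y.2
    · obtain ⟨x, rfl⟩ := hs a
      rw [← map_pow]
      exact (QuotientGroup.eq_one_iff _).2 ((hZ _).2 (hp x x.2))
  right
  obtain ⟨p, K, pp, hKn, hK1, hKN, hKc, hKp, -, hf, -, hm⟩ := H.caseB hc
  have hkk : ∀ a ∈ K, ∀ b ∈ K, a * b = b * a := fun a ha b hb =>
    congrArg Subtype.val (hKc.1.1 ⟨a, ha⟩ ⟨b, hb⟩)
  have hp' : ∀ x ∈ K.comap φ, x ^ p = 1 := fun x hx => hinj (by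
    rw [map_pow, map_one]; exact hKp _ hx)
  obtain ⟨hq, -, Q, hQ, hc1, hc2⟩ := frob pp (K.comap φ) (fun e => hK1 <| by
      rw [eq_bot_iff]
      intro k hk
      obtain ⟨n, hn, rfl⟩ := hKN hk
      have : QuotientGroup.mk' (center N) ⟨n, hn⟩ ∈ K.comap φ := hk
      rw [e, mem_bot] at this
      rw [mem_bot, ← map_one φ, ← this]; rfl)
    (fun e => hc fun x hx y hy =>
      hkk _ (e.ge (mem_top (QuotientGroup.mk' (center N) ⟨x, hx⟩))) _
        (e.ge (mem_top (QuotientGroup.mk' (center N) ⟨y, hy⟩)))) hp'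
    (fun x hx k hk e => by
      obtain ⟨x, rfl⟩ := hs x
      apply hinj
      rw [map_one]
      exact hf x x.2 hx _ hk (by rw [← hφ, ← map_mul, e, map_mul]))
    (fun L hL => by
      have h1 : K.comap (QuotientGroup.mk' Z) ≤
          (L.comap (QuotientGroup.mk' (center N))).map N.subtype := fun k hk => by
        obtain ⟨n, hn, e⟩ := hKN hk
        have h2 : n⁻¹ * k ∈ Z := QuotientGroup.eq.1 e
        exact ⟨⟨k, (mul_mem_cancel_left (inv_mem hn)).1 h2.1⟩, hL hk, rfl⟩
      rcases hm _ h1 (map_subtype_le _) with e | e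
      · refine Or.inl (le_antisymm (fun x hx => ?_) hL)
        obtain ⟨x, rfl⟩ := hs x
        exact e.le ⟨x, hx, rfl⟩
      · refine Or.inr (eq_top_iff.2 fun x _ => ?_)
        obtain ⟨x, rfl⟩ := hs x
        obtain ⟨y, hy, e'⟩ := e.ge x.2
        rwa [show y = x from Subtype.ext e'] at hy)
  exact ⟨Q, K.comap φ, p, pp, hQ, hc1 ▸ hq, inferInstance, hc2,
    ⟨⟨fun a b => Subtype.ext (hinj (by
      rw [coe_mul, coe_mul, map_mul, map_mul]; exact hkk _ a.2 _ b.2))⟩⟩, hp'⟩

end Cfsg.Agent.S3905
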