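import Cfsg.Statements.S3910
import Mathlib
import Cfsg.Agent.Grp.PChain
import Cfsg.Agent.FGS.NilCover
import Cfsg.Agent.FGS.PrimePart
import Cfsg.Agent.S0016

set_option autoImplicit false
open Cfsg

namespace Cfsg.Agent.S3910

/-- A finite nilpotent group in which any two abelian subgroups of the same order are conjugate is cyclic. -/
theorem result {G : Type*} [Group G] [Finite G] (hB : ∀ A B : Subgroup G, IsMulCommutative ↥A → IsMulCommutative ↥B → Nat.card ↥A = Nat.card ↥B → ∃ g : G, B = A.map (MulAut.conj g).toMonoidHom) (hnil : Group.IsNilpotent G) : IsCyclic G := by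
  haveI : IsZGroup G := ⟨fun p hp P => by
    haveI := Fact.mk hp
    have hT : Group.IsNilpotent (⊤ : Subgroup G) := inferInstance
    have key : ∀ i, i ≤ 2 → ∀ H K : Subgroup P, Nat.card H = p ^ i → Nat.card K = p ^ i → H = K := by
      intro i hi H K hH hK
      obtain ⟨C, hC, -, e⟩ := Grp.PChain.exists_normal_le_card P.2 ⊤ i
        (hH ▸ Subgroup.card_le_of_le le_top)
      have hn : (C.map (P : Subgroup G).subtype).Normal := by
        rw [← Subgroup.normalizer_eq_top_iff]
        refine FGS.eq_top_of_forall_primePow fun q hq y hy => ?_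
        apply Subgroup.mem_normalizer_fintype
        rintro _ ⟨x, hx, rfl⟩
        by_cases h : q = p
        · subst h
          exact ⟨_, hC.conj_mem x hx ⟨y, FGS.NC.mem_sylow_of_le hT P le_top trivial hy⟩, rfl⟩
        · obtain ⟨k, hk⟩ := hy
          obtain ⟨l, hl⟩ := P.2 x
          have := FGS.NC.commute_of_coprime hT (x := (x : G)) (y := y) (p := p) trivial trivial
            ⟨l, congrArg Subtype.val hl⟩ (Nat.Coprime.coprime_dvd_left
              (orderOf_dvd_of_pow_eq_one hk) (((Nat.coprime_primes hq hp).2 h).pow_left k))
          refine ⟨x, hx, ?_⟩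
          simp [← this.eq]
      have hc : ∀ H : Subgroup P, Nat.card H = p ^ i → IsMulCommutative H := fun H hH => by
        interval_cases i
        · rw [pow_zero, Subgroup.card_eq_one] at hH; subst hH; infer_instance
        · rw [pow_one] at hH
          haveI := isCyclic_of_prime_card hH
          infer_instance
        · exact IsPGroup.isMulCommutative_of_card_eq_prime_sq hH
      have k2 : ∀ H : Subgroup P, Nat.card H = p ^ i → H = C := fun H hH => by
        haveI := hc H hH
        haveI := hc C e
        obtain ⟨g, hg⟩ := hB (C.map (P : Subgroup G).subtype) (H.map (P : Subgroup G).subtype)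
          inferInstance inferInstance (by
            rw [Subgroup.card_map_of_injective (Subgroup.subtype_injective _),
              Subgroup.card_map_of_injective (Subgroup.subtype_injective _), hH, e])
        apply Subgroup.map_injective (Subgroup.subtype_injective _)
        rw [hg]
        exact hn.conj_smul_eq_self _ _
      rw [k2 H hH, k2 K hK]
    rcases S0016.result p P.2 (fun H K hH hK => key 1 (by omega) H K (by simpa) (by simpa))
      with h | ⟨rfl, n, ⟨e⟩⟩
    · exact h
    haveI : NeZero (2 ^ n) := ⟨by positivity⟩
    have h1 := key 2 le_rfl (Subgroup.zpowers (e.symm (.xa 0))) (Subgroup.zpowers (e.symm (.xa 1)))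
      (by rw [Nat.card_zpowers, MulEquiv.orderOf_eq, QuaternionGroup.orderOf_xa]; rfl)
      (by rw [Nat.card_zpowers, MulEquiv.orderOf_eq, QuaternionGroup.orderOf_xa]; rfl)
    have h2 := setLike_mul_comm (s := Subgroup.zpowers (e.symm (.xa 0))) (Subgroup.mem_zpowers _)
      (h1 ▸ Subgroup.mem_zpowers (e.symm (.xa 1)))
    rw [← map_mul, ← map_mul, e.symm.injective.eq_iff, QuaternionGroup.xa_mul_xa,
      QuaternionGroup.xa_mul_xa, QuaternionGroup.a.injEq] at h2
    have h3 : ((2 : ℕ) : ZMod (2 * 2 ^ n)) = 0 := by push_cast at h2 ⊢; linear_combination h2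
    rw [ZMod.natCast_eq_zero_iff] at h3
    have h4 : 2 ^ n = 1 := by
      have := Nat.le_of_dvd two_pos h3
      have : 0 < 2 ^ n := by positivity
      omega
    rw [h4] at e
    haveI := QuaternionGroup.quaternionGroup_one_isCyclic
    exact isCyclic_of_surjective e.symm e.symm.surjective⟩
  infer_instance

end Cfsg.Agent.S3910
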