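import Cfsg.Statements.S3915
import Mathlib
import Cfsg.Agent.S0205
import Cfsg.Agent.PLocal.Layer

set_option autoImplicit false
open Cfsg

namespace Cfsg.Agent.S3915

theorem exists_two {G : Type*} [Group G] [Finite G] {K : Subgroup G} (hK : IsQuasisimple K) :
    ∃ x ∈ K, x ∉ Subgroup.centralizer (K : Set G) ∧ ∃ a, orderOf x = 2 ^ a := by
  have h1 : ¬ Odd (Nat.card (K ⧸ Subgroup.center K)) := fun h => by
    haveI := S0205.result h
    haveI : Group.IsSolvable (Subgroup.center K) := isSolvable_of_comm fun a b => mul_comm' a b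
    exact PLocal.qs_not_solvable hK (solvable_of_ker_le_range (Subgroup.center K).subtype
      (QuotientGroup.mk' (Subgroup.center _)) (by simp))
  obtain ⟨t, ht⟩ := exists_prime_orderOf_dvd_card' (G := K ⧸ Subgroup.center K) 2
    (even_iff_two_dvd.1 (Nat.not_odd_iff_even.1 h1))
  obtain ⟨y, rfl⟩ := QuotientGroup.mk_surjective t
  obtain ⟨j, m, hm, e⟩ := Nat.exists_eq_two_pow_mul_odd (orderOf_pos y).ne'
  refine ⟨(y ^ m : K), (y ^ m).2, fun h => ?_, j, ?_⟩
  · have : y ^ m ∈ Subgroup.center K :=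
      Subgroup.mem_center_iff.2 fun g => Subtype.ext (h g g.2)
    rw [← QuotientGroup.eq_one_iff, QuotientGroup.mk_pow, ← orderOf_dvd_iff_pow_eq_one, ht] at this
    exact (Nat.not_even_iff_odd.2 hm) (even_iff_two_dvd.2 this)
  · rw [Subgroup.orderOf_coe, orderOf_pow_of_dvd hm.pos.ne' (e ▸ dvd_mul_left _ _), e,
      Nat.mul_div_cancel _ hm.pos]

theorem aux {G : Type*} [Group G] [Finite G] (hP : ∀ A B : Subgroup G, IsCyclic ↥A → IsCyclic ↥B →
    IsPGroup 2 ↥A → Nat.card ↥A = Nat.card ↥B → ∃ g : G, B = A.map (MulAut.conj g).toMonoidHom)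
    {K L : Subgroup G} (hK : IsComponent K) (hL : IsComponent L) (hne : K ≠ L) {x y : G}
    (hx : x ∈ K) (hy : y ∈ L) (hx' : x ∉ Subgroup.centralizer (K : Set G))
    (hy' : y ∉ Subgroup.centralizer (L : Set G)) {a : ℕ} (ha : orderOf x = 2 ^ a)
    (hb : y ^ 2 ^ a = 1) : False := by
  have hc := PLocal.comp_commute_of_ne hK hL hne
  have hxy : Commute x y := PLocal.commute_of_commutator_eq_bot hc hx hy
  have h1 : orderOf (x * y) ∣ 2 ^ a := orderOf_dvd_of_pow_eq_one (by
    rw [hxy.mul_pow, hb, ← ha, pow_orderOf_eq_one, one_mul])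
  obtain ⟨c, hc', e⟩ := (Nat.dvd_prime_pow Nat.prime_two).1 h1
  have h2 : orderOf (x ^ 2 ^ (a - c)) = 2 ^ c := by
    rw [orderOf_pow_of_dvd (by positivity) (ha ▸ pow_dvd_pow 2 (by omega)), ha,
      Nat.pow_div (by omega) two_pos, Nat.sub_sub_self hc']
  obtain ⟨g, hg⟩ := hP (Subgroup.zpowers (x ^ 2 ^ (a - c))) (Subgroup.zpowers (x * y))
    inferInstance inferInstance (IsPGroup.of_card (by rw [Nat.card_zpowers, h2]))
    (by rw [Nat.card_zpowers, Nat.card_zpowers, h2, e])
  have h3 : x * y ∈ K.map (MulAut.conj g).toMonoidHom :=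
    Subgroup.map_mono (Subgroup.zpowers_le.2 (pow_mem hx _)) (hg ▸ Subgroup.mem_zpowers _)
  have h4 := PLocal.comp_conj hK g
  by_cases h : K = K.map (MulAut.conj g).toMonoidHom
  · rw [← h] at h3
    exact hy' fun l hl =>
      (PLocal.commute_of_commutator_eq_bot hc ((K.mul_mem_cancel_left hx).1 h3) hl).symm
  · refine hx' fun k hk => ?_
    have e1 := PLocal.commute_of_commutator_eq_bot (PLocal.comp_commute_of_ne hK h4 h) hk h3
    have e2 := PLocal.commute_of_commutator_eq_bot hc hk hy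
    apply mul_right_cancel (b := y)
    rw [mul_assoc, e1, mul_assoc, mul_assoc, e2]

/-- Let G be a finite group in which, for every prime p, any two cyclic p-subgroups of the same order are conjugate. If the layer E(G), the subgroup generated by the components of G, is non-trivial, then E(G)/Z(E(G)) is a non-abelian simple group. -/
theorem result {G : Type*} [Group G] [Finite G] (hP : ∀ (p : ℕ), p.Prime → ∀ A B : Subgroup G, IsCyclic ↥A → IsCyclic ↥B → IsPGroup p ↥A → Nat.card ↥A = Nat.card ↥B → ∃ g : G, B = A.map (MulAut.conj g).toMonoidHom) (hE : Cfsg.layer G ≠ ⊥) :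
    IsSimpleGroup (↥(Cfsg.layer G) ⧸ Subgroup.center ↥(Cfsg.layer G)) ∧ ¬ IsMulCommutative (↥(Cfsg.layer G) ⧸ Subgroup.center ↥(Cfsg.layer G)) := by
  obtain ⟨K, hK⟩ : ∃ K : Subgroup G, IsComponent K := by
    by_contra h
    push Not at h
    exact hE (PLocal.layer_eq_bot_iff.2 h)
  have h1 : layer G = K := by
    refine le_antisymm (PLocal.layer_le_iff.2 fun L hL => ?_) (PLocal.comp_le_layer hK)
    by_contra hne
    have hne' : K ≠ L := fun e => hne e.ge
    obtain ⟨x, hx, hx', a, ha⟩ := exists_two hK.2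
    obtain ⟨y, hy, hy', b, hb⟩ := exists_two hL.2
    rcases le_total a b with h | h
    · exact aux (hP 2 Nat.prime_two) hL hK hne'.symm hy hx hy' hx' hb
        (orderOf_dvd_iff_pow_eq_one.1 (ha ▸ pow_dvd_pow 2 h))
    · exact aux (hP 2 Nat.prime_two) hK hL hne' hx hy hx' hy' ha
        (orderOf_dvd_iff_pow_eq_one.1 (hb ▸ pow_dvd_pow 2 h))
  have h2 : IsQuasisimple (layer G) := h1 ▸ hK.2
  refine ⟨h2.2, fun h => ?_⟩
  haveI : Group.IsSolvable (Subgroup.center (layer G)) := isSolvable_of_comm fun a b => mul_comm' a b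
  haveI : Group.IsSolvable (layer G ⧸ Subgroup.center (layer G)) :=
    isSolvable_of_comm fun a b => mul_comm' a b
  exact PLocal.qs_not_solvable h2 (solvable_of_ker_le_range (Subgroup.center _).subtype
      (QuotientGroup.mk' (Subgroup.center _)) (by simp))

end Cfsg.Agent.S3915
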