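import Cfsg.Statements.S3917
import Mathlib
import Cfsg.Agent.Grp.UniqueOrderP

set_option autoImplicit false
open Cfsg

namespace Cfsg.Agent.S3917

/-- Say that a group has self-centralizing non-cyclic subgroups when every non-cyclic subgroup H satisfies C_G(H) ≤ H. A finite abelian group with self-centralizing non-cyclic subgroups is cyclic or elementary abelian of order p² for a prime p. -/
theorem result {G : Type*} [CommGroup G] [Finite G] (hX : (∀ H : Subgroup G, ¬ IsCyclic ↥H → Subgroup.centralizer (H : Set G) ≤ H)) :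
    IsCyclic G ∨ ∃ p : ℕ, p.Prime ∧ Nat.card G = p ^ 2 ∧ Monoid.exponent G = p := by
  by_cases hc : IsCyclic G
  · exact Or.inl hc
  right
  obtain ⟨p, hp, h⟩ : ∃ p : ℕ, p.Prime ∧ p < Nat.card {x : G // x ^ p = 1} := by
    by_contra h
    push Not at h
    exact hc (Grp.isCyclic_of_card_pow_prime_le h)
  haveI := Fact.mk hp
  let H : Subgroup G := (powMonoidHom p).ker
  have hH : IsPGroup p H := fun x => ⟨1, Subtype.ext (by rw [pow_one]; exact x.2)⟩
  obtain ⟨n, hn⟩ := hH.exists_card_eq
  have h1 : p < p ^ n := hn ▸ h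
  have h2 : 2 ≤ n := by
    by_contra h3
    have := Nat.pow_le_pow_right hp.pos (show n ≤ 1 by omega)
    rw [pow_one] at this
    omega
  obtain ⟨K, hK⟩ := Sylow.exists_subgroup_card_pow_prime (G := H) p (hn ▸ pow_dvd_pow p h2)
  have hK' : Nat.card (K.map H.subtype) = p ^ 2 := by
    rw [Subgroup.card_map_of_injective H.subtype_injective, hK]
  have h3 := hX (K.map H.subtype) (fun h => by
    obtain ⟨x, hx⟩ := IsCyclic.exists_ofOrder_eq_natCard (α := K.map H.subtype)
    have : orderOf x ∣ p := orderOf_dvd_of_pow_eq_one (Subtype.ext (Subgroup.map_subtype_le K x.2))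
    rw [hx, hK'] at this
    have := Nat.le_of_dvd hp.pos this
    nlinarith [hp.one_lt])
  have h4 : K.map H.subtype = ⊤ := eq_top_iff.2 fun x _ => h3 fun y _ => mul_comm y x
  rw [h4, Subgroup.card_top] at hK'
  refine ⟨p, hp, hK', ?_⟩
  haveI : Nontrivial G := Finite.one_lt_card_iff_nontrivial.1 (hK' ▸ Nat.one_lt_pow two_ne_zero hp.one_lt)
  rw [Monoid.exponent_eq_prime_iff hp]
  exact fun g hg => orderOf_eq_prime (Subgroup.map_subtype_le K (h4 ▸ Subgroup.mem_top g)) hg

end Cfsg.Agent.S3917
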