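import Cfsg.Statements.S3918
import Mathlib
import Cfsg.Agent.FT.PRankTwo
import Cfsg.Agent.FGS.IndexP

set_option autoImplicit false
open Cfsg

namespace Cfsg.Agent.S3918

/-- Say that a group has self-centralizing non-cyclic subgroups when every non-cyclic subgroup H satisfies C_G(H) ≤ H. For an odd prime p, a finite non-abelian p-group has self-centralizing non-cyclic subgroups if and only if it has order p³. -/
theorem result {G : Type*} [Group G] [Finite G] {p : ℕ} [Fact p.Prime] (hp : p ≠ 2) (hG : IsPGroup p G) (hna : ¬ IsMulCommutative G) :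
    (∀ H : Subgroup G, ¬ IsCyclic ↥H → Subgroup.centralizer (H : Set G) ≤ H) ↔ Nat.card G = p ^ 3 := by
  have hp' : p.Prime := Fact.out
  obtain ⟨n, hn⟩ := hG.exists_card_eq
  have h3 : 3 ≤ n := by
    by_contra h
    apply hna
    have : n ≤ 2 := by omega
    interval_cases n
    · haveI := (Nat.card_eq_one_iff_unique.1 hn).1; infer_instance
    · rw [pow_one] at hn
      haveI := isCyclic_of_prime_card hn
      infer_instance
    · exact IsPGroup.isMulCommutative_of_card_eq_prime_sq hn
  constructor
  · intro h
    obtain ⟨A, -, hA, h1, h2⟩ := FT.R2.exists_normal_elem_le hp hG ⊤ (fun hc => hna (by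
      haveI := isCyclic_of_surjective _ (Subgroup.topEquiv (G := G)).surjective
      infer_instance))
    have h4 := Subgroup.card_le_of_le (h A (FT.R2.not_isCyclic_of_elem h1 (by
      rw [h2]; nlinarith [hp'.one_lt]) le_rfl))
    have h5 := Grp.PChain.index_centralizer_le_of_card_sq hG A h2
    have h6 := Nat.mul_le_mul h4 h5
    rw [Subgroup.card_mul_index, h2, ← pow_succ, hn, Nat.pow_le_pow_iff_right hp'.one_lt] at h6
    rw [hn, le_antisymm h6 h3]
  · intro h H hH x hx
    by_contra hxH
    have h1 := FT.R2.sq_le_card_of_not_isCyclic (hG.to_subgroup H) hH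
    obtain ⟨k, hk⟩ := hG.index H
    have hk0 : k ≠ 0 := by
      rintro rfl
      rw [pow_zero, Subgroup.index_eq_one] at hk
      exact hxH (hk ▸ Subgroup.mem_top x)
    have h2 := H.card_mul_index
    have h4 := Nat.mul_le_mul_right H.index h1
    rw [h2, h, hk, ← pow_add, Nat.pow_le_pow_iff_right hp'.one_lt] at h4
    obtain rfl : k = 1 := by omega
    rw [pow_one] at hk
    rw [hk, h, pow_succ] at h2
    have h5 := IsPGroup.isMulCommutative_of_card_eq_prime_sq (Nat.eq_of_mul_eq_mul_right hp'.pos h2)
    have h6 := Grp.PChain.isMulCommutative_sup_zpowers h5 hx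
    rw [FGS.sup_zpowers_eq_top_of_prime_index (hk ▸ hp') hxH] at h6
    exact hna ⟨⟨fun a b => setLike_mul_comm (s := (⊤ : Subgroup G)) trivial trivial⟩⟩

end Cfsg.Agent.S3918
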