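import Cfsg.Statements.S3919
import Mathlib
import Cfsg.Agent.Grp.MaxClass
import Cfsg.Agent.Grp.UniqueOrderP
import Cfsg.Agent.Solv.FrobeniusAction
import Cfsg.Agent.Grp.Card

set_option autoImplicit false
open Cfsg

namespace Cfsg.Agent.S3919

open Subgroup Grp.MaxClass
open scoped commutatorElement

/-- Say that a group has self-centralizing non-cyclic subgroups when every non-cyclic subgroup H satisfies C_G(H) ≤ H. A finite non-abelian 2-group G of order 2^n has self-centralizing non-cyclic subgroups if and only if G has nilpotency class n − 1 (that is, G is dihedral, semidihedral or generalized quaternion). -/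
theorem result {G : Type*} [Group G] [Finite G] (hna : ¬ IsMulCommutative G) (n : ℕ) (hG : Nat.card G = 2 ^ n) :
    (∀ H : Subgroup G, ¬ IsCyclic ↥H → Subgroup.centralizer (H : Set G) ≤ H) ↔ (⊤ : Subgroup G).lowerCentralSeries (n - 2) ≠ ⊥ := by
  haveI : Fact (Nat.Prime 2) := ⟨Nat.prime_two⟩
  have hp : IsPGroup 2 G := IsPGroup.of_card hG
  haveI := hp.isNilpotent
  have hnc : ¬ IsCyclic G := fun h => hna inferInstance
  have hc1 : commutator G ≠ ⊥ := fun h => hna ((commutator_eq_bot_iff G).1 h)
  have hcm := (commutator G).card_mul_index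
  have hn : 3 ≤ n := by
    have h1 := sq_le_index_commutator hp hnc
    have h2 : 2 ≤ Nat.card (commutator G) := (one_lt_card_iff_ne_bot _).2 hc1
    have h3 : 2 ^ 3 ≤ 2 ^ n := by rw [← hG, ← hcm]; nlinarith
    exact (Nat.pow_le_pow_iff_right (by norm_num)).1 h3
  rw [Ne, Subgroup.lowerCentralSeries_eq_bot_iff_nilpotencyClass_le]
  constructor
  · intro h
    suffices Group.nilpotencyClass G = n - 1 by omega
    by_cases hu : ∀ x y : G, orderOf x = 2 → orderOf y = 2 → y ∈ zpowers x
    · rcases Grp.isCyclic_or_quaternion hp hu with h1 | ⟨-, m, -, ⟨e⟩⟩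
      · exact absurd h1 hnc
      haveI : NeZero (2 ^ m) := ⟨by positivity⟩
      refine class_eq_of_index_commutator_le hn hG ?_
      set c := e.symm (QuaternionGroup.a 1) with hc
      set b := e.symm (QuaternionGroup.xa 0) with hb
      have h1 : ⁅c, b⁆ = c ^ 2 := by
        apply e.injective
        simp only [map_commutatorElement, hc, hb, MulEquiv.apply_symm_apply, map_pow]
        rw [commutatorElement_def, mul_inv_eq_iff_eq_mul, mul_inv_eq_iff_eq_mul, pow_two]
        simp
      have h2 : orderOf c = 2 * 2 ^ m := by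
        rw [hc, MulEquiv.orderOf_eq, QuaternionGroup.orderOf_a_one]
      have h3 : orderOf (c ^ 2) = 2 ^ m := by
        rw [orderOf_pow_of_dvd two_ne_zero (h2 ▸ dvd_mul_right _ _), h2]; simp
      have h4 : zpowers (c ^ 2) ≤ commutator G :=
        zpowers_le.2 (h1 ▸ commutator_mem_commutator (mem_top _) (mem_top _))
      have h5 := card_le_of_le h4
      rw [Nat.card_zpowers, h3] at h5
      rw [Nat.card_congr e.toEquiv, Nat.card_eq_fintype_card (α := QuaternionGroup _),
        QuaternionGroup.card] at hcm
      have h6 : 0 < 2 ^ m := by positivity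
      nlinarith
    · push Not at hu
      obtain ⟨x, y, hx, hy, hxy⟩ := hu
      haveI : Nontrivial G := by
        by_contra h0
        rw [not_nontrivial_iff_subsingleton] at h0
        exact hnc inferInstance
      haveI := hp.center_nontrivial
      obtain ⟨⟨z, hzc⟩, hz⟩ := exists_prime_orderOf_dvd_card' (G := center G) 2 (by
        obtain ⟨k, hk⟩ := (hp.to_subgroup (center G)).exists_card_eq
        rw [hk]
        refine dvd_pow_self _ ?_
        rintro rfl
        exact (Finite.one_lt_card (α := center G)).ne' (by simpa using hk))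
      have hz' : orderOf z = 2 := by rw [← hz]; exact (Subgroup.orderOf_coe (⟨z, hzc⟩ : center G))
      obtain ⟨w, hw, hwz⟩ : ∃ w : G, orderOf w = 2 ∧ w ∉ zpowers z := by
        by_contra h0
        push Not at h0
        have h1 : zpowers x = zpowers z :=
          eq_of_le_of_card_ge (zpowers_le.2 (h0 x hx)) (by rw [Nat.card_zpowers, Nat.card_zpowers, hx, hz'])
        exact hxy (h1 ▸ h0 y hy)
      haveI : (zpowers z).Normal := ⟨fun n hn g => by
        rw [mem_center_iff.1 (zpowers_le.2 hzc hn) g, mul_inv_cancel_right]; exact hn⟩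
      have h1 : ¬ IsCyclic (zpowers w ⊔ zpowers z : Subgroup G) := by
        intro h1
        have h2 := Solv.Frob.mem_zpowers_of_orderOf_dvd
          (x := (⟨z, mem_sup_right (mem_zpowers z)⟩ : (zpowers w ⊔ zpowers z : Subgroup G)))
          (y := ⟨w, mem_sup_left (mem_zpowers w)⟩) (by simp [hw, hz'])
        obtain ⟨k, hk⟩ := mem_zpowers_iff.1 h2
        exact hwz (mem_zpowers_iff.2 ⟨k, congrArg Subtype.val hk⟩)
      refine class_eq_of_card_centralizer_le (by omega) hG w ?_
      have h2 : centralizer {w} ≤ zpowers w ⊔ zpowers z := by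
        refine le_trans ?_ (h _ h1)
        rw [le_centralizer_iff]
        refine sup_le ?_ ?_
        · rw [zpowers_le]
          exact fun g hg => mem_centralizer_singleton_iff.1 hg
        · rw [zpowers_le]
          exact fun g _ => mem_center_iff.1 hzc g
      refine (card_le_of_le h2).trans (Nat.le_of_dvd (by norm_num) ?_)
      have := Grp.card_sup_dvd (zpowers w) (zpowers z)
      rwa [Nat.card_zpowers, Nat.card_zpowers, hw, hz'] at this
  · intro h H hH
    have h1 : (commutator G).index ≤ 4 := by
      have h2 := pow_le_card_lcs hp 1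
      have h3 : 2 ^ (n - 2) ≤ 2 ^ (Group.nilpotencyClass G - 1) :=
        Nat.pow_le_pow_right (by norm_num) (by omega)
      have h4 : 2 ^ (n - 2) ≤ Nat.card (commutator G) := h3.trans h2
      have h5 : 2 ^ n = 2 ^ (n - 2) * 4 := by
        rw [show n = n - 2 + 2 by omega, pow_add]; simp
      rw [hG, h5] at hcm
      have h6 : 0 < 2 ^ (n - 2) := by positivity
      nlinarith
    obtain ⟨c, hc, hci, hZ, hx⟩ := exists_gens_of_index_commutator_le hn hG h1
    obtain ⟨x, hxH, hxc⟩ : ∃ x ∈ H, x ∉ zpowers c := by
      by_contra h0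
      push Not at h0
      exact hH (isCyclic_of_le (show H ≤ zpowers c from h0))
    have hZH : center G ≤ H := by
      have h2 : zpowers c ⊓ H ≠ ⊥ := by
        intro h2
        have h3 := Grp.card_inf_mul_relIndex' (zpowers c) H
        haveI : (zpowers c).Normal := normal_of_index_eq_two hci
        have h4 := relIndex_dvd_index_of_normal (zpowers c) H
        rw [h2, card_bot, one_mul] at h3
        rw [h3, hci] at h4
        exact hH (isCyclic_of_card_dvd_prime h4)
      obtain ⟨⟨y, hy, hyH⟩, hy1⟩ := ne_bot_iff_exists_ne_one.1 h2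
      intro z hz
      have hzc : z ∈ zpowers c := (hx x hxc ▸ hz).1
      have h3 : orderOf z ∣ orderOf y := by
        refine (hZ ▸ (center G).orderOf_dvd_natCard hz).trans ?_
        obtain ⟨k, hk⟩ := IsPGroup.iff_orderOf.1 hp y
        rw [hk]
        refine dvd_pow_self _ ?_
        rintro rfl
        exact hy1 (Subtype.ext (orderOf_eq_one_iff.1 (by simpa using hk)))
      have h4 := Solv.Frob.mem_zpowers_of_orderOf_dvd (x := (⟨y, hy⟩ : zpowers c)) (y := ⟨z, hzc⟩)
        (by simpa using h3)
      obtain ⟨k, hk⟩ := mem_zpowers_iff.1 h4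
      have h5 : y ^ k = z := congrArg Subtype.val hk
      exact h5 ▸ H.zpow_mem hyH k
    intro g hg
    have hgx : g * x = x * g := (hg x hxH).symm
    by_cases hgc : g ∈ zpowers c
    · exact hZH (hx x hxc ▸ ⟨hgc, mem_centralizer_singleton_iff.2 hgx⟩)
    · have h2 : g * x⁻¹ ∈ zpowers c :=
        (mul_mem_iff_of_index_two hci).2 (by simp [hgc, hxc])
      have h3 : g * x⁻¹ ∈ H := hZH (hx x hxc ▸ ⟨h2, mem_centralizer_singleton_iff.2 (by
        rw [inv_mul_cancel_right, ← mul_assoc, ← hgx, mul_inv_cancel_right])⟩)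
      simpa using mul_mem h3 hxH

end Cfsg.Agent.S3919
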