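import Cfsg.Statements.S3920
import Mathlib


set_option autoImplicit false
open Cfsg

namespace Cfsg.Agent.S3920

open DihedralGroup

theorem key {n : ℕ} [NeZero n] (h : Odd n ∨ ∃ k : ℕ, n = 2 ^ k) {i a : ZMod n} (hi : i ≠ 0)
    (ha : -a = a) : ∃ m : ℕ, a = i * m := by
  rcases (ZMod.neg_eq_self_iff a).1 ha with rfl | ha
  · exact ⟨0, by simp⟩
  rcases h with h | ⟨k, hk⟩
  · exact absurd (ha ▸ h) (by simp)
  have h1 : addOrderOf i ∣ 2 ^ k := by
    have := addOrderOf_dvd_natCard i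
    rw [Nat.card_zmod] at this
    exact this.trans hk.dvd
  obtain ⟨l, -, hl⟩ := (Nat.dvd_prime_pow Nat.prime_two).1 h1
  have hl0 : l ≠ 0 := by rintro rfl; exact hi (by simpa using hl)
  obtain ⟨l, rfl⟩ := Nat.exists_eq_succ_of_ne_zero hl0
  refine ⟨2 ^ l, ?_⟩
  have h2 : -(i * (2 ^ l : ℕ)) = i * (2 ^ l : ℕ) := by
    have := addOrderOf_nsmul_eq_zero i
    rw [hl, nsmul_eq_mul, pow_succ] at this
    push_cast at this ⊢
    linear_combination -this
  rcases (ZMod.neg_eq_self_iff _).1 h2 with h3 | h3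
  · rw [mul_comm, ← nsmul_eq_mul, ← addOrderOf_dvd_iff_nsmul_eq_zero, hl,
      Nat.pow_dvd_pow_iff_le_right one_lt_two] at h3
    omega
  · exact ZMod.val_injective _ (by omega)

/-- The dihedral subgroup cut out by a divisor of `n`. -/
def sub {n d : ℕ} (h : d ∣ n) : Subgroup (DihedralGroup n) where
  carrier := {g | ∃ i, ZMod.castHom h (ZMod d) i = 0 ∧ (g = r i ∨ g = sr i)}
  one_mem' := ⟨0, map_zero _, Or.inl rfl⟩
  mul_mem' := by
    rintro _ _ ⟨i, hi, rfl | rfl⟩ ⟨j, hj, rfl | rfl⟩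
    · exact ⟨i + j, by rw [map_add, hi, hj, add_zero], Or.inl rfl⟩
    · exact ⟨j - i, by rw [map_sub, hi, hj, sub_zero], Or.inr rfl⟩
    · exact ⟨i + j, by rw [map_add, hi, hj, add_zero], Or.inr rfl⟩
    · exact ⟨j - i, by rw [map_sub, hi, hj, sub_zero], Or.inl rfl⟩
  inv_mem' := by
    rintro _ ⟨i, hi, rfl | rfl⟩
    · exact ⟨-i, by rw [map_neg, hi, neg_zero], Or.inl rfl⟩
    · exact ⟨i, hi, Or.inr rfl⟩

/-- Say that a group has self-centralizing non-cyclic subgroups when every non-cyclic subgroup H satisfies C_G(H) ≤ H. For n ≥ 3, the dihedral group of order 2n has self-centralizing non-cyclic subgroups if and only if n is odd or a power of 2. -/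
theorem result (n : ℕ) (hn : 3 ≤ n) : (∀ H : Subgroup (DihedralGroup n), ¬ IsCyclic ↥H → Subgroup.centralizer (H : Set (DihedralGroup n)) ≤ H) ↔ (Odd n ∨ ∃ k : ℕ, n = 2 ^ k) := by
  haveI : NeZero n := ⟨by omega⟩
  constructor
  · intro h
    obtain ⟨k, m, hm, e⟩ := Nat.exists_eq_two_pow_mul_odd (show n ≠ 0 by omega)
    rcases k with _ | k
    · exact Or.inl (by simpa [e] using hm)
    by_cases hm1 : m = 1
    · exact Or.inr ⟨k + 1, by rw [e, hm1, mul_one]⟩
    exfalso
    have hd : 2 ^ (k + 1) ∣ n := ⟨m, e⟩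
    have h1 : (r ((2 ^ k * m : ℕ) : ZMod n)) ∈ sub hd := by
      have h0 : ((2 ^ k * m : ℕ) : ZMod n) + (2 ^ k * m : ℕ) = 0 := by
        rw [← Nat.cast_add, ZMod.natCast_eq_zero_iff, e]
        exact ⟨1, by ring⟩
      refine h _ (fun hc => ?_) ?_
      · have := setLike_mul_comm (s := sub hd) (a := r ((2 ^ (k + 1) : ℕ) : ZMod n)) (b := sr 0)
          ⟨_, by rw [map_natCast, ZMod.natCast_self], Or.inl rfl⟩ ⟨0, map_zero _, Or.inr rfl⟩
        rw [r_mul_sr, sr_mul_r, sr.injEq] at this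
        have h2 : ((2 ^ (k + 1) * 2 : ℕ) : ZMod n) = 0 := by
          push_cast at this ⊢; linear_combination -this
        rw [ZMod.natCast_eq_zero_iff, e] at h2
        have := Nat.le_of_dvd two_pos (Nat.dvd_of_mul_dvd_mul_left (by positivity) h2)
        obtain ⟨j, rfl⟩ := hm
        omega
      · rintro _ ⟨i, -, rfl | rfl⟩
        · rw [r_mul_r, r_mul_r, add_comm]
        · rw [r_mul_sr, sr_mul_r, sr.injEq]; linear_combination h0
    obtain ⟨i, hi, h2 | h2⟩ := h1
    · rw [r.injEq] at h2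
      rw [← h2, map_natCast, ZMod.natCast_eq_zero_iff, pow_succ] at hi
      exact (Nat.not_even_iff_odd.2 hm)
        (even_iff_two_dvd.2 (Nat.dvd_of_mul_dvd_mul_left (by positivity) hi))
    · cases h2
  · intro h H hH x hx
    obtain ⟨j, hj⟩ : ∃ j, sr j ∈ H := by
      by_contra hn
      push Not at hn
      refine hH (Subgroup.isCyclic_of_le (H' := Subgroup.zpowers (r 1)) ?_)
      rintro (i | i) hi
      · exact ⟨i.val, by simp⟩
      · exact absurd hi (hn i)
    obtain ⟨i, hi, hi0⟩ : ∃ i, r i ∈ H ∧ i ≠ 0 := by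
      by_contra hn
      push Not at hn
      refine hH (Subgroup.isCyclic_of_le (H' := Subgroup.zpowers (sr j)) ?_)
      rintro (i | i) hi
      · rw [hn i hi]; exact one_mem _
      · have := hn _ (mul_mem hj hi)
        rw [sub_eq_zero.1 this]; exact Subgroup.mem_zpowers _
    have k2 : ∀ a : ZMod n, -a = a → r a ∈ H := fun a ha => by
      obtain ⟨m, rfl⟩ := key h hi0 ha
      rw [← r_pow]
      exact pow_mem hi m
    have := hx _ hj
    rcases x with a | a
    · rw [r_mul_sr, sr_mul_r, sr.injEq] at this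
      exact k2 a (by linear_combination -this)
    · rw [sr_mul_sr, sr_mul_sr, r.injEq] at this
      have h2 := mul_mem hj (k2 (a - j) (by linear_combination -this))
      simpa using h2

end Cfsg.Agent.S3920
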