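import Cfsg.Statements.S3928
import Mathlib
import Cfsg.Agent.S3927
import Cfsg.Agent.PLocal.ThompsonWielandt2

set_option autoImplicit false
open Cfsg

namespace Cfsg.Agent.S3928

open Subgroup
open scoped Nat commutatorElement

theorem ncard_le_of_coset {G : Type*} [Group G] [Finite G] {S : Set G} (H : Subgroup G)
    (h : ∀ g ∈ S, ∀ k ∈ S, k⁻¹ * g ∈ H) : S.ncard ≤ Nat.card H := by
  rcases S.eq_empty_or_nonempty with rfl | ⟨k, hk⟩
  · simp
  · exact Set.ncard_le_ncard_of_injOn (t := (H : Set G)) (fun g => k⁻¹ * g) (fun g hg => h g hg k hk)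
      (fun a _ b _ hab => mul_left_cancel hab)

theorem schur_bound (k t : ℕ) : ∃ B : ℕ, ∀ (G : Type) [Group G] [Finite G] (S : Set G),
    closure S = ⊤ → S.ncard ≤ k → (∀ x ∈ S, x ^ k ! = 1) → (center G).index ≤ t →
    Nat.card G ≤ B := by
  refine ⟨t ^ (t * (t * t) + 1) * k ! ^ k, fun G _ _ S hS hk hx ht => ?_⟩
  classical
  have h0 : 0 < (center G).index := Nat.pos_of_ne_zero FiniteIndex.index_ne_zero
  have h1 : Nat.card (commutatorSet G) ≤ t * t := by
    have : commutatorSet G ⊆ Set.range fun x : (G ⧸ center G) × (G ⧸ center G) =>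
        ⁅x.1.out, x.2.out⁆ := by
      rintro _ ⟨a, b, rfl⟩
      refine ⟨⟨a, b⟩, ?_⟩
      obtain ⟨y, hy⟩ := QuotientGroup.mk_out_eq_mul (center G) a
      obtain ⟨z, hz⟩ := QuotientGroup.mk_out_eq_mul (center G) b
      have e1 := mem_center_iff.1 y.2
      have e2 := mem_center_iff.1 z.2
      simp only [hy, hz, commutatorElement_def, mul_inv_rev]
      calc a * y * (b * z) * ((y : G)⁻¹ * a⁻¹) * ((z : G)⁻¹ * b⁻¹)
          = a * (y * (b * z)) * (y : G)⁻¹ * a⁻¹ * ((z : G)⁻¹ * b⁻¹) := by group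
        _ = a * b * (z * a⁻¹) * ((z : G)⁻¹ * b⁻¹) := by rw [← e1]; group
        _ = _ := by rw [← e2]; group
    refine (Set.ncard_le_ncard this).trans ?_
    rw [← Set.image_univ]
    refine (Set.ncard_image_le (Set.toFinite _)).trans ?_
    rw [Set.ncard_univ, Nat.card_prod]
    exact Nat.mul_le_mul ht ht
  have h2 : Nat.card (_root_.commutator G) ≤ t ^ (t * (t * t) + 1) := by
    refine (Nat.le_of_dvd (pow_pos h0 _) (card_commutator_dvd_index_center_pow G)).trans ?_
    exact (Nat.pow_le_pow_left ht _).trans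
      (Nat.pow_le_pow_right (h0.trans_le ht) (Nat.succ_le_succ (Nat.mul_le_mul ht h1)))
  have h3 : Nat.card (Abelianization G) ≤ k ! ^ k := by
    have hs : Function.Surjective (Abelianization.of : G →* Abelianization G) :=
      QuotientGroup.mk'_surjective _
    have hc : closure (Abelianization.of '' S) = (⊤ : Subgroup (Abelianization G)) := by
      rw [← MonoidHom.map_closure, hS, map_top_of_surjective _ hs]
    have : Finite (Abelianization G) := Finite.of_surjective _ hs
    have h4 : ∀ g : Abelianization G, g ^ k ! = 1 := fun g => by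
      have : (⊤ : Subgroup (Abelianization G)) ≤ (powMonoidHom (k !)).ker := by
        rw [← hc, closure_le]
        rintro _ ⟨x, hxS, rfl⟩
        refine MonoidHom.mem_ker.2 ?_
        rw [powMonoidHom_apply, ← map_pow, hx x hxS, map_one]
      exact this (mem_top g)
    refine (Nat.le_of_dvd (pow_pos (Nat.factorial_pos k) _)
      (card_dvd_exponent_pow_rank' _ h4)).trans (Nat.pow_le_pow_right (Nat.factorial_pos k) ?_)
    refine (Group.rank_le (S := (Set.toFinite (Abelianization.of '' S)).toFinset)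
      (by simpa using hc)).trans ?_
    rw [← Set.ncard_eq_toFinset_card]
    exact (Set.ncard_image_le (Set.toFinite _)).trans hk
  rw [← card_mul_index (_root_.commutator G)]
  exact Nat.mul_le_mul h2 h3

/-- the odd order elements inverted by `α` -/
def J {G : Type*} [Group G] (α : MulAut G) : Set G := {g | Odd (orderOf g) ∧ α g = g⁻¹}

/-- the hypothesis -/
def Hyp {G : Type*} [Group G] (α : MulAut G) : Prop :=
  (∀ g, α (α g) = g) ∧ closure (Set.range (fun c : G => c * (α c)⁻¹)) = ⊤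

section

variable {G : Type*} [Group G] [Finite G] {α : MulAut G}

omit [Finite G] in
theorem Hyp.inv (h : Hyp α) (c : G) : α (c * (α c)⁻¹) = (c * (α c)⁻¹)⁻¹ := by simp [h.1]

theorem Hyp.closure_J (h : Hyp α) : closure (J α) = ⊤ := by
  classical
  have : Fact (Nat.Prime 2) := ⟨Nat.prime_two⟩
  have := Fintype.ofFinite G
  choose κ hκ using fun x : G => PLocal.Amb.exists_pow_coprime (p := 2) x
  have h1 : ∀ (k : ℕ) (x : G), α x = x⁻¹ → (fun c : G => c * (α c)⁻¹)^[k] x = x ^ 2 ^ k := by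
    intro k
    induction k with
    | zero => simp
    | succ k ih =>
      intro x hx
      rw [Function.iterate_succ_apply', ih x hx, map_pow, hx, inv_pow, inv_inv, pow_succ, pow_mul,
        pow_two]
  rw [eq_top_iff, ← S3927.result α h.2 (Finset.univ.sup κ + 1) (by omega)]
  refine closure_mono ?_
  rintro _ ⟨c, rfl⟩
  rw [Function.iterate_succ_apply, h1 _ _ (h.inv c)]
  refine ⟨?_, by rw [map_pow, h.inv, inv_pow]⟩
  obtain ⟨d, hd⟩ := Nat.exists_eq_add_of_le
    (Finset.le_sup (f := κ) (Finset.mem_univ (c * (α c)⁻¹)))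
  rw [hd, pow_add, pow_mul, ← Nat.coprime_two_right]
  exact (hκ _).coprime_dvd_left (orderOf_pow_dvd _)

theorem pow_factorial {m : ℕ} (hm : (J α).ncard ≤ m) {x : G} (hx : x ∈ J α) : x ^ m ! = 1 := by
  refine orderOf_dvd_iff_pow_eq_one.1 (Nat.dvd_factorial (orderOf_pos x) (le_trans ?_ hm))
  rw [← Nat.card_zpowers]
  refine Set.ncard_le_ncard (s := (zpowers x : Set G)) ?_
  rintro _ ⟨i, rfl⟩
  refine ⟨hx.1.of_dvd_nat (orderOf_dvd_of_mem_zpowers ⟨i, rfl⟩), ?_⟩
  simp only [map_zpow, hx.2, inv_zpow]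

omit [Finite G] in
theorem Hyp.quot (h : Hyp α) (N : Subgroup G) [N.Normal] (hN : N.map α = N) :
    Hyp (QuotientGroup.congr N N α hN : MulAut (G ⧸ N)) := by
  refine ⟨fun g => ?_, ?_⟩
  · obtain ⟨g, rfl⟩ := QuotientGroup.mk_surjective g
    change ((α (α g) : G) : G ⧸ N) = g
    rw [h.1]
  · rw [eq_top_iff, ← map_top_of_surjective _ (QuotientGroup.mk'_surjective N), ← h.2,
      MonoidHom.map_closure]
    refine closure_mono ?_
    rintro _ ⟨_, ⟨c, rfl⟩, rfl⟩
    exact ⟨c, rfl⟩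

theorem Hyp.J_quot (h : Hyp α) (N : Subgroup G) [N.Normal] (hN : N.map α = N) :
    J (QuotientGroup.congr N N α hN : MulAut (G ⧸ N)) ⊆ QuotientGroup.mk' N '' J α := by
  have : Fact (Nat.Prime 2) := ⟨Nat.prime_two⟩
  rintro x ⟨⟨r, hr⟩, hx⟩
  obtain ⟨y, hy⟩ := QuotientGroup.mk'_surjective N (x ^ (r + 1))
  have h1 : QuotientGroup.mk' N (y * (α y)⁻¹) = x := by
    have : QuotientGroup.mk' N (α y) = QuotientGroup.congr N N α hN (QuotientGroup.mk' N y) := rfl
    rw [map_mul, map_inv, this, hy, map_pow, hx, inv_pow, inv_inv, ← pow_add,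
      show r + 1 + (r + 1) = orderOf x + 1 by omega, pow_succ, pow_orderOf_eq_one, one_mul]
  obtain ⟨k, hk⟩ := PLocal.Amb.exists_pow_coprime (p := 2) (y * (α y)⁻¹)
  obtain ⟨t, ht⟩ := exists_pow_eq_self_of_coprime (x := x) (n := 2 ^ k)
    (Nat.Coprime.pow_left k (Nat.coprime_two_left.2 ⟨r, hr⟩))
  refine ⟨((y * (α y)⁻¹) ^ 2 ^ k) ^ t, ⟨?_, by simp only [map_pow, h.inv, inv_pow]⟩, ?_⟩
  · rw [← Nat.coprime_two_right]
    exact hk.coprime_dvd_left (orderOf_pow_dvd _)
  · rw [map_pow, map_pow, h1, ht]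

theorem Hyp.mem_center (h : Hyp α) {z : G} (hz : ∀ x ∈ J α, x * z = z * x) : z ∈ center G := by
  have : (⊤ : Subgroup G) ≤ centralizer {z} := by
    rw [← h.closure_J, closure_le]
    exact fun x hx => mem_centralizer_singleton_iff.2 (hz x hx)
  exact mem_center_iff.2 fun g => mem_centralizer_singleton_iff.1 (this (mem_top g))

theorem Hyp.center_quot (h : Hyp α) (z : G ⧸ center G) (hz : z ∈ center (G ⧸ center G))
    (h2 : z ^ 2 = 1) : z = 1 := by
  obtain ⟨z, rfl⟩ := QuotientGroup.mk_surjective z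
  refine (QuotientGroup.eq_one_iff z).2 (h.mem_center fun x hx => ?_)
  have h3 : z ^ 2 ∈ center G := (QuotientGroup.eq_one_iff _).1 h2
  have h4 : ⁅z, x⁆ ∈ center G := (QuotientGroup.eq_one_iff _).1
    (commutatorElement_eq_one_iff_mul_comm.2 (mem_center_iff.1 hz (x : G ⧸ center G)).symm)
  have e : z * x * z⁻¹ = ⁅z, x⁆ * x := by simp [commutatorElement_def]
  have h5 : ⁅z, x⁆ ^ 2 = 1 := by
    have h6 : z ^ 2 * x * (z ^ 2)⁻¹ = x := by rw [← mem_center_iff.1 h3 x]; group
    have h7 : z ^ 2 * x * (z ^ 2)⁻¹ = z * (z * x * z⁻¹) * z⁻¹ := by rw [pow_two]; group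
    rw [h7, e, ← mul_assoc, mem_center_iff.1 h4 z, mul_assoc, mul_assoc, ← mul_assoc z, e,
      ← mul_assoc, ← pow_two] at h6
    exact mul_eq_right.1 h6
  have h6 : ⁅z, x⁆ ^ orderOf x = 1 := by
    have h7 : (z * x * z⁻¹) ^ orderOf x = 1 := by rw [conj_pow, pow_orderOf_eq_one]; group
    have h8 : Commute ⁅z, x⁆ x := (mem_center_iff.1 h4 x).symm
    rwa [e, h8.mul_pow, pow_orderOf_eq_one, mul_one] at h7
  have h7 : ⁅z, x⁆ = 1 := by
    have := pow_gcd_eq_one.2 ⟨h5, h6⟩
    rwa [Nat.coprime_two_left.2 hx.1, pow_one] at this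
  exact (commutatorElement_eq_one_iff_mul_comm.1 h7).symm

omit [Finite G] in
theorem conj_mem_J {c x : G} (hc : α c = c) (hx : x ∈ J α) : c * x * c⁻¹ ∈ J α :=
  ⟨by rw [PLocal.Amb.orderOf_conj']; exact hx.1, by simp [hc, hx.2, mul_assoc]⟩

theorem Hyp.count (h : Hyp α) {m : ℕ} (hm : (J α).ncard ≤ m)
    (hz : ∀ z ∈ center G, z ^ 2 = 1 → z = 1) : (center G).index ≤ 2 * m * m ! ∨
      ∃ z : G, α z = z ∧ orderOf z = 2 ∧ (centralizer {z}).index ≤ 2 * (m ! * m !) := by
  classical
  let C : Subgroup G := (α : G →* G).eqLocus (MonoidHom.id G)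
  let act : MulAction C (J α) :=
    { smul := fun c x => ⟨c * x * (c : G)⁻¹, conj_mem_J c.2 x.2⟩
      one_smul := fun x => Subtype.ext (by change (1 : G) * x * 1⁻¹ = x; simp)
      mul_smul := fun a b x => Subtype.ext (by
        change (a * b : G) * x * (a * b : G)⁻¹ = a * (b * x * (b : G)⁻¹) * (a : G)⁻¹; group) }
  let ρ := MulAction.toPermHom C (J α)
  have hker : ∀ c : C, ρ c = 1 → (c : G) ∈ center G := fun c hc => h.mem_center fun x hx => by
    have : (c : G) * x * (c : G)⁻¹ = x := congrArg Subtype.val (DFunLike.congr_fun hc (⟨x, hx⟩ : J α))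
    exact (mul_inv_eq_iff_eq_mul.1 this).symm
  have hP : Nat.card (Equiv.Perm (J α)) ≤ m ! := by
    rw [Nat.card_perm]; exact Nat.factorial_le hm
  have hC : Nat.card C ≤ Nat.card (center G) * m ! := by
    rw [← card_mul_index ρ.ker, index_ker]
    refine Nat.mul_le_mul (Nat.card_le_card_of_injective
      (fun c => (⟨(c : C), hker c c.2⟩ : center G)) fun a b hab => ?_)
      ((card_le_card_group _).trans hP)
    exact Subtype.ext (Subtype.ext (congrArg (fun y : center G => (y : G)) hab))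
  let I := {z : G // α z = z ∧ orderOf z = 2}
  have hI : Nat.card I ≤ m ! := by
    refine (Nat.card_le_card_of_injective (fun z : I => ρ ⟨z, z.2.1⟩) fun a b hab => ?_).trans hP
    have h1 := hker (⟨a, a.2.1⟩⁻¹ * ⟨b, b.2.1⟩) (by
      rw [map_mul, map_inv]; exact inv_mul_eq_one.2 hab)
    refine Subtype.ext (inv_mul_eq_one.1 (hz _ h1 ?_))
    change ((a : G)⁻¹ * b) ^ 2 = 1
    have h2 : Commute (a : G) ((a : G)⁻¹ * b) := mem_center_iff.1 h1 a
    have h3 : (b : G) ^ 2 = a ^ 2 * ((a : G)⁻¹ * b) ^ 2 := by rw [← h2.mul_pow]; simp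
    have h4 : ∀ z : I, (z : G) ^ 2 = 1 := fun z => by
      have := pow_orderOf_eq_one (z : G); rwa [z.2.2] at this
    rw [h4, h4, one_mul] at h3
    exact h3.symm
  refine or_iff_not_imp_right.2 fun hc => ?_
  push Not at hc
  have := Fintype.ofFinite I
  have := Fintype.ofFinite (J α)
  have hcov : (Set.univ : Set G) ⊆ (⋃ x : J α, {g | g * (α g)⁻¹ = x}) ∪
      ⋃ z : I × I, {g | g * z.2 * g⁻¹ = z.1} := by
    intro g _
    rcases Nat.even_or_odd (orderOf (g * (α g)⁻¹)) with ⟨r, hr⟩ | ho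
    · right
      have h0 := orderOf_pos (g * (α g)⁻¹)
      have h1 : orderOf ((g * (α g)⁻¹) ^ r) = 2 := by
        rw [orderOf_pow_of_dvd (by omega) ⟨2, by omega⟩, hr, ← mul_two,
          Nat.mul_div_cancel_left _ (by omega)]
      have h2 : α ((g * (α g)⁻¹) ^ r) = (g * (α g)⁻¹) ^ r := by
        rw [map_pow, h.inv, inv_pow]
        exact inv_eq_of_mul_eq_one_left (by rw [← pow_two, ← h1, pow_orderOf_eq_one])
      have h3 : Commute (g * (α g)⁻¹) ((g * (α g)⁻¹) ^ r) := Commute.self_pow _ _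
      generalize (g * (α g)⁻¹) ^ r = z at h1 h2 h3
      refine Set.mem_iUnion.2 ⟨⟨⟨z, h2, h1⟩, ⟨g⁻¹ * z * g, ?_, ?_⟩⟩, by simp [mul_assoc]⟩
      · simp only [map_mul, map_inv, h2]
        calc (α g)⁻¹ * z * α g = g⁻¹ * (g * (α g)⁻¹ * z) * α g := by group
          _ = _ := by rw [h3.eq]; group
      · rw [← h1, ← PLocal.Amb.orderOf_conj' g⁻¹ z, inv_inv]
    · exact Or.inl (Set.mem_iUnion.2 ⟨⟨_, ho, h.inv g⟩, rfl⟩)
  have e1 : (⋃ x : J α, {g : G | g * (α g)⁻¹ = x}).ncard ≤ m * Nat.card C := by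
    refine (Set.ncard_iUnion_le_of_fintype _).trans ?_
    refine (Finset.sum_le_card_nsmul _ _ (Nat.card C) fun x _ =>
      ncard_le_of_coset C fun g hg k hk => ?_).trans ?_
    · change α (k⁻¹ * g) = k⁻¹ * g
      have h1 : g * (α g)⁻¹ = k * (α k)⁻¹ := hg.trans hk.symm
      calc α (k⁻¹ * g) = k⁻¹ * (k * (α k)⁻¹) * α g := by simp
        _ = _ := by rw [← h1]; group
    · rw [Finset.card_univ, ← Nat.card_eq_fintype_card]
      exact Nat.mul_le_mul_right _ hm
  have e2 : (⋃ z : I × I, {g : G | g * z.2 * g⁻¹ = z.1}).ncard * (2 * (m ! * m !)) ≤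
      (m ! * m !) * Nat.card G := by
    refine (Nat.mul_le_mul_right _ (Set.ncard_iUnion_le_of_fintype _)).trans ?_
    rw [Finset.sum_mul]
    refine (Finset.sum_le_card_nsmul _ _ (Nat.card G) fun z _ => ?_).trans ?_
    · rw [← card_mul_index (centralizer {(z.2 : G)})]
      refine Nat.mul_le_mul (ncard_le_of_coset _ fun g hg k hk => ?_) (hc _ z.2.2.1 z.2.2.2).le
      have h1 : g * z.2 * g⁻¹ = k * z.2 * k⁻¹ := hg.trans hk.symm
      rw [mem_centralizer_singleton_iff]
      calc k⁻¹ * g * z.2 = k⁻¹ * (g * z.2 * g⁻¹) * g := by group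
        _ = _ := by rw [h1]; group
    · rw [Finset.card_univ, ← Nat.card_eq_fintype_card, Nat.card_prod]
      exact Nat.mul_le_mul_right _ (Nat.mul_le_mul hI hI)
  have e3 := (Set.ncard_le_ncard hcov).trans (Set.ncard_union_le _ _)
  rw [Set.ncard_univ] at e3
  have e4 : 0 < m ! * m ! := Nat.mul_pos (Nat.factorial_pos m) (Nat.factorial_pos m)
  have e5 : (⋃ z : I × I, {g : G | g * z.2 * g⁻¹ = z.1}).ncard * 2 ≤ Nat.card G :=
    Nat.le_of_mul_le_mul_right (by linarith) e4
  have e6 : Nat.card G ≤ 2 * (m * Nat.card C) := by omega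
  refine Nat.le_of_mul_le_mul_left ?_ (Nat.card_pos (α := center G))
  rw [card_mul_index]
  calc Nat.card G ≤ 2 * (m * (Nat.card (center G) * m !)) :=
        e6.trans (Nat.mul_le_mul_left _ (Nat.mul_le_mul_left _ hC))
    _ = _ := by ring

end

theorem ncl_bound (b : ℕ) (hb : 2 ≤ b) : ∃ B : ℕ, ∀ (G : Type) [Group G] [Finite G] (z : G),
    z ^ 2 = 1 → (centralizer {z}).index ≤ b → Nat.card (normalClosure ({z} : Set G)) ≤ B := by
  obtain ⟨B₂, h₂⟩ := schur_bound b b !
  refine ⟨B₂, fun G _ _ z hzz hz3 => ?_⟩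
  have hn : (normalClosure ({z} : Set G)).Normal := inferInstance
  have hle : ∀ K : Subgroup G, K.Normal → z ∈ K → normalClosure ({z} : Set G) ≤ K :=
    fun K _ hK => normalClosure_le_normal (Set.singleton_subset_iff.2 hK)
  have hcl : closure (Group.conjugatesOfSet ({z} : Set G)) = normalClosure ({z} : Set G) := rfl
  generalize normalClosure ({z} : Set G) = N at hn hle hcl
  have hcl' : closure (((↑) : N → G) ⁻¹' Group.conjugatesOfSet {z}) = ⊤ := by
    subst hcl
    exact closure_preimage_eq_top _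
  refine h₂ N _ hcl' ?_ ?_ ?_
  · rw [← Set.ncard_image_of_injective _ Subtype.val_injective]
    refine le_trans (Set.ncard_le_ncard (t := MulAction.orbit (ConjAct G) z) ?_) ?_
    · rintro _ ⟨y, hy, rfl⟩
      obtain ⟨_, rfl, hy'⟩ := Group.mem_conjugatesOfSet_iff.1 hy
      exact ConjAct.mem_orbit_conjAct.2 hy'.symm
    · rw [← MulAction.index_stabilizer]
      refine le_trans (le_of_eq ?_) hz3
      rw [centralizer_eq_comap_stabilizer]
      exact (index_comap_of_surjective _ (f := ConjAct.toConjAct.toMonoidHom)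
        ConjAct.toConjAct.surjective).symm
  · rintro y hy
    obtain ⟨_, rfl, hy'⟩ := Group.mem_conjugatesOfSet_iff.1 hy
    obtain ⟨c, hc⟩ := isConj_iff.1 hy'
    obtain ⟨d, hd⟩ := Nat.dvd_factorial two_pos hb
    refine Subtype.ext ?_
    rw [coe_pow, ← hc, hd, pow_mul, conj_pow, hzz]
    simp
  · have h1 : (centralizer {z}).normalCore.subgroupOf N ≤ center N := by
      intro x hx
      have h2 : N ≤ centralizer ((centralizer {z}).normalCore : Set G) :=
        hle _ inferInstance fun y hy => mem_centralizer_singleton_iff.1 (normalCore_le _ hy)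
      exact mem_center_iff.2 fun y => Subtype.ext (h2 y.2 x hx).symm
    refine (index_antitone h1).trans ((Nat.le_of_dvd (Nat.factorial_pos _)
      ((relIndex_dvd_index_of_normal _ _).trans (PLocal.TW.index_normalCore_dvd _))).trans
      (Nat.factorial_le hz3))

theorem key {m B₀ : ℕ} (h₀ : ∀ (G : Type) [Group G] [Finite G] (α : MulAut G), Hyp α →
    (J α).ncard ≤ m → Nat.card G ≤ B₀) : ∃ B : ℕ, ∀ (G : Type) [Group G] [Finite G]
    (α : MulAut G), Hyp α → (J α).ncard ≤ m + 1 →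
    (∀ z ∈ center G, z ^ 2 = 1 → z = 1) → Nat.card G ≤ B := by
  obtain ⟨B₁, h₁⟩ := schur_bound (m + 1) (2 * (m + 1) * (m + 1)!)
  obtain ⟨B₂, h₂⟩ := ncl_bound (2 * ((m + 1)! * (m + 1)!)) (Nat.le_mul_of_pos_right _
    (Nat.mul_pos (Nat.factorial_pos _) (Nat.factorial_pos _)))
  refine ⟨B₁ + B₂ * B₀, fun G _ _ α h hm hz => ?_⟩
  rcases h.count hm hz with h1 | ⟨z, hz1, hz2, hz3⟩
  · exact (h₁ G _ h.closure_J hm (fun x => pow_factorial hm) h1).trans (Nat.le_add_right _ _)
  refine le_trans ?_ (Nat.le_add_left _ _)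
  have hzz : z ^ 2 = 1 := by rw [← hz2, pow_orderOf_eq_one]
  have hB := h₂ G z hzz hz3
  have hzN : z ∈ normalClosure ({z} : Set G) := subset_normalClosure rfl
  have hN : (normalClosure ({z} : Set G)).map α = normalClosure ({z} : Set G) := by
    refine eq_of_le_of_card_ge (map_le_iff_le_comap.2 (normalClosure_le_normal ?_)) ?_
    · rintro _ rfl
      change α _ ∈ normalClosure _
      rwa [hz1]
    · exact (card_map_of_injective α.injective).ge
  have hn : (normalClosure ({z} : Set G)).Normal := inferInstance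
  generalize normalClosure ({z} : Set G) = N at hB hzN hN hn
  rw [← card_mul_index N]
  refine Nat.mul_le_mul hB (h₀ (G ⧸ N) _ (h.quot N hN) ?_)
  refine (Set.ncard_le_ncard (h.J_quot N hN)).trans (Nat.le_of_lt_succ (lt_of_lt_of_le
    (lt_of_le_of_ne (Set.ncard_image_le (Set.toFinite _)) fun he => ?_) hm))
  have h1 := Set.injOn_of_ncard_image_eq he
  have h2 : z = 1 := hz z (h.mem_center fun x hx => by
    have h3 := h1 (conj_mem_J hz1 hx) hx (by
      rw [map_mul, map_mul, map_inv, QuotientGroup.mk'_apply, (QuotientGroup.eq_one_iff z).2 hzN]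
      simp)
    exact (mul_inv_eq_iff_eq_mul.1 h3).symm) hzz
  rw [h2, orderOf_one] at hz2
  omega

theorem bound (m : ℕ) : ∃ B : ℕ, ∀ (G : Type) [Group G] [Finite G] (α : MulAut G), Hyp α →
    (J α).ncard ≤ m → Nat.card G ≤ B := by
  induction m with
  | zero =>
    refine ⟨0, fun G _ _ α _ h => ?_⟩
    have : (1 : G) ∈ J α := ⟨by simp, by simp⟩
    have := (Set.ncard_pos (Set.toFinite _)).2 ⟨_, this⟩
    omega
  | succ m ih =>
    obtain ⟨B₀, h₀⟩ := ih
    obtain ⟨B, hB⟩ := key h₀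
    obtain ⟨B₃, h₃⟩ := schur_bound (m + 1) B
    refine ⟨B₃, fun G _ _ α h hm => h₃ G _ h.closure_J hm (fun x => pow_factorial hm) ?_⟩
    have hN : (center G).map α = center G := characteristic_iff_map_eq.1 inferInstance α
    exact hB _ _ (h.quot _ hN) ((Set.ncard_le_ncard (h.J_quot _ hN)).trans
      ((Set.ncard_image_le (Set.toFinite _)).trans hm)) h.center_quot

/-- There is a function f such that for every non-trivial finite group G and every automorphism α of G of order 2 with [G, α] = G (the elements g·α(g)⁻¹ generate G), the order of G is at most f(m), where m is the number of elements of odd order inverted by α. -/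
theorem result : ∃ f : ℕ → ℕ, ∀ (G : Type) [Group G] [Finite G] [Nontrivial G] (α : MulAut G), orderOf α = 2 →
    Subgroup.closure (Set.range (fun c : G => c * (α c)⁻¹)) = ⊤ →
      Nat.card G ≤ f (Nat.card {g : G // Odd (orderOf g) ∧ α g = g⁻¹}) := by
  choose f hf using bound
  refine ⟨f, fun G _ _ _ α h2 hG => hf _ G α ⟨fun g => ?_, hG⟩ le_rfl⟩
  have := pow_orderOf_eq_one α
  rw [h2, pow_two] at this
  exact DFunLike.congr_fun this g

end Cfsg.Agent.S3928
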