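import Cfsg.Statements.S3933
import Mathlib
import Cfsg.Agent.Char.Burnside
import Cfsg.Agent.Solv.SylowSystem

set_option autoImplicit false
open Cfsg

namespace Cfsg.Agent.S3933

open Subgroup MulAction

universe u

theorem dvd_of_surj {G H : Type*} [Group G] [Finite G] [Group H] {f : G →* H}
    (hf : Function.Surjective f) (p : ℕ) [Fact p.Prime] :
    Nat.card (Sylow p H) ∣ Nat.card (Sylow p G) := by
  have : Finite H := Finite.of_surjective f hf
  obtain ⟨P⟩ := (inferInstance : Nonempty (Sylow p G))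
  rw [P.card_eq_index_normalizer, (P.mapSurjective hf).card_eq_index_normalizer,
    ← Subgroup.index_comap_of_surjective _ hf]
  refine Subgroup.index_dvd_of_le ?_
  rw [← Subgroup.map_le_iff_le_comap]
  exact Subgroup.le_normalizer_map f

theorem dvd_of_normal {G : Type*} [Group G] [Finite G] (N : Subgroup G) [N.Normal]
    (p : ℕ) [Fact p.Prime] : Nat.card (Sylow p N) ∣ Nat.card (Sylow p G) := by
  obtain ⟨Q⟩ := (inferInstance : Nonempty (Sylow p N))
  obtain ⟨P, hP⟩ := Q.exists_comap_subtype_eq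
  have hF := Q.normalizer_sup_eq_top
  set K := normalizer (((Q : Subgroup N).map N.subtype : Subgroup G) : Set G) with hK
  have h1 : normalizer ((Q : Subgroup N) : Set N) = K.subgroupOf N := by
    have := subgroupOf_normalizer_eq (H := (Q : Subgroup N).map N.subtype) (N := N)
      (map_subtype_le _)
    rw [hK, this, subgroupOf, comap_map_eq_self_of_injective N.subtype_injective]
  have h2 : K.relIndex N = K.index := by
    have a := relIndex_mul_index (inf_le_left : K ⊓ N ≤ K)
    have b := relIndex_mul_index (inf_le_right : K ⊓ N ≤ N)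
    rw [inf_relIndex_left, ← relIndex_sup_right K N, hF, relIndex_top_right] at a
    rw [inf_relIndex_right, ← a, mul_comm] at b
    exact Nat.eq_of_mul_eq_mul_left (Nat.pos_of_ne_zero N.index_ne_zero_of_finite) b
  rw [P.card_eq_index_normalizer, Q.card_eq_index_normalizer]
  change (normalizer ((Q : Subgroup N) : Set N)).index ∣
    (normalizer ((P : Subgroup G) : Set G)).index
  rw [h1]
  change K.relIndex N ∣ _
  rw [h2]
  refine index_dvd_of_le ?_
  have e : (Q : Subgroup N).map N.subtype = (P : Subgroup G) ⊓ N := by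
    rw [← hP]; exact subgroupOf_map_subtype _ _
  rw [hK, e]
  refine le_trans ?_ (inf_normalizer_le_normalizer_inf)
  rw [normalizer_eq_top (H := N)]
  simp

theorem key {G : Type*} [Group G] [Finite G] [IsSimpleGroup G] (p q : ℕ) [Fact p.Prime]
    [hq : Fact q.Prime] (h : (Nat.card (Sylow q G)).Coprime (Nat.card (Sylow p G)))
    (hqp : ¬ q ∣ Nat.card (Sylow p G)) (hqG : q ∣ Nat.card G) : Nat.card (Sylow p G) = 1 := by
  obtain ⟨Q⟩ := (inferInstance : Nonempty (Sylow q G))
  obtain ⟨P, hP⟩ := Q.isPGroup'.nonempty_fixed_point_of_prime_not_dvd_card (Sylow p G) hqp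
  set L := normalizer ((Q : Subgroup G) : Set G) with hL
  have h1 : (stabilizer G P).relIndex L = Nat.card (Sylow p G) := by
    rw [Sylow.stabilizer_eq_normalizer, P.card_eq_index_normalizer]
    refine Solv.relIndex_eq_index_of_coprime ?_
    rwa [P.card_eq_index_normalizer, Q.card_eq_index_normalizer] at h
  have h2 : orbit L P = Set.univ := by
    have := index_stabilizer L P
    refine (Set.eq_univ_iff_ncard _).2 ?_
    rw [← this, ← h1]
    rfl
  have h3 : (Q : Subgroup G) ≤ (toPermHom G (Sylow p G)).ker := by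
    intro x hx
    ext1 R
    obtain ⟨l, rfl⟩ : R ∈ orbit L P := h2 ▸ Set.mem_univ _
    have hx' : (l : G)⁻¹ * x * l ∈ (Q : Subgroup G) := by
      simpa using (mem_normalizer_iff''.1 l.2 x).1 hx
    have := hP ⟨_, hx'⟩
    change ((l : G)⁻¹ * x * l) • P = P at this
    change x • ((l : G) • P) = (l : G) • P
    conv_rhs => rw [← this]
    rw [← mul_smul, ← mul_smul]
    congr 1
    group
  rcases (MonoidHom.normal_ker (toPermHom G (Sylow p G))).eq_bot_or_eq_top with e | e
  · exact absurd (le_bot_iff.1 (e ▸ h3)) (Q.ne_bot_of_dvd_card hqG)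
  · rw [P.card_eq_index_normalizer, ← Sylow.stabilizer_eq_normalizer, index_eq_one, eq_top_iff]
    intro g _
    have : g ∈ (toPermHom G (Sylow p G)).ker := e ▸ mem_top g
    exact congrArg (fun σ : Equiv.Perm (Sylow p G) => σ P) this

theorem simple {G : Type*} [Group G] [Finite G] [IsSimpleGroup G]
    (h : ∀ (r : ℕ) [Fact r.Prime], ∃ s k : ℕ, s.Prime ∧ Nat.card (Sylow r G) = s ^ k) :
    Group.IsSolvable G := by
  by_contra hs
  have h1 : ∀ (r : ℕ) [Fact r.Prime], r ∣ Nat.card G → Nat.card (Sylow r G) ≠ 1 := by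
    intro r _ hr e
    obtain ⟨P⟩ := (inferInstance : Nonempty (Sylow r G))
    rw [P.card_eq_index_normalizer, index_eq_one] at e
    replace e : (P : Subgroup G).Normal := normalizer_eq_top_iff.1 e
    rcases e.eq_bot_or_eq_top with e | e
    · exact P.ne_bot_of_dvd_card hr e
    · have : IsPGroup r G := (e ▸ P.isPGroup' : IsPGroup r (⊤ : Subgroup G)).of_equiv topEquiv
      have := this.isNilpotent
      exact hs inferInstance
  have h2 : ∀ (r : ℕ) [Fact r.Prime], r ∣ Nat.card G → ∃ s k : ℕ, s.Prime ∧ s ∣ Nat.card G ∧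
      s ≠ r ∧ Nat.card (Sylow r G) = s ^ k := by
    intro r hr hd
    obtain ⟨s, k, hs, e⟩ := h r
    have hk : k ≠ 0 := fun e' => h1 r hd (by rw [e, e', pow_zero])
    have d : s ∣ Nat.card (Sylow r G) := e ▸ dvd_pow_self s hk
    obtain ⟨P⟩ := (inferInstance : Nonempty (Sylow r G))
    refine ⟨s, k, hs, d.trans (P.card_dvd_index.trans (index_dvd_card _)), ?_, e⟩
    rintro rfl
    exact not_dvd_card_sylow s G d
  have h3 : ∀ (p q : ℕ) [Fact p.Prime] [Fact q.Prime], p ∣ Nat.card G → q ∣ Nat.card G →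
      ∀ s k t l : ℕ, s.Prime → t.Prime → Nat.card (Sylow p G) = s ^ k →
      Nat.card (Sylow q G) = t ^ l → s ≠ t → q = s := by
    intro p q _ hq hp hq' s k t l hs ht e1 e2 hst
    by_contra hne
    refine h1 p hp (key p q ?_ ?_ hq')
    · rw [e1, e2]
      exact Nat.Coprime.pow _ _ ((Nat.coprime_primes ht hs).2 hst.symm)
    · rw [e1]
      exact fun d => hne ((Nat.prime_dvd_prime_iff_eq hq.out hs).1 (hq.out.dvd_of_dvd_pow d))
  obtain ⟨p, hp, hpG⟩ := Nat.exists_prime_and_dvd (Finite.one_lt_card (α := G)).ne'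
  have := Fact.mk hp
  obtain ⟨q, k, hq, hqG, hqp, e1⟩ := h2 p hpG
  have := Fact.mk hq
  obtain ⟨p', l, hp', -, hpq, e2⟩ := h2 q hqG
  obtain rfl : p = p' := h3 q p hqG hpG _ _ _ _ hp' hq e2 e1 hpq
  have h4 : ∀ r, r.Prime → r ∣ Nat.card G → r = p ∨ r = q := by
    intro r hr hrG
    have := Fact.mk hr
    obtain ⟨s, m, hs, -, -, e3⟩ := h2 r hrG
    by_cases e : s = q
    · exact Or.inl (h3 q r hqG hrG _ _ _ _ hp hs e2 e3 (e ▸ hpq))
    · exact Or.inr (h3 p r hpG hrG _ _ _ _ hq hs e1 e3 (Ne.symm e))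
  refine hs (Char.isSolvable_of_card_dvd_pow_mul_pow (a := Nat.card G) (b := Nat.card G) hp hq G ?_)
  refine (Nat.dvd_iff_prime_pow_dvd_dvd _ _).2 fun r j hr hj => ?_
  rcases j with _ | j
  · simp
  have hjl : j + 1 ≤ Nat.card G :=
    (Nat.lt_pow_self hr.one_lt).le.trans (Nat.le_of_dvd Nat.card_pos hj)
  rcases h4 r hr ((dvd_pow_self r j.succ_ne_zero).trans hj) with rfl | rfl
  · exact (pow_dvd_pow _ hjl).mul_right _
  · exact (pow_dvd_pow _ hjl).mul_left _

theorem main (G : Type u) [Group G] [Finite G]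
    (h : ∀ (r : ℕ) [Fact r.Prime], ∃ s k : ℕ, s.Prime ∧ Nat.card (Sylow r G) = s ^ k) :
    Group.IsSolvable G := by
  induction hn : Nat.card G using Nat.strong_induction_on generalizing G with
  | _ n ih =>
  subst hn
  rcases subsingleton_or_nontrivial G with hG | hG
  · infer_instance
  by_cases hs : IsSimpleGroup G
  · exact simple h
  obtain ⟨N, hN, h0, h1⟩ : ∃ N : Subgroup G, N.Normal ∧ N ≠ ⊥ ∧ N ≠ ⊤ := by
    by_contra hc
    push Not at hc
    exact hs ⟨fun N hN => or_iff_not_imp_left.2 (hc N hN)⟩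
  have hd : ∀ {m n : ℕ}, m ∣ n → (∃ s k : ℕ, s.Prime ∧ n = s ^ k) →
      ∃ s k : ℕ, s.Prime ∧ m = s ^ k := by
    rintro m n d ⟨s, k, hs, rfl⟩
    obtain ⟨j, -, e⟩ := (Nat.dvd_prime_pow hs).1 d
    exact ⟨s, j, hs, e⟩
  have a := ih _ (by
    have := N.card_mul_index
    have := N.one_lt_index_of_ne_top h1
    have : 0 < Nat.card N := Nat.card_pos
    nlinarith) N (fun r _ => hd (dvd_of_normal N r) (h r)) rfl
  have b := ih _ (by
    have := N.card_mul_index
    have := N.one_lt_card_iff_ne_bot.2 h0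
    have : 0 < N.index := Nat.pos_of_ne_zero N.index_ne_zero_of_finite
    change N.index < _
    nlinarith) (G ⧸ N) (fun r _ => hd (dvd_of_surj (QuotientGroup.mk'_surjective N) r) (h r)) rfl
  exact Group.isSolvable_of_ker_le_range N.subtype (QuotientGroup.mk' N) (by simp)


/-- If for every prime r the number of Sylow r-subgroups of the finite group G is a prime power or 1, then G is solvable. -/
theorem result {G : Type*} [Group G] [Finite G] (h : ∀ (r : ℕ) [Fact r.Prime], Nat.card (Sylow r G) = 1 ∨ IsPrimePow (Nat.card (Sylow r G))) :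
    Group.IsSolvable G := by
  refine main G fun r _ => ?_
  rcases h r with e | e
  · exact ⟨2, 0, Nat.prime_two, e⟩
  · obtain ⟨s, k, hs, -, e⟩ := (isPrimePow_nat_iff _).1 e
    exact ⟨s, k, hs, e.symm⟩

end Cfsg.Agent.S3933
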