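import Cfsg.Statements.S3937
import Mathlib
import Cfsg.Agent.Grp.Zipper
import Cfsg.Agent.Grp.Fitting
import Cfsg.Agent.PLocal.Amb

set_option autoImplicit false
open Cfsg

namespace Cfsg.Agent.S3937

open scoped commutatorElement

theorem fold_succ {G : Type*} [Group G] (g x : G) (n : ℕ) :
    (List.replicate (n + 1) g).foldl (fun a b => a * b * a⁻¹ * b⁻¹) x =
      ⁅(List.replicate n g).foldl (fun a b => a * b * a⁻¹ * b⁻¹) x, g⁆ := by
  rw [List.replicate_succ', List.foldl_append]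
  rfl

open Subgroup PLocal.Amb Grp in
theorem snIn {G : Type*} [Group G] [Finite G] (g : G)
    (h : ∀ x : G, ∃ n : ℕ, (List.replicate n g).foldl (fun a b => a * b * a⁻¹ * b⁻¹) x = 1)
    (V : Subgroup G) : g ∈ V → SnIn (zpowers g) V := by
  refine subgroup_card_induction (P := fun V => g ∈ V → SnIn (zpowers g) V) ?_ V
  intro V ih hg
  by_contra hns
  have hih : ∀ W, zpowers g ≤ W → W < V → SnIn (zpowers g) W := fun W h1 h2 =>
    ih W (card_lt_card_of_lt h2) (zpowers_le.1 h1)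
  obtain ⟨M, hMV, hM⟩ := zipper (zpowers_le.2 hg) hns hih
  have hgM : zpowers g ≤ M := hM _ le_rfl (lt_of_le_of_ne (zpowers_le.2 hg)
    fun h1 => hns (h1 ▸ SnIn.refl _))
  obtain ⟨x, hxV, hxM⟩ := SetLike.exists_of_lt hMV
  obtain ⟨y, hyV, hyM, hy⟩ : ∃ y ∈ V, y ∉ M ∧ ⁅y, g⁆ ∈ M := by
    by_contra h1
    push Not at h1
    have h2 : ∀ n : ℕ, (List.replicate n g).foldl (fun a b => a * b * a⁻¹ * b⁻¹) x ∈ V ∧
        (List.replicate n g).foldl (fun a b => a * b * a⁻¹ * b⁻¹) x ∉ M := by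
      intro n
      induction n with
      | zero => exact ⟨hxV, hxM⟩
      | succ n ihn =>
        rw [fold_succ]
        exact ⟨mul_mem (mul_mem (mul_mem ihn.1 hg) (inv_mem ihn.1)) (inv_mem hg), h1 _ ihn.1 ihn.2⟩
    obtain ⟨n, hn⟩ := h x
    exact (h2 n).2 (hn ▸ one_mem M)
  have h1 : y * g * y⁻¹ ∈ M := (mul_mem_cancel_right (inv_mem (zpowers_le.1 hgM))).1 hy
  have h2 : cj(y⁻¹, M) ≤ M := hM _ (zpowers_le.2 (by rwa [mem_cj, inv_inv])) (by
    rw [← cj_of_mem (inv_mem hyV)]; exact cj_lt_cj_iff.2 hMV)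
  have h3 : y ∈ 𝐍[M] := inv_mem_iff.1 (mem_normalizer_of_cj_le h2)
  have h4 : V ⊓ 𝐍[M] = V := by
    by_contra h4
    exact hyM (hM _ (hgM.trans (le_inf hMV.le le_normalizer)) (lt_of_le_of_ne inf_le_left h4)
      ⟨hyV, h3⟩)
  exact hns ((hih M hgM hMV).trans (SnIn.of_le_normalizer hMV.le (h4.symm.le.trans inf_le_right)))

/-- Baer's characterization of the Fitting subgroup: in a finite group G, an element g lies in the Fitting subgroup if and only if g is a left Engel element, that is, for every x there is n with [x, g, g, …, g] = 1 (n entries g, [a, b] = aba⁻¹b⁻¹). -/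
theorem result {G : Type*} [Group G] [Finite G] (g : G) :
    g ∈ Cfsg.fittingSubgroup G ↔ ∀ x : G, ∃ n : ℕ, (List.replicate n g).foldl (fun a b => a * b * a⁻¹ * b⁻¹) x = 1 := by
  constructor
  · intro hg x
    obtain ⟨n, hn⟩ := Subgroup.nilpotent_iff_lowerCentralSeries.1 (Grp.fitting_isNilpotent G)
    have h1 : ∀ k : ℕ, (List.replicate (k + 1) g).foldl (fun a b => a * b * a⁻¹ * b⁻¹) x ∈
        ((⊤ : Subgroup (fittingSubgroup G)).lowerCentralSeries k).map (fittingSubgroup G).subtype := by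
      intro k
      rw [fold_succ]
      induction k with
      | zero =>
        refine ⟨⟨_, ?_⟩, Subgroup.mem_top _, rfl⟩
        exact mul_mem ((Grp.fitting_normal G).conj_mem g hg _) (inv_mem hg)
      | succ k ih =>
        rw [fold_succ]
        obtain ⟨y, hy, hy'⟩ := ih
        refine ⟨⁅y, ⟨g, hg⟩⁆, ?_, by rw [← hy']; rfl⟩
        rw [Subgroup.lowerCentralSeries_succ]
        exact Subgroup.commutator_mem_commutator hy (Subgroup.mem_top _)
    exact ⟨n + 1, by simpa [hn] using h1 n⟩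
  · intro h
    exact Subgroup.zpowers_le.1 (Grp.le_fitting_of_isSubnormal
      (Grp.snIn_top_iff.1 (snIn g h ⊤ (Subgroup.mem_top g)))
      (Grp.isNilpotent_of_isMulCommutative _))

end Cfsg.Agent.S3937
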