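import Cfsg.Statements.S3939
import Mathlib
import Cfsg.Agent.Grp.Zipper
import Cfsg.Agent.Grp.Fitting
import Cfsg.Agent.PLocal.AmbSyl
import Cfsg.Agent.FGS.NilpPi
import Cfsg.Agent.Grp.MinNormal

set_option autoImplicit false
open Cfsg

namespace Cfsg.Agent.S3939

open Subgroup in
theorem nilp_map {G H : Type*} [Group G] [Group H] (f : G →* H) {x g : G}
    (h : Group.IsNilpotent (closure ({x, g} : Set G))) :
    Group.IsNilpotent (closure ({f x, f g} : Set H)) := by
  have := Grp.isNilpotent_map (closure ({x, g} : Set G)) f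
  rwa [MonoidHom.map_closure, Set.image_pair] at this

universe u in
open Subgroup in
theorem of_mem (n : ℕ) : ∀ (G : Type u) [Group G] (g : G), g ∈ Subgroup.upperCentralSeries G n →
    ∀ x : G, Group.IsNilpotent (closure ({x, g} : Set G)) := by
  induction n with
  | zero =>
    intro G _ g hg x
    rw [Subgroup.upperCentralSeries_zero, mem_bot] at hg
    have : closure ({x, g} : Set G) ≤ zpowers x := by
      rw [closure_le]; rintro _ (rfl | rfl)
      · exact mem_zpowers _
      · exact hg ▸ one_mem _
    haveI h' := Grp.isNilpotent_of_isMulCommutative (zpowers x)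
    exact Grp.isNilpotent_of_le this
  | succ n ih =>
    intro G _ g hg x
    rw [← Subgroup.comap_upperCentralSeries_quotient_center] at hg
    haveI := ih _ _ hg (QuotientGroup.mk' _ x)
    refine Subgroup.isNilpotent_of_ker_le_center
      (((QuotientGroup.mk' (center G)).comp (Subgroup.closure {x, g}).subtype).codRestrict
        (closure {QuotientGroup.mk' (center G) x, QuotientGroup.mk' (center G) g}) fun y => by
          rw [← Set.image_pair, ← MonoidHom.map_closure]; exact mem_map_of_mem _ y.2) ?_
    intro y hy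
    have h1 : (y : G) ∈ center G := (QuotientGroup.eq_one_iff _).1 (congrArg Subtype.val hy)
    exact mem_center_iff.2 fun z => Subtype.ext (mem_center_iff.1 h1 z)

open Subgroup PLocal.Amb in
theorem center_ne_bot {G : Type*} [Group G] [Finite G] {g : G} (hg : g ≠ 1)
    (h : ∀ x : G, Group.IsNilpotent (closure ({x, g} : Set G))) : center G ≠ ⊥ := by
  obtain ⟨p, hp, hpd⟩ := Nat.exists_prime_and_dvd (mt orderOf_eq_one_iff.1 hg)
  haveI := Fact.mk hp
  have h1 : orderOf (g ^ (orderOf g / p)) = p := orderOf_pow_orderOf_div (orderOf_pos g).ne' hpd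
  have hle : ∀ x : G, zpowers g ≤ closure ({x, g} : Set G) := fun x =>
    zpowers_le.2 (subset_closure (by simp))
  have h2 : zpowers g ≤ fittingSubgroup G := Grp.le_fitting_of_forall_isNilpotent_sup_conj fun x => by
    haveI := h (x * g * x⁻¹)
    refine Grp.isNilpotent_of_le (K := closure {x * g * x⁻¹, g}) (sup_le (hle _) ?_)
    rw [Grp.conj_smul_eq_map, MonoidHom.map_zpowers]
    exact zpowers_le.2 (subset_closure (by simp))
  have h3 : g ^ (orderOf g / p) ∈ pCore p G := zpowers_le.1 (Grp.le_pCore_of_le_fitting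
    (IsPGroup.of_card (n := 1) (by rw [Nat.card_zpowers, h1, pow_one]))
    (zpowers_le.2 (h2 (pow_mem (mem_zpowers g) _))))
  have h4 : g ^ (orderOf g / p) ∈ 𝐂[𝐎[p, (⊤ : Subgroup G)]] := by
    rw [← zpowers_le, le_centralizer_iff, centralizer_zpowers]
    refine pRes_le_iff.2 fun x _ hx => mem_centralizer_singleton_iff.2 ?_
    haveI := h x
    have := FGS.commute_of_coprime_of_isNilpotent (G := closure ({x, g} : Set G))
      (x := ⟨x, subset_closure (by simp)⟩) (y := ⟨_, hle x (pow_mem (mem_zpowers g) (orderOf g / p))⟩)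
      (by rw [Subgroup.orderOf_mk, Subgroup.orderOf_mk, h1]; exact hx)
    exact congrArg Subtype.val this
  obtain ⟨S, hS⟩ := exists_isSyl p (⊤ : Subgroup G)
  have h5 := inf_centralizer_ne_bot (V := pCore p G ⊓ 𝐂[𝐎[p, (⊤ : Subgroup G)]]) hS.pgrp
    (isPGroup_pCore' p G).to_inf_left (le_normalizer_inf
      (le_top.trans (pCoreOf_top (G := G) p ▸ le_normalizer_pCoreOf p ⊤))
      (le_normalizer_centralizer (le_top.trans (le_normalizer_pRes p ⊤))))
    fun h5 => hp.ne_one (h1.symm.trans (orderOf_eq_one_iff.2 (h5.le ⟨h3, h4⟩)))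
  refine fun h6 => h5 (eq_bot_iff.2 (le_trans ?_ h6.le))
  rw [← centralizer_univ, ← coe_top]
  conv_rhs => rw [← hS.pRes_sup, centralizer_sup]
  exact inf_le_inf_right _ inf_le_right

/-- In a finite group G the set of elements g such that the subgroup generated by g and x is nilpotent for every x ∈ G is exactly the hypercenter of G (the last term of the upper central series). -/
theorem result {G : Type*} [Group G] [Finite G] (g : G) :
    (∀ x : G, Group.IsNilpotent ↥(Subgroup.closure ({x, g} : Set G))) ↔ g ∈ ⨆ n : ℕ, Subgroup.upperCentralSeries G n := by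
  rw [Subgroup.mem_iSup_of_directed (Subgroup.upperCentralSeries_mono G).directed_le]
  refine ⟨?_, fun ⟨n, hn⟩ => of_mem n G g hn⟩
  revert g
  refine Grp.card_induction (P := fun G _ _ => ∀ g : G,
    (∀ x : G, Group.IsNilpotent ↥(Subgroup.closure ({x, g} : Set G))) →
      ∃ i, g ∈ Subgroup.upperCentralSeries G i) ?_ G
  intro G _ _ ih g h
  by_cases hg : g = 1
  · exact ⟨0, hg ▸ one_mem _⟩
  obtain ⟨n, hn⟩ := ih (G ⧸ Subgroup.center G) (Grp.card_quotient_lt _ (center_ne_bot hg h))
    (QuotientGroup.mk' _ g) fun x => by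
      obtain ⟨x, rfl⟩ := QuotientGroup.mk'_surjective _ x
      exact nilp_map _ (h x)
  exact ⟨n + 1, by rw [← Subgroup.comap_upperCentralSeries_quotient_center]; exact hn⟩

end Cfsg.Agent.S3939
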