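import Cfsg.Statements.S3941
import Mathlib


set_option autoImplicit false
open Cfsg

namespace Cfsg.Agent.S3941

open Equiv Equiv.Perm

noncomputable def emb (m : ℕ) : alternatingGroup (Fin m) →* alternatingGroup (Fin (m + 1)) :=
  ((viaEmbeddingHom (Fin.castSuccEmb (n := m))).comp (alternatingGroup (Fin m)).subtype).codRestrict _
    fun g => by
      have := mem_alternatingGroup.1 g.2
      rw [mem_alternatingGroup]
      simp only [MonoidHom.comp_apply, Subgroup.subtype_apply, viaEmbeddingHom_apply]
      unfold Perm.viaEmbedding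
      rw [sign_extendDomain]; exact this

theorem emb_inj (m : ℕ) : Function.Injective (emb m) := fun a b h =>
  Subtype.ext (viaEmbeddingHom_injective _ (congrArg Subtype.val h))

theorem mem_of_normal {X : Type*} [Group X] [Finite X] {p : ℕ} [Fact p.Prime] (P : Sylow p X)
    (hn : (P : Subgroup X).Normal) {x : X} (hx : x ^ p = 1) : x ∈ (P : Subgroup X) := by
  have : IsPGroup p (Subgroup.zpowers x) := by
    refine IsPGroup.of_card_dvd_pow (n := 1) ?_
    rw [Nat.card_zpowers, pow_one]; exact orderOf_dvd_of_pow_eq_one hx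
  obtain ⟨Q, hQ⟩ := this.exists_le_sylow
  haveI := Sylow.unique_of_normal P hn
  rw [Subsingleton.elim P Q]
  exact hQ (Subgroup.mem_zpowers x)


/-- Let n ≥ 5 and p an odd prime with p ≤ n, and suppose that every proper subgroup of the alternating group of degree n whose order is divisible by p has a normal Sylow p-subgroup. Then n = p. -/
theorem result (n p : ℕ) (hn : 5 ≤ n) [Fact p.Prime] (hp : p ≠ 2) (hpn : p ≤ n)
    (h : ∀ H : Subgroup ↥(alternatingGroup (Fin n)), H ≠ ⊤ → p ∣ Nat.card ↥H → Cfsg.IsPClosed p ↥H) : n = p := by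
  by_contra hne
  obtain ⟨m, rfl⟩ : ∃ m, n = m + 1 := ⟨n - 1, by omega⟩
  have hpp : p.Prime := Fact.out
  have hpm : p ≤ m := by omega
  haveI : Nontrivial (Fin m) := Fin.nontrivial_iff_two_le.2 (by omega)
  haveI : Nontrivial (Fin (m + 1)) := Fin.nontrivial_iff_two_le.2 (by omega)
  have hc : 2 * Nat.card (alternatingGroup (Fin m)) = m.factorial := by
    have := two_mul_nat_card_alternatingGroup (α := Fin m)
    rw [this, Nat.card_perm, Nat.card_eq_fintype_card, Fintype.card_fin]
  have hc' : 2 * Nat.card (alternatingGroup (Fin (m + 1))) = (m + 1).factorial := by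
    have := two_mul_nat_card_alternatingGroup (α := Fin (m + 1))
    rw [this, Nat.card_perm, Nat.card_eq_fintype_card, Fintype.card_fin]
  let e := MonoidHom.ofInjective (emb_inj m)
  have hcard : Nat.card (emb m).range = Nat.card (alternatingGroup (Fin m)) :=
    (Nat.card_congr e.toEquiv).symm
  have hdvd : p ∣ Nat.card (alternatingGroup (Fin m)) := by
    have : p ∣ 2 * Nat.card (alternatingGroup (Fin m)) := hc ▸ Nat.dvd_factorial hpp.pos hpm
    exact (Nat.Coprime.dvd_mul_left ((Nat.coprime_primes hpp Nat.prime_two).2 hp)).1 this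
  have hcl := h (emb m).range (by
    intro ht
    rw [ht, Subgroup.card_top] at hcard
    rw [hcard, hc, Nat.factorial_succ] at hc'
    have := Nat.factorial_pos m
    nlinarith) (hcard ▸ hdvd)
  obtain ⟨P⟩ : Nonempty (Sylow p (emb m).range) := inferInstance
  have hP := hcl P
  rcases Nat.lt_or_ge m 5 with h5 | h5
  · obtain rfl : m = 4 := by omega
    obtain rfl : p = 3 := by
      have := hpp.two_le
      interval_cases p
      · exact absurd rfl hp
      · rfl
      · exact absurd hpp (by norm_num)
    let a : alternatingGroup (Fin 4) := ⟨swap 0 1 * swap 1 2, mem_alternatingGroup.2 (by decide)⟩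
    let b : alternatingGroup (Fin 4) := ⟨swap 1 2 * swap 2 3, mem_alternatingGroup.2 (by decide)⟩
    have ha : e a ∈ (P : Subgroup _) := mem_of_normal P hP (by
      rw [← map_pow, show a ^ 3 = 1 from Subtype.ext (by decide), map_one])
    have hb : e b ∈ (P : Subgroup _) := mem_of_normal P hP (by
      rw [← map_pow, show b ^ 3 = 1 from Subtype.ext (by decide), map_one])
    obtain ⟨k, hk⟩ := P.isPGroup' ⟨_, mul_mem ha hb⟩
    have h1 : (a * b) ^ 3 ^ k = 1 := by
      apply e.injective
      rw [map_pow, map_mul, map_one]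
      exact congrArg Subtype.val hk
    have h2 : (a * b) ^ 2 = 1 := Subtype.ext (by decide)
    have h3 : a * b = 1 := by
      have := Nat.dvd_gcd (orderOf_dvd_of_pow_eq_one h1) (orderOf_dvd_of_pow_eq_one h2)
      rw [Nat.Coprime.gcd_eq_one (Nat.Coprime.pow_left k (by norm_num)), Nat.dvd_one,
        orderOf_eq_one_iff] at this
      exact this
    exact absurd (congrArg Subtype.val h3) (by decide)
  · haveI : IsSimpleGroup (alternatingGroup (Fin m)) :=
      alternatingGroup.isSimpleGroup (by simpa using h5)
    haveI : IsSimpleGroup (emb m).range := e.symm.isSimpleGroup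
    rcases hP.eq_bot_or_eq_top with hb | ht
    · exact P.ne_bot_of_dvd_card (hcard ▸ hdvd) hb
    · obtain ⟨k, hk⟩ := IsPGroup.iff_card.1 P.isPGroup'
      rw [ht, Subgroup.card_top, hcard] at hk
      have h4 : 2 * 2 ∣ 2 * p ^ k := by
        rw [← hk, hc]; exact Nat.dvd_factorial (by norm_num) (by omega)
      have := Nat.prime_two.dvd_of_dvd_pow (Nat.dvd_of_mul_dvd_mul_left (by norm_num) h4)
      exact hp ((Nat.prime_dvd_prime_iff_eq Nat.prime_two hpp).1 this).symm

end Cfsg.Agent.S3941
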