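import Cfsg.Statements.S3946
import Mathlib
import Cfsg.Agent.Solv.Hughes

set_option autoImplicit false
open Cfsg

namespace Cfsg.Agent.S3946

open SemidirectProduct Subgroup

/-- Call an automorphism α of order n of a group G splitting when x · α(x) · α²(x) ⋯ α^(n−1)(x) = 1 for every x ∈ G. A finite group admitting a splitting automorphism of prime order is nilpotent (this contains the case of a fixed-point-free automorphism of prime order). -/
theorem result {G : Type*} [Group G] [Finite G] (α : MulAut G) (hp : (orderOf α).Prime)
    (hsplit : ∀ x : G, (((List.range (orderOf α)).map (fun i : ℕ => (α ^ i) x)).prod = 1)) : Group.IsNilpotent G := by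
  set p := orderOf α with hpdef
  let Γ := G ⋊[(zpowers α).subtype] (zpowers α)
  haveI : Finite Γ := Finite.of_equiv _ (SemidirectProduct.equivProd (φ := (zpowers α).subtype)).symm
  let a : zpowers α := ⟨α, mem_zpowers α⟩
  have ha : orderOf a = p := by rw [← Subgroup.orderOf_coe]
  have h1 : ∀ (x : G) (n : ℕ), (inl x * inr a : Γ) ^ n =
      inl (((List.range n).map (fun i : ℕ => (α ^ i) x)).prod) * inr (a ^ n) := by
    intro x n
    induction n with
    | zero => simp
    | succ n ih =>
      rw [pow_succ, ih, List.range_succ, List.map_append, List.prod_append, map_mul, pow_succ,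
        map_mul]
      simp only [List.map_cons, List.map_nil, List.prod_cons, List.prod_nil, mul_one]
      have := inl_aut (φ := (zpowers α).subtype) (a ^ n) x
      have e : (zpowers α).subtype (a ^ n) = α ^ n := rfl
      rw [e] at this
      rw [this, map_inv]
      group
  have h2 : ∀ g : Γ, rightHom g = a → g ^ p = 1 := by
    intro g hg
    rw [← inl_left_mul_inr_right g, show g.right = a from hg, h1, hsplit, ← ha, pow_orderOf_eq_one]
    simp
  have h3 : Group.IsNilpotent (rightHom : Γ →* zpowers α).ker := by
    refine Solv.Hughes.isNilpotent_of_pow_eq_one hp Γ _ inferInstance ?_ fun g hg => ?_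
    · rw [index_ker, MonoidHom.range_eq_top.2 rightHom_surjective, card_top, Nat.card_zpowers]
    · haveI := Fact.mk hp
      have h0 : rightHom g ^ p = 1 := by
        rw [show p = Nat.card (zpowers α) from (Nat.card_zpowers α).symm, pow_card_eq_one']
      have h4 : a ∈ zpowers (rightHom g) :=
        mem_zpowers_of_prime_card (p := p) (Nat.card_zpowers α) hg
      obtain ⟨k, hk⟩ := (mem_powers_iff_mem_zpowers.2 h4)
      have hk' : rightHom g ^ k = a := hk
      have h5 : (g ^ k) ^ p = 1 := h2 _ (by rw [map_pow, hk'])
      have h6 : (g ^ (k + p)) ^ p = 1 := h2 _ (by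
        rw [map_pow, pow_add, hk', h0, mul_one])
      rw [pow_add, (Commute.pow_pow_self g k p).mul_pow, h5, one_mul] at h6
      have h7 : k.Coprime p := by
        refine ((Nat.Prime.coprime_iff_not_dvd hp).2 ?_).symm
        rintro ⟨j, rfl⟩
        rw [pow_mul, h0, one_pow] at hk'
        rw [← hk', orderOf_one] at ha
        exact hp.one_lt.ne ha
      rw [← pow_mul, mul_comm, pow_mul] at h5
      exact orderOf_eq_one_iff.1 (Nat.eq_one_of_dvd_coprimes h7 (orderOf_dvd_of_pow_eq_one h5)
        (orderOf_dvd_of_pow_eq_one h6))
  rw [← range_inl_eq_ker_rightHom] at h3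
  exact Group.nilpotent_of_mulEquiv (G := (inl : G →* Γ).range) (MonoidHom.ofInjective inl_injective).symm

end Cfsg.Agent.S3946
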