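import Cfsg.Statements.S3947
import Mathlib
import Cfsg.Agent.PLocal.FlavellZipper

set_option autoImplicit false
open Cfsg

namespace Cfsg.Agent.S3947

open Subgroup PLocal PLocal.Amb

/-- Let G be a finite group and A a proper subgroup of G whose normal closure is G. Let Y be the join of all proper subgroups H of G that contain A and are generated by their own conjugates of A (the normal closure of A in H is H). Then either Y = G, or A is contained in exactly one maximal subgroup of G. -/
theorem result {G : Type*} [Group G] [Finite G] (A : Subgroup G) (hA : Subgroup.normalClosure (A : Set G) = ⊤) (hAG : A ≠ ⊤) :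
    sSup {H : Subgroup G | A ≤ H ∧ H ≠ ⊤ ∧ Subgroup.normalClosure ((A.subgroupOf H : Subgroup ↥H) : Set ↥H) = ⊤} = ⊤ ∨
      ∃! M : Subgroup G, IsCoatom M ∧ A ≤ M := by
  refine or_iff_not_imp_left.2 fun hY => ?_
  obtain ⟨M, hM, hle⟩ := (eq_top_or_exists_le_coatom _).resolve_left hY
  have h : ∀ H : Subgroup G, A ≤ H → H ≠ ⊤ → CP.ncl A H = H → H ≤ M := fun H h1 h2 h3 => by
    refine le_trans (le_sSup ?_) hle
    refine ⟨h1, h2, map_injective H.subtype_injective ?_⟩
    rw [CP.map_normalClosure_subgroupOf h1, h3, ← MonoidHom.range_eq_map, range_subtype]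
  refine ⟨M, ⟨hM, h A le_rfl hAG (CP.ncl_eq_self le_normalizer)⟩, fun N hN => ?_⟩
  exact FZ.eq_of_forall_ncl_le (fun K hK h1 => top_le_iff.1 (hA ▸ normalClosure_le_normal h1))
    hM h hN.1 hN.2

end Cfsg.Agent.S3947
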