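import Cfsg.Statements.S3949
import Mathlib


set_option autoImplicit false
open Cfsg

namespace Cfsg.Agent.S3949

theorem iter {G : Type*} [Group G] (α : MulAut G) (g : G) (hg : α g = g⁻¹) (j : ℕ) :
    (fun c : G => c * (α c)⁻¹)^[j] g = g ^ 2 ^ j := by
  induction j with
  | zero => simp
  | succ j ih =>
    rw [Function.iterate_succ_apply', ih]
    simp only [map_pow, hg, inv_pow, inv_inv]
    rw [← pow_add, pow_succ, mul_two]


/-- Let G be a finite group and α an automorphism of G of order 2 such that the elements g·α(g)⁻¹ generate G. Let j be a positive integer such that 2^j divides the order of no element inverted by α. Then the set of values of the j-th iterate of the map c ↦ c·α(c)⁻¹ is exactly the set of elements of odd order inverted by α. -/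
theorem result {G : Type*} [Group G] [Finite G] (α : MulAut G) (hα : orderOf α = 2) (hG : Subgroup.closure (Set.range (fun c : G => c * (α c)⁻¹)) = ⊤)
    (j : ℕ) (hj : ∀ g : G, α g = g⁻¹ → ¬ 2 ^ j ∣ orderOf g) :
    Set.range ((fun c : G => c * (α c)⁻¹)^[j]) = {g : G | Odd (orderOf g) ∧ α g = g⁻¹} := by
  have h2 : ∀ c, α (α c) = c := fun c => by
    have : α ^ 2 = 1 := by rw [← hα]; exact pow_orderOf_eq_one α
    have := congrArg (fun f : MulAut G => f c) this
    simpa [pow_two] using this
  obtain _ | j := j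
  · exact absurd (by simp) (hj 1 (by simp))
  ext g
  constructor
  · rintro ⟨c, rfl⟩
    have hc : α (c * (α c)⁻¹) = (c * (α c)⁻¹)⁻¹ := by simp [h2]
    rw [Function.iterate_succ_apply, iter α _ hc]
    refine ⟨?_, by simp only [map_pow, hc, inv_pow]⟩
    set x := c * (α c)⁻¹
    have hx := hj x hc
    have h0 : orderOf x ≠ 0 := (orderOf_pos x).ne'
    obtain ⟨a, m, hm, e⟩ := Nat.exists_eq_two_pow_mul_odd h0
    have ha : a ≤ j := by
      by_contra hlt
      exact hx (e ▸ Dvd.dvd.mul_right (pow_dvd_pow 2 (by omega)) m)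
    have : orderOf (x ^ 2 ^ j) ∣ m := by
      apply orderOf_dvd_of_pow_eq_one
      rw [← pow_mul]
      apply orderOf_dvd_iff_pow_eq_one.1
      rw [e]
      exact Nat.mul_dvd_mul_right (pow_dvd_pow 2 ha) m
    exact hm.of_dvd_nat this
  · rintro ⟨ho, hg⟩
    have hc : (2 ^ (j + 1)).Coprime (orderOf g) :=
      Nat.Coprime.pow_left _ (Nat.coprime_two_left.2 ho)
    obtain ⟨m, hm⟩ := exists_pow_eq_self_of_coprime hc
    refine ⟨g ^ m, ?_⟩
    rw [iter α _ (by simp only [map_pow, hg, inv_pow]), ← pow_mul, mul_comm, pow_mul, hm]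

end Cfsg.Agent.S3949
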