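import Cfsg.Statements.S3982
import Mathlib
import Cfsg.Agent.PLocal.AmbSyl
import Cfsg.Agent.Solv.CoprimeSylow

set_option autoImplicit false
open Cfsg

namespace Cfsg.Agent.S3982

open Subgroup PLocal.Amb in
theorem inverts {G : Type*} [Group G] [Finite G] {p : ℕ} [Fact p.Prime]
    (hC : ∀ g : G, g ≠ 1 → (∃ k : ℕ, orderOf g = p ^ k) → Odd (Nat.card ↥(centralizer ({g} : Set G))))
    {Q : Subgroup G} (hQ : IsPGroup p ↥Q) {y : G} (hy : orderOf y = 2) (hyQ : y ∈ 𝐍[Q]) :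
    (∀ w ∈ Q, y * w * y⁻¹ = w⁻¹) ∧ Q ≤ 𝐂[Q] := by
  have hy2 : y * y = 1 := by rw [← sq, ← hy, pow_orderOf_eq_one]
  have h1 : MonoidHom.FixedPointFree (Q.normalizerMonoidHom ⟨y, hyQ⟩) := by
    intro w hw
    by_contra h1
    have h2 : y * w * y⁻¹ = w := congrArg Subtype.val hw
    obtain ⟨k, hk⟩ := IsPGroup.iff_orderOf.1 hQ w
    have h3 := hC w (fun h => h1 (Subtype.ext h)) ⟨k, by rw [Subgroup.orderOf_coe, hk]⟩
    have h4 := Subgroup.orderOf_dvd_natCard _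
      (mem_centralizer_singleton_iff.2 (mul_inv_eq_iff_eq_mul.1 h2))
    rw [hy] at h4
    exact (Nat.not_even_iff_odd.2 h3) (even_iff_two_dvd.2 h4)
  have h2 : Function.Involutive (Q.normalizerMonoidHom ⟨y, hyQ⟩) := by
    intro w
    apply Subtype.ext
    change y * (y * w * y⁻¹) * y⁻¹ = w
    calc y * (y * w * y⁻¹) * y⁻¹ = (y * y) * w * (y * y)⁻¹ := by group
      _ = w := by rw [hy2]; group
  exact ⟨fun w hw => congrArg Subtype.val (congrFun (h1.coe_eq_inv_of_involutive h2) ⟨w, hw⟩),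
    fun a ha b hb => congrArg Subtype.val (h1.commute_all_of_involutive h2 ⟨b, hb⟩ ⟨a, ha⟩)⟩

open Subgroup PLocal.Amb in
theorem aux {G : Type*} [Group G] [Finite G] {p : ℕ} [Fact p.Prime]
    (hC : ∀ g : G, g ≠ 1 → (∃ k : ℕ, orderOf g = p ^ k) → Odd (Nat.card ↥(centralizer ({g} : Set G))))
    {y : G} (hy : orderOf y = 2) {Q₀ : Subgroup G} (hQ₀ : IsPGroup p ↥Q₀) (h0 : Q₀ ≠ ⊥)
    (hyQ₀ : y ∈ 𝐍[Q₀]) : ∃ Q : Subgroup G, IsSyl p Q ⊤ ∧ y ∈ 𝐍[Q] := by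
  obtain ⟨Q, hQ0, ⟨hQ, hyQ⟩, hmax⟩ := Finite.exists_le_maximal
    (p := fun Q : Subgroup G => IsPGroup p Q ∧ y ∈ 𝐍[Q]) ⟨hQ₀, hyQ₀⟩
  obtain ⟨h1, h2⟩ := inverts hC hQ hy hyQ
  have key : ∀ w ∈ Q, w ≠ 1 → IsSyl p Q (centralizer ({w} : Set G)) := by
    intro w hw hw1
    obtain ⟨k, hk⟩ := IsPGroup.iff_orderOf.1 hQ ⟨w, hw⟩
    have h3 := hC w hw1 ⟨k, by rw [← hk, Subgroup.orderOf_mk]⟩
    obtain ⟨P, hP, hP'⟩ := Solv.exists_invariant_sylow_ge (zpowers y) (centralizer ({w} : Set G))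
      (zpowers_le.2 (cj_eq_iff.1 (by
        rw [← centralizer_singleton_conj, h1 w hw, ← centralizer_zpowers, zpowers_inv,
          centralizer_zpowers])))
      (by rw [Nat.card_zpowers, hy]; exact Nat.coprime_two_left.2 h3)
      (Or.inl (Group.isSolvable_of_comm fun a b => mul_comm' a b)) p Q
      (h2.trans (centralizer_le (Set.singleton_subset_iff.2 hw))) hQ (zpowers_le.2 hyQ)
    have h4 := isSyl_map_subtype P
    rwa [le_antisymm (hmax ⟨h4.pgrp, hP' (mem_zpowers y)⟩ hP) hP] at h4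
  obtain ⟨S, hS, hQS⟩ := exists_isSyl_ge hQ (le_top : Q ≤ ⊤)
  have hQ1 : Q ≠ ⊥ := fun h => h0 (eq_bot_iff.2 (hQ0.trans h.le))
  obtain ⟨⟨w, hw⟩, hw1⟩ := (ne_bot_iff_exists_ne_one).1 hQ1
  obtain ⟨⟨z, hzS, hz⟩, hz1⟩ := (ne_bot_iff_exists_ne_one).1 (inf_centralizer_ne_bot hS.pgrp hS.pgrp
    le_normalizer fun h => hQ1 (eq_bot_iff.2 (hQS.trans h.le)))
  have hzQ : z ∈ Q := zpowers_le.1 ((key w hw fun h => hw1 (Subtype.ext h)).le_of_normalizes
    (hS.pgrp.to_le (zpowers_le.2 hzS))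
    (zpowers_le.2 (mem_centralizer_singleton_iff.2 (hz w (hQS hw)).symm))
    (zpowers_le.2 (centralizer_le_normalizer' _ (centralizer_anti hQS hz))))
  have h5 := (key z hzQ fun h => hz1 (Subtype.ext h)).eq hS.pgrp hQS
    fun s hs => mem_centralizer_singleton_iff.2 (hz s hs)
  exact ⟨Q, h5 ▸ hS, hyQ⟩

/-- Let p be an odd prime and G a finite group of even order divisible by p in which the centralizer of every non-identity p-element has odd order. If some nontrivial p-subgroup of G has a normalizer of even order, then the normalizer of every Sylow p-subgroup of G has even order. -/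
theorem result {G : Type*} [Group G] [Finite G] (p : ℕ) [Fact p.Prime] (hp2 : p ≠ 2) (hpG : p ∣ Nat.card G) (h2G : 2 ∣ Nat.card G) (hC : ∀ g : G, g ≠ 1 → (∃ k : ℕ, orderOf g = p ^ k) → Odd (Nat.card ↥(Subgroup.centralizer ({g} : Set G)))) (Q : Subgroup G) (hQ : IsPGroup p ↥Q) (hQ1 : Q ≠ ⊥) (hev : Even (Nat.card ↥(Subgroup.normalizer (Q : Set G)))) (P : Sylow p G) : Even (Nat.card ↥(Subgroup.normalizer ((P : Subgroup G) : Set G))) := by
  obtain ⟨y, hy⟩ := exists_prime_orderOf_dvd_card' 2 (even_iff_two_dvd.1 hev)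
  obtain ⟨R, hR, hyR⟩ := aux hC (y := y) (by rw [Subgroup.orderOf_coe, hy]) hQ hQ1 y.2
  obtain ⟨g, -, hg⟩ := (PLocal.Amb.isSyl_top P).exists_cj_eq hR
  rw [← hg, PLocal.Amb.normalizer_cj, PLocal.Amb.card_cj, even_iff_two_dvd, ← hy,
    ← Subgroup.orderOf_coe]
  exact Subgroup.orderOf_dvd_natCard _ hyR

end Cfsg.Agent.S3982
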