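import Cfsg.Statements.S3985
import Mathlib
import Cfsg.Agent.FGS.SylowTI
import Cfsg.Agent.PLocal.IsolatedP

set_option autoImplicit false
open scoped Pointwise
open Cfsg

namespace Cfsg.Agent.S3985

open Subgroup PLocal.Amb in
theorem aux {G : Type*} [Group G] [Finite G] (p : ℕ) [Fact p.Prime] (P : Sylow p G)
    (hcyc : IsCyclic ↥(P : Subgroup G)) : FGS.SylowTI p G ↔
      ∀ x : G, x ∈ (P : Subgroup G) → x ≠ 1 → centralizer ({x} : Set G) = 𝐂[(P : Subgroup G)] := by
  have hPC : (P : Subgroup G) ≤ 𝐂[(P : Subgroup G)] :=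
    le_centralizer_iff_isMulCommutative.2 (FT.abelian_of_isCyclic hcyc)
  have hle : ∀ x ∈ (P : Subgroup G), 𝐂[(P : Subgroup G)] ≤ centralizer ({x} : Set G) :=
    fun x hx => centralizer_le (Set.singleton_subset_iff.2 hx)
  constructor
  · intro h x hx hx1
    refine le_antisymm ?_ (hle x hx)
    rw [← (isSyl_of_le P (hPC.trans (hle x hx))).pRes_sup]
    refine sup_le (pRes_le_iff.2 fun g hg hgc => ?_) hPC
    refine PLocal.mem_centralizer_of_cyclic P.isPGroup' hcyc ?_ hgc hx hx1 hg
    refine cj_eq_iff.1 (h _ _ ((isSyl_top P).cj_of_mem (mem_top g)) (isSyl_top P) fun h1 => hx1 ?_)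
    refine h1.le ⟨?_, hx⟩
    have := conj_mem_cj g hx
    rwa [mem_centralizer_singleton_iff.1 hg, mul_inv_cancel_right] at this
  · intro h
    refine (FGS.sylowTI_iff P).1 fun g hg => ?_
    rw [eq_bot_iff]
    rintro x ⟨hx, hx'⟩
    by_contra hx1
    obtain ⟨y, hy, rfl⟩ := mem_cj_iff_exists.1 hx'
    have h1 := h _ hx hx1
    rw [centralizer_singleton_conj, h y hy (fun h2 => hx1 (by simp [h2]))] at h1
    have h2 : cj(g, (P : Subgroup G)) ≤ 𝐍[(P : Subgroup G)] :=
      ((cj_mono g hPC).trans h1.le).trans (centralizer_le_normalizer' _)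
    exact hg (mem_normalizer_of_cj_le
      ((isSyl_top P).le_of_normalizes (isPGroup_cj g P.isPGroup') le_top h2))

/-- Let P be a cyclic Sylow p-subgroup of the finite group G. Then P meets each conjugate g P g⁻¹ with g outside N_G(P) trivially if and only if P is weakly self-centralizing: C_G(x) = C_G(P) for every non-identity x ∈ P. -/
theorem result {G : Type*} [Group G] [Finite G] (p : ℕ) [Fact p.Prime] (P : Sylow p G) (hcyc : IsCyclic ↥(P : Subgroup G)) : (∀ g : G, g ∉ Subgroup.normalizer ((P : Subgroup G) : Set G) → (P : Subgroup G) ⊓ (MulAut.conj g • (P : Subgroup G)) = ⊥) ↔ ∀ x : G, x ∈ (P : Subgroup G) → x ≠ 1 → Subgroup.centralizer ({x} : Set G) = Subgroup.centralizer ((P : Subgroup G) : Set G) := by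
  exact (FGS.sylowTI_iff P).trans (aux p P hcyc)

end Cfsg.Agent.S3985
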