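import Cfsg.Statements.S3986
import Mathlib
import Cfsg.Agent.PLocal.AmbSyl
import Cfsg.Agent.FGS.PrimePart
import Cfsg.Agent.Grp.Card

set_option autoImplicit false
open Cfsg

namespace Cfsg.Agent.S3986

open Subgroup PLocal.Amb in
theorem mem_of_factor {G : Type*} [Group G] [Finite G] {p : ℕ} [Fact p.Prime] {P : Sylow p G}
    {K : Subgroup G} [(P : Subgroup G).Normal] [K.Normal] (h : (P : Subgroup G) ⊔ K = ⊤) {x y : G}
    (hx : ∃ a : ℕ, orderOf x = p ^ a) (hy : ∃ q b : ℕ, q.Prime ∧ q ≠ p ∧ orderOf y = q ^ b) :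
    x ∈ (P : Subgroup G) ∧ y ∈ K := by
  obtain ⟨a, ha⟩ := hx
  obtain ⟨q, b, hq, hqp, hb⟩ := hy
  constructor
  · exact zpowers_le.1 ((isSyl_top P).le_of_normalizes
      (isPGroup_zpowers ⟨a, ha ▸ pow_orderOf_eq_one x⟩) le_top le_normalizer_of_normal)
  · have h1 := pRes_sup_le (A := K) P.isPGroup' le_normalizer_of_normal
    refine h1 (mem_pRes (by rw [sup_comm, h]; exact mem_top y) ?_)
    rw [hb]
    exact ((Nat.coprime_primes hq Fact.out).2 hqp).pow_left b

/-- Let p be a prime and G a finite group. Then some Sylow p-subgroup of G is a direct factor of G (it is normal and has a normal complement) if and only if every element of p-power order commutes with every element whose order is a power of a prime other than p. -/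
theorem result {G : Type*} [Group G] [Finite G] (p : ℕ) [Fact p.Prime] : (∃ (P : Sylow p G) (K : Subgroup G), (P : Subgroup G).Normal ∧ K.Normal ∧ (P : Subgroup G) ⊓ K = ⊥ ∧ (P : Subgroup G) ⊔ K = ⊤) ↔ ∀ x y : G, (∃ a : ℕ, orderOf x = p ^ a) → (∃ q b : ℕ, q.Prime ∧ q ≠ p ∧ orderOf y = q ^ b) → x * y = y * x := by
  constructor
  · rintro ⟨P, K, hP, hK, h1, h2⟩ x y hx hy
    obtain ⟨h3, h4⟩ := mem_of_factor h2 hx hy
    exact Subgroup.commute_of_normal_of_disjoint _ _ hP hK (disjoint_iff.2 h1) x y h3 h4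
  · intro h
    obtain ⟨P⟩ : Nonempty (Sylow p G) := inferInstance
    have h1 : ∀ y : G, (∃ q k : ℕ, q.Prime ∧ q ≠ p ∧ y ^ q ^ k = 1) →
        y ∈ Subgroup.centralizer ((P : Subgroup G) : Set G) := by
      rintro y ⟨q, k, hq, hqp, hy⟩ x hx
      obtain ⟨a, ha⟩ := PLocal.Amb.isPGroup_iff.1 P.isPGroup' x hx
      obtain ⟨a', -, ha'⟩ := (Nat.dvd_prime_pow Fact.out).1 (orderOf_dvd_of_pow_eq_one ha)
      obtain ⟨k', -, hk'⟩ := (Nat.dvd_prime_pow hq).1 (orderOf_dvd_of_pow_eq_one hy)
      exact h x y ⟨a', ha'⟩ ⟨q, k', hq, hqp, hk'⟩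
    have h2 : ∀ y : G, (orderOf y).Coprime p →
        y ∈ Subgroup.centralizer ((P : Subgroup G) : Set G) := by
      intro y hy
      refine FGS.mem_of_forall_primePow_part fun q hq z hz ⟨k, hk⟩ => ?_
      by_cases hqp : q = p
      · subst hqp
        have h3 : (orderOf z).Coprime (q ^ k) :=
          (hy.coprime_dvd_left (orderOf_dvd_of_mem_zpowers hz)).pow_right k
        rw [orderOf_eq_one_iff.1 (h3.eq_one_of_dvd (orderOf_dvd_of_pow_eq_one hk))]
        exact one_mem _
      · exact h1 z ⟨q, k, hq, hqp, hk⟩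
    have hP : (P : Subgroup G).Normal := by
      rw [← Subgroup.normalizer_eq_top_iff, eq_top_iff, ← (PLocal.Amb.isSyl_top P).pRes_sup]
      exact sup_le ((PLocal.Amb.pRes_le_iff.2 fun g _ hg => h2 g hg).trans
        (PLocal.Amb.centralizer_le_normalizer' _)) Subgroup.le_normalizer
    obtain ⟨K, hK⟩ := Subgroup.exists_right_complement'_of_coprime (N := (P : Subgroup G))
      P.card_coprime_index
    refine ⟨P, K, hP, ?_, hK.disjoint.eq_bot, hK.sup_eq_top⟩
    rw [← Subgroup.normalizer_eq_top_iff, eq_top_iff, ← hK.sup_eq_top]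
    refine sup_le (le_trans ?_ (PLocal.Amb.centralizer_le_normalizer' _)) Subgroup.le_normalizer
    refine Subgroup.le_centralizer_iff.1 fun y hy => h2 y ?_
    refine Nat.Coprime.coprime_dvd_left (Subgroup.orderOf_dvd_natCard K hy) ?_
    rw [← hK.symm.index_eq_card]
    exact ((Nat.Prime.coprime_iff_not_dvd Fact.out).2 P.not_dvd_index).symm

end Cfsg.Agent.S3986
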