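import Cfsg.Statements.S3987
import Mathlib
import Cfsg.Agent.S3986

set_option autoImplicit false
open Cfsg

namespace Cfsg.Agent.S3987

/-- Let p be a prime and G a finite group. Then some Sylow p-subgroup of G is a direct factor of G (normal with a normal complement) if and only if for every element x of p-power order and every element y whose order is a power of a prime other than p, the conjugacy class of x y has as many elements as the product of the sizes of the classes of x and of y. -/
theorem result {G : Type*} [Group G] [Finite G] (p : ℕ) [Fact p.Prime] : (∃ (P : Sylow p G) (K : Subgroup G), (P : Subgroup G).Normal ∧ K.Normal ∧ (P : Subgroup G) ⊓ K = ⊥ ∧ (P : Subgroup G) ⊔ K = ⊤) ↔ ∀ x y : G, (∃ a : ℕ, orderOf x = p ^ a) → (∃ q b : ℕ, q.Prime ∧ q ≠ p ∧ orderOf y = q ^ b) → (Subgroup.centralizer ({x * y} : Set G)).index = (Subgroup.centralizer ({x} : Set G)).index * (Subgroup.centralizer ({y} : Set G)).index := by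
  constructor
  · rintro ⟨P, K, hP, hK, h1, h2⟩ x y hx hy
    obtain ⟨h3, h4⟩ := S3986.mem_of_factor h2 hx hy
    have hc := Subgroup.commute_of_normal_of_disjoint _ _ hP hK (disjoint_iff.2 h1)
    obtain ⟨a, ha⟩ := hx
    obtain ⟨q, b, hq, hqp, hb⟩ := hy
    rw [FGS.centralizer_mul_of_coprime (hc x y h3 h4) (by
      rw [ha, hb]; exact Nat.Coprime.pow a b ((Nat.coprime_primes Fact.out hq).2 hqp.symm))]
    have h5 : K ≤ Subgroup.centralizer ({x} : Set G) := fun g hg =>
      Subgroup.mem_centralizer_singleton_iff.2 (hc x g h3 hg).symm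
    have h6 : (P : Subgroup G) ≤ Subgroup.centralizer ({y} : Set G) := fun g hg =>
      Subgroup.mem_centralizer_singleton_iff.2 (hc g y hg h4)
    have h7 : (Subgroup.centralizer ({x} : Set G)).index.Coprime
        (Subgroup.centralizer ({y} : Set G)).index := by
      refine Nat.Coprime.coprime_dvd_left (Subgroup.index_dvd_of_le h5)
        (Nat.Coprime.coprime_dvd_right (Subgroup.index_dvd_of_le h6) ?_)
      rw [(Grp.isComplement'_of_sup_eq_top h1 h2).index_eq_card]
      exact P.card_coprime_index
    exact le_antisymm Subgroup.index_inf_le (Nat.le_of_dvd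
      (Nat.pos_of_ne_zero Subgroup.index_ne_zero_of_finite) (h7.mul_dvd_of_dvd_of_dvd
        (Subgroup.index_dvd_of_le inf_le_left) (Subgroup.index_dvd_of_le inf_le_right)))
  · intro h
    refine (S3986.result p).2 fun x y hx hy => ?_
    have h1 : Subgroup.centralizer ({x} : Set G) ⊓ Subgroup.centralizer ({y} : Set G) ≤
        Subgroup.centralizer ({x * y} : Set G) := by
      rintro g ⟨h1, h2⟩
      exact Subgroup.mem_centralizer_singleton_iff.2 (Commute.mul_right
        (Subgroup.mem_centralizer_singleton_iff.1 h1) (Subgroup.mem_centralizer_singleton_iff.1 h2))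
    have h2 := Subgroup.index_inf_le (H := Subgroup.centralizer ({x} : Set G))
      (K := Subgroup.centralizer ({y} : Set G))
    rw [← h x y hx hy] at h2
    have h3 := Subgroup.eq_of_le_of_card_ge h1 (by
      have h4 := Subgroup.card_mul_index (Subgroup.centralizer ({x * y} : Set G))
      have h5 := Subgroup.card_mul_index
        (Subgroup.centralizer ({x} : Set G) ⊓ Subgroup.centralizer ({y} : Set G))
      refine Nat.le_of_mul_le_mul_right ?_ (Nat.pos_of_ne_zero
        (Subgroup.index_ne_zero_of_finite (H := Subgroup.centralizer ({x * y} : Set G))))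
      rw [h4, ← h5]
      exact Nat.mul_le_mul_left _ h2)
    have h6 : x * y ∈ Subgroup.centralizer ({x * y} : Set G) :=
      Subgroup.mem_centralizer_singleton_iff.2 rfl
    rw [← h3] at h6
    have h7 := Subgroup.mem_centralizer_singleton_iff.1 h6.1
    rw [mul_assoc, mul_right_inj] at h7
    exact h7.symm

end Cfsg.Agent.S3987
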