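import Cfsg.Statements.S3989
import Cfsg.Agent.PLocal.PSolv
import Cfsg.Agent.Transfer.Frobenius
import Cfsg.Agent.Block.PPart
import Cfsg.Agent.Grp.MinNormal
import Cfsg.Agent.PLocal.Amb
-- import your own Cfsg.Agent.* helpers here

set_option autoImplicit false
open Cfsg

namespace Cfsg.Agent.S3989

open Cfsg.Agent Subgroup Cfsg.Agent.PLocal Cfsg.Agent.PLocal.Amb Cfsg.Agent.Block

universe u

theorem aux {p : ℕ} [hp : Fact p.Prime] (G : Type u) [Group G] [Finite G]
    (H : ∀ x y : G, (∃ a : ℕ, orderOf x = p ^ a) → ∀ q : ℕ, q.Prime → q ≠ p →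
      (∃ b : ℕ, orderOf y = q ^ b) → ∀ a : G, IsConj (x * y) (x * (a * y * a⁻¹))) :
    IsPSolvable p G := by
  induction hn : Nat.card G using Nat.strong_induction_on generalizing G with | _ n ih => ?_
  subst hn
  rcases subsingleton_or_nontrivial G with _ | _
  · exact isPSolvable_of_subsingleton
  obtain ⟨N, hN, h1, hmin⟩ := Grp.exists_minNormal G
  refine isPSolvable_of_normal_of_quotient N ?_
    (ih _ (Grp.card_quotient_lt N h1) _ (fun x y hx q hq hqp hy a => ?_) rfl)
  · by_contra hns
    have hc : ¬ HasNormalPComplement p N := fun h => hns (isPSolvable_of_normal_of_quotient _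
      (isPSolvable_of_coprime (Transfer.hasNormalPComplement_iff_coprime.1 h))
      (isPSolvable_of_isPGroup Transfer.isPGroup_quotient_pResidual))
    obtain ⟨B, q, y, hB, hq, hqp, hy, hyn, hyc⟩ :=
      Transfer.exists_qElement_of_not_hasNormalPComplement hc
    obtain ⟨x, hx, hxy⟩ : ∃ x ∈ B, x * y ≠ y * x := by
      by_contra k
      push Not at k
      exact hyc k
    have hx0 : x * (y * x⁻¹ * y⁻¹) ∈ B := mul_mem hx (conj_mem_of_mem_normalizer hyn (inv_mem hx))
    have hne : x * (y * x⁻¹ * y⁻¹) ≠ 1 := fun e => hxy (by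
      calc x * y = x * (y * x⁻¹ * y⁻¹) * (y * x) := by group
        _ = y * x := by rw [e, one_mul])
    have he : IsConj (y : G) (((x * (y * x⁻¹ * y⁻¹) : N) : G) * y) :=
      isConj_iff.2 ⟨x, by push_cast; group⟩
    generalize x * (y * x⁻¹ * y⁻¹) = w at hx0 hne he
    have hw : ∃ a : ℕ, orderOf (w : G) = p ^ a := by
      obtain ⟨k, hk⟩ := isPGroup_iff.1 hB w hx0
      obtain ⟨j, -, hj⟩ := (Nat.dvd_prime_pow hp.out).1 (orderOf_dvd_of_pow_eq_one hk)
      exact ⟨j, by rw [orderOf_coe, hj]⟩
    let K : Subgroup G :=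
      { carrier := {g | ∀ z, IsConj (y : G) z → IsConj (y : G) (g * z)}
        one_mem' := fun z hz => by rwa [one_mul]
        mul_mem' := fun {a b} ha hb z hz => by rw [mul_assoc]; exact ha _ (hb z hz)
        inv_mem' := fun {a} ha z hz => by
          have k : ∀ n : ℕ, IsConj (y : G) (a ^ n * z) := fun n => by
            induction n with
            | zero => simpa using hz
            | succ n ih => rw [pow_succ', mul_assoc]; exact ha _ ih
          have := k (orderOf a - 1)
          rwa [show a ^ (orderOf a - 1) = a⁻¹ from eq_inv_of_mul_eq_one_left (by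
            rw [← pow_succ, Nat.sub_add_cancel (orderOf_pos a), pow_orderOf_eq_one])] at this }
    have hK : K.Normal := ⟨fun a ha g z hz => by
      have := ha _ (hz.trans (isConj_iff.2 ⟨g⁻¹, rfl⟩))
      refine this.trans (isConj_iff.2 ⟨g, by group⟩)⟩
    have hwK : (w : G) ∈ K := fun z hz => by
      obtain ⟨a, rfl⟩ := isConj_iff.1 hz
      exact he.trans (H w y hw q hq hqp (by simpa only [orderOf_coe] using hy) a)
    have hKN : K ⊓ N = N := (hmin (K ⊓ N) inferInstance inf_le_right).resolve_left fun e =>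
      hne (Subtype.ext (mem_bot.1 (e.le ⟨hwK, w.2⟩)))
    have := (hKN.ge (inv_mem y.2)).1 y (IsConj.refl _)
    rw [inv_mul_cancel, isConj_one_left] at this
    exact hxy (by rw [show y = 1 from Subtype.ext this, mul_one, one_mul])
  · have := Fact.mk hq
    obtain ⟨x, rfl⟩ := QuotientGroup.mk'_surjective N x
    obtain ⟨y, rfl⟩ := QuotientGroup.mk'_surjective N y
    obtain ⟨a, rfl⟩ := QuotientGroup.mk'_surjective N a
    have := (QuotientGroup.mk' N).map_isConj
      (H _ _ (orderOf_pPart p x) q hq hqp (orderOf_pPart q y) a)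
    simp only [map_mul, map_inv] at this
    rwa [← pPart_map, ← pPart_map, pPart_eq_self_iff.2 hx, pPart_eq_self_iff.2 hy] at this

/-- Let p be a prime and G a finite group such that for every element x of p-power order and every element y whose order is a power of a prime other than p, the conjugacy class of x y is the set of all products of a conjugate of x with a conjugate of y. Then G is p-solvable. -/
theorem result {G : Type*} [Group G] [Finite G] (p : ℕ) [Fact p.Prime] (h : ∀ x y : G, (∃ a : ℕ, orderOf x = p ^ a) → (∃ q b : ℕ, q.Prime ∧ q ≠ p ∧ orderOf y = q ^ b) → ∀ z : G, IsConj (x * y) z ↔ ∃ a b : G, z = a * x * a⁻¹ * (b * y * b⁻¹)) : Cfsg.IsPSolvable p G := by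
  refine aux G fun x y hx q hq hqp ⟨b, hy⟩ a => (h x y hx ⟨q, b, hq, hqp, hy⟩ _).2 ⟨1, a, ?_⟩
  simp

end Cfsg.Agent.S3989
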