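import Cfsg.Statements.S3992
import Mathlib
import Cfsg.Agent.CIT.SpecEPPO
import Cfsg.Agent.FGS.SolvRad
import Cfsg.Agent.Grp.Cores
import Cfsg.Agent.Grp.MinNormal
import Cfsg.Agent.S1475
import Cfsg.Agent.S4068

set_option autoImplicit false
open Cfsg

namespace Cfsg.Agent.S3992

open Cfsg.Agent.CIT

theorem isPGroup_of_commute {X : Type*} [Group X] [Finite X] (h : EPPO X) {A B : Subgroup X}
    (hB : B ≠ ⊥) (hc : ∀ a ∈ A, ∀ b ∈ B, a * b = b * a) : ∃ p : ℕ, p.Prime ∧ IsPGroup p A := by
  obtain ⟨r, hr, hrd⟩ := Nat.exists_prime_and_dvd (Subgroup.card_eq_one.not.mpr hB)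
  have : Fact r.Prime := ⟨hr⟩
  obtain ⟨b, hb⟩ := exists_prime_orderOf_dvd_card' r hrd
  obtain ⟨k, hk⟩ := eq_pow_of_forall_prime (n := Nat.card A) (p := r) Nat.card_pos.ne' (by
    intro s hs hsd
    have : Fact s.Prime := ⟨hs⟩
    obtain ⟨a, ha⟩ := exists_prime_orderOf_dvd_card' s hsd
    by_contra hne
    have h1 := mul_mem_Ω (hc a a.2 b b.2) (by
      rw [Subgroup.orderOf_coe, Subgroup.orderOf_coe, ha, hb]
      exact (Nat.coprime_primes hs hr).mpr hne)
    rw [Subgroup.orderOf_coe, Subgroup.orderOf_coe, ha, hb] at h1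
    exact h.not_mem hs hr hne h1)
  exact ⟨r, hr, IsPGroup.of_card hk⟩

theorem socle {X : Type*} [Group X] [Finite X] [Nontrivial X] (h : EPPO X)
    (hs : ∀ N : Subgroup X, N.Normal → Group.IsSolvable N → N = ⊥) :
    ∃ M : Subgroup X, M.Normal ∧ IsSimpleGroup M ∧ ¬ IsMulCommutative M ∧
      ∀ N : Subgroup X, N.Normal → N ≠ ⊥ → M ≤ N := by
  have hp : ∀ (N : Subgroup X) (p : ℕ), p.Prime → N.Normal → IsPGroup p N → N = ⊥ := by
    intro N p hp hN hNp
    have : Fact p.Prime := ⟨hp⟩
    have := hNp.isNilpotent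
    exact hs N hN inferInstance
  obtain ⟨M, hM, hM1, hmin⟩ := Grp.exists_minNormal X
  have : Nontrivial M := (Subgroup.nontrivial_iff_ne_bot M).mpr hM1
  refine ⟨M, hM, ⟨fun A hA => ?_⟩, fun hc => hM1 (hs M hM ?_), fun N hN hN1 => ?_⟩
  · by_cases hA1 : A = ⊥
    · exact Or.inl hA1
    right
    obtain ⟨A0, hA0, hA01, hA0A, hA0min⟩ := Grp.exists_minNormal_le A hA1
    have key : ∀ g : X, A0 ≤ A0.map (MulAut.conjNormal (H := M) g).toMonoidHom := by
      intro g
      have hB : (A0.map (MulAut.conjNormal (H := M) g).toMonoidHom).Normal :=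
        hA0.map _ (MulEquiv.surjective _)
      rcases hA0min (A0 ⊓ A0.map (MulAut.conjNormal (H := M) g).toMonoidHom) inferInstance
        inf_le_left with h1 | h1
      · exfalso
        have hB1 : A0.map (MulAut.conjNormal (H := M) g).toMonoidHom ≠ ⊥ := by
          rwa [Ne, Subgroup.map_eq_bot_iff_of_injective _ (MulEquiv.injective _)]
        obtain ⟨p, hpp, hA0p⟩ := isPGroup_of_commute (h.of_subset (Ω_sub_subset M)) hB1
          (fun a ha b hb => Subgroup.commute_of_normal_of_disjoint _ _ hA0 hB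
            (disjoint_iff.mpr h1) a b ha hb)
        have h2 := hp ((pCore p M).map M.subtype) p hpp
          (Grp.normal_map_subtype_of_characteristic M _) (Grp.map_pCore_isPGroup p _)
        rw [Subgroup.map_eq_bot_iff_of_injective _ M.subtype_injective] at h2
        exact hA01 (le_bot_iff.mp (h2 ▸ Grp.le_pCore hA0 hA0p))
      · exact h1.ge.trans inf_le_right
    have hn : (A0.map M.subtype).Normal := ⟨by
      rintro _ ⟨x, hx, rfl⟩ g
      obtain ⟨y, hy, hxy⟩ := key g⁻¹ hx
      refine ⟨y, hy, ?_⟩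
      rw [← hxy]
      simp [mul_assoc]⟩
    rcases hmin _ hn (Subgroup.map_subtype_le _) with h1 | h1
    · rw [Subgroup.map_eq_bot_iff_of_injective _ M.subtype_injective] at h1
      exact absurd h1 hA01
    · rw [eq_top_iff]
      refine le_trans (fun x _ => ?_) hA0A
      obtain ⟨y, hy, hxy⟩ : (x : X) ∈ A0.map M.subtype := h1.symm ▸ x.2
      rwa [← Subtype.ext hxy]
  · exact isSolvable_of_comm fun a b => hc.is_comm.comm a b
  · rcases hmin (M ⊓ N) inferInstance inf_le_left with h1 | h1
    · obtain ⟨p, hpp, hMp⟩ := isPGroup_of_commute h hN1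
        (fun a ha b hb => Subgroup.commute_of_normal_of_disjoint _ _ hM hN
          (disjoint_iff.mpr h1) a b ha hb)
      exact absurd (hp M p hpp hM hMp) hM1
    · exact h1.ge.trans inf_le_right

/-- Let G be a finite non-solvable group in which every element has prime-power order, and let R be its largest solvable normal subgroup. Then R is a p-group for some prime p; G/R has a non-abelian simple normal subgroup contained in every nontrivial normal subgroup of G/R (its unique minimal normal subgroup); and the order of every solvable subgroup of G has at most two prime divisors. -/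
theorem result {G : Type*} [Group G] [Finite G] (hns : ¬ Group.IsSolvable G) (hpp : ∀ g : G, g ≠ 1 → IsPrimePow (orderOf g))
    (R : Subgroup G) [R.Normal] (hRs : Group.IsSolvable ↥R) (hRmax : ∀ N : Subgroup G, N.Normal → Group.IsSolvable ↥N → N ≤ R) :
    (∃ p : ℕ, p.Prime ∧ IsPGroup p ↥R) ∧
      (∃ M : Subgroup (G ⧸ R), M.Normal ∧ IsSimpleGroup ↥M ∧ ¬ IsMulCommutative ↥M ∧
        ∀ N : Subgroup (G ⧸ R), N.Normal → N ≠ ⊥ → M ≤ N) ∧
      ∀ H : Subgroup G, Group.IsSolvable ↥H → (Nat.card ↥H).primeFactors.card ≤ 2 := by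
  have h3 : ∀ H : Subgroup G, Group.IsSolvable ↥H → (Nat.card ↥H).primeFactors.card ≤ 2 := by
    intro H hH
    refine S1475.result fun g => ?_
    by_cases hg : g = 1
    · exact Or.inr hg
    · left
      rw [← Subgroup.orderOf_coe]
      exact hpp _ fun h => hg (Subtype.ext h)
  refine ⟨?_, ?_, h3⟩
  · have hG3 : 3 ≤ (Nat.card G).primeFactors.card := by
      by_contra hlt
      exact hns (S4068.isSolvable_of_primeFactors (by omega))
    have hR2 := h3 R hRs
    have hR1 : (Nat.card R).primeFactors.card ≤ 1 := by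
      by_contra hlt
      obtain ⟨r, hr, hrR⟩ := Finset.exists_mem_notMem_of_card_lt_card
        (s := (Nat.card R).primeFactors) (t := (Nat.card G).primeFactors) (by omega)
      have hrp := Nat.prime_of_mem_primeFactors hr
      have : Fact r.Prime := ⟨hrp⟩
      obtain ⟨x, hx⟩ := exists_prime_orderOf_dvd_card' r (Nat.dvd_of_mem_primeFactors hr)
      have h1 := h3 (Subgroup.zpowers x ⊔ R) (FGS.isSolvable_sup_of_normal
        inferInstance hRs)
      have h2 : insert r (Nat.card R).primeFactors ⊆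
          (Nat.card (Subgroup.zpowers x ⊔ R : Subgroup G)).primeFactors := by
        refine Finset.insert_subset ?_ (Nat.primeFactors_mono (Subgroup.card_dvd_of_le le_sup_right)
          Nat.card_pos.ne')
        refine Nat.mem_primeFactors.mpr ⟨hrp, ?_, Nat.card_pos.ne'⟩
        rw [← hx, ← Nat.card_zpowers]
        exact Subgroup.card_dvd_of_le le_sup_left
      have h4 := Finset.card_le_card h2
      rw [Finset.card_insert_of_notMem hrR] at h4
      omega
    obtain ⟨p, hp, hsub⟩ : ∃ p : ℕ, p.Prime ∧ ∀ r ∈ (Nat.card R).primeFactors, r = p := by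
      rcases (Nat.card R).primeFactors.eq_empty_or_nonempty with h | ⟨p, hp⟩
      · exact ⟨2, Nat.prime_two, by simp [h]⟩
      · exact ⟨p, Nat.prime_of_mem_primeFactors hp,
          fun r hr => Finset.card_le_one.mp hR1 r hr p hp⟩
    obtain ⟨k, hk⟩ := eq_pow_of_forall_prime (n := Nat.card R) (p := p) Nat.card_pos.ne'
      fun r hr hd => hsub r (Nat.mem_primeFactors.mpr ⟨hr, hd, Nat.card_pos.ne'⟩)
    exact ⟨p, hp, IsPGroup.of_card hk⟩
  · have hnt : Nontrivial (G ⧸ R) := by
      rw [QuotientGroup.nontrivial_iff]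
      rintro rfl
      exact hns (solvable_of_surjective (f := (⊤ : Subgroup G).subtype)
        (fun g => ⟨⟨g, trivial⟩, rfl⟩))
    refine socle ((eppo_of hpp).quot R) fun N hN hNs => ?_
    have h1 : Group.IsSolvable (N.comap (QuotientGroup.mk' R)) :=
      FGS.isSolvable_comap _ hNs (by rwa [QuotientGroup.ker_mk'])
    have h2 := hRmax _ inferInstance h1
    rw [← Subgroup.map_comap_eq_self_of_surjective (QuotientGroup.mk'_surjective R) N,
      Subgroup.map_eq_bot_iff, QuotientGroup.ker_mk']
    exact h2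

end Cfsg.Agent.S3992
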