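import Cfsg.Statements.S4001
import Mathlib
import Cfsg.Agent.FGS.Camina
import Cfsg.Agent.Solv.CN
import Cfsg.Agent.Solv.Misc1
import Cfsg.Agent.Grp.Fitting

set_option autoImplicit false
open Cfsg

namespace Cfsg.Agent.S4001

open FGS.Camina Subgroup Solv
open scoped commutatorElement

theorem exists_orderOf_eq_of_dvd {G : Type*} [Group G] [Finite G] {g : G} {d : ℕ}
    (h : d ∣ orderOf g) : ∃ x : G, orderOf x = d :=
  ⟨g ^ (orderOf g / d), orderOf_pow_orderOf_div (orderOf_pos g).ne' h⟩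

theorem exists_orderOf_eq_of_isCyclic {G : Type*} [Group G] [Finite G] [IsCyclic G] {d : ℕ}
    (h : d ∣ Nat.card G) : ∃ x : G, orderOf x = d := by
  obtain ⟨g, hg⟩ := IsCyclic.exists_ofOrder_eq_natCard (α := G)
  exact exists_orderOf_eq_of_dvd (hg ▸ h)

/-- Let G be a 2-Frobenius group: it has normal subgroups H < K with K a Frobenius group with kernel H and G/H a Frobenius group with kernel K/H. Then G is solvable; K/H has odd order coprime to the order of H and to the order of G/K (it is the image of an odd-order Hall subgroup); G/K is cyclic; and the prime graph of G has exactly two connected components, both complete: for distinct primes p, q dividing the order of G, G has an element of order pq exactly when p and q either both divide the order of K/H or both do not. -/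
theorem result {G : Type*} [Group G] [Finite G] (H K : Subgroup G) [H.Normal] [K.Normal] (hlt : H < K)
    (hK : ∃ C : Subgroup ↥K, Cfsg.IsFrobeniusComplement C ∧ Cfsg.frobeniusKernel C = (H.subgroupOf K : Set ↥K))
    (hGH : ∃ C : Subgroup (G ⧸ H), Cfsg.IsFrobeniusComplement C ∧ Cfsg.frobeniusKernel C = (K.map (QuotientGroup.mk' H) : Set (G ⧸ H))) :
    Group.IsSolvable G ∧ Odd (Nat.card (↥K ⧸ H.subgroupOf K)) ∧
      Nat.Coprime (Nat.card (↥K ⧸ H.subgroupOf K)) (Nat.card ↥H * Nat.card (G ⧸ K)) ∧ IsCyclic (G ⧸ K) ∧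
      ∀ p q : ℕ, p.Prime → q.Prime → p ≠ q → p ∣ Nat.card G → q ∣ Nat.card G →
        ((∃ g : G, orderOf g = p * q) ↔ (p ∣ Nat.card (↥K ⧸ H.subgroupOf K) ↔ q ∣ Nat.card (↥K ⧸ H.subgroupOf K))) := by
  obtain ⟨C, hC, hCk⟩ := hK
  obtain ⟨D, hD, hDk⟩ := hGH
  set Hk := H.subgroupOf K with hHk
  set Kb := K.map (QuotientGroup.mk' H) with hKb
  have e1 : fittingSubgroup K = Hk :=
    SetLike.coe_injective ((Frob.coe_fitting_eq_frobeniusKernel hC).trans hCk)
  have e2 : fittingSubgroup (G ⧸ H) = Kb :=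
    SetLike.coe_injective ((Frob.coe_fitting_eq_frobeniusKernel hD).trans hDk)
  have c1 : IsComplement' Hk C := e1 ▸ Frob.isComplement'_fitting hC
  have c2 : IsComplement' Kb D := e2 ▸ Frob.isComplement'_fitting hD
  have n1 : Group.IsNilpotent Hk := Frob.isNilpotent_kernel hC c1
  have n2 : Group.IsNilpotent Kb := Frob.isNilpotent_kernel hD c2
  have nH : Group.IsNilpotent H := Group.nilpotent_of_mulEquiv (subgroupOfEquivOfLe hlt.le)
  have ha : ∀ h ∈ H, h ≠ 1 → ∀ k ∈ K, k * h = h * k → k ∈ H := by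
    intro h hh h1 k hk hc
    exact Frob.centralizer_le_kernel hC c1 (k := ⟨h, hlt.le hh⟩) hh
      (fun e => h1 (congrArg Subtype.val e))
      (show (⟨k, hk⟩ : K) ∈ _ from mem_centralizer_singleton_iff.2 (Subtype.ext hc))
  have hb' : ∀ k ∈ K, k ∉ H → ∀ g : G, (g : G ⧸ H) * k = k * g → g ∈ K := by
    intro k hk h1 g hc
    have := Frob.centralizer_le_kernel hD c2 (k := (k : G ⧸ H)) (mem_map_of_mem _ hk)
      (fun e => h1 ((QuotientGroup.eq_one_iff k).1 e)) (mem_centralizer_singleton_iff.2 hc)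
    have h2 : g ∈ Kb.comap (QuotientGroup.mk' H) := this
    rwa [hKb, comap_map_eq, QuotientGroup.ker_mk', sup_eq_left.2 hlt.le] at h2
  have hb : ∀ k ∈ K, k ∉ H → ∀ g : G, g * k = k * g → g ∈ K := fun k hk h1 g hc =>
    hb' k hk h1 g (by rw [← QuotientGroup.mk_mul, hc, QuotientGroup.mk_mul])
  set B : Subgroup G := C.map K.subtype with hB
  have hBK : B ≤ K := map_subtype_le C
  have hBH : ∀ x ∈ B, x ∈ H → x = 1 := by
    rintro _ ⟨x, hx, rfl⟩ h
    have := disjoint_def.1 c1.disjoint (show x ∈ Hk from h) hx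
    rw [this]; rfl
  have hdec : ∀ k ∈ K, ∃ h ∈ H, ∃ b ∈ B, h * b = k := by
    intro k hk
    obtain ⟨⟨h, c⟩, e⟩ := c1.existsUnique ⟨k, hk⟩
    exact ⟨h, h.2, c, mem_map_of_mem _ c.2, congrArg Subtype.val e.1⟩
  have hH1 : H ≠ ⊥ := by
    intro h
    have : Hk = ⊥ := by rw [hHk, h, bot_subgroupOf]
    rw [this] at c1
    exact (Frob.isFrobeniusComplement_iff.1 hC).2.1 (isComplement'_bot_left.1 c1)
  have hB1 : B ≠ ⊥ := fun h => (Frob.isFrobeniusComplement_iff.1 hC).1
    ((map_eq_bot_iff_of_injective C K.subtype_injective).1 h)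
  have hD1 : D ≠ ⊥ := (Frob.isFrobeniusComplement_iff.1 hD).1
  have hfpf : ∀ b ∈ B, b ≠ 1 → H ⊓ centralizer {b} = ⊥ := by
    intro b hb h1
    rw [eq_bot_iff]
    rintro h ⟨hh, hc⟩
    by_contra h2
    exact h1 (hBH b hb (ha h hh h2 b (hBK hb) (mem_centralizer_singleton_iff.1 hc).symm))
  have hBn : B ≤ normalizer (H : Set G) := by rw [normalizer_eq_top]; exact le_top
  let f : B →* Kb := ((QuotientGroup.mk' H).comp B.subtype).codRestrict Kb
    fun b => mem_map_of_mem _ (hBK b.2)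
  have hf : Function.Injective f := by
    rw [injective_iff_map_eq_one]
    intro b h
    exact Subtype.ext (hBH b b.2 ((QuotientGroup.eq_one_iff _).1 (congrArg Subtype.val h)))
  have hf' : Function.Surjective f := by
    rintro ⟨_, k, hk, rfl⟩
    obtain ⟨h, hh, b, hb, rfl⟩ := hdec k hk
    refine ⟨⟨b, hb⟩, Subtype.ext ?_⟩
    show (b : G ⧸ H) = ((h * b : G) : G ⧸ H)
    rw [QuotientGroup.mk_mul, (QuotientGroup.eq_one_iff h).2 hh, one_mul]
  have nB : Group.IsNilpotent B := Grp.isNilpotent_of_injective f hf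
  have cB : Nat.card (K ⧸ Hk) = Nat.card B := by
    rw [Nat.card_congr c1.symm.QuotientMulEquiv.toEquiv, hB,
      card_map_of_injective K.subtype_injective]
  have eD : G ⧸ K ≃* D :=
    (QuotientGroup.quotientQuotientEquivQuotient H K hlt.le).symm.trans c2.symm.QuotientMulEquiv
  have hodd : Odd (Nat.card B) := by
    rw [← Nat.not_even_iff_odd, even_iff_two_dvd]
    intro h2
    obtain ⟨t, ht⟩ := exists_prime_orderOf_dvd_card' (G := B) 2 h2
    have ht1 : (t : G) ≠ 1 := by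
      intro h
      rw [show t = 1 from Subtype.ext h, orderOf_one] at ht
      exact absurd ht (by norm_num)
    have ht2 : t * t = 1 := by rw [← pow_two, ← ht, pow_orderOf_eq_one]
    obtain ⟨⟨d, hd⟩, hd1⟩ := (ne_bot_iff_exists_ne_one.1 hD1)
    obtain ⟨s, hs⟩ := hf' ⟨d * f t * d⁻¹, (inferInstance : Kb.Normal).conj_mem _ (f t).2 d⟩
    have hs' : ((s : G) : G ⧸ H) = d * ((t : G) : G ⧸ H) * d⁻¹ := congrArg Subtype.val hs
    have hs2 : s * s = 1 := by
      apply hf
      apply Subtype.ext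
      show (((s : G) * s : G) : G ⧸ H) = ((1 : G) : G ⧸ H)
      rw [QuotientGroup.mk_mul, hs', conj_mul, ← QuotientGroup.mk_mul, ← coe_mul, ht2]
      simp
    have hs1 : (s : G) ≠ 1 := by
      intro h
      rw [h, QuotientGroup.mk_one, eq_comm, conj_eq_one_iff, QuotientGroup.eq_one_iff] at hs'
      exact ht1 (hBH t t.2 hs')
    have hst := CN.involution_unique_of_fpf hH1 hBn hfpf s.2 t.2 hs1 ht1
      (congrArg Subtype.val hs2) (congrArg Subtype.val ht2)
    rw [hst, eq_mul_inv_iff_mul_eq] at hs'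
    obtain ⟨g, rfl⟩ := QuotientGroup.mk_surjective d
    have hg := hb' t (hBK t.2) (fun h => ht1 (hBH t t.2 h)) g hs'.symm
    exact hd1 (Subtype.ext (disjoint_def.1 c2.disjoint (mem_map_of_mem _ hg) hd))
  haveI hcyc : IsCyclic B := by
    obtain ⟨C0, Q, h1, -, h2, -, -, h3⟩ := CN.structure_of_fpf nB hH1 hBn hfpf
    rwa [← le_antisymm (h1 ▸ le_sup_left) (h3 B le_rfl hodd)]
  haveI hcK : IsCyclic Kb := isCyclic_of_surjective f hf'
  obtain ⟨⟨β, hβ⟩, hβ1⟩ := (ne_bot_iff_exists_ne_one.1 hB1)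
  have hβ1' : β ≠ 1 := fun h => hβ1 (Subtype.ext h)
  have hβH : β ∉ H := fun h => hβ1' (hBH β hβ h)
  have hKb1 : Kb ≠ ⊥ := fun h => hβH ((QuotientGroup.eq_one_iff β).1
    (mem_bot.1 (h ▸ mem_map_of_mem (QuotientGroup.mk' H) (hBK hβ))))
  haveI : IsMulCommutative D := by
    refine ⟨⟨fun x y => Subtype.ext ?_⟩⟩
    have h1 : ⁅(x : G ⧸ H), (y : G ⧸ H)⁆ ∈ centralizer (Kb : Set (G ⧸ H)) :=
      commutator_le_centralizer_of_isCyclic Kb (commutator_mem_commutator (mem_top _) (mem_top _))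
    have h2 : ⁅(x : G ⧸ H), (y : G ⧸ H)⁆ ∈ Kb :=
      Frob.centralizer_le_kernel hD c2 (k := (β : G ⧸ H)) (mem_map_of_mem _ (hBK hβ))
        (fun e => hβH ((QuotientGroup.eq_one_iff β).1 e))
        (mem_centralizer_singleton_iff.2 (h1 _ (mem_map_of_mem _ (hBK hβ))).symm)
    have h3 : ⁅(x : G ⧸ H), (y : G ⧸ H)⁆ ∈ D :=
      mul_mem (mul_mem (mul_mem x.2 y.2) (inv_mem x.2)) (inv_mem y.2)
    exact commutatorElement_eq_one_iff_mul_comm.1 (disjoint_def.1 c2.disjoint h2 h3)
  have hDn : D ≤ normalizer (Kb : Set (G ⧸ H)) := by rw [normalizer_eq_top]; exact le_top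
  have hDf := Frob.fpf_of_isFrobeniusComplement hD c2.disjoint
  haveI hcD : IsCyclic D := Frob.isCyclic_of_fpf_of_comm hKb1 hDn hDf
  haveI hcQ : IsCyclic (G ⧸ K) := isCyclic_of_surjective eD.symm eD.symm.surjective
  have cop1 : (Nat.card B).Coprime (Nat.card H) := Frob.coprime_card_of_fpf hBn hfpf
  have cop2 : (Nat.card B).Coprime (Nat.card (G ⧸ K)) := by
    rw [Nat.card_congr eD.toEquiv, Nat.card_congr (Equiv.ofBijective f ⟨hf, hf'⟩)]
    exact (Frob.coprime_card_of_fpf hDn hDf).symm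
  have hcard : Nat.card G = Nat.card H * Nat.card B * Nat.card (G ⧸ K) := by
    rw [← Grp.card_quotient_mul_card K, ← Grp.card_quotient_mul_card Hk, cB, hHk,
      Grp.card_subgroupOf_of_le hlt.le]
    ring
  have hmemH : ∀ y ∈ K, (orderOf y).Coprime (Nat.card B) → y ∈ H := by
    intro y hy hc
    have h1 : (⟨y, hy⟩ : K) ^ Hk.index ∈ Hk := Hk.pow_index_mem _
    rw [index_eq_card, cB] at h1
    exact FGS.mem_of_pow_mem_of_coprime hc h1
  rw [cB]
  refine ⟨?_, hodd, Nat.Coprime.mul_right cop1 cop2, hcQ, ?_⟩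
  · haveI : Group.IsSolvable (G ⧸ H) := by
      haveI : IsCyclic ((G ⧸ H) ⧸ Kb) := isCyclic_of_surjective c2.symm.QuotientMulEquiv.symm
        c2.symm.QuotientMulEquiv.symm.surjective
      haveI : Group.IsSolvable ((G ⧸ H) ⧸ Kb) := Solv.isSolvable_of_isMulCommutative _
      exact FGS.isSolvable_of_normal_of_quotient Kb
    exact FGS.isSolvable_of_normal_of_quotient H
  have fwd : ∀ p q : ℕ, p.Prime → q.Prime → ∀ g : G, orderOf g = p * q → p ∣ Nat.card B →
      q ∣ Nat.card B := by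
    intro p q hp hq g hg hpB
    by_contra hqB
    have hx : orderOf (g ^ q) = p := by
      rw [orderOf_pow_of_dvd hq.ne_zero (hg ▸ dvd_mul_left q p), hg, Nat.mul_div_cancel _ hq.pos]
    have hy : orderOf (g ^ p) = q := by
      rw [orderOf_pow_of_dvd hp.ne_zero (hg ▸ dvd_mul_right p q), hg,
        Nat.mul_div_cancel_left _ hp.pos]
    have hxK : g ^ q ∈ K := FGS.mem_of_pow_mem_of_coprime
      (hx ▸ Nat.Coprime.coprime_dvd_left hpB cop2) (K.pow_index_mem _)
    have hxH : g ^ q ∉ H := fun h => hp.one_lt.ne'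
      (Nat.eq_one_of_dvd_coprimes cop1 hpB (hx ▸ H.orderOf_dvd_natCard h))
    have hc : g ^ p * g ^ q = g ^ q * g ^ p := (Commute.pow_pow_self g p q).eq
    have hyH := hmemH _ (hb _ hxK hxH _ hc) (hy ▸ (hq.coprime_iff_not_dvd).2 hqB)
    refine hxH (ha _ hyH (fun h => ?_) _ hxK hc.symm)
    rw [h, orderOf_one] at hy
    exact hq.one_lt.ne hy
  have mixed : ∀ p q : ℕ, p.Prime → q.Prime → p ≠ q → p ∣ Nat.card H → q ∣ Nat.card (G ⧸ K) →
      ∃ g : G, orderOf g = p * q := by
    intro p q hp hq hpq hpH hqK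
    haveI := Fact.mk hq
    obtain ⟨⟨γ, hγ⟩, hgen⟩ := IsCyclic.exists_generator (α := B)
    have hγH : γ ∉ H := by
      intro h
      obtain ⟨k, hk⟩ := mem_zpowers_iff.1 (hgen ⟨β, hβ⟩)
      have : β = γ ^ k := (congrArg Subtype.val hk).symm
      exact hβH (this ▸ zpow_mem h k)
    have hsurj : (normalizer (B : Set G)).map (QuotientGroup.mk' K) = ⊤ := by
      rw [eq_top_iff]
      rintro g -
      obtain ⟨g, rfl⟩ := QuotientGroup.mk_surjective g
      obtain ⟨k, -, hk⟩ := Frob.exists_conj_mem_of_not_mem hC c1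
        (x := ⟨g * γ * g⁻¹, (inferInstance : K.Normal).conj_mem _ (hBK hγ) g⟩)
        (fun h => hγH (by simpa [mul_assoc] using (inferInstance : H.Normal).conj_mem' _ h g))
      have h1 : (k * g) * γ * (k * g : G)⁻¹ ∈ B := by
        have h0 : (k : G) * (g * γ * g⁻¹) * (k : G)⁻¹ ∈ B := mem_map_of_mem K.subtype hk
        simpa [mul_assoc] using h0
      refine ⟨k * g, mem_normalizer_fintype fun n hn => ?_, ?_⟩
      · obtain ⟨j, hj⟩ := mem_zpowers_iff.1 (hgen ⟨n, hn⟩)
        have : n = γ ^ j := (congrArg Subtype.val hj).symm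
        rw [this, ← conj_zpow]
        exact zpow_mem h1 j
      · show ((k * g : G) : G ⧸ K) = g
        rw [QuotientGroup.mk_mul, (QuotientGroup.eq_one_iff (k : G)).2 k.2, one_mul]
    have hqN : q ∣ Nat.card (normalizer (B : Set G)) := by
      rw [← Grp.card_map_mk'_mul K, hsurj, card_top]
      exact hqK.mul_right _
    obtain ⟨⟨c, hcN⟩, hc⟩ := exists_prime_orderOf_dvd_card' q hqN
    have hc' : orderOf c = q := by rw [← hc]; exact (Subgroup.orderOf_coe (⟨c, hcN⟩ : normalizer (B : Set G)))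
    have hV : ∀ X : Subgroup G, X ≤ normalizer (omegaZ H p : Set G) := fun X => by
      rw [normalizer_eq_top]; exact le_top
    have hVH : omegaZ H p ≤ H := fun v hv => hv.1
    have h1 := Frob.inf_centralizer_ne_bot (omegaZ H p) B (zpowers c) (omegaZ_ne_bot nH hp hpH)
      (hV _) (hV _) (zpowers_le.2 hcN) ?_
      (Nat.Coprime.coprime_dvd_left (card_dvd_of_le hVH) cop1.symm) ?_
    · obtain ⟨⟨v, hv, hvc⟩, hv1⟩ := ne_bot_iff_exists_ne_one.1 h1
      haveI := Fact.mk hp
      have hvo : orderOf v = p := orderOf_eq_prime hv.2.2 fun h => hv1 (Subtype.ext h)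
      have hcomm : Commute v c := (hvc c (mem_zpowers c)).symm
      exact ⟨v * c, by
        rw [hcomm.orderOf_mul_eq_mul_orderOf_of_coprime
          (by rw [hvo, hc']; exact (Nat.coprime_primes hp hq).2 hpq), hvo, hc']⟩
    · intro h hh h1
      rw [eq_bot_iff]
      rintro b ⟨hbB, hbc⟩
      by_contra h2
      have h3 := mem_centralizer_singleton_iff.1 hbc
      have hbH : b ∉ H := fun h => h2 (hBH b hbB h)
      have h4 := hmemH h (hb b (hBK hbB) hbH h h3.symm)
        (Nat.Coprime.coprime_dvd_left (hc' ▸ orderOf_dvd_of_mem_zpowers hh)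
          (Nat.Coprime.coprime_dvd_left hqK cop2.symm))
      exact hbH (ha h h4 h1 b (hBK hbB) h3)
    · rw [eq_bot_iff, ← hfpf β hβ hβ1']
      exact inf_le_inf hVH (centralizer_le (by simpa using hβ))
  intro p q hp hq hpq hpG hqG
  have hcop := (Nat.coprime_primes hp hq).2 hpq
  refine ⟨fun ⟨g, hg⟩ => ⟨fwd p q hp hq g hg, fwd q p hq hp g (hg.trans (mul_comm p q))⟩,
    fun h => ?_⟩
  by_cases hpB : p ∣ Nat.card B
  · obtain ⟨x, hx⟩ := exists_orderOf_eq_of_isCyclic (hcop.mul_dvd_of_dvd_of_dvd hpB (h.1 hpB))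
    exact ⟨x, by rw [Subgroup.orderOf_coe, hx]⟩
  have hqB : ¬ q ∣ Nat.card B := fun h' => hpB (h.2 h')
  have split : ∀ r : ℕ, r.Prime → r ∣ Nat.card G → ¬ r ∣ Nat.card B →
      r ∣ Nat.card H ∨ r ∣ Nat.card (G ⧸ K) := by
    intro r hr h1 h2
    rw [hcard] at h1
    rcases hr.dvd_mul.1 h1 with h1 | h1
    · exact Or.inl ((hr.dvd_mul.1 h1).resolve_right h2)
    · exact Or.inr h1
  rcases split p hp hpG hpB with h1 | h1 <;> rcases split q hq hqG hqB with h2 | h2
  · haveI := Fact.mk hp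
    haveI := Fact.mk hq
    obtain ⟨x, hx⟩ := exists_prime_orderOf_dvd_card' p h1
    obtain ⟨y, hy⟩ := exists_prime_orderOf_dvd_card' q h2
    have hc : (orderOf x).Coprime (orderOf y) := by rw [hx, hy]; exact hcop
    refine ⟨(x * y : H), ?_⟩
    rw [Subgroup.orderOf_coe, (NA.commute_of_mem (A := ⊤) (Group.nilpotent_of_mulEquiv topEquiv.symm)
      trivial trivial hc).orderOf_mul_eq_mul_orderOf_of_coprime hc, hx, hy]
  · exact mixed p q hp hq hpq h1 h2
  · rw [mul_comm]; exact mixed q p hq hp hpq.symm h2 h1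
  · obtain ⟨x, hx⟩ := exists_orderOf_eq_of_isCyclic (hcop.mul_dvd_of_dvd_of_dvd h1 h2)
    obtain ⟨g, rfl⟩ := QuotientGroup.mk_surjective x
    exact exists_orderOf_eq_of_dvd (hx ▸ orderOf_map_dvd (QuotientGroup.mk' K) g)

end Cfsg.Agent.S4001
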