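import Cfsg.Statements.S4002
import Mathlib
import Cfsg.Agent.S1475
import Cfsg.Agent.Solv.HallPi
import Cfsg.Agent.FGS.Camina

set_option autoImplicit false
open Cfsg

namespace Cfsg.Agent.S4002

theorem exists_primes (n : ℕ) (hn : 7 ≤ n) : ∃ p q r : ℕ, p.Prime ∧ q.Prime ∧ r.Prime ∧ p < q ∧
    q < r ∧ r ≤ n ∧ n < p * q := by
  by_cases h1 : n < 15
  · exact ⟨3, 5, 7, by norm_num, by norm_num, by norm_num, by omega, by omega, hn, h1⟩
  by_cases h2 : n < 35
  · exact ⟨5, 7, 11, by norm_num, by norm_num, by norm_num, by omega, by omega, by omega, h2⟩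
  obtain ⟨p, hp, h3, h4⟩ := Nat.exists_prime_lt_and_le_two_mul (n / 8) (by omega)
  obtain ⟨q, hq, h5, h6⟩ := Nat.exists_prime_lt_and_le_two_mul (2 * (n / 8)) (by omega)
  obtain ⟨r, hr, h7, h8⟩ := Nat.exists_prime_lt_and_le_two_mul (4 * (n / 8)) (by omega)
  refine ⟨p, q, r, hp, hq, hr, by omega, by omega, by omega, ?_⟩
  have h9 : 5 * q ≤ p * q := Nat.mul_le_mul_right q (by omega)
  omega

/-- If the set of element orders of a finite group G is {1, 2, …, n} with n ≥ 7, then G is not solvable. -/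
theorem result {G : Type*} [Group G] [Finite G] (n : ℕ) (hn : 7 ≤ n) (h : Set.range (orderOf : G → ℕ) = {k : ℕ | 1 ≤ k ∧ k ≤ n}) : ¬ Group.IsSolvable G := by
  intro hG
  obtain ⟨p, q, r, hp, hq, hr, hpq, hqr, hrn, hlt⟩ := exists_primes n hn
  obtain ⟨H, hH⟩ := Solv.Pi.exists_isPiHall {p, q, r} G
  have h1 := S1475.result (G := H) fun g => by
    by_contra hc
    push Not at hc
    have h0 := (orderOf_pos g).ne'
    have h1 := mt orderOf_eq_one_iff.1 hc.2
    obtain ⟨a, ha, ha', -⟩ := FGS.Camina.exists_prime_ne_of_not_isPrimePow h0 h1 hc.1 0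
    obtain ⟨b, hb, hb', hba⟩ := FGS.Camina.exists_prime_ne_of_not_isPrimePow h0 h1 hc.1 a
    have h2 := Nat.le_of_dvd (orderOf_pos g)
      (((Nat.coprime_primes hb ha).2 hba).mul_dvd_of_dvd_of_dvd hb' ha')
    have h3 : orderOf g ≤ n := by
      have : orderOf (g : G) ∈ {k : ℕ | 1 ≤ k ∧ k ≤ n} := h ▸ Set.mem_range_self _
      rw [Subgroup.orderOf_coe] at this
      exact this.2
    have h4 := hH.1 a ha (ha'.trans (orderOf_dvd_natCard g))
    have h5 := hH.1 b hb (hb'.trans (orderOf_dvd_natCard g))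
    simp only [Set.mem_insert_iff, Set.mem_singleton_iff] at h4 h5
    rcases h4 with rfl | rfl | rfl <;> rcases h5 with rfl | rfl | rfl <;>
      first | exact hba rfl | nlinarith
  have h2 : ∀ s : ℕ, s.Prime → s ≤ n → s ∈ ({p, q, r} : Set ℕ) → s ∈ (Nat.card H).primeFactors := by
    intro s hs hsn hsπ
    obtain ⟨g, hg⟩ : s ∈ Set.range (orderOf : G → ℕ) := h ▸ ⟨hs.pos, hsn⟩
    have := hg ▸ orderOf_dvd_natCard g
    rw [← H.card_mul_index] at this
    exact Nat.mem_primeFactors.2 ⟨hs, ((Nat.Prime.dvd_mul hs).1 this).resolve_right (hH.2 s hs hsπ),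
      Nat.card_pos.ne'⟩
  have h3 := Finset.two_lt_card_iff.2 ⟨p, q, r, h2 p hp (by omega) (by simp),
    h2 q hq (by omega) (by simp), h2 r hr hrn (by simp), by omega, by omega, by omega⟩
  omega

end Cfsg.Agent.S4002
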