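import Cfsg.Statements.S4009
import Mathlib
import Cfsg.Agent.FGS.LCS

set_option autoImplicit false
open Cfsg

namespace Cfsg.Agent.S4009

open Subgroup Cfsg.Agent.PLocal.CommMod Cfsg.Agent.FGS
open scoped commutatorElement

section
variable {G : Type*} [Group G] [Finite G] {p : ℕ} [hp : Fact p.Prime]

theorem step (hG : IsPGroup p G) {A B : Subgroup G} (h : A < B) : p * Nat.card A ≤ Nat.card B := by
  obtain ⟨a, ha⟩ := IsPGroup.iff_card.1 (hG.to_subgroup A)
  obtain ⟨b, hb⟩ := IsPGroup.iff_card.1 (hG.to_subgroup B)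
  have hlt : Nat.card A < Nat.card B := by
    refine lt_of_le_of_ne (Subgroup.card_le_of_le h.le) fun he => h.ne ?_
    exact Subgroup.eq_of_le_of_card_ge h.le he.ge
  rw [ha, hb] at hlt ⊢
  have := (Nat.pow_lt_pow_iff_right hp.out.one_lt).1 hlt
  rw [← pow_succ']
  exact Nat.pow_le_pow_right hp.out.pos this

theorem comm_lt (hG : IsPGroup p G) (X : Subgroup G) [X.Normal] (h : X ≠ ⊥) :
    ⁅X, (⊤ : Subgroup G)⁆ < X := by
  have := hG.isNilpotent
  refine lt_of_le_of_ne (commutator_le_left _ _) fun h' => h ?_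
  have : X ≤ ⊥ := le_of_le_commutator_sup (P := ⊤) (Q := ⊤) le_top le_top (by rw [h']; exact le_sup_left)
  exact le_bot_iff.1 this

theorem chain (hG : IsPGroup p G) (X : Subgroup G) [X.Normal] (j : ℕ)
    (h : iterCommutator X ⊤ j ≠ ⊥) : p ^ j * Nat.card (iterCommutator X ⊤ j) ≤ Nat.card X := by
  induction j with
  | zero => simp [iter_zero]
  | succ j ih =>
    have h0 : iterCommutator X ⊤ j ≠ ⊥ := by
      intro h0; apply h; rw [iter_succ, h0]; simp
    have h1 := step hG (comm_lt hG _ h0)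
    rw [← iter_succ] at h1
    calc p ^ (j + 1) * Nat.card (iterCommutator X ⊤ (j + 1))
        = p ^ j * (p * Nat.card (iterCommutator X ⊤ (j + 1))) := by ring
      _ ≤ p ^ j * Nat.card (iterCommutator X ⊤ j) := Nat.mul_le_mul_left _ h1
      _ ≤ _ := ih h0

omit [Finite G] in
/-- `N / [N, G]` is cyclic. -/
def Cyc (N : Subgroup G) : Prop := ∃ x ∈ N, N ≤ ⁅N, (⊤ : Subgroup G)⁆ ⊔ zpowers x

omit [Finite G] in
theorem comm_le_iter (N X : Subgroup G) [X.Normal] {m : ℕ}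
    (hN : N ≤ (⊤ : Subgroup G).lowerCentralSeries m) : ⁅X, N⁆ ≤ iterCommutator X ⊤ (m + 1) :=
  (commutator_mono le_rfl hN).trans (commutator_lcs_le_iter ⊤ m X inferInstance)

omit [Finite G] in
theorem comm_mem_iff {C : Subgroup G} [C.Normal] {a b : G} :
    ⁅a, b⁆ ∈ C ↔ Commute (QuotientGroup.mk' C a) (QuotientGroup.mk' C b) := by
  rw [← commutatorElement_eq_one_iff_commute, ← map_commutatorElement, ← MonoidHom.mem_ker,
    QuotientGroup.ker_mk']

omit [Finite G] in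
theorem zz {C : Subgroup G} [C.Normal] {a b : G} (h : ⁅a, b⁆ ∈ C) : ⁅zpowers a, zpowers b⁆ ≤ C := by
  rw [commutator_le]
  rintro _ ⟨i, rfl⟩ _ ⟨j, rfl⟩
  rw [comm_mem_iff] at h ⊢
  simpa only [map_zpow] using h.zpow_zpow i j

omit [Finite G] in
theorem two_gen {N Z C : Subgroup G} [C.Normal] {x y : G} (hx : x ∈ N) (hy : y ∈ N)
    (hN : N ≤ Z ⊔ zpowers x ⊔ zpowers y) (hZN : ⁅Z, N⁆ ≤ C) (hxy : ⁅x, y⁆ ∈ C) : ⁅N, N⁆ ≤ C := by
  have key : ∀ a ∈ N, ⁅x, a⁆ ∈ C → ⁅y, a⁆ ∈ C → ⁅zpowers a, N⁆ ≤ C := by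
    intro a ha hax hay
    rw [commutator_comm]
    refine (commutator_mono hN le_rfl).trans ?_
    have hz : zpowers a ≤ N := zpowers_le_of_mem ha
    exact commutator_sup_le_of_normal (commutator_sup_le_of_normal
      ((commutator_mono le_rfl hz).trans hZN) (zz hax)) (zz hay)
  refine (commutator_mono hN le_rfl).trans ?_
  refine commutator_sup_le_of_normal (commutator_sup_le_of_normal hZN ?_) ?_
  · refine key x hx (by simp) ?_
    rw [← commutatorElement_inv]; exact C.inv_mem hxy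
  · exact key y hy hxy (by simp)

omit [Finite G] in
theorem cyc_le {N : Subgroup G} [N.Normal] {m : ℕ}
    (hN : N ≤ (⊤ : Subgroup G).lowerCentralSeries m) (h : Cyc N) :
    ⁅N, N⁆ ≤ iterCommutator N ⊤ (m + 2) := by
  obtain ⟨x, hx, hle⟩ := h
  refine two_gen (Z := ⁅N, (⊤ : Subgroup G)⁆) hx hx (hle.trans le_sup_left) ?_ (by simp)
  rw [iter_succ' N ⊤ (m + 1)]
  exact comm_le_iter N _ hN

omit [Finite G] in
theorem iter_le_lcs {N : Subgroup G} {m : ℕ}
    (hN : N ≤ (⊤ : Subgroup G).lowerCentralSeries m) (j : ℕ) :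
    iterCommutator N ⊤ j ≤ (⊤ : Subgroup G).lowerCentralSeries (m + j) := by
  rw [← iter_eq_lowerCentralSeries, iter_add, iter_eq_lowerCentralSeries]
  exact iter_mono hN le_rfl j

theorem main (hG : IsPGroup p G) {N : Subgroup G} [N.Normal] {m : ℕ}
    (hN : N ≤ (⊤ : Subgroup G).lowerCentralSeries m) (h : ⁅N, N⁆ ≠ ⊥) :
    p ^ (m + 2) * Nat.card (⁅N, N⁆ : Subgroup G) ≤ Nat.card N ∧
      (p ^ (m + 3) * Nat.card (⁅N, N⁆ : Subgroup G) ≤ Nat.card N ∨ Cyc N ∨ Cyc ⁅N, N⁆) := by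
  by_cases hc : Cyc N
  · refine ⟨?_, Or.inr (Or.inl hc)⟩
    have h1 := cyc_le hN hc
    have h2 := chain hG N (m + 2) (fun h0 => h (le_bot_iff.1 (h0 ▸ h1)))
    exact (Nat.mul_le_mul_left _ (Subgroup.card_le_of_le h1)).trans h2
  set Z : Subgroup G := ⁅N, (⊤ : Subgroup G)⁆ with hZ
  have hZN : Z ≤ N := commutator_le_left _ _
  have hx : ¬ N ≤ Z := fun h0 => hc ⟨1, N.one_mem, h0.trans le_sup_left⟩
  obtain ⟨x, hxN, hxZ⟩ := SetLike.not_le_iff_exists.1 hx
  have hy : ¬ N ≤ Z ⊔ zpowers x := fun h0 => hc ⟨x, hxN, h0⟩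
  obtain ⟨y, hyN, hyZ⟩ := SetLike.not_le_iff_exists.1 hy
  have l1 : Z < Z ⊔ zpowers x := lt_of_le_of_ne le_sup_left fun h0 =>
    hxZ (h0 ▸ (le_sup_right : zpowers x ≤ Z ⊔ zpowers x) (mem_zpowers x))
  have l2 : Z ⊔ zpowers x < Z ⊔ zpowers x ⊔ zpowers y := lt_of_le_of_ne le_sup_left fun h0 =>
    hyZ (h0 ▸ (le_sup_right : zpowers y ≤ Z ⊔ zpowers x ⊔ zpowers y) (mem_zpowers y))
  have l3 : Z ⊔ zpowers x ⊔ zpowers y ≤ N :=
    sup_le (sup_le hZN (zpowers_le_of_mem hxN)) (zpowers_le_of_mem hyN)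
  have s1 := step hG l1
  have s2 := step hG l2
  have s3 := Subgroup.card_le_of_le l3
  have c1 : ⁅N, N⁆ ≤ iterCommutator Z ⊤ m := by
    rw [hZ, ← iter_succ']; exact comm_le_iter N N hN
  have c2 := chain hG Z m (fun h0 => h (le_bot_iff.1 (h0 ▸ c1)))
  have c3 := Subgroup.card_le_of_le c1
  have s12 : p ^ 2 * Nat.card Z ≤ Nat.card (Z ⊔ zpowers x ⊔ zpowers y : Subgroup G) := by
    calc p ^ 2 * Nat.card Z = p * (p * Nat.card Z) := by ring
      _ ≤ p * Nat.card (Z ⊔ zpowers x : Subgroup G) := Nat.mul_le_mul_left _ s1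
      _ ≤ _ := s2
  have t1 : p ^ (m + 2) * Nat.card (iterCommutator Z ⊤ m) ≤
      Nat.card (Z ⊔ zpowers x ⊔ zpowers y : Subgroup G) := by
    calc p ^ (m + 2) * Nat.card (iterCommutator Z ⊤ m)
        = p ^ 2 * (p ^ m * Nat.card (iterCommutator Z ⊤ m)) := by ring
      _ ≤ p ^ 2 * Nat.card Z := Nat.mul_le_mul_left _ c2
      _ ≤ _ := s12
  refine ⟨(Nat.mul_le_mul_left _ c3).trans (t1.trans s3), ?_⟩
  rcases l3.lt_or_eq with l3 | l3
  · left
    calc p ^ (m + 3) * Nat.card (⁅N, N⁆ : Subgroup G)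
        = p * (p ^ (m + 2) * Nat.card (⁅N, N⁆ : Subgroup G)) := by ring
      _ ≤ p * Nat.card (Z ⊔ zpowers x ⊔ zpowers y : Subgroup G) :=
          Nat.mul_le_mul_left _ ((Nat.mul_le_mul_left _ c3).trans t1)
      _ ≤ _ := step hG l3
  rcases c1.lt_or_eq with c1 | c1
  · left
    calc p ^ (m + 3) * Nat.card (⁅N, N⁆ : Subgroup G)
        = p ^ (m + 2) * (p * Nat.card (⁅N, N⁆ : Subgroup G)) := by ring
      _ ≤ p ^ (m + 2) * Nat.card (iterCommutator Z ⊤ m) := Nat.mul_le_mul_left _ (step hG c1)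
      _ ≤ _ := t1.trans s3
  right; right
  have hxy : ⁅x, y⁆ ∈ ⁅N, N⁆ := commutator_mem_commutator hxN hyN
  refine ⟨⁅x, y⁆, hxy, ?_⟩
  haveI : (⁅⁅N, N⁆, (⊤ : Subgroup G)⁆ ⊔ zpowers ⁅x, y⁆).Normal :=
    Grp.PChain.normal_sup_zpowers fun g => commutator_mem_commutator hxy (mem_top g)
  refine two_gen (Z := Z) hxN hyN l3.ge (le_trans ?_ le_sup_left)
    ((le_sup_right : zpowers ⁅x, y⁆ ≤ _) (mem_zpowers _))
  rw [c1, ← iter_succ]
  exact comm_le_iter N Z hN

omit [Finite G] in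
theorem der_le (d : ℕ) : derivedSeries G d ≤ (⊤ : Subgroup G).lowerCentralSeries (2 ^ d - 1) := by
  induction d with
  | zero => simp
  | succ d ih =>
    rw [derivedSeries_succ]
    refine (commutator_mono ih ih).trans ((commutator_lcs_lcs_le _ _ _).trans (le_of_eq ?_))
    congr 1
    have : 0 < 2 ^ d := by positivity
    omega

theorem ind (hG : IsPGroup p G) (d : ℕ) (h : derivedSeries G d ≠ ⊥) :
    p ^ (2 ^ d + 2 * d) * Nat.card (derivedSeries G d) ≤ p * Nat.card G ∨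
    (p ^ (2 ^ d + 2 * d) * Nat.card (derivedSeries G d) ≤ p ^ 2 * Nat.card G ∧
      Cyc (derivedSeries G d)) ∨
    (p ^ (2 ^ d + 2 * d) * Nat.card (derivedSeries G d) ≤ p ^ 3 * Nat.card G ∧
      derivedSeries G d ≤ (⊤ : Subgroup G).lowerCentralSeries (2 ^ d)) := by
  induction d with
  | zero => left; simp
  | succ d ih =>
    have h0 : derivedSeries G d ≠ ⊥ := by
      intro h0; apply h; rw [derivedSeries_succ, h0]; simp
    have hpos : 0 < 2 ^ d := by positivity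
    have hp1 : 1 ≤ p := hp.out.pos
    rw [derivedSeries_succ] at h ⊢
    set N := derivedSeries G d
    set c := Nat.card (⁅N, N⁆ : Subgroup G)
    obtain ⟨m1, m2⟩ := main hG (der_le (G := G) d) h
    have e1 : 2 ^ d - 1 + 2 = 2 ^ d + 1 := by omega
    have e2 : 2 ^ d - 1 + 3 = 2 ^ d + 2 := by omega
    rw [e1] at m1
    rw [e2] at m2
    have big : ∀ s, p ^ (2 ^ d + 2 * d) * Nat.card N ≤ s * Nat.card G →
        p ^ (2 ^ d + 2) * c ≤ Nat.card N → p ^ (2 ^ (d + 1) + 2 * (d + 1)) * c ≤ s * Nat.card G := by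
      intro s h1 h2
      calc p ^ (2 ^ (d + 1) + 2 * (d + 1)) * c = p ^ (2 ^ d + 2 * d) * (p ^ (2 ^ d + 2) * c) := by
            rw [pow_succ 2 d]; ring
        _ ≤ p ^ (2 ^ d + 2 * d) * Nat.card N := Nat.mul_le_mul_left _ h2
        _ ≤ _ := h1
    have small : ∀ s, p ^ (2 ^ d + 2 * d) * Nat.card N ≤ s * Nat.card G →
        p ^ (2 ^ (d + 1) + 2 * (d + 1)) * c ≤ (p * s) * Nat.card G := by
      intro s h1
      calc p ^ (2 ^ (d + 1) + 2 * (d + 1)) * c
          = p * (p ^ (2 ^ d + 2 * d) * (p ^ (2 ^ d + 1) * c)) := by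
            rw [pow_succ 2 d]; ring
        _ ≤ p * (p ^ (2 ^ d + 2 * d) * Nat.card N) :=
            Nat.mul_le_mul_left _ (Nat.mul_le_mul_left _ m1)
        _ ≤ p * (s * Nat.card G) := Nat.mul_le_mul_left _ h1
        _ = _ := by ring
    have cyc : Cyc N → ⁅N, N⁆ ≤ (⊤ : Subgroup G).lowerCentralSeries (2 ^ (d + 1)) := by
      intro hc
      refine (cyc_le (der_le (G := G) d) hc).trans ((iter_le_lcs (der_le (G := G) d) _).trans
        (le_of_eq ?_))
      congr 1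
      rw [pow_succ]; omega
    rcases ih h0 with i1 | ⟨i1, i2⟩ | ⟨i1, i2⟩
    · rcases m2 with m2 | m2 | m2
      · exact Or.inl (big _ i1 m2)
      · refine Or.inr (Or.inr ⟨(small _ i1).trans (Nat.mul_le_mul_right _ ?_), cyc m2⟩)
        rw [← pow_two]; exact Nat.pow_le_pow_right hp1 (by norm_num)
      · exact Or.inr (Or.inl ⟨by rw [pow_two]; exact small _ i1, m2⟩)
    · exact Or.inr (Or.inr ⟨by rw [pow_succ' p 2]; exact small _ i1, cyc i2⟩)
    · refine Or.inr (Or.inr ⟨big _ i1 (main hG i2 h).1, ?_⟩)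
      refine (commutator_mono i2 i2).trans ((commutator_lcs_lcs_le _ _ _).trans ?_)
      exact Subgroup.lowerCentralSeries_antitone _ (by rw [pow_succ]; omega)

end

/-- Let P be a finite p-group of order p^n whose derived length is exactly k + 1 (the k-th derived subgroup is nontrivial and the (k+1)-st is trivial). Then n ≥ 2^k + 2k − 2. -/
theorem result {P : Type*} [Group P] [Finite P] (p : ℕ) [Fact p.Prime] (n k : ℕ) (hcard : Nat.card P = p ^ n) (hk : derivedSeries P k ≠ ⊥) (hk' : derivedSeries P (k + 1) = ⊥) : 2 ^ k + 2 * k ≤ n + 2 := by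
  have hG : IsPGroup p P := IsPGroup.of_card hcard
  have hp : p.Prime := Fact.out
  have h1 : p ^ (2 ^ k + 2 * k) * Nat.card (derivedSeries P k) ≤ p ^ 3 * Nat.card P := by
    have h2 : p ≤ p ^ 3 := Nat.le_self_pow (by norm_num) p
    have h3 : p ^ 2 ≤ p ^ 3 := Nat.pow_le_pow_right hp.pos (by norm_num)
    rcases ind hG k hk with h | ⟨h, -⟩ | ⟨h, -⟩
    · exact h.trans (Nat.mul_le_mul_right _ h2)
    · exact h.trans (Nat.mul_le_mul_right _ h3)
    · exact h
  have h2 : p * 1 ≤ Nat.card (derivedSeries P k) := by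
    have := step hG (bot_lt_iff_ne_bot.2 hk)
    simpa using this
  have h3 : p ^ (2 ^ k + 2 * k + 1) ≤ p ^ (n + 3) := by
    calc p ^ (2 ^ k + 2 * k + 1) = p ^ (2 ^ k + 2 * k) * (p * 1) := by ring
      _ ≤ p ^ (2 ^ k + 2 * k) * Nat.card (derivedSeries P k) := Nat.mul_le_mul_left _ h2
      _ ≤ p ^ 3 * Nat.card P := h1
      _ = _ := by rw [hcard]; ring
  have := (Nat.pow_le_pow_iff_right hp.one_lt).1 h3
  omega

end Cfsg.Agent.S4009
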