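import Cfsg.Statements.S4010
import Mathlib
import Cfsg.Agent.Perm.PermModule
import Cfsg.Agent.Solv.CN
import Cfsg.Agent.PLocal.Amb

set_option autoImplicit false
open Cfsg

namespace Cfsg.Agent.S4010

open Subgroup PLocal.Amb Module
open scoped commutatorElement

section
variable {P : Type*} [Group P] {K V : Type*} [Field K] [AddCommGroup V] [Module K V]
  (ρ : Representation K P V)

/-- the ascending fixed point filtration -/
def fl : ℕ → Submodule K V
  | 0 => ⊥
  | i + 1 => ⨅ g : P, (fl i).comap (ρ g - 1)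

theorem mem_fl {i : ℕ} {v : V} : v ∈ fl ρ (i + 1) ↔ ∀ g, ρ g v - v ∈ fl ρ i := by
  simp [fl]

theorem fl_le (i : ℕ) : fl ρ i ≤ fl ρ (i + 1) := by
  induction i with
  | zero => exact bot_le
  | succ i ih => exact fun v hv => (mem_fl ρ).2 fun g => ih ((mem_fl ρ).1 hv g)

theorem fl_inv (i : ℕ) (g : P) {v : V} (hv : v ∈ fl ρ i) : ρ g v ∈ fl ρ i := by
  rcases i with _ | i
  · rw [show v = 0 from hv, map_zero]; exact Submodule.zero_mem _
  · simpa using Submodule.add_mem _ (fl_le ρ i ((mem_fl ρ).1 hv g)) hv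

theorem fl_top [Finite P] [FiniteDimensional K V] {p : ℕ} [Fact p.Prime] (hP : IsPGroup p P)
    [CharP K p] (i : ℕ) : fl ρ i = ⊤ ∨ i ≤ finrank K (fl ρ i) := by
  induction i with
  | zero => exact Or.inr (Nat.zero_le _)
  | succ i ih =>
    by_cases h : fl ρ i = ⊤
    · exact Or.inl (eq_top_iff.2 (h ▸ fl_le ρ i))
    haveI := Submodule.Quotient.nontrivial_iff.2 h
    obtain ⟨w, -, hw, hw'⟩ := Perm.exists_fixed_vector_of_isPGroup hP
      (ρ.quotient (fl ρ i) fun g v hv => fl_inv ρ i g hv) ⊤ (fun _ _ _ => trivial) top_ne_bot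
    obtain ⟨w, rfl⟩ := Submodule.Quotient.mk_surjective _ w
    have h2 : fl ρ i < fl ρ (i + 1) := by
      refine lt_of_le_of_ne (fl_le ρ i) fun e => hw ((Submodule.Quotient.mk_eq_zero _).2 ?_)
      exact e ▸ (mem_fl ρ).2 fun g => (Submodule.Quotient.eq _).1 (hw' g)
    have := Submodule.finrank_lt_finrank_of_lt h2
    have := ih.resolve_left h
    exact Or.inr (by omega)

/-- elements moving the filtration down by `a` steps -/
def stab (a : ℕ) : Subgroup P where
  carrier := {g | ∀ i, ∀ v ∈ fl ρ (i + a), ρ g v - v ∈ fl ρ i}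
  one_mem' := fun i v _ => by simp
  mul_mem' := fun {g h} hg hh i v hv => by
    have := Submodule.add_mem _ (fl_inv ρ i g (hh i v hv)) (hg i v hv)
    simpa using this
  inv_mem' := fun {g} hg i v hv => by
    have := Submodule.neg_mem _ (hg i _ (fl_inv ρ _ g⁻¹ hv))
    simpa using this

theorem derived_le_stab (k : ℕ) : derivedSeries P k ≤ stab ρ (2 ^ k) := by
  induction k with
  | zero => exact fun g _ i v hv => (mem_fl ρ).1 hv g
  | succ k ih =>
    refine commutator_le.2 fun a ha b hb i v hv => ?_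
    rw [pow_succ, mul_two, ← add_assoc] at hv
    have hw := fl_inv ρ _ (b * a)⁻¹ hv
    have := Submodule.sub_mem _ (ih ha _ _ (ih hb _ _ hw)) (ih hb _ _ (ih ha _ _ hw))
    convert this using 1
    have h1 : ρ b (ρ a (ρ (b * a)⁻¹ v)) = v := by
      rw [← Module.End.mul_apply, ← map_mul, ← Module.End.mul_apply, ← map_mul]; simp
    have h2 : ρ a (ρ b (ρ (b * a)⁻¹ v)) = ρ ⁅a, b⁆ v := by
      rw [← Module.End.mul_apply, ← map_mul, ← Module.End.mul_apply, ← map_mul]
      simp [commutatorElement_def, mul_assoc]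
    rw [map_sub, map_sub, h1, h2]
    abel

/-- the derived series of a subgroup -/
def dS : ℕ → Subgroup P → Subgroup P
  | 0, H => H
  | k + 1, H => dS k ⁅H, H⁆

theorem dS_succ (k : ℕ) (H : Subgroup P) : dS (k + 1) H = ⁅dS k H, dS k H⁆ := by
  induction k generalizing H with
  | zero => rfl
  | succ k ih => exact ih _

theorem dS_top (k : ℕ) : dS k (⊤ : Subgroup P) = derivedSeries P k := by
  induction k with
  | zero => rfl
  | succ k ih => rw [dS_succ, ih, derivedSeries_succ]

theorem dS_le (k : ℕ) (H : Subgroup P) : dS k H ≤ H := by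
  induction k generalizing H with
  | zero => exact le_rfl
  | succ k ih => exact (ih _).trans (commutator_le_self H)

theorem le_normalizer_dS (k : ℕ) (H : Subgroup P) : H ≤ 𝐍[dS k H] := by
  induction k with
  | zero => exact le_normalizer
  | succ k ih => rw [dS_succ]; exact le_normalizer_commutator ih ih

theorem exists_min [FiniteDimensional K V] (H : Subgroup P) (W : Submodule K V) (hW : W ≠ ⊥)
    (hi : ∀ h ∈ H, ∀ v ∈ W, ρ h v ∈ W) : ∃ U ≤ W, U ≠ ⊥ ∧ (∀ h ∈ H, ∀ v ∈ U, ρ h v ∈ U) ∧
      ∀ U' ≤ U, U' ≠ ⊥ → (∀ h ∈ H, ∀ v ∈ U', ρ h v ∈ U') → U' = U := by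
  obtain ⟨U, hU, hm⟩ := exists_minimal_le_of_wellFoundedLT
    (fun U : Submodule K V => U ≠ ⊥ ∧ ∀ h ∈ H, ∀ v ∈ U, ρ h v ∈ U) W ⟨hW, hi⟩
  exact ⟨U, hU, hm.1.1, hm.1.2, fun U' h1 h2 h3 => le_antisymm h1 (hm.2 ⟨h2, h3⟩ h1)⟩

theorem comm_trivial [Finite P] [FiniteDimensional K V] [IsAlgClosed K] {p : ℕ} [Fact p.Prime]
    (hP : IsPGroup p P) (hirr : ∀ U : Submodule K V, U ≠ ⊥ →
      (∀ h ∈ commutator P, ∀ v ∈ U, ρ h v ∈ U) → U = ⊤) {g : P} (hg : g ∈ commutator P) :
    ρ g = 1 := by
  rcases subsingleton_or_nontrivial V with hV | hV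
  · exact Subsingleton.elim _ _
  let f := ρ.asGroupHom.rangeRestrict
  have hf : Function.Surjective f := MonoidHom.rangeRestrict_surjective _
  have hQ := hP.of_surjective f hf
  haveI : Finite ρ.asGroupHom.range := Finite.of_surjective f hf
  have hfv : ∀ a, ((f a : ρ.asGroupHom.range) : (V →ₗ[K] V)ˣ).val = ρ a := fun a => rfl
  have hinj : ∀ a b, ρ a = ρ b → f a = f b := fun a b h => Subtype.ext (Units.ext h)
  have hZ : center ρ.asGroupHom.range = ⊤ := by
    by_contra hc
    haveI := (hQ.to_quotient (center _)).isNilpotent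
    obtain ⟨z, -, hz1, hz⟩ := Solv.CN.exists_central_of_ne_bot
      (A := (⊤ : Subgroup (ρ.asGroupHom.range ⧸ center ρ.asGroupHom.range))) inferInstance
      (by haveI := QuotientGroup.nontrivial_iff.2 hc; exact top_ne_bot)
    obtain ⟨z, rfl⟩ := QuotientGroup.mk_surjective z
    obtain ⟨z, rfl⟩ := hf z
    have h2 : ⁅(⊤ : Subgroup ρ.asGroupHom.range), zpowers (f z)⁆ ≤ center _ := by
      rw [← QuotientGroup.ker_mk' (center _), ← Subgroup.map_eq_bot_iff, map_commutator,
        commutator_eq_bot_iff_le_centralizer, MonoidHom.map_zpowers, centralizer_zpowers]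
      exact le_top.trans hz
    have h3 : ⁅⁅(⊤ : Subgroup ρ.asGroupHom.range), zpowers (f z)⁆, ⊤⁆ = ⊥ :=
      commutator_eq_bot_iff_le_centralizer.2 (h2.trans (center_le_centralizer _))
    have h4 := commutator_commutator_eq_bot_of_rotate h3 (by rwa [commutator_comm (zpowers _)])
    rw [commutator_eq_bot_iff_le_centralizer, centralizer_zpowers] at h4
    obtain ⟨c, hc⟩ := Module.End.exists_eigenvalue (ρ z)
    have h5 := hirr _ hc fun h hh v hv => by
      have h6 : f h ∈ ⁅(⊤ : Subgroup ρ.asGroupHom.range), (⊤ : Subgroup ρ.asGroupHom.range)⁆ := by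
        rw [← map_top_of_surjective f hf, ← map_commutator]
        exact mem_map_of_mem f hh
      have h7 : ρ h * ρ z = ρ z * ρ h := by
        have := congrArg (fun a : ρ.asGroupHom.range => (a : (V →ₗ[K] V)ˣ).val)
          (mem_centralizer_singleton_iff.1 (h4 h6))
        exact this
      rw [Module.End.mem_eigenspace_iff] at hv ⊢
      rw [← Module.End.mul_apply, ← h7, Module.End.mul_apply, hv, map_smul]
    refine hz1 ((QuotientGroup.eq_one_iff _).2 (mem_center_iff.2 fun a => ?_))
    obtain ⟨a, rfl⟩ := hf a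
    rw [← map_mul, ← map_mul]
    refine hinj _ _ (LinearMap.ext fun v => ?_)
    have h6 : ∀ v, ρ z v = c • v := fun v =>
      Module.End.mem_eigenspace_iff.1 (h5.ge Submodule.mem_top)
    simp [h6]
  have h2 : commutator P ≤ f.ker := by
    rw [← Subgroup.map_eq_bot_iff, _root_.commutator_def, map_commutator,
      commutator_eq_bot_iff_le_centralizer]
    exact le_top.trans (hZ ▸ center_le_centralizer _)
  rw [← hfv, show f g = 1 from h2 hg]
  rfl

theorem dS_trivial [Finite P] [FiniteDimensional K V] [IsAlgClosed K] {p : ℕ} [Fact p.Prime]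
    (hP : IsPGroup p P) (hp : (p : K) ≠ 0) (k : ℕ) (H : Subgroup P) (W : Submodule K V)
    (hi : ∀ h ∈ H, ∀ v ∈ W, ρ h v ∈ W) (hW : finrank K W < 2 ^ k) :
    ∀ g ∈ dS k H, ∀ v ∈ W, ρ g v = v := by
  induction k generalizing H W with
  | zero =>
    intro g _ v hv
    rw [Submodule.finrank_eq_zero.1 (Nat.lt_one_iff.1 hW)] at hv
    rw [show v = 0 from hv, map_zero]
  | succ k ih =>
    classical
    haveI := Fintype.ofFinite (dS (k + 1) H)
    let S : V →ₗ[K] V := ∑ d : dS (k + 1) H, ρ d
    have hS : ∀ v, S v = ∑ d : dS (k + 1) H, ρ d v := fun v => LinearMap.sum_apply _ _ _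
    suffices h : W ⊓ LinearMap.ker S = ⊥ by
      intro g hg v hv
      have : ρ g v - v ∈ W ⊓ LinearMap.ker S := by
        refine ⟨W.sub_mem (hi g (dS_le _ _ hg) v hv) hv, ?_⟩
        show S _ = 0
        rw [map_sub, sub_eq_zero, hS, hS]
        refine Fintype.sum_equiv (Equiv.mulRight (⟨g, hg⟩ : dS (k + 1) H)) _ _ fun d => ?_
        simp
      rwa [h, Submodule.mem_bot, sub_eq_zero] at this
    by_contra hc
    obtain ⟨W₀, h1, h2, h3, h4⟩ := exists_min ρ H _ hc (fun h hh v hv => ⟨hi h hh v hv.1, by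
      show S _ = 0
      have : S (ρ h v) = ρ h (S v) := by
        rw [hS, hS, map_sum]
        refine Fintype.sum_equiv ((dS (k + 1) H).normalizerMonoidHom
          ⟨h⁻¹, inv_mem (le_normalizer_dS _ _ hh)⟩).toEquiv _ _ fun d => ?_
        show _ = ρ h (ρ (h⁻¹ * d * h⁻¹⁻¹) v)
        simp
      rw [this, show S v = 0 from hv.2, map_zero]⟩)
    obtain ⟨U, h5, h6, h7, h8⟩ := exists_min ρ ⁅H, H⁆ W₀ h2
      fun h hh => h3 h (commutator_le_self H hh)
    suffices h : ∀ g ∈ dS (k + 1) H, ∀ v ∈ U, ρ g v = v by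
      obtain ⟨v, hv, hv0⟩ := (Submodule.ne_bot_iff U).1 h6
      have h9 : S v = 0 := (h1 (h5 hv)).2
      rw [hS, Finset.sum_congr rfl fun (d : dS (k + 1) H) _ => h d d.2 v hv, Finset.sum_const, Finset.card_univ,
        ← Nat.card_eq_fintype_card, ← Nat.cast_smul_eq_nsmul K] at h9
      obtain ⟨j, hj⟩ := (hP.to_subgroup (dS (k + 1) H)).exists_card_eq
      rw [hj, Nat.cast_pow] at h9
      exact hv0 ((smul_eq_zero.1 h9).resolve_left (pow_ne_zero _ hp))
    by_cases hU : finrank K U < 2 ^ k
    · exact ih _ U h7 hU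
    have h9 : U = W₀ := by
      refine h4 U h5 h6 fun h hh v hv => ?_
      have h10 : U ⊓ U.comap (ρ h) = U := by
        refine h8 _ inf_le_left (fun h0 => ?_) fun a ha w hw => ⟨h7 a ha w hw.1, ?_⟩
        · have hinj : Function.Injective (ρ h⁻¹) := fun a b e => by simpa using congrArg (ρ h) e
          have h11 : U.comap (ρ h) = U.map (ρ h⁻¹) := by
            ext w
            exact ⟨fun hw => ⟨_, hw, by simp⟩, by rintro ⟨u, hu, rfl⟩; simpa using hu⟩
          have h12 := Submodule.finrank_sup_add_finrank_inf_eq U (U.comap (ρ h))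
          have h13 : finrank K ↥(U ⊔ U.comap (ρ h)) ≤ finrank K W := by
            refine Submodule.finrank_mono (sup_le (h5.trans (h1.trans inf_le_left)) ?_)
            rw [h11]
            rintro _ ⟨u, hu, rfl⟩
            exact hi _ (inv_mem hh) u (h1 (h5 hu)).1
          rw [h0, finrank_bot, h11, ← (Submodule.equivMapOfInjective _ hinj U).finrank_eq,
            ← h11] at h12
          omega
        · show ρ h (ρ a w) ∈ U
          have := h7 _ (conj_mem_of_mem_normalizer (le_normalizer_dS 1 H hh) ha) _ hw.2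
          simpa using this
      exact (h10.ge hv).2
    subst h9
    intro g hg v hv
    have hg' : g ∈ (commutator H).map H.subtype := by
      rw [map_subtype_commutator]
      exact dS_le k _ hg
    obtain ⟨g, hg', rfl⟩ := hg'
    have := comm_trivial (Representation.subrepresentation (ρ.comp H.subtype) U
      fun h w hw => h3 h h.2 w hw) (hP.to_subgroup H) (fun U' hU' hU'' => by
        apply Submodule.map_injective_of_injective U.injective_subtype
        rw [Submodule.map_subtype_top]
        refine h8 _ (Submodule.map_subtype_le _ _) (fun h => hU' ?_) ?_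
        · exact Submodule.map_injective_of_injective U.injective_subtype (by simpa using h)
        · rw [← map_subtype_commutator]
          rintro _ ⟨h, hh, rfl⟩ _ ⟨w, hw, rfl⟩
          exact ⟨_, hU'' h hh w hw, rfl⟩) hg'
    exact congrArg Subtype.val (LinearMap.congr_fun this ⟨v, hv⟩)

end

/-- Let F be a field, n ≥ 1, and P a finite p-group (p a prime) admitting an injective homomorphism into the general linear group of degree n over F. Then the derived length of P is at most ⌊log₂ n⌋ + 1: that term of the derived series of P is trivial. -/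
theorem result {P : Type*} [Group P] [Finite P] (p : ℕ) [Fact p.Prime] (hP : IsPGroup p P) (F : Type*) [Field F] (n : ℕ) (hn : 1 ≤ n) (ρ : P →* Matrix.GeneralLinearGroup (Fin n) F) (hρ : Function.Injective ρ) : derivedSeries P (Nat.log 2 n + 1) = ⊥ := by
  let K := AlgebraicClosure F
  let σ : Representation K P (Fin n → K) :=
    (Matrix.toLinAlgEquiv' (R := K) (n := Fin n)).toAlgHom.toRingHom.toMonoidHom.comp
      ((algebraMap F K).mapMatrix.toMonoidHom.comp ((Units.coeHom _).comp ρ))
  have hσ : Function.Injective σ := Matrix.toLinAlgEquiv'.injective.comp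
    ((Matrix.map_injective (algebraMap F K).injective).comp (Units.val_injective.comp hρ))
  have hlt : n < 2 ^ (Nat.log 2 n + 1) := Nat.lt_pow_succ_log_self one_lt_two n
  refine eq_bot_iff.2 fun g hg => hσ ?_
  rw [map_one]
  refine LinearMap.ext fun v => ?_
  by_cases hp : (p : K) = 0
  · haveI : CharP K p := (CharP.charP_iff_prime_eq_zero Fact.out).2 hp
    have h1 := (fl_top σ hP (2 ^ (Nat.log 2 n + 1))).resolve_right fun h => by
      have := h.trans (Submodule.finrank_le _)
      rw [finrank_fin_fun] at this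
      omega
    exact sub_eq_zero.1 (derived_le_stab σ _ hg 0 v (by rw [zero_add, h1]; trivial))
  · exact dS_trivial σ hP hp _ ⊤ ⊤ (fun _ _ _ _ => trivial) (by rwa [finrank_top, finrank_fin_fun])
      g (dS_top (P := P) _ ▸ hg) v trivial

end Cfsg.Agent.S4010
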