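import Cfsg.Statements.S4013
import Mathlib
import Cfsg.Agent.FGS.ClassSize
import Cfsg.Agent.Grp.Card

set_option autoImplicit false
open Cfsg

namespace Cfsg.Agent.S4013

/-- Let G be a finite p-group (p prime) and N < M normal subgroups of G such that for some g ∈ M ∖ N the conjugacy class of g is exactly M ∖ N. Then p = 2 and N has index 2 in M. -/
theorem result {G : Type*} [Group G] [Finite G] (p : ℕ) [Fact p.Prime] (hG : IsPGroup p G) (N M : Subgroup G) [N.Normal] [M.Normal] (hNM : N < M) (g : G) (hgM : g ∈ M) (hgN : g ∉ N) (hcl : {h : G | IsConj g h} = (M : Set G) \ (N : Set G)) : p = 2 ∧ N.relIndex M = 2 := by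
  have hp : p.Prime := Fact.out
  have h1 := FGS.ncard_setOf_isConj g
  obtain ⟨c, hc⟩ := hG.index (Subgroup.centralizer ({g} : Set G))
  obtain ⟨k, hk⟩ := (hG.to_subgroup M).index (N.subgroupOf M)
  obtain ⟨n, hn⟩ := (hG.to_subgroup N).exists_card_eq
  have h2 := Grp.card_mul_relIndex hNM.le
  rw [hcl, hc, Set.ncard_diff hNM.le] at h1
  change Nat.card M - Nat.card N = _ at h1
  change N.relIndex M = _ at hk
  rw [← h2, hk, hn, ← Nat.mul_sub_one] at h1
  have h3 : k ≠ 0 := by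
    rintro rfl
    exact hNM.not_ge (Subgroup.relIndex_eq_one.1 hk)
  obtain ⟨j, -, hj⟩ := (Nat.dvd_prime_pow hp).1 (Dvd.intro_left _ h1)
  have h4 : 1 ≤ p ^ k := Nat.one_le_pow _ _ hp.pos
  have h5 : j = 0 := by
    by_contra h
    have h6 : p ∣ p ^ k - 1 := hj ▸ dvd_pow_self p h
    exact hp.one_lt.ne' (Nat.eq_one_of_dvd_one ((Nat.dvd_sub_iff_right h4 (dvd_pow_self p h3)).1 h6))
  have h6 : p ^ k = 2 := by rw [h5, pow_zero] at hj; omega
  refine ⟨?_, hk.trans h6⟩
  exact (Nat.prime_dvd_prime_iff_eq hp Nat.prime_two).1 (h6 ▸ dvd_pow_self p h3)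

end Cfsg.Agent.S4013
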