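import Cfsg.Statements.S4023
import Mathlib
import Cfsg.Agent.Grp.UniqueOrderP
import Cfsg.Agent.Grp.PRank
import Cfsg.Agent.Grp.PChain
import Cfsg.Agent.Grp.Card
import Cfsg.Agent.PLocal.Amb

set_option autoImplicit false
open Cfsg

namespace Cfsg.Agent.S4023

open Subgroup
open scoped commutatorElement

theorem normal_of_le_center {G : Type*} [Group G] {A : Subgroup G} (h : A ≤ center G) : A.Normal :=
  ⟨fun a ha g => by rwa [mem_center_iff.1 (h ha) g, mul_inv_cancel_right]⟩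

theorem iso_of_conj {G : Type*} [Group G] {p : ℕ} (hC : ∀ H K : Subgroup G, IsPGroup p H →
    IsPGroup p K → Nat.card H = Nat.card K → ∃ g : G, K = H.map (MulAut.conj g).toMonoidHom)
    {P : Subgroup G} (hP : IsPGroup p P) (A B : Subgroup P) (h : Nat.card A = Nat.card B) :
    Nonempty (A ≃* B) := by
  have e := fun A : Subgroup P => A.equivMapOfInjective P.subtype P.subtype_injective
  obtain ⟨g, hg⟩ := hC _ _ ((hP.to_subgroup A).map P.subtype) ((hP.to_subgroup B).map P.subtype)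
    (by rw [← Nat.card_congr (e A).toEquiv, ← Nat.card_congr (e B).toEquiv, h])
  exact ⟨((e A).trans (((MulAut.conj g).subgroupMap _).trans (MulEquiv.subgroupCongr hg.symm))).trans
    (e B).symm⟩

theorem uniq_or_exp {P : Type*} [Group P] [Finite P] {p : ℕ} [hp : Fact p.Prime] (hP : IsPGroup p P)
    (hiso : ∀ A B : Subgroup P, Nat.card A = Nat.card B → Nonempty (A ≃* B)) :
    (∀ x y : P, orderOf x = p → orderOf y = p → y ∈ zpowers x) ∨ ∀ x : P, x ^ p = 1 := by
  rw [or_iff_not_imp_left]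
  intro hc u
  push Not at hc
  obtain ⟨x, y, hx, hy, hxy⟩ := hc
  haveI : Nontrivial P := ⟨x, 1, fun h => hp.out.one_lt.ne (by rw [← hx, h, orderOf_one])⟩
  haveI := hP.center_nontrivial
  obtain ⟨⟨z, hz⟩, hzo⟩ := exists_prime_orderOf_dvd_card' p
    ((hP.to_subgroup (center P)).card_eq_or_dvd.resolve_left Finite.one_lt_card.ne')
  replace hzo : orderOf z = p := by rw [← hzo, ← orderOf_coe]
  obtain ⟨w, hw, hwz⟩ : ∃ w : P, orderOf w = p ∧ w ∉ zpowers z := by
    by_contra hc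
    push Not at hc
    have := eq_of_le_of_card_ge (zpowers_le.2 (hc x hx))
      (by rw [Nat.card_zpowers, Nat.card_zpowers, hx, hzo])
    exact hxy (this ▸ hc y hy)
  haveI : (zpowers z).Normal := normal_of_le_center (zpowers_le.2 hz)
  have hw1 : w ^ p = 1 := hw ▸ pow_orderOf_eq_one w
  have h1 := Grp.PChain.card_sup_zpowers hp.out hwz (hw1 ▸ one_mem _)
  rw [Nat.card_zpowers, hzo] at h1
  by_contra hu
  obtain ⟨k, hk⟩ := IsPGroup.iff_orderOf.1 hP u
  have hk2 : 2 ≤ k := by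
    by_contra h
    exact hu (orderOf_dvd_iff_pow_eq_one.1 (hk ▸ (pow_dvd_pow p (by omega : k ≤ 1)).trans (by simp)))
  have h2 : orderOf (u ^ p ^ (k - 2)) = p * p := by
    rw [orderOf_pow_of_dvd (pow_pos hp.out.pos _).ne' (hk ▸ pow_dvd_pow p (by omega)), hk,
      Nat.pow_div (by omega) hp.out.pos, show k - (k - 2) = 2 by omega, sq]
  obtain ⟨e⟩ := hiso (zpowers (u ^ p ^ (k - 2))) _ (by rw [h1, Nat.card_zpowers, h2])
  have h3 : (e ⟨_, mem_zpowers _⟩) ^ p = 1 := Subtype.ext (Grp.PChain.pow_eq_one_of_mem_sup_zpowers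
    (A := zpowers z) (by rintro _ ⟨i, rfl⟩; rw [← zpow_natCast, ← zpow_mul, mul_comm, zpow_mul,
      zpow_natCast, ← hzo, pow_orderOf_eq_one, one_zpow])
    (fun a ha => (mem_center_iff.1 (zpowers_le.2 hz ha) w).symm) hw1 (e _).2)
  rw [← map_pow, map_eq_one_iff _ e.injective] at h3
  have h4 := orderOf_dvd_of_pow_eq_one (congrArg Subtype.val h3 : (u ^ p ^ (k - 2)) ^ p = 1)
  rw [h2] at h4
  have := Nat.le_of_dvd hp.out.pos h4
  nlinarith [hp.out.one_lt]

/-- Let p be a prime and G a finite group in which any two p-subgroups of the same order are conjugate, with Sylow p-subgroup P. Then P is cyclic, or elementary abelian, or p = 2 and P is a quaternion group of order 8, or p is odd and P is non-abelian of order p³ and exponent p. -/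
theorem result {G : Type*} [Group G] [Finite G]
    {p : ℕ} [Fact p.Prime] (hC : ∀ H K : Subgroup G, IsPGroup p H → IsPGroup p K → Nat.card H = Nat.card K →
      ∃ g : G, K = H.map (MulAut.conj g).toMonoidHom) (P : Sylow p G) :
    IsCyclic P ∨ Cfsg.IsElementaryAbelian p (P : Subgroup G) ∨
      (p = 2 ∧ Nonempty ((P : Subgroup G) ≃* QuaternionGroup 2)) ∨
      (p ≠ 2 ∧ ¬ IsMulCommutative P ∧ Nat.card P = p ^ 3 ∧ Monoid.exponent P = p) := by
  have hp : p.Prime := Fact.out
  have hP := P.isPGroup'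
  have hiso := iso_of_conj hC hP
  rcases uniq_or_exp hP hiso with h | h
  · rcases Grp.isCyclic_or_quaternion hP h with h | ⟨rfl, n, hn, ⟨e⟩⟩
    · exact Or.inl h
    refine Or.inr (Or.inr (Or.inl ⟨rfl, ?_⟩))
    obtain rfl | hn2 := hn.eq_or_lt
    · exact ⟨e⟩
    exfalso
    haveI : NeZero (2 ^ n) := ⟨by positivity⟩
    have h1 : Nat.card (zpowers (e.symm (QuaternionGroup.xa 0))) = 2 ^ 2 := by
      rw [Nat.card_zpowers, MulEquiv.orderOf_eq, QuaternionGroup.orderOf_xa]; rfl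
    have h2 : Nat.card P = 2 ^ (n + 2) := by
      rw [Nat.card_congr e.toEquiv, Nat.card_eq_fintype_card, QuaternionGroup.card]; ring
    obtain ⟨B, hB, hB'⟩ := Sylow.exists_subgroup_card_pow_succ (h2 ▸ pow_dvd_pow 2 (by omega)) h1
    have h3 : orderOf (e.symm (QuaternionGroup.a 1) ^ 2 ^ (n - 2)) = 2 ^ (2 + 1) := by
      rw [orderOf_pow_of_dvd (by positivity), MulEquiv.orderOf_eq, QuaternionGroup.orderOf_a_one,
        ← pow_succ', Nat.pow_div (by omega) two_pos, show n + 1 - (n - 2) = 2 + 1 by omega]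
      rw [MulEquiv.orderOf_eq, QuaternionGroup.orderOf_a_one, ← pow_succ']
      exact pow_dvd_pow 2 (by omega)
    obtain ⟨f⟩ := hiso (zpowers _) B (by rw [Nat.card_zpowers, h3, hB])
    haveI : IsCyclic B := isCyclic_of_surjective f f.surjective
    obtain ⟨g, hg⟩ := IsCyclic.exists_generator (α := B)
    have h4 : orderOf (e g) = 8 := by
      rw [MulEquiv.orderOf_eq, orderOf_coe, orderOf_eq_card_of_forall_mem_zpowers hg, hB]; rfl
    obtain ⟨i, hi⟩ := hg ⟨_, hB' (mem_zpowers _)⟩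
    have h5 : (e g) ^ i = QuaternionGroup.xa 0 := by
      rw [← map_zpow, show (g : P) ^ i = _ from congrArg Subtype.val hi, MulEquiv.apply_symm_apply]
    rcases hgc : e g with j | j
    · rw [hgc] at h5
      have h6 : ∀ i : ℤ, ∃ k, (QuaternionGroup.a j : QuaternionGroup (2 ^ n)) ^ i =
          QuaternionGroup.a k := by
        intro i
        induction i using Int.induction_on with
        | zero => exact ⟨0, rfl⟩
        | succ i ih => obtain ⟨k, hk⟩ := ih; exact ⟨_, by rw [zpow_add_one, hk]; rfl⟩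
        | pred i ih => obtain ⟨k, hk⟩ := ih; exact ⟨_, by rw [zpow_sub_one, hk]; rfl⟩
      obtain ⟨k, hk⟩ := h6 i
      cases hk.symm.trans h5
    · rw [hgc, QuaternionGroup.orderOf_xa] at h4
      omega
  by_cases hc : IsMulCommutative P
  · exact Or.inr (Or.inl ⟨hc, fun a ha => congrArg Subtype.val (h ⟨a, ha⟩)⟩)
  refine Or.inr (Or.inr (Or.inr ?_))
  have hZ : ¬ (⊤ : Subgroup P) ≤ center P := fun h =>
    hc ⟨⟨fun a b => mem_center_iff.1 (h (mem_top b)) a⟩⟩
  haveI := hP.isNilpotent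
  obtain ⟨u, -, hu, hu'⟩ := Grp.PChain.exists_central_mod ⊤ _ hZ
  obtain ⟨x, hx⟩ : ∃ x, x * u ≠ u * x := not_forall.1 fun h => hu (mem_center_iff.2 h)
  have hz : ∀ a : P, Nat.card (zpowers a) ∣ p := fun a =>
    Nat.card_zpowers a ▸ orderOf_dvd_of_pow_eq_one (h a)
  haveI : (zpowers ⁅u, x⁻¹⁆).Normal := normal_of_le_center (zpowers_le.2 (hu' _))
  have h1 : zpowers x⁻¹ ≤ normalizer ((zpowers u ⊔ zpowers ⁅u, x⁻¹⁆ : Subgroup P) : Set P) := by
    refine zpowers_le.2 (PLocal.Amb.mem_normalizer_of_cj_le ?_)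
    rw [PLocal.Amb.cj_sup, PLocal.Amb.cj_of_normal _ (zpowers ⁅u, x⁻¹⁆)]
    refine sup_le ?_ le_sup_right
    refine (MonoidHom.map_zpowers (MulAut.conj x⁻¹).toMonoidHom u).le.trans (zpowers_le.2 ?_)
    have := mul_mem (inv_mem (mem_sup_right (S := zpowers u) (mem_zpowers ⁅u, x⁻¹⁆)))
      (mem_sup_left (mem_zpowers u))
    simpa [commutatorElement_def, mul_assoc] using this
  have h2 := (Grp.card_sup_dvd_of_le_normalizer h1).trans (mul_dvd_mul (hz _)
    ((Grp.card_sup_dvd _ _).trans (mul_dvd_mul (hz _) (hz _))))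
  have h3 : Nat.card P ≤ p ^ 3 := by
    refine Grp.PRank.card_le_cube_of_exponent hP h fun E hE => ?_
    by_contra hlt
    obtain ⟨j, hj, hj'⟩ := (Nat.dvd_prime_pow hp).1 (pow_three p ▸ h2)
    obtain ⟨k, hk⟩ := (hP.to_subgroup E).exists_card_eq
    have h4 : j ≤ k := by
      rw [hk, Nat.pow_le_pow_iff_right hp.one_lt] at hlt
      omega
    obtain ⟨E', hE'⟩ := Sylow.exists_subgroup_card_pow_prime p (G := E) (hk ▸ pow_dvd_pow p h4)
    obtain ⟨f⟩ := hiso _ (E'.map E.subtype) (by rw [hj', card_subtype, hE'])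
    have h5 := (Grp.PChain.isMulCommutative_of_le hE (map_subtype_le E')).is_comm.comm
      (f ⟨x, mem_sup_left (by simp)⟩) (f ⟨u, mem_sup_right (mem_sup_left (mem_zpowers _))⟩)
    rw [← map_mul, ← map_mul] at h5
    exact hx (congrArg Subtype.val (f.injective h5))
  obtain ⟨k, hk⟩ := hP.exists_card_eq
  rw [hk, Nat.pow_le_pow_iff_right hp.one_lt] at h3
  refine ⟨?_, hc, ?_, ?_⟩
  · rintro rfl
    exact hc ⟨⟨fun a b => (Commute.of_orderOf_dvd_two
      (fun g => orderOf_dvd_of_pow_eq_one (h g)) a b).eq⟩⟩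
  · by_contra h4
    obtain h5 | rfl : k ≤ 1 ∨ k = 2 := by
      have : k ≠ 3 := fun h => h4 (h ▸ hk)
      omega
    · haveI : IsCyclic P := isCyclic_of_card_dvd_prime (p := p)
        (hk ▸ (pow_dvd_pow p h5).trans (pow_one p).dvd)
      exact hc inferInstance
    · exact hc ⟨⟨IsPGroup.commutative_of_card_eq_prime_sq hk⟩⟩
  · haveI : Nontrivial P := ⟨x * u, u * x, hx⟩
    exact (Monoid.exponent_eq_prime_iff hp).2 fun g hg => orderOf_eq_prime (h g) hg

end Cfsg.Agent.S4023
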