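import Cfsg.Statements.S4024
import Mathlib
import Cfsg.Agent.S4023
import Cfsg.Agent.PLocal.PSolv
import Cfsg.Agent.PLocal.AmbSyl

set_option autoImplicit false
open Cfsg

namespace Cfsg.Agent.S4024

open Subgroup PLocal.Amb
open scoped commutatorElement

/-- Let p be an odd prime and G a finite group in which any two p-subgroups of the same order are conjugate, with Sylow p-subgroup P. If H is a normal p-solvable subgroup of G whose order is divisible by p, then P is abelian, and either P ≤ H or P is cyclic. -/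
theorem result {G : Type*} [Group G] [Finite G]
    {p : ℕ} [Fact p.Prime] (hp : p ≠ 2) (hC : ∀ H K : Subgroup G, IsPGroup p H → IsPGroup p K → Nat.card H = Nat.card K →
      ∃ g : G, K = H.map (MulAut.conj g).toMonoidHom) (P : Sylow p G)
    (H : Subgroup G) [H.Normal] (hsolv : Cfsg.IsPSolvable p H) (hdiv : p ∣ Nat.card H) :
    IsMulCommutative P ∧ ((P : Subgroup G) ≤ H ∨ IsCyclic P) := by
  have hp' : p.Prime := Fact.out
  have hP := P.isPGroup'
  rcases S4023.uniq_or_exp hP (S4023.iso_of_conj hC hP) with h | h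
  · have := (Grp.isCyclic_or_quaternion hP h).resolve_right fun h => hp h.1
    exact ⟨inferInstance, Or.inr this⟩
  have key : ∀ M : Subgroup G, M.Normal → p ∣ Nat.card M → (P : Subgroup G) ≤ M := by
    intro M hM hd x hx
    by_cases h1 : x = 1
    · exact h1 ▸ one_mem _
    obtain ⟨y, hy⟩ := exists_prime_orderOf_dvd_card' p hd
    have hx' : orderOf x = p := orderOf_eq_prime (congrArg Subtype.val (h ⟨x, hx⟩)) h1
    have hy' : orderOf (y : G) = p := by rw [orderOf_coe, hy]
    obtain ⟨g, hg⟩ := hC (zpowers (y : G)) (zpowers x)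
      (IsPGroup.of_card (n := 1) (by rw [Nat.card_zpowers, hy', pow_one]))
      (IsPGroup.of_card (n := 1) (by rw [Nat.card_zpowers, hx', pow_one]))
      (by rw [Nat.card_zpowers, Nat.card_zpowers, hx', hy'])
    obtain ⟨z, hz, rfl⟩ : x ∈ (zpowers (y : G)).map (MulAut.conj g).toMonoidHom :=
      hg ▸ mem_zpowers x
    exact hM.conj_mem z (zpowers_le.2 y.2 hz) g
  refine ⟨?_, Or.inl (key H inferInstance hdiv)⟩
  obtain ⟨K, -, ⟨hK, hKH, hKp⟩, hmax⟩ := exists_maximal_ge_of_wellFoundedGT
    (fun K : Subgroup G => K.Normal ∧ K ≤ H ∧ (Nat.card K).Coprime p) ⊥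
    ⟨inferInstance, bot_le, by simp⟩
  obtain ⟨M, hM, hKM, hMH, hpow⟩ := PLocal.IsPSolvable.exists_lt_le_sup hsolv K fun h =>
    hp'.one_lt.ne' (Nat.eq_one_of_dvd_coprimes hKp (hdiv.trans (card_dvd_of_le h)) dvd_rfl)
  rw [sup_of_le_left hKH] at hMH
  have h1 := Grp.card_map_mk'_mul_of_le K hKM.le
  rw [← Grp.card_mul_relIndex hKM.le, mul_comm] at h1
  replace h1 := Nat.eq_of_mul_eq_mul_left Nat.card_pos h1
  obtain ⟨m, hm⟩ := hpow.resolve_right fun h => hKM.not_ge (hmax ⟨hM, hMH, by
    rw [← Grp.card_mul_relIndex hKM.le]; exact Nat.Coprime.mul_left hKp h⟩ hKM.le)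
  set π := QuotientGroup.mk' K
  have h2 : IsPGroup p (M.map π) := IsPGroup.of_card (h1.trans hm)
  have h3 := inf_centralizer_ne_bot h2 h2 le_normalizer (fun h => hKM.not_ge (by
    rwa [Subgroup.map_eq_bot_iff, QuotientGroup.ker_mk'] at h))
  haveI := hM.map π (QuotientGroup.mk'_surjective K)
  have h4 := key ((M.map π ⊓ 𝐂[M.map π]).comap π) inferInstance (by
    rw [Grp.card_comap_of_surjective π (QuotientGroup.mk'_surjective K)]
    exact Dvd.dvd.mul_right (((h2.to_le inf_le_left).card_eq_or_dvd).resolve_left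
      fun h => h3 (card_eq_one.1 h)) _)
  refine ⟨⟨fun a b => Subtype.ext ?_⟩⟩
  have h5 : ⁅(a : G), (b : G)⁆ ∈ K := by
    rw [← QuotientGroup.ker_mk' K, MonoidHom.mem_ker, map_commutatorElement,
      commutatorElement_eq_one_iff_mul_comm]
    exact (h4 b.2).2 _ (h4 a.2).1
  exact commutatorElement_eq_one_iff_mul_comm.1 (eq_one_of_isPGroup_of_coprime hP ⁅a, b⁆.2
    (hKp.coprime_dvd_left (K.orderOf_dvd_natCard h5)))

end Cfsg.Agent.S4024
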