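import Cfsg.Statements.S4027
import Mathlib
import Cfsg.Agent.Inv.BaerSuzuki
import Cfsg.Agent.Inv.Basic
import Cfsg.Agent.PLocal.AmbSyl
import Cfsg.Agent.PLocal.CoprimeQuot
import Cfsg.Agent.PLocal.CharPBase
import Cfsg.Agent.Grp.Cores

set_option autoImplicit false
open Cfsg

namespace Cfsg.Agent.S4027

open Subgroup Cfsg.Agent.PLocal Cfsg.Agent.PLocal.Amb


/-- Let G be a finite group in which every element x of odd order satisfies N_G(⟨x⟩) = C_G(x). Then the Sylow 2-subgroups of G are normal. -/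
theorem result {G : Type*} [Group G] [Finite G]
    (hirr : ∀ x : G, (∀ r : ℕ, r.Prime → r ∣ orderOf x → r ≠ 2) →
      Subgroup.normalizer ((Subgroup.zpowers x : Subgroup G) : Set G) ≤ Subgroup.centralizer {x}) (P : Sylow 2 G) :
    (P : Subgroup G).Normal := by
  set Q := pCore 2 G with hQ
  let π := QuotientGroup.mk' Q
  have hπ : Function.Surjective π := QuotientGroup.mk'_surjective Q
  have hQp : IsPGroup 2 Q := isPGroup_pCore' 2 G
  have hodd : ¬ 2 ∣ Nat.card (G ⧸ Q) := by
    intro h2
    obtain ⟨t, ht⟩ := exists_prime_orderOf_dvd_card' 2 h2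
    have htt : t * t = 1 := by rw [← pow_two]; exact orderOf_dvd_iff_pow_eq_one.1 ht.dvd
    have h1 : t ∈ pCore 2 (G ⧸ Q) := by
      refine Inv.baer_suzuki_elem_pCore t fun g => ?_
      have hs : orderOf (g * t * g⁻¹) = 2 := by rw [orderOf_conj', ht]
      have hss : (g * t * g⁻¹) * (g * t * g⁻¹) = 1 := by
        rw [← pow_two]; exact orderOf_dvd_iff_pow_eq_one.1 hs.dvd
      obtain ⟨w, hw⟩ := hπ (t * (g * t * g⁻¹))
      obtain ⟨k, hk⟩ := exists_pow_coprime (p := 2) w
      set y := w ^ 2 ^ k with hy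
      have hinv : t * π y * t⁻¹ = (π y)⁻¹ := by
        rw [hy, map_pow, hw, ← conj_pow, ← inv_pow]
        congr 1
        rw [mul_inv_rev, inv_eq_of_mul_eq_one_right hss, inv_eq_of_mul_eq_one_right htt, ← mul_assoc t t,
          htt, one_mul]
      have h3 : t ∈ 𝐍[(zpowers y).map π] := by
        rw [MonoidHom.map_zpowers]
        refine mem_normalizer_of_cj_le ?_
        rw [MonoidHom.map_zpowers, zpowers_le]
        change t * π y * t⁻¹ ∈ _
        rw [hinv]
        exact inv_mem (mem_zpowers _)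
      have h4 := map_normalizer_of_coprime π (zpowers y) (by
        rw [QuotientGroup.ker_mk', Nat.card_zpowers]
        obtain ⟨n, hn⟩ := IsPGroup.iff_card.1 hQp
        rw [hn]
        exact Nat.Coprime.pow_right n hk) (Or.inl inferInstance)
      have h5 : t ∈ (𝐍[zpowers y]).map π := by
        rw [h4]; exact mem_inf.2 ⟨hπ t, h3⟩
      obtain ⟨u, hu, rfl⟩ := h5
      have h6 := mem_centralizer_singleton_iff.1 (hirr y (fun r hr hd e => by
        subst e
        exact absurd (Nat.Coprime.eq_one_of_dvd hk.symm hd) (by decide)) hu)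
      have h7 : π y * π y = 1 := by
        rw [← map_inv, ← map_mul, ← map_mul, h6, mul_inv_cancel_right] at hinv
        exact mul_eq_one_iff_eq_inv.2 hinv
      have h8 : π y = 1 := by
        rw [← orderOf_eq_one_iff]
        exact Nat.Coprime.eq_one_of_dvd (hk.coprime_dvd_left (orderOf_map_dvd π y))
          (orderOf_dvd_of_pow_eq_one (by rw [pow_two, h7]))
      rw [hy, map_pow, hw] at h8
      obtain ⟨j, -, hj⟩ := (Nat.dvd_prime_pow Nat.prime_two).1 (orderOf_dvd_of_pow_eq_one h8)
      exact Inv.isPGroup_closure_pair ht hs hj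
    rw [Grp.pCore_quotient_pCore, mem_bot] at h1
    rw [h1, orderOf_one] at ht
    exact absurd ht (by decide)
  have h2 : (P : Subgroup G) = Q := by
    refine le_antisymm (fun x hx => ?_) (CP.pCore_le_sylow P)
    obtain ⟨k, hk⟩ := isPGroup_iff.1 P.isPGroup' x hx
    refine mem_of_pow_mem_of_coprime (Q.pow_index_mem x) ?_
    exact Nat.Coprime.coprime_dvd_left (orderOf_dvd_of_pow_eq_one hk)
      (Nat.Coprime.pow_left k ((Nat.Prime.coprime_iff_not_dvd Nat.prime_two).2 hodd))
  rw [h2]
  infer_instance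

end Cfsg.Agent.S4027
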