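import Cfsg.Statements.S4028
import Mathlib
import Cfsg.Agent.PLocal.AmbSyl
import Cfsg.Agent.FGS.OddOnTwo

set_option autoImplicit false
open Cfsg

namespace Cfsg.Agent.S4028

open Subgroup PLocal.Amb in
theorem aux {G : Type*} [Group G] [Finite G] (P : Subgroup G) :
    (∀ y : P, 𝐍[zpowers y] ≤ centralizer {y}) ↔
      ∀ y ∈ P, P ⊓ 𝐍[zpowers y] ≤ centralizer {y} := by
  have h : ∀ y : P, 𝐍[zpowers y] ≤ centralizer {y} ↔
      P ⊓ 𝐍[zpowers (y : G)] ≤ centralizer {(y : G)} := by
    intro y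
    rw [normalizer_eq_subgroupOf, MonoidHom.map_zpowers]
    exact ⟨fun h g hg => mem_centralizer_singleton_iff.2 (congrArg Subtype.val
      (mem_centralizer_singleton_iff.1 (h (x := ⟨g, hg.1⟩) hg.2))),
      fun h g hg => mem_centralizer_singleton_iff.2 (Subtype.ext
        (mem_centralizer_singleton_iff.1 (h ⟨g.2, hg⟩)))⟩
  exact ⟨fun h1 y hy => (h ⟨y, hy⟩).1 (h1 _), fun h1 y => (h y).2 (h1 y y.2)⟩

open Subgroup PLocal.Amb in
theorem aux2 {G : Type*} [Group G] [Finite G] (P : Sylow 2 G)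
    (h : ∀ y ∈ (P : Subgroup G), (P : Subgroup G) ⊓ 𝐍[zpowers y] ≤ centralizer {y}) (x : G)
    (hx : IsPGroup 2 (zpowers x)) : 𝐍[zpowers x] ≤ centralizer {x} := by
  obtain ⟨S, hS, hxS⟩ := exists_isSyl_ge hx (le_normalizer (H := zpowers x))
  obtain ⟨g, -, hg⟩ := (isSyl_top P).exists_cj_le hS.pgrp le_top
  rw [← hS.pRes_sup]
  refine sup_le (pRes_le_iff.2 fun a ha hc => ?_) ?_
  · rw [← centralizer_zpowers]
    exact zpowers_le.1 (FGS.le_centralizer_of_isCyclic_two hx inferInstance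
      (by rw [Nat.card_zpowers]; exact Nat.coprime_two_right.1 hc) (zpowers_le.2 ha))
  · have h1 := h _ (hg (conj_mem_cj g (hxS (mem_zpowers x))))
    rw [centralizer_singleton_conj] at h1
    rw [← cj_le_cj_iff (g := g)]
    refine le_trans (le_inf hg ?_) h1
    have : zpowers (g * x * g⁻¹) = cj(g, zpowers x) := by rw [MonoidHom.map_zpowers]; rfl
    rw [this, normalizer_cj]
    exact cj_mono g hS.le

/-- Let G be a finite group with Sylow 2-subgroup P. Then N_G(⟨x⟩) = C_G(x) holds for every 2-element x of G if and only if N_P(⟨y⟩) = C_P(y) holds for every y ∈ P (computed inside P). -/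
theorem result {G : Type*} [Group G] [Finite G] (P : Sylow 2 G) :
    (∀ x : G, (∀ r : ℕ, r.Prime → r ∣ orderOf x → r = 2) →
      Subgroup.normalizer ((Subgroup.zpowers x : Subgroup G) : Set G) ≤ Subgroup.centralizer {x}) ↔
    (∀ y : ↥(P : Subgroup G), Subgroup.normalizer ((Subgroup.zpowers y : Subgroup ↥(P : Subgroup G)) : Set ↥(P : Subgroup G)) ≤
        Subgroup.centralizer {y}) := by
  rw [aux]
  constructor
  · intro h y hy
    refine inf_le_right.trans (h y fun r hr h1 => ?_)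
    obtain ⟨k, hk⟩ := PLocal.Amb.isPGroup_iff.1 P.isPGroup' y hy
    exact (Nat.prime_dvd_prime_iff_eq hr Nat.prime_two).1
      (hr.dvd_of_dvd_pow (h1.trans (orderOf_dvd_of_pow_eq_one hk)))
  · intro h x hx
    refine aux2 P h x (IsPGroup.of_card (n := (orderOf x).primeFactorsList.length) ?_)
    rw [Nat.card_zpowers]
    exact Nat.eq_prime_pow_of_unique_prime_dvd (orderOf_pos x).ne' fun {r} => hx r

end Cfsg.Agent.S4028
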