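import Mathlib
import Cfsg.Statements.S4029
import Cfsg.Agent.S0160
import Cfsg.Agent.Char.Linear
import Cfsg.Agent.Grp.PFrattini
import Cfsg.Agent.PLocal.Amb
-- import your own Cfsg.Agent.* helpers here

set_option autoImplicit false
open Cfsg

namespace Cfsg.Agent.S4029

/-- Let P be a finite 2-group in which N_P(⟨y⟩) = C_P(y) for every y ∈ P. If s is the number of conjugacy classes of involutions of P, then #(P/Φ(P)) ≤ s + 1; in particular the subgroup generated by the involutions of P has order at least #(P/Φ(P)). -/
theorem result {P : Type*} [Group P] [Finite P] (hP : IsPGroup 2 P)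
    (hirr : ∀ y : P, Subgroup.normalizer ((Subgroup.zpowers y : Subgroup P) : Set P) ≤ Subgroup.centralizer {y}) :
    Nat.card (P ⧸ frattini P) ≤ Nat.card {c : ConjClasses P // ∃ y : P, ConjClasses.mk y = c ∧ orderOf y = 2} + 1 ∧
    Nat.card (P ⧸ frattini P) ≤ Nat.card (Subgroup.closure {y : P | orderOf y = 2}) := by
    classical
    set s := {c : ConjClasses P // ∃ y : P, ConjClasses.mk y = c ∧ orderOf y = 2}
    have h1 : Nat.card (P ⧸ frattini P) ≤ Nat.card s + 1 := by
      have hcomm : ∀ a b : P ⧸ frattini P, a * b = b * a := by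
        intro a b
        obtain ⟨a, rfl⟩ := QuotientGroup.mk_surjective a
        obtain ⟨b, rfl⟩ := QuotientGroup.mk_surjective b
        rw [← QuotientGroup.mk_mul, ← QuotientGroup.mk_mul, QuotientGroup.eq]
        have := Grp.PFrattini.commutator_le_frattini hP
          (Subgroup.commutator_mem_commutator (Subgroup.mem_top b⁻¹) (Subgroup.mem_top a⁻¹))
        simpa [commutatorElement_def, mul_assoc] using this
      letI : CommGroup (P ⧸ frattini P) := { (inferInstance : Group (P ⧸ frattini P)) with
        mul_comm := hcomm }
      haveI : NeZero (Monoid.exponent (P ⧸ frattini P)) := ⟨Monoid.exponent_ne_zero_of_finite⟩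
      rw [← CommGroup.card_monoidHom_of_hasEnoughRootsOfUnity (P ⧸ frattini P) ℂ]
      let f : (P ⧸ frattini P →* ℂˣ) →
          {χ : Cfsg.IrrCharacter P // ∀ g : P, ((χ : P → ℂ) g).im = 0} := fun μ =>
        ⟨⟨_, Char.isIrrCharacter_hom (μ.comp (QuotientGroup.mk' _))⟩, fun g => by
          have h2 : ((μ (QuotientGroup.mk' _ g) : ℂˣ) : ℂ) ^ 2 = 1 := by
            rw [← Units.val_pow_eq_pow_val, ← map_pow, ← map_pow, QuotientGroup.mk'_apply,
              (QuotientGroup.eq_one_iff _).2 (Grp.PFrattini.pow_mem_frattini hP g), map_one,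
              Units.val_one]
          show ((μ (QuotientGroup.mk' _ g) : ℂˣ) : ℂ).im = 0
          rcases sq_eq_one_iff.1 h2 with h | h <;> rw [h] <;> simp⟩
      have hf : Function.Injective f := by
        intro μ ν h
        have h3 := Char.hom_coe_inj (congrArg (fun χ => (χ.1 : P → ℂ)) h)
        exact (MonoidHom.cancel_right (QuotientGroup.mk'_surjective _)).1 h3
      refine (Nat.card_le_card_of_injective f hf).trans ?_
      rw [S0160.result, ← Finite.card_option]
      let g : Option s → {C : ConjClasses P // ∀ g : P, ConjClasses.mk g = C → IsConj g g⁻¹} :=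
        fun o => match o with
          | none => ⟨1, fun g hg => by
              have : g = 1 := by
                rw [ConjClasses.one_eq_mk_one, ConjClasses.mk_eq_mk_iff_isConj] at hg
                exact isConj_one_left.1 hg
              simp [this]⟩
          | some c => ⟨c.1, fun g hg => by
              obtain ⟨y, hy, hy2⟩ := c.2
              rw [← hy, ConjClasses.mk_eq_mk_iff_isConj] at hg
              have h2 : g ^ 2 = 1 := by
                obtain ⟨d, rfl⟩ := isConj_iff.1 hg.symm
                rw [conj_pow, ← hy2, pow_orderOf_eq_one]; simp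
              rw [show g⁻¹ = g from inv_eq_of_mul_eq_one_right (by rw [← sq, h2])]⟩
      refine Nat.card_le_card_of_surjective g ?_
      rintro ⟨C, hC⟩
      obtain ⟨y, rfl⟩ := ConjClasses.mk_surjective C
      obtain ⟨c, hc⟩ := isConj_iff.1 (hC y rfl)
      have hn : c ∈ Subgroup.normalizer ((Subgroup.zpowers y : Subgroup P) : Set P) := by
        apply PLocal.Amb.mem_normalizer_of_cj_le
        rw [MonoidHom.map_zpowers, Subgroup.zpowers_le]
        show c * y * c⁻¹ ∈ _
        rw [hc]
        exact Subgroup.inv_mem _ (Subgroup.mem_zpowers y)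
      have h3 := Subgroup.mem_centralizer_singleton_iff.1 (hirr y hn)
      rw [h3, mul_inv_cancel_right] at hc
      have h4 : y ^ 2 = 1 := by rw [sq]; nth_rewrite 1 [hc]; exact inv_mul_cancel y
      by_cases hy : y = 1
      · exact ⟨none, Subtype.ext (by subst hy; rfl)⟩
      · exact ⟨some ⟨_, y, rfl, orderOf_eq_prime h4 hy⟩, rfl⟩
    refine ⟨h1, h1.trans ?_⟩
    rw [← Finite.card_option]
    let k : Option s → Subgroup.closure {y : P | orderOf y = 2} := fun o => match o with
      | none => 1
      | some c => ⟨c.2.choose, Subgroup.subset_closure c.2.choose_spec.2⟩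
    refine Nat.card_le_card_of_injective k ?_
    have hne : ∀ c : s, c.2.choose ≠ 1 := fun c h => by
      have := c.2.choose_spec.2
      rw [h, orderOf_one] at this
      exact absurd this (by norm_num)
    rintro (_ | a) (_ | b) h
    · rfl
    · exact absurd (congrArg Subtype.val h).symm (hne b)
    · exact absurd (congrArg Subtype.val h) (hne a)
    · have h2 : a.2.choose = b.2.choose := congrArg Subtype.val h
      congr 1
      exact Subtype.ext (by rw [← a.2.choose_spec.1, ← b.2.choose_spec.1, h2])

end Cfsg.Agent.S4029
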