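import Cfsg.Statements.S4032
import Mathlib
import Cfsg.Agent.FGS.ClassSize
import Cfsg.Agent.Solv.Coprime
import Cfsg.Agent.PLocal.AmbSyl

set_option autoImplicit false
open Cfsg

namespace Cfsg.Agent.S4032

open PLocal.Amb

/-- Let π be a set of primes and G a finite group in which N_G(⟨x⟩) = C_G(x) for every π-element x. If N is a normal subgroup of G whose order is divisible by no prime of π, then G/N has the same property: N_{G/N}(⟨y⟩) = C_{G/N}(y) for every π-element y of G/N. -/
theorem result {G : Type*} [Group G] [Finite G] (π : Set ℕ)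
    (hirr : ∀ x : G, (∀ r : ℕ, r.Prime → r ∣ orderOf x → r ∈ π) →
      Subgroup.normalizer ((Subgroup.zpowers x : Subgroup G) : Set G) ≤ Subgroup.centralizer {x})
    (N : Subgroup G) [N.Normal] (hN : ∀ r : ℕ, r.Prime → r ∣ Nat.card N → r ∉ π) :
    ∀ y : G ⧸ N, (∀ r : ℕ, r.Prime → r ∣ orderOf y → r ∈ π) →
      Subgroup.normalizer ((Subgroup.zpowers y : Subgroup (G ⧸ N)) : Set (G ⧸ N)) ≤ Subgroup.centralizer {y} := by
  intro y hy g hg
  obtain ⟨x, rfl, hx⟩ := FGS.exists_lift_prime_dvd_of_surjective (QuotientGroup.mk' N)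
    (QuotientGroup.mk'_surjective N) y
  obtain ⟨g, rfl⟩ := QuotientGroup.mk'_surjective N g
  have hxπ : ∀ r : ℕ, r.Prime → r ∣ orderOf x → r ∈ π := fun r hr hd => hy r hr (hx r hr hd)
  obtain ⟨k, hk, e⟩ := Solv.exists_conj_eq_of_coprime (Subgroup.zpowers x)
    cj(g, Subgroup.zpowers x) N (by rw [Subgroup.normalizer_eq_top]; exact le_top)
    (by
      rw [Nat.card_zpowers, Nat.coprime_iff_gcd_eq_one]
      by_contra hne
      obtain ⟨r, hr, hd⟩ := Nat.exists_prime_and_dvd hne
      exact hN r hr (hd.trans (Nat.gcd_dvd_right _ _)) (hxπ r hr (hd.trans (Nat.gcd_dvd_left _ _))))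
    (Or.inl inferInstance) (card_cj _ _).le (by
      intro a ha
      have h1 : QuotientGroup.mk' N a ∈ (cj(g, Subgroup.zpowers x)).map (QuotientGroup.mk' N) := by
        rw [map_cj, MonoidHom.map_zpowers, cj_of_mem_normalizer hg, ← MonoidHom.map_zpowers]
        exact ⟨a, ha, rfl⟩
      obtain ⟨b, hb, e⟩ := h1
      refine ⟨a * b⁻¹, ?_, by simpa using hb⟩
      rw [← QuotientGroup.eq_one_iff, ← QuotientGroup.mk'_apply, map_mul, map_inv, e,
        mul_inv_cancel])
  have h1 : k⁻¹ * g ∈ 𝐍[Subgroup.zpowers x] := by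
    rw [← cj_eq_iff, cj_mul, ← e]
    exact cj_inv_cj k _
  have h2 := Subgroup.mem_centralizer_singleton_iff.1 (hirr x hxπ h1)
  have h3 := congrArg (QuotientGroup.mk' N) h2
  rw [Subgroup.mem_centralizer_singleton_iff]
  have h4 : QuotientGroup.mk' N k = 1 := (QuotientGroup.eq_one_iff k).2 hk
  simpa only [map_mul, map_inv, h4, inv_one, one_mul] using h3

end Cfsg.Agent.S4032
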