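import Cfsg.Statements.S4036
import Mathlib


set_option autoImplicit false
open Cfsg

namespace Cfsg.Agent.S4036

/-- Let P be a finite abelian p-group and K a group of automorphisms of P (a subgroup of Aut P) whose order is divisible by p. If all non-identity elements of K have the same fixed-point subgroup on P, then K has no non-trivial normal subgroup of order prime to p. -/
theorem result {P : Type*} [CommGroup P] [Finite P] {p : ℕ}
    [Fact p.Prime] (hP : IsPGroup p P) (K : Subgroup (MulAut P)) (hK : p ∣ Nat.card K)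
    (hfix : ∀ x y : MulAut P, x ∈ K → y ∈ K → x ≠ 1 → y ≠ 1 → ∀ v : P, x v = v ↔ y v = v) :
    ∀ N : Subgroup ↥K, N.Normal → ¬ p ∣ Nat.card N → N = ⊥ := by
  classical
  intro N hN hp
  by_contra hne
  obtain ⟨⟨n₀, hn₀⟩, hn₀1⟩ := Subgroup.ne_bot_iff_exists_ne_one.1 hne
  have hn₀1' : (n₀ : MulAut P) ≠ 1 := fun h => hn₀1 (Subtype.ext (Subtype.ext h))
  letI : Fintype N := Fintype.ofFinite _
  let ν : P →* P :=
    { toFun := fun v => ∏ n : N, ((n : K) : MulAut P) v
      map_one' := by simp
      map_mul' := fun a b => by simp [Finset.prod_mul_distrib] }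
  have hν : ∀ v, ν v = ∏ n : N, ((n : K) : MulAut P) v := fun _ => rfl
  have hcomm : ∀ (k : K) (v : P), ν ((k : MulAut P) v) = (k : MulAut P) (ν v) := by
    intro k v
    rw [hν, hν, map_prod]
    symm
    refine Fintype.prod_equiv (MulAut.conjNormal k : MulAut N).toEquiv _ _ fun n => ?_
    simp
  have hfixN : ∀ (n : N) (v : P), ν (((n : K) : MulAut P) v) = ν v := by
    intro n v
    rw [hν, hν]
    refine Fintype.prod_equiv (Equiv.mulRight n) _ _ fun m => ?_
    simp
  have hinj : ∀ v w : P, v ^ Nat.card N = w ^ Nat.card N → v = w := by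
    intro v w h
    obtain ⟨k, hk⟩ := IsPGroup.iff_card.1 hP
    exact (powCoprime (G := P) (n := Nat.card N) (by
      rw [hk]; exact Nat.Coprime.pow_left _ ((Nat.Prime.coprime_iff_not_dvd Fact.out).2 hp))).injective h
  obtain ⟨x, hx⟩ := exists_prime_orderOf_dvd_card' p hK
  have hx1 : (x : MulAut P) ≠ 1 := fun h => by
    rw [show x = 1 from Subtype.ext h, orderOf_one] at hx
    exact (Fact.out : p.Prime).ne_one hx.symm
  have hker : ν.ker = ⊥ := by
    by_contra hW
    let S : SubMulAction (Subgroup.zpowers x) P :=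
      { carrier := ν.ker
        smul_mem' := fun c v hv => by
          have : ν (((c : K) : MulAut P) v) = 1 := by
            rw [hcomm, MonoidHom.mem_ker.1 hv, map_one]
          exact this }
    have hX : IsPGroup p (Subgroup.zpowers x) :=
      IsPGroup.of_card (n := 1) (by rw [Nat.card_zpowers, hx, pow_one])
    have hd : p ∣ Nat.card S := by
      obtain ⟨k, hk⟩ := IsPGroup.iff_card.1 (hP.to_subgroup ν.ker)
      have : Nat.card S = Nat.card ν.ker := rfl
      rw [this, hk]
      refine dvd_pow_self _ fun h => hW ?_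
      rw [h, pow_zero] at hk
      exact Subgroup.eq_bot_of_card_eq _ hk
    obtain ⟨b, hb, hb1⟩ := hX.exists_fixed_point_of_prime_dvd_card_of_fixed_point S hd
      (a := ⟨1, one_mem ν.ker⟩) (fun c => Subtype.ext (map_one ((c : K) : MulAut P)))
    have h1 : (x : MulAut P) b = b := congrArg Subtype.val (hb ⟨x, Subgroup.mem_zpowers x⟩)
    have h2 : ∀ n : N, ((n : K) : MulAut P) b = b := by
      intro n
      by_cases h : ((n : K) : MulAut P) = 1
      · rw [h]; rfl
      · exact (hfix _ _ x.2 (n : K).2 hx1 h b).1 h1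
    have h3 : ν b = 1 := b.2
    rw [hν] at h3
    simp only [h2, Finset.prod_const, Finset.card_univ, ← Nat.card_eq_fintype_card] at h3
    exact hb1 (Subtype.ext (hinj _ _ (by rw [h3]; exact one_pow _)))
  apply hn₀1'
  ext v
  exact (MonoidHom.ker_eq_bot_iff ν).1 hker (hfixN ⟨n₀, hn₀⟩ v)

end Cfsg.Agent.S4036
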