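import Cfsg.Statements.S4043
import Mathlib
import Cfsg.Agent.Solv.Coprime
import Cfsg.Agent.Transfer.PCompl
import Cfsg.Agent.Grp.Card
import Cfsg.Agent.Grp.Cores
import Cfsg.Agent.PLocal.AmbSyl

set_option autoImplicit false
open Cfsg

namespace Cfsg.Agent.S4043

open Pointwise PLocal.Amb

/-- If `A` complements the normal `p`-subgroup `N` and `C_N(A) = 1`, then `N_G(O^p(A)) = A`
provided `O^p(A)` is a `p'`-group or not. -/
theorem normalizer_eq {G : Type*} [Group G] [Finite G] {p : ℕ}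
    [Fact p.Prime] (N : Subgroup G) [hNn : N.Normal] (hN : IsPGroup p N) (A : Subgroup G)
    (hA : A.IsComplement' N)
    (hC : ∀ n : G, n ∈ N → (∀ a : G, a ∈ A → a * n * a⁻¹ = n) → n = 1) :
    𝐍[𝐎[p, A]] = A := by
  set K : Subgroup G := 𝐎[p, A] with hK
  have hKA : K ≤ A := pRes_le p A
  have hAK : A ≤ 𝐍[K] := le_normalizer_pRes p A
  set D : Subgroup G := N ⊓ 𝐂[K] with hD
  have hAD : A ≤ 𝐍[D] :=
    le_normalizer_inf (Subgroup.le_normalizer_of_normal) (le_normalizer_centralizer hAK)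
  have hDbot : D = ⊥ := by
    by_contra hne
    obtain ⟨T, hT⟩ := exists_isSyl p A
    have := inf_centralizer_ne_bot hT.pgrp (hN.to_le inf_le_left) (hT.le.trans hAD) hne
    apply this
    rw [eq_bot_iff]
    rintro d ⟨⟨hd1, hd2⟩, hd3⟩
    have : d ∈ 𝐂[A] := by
      rw [← hT.pRes_sup, centralizer_sup]; exact ⟨hd2, hd3⟩
    refine hC d hd1 (fun a ha => ?_)
    rw [this a ha]; group
  apply le_antisymm _ hAK
  intro g hg
  obtain ⟨⟨⟨a, ha⟩, ⟨n, hn⟩⟩, rfl⟩ := hA.2 g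
  simp only at hg ⊢
  have hn' : n ∈ 𝐍[K] := by
    have := Subgroup.mul_mem _ (Subgroup.inv_mem _ (hAK ha)) hg
    simpa using this
  have : n ∈ D := by
    refine ⟨hn, fun k hk => ?_⟩
    have h1 : n * k * n⁻¹ * k⁻¹ ∈ A := A.mul_mem (hKA ((hn' k).1 hk)) (A.inv_mem (hKA hk))
    have h2 : n * k * n⁻¹ * k⁻¹ ∈ N := by
      have := N.mul_mem hn (hNn.conj_mem _ (N.inv_mem hn) k)
      simpa [mul_assoc] using this
    have h3 := hA.disjoint.le_bot ⟨h1, h2⟩
    rw [Subgroup.mem_bot, mul_inv_eq_one, mul_inv_eq_iff_eq_mul] at h3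
    exact h3.symm
  rw [hDbot, Subgroup.mem_bot] at this
  simpa [this] using ha

theorem step {G : Type*} [Group G] [Finite G] {p : ℕ}
    [Fact p.Prime] (N : Subgroup G) [hNn : N.Normal] (A A₁ : Subgroup G)
    (hA₁ : A₁.IsComplement' N) (hAp : Cfsg.HasNormalPComplement p A) :
    ∀ a ∈ 𝐎[p, A], ∃ k ∈ N, k⁻¹ * a ∈ 𝐎[p, A₁] := by
  rintro _ ⟨a, ha, rfl⟩
  have hc : (orderOf (a : G)).Coprime p := by
    rw [Subgroup.orderOf_coe]
    exact (Transfer.HasNormalPComplement.mem_pResidual_iff hAp).1 ha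
  obtain ⟨⟨⟨n, hn⟩, ⟨b, hb⟩⟩, h⟩ := hA₁.symm.2 (a : G)
  simp only at h
  refine ⟨n, hn, ?_⟩
  have hb' : n⁻¹ * A.subtype a = b := by
    rw [Subgroup.coe_subtype, ← h]; group
  rw [hb']
  refine mem_pRes hb (Nat.Coprime.coprime_dvd_left (orderOf_dvd_of_pow_eq_one ?_) hc)
  have h1 : b ^ orderOf (a : G) ∈ N := by
    rw [← QuotientGroup.eq_one_iff, QuotientGroup.mk_pow]
    have : ((b : G) : G ⧸ N) = ((a : G) : G ⧸ N) := by
      rw [← h, QuotientGroup.mk_mul, (QuotientGroup.eq_one_iff n).2 hn, one_mul]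
    rw [this, ← QuotientGroup.mk_pow, pow_orderOf_eq_one, QuotientGroup.mk_one]
  exact hA₁.disjoint.le_bot ⟨A₁.pow_mem hb _, h1⟩

theorem cop {G : Type*} [Group G] [Finite G] {p : ℕ}
    [Fact p.Prime] (N : Subgroup G) (hN : IsPGroup p N) (A : Subgroup G)
    (hAp : Cfsg.HasNormalPComplement p A) : (Nat.card 𝐎[p, A]).Coprime (Nat.card N) := by
  obtain ⟨k, hk⟩ := hN.exists_card_eq
  rw [hk, Subgroup.card_map_of_injective A.subtype_injective]
  exact Nat.Coprime.pow_right _ (Transfer.hasNormalPComplement_iff_coprime.1 hAp)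

/-- Let G be a finite group that is the semidirect product of a normal p-subgroup N by a subgroup A, and also of N by a subgroup A₁, where p is a prime and A and A₁ both have normal p-complements. If C_N(A) = C_N(A₁) = 1, then A₁ is conjugate to A by an element of N. -/
theorem result {G : Type*} [Group G] [Finite G] {p : ℕ}
    [Fact p.Prime] (N : Subgroup G) [N.Normal] (hN : IsPGroup p N) (A A₁ : Subgroup G)
    (hA : A.IsComplement' N) (hA₁ : A₁.IsComplement' N)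
    (hAp : Cfsg.HasNormalPComplement p A) (hA₁p : Cfsg.HasNormalPComplement p A₁)
    (hC : ∀ n : G, n ∈ N → (∀ a : G, a ∈ A → a * n * a⁻¹ = n) → n = 1)
    (hC₁ : ∀ n : G, n ∈ N → (∀ a : G, a ∈ A₁ → a * n * a⁻¹ = n) → n = 1) :
    ∃ n : G, n ∈ N ∧ A₁ = A.map (MulAut.conj n).toMonoidHom := by
  have hsolv : Group.IsSolvable N := by
    have := hN.isNilpotent
    infer_instance
  obtain ⟨k, -, hk⟩ := Solv.exists_conj_mem_of_coprime 𝐎[p, A₁] N 𝐎[p, A]
    Subgroup.le_normalizer_of_normal (cop N hN A₁ hA₁p) (Or.inr hsolv) (step N A₁ A hA hA₁p)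
  have hcard : Nat.card 𝐎[p, A₁] ≤ Nat.card 𝐎[p, A] := by
    rw [← card_cj k⁻¹ 𝐎[p, A₁]]
    apply Subgroup.card_le_of_le
    rw [cj_le_iff_forall]
    intro x hx
    simpa using hk x hx
  obtain ⟨n, hn, h⟩ := Solv.exists_conj_eq_of_coprime 𝐎[p, A] 𝐎[p, A₁] N
    Subgroup.le_normalizer_of_normal (cop N hN A hAp) (Or.inr hsolv) hcard (step N A A₁ hA₁ hAp)
  refine ⟨n, hn, ?_⟩
  rw [Grp.conj_smul_eq_map] at h
  calc A₁ = 𝐍[𝐎[p, A₁]] := (normalizer_eq N hN A₁ hA₁ hC₁).symm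
    _ = 𝐍[cj(n, 𝐎[p, A])] := by rw [h]
    _ = cj(n, A) := by rw [normalizer_cj, normalizer_eq N hN A hA hC]

end Cfsg.Agent.S4043
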