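import Cfsg.Statements.S4049
import Mathlib
import Cfsg.Agent.FGS.PiClosed
import Cfsg.Agent.S0200
import Cfsg.Agent.Grp.Cores

set_option autoImplicit false
open Cfsg

namespace Cfsg.Agent.S4049

open Cfsg.Agent.PLocal.Amb Cfsg.Agent.FGS

/-- Let G be a finite group such that N_G(H)/C_G(H) has odd order for every nontrivial subgroup H of odd order. Then the Sylow 2-subgroups of G are normal. -/
theorem result {G : Type*} [Group G] [Finite G]
    (hhom : ∀ H : Subgroup G, H ≠ ⊥ → ¬ 2 ∣ Nat.card ↥H →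
        ¬ 2 ∣ (Subgroup.centralizer (H : Set G)).relIndex (Subgroup.normalizer (H : Set G))) (P : Sylow 2 G) :
    (P : Subgroup G).Normal := by
  haveI : Fact (Nat.Prime 2) := ⟨Nat.prime_two⟩
  have hw : WeakHom {2} G := weakHom_of_hom fun H hH h1 p hp hd hp2 => by
    rw [Set.mem_singleton_iff] at hp2
    subst hp2
    exact hhom H hH (fun h2 => h1 2 hp h2 rfl) hd
  have hw' : WeakHom {2} (G ⧸ pCore 2 G) :=
    hw.of_surjective _ (QuotientGroup.mk'_surjective _) fun x hx => by
      rw [QuotientGroup.ker_mk'] at hx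
      exact isPiElt_of_primePow Nat.prime_two rfl (isPGroup_iff.1 (Grp.pCore_isPGroup 2 G) x hx)
  have hodd : ¬ 2 ∣ Nat.card (G ⧸ pCore 2 G) := by
    intro hd
    obtain ⟨t, ht⟩ := exists_prime_orderOf_dvd_card' 2 hd
    obtain ⟨h, h1, hodd, hinv⟩ := S0200.result t ht fun N hN h2 hmem => by
      have := Grp.le_pCore hN h2 hmem
      rw [Grp.pCore_quotient_pCore, Subgroup.mem_bot] at this
      rw [this, orderOf_one] at ht
      omega
    have hc := hw'.mem_centralizer (K := Subgroup.zpowers h) (x := t) (fun q hq hd hq2 => by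
        rw [Set.mem_singleton_iff] at hq2
        subst hq2
        rw [Nat.card_zpowers] at hd
        exact (Nat.not_even_iff_odd.2 hodd) (even_iff_two_dvd.2 hd))
      (mem_normalizer_of_cj_le (by
        rw [cj_le_iff_forall]
        rintro _ ⟨n, rfl⟩
        simp only [← conj_zpow, hinv]
        exact zpow_mem (inv_mem (Subgroup.mem_zpowers h)) n))
      (isPiElt_of_primePow Nat.prime_two rfl ⟨1, by
        rw [pow_one]; exact orderOf_dvd_iff_pow_eq_one.1 ht.dvd⟩)
    have h2 := Subgroup.mem_centralizer_iff.1 hc h (Subgroup.mem_zpowers h)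
    have h3 : h ^ 2 = 1 := by
      rw [← h2, mul_inv_cancel_right] at hinv
      rw [sq]; nth_rewrite 1 [hinv]; simp
    have h4 := orderOf_dvd_of_pow_eq_one h3
    rcases (Nat.dvd_prime Nat.prime_two).1 h4 with h5 | h5
    · exact h1 (orderOf_eq_one_iff.1 h5)
    · rw [h5] at hodd; exact absurd hodd (by decide)
  have hle : (P : Subgroup G) ≤ pCore 2 G := by
    apply Grp.le_normal_of_coprime_card_index
    obtain ⟨n, hn⟩ := IsPGroup.iff_card.1 P.isPGroup'
    rw [hn]
    exact Nat.Coprime.pow_left _ ((Nat.Prime.coprime_iff_not_dvd Nat.prime_two).2 hodd)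
  rw [le_antisymm hle (Grp.pCore_le_sylow P)]
  infer_instance

end Cfsg.Agent.S4049
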