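import Cfsg.Statements.S4050
import Mathlib
import Cfsg.Agent.FGS.PiClosed

set_option autoImplicit false
open Cfsg

namespace Cfsg.Agent.S4050

open Cfsg.Agent.PLocal.Amb Cfsg.Agent.FGS

/-- Let π be a set of primes and G a finite group. The π-elements of G (elements whose order is divisible only by primes of π) form a subgroup if and only if G is π-separable (it has a chain of normal subgroups from 1 to G with each successive index divisible only by primes in π or only by primes outside π) and N_G(H)/C_G(H) is a π'-group for every nontrivial π'-subgroup H of G. -/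
theorem result {G : Type*} [Group G] [Finite G] (π : Set ℕ)
    (hπ : ∀ p ∈ π, p.Prime) :
    (∃ K : Subgroup G, ∀ x : G, x ∈ K ↔ ∀ p : ℕ, p.Prime → p ∣ orderOf x → p ∈ π) ↔
    ((∃ (n : ℕ) (H : Fin (n + 1) → Subgroup G), H 0 = ⊥ ∧ H (Fin.last n) = ⊤ ∧ Monotone H ∧ (∀ i, (H i).Normal) ∧
      ∀ i : Fin n, (∀ q : ℕ, q.Prime → q ∣ (H i.castSucc).relIndex (H i.succ) → q ∈ π) ∨
        (∀ q : ℕ, q.Prime → q ∣ (H i.castSucc).relIndex (H i.succ) → q ∉ π)) ∧
     (∀ H : Subgroup G, H ≠ ⊥ → (∀ p : ℕ, p.Prime → p ∣ Nat.card ↥H → p ∉ π) →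
        ∀ p : ℕ, p.Prime → p ∣ (Subgroup.centralizer (H : Set G)).relIndex (Subgroup.normalizer (H : Set G)) → p ∉ π)) := by
  constructor
  · rintro ⟨K, hK⟩
    have hK' : ∀ x : G, x ∈ K ↔ IsPiElt π x := hK
    haveI hn : K.Normal := ⟨fun x hx g => (hK' _).2 (((hK' _).1 hx).conj g)⟩
    have hidx : ∀ q : ℕ, q.Prime → q ∣ K.index → q ∉ π := by
      intro q hq hd hqπ
      haveI := Fact.mk hq
      rw [Subgroup.index_eq_card] at hd
      obtain ⟨z, hz⟩ := exists_prime_orderOf_dvd_card' q hd
      induction z using QuotientGroup.induction_on with | H z =>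
      have h1 : IsPiElt π (QuotientGroup.mk' K z) := fun p hp hpd => by
        rw [QuotientGroup.mk'_apply, hz] at hpd
        rwa [(Nat.prime_dvd_prime_iff_eq hp hq).1 hpd]
      have h2 : z ∈ K := (hK' z).2 (h1.of_map _ fun x hx => by
        rw [QuotientGroup.ker_mk'] at hx; exact (hK' x).1 hx)
      rw [(QuotientGroup.eq_one_iff z).2 h2, orderOf_one] at hz
      exact hq.ne_one hz.symm
    refine ⟨⟨2, ![⊥, K, ⊤], rfl, rfl, ?_, ?_, ?_⟩, ?_⟩
    · refine Fin.monotone_iff_le_succ.2 fun i => ?_
      fin_cases i <;> simp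
    · intro i
      fin_cases i
      · exact Subgroup.normal_bot
      · exact hn
      · exact Subgroup.normal_top
    · intro i
      fin_cases i
      · left
        intro q hq hd
        refine pi_card_of_forall (fun x hx => (hK' x).1 hx) q hq ?_
        simpa using hd
      · right
        intro q hq hd
        refine hidx q hq ?_
        simpa using hd
    · intro H _ hH p hp hd hpπ
      have hle : 𝐍[H] ⊓ K ≤ 𝐂[H] := by
        intro x hx
        rw [Subgroup.mem_centralizer_iff]
        intro h hh
        have h1 : x * h * x⁻¹ * h⁻¹ ∈ H :=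
          mul_mem (conj_mem_of_mem_normalizer hx.1 hh) (inv_mem hh)
        have h2 : x * h * x⁻¹ * h⁻¹ ∈ K := by
          have := mul_mem hx.2 (hn.conj_mem _ (inv_mem hx.2) h)
          simpa [mul_assoc] using this
        have h3 : x * h * x⁻¹ * h⁻¹ = 1 := by
          rw [← orderOf_eq_one_iff]
          by_contra hne
          obtain ⟨r, hr, hrd⟩ := Nat.exists_prime_and_dvd hne
          exact hH r hr (hrd.trans (H.orderOf_dvd_natCard h1)) ((hK' _).1 h2 r hr hrd)
        rw [mul_inv_eq_one, mul_inv_eq_iff_eq_mul] at h3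
        exact h3.symm
      have h4 := hd.trans (Subgroup.relIndex_dvd_of_le_left 𝐍[H] hle)
      rw [Subgroup.inf_relIndex_left] at h4
      exact hidx p hp (h4.trans (Subgroup.relIndex_dvd_index_of_normal _ _)) hpπ
  · rintro ⟨⟨n, H, h0, hl, hmono, hnorm, hstep⟩, hhom⟩
    have hw := weakHom_of_hom hhom
    have key : ∀ i : Fin (n + 1), PiClosed π (H i) := by
      intro i
      induction i using Fin.induction with
      | zero =>
        refine piClosed_of_card (Or.inl fun q hq hd => ?_)
        rw [h0, Subgroup.card_bot, Nat.dvd_one] at hd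
        exact absurd hd hq.ne_one
      | succ i ih =>
        have hle : H i.castSucc ≤ H i.succ := hmono (Fin.castSucc_le_succ i)
        haveI := hnorm i.castSucc
        refine piClosed_of_weakHom (hw.subgroup _) ((H i.castSucc).subgroupOf (H i.succ)) ?_ ?_
        · exact ih.of_injective (Subgroup.subgroupOfEquivOfLe hle).toMonoidHom
            (MulEquiv.injective _)
        · exact piClosed_of_card (hstep i)
    have := key (Fin.last n)
    rw [hl] at this
    exact this.of_injective Subgroup.topEquiv.symm.toMonoidHom (MulEquiv.injective _)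

end Cfsg.Agent.S4050
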