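import Cfsg.Statements.S4052
import Mathlib
import Cfsg.Agent.FGS.PiFusion
import Cfsg.Agent.S0877

set_option autoImplicit false
open Cfsg

namespace Cfsg.Agent.S4052

open PLocal.Amb

/-- Let π be a set of primes and G a finite group whose maximal π-subgroups are pairwise conjugate (so Hall π-subgroups exist, any two are conjugate, and every π-subgroup lies in one of them), and suppose N_G(H)/C_G(H) is a π-group for every nontrivial π-subgroup H. If either 3 does not divide the order of G, or the π'-elements of every proper subgroup of G form a subgroup, then the π'-elements of G form a subgroup. -/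
theorem result {G : Type*} [Group G] [Finite G] (π : Set ℕ)
    (hπ : ∀ p ∈ π, p.Prime) (hD : Cfsg.IsDPiGroup π G) (hhom : (∀ H : Subgroup G, H ≠ ⊥ → (∀ p : ℕ, p.Prime → p ∣ Nat.card ↥H → p ∈ π) →
        ∀ p : ℕ, p.Prime → p ∣ (Subgroup.centralizer (H : Set G)).relIndex (Subgroup.normalizer (H : Set G)) → p ∈ π))
    (hcase : ¬ 3 ∣ Nat.card G ∨ ∀ M : Subgroup G, M ≠ ⊤ →
      ∃ L : Subgroup ↥M, ∀ x : ↥M, x ∈ L ↔ ∀ p : ℕ, p.Prime → p ∣ orderOf x → p ∉ π) :
    (∃ K : Subgroup G, ∀ x : G, x ∈ K ↔ ∀ p : ℕ, p.Prime → p ∣ orderOf x → p ∉ π) := by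
  have hW : ∀ Q : Subgroup G, IsPiSubgroup π Q → ∀ q : ℕ, q.Prime → q ∉ π →
      ∀ y ∈ 𝐍[Q], (∃ k, y ^ q ^ k = 1) → y ∈ 𝐂[Q] := by
    rintro Q hQ q hq hqπ y hy ⟨k, hk⟩
    by_cases hQ1 : Q = ⊥
    · subst hQ1
      intro z hz
      rw [SetLike.mem_coe, Subgroup.mem_bot] at hz
      simp [hz]
    have hn := normal_subgroupOf' (normalizer_le_normalizer_centralizer Q)
    have h1 : (⟨y, hy⟩ : 𝐍[Q]) ^ (𝐂[Q].subgroupOf 𝐍[Q]).index ∈ 𝐂[Q].subgroupOf 𝐍[Q] :=
      Subgroup.pow_index_mem _ _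
    refine mem_of_pow_mem_of_coprime (n := (𝐂[Q]).relIndex 𝐍[Q]) h1 ?_
    refine Nat.Coprime.coprime_dvd_left (orderOf_dvd_of_pow_eq_one hk) (Nat.Coprime.pow_left _ ?_)
    exact (Nat.Prime.coprime_iff_not_dvd hq).2 (fun h => hqπ (hhom Q hQ1 hQ q hq h))
  have hmax : ∀ K : Subgroup G, IsPiSubgroup π K → ∃ M, K ≤ M ∧ Maximal (IsPiSubgroup π) M :=
    fun K hK => Finite.exists_le_maximal hK
  obtain ⟨H, -, hH⟩ := hmax ⊥ (fun p hp h => by
    rw [Subgroup.card_bot, Nat.dvd_one] at h; exact absurd h hp.ne_one)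
  have hD' : ∀ K : Subgroup G, IsPiSubgroup π K → K ≤ ⊤ → ∃ g ∈ (⊤ : Subgroup G), K ≤ cj(g, H) := by
    intro K hK _
    obtain ⟨M, hKM, hM⟩ := hmax K hK
    obtain ⟨g, hg⟩ := hD H M hH hM
    exact ⟨g, trivial, hg ▸ hKM⟩
  have hidx : ∀ p : ℕ, p.Prime → p ∈ π → ¬ p ∣ H.index := by
    intro p hp hpπ hd
    have := Fact.mk hp
    obtain ⟨P⟩ : Nonempty (Sylow p G) := inferInstance
    obtain ⟨g, -, hg⟩ := hD' P (FGS.isPiSubgroup_of_isPGroup hpπ P.isPGroup') le_top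
    apply (g⁻¹ • P).not_dvd_index
    refine hd.trans (Subgroup.index_dvd_of_le ?_)
    rw [coe_smul_sylow]; exact le_cj_iff.1 hg
  have hHall : (Nat.card H).Coprime H.index :=
    Nat.coprime_of_dvd fun p hp h1 h2 => hidx p hp (hH.prop p hp h1) h2
  obtain ⟨K, hKn, hsup, hinf⟩ := S0877.result H hHall (by
      intro x hx y hy hxy
      obtain ⟨g, rfl⟩ := isConj_iff.1 hxy
      obtain ⟨c, hc, h, hh, e⟩ := FGS.pi_fusion_elem hW x hH.prop hD' trivial 1 trivial g⁻¹ trivial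
        (by rw [cj_one]; exact hx) (by rw [mem_cj]; simpa using hy)
      refine ⟨h⁻¹, H.inv_mem hh.2, ?_⟩
      have hc' := Subgroup.mem_centralizer_singleton_iff.1 hc.2
      have : g = h⁻¹ * c⁻¹ := by rw [← inv_inv g, e]; group
      rw [this]
      calc h⁻¹ * x * h⁻¹⁻¹ = h⁻¹ * c⁻¹ * (c * x) * h := by group
        _ = h⁻¹ * c⁻¹ * (x * c) * h := by rw [hc']
        _ = _ := by group)
    (by
      intro E p _ _ hE
      obtain ⟨g, -, hg⟩ := hD' E (fun q hq hd => hH.prop q hq (hd.trans hE)) le_top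
      exact ⟨g⁻¹, le_cj_iff.1 hg⟩)
  have hc : K.IsComplement' H := Grp.isComplement'_of_sup_eq_top hinf hsup
  refine ⟨K, fun x => ⟨fun hx p hp hd hpπ => ?_, fun hx => ?_⟩⟩
  · exact hidx p hp hpπ (hc.index_eq_card ▸ hd.trans (Subgroup.orderOf_dvd_natCard K hx))
  · have : Subgroup.zpowers x ≤ K := by
      apply Grp.le_normal_of_coprime_card_index
      rw [Nat.card_zpowers, hc.symm.index_eq_card]
      exact Nat.coprime_of_dvd fun p hp h1 h2 => hx p hp h1 (hH.prop p hp h2)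
    exact this (Subgroup.mem_zpowers x)

end Cfsg.Agent.S4052
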