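import Cfsg.Statements.S4057
import Cfsg.Agent.Grp.Patterson
import Cfsg.Agent.Grp.PCentral
import Cfsg.Agent.PLocal.ElemAb
import Cfsg.Agent.S0130

set_option autoImplicit false
open Cfsg

namespace Cfsg.Agent.S4057

/-- Let p be an odd prime and P a finite p-group in which every normal abelian subgroup can be generated by k elements. Then every subgroup of P can be generated by at most ⌊k(k+4)/4⌋ elements. -/
theorem result {P : Type*} [Group P] [Finite P] {p : ℕ} [Fact p.Prime]
    (hp : p ≠ 2) (hP : IsPGroup p P) (k : ℕ)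
    (hab : ∀ A : Subgroup P, A.Normal → IsMulCommutative A → ∃ S : Finset P, S.card ≤ k ∧ Subgroup.closure (S : Set P) = A) :
    ∀ H : Subgroup P, ∃ S : Finset P, S.card ≤ k * (k + 4) / 4 ∧ Subgroup.closure (S : Set P) = H := by
  classical
  intro H
  have hpp : p.Prime := Fact.out
  have ho : Odd p := hpp.odd_of_ne_two hp
  obtain ⟨A, ⟨hAn, hA⟩, hm⟩ := Set.exists_max_image
    {A : Subgroup P | A.Normal ∧ IsElementaryAbelian p A} (fun A => Nat.card A) (Set.toFinite _)
    ⟨⊥, inferInstance, inferInstance, fun a ha => by rw [Subgroup.mem_bot.1 ha, one_pow]⟩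
  have hO : ∀ x ∈ Subgroup.centralizer (A : Set P), x ^ p = 1 → x ∈ A := fun x hx h =>
    S0130.result hP 1 (by rwa [pow_one]) A hA.1 (by simpa using hA.2)
      (fun B h1 h2 h3 h4 => (Subgroup.eq_of_le_of_card_ge h4
        (hm B ⟨h1, h2, by simpa using h3⟩)).symm) x hx (by rwa [pow_one])
  have hH : H ≤ Subgroup.normalizer (A : Set P) := by
    rw [Subgroup.normalizer_eq_top]; exact le_top
  -- the rank of `A`
  have hAk : Nat.card A ≤ p ^ k := by
    obtain ⟨S, s1, s2⟩ := hab A hAn hA.1
    have hS : ∀ x ∈ S, x ∈ A := fun x hx => s2 ▸ Subgroup.subset_closure hx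
    have := hA.1
    obtain ⟨T, t1, t2, t3⟩ := Grp.exists_subset_card_map_closure_eq hpp (MonoidHom.id A)
      (fun x y => mul_comm' x y) (fun x => Subtype.ext (hA.2 x x.2)) (S.subtype (· ∈ A))
    have e : Subgroup.closure ((S.subtype (· ∈ A) : Finset A) : Set A) = ⊤ := by
      apply Subgroup.map_injective A.subtype_injective
      rw [MonoidHom.map_closure, ← MonoidHom.range_eq_map, Subgroup.range_subtype]
      refine Eq.trans ?_ s2
      congr 1
      ext x
      constructor
      · rintro ⟨y, hy, rfl⟩
        simpa using hy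
      · intro hx
        exact ⟨⟨x, hS x hx⟩, by simpa using hx, rfl⟩
    rw [t2, e, Subgroup.map_id, Subgroup.card_top] at t3
    rw [t3]
    refine Nat.pow_le_pow_right hpp.pos ((Finset.card_le_card t1).trans ?_)
    rw [Finset.card_subtype]
    exact (Finset.card_filter_le _ _).trans s1
  have hr : Module.finrank (ZMod p) (PLocal.EA hA) ≤ k := by
    rw [PLocal.EA.card_eq_pow_finrank hA] at hAk
    exact (Nat.pow_le_pow_iff_right hpp.one_lt).1 hAk
  have : Finite (PLocal.EA hA) := Finite.of_equiv _ (PLocal.EA.equivV hA).symm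
  obtain ⟨S, s1, s2⟩ := Grp.Patterson.patterson (hP.to_subgroup H) (PLocal.EA.rep hA H hH)
  rw [PLocal.EA.ker_rep] at s2
  set K := (Subgroup.centralizer (A : Set P)).subgroupOf H with hK
  have hA' : ∀ x : K, x ^ p = 1 → ((x : H) : P) ∈ A := fun x hx =>
    hO _ x.2 (by simpa using congrArg (fun y : K => ((y : H) : P)) hx)
  have pc : Grp.PCentral.PC p K := fun x hx => Subgroup.mem_center_iff.2 fun g =>
    Subtype.ext (Subtype.ext ((g.2 : ((g : H) : P) ∈ Subgroup.centralizer (A : Set P)) _
      (hA' x hx)).symm)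
  obtain ⟨T, t1, t2⟩ := Grp.PCentral.gen ho ((hP.to_subgroup H).to_subgroup K) pc (k := k)
    (le_trans (Nat.card_le_card_of_injective (fun x => (⟨_, hA' x x.2⟩ : A)) fun x y h =>
      Subtype.ext (Subtype.ext (Subtype.ext (congrArg (fun a : A => (a : P)) h)))) hAk)
  have e : Subgroup.closure ((T.image Subtype.val : Finset H) : Set H) = K := by
    rw [Finset.coe_image]
    have := MonoidHom.map_closure K.subtype (T : Set K)
    rw [t2, ← MonoidHom.range_eq_map, Subgroup.range_subtype] at this
    exact this.symm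
  rw [← e, ← Subgroup.closure_union, ← Finset.coe_union] at s2
  refine ⟨(S ∪ T.image Subtype.val).image Subtype.val, ?_, ?_⟩
  · have h1 := Finset.card_image_le (s := S ∪ T.image Subtype.val) (f := Subtype.val)
    have h2 := Finset.card_union_le S (T.image Subtype.val)
    have h3 := Finset.card_image_le (s := T) (f := Subtype.val)
    have h4 := Nat.div_le_div_right (c := 4) (Nat.mul_le_mul hr hr)
    have h5 : k * (k + 4) / 4 = k * k / 4 + k := by
      rw [mul_add, Nat.add_mul_div_right _ _ (by norm_num)]
    omega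
  · rw [Finset.coe_image]
    have := MonoidHom.map_closure H.subtype ((S ∪ T.image Subtype.val : Finset H) : Set H)
    rw [s2, ← MonoidHom.range_eq_map, Subgroup.range_subtype] at this
    exact this.symm

end Cfsg.Agent.S4057
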