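import Cfsg.Statements.S4066
import Mathlib
import Cfsg.Agent.FGS.TIHall
import Cfsg.Agent.S0199
import Cfsg.Agent.PLocal.AmbSyl

set_option autoImplicit false
open Cfsg

namespace Cfsg.Agent.S4066

open PLocal.Amb Cfsg.Agent.FGS

theorem commute_conj {G : Type*} [Group G]
    (hTI : ∀ x : G, Cfsg.IsTISubset (Subgroup.centralizer ({x} : Set G) : Set G))
    {z x h : G} (hz : z ≠ 1) (hx : x ∈ Subgroup.centralizer ({z} : Set G))
    (hh : h ∈ Subgroup.centralizer ({z} : Set G)) : Commute x (h * x * h⁻¹) := by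
  have h1 : z ∈ Subgroup.centralizer ({x} : Set G) :=
    Subgroup.mem_centralizer_singleton_iff.2 (Subgroup.mem_centralizer_singleton_iff.1 hx).symm
  have h2 := ti_mem_normalizer (hTI x) h1 hz (g := h) (by
    rw [Subgroup.mem_centralizer_singleton_iff.1 hh, mul_inv_cancel_right]; exact h1)
  exact (Subgroup.mem_centralizer_singleton_iff.1 (conj_mem_of_mem_normalizer h2
    (Subgroup.mem_centralizer_singleton_iff.2 rfl))).symm

theorem mem_pCoreOf {G : Type*} [Group G] [Finite G]
    (hTI : ∀ x : G, Cfsg.IsTISubset (Subgroup.centralizer ({x} : Set G) : Set G))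
    {p : ℕ} [Fact p.Prime] {z x : G} (hz : z ≠ 1) (hx : x ∈ Subgroup.centralizer ({z} : Set G))
    (hp : ∃ k, x ^ p ^ k = 1) : x ∈ pCoreOf p (Subgroup.centralizer ({z} : Set G)) := by
  have h0 : IsPGroup p (Subgroup.zpowers (⟨x, hx⟩ : Subgroup.centralizer ({z} : Set G))) :=
    isPGroup_zpowers (hp.imp fun k hk => Subtype.ext hk)
  obtain ⟨N, hN, hNp, hle⟩ := S0199.result _ h0 fun g => by
    refine isPGroup_sup h0 (isPGroup_cj g h0) (le_trans ?_ (centralizer_le_normalizer' _))
    rw [MonoidHom.map_zpowers, centralizer_zpowers, Subgroup.zpowers_le,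
      Subgroup.mem_centralizer_singleton_iff]
    exact Subtype.ext (commute_conj hTI hz hx g.2).eq
  exact ⟨_, le_pCore' hNp (hle (Subgroup.mem_zpowers _)), rfl⟩

/-- Let G be a finite group in which the centralizer of every element meets each of its conjugates by elements outside its normalizer trivially. Then any two distinct Sylow p-subgroups of G, for any prime p, intersect trivially. -/
theorem result {G : Type*} [Group G] [Finite G] (hTI : ∀ x : G, Cfsg.IsTISubset (Subgroup.centralizer ({x} : Set G) : Set G))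
    {p : ℕ} [Fact p.Prime] (P Q : Sylow p G) (hPQ : P ≠ Q) : (P : Subgroup G) ⊓ (Q : Subgroup G) = ⊥ := by
  by_contra hne
  obtain ⟨⟨y, hyP, hyQ⟩, hy1⟩ := Subgroup.ne_bot_iff_exists_ne_one.1 hne
  have hy1' : y ≠ 1 := fun h => hy1 (Subtype.ext h)
  have hP : (P : Subgroup G) ≠ ⊥ := fun h => hne (by rw [h, bot_inf_eq])
  obtain ⟨⟨z, hzP, hzC⟩, hz1⟩ := Subgroup.ne_bot_iff_exists_ne_one.1
    (inf_centralizer_ne_bot P.isPGroup' P.isPGroup' Subgroup.le_normalizer hP)
  have hz1' : z ≠ 1 := fun h => hz1 (Subtype.ext h)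
  have hPC : (P : Subgroup G) ≤ Subgroup.centralizer ({z} : Set G) := fun a ha =>
    Subgroup.mem_centralizer_singleton_iff.2 (Subgroup.mem_centralizer_iff.1 hzC a ha)
  have hcore : pCoreOf p (Subgroup.centralizer ({z} : Set G)) = P :=
    le_antisymm (isSyl_of_le P hPC).pCoreOf_le fun a ha =>
      mem_pCoreOf hTI hz1' (hPC ha) (isPGroup_iff.1 P.isPGroup' a ha)
  obtain ⟨g, hg⟩ := MulAction.exists_smul_eq G Q P
  have h1 : g * y * g⁻¹ ∈ (P : Subgroup G) := by
    rw [← hg, coe_smul_sylow]; exact conj_mem_cj g hyQ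
  have h2 := ti_mem_normalizer (hTI z) (hPC hyP) hy1' (hPC h1)
  have h3 := normalizer_le_normalizer_pCoreOf p _ h2
  rw [hcore] at h3
  apply hPQ
  have h4 : g⁻¹ • P = P := Sylow.smul_eq_iff_mem_normalizer.2 (inv_mem h3)
  rw [← h4, ← hg, inv_smul_smul]

end Cfsg.Agent.S4066
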