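import Cfsg.Statements.S4067
import Mathlib
import Cfsg.Agent.PLocal.AmbSyl
import Cfsg.Agent.FGS.ActTools
import Cfsg.Agent.Char.Degrees
import Cfsg.Agent.S0154
import Cfsg.Agent.Grp.CommPow
import Cfsg.Agent.FGS.ClassSize
import Cfsg.Agent.Grp.CardProduct
import Cfsg.Agent.FGS.RankBound

set_option autoImplicit false
open Cfsg

namespace Cfsg.Agent.S4067

open Subgroup Cfsg.Agent.PLocal.Amb Cfsg.Agent.Grp
open scoped commutatorElement

theorem exists_aut {G : Type*} [Group G] [Finite G] {p : ℕ} (hp : p.Prime) {N : Subgroup G}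
    [hN : N.Normal] {t s : G} (ht : t ∉ N) (hs : s ∉ N) (htp : t ^ p ∈ N) (hst : s ^ p = t ^ p)
    (hgen : ∀ g : G, ∃ k : ℤ, g * t ^ (-k) ∈ N) (hc : ∀ n ∈ N, s * n * s⁻¹ = t * n * t⁻¹) :
    ∃ φ : MulAut G, (∀ n ∈ N, φ n = n) ∧ φ t = s := by
  choose i hi using hgen
  have hdvd : ∀ k : ℤ, (p : ℤ) ∣ k → s ^ k = t ^ k := by
    rintro _ ⟨m, rfl⟩
    rw [zpow_mul, zpow_mul, zpow_natCast, zpow_natCast, hst]
  have key : ∀ n ∈ N, ∀ k : ℤ, n * t ^ k * t ^ (-i (n * t ^ k)) * s ^ i (n * t ^ k) = n * s ^ k := by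
    intro n hn k
    have h1 := hi (n * t ^ k)
    rw [mul_assoc n, N.mul_mem_cancel_left hn, ← zpow_add] at h1
    have h2 : (p : ℤ) ∣ k + -i (n * t ^ k) := by
      by_contra h
      exact ht (FGS.mem_of_zpow_mem_of_not_dvd hp htp h h1)
    rw [mul_assoc n, ← zpow_add, ← hdvd _ h2, mul_assoc, ← zpow_add]
    simp
  have hcz : ∀ k : ℤ, ∀ n ∈ N, s ^ k * n * s ^ (-k) = t ^ k * n * t ^ (-k) := by
    have h1 : ∀ k : ℕ, ∀ n ∈ N, s ^ k * n * (s ^ k)⁻¹ = t ^ k * n * (t ^ k)⁻¹ := by
      intro k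
      induction k with
      | zero => simp
      | succ k ih =>
        intro n hn
        calc s ^ (k + 1) * n * (s ^ (k + 1))⁻¹ = s * (s ^ k * n * (s ^ k)⁻¹) * s⁻¹ := by group
          _ = t * (t ^ k * n * (t ^ k)⁻¹) * t⁻¹ := by
            rw [ih n hn, hc _ (hN.conj_mem _ hn _)]
          _ = _ := by group
    intro k n hn
    obtain ⟨m, rfl | rfl⟩ := k.eq_nat_or_neg
    · simpa using h1 m n hn
    · have h2 := h1 m _ (hN.conj_mem _ hn (t ^ m)⁻¹)
      simp only [zpow_neg, zpow_natCast, inv_inv] at h2 ⊢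
      calc (s ^ m)⁻¹ * n * s ^ m
          = (s ^ m)⁻¹ * (t ^ m * ((t ^ m)⁻¹ * n * t ^ m) * (t ^ m)⁻¹) * s ^ m := by group
        _ = _ := by rw [← h2]; group
  have hdec : ∀ g : G, ∃ n ∈ N, ∃ k : ℤ, g = n * t ^ k := fun g =>
    ⟨_, hi g, i g, by group⟩
  let f : G →* G := MonoidHom.mk' (fun g => g * t ^ (-i g) * s ^ i g) fun g h => by
    obtain ⟨n, hn, k, rfl⟩ := hdec g
    obtain ⟨m, hm, l, rfl⟩ := hdec h
    have h1 : n * t ^ k * (m * t ^ l) = n * (t ^ k * m * t ^ (-k)) * t ^ (k + l) := by group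
    have h2 : t ^ k * m * t ^ (-k) ∈ N := by rw [zpow_neg]; exact hN.conj_mem _ hm _
    rw [key n hn, key m hm, h1, key _ (N.mul_mem hn h2), ← hcz k m hm]
    group
  have hf : ∀ n ∈ N, ∀ k : ℤ, f (n * t ^ k) = n * s ^ k := key
  have hinj : Function.Injective f := by
    rw [injective_iff_map_eq_one]
    intro g hg
    obtain ⟨n, hn, k, rfl⟩ := hdec g
    rw [hf n hn] at hg
    have h1 : s ^ k ∈ N := by
      rw [eq_inv_of_mul_eq_one_right hg]; exact N.inv_mem hn
    have h2 : (p : ℤ) ∣ k := by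
      by_contra h
      exact hs (FGS.mem_of_zpow_mem_of_not_dvd hp (hst ▸ htp) h h1)
    rwa [← hdvd k h2]
  refine ⟨MulEquiv.ofBijective f (Finite.injective_iff_bijective.1 hinj), fun n hn => ?_, ?_⟩
  · simpa using hf n hn 0
  · simpa using hf 1 N.one_mem 1

theorem card_quot_mul_le {Γ X : Type*} [Group Γ] [MulAction Γ X] [Fintype X] (w : X → ℕ) (N : ℕ)
    (h : ∀ x, N ≤ w x * Nat.card (MulAction.orbit Γ x)) :
    Nat.card (MulAction.orbitRel.Quotient Γ X) * N ≤ ∑ x, w x := by
  classical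
  haveI := Fintype.ofFinite (MulAction.orbitRel.Quotient Γ X)
  rw [← Finset.sum_fiberwise Finset.univ
    (fun x : X => (Quotient.mk'' x : MulAction.orbitRel.Quotient Γ X)), Nat.card_eq_fintype_card,
    ← Finset.card_univ, ← smul_eq_mul, ← Finset.sum_const]
  refine Finset.sum_le_sum fun ω _ => ?_
  obtain ⟨x, hx, hmin⟩ := Finset.exists_min_image
    (Finset.univ.filter fun x : X => (Quotient.mk'' x : MulAction.orbitRel.Quotient Γ X) = ω) w
    ⟨ω.out, by simp⟩
  refine (h x).trans (le_trans (le_of_eq ?_) (Finset.card_nsmul_le_sum _ _ _ hmin))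
  rw [smul_eq_mul, mul_comm]
  congr 1
  rw [← Fintype.card_subtype, Fintype.card_eq_nat_card]
  refine Nat.card_congr (Equiv.subtypeEquivRight fun y => ?_)
  rw [← (Finset.mem_filter.1 hx).2, Quotient.eq'']
  rfl

theorem big {G : Type*} [Group G] [Finite G] (h : (Nat.card G).minFac < Nat.card (commutator G)) :
    Nat.card (ConjClasses G) * (Nat.card G).minFac ≤ Nat.card G := by
  classical
  set p := (Nat.card G).minFac with hp
  have h1 : ∑ χ : IrrCharacter G, (if χ.1 1 = 1 then 1 else p ^ 2) ≤ Nat.card G := by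
    rw [← Char.sum_charDegree_sq]
    refine Finset.sum_le_sum fun χ _ => ?_
    have h0 := Char.charDegree_pos_of_isIrr χ.2
    split_ifs with h1
    · exact Nat.one_le_pow _ _ h0
    · refine Nat.pow_le_pow_left (Nat.minFac_le_of_dvd ?_ (Char.charDegree_irr_dvd_card χ)) 2
      have := mt (Char.charDegree_eq_one_iff (Char.Cfsg.IsIrrCharacter.isCharacter χ.2)).1 h1
      omega
  rw [Finset.sum_ite, Finset.sum_const, Finset.sum_const, smul_eq_mul, smul_eq_mul, mul_one] at h1
  have h2 := Finset.card_filter_add_card_filter_not (s := Finset.univ)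
    (fun χ : IrrCharacter G => χ.1 1 = 1)
  rw [Finset.card_univ, Fintype.card_eq_nat_card, Char.card_irr] at h2
  have h3 : (Finset.univ.filter fun χ : IrrCharacter G => χ.1 1 = 1).card = (commutator G).index := by
    rw [← S0154.result, Nat.card_eq_fintype_card, Fintype.card_subtype]
  rw [h3] at h1 h2
  have h4 := (commutator G).card_mul_index
  have h5 : 0 < p := Nat.minFac_pos _
  rw [← h2]
  generalize (Finset.univ.filter fun χ : IrrCharacter G => ¬ χ.1 1 = 1).card = m at *
  generalize (commutator G).index = L at *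
  generalize Nat.card (commutator G) = c at *
  generalize Nat.card G = n at *
  refine Nat.le_of_mul_le_mul_left ?_ h5
  clear_value p
  obtain ⟨q, rfl⟩ := Nat.exists_eq_add_of_le' h5
  have h6 : (q + 2) * L ≤ n := h4 ▸ Nat.mul_le_mul_right _ h
  nlinarith [Nat.mul_le_mul_left q h6]

theorem index_ge {G : Type*} [Group G] [Finite G] {H K : Subgroup G} (h : H < K) :
    (Nat.card G).minFac * Nat.card H ≤ Nat.card K := by
  rw [← card_mul_relIndex_of_le h.le, mul_comm]
  refine Nat.mul_le_mul_left _ (Nat.minFac_le_of_dvd ?_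
    ((relIndex_dvd_card H K).trans (card_subgroup_dvd_card K)))
  have h1 : H.relIndex K ≠ 1 := fun hh => h.not_ge (relIndex_eq_one.1 hh)
  have h2 : H.relIndex K ≠ 0 := (H.subgroupOf K).index_ne_zero_of_finite
  omega

theorem class_ge {G : Type*} [Group G] [Finite G] {x : G} (h : x ∉ center G) :
    (Nat.card G).minFac ≤ (centralizer ({x} : Set G)).index := by
  refine Nat.minFac_le_of_dvd ?_ (index_dvd_card _)
  have h1 : (centralizer ({x} : Set G)).index ≠ 1 := fun hh => h (mem_center_iff.2 fun g =>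
    mem_centralizer_singleton_iff.1 (index_eq_one.1 hh ▸ mem_top g))
  have h2 : (centralizer ({x} : Set G)).index ≠ 0 := index_ne_zero_of_finite
  omega

theorem small {G : Type*} [Group G] [Finite G] (hna : ¬ IsMulCommutative G) {p : ℕ}
    (hpd : p = (Nat.card G).minFac) (h : Nat.card (commutator G) ≤ p) :
    Nat.card (MulAction.orbitRel.Quotient (MulAut G) G) * p ≤ Nat.card G := by
  classical
  obtain ⟨x, y, hxy⟩ : ∃ x y : G, ⁅x, y⁆ ≠ 1 := by
    by_contra hh
    push Not at hh
    exact hna ⟨⟨fun a b => commutatorElement_eq_one_iff_mul_comm.1 (hh a b)⟩⟩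
  have hmem : ∀ a b : G, ⁅a, b⁆ ∈ commutator G := fun a b =>
    commutator_mem_commutator (mem_top a) (mem_top b)
  have hc : Nat.card (commutator G) = p := by
    refine le_antisymm h ?_
    have := index_ge (bot_lt_iff_ne_bot.2 fun hh : commutator G = ⊥ => hxy
      (mem_bot.1 (hh ▸ hmem x y)))
    rwa [card_bot, mul_one, ← hpd] at this
  have hp : p.Prime := hpd ▸ Nat.minFac_prime fun hh => hxy (by
    haveI := (Nat.card_eq_one_iff_unique.1 hh).1; exact Subsingleton.elim _ _)
  haveI := Fact.mk hp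
  have hZ : commutator G ≤ center G := by
    intro c hc'
    by_contra hn
    have h1 := class_ge hn
    rw [← hpd, ← FGS.ncard_setOf_isConj, ← hc] at h1
    refine absurd h1 (not_le.2 (Set.ncard_lt_ncard (t := (commutator G : Set G)) ⟨?_, fun hh => ?_⟩))
    · intro d hd
      obtain ⟨g, rfl⟩ := isConj_iff.1 hd
      exact Normal.conj_mem inferInstance _ hc' g
    · exact hn (isConj_one_left.1 (hh (one_mem _)) ▸ one_mem _)
  have hcm : ∀ a b c : G, Commute ⁅a, b⁆ c := fun a b c => (mem_center_iff.1 (hZ (hmem a b)) c).symm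
  have hcp : ∀ c ∈ commutator G, c ^ p = 1 := fun c hc' =>
    congrArg Subtype.val (hc ▸ pow_card_eq_one' (x := (⟨c, hc'⟩ : commutator G)))
  have hpZ : ∀ g : G, g ^ p ∈ center G := fun g => mem_center_iff.2 fun a =>
    (commutatorElement_eq_one_iff_mul_comm.1 (by
      rw [CommPow.commutator_pow_left (hcm _ _ _), hcp _ (hmem _ _)])).symm
  obtain ⟨a, t, b, hat, hb1, hb2, hb3, hb4⟩ : ∃ a t b : G, ⁅a, t⁆ ≠ 1 ∧
      b ∈ centralizer ({a} : Set G) ∧ b ∈ 𝐂[centralizer ({a} : Set G)] ∧ (t * b) ^ p = t ^ p ∧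
      b ∉ commutator G := by
    by_cases h1 : ∃ z ∈ center G, z ^ p = 1 ∧ z ∉ commutator G
    · obtain ⟨z, hz, hz1, hz2⟩ := h1
      refine ⟨x, y, z, hxy, center_le_centralizer _ hz, center_le_centralizer _ hz, ?_, hz2⟩
      rw [(show Commute y z from mem_center_iff.1 hz y).mul_pow, hz1, mul_one]
    push Not at h1
    let π : center G →* center G := MonoidHom.mk' (fun z => z ^ p) fun u v =>
      Commute.mul_pow (Subtype.ext (mem_center_iff.1 v.2 u)) p
    have h2 : π.range.index ≤ p := by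
      rw [index_range, ← hc]
      exact Nat.card_le_card_of_injective (fun z => ⟨z.1.1, h1 _ z.1.2 (congrArg Subtype.val z.2)⟩)
        fun u v huv => Subtype.ext (Subtype.ext (congrArg Subtype.val huv :))
    let v : Option (Fin p) → G := fun o => o.elim y fun i => x * y ^ (i : ℕ)
    have hv : ∀ i j, i ≠ j → ⁅v i, v j⁆ ≠ 1 := by
      have h3 : ∀ i : ℕ, ⁅x * y ^ i, y⁆ = ⁅x, y⁆ := fun i => by
        rw [CommPow.commutator_mul_left (hcm _ _ _) (hcm _ _ _),
          commutatorElement_eq_one_iff_commute.2 (Commute.pow_self y i), mul_one]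
      have h4 : ∀ i j : Fin p, i < j → ⁅x * y ^ (i : ℕ), x * y ^ (j : ℕ)⁆ ≠ 1 := by
        intro i j hij hh
        obtain ⟨k, hk⟩ := Nat.exists_eq_add_of_lt (show (i : ℕ) < j from hij)
        rw [hk, add_assoc, pow_add, ← mul_assoc, CommPow.commutator_mul_right (hcm _ _ _),
          commutatorElement_self, one_mul, CommPow.commutator_pow_right (hcm _ _ _), h3,
          ← orderOf_dvd_iff_pow_eq_one, orderOf_eq_prime (hcp _ (hmem x y)) hxy] at hh
        have := Nat.le_of_dvd (Nat.succ_pos k) hh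
        have := j.2
        omega
      rintro (_ | i) (_ | j) hij
      · exact absurd rfl hij
      · change ⁅y, x * y ^ (j : ℕ)⁆ ≠ 1
        rw [← commutatorElement_inv, h3]; exact inv_ne_one.2 hxy
      · change ⁅x * y ^ (i : ℕ), y⁆ ≠ 1
        rwa [h3]
      · rcases lt_or_gt_of_ne (fun hh : i = j => hij (congrArg some hh)) with h5 | h5
        · exact h4 i j h5
        · rw [← commutatorElement_inv]; exact inv_ne_one.2 (h4 j i h5)
    haveI := Fintype.ofFinite (center G ⧸ π.range)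
    obtain ⟨i, j, hij, he⟩ := Fintype.exists_ne_map_eq_of_card_lt
      (fun o : Option (Fin p) => ((⟨v o ^ p, hpZ _⟩ : center G) : center G ⧸ π.range)) (by
        rw [Fintype.card_option, Fintype.card_fin, Fintype.card_eq_nat_card]
        exact Nat.lt_succ_of_le h2)
    obtain ⟨z, hz⟩ := QuotientGroup.eq.1 he
    have hz' : (z : G) ^ p = (v i ^ p)⁻¹ * v j ^ p := congrArg Subtype.val hz
    have h5 : ⁅(v i)⁻¹ * (v j * (z : G)⁻¹), v i⁆ ≠ 1 := by
      intro hh
      refine hv j i hij.symm (commutatorElement_eq_one_iff_commute.2 ?_)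
      have h6 := (Commute.refl (v i)).mul_left (commutatorElement_eq_one_iff_commute.1 hh)
      have h7 := h6.mul_left (show Commute (z : G) (v i) from (mem_center_iff.1 z.2 _).symm)
      simpa using h7
    refine ⟨_, v i, _, h5, mem_centralizer_singleton_iff.2 rfl,
      mem_centralizer_iff.2 fun g hg => mem_centralizer_singleton_iff.1 hg, ?_, fun hh => h5
        (commutatorElement_eq_one_iff_mul_comm.2 (mem_center_iff.1 (hZ hh) _).symm)⟩
    rw [mul_inv_cancel_left, (show Commute (v j) (z : G)⁻¹ from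
      mem_center_iff.1 (inv_mem z.2) _).mul_pow, inv_pow, hz']
    group
  set C := centralizer ({a} : Set G) with hC
  have haZ : a ∉ center G := fun hh =>
    hat (commutatorElement_eq_one_iff_mul_comm.2 (mem_center_iff.1 hh _).symm)
  have htC : t ∉ C := fun hh =>
    hat (commutatorElement_eq_one_iff_mul_comm.2 (mem_centralizer_singleton_iff.1 hh).symm)
  have hZC : center G ≤ C := center_le_centralizer _
  haveI : C.Normal := ⟨fun n hn g => by
    have := C.mul_mem (hZC (hZ (hmem g n))) hn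
    simpa [commutatorElement_def] using this⟩
  have hCi : C.index = p := le_antisymm
    (hc ▸ FGS.RankBound.index_centralizer_singleton_le hmem a) (hpd ▸ class_ge haZ)
  have hgen : ∀ g : G, ∃ k : ℤ, g * t ^ (-k) ∈ C := by
    intro g
    obtain ⟨k, hk⟩ := mem_zpowers_of_prime_card (G := G ⧸ C) hCi (g := (t : G ⧸ C))
      (g' := (g : G ⧸ C)) fun hh => htC ((QuotientGroup.eq_one_iff t).1 hh)
    refine ⟨k, (QuotientGroup.eq_one_iff _).1 ?_⟩
    rw [QuotientGroup.mk_mul, QuotientGroup.mk_zpow, ← hk, zpow_neg, mul_inv_cancel]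
  have haut : ∀ u ∈ C, u ∈ 𝐂[C] → (t * u) ^ p = t ^ p →
      ∃ φ : MulAut G, (∀ n ∈ C, φ n = n) ∧ φ t = t * u := fun u h1 h2 h3 =>
    exists_aut hp htC (fun hh => htC ((C.mul_mem_cancel_right h1).1 hh)) (hZC (hpZ t)) h3 hgen
      fun n hn => by rw [mul_assoc t, ← mem_centralizer_iff.1 h2 n hn]; group
  let B : Subgroup G :=
    { carrier := {u | u ∈ C ∧ u ∈ 𝐂[C] ∧ (t * u) ^ p = t ^ p}
      one_mem' := ⟨one_mem _, one_mem _, by rw [mul_one]⟩
      mul_mem' := fun {u w} hu hw => ⟨mul_mem hu.1 hw.1, mul_mem hu.2.1 hw.2.1, by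
        obtain ⟨φ, h1, h2⟩ := haut u hu.1 hu.2.1 hu.2.2
        rw [← mul_assoc, ← h2, ← h1 w hw.1, ← map_mul, ← map_pow, hw.2.2, h1 _ (hZC (hpZ t))]⟩
      inv_mem' := fun {u} hu => ⟨inv_mem hu.1, inv_mem hu.2.1, by
        obtain ⟨φ, h1, h2⟩ := haut u hu.1 hu.2.1 hu.2.2
        apply φ.injective
        rw [map_pow, map_mul, h2, h1 _ (inv_mem hu.1), mul_inv_cancel_right, h1 _ (hZC (hpZ t))]⟩ }
  have hB : p ^ 2 ≤ Nat.card B := by
    have h1 : commutator G < B := by
      refine lt_of_le_of_ne (fun c hc' => ⟨hZC (hZ hc'), center_le_centralizer _ (hZ hc'), ?_⟩)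
        fun hh => hb4 (hh ▸ (⟨hb1, hb2, hb3⟩ : b ∈ B))
      rw [(show Commute t c from mem_center_iff.1 (hZ hc') t).mul_pow, hcp c hc', mul_one]
    have := index_ge h1
    rwa [hc, ← hpd, ← pow_two] at this
  have o1 : ∀ g : G, g ∉ center G → p ≤ Nat.card (MulAction.orbit (MulAut G) g) := by
    intro g hg
    refine (hpd ▸ class_ge hg).trans ?_
    rw [← FGS.ncard_setOf_isConj]
    refine Set.ncard_le_ncard fun d hd => ?_
    obtain ⟨c, rfl⟩ := isConj_iff.1 hd
    exact ⟨MulAut.conj c, rfl⟩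
  have o2 : ∀ g : G, g ∉ C → p ^ 2 ≤ Nat.card (MulAction.orbit (MulAut G) g) := by
    intro g hg
    choose φ h1 h2 using fun u : B => haut u u.2.1 u.2.2.1 u.2.2.2
    refine hB.trans (Nat.card_le_card_of_injective (fun u => ⟨φ u g, φ u, rfl⟩) fun u w huw => ?_)
    have h3 : φ u g = φ w g := congrArg Subtype.val huw
    have h4 : C < (φ u).toMonoidHom.eqLocus (φ w).toMonoidHom :=
      lt_of_le_of_ne (fun n hn => (h1 u n hn).trans (h1 w n hn).symm) fun hh => hg (hh ▸ h3)
    have h5 := index_ge h4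
    rw [← hpd, ← hCi, index_mul_card] at h5
    have h6 : t ∈ (φ u).toMonoidHom.eqLocus (φ w).toMonoidHom :=
      eq_top_of_le_card _ h5 ▸ mem_top t
    have h7 : φ u t = φ w t := h6
    rw [h2, h2] at h7
    exact Subtype.ext (mul_left_cancel h7)
  haveI := Fintype.ofFinite G
  obtain ⟨q, hq⟩ := Nat.exists_eq_add_of_le' hp.pos
  have key := card_quot_mul_le (Γ := MulAut G) (X := G)
    (fun g => 1 + (if g ∈ C then q else 0) + (if g ∈ center G then p * q else 0)) (p ^ 2) fun g => by
      by_cases h1 : g ∈ center G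
      · haveI : Nonempty (MulAction.orbit (MulAut G) g) := ⟨⟨g, MulAction.mem_orbit_self g⟩⟩
        rw [if_pos h1, if_pos (hZC h1)]
        exact le_trans (le_of_eq (by rw [hq]; ring)) (Nat.le_mul_of_pos_right _ Nat.card_pos)
      by_cases h2 : g ∈ C
      · rw [if_neg h1, if_pos h2, add_zero, add_comm, ← hq, pow_two]
        exact Nat.mul_le_mul_left _ (o1 g h1)
      · rw [if_neg h1, if_neg h2]
        simpa using o2 g h2
  simp only [Finset.sum_add_distrib, ← Finset.sum_filter, Finset.sum_const, smul_eq_mul, mul_one,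
    Finset.card_univ, ← Fintype.card_subtype, Fintype.card_eq_nat_card] at key
  have h8 := index_ge (lt_of_le_of_ne hZC fun hh => haZ (hh ▸ mem_centralizer_singleton_iff.2 rfl))
  have h9 := C.index_mul_card
  rw [← hpd] at h8
  rw [hCi] at h9
  refine Nat.le_of_mul_le_mul_right ?_ hp.pos
  rw [mul_assoc, ← pow_two]
  refine key.trans ?_
  change Nat.card G + Nat.card C * q + Nat.card (center G) * (p * q) ≤ _
  rw [← h9]
  have h10 := Nat.mul_le_mul_right q h8
  have h11 : 1 ≤ q := by have := hp.two_le; omega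
  subst hq
  nlinarith [Nat.mul_le_mul_left (Nat.card C * q) h11]

/-- Let G be a finite non-abelian group and p the least prime dividing its order. Then the automorphism group of G has at most #G/p orbits on G. -/
theorem result {G : Type*} [Group G] [Finite G] (hna : ¬ IsMulCommutative G) :
    Nat.card (MulAction.orbitRel.Quotient (MulAut G) G) ≤ Nat.card G / (Nat.card G).minFac := by
  refine (Nat.le_div_iff_mul_le (Nat.minFac_pos _)).2 ?_
  by_cases h : (Nat.card G).minFac < Nat.card (commutator G)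
  · refine le_trans (Nat.mul_le_mul_right _ ?_) (big h)
    refine Nat.card_le_card_of_surjective (fun c : ConjClasses G => Quotient.liftOn' c
      (fun x => (Quotient.mk'' x : MulAction.orbitRel.Quotient (MulAut G) G)) fun a b hab => ?_) ?_
    · obtain ⟨c, rfl⟩ := isConj_iff.1 hab
      exact (Quotient.sound' (MulAction.orbitRel_apply.2 ⟨MulAut.conj c, rfl⟩)).symm
    · intro ω
      obtain ⟨x, rfl⟩ := Quotient.exists_rep ω
      exact ⟨ConjClasses.mk x, rfl⟩
  · exact small hna rfl (not_lt.1 h)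

end Cfsg.Agent.S4067
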