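import Cfsg.Statements.S4070
import Mathlib
import Cfsg.Agent.SolvLin.DL7

set_option autoImplicit false
open Cfsg

namespace Cfsg.Agent.S4070

/-- Let G be a finite solvable group acting faithfully by additive automorphisms on a finite vector space V over the field with p elements, completely reducibly (every G-invariant subspace has a G-invariant complement). Then some vector v ∈ V has stabilizer C_G(v) of derived length at most 9; and if both #G and p are odd, some vector has abelian stabilizer. -/
theorem result {G V : Type*} [Group G] [Finite G] [Group.IsSolvable G]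
    {p : ℕ} [Fact p.Prime] [AddCommGroup V] [Module (ZMod p) V] [Finite V] [DistribMulAction G V] [FaithfulSMul G V]
    (hcr : ∀ W : Submodule (ZMod p) V, (∀ (g : G) (w : V), w ∈ W → g • w ∈ W) →
      ∃ W' : Submodule (ZMod p) V, (∀ (g : G) (w : V), w ∈ W' → g • w ∈ W') ∧ IsCompl W W') :
    (∃ v : V, derivedSeries ↥(MulAction.stabilizer G v) 9 = ⊥) ∧
    (Odd (Nat.card G) → p ≠ 2 → ∃ v : V, IsMulCommutative ↥(MulAction.stabilizer G v)) := by
  have h : SolvLin.CR G V := fun U hU => by
    obtain ⟨W, hW, h1⟩ := hcr (AddSubgroup.toZModSubmodule p U) hU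
    exact ⟨W.toAddSubgroup, hW,
      (AddSubgroup.toZModSubmodule p).injective (by simpa using h1.inf_eq_bot),
      (AddSubgroup.toZModSubmodule p).injective (by simpa using h1.sup_eq_top)⟩
  have key : ∀ (v : V) d, SolvLin.Sm G v d → derivedSeries (MulAction.stabilizer G v) d = ⊥ := by
    intro v d hv
    rw [← SolvLin.ds_top, ← Subgroup.map_eq_bot_iff_of_injective _ (Subgroup.subtype_injective _),
      ← SolvLin.ds_eq_map]
    exact eq_bot_iff.2 fun g hg => eq_of_smul_eq_smul (α := V) fun w => by rw [hv g hg, one_smul]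
  refine ⟨(SolvLin.cr_sm_nine inferInstance h).imp fun v => key v 9, fun ho hp => ?_⟩
  obtain ⟨v, hv⟩ := SolvLin.cr_sm_one inferInstance ho (fun v hv => by
    rw [← two_smul (ZMod p), smul_eq_zero] at hv
    exact hv.resolve_left fun e => hp ((Nat.prime_dvd_prime_iff_eq Fact.out Nat.prime_two).1
      ((ZMod.natCast_eq_zero_iff 2 p).1 e))) h
  exact ⟨v, ⟨⟨fun a b => commutatorElement_eq_one_iff_mul_comm.1 (Subgroup.mem_bot.1
    (key v 1 hv ▸ Subgroup.commutator_mem_commutator trivial trivial))⟩⟩⟩

end Cfsg.Agent.S4070
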