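import Cfsg.Statements.S4071
import Mathlib
import Cfsg.Agent.PLocal.AmbSyl
import Cfsg.Agent.Solv.MinNonNilpotent
import Cfsg.Agent.Solv.NilpAmb
import Cfsg.Agent.Transfer.PCompl
import Cfsg.Agent.Grp.CommPow
import Cfsg.Agent.Grp.Cores

set_option autoImplicit false
open Cfsg

namespace Cfsg.Agent.S4071

open Subgroup Cfsg.Agent.PLocal.Amb Cfsg.Agent.Grp
open scoped commutatorElement

variable {G : Type*} [Group G]

/-- `a ↦ ⁅a, x⁆` on an `x`-invariant abelian subgroup -/
def delta (A : Subgroup G) (hA : ∀ a ∈ A, ∀ b ∈ A, a * b = b * a) {x : G} (hx : x ∈ 𝐍[A]) :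
    A →* A :=
  MonoidHom.mk' (fun a => ⟨⁅(a : G), x⁆, by
    have := A.mul_mem a.2 (conj_mem_of_mem_normalizer hx (A.inv_mem a.2))
    simpa [commutatorElement_def, mul_assoc] using this⟩) fun a b => Subtype.ext (by
      have h1 := conj_mem_of_mem_normalizer hx (A.inv_mem a.2)
      have h2 := conj_mem_of_mem_normalizer hx (A.inv_mem b.2)
      have h3 := hA _ h1 _ (A.mul_mem b.2 h2)
      change ⁅(a : G) * b, x⁆ = ⁅(a : G), x⁆ * ⁅(b : G), x⁆
      calc ⁅(a : G) * b, x⁆ = a * ((b * (x * (b : G)⁻¹ * x⁻¹)) * (x * (a : G)⁻¹ * x⁻¹)) := by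
            rw [commutatorElement_def]; group
        _ = _ := by rw [← h3, commutatorElement_def, commutatorElement_def]; group)

theorem self_norm [Finite G] {A H : Subgroup G} [A.Normal] (hA : ∀ a ∈ A, ∀ b ∈ A, a * b = b * a)
    {x : G} (hx : x ∈ H) (hs : zpowers x ⊔ A = ⊤) (hf : ∀ a ∈ A, a ≠ 1 → x * a * x⁻¹ ≠ a) :
    𝐍[H] = H := by
  refine le_antisymm (fun n hn => ?_) le_normalizer
  obtain ⟨y, hy, a, ha, rfl⟩ := mem_sup_of_normal_right.1 (hs ▸ mem_top n)
  have hyH : y ∈ H := (zpowers_le).2 hx hy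
  refine H.mul_mem hyH ?_
  have haN : a ∈ 𝐍[H] := ((𝐍[H]).mul_mem_cancel_left (le_normalizer hyH)).1 hn
  have hC : ∀ a ∈ A ⊓ H, ∀ b ∈ A ⊓ H, a * b = b * a := fun a ha b hb => hA a ha.1 b hb.1
  have hxC : x ∈ 𝐍[A ⊓ H] := le_normalizer_inf (L := H) le_normalizer_of_normal le_normalizer hx
  have key : ∀ b ∈ A, ∀ c ∈ A, ⁅b, x⁆ = ⁅c, x⁆ → b = c := by
    intro b hb c hc h
    by_contra hne
    refine hf (b⁻¹ * c) (A.mul_mem (A.inv_mem hb) hc) (fun h => hne (inv_mul_eq_one.1 h)) ?_
    have h1 : c * x * c⁻¹ = b * x * b⁻¹ := mul_right_cancel (b := x⁻¹) h.symm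
    calc x * (b⁻¹ * c) * x⁻¹ = b⁻¹ * (b * x * b⁻¹) * c * x⁻¹ := by group
      _ = _ := by rw [← h1]; group
  have hinj : Function.Injective (delta _ hC hxC) := fun b c h =>
    Subtype.ext (key _ b.2.1 _ c.2.1 (congrArg Subtype.val h))
  obtain ⟨c, hc⟩ := Finite.injective_iff_surjective.1 hinj ⟨⁅a, x⁆,
    (delta A hA (le_normalizer_of_normal (mem_top x) : x ∈ 𝐍[A]) ⟨a, ha⟩).2,
    H.mul_mem (conj_mem_of_mem_normalizer haN hx) (H.inv_mem hx)⟩
  rw [← key _ c.2.1 _ ha (congrArg Subtype.val hc)]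
  exact c.2.2

/-- Let G be a finite solvable non-nilpotent group. Every non-abelian subgroup of G is self-normalizing if and only if G is a semidirect product ⟨x⟩ ⋉ A in which ⟨x⟩ is a p-group for some prime p, A is a normal abelian subgroup of order prime to p, x^p is central in G, and x acts fixed-point-freely on A (no non-identity element of A commutes with x). -/
theorem result {G : Type*} [Group G] [Finite G]
    [Group.IsSolvable G] (hnn : ¬ Group.IsNilpotent G) :
    (∀ H : Subgroup G, ¬ IsMulCommutative H → Subgroup.normalizer (H : Set G) = H) ↔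
    ∃ (x : G) (A : Subgroup G) (p : ℕ), p.Prime ∧ A.Normal ∧ IsMulCommutative A ∧ (∃ k : ℕ, orderOf x = p ^ k) ∧
      ¬ p ∣ Nat.card A ∧ (Subgroup.zpowers x).IsComplement' A ∧ x ^ p ∈ Subgroup.center G ∧
      ∀ a : G, a ∈ A → a ≠ 1 → x * a * x⁻¹ ≠ a := by
  constructor
  · intro h
    haveI : Nontrivial G := by
      by_contra hh
      rw [not_nontrivial_iff_subsingleton] at hh
      exact hnn inferInstance
    obtain ⟨M, hM, hp⟩ := Solv.exists_normal_index_prime G
    set p := M.index with hpd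
    haveI := Fact.mk hp
    have hMt : M ≠ ⊤ := fun hh => hp.one_lt.ne' (index_eq_one.2 hh)
    have hMc : IsMulCommutative M := by
      by_contra hh
      exact hMt ((h M hh).symm.trans (normalizer_eq_top M))
    have hMc' : ∀ a ∈ M, ∀ b ∈ M, a * b = b * a := fun a ha b hb => setLike_mul_comm ha hb
    have hMn : Group.IsNilpotent M := by
      open scoped IsMulCommutative in infer_instance
    set A := 𝐎[p, M] with hA
    have hAM : A ≤ M := pRes_le p M
    haveI hAn : A.Normal := normalizer_eq_top_iff.1 (eq_top_iff.2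
      (le_normalizer_of_normal.trans (normalizer_le_normalizer_pRes p M)))
    have hAc : (Nat.card A).Coprime p := Solv.NA.coprime_card_pRes hMn
    obtain ⟨P⟩ : Nonempty (Sylow p G) := inferInstance
    obtain ⟨x, hxP, hxM⟩ : ∃ x ∈ (P : Subgroup G), x ∉ M := SetLike.not_le_iff_exists.1 fun hh =>
      P.not_dvd_index (index_dvd_of_le hh)
    have hMx : M ⊔ zpowers x = ⊤ := by
      have h1 := index_dvd_of_le (le_sup_left : M ≤ M ⊔ zpowers x)
      rcases (Nat.dvd_prime hp).1 h1 with h2 | h2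
      · exact index_eq_one.1 h2
      · exfalso
        have h3 := relIndex_mul_index (le_sup_left : M ≤ M ⊔ zpowers x)
        rw [h2, ← hpd, Nat.mul_eq_right hp.ne_zero, relIndex_eq_one] at h3
        exact hxM (h3 (mem_sup_right (mem_zpowers x)))
    have hxZ : IsPGroup p (zpowers x) := P.isPGroup'.to_le ((zpowers_le).2 hxP)
    have hres : pResidual p G ≤ A := by
      rw [← pRes_top, ← hMx, pRes_sup_eq hxZ le_normalizer_of_normal]
    have hxA : ¬ A ≤ centralizer {x} := by
      intro hh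
      have h1 : A ≤ center G := by
        rw [← centralizer_univ, ← coe_top, ← hMx, centralizer_sup, centralizer_zpowers]
        exact le_inf (fun a ha => mem_centralizer_iff.2 fun m hm => hMc' m hm a (hAM ha)) hh
      haveI := (Transfer.isPGroup_quotient_of_pResidual_le hres).isNilpotent
      exact hnn (Subgroup.isNilpotent_of_ker_le_center (QuotientGroup.mk' A) (by simpa using h1))
    have hAx : zpowers x ⊔ A = ⊤ := by
      have h1 : 𝐍[zpowers x ⊔ A] = zpowers x ⊔ A := h _ fun hh => hxA fun a ha =>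
        mem_centralizer_singleton_iff.2 (setLike_mul_comm (s := zpowers x ⊔ A) (mem_sup_right ha)
          (mem_sup_left (mem_zpowers x)))
      have h2 : (zpowers x ⊔ A) ⊓ P = P := eq_of_inf_normalizer_le P.isPGroup' inf_le_right
        fun g hg => ⟨h1.le (mem_normalizer_of_cj_le (by
          rw [cj_sup, cj_of_normal g A, MonoidHom.map_zpowers]
          exact sup_le ((zpowers_le).2 (conj_mem_of_mem_normalizer hg.2
            ⟨mem_sup_left (mem_zpowers x), hxP⟩).1) le_sup_right)), hg.1⟩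
      rw [eq_top_iff, ← Transfer.pResidual_sup_sylow P]
      exact sup_le (hres.trans le_sup_right) (h2.ge.trans inf_le_left)
    have hd : Disjoint (zpowers x) A := disjoint_iff.2 (inf_eq_bot_of_isPGroup_of_coprime hxZ hAc)
    refine ⟨x, A, p, hp, hAn, ⟨⟨fun a b => Subtype.ext (hMc' _ (hAM a.2) _ (hAM b.2))⟩⟩,
      IsPGroup.iff_orderOf.1 P.isPGroup' ⟨x, hxP⟩ |>.imp fun k hk => (orderOf_coe _).trans hk,
      (Nat.Prime.coprime_iff_not_dvd hp).1 hAc.symm,
      isComplement'_of_disjoint_and_mul_eq_univ hd (by rw [← mul_normal, hAx, coe_top]), ?_, ?_⟩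
    · rw [← centralizer_univ, ← coe_top, ← hMx, centralizer_sup, centralizer_zpowers]
      exact ⟨mem_centralizer_iff.2 fun m hm => hMc' m hm _ (pow_index_mem M x),
        mem_centralizer_singleton_iff.2 (Commute.pow_self x p)⟩
    · have hAc' : ∀ a ∈ A, ∀ b ∈ A, a * b = b * a := fun a ha b hb => hMc' a (hAM ha) b (hAM hb)
      let δ := delta A hAc' (le_normalizer_of_normal (mem_top x) : x ∈ 𝐍[A])
      set D := δ.range.map A.subtype with hD
      have hDA : D ≤ A := map_subtype_le _
      have hmem : ∀ a ∈ A, ⁅a, x⁆ ∈ D := fun a ha => ⟨_, ⟨⟨a, ha⟩, rfl⟩, rfl⟩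
      have hxD : zpowers x ≤ 𝐍[D] := by
        refine (zpowers_le).2 (mem_normalizer_of_cj_le (cj_le_iff_forall.2 ?_))
        intro d hd
        have := D.mul_mem (D.inv_mem (hmem d (hDA hd))) hd
        simpa [commutatorElement_def, mul_assoc] using this
      have h1 : 𝐍[zpowers x ⊔ D] = zpowers x ⊔ D := h _ fun hh => hxA fun a ha => by
        have h2 : Commute ⁅a, x⁆ x := setLike_mul_comm (s := zpowers x ⊔ D)
          (mem_sup_right (hmem a ha)) (mem_sup_left (mem_zpowers x))
        refine mem_centralizer_singleton_iff.2 (commutatorElement_eq_one_iff_mul_comm.1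
          (eq_one_of_isPGroup_of_coprime (p := p) (A := zpowers ⁅a, x⁆) ?_ (mem_zpowers _)
            (Transfer.coprime_orderOf_of_mem hAc (hDA (hmem a ha)))))
        obtain ⟨k, hk⟩ := isPGroup_iff.1 hxZ x (mem_zpowers x)
        exact isPGroup_zpowers ⟨k, by
          rw [← CommPow.commutator_pow_right h2, hk, commutatorElement_one_right]⟩
      have h3 : A ≤ zpowers x ⊔ D := by
        rw [← h1]
        refine le_normalizer_iff_cj.2 fun a ha => ?_
        rw [cj_sup, sup_le_iff, cj_le_iff_forall, cj_le_iff_forall]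
        refine ⟨?_, fun d hd => ?_⟩
        · rw [← cj_le_iff_forall, MonoidHom.map_zpowers, zpowers_le]
          have := mul_mem (mem_sup_right (S := zpowers x) (hmem a ha))
            (mem_sup_left (mem_zpowers x))
          simpa [commutatorElement_def] using this
        · rw [hAc' a ha d (hDA hd), mul_inv_cancel_right]
          exact mem_sup_right hd
      have h4 : Function.Surjective δ := by
        intro a
        obtain ⟨y, hy, d, hd', e⟩ := (mem_sup_of_le_normalizer_right hxD).1 (h3 a.2)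
        have h5 : y = 1 := hd.le_bot ⟨hy, (A.mul_mem_cancel_right (hDA hd')).1 (e ▸ a.2)⟩
        rw [h5, one_mul] at e
        obtain ⟨b, hb, rfl⟩ := hd'
        exact Subtype.ext e ▸ hb
      intro a ha h5 h6
      refine h5 (congrArg Subtype.val ((injective_iff_map_eq_one δ).1
        (Finite.injective_iff_surjective.2 h4) ⟨a, ha⟩ (Subtype.ext ?_)))
      exact commutatorElement_eq_one_iff_mul_comm.2 (eq_mul_of_mul_inv_eq h6).symm
  · rintro ⟨x, A, p, hp, hAn, hAc, ⟨k, hk⟩, hpA, hcompl, hxp, hf⟩ H hH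
    haveI := Fact.mk hp
    have hAc' : ∀ a ∈ A, ∀ b ∈ A, a * b = b * a := fun a ha b hb => setLike_mul_comm ha hb
    obtain ⟨h, hh, hhM⟩ : ∃ h ∈ H, h ∉ zpowers (x ^ p) ⊔ A := SetLike.not_le_iff_exists.1 fun hle =>
      hH ⟨⟨fun a b => Subtype.ext (by
        obtain ⟨z, hz, c, hc, e⟩ := mem_sup_of_normal_right.1 (hle a.2)
        obtain ⟨w, hw, d, hd, e'⟩ := mem_sup_of_normal_right.1 (hle b.2)
        have h1 := mem_center_iff.1 ((zpowers_le).2 hxp hz)
        have h2 := mem_center_iff.1 ((zpowers_le).2 hxp hw)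
        change (a : G) * b = b * a
        rw [← e, ← e']
        calc z * c * (w * d) = z * w * (c * d) := by rw [mul_assoc, ← mul_assoc c, h2 c]; group
          _ = w * z * (d * c) := by rw [h2 z, hAc' c hc d hd]
          _ = _ := by rw [mul_assoc w d, ← mul_assoc d, h1 d]; group)⟩⟩
    obtain ⟨u, v, hu, -, hup, hv, rfl⟩ := Transfer.exists_pPart_mul (p := p) h
    have hi : A.index = p ^ k := by rw [hcompl.index_eq_card, Nat.card_zpowers, hk]
    have hvA : v ∈ A := PLocal.Amb.mem_of_pow_mem_of_coprime (pow_index_mem A v)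
      (hi ▸ hv.pow_right k)
    have huM : u ∉ zpowers (x ^ p) ⊔ A := fun h => hhM (mul_mem h (mem_sup_right hvA))
    have hS : IsSyl p (zpowers x) ⊤ := isSyl_of_not_dvd_relIndex
      (isPGroup_zpowers ⟨k, hk ▸ pow_orderOf_eq_one x⟩) le_top
      (by rwa [relIndex_top_right, hcompl.symm.index_eq_card])
    obtain ⟨g, -, hg⟩ := hS.exists_le_cj (isPGroup_zpowers hup) le_top
    obtain ⟨_, ⟨i, rfl⟩, hi'⟩ := mem_cj_iff_exists.1 (hg (mem_zpowers u))
    have hpi : ¬ (p : ℤ) ∣ i := by
      rintro ⟨j, rfl⟩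
      refine huM (mem_sup_left ?_)
      have h1 : x ^ ((p : ℤ) * j) ∈ zpowers (x ^ p) := ⟨j, by simp [zpow_mul]⟩
      rwa [← hi', mem_center_iff.1 ((zpowers_le).2 hxp h1) g, mul_inv_cancel_right]
    have hxH : g * x * g⁻¹ ∈ H := by
      have h1 : (g * x * g⁻¹) ^ i ∈ H := by
        rw [conj_zpow]; exact hi' ▸ (zpowers_le).2 hh hu
      have h2 : IsCoprime (orderOf (g * x * g⁻¹) : ℤ) i := by
        rw [orderOf_conj', hk, Nat.cast_pow]
        exact ((Nat.prime_iff_prime_int.1 hp).coprime_iff_not_dvd.2 hpi).pow_left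
      obtain ⟨a, b, hab⟩ := h2
      have := H.zpow_mem h1 b
      rw [← zpow_one (g * x * g⁻¹), ← hab, zpow_add, mul_comm a, zpow_mul, zpow_natCast,
        pow_orderOf_eq_one, one_zpow, one_mul, mul_comm b, zpow_mul]
      exact this
    refine self_norm hAc' hxH ?_ fun a ha h1 h2 => hf (g⁻¹ * a * g) (hAn.conj_mem' _ ha g) ?_ ?_
    · have := congrArg (fun K => cj(g, K)) hcompl.sup_eq_top
      simp only [cj_sup, cj_top, cj_of_normal] at this
      rwa [MonoidHom.map_zpowers] at this
    · intro h3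
      exact h1 (by simpa [mul_assoc, inv_mul_eq_one, mul_eq_right] using h3)
    · conv_rhs => rw [← h2]
      group

end Cfsg.Agent.S4071
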