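import Cfsg.Statements.S4072
import Cfsg.Agent.Transfer.Focal
import Cfsg.Agent.Grp.PFrattini

set_option autoImplicit false
open Cfsg

namespace Cfsg.Agent.S4072

open Subgroup
open scoped commutatorElement

theorem comm_le_zpowers {P : Type*} [Group P] [Finite P] {p : ℕ} [hp : Fact p.Prime]
    (hP : IsPGroup p P) (h : ∀ H : Subgroup P, H ≠ ⊤ → IsMulCommutative H) {x : P}
    (hx : x ∈ commutator P) (hx1 : x ≠ 1) : commutator P ≤ zpowers x := by
  have hfr : ∀ u ∈ frattini P, ∀ v : P, u * v = v * u := by
    intro u hu v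
    by_cases ht : zpowers v ⊔ zpowers u = ⊤
    · have h1 : zpowers v ⊔ frattini P = ⊤ :=
        top_le_iff.1 (ht ▸ sup_le_sup_left (zpowers_le.2 hu) _)
      have h2 := frattini_nongenerating h1
      have hu' : u ∈ zpowers v := h2 ▸ mem_top u
      obtain ⟨k, rfl⟩ := mem_zpowers_iff.1 hu'
      exact (Commute.self_zpow v k).eq.symm
    · have := h _ ht
      exact congrArg Subtype.val (this.is_comm.comm
        (⟨u, mem_sup_right (mem_zpowers u)⟩ : ↥(zpowers v ⊔ zpowers u))
        ⟨v, mem_sup_left (mem_zpowers v)⟩)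
  obtain ⟨a, b, hab⟩ : ∃ a b : P, a * b ≠ b * a := by
    by_contra hne
    push Not at hne
    apply hx1
    have : commutator P = ⊥ := by
      rw [commutator_def, eq_bot_iff, Subgroup.commutator_le]
      intro g _ k _
      rw [mem_bot, commutatorElement_eq_one_iff_mul_comm]; exact hne g k
    rw [this] at hx; exact hx
  have hcl : closure ({a, b} : Set P) = ⊤ := by
    by_contra ht
    have := h _ ht
    exact hab (congrArg Subtype.val (this.is_comm.comm
        (⟨a, subset_closure (by simp)⟩ : closure ({a, b} : Set P)) ⟨b, subset_closure (by simp)⟩))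
  set c := ⁅a, b⁆ with hc
  have hcc : ∀ v, c * v = v * c := hfr c (Grp.PFrattini.commutator_le_frattini hP
    (commutator_mem_commutator (mem_top a) (mem_top b)))
  have hpow : ∀ n : ℕ, ⁅a ^ n, b⁆ = c ^ n := by
    intro n
    induction n with
    | zero => simp
    | succ n ih =>
      have : ⁅a ^ (n + 1), b⁆ = a * ⁅a ^ n, b⁆ * a⁻¹ * c := by
        rw [hc]; simp only [commutatorElement_def, pow_succ']; group
      rw [this, ih, pow_succ]
      congr 1
      have : Commute c a := hcc a
      rw [← (this.pow_left n).eq]; group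
  have hcp : c ^ p = 1 := by
    rw [← hpow, commutatorElement_eq_one_iff_mul_comm]
    exact hfr _ (Grp.PFrattini.pow_mem_frattini hP a) b
  haveI hN : (zpowers c).Normal := ⟨fun n hn g => by
    obtain ⟨k, rfl⟩ := mem_zpowers_iff.1 hn
    have : Commute c g := hcc g
    rw [← (this.zpow_left k).eq]
    simp⟩
  have hle : commutator P ≤ zpowers c := by
    rw [← Normal.quotient_commutative_iff_commutator_le]
    have hq : closure ({(a : P ⧸ zpowers c), (b : P ⧸ zpowers c)} : Set (P ⧸ zpowers c)) = ⊤ := by
      have := congrArg (Subgroup.map (QuotientGroup.mk' (zpowers c))) hcl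
      rw [MonoidHom.map_closure, Subgroup.map_top_of_surjective _ (QuotientGroup.mk'_surjective _)]
        at this
      simpa [Set.image_pair] using this
    have hab' : (a : P ⧸ zpowers c) * b = b * a := by
      rw [← commutatorElement_eq_one_iff_mul_comm]
      have : ((c : P) : P ⧸ zpowers c) = 1 := (QuotientGroup.eq_one_iff _).2 (mem_zpowers c)
      rw [← this]; rfl
    have hcen : ∀ u : P ⧸ zpowers c, u ∈ ({(a : P ⧸ zpowers c), (b : P ⧸ zpowers c)} : Set _) →
        u ∈ center (P ⧸ zpowers c) := by
      intro u hu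
      have : closure ({(a : P ⧸ zpowers c), (b : P ⧸ zpowers c)} : Set (P ⧸ zpowers c)) ≤
          centralizer {u} := by
        rw [closure_le]
        intro v hv
        rw [SetLike.mem_coe, mem_centralizer_singleton_iff]
        rcases hu with rfl | rfl <;> rcases hv with rfl | rfl <;> simp_all
      rw [mem_center_iff]
      intro g
      exact mem_centralizer_singleton_iff.1 (this (hq ▸ mem_top g))
    have : (⊤ : Subgroup (P ⧸ zpowers c)) ≤ center _ := hq ▸ (closure_le _).2 hcen
    exact ⟨⟨fun u v => (mem_center_iff.1 (this (mem_top v)) u)⟩⟩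
  have hc1 : c ≠ 1 := by rwa [hc, Ne, commutatorElement_eq_one_iff_mul_comm]
  have hoc : orderOf c = p := orderOf_eq_prime hcp hc1
  refine hle.trans ?_
  have hxc := hle hx
  have hcard : Nat.card (zpowers c) = p := by rw [Nat.card_zpowers, hoc]
  have hle2 : zpowers x ≤ zpowers c := zpowers_le.2 hxc
  have hd := Subgroup.card_dvd_of_le hle2
  rw [hcard] at hd
  rcases (Nat.dvd_prime hp.out).1 hd with h1 | h1
  · rw [Nat.card_zpowers, orderOf_eq_one_iff] at h1; exact absurd h1 hx1
  · exact (Subgroup.eq_of_le_of_card_ge hle2 (by rw [h1, hcard])).ge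

theorem perfect_no_compl {G : Type*} [Group G] [Finite G] (hG : commutator G = ⊤) {p : ℕ}
    [hp : Fact p.Prime] (P : Sylow p G)
    (h : normalizer ((P : Subgroup G) : Set G) ≤ centralizer ((P : Subgroup G) : Set G)) :
    (P : Subgroup G) = ⊥ := by
  have h1 := Transfer.hasNormalPComplement_of_normalizer_le_centralizer P h
  have h2 : IsMulCommutative P := ⟨⟨fun a b => Subtype.ext
    (mem_centralizer_iff.1 (h (le_normalizer b.2)) a a.2)⟩⟩
  have h3 := Transfer.commutator_le_pResidual_of_comm P h2
  rw [Transfer.hasNormalPComplement_iff_inf_eq_bot P] at h1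
  rw [hG, top_le_iff] at h3
  rw [h3, top_inf_eq] at h1
  exact h1

theorem comm_quot {G : Type*} [Group G] (hG : commutator G = ⊤) (N : Subgroup G) [N.Normal] :
    commutator (G ⧸ N) = ⊤ := by
  have := congrArg (Subgroup.map (QuotientGroup.mk' N)) hG
  rw [commutator_def, Subgroup.map_commutator,
    Subgroup.map_top_of_surjective _ (QuotientGroup.mk'_surjective _)] at this
  exact this

theorem normalizer_comap_le {G : Type*} [Group G] (N : Subgroup G) [N.Normal]
    (K : Subgroup (G ⧸ N))
    (h : normalizer ((K.comap (QuotientGroup.mk' N) : Subgroup G) : Set G) =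
      K.comap (QuotientGroup.mk' N)) : normalizer (K : Set (G ⧸ N)) ≤ K := by
  intro y hy
  obtain ⟨g, rfl⟩ := QuotientGroup.mk'_surjective N y
  have : g ∈ normalizer ((K.comap (QuotientGroup.mk' N) : Subgroup G) : Set G) :=
    Subgroup.le_normalizer_comap _ hy
  rw [h] at this
  exact this

/-- A finite group in which every non-abelian subgroup is self-normalizing is solvable or simple. -/
theorem result {G : Type*} [Group G] [Finite G] (hS : ∀ H : Subgroup G, ¬ IsMulCommutative H → Subgroup.normalizer (H : Set G) = H) :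
    Group.IsSolvable G ∨ IsSimpleGroup G := by
  by_contra hcon
  push Not at hcon
  obtain ⟨hns, hsimp⟩ := hcon
  have hab : ∀ N : Subgroup G, N.Normal → N ≠ ⊤ → IsMulCommutative N := by
    intro N hN hne
    by_contra h
    exact hne ((hS N h).symm.trans (normalizer_eq_top N))
  have hG : commutator G = ⊤ := by
    by_contra h
    apply hns
    have h1 := hab _ inferInstance h
    have : Group.IsSolvable (commutator G) := Group.isSolvable_of_comm h1.is_comm.comm
    have h2 : Group.IsSolvable (G ⧸ commutator G) := Group.isSolvable_of_comm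
      ((Normal.quotient_commutative_iff_commutator_le.2 le_rfl).is_comm.comm)
    exact Group.isSolvable_of_ker_le_range (commutator G).subtype (QuotientGroup.mk' (commutator G)) (by simp)
  have hnt : Nontrivial G := by
    by_contra h
    rw [not_nontrivial_iff_subsingleton] at h
    exact hns inferInstance
  obtain ⟨N, hN, hNb, hNt⟩ : ∃ N : Subgroup G, N.Normal ∧ N ≠ ⊥ ∧ N ≠ ⊤ := by
    by_contra h
    push Not at h
    exact hsimp ⟨fun H hH => by
      by_cases hb : H = ⊥
      · exact Or.inl hb
      · exact Or.inr (h H hH hb)⟩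
  by_cases hZ : N ≤ center G
  · -- central case
    obtain ⟨p, hp, hpd⟩ := Nat.exists_prime_and_dvd (n := Nat.card N)
      (by rwa [Ne, Subgroup.card_eq_one])
    haveI : Fact p.Prime := ⟨hp⟩
    obtain ⟨x, hx⟩ := exists_prime_orderOf_dvd_card' p hpd
    have hxo : orderOf (x : G) = p := by rw [Subgroup.orderOf_coe, hx]
    have hx1 : (x : G) ≠ 1 := by
      intro h; rw [h, orderOf_one] at hxo; exact hp.one_lt.ne hxo
    have hxz : (x : G) ∈ center G := hZ x.2
    have hpx : IsPGroup p (zpowers (x : G)) := IsPGroup.of_card (n := 1)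
      (by rw [Nat.card_zpowers, hxo, pow_one])
    obtain ⟨P, hxP⟩ := hpx.exists_le_sylow
    have hxP' : (x : G) ∈ (P : Subgroup G) := hxP (mem_zpowers _)
    have hxc : (x : G) ∈ ⁅(P : Subgroup G), (P : Subgroup G)⁆ :=
      Transfer.mem_commutator_of_hall_of_central P.card_coprime_index hxP' hxz (hG ▸ mem_top _)
    have hPna : ¬ IsMulCommutative (P : Subgroup G) := by
      intro h
      apply hx1
      have : ⁅(P : Subgroup G), (P : Subgroup G)⁆ = ⊥ := by
        rw [commutator_eq_bot_iff_le_centralizer]
        exact Transfer.le_centralizer_self_of_comm h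
      rw [this] at hxc; exact hxc
    have hmin : ∀ H : Subgroup (P : Subgroup G), H ≠ ⊤ → IsMulCommutative H := by
      intro H hH
      by_contra hna
      have hna' : ¬ IsMulCommutative (H.map (P : Subgroup G).subtype) := by
        intro h
        apply hna
        refine ⟨⟨fun a b => Subtype.ext (Subtype.ext ?_)⟩⟩
        have := congrArg Subtype.val (h.is_comm.comm
          (⟨a, mem_map_of_mem _ a.2⟩ : H.map (P : Subgroup G).subtype) ⟨b, mem_map_of_mem _ b.2⟩)
        exact this
      have h1 := hS _ hna'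
      have : Group.IsNilpotent (P : Subgroup G) := P.isPGroup'.isNilpotent
      have h2 := Group.normalizerCondition_of_isNilpotent (G := (P : Subgroup G)) H (lt_top_iff_ne_top.2 hH)
      obtain ⟨y, hy, hyH⟩ := SetLike.exists_of_lt h2
      have h3 := Subgroup.le_normalizer_map (P : Subgroup G).subtype (mem_map_of_mem _ hy)
      rw [h1] at h3
      obtain ⟨z, hz, hzy⟩ := h3
      exact hyH (Subtype.ext hzy ▸ hz)
    have hxc' : (⟨x, hxP'⟩ : (P : Subgroup G)) ∈ commutator (P : Subgroup G) := by
      rw [← Subgroup.map_subtype_commutator] at hxc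
      obtain ⟨z, hz, hzx⟩ := hxc
      exact (Subtype.ext hzx : z = ⟨x, hxP'⟩) ▸ hz
    have hle := comm_le_zpowers P.isPGroup' hmin hxc' (fun h => hx1 (congrArg Subtype.val h))
    haveI hZn : (zpowers (x : G)).Normal := ⟨fun n hn g => by
      have := (zpowers_le.2 hxz) hn
      rw [mem_center_iff.1 this g]; simpa using hn⟩
    let Q := P.mapSurjective (QuotientGroup.mk'_surjective (zpowers (x : G)))
    have hQ : (Q : Subgroup _) = (P : Subgroup G).map (QuotientGroup.mk' (zpowers (x : G))) := rfl
    have hcm : (Q : Subgroup _).comap (QuotientGroup.mk' (zpowers (x : G))) = P := by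
      rw [hQ, comap_map_eq, QuotientGroup.ker_mk', sup_eq_left.2 hxP]
    have h1 := normalizer_comap_le (zpowers (x : G)) Q (by rw [hcm]; exact hS _ hPna)
    have h2 : (Q : Subgroup (G ⧸ zpowers (x : G))) ≤
        centralizer ((Q : Subgroup (G ⧸ zpowers (x : G))) : Set (G ⧸ zpowers (x : G))) := by
      rw [← commutator_eq_bot_iff_le_centralizer, hQ, ← Subgroup.map_commutator,
        Subgroup.map_eq_bot_iff, QuotientGroup.ker_mk', ← Subgroup.map_subtype_commutator]
      rintro _ ⟨z, hz, rfl⟩
      obtain ⟨k, hk⟩ := mem_zpowers_iff.1 (hle hz)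
      exact mem_zpowers_iff.2 ⟨k, by rw [← hk]; simp⟩
    have h3 := perfect_no_compl (comm_quot hG _) Q (h1.trans h2)
    rw [h3, MonoidHom.comap_bot, QuotientGroup.ker_mk'] at hcm
    apply hPna
    rw [← hcm]; infer_instance
  · -- self-centralizing case
    set M := centralizer (N : Set G) with hM
    have hMt : M ≠ ⊤ := by
      intro h
      exact hZ (centralizer_eq_top_iff_subset.1 h)
    haveI hMn : M.Normal := inferInstance
    have hNM : N ≤ M := Transfer.le_centralizer_self_of_comm (hab N hN hNt)
    have hq : Nat.card (G ⧸ M) ≠ 1 := by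
      rw [← index_eq_card]; rwa [Ne, index_eq_one]
    obtain ⟨p, hp, hpd⟩ := Nat.exists_prime_and_dvd hq
    haveI : Fact p.Prime := ⟨hp⟩
    obtain ⟨P⟩ : Nonempty (Sylow p (G ⧸ M)) := inferInstance
    have hPb : (P : Subgroup (G ⧸ M)) ≠ ⊥ := P.ne_bot_of_dvd_card hpd
    haveI : Nontrivial (P : Subgroup (G ⧸ M)) := (nontrivial_iff_ne_bot _).2 hPb
    haveI := P.isPGroup'.center_nontrivial
    obtain ⟨⟨z, hz⟩, hz1⟩ := exists_ne (1 : center (P : Subgroup (G ⧸ M)))
    have hz1' : (z : G ⧸ M) ≠ 1 := fun h => hz1 (Subtype.ext (Subtype.ext h))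
    have hna : ¬ IsMulCommutative ((zpowers (z : G ⧸ M)).comap (QuotientGroup.mk' M)) := by
      intro h
      obtain ⟨g, hg⟩ := QuotientGroup.mk'_surjective M z
      apply hz1'
      rw [← hg, QuotientGroup.mk'_apply, QuotientGroup.eq_one_iff, hM, mem_centralizer_iff]
      intro n hn
      have h1 : n ∈ (zpowers (z : G ⧸ M)).comap (QuotientGroup.mk' M) := by
        rw [mem_comap, QuotientGroup.mk'_apply, (QuotientGroup.eq_one_iff _).2 (hNM hn)]
        exact one_mem _
      have h2 : g ∈ (zpowers (z : G ⧸ M)).comap (QuotientGroup.mk' M) := by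
        rw [mem_comap, hg]; exact mem_zpowers _
      exact congrArg Subtype.val (h.is_comm.comm (⟨n, h1⟩ : (zpowers (z : G ⧸ M)).comap _) ⟨g, h2⟩)
    have h1 := normalizer_comap_le M _ (hS _ hna)
    have h2 : (P : Subgroup (G ⧸ M)) ≤ zpowers (z : G ⧸ M) := by
      refine le_trans ?_ h1
      refine le_trans ?_ (centralizer_le_normalizer _)
      intro y hy
      rw [mem_centralizer_iff]
      intro w hw
      obtain ⟨k, rfl⟩ := mem_zpowers_iff.1 hw
      have : Commute (z : G ⧸ M) y :=
        (congrArg Subtype.val (mem_center_iff.1 hz ⟨y, hy⟩)).symm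
      exact (this.zpow_left k).eq
    have h3 : (P : Subgroup (G ⧸ M)) = zpowers (z : G ⧸ M) := le_antisymm h2 (zpowers_le.2 z.2)
    apply hPb
    apply perfect_no_compl (comm_quot hG _) P
    rw [h3]
    exact h1.trans (Transfer.le_centralizer_self_of_comm inferInstance)

end Cfsg.Agent.S4072
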