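import Cfsg.Statements.S4074
import Mathlib


set_option autoImplicit false
open Cfsg

namespace Cfsg.Agent.S4074

open DihedralGroup

/-- For n > 2, every non-abelian subgroup of the dihedral group of order 2n is self-normalizing if and only if n = 4 or n is odd. -/
theorem result (n : ℕ) (hn : 2 < n) :
    (∀ H : Subgroup (DihedralGroup n), ¬ IsMulCommutative H → Subgroup.normalizer (H : Set (DihedralGroup n)) = H) ↔
    (n = 4 ∨ Odd n) := by
  haveI : NeZero n := ⟨by omega⟩
  constructor
  · intro h
    by_contra hcon
    push Not at hcon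
    have h2 : 2 ∣ n := even_iff_two_dvd.1 (Nat.not_odd_iff_even.1 hcon.2)
    let c := ZMod.castHom h2 (ZMod 2)
    have hneg : ∀ a : ZMod 2, -a = a := by decide
    let φ : DihedralGroup n →* Multiplicative (ZMod 2) :=
      MonoidHom.mk' (fun g => match g with
        | r i => Multiplicative.ofAdd (c i)
        | sr i => Multiplicative.ofAdd (c i)) (by
        rintro (i | i) (j | j) <;>
          simp [← ofAdd_add, sub_eq_add_neg, hneg, add_comm])
    have h3 := h φ.ker (fun hc => by
      have := congrArg Subtype.val (hc.is_comm.comm ⟨r 2, by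
        show Multiplicative.ofAdd (c 2) = 1
        rw [map_ofNat]; rfl⟩ ⟨sr 0, by
        show Multiplicative.ofAdd (c 0) = 1
        rw [map_zero]; rfl⟩)
      simp only [Subgroup.coe_mul, r_mul_sr, sr_mul_r, sr.injEq] at this
      have h4 : ((4 : ℕ) : ZMod n) = 0 := by
        push_cast
        linear_combination -this
      rw [ZMod.natCast_eq_zero_iff] at h4
      have := Nat.le_of_dvd (by norm_num) h4
      have h5 := hcon.1
      interval_cases n <;> omega)
    rw [Subgroup.normalizer_eq_top] at h3
    have h4 : r 1 ∈ φ.ker := h3 ▸ Subgroup.mem_top _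
    have h5 : Multiplicative.ofAdd (c 1) = 1 := h4
    rw [map_one] at h5
    exact absurd h5 (by decide)
  · rintro (rfl | hodd) H hH
    · have : H = ⊤ := by
        by_contra hne
        apply hH
        haveI : Fact (Nat.Prime 2) := ⟨Nat.prime_two⟩
        have h1 := Subgroup.card_subgroup_dvd_card H
        rw [DihedralGroup.nat_card, show 2 * 4 = 2 ^ 3 by norm_num] at h1
        obtain ⟨k, hk, e⟩ := (Nat.dvd_prime_pow Nat.prime_two).1 h1
        interval_cases k
        · rw [Subgroup.eq_bot_of_card_eq H e]; infer_instance
        · haveI := isCyclic_of_prime_card (p := 2) e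
          infer_instance
        · exact IsPGroup.isMulCommutative_of_card_eq_prime_sq e
        · exact absurd (Subgroup.eq_top_of_card_eq H (by rw [e, DihedralGroup.nat_card]; rfl)) hne
      subst this
      exact Subgroup.normalizer_eq_top _
    · have h1 : ∃ i, sr i ∈ H := by
        by_contra hcon
        push Not at hcon
        refine hH ⟨⟨?_⟩⟩
        rintro ⟨a | a, ha⟩ ⟨b | b, hb⟩
        · exact Subtype.ext (by simp [add_comm])
        · exact absurd hb (hcon b)
        · exact absurd ha (hcon a)
        · exact absurd ha (hcon a)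
      obtain ⟨i, hi⟩ := h1
      have key : ∀ j, r j ∈ Subgroup.normalizer (H : Set (DihedralGroup n)) → r j ∈ H := by
        intro j hj
        have h2 := mul_mem hi (((Subgroup.mem_normalizer_iff).1 (inv_mem hj) _).1 hi)
        obtain ⟨k, hk⟩ := hodd
        have h3 := pow_mem h2 (k + 1)
        have h4 : (sr i * ((r j)⁻¹ * sr i * (r j)⁻¹⁻¹)) ^ (k + 1) = r j := by
          have h5 : ((2 * k + 1 : ℕ) : ZMod n) = 0 := by rw [← hk]; simp
          simp only [inv_r, r_mul_sr, sr_mul_r, sr_mul_sr, r_pow, r.injEq]
          push_cast at h5 ⊢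
          linear_combination j * h5
        rwa [h4] at h3
      refine le_antisymm ?_ Subgroup.le_normalizer
      rintro (j | j) hj
      · exact key j hj
      · have h2 := key _ (mul_mem (Subgroup.le_normalizer hi) hj)
        have := mul_mem hi h2
        simpa using this

end Cfsg.Agent.S4074
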