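import Cfsg.Statements.S4075
import Mathlib
import Cfsg.Agent.Grp.Fitting
import Cfsg.Agent.Grp.Cores
import Cfsg.Agent.Grp.Card

set_option autoImplicit false
open Cfsg

namespace Cfsg.Agent.S4075

/-- Let G be a finite nilpotent group. Every non-abelian subgroup of G is self-normalizing if and only if G is abelian or G is a minimal non-abelian p-group for some prime p (non-abelian of prime-power order with every proper subgroup abelian). -/
theorem result {G : Type*} [Group G] [Finite G]
    [Group.IsNilpotent G] :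
    (∀ H : Subgroup G, ¬ IsMulCommutative H → Subgroup.normalizer (H : Set G) = H) ↔
    (IsMulCommutative G ∨ (IsPrimePow (Nat.card G) ∧ ¬ IsMulCommutative G ∧ ∀ H : Subgroup G, H ≠ ⊤ → IsMulCommutative H)) := by
  constructor
  · intro h
    have hprop : ∀ H : Subgroup G, H ≠ ⊤ → IsMulCommutative H := by
      intro H hH
      by_contra hc
      exact (Group.normalizerCondition_of_isNilpotent H (lt_top_iff_ne_top.2 hH)).ne' (h H hc)
    by_cases hG : IsMulCommutative G
    · exact Or.inl hG
    refine Or.inr ⟨?_, hG, hprop⟩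
    have h1 : Nat.card G ≠ 1 := fun h1 => hG (by
      haveI := (Nat.card_eq_one_iff_unique.1 h1).1
      exact ⟨⟨fun a b => Subsingleton.elim _ _⟩⟩)
    obtain ⟨p, hp, hd⟩ := Nat.exists_prime_and_dvd h1
    haveI := Fact.mk hp
    by_cases hP : pCore p G = ⊤
    · obtain ⟨n, hn⟩ := IsPGroup.iff_card.1 (Grp.pCore_eq_top_iff.1 hP)
      rw [hn] at h1 ⊢
      exact hp.isPrimePow.pow fun h => h1 (by rw [h, pow_zero])
    exfalso
    have hQ : pPrimeCore p G ≠ ⊤ := fun h =>
      (Nat.Prime.coprime_iff_not_dvd hp).1 (Grp.pPrimeCore_eq_top_iff.1 h).symm hd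
    have h2 := hprop _ hP
    have h3 := hprop _ hQ
    have hs := Grp.pCore_sup_pPrimeCore_of_isNilpotent (G := G) p
    have h4 : ∀ x ∈ pCore p G, x ∈ Subgroup.center G := by
      intro x hx
      have : pCore p G ⊔ pPrimeCore p G ≤ Subgroup.centralizer ({x} : Set G) :=
        sup_le (fun a ha => Subgroup.mem_centralizer_singleton_iff.2
          (congrArg Subtype.val (h2.is_comm.comm ⟨a, ha⟩ ⟨x, hx⟩)))
          (fun a ha => Subgroup.mem_centralizer_singleton_iff.2 (Subgroup.mem_centralizer_iff.1
            (Grp.pCore_le_centralizer_pPrimeCore p G hx) a ha))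
      rw [hs] at this
      exact Subgroup.mem_center_iff.2 fun g =>
        Subgroup.mem_centralizer_singleton_iff.1 (this (Subgroup.mem_top g))
    have h5 : ∀ x ∈ pPrimeCore p G, x ∈ Subgroup.center G := by
      intro x hx
      have : pCore p G ⊔ pPrimeCore p G ≤ Subgroup.centralizer ({x} : Set G) :=
        sup_le (fun a ha => Subgroup.mem_centralizer_singleton_iff.2
          (Subgroup.mem_center_iff.1 (h4 a ha) x).symm)
          (fun a ha => Subgroup.mem_centralizer_singleton_iff.2
          (congrArg Subtype.val (h3.is_comm.comm ⟨a, ha⟩ ⟨x, hx⟩)))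
      rw [hs] at this
      exact Subgroup.mem_center_iff.2 fun g =>
        Subgroup.mem_centralizer_singleton_iff.1 (this (Subgroup.mem_top g))
    have h6 : (⊤ : Subgroup G) ≤ Subgroup.center G := hs ▸ sup_le h4 h5
    exact hG ⟨⟨fun a b => Subgroup.mem_center_iff.1 (h6 (Subgroup.mem_top b)) a⟩⟩
  · rintro (h | ⟨-, -, h⟩) H hH
    · exact absurd ⟨⟨fun a b => Subtype.ext (h.is_comm.comm _ _)⟩⟩ hH
    · have : H = ⊤ := by
        by_contra hne
        exact hH (h H hne)
      subst this
      exact Subgroup.normalizer_eq_top _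

end Cfsg.Agent.S4075
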