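import Cfsg.Statements.S4080
import Mathlib
import Cfsg.Agent.Grp.CommPow

set_option autoImplicit false
open Cfsg

namespace Cfsg.Agent.S4080

theorem one_add_pow {R : Type*} [Ring R] {N : R} (h : N ^ 4 = 0) (n : ℕ) :
    (1 + N) ^ n = 1 + n • N + n.choose 2 • N ^ 2 + n.choose 3 • N ^ 3 := by
  induction n with
  | zero => simp
  | succ n ih =>
    rw [pow_succ, ih, Grp.CommPow.choose_two_succ, Grp.CommPow.choose_three_succ]
    have h4 : N ^ 3 * N = 0 := by rw [← pow_succ, h]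
    have h3 : N ^ 2 * N = N ^ 3 := by rw [← pow_succ]
    have h2 : N * N = N ^ 2 := by rw [sq]
    simp only [mul_add, add_mul, mul_one, one_mul, smul_mul_assoc, h4, h3, h2, smul_zero, add_smul,
      one_smul]
    abel

theorem exists_eq_mul {p : ℕ} [hp : Fact p.Prime] {c : ZMod (p ^ 2)}
    (h : ZMod.castHom (dvd_pow_self p two_ne_zero) (ZMod p) c = 0) : ∃ d : ZMod (p ^ 2), c = (p : ZMod (p ^ 2)) * d := by
  haveI : NeZero (p ^ 2) := ⟨pow_ne_zero _ hp.out.ne_zero⟩
  obtain ⟨n, rfl⟩ := ZMod.natCast_zmod_surjective c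
  rw [map_natCast, ZMod.natCast_eq_zero_iff] at h
  obtain ⟨d, rfl⟩ := h
  exact ⟨d, by push_cast; rfl⟩

theorem exists_eq_mul' {p : ℕ} [hp : Fact p.Prime] {c : ZMod (p ^ 2)}
    (h : p • c = 0) : ∃ d : ZMod (p ^ 2), c = (p : ZMod (p ^ 2)) * d := by
  haveI : NeZero (p ^ 2) := ⟨pow_ne_zero _ hp.out.ne_zero⟩
  obtain ⟨n, rfl⟩ := ZMod.natCast_zmod_surjective c
  rw [nsmul_eq_mul, ← Nat.cast_mul, ZMod.natCast_eq_zero_iff, sq] at h
  obtain ⟨d, rfl⟩ := Nat.dvd_of_mul_dvd_mul_left hp.out.pos h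
  exact ⟨d, by push_cast; rfl⟩

theorem matrix_case {p : ℕ} [hp : Fact p.Prime] (h3 : 3 < p)
    (N : Matrix (Fin 2) (Fin 2) (ZMod (p ^ 2))) (h : (1 + N) ^ p = 1) : p • N = 0 := by
  let π := (ZMod.castHom (dvd_pow_self p two_ne_zero) (ZMod p)).mapMatrix (m := Fin 2)
  have h1 : (π N) ^ p = 0 := by
    have := congrArg π h
    rw [map_pow, map_add, map_one, add_pow_char_of_commute _ (Commute.one_left _), one_pow] at this
    simpa using this
  have h2 : (π N) ^ 2 = 0 := by
    have h4 := (Matrix.isNilpotent_charpoly_sub_pow_of_isNilpotent ⟨p, h1⟩).eq_zero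
    have h5 := Matrix.aeval_self_charpoly (π N)
    rw [sub_eq_zero.1 h4] at h5
    simpa using h5
  have h6 : ∃ M, N ^ 2 = p • M := by
    rw [← map_pow] at h2
    choose d hd using fun i j => exists_eq_mul (c := (N ^ 2) i j) (congrFun (congrFun h2 i) j)
    exact ⟨Matrix.of d, by ext i j; simp [hd]⟩
  obtain ⟨M, hM⟩ := h6
  have hpp : ∀ X : Matrix (Fin 2) (Fin 2) (ZMod (p ^ 2)), p • p • X = 0 := by
    intro X
    ext i j
    rw [← mul_smul, ← sq]
    simp [nsmul_eq_mul, ← Nat.cast_pow]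
  have h7 : N ^ 4 = 0 := by
    rw [show 4 = 2 + 2 from rfl, pow_add, hM, smul_mul_assoc, mul_smul_comm, hpp]
  rw [one_add_pow h7] at h
  obtain ⟨a, ha⟩ := Grp.CommPow.dvd_choose_two (hp.out.odd_of_ne_two (by omega))
  obtain ⟨b, hb⟩ := Grp.CommPow.prime_dvd_choose_three hp.out h3
  rw [ha, hb, pow_succ N 2, hM, smul_mul_assoc, mul_smul, mul_smul, smul_comm a, smul_comm b,
    hpp, hpp] at h
  simpa using h

/-- Let p > 3 be a prime and L the direct product of two cyclic groups of order p². Every automorphism of L of order p fixes every element of order p of L. -/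
theorem result {p : ℕ} [Fact p.Prime] (hp : 3 < p)
    (a : MulAut (Multiplicative (ZMod (p ^ 2) × ZMod (p ^ 2)))) (ha : orderOf a = p)
    (x : Multiplicative (ZMod (p ^ 2) × ZMod (p ^ 2))) (hx : orderOf x = p) : a x = x := by
  let F : MulAut (Multiplicative (ZMod (p ^ 2) × ZMod (p ^ 2))) →*
      Module.End (ZMod (p ^ 2)) (ZMod (p ^ 2) × ZMod (p ^ 2)) :=
    { toFun := fun b => AddMonoidHom.toZModLinearMap (p ^ 2)
        { toFun := fun v => (b (Multiplicative.ofAdd v)).toAdd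
          map_zero' := by simp
          map_add' := fun u v => by rw [ofAdd_add, map_mul, toAdd_mul] }
      map_one' := by ext <;> simp
      map_mul' := fun b c => LinearMap.ext fun v => rfl }
  have hF : ∀ b v, F b v = (b (Multiplicative.ofAdd v)).toAdd := fun _ _ => rfl
  let E := LinearMap.toMatrixAlgEquiv (Module.Basis.finTwoProd (ZMod (p ^ 2)))
  have h1 := matrix_case hp (E (F a - 1)) (by
    rw [map_sub, map_one, add_sub_cancel, ← map_pow, ← map_pow,
      orderOf_dvd_iff_pow_eq_one.1 ha.dvd, map_one, map_one])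
  rw [← map_nsmul, map_eq_zero_iff _ E.injective] at h1
  have h2 : p • x.toAdd = 0 := by
    rw [← toAdd_pow, orderOf_dvd_iff_pow_eq_one.1 hx.dvd, toAdd_one]
  obtain ⟨c, hc⟩ := exists_eq_mul' (congrArg Prod.fst h2)
  obtain ⟨d, hd⟩ := exists_eq_mul' (congrArg Prod.snd h2)
  have h3 : x.toAdd = p • (c, d) := Prod.ext (by simp [hc]) (by simp [hd])
  have h4 : (F a - 1) x.toAdd = 0 := by
    rw [h3, map_nsmul, ← LinearMap.smul_apply, h1, LinearMap.zero_apply]
  rw [LinearMap.sub_apply, sub_eq_zero, hF] at h4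
  exact Multiplicative.toAdd.injective h4

end Cfsg.Agent.S4080
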