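import Cfsg.Statements.S4081
import Mathlib
import Cfsg.Agent.FGS.PrimRootModule
import Cfsg.Agent.PLocal.ElemAb
import Cfsg.Agent.Char.Burnside
import Cfsg.Agent.Grp.Fitting
import Cfsg.Agent.Solv.Coprime3

set_option autoImplicit false
open Cfsg

namespace Cfsg.Agent.S4081

open Cfsg.Agent.PLocal

variable {G : Type*} [Group G]

theorem exists_aut [Finite G] {P Q : Subgroup G} [P.Normal] (h : P.IsComplement' Q)
    (σ : P →* G) (τ : Q →* G) (hσ : P ≤ σ.range) (hτ : Q ≤ τ.range)
    (hc : ∀ (y : Q) (v w : P), (w : G) = y * v * (y : G)⁻¹ → σ w = τ y * σ v * (τ y)⁻¹) :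
    ∃ α : MulAut G, (∀ v : P, α v = σ v) ∧ ∀ y : Q, α y = τ y := by
  let e := SemidirectProduct.mulEquivSubgroup h
  let F := (SemidirectProduct.lift σ τ (φ := (P.normalizerMonoidHom).comp
    (Subgroup.inclusion (P.normalizer_eq_top ▸ le_top))) (fun y => by
      ext v
      exact hc y v _ rfl)).comp e.symm.toMonoidHom
  have h1 : ∀ v : P, F v = σ v := by
    intro v
    have : e.symm v = SemidirectProduct.inl v := by
      rw [MulEquiv.symm_apply_eq]; simp [e]
    simp [F, this]
  have h2 : ∀ y : Q, F y = τ y := by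
    intro y
    have : e.symm y = SemidirectProduct.inr y := by
      rw [MulEquiv.symm_apply_eq]; simp [e]
    simp [F, this]
  have hs : Function.Surjective F := by
    rw [← MonoidHom.range_eq_top, eq_top_iff, ← h.sup_eq_top]
    refine sup_le (fun x hx => ?_) (fun x hx => ?_)
    · obtain ⟨v, rfl⟩ := hσ hx
      exact ⟨v, h1 v⟩
    · obtain ⟨v, rfl⟩ := hτ hx
      exact ⟨v, h2 v⟩
  exact ⟨MulEquiv.ofBijective F ⟨Finite.injective_iff_surjective.2 hs, hs⟩, h1, h2⟩

theorem val_conj_pow {p : ℕ} {V : Subgroup G} (hV : IsElementaryAbelian p V) {x : G}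
    (hx : x ∈ Subgroup.normalizer (V : Set G)) (k : ℕ) (v : EA hV) :
    ((EA.conjMap hV x hx ^ k) v).val = x ^ k * v.val * (x ^ k)⁻¹ := by
  induction k with
  | zero => simp
  | succ k ih =>
    rw [pow_succ', Module.End.mul_apply, EA.val_conjMap, ih, pow_succ']
    group

theorem conj_pow_eq_one {p q : ℕ} {V : Subgroup G} (hV : IsElementaryAbelian p V) {x : G}
    (hx : x ∈ Subgroup.normalizer (V : Set G)) (hq : orderOf x = q) :
    EA.conjMap hV x hx ^ q = 1 := by
  ext v
  rw [val_conj_pow, ← hq, pow_orderOf_eq_one]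
  simp

theorem conj_fpf {p q : ℕ} [Fact p.Prime] {V : Subgroup G} (hV : IsElementaryAbelian p V) {x : G}
    (hx : x ∈ Subgroup.normalizer (V : Set G)) (hq : orderOf x = q)
    (hf : ∀ x y : G, orderOf x = q → orderOf y = p → x * y * x⁻¹ ≠ y) (v : EA hV)
    (h : EA.conjMap hV x hx v = v) : v = 0 := by
  by_contra hv
  refine hf x v.val hq (orderOf_eq_prime (hV.2 _ v.val_mem) fun e => hv (EA.val_eq_one_iff.1 e)) ?_
  rw [← EA.val_conjMap x hx, h]

theorem card_eq_three_iff {p q : ℕ} (hp : p.Prime) (hq : q.Prime) (hpq : p ≠ q) {a b : G}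
    (ha : orderOf a = p) (hb : orderOf b = q) :
    Nat.card (MulAction.orbitRel.Quotient (MulAut G) G) = 3 ↔
      ∀ g : G, g = 1 ∨ (∃ α : MulAut G, α a = g) ∨ ∃ α : MulAut G, α b = g := by
  classical
  let mk : G → MulAction.orbitRel.Quotient (MulAut G) G := Quotient.mk _
  have hmk : ∀ x y : G, mk x = mk y ↔ ∃ α : MulAut G, α y = x := fun x y =>
    Quotient.eq.trans MulAction.mem_orbit_iff
  have ho : ∀ x y : G, mk x = mk y → orderOf x = orderOf y := by
    intro x y h
    obtain ⟨α, rfl⟩ := (hmk x y).1 h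
    exact α.orderOf_eq y
  have h1 : mk 1 ≠ mk a := fun h => hp.one_lt.ne (by simpa [ha] using ho _ _ h)
  have h2 : mk 1 ≠ mk b := fun h => hq.one_lt.ne (by simpa [hb] using ho _ _ h)
  have h3 : mk a ≠ mk b := fun h => hpq (by simpa [ha, hb] using ho _ _ h)
  have hc : ({mk 1, mk a, mk b} : Set _).ncard = 3 := Set.ncard_eq_three.2 ⟨_, _, _, h1, h2, h3, rfl⟩
  have key : ({mk 1, mk a, mk b} : Set _) = Set.univ ↔
      ∀ g : G, g = 1 ∨ (∃ α : MulAut G, α a = g) ∨ ∃ α : MulAut G, α b = g := by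
    rw [Set.eq_univ_iff_forall]
    constructor
    · intro h g
      have := h (mk g)
      simp only [Set.mem_insert_iff, Set.mem_singleton_iff, hmk, map_one] at this
      rcases this with ⟨_, h⟩ | h | h
      · exact Or.inl h.symm
      · exact Or.inr (Or.inl h)
      · exact Or.inr (Or.inr h)
    · intro h c
      obtain ⟨g, rfl⟩ := Quotient.mk_surjective c
      change mk g ∈ _
      simp only [Set.mem_insert_iff, Set.mem_singleton_iff, hmk, map_one]
      rcases h g with h | h | h
      · exact Or.inl ⟨1, h.symm⟩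
      · exact Or.inr (Or.inl h)
      · exact Or.inr (Or.inr h)
  rw [← key]
  constructor
  · intro h
    haveI : Finite (MulAction.orbitRel.Quotient (MulAut G) G) :=
      Nat.finite_of_card_ne_zero (by omega)
    exact Set.eq_of_subset_of_ncard_le (Set.subset_univ _) (by rw [Set.ncard_univ, h, hc])
  · intro h
    rw [← Set.ncard_univ, ← h, hc]

theorem exists_conj_pow [Finite G] {p q n : ℕ} [hp : Fact p.Prime] [hq : Fact q.Prime] (hpq : p ≠ q)
    (hc : Nat.card G = p ^ n * q) {x g : G} (hx : orderOf x = q) (hg : orderOf g = q) :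
    ∃ (h : G) (i : ℕ), h * g * h⁻¹ = x ^ i := by
  have hf : (Nat.card G).factorization q = 1 := by
    rw [hc, Nat.factorization_mul (pow_ne_zero _ hp.out.ne_zero) hq.out.ne_zero,
      Nat.factorization_pow, hp.out.factorization, hq.out.factorization]
    simp [hpq]
  let X : Sylow q G := Sylow.ofCard (Subgroup.zpowers x) (by rw [hf, Nat.card_zpowers, hx, pow_one])
  let Y : Sylow q G := Sylow.ofCard (Subgroup.zpowers g) (by rw [hf, Nat.card_zpowers, hg, pow_one])
  obtain ⟨h, hh⟩ := MulAction.exists_smul_eq G Y X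
  have : h * g * h⁻¹ ∈ (X : Subgroup G) := by
    rw [← hh]
    exact ⟨g, Subgroup.mem_zpowers g, rfl⟩
  obtain ⟨i, hi⟩ := (mem_powers_iff_mem_zpowers.2 this : h * g * h⁻¹ ∈ Submonoid.powers x)
  exact ⟨h, i, hi.symm⟩

theorem isComplement_zpowers [Finite G] {p q n : ℕ} [hp : Fact p.Prime] [hq : Fact q.Prime]
    (hpq : p ≠ q) (hc : Nat.card G = p ^ n * q) (P : Sylow p G) {x : G} (hx : orderOf x = q) :
    (P : Subgroup G).IsComplement' (Subgroup.zpowers x) := by
  have hf : (Nat.card G).factorization p = n := by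
    rw [hc, Nat.factorization_mul (pow_ne_zero _ hp.out.ne_zero) hq.out.ne_zero,
      Nat.factorization_pow, hp.out.factorization, hq.out.factorization]
    simp [hpq]
  have hP : Nat.card P = p ^ n := by rw [P.card_eq_multiplicity, hf]
  refine Subgroup.isComplement'_of_coprime ?_ ?_
  · rw [hP, Nat.card_zpowers, hx, hc]
  · rw [hP, Nat.card_zpowers, hx]
    exact Nat.Coprime.pow_left _ ((Nat.coprime_primes hp.out hq.out).2 hpq)

theorem backward [Finite G] {p q n : ℕ} [hp : Fact p.Prime] [hq : Fact q.Prime] (hpq : p ≠ q)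
    (hc : Nat.card G = p ^ n * q)
    (hP : ∀ P : Sylow p G, (P : Subgroup G).Normal ∧ IsElementaryAbelian p (P : Subgroup G))
    (ho : orderOf (p : ZMod q) = q - 1)
    (hf : ∀ x y : G, orderOf x = q → orderOf y = p → x * y * x⁻¹ ≠ y) {a x : G}
    (ha : orderOf a = p) (hx : orderOf x = q) (g : G) :
    g = 1 ∨ (∃ α : MulAut G, α a = g) ∨ ∃ α : MulAut G, α x = g := by
  obtain ⟨P⟩ : Nonempty (Sylow p G) := inferInstance
  obtain ⟨hn, hV⟩ := hP P
  have hxn : x ∈ Subgroup.normalizer ((P : Subgroup G) : Set G) :=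
    Subgroup.le_normalizer_of_normal (K := ⊤) (Subgroup.mem_top x)
  have hcomp := isComplement_zpowers hpq hc P hx
  obtain ⟨t1, σ2, t2⟩ := FGS.exists_equiv_of_orderOf_eq hpq ho (conj_pow_eq_one hV hxn hx)
    (conj_fpf hV hxn hx hf)
  have build : ∀ (σ : EA hV ≃+ EA hV) (k : ℕ), k.Coprime q →
      (∀ u, σ (EA.conjMap hV x hxn u) = (EA.conjMap hV x hxn ^ k) (σ u)) →
      ∃ α : MulAut G, (∀ v : EA hV, α v.val = (σ v).val) ∧ α x = x ^ k := by
    intro σ k hk hσ
    let s : (P : Subgroup G) →* G :=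
      { toFun := fun v => (σ (EA.of hV v v.2)).val
        map_one' := by
          have : EA.of hV (1 : (P : Subgroup G)) (1 : (P : Subgroup G)).2 = 0 :=
            EA.ext (by rw [EA.val_of, EA.val_zero]; rfl)
          rw [this, map_zero, EA.val_zero]
        map_mul' := fun v w => by
          rw [← EA.val_add, ← map_add]
          congr 2 }
    let τ : Subgroup.zpowers x →* G :=
      { toFun := fun y => (y : G) ^ k
        map_one' := by simp
        map_mul' := by
          rintro ⟨_, i, rfl⟩ ⟨_, j, rfl⟩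
          exact (Commute.zpow_zpow_self x i j).mul_pow k }
    have hσi : ∀ (i : ℕ) (u : EA hV), σ ((EA.conjMap hV x hxn ^ i) u) =
        (EA.conjMap hV x hxn ^ (k * i)) (σ u) := by
      intro i
      induction i with
      | zero => intro u; simp
      | succ i ih =>
        intro u
        rw [pow_succ, Module.End.mul_apply, ih, hσ, mul_add, mul_one, pow_add, Module.End.mul_apply]
    refine (exists_aut hcomp s τ (fun y hy => ?_) ?_ ?_).imp fun α h =>
      ⟨fun v => h.1 ⟨v.val, v.val_mem⟩, h.2 ⟨x, Subgroup.mem_zpowers x⟩⟩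
    · refine ⟨⟨(σ.symm (EA.of hV y hy)).val, EA.val_mem _⟩, ?_⟩
      change (σ (EA.of hV _ _)).val = y
      rw [EA.of_val, AddEquiv.apply_symm_apply, EA.val_of]
    · rw [Subgroup.zpowers_le]
      obtain ⟨m, hm⟩ := exists_pow_eq_self_of_coprime (x := x) (n := k) (by rwa [hx])
      refine ⟨⟨x, Subgroup.mem_zpowers x⟩ ^ m, ?_⟩
      rw [map_pow]
      exact hm
    · rintro ⟨y, hy⟩ v w hw
      obtain ⟨i, rfl⟩ := (mem_powers_iff_mem_zpowers.2 hy : y ∈ Submonoid.powers x)
      have e : EA.of hV w w.2 = (EA.conjMap hV x hxn ^ i) (EA.of hV v v.2) :=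
        EA.ext (by rw [val_conj_pow, EA.val_of, EA.val_of]; exact hw)
      change (σ (EA.of hV w w.2)).val = (x ^ i) ^ k * (σ (EA.of hV v v.2)).val * ((x ^ i) ^ k)⁻¹
      rw [e, hσi, val_conj_pow, ← pow_mul, mul_comm i k]
  have memP : ∀ y : G, orderOf y = p → y ∈ (P : Subgroup G) := by
    intro y hy
    have h1 : IsPGroup p (Subgroup.zpowers y) :=
      IsPGroup.of_card (n := 1) (by rw [Nat.card_zpowers, hy, pow_one])
    obtain ⟨P', hP'⟩ := h1.exists_le_sylow
    haveI := Sylow.unique_of_normal P hn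
    rw [Subsingleton.elim P P']
    exact hP' (Subgroup.mem_zpowers y)
  by_cases hg1 : g = 1
  · exact Or.inl hg1
  right
  by_cases hgP : g ∈ (P : Subgroup G)
  · left
    obtain ⟨σ, h1, h2⟩ := t1 (EA.of hV a (memP a ha)) (EA.of hV g hgP)
      (fun e => hp.out.one_lt.ne' (by
        rw [← ha, orderOf_eq_one_iff]
        exact EA.val_eq_one_iff.2 e))
      (fun e => hg1 (EA.val_eq_one_iff.2 e))
    obtain ⟨α, h3, -⟩ := build σ 1 (Nat.coprime_one_left q) (by simpa using h2)
    refine ⟨α, ?_⟩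
    have := h3 (EA.of hV a (memP a ha))
    rwa [h1, EA.val_of, EA.val_of] at this
  right
  have hco : p.Coprime q := (Nat.coprime_primes hp.out hq.out).2 hpq
  have hi : (P : Subgroup G).index = q := by
    rw [hcomp.symm.index_eq_card, Nat.card_zpowers, hx]
  have hgq : g ^ q ∈ (P : Subgroup G) := hi ▸ Subgroup.pow_index_mem _ g
  have hgq1 : g ^ q = 1 := by
    by_contra hne
    have e1 : (g ^ p) ^ q = 1 := by
      rw [← pow_mul, mul_comm, pow_mul]; exact hV.2 _ hgq
    have e2 : g ^ p ≠ 1 := fun e => hgP (memP g (orderOf_eq_prime e hg1))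
    refine hf (g ^ p) (g ^ q) (orderOf_eq_prime e1 e2) (orderOf_eq_prime (hV.2 _ hgq) hne) ?_
    rw [(Commute.pow_pow_self g p q).eq, mul_inv_cancel_right]
  have hgo : orderOf g = q := orderOf_eq_prime hgq1 hg1
  obtain ⟨h, i, hi⟩ := exists_conj_pow hpq hc hx hgo
  obtain ⟨β, -, hβ⟩ := build σ2 p hco t2
  have hβj : ∀ j : ℕ, (β ^ j) x = x ^ p ^ j := by
    intro j
    induction j with
    | zero => simp
    | succ j ih => rw [pow_succ, MulAut.mul_apply, hβ, map_pow, ih, ← pow_mul, pow_succ]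
  have hi0 : (i : ZMod q) ≠ 0 := by
    rw [Ne, ZMod.natCast_eq_zero_iff, ← hx, orderOf_dvd_iff_pow_eq_one, ← hi]
    intro e
    exact hg1 (by simpa using e)
  let u : (ZMod q)ˣ := ZMod.unitOfCoprime p hco
  have hu : Subgroup.zpowers u = ⊤ := by
    apply Subgroup.eq_top_of_card_eq
    rw [Nat.card_zpowers, ← orderOf_units, ZMod.coe_unitOfCoprime, ho, Nat.card_eq_fintype_card,
      ZMod.card_units]
  have hmem : Units.mk0 (i : ZMod q) hi0 ∈ Subgroup.zpowers u := hu ▸ Subgroup.mem_top _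
  obtain ⟨j, hj⟩ := (mem_powers_iff_mem_zpowers.2 hmem : _ ∈ Submonoid.powers u)
  have hj' : p ^ j ≡ i [MOD q] := by
    rw [← ZMod.natCast_eq_natCast_iff]
    have := congrArg Units.val hj
    simpa [u] using this
  refine ⟨MulAut.conj h⁻¹ * β ^ j, ?_⟩
  rw [MulAut.mul_apply, hβj, pow_eq_pow_iff_modEq.2 (hx ▸ hj'), ← hi]
  simp [mul_assoc]

theorem forward [Finite G] {p q : ℕ} [hp : Fact p.Prime] [hq : Fact q.Prime] (hpq : p ≠ q) {a x : G}
    (ha : orderOf a = p) (hx : orderOf x = q) (hO : pCore p G ≠ ⊥)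
    (h : ∀ g : G, g = 1 ∨ (∃ α : MulAut G, α a = g) ∨ ∃ α : MulAut G, α x = g) :
    ∃ n : ℕ, 1 ≤ n ∧ Nat.card G = p ^ n * q ∧
      (∀ P : Sylow p G, (P : Subgroup G).Normal ∧ IsElementaryAbelian p (P : Subgroup G)) ∧
      orderOf (p : ZMod q) = q - 1 ∧
      ∀ x y : G, orderOf x = q → orderOf y = p → x * y * x⁻¹ ≠ y := by
  have hco : p.Coprime q := (Nat.coprime_primes hp.out hq.out).2 hpq
  have ord : ∀ g : G, g = 1 ∨ orderOf g = p ∨ orderOf g = q := by
    intro g
    rcases h g with h | ⟨α, rfl⟩ | ⟨α, rfl⟩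
    · exact Or.inl h
    · exact Or.inr (Or.inl ((α.orderOf_eq a).trans ha))
    · exact Or.inr (Or.inr ((α.orderOf_eq x).trans hx))
  have tp : ∀ g : G, orderOf g = p → ∃ α : MulAut G, α a = g := by
    intro g hg
    rcases h g with rfl | h | ⟨α, rfl⟩
    · exact absurd (by simpa using hg) hp.out.one_lt.ne
    · exact h
    · exact absurd (hg.symm.trans ((α.orderOf_eq x).trans hx)) hpq
  have tq : ∀ g : G, orderOf g = q → ∃ α : MulAut G, α x = g := by
    intro g hg
    rcases h g with rfl | ⟨α, rfl⟩ | h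
    · exact absurd (by simpa using hg) hq.out.one_lt.ne
    · exact absurd (((α.orderOf_eq a).trans ha).symm.trans hg) hpq
    · exact h
  have pel : ∀ {U : Subgroup G}, IsPGroup p U → ∀ y ∈ U, y ≠ 1 → orderOf y = p := by
    intro U hU y hy hy1
    rcases ord y with h | h | h
    · exact absurd h hy1
    · exact h
    · obtain ⟨k, hk⟩ := hU ⟨y, hy⟩
      have : q ∣ p ^ k := h ▸ orderOf_dvd_of_pow_eq_one (congrArg Subtype.val hk)
      exact absurd ((Nat.prime_dvd_prime_iff_eq hq.out hp.out).1 (hq.out.dvd_of_dvd_pow this))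
        hpq.symm
  have hf : ∀ x y : G, orderOf x = q → orderOf y = p → x * y * x⁻¹ ≠ y := by
    intro x y hx hy e
    have hc : Commute x y := mul_inv_eq_iff_eq_mul.1 e
    have := hc.orderOf_mul_eq_mul_orderOf_of_coprime (by rw [hx, hy]; exact hco.symm)
    rw [hx, hy] at this
    have h1 := hp.out.one_lt
    have h2 := hq.out.one_lt
    rcases ord (x * y) with h | h | h
    · rw [h, orderOf_one] at this; nlinarith
    · rw [h] at this; nlinarith
    · rw [h] at this; nlinarith
  set N := pCore p G with hN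
  have hNp : IsPGroup p N := Grp.pCore_isPGroup p G
  haveI : Nontrivial N := (Subgroup.nontrivial_iff_ne_bot N).2 hO
  let C : Subgroup G := N ⊓ Subgroup.centralizer (N : Set G)
  haveI : C.Characteristic := inferInstance
  have hC : ∀ y : G, orderOf y = p → y ∈ C := by
    obtain ⟨⟨z, hz⟩, hz1⟩ := Subgroup.ne_bot_iff_exists_ne_one.1
      ((Subgroup.nontrivial_iff_ne_bot _).1 hNp.center_nontrivial)
    have hz1' : (z : G) ≠ 1 := fun e => hz1 (Subtype.ext (Subtype.ext e))
    have hzC : (z : G) ∈ C := ⟨z.2, fun w hw =>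
      congrArg Subtype.val (Subgroup.mem_center_iff.1 hz ⟨w, hw⟩)⟩
    obtain ⟨α, hα⟩ := tp z (pel hNp z z.2 hz1')
    intro y hy
    obtain ⟨β, rfl⟩ := tp y hy
    have : β a = (β * α⁻¹) z := by rw [← hα]; simp
    rw [this]
    exact (Subgroup.characteristic_iff_map_le.1 inferInstance (β * α⁻¹)) ⟨z, hzC, rfl⟩
  have hPN : ∀ P : Sylow p G, (P : Subgroup G) = N ∧ (P : Subgroup G) ≤ C := by
    intro P
    have h1 : (P : Subgroup G) ≤ C := fun y hy => by
      by_cases hy1 : y = 1
      · rw [hy1]; exact C.one_mem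
      · exact hC y (pel P.isPGroup' y hy hy1)
    exact ⟨(P.is_maximal' hNp (h1.trans inf_le_left)).symm, h1⟩
  have hP : ∀ P : Sylow p G, (P : Subgroup G).Normal ∧ IsElementaryAbelian p (P : Subgroup G) := by
    intro P
    refine ⟨(hPN P).1 ▸ inferInstance, ⟨⟨fun u v => Subtype.ext ?_⟩⟩, fun y hy => ?_⟩
    · exact ((hPN P).2 v.2).2 u ((hPN P).1 ▸ u.2)
    · by_cases hy1 : y = 1
      · rw [hy1, one_pow]
      · rw [← pel P.isPGroup' y hy hy1, pow_orderOf_eq_one]
  obtain ⟨P⟩ : Nonempty (Sylow p G) := inferInstance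
  obtain ⟨hn, hV⟩ := hP P
  obtain ⟨n, hn'⟩ := IsPGroup.iff_card.1 P.isPGroup'
  have haP : a ∈ (P : Subgroup G) := (hPN P).1 ▸ (hC a ha).1
  have ha1 : a ≠ 1 := fun e => hp.out.one_lt.ne (by simpa [e] using ha)
  have hq2 : ¬ q ^ 2 ∣ Nat.card G := by
    intro hd
    obtain ⟨E, hE⟩ := Sylow.exists_subgroup_card_pow_prime q hd
    haveI := IsPGroup.isMulCommutative_of_card_eq_prime_sq hE
    have hnc : ¬ IsCyclic E := by
      intro hcy
      obtain ⟨g, hg⟩ := IsCyclic.exists_ofOrder_eq_natCard (α := E)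
      rw [hE, ← Subgroup.orderOf_coe] at hg
      have h2 := hq.out.one_lt
      rcases ord g with h | h | h
      · rw [h, orderOf_one] at hg; nlinarith
      · have : q ∣ p := h ▸ hg ▸ dvd_pow_self q two_ne_zero
        exact hpq ((Nat.prime_dvd_prime_iff_eq hq.out hp.out).1 this).symm
      · rw [h] at hg; nlinarith
    have := Solv.le_of_centralizers_le E P hnc Subgroup.le_normalizer_of_normal
      (by rw [hE, hn']; exact Nat.Coprime.pow _ _ hco.symm) ⊥ (fun e he he1 y hy => by
        by_contra hy1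
        have heo : orderOf e = q := by
          rcases ord e with h | h | h
          · exact absurd h he1
          · have : p ∣ q ^ 2 := h ▸ hE ▸ E.orderOf_dvd_natCard he
            exact absurd ((Nat.prime_dvd_prime_iff_eq hp.out hq.out).1
              (hp.out.dvd_of_dvd_pow this)) hpq
          · exact h
        refine hf e y heo (pel P.isPGroup' y hy.1 hy1) ?_
        rw [← Subgroup.mem_centralizer_singleton_iff.1 hy.2, mul_inv_cancel_right])
    exact ha1 (this haP)
  have hi : (P : Subgroup G).index = q := by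
    have h1 : (P : Subgroup G).index = q ^ _ :=
      Nat.eq_prime_pow_of_unique_prime_dvd Subgroup.index_ne_zero_of_finite (fun {r} hr hd => by
        haveI := Fact.mk hr
        obtain ⟨y, hy⟩ := exists_prime_orderOf_dvd_card' r (hd.trans (Subgroup.index_dvd_card _))
        rcases ord y with h | h | h
        · rw [h, orderOf_one] at hy; exact absurd hy hr.one_lt.ne
        · exact absurd ((hy.symm.trans h) ▸ hd) P.not_dvd_index
        · exact hy.symm.trans h)
    generalize ((P : Subgroup G).index.primeFactorsList.length) = m at h1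
    rcases m with _ | _ | m
    · exfalso
      have : q ∣ Nat.card G := hx ▸ orderOf_dvd_natCard x
      rw [← (P : Subgroup G).card_mul_index, h1, hn', pow_zero, mul_one] at this
      exact hpq ((Nat.prime_dvd_prime_iff_eq hq.out hp.out).1 (hq.out.dvd_of_dvd_pow this)).symm
    · simpa using h1
    · exact absurd ((pow_dvd_pow q (by omega)).trans (h1 ▸ Subgroup.index_dvd_card _)) hq2
  have hc : Nat.card G = p ^ n * q := by rw [← (P : Subgroup G).card_mul_index, hn', hi]
  refine ⟨n, ?_, hc, hP, ?_, hf⟩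
  · rcases n with _ | n
    · rw [pow_zero, Subgroup.card_eq_one] at hn'
      exact absurd (Subgroup.mem_bot.1 (hn' ▸ haP)) ha1
    · omega
  have hxn : x ∈ Subgroup.normalizer ((P : Subgroup G) : Set G) :=
    Subgroup.le_normalizer_of_normal (K := ⊤) (Subgroup.mem_top x)
  have hcomp := isComplement_zpowers hpq hc P hx
  haveI : Nontrivial (EA hV) := ⟨⟨EA.of hV a haP, 0, fun e => ha1 (EA.val_eq_one_iff.2 e)⟩⟩
  have res : ∀ α : MulAut G, ∃ σ : Module.End (ZMod p) (EA hV), Function.Injective σ ∧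
      (∀ v, (σ v).val = α v.val) ∧ ∀ u ∈ (P : Subgroup G), ∀ k : ℕ, α x = u * x ^ k →
        ∀ v, σ (EA.conjMap hV x hxn v) = (EA.conjMap hV x hxn ^ k) (σ v) := by
    intro α
    have hmem : ∀ v : EA hV, α v.val ∈ (P : Subgroup G) := fun v => by
      exact (hPN P).1.ge ((Subgroup.characteristic_iff_map_le.1 inferInstance α)
        ⟨_, (hPN P).1.le v.val_mem, rfl⟩)
    let s : EA hV →+ EA hV :=
      { toFun := fun v => EA.of hV (α v.val) (hmem v)
        map_zero' := EA.ext (by rw [EA.val_of, EA.val_zero, map_one])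
        map_add' := fun v w => EA.ext (by
          rw [EA.val_of, EA.val_add, EA.val_add, EA.val_of, EA.val_of, map_mul]) }
    have hs : ∀ v, (s.toZModLinearMap p v).val = α v.val := fun v => rfl
    refine ⟨s.toZModLinearMap p, fun v w e => EA.ext (α.injective (by rw [← hs, ← hs, e])), hs,
      fun u hu k hk v => EA.ext ?_⟩
    have hm := EA.val_mem ((EA.conjMap hV x hxn ^ k) (s.toZModLinearMap p v))
    rw [val_conj_pow] at hm ⊢
    rw [hs, EA.val_conjMap, map_mul, map_mul, map_inv, hk, ← hs]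
    have := elemAb_comm hV hu hm
    calc _ = u * (x ^ k * (s.toZModLinearMap p v).val * (x ^ k)⁻¹) * u⁻¹ := by group
      _ = _ := by rw [this, mul_inv_cancel_right]
  refine FGS.orderOf_eq_of_transitive hpq (conj_pow_eq_one hV hxn hx) (conj_fpf hV hxn hx hf)
    (fun v w hv hw => ?_) (fun k hk0 hk => ?_)
  · obtain ⟨α, hα⟩ := tp v.val (pel P.isPGroup' _ v.val_mem fun e => hv (EA.val_eq_one_iff.1 e))
    obtain ⟨β, hβ⟩ := tp w.val (pel P.isPGroup' _ w.val_mem fun e => hw (EA.val_eq_one_iff.1 e))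
    obtain ⟨σ, h1, h2, h3⟩ := res (β * α⁻¹)
    obtain ⟨⟨⟨u, hu⟩, ⟨y, hy⟩⟩, e⟩ := hcomp.2 ((β * α⁻¹) x)
    obtain ⟨k, rfl⟩ := (mem_powers_iff_mem_zpowers.2 hy : y ∈ Submonoid.powers x)
    refine ⟨σ, k, h1, EA.ext ?_, h3 u hu k e.symm⟩
    rw [h2, ← hα, ← hβ]
    simp
  · obtain ⟨α, hα⟩ := tq (x ^ k) (by
      rw [← hx]
      exact Nat.Coprime.orderOf_pow (by
        rw [hx]; exact (Nat.coprime_of_lt_prime hk0.ne' hk hq.out)))
    obtain ⟨σ, h1, -, h3⟩ := res α
    exact ⟨σ, h1, h3 1 (one_mem _) k (by rw [hα, one_mul])⟩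

/-- Let G be a finite group whose order is not a prime power. Then the automorphism group of G has exactly three orbits on G if and only if there are distinct primes p, q with #G = pⁿ·q (n ≥ 1) such that G has a normal elementary abelian Sylow p-subgroup P, p is a primitive root modulo q (the multiplicative order of p mod q is q − 1), and every element of order q of G acts on P without non-identity fixed points. -/
theorem result {G : Type*} [Group G] [Finite G] (hnpp : ¬ IsPrimePow (Nat.card G)) (hnt : Nat.card G ≠ 1) :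
    Nat.card (MulAction.orbitRel.Quotient (MulAut G) G) = 3 ↔
    ∃ (p q n : ℕ) (_ : Fact p.Prime) (_ : Fact q.Prime), p ≠ q ∧ 1 ≤ n ∧ Nat.card G = p ^ n * q ∧
      (∀ P : Sylow p G, (P : Subgroup G).Normal ∧ Cfsg.IsElementaryAbelian p (P : Subgroup G)) ∧
      orderOf (p : ZMod q) = q - 1 ∧
      ∀ x y : G, orderOf x = q → orderOf y = p → x * y * x⁻¹ ≠ y := by
  constructor
  · intro h3
    obtain ⟨a, ha, had⟩ := Nat.exists_prime_and_dvd hnt
    have : ∃ b : ℕ, b.Prime ∧ b ∣ Nat.card G ∧ b ≠ a := by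
      by_contra hc
      push Not at hc
      exact hnpp (isPrimePow_iff_unique_prime_dvd.2 ⟨a, ⟨ha, had⟩, fun b hb => hc b hb.1 hb.2⟩)
    obtain ⟨b, hb, hbd, hba⟩ := this
    haveI := Fact.mk ha
    haveI := Fact.mk hb
    obtain ⟨x, hx⟩ := exists_prime_orderOf_dvd_card' a had
    obtain ⟨y, hy⟩ := exists_prime_orderOf_dvd_card' b hbd
    have h := (card_eq_three_iff ha hb hba.symm hx hy).1 h3
    have hpr : ∀ r : ℕ, r.Prime → r ∣ Nat.card G → r = a ∨ r = b := by
      intro r hr hd
      haveI := Fact.mk hr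
      obtain ⟨z, hz⟩ := exists_prime_orderOf_dvd_card' r hd
      rcases h z with rfl | ⟨α, rfl⟩ | ⟨α, rfl⟩
      · exact absurd (by simpa using hz) hr.one_lt.ne
      · exact Or.inl (hz.symm.trans ((α.orderOf_eq x).trans hx))
      · exact Or.inr (hz.symm.trans ((α.orderOf_eq y).trans hy))
    haveI : Group.IsSolvable G := by
      obtain ⟨A⟩ : Nonempty (Sylow a G) := inferInstance
      obtain ⟨i, hi⟩ := IsPGroup.iff_card.1 A.isPGroup'
      have h1 : (A : Subgroup G).index = b ^ _ :=
        Nat.eq_prime_pow_of_unique_prime_dvd Subgroup.index_ne_zero_of_finite (fun {r} hr hd =>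
          (hpr r hr (hd.trans (Subgroup.index_dvd_card _))).resolve_left
            fun e => A.not_dvd_index (e ▸ hd))
      exact Char.isSolvable_of_card_dvd_pow_mul_pow ha hb G
        (by rw [← (A : Subgroup G).card_mul_index, hi, h1])
    haveI : Nontrivial G := Finite.one_lt_card_iff_nontrivial.1
      (by have := Nat.card_pos (α := G); omega)
    obtain ⟨r, hr, hO⟩ := Grp.exists_pCore_ne_bot G
    haveI := Fact.mk hr
    have hrd : r ∣ Nat.card G := by
      obtain ⟨k, hk⟩ := IsPGroup.iff_card.1 (Grp.pCore_isPGroup r G)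
      rcases k with _ | k
      · rw [pow_zero, Subgroup.card_eq_one] at hk
        exact absurd hk hO
      · exact (dvd_pow_self r k.succ_ne_zero).trans (hk ▸ Subgroup.card_subgroup_dvd_card _)
    rcases hpr r hr hrd with rfl | rfl
    · obtain ⟨n, h'⟩ := forward hba.symm hx hy hO h
      exact ⟨r, b, n, inferInstance, inferInstance, hba.symm, h'⟩
    · obtain ⟨n, h'⟩ := forward hba hy hx hO (fun g => by have := h g; tauto)
      exact ⟨r, a, n, inferInstance, inferInstance, hba, h'⟩
  · rintro ⟨p, q, n, hp, hq, hpq, hn, hc, hP, ho, hf⟩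
    obtain ⟨a, ha⟩ := exists_prime_orderOf_dvd_card' (G := G) p
      (hc ▸ Dvd.dvd.mul_right (dvd_pow_self p (by omega)) q)
    obtain ⟨x, hx⟩ := exists_prime_orderOf_dvd_card' (G := G) q (hc ▸ Dvd.intro_left _ rfl)
    exact (card_eq_three_iff hp.out hq.out hpq ha hx).2 (backward hpq hc hP ho hf ha hx)

end Cfsg.Agent.S4081
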