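import Cfsg.Statements.S4085
import Mathlib
import Cfsg.Agent.Solv.FrobeniusAction

set_option autoImplicit false
open Cfsg

namespace Cfsg.Agent.S4085

open Subgroup

theorem card_order {G : Type*} [Group G] [Finite G] (a : G) {d : ℕ} (hd : d ∣ orderOf a) :
    Nat.card {y : G // y ∈ zpowers a ∧ orderOf y = d} = d.totient := by
  classical
  haveI := Fintype.ofFinite (zpowers a)
  rw [← IsCyclic.card_orderOf_eq_totient (α := zpowers a)
    (by rwa [Fintype.card_eq_nat_card, Nat.card_zpowers]), ← Fintype.card_subtype,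
    Fintype.card_eq_nat_card]
  exact Nat.card_congr ((Equiv.subtypeSubtypeEquivSubtypeInter _ _).symm.trans
    (Equiv.subtypeEquivRight fun y => by rw [orderOf_coe]))

theorem mem_iff_dvd {G : Type*} [Group G] [Finite G] {a c c' : G} (hc : c ∈ zpowers a)
    (hc' : c' ∈ zpowers a) : c ∈ zpowers c' ↔ orderOf c ∣ orderOf c' := by
  refine ⟨orderOf_dvd_of_mem_zpowers, fun h => ?_⟩
  obtain ⟨k, hk⟩ := Solv.Frob.mem_zpowers_of_orderOf_dvd (A := zpowers a) (x := ⟨c', hc'⟩)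
    (y := ⟨c, hc⟩) (by simpa using h)
  exact ⟨k, congrArg Subtype.val hk⟩

theorem exists_order {G : Type*} [Group G] [Finite G] (a : G) {d : ℕ} (hd : d ∣ orderOf a) :
    ∃ y ∈ zpowers a, orderOf y = d :=
  ⟨a ^ (orderOf a / d), pow_mem (mem_zpowers a) _,
    orderOf_pow_orderOf_div (orderOf_pos a).ne' hd⟩

theorem zpowers_eq_of_le {G : Type*} [Group G] [Finite G] {a b : G} (h : a ∈ zpowers b)
    (h2 : orderOf b ≤ orderOf a) : zpowers a = zpowers b :=
  eq_of_le_of_card_ge ((zpowers_le).2 h) (by rwa [Nat.card_zpowers, Nat.card_zpowers])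

theorem links {n p q : ℕ} (hn : n ≠ 0) (hp : p.Prime) (hq : q.Prime) (hpq : p ≠ q) (h1 : p ∣ n)
    (h2 : q ∣ n) (R : ℕ → ℕ → Prop) (htr : ∀ a b c, R a b → R b c → R a c)
    (hl : ∀ a b, a ∣ n → b ∣ n → ¬ a ∣ b → ¬ b ∣ a → R a b) {d : ℕ} (hd : d ∣ n) (hd1 : d ≠ 1)
    (hdn : d ≠ n) : R d p := by
  have hpr : ∀ r s : ℕ, r.Prime → s.Prime → r ≠ s → r ∣ n → s ∣ n → R r s := fun r s hr hs hne a b =>
    hl r s a b (fun h => hne ((Nat.prime_dvd_prime_iff_eq hr hs).1 h))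
      (fun h => hne ((Nat.prime_dvd_prime_iff_eq hs hr).1 h).symm)
  have hp' : ∀ r : ℕ, r.Prime → r ∣ n → R r p := by
    intro r hr hrn
    by_cases h : r = p
    · subst h
      exact htr _ _ _ (hpr _ _ hr hq hpq hrn h2) (hpr _ _ hq hr hpq.symm h2 hrn)
    · exact hpr _ _ hr hp h hrn h1
  by_cases h : ∃ r : ℕ, r.Prime ∧ r ∣ n ∧ ¬ r ∣ d
  · obtain ⟨r, hr, hrn, hrd⟩ := h
    refine htr _ _ _ (hl d r hd hrn (fun hh => ?_) hrd) (hp' r hr hrn)
    rcases (Nat.dvd_prime hr).1 hh with h3 | h3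
    · exact hd1 h3
    · exact hrd (h3 ▸ dvd_rfl)
  push Not at h
  have h3 : ¬ n ∣ d := fun hh => hdn (Nat.dvd_antisymm hd hh)
  rw [Nat.dvd_iff_prime_pow_dvd_dvd] at h3
  push Not at h3
  obtain ⟨r, k, hr, hrn, hrd⟩ := h3
  obtain ⟨s, hs, hsn, hsr⟩ : ∃ s : ℕ, s.Prime ∧ s ∣ n ∧ s ≠ r := by
    by_cases h4 : p = r
    · exact ⟨q, hq, h2, h4 ▸ hpq.symm⟩
    · exact ⟨p, hp, h1, h4⟩
  have h5 : ¬ s ∣ r ^ k := fun hh => hsr ((Nat.prime_dvd_prime_iff_eq hs hr).1 (hs.dvd_of_dvd_pow hh))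
  refine htr _ _ _ (hl d (r ^ k) hd hrn (fun hh => h5 ((h s hs hsn).trans hh)) hrd)
    (htr _ _ _ (hl _ s hrn hsn (fun hh => ?_) h5) (hp' s hs hsn))
  exact hrd (hh.trans (h s hs hsn))

theorem main {G H : Type*} [Group G] [Finite G] [Group H] [Finite H] (e : G ≃ H)
    (he : ∀ x y : G, (x ∈ Subgroup.zpowers y ∨ y ∈ Subgroup.zpowers x) ↔
      (e x ∈ Subgroup.zpowers (e y) ∨ e y ∈ Subgroup.zpowers (e x)))
    {p q : ℕ} (hp : p.Prime) (hq : q.Prime) (hpq : p < q) (hG : ∃ g : G, orderOf g = p * q) :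
    ∃ h : H, orderOf h = p * q := by
  obtain ⟨g₀, hg₀⟩ := hG
  obtain ⟨x, hx, hmax⟩ := Set.Finite.exists_maximalFor (orderOf : G → ℕ)
    {x : G | p * q ∣ orderOf x} (Set.toFinite _) ⟨g₀, hg₀.symm.dvd⟩
  replace hx : p * q ∣ orderOf x := hx
  have hpn : p ∣ orderOf x := (dvd_mul_right p q).trans hx
  have hqn : q ∣ orderOf x := (dvd_mul_left q p).trans hx
  have hgen : ∀ d ∈ zpowers x, orderOf d = orderOf x → ∀ g : G,
      (g ∈ zpowers d ∨ d ∈ zpowers g) ↔ g ∈ zpowers x := by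
    intro d hd hdo g
    rw [zpowers_eq_of_le hd hdo.ge]
    refine ⟨fun h => h.elim id fun h => ?_, Or.inl⟩
    have h1 := orderOf_dvd_of_mem_zpowers h
    rw [hdo] at h1
    rw [← zpowers_eq_of_le hd hdo.ge, zpowers_eq_of_le h
      (hdo ▸ hmax (hx.trans h1) (Nat.le_of_dvd (orderOf_pos g) h1))]
    exact mem_zpowers g
  obtain ⟨d₀, hd₀, hmax₀⟩ := Set.Finite.exists_maximalFor (fun g : G => orderOf (e g))
    {d : G | d ∈ zpowers x ∧ (d = 1 ∨ orderOf d = orderOf x)} (Set.toFinite _)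
    ⟨1, one_mem _, Or.inl rfl⟩
  have hadj : ∀ d, d ∈ zpowers x ∧ (d = 1 ∨ orderOf d = orderOf x) → ∀ c ∈ zpowers x,
      c ∈ zpowers d ∨ d ∈ zpowers c := by
    rintro d ⟨hd, rfl | hd2⟩ c hc
    · exact Or.inr (one_mem _)
    · exact (hgen d hd hd2 c).2 hc
  have hD : ∀ d, d ∈ zpowers x ∧ (d = 1 ∨ orderOf d = orderOf x) → e d ∈ zpowers (e d₀) := by
    intro d hd
    rcases (he _ _).1 (hadj d₀ hd₀ d hd.1) with h | h
    · exact h
    · rw [zpowers_eq_of_le h (hmax₀ hd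
        (Nat.le_of_dvd (orderOf_pos _) (orderOf_dvd_of_mem_zpowers h)))]
      exact mem_zpowers _
  obtain ⟨u, hu, hup⟩ := exists_order x hpn
  obtain ⟨v, hv, hvq⟩ := exists_order x hqn
  obtain ⟨t, ht, htpq⟩ := exists_order x hx
  have hx1 : x ≠ 1 := fun h => by
    rw [h, orderOf_one] at hpn; exact hp.one_lt.ne' (Nat.dvd_one.1 hpn)
  have hlink : ∀ (A : G → Prop), (∀ c ∈ zpowers x, ∀ c' ∈ zpowers x,
      ¬ (c ∈ zpowers c' ∨ c' ∈ zpowers c) → (A c → A c')) → ∀ c ∈ zpowers x,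
      ¬ (c = 1 ∨ orderOf c = orderOf x) → A c → A u := by
    intro A hA c hc hn
    push Not at hn
    refine links (orderOf_pos x).ne' hp hq hpq.ne hpn hqn (fun a b => a ∣ orderOf x ∧
      b ∣ orderOf x ∧ ∀ c ∈ zpowers x, ∀ c' ∈ zpowers x, orderOf c = a → orderOf c' = b →
        A c → A c') ?_ ?_ (orderOf_dvd_of_mem_zpowers hc) (fun h => hn.1 (orderOf_eq_one_iff.1 h))
        hn.2 |>.2.2 c hc u hu rfl hup
    · rintro a b c ⟨h1, h2, h3⟩ ⟨-, h5, h6⟩
      obtain ⟨y, hy, hyb⟩ := exists_order x h2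
      exact ⟨h1, h5, fun s hs s' hs' ha hc hAs => h6 y hy s' hs' hyb hc (h3 s hs y hy ha hyb hAs)⟩
    · refine fun a b ha hb h1 h2 => ⟨ha, hb, fun s hs s' hs' e1 e2 => hA s hs s' hs' ?_⟩
      rw [mem_iff_dvd hs hs', mem_iff_dvd hs' hs, e1, e2]
      tauto
  have huv : ¬ (v ∈ zpowers u ∨ u ∈ zpowers v) := by
    rw [mem_iff_dvd hu hv, mem_iff_dvd hv hu, hup, hvq, Nat.prime_dvd_prime_iff_eq hp hq,
      Nat.prime_dvd_prime_iff_eq hq hp]
    omega
  have hw : ∀ g : G, (e g ∈ zpowers (e d₀) ∨ e d₀ ∈ zpowers (e g)) ↔ g ∈ zpowers x := by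
    intro g
    rw [← he]
    rcases hd₀.2 with h1 | h1
    swap
    · exact hgen d₀ hd₀.1 h1 g
    have h2 : ∀ g : G, g ∈ zpowers (e.symm 1) ∨ e.symm 1 ∈ zpowers g := fun g =>
      (he _ _).2 (Or.inr (by rw [e.apply_symm_apply]; exact one_mem _))
    have h3 : e.symm 1 ∈ zpowers x := (hgen x (mem_zpowers x) rfl _).1 (h2 x).symm
    have h4 : e.symm 1 = 1 ∨ orderOf (e.symm 1) = orderOf x := by
      by_contra hn
      exact hlink (fun c => ∀ g ∈ zpowers x, g ∈ zpowers c ∨ c ∈ zpowers g)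
        (fun c _ c' hc' h5 h6 => absurd (h6 c' hc').symm h5) _ h3 hn (fun g _ => h2 g) v hv |> huv
    rcases h4 with h4 | h4
    · exfalso
      have h5 := hD x ⟨mem_zpowers x, Or.inr rfl⟩
      rw [h1, ← h4, e.apply_symm_apply, zpowers_one_eq_bot, mem_bot, e.apply_eq_iff_eq_symm_apply,
        h4] at h5
      exact hx1 h5
    · exact ⟨fun _ => (hgen _ h3 h4 g).1 (h2 g), fun _ => Or.inr (h1 ▸ one_mem _)⟩
  have hcross : ∀ c ∈ zpowers x, ∀ c' ∈ zpowers x, e c ∈ zpowers (e d₀) →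
      e c' ∉ zpowers (e d₀) → c ∈ zpowers c' ∨ c' ∈ zpowers c := fun c _ c' hc' h1 h2 =>
    (he _ _).2 (Or.inl ((zpowers_le).2 (((hw c').2 hc').resolve_left h2) h1))
  by_cases hA : e u ∈ zpowers (e d₀)
  · have h1 : ∀ c ∈ zpowers x, e c ∈ zpowers (e d₀) := by
      intro c hc
      by_contra hn
      exact hlink (fun c => e c ∉ zpowers (e d₀))
        (fun c hc c' hc' h5 h6 h7 => h5 (hcross c' hc' c hc h7 h6).symm) c hc
        (fun h => hn (hD c ⟨hc, h⟩)) hn hA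
    have h2 : orderOf x = orderOf (e d₀) := by
      rw [← Nat.card_zpowers, ← Nat.card_zpowers]
      exact Nat.card_congr (e.subtypeEquiv fun g => ⟨h1 g, fun h => (hw g).1 (Or.inl h)⟩)
    obtain ⟨y, -, hy⟩ := exists_order (e d₀) (h2 ▸ hx)
    exact ⟨y, hy⟩
  exfalso
  have h1 : ∀ c, e c ∈ zpowers (e d₀) → c ∈ zpowers x ∧ (c = 1 ∨ orderOf c = orderOf x) := by
    intro c h
    have hc := (hw c).1 (Or.inl h)
    refine ⟨hc, ?_⟩
    by_contra hn
    exact hA (hlink (fun c => e c ∈ zpowers (e d₀))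
      (fun c hc c' hc' h5 h6 => by_contra fun h7 => h5 (hcross c hc c' hc' h6 h7)) c hc hn h)
  have h2 : (orderOf x).totient < orderOf (e d₀) := by
    rw [← card_order x dvd_rfl, ← Nat.card_zpowers (e d₀)]
    haveI := Fintype.ofFinite {y : G // y ∈ zpowers x ∧ orderOf y = orderOf x}
    haveI := Fintype.ofFinite (zpowers (e d₀))
    rw [Nat.card_eq_fintype_card, Nat.card_eq_fintype_card]
    refine Fintype.card_lt_of_injective_of_notMem
      (fun y => ⟨e y, hD y ⟨y.2.1, Or.inr y.2.2⟩⟩)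
      (fun a b h => Subtype.ext (e.injective (congrArg Subtype.val h)))
      (b := ⟨e 1, hD 1 ⟨one_mem _, Or.inl rfl⟩⟩) ?_
    rintro ⟨⟨y, hy⟩, h⟩
    have : y = 1 := e.injective (congrArg Subtype.val h)
    exact hx1 (orderOf_eq_one_iff.1 (by rw [← hy.2, this, orderOf_one]))
  have h3 : orderOf (e d₀) ≤ 2 * (orderOf (e d₀)).totient := by
    by_cases h0 : orderOf (e d₀) = 1
    · rw [h0]; simp
    have hr := Nat.minFac_prime h0
    have h4 := Nat.eq_prime_pow_of_unique_prime_dvd (orderOf_pos (e d₀)).ne'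
      (p := (orderOf (e d₀)).minFac) fun {s} hs hsd => by
        obtain ⟨a, ha, has⟩ := exists_order _ hsd
        obtain ⟨b, hb, hbr⟩ := exists_order _ (Nat.minFac_dvd (orderOf (e d₀)))
        obtain ⟨a, rfl⟩ := e.surjective a
        obtain ⟨b, rfl⟩ := e.surjective b
        have := (he _ _).1 (hadj a (h1 a ha) b (h1 b hb).1)
        rw [mem_iff_dvd ha hb, mem_iff_dvd hb ha, has, hbr, Nat.prime_dvd_prime_iff_eq hs hr,
          Nat.prime_dvd_prime_iff_eq hr hs] at this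
        omega
    generalize (orderOf (e d₀)).primeFactorsList.length = k at h4
    generalize (orderOf (e d₀)).minFac = r at h4 hr
    rw [h4] at h0 ⊢
    rcases k with _ | k
    · simp
    · rw [Nat.totient_prime_pow_succ hr, pow_succ]
      have := hr.two_le
      obtain ⟨s, rfl⟩ := Nat.exists_eq_add_of_le this
      rw [show 2 + s - 1 = s + 1 by omega]
      nlinarith [Nat.zero_le ((2 + s) ^ k * s)]
  have h4 : (orderOf (e d₀)).totient ≤ (orderOf (e u)).totient :=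
    Nat.le_of_dvd (Nat.totient_pos.2 (orderOf_pos _)) (Nat.totient_dvd_of_dvd
      (orderOf_dvd_of_mem_zpowers (((hw u).2 hu).resolve_left hA)))
  have h5 : (orderOf (e u)).totient ≤ p.totient := by
    rw [← card_order (e u) dvd_rfl, ← card_order x hpn]
    refine Nat.card_le_card_of_injective (fun y => ⟨e.symm y, ?_⟩)
      fun a b h => Subtype.ext (e.symm.injective (congrArg Subtype.val h))
    obtain ⟨y, hy, hyo⟩ := y
    obtain ⟨y, rfl⟩ := e.surjective y
    simp only [Equiv.symm_apply_apply]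
    have hz := zpowers_eq_of_le hy hyo.ge
    have tw : ∀ g : G, (g ∈ zpowers y ∨ y ∈ zpowers g) ↔ (g ∈ zpowers u ∨ u ∈ zpowers g) := by
      intro g
      rw [he, he, hz, ← zpowers_le (g := e y), ← zpowers_le (g := e u), hz]
    have hyx : y ∈ zpowers x := (hgen x (mem_zpowers x) rfl y).1 ((tw x).2 (Or.inr hu)).symm
    refine ⟨hyx, ?_⟩
    have a1 := fun h => huv ((tw v).1 h)
    have a2 := (tw t).2 (Or.inr ((mem_iff_dvd hu ht).2 (by rw [hup, htpq]; exact dvd_mul_right _ _)))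
    rw [mem_iff_dvd hv hyx, mem_iff_dvd hyx hv, hvq] at a1
    rw [mem_iff_dvd ht hyx, mem_iff_dvd hyx ht, htpq] at a2
    have a3 : ¬ q ∣ orderOf y := fun h => a1 (Or.inl h)
    have a4 := a2.resolve_left fun h => a3 ((dvd_mul_left q p).trans h)
    have a5 := ((Nat.Prime.coprime_iff_not_dvd hq).2 a3).symm.dvd_of_dvd_mul_right a4
    exact ((Nat.dvd_prime hp).1 a5).resolve_left fun h => a1 (Or.inr (h ▸ one_dvd _))
  have h6 : (p * q).totient ≤ (orderOf x).totient :=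
    Nat.le_of_dvd (Nat.totient_pos.2 (orderOf_pos _)) (Nat.totient_dvd_of_dvd hx)
  rw [Nat.totient_mul ((Nat.coprime_primes hp hq).2 hpq.ne), Nat.totient_prime hq] at h6
  have h7 : 2 ≤ q - 1 := by have := hp.two_le; omega
  nlinarith [Nat.mul_le_mul_left p.totient h7]

/-- Let G and H be finite groups whose power graphs are isomorphic: there is a bijection e : G → H such that, for all x, y, one of x, y is a power of the other exactly when one of e(x), e(y) is a power of the other. Then G and H have the same prime graph: for distinct primes p, q, G has an element of order pq if and only if H does. -/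
theorem result {G H : Type*} [Group G] [Finite G] [Group H] [Finite H] (e : G ≃ H)
    (he : ∀ x y : G, (x ∈ Subgroup.zpowers y ∨ y ∈ Subgroup.zpowers x) ↔
      (e x ∈ Subgroup.zpowers (e y) ∨ e y ∈ Subgroup.zpowers (e x)))
    {p q : ℕ} (hp : p.Prime) (hq : q.Prime) (hpq : p ≠ q) :
    (∃ g : G, orderOf g = p * q) ↔ (∃ h : H, orderOf h = p * q) := by
  have he' : ∀ x y : H, (x ∈ Subgroup.zpowers y ∨ y ∈ Subgroup.zpowers x) ↔
      (e.symm x ∈ Subgroup.zpowers (e.symm y) ∨ e.symm y ∈ Subgroup.zpowers (e.symm x)) := by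
    intro x y
    rw [he, e.apply_symm_apply, e.apply_symm_apply]
  rcases lt_or_gt_of_ne hpq with h | h
  · exact ⟨main e he hp hq h, main e.symm he' hp hq h⟩
  · rw [mul_comm]
    exact ⟨main e he hq hp h, main e.symm he' hq hp h⟩

end Cfsg.Agent.S4085
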