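import Cfsg.Statements.S4086
import Mathlib
import Cfsg.Agent.Solv.FrobeniusAction


set_option autoImplicit false
open Cfsg

namespace Cfsg.Agent.S4086

/-- For a finite group G the following are equivalent: every non-identity element has prime-power order; whenever two elements generate a cyclic subgroup, one of them is a power of the other (the enhanced power graph of G coincides with its power graph). -/
theorem result {G : Type*} [Group G] [Finite G] :
    (∀ g : G, g ≠ 1 → IsPrimePow (orderOf g)) ↔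
    (∀ x y : G, IsCyclic ↥(Subgroup.closure ({x, y} : Set G)) → (x ∈ Subgroup.zpowers y ∨ y ∈ Subgroup.zpowers x)) := by
  constructor
  · intro h x y hc
    obtain ⟨⟨g, hg⟩, hgen⟩ := IsCyclic.exists_generator (α := Subgroup.closure ({x, y} : Set G))
    have hmem : ∀ z ∈ Subgroup.closure ({x, y} : Set G), z ∈ Subgroup.zpowers g := by
      intro z hz
      obtain ⟨n, hn⟩ := hgen ⟨z, hz⟩
      exact ⟨n, congrArg Subtype.val hn⟩
    have hx := hmem x (Subgroup.subset_closure (by simp))
    have hy := hmem y (Subgroup.subset_closure (by simp))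
    by_cases hg1 : g = 1
    · subst hg1
      rw [Subgroup.zpowers_one_eq_bot, Subgroup.mem_bot] at hx
      left; rw [hx]; exact one_mem _
    obtain ⟨p, k, hp, hk, e⟩ := (isPrimePow_nat_iff _).1 (h g hg1)
    obtain ⟨a, -, ha⟩ := (Nat.dvd_prime_pow hp).1 (e ▸ orderOf_dvd_of_mem_zpowers hx)
    obtain ⟨b, -, hb⟩ := (Nat.dvd_prime_pow hp).1 (e ▸ orderOf_dvd_of_mem_zpowers hy)
    have key : ∀ u v : Subgroup.zpowers g, orderOf u ∣ orderOf v → u ∈ Subgroup.zpowers v := by
      intro u v huv
      exact Solv.Frob.mem_zpowers_of_orderOf_dvd huv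
    rcases le_total a b with hab | hab
    · left
      obtain ⟨n, hn⟩ := key ⟨x, hx⟩ ⟨y, hy⟩ (by
        rw [Subgroup.orderOf_mk, Subgroup.orderOf_mk, ha, hb]; exact pow_dvd_pow _ hab)
      exact ⟨n, congrArg Subtype.val hn⟩
    · right
      obtain ⟨n, hn⟩ := key ⟨y, hy⟩ ⟨x, hx⟩ (by
        rw [Subgroup.orderOf_mk, Subgroup.orderOf_mk, ha, hb]; exact pow_dvd_pow _ hab)
      exact ⟨n, congrArg Subtype.val hn⟩
  · intro h g hg
    have h1 : orderOf g ≠ 1 := fun h => hg (orderOf_eq_one_iff.1 h)
    have h0 : orderOf g ≠ 0 := (orderOf_pos g).ne'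
    obtain ⟨p, hp, hd⟩ := Nat.exists_prime_and_dvd h1
    rw [isPrimePow_iff_unique_prime_dvd]
    refine ⟨p, ⟨hp, hd⟩, fun q ⟨hq, hqd⟩ => ?_⟩
    have ha := orderOf_pow_orderOf_div h0 hd
    have hb := orderOf_pow_orderOf_div h0 hqd
    have hc : IsCyclic (Subgroup.closure
        ({g ^ (orderOf g / p), g ^ (orderOf g / q)} : Set G)) := by
      refine Subgroup.isCyclic_of_le (H' := Subgroup.zpowers g) ?_
      rw [Subgroup.closure_le]
      rintro _ (rfl | rfl) <;> exact Subgroup.npow_mem_zpowers _ _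
    rcases h _ _ hc with h2 | h2
    · have := orderOf_dvd_of_mem_zpowers h2
      rw [ha, hb] at this
      exact ((Nat.prime_dvd_prime_iff_eq hp hq).1 this).symm
    · have := orderOf_dvd_of_mem_zpowers h2
      rw [ha, hb] at this
      exact (Nat.prime_dvd_prime_iff_eq hq hp).1 this

end Cfsg.Agent.S4086
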