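import Cfsg.Statements.S4089
import Mathlib
import Cfsg.Agent.PLocal.AmbSyl
import Cfsg.Agent.Grp.Subnormal
import Cfsg.Agent.Grp.Cores

set_option autoImplicit false
open Cfsg

namespace Cfsg.Agent.S4089

open Subgroup Cfsg.Agent.PLocal Cfsg.Agent.PLocal.Amb Cfsg.Agent.Grp

theorem sn_iff {G : Type*} [Group G] [Finite G] {p : ℕ} [Fact p.Prime]
    {H : Subgroup G} (hH : IsPGroup p H) (g : G) :
    (H.subgroupOf (H ⊔ zpowers g)).IsSubnormal ↔
      ∃ R : Subgroup G, IsPGroup p R ∧ H ≤ R ∧ g ∈ 𝐍[R] := by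
  constructor
  · intro h
    refine ⟨pCoreOf p (H ⊔ zpowers g), isPGroup_pCoreOf _ _, ?_, ?_⟩
    · have h1 := le_pCore_of_isSubnormal h (isPGroup_subgroupOf hH _)
      have h2 := Subgroup.map_mono (f := (H ⊔ zpowers g).subtype) h1
      rw [map_subgroupOf_of_le le_sup_left] at h2
      exact h2
    · exact le_normalizer_pCoreOf p _ (mem_sup_right (mem_zpowers g))
  · rintro ⟨R, hR, hHR, hg⟩
    have h1 : SnIn H 𝐍[R] :=
      (SnIn.of_isPGroup hR hHR).trans (SnIn.of_le_normalizer le_normalizer le_rfl)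
    exact (h1.mono le_sup_left
      (sup_le (hHR.trans le_normalizer) ((zpowers_le).2 hg))).isSubnormal_subgroupOf

theorem radical_iff {G : Type*} [Group G] [Finite G] {p : ℕ} [Fact p.Prime]
    (H : Subgroup G) (g : G) :
    (∃ R : Subgroup G, IsPGroup p R ∧ H ≤ R ∧ g ∈ 𝐍[R]) ↔
      ∃ R : Subgroup G, H ≤ R ∧ pCoreOf p 𝐍[R] = R ∧ g ∈ 𝐍[R] := by
  constructor
  · rintro ⟨R, hR⟩
    obtain ⟨R', hR', hmax⟩ := Set.Finite.exists_maximalFor (id : Subgroup G → Subgroup G)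
      {R : Subgroup G | IsPGroup p R ∧ H ≤ R ∧ g ∈ 𝐍[R]} (Set.toFinite _) ⟨R, hR⟩
    have hle : R' ≤ pCoreOf p 𝐍[R'] := le_pCoreOf hR'.1 le_normalizer le_rfl
    refine ⟨R', hR'.2.1, le_antisymm ?_ hle, hR'.2.2⟩
    exact hmax (j := pCoreOf p 𝐍[R']) ⟨isPGroup_pCoreOf _ _, hR'.2.1.trans hle,
      le_normalizer_pCoreOf p _ hR'.2.2⟩ hle
  · rintro ⟨R, h1, h2, h3⟩
    exact ⟨R, h2 ▸ isPGroup_pCoreOf _ _, h1, h3⟩

/-- Let G be a finite group, p a prime and H a p-subgroup of G. Then the set of elements g of G such that H is subnormal in the subgroup generated by H and g is the union of the normalizers N_G(R) over the subgroups R of G containing H with R = O_p(N_G(R)); and this set does not change when H is replaced by the intersection of all Sylow p-subgroups of G containing H. -/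
theorem result {G : Type*} [Group G] [Finite G] (p : ℕ) [Fact p.Prime]
    (H : Subgroup G) (hH : IsPGroup p H) :
    {g : G | ((H).subgroupOf (H ⊔ Subgroup.zpowers g)).IsSubnormal} =
      {g : G | ∃ R : Subgroup G, H ≤ R ∧ (Cfsg.pCore p (Subgroup.normalizer (R : Set G))).map (Subgroup.normalizer (R : Set G)).subtype = R ∧ g ∈ Subgroup.normalizer (R : Set G)} ∧
    ∀ g : G, (((H).subgroupOf (H ⊔ Subgroup.zpowers g)).IsSubnormal ↔
      (((sInf {K : Subgroup G | ∃ Q : Sylow p G, H ≤ (Q : Subgroup G) ∧ K = (Q : Subgroup G)})).subgroupOf ((sInf {K : Subgroup G | ∃ Q : Sylow p G, H ≤ (Q : Subgroup G) ∧ K = (Q : Subgroup G)}) ⊔ Subgroup.zpowers g)).IsSubnormal) := by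
  refine ⟨?_, fun g => ?_⟩
  · ext g
    exact (sn_iff hH g).trans (radical_iff H g)
  · have key : ∀ {H : Subgroup G}, IsPGroup p H →
        IsPGroup p ↥(sInf {K : Subgroup G | ∃ Q : Sylow p G, H ≤ (Q : Subgroup G) ∧
          K = (Q : Subgroup G)}) := by
      intro H hH
      obtain ⟨Q, hQ⟩ := hH.exists_le_sylow
      exact Q.isPGroup'.to_le (sInf_le ⟨Q, hQ, rfl⟩)
    have hle : ∀ H : Subgroup G, H ≤ sInf {K : Subgroup G | ∃ Q : Sylow p G, H ≤ (Q : Subgroup G) ∧
          K = (Q : Subgroup G)} := by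
      intro H
      refine le_sInf ?_
      rintro K ⟨Q, hQ, rfl⟩
      exact hQ
    rw [sn_iff hH g, sn_iff (key hH) g]
    constructor
    · rintro ⟨R, hR, hHR, hg⟩
      refine ⟨_, key hR, ?_, ?_⟩
      · refine le_sInf ?_
        rintro K ⟨Q, hQ, rfl⟩
        exact sInf_le ⟨Q, hHR.trans hQ, rfl⟩
      · refine mem_normalizer_of_cj_le (le_sInf ?_)
        rintro K ⟨Q, hQ, rfl⟩
        rw [cj_le_iff]
        refine sInf_le ⟨g⁻¹ • Q, ?_, (coe_smul_sylow _ _).symm⟩
        rw [coe_smul_sylow, le_cj_iff, inv_inv, cj_of_mem_normalizer hg]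
        exact hQ
    · rintro ⟨R, hR, hHR, hg⟩
      exact ⟨R, hR, (hle H).trans hHR, hg⟩

end Cfsg.Agent.S4089
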