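import Cfsg.Statements.S4088
import Mathlib
import Cfsg.Agent.S4089

set_option autoImplicit false
open Cfsg

namespace Cfsg.Agent.S4088

open Subgroup Cfsg.Agent.PLocal Cfsg.Agent.PLocal.Amb Cfsg.Agent.Grp Finset
open scoped Classical

theorem cone_sum {α : Type*} (Y : Finset α) (F : Finset α → Prop) {x : α} (hx : x ∈ Y)
    (h : ∀ J ⊆ Y, F (insert x J) ↔ F J) :
    ∑ J ∈ Y.powerset, (if F J then (-1 : ℤ) ^ J.card else 0) = 0 := by
  rw [← insert_erase hx, sum_powerset_insert (notMem_erase x Y), ← sum_add_distrib]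
  refine sum_eq_zero fun J hJ => ?_
  have hJ' := mem_powerset.1 hJ
  have hxJ : x ∉ J := fun hh => notMem_erase x Y (hJ' hh)
  rw [card_insert_of_notMem hxJ, h J (hJ'.trans (erase_subset x Y))]
  split_ifs
  · ring
  · ring

theorem sum_card_eq {α β : Type*} [Fintype β] (Y : Finset α) (F : Finset α → β → Prop) :
    ∑ J ∈ Y.powerset, (-1 : ℤ) ^ J.card * (univ.filter (F J)).card =
      ∑ g : β, ∑ J ∈ Y.powerset, (if F J g then (-1 : ℤ) ^ J.card else 0) := by
  rw [sum_comm]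
  refine sum_congr rfl fun J _ => ?_
  rw [← sum_filter, sum_const, nsmul_eq_mul, mul_comm]

variable {G : Type*} [Group G]

/-- `g ∈ L` normalises a `p`-subgroup of `L` containing `H` -/
def SS (p : ℕ) (L H : Subgroup G) (g : G) : Prop :=
  g ∈ L ∧ ∃ R : Subgroup G, IsPGroup p R ∧ H ≤ R ∧ R ≤ L ∧ g ∈ 𝐍[R]

/-- `g ∈ L` and `H ≤ P ^ g` -/
def TT (L P H : Subgroup G) (g : G) : Prop := g ∈ L ∧ H ≤ cj(g, P)

theorem sum_TT [Fintype G] {p : ℕ} [Fact p.Prime] {L P H : Subgroup G} (hP : IsSyl p P L)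
    (hH : ¬ IsSyl p H L) (Y : Finset G) (hY : ∀ x, x ∈ Y ↔ x ∈ L ∧ x ∈ 𝐍[H] ∧ x ∉ H) :
    ∑ J ∈ Y.powerset, (-1 : ℤ) ^ J.card *
      (univ.filter (TT L P (H ⊔ closure (J : Set G)))).card = 0 := by
  rw [sum_card_eq Y fun J => TT L P (H ⊔ closure (J : Set G))]
  refine sum_eq_zero fun g _ => ?_
  by_cases hg : TT L P H g
  · have h1 := hP.cj_of_mem hg.1
    have h2 := lt_inf_normalizer h1.pgrp (lt_of_le_of_ne hg.2 fun h => hH (h ▸ h1))
    obtain ⟨x, hx, hxH⟩ := SetLike.exists_of_lt h2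
    refine cone_sum Y _ ((hY x).2 ⟨h1.le hx.1, hx.2, hxH⟩) fun J _ => ?_
    simp only [TT, sup_le_iff, closure_le, coe_insert, Set.insert_subset_iff]
    have : x ∈ (cj(g, P) : Set G) := hx.1
    tauto
  · refine sum_eq_zero fun J _ => if_neg fun h => hg ⟨h.1, le_sup_left.trans h.2⟩

theorem sum_SS [Fintype G] {p : ℕ} [Fact p.Prime] {L H : Subgroup G}
    (Y : Finset G) (hY : ∀ x, x ∈ Y ↔ x ∈ L ∧ x ∈ 𝐍[H] ∧ x ∉ H) :
    ∑ J ∈ Y.powerset, (-1 : ℤ) ^ J.card *
      (univ.filter (SS p L (H ⊔ closure (J : Set G)))).card =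
    ∑ J ∈ Y.powerset, (-1 : ℤ) ^ J.card *
      (univ.filter (SS p (L ⊓ 𝐍[H]) (H ⊔ closure (J : Set G)))).card := by
  rw [sum_card_eq Y fun J => SS p L (H ⊔ closure (J : Set G)),
    sum_card_eq Y fun J => SS p (L ⊓ 𝐍[H]) (H ⊔ closure (J : Set G))]
  refine sum_congr rfl fun g _ => ?_
  by_cases hg : g ∈ 𝐍[H]
  · refine sum_congr rfl fun J hJ => if_congr ⟨?_, ?_⟩ rfl rfl
    · rintro ⟨h1, R, h2, h3, h4, h5⟩
      refine ⟨⟨h1, hg⟩, R ⊓ 𝐍[H], h2.to_inf_left, le_inf h3 (sup_le le_normalizer ?_),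
        inf_le_inf_right _ h4, ?_⟩
      · exact (closure_le _).2 fun x hx => ((hY x).1 (mem_powerset.1 hJ hx)).2.1
      · exact le_normalizer_inf ((zpowers_le).2 h5) ((zpowers_le).2 (le_normalizer hg))
          (mem_zpowers g)
    · rintro ⟨h1, R, h2, h3, h4, h5⟩
      exact ⟨h1.1, R, h2, h3, h4.trans inf_le_left, h5⟩
  · rw [sum_eq_zero (s := Y.powerset)
      (f := fun J => if SS p (L ⊓ 𝐍[H]) (H ⊔ closure (J : Set G)) g then _ else _)
      fun J _ => if_neg fun h => hg h.1.2]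
    by_cases hS : SS p L H g
    · obtain ⟨hgL, R₁, hR₁⟩ := hS
      obtain ⟨R, hR, hmin⟩ := Set.Finite.exists_minimalFor (id : Subgroup G → Subgroup G)
        {R : Subgroup G | IsPGroup p R ∧ H ≤ R ∧ R ≤ L ∧ g ∈ 𝐍[R]} (Set.toFinite _) ⟨R₁, hR₁⟩
      have h2 := lt_inf_normalizer hR.1 (lt_of_le_of_ne hR.2.1 fun h => hg (h ▸ hR.2.2.2))
      obtain ⟨x, hx, hxH⟩ := SetLike.exists_of_lt h2
      refine cone_sum Y _ ((hY x).2 ⟨hR.2.2.1 hx.1, hx.2, hxH⟩) fun J _ => ⟨?_, ?_⟩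
      · rintro ⟨h1, R', h2, h3, h4⟩
        refine ⟨h1, R', h2, le_trans (sup_le_sup_left (Subgroup.closure_mono ?_) _) h3, h4⟩
        rw [coe_insert]; exact Set.subset_insert _ _
      · rintro ⟨h1, R', h2, h3, h4⟩
        have h5 : R ≤ R ⊓ R' := hmin (j := R ⊓ R') ⟨hR.1.to_inf_left,
          le_inf hR.2.1 (le_sup_left.trans h3), inf_le_left.trans hR.2.2.1,
          le_normalizer_inf ((zpowers_le).2 hR.2.2.2) ((zpowers_le).2 h4.2) (mem_zpowers g)⟩
          inf_le_left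
        refine ⟨h1, R', h2, sup_le (le_sup_left.trans h3) ((closure_le _).2 ?_), h4⟩
        rw [coe_insert, Set.insert_subset_iff]
        exact ⟨(h5 hx.1).2, (closure_le _).1 (le_sup_right.trans h3)⟩
    · refine sum_eq_zero fun J _ => if_neg fun h => hS ?_
      obtain ⟨h1, R, h2, h3, h4⟩ := h
      exact ⟨h1, R, h2, le_sup_left.trans h3, h4⟩

theorem card_SS_eq [Fintype G] {p : ℕ} [Fact p.Prime] (H : Subgroup G) :
    ∀ L P : Subgroup G, IsSyl p P L →
      (univ.filter (SS p L H)).card = (univ.filter (TT L P H)).card := by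
  induction H using WellFoundedGT.induction with
  | _ H ih =>
  intro L P hP
  by_cases hH : IsPGroup p H ∧ H ≤ L
  swap
  · rw [filter_eq_empty_iff.2, filter_eq_empty_iff.2]
    · intro g _ h
      exact hH ⟨(hP.cj_of_mem h.1).pgrp.to_le h.2, h.2.trans (hP.cj_of_mem h.1).le⟩
    · rintro g _ ⟨-, R, h1, h2, h3, -⟩
      exact hH ⟨h1.to_le h2, h2.trans h3⟩
  by_cases hS : IsSyl p H L
  · obtain ⟨h, hh, e⟩ := hS.exists_cj_eq hP
    refine card_bij (fun g _ => g * h) ?_ (fun a _ b _ hab => mul_right_cancel hab) ?_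
    · intro g hg
      obtain ⟨h1, R, h2, h3, h4, h5⟩ := (mem_filter.1 hg).2
      rw [hS.eq h2 h3 h4] at h5
      refine mem_filter.2 ⟨mem_univ _, L.mul_mem h1 hh, ?_⟩
      rw [cj_mul, e, cj_of_mem_normalizer h5]
    · intro g hg
      obtain ⟨h1, h2⟩ := (mem_filter.1 hg).2
      refine ⟨g * h⁻¹, mem_filter.2 ⟨mem_univ _, L.mul_mem h1 (L.inv_mem hh), H, hH.1, le_rfl,
        hH.2, ?_⟩, by simp⟩
      rw [← cj_eq_iff, cj_mul]
      conv_lhs => rw [← e, cj_inv_cj]
      exact hS.eq (hP.cj_of_mem h1).pgrp h2 (hP.cj_of_mem h1).le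
  set Y : Finset G := univ.filter fun x => x ∈ L ∧ x ∈ 𝐍[H] ∧ x ∉ H with hYd
  have hY : ∀ x, x ∈ Y ↔ x ∈ L ∧ x ∈ 𝐍[H] ∧ x ∉ H := fun x => by simp [hYd]
  have key : ∀ L' P' : Subgroup G, IsSyl p P' L' →
      ∑ J ∈ Y.powerset, (-1 : ℤ) ^ J.card *
        (univ.filter (SS p L' (H ⊔ closure (J : Set G)))).card -
      ∑ J ∈ Y.powerset, (-1 : ℤ) ^ J.card *
        (univ.filter (TT L' P' (H ⊔ closure (J : Set G)))).card =
      ((univ.filter (SS p L' H)).card : ℤ) - (univ.filter (TT L' P' H)).card := by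
    intro L' P' hP'
    rw [← sum_sub_distrib, sum_eq_single_of_mem ∅ (empty_mem_powerset Y)]
    · simp
    · intro J hJ hne
      obtain ⟨x, hx⟩ := nonempty_iff_ne_empty.2 hne
      rw [ih _ (left_lt_sup.2 fun h => ((hY x).1 (mem_powerset.1 hJ hx)).2.2
        (h (subset_closure hx))) L' P' hP', sub_self]
  obtain ⟨P', hP'⟩ := exists_isSyl p (L ⊓ 𝐍[H])
  have h1 := key L P hP
  have h2 := key _ P' hP'
  rw [sum_TT hP hS Y hY, sum_SS Y hY] at h1
  rw [sum_TT hP' (fun h => hS (isSyl_of_isSyl_normalizer h)) Y (fun x => by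
    rw [hY, Subgroup.mem_inf]; tauto), h1] at h2
  have h3 : univ.filter (SS p (L ⊓ 𝐍[H]) H) = univ.filter (TT (L ⊓ 𝐍[H]) P' H) := by
    refine filter_congr fun g _ => ⟨fun h => ⟨h.1, ?_⟩, fun h => ⟨h.1, H, hH.1, le_rfl,
      le_inf hH.2 le_normalizer, h.1.2⟩⟩
    have := hP'.cj_of_mem h.1
    exact this.le_of_le_normalizer hH.1 (le_inf hH.2 le_normalizer) (this.le.trans inf_le_right)
  rw [h3, sub_self, sub_eq_zero] at h2
  exact_mod_cast h2

theorem card_subnormalizer [Finite G] {p : ℕ} [Fact p.Prime] {H : Subgroup G} (hH : IsPGroup p H)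
    (P : Sylow p G) :
    Nat.card {g : G // (H.subgroupOf (H ⊔ zpowers g)).IsSubnormal} =
      Nat.card {g : G // H ≤ cj(g, (P : Subgroup G))} := by
  haveI := Fintype.ofFinite G
  rw [Nat.card_eq_fintype_card, Nat.card_eq_fintype_card, Fintype.card_subtype,
    Fintype.card_subtype]
  convert card_SS_eq H ⊤ P (isSyl_top P) using 3 with g g
  · rw [S4089.sn_iff hH]; simp [SS]
  · simp [TT]

theorem card_smul_mem {X : Type*} [MulAction G X] (x : X) (φ : X → Prop) :
    Nat.card {g : G // φ (g • x)} =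
      Nat.card {y : X // y ∈ MulAction.orbit G x ∧ φ y} * Nat.card (MulAction.stabilizer G x) := by
  rw [← Nat.card_prod]
  have hc : ∀ y : X, y ∈ MulAction.orbit G x → ∃ g : G, g • x = y := fun y hy => hy
  choose! c hc using hc
  refine Nat.card_congr (Equiv.symm (Equiv.ofBijective
    (fun z => ⟨c z.1 * z.2, by
      rw [mul_smul, MulAction.mem_stabilizer_iff.1 z.2.2, hc _ z.1.2.1]; exact z.1.2.2⟩) ⟨?_, ?_⟩))
  · rintro ⟨⟨y, hy⟩, s⟩ ⟨⟨y', hy'⟩, s'⟩ h
    have h1 : c y * (s : G) = c y' * s' := congrArg Subtype.val h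
    have h2 : y = y' := by
      have := congrArg (· • x) h1
      simp only [mul_smul] at this
      rwa [MulAction.mem_stabilizer_iff.1 s'.2, MulAction.mem_stabilizer_iff.1 s.2, hc y hy.1,
        hc y' hy'.1] at this
    subst h2
    exact Prod.ext rfl (Subtype.ext (mul_left_cancel h1))
  · rintro ⟨g, hg⟩
    have hy : g • x ∈ MulAction.orbit G x := MulAction.mem_orbit x g
    refine ⟨⟨⟨g • x, hy, hg⟩, ⟨(c (g • x))⁻¹ * g, ?_⟩⟩, Subtype.ext (by simp)⟩
    rw [MulAction.mem_stabilizer_iff, mul_smul, inv_smul_eq_iff, hc _ hy]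

/-- Let G be a finite group, p a prime dividing the order of G, H a p-subgroup of G and P a Sylow p-subgroup of G. Call the subnormalizer of H the set of elements g of G such that H is subnormal in the subgroup generated by H and g. Then the number of elements of the subnormalizer of H equals the number of Sylow p-subgroups of G containing H times the order of N_G(P), and also equals the number of conjugates of H contained in P times the order of N_G(H). -/
theorem result {G : Type*} [Group G] [Finite G] (p : ℕ) [Fact p.Prime]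
    (hp : p ∣ Nat.card G) (H : Subgroup G) (hH : IsPGroup p H) (P : Sylow p G) :
    Nat.card {g : G // ((H).subgroupOf (H ⊔ Subgroup.zpowers g)).IsSubnormal} =
        Nat.card {Q : Sylow p G // H ≤ (Q : Subgroup G)} * Nat.card (Subgroup.normalizer ((P : Subgroup G) : Set G)) ∧
    Nat.card {g : G // ((H).subgroupOf (H ⊔ Subgroup.zpowers g)).IsSubnormal} =
        Nat.card {K : Subgroup G // K ≤ (P : Subgroup G) ∧ ∃ g : G, K = H.map (MulAut.conj g).toMonoidHom} *
          Nat.card (Subgroup.normalizer (H : Set G)) := by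
  rw [card_subnormalizer hH P]
  constructor
  · have := card_smul_mem (G := G) P fun Q => H ≤ (Q : Subgroup G)
    rw [Sylow.stabilizer_eq_normalizer] at this
    refine this.trans (congrArg (· * _) (Nat.card_congr (Equiv.subtypeEquivRight fun Q => ?_)))
    rw [Sylow.orbit_eq_top]; simp
  · letI : MulAction G (Subgroup G) :=
      { smul := fun g K => cj(g, K)
        one_smul := cj_one
        mul_smul := cj_mul }
    have := card_smul_mem (G := G) H fun K => K ≤ (P : Subgroup G)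
    have e : MulAction.stabilizer G H = 𝐍[H] := by
      ext g; exact cj_eq_iff
    rw [e] at this
    refine Eq.trans ?_ (this.trans (congrArg (· * _)
      (Nat.card_congr (Equiv.subtypeEquivRight fun Q => ?_))))
    · exact Nat.card_congr ((Equiv.inv G).subtypeEquiv fun g => le_cj_iff)
    · exact ⟨fun ⟨⟨g, hg⟩, h⟩ => ⟨h, g, hg.symm⟩, fun ⟨h, g, hg⟩ => ⟨⟨g, hg.symm⟩, h⟩⟩

end Cfsg.Agent.S4088
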