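import Cfsg.Statements.S4090
import Mathlib
import Cfsg.Agent.S4088
import Cfsg.Agent.Grp.CardProduct

set_option autoImplicit false
open scoped BigOperators
open Cfsg

namespace Cfsg.Agent.S4090

open Subgroup Cfsg.Agent.PLocal Cfsg.Agent.PLocal.Amb Cfsg.Agent.Grp

variable {G : Type*} [Group G]

/-- the centraliser in `N` of `H` modulo `M` -/
def secC (H M N : Subgroup G) [hM : M.Normal] : Subgroup G where
  carrier := {u | u ∈ N ∧ ∀ h ∈ H, h * u * h⁻¹ * u⁻¹ ∈ M}
  one_mem' := ⟨N.one_mem, fun h _ => by simp⟩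
  mul_mem' := fun {a b} ha hb => ⟨N.mul_mem ha.1 hb.1, fun h hh => by
    have := M.mul_mem (ha.2 h hh) (hM.conj_mem _ (hb.2 h hh) a)
    simpa [mul_assoc] using this⟩
  inv_mem' := fun {a} ha => ⟨N.inv_mem ha.1, fun h hh => by
    have := hM.conj_mem _ (M.inv_mem (ha.2 h hh)) a⁻¹
    simpa [mul_assoc] using this⟩

theorem le_secC (H : Subgroup G) {M N : Subgroup G} [hM : M.Normal] (h : M ≤ N) :
    M ≤ secC H M N := fun u hu =>
  ⟨h hu, fun x _ => M.mul_mem (hM.conj_mem _ hu x) (M.inv_mem hu)⟩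

theorem inf_le_of_coprime [Finite G] {p : ℕ} [Fact p.Prime] {M N Q : Subgroup G} [M.Normal]
    (hQ : IsPGroup p Q) (hMN : M ≤ N) (hc : (M.relIndex N).Coprime p) : (Q ⊔ M) ⊓ N ≤ M := by
  rintro x ⟨h1, h2⟩
  obtain ⟨q, hq, m, hm, rfl⟩ := mem_sup_of_normal_right.1 h1
  have h3 : q ∈ N := (N.mul_mem_cancel_right (hMN hm)).1 h2
  refine M.mul_mem (PLocal.Amb.mem_of_pow_mem_of_coprime (pow_relIndex_mem M h3) ?_) hm
  obtain ⟨k, hk⟩ := isPGroup_iff.1 hQ q hq
  exact Nat.Coprime.coprime_dvd_left (orderOf_dvd_of_pow_eq_one hk) (hc.symm.pow_left k)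

theorem card_fibre [Finite G] {p : ℕ} [Fact p.Prime] {M N H Q : Subgroup G} [M.Normal]
    [hN : N.Normal] (hH : IsPGroup p H) (hQ : IsSyl p Q ⊤) (hMN : M ≤ N)
    (hc : (M.relIndex N).Coprime p) (hHQ : H ≤ Q ⊔ N) :
    Nat.card {n : G // n ∈ N ∧ H ≤ cj(n, Q) ⊔ M} = Nat.card (secC H M N) := by
  obtain ⟨g, hg, h1⟩ := (hQ.mono le_sup_left le_top).exists_le_cj hH hHQ
  obtain ⟨n₀, hn₀, q, hq, rfl⟩ := mem_sup_of_normal_left.1 (by rwa [sup_comm] at hg)
  rw [cj_mul, cj_of_mem hq] at h1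
  refine Nat.card_congr (Equiv.symm ((Equiv.mulRight n₀).subtypeEquiv fun u => ?_))
  change u ∈ N ∧ _ ↔ u * n₀ ∈ N ∧ H ≤ cj(u * n₀, Q) ⊔ M
  rw [N.mul_mem_cancel_right hn₀]
  refine and_congr_right fun hu => ?_
  rw [cj_mul, ← cj_of_normal u M, ← cj_sup, le_cj_iff, cj_le_iff_forall, cj_of_normal]
  constructor
  · intro h x hx
    have h2 := ‹M.Normal›.conj_mem _ (h x hx) u⁻¹
    have h3 := (cj(n₀, Q) ⊔ M).mul_mem (mem_sup_right h2) (mem_sup_left (h1 hx))
    simpa [mul_assoc] using h3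
  · intro h x hx
    have h2 : u⁻¹ * x * u⁻¹⁻¹ * x⁻¹ ∈ M := by
      refine inf_le_of_coprime (isPGroup_cj n₀ hQ.pgrp) hMN hc
        ⟨mul_mem (h x hx) (mem_sup_left (inv_mem (h1 hx))), ?_⟩
      have := N.mul_mem (N.inv_mem hu) (hN.conj_mem _ hu x)
      simpa [mul_assoc] using this
    simpa [mul_assoc] using ‹M.Normal›.conj_mem _ h2 u

theorem step_coprime [Finite G] {p : ℕ} [Fact p.Prime] {M N H P : Subgroup G} [M.Normal]
    [hN : N.Normal] (hH : IsPGroup p H) (hP : IsSyl p P ⊤) (hMN : M ≤ N)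
    (hc : (M.relIndex N).Coprime p) :
    Nat.card {g : G // H ≤ cj(g, P) ⊔ M} * Nat.card N =
      Nat.card {g : G // H ≤ cj(g, P) ⊔ N} * Nat.card (secC H M N) := by
  classical
  rw [← Nat.card_prod]
  have e : {g : G // H ≤ cj(g, P) ⊔ M} × N ≃
      Σ g : {g : G // H ≤ cj(g, P) ⊔ N}, {n : G // n ∈ N ∧ H ≤ cj(n, cj((g : G), P)) ⊔ M} :=
    { toFun := fun z => ⟨⟨(z.2 : G)⁻¹ * z.1, by
          have h1 := z.1.2.trans (sup_le_sup_left hMN _)
          refine h1.trans (sup_le ?_ le_sup_right)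
          have : cj((z.1 : G), P) = cj((z.2 : G), cj((z.2 : G)⁻¹ * z.1, P)) := by
            rw [← cj_mul, mul_inv_cancel_left]
          rw [this]
          exact cj_le_of_mem le_sup_left (mem_sup_right z.2.2)⟩,
        ⟨z.2, z.2.2, by rw [← cj_mul, mul_inv_cancel_left]; exact z.1.2⟩⟩
      invFun := fun z => (⟨z.2 * z.1, by rw [cj_mul]; exact z.2.2.2⟩, ⟨z.2, z.2.2.1⟩)
      left_inv := fun z => Prod.ext (Subtype.ext (by simp)) rfl
      right_inv := fun ⟨⟨g, hg⟩, ⟨n, hn⟩⟩ => by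
        refine Sigma.subtype_ext (Subtype.ext (by simp)) rfl }
  haveI := Fintype.ofFinite {g : G // H ≤ cj(g, P) ⊔ N}
  rw [Nat.card_congr e, Nat.card_sigma, Finset.sum_congr rfl
    fun (g : {g : G // H ≤ cj(g, P) ⊔ N}) _ =>
      card_fibre hH (hP.cj_of_mem (mem_top (g : G))) hMN hc g.2, Finset.sum_const, Finset.card_univ,
    smul_eq_mul, Fintype.card_eq_nat_card]

theorem sup_eq_of_pow [Finite G] {p : ℕ} [Fact p.Prime] {M N P : Subgroup G} [M.Normal]
    [hN : N.Normal] (hP : IsSyl p P ⊤) (hMN : M ≤ N) {m : ℕ} (hm : M.relIndex N = p ^ m) :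
    P ⊔ M = P ⊔ N := by
  refine le_antisymm (sup_le_sup_left hMN _) (sup_le le_sup_left ?_)
  have h1 : IsSyl p (P ⊓ N) N := hP.inf_of_le le_top le_normalizer_of_normal
  have h2 := h1.sup_eq_of_pRes_le (N := M)
    (pRes_le_of_pow fun g hg => ⟨m, hm ▸ pow_relIndex_mem M hg⟩) hMN
  rw [← h2]
  exact sup_le le_sup_right (inf_le_left.trans le_sup_left)

theorem step [Finite G] {p : ℕ} [Fact p.Prime] {M N H P : Subgroup G} [M.Normal]
    [hN : N.Normal] (hH : IsPGroup p H) (hP : IsSyl p P ⊤) (hMN : M ≤ N)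
    (h : (∃ m, M.relIndex N = p ^ m) ∨ (M.relIndex N).Coprime p) {D : ℕ}
    (hD : Nat.card {g : G // H ≤ cj(g, P) ⊔ N} = Nat.card ↥(P ⊔ N) * D) :
    Nat.card {g : G // H ≤ cj(g, P) ⊔ M} = Nat.card ↥(P ⊔ M) *
      ((if (M.relIndex N).Coprime p then Nat.card (secC H M N) / Nat.card M else 1) * D) := by
  split_ifs with hc
  · have h1 := step_coprime hH hP hMN hc
    obtain ⟨c, hc'⟩ := card_dvd_of_le (le_secC H hMN)
    rw [hD, hc'] at h1
    rw [hc', Nat.mul_div_cancel_left _ Nat.card_pos]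
    have h2 := card_mul_card_eq_of_normal P M
    have h3 := card_mul_card_eq_of_normal P N
    have h4 : P ⊓ N = P ⊓ M := le_antisymm (le_inf inf_le_left (le_trans
      (inf_le_inf_right _ le_sup_left) (inf_le_of_coprime hP.pgrp hMN hc))) (inf_le_inf_left _ hMN)
    rw [h4] at h3
    have h5 : Nat.card ↥(P ⊔ N) * Nat.card M = Nat.card ↥(P ⊔ M) * Nat.card N := by
      refine Nat.eq_of_mul_eq_mul_left (Nat.card_pos (α := ↥(P ⊓ M))) ?_
      rw [← mul_assoc, ← mul_assoc, ← h2, ← h3]; ring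
    refine Nat.eq_of_mul_eq_mul_right (Nat.card_pos (α := N)) ?_
    rw [h1]
    calc Nat.card ↥(P ⊔ N) * D * (Nat.card M * c) = Nat.card ↥(P ⊔ N) * Nat.card M * (c * D) := by
          ring
      _ = _ := by rw [h5]; ring
  · obtain ⟨m, hm⟩ := h.resolve_right hc
    rw [one_mul, sup_eq_of_pow hP hMN hm, ← hD]
    exact Nat.card_congr (Equiv.subtypeEquivRight fun g => by
      rw [sup_eq_of_pow (hP.cj_of_mem (mem_top g)) hMN hm])

theorem chain [Finite G] {p : ℕ} [Fact p.Prime] {H P : Subgroup G} (hH : IsPGroup p H)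
    (hP : IsSyl p P ⊤) (n : ℕ) : ∀ (M : Fin (n + 1) → Subgroup G), M (Fin.last n) = ⊤ →
    Monotone M → (hnormal : ∀ i, (M i).Normal) →
    (∀ i : Fin n, (∃ m : ℕ, (M i.castSucc).relIndex (M i.succ) = p ^ m) ∨
      ((M i.castSucc).relIndex (M i.succ)).Coprime p) →
    Nat.card {g : G // H ≤ cj(g, P) ⊔ M 0} = Nat.card ↥(P ⊔ M 0) *
      ∏ i : Fin n, (if ((M i.castSucc).relIndex (M i.succ)).Coprime p then
        Nat.card (secC H (M i.castSucc) (M i.succ)) / Nat.card (M i.castSucc) else 1) := by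
  induction n with
  | zero =>
    intro M h _ _ _
    have : M 0 = ⊤ := h
    simp [this]
  | succ n ih =>
    intro M h hmono hnormal hfac
    have := ih (fun i => M i.succ) h (fun i j hij => hmono (Fin.succ_le_succ_iff.2 hij))
      (fun i => hnormal _) fun i => hfac i.succ
    rw [Fin.prod_univ_succ]
    exact step hH hP (hmono (Fin.zero_le _)) (hfac 0) this

/-- Let G be a finite p-solvable group, H a p-subgroup of G and P a Sylow p-subgroup, and fix a chain of normal subgroups 1 = M₀ ≤ M₁ ≤ ⋯ ≤ Mₙ = G of G each of whose factors is a p-group or a p'-group. Then the number of elements g of G such that H is subnormal in the subgroup generated by H and g equals the order of P times the product, over the factors Mᵢ₊₁/Mᵢ of order prime to p, of the order of the centralizer of H in Mᵢ₊₁/Mᵢ (counted as the number of u ∈ Mᵢ₊₁ with [h, u] ∈ Mᵢ for all h ∈ H, divided by the order of Mᵢ). -/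
theorem result {G : Type*} [Group G] [Finite G] (p : ℕ) [Fact p.Prime]
    (hG : Cfsg.IsPSolvable p G) (H : Subgroup G) (hH : IsPGroup p H) (P : Sylow p G)
    (n : ℕ) (M : Fin (n + 1) → Subgroup G) (h0 : M 0 = ⊥) (hn : M (Fin.last n) = ⊤) (hmono : Monotone M)
    (hnormal : ∀ i, (M i).Normal)
    (hfac : ∀ i : Fin n, (∃ m : ℕ, (M i.castSucc).relIndex (M i.succ) = p ^ m) ∨ ((M i.castSucc).relIndex (M i.succ)).Coprime p) :
    Nat.card {g : G // ((H).subgroupOf (H ⊔ Subgroup.zpowers g)).IsSubnormal} =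
      Nat.card (P : Subgroup G) *
        ∏ i : Fin n, (if ((M i.castSucc).relIndex (M i.succ)).Coprime p then
          Nat.card {u : G // u ∈ M i.succ ∧ ∀ h ∈ H, h * u * h⁻¹ * u⁻¹ ∈ M i.castSucc} / Nat.card (M i.castSucc)
          else 1) := by
  have := chain hH (isSyl_top P) n M hn hmono hnormal hfac
  rw [h0] at this
  simp only [sup_bot_eq] at this
  rw [S4088.card_subnormalizer hH P, this]
  rfl

end Cfsg.Agent.S4090
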