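import Cfsg.Statements.S4091
import Cfsg.Agent.FGS.FixProd
import Cfsg.Agent.S4090

set_option autoImplicit false
open Cfsg

namespace Cfsg.Agent.S4091

open Subgroup Cfsg.Agent.PLocal Cfsg.Agent.PLocal.Amb Cfsg.Agent.S4090 Cfsg.Agent.FixProd

variable {G : Type*} [Group G]

theorem secC_ineq [Finite G] {p : ℕ} [Fact p.Prime] {M N P : Subgroup G} [M.Normal]
    [hN : N.Normal] [Fintype P] (hP : IsPGroup p P) (hMN : M ≤ N)
    (hc : (M.relIndex N).Coprime p) :
    ∏ x : P, Nat.card (secC (zpowers (x : G)) M N) ^ p ≤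
      Nat.card (secC P M N) ^ ((p - 1) * Fintype.card P) * Nat.card N ^ Fintype.card P := by
  let π := QuotientGroup.mk' M
  let N' : Subgroup (G ⧸ M) := N.map π
  haveI : N'.Normal := hN.map _ (QuotientGroup.mk'_surjective M)
  letI : MulDistribMulAction P N' :=
    MulDistribMulAction.compHom N' ((MulAut.conjNormal (H := N')).comp (π.comp P.subtype))
  have hsm : ∀ (x : P) (n : N'), ((x • n : N') : G ⧸ M) = π x * n * (π x)⁻¹ := fun _ _ => rfl
  have hcard : ∀ K : Subgroup N', Nat.card ((K.map N'.subtype).comap π) = Nat.card M * Nat.card K := by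
    intro K
    rw [← card_map_of_injective (K := K) N'.subtype_injective]
    exact QuotientGroup.card_preimage_mk M ((K.map N'.subtype : Subgroup (G ⧸ M)) : Set (G ⧸ M))
  have hNc : Nat.card N = Nat.card M * Nat.card N' := by
    have := hcard ⊤
    rwa [← MonoidHom.range_eq_map, range_subtype, comap_map_eq_self
      (by rwa [QuotientGroup.ker_mk']), card_top] at this
  have hrel : M.relIndex N = Nat.card N' := by
    have h1 := card_mul_index (M.subgroupOf N)
    rw [Nat.card_congr (subgroupOfEquivOfLe hMN).toEquiv, hNc] at h1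
    exact Nat.eq_of_mul_eq_mul_left Nat.card_pos h1
  have hsec : ∀ (H : Subgroup G) (K : Subgroup N'),
      (∀ n : N', n ∈ K ↔ ∀ h ∈ H, π h * n * (π h)⁻¹ = n) →
      Nat.card (secC H M N) = Nat.card M * Nat.card K := by
    intro H K hK
    rw [← hcard]
    congr 2
    ext u
    have e : ∀ h : G, h * u * h⁻¹ * u⁻¹ ∈ M ↔ π h * π u * (π h)⁻¹ = π u := by
      intro h
      rw [← mul_inv_eq_one, ← map_inv, ← map_inv, ← map_mul, ← map_mul, ← map_mul]
      exact (QuotientGroup.eq_one_iff _).symm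
    constructor
    · rintro ⟨hu, h⟩
      exact ⟨⟨π u, u, hu, rfl⟩, (hK _).2 fun x hx => (e x).1 (h x hx), rfl⟩
    · rintro ⟨n, hn, hnu⟩
      have hnu' : (n : G ⧸ M) = π u := hnu
      have hu : u ∈ N'.comap π := by
        show π u ∈ N'
        rw [← hnu']; exact n.2
      rw [comap_map_eq_self (by rwa [QuotientGroup.ker_mk'])] at hu
      exact ⟨hu, fun x hx => (e x).2 (by rw [← hnu']; exact (hK n).1 hn x hx)⟩
  have h1 : Nat.card (secC P M N) = Nat.card M * fc P N' :=
    hsec P _ fun n => ⟨fun h x hx => congrArg Subtype.val (h ⟨x, hx⟩),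
      fun h x => Subtype.ext (h x x.2)⟩
  have h2 : ∀ x : P, Nat.card (secC (zpowers (x : G)) M N) = Nat.card M * fc (zpowers x) N' := by
    intro x
    refine hsec _ _ fun n => ⟨fun h y hy => ?_, fun h => mem_fix_zpowers.2
      (Subtype.ext (h x (mem_zpowers _)))⟩
    obtain ⟨k, rfl⟩ := hy
    exact congrArg Subtype.val (h ⟨x ^ k, k, rfl⟩)
  have h3 := ineq (A := P) (N := N') hP (hrel ▸ hc)
  unfold Ineq at h3
  simp only [h1, h2, hNc, mul_pow, Finset.prod_mul_distrib, Finset.prod_const, Finset.card_univ]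
  refine (Nat.mul_le_mul_left _ h3).trans (le_of_eq ?_)
  obtain ⟨m, hm⟩ : ∃ m, p = m + 1 := ⟨p - 1, (Nat.succ_pred_eq_of_pos (Fact.out : p.Prime).pos).symm⟩
  rw [hm, Nat.add_sub_cancel]; ring

/-- `#{g : H ≤ P^g M}` -/
noncomputable def ct (P M H : Subgroup G) : ℕ := Nat.card {g : G // H ≤ cj(g, P) ⊔ M}

theorem chain_ineq [Finite G] {p : ℕ} [hp : Fact p.Prime] {P : Subgroup G} [Fintype P]
    (hP : IsSyl p P ⊤) (n : ℕ) : ∀ (M : Fin (n + 1) → Subgroup G), M (Fin.last n) = ⊤ →
    Monotone M → (hnormal : ∀ i, (M i).Normal) →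
    (∀ i : Fin n, (∃ m : ℕ, (M i.castSucc).relIndex (M i.succ) = p ^ m) ∨
      ((M i.castSucc).relIndex (M i.succ)).Coprime p) →
    ∏ x : P, ct P (M 0) (zpowers (x : G)) ^ p ≤
      ct P (M 0) P ^ ((p - 1) * Fintype.card P) * Nat.card G ^ Fintype.card P := by
  obtain ⟨m, hm⟩ : ∃ m, p = m + 1 := ⟨p - 1, (Nat.succ_pred_eq_of_pos hp.out.pos).symm⟩
  induction n with
  | zero =>
    intro M h _ _ _
    have h0 : M 0 = ⊤ := h
    have : ∀ H : Subgroup G, ct P (M 0) H = Nat.card G := fun H => by
      simp [ct, h0]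
    simp only [this, Finset.prod_const, Finset.card_univ]
    apply le_of_eq
    rw [hm, Nat.add_sub_cancel]; ring
  | succ n ih =>
    intro M h hmono hnormal hfac
    have h1 := ih (fun i => M i.succ) h (fun i j hij => hmono (Fin.succ_le_succ_iff.2 hij))
      (fun i => hnormal _) fun i => hfac i.succ
    have hMN : M 0 ≤ M (Fin.succ 0) := hmono (Fin.zero_le _)
    rcases hfac 0 with ⟨k, hk⟩ | hc
    · have : ∀ H : Subgroup G, ct P (M 0) H = ct P (M (Fin.succ 0)) H := fun H =>
        Nat.card_congr (Equiv.subtypeEquivRight fun g => by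
          rw [sup_eq_of_pow (hP.cj_of_mem (mem_top g)) hMN hk])
      simpa only [this] using h1
    · have h2 := secC_ineq hP.pgrp hMN hc
      have h3 : ∀ H : Subgroup G, IsPGroup p H → ct P (M 0) H * Nat.card (M (Fin.succ 0)) =
          ct P (M (Fin.succ 0)) H * Nat.card (secC H (M 0) (M (Fin.succ 0))) := fun H hH =>
        step_coprime hH hP hMN hc
      have h4 := Nat.mul_le_mul h1 h2
      rw [← Finset.prod_mul_distrib] at h4
      simp only [← mul_pow] at h4
      rw [Finset.prod_congr rfl fun (x : P) _ => by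
        rw [← h3 _ (hP.pgrp.to_le (zpowers_le.2 x.2)), mul_pow]] at h4
      rw [Finset.prod_mul_distrib, Finset.prod_const, Finset.card_univ] at h4
      refine Nat.le_of_mul_le_mul_right (h4.trans (le_of_eq ?_))
        (pow_pos (pow_pos Nat.card_pos _) _)
      rw [mul_mul_mul_comm, ← mul_pow, ← h3 P hP.pgrp, hm, Nat.add_sub_cancel]
      ring


/-- Let G be a finite p-solvable group, P a Sylow p-subgroup of G, u the number of p-elements of G (elements of p-power order, the identity included) and n the number of Sylow p-subgroups of G. Then u/#P ≥ n^((p−1)/p), stated as u^p ≥ #P^p · n^(p−1). -/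
theorem result {G : Type*} [Group G] [Finite G] (p : ℕ) [Fact p.Prime]
    (hG : Cfsg.IsPSolvable p G) (P : Sylow p G) :
    Nat.card (P : Subgroup G) ^ p * Nat.card (Sylow p G) ^ (p - 1) ≤ Nat.card {g : G // ∃ k : ℕ, orderOf g = p ^ k} ^ p := by
  classical
  have hp : p.Prime := Fact.out
  letI : Fintype G := Fintype.ofFinite G
  obtain ⟨n, M, h0, hn, hmono, hnormal, hfac⟩ := hG
  have h1 := chain_ineq (isSyl_top P) n M hn hmono hnormal hfac
  rw [h0] at h1
  set a : G → ℕ := fun y => ct P ⊥ (zpowers y) with ha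
  have ha1 : ∀ y, a y = (Finset.univ.filter fun g : G => g⁻¹ * y * g ∈ (P : Subgroup G)).card := by
    intro y
    simp only [ha, ct, sup_bot_eq, zpowers_le, mem_cj]
    rw [Nat.card_eq_fintype_card, Fintype.card_subtype]
  have ha2 : ∀ g y, a (g * y * g⁻¹) = a y := by
    intro g y
    rw [ha1, ha1]
    refine Finset.card_bij (fun h _ => g⁻¹ * h) ?_ ?_ ?_
    · intro h hh
      simp only [Finset.mem_filter, Finset.mem_univ, true_and] at hh ⊢
      simpa [mul_assoc] using hh
    · intro h _ h' _ e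
      exact mul_left_cancel e
    · intro h hh
      refine ⟨g * h, ?_, by group⟩
      simp only [Finset.mem_filter, Finset.mem_univ, true_and] at hh ⊢
      simpa [mul_assoc] using hh
  have ha3 : ∀ x : (P : Subgroup G), 0 < a x := fun x => by
    rw [ha1]
    exact Finset.card_pos.2 ⟨1, by simp⟩
  have hb : ct P ⊥ (P : Subgroup G) * Nat.card (Sylow p G) = Nat.card G := by
    rw [P.card_eq_index_normalizer, ← card_mul_index (normalizer ((P : Subgroup G) : Set G))]
    congr 1
    refine Nat.card_congr (Equiv.subtypeEquivRight fun g => ?_)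
    rw [sup_bot_eq, le_cj_iff]
    exact ⟨fun h => by simpa using inv_mem (mem_normalizer_of_cj_le h),
      fun h => (cj_of_mem_normalizer (inv_mem h)).le⟩
  set u := Nat.card {g : G // ∃ k : ℕ, orderOf g = p ^ k} with hu
  have hcount : (u : ℝ) = Nat.card G * ∑ x : (P : Subgroup G), ((a x : ℝ))⁻¹ := by
    have e1 : (u : ℝ) = ∑ y : G, ∑ g : G,
        if g⁻¹ * y * g ∈ (P : Subgroup G) then ((a y : ℝ))⁻¹ else 0 := by
      rw [hu, Nat.card_eq_fintype_card, Fintype.card_subtype, Finset.card_filter]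
      push_cast
      refine Finset.sum_congr rfl fun y _ => ?_
      rw [← Finset.sum_filter, Finset.sum_const, ← ha1, nsmul_eq_mul]
      split_ifs with hy
      · obtain ⟨k, hk⟩ := hy
        have hz : IsPGroup p (zpowers y) := isPGroup_zpowers ⟨k, hk ▸ pow_orderOf_eq_one y⟩
        obtain ⟨Q, hQ⟩ := hz.exists_le_sylow
        obtain ⟨g, rfl⟩ := MulAction.exists_smul_eq G P Q
        have h2 : g⁻¹ * y * g ∈ (P : Subgroup G) := mem_cj.1 (hQ (mem_zpowers y))
        have h3 := ha3 ⟨_, h2⟩
        have h4 := ha2 g⁻¹ y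
        rw [inv_inv] at h4
        simp only [h4] at h3
        rw [mul_inv_cancel₀]
        exact_mod_cast h3.ne'
      · have : a y = 0 := by
          rw [ha1, Finset.card_eq_zero, Finset.filter_eq_empty_iff]
          intro g _ hg
          apply hy
          obtain ⟨k, hk⟩ := (IsPGroup.iff_orderOf.1 P.isPGroup') ⟨_, hg⟩
          refine ⟨k, ?_⟩
          rw [← hk, ← Subgroup.orderOf_coe]
          have : g⁻¹ * y * g = MulAut.conj g⁻¹ y := by simp
          show orderOf y = orderOf (g⁻¹ * y * g)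
          rw [this, MulEquiv.orderOf_eq]
        simp [this]
    rw [e1, Finset.sum_comm, Nat.card_eq_fintype_card, ← Finset.card_univ, ← nsmul_eq_mul,
      ← Finset.sum_const]
    refine Finset.sum_congr rfl fun g _ => ?_
    rw [← Equiv.sum_comp (MulAut.conj g).toEquiv, ← Finset.sum_subtype
      (Finset.univ.filter fun x : G => x ∈ (P : Subgroup G)) (by simp) (fun x => ((a x : ℝ))⁻¹),
      Finset.sum_filter]
    refine Finset.sum_congr rfl fun x _ => ?_
    simp only [MulEquiv.toEquiv_eq_coe, EquivLike.coe_coe, MulAut.conj_apply, ha2]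
    rw [show g⁻¹ * (g * x * g⁻¹) * g = x by group]
  set c := Fintype.card (P : Subgroup G) with hc
  have hc0 : 0 < c := Fintype.card_pos
  have hc0' : (0 : ℝ) < c := by exact_mod_cast hc0
  set S : ℝ := ∑ x : (P : Subgroup G), ((a x : ℝ))⁻¹ with hS
  have ham : ∏ x : (P : Subgroup G), ((a x : ℝ))⁻¹ ≤ (S / c) ^ c := by
    have := Real.geom_mean_le_arith_mean (Finset.univ : Finset (P : Subgroup G)) (fun _ => 1)
      (fun x => ((a x : ℝ))⁻¹) (fun _ _ => zero_le_one) (by simpa using hc0') (fun _ _ => by positivity)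
    simp only [Real.rpow_one, Finset.sum_const, Finset.card_univ, nsmul_eq_mul, mul_one,
      one_mul] at this
    have h2 := pow_le_pow_left₀ (by positivity) this c
    rwa [Real.rpow_inv_natCast_pow (by positivity) hc0.ne'] at h2
  set A := ∏ x : (P : Subgroup G), a x with hA
  have hA0 : (0 : ℝ) < A := by exact_mod_cast Finset.prod_pos fun x _ => ha3 x
  have h2 : Nat.card G ^ c * c ^ c ≤ u ^ c * A := by
    have : (Nat.card G : ℝ) ^ c * (c : ℝ) ^ c ≤ (u : ℝ) ^ c * A := by
      rw [Finset.prod_inv_distrib, ← Nat.cast_prod, ← hA, div_pow, le_div_iff₀ (by positivity),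
        inv_mul_le_iff₀ hA0] at ham
      rw [hcount, mul_pow, mul_assoc, mul_comm (S ^ c)]
      exact mul_le_mul_of_nonneg_left ham (by positivity)
    exact_mod_cast this
  rw [Finset.prod_pow] at h1
  change A ^ p ≤ _ at h1
  set b := ct P ⊥ (P : Subgroup G) with hbdef
  have hb0 : 0 < b := Nat.pos_of_mul_pos_right (hb ▸ Nat.card_pos)
  obtain ⟨m, hm⟩ : ∃ m, p = m + 1 := ⟨p - 1, (Nat.succ_pred_eq_of_pos hp.pos).symm⟩
  have h3 := (Nat.pow_le_pow_left h2 p).trans
    ((mul_pow _ _ _).le.trans (Nat.mul_le_mul_left _ h1))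
  rw [Nat.card_eq_fintype_card (α := (P : Subgroup G)), ← hc]
  generalize Nat.card (Sylow p G) = s at hb h3 ⊢
  refine (Nat.pow_le_pow_iff_left hc0.ne').1 (Nat.le_of_mul_le_mul_right ?_
    (show 0 < b ^ (m * c) * Nat.card G ^ c from by have := Nat.card_pos (α := G); positivity))
  have e : p - 1 = m := by omega
  rw [e] at h3 ⊢
  refine le_trans (le_of_eq ?_) (h3.trans (le_of_eq ?_))
  · rw [← hb, hm]; ring
  · ring

end Cfsg.Agent.S4091
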