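import Cfsg.Statements.S4092
import Mathlib
import Cfsg.Agent.FGS.PClassCount
import Cfsg.Agent.PLocal.AmbSyl

set_option autoImplicit false
open Cfsg

namespace Cfsg.Agent.S4092

theorem card_sylow_ge_modEq {G : Type*} [Group G] [Finite G] {p : ℕ} [Fact p.Prime]
    {D : Subgroup G} (hD : IsPGroup p D) :
    Nat.card {Q : Sylow p G // D ≤ Q} ≡ 1 [MOD p] := by
  have h1 := hD.card_modEq_card_fixedPoints (Sylow p G)
  have h2 : Nat.card (MulAction.fixedPoints D (Sylow p G)) = Nat.card {Q : Sylow p G // D ≤ Q} :=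
    Nat.card_congr (Equiv.subtypeEquivRight fun Q => hD.sylow_mem_fixedPoints_iff)
  rw [← h2]
  exact h1.symm.trans (card_sylow_modEq_one p G)

/-- Let G be a finite group, p a prime and P a Sylow p-subgroup of G that is not normal in G. Then G has at least p·#P elements of p-power order (the identity included). -/
theorem result {G : Type*} [Group G] [Finite G] (p : ℕ) [Fact p.Prime]
    (P : Sylow p G) (hP : ¬ (P : Subgroup G).Normal) :
    p * Nat.card (P : Subgroup G) ≤ Nat.card {g : G // ∃ k : ℕ, orderOf g = p ^ k} := by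
  classical
  letI := Fintype.ofFinite G
  have hp : p.Prime := Fact.out
  have hne : ∃ Q : Sylow p G, Q ≠ P := by
    by_contra h
    push Not at h
    haveI : Subsingleton (Sylow p G) := ⟨fun a b => (h a).trans (h b).symm⟩
    exact hP P.normal_of_subsingleton
  obtain ⟨Q, hQ⟩ := hne
  haveI : Nonempty {x : Sylow p G × Sylow p G // x.1 ≠ x.2} := ⟨⟨(Q, P), hQ⟩⟩
  obtain ⟨⟨⟨A, B⟩, hAB⟩, hmax⟩ := Finite.exists_max
    (fun x : {x : Sylow p G × Sylow p G // x.1 ≠ x.2} =>
      Nat.card ((x.1.1 : Subgroup G) ⊓ x.1.2 : Subgroup G))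
  set D : Subgroup G := (A : Subgroup G) ⊓ B with hDdef
  have hD : IsPGroup p D := A.isPGroup'.to_le inf_le_left
  letI : Fintype (Sylow p G) := Fintype.ofFinite _
  let T : Finset (Sylow p G) := Finset.univ.filter fun Q => D ≤ Q
  have hT : p + 1 ≤ T.card := by
    have h1 := card_sylow_ge_modEq hD
    rw [Nat.card_eq_fintype_card, Fintype.card_subtype] at h1
    have h2 : 1 < T.card := Finset.one_lt_card.2 ⟨A, by simp [T, D], B, by simp [T, D], hAB⟩
    have h3 := (Nat.modEq_iff_dvd' h2.le).1 h1.symm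
    have := Nat.le_of_dvd (by omega) h3
    omega
  have hcard : ∀ Q : Sylow p G, Nat.card (Q : Subgroup G) = Nat.card (P : Subgroup G) := fun Q => by
    rw [Sylow.card_eq_multiplicity, Sylow.card_eq_multiplicity]
  have hDP : p * Nat.card D ≤ Nat.card (P : Subgroup G) := by
    rw [← hcard A]
    refine FGS.PCC.mul_card_le_of_lt A.isPGroup' (lt_of_le_of_ne inf_le_left fun h => hAB ?_)
    exact Sylow.ext (A.is_maximal' B.isPGroup' (h ▸ inf_le_right)).symm
  let S : Subgroup G → Finset G := fun K => Finset.univ.filter (· ∈ K)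
  have hS : ∀ K : Subgroup G, (S K).card = Nat.card K := fun K => by
    rw [Nat.card_eq_fintype_card, Fintype.card_subtype]
  have h1 : (T.biUnion fun Q => S Q \ S D).card = T.card * (Nat.card (P : Subgroup G) - Nat.card D) := by
    rw [Finset.card_biUnion, Finset.sum_const_nat]
    · intro Q hQ
      rw [Finset.card_sdiff_of_subset, hS, hS, hcard]
      intro x hx
      simp only [S, T, Finset.mem_filter, Finset.mem_univ, true_and] at hx hQ ⊢
      exact hQ hx
    · intro Q hQ R hR hQR
      simp only [T, Finset.coe_filter, Finset.mem_univ, true_and, Set.mem_setOf_eq] at hQ hR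
      have h2 : D = (Q : Subgroup G) ⊓ R :=
        Subgroup.eq_of_le_of_card_ge (le_inf hQ hR) (hmax ⟨(Q, R), hQR⟩)
      rw [Function.onFun, Finset.disjoint_left]
      intro x hx hx'
      simp only [S, Finset.mem_sdiff, Finset.mem_filter, Finset.mem_univ, true_and] at hx hx'
      exact hx.2 (h2 ▸ ⟨hx.1, hx'.1⟩)
  have h2 : Disjoint (T.biUnion fun Q => S Q \ S D) (S D) := by
    rw [Finset.disjoint_left]
    intro x hx hx'
    obtain ⟨Q, -, hQ⟩ := Finset.mem_biUnion.1 hx
    exact (Finset.mem_sdiff.1 hQ).2 hx'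
  have h3 : (T.biUnion fun Q => S Q \ S D) ∪ S D ⊆
      Finset.univ.filter fun g : G => ∃ k : ℕ, orderOf g = p ^ k := by
    have key : ∀ (K : Subgroup G), IsPGroup p K → ∀ x ∈ S K, ∃ k : ℕ, orderOf x = p ^ k := by
      intro K hK x hx
      simp only [S, Finset.mem_filter, Finset.mem_univ, true_and] at hx
      obtain ⟨k, hk⟩ := IsPGroup.iff_orderOf.1 hK ⟨x, hx⟩
      exact ⟨k, by rw [← hk, Subgroup.orderOf_mk]⟩
    intro x hx
    rw [Finset.mem_filter]
    refine ⟨Finset.mem_univ _, ?_⟩
    rcases Finset.mem_union.1 hx with h | h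
    · obtain ⟨Q, -, hQ⟩ := Finset.mem_biUnion.1 h
      exact key _ Q.isPGroup' x (Finset.mem_sdiff.1 hQ).1
    · exact key _ hD x h
  have h4 := Finset.card_le_card h3
  rw [Finset.card_union_of_disjoint h2, h1, hS] at h4
  rw [Nat.card_eq_fintype_card (α := {g : G // ∃ k : ℕ, orderOf g = p ^ k}), Fintype.card_subtype]
  refine le_trans ?_ h4
  have h5 := Nat.mul_le_mul_right (Nat.card (P : Subgroup G) - Nat.card D) hT
  have h6 : Nat.card D ≤ Nat.card (P : Subgroup G) :=
    le_trans (Nat.le_mul_of_pos_left _ hp.pos) hDP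
  obtain ⟨c, hc⟩ := Nat.exists_eq_add_of_le h6
  rw [hc] at h5 hDP ⊢
  rw [Nat.add_sub_cancel_left] at h5 ⊢
  nlinarith

end Cfsg.Agent.S4092
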