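import Cfsg.Statements.S4093
import Mathlib
import Cfsg.Agent.PLocal.AmbSyl
import Cfsg.Agent.Grp.Card
import Cfsg.Agent.Solv.Coprime

set_option autoImplicit false
open scoped BigOperators
open Cfsg

namespace Cfsg.Agent.S4093

open PLocal.Amb

theorem card_conj_orbit {G : Type*} [Group G] (N : Subgroup G) (x : G) :
    Nat.card {y : G // ∃ n ∈ N, n * x * n⁻¹ = y} =
      (Subgroup.centralizer ({x} : Set G)).relIndex N := by
  letI : MulAction N G := MulAction.compHom G (MulAut.conj.comp N.subtype)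
  have h1 : (Subgroup.centralizer ({x} : Set G)).subgroupOf N = MulAction.stabilizer N x := by
    ext n
    rw [Subgroup.mem_subgroupOf, Subgroup.mem_centralizer_singleton_iff,
      MulAction.mem_stabilizer_iff, ← mul_inv_eq_iff_eq_mul]
    rfl
  rw [Subgroup.relIndex, h1, MulAction.index_stabilizer, ← Nat.card_coe_set_eq]
  refine Nat.card_congr (Equiv.subtypeEquivRight fun y => ?_)
  exact ⟨fun ⟨n, hn, e⟩ => ⟨⟨n, hn⟩, e⟩, fun ⟨n, e⟩ => ⟨n, n.2, e⟩⟩

/-- Let G be a finite group with a normal subgroup N complementing a Sylow p-subgroup P (a normal p-complement). Then the number of elements of G of p-power order equals the sum over x ∈ P of the index of C_N(x) in N. -/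
theorem result {G : Type*} [Group G] [Finite G] (p : ℕ) [Fact p.Prime]
    (P : Sylow p G) (N : Subgroup G) [N.Normal] (hNP : N.IsComplement' (P : Subgroup G)) :
    Nat.card {g : G // ∃ k : ℕ, orderOf g = p ^ k} =
      ∑ᶠ x : (P : Subgroup G), Nat.card N / Nat.card ↥(N ⊓ Subgroup.centralizer ({(x : G)} : Set G)) := by
  classical
  have hN : N.Normal := inferInstance
  letI := Fintype.ofFinite (P : Subgroup G)
  let f : (Σ x : (P : Subgroup G), {y : G // ∃ n ∈ N, n * x * n⁻¹ = y}) →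
      {g : G // ∃ k : ℕ, orderOf g = p ^ k} := fun s => ⟨s.2.1, by
    obtain ⟨n, -, e⟩ := s.2.2
    obtain ⟨k, hk⟩ := IsPGroup.iff_orderOf.1 P.isPGroup' s.1
    exact ⟨k, by rw [← e, orderOf_conj', Subgroup.orderOf_coe, hk]⟩⟩
  have hf : Function.Bijective f := by
    constructor
    · rintro ⟨x, y, n, hn, rfl⟩ ⟨x', y', n', hn', rfl⟩ h
      have h1 : n * x * n⁻¹ = n' * x' * n'⁻¹ := congrArg Subtype.val h
      have h2 : (x : G) * (x' : G)⁻¹ ∈ N ⊓ (P : Subgroup G) := by
        refine ⟨?_, (P : Subgroup G).mul_mem x.2 ((P : Subgroup G).inv_mem x'.2)⟩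
        have h3 : (x : G) * (x' : G)⁻¹ = n⁻¹ * n' * (x' * (n'⁻¹ * n) * (x' : G)⁻¹) := by
          calc (x : G) * (x' : G)⁻¹ = n⁻¹ * (n * x * n⁻¹) * n * (x' : G)⁻¹ := by group
            _ = _ := by rw [h1]; group
        rw [h3]
        exact N.mul_mem (N.mul_mem (N.inv_mem hn) hn')
          (hN.conj_mem _ (N.mul_mem (N.inv_mem hn') hn) _)
      rw [hNP.disjoint.eq_bot, Subgroup.mem_bot, mul_inv_eq_one] at h2
      obtain rfl : x = x' := Subtype.ext h2
      exact Sigma.ext rfl (heq_of_eq (Subtype.ext h1))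
    · rintro ⟨y, k, hk⟩
      obtain ⟨g, -, hg⟩ := (isSyl_top P).exists_le_cj (R := Subgroup.zpowers y)
        (isPGroup_zpowers ⟨k, by rw [← hk, pow_orderOf_eq_one]⟩) le_top
      obtain ⟨n, hn, u, hu, rfl⟩ := Solv.exists_mul_of_isComplement' hNP g
      rw [cj_mul, cj_of_mem hu] at hg
      have := mem_cj.1 (hg (Subgroup.mem_zpowers y))
      exact ⟨⟨⟨_, this⟩, y, n, hn, by simp [mul_assoc]⟩, rfl⟩
  rw [← Nat.card_eq_of_bijective f hf, Nat.card_sigma, finsum_eq_sum_of_fintype]
  refine Finset.sum_congr rfl fun x _ => ?_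
  rw [card_conj_orbit, ← Grp.card_inf_mul_relIndex' (Subgroup.centralizer {(x : G)}) N, inf_comm,
    Nat.mul_div_cancel_left _ Nat.card_pos]

end Cfsg.Agent.S4093
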