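import Cfsg.Statements.S4097
import Cfsg.Agent.S0042
import Cfsg.Agent.S0034
import Cfsg.Agent.FGS.SolvRad

set_option autoImplicit false
open Cfsg

namespace Cfsg.Agent.S4097

open Subgroup

universe u

/-- `A` is central in every solvable subgroup containing it. -/
def Hyp {G : Type*} [Group G] (A : Subgroup G) : Prop :=
  ∀ S : Subgroup G, A ≤ S → Group.IsSolvable S → ∀ a ∈ A, ∀ s ∈ S, a * s = s * a

theorem solv_of_comm {G : Type*} [Group G] {Y : Subgroup G} (h : ∀ a ∈ Y, ∀ b ∈ Y, a * b = b * a) :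
    Group.IsSolvable Y :=
  Group.isSolvable_of_comm fun a b => Subtype.ext (h a a.2 b b.2)

theorem key (n : ℕ) : ∀ (G : Type u) [Group G] [Finite G], Nat.card G = n → ∀ A : Subgroup G,
    Group.IsSolvable A → Hyp A → ∀ a ∈ A, ∀ g : G, a * g = g * a := by
  induction n using Nat.strong_induction_on with
  | _ n ih =>
  intro G _ _ hn A hA hc
  subst hn
  have sub : ∀ H : Subgroup G, H ≠ ⊤ → A ≤ H → H ≤ centralizer (A : Set G) := by
    intro H hH hAH h hh
    have hlt : Nat.card H < Nat.card G := by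
      refine lt_of_le_of_ne (card_le_card_group H) fun he => hH ?_
      exact eq_top_of_card_eq H he
    have hA' : Group.IsSolvable (A.subgroupOf H) :=
      Group.isSolvable_of_surjective (f := (subgroupOfEquivOfLe hAH).symm.toMonoidHom)
        (subgroupOfEquivOfLe hAH).symm.surjective
    intro a ha
    have := ih _ hlt H rfl (A.subgroupOf H) hA' (fun S hS hs a ha s hs' => Subtype.ext
      (hc (S.map H.subtype) (fun x hx => ⟨⟨x, hAH hx⟩, hS hx, rfl⟩)
        (Group.isSolvable_of_surjective (f := (S.equivMapOfInjective _ H.subtype_injective).toMonoidHom)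
          (S.equivMapOfInjective _ H.subtype_injective).surjective) a ha s ⟨s, hs', rfl⟩))
      ⟨a, hAH ha⟩ ha ⟨h, hh⟩
    exact congrArg Subtype.val this
  by_cases hN : ∃ N : Subgroup G, N.Normal ∧ N ≠ ⊥ ∧ Group.IsSolvable N
  · obtain ⟨N, _, hN, hs⟩ := hN
    have hker : Group.IsSolvable (QuotientGroup.mk' N).ker := by rwa [QuotientGroup.ker_mk']
    have hlt : Nat.card (G ⧸ N) < Nat.card G := by
      rw [card_eq_card_quotient_mul_card_subgroup N]
      exact lt_mul_of_one_lt_right Nat.card_pos ((one_lt_card_iff_ne_bot N).2 hN)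
    have h1 := ih _ hlt (G ⧸ N) rfl (A.map (QuotientGroup.mk' N))
      (Group.isSolvable_of_surjective (f := (QuotientGroup.mk' N).subgroupMap A)
        ((QuotientGroup.mk' N).subgroupMap_surjective A)) (by
      rintro S hS hs _ ⟨a, ha, rfl⟩ s hs'
      obtain ⟨s, rfl⟩ := QuotientGroup.mk'_surjective N s
      rw [← map_mul, ← map_mul, hc (S.comap (QuotientGroup.mk' N)) (map_le_iff_le_comap.1 hS)
        (FGS.isSolvable_comap _ hs hker) a ha s hs'])
    intro a ha g
    let S : Subgroup (G ⧸ N) := centralizer (centralizer ({QuotientGroup.mk' N g} : Set (G ⧸ N)) : Set _)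
    have hg : QuotientGroup.mk' N g ∈ S := fun x hx => (hx _ rfl).symm
    refine hc (S.comap (QuotientGroup.mk' N)) (fun x hx y _ => (h1 _ ⟨x, hx, rfl⟩ y).symm)
      (FGS.isSolvable_comap _ (solv_of_comm fun x hx y hy => ?_) hker) a ha g hg
    refine hy x ?_
    rintro _ rfl
    exact hx _ (by rintro _ rfl; rfl)
  push Not at hN
  by_contra hne
  set C := centralizer (A : Set G) with hC
  have hCt : C ≠ ⊤ := fun h => hne fun a ha g => (show g ∈ C from h ▸ mem_top g) a ha
  have hAC : A ≤ C := fun a ha b hb => (hc A le_rfl hA a ha b hb).symm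
  have hA1 : A ≠ ⊥ := fun h => hne fun a ha g => by
    rw [h, mem_bot] at ha; rw [ha, one_mul, mul_one]
  have loc : ∀ Y : Subgroup G, Y ≠ ⊥ → Group.IsSolvable Y → Y ≤ C → normalizer (Y : Set G) ≤ C := by
    intro Y hY hs hYC
    refine sub _ (fun h => hN Y (normalizer_eq_top_iff.1 h) hY hs) fun a ha => ?_
    refine mem_normalizer_fintype fun y hy => ?_
    rwa [hYC hy a ha, mul_inv_cancel_right]
  have loc1 : ∀ y ∈ C, y ≠ 1 → centralizer ({y} : Set G) ≤ C := by
    intro y hy h1
    refine le_trans ?_ (loc (zpowers y) (by simpa using h1) (solv_of_comm ?_) (by simpa using hy))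
    · refine le_trans ?_ (centralizer_le_normalizer _)
      rintro x hx _ ⟨k, rfl⟩
      exact (Commute.zpow_left (hx y rfl) k).eq
    · rintro _ ⟨k, rfl⟩ _ ⟨l, rfl⟩
      exact (Commute.zpow_zpow_self y k l).eq
  have hF : IsFrobeniusComplement C := by
    refine ⟨fun h => hA1 (le_bot_iff.1 (h ▸ hAC)), hCt, fun g hg => ?_⟩
    by_contra hb
    obtain ⟨⟨y, hy1, c, hc', rfl⟩, hy⟩ := ne_bot_iff_exists_ne_one.1 hb
    have hy1 : g * c * g⁻¹ ∈ C := hy1
    have hy : g * c * g⁻¹ ≠ 1 := fun h => hy (Subtype.ext h)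
    obtain ⟨⟨a, ha⟩, ha1⟩ := ne_bot_iff_exists_ne_one.1 hA1
    have ha1 : a ≠ 1 := fun h => ha1 (Subtype.ext h)
    have h2 : ∀ b ∈ A, g * b * g⁻¹ ∈ C := fun b hb => loc1 _ hy1 hy (by
      rintro _ rfl
      have := hc' b hb
      calc g * c * g⁻¹ * (g * b * g⁻¹) = g * (c * b) * g⁻¹ := by group
        _ = g * (b * c) * g⁻¹ := by rw [this]
        _ = _ := by group)
    have h3 : ∀ x ∈ C, g * x * g⁻¹ ∈ C := fun x hx =>
      loc1 _ (h2 a ha) (by simpa using ha1) (by
        rintro _ rfl
        have := hx a ha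
        calc g * a * g⁻¹ * (g * x * g⁻¹) = g * (a * x) * g⁻¹ := by group
          _ = g * (x * a) * g⁻¹ := by rw [this]
          _ = _ := by group)
    have h4 : g ∈ normalizer (C : Set G) := mem_normalizer_fintype h3
    have h5 := mem_normalizer_iff.1 (inv_mem h4)
    refine hg (loc (C ⊓ centralizer (C : Set G)) (fun h => ha1 ?_)
      (solv_of_comm fun x hx y hy => hy.2 x hx.1) inf_le_left (mem_normalizer_fintype ?_))
    · have : a ∈ C ⊓ centralizer (C : Set G) := ⟨hAC ha, fun x hx => (hx a ha).symm⟩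
      rwa [h, mem_bot] at this
    · rintro z ⟨hz1, hz2⟩
      refine ⟨h3 z hz1, fun x hx => ?_⟩
      have := hz2 _ ((h5 x).1 hx)
      calc x * (g * z * g⁻¹) = g * (g⁻¹ * x * g⁻¹⁻¹ * z) * g⁻¹ := by group
        _ = g * (z * (g⁻¹ * x * g⁻¹⁻¹)) * g⁻¹ := by rw [this]
        _ = _ := by group
  obtain ⟨N, h1, h2, h3⟩ := S0042.result C hF
  refine hN N h2 (fun h => hCt ?_) inferInstance
  rw [← index_eq_one, ← (S0034.result C hF).1, ← h1, h]
  simp


/-- Let A be a solvable subgroup of a finite group G such that A lies in the centre of every solvable subgroup of G containing A. Then A lies in the centre of G. -/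
theorem result {G : Type*} [Group G] [Finite G]
    (A : Subgroup G) (hA : Group.IsSolvable A)
    (hc : ∀ S : Subgroup G, A ≤ S → Group.IsSolvable S → ∀ a ∈ A, ∀ s ∈ S, a * s = s * a) : A ≤ Subgroup.center G := by
  exact fun a ha => mem_center_iff.2 fun g => (key _ G rfl A hA hc a ha g).symm

end Cfsg.Agent.S4097
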