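import Cfsg.Statements.S4100
import Cfsg.Agent.Sym.SolvC
import Cfsg.Agent.Sym.MonoG

set_option autoImplicit false
open Cfsg

namespace Cfsg.Agent.S4100

open Equiv Subgroup Function SolvC in
/-- The embedding of `A_m × A_n` in `A_{m+n}`. -/
theorem exists_emb (m n : ℕ) : ∃ j : alternatingGroup (Fin m) × alternatingGroup (Fin n) →*
    alternatingGroup (Fin (m + n)), Injective j := by
  refine ⟨(finSumFinEquiv.permCongrHom.toMonoidHom.comp ((Perm.sumCongrHom _ _).comp
    ((alternatingGroup _).subtype.prodMap (alternatingGroup _).subtype))).codRestrict _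
      fun x => ?_, fun a b h => ?_⟩
  · simp [Perm.mem_alternatingGroup.1 x.1.2, Perm.mem_alternatingGroup.1 x.2.2]
  · have h1 := Perm.sumCongrHom_injective (finSumFinEquiv.permCongrHom.injective
      (congrArg Subtype.val h))
    exact Prod.ext (Subtype.ext (congrArg Prod.fst h1)) (Subtype.ext (congrArg Prod.snd h1))

open Equiv Subgroup Function SolvC in
theorem main {p m : ℕ} [hp : Fact p.Prime] {H : Type*} [Group H] [Finite H] (h : SC p H)
    (σ : H →* alternatingGroup (Fin (5 + m))) (hσ : Surjective σ)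
    (hm : p = 2 ∧ m = 4 ∨ 5 ≤ p ∧ m = p) : False := by
  obtain ⟨H, _, _, σ, hσ, h, hK, hZ⟩ := reduce
    (alternatingGroup.center_eq_bot (by simp; omega)) _ H σ rfl hσ h
  obtain ⟨j, hj⟩ := exists_emb 5 m
  obtain ⟨y, hy⟩ : ∃ y : alternatingGroup (Fin m), orderOf y = p := by
    have : Nontrivial (Fin m) := Fin.nontrivial_iff_two_le.2 (by omega)
    have h1 := two_mul_nat_card_alternatingGroup (α := Fin m)
    rw [Nat.card_perm, Nat.card_eq_fintype_card (α := Fin m), Fintype.card_fin] at h1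
    refine exists_prime_orderOf_dvd_card' p ?_
    obtain ⟨rfl, rfl⟩ | ⟨h2, rfl⟩ := hm
    · simp only [Nat.factorial] at h1
      omega
    · exact ((Nat.coprime_primes hp.out Nat.prime_two).2 (by omega)).dvd_of_dvd_mul_left
        (h1 ▸ Nat.dvd_factorial hp.out.pos le_rfl)
  obtain ⟨x, z, h1, h2, h3, h4⟩ : ∃ x z : alternatingGroup (Fin 5),
      x ≠ 1 ∧ x ^ 2 = 1 ∧ z ^ 3 = 1 ∧ (x * z) ^ 35 = 1 :=
    ⟨⟨c[0, 1] * c[2, 3], Perm.mem_alternatingGroup.2 (by decide +kernel)⟩,
      ⟨c[0, 2, 4], Perm.mem_alternatingGroup.2 (by decide +kernel)⟩, by decide +kernel⟩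
  let i := j.comp (MonoidHom.inl _ _)
  refine h1 (congrArg Prod.fst (hj ((h.coprime hZ hσ hK (L := i.range) ?_ (y := j (1, y))
    (fun e => hp.out.ne_one ?_) ?_ ?_ ⟨x, rfl⟩ ⟨z, rfl⟩ (by rw [← map_pow, h2, map_one])
    (by rw [← map_pow, h3, map_one]) (by rw [← map_mul, ← map_pow, h4, map_one])).trans
    j.map_one.symm)))
  · obtain ⟨rfl, rfl⟩ | ⟨h5, rfl⟩ := hm
    · simp [h.ker_eq_bot hZ hσ hK fun V _ _ _ _ => MonoC.mod_two]
    · obtain rfl | h5 := h5.eq_or_lt
      · simp [h.ker_eq_bot hZ hσ hK fun V _ _ _ _ => MonoC.mod_five]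
      refine (Solv.coprime_card_of_isPGroup hK (Nat.Coprime.coprime_dvd_left (card_range_dvd i)
        ?_)).symm
      rw [nat_card_alternatingGroup, Nat.card_eq_fintype_card, Fintype.card_fin]
      exact (hp.out.coprime_factorial_of_lt h5).symm.coprime_dvd_left (by decide)
  · rw [← hy, orderOf_eq_one_iff]
    exact congrArg Prod.snd (hj (e.trans j.map_one.symm))
  · rw [← map_pow, ← hy, Prod.pow_mk, pow_orderOf_eq_one, one_pow]
    exact j.map_one
  · rintro _ ⟨l, rfl⟩
    simp [i, ← map_mul]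


/-- Let G be a finite group and p a prime other than 3 such that the centralizer of every non-central element of p-power order is solvable. Then every alternating group of degree at least 5 involved in G (as a section) has degree at most p + 4, or at most p + 6 = 8 when p = 2. -/
theorem result {G : Type*} [Group G] [Finite G] (p : ℕ) [Fact p.Prime] (hp3 : p ≠ 3)
    (h : ∀ x : G, x ∉ Subgroup.center G → (∃ k : ℕ, orderOf x = p ^ k) → Group.IsSolvable (Subgroup.centralizer ({x} : Set G)))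
    (d : ℕ) (hd : 5 ≤ d) (hinv : Cfsg.Involves (alternatingGroup (Fin d)) G) :
    d ≤ p + 4 + (if p = 2 then 2 else 0) := by
  by_contra h0
  obtain ⟨K, R, _, ⟨e⟩⟩ := hinv
  have hp : p.Prime := Fact.out
  obtain ⟨m, hm, hd⟩ : ∃ m, (p = 2 ∧ m = 4 ∨ 5 ≤ p ∧ m = p) ∧ 5 + m ≤ d := by
    by_cases h2 : p = 2
    · exact ⟨4, .inl ⟨h2, rfl⟩, by simp [h2] at h0; omega⟩
    · exact ⟨p, .inr ⟨hp.five_le_of_ne_two_of_ne_three h2 hp3, rfl⟩, by simp [h2] at h0; omega⟩
  obtain ⟨r, rfl⟩ := Nat.exists_eq_add_of_le hd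
  obtain ⟨j, hj⟩ := exists_emb (5 + m) r
  have hi : Function.Injective (j.comp (MonoidHom.inl _ _)) := hj.comp fun _ _ h =>
    congrArg Prod.fst h
  have h1 : SolvC.SC p G := fun x hx ⟨k, hk⟩ => h x hx
    (((Nat.dvd_prime_pow hp).1 (orderOf_dvd_of_pow_eq_one hk)).imp fun _ h => h.2)
  exact main ((h1.of_inj _ K.subtype_injective).of_inj _ (Subgroup.subtype_injective _))
    ((MonoidHom.ofInjective hi).symm.toMonoidHom.comp
      ((e.toMonoidHom.comp (QuotientGroup.mk' _)).subgroupComap _))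
    ((MonoidHom.ofInjective hi).symm.surjective.comp
      (MonoidHom.subgroupComap_surjective_of_surjective _ _
        (e.surjective.comp (QuotientGroup.mk'_surjective _)))) hm

end Cfsg.Agent.S4100
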