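import Cfsg.Statements.S4106
import Mathlib
import Cfsg.Agent.FGS.PClassCount

set_option autoImplicit false
open Cfsg

namespace Cfsg.Agent.S4106

/-- Let G be a finite group, π a set of primes and m the π-part of the order of G. Then the number of conjugacy classes of G consisting of π-elements (elements whose order is divisible only by primes in π) is at most m. -/
theorem result {G : Type*} [Group G] [Finite G]
    (π : Set ℕ) (hπ : ∀ q ∈ π, q.Prime)
    (m : ℕ) (hm : m ∣ Nat.card G) (hmπ : ∀ q : ℕ, q.Prime → q ∣ m → q ∈ π)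
    (hm' : ∀ q ∈ π, ¬ q ∣ Nat.card G / m) :
    Nat.card {C : ConjClasses G // ∀ q : ℕ, q.Prime → (∃ g : G, ConjClasses.mk g = C ∧ q ∣ orderOf g) → q ∈ π} ≤ m := by
  classical
  have hG : Nat.card G ≠ 0 := Nat.card_pos.ne'
  have hm0 : m ≠ 0 := fun h => hG (by simpa [h] using hm)
  let σ : Finset ℕ := m.primeFactors
  have hfac : ∀ q ∈ π, (Nat.card G).factorization q = m.factorization q := by
    intro q hq
    obtain ⟨k, hk⟩ := hm
    have hk0 : k ≠ 0 := fun h => hG (by simp [hk, h])
    have h1 := hm' q hq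
    rw [hk, Nat.mul_div_cancel_left _ (Nat.pos_of_ne_zero hm0)] at h1
    rw [hk, Nat.factorization_mul hm0 hk0, Finsupp.add_apply,
      Nat.factorization_eq_zero_of_not_dvd h1, add_zero]
  have h1 := FGS.PCC.kpi_le_part σ (fun r hr => Nat.prime_of_mem_primeFactors hr) G
  have h2 : FGS.PCC.part σ G = m := by
    conv_rhs => rw [← Nat.factorization_prod_pow_eq_self hm0]
    refine Finset.prod_congr rfl fun q hq => ?_
    rw [hfac q (hmπ q (Nat.prime_of_mem_primeFactors hq) (Nat.dvd_of_mem_primeFactors hq))]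
  rw [h2] at h1
  have key : ∀ C : ConjClasses G, (∀ q : ℕ, q.Prime →
      (∃ g : G, ConjClasses.mk g = C ∧ q ∣ orderOf g) → q ∈ π) →
      ∀ x ∈ C.carrier, ∀ r : ℕ, r.Prime → r ∣ orderOf x → r ∈ σ := by
    intro C hC x hx r hr hd
    have h3 := hC r hr ⟨x, ConjClasses.mem_carrier_iff_mk_eq.1 hx, hd⟩
    have h4 : r ∣ Nat.card G := hd.trans (orderOf_dvd_natCard x)
    obtain ⟨k, hk⟩ := hm
    have h5 := hm' r h3
    rw [hk, Nat.mul_div_cancel_left _ (Nat.pos_of_ne_zero hm0)] at h5
    rw [hk] at h4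
    exact Nat.mem_primeFactors.2 ⟨hr, ((Nat.Prime.dvd_mul hr).1 h4).resolve_right h5, hm0⟩
  refine le_trans (Nat.card_le_card_of_injective (fun C => ⟨C.1, key C.1 C.2⟩) ?_) h1
  intro C D h
  exact Subtype.ext (Subtype.mk.inj h)

end Cfsg.Agent.S4106
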