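import Cfsg.Statements.S4107
import Mathlib
import Cfsg.Agent.Grp.Fitting
import Cfsg.Agent.PLocal.AmbSyl
import Cfsg.Agent.FGS.PrimePart
import Cfsg.Agent.Transfer.PCompl

set_option autoImplicit false
open Cfsg

namespace Cfsg.Agent.S4107

open PLocal.Amb

theorem key {G : Type*} [Group G] [Finite G] (N : Subgroup G) [N.Normal] (hN1 : N ≠ ⊥)
    (heq : ∀ x : G, x ∉ N → ∀ n ∈ N, orderOf (x * n) = orderOf x)
    (h : ¬ fittingSubgroup G ≤ N) :
    ∃ p : ℕ, p.Prime ∧ IsPGroup p N ∧ IsPGroup p (fittingSubgroup G) := by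
  have : ∃ p : ℕ, p.Prime ∧ ¬ pCore p G ≤ N := by
    by_contra hcon
    push Not at hcon
    apply h
    rw [Grp.fitting_eq_iSup_pCore]
    exact iSup_le fun p => hcon p p.2
  obtain ⟨p, hp, hpN⟩ := this
  have := Fact.mk hp
  obtain ⟨x, hx, hxN⟩ := SetLike.not_le_iff_exists.1 hpN
  obtain ⟨k, hk⟩ := isPGroup_iff.1 (Grp.pCore_isPGroup p G) x hx
  have hNp : IsPGroup p N := by
    apply isPGroup_of_forall_coprime
    intro n hn hc
    have h1 : (x * n) ^ p ^ k = 1 := by
      rw [← orderOf_dvd_iff_pow_eq_one, heq x hxN n hn, orderOf_dvd_iff_pow_eq_one, hk]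
    have h2 : n ^ p ^ k ∈ pCore p G := by
      rw [← QuotientGroup.eq_one_iff, QuotientGroup.mk_pow]
      have : ((n : G) : G ⧸ pCore p G) = ((x * n : G) : G ⧸ pCore p G) := by
        rw [QuotientGroup.mk_mul, (QuotientGroup.eq_one_iff x).2 hx, one_mul]
      rw [this, ← QuotientGroup.mk_pow, h1, QuotientGroup.mk_one]
    have h3 : n ∈ pCore p G := mem_of_pow_mem_of_coprime h2 (Nat.Coprime.pow_right _ hc)
    exact eq_one_of_isPGroup_of_coprime (Grp.pCore_isPGroup p G) h3 hc
  refine ⟨p, hp, hNp, ?_⟩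
  apply isPGroup_of_forall_coprime
  intro y hy hc
  by_contra hy1
  have hyN : y ∉ N := fun h => hy1 (eq_one_of_isPGroup_of_coprime hNp h hc)
  obtain ⟨n, hn, hn1⟩ := (Subgroup.bot_or_exists_ne_one N).resolve_left hN1
  have hyO : y ∈ pPrimeCore p G := by
    have : Subgroup.zpowers y ≤ pPrimeCore p G :=
      Grp.le_pPrimeCore_of_le_fitting (by rw [Nat.card_zpowers]; exact hc)
        (by rw [Subgroup.zpowers_le]; exact hy)
    exact this (Subgroup.mem_zpowers y)
  have hnO : n ∈ pCore p G := Grp.le_pCore inferInstance hNp hn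
  have hcomm : Commute y n := (Grp.pCore_le_centralizer_pPrimeCore p G hnO) y hyO
  have h1 : (y * n) ^ orderOf y = 1 := by
    rw [← heq y hyN n hn, pow_orderOf_eq_one]
  rw [hcomm.mul_pow, pow_orderOf_eq_one, one_mul] at h1
  exact hn1 (eq_one_of_isPGroup_of_coprime hNp hn
    (Nat.Coprime.coprime_dvd_left (orderOf_dvd_of_pow_eq_one h1) hc))

/-- Let G be a finite group and N a proper non-trivial normal subgroup such that for every x outside N all elements of the coset xN have the same order as x. Then N ≤ F(G) or F(G) ≤ N, where F(G) is the Fitting subgroup; and if N is properly contained in F(G) then F(G) has prime-power order. -/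
theorem result {G : Type*} [Group G] [Finite G] (N : Subgroup G) [N.Normal] (hN1 : N ≠ ⊥) (hN2 : N ≠ ⊤)
    (heq : ∀ x : G, x ∉ N → ∀ n ∈ N, orderOf (x * n) = orderOf x) :
    (N ≤ Cfsg.fittingSubgroup G ∨ Cfsg.fittingSubgroup G ≤ N) ∧
    (N < Cfsg.fittingSubgroup G → IsPrimePow (Nat.card (Cfsg.fittingSubgroup G))) := by
  constructor
  · by_cases h : fittingSubgroup G ≤ N
    · exact Or.inr h
    · obtain ⟨p, hp, h1, -⟩ := key N hN1 heq h
      have := Fact.mk hp
      exact Or.inl (Grp.le_fitting inferInstance h1.isNilpotent)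
  · intro hlt
    obtain ⟨p, hp, -, h2⟩ := key N hN1 heq (not_le_of_gt hlt)
    have := Fact.mk hp
    obtain ⟨k, hk⟩ := h2.exists_card_eq
    refine ⟨p, k, hp.prime, Nat.pos_of_ne_zero ?_, hk.symm⟩
    rintro rfl
    rw [pow_zero, Subgroup.card_eq_one] at hk
    exact not_lt_bot (hk ▸ hlt)

end Cfsg.Agent.S4107
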