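import Cfsg.Statements.S4108
import Mathlib
import Cfsg.Agent.Solv.Frobenius
import Cfsg.Agent.PLocal.AmbSyl
import Cfsg.Agent.Grp.Card
import Cfsg.Agent.Grp.Cores

set_option autoImplicit false
open Cfsg

namespace Cfsg.Agent.S4108

open PLocal.Amb

/-- Let G be a finite group, p a prime and N a proper non-trivial normal p-subgroup such that for every x outside N all elements of the coset xN have the same order as x. Then every non-trivial subgroup H of G of order prime to p acts fixed-point-freely on N: NH is a Frobenius group with complement H and kernel N. -/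
theorem result {G : Type*} [Group G] [Finite G] (N : Subgroup G) [N.Normal] (hN1 : N ≠ ⊥) (hN2 : N ≠ ⊤)
    (heq : ∀ x : G, x ∉ N → ∀ n ∈ N, orderOf (x * n) = orderOf x)
    (p : ℕ) [Fact p.Prime] (hNp : IsPGroup p N) :
    ∀ H : Subgroup G, H ≠ ⊥ → (Nat.card H).Coprime p →
      Cfsg.IsFrobeniusComplement (H.subgroupOf (N ⊔ H)) ∧ Cfsg.frobeniusKernel (H.subgroupOf (N ⊔ H)) = (N.subgroupOf (N ⊔ H) : Set ↥(N ⊔ H)) := by
  intro H hH hcop
  have hd : N ⊓ H = ⊥ := Grp.inf_eq_bot_of_isPGroup_of_coprime hNp hcop
  have hc : (N.subgroupOf (N ⊔ H)).IsComplement' (H.subgroupOf (N ⊔ H)) := by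
    apply Grp.isComplement'_of_sup_eq_top
    · rw [eq_bot_iff]
      intro x hx
      have : (x : G) ∈ N ⊓ H := hx
      rw [hd, Subgroup.mem_bot] at this
      exact Subtype.ext this
    · rw [← Subgroup.subgroupOf_sup le_sup_left le_sup_right, Subgroup.subgroupOf_self]
  have hF : IsFrobeniusComplement (H.subgroupOf (N ⊔ H)) := by
    refine Solv.Frob.isFrobeniusComplement_of_fpf hc ?_ ?_ ?_
    · intro h
      rw [Subgroup.subgroupOf_eq_bot, disjoint_iff, inf_of_le_left le_sup_left] at h
      exact hN1 h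
    · intro h
      rw [Subgroup.subgroupOf_eq_bot, disjoint_iff, inf_of_le_left le_sup_right] at h
      exact hH h
    · intro h hh h1
      rw [eq_bot_iff]
      intro n hn
      have hc' : Commute (h : G) n :=
        (congrArg Subtype.val (Subgroup.mem_centralizer_singleton_iff.1 hn.2)).symm
      have hhN : (h : G) ∉ N := fun h2 => h1 (by
        have : (h : G) ∈ N ⊓ H := ⟨h2, hh⟩
        rw [hd, Subgroup.mem_bot] at this
        exact Subtype.ext this)
      have h3 := heq h hhN n hn.1
      have h4 : ((h : G) * n) ^ orderOf (h : G) = 1 := by rw [← h3, pow_orderOf_eq_one]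
      rw [hc'.mul_pow, pow_orderOf_eq_one, one_mul] at h4
      refine Subtype.ext (eq_one_of_isPGroup_of_coprime hNp hn.1 ?_)
      exact Nat.Coprime.coprime_dvd_left
        ((orderOf_dvd_of_pow_eq_one h4).trans (H.orderOf_dvd_natCard hh)) hcop
  exact ⟨hF, (Solv.Frob.coe_eq_frobeniusKernel hF hc).symm⟩

end Cfsg.Agent.S4108
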