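import Cfsg.Statements.S4115
import Mathlib
import Cfsg.Agent.FGS.TIHall
import Cfsg.Agent.S0877
import Cfsg.Agent.Solv.CN
import Cfsg.Agent.Solv.Coprime3
import Cfsg.Agent.Solv.CoprimeSylow
import Cfsg.Agent.Solv.FrobeniusAction
import Cfsg.Agent.FGS.PrimePart

set_option autoImplicit false
universe u
open Cfsg

namespace Cfsg.Agent.S4115

open Cfsg.Agent.PLocal.Amb Cfsg.Agent.FGS

section
variable {G : Type u} [Group G] [Finite G] {H N : Subgroup G} [N.Normal]
  (hcop : (Nat.card H).Coprime (Nat.card N))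
  (hC : ∀ x ∈ H, x ≠ 1 → N ⊓ Subgroup.centralizer {x} ≤ 𝐂[H]) (hN : ¬ N ≤ 𝐂[H])

include hcop hC hN in
theorem sect {S : Subgroup G} (hS : S ≤ H)
    (hinv : ∀ (p : ℕ) [Fact p.Prime], ∃ T, IsSyl p T N ∧ S ≤ 𝐍[T]) :
    ∃ (F : Type u) (_ : Group F) (_ : Finite F) (K C : Subgroup F), K.Normal ∧ K ≠ ⊥ ∧
      K.IsComplement' C ∧ (∀ a ∈ C, a ≠ 1 → K ⊓ Subgroup.centralizer {a} = ⊥) ∧
      Nonempty (S ≃* C) := by
  have h1 : ∃ (p : ℕ) (_ : Fact p.Prime) (T : Subgroup G), IsSyl p T N ∧ S ≤ 𝐍[T] ∧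
      ¬ T ≤ 𝐂[H] := by
    by_contra hcon
    push Not at hcon
    refine hN (Solv.le_of_forall_sylow_le N _ fun p _ => ?_)
    obtain ⟨T, hT, hST⟩ := hinv p
    obtain ⟨P, hP⟩ := hT.exists_sylow_map
    exact ⟨P, hP ▸ hcon p inferInstance T hT hST⟩
  obtain ⟨p, _, T, hT, hST, hTC⟩ := h1
  set B := T ⊓ 𝐂[H] with hB
  set A := T ⊓ 𝐍[B] with hA
  have hBA : B < A := lt_inf_normalizer hT.pgrp (lt_of_le_of_ne inf_le_left
    fun h => hTC (h ▸ inf_le_right))
  have hSB : S ≤ 𝐍[B] := le_normalizer_inf hST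
    (le_normalizer_centralizer (hS.trans Subgroup.le_normalizer))
  have hSA : S ≤ 𝐍[A] := le_normalizer_inf hST (le_normalizer_normalizer hSB)
  have hAN : A ≤ N := inf_le_left.trans hT.le
  have hHN : ∀ x ∈ H, x ∈ N → x = 1 := fun x hx hx' =>
    orderOf_eq_one_iff.1 (Nat.eq_one_of_dvd_coprimes hcop (H.orderOf_dvd_natCard hx)
      (N.orderOf_dvd_natCard hx'))
  let L := A ⊔ S
  have hLB : L ≤ 𝐍[B] := sup_le inf_le_right hSB
  have hLA : L ≤ 𝐍[A] := sup_le Subgroup.le_normalizer hSA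
  haveI hBn : (B.subgroupOf L).Normal := normal_subgroupOf' hLB
  haveI hAn : (A.subgroupOf L).Normal := normal_subgroupOf' hLA
  let π := QuotientGroup.mk' (B.subgroupOf L)
  have hπ : Function.Surjective π := QuotientGroup.mk'_surjective _
  have hker : ∀ x : L, π x = 1 ↔ (x : G) ∈ B := fun x => QuotientGroup.eq_one_iff x
  haveI hKn : ((A.subgroupOf L).map π).Normal := hAn.map π hπ
  refine ⟨L ⧸ B.subgroupOf L, inferInstance, inferInstance, (A.subgroupOf L).map π,
    (S.subgroupOf L).map π, hKn, ?_, ?_, ?_, ?_⟩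
  · intro h
    refine hBA.not_ge fun a ha => ?_
    have : π ⟨a, le_sup_left (a := A) ha⟩ ∈ (A.subgroupOf L).map π := ⟨_, ha, rfl⟩
    rw [h, Subgroup.mem_bot, hker] at this
    exact this
  · apply Grp.isComplement'_of_sup_eq_top
    · rw [eq_bot_iff]
      rintro _ ⟨⟨a, ha, rfl⟩, s, hs, hsa⟩
      have h2 : ((a⁻¹ * s : L) : G) ∈ B := by
        rw [← hker, map_mul, map_inv, hsa, inv_mul_cancel]
      have h3 : (s : G) ∈ N := by
        have := N.mul_mem (hAN ha) (hAN (hBA.le h2))
        simpa using this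
      have h4 : s = 1 := Subtype.ext (hHN s (hS hs) h3)
      rw [← hsa, h4, map_one]; exact one_mem _
    · rw [← Subgroup.map_sup, ← Subgroup.subgroupOf_sup le_sup_left le_sup_right,
        Subgroup.subgroupOf_self, Subgroup.map_top_of_surjective _ hπ]
  · rintro _ ⟨s, hs, rfl⟩ hs1
    have hs1' : (s : G) ≠ 1 := fun h => hs1 (by rw [show s = 1 from Subtype.ext h, map_one])
    rw [eq_bot_iff]
    rintro _ ⟨⟨a, ha, rfl⟩, hc⟩
    have hc' := Subgroup.mem_centralizer_singleton_iff.1 hc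
    have hz : Subgroup.zpowers (s : G) ≤ S := Subgroup.zpowers_le.2 hs
    obtain ⟨n, hn, hcn⟩ := Solv.coprime_fixed_coset' (Subgroup.zpowers (s : G)) B (hz.trans hSB)
      (Nat.Coprime.coprime_dvd_left (Subgroup.card_dvd_of_le (hz.trans hS))
        (Nat.Coprime.coprime_dvd_right (Subgroup.card_dvd_of_le (hBA.le.trans hAN)) hcop))
      (Or.inl inferInstance) a (by
        rintro _ ⟨k, rfl⟩
        have h5 : π (a⁻¹ * (s ^ k * a * (s ^ k)⁻¹)) = 1 := by
          have : Commute (π s) (π a) := hc'.symm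
          simp only [map_mul, map_inv, map_zpow]
          rw [(this.zpow_left k).eq]; group
        rw [hker] at h5
        simpa using h5)
    rw [centralizer_zpowers] at hcn
    have h6 : (a : G) * n ∈ B := ⟨mul_mem ha.1 hn.1,
      hC s (hS hs) hs1' ⟨hAN (mul_mem ha (hBA.le hn)), hcn⟩⟩
    rw [Subgroup.mem_bot, hker]
    simpa using mul_mem h6 (inv_mem hn)
  · have hinj : Function.Injective (π.subgroupMap (S.subgroupOf L)) := by
      rw [injective_iff_map_eq_one]
      intro s hs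
      have h2 : π s = 1 := congrArg Subtype.val hs
      rw [hker] at h2
      exact Subtype.ext (Subtype.ext (hHN _ (hS s.2) (hAN (hBA.le h2))))
    exact ⟨(Subgroup.subgroupOfEquivOfLe le_sup_right).symm.trans
      (MulEquiv.ofBijective _ ⟨hinj, π.subgroupMap_surjective _⟩)⟩

include hcop in
theorem inv_of_solv {S : Subgroup G} (hS : S ≤ H) (hs : Group.IsSolvable S)
    (p : ℕ) [Fact p.Prime] : ∃ T, IsSyl p T N ∧ S ≤ 𝐍[T] := by
  obtain ⟨P, hP⟩ := Solv.exists_invariant_sylow S N (by rw [Subgroup.normalizer_eq_top]; exact le_top)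
    (Nat.Coprime.coprime_dvd_left (Subgroup.card_dvd_of_le hS) hcop) (Or.inl hs) p
  exact ⟨_, isSyl_map_subtype P, hP⟩

include hcop hC in
theorem inv_of_central {t : G} (ht : t ∈ H) (ht1 : t ≠ 1) (hH : H ≤ Subgroup.centralizer {t})
    (p : ℕ) [Fact p.Prime] : ∃ T, IsSyl p T N ∧ H ≤ 𝐍[T] := by
  have hz : Subgroup.zpowers t ≤ H := Subgroup.zpowers_le.2 ht
  obtain ⟨T, hT, htT⟩ := inv_of_solv hcop hz inferInstance p
  refine ⟨T, hT, fun h hh => ?_⟩
  have hT' : IsSyl p cj(h, T) N :=
    hT.cj_of_mem_normalizer (by rw [Subgroup.normalizer_eq_top]; trivial)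
  have htT' : Subgroup.zpowers t ≤ 𝐍[cj(h, T)] := by
    rw [normalizer_cj, Subgroup.zpowers_le, mem_cj, mul_assoc,
      ← Subgroup.mem_centralizer_singleton_iff.1 (hH hh), inv_mul_cancel_left]
    exact htT (Subgroup.mem_zpowers t)
  obtain ⟨P, hP⟩ := hT.exists_sylow_map
  obtain ⟨Q, hQ⟩ := hT'.exists_sylow_map
  obtain ⟨c, hc, hcP⟩ := Solv.invariant_sylow_conj (Subgroup.zpowers t) N
    (by rw [Subgroup.normalizer_eq_top]; exact le_top)
    (Nat.Coprime.coprime_dvd_left (Subgroup.card_dvd_of_le hz) hcop) (Or.inl inferInstance) p P Q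
    (hP ▸ htT) (hQ ▸ htT')
  rw [centralizer_zpowers] at hc
  have hcH := hC t ht ht1 ⟨c.2, hc⟩
  have h1 : cj((c : G), T) = cj(h, T) := by
    rw [← hQ, ← hcP, coe_smul_sylow, map_subtype_cj, hP]
  have h2 : h⁻¹ * c ∈ 𝐍[T] := by
    rw [← cj_eq_iff, cj_mul, h1, cj_inv_cj]
  have h3 : Commute h⁻¹ (c : G) := Subgroup.mem_centralizer_iff.1 hcH _ (inv_mem hh)
  have h4 : (h⁻¹ * c) ^ Nat.card N ∈ 𝐍[T] := pow_mem h2 _
  rw [h3.mul_pow, ← Subgroup.coe_pow, pow_card_eq_one', Subgroup.coe_one, mul_one] at h4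
  have h5 := PLocal.Amb.mem_of_pow_mem_of_coprime h4
    (Nat.Coprime.coprime_dvd_left (H.orderOf_dvd_natCard (inv_mem hh)) hcop)
  simpa using h5

include hcop hC hN in
theorem inv_all (p : ℕ) [Fact p.Prime] : ∃ T, IsSyl p T N ∧ H ≤ 𝐍[T] := by
  rcases Nat.even_or_odd (Nat.card H) with h | h
  · haveI : Fact (Nat.Prime 2) := ⟨Nat.prime_two⟩
    obtain ⟨t, ht⟩ := exists_prime_orderOf_dvd_card' 2 h.two_dvd
    rw [← Subgroup.orderOf_coe] at ht
    have ht1 : (t : G) ≠ 1 := fun h => by rw [h, orderOf_one] at ht; omega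
    have ht2 : (t : G) * t = 1 := by rw [← sq, ← ht, pow_orderOf_eq_one]
    refine inv_of_central hcop hC t.2 ht1 (fun g hg => ?_) p
    set s : G := g * t * g⁻¹ with hs
    have hs1 : s ≠ 1 := by simpa [hs] using ht1
    have hs2 : s * s = 1 := by
      rw [hs, show g * t * g⁻¹ * (g * t * g⁻¹) = g * (t * t) * g⁻¹ by group, ht2]; simp
    have hsH : s ∈ H := mul_mem (mul_mem hg t.2) (inv_mem hg)
    let S := Subgroup.zpowers (t : G) ⊔ Subgroup.zpowers (t * s)
    have htS : (t : G) ∈ S := Subgroup.mem_sup_left (Subgroup.mem_zpowers _)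
    have hsS : s ∈ S := by
      have := mul_mem (inv_mem htS) (Subgroup.mem_sup_right (Subgroup.mem_zpowers (t * s)))
      simpa using this
    have hSH : S ≤ H := sup_le (Subgroup.zpowers_le.2 t.2)
      (Subgroup.zpowers_le.2 (mul_mem t.2 hsH))
    have hSs : Group.IsSolvable S := by
      refine Solv.Frob.isSolvable_sup_of_le_normalizer ?_ inferInstance inferInstance
      rw [Subgroup.zpowers_le]
      apply mem_normalizer_of_cj_le
      rw [cj_le_iff_forall]
      rintro _ ⟨n, rfl⟩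
      have : (t : G) * (t * s) * (t : G)⁻¹ = (t * s)⁻¹ := by
        rw [← mul_assoc, ht2, one_mul, mul_inv_rev, inv_eq_of_mul_eq_one_right hs2]
      simp only [← conj_zpow, this]
      exact zpow_mem (inv_mem (Subgroup.mem_zpowers _)) n
    obtain ⟨F, _, _, K, C, hKn, hK, -, hfpf, ⟨e⟩⟩ :=
      sect hcop hC hN hSH (inv_of_solv hcop hSH hSs)
    have key := Solv.CN.involution_unique_of_fpf (A := C) hK
      (by rw [Subgroup.normalizer_eq_top]; exact le_top) hfpf (e ⟨s, hsS⟩).2 (e ⟨t, htS⟩).2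
      (by simpa using hs1) (by simpa using ht1)
      (by rw [← Subgroup.coe_mul, ← map_mul, OneMemClass.coe_eq_one, map_eq_one_iff _ e.injective]
          exact Subtype.ext hs2)
      (by rw [← Subgroup.coe_mul, ← map_mul, OneMemClass.coe_eq_one, map_eq_one_iff _ e.injective]
          exact Subtype.ext ht2)
    have h3 : s = t := congrArg Subtype.val (e.injective (Subtype.ext key))
    rw [Subgroup.mem_centralizer_singleton_iff]
    rwa [hs, mul_inv_eq_iff_eq_mul] at h3
  · haveI : IsZGroup H := by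
      refine ⟨fun q hq P => ?_⟩
      haveI := Fact.mk hq
      by_cases h2 : q = 2
      · subst h2
        have : (P : Subgroup H) = ⊥ := by
          obtain ⟨n, hn⟩ := IsPGroup.iff_card.1 P.isPGroup'
          have h3 := Subgroup.card_subgroup_dvd_card (P : Subgroup H)
          rcases n with _ | n
          · exact Subgroup.eq_bot_of_card_eq _ hn
          · rw [hn] at h3
            exact absurd h (Nat.not_odd_iff_even.2 (even_iff_two_dvd.2
              ((dvd_pow_self 2 (Nat.succ_ne_zero n)).trans h3)))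
        rw [this]; infer_instance
      have hP : IsPGroup q ((P : Subgroup H).map H.subtype) := P.isPGroup'.map _
      obtain ⟨F, _, _, K, C, hKn, hK, -, hfpf, ⟨e⟩⟩ :=
        sect hcop hC hN (Subgroup.map_subtype_le (P : Subgroup H))
          (inv_of_solv hcop (Subgroup.map_subtype_le _) (Solv.isSolvable_of_isPGroup hP))
      have := Solv.Frob.isCyclic_of_fpf_of_isPGroup (hP.of_equiv e) h2 hK
        (by rw [Subgroup.normalizer_eq_top]; exact le_top) hfpf
      exact isCyclic_of_surjective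
        (e.symm.trans ((P : Subgroup H).equivMapOfInjective _ H.subtype_injective).symm)
        (MulEquiv.surjective _)
    exact inv_of_solv hcop le_rfl inferInstance p

end

/-- Let G be a finite group and H a subgroup that meets each of its conjugates by elements outside N_G(H) trivially and whose order is coprime to its index in N_G(H). Then H has a normal complement in N_G(H) if and only if H has a normal complement in G. Moreover, if H is not normal in G and has a normal complement in N_G(H), then H is isomorphic to a Frobenius complement of some finite Frobenius group. -/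
theorem result {G : Type u} [Group G] [Finite G] (H : Subgroup G)
    (hTI : Cfsg.IsTISubset (H : Set G)) (hHall : (Nat.card H).Coprime (H.subgroupOf (Subgroup.normalizer (H : Set G))).index) :
    ((∃ K : Subgroup (Subgroup.normalizer (H : Set G)), K.Normal ∧ K.IsComplement' (H.subgroupOf (Subgroup.normalizer (H : Set G)))) ↔
      (∃ N : Subgroup G, N.Normal ∧ N.IsComplement' H)) ∧
    (¬ H.Normal → (∃ K : Subgroup (Subgroup.normalizer (H : Set G)), K.Normal ∧ K.IsComplement' (H.subgroupOf (Subgroup.normalizer (H : Set G)))) →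
      ∃ (F : Type u) (_ : Group F) (_ : Finite F) (C : Subgroup F), Cfsg.IsFrobeniusComplement C ∧ Nonempty (H ≃* C)) := by
  have hHall' : (Nat.card H).Coprime H.index := ti_coprime_index hTI hHall
  have fwd : (∃ K : Subgroup (Subgroup.normalizer (H : Set G)), K.Normal ∧
      K.IsComplement' (H.subgroupOf (Subgroup.normalizer (H : Set G)))) →
      (∃ N : Subgroup G, N.Normal ∧ N.IsComplement' H) := by
    rintro ⟨K, hKn, hK⟩
    haveI : (H.subgroupOf 𝐍[H]).Normal := normal_subgroupOf' le_rfl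
    obtain ⟨N, hNn, h1, h2⟩ := S0877.result H hHall' (by
      intro x hx y hy hxy
      obtain ⟨g, rfl⟩ := isConj_iff.1 hxy
      by_cases hx1 : x = 1
      · exact ⟨1, one_mem _, by simp [hx1]⟩
      have hg := ti_mem_normalizer hTI hx hx1 hy
      obtain ⟨k, hk, h, hh, e⟩ := Solv.exists_mul_of_isComplement' hK ⟨g, hg⟩
      have hc := Grp.le_centralizer_of_normal_of_inf_eq_bot K _ hK.disjoint.eq_bot hk
      have e' : g = k * h := congrArg Subtype.val e
      refine ⟨h, hh, ?_⟩
      have hm : (h : G) * x * (h : G)⁻¹ ∈ H := mul_mem (mul_mem hh hx) (inv_mem hh)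
      have := congrArg Subtype.val (Subgroup.mem_centralizer_iff.1 hc
        ⟨_, Subgroup.le_normalizer hm⟩ hm)
      simp only [Subgroup.coe_mul] at this
      rw [e', show (k : G) * h * x * ((k : G) * h)⁻¹ = k * (h * x * (h : G)⁻¹) * (k : G)⁻¹ by group,
        ← this, mul_inv_cancel_right]) (by
      intro E p _ _ hE
      obtain ⟨g, hg⟩ := ti_exists_le_cj hTI (hHall'.coprime_dvd_left hE)
      exact ⟨g⁻¹, le_cj_iff.1 hg⟩)
    exact ⟨N, hNn, Grp.isComplement'_of_sup_eq_top h2 h1⟩
  refine ⟨⟨fwd, ?_⟩, fun hnn hK => ?_⟩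
  · rintro ⟨N, hNn, hN⟩
    refine ⟨N.subgroupOf _, inferInstance, Grp.isComplement'_of_sup_eq_top ?_ ?_⟩
    · rw [eq_bot_iff]
      intro x hx
      have : (x : G) ∈ N ⊓ H := hx
      rw [hN.disjoint.eq_bot, Subgroup.mem_bot] at this
      exact Subtype.ext this
    · rw [eq_top_iff]
      intro g _
      obtain ⟨n, hn, h, hh, e⟩ := Solv.exists_mul_of_isComplement' hN (g : G)
      have hh' : h ∈ 𝐍[H] := Subgroup.le_normalizer hh
      have hn' : n ∈ 𝐍[H] := by
        have := mul_mem g.2 (inv_mem hh')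
        rwa [e, mul_inv_cancel_right] at this
      have : g = ⟨n, hn'⟩ * ⟨h, hh'⟩ := Subtype.ext e
      rw [this]
      exact Subgroup.mul_mem_sup hn hh
  · obtain ⟨N, hNn, hN⟩ := fwd hK
    have hcop : (Nat.card H).Coprime (Nat.card N) := by
      rwa [← hN.index_eq_card]
    have hC : ∀ x ∈ H, x ≠ 1 → N ⊓ Subgroup.centralizer {x} ≤ 𝐂[H] := by
      intro x hx hx1 n hn
      have h1 : n ∈ 𝐍[H] := ti_mem_normalizer hTI hx hx1 (by
        rw [Subgroup.mem_centralizer_singleton_iff.1 hn.2, mul_inv_cancel_right]; exact hx)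
      rw [Subgroup.mem_centralizer_iff]
      intro h hh
      have h2 : n * h * n⁻¹ * h⁻¹ ∈ N ⊓ H := ⟨by
        have := N.mul_mem hn.1 (hNn.conj_mem _ (N.inv_mem hn.1) h)
        simpa [mul_assoc] using this,
        H.mul_mem (conj_mem_of_mem_normalizer h1 hh) (H.inv_mem hh)⟩
      rw [hN.disjoint.eq_bot, Subgroup.mem_bot, mul_inv_eq_one, mul_inv_eq_iff_eq_mul] at h2
      exact h2.symm
    have hNC : ¬ N ≤ 𝐂[H] := by
      intro h
      apply hnn
      rw [← Subgroup.normalizer_eq_top_iff, eq_top_iff, ← hN.sup_eq_top]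
      exact sup_le (h.trans (centralizer_le_normalizer' H)) Subgroup.le_normalizer
    obtain ⟨F, _, _, K, C, hKn, hK, hc, hfpf, ⟨e⟩⟩ :=
      sect hcop hC hNC le_rfl (inv_all hcop hC hNC)
    refine ⟨F, inferInstance, inferInstance, C,
      Solv.Frob.isFrobeniusComplement_of_fpf hc hK (fun h => hnn ?_) hfpf, ⟨e⟩⟩
    have : H = ⊥ := by
      apply Subgroup.eq_bot_of_card_eq
      rw [Nat.card_congr e.toEquiv, h, Subgroup.card_bot]
    rw [this]; infer_instance

end Cfsg.Agent.S4115
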