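import Cfsg.Statements.S4117
import Mathlib
import Cfsg.Agent.Solv.ExtAction2
import Cfsg.Agent.Solv.FrobeniusAction

set_option autoImplicit false
open Cfsg

namespace Cfsg.Agent.S4117

open Solv.Ext


/-- Let A be a finite group acting on the finite group G by automorphisms with the orders of A and G coprime, and suppose every Sylow subgroup of G is cyclic. Then the fixed-point subgroup C_G(A) is a Hall subgroup of G (its order is coprime to its index), the subgroup [G, A] generated by the elements g⁻¹·a(g) is cyclic and normal with [G, A] ∩ C_G(A) = 1 and [G, A]·C_G(A) = G. -/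
theorem result {G A : Type*} [Group G] [Finite G] [Group A] [Finite A]
    [MulDistribMulAction A G] (hcop : (Nat.card A).Coprime (Nat.card G))
    (hcyc : ∀ (p : ℕ) [Fact p.Prime] (P : Sylow p G), IsCyclic (P : Subgroup G)) :
    (Nat.card (MulAction.fixedPoints A G : Set G)).Coprime (Nat.card G / Nat.card (MulAction.fixedPoints A G : Set G)) ∧
    IsCyclic (Subgroup.closure {y : G | ∃ (a : A) (g : G), y = g⁻¹ * a • g}) ∧
    (Subgroup.closure {y : G | ∃ (a : A) (g : G), y = g⁻¹ * a • g}).Normal ∧
    (Subgroup.closure {y : G | ∃ (a : A) (g : G), y = g⁻¹ * a • g} : Set G) ∩ MulAction.fixedPoints A G = {1} ∧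
    Subgroup.closure {y : G | ∃ (a : A) (g : G), y = g⁻¹ * a • g} ⊔ Subgroup.closure (MulAction.fixedPoints A G) = ⊤ := by
  have hZ : IsZGroup G := ⟨fun p hp P => by have := Fact.mk hp; exact hcyc p P⟩
  have hK : Subgroup.closure {y : G | ∃ (a : A) (g : G), y = g⁻¹ * a • g} = comm A ⊤ := by
    simp [Solv.Ext.comm]
  rw [hK]
  have hC : Subgroup.closure (MulAction.fixedPoints A G) = FixedPoints.subgroup A G :=
    (FixedPoints.subgroup A G).closure_eq
  have hn : (comm A (⊤ : Subgroup G)).Normal := normal_comm_top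
  have hcop' : ∀ H : Subgroup G, (Nat.card A).Coprime (Nat.card H) := fun H =>
    hcop.coprime_dvd_right (Subgroup.card_subgroup_dvd_card H)
  have hcomm : IsMulCommutative (comm A (⊤ : Subgroup G)) := by
    have := IsZGroup.isCyclic_commutator G
    have h1 : comm A ⊤ ≤ Subgroup.centralizer (commutator G : Set G) :=
      comm_le_centralizer_of_isCyclic (inv_of_characteristic _) Subgroup.le_normalizer_of_normal
    refine ((Abelianization.of (G := G)).comp
      (comm A (⊤ : Subgroup G)).subtype).isMulCommutative_of_isCyclic_of_ker_le_center ?_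
    intro x hx
    have hx' : (x : G) ∈ commutator G := by
      rw [← Abelianization.ker_of]; exact hx
    rw [Subgroup.mem_center_iff]
    intro y
    exact Subtype.ext (h1 y.2 x hx').symm
  have hnil : Group.IsNilpotent (comm A (⊤ : Subgroup G)) := by
    open scoped IsMulCommutative in exact CommGroup.isNilpotent
  have hcyc' : IsCyclic (comm A (⊤ : Subgroup G)) := inferInstance
  have hinf : comm A (⊤ : Subgroup G) ⊓ FixedPoints.subgroup A G = ⊥ := by
    rw [← comm_comm inv_top (hcop' _) (Or.inr inferInstance)]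
    exact comm_inf_fixedPoints_eq_bot (inv_comm _) (hcop' _)
  have hsup : comm A (⊤ : Subgroup G) ⊔ FixedPoints.subgroup A G = ⊤ := by
    have := comm_sup_fixedPoints (A := A) (H := (⊤ : Subgroup G)) inv_top (hcop' _)
      (Or.inr inferInstance)
    rwa [top_inf_eq] at this
  refine ⟨?_, hcyc', hn, ?_, by rw [hC, hsup]⟩
  · have h1 := Grp.card_sup_of_disjoint (FixedPoints.subgroup A G) (comm A (⊤ : Subgroup G))
      (by rwa [inf_comm])
    rw [sup_comm, hsup, Subgroup.card_top] at h1
    change (Nat.card (FixedPoints.subgroup A G)).Coprime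
      (Nat.card G / Nat.card (FixedPoints.subgroup A G))
    rw [h1, Nat.mul_div_cancel_left _ Nat.card_pos]
    refine Nat.coprime_of_dvd fun p hp h2 h3 => ?_
    have := Fact.mk hp
    obtain ⟨c, hc⟩ := exists_prime_orderOf_dvd_card' p h2
    obtain ⟨R⟩ : Nonempty (Sylow p (comm A (⊤ : Subgroup G))) := inferInstance
    have hR1 : (R : Subgroup (comm A (⊤ : Subgroup G))).Normal := inferInstance
    have hR2 := Sylow.characteristic_of_normal R hR1
    set Z : Subgroup G := (R : Subgroup (comm A (⊤ : Subgroup G))).map (Subgroup.subtype _) with hZ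
    have hZn : Z.Normal := inferInstance
    have hZp : IsPGroup p Z := R.2.map _
    have hZ1 : p ∣ Nat.card Z := by
      rw [hZ, Subgroup.card_subtype]
      exact R.dvd_card_of_dvd_card h3
    have hcp : IsPGroup p (Subgroup.zpowers (c : G)) :=
      IsPGroup.of_card (n := 1) (by rw [Nat.card_zpowers, Subgroup.orderOf_coe, hc, pow_one])
    obtain ⟨P, hP⟩ := hcp.exists_le_sylow
    have hZP : Z ≤ P := hZp.le_sylow_of_normal P
    obtain ⟨z, hz⟩ := exists_prime_orderOf_dvd_card' p hZ1
    have h4 : (⟨c, hP (Subgroup.mem_zpowers _)⟩ : P) ∈ Subgroup.zpowers (⟨z, hZP z.2⟩ : P) :=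
      Solv.Frob.mem_zpowers_of_orderOf_dvd (by
        rw [Subgroup.orderOf_mk, Subgroup.orderOf_mk, Subgroup.orderOf_coe, Subgroup.orderOf_coe,
          hc, hz])
    have h5 : (c : G) ∈ Z := by
      obtain ⟨k, hk⟩ := h4
      have hk' : (z : G) ^ k = c := congrArg Subtype.val hk
      rw [← hk']
      exact Z.zpow_mem z.2 k
    have h6 : (c : G) ∈ comm A (⊤ : Subgroup G) ⊓ FixedPoints.subgroup A G :=
      ⟨Subgroup.map_subtype_le _ h5, c.2⟩
    rw [hinf, Subgroup.mem_bot] at h6
    rw [← Subgroup.orderOf_coe, h6, orderOf_one] at hc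
    exact hp.one_lt.ne hc
  · exact congrArg SetLike.coe hinf

end Cfsg.Agent.S4117
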