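import Cfsg.Statements.S4118
import Cfsg.Agent.PLocal.SigCoprime
import Cfsg.Agent.Solv.HallPi
import Cfsg.Agent.Solv.Coprime2
import Cfsg.Agent.Solv.FrobeniusAction
import Cfsg.Agent.Grp.Fitting
import Cfsg.Agent.Grp.Cores
import Cfsg.Agent.Transfer.Focal
import Cfsg.Agent.Perm.FpfGroup
import Cfsg.Agent.S3359
import Cfsg.Agent.S0205

set_option autoImplicit false
open Cfsg

namespace Cfsg.Agent.S4118

open Subgroup Cfsg.Agent.PLocal.Amb Cfsg.Agent.FGS.FrobCompl
open scoped commutatorElement Pointwise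

theorem sl25_not_solvable : ¬ Group.IsSolvable SL25 := by
  let x : SL25 := ⟨!![0, 4; 1, 1], by decide⟩
  let a : SL25 := ⟨!![0, 1; 4, 1], by decide⟩
  let b : SL25 := ⟨!![1, 2; 1, 3], by decide⟩
  have key : x = ⁅a * x * a⁻¹, b * x * b⁻¹⁆ := Subtype.ext (by decide +kernel)
  have h1 : x ≠ 1 := fun h => absurd (congrArg Subtype.val h) (by decide +kernel)
  refine not_isSolvable_of_mem_derivedSeries h1 fun n => ?_
  induction n with
  | zero => exact mem_top x
  | succ n ih =>
    rw [key, derivedSeries_succ]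
    exact commutator_mem_commutator ((derivedSeries_normal _ _).conj_mem _ ih _)
      ((derivedSeries_normal _ _).conj_mem _ ih _)

variable {G : Type*} [Group G] [Finite G]

theorem solv_of_coprime {A B : Subgroup G} (h : (Nat.card A).Coprime (Nat.card B)) :
    Group.IsSolvable A ∨ Group.IsSolvable B := by
  rcases Nat.even_or_odd (Nat.card A) with h1 | h1
  · right
    apply S0205.result
    rw [← Nat.not_even_iff_odd]
    intro h2
    have := Nat.eq_one_of_dvd_coprimes h h1.two_dvd h2.two_dvd
    omega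
  · exact Or.inl (S0205.result h1)

theorem not_dvd_index {H : Subgroup G}
    (hT : ∀ g x : G, x ∈ H → x ≠ 1 → g * x * g⁻¹ ∈ H → g ∈ 𝐍[H])
    (hHall : (Nat.card H).Coprime (H.relIndex 𝐍[H])) (p : ℕ) (hp : p.Prime)
    (hd : p ∣ Nat.card H) : ¬ p ∣ H.index := by
  have : Fact p.Prime := ⟨hp⟩
  obtain ⟨T, hT1⟩ := exists_isSyl p H
  have hne : T ≠ ⊥ := fun h => hT1.eq_bot_iff.1 h hd
  have hN : IsSyl p T 𝐍[H] := by
    refine isSyl_of_not_dvd_relIndex hT1.pgrp (hT1.le.trans le_normalizer) ?_
    rw [← relIndex_mul_relIndex T H 𝐍[H] hT1.le le_normalizer, hp.dvd_mul]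
    rintro (h | h)
    · exact hT1.not_dvd_relIndex h
    · exact hp.ne_one (Nat.eq_one_of_dvd_coprimes hHall hd h)
  obtain ⟨x, hx, hx1⟩ := (T.bot_or_exists_ne_one).resolve_left hne
  have h2 : IsSyl p T ⊤ := by
    apply isSyl_of_isSyl_normalizer
    refine hN.mono (le_inf le_top le_normalizer) fun g hg => ?_
    exact hT g x (hT1.le hx) hx1 (hT1.le ((mem_normalizer_iff.1 hg.2 x).1 hx))
  intro h
  apply h2.not_dvd_relIndex
  rw [← relIndex_mul_relIndex T H ⊤ hT1.le le_top, relIndex_top_right]
  exact h.mul_left _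

/-- the action of `H` on `[O,H]/[O,H]'` is fixed-point-free -/
theorem occurs {H O : Subgroup G} [O.Normal]
    (hT : ∀ g x : G, x ∈ H → x ≠ 1 → g * x * g⁻¹ ∈ H → g ∈ 𝐍[H])
    (hcop : (Nat.card H).Coprime (Nat.card O)) (hO : Group.IsSolvable O)
    (hsup : O ⊔ 𝐍[H] = ⊤) (hnn : ¬ H.Normal) : Occurs H := by
  have hH : H ≠ ⊥ := by rintro rfl; exact hnn inferInstance
  have : Nontrivial H := (H.nontrivial_iff_ne_bot).2 hH
  have hdisj : O ⊓ H = ⊥ := by
    exact (disjoint_of_coprime_natCard hcop.symm).eq_bot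
  have hHO : H ≤ 𝐍[O] := le_normalizer_of_normal
  set X : Subgroup G := ⁅O, H⁆ with hX
  have hXO : X ≤ O := Solv.commutator_le_of_le_normalizer hHO
  have hXn : X.Normal := by
    rw [← normalizer_eq_top_iff, eq_top_iff, ← hsup]
    exact sup_le (Solv.le_normalizer_commutator_left O H)
      (Solv.le_normalizer_commutator le_normalizer_of_normal le_rfl)
  have hX0 : X ≠ ⊥ := by
    intro h
    apply hnn
    rw [← normalizer_eq_top_iff, eq_top_iff, ← hsup]
    refine sup_le ?_ le_rfl
    exact (commutator_eq_bot_iff_le_centralizer.1 h).trans (centralizer_le_normalizer _)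
  have hXs : Group.IsSolvable X := Grp.isSolvable_of_le hXO
  have hlt : ⁅X, X⁆ < X := Grp.commutator_lt_of_isSolvable hX0
  set Y : Subgroup G := ⁅X, X⁆ with hY
  have hYn : Y.Normal := inferInstance
  let f : G →* G ⧸ Y := QuotientGroup.mk' Y
  have hXX : ⁅X, H⁆ = X := Solv.coprime_commutator_commutator H O hHO hcop (Or.inr hO)
  have hcomm : IsMulCommutative (X.map f) := by
    rw [← le_centralizer_iff_isMulCommutative, ← commutator_eq_bot_iff_le_centralizer,
      ← map_commutator, Subgroup.map_eq_bot_iff, QuotientGroup.ker_mk']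
  have hXn' : (X.map f).Normal := hXn.map f (QuotientGroup.mk'_surjective Y)
  have hnorm : H.map f ≤ 𝐍[X.map f] := le_normalizer_of_normal
  have hcop' : (Nat.card (H.map f)).Coprime (Nat.card (X.map f)) :=
    (hcop.coprime_dvd_left (card_map_dvd H f)).coprime_dvd_right
      ((card_map_dvd X f).trans (card_dvd_of_le hXO))
  have hkey := Solv.coprime_centralizer_inf_commutator (H.map f) (X.map f) hnorm hcop'
  rw [← map_commutator, hXX] at hkey
  have hnt : Nontrivial (X.map f) := by
    rw [nontrivial_iff_ne_bot, Ne, Subgroup.map_eq_bot_iff, QuotientGroup.ker_mk']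
    exact hlt.not_ge
  refine occurs_of_isFpf ((Solv.Frob.conjHom (X.map f) (H.map f) hnorm).comp (f.subgroupMap H)) ?_
  intro h v hv
  by_cases h1 : h = 1
  · exact Or.inl h1
  right
  obtain ⟨_, x, hx, rfl⟩ := v
  have hv' : f h * f x * (f h)⁻¹ = f x := by
    have := congrArg Subtype.val hv
    rw [MonoidHom.comp_apply, Solv.Frob.conjHom_apply] at this
    exact this
  have hc : Commute (f h) (f x) := by
    rw [Commute, SemiconjBy, ← mul_inv_eq_iff_eq_mul]; exact hv'
  have hzH : zpowers (h : G) ≤ H := (zpowers_le).2 h.2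
  obtain ⟨y, hy, hxy⟩ := Solv.coprime_fixed_coset' (zpowers (h : G)) Y le_normalizer_of_normal
    ((hcop.coprime_dvd_left (card_dvd_of_le hzH)).coprime_dvd_right
      (card_dvd_of_le (hlt.le.trans hXO)))
    (Or.inr (Grp.isSolvable_of_le hlt.le)) x (by
      rintro _ ⟨k, rfl⟩
      rw [← QuotientGroup.ker_mk' Y, MonoidHom.mem_ker]
      simp only [map_mul, map_inv, map_zpow]
      change (f x)⁻¹ * ((f h) ^ k * f x * ((f h) ^ k)⁻¹) = 1
      rw [(hc.zpow_left k).eq]
      group)
  have hxyO : x * y ∈ O := O.mul_mem (hXO hx) (hXO (hlt.le hy))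
  have hxyN : x * y ∈ 𝐍[H] := by
    refine hT _ h h.2 (fun e => h1 (Subtype.ext e)) ?_
    have := mem_centralizer_iff.1 hxy h (mem_zpowers _)
    rw [← this, mul_assoc, mul_inv_cancel, mul_one]
    exact h.2
  have hxyC : x * y ∈ 𝐂[H] := by
    rw [mem_centralizer_iff]
    intro k hk
    have h2 : ⁅x * y, k⁆ ∈ O ⊓ H := by
      refine ⟨?_, ?_⟩
      · rw [commutatorElement_def, mul_assoc, mul_assoc, ← mul_assoc k]
        exact O.mul_mem hxyO (Normal.conj_mem inferInstance _ (O.inv_mem hxyO) k)
      · rw [commutatorElement_def]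
        exact H.mul_mem ((mem_normalizer_iff.1 hxyN k).1 hk) (H.inv_mem hk)
    rw [hdisj, mem_bot, commutatorElement_eq_one_iff_mul_comm] at h2
    exact h2.symm
  have hfx : f x = f (x * y) := by
    rw [map_mul, show f y = 1 from (QuotientGroup.eq_one_iff y).2 hy, mul_one]
  have hmem : f x ∈ (X.map f ⊓ 𝐂[H.map f]) ⊓ X.map f := by
    refine ⟨⟨mem_map_of_mem f hx, mem_centralizer_iff.2 ?_⟩, mem_map_of_mem f hx⟩
    rintro _ ⟨k, hk, rfl⟩
    rw [hfx, ← map_mul, ← map_mul, mem_centralizer_iff.1 hxyC k hk]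
  rw [hkey, mem_bot] at hmem
  exact Subtype.ext hmem

/-- a perfect subgroup normalizing a Z-group and normalized by it centralizes it -/
theorem le_centralizer_of_zgroup {H L : Subgroup G} [IsZGroup H] (hL : ⁅L, L⁆ = L)
    (hLH : L ≤ 𝐍[H]) (hHL : H ≤ 𝐍[L]) : L ≤ 𝐂[H] := by
  set F := (fittingSubgroup H).map H.subtype with hF
  have hc : IsCyclic F := by
    have : IsCyclic (fittingSubgroup H) := inferInstance
    exact isCyclic_of_surjective _ (H.subtype.subgroupMap_surjective _)
  have h1 : L ≤ 𝐂[F] := Perm.Fpf.le_centralizer_of_perfect hL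
    (hLH.trans (Grp.normalizer_le_normalizer_map_of_characteristic H _))
  have h2 : ⁅H, L⁆ ≤ H := Solv.commutator_le_of_le_normalizer hLH
  have h3 : ⁅H, L⁆ ≤ L := by
    rw [commutator_comm]; exact Solv.commutator_le_of_le_normalizer hHL
  have h4 : ⁅H, L⁆ ≤ F := by
    intro x hx
    refine ⟨⟨x, h2 hx⟩, Grp.centralizer_fitting_le H ?_, rfl⟩
    rw [mem_centralizer_iff]
    intro y hy
    exact Subtype.ext (mem_centralizer_iff.1 (h1 (h3 hx)) y (mem_map_of_mem _ hy))
  have h5 : ⁅⁅H, L⁆, L⁆ = ⊥ := by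
    rw [commutator_comm, commutator_eq_bot_iff_le_centralizer]
    exact h1.trans (centralizer_le h4)
  have h6 : ⁅⁅L, L⁆, H⁆ = ⊥ :=
    commutator_commutator_eq_bot_of_rotate (by rw [commutator_comm L H]; exact h5) h5
  rw [hL, commutator_eq_bot_iff_le_centralizer] at h6
  exact h6

/-- a central Hall subgroup of a perfect group is trivial -/
theorem eq_bot_of_central_hall {D L : Subgroup G} (hL : ⁅L, L⁆ = L) (hDL : D ≤ L)
    (hc : L ≤ 𝐂[D]) (hcop : (Nat.card D).Coprime (D.relIndex L)) : D = ⊥ := by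
  rw [eq_bot_iff]
  intro x hx
  have hcard : Nat.card (D.subgroupOf L) = Nat.card D :=
    Nat.card_congr (subgroupOfEquivOfLe hDL).toEquiv
  have hcen : D.subgroupOf L ≤ center L := by
    intro y hy
    rw [mem_center_iff]
    intro z
    exact Subtype.ext (mem_centralizer_iff.1 (hc z.2) y hy).symm
  have h1 := Transfer.mem_commutator_of_hall_of_central (G := L) (H := D.subgroupOf L)
    (by rw [hcard]; exact hcop) (x := ⟨x, hDL hx⟩) hx (hcen hx) (by
      have : (commutator L).map L.subtype = L := by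
        rw [commutator_def, map_commutator, ← MonoidHom.range_eq_map, range_subtype, hL]
      have hx' : x ∈ (commutator L).map L.subtype := by rw [this]; exact hDL hx
      obtain ⟨y, hy, rfl⟩ := hx'
      exact hy)
  have h2 : ⁅D.subgroupOf L, D.subgroupOf L⁆ = ⊥ := by
    rw [commutator_eq_bot_iff_le_centralizer]
    exact hcen.trans (center_le_centralizer _)
  rw [h2, mem_bot] at h1
  exact congrArg Subtype.val h1

/-- Let G be a finite group and H a non-normal subgroup meeting each of its conjugates by elements outside N_G(H) trivially, with the order of H coprime to its index in N_G(H); let π be the set of primes dividing the order of H and suppose G is π-separable (it has a chain of normal subgroups from 1 to G each of whose factors has order divisible only by primes in π or coprime to the order of H). Let O be the largest normal subgroup of G of order coprime to the order of H. Then G = O·N_G(H), O·H is normal in G, and G is solvable if and only if O is solvable and H has no subgroup isomorphic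 to SL₂(5). -/
theorem result {G : Type*} [Group G] [Finite G] (H : Subgroup G)
    (hTI : Cfsg.IsTISubset (H : Set G)) (hnn : ¬ H.Normal)
    (hHall : (Nat.card H).Coprime (H.subgroupOf (Subgroup.normalizer (H : Set G))).index)
    (hsep : ∃ (n : ℕ) (M : Fin (n + 1) → Subgroup G), M 0 = ⊥ ∧ M (Fin.last n) = ⊤ ∧ Monotone M ∧ (∀ i, (M i).Normal) ∧
      ∀ i : Fin n, (∀ q : ℕ, q.Prime → q ∣ (M i.castSucc).relIndex (M i.succ) → q ∣ Nat.card H) ∨
        ((M i.castSucc).relIndex (M i.succ)).Coprime (Nat.card H))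
    (O : Subgroup G) (hO : O = sSup {K : Subgroup G | K.Normal ∧ (Nat.card K).Coprime (Nat.card H)}) :
    O ⊔ Subgroup.normalizer (H : Set G) = ⊤ ∧ (O ⊔ H).Normal ∧
    (Group.IsSolvable G ↔ Group.IsSolvable O ∧
      ∀ K : Subgroup G, K ≤ H → ¬ Nonempty (K ≃* Matrix.SpecialLinearGroup (Fin 2) (ZMod 5))) := by
  have hT : ∀ g x : G, x ∈ H → x ≠ 1 → g * x * g⁻¹ ∈ H → g ∈ 𝐍[H] := by
    intro g x hx h1 h2
    by_contra hg
    exact h1 (hTI g hg x hx h2)
  have hH : H ≠ ⊥ := by rintro rfl; exact hnn inferInstance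
  have hidx := not_dvd_index hT hHall
  let π : Set ℕ := {p | p ∣ Nat.card H}
  have hHπ : IsPiHallOf π H ⊤ :=
    ⟨le_top, fun p _ h => h, fun p hp h => by rw [relIndex_top_right]; exact hidx p hp h⟩
  have hcopiff : ∀ n : ℕ, n.Coprime (Nat.card H) ↔ ∀ p : ℕ, p.Prime → p ∣ n → p ∈ πᶜ := by
    intro n
    constructor
    · intro h p hp h1 h2
      exact hp.ne_one (Nat.eq_one_of_dvd_coprimes h h1 h2)
    · intro h
      exact Nat.Coprime.symm (Solv.Pi.coprime_of_pi (π := π) (fun p _ h => h)
        fun p hp h1 h2 => h p hp h2 h1)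
  have hO' : O = piCore πᶜ G := by
    rw [hO, piCore]
    congr 1
    ext K
    simp only [Set.mem_ofPred_eq, hcopiff]
  have hOn : O.Normal := by rw [hO']; infer_instance
  have hOc : (Nat.card O).Coprime (Nat.card H) := by
    rw [hcopiff, hO']; exact Solv.Pi.pi_card_piCore _
  have hOmax : ∀ K : Subgroup G, K.Normal → (Nat.card K).Coprime (Nat.card H) → K ≤ O := by
    intro K h1 h2
    rw [hO]; exact le_sSup ⟨h1, h2⟩
  have hsup : O ⊔ 𝐍[H] = ⊤ := by
    obtain ⟨n, M, hM0, hMn, hmono, hMnorm, hfac⟩ := hsep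
    have hex : ∃ i : Fin n, M i.castSucc ≤ O ∧ ¬ M i.succ ≤ O := by
      by_contra hcon
      push Not at hcon
      have hall : ∀ i, M i ≤ O := by
        intro i
        induction i using Fin.induction with
        | zero => rw [hM0]; exact bot_le
        | succ i ih => exact hcon i ih
      have h1 : H ≤ O := le_top.trans (hMn ▸ hall _)
      exact hH (card_eq_one.1 (Nat.eq_one_of_dvd_coprimes hOc (card_dvd_of_le h1) dvd_rfl))
    obtain ⟨i, hi1, hi2⟩ := hex
    have hle : M i.castSucc ≤ M i.succ := hmono Fin.castSucc_lt_succ.le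
    have hπ : ∀ q : ℕ, q.Prime → q ∣ (M i.castSucc).relIndex (M i.succ) → q ∣ Nat.card H := by
      refine (hfac i).resolve_right fun h => hi2 (hOmax _ (hMnorm _) ?_)
      have h1 : Nat.card (M i.succ) =
          Nat.card (M i.castSucc) * (M i.castSucc).relIndex (M i.succ) := by
        rw [← relIndex_bot_left, ← relIndex_bot_left, relIndex_mul_relIndex _ _ _ bot_le hle]
      rw [h1]
      exact Nat.Coprime.mul_left (hOc.coprime_dvd_left (card_dvd_of_le hi1)) h
    have hMi := hMnorm i.succ
    set K := M i.succ ⊔ O with hK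
    have hKn : K.Normal := inferInstance
    have hOK : ∀ q : ℕ, q.Prime → q ∣ O.relIndex K → q ∈ π := by
      intro q hq h
      rw [hK, relIndex_sup_right] at h
      exact hπ q hq (h.trans (relIndex_dvd_of_le_left _ hi1))
    have hD : IsPiHallOf π (H ⊓ K) K := Solv.Pi.hallOf_inf hHπ le_top le_normalizer_of_normal
    set D := H ⊓ K with hDdef
    have hKeq : K ≤ O ⊔ D := by
      rw [← relIndex_eq_one]
      exact Nat.eq_one_of_dvd_coprimes (Solv.Pi.coprime_of_pi hOK hD.2.2)
        (relIndex_dvd_of_le_left _ le_sup_left) (relIndex_dvd_of_le_left _ le_sup_right)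
    have hD0 : D ≠ ⊥ := by
      intro h
      rw [h, sup_bot_eq] at hKeq
      exact hi2 (le_sup_left.trans hKeq)
    obtain ⟨x, hx, hx1⟩ := (D.bot_or_exists_ne_one).resolve_left hD0
    rw [eq_top_iff]
    intro g _
    have hcard : Nat.card (MulAut.conj g • D : Subgroup G) = Nat.card D := Solv.card_conj_smul _ _
    have hcop : (Nat.card (MulAut.conj g • D : Subgroup G)).Coprime (Nat.card O) := by
      rw [hcard]
      exact (hOc.symm.coprime_dvd_left (card_dvd_of_le inf_le_left))
    obtain ⟨k, hk, hkD⟩ := Solv.exists_conj_eq_of_coprime (MulAut.conj g • D) D O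
      le_normalizer_of_normal hcop (solv_of_coprime hcop) hcard.ge (by
        intro a ha
        have haK : a ∈ K := by
          have h1 := (Solv.mem_conj_smul_iff.1 ha).2
          have h2 := hKn.conj_mem _ h1 g
          simpa [mul_assoc] using h2
        have h3 : a ∈ ((O ⊔ D : Subgroup G) : Set G) := hKeq haK
        rw [normal_mul] at h3
        obtain ⟨o, ho, d, hd, rfl⟩ := h3
        exact ⟨o, ho, by simpa using hd⟩)
    have hkg : k * g ∈ 𝐍[H] := by
      refine hT _ x hx.1 hx1 ?_
      have : k * g * x * (k * g)⁻¹ ∈ D := by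
        rw [← hkD, Solv.mem_conj_smul_iff, Solv.mem_conj_smul_iff]
        simpa [mul_assoc] using hx
      exact this.1
    have : g = k⁻¹ * (k * g) := by group
    rw [this]
    exact mul_mem (mem_sup_left (O.inv_mem hk)) (mem_sup_right hkg)
  have hOH : (O ⊔ H).Normal := by
    rw [← normalizer_eq_top_iff, eq_top_iff, ← hsup]
    exact sup_le (le_sup_left.trans le_normalizer)
      (Solv.le_normalizer_sup le_normalizer_of_normal le_rfl)
  refine ⟨hsup, hOH, fun hG => ⟨inferInstance, fun K _ ⟨e⟩ => sl25_not_solvable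
    (Group.isSolvable_of_surjective (f := (e : K →* SL25)) e.surjective)⟩, fun ⟨hOs, hSL⟩ => ?_⟩
  have hocc : Occurs H := occurs hT hOc.symm hOs hsup hnn
  have hHs : Group.IsSolvable H := by
    by_contra hns
    obtain ⟨S, -, -, ⟨e⟩⟩ := S3359.exists_SL25 hns hocc
    exact hSL (S.map H.subtype) (map_subtype_le S)
      ⟨(S.equivMapOfInjective H.subtype H.subtype_injective).symm.trans e⟩
  rcases Nat.even_or_odd (Nat.card H) with hev | hodd
  · have h1 : Group.IsSolvable (H ⊔ O : Subgroup G) :=
      Solv.Frob.isSolvable_sup_of_le_normalizer le_normalizer_of_normal hHs hOs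
    rw [sup_comm] at h1
    rw [Group.isSolvable_iff_subgroup_quotient (O ⊔ H)]
    refine ⟨h1, S0205.result ?_⟩
    rw [← Nat.not_even_iff_odd]
    intro h2
    exact hidx 2 Nat.prime_two hev.two_dvd
      (h2.two_dvd.trans (index_dvd_of_le (le_sup_right : H ≤ O ⊔ H)))
  · have hZ : IsZGroup H := hocc.rankOne.isZGroup_of_odd (Nat.coprime_two_right.2 hodd)
    have hNs : Group.IsSolvable 𝐍[H] := by
      by_contra hns
      obtain ⟨S, hSn, hS0, hSp⟩ := exists_perfect_normal hns
      set L := S.map (𝐍[H]).subtype with hL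
      have hLp : ⁅L, L⁆ = L := by rw [hL, ← map_commutator, hSp]
      have hLN : L ≤ 𝐍[H] := map_subtype_le S
      have hNL : 𝐍[H] ≤ 𝐍[L] := by
        intro g hg
        rw [mem_normalizer_iff]
        intro y
        constructor
        · rintro ⟨s, hs, rfl⟩
          exact ⟨_, hSn.conj_mem s hs ⟨g, hg⟩, rfl⟩
        · rintro ⟨s, hs, e⟩
          refine ⟨_, hSn.conj_mem s hs ⟨g, hg⟩⁻¹, ?_⟩
          simp only [coe_subtype, inv_inv, coe_mul, coe_inv] at e ⊢
          rw [e]; group
      have hHL : H ≤ 𝐍[L] := le_normalizer.trans hNL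
      have hLC : L ≤ 𝐂[H] := le_centralizer_of_zgroup hLp hLN hHL
      have hD : IsPiHallOf π (H ⊓ L) L := Solv.Pi.hallOf_inf hHπ le_top hHL
      have hD0 : H ⊓ L = ⊥ := eq_bot_of_central_hall hLp inf_le_right
        (hLC.trans (centralizer_le inf_le_left)) (Solv.Pi.hallOf_coprime hD)
      have hLπ : ∀ p : ℕ, p.Prime → p ∈ π → ¬ p ∣ Nat.card L := by
        have := hD.2.2
        rwa [hD0, relIndex_bot_left] at this
      have hn : (L ⊔ O).Normal := by
        rw [← normalizer_eq_top_iff, eq_top_iff, ← hsup]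
        exact sup_le (le_sup_right.trans le_normalizer)
          (Solv.le_normalizer_sup hNL le_normalizer_of_normal)
      have hLO : L ⊔ O ≤ O := by
        refine hOmax _ hn ?_
        rw [hcopiff]
        intro p hp h1 h2
        have : Fact p.Prime := ⟨hp⟩
        exact PLocal.Sig.not_dvd_sup le_normalizer_of_normal (hLπ p hp h2)
          (fun h3 => (hcopiff _).1 hOc p hp h3 h2) h1
      have hLs : Group.IsSolvable L := Grp.isSolvable_of_le (le_sup_left.trans hLO)
      have hL0 : L ≠ ⊥ := by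
        rw [hL, Ne, map_eq_bot_iff_of_injective _ (𝐍[H]).subtype_injective]
        exact hS0
      exact (Grp.commutator_lt_of_isSolvable hL0).ne hLp
    have h1 : Group.IsSolvable (𝐍[H] ⊔ O : Subgroup G) :=
      Solv.Frob.isSolvable_sup_of_le_normalizer le_normalizer_of_normal hNs hOs
    rw [sup_comm, hsup] at h1
    exact Group.isSolvable_of_surjective (f := (topEquiv : (⊤ : Subgroup G) ≃* G).toMonoidHom)
      topEquiv.surjective

end Cfsg.Agent.S4118
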