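import Cfsg.Statements.S4167
import Mathlib
import Cfsg.Agent.FGS.ClassSize
import Cfsg.Agent.Transfer.ThompsonTransfer
import Cfsg.Agent.Grp.Frattini
import Cfsg.Agent.S0205

set_option autoImplicit false
open Cfsg

namespace Cfsg.Agent.S4167

/-- Let G be a finite group in which no conjugacy class has size divisible by 4. Then G is solvable. -/
theorem result {G : Type*} [Group G] [Finite G]
    (h : ∀ x : G, ¬ 4 ∣ (Subgroup.centralizer ({x} : Set G)).index) : Group.IsSolvable G := by
  refine FGS.isSolvable_of_closed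
    (P := fun G _ _ => ∀ x : G, ¬ 4 ∣ (Subgroup.centralizer ({x} : Set G)).index) ?_ ?_ ?_ G h
  · intro G _ _ N _ h x hx
    exact h x (hx.trans (FGS.index_centralizer_normal_dvd N x))
  · intro G _ _ N _ h x hx
    obtain ⟨x, rfl⟩ := QuotientGroup.mk'_surjective N x
    exact h x (hx.trans (FGS.index_centralizer_map_dvd _ (QuotientGroup.mk'_surjective N) x))
  intro G _ _ _ h
  rcases Nat.even_or_odd (Nat.card G) with he | ho
  swap
  · exact S0205.result ho
  have : Fact (Nat.Prime 2) := ⟨Nat.prime_two⟩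
  obtain ⟨z, hz⟩ := exists_prime_orderOf_dvd_card' 2 he.two_dvd
  by_cases hM : ∃ M : Subgroup G, M.Normal ∧ M.index = 2
  · obtain ⟨M, hM, hi⟩ := hM
    rcases hM.eq_bot_or_eq_top with rfl | rfl
    · rw [Subgroup.index_bot] at hi
      have := isCyclic_of_prime_card hi
      exact Group.isSolvable_of_comm fun a b => (IsCyclic.isMulCommutative (α := G)).is_comm.comm a b
    · simp at hi
  have key : Subgroup.centralizer ({z} : Set G) = ⊤ := by
    apply FGS.eq_top_of_forall_exists_conj_mem
    intro g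
    obtain ⟨S⟩ : Nonempty (Sylow 2 (Subgroup.centralizer ({g} : Set G))) := inferInstance
    set T := (S : Subgroup _).map (Subgroup.centralizer ({g} : Set G)).subtype with hT
    have hTp : IsPGroup 2 T := S.isPGroup'.map _
    obtain ⟨P, hP⟩ := hTp.exists_le_sylow
    have h4 : ¬ 4 ∣ T.index := by
      rw [hT, Subgroup.index_map_subtype]
      intro h4
      apply h g
      refine Nat.Coprime.dvd_of_dvd_mul_left ?_ h4
      exact Nat.Coprime.pow_left 2 ((Nat.Prime.coprime_iff_not_dvd Nat.prime_two).2 S.not_dvd_index)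
    have hex : ∃ x : G, x * z * x⁻¹ ∈ T := by
      obtain ⟨k, hk⟩ := IsPGroup.iff_card.1 P.isPGroup'
      have h1 : T.relIndex P ∣ 2 ^ k := hk ▸ Subgroup.relIndex_dvd_card _ _
      obtain ⟨j, -, hj⟩ := (Nat.dvd_prime_pow Nat.prime_two).1 h1
      have h2 : T.relIndex P ∣ T.index := Subgroup.relIndex_dvd_index_of_le hP
      have hj2 : j < 2 := by
        by_contra hc
        exact h4 ((pow_dvd_pow 2 (not_lt.1 hc)).trans (hj ▸ h2))
      interval_cases j
      · have h3 : (P : Subgroup G) ≤ T := Subgroup.relIndex_eq_one.1 hj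
        obtain ⟨Q, hQ⟩ := FGS.exists_sylow_mem (p := 2) (x := z)
          ⟨1, by rw [pow_one, ← hz, pow_orderOf_eq_one]⟩
        obtain ⟨x, hx⟩ := MulAction.exists_smul_eq G Q P
        refine ⟨x, h3 ?_⟩
        rw [← hx, Sylow.coe_subgroup_smul, Grp.mem_conj_smul_iff]
        simpa [mul_assoc] using hQ
      · rcases Transfer.thompson_transfer (Nat.odd_iff.2 (Nat.two_dvd_ne_zero.1 P.not_dvd_index))
          hj hz with ⟨M, h1, h2, -⟩ | h1
        · exact absurd ⟨M, h1, h2⟩ hM
        · exact h1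
    obtain ⟨x, hx⟩ := hex
    have h5 := Subgroup.map_subtype_le _ hx
    rw [Subgroup.mem_centralizer_singleton_iff] at h5
    refine ⟨x⁻¹, Subgroup.mem_centralizer_singleton_iff.2 ?_⟩
    calc x⁻¹ * g * x⁻¹⁻¹ * z = x⁻¹ * (g * (x * z * x⁻¹)) * x := by group
      _ = x⁻¹ * ((x * z * x⁻¹) * g) * x := by rw [h5]
      _ = z * (x⁻¹ * g * x⁻¹⁻¹) := by group
  have hzc : z ∈ Subgroup.center G := by
    rw [Subgroup.mem_center_iff]
    intro g
    exact Subgroup.mem_centralizer_singleton_iff.1 (key ▸ Subgroup.mem_top g)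
  rcases (inferInstance : (Subgroup.center G).Normal).eq_bot_or_eq_top with h1 | h1
  · rw [h1, Subgroup.mem_bot] at hzc
    simp [hzc] at hz
  · exact Group.isSolvable_of_comm fun a b =>
      Subgroup.mem_center_iff.1 (h1 ▸ Subgroup.mem_top b) a

end Cfsg.Agent.S4167
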