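import Cfsg.Statements.S4130
import Mathlib
import Cfsg.Agent.FGS.SqfreeClass
import Cfsg.Agent.S4167

set_option autoImplicit false
set_option linter.style.haveILetI false
open Cfsg Subgroup
open scoped commutatorElement

namespace Cfsg.Agent.S4130

/-- Let G be a finite group all of whose conjugacy class sizes are square-free. Then G is supersolvable, G/F(G) and the derived subgroup G′ are cyclic of square-free order (F(G) the Fitting subgroup, which is normal), F(G) has nilpotency class at most 2, and G is metabelian. -/
theorem result {G : Type*} [Group G] [Finite G]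
    (h : ∀ x : G, Squarefree (Subgroup.centralizer ({x} : Set G)).index) :
    Cfsg.IsSupersolvable G ∧ (Cfsg.fittingSubgroup G).Normal ∧
    (∀ _h : (Cfsg.fittingSubgroup G).Normal, IsCyclic (G ⧸ Cfsg.fittingSubgroup G) ∧ Squarefree (Cfsg.fittingSubgroup G).index) ∧
    IsCyclic (commutator G) ∧ Squarefree (Nat.card (commutator G)) ∧
    Subgroup.upperCentralSeries ↥(Cfsg.fittingSubgroup G) 2 = ⊤ ∧ commutator ↥(commutator G) = ⊥ := by

  have hsq : ∀ p : ℕ, p.Prime → ∀ x : G, ¬ p ^ 2 ∣ (centralizer ({x} : Set G)).index := by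
    intro p hp x hd
    exact hp.one_lt.ne' (Nat.isUnit_iff.1 (h x p (by rwa [← pow_two])))
  haveI : Group.IsSolvable G := S4167.result (fun x => hsq 2 Nat.prime_two x)
  have key : ∀ p : ℕ, p.Prime →
      Nat.card ((commutator G).map (QuotientGroup.mk' (pPrimeCore p G))) ∣ p := by
    intro p hp
    haveI : Fact p.Prime := ⟨hp⟩
    have h1 := FGS.Sqf.card_commutator_dvd (G := G ⧸ pPrimeCore p G) (p := p)
      (Grp.pPrimeCore_quotient_pPrimeCore p G) (by
        intro x hd
        obtain ⟨y, rfl⟩ := QuotientGroup.mk'_surjective _ x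
        exact hsq p hp y (hd.trans
          (FGS.index_centralizer_map_dvd _ (QuotientGroup.mk'_surjective _) y)))
    rwa [_root_.commutator_def, map_commutator, map_top_of_surjective _ (QuotientGroup.mk'_surjective _),
      ← _root_.commutator_def]
  have hsf : Squarefree (Nat.card (commutator G)) := by
    rw [Nat.squarefree_iff_prime_squarefree]
    intro p hp hd
    haveI : Fact p.Prime := ⟨hp⟩
    have h1 := key p hp
    rw [← relIndex_ker, QuotientGroup.ker_mk'] at h1
    have h2 := ((pPrimeCore p G).subgroupOf (commutator G)).card_mul_index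
    have h3 : (Nat.card ((pPrimeCore p G).subgroupOf (commutator G))).Coprime p := by
      rw [← inf_subgroupOf_right, Nat.card_congr (subgroupOfEquivOfLe inf_le_right).toEquiv]
      exact Grp.coprime_of_le_pPrimeCore inf_le_left
    rw [← h2] at hd
    have h4 := (Nat.Coprime.mul_left h3.symm h3.symm).dvd_of_dvd_mul_left hd
    have h5 := Nat.le_of_dvd hp.pos (h4.trans h1)
    nlinarith [hp.one_lt]
  have hcomm : ∀ a ∈ commutator G, ∀ b ∈ commutator G, a * b = b * a := by
    intro a ha b hb
    rw [← commutatorElement_eq_one_iff_mul_comm, ← orderOf_eq_one_iff]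
    by_contra hne
    obtain ⟨p, hp, hd⟩ := Nat.exists_prime_and_dvd hne
    haveI : Fact p.Prime := ⟨hp⟩
    haveI := isCyclic_of_card_dvd_prime (key p hp)
    have h1 : ⁅a, b⁆ ∈ pPrimeCore p G := by
      rw [← QuotientGroup.ker_mk' (pPrimeCore p G), MonoidHom.mem_ker, map_commutatorElement,
        commutatorElement_eq_one_iff_mul_comm]
      have := IsCyclic.isMulCommutative.is_comm.comm
        (⟨_, a, ha, rfl⟩ : (commutator G).map (QuotientGroup.mk' (pPrimeCore p G))) ⟨_, b, hb, rfl⟩
      exact congrArg Subtype.val this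
    exact (Nat.Prime.coprime_iff_not_dvd hp).1 (Grp.orderOf_coprime_of_mem_pPrimeCore h1).symm hd
  haveI hmc : IsMulCommutative (commutator G) :=
    ⟨⟨fun a b => Subtype.ext (hcomm _ a.2 _ b.2)⟩⟩
  haveI : IsZGroup (commutator G) := IsZGroup.of_squarefree hsf
  haveI hnil : Group.IsNilpotent (commutator G) := by
    letI : CommGroup (commutator G) := IsMulCommutative.instCommGroup
    infer_instance
  haveI hcyc : IsCyclic (commutator G) := inferInstance
  have hss : IsSupersolvable G := by
    apply Solv.isSupersolvable_of_cyclic_normal (commutator G)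
    apply Solv.isSupersolvable_of_isNilpotent
    exact CommGroup.isNilpotent (G := Abelianization G)
  have hucs : ∀ K : Subgroup G, K ≤ centralizer (commutator G : Set G) →
      Subgroup.upperCentralSeries K 2 = ⊤ := by
    intro K hK
    rw [eq_top_iff]
    intro x _
    rw [Subgroup.mem_upperCentralSeries_succ_iff]
    intro y
    rw [Subgroup.upperCentralSeries_one, mem_center_iff]
    intro z
    apply Subtype.ext
    have h1 : ((⁅x, y⁆ : K) : G) ∈ _root_.commutator G :=
      commutator_mem_commutator (mem_top (x : G)) (mem_top (y : G))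
    exact (mem_centralizer_iff.1 (hK z.2) _ h1).symm
  have hCF : centralizer (commutator G : Set G) ≤ fittingSubgroup G :=
    Grp.le_fitting inferInstance ⟨⟨2, hucs _ le_rfl⟩⟩
  have hGF : commutator G ≤ fittingSubgroup G := Grp.le_fitting inferInstance hnil
  have hFC : fittingSubgroup G ≤ centralizer (commutator G : Set G) := by
    rw [le_centralizer_iff]
    apply FGS.le_of_forall_primePow
    intro p hp y hy ⟨k, hk⟩
    by_cases hy1 : y = 1
    · rw [hy1]; exact one_mem _
    haveI hn : (zpowers y).Normal := Solv.normal_of_le_cyclic_normal (zpowers_le.2 hy)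
    have hord : orderOf y = p := by
      obtain ⟨j, -, hj⟩ := (Nat.dvd_prime_pow hp).1 (orderOf_dvd_of_pow_eq_one hk)
      have h1 : Squarefree (p ^ j) := hj ▸ hsf.squarefree_of_dvd (Subgroup.orderOf_dvd_natCard _ hy)
      have h2 : j ≠ 0 := by
        rintro rfl
        exact hy1 (orderOf_eq_one_iff.1 (by simpa using hj))
      have h3 := (Nat.squarefree_pow_iff hp.one_lt.ne' h2).1 h1
      rw [hj, h3.2, pow_one]
    haveI := Grp.fitting_isNilpotent G
    obtain ⟨u, hu, hu1, huc⟩ := Grp.PChain.exists_central_mod
      ((zpowers y).subgroupOf (fittingSubgroup G)) ⊥ (by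
        intro h1
        exact hy1 (congrArg Subtype.val (mem_bot.1 (h1 (x := ⟨y, hGF hy⟩) (mem_zpowers y)))))
    haveI : Fact p.Prime := ⟨hp⟩
    have hu2 : (u : G) ≠ 1 := fun h1 => hu1 (mem_bot.2 (Subtype.ext h1))
    have hz : zpowers y = zpowers (u : G) := by
      have h1 : Nat.card (zpowers y) = p := by rw [Nat.card_zpowers, hord]
      refine FGS.Sqf.eq_of_card_prime h1 ?_ hu2 hu (mem_zpowers _)
      rw [Nat.card_zpowers]
      have h2 : orderOf (u : G) ∣ p := h1 ▸ Subgroup.orderOf_dvd_natCard _ hu
      rcases (Nat.dvd_prime hp).1 h2 with h3 | h3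
      · exact absurd (orderOf_eq_one_iff.1 h3) hu2
      · exact h3
    have hle : zpowers (u : G) ≤ centralizer (fittingSubgroup G : Set G) := by
      rw [zpowers_le, mem_centralizer_iff]
      intro g hg
      have := commutatorElement_eq_one_iff_mul_comm.1 (mem_bot.1 (huc ⟨g, hg⟩))
      exact (congrArg Subtype.val this).symm
    exact hle (hz ▸ mem_zpowers y)
  have hidx : Squarefree (fittingSubgroup G).index := by
    obtain ⟨g, hg⟩ := IsCyclic.exists_generator (α := commutator G)
    have h1 : centralizer ({(g : G)} : Set G) ≤ centralizer (commutator G : Set G) := by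
      intro x hx
      rw [mem_centralizer_iff]
      intro y hy
      obtain ⟨k, hk⟩ := mem_zpowers_iff.1 (hg ⟨y, hy⟩)
      have h2 : (g : G) ^ k = y := by simpa using congrArg Subtype.val hk
      rw [← h2]
      exact ((show Commute x g from mem_centralizer_singleton_iff.1 hx).zpow_right k).symm
    exact (h g).squarefree_of_dvd (index_dvd_of_le (h1.trans hCF))
  refine ⟨hss, inferInstance, fun _ => ⟨?_, hidx⟩, hcyc, hsf, hucs _ hFC, ?_⟩
  · haveI : IsZGroup (G ⧸ fittingSubgroup G) := IsZGroup.of_squarefree hidx
    haveI : IsMulCommutative (G ⧸ fittingSubgroup G) :=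
      Subgroup.Normal.quotient_commutative_iff_commutator_le.2 hGF
    haveI : Group.IsNilpotent (G ⧸ fittingSubgroup G) := by
      letI : CommGroup (G ⧸ fittingSubgroup G) := IsMulCommutative.instCommGroup
      infer_instance
    infer_instance
  · rw [_root_.commutator_def (_root_.commutator G), commutator_eq_bot_iff_le_centralizer]
    intro x _
    rw [mem_centralizer_iff]
    intro y _
    exact Subtype.ext (hcomm _ y.2 _ x.2)

end Cfsg.Agent.S4130
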