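import Cfsg.Statements.S4133
import Cfsg.Agent.FGS.ClassSize
import Cfsg.Agent.PLocal.RelSylow
import Cfsg.Agent.Grp.Card
import Cfsg.Agent.Grp.Cores
import Cfsg.Agent.Inv.Basic
import Cfsg.Agent.Transfer.AbelianHall
import Cfsg.Agent.Transfer.PCompl
import Cfsg.Agent.Grp.CardProduct
import Cfsg.Agent.S0018
import Cfsg.Agent.S0205

set_option autoImplicit false
open Cfsg

namespace Cfsg.Agent.S4133

open Subgroup Pointwise

universe u

/-- all `p`-subgroups are abelian -/
def Ab (p : ℕ) (G : Type*) [Group G] : Prop :=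
  ∀ U : Subgroup G, IsPGroup p U → ∀ x ∈ U, ∀ y ∈ U, x * y = y * x

theorem Ab.of_sylow {G : Type*} [Group G] {p : ℕ} (h : ∀ P : Sylow p G, IsMulCommutative P) :
    Ab p G := fun U hU x hx y hy => by
  obtain ⟨P, hP⟩ := hU.exists_le_sylow
  exact congrArg Subtype.val ((h P).1.1 ⟨x, hP hx⟩ ⟨y, hP hy⟩)

theorem Ab.sylow {G : Type*} [Group G] {p : ℕ} (h : Ab p G) (P : Sylow p G) :
    IsMulCommutative P := ⟨⟨fun x y => Subtype.ext (h P P.2 x x.2 y y.2)⟩⟩

theorem Ab.sub {G : Type*} [Group G] {p : ℕ} (h : Ab p G) (X : Subgroup G) : Ab p X :=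
  fun U hU _ hx _ hy => Subtype.ext (h (U.map X.subtype) (hU.map _) _ (mem_map_of_mem _ hx) _
    (mem_map_of_mem _ hy))

theorem Ab.quot {G : Type*} [Group G] [Finite G] {p : ℕ} [Fact p.Prime] (h : Ab p G)
    (N : Subgroup G) [N.Normal] : Ab p (G ⧸ N) := by
  refine Ab.of_sylow fun Q => ⟨⟨?_⟩⟩
  obtain ⟨P, rfl⟩ := Sylow.mapSurjective_surjective (QuotientGroup.mk'_surjective N) p Q
  rintro ⟨_, x, hx, rfl⟩ ⟨_, y, hy, rfl⟩
  exact Subtype.ext (by simp only [coe_mul]; rw [← map_mul, ← map_mul, h P P.2 x hx y hy])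

theorem eq_one_of_odd {G : Type*} [Group G] [Finite G] {S H : Subgroup G} (hS : IsPGroup 2 S)
    (hH : Odd (Nat.card H)) {x : G} (h1 : x ∈ S) (h2 : x ∈ H) : x = 1 := by
  have : Fact (Nat.Prime 2) := ⟨Nat.prime_two⟩
  have := Grp.inf_eq_bot_of_isPGroup_of_coprime hS (Nat.coprime_two_right.2 hH)
  exact mem_bot.1 (this ▸ (⟨h1, h2⟩ : x ∈ S ⊓ H))

theorem pow_of_dvd {n k : ℕ} (h : n ∣ 2 ^ k) : ∃ j, n = 2 ^ j :=
  let ⟨j, _, hj⟩ := (Nat.dvd_prime_pow Nat.prime_two).1 h
  ⟨j, hj⟩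

theorem solvable_of_center {G : Type*} [Group G] [IsSimpleGroup G] {z : G} (h1 : z ≠ 1)
    (h : centralizer ({z} : Set G) = ⊤) : Group.IsSolvable G := by
  have hzc : z ∈ center G := mem_center_iff.2 fun g =>
    mem_centralizer_singleton_iff.1 (h ▸ mem_top g)
  rcases (inferInstance : (center G).Normal).eq_bot_or_eq_top with h2 | h2
  · exact absurd (mem_bot.1 (h2 ▸ hzc)) h1
  · exact Group.isSolvable_of_comm fun a b => mem_center_iff.1 (h2 ▸ mem_top b) a

theorem eq_inv_of_odd {G : Type*} [Group G] {y k : G} (hy : Odd (orderOf y))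
    (h : y * k * y⁻¹ = k⁻¹) : k = k⁻¹ := by
  obtain ⟨i, hi⟩ := hy
  have e2 : Commute (y * y) k := by
    show y * y * k = k * (y * y)
    calc y * y * k = y * (y * k * y⁻¹) * y⁻¹ * (y * y) := by group
      _ = (y * k * y⁻¹)⁻¹ * (y * y) := by nth_rewrite 1 [h]; group
      _ = _ := by rw [h, inv_inv]
  have e3 : y = ((y * y) ^ i)⁻¹ := by
    rw [eq_inv_iff_mul_eq_one, ← sq, ← pow_mul, ← pow_succ', ← hi, pow_orderOf_eq_one]
  have e4 : Commute y k := by
    rw [e3]; exact (e2.pow_left i).inv_left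
  rwa [e4.eq, mul_inv_cancel_right] at h

theorem card_fact {G : Type*} [Group G] {A B : Subgroup G}
    (h : ∀ g, ∃ a ∈ A, ∃ b ∈ B, a * b = g) :
    Nat.card A * Nat.card B = Nat.card ↥(A ⊓ B) * Nat.card G := by
  have : (A : Set G) * (B : Set G) = Set.univ := Set.eq_univ_of_forall fun g => by
    obtain ⟨a, ha, b, hb, e⟩ := h g
    exact ⟨a, ha, b, hb, e⟩
  rw [Grp.card_mul_card_eq, this, Nat.card_univ]

theorem final {G : Type*} [Group G] [Finite G] [IsSimpleGroup G] (hA : Ab 2 G) (S : Sylow 2 G)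
    {H : Subgroup G} (hH : Odd (Nat.card H)) {j : ℕ} (hj : H.index = 2 ^ j)
    (hC : ∀ t ∈ (S : Subgroup G), orderOf t = 2 →
      centralizer {t} ≤ normalizer ((S : Subgroup G) : Set G)) : Group.IsSolvable G := by
  have : Fact (Nat.Prime 2) := ⟨Nat.prime_two⟩
  by_contra hG
  have hpg : ¬ IsPGroup 2 G := fun h => by
    have := h.isNilpotent
    exact hG inferInstance
  have hev : 2 ∣ Nat.card G := by
    by_contra h
    exact hG (S0205.result (Nat.odd_iff.2 (Nat.two_dvd_ne_zero.1 h)))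
  have hin : ∀ U : Subgroup G, IsPGroup 2 U → U ≤ normalizer ((S : Subgroup G) : Set G) →
      U ≤ S := fun U hU h => by
    have := S.3 (IsPGroup.to_sup_of_normal_right' hU S.2 h) le_sup_right
    exact le_sup_left.trans this.le
  have hin1 : ∀ w, orderOf w = 2 → w ∈ normalizer ((S : Subgroup G) : Set G) →
      w ∈ (S : Subgroup G) := fun w hw h =>
    hin _ (Inv.isPGroup_zpowers_of_orderOf_two hw) (zpowers_le.2 h) (mem_zpowers w)
  have hTI : ∀ t ∈ (S : Subgroup G), orderOf t = 2 → ∀ g : G, g * t * g⁻¹ ∈ (S : Subgroup G) →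
      g ∈ normalizer ((S : Subgroup G) : Set G) := fun t ht ht2 g hg => by
    have h1 : MulAut.conj g⁻¹ • (S : Subgroup G) ≤ S := hin _ (g⁻¹ • S).2 fun w hw => hC t ht ht2 (by
      rw [Grp.mem_conj_smul_iff, inv_inv] at hw
      have := hA S S.2 _ hw _ hg
      rw [mem_centralizer_singleton_iff]
      calc w * t = g⁻¹ * (g * w * g⁻¹ * (g * t * g⁻¹)) * g := by group
        _ = g⁻¹ * (g * t * g⁻¹ * (g * w * g⁻¹)) * g := by rw [this]
        _ = _ := by group)
    have h2 := eq_of_le_of_card_ge h1 (Grp.card_conj_smul _ _).ge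
    simpa using inv_mem (Grp.conj_smul_eq_iff_mem_normalizer.1 h2)
  have hodd : ∀ t ∈ (S : Subgroup G), orderOf t = 2 → ∀ w, orderOf w = 2 → w ∉ (S : Subgroup G) →
      Odd (orderOf (t * w)) := fun t ht ht2 w hw2 hw => by
    by_contra h
    obtain ⟨z, -, hz, h1, h2⟩ := Inv.exists_central_involution_of_even
      (Inv.mul_self_of_orderOf_two ht2) (Inv.mul_self_of_orderOf_two hw2) (Nat.not_odd_iff_even.1 h)
    have hzS := hin1 z hz (hC t ht ht2 (mem_centralizer_singleton_iff.2 h1))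
    exact hw (hin1 w hw2 (hC z hzS hz (mem_centralizer_singleton_iff.2 h2.symm)))
  obtain ⟨t, ht, ht2⟩ := Inv.exists_involution_of_isPGroup S.2 (S.ne_bot_of_dvd_card hev)
  obtain ⟨u, hu2, hu⟩ : ∃ u, orderOf u = 2 ∧ u ∉ (S : Subgroup G) := by
    by_contra h
    push Not at h
    have h1 : t ∈ (S : Subgroup G).normalCore := fun g => h _ (by rw [Inv.orderOf_conj, ht2])
    rcases (S : Subgroup G).normalCore_normal.eq_bot_or_eq_top with h2 | h2
    · exact Inv.ne_one_of_orderOf_two ht2 (mem_bot.1 (h2 ▸ h1))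
    · exact hpg ((S.2.to_le (h2 ▸ (S : Subgroup G).normalCore_le : ⊤ ≤ (S : Subgroup G))).of_equiv
        topEquiv)
  have huN : u ∉ normalizer ((S : Subgroup G) : Set G) := fun h => hu (hin1 u hu2 h)
  obtain ⟨s, hs, hs2, hst⟩ : ∃ s ∈ (S : Subgroup G), orderOf s = 2 ∧ s ≠ t := by
    by_contra h
    push Not at h
    have h1 := (Transfer.isComplement'_pResidual_of_comm S (hA.sylow S)).disjoint
    rcases (inferInstance : (pResidual 2 G).Normal).eq_bot_or_eq_top with h2 | h2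
    · exact hpg (Transfer.pResidual_eq_bot_iff.1 h2)
    · rw [h2, top_disjoint] at h1
      refine Inv.ne_one_of_orderOf_two ht2 (mem_bot.1 (h1 ▸ ⟨ht, fun g hg => ?_⟩))
      have := h _ ((mem_normalizer_iff.1 hg t).1 ht) (by rw [Inv.orderOf_conj, ht2])
      exact mul_inv_eq_iff_eq_mul.1 this
  have hu1 := Inv.mul_self_of_orderOf_two hu2
  have ht1 := Inv.mul_self_of_orderOf_two ht2
  have hs' : orderOf (u * s * u⁻¹) = 2 := by rw [Inv.orderOf_conj, hs2]
  obtain ⟨n, hn⟩ := Inv.exists_conj_of_odd_orderOf_mul ht1 (Inv.mul_self_of_orderOf_two hs')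
    (hodd t ht ht2 _ hs' fun h => huN (hTI s hs hs2 u h))
  have hc := Inv.conj_pow_eq_inv (Inv.conj_mul_eq_inv_left ht1 (Inv.mul_self_of_orderOf_two hs')) n
  set c := (t * (u * s * u⁻¹)) ^ n with hcdef
  have hds : (t * c * u) * s * (t * c * u)⁻¹ = t := by
    calc (t * c * u) * s * (t * c * u)⁻¹ = t * (c * (u * s * u⁻¹) * c⁻¹) * t⁻¹ := by group
      _ = t := by rw [hn]; group
  have hdN := hTI s hs hs2 _ (hds.symm ▸ ht)
  have hdu : u * (t * c * u) * u⁻¹ = (t * c * u)⁻¹ := by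
    have e1 : u⁻¹ = u := inv_eq_of_mul_eq_one_right hu1
    have e2 : t⁻¹ = t := inv_eq_of_mul_eq_one_right ht1
    calc u * (t * c * u) * u⁻¹ = u * (t * c * t⁻¹) * t := by group
      _ = u⁻¹ * c⁻¹ * t⁻¹ := by rw [hc, e1, e2]
      _ = _ := by group
  set d := t * c * u with hd
  obtain ⟨m, hm1, hm⟩ := Inv.exists_pow_odd_orderOf (x := d) fun k hk => by
    have h1 := hin _ (Inv.isPGroup_zpowers_of_orderOf hk) (zpowers_le.2 hdN) (mem_zpowers d)
    rw [hA S S.2 _ h1 _ hs, mul_inv_cancel_right] at hds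
    exact hst hds
  obtain ⟨r, hr, hrd⟩ := Nat.exists_prime_and_dvd (fun e => hm1 (orderOf_eq_one_iff.1 e))
  have hko : orderOf ((d ^ m) ^ (orderOf (d ^ m) / r)) = r :=
    orderOf_pow_orderOf_div (orderOf_pos _).ne' hrd
  have hr2 : r ≠ 2 := by
    rintro rfl
    exact (Nat.not_even_iff_odd.2 hm) (even_iff_two_dvd.2 hrd)
  have hkN : (d ^ m) ^ (orderOf (d ^ m) / r) ∈ normalizer ((S : Subgroup G) : Set G) :=
    pow_mem (pow_mem hdN _) _
  have hku := Inv.conj_pow_eq_inv (Inv.conj_pow_eq_inv hdu m) (orderOf (d ^ m) / r)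
  set k := (d ^ m) ^ (orderOf (d ^ m) / r) with hk
  have hkk : k ≠ k⁻¹ := fun e => by
    have : k ^ 2 = 1 := by rw [sq]; nth_rewrite 2 [e]; simp
    exact hr2 ((Nat.prime_dvd_prime_iff_eq hr Nat.prime_two).1 (hko ▸ orderOf_dvd_of_pow_eq_one this))
  have hfix : ∀ v ∈ (S : Subgroup G), v * k = k * v → v = 1 := fun v hv hvk => by
    by_contra hv1
    obtain ⟨w, hw, hw2⟩ := Inv.exists_involution_of_isPGroup (S.2.to_le (zpowers_le.2 hv))
      (by simpa using hv1)
    have hwk : w * k = k * w := by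
      obtain ⟨i, rfl⟩ := hw
      exact (Commute.zpow_left hvk i : Commute _ _)
    refine hkk (eq_inv_of_odd (hodd w (zpowers_le.2 hv hw) hw2 u hu2 hu) ?_)
    calc (w * u) * k * (w * u)⁻¹ = w * (u * k * u⁻¹) * w⁻¹ := by group
      _ = (w * k * w⁻¹)⁻¹ := by rw [hku]; group
      _ = _ := by rw [hwk]; group
  have : Fact r.Prime := ⟨hr⟩
  obtain ⟨R, -, hR⟩ := FGS.exists_sylow_le_of_not_dvd_index (p := r) (H := H) (U := ⊥)
    (fun h => hr2 ((Nat.prime_dvd_prime_iff_eq hr Nat.prime_two).1 (hr.dvd_of_dvd_pow (hj ▸ h))))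
    IsPGroup.of_bot bot_le
  obtain ⟨g, hg⟩ := PLocal.RelSylow.exists_conj_mem_sylow' R
    (Inv.isPGroup_zpowers_of_orderOf (k := 1) (x := k) (by simpa using hko))
  have hkH : k ∈ MulAut.conj g⁻¹ • H := by
    rw [Grp.mem_conj_smul_iff, inv_inv]
    exact hR (hg k (mem_zpowers k))
  have hH' : Odd (Nat.card (MulAut.conj g⁻¹ • H : Subgroup G)) := by rwa [Grp.card_conj_smul]
  obtain ⟨a, ha, b, hb, hab⟩ := FGS.exists_sylow_mul_of_index_eq_pow
    (H := MulAut.conj g⁻¹ • H) (k := j) (by rw [← hj]; exact index_map_equiv H (MulAut.conj g⁻¹)) S u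
  have e1 : k * a⁻¹ * k⁻¹ * a = k * (b * k * b⁻¹) := by
    rw [← hab] at hku
    calc k * a⁻¹ * k⁻¹ * a = k * a⁻¹ * (a * b * k * (a * b)⁻¹) * a := by rw [hku]
      _ = _ := by group
  have e2 : k * a⁻¹ * k⁻¹ * a = 1 := eq_one_of_odd S.2 hH'
    (mul_mem ((mem_normalizer_iff.1 hkN _).1 (inv_mem ha)) ha)
    (e1 ▸ mul_mem hkH (mul_mem (mul_mem hb hkH) (inv_mem hb)))
  have e3 : a = 1 := hfix a ha (by
    calc a * k = k * a * k⁻¹ * (k * a⁻¹ * k⁻¹ * a) * k := by group
      _ = _ := by rw [e2]; group)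
  rw [e3, one_mul] at hab
  exact (Nat.not_even_iff_odd.2 hH') (Inv.even_card_of_involution (hab ▸ hb) hu2)

theorem solvAB (G : Type u) [Group G] [Finite G] :
    Ab 2 G → (∃ H : Subgroup G, Odd (Nat.card H) ∧ ∃ j, H.index = 2 ^ j) → Group.IsSolvable G := by
  refine Grp.card_induction (P := fun G _ _ =>
    Ab 2 G → (∃ H : Subgroup G, Odd (Nat.card H) ∧ ∃ j, H.index = 2 ^ j) → Group.IsSolvable G) ?_ G
  rintro G _ _ ih hA ⟨H, hH, j, hj⟩
  have : Fact (Nat.Prime 2) := ⟨Nat.prime_two⟩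
  have hsub : ∀ X : Subgroup G, Odd (Nat.card (H.subgroupOf X)) := fun X =>
    hH.of_dvd_nat (by rw [Grp.card_subgroupOf]; exact card_dvd_of_le inf_le_left)
  rcases subsingleton_or_nontrivial G with hs | hs
  · infer_instance
  by_cases hsim : IsSimpleGroup G
  swap
  · have : ∃ N : Subgroup G, N.Normal ∧ N ≠ ⊥ ∧ N ≠ ⊤ := by
      by_contra hcon
      push Not at hcon
      exact hsim ⟨fun N hN => by
        by_cases h : N = ⊥
        · exact Or.inl h
        · exact Or.inr (hcon N hN h)⟩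
    obtain ⟨N, hN, h1, h2⟩ := this
    have i1 : Group.IsSolvable N := ih N (Grp.card_lt_of_ne_top h2) (hA.sub N)
      ⟨H.subgroupOf N, hsub N, pow_of_dvd (hj ▸ FGS.relIndex_normal_dvd_index H N)⟩
    have i2 : Group.IsSolvable (G ⧸ N) := ih _ (Grp.card_quotient_lt N h1) (hA.quot N)
      ⟨H.map (QuotientGroup.mk' N), hH.of_dvd_nat (card_map_dvd _ _),
        pow_of_dvd (hj ▸ index_map_dvd H (QuotientGroup.mk'_surjective N))⟩
    exact FGS.isSolvable_of_normal_of_quotient N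
  obtain ⟨S⟩ : Nonempty (Sylow 2 G) := inferInstance
  by_contra hG
  refine hG (final hA S hH hj fun t ht ht2 => ?_)
  set C := centralizer ({t} : Set G) with hCdef
  have hC : C ≠ ⊤ := fun e => hG (solvable_of_center (Inv.ne_one_of_orderOf_two ht2) e)
  have hSC : (S : Subgroup G) ≤ C := fun w hw =>
    mem_centralizer_singleton_iff.2 (hA S S.2 w hw t ht)
  have hidx : (H.subgroupOf C).index ∣ Nat.card S := by
    have h1 := card_fact (A := (S : Subgroup G).subgroupOf C) (B := H.subgroupOf C) fun g => by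
      obtain ⟨a, ha, b, hb, hab⟩ := FGS.exists_sylow_mul_of_index_eq_pow hj S g
      have hbC : b ∈ C := by
        rw [← inv_mul_cancel_left a b, hab]
        exact mul_mem (inv_mem (hSC ha)) g.2
      exact ⟨⟨a, hSC ha⟩, ha, ⟨b, hbC⟩, hb, Subtype.ext hab⟩
    rw [← (H.subgroupOf C).card_mul_index, Grp.card_subgroupOf_of_le hSC, mul_left_comm,
      mul_comm] at h1
    exact Dvd.intro_left _ (Nat.eq_of_mul_eq_mul_left Nat.card_pos h1).symm
  obtain ⟨k, hk⟩ := S.2.exists_card_eq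
  obtain ⟨i, hi⟩ := pow_of_dvd (hk ▸ hidx)
  have hsol := ih C (Grp.card_lt_of_ne_top hC) (hA.sub C) ⟨_, hsub C, i, hi⟩
  have hO : pPrimeCore 2 C ≤ H.subgroupOf C :=
    Grp.le_of_coprime_card_index (hi ▸ (Grp.pPrimeCore_coprime 2 C).pow_right i)
  have hO1 : pPrimeCore 2 C = ⊥ := by
    rcases H.normalCore_normal.eq_bot_or_eq_top with h | h
    · rw [eq_bot_iff]
      intro x hx
      have : (x : G) ∈ H.normalCore := fun g => by
        obtain ⟨a, ha, b, hb, hab⟩ := FGS.exists_sylow_mul_of_index_eq_pow hj S g⁻¹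
        have h1 : a⁻¹ * x * a⁻¹⁻¹ ∈ H :=
          hO ((inferInstance : (pPrimeCore 2 C).Normal).conj_mem x hx ⟨a⁻¹, hSC (inv_mem ha)⟩)
        have h2 : g * x * g⁻¹ = b⁻¹ * (a⁻¹ * x * a⁻¹⁻¹) * b := by
          rw [← inv_inv g, ← hab]; group
        rw [h2]
        exact mul_mem (mul_mem (inv_mem hb) h1) hb
      rw [h] at this
      exact Subtype.ext (mem_bot.1 this)
    · have : H = ⊤ := top_le_iff.1 (h ▸ H.normalCore_le)
      rw [this, card_top] at hH
      exact absurd (S0205.result hH) hG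
  have h1 := S0018.result 2 (S.subtype hSC) ((hA.sub C).sylow _)
  rw [hO1, sup_bot_eq, Sylow.coe_subtype] at h1
  exact (normal_subgroupOf_iff_le_normalizer hSC).1 h1



theorem center_triv {X : Type*} [Group X] [Finite X] (hA : ∀ p : ℕ, p.Prime → Ab p X)
    (hX : commutator X = ⊤) {z : X} (hz : ∀ g, g * z = z * g) : z = 1 := by
  by_contra h1
  obtain ⟨p, hp, hd⟩ := Nat.exists_prime_and_dvd (fun e => h1 (orderOf_eq_one_iff.1 e))
  have : Fact p.Prime := ⟨hp⟩
  have ho : orderOf (z ^ (orderOf z / p)) = p := orderOf_pow_orderOf_div (orderOf_pos _).ne' hd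
  obtain ⟨P, hP⟩ := (Inv.isPGroup_zpowers_of_orderOf (k := 1) (by simpa using ho)).exists_le_sylow
  have h2 := (Transfer.isComplement'_pResidual_of_comm P ((hA p hp).sylow P)).disjoint
  have h3 : pResidual p X = ⊤ := by
    by_contra h
    have := (Transfer.isPGroup_quotient_pResidual (p := p) (G := X)).isNilpotent
    have : Nontrivial (X ⧸ pResidual p X) := QuotientGroup.nontrivial_iff.2 h
    refine (Group.IsSolvable.commutator_lt_top_of_nontrivial (X ⧸ pResidual p X)).ne ?_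
    rw [commutator_def, ← map_top_of_surjective _ (QuotientGroup.mk'_surjective (pResidual p X)),
      ← map_commutator, ← commutator_def, hX]
  rw [h3, top_disjoint] at h2
  have h4 : z ^ (orderOf z / p) = 1 := mem_bot.1 (h2 ▸ ⟨hP (mem_zpowers _), fun g _ =>
    (Commute.pow_right (hz g) _ : Commute _ _)⟩)
  rw [h4, orderOf_one] at ho
  exact hp.one_lt.ne ho

/-- Let G be a finite group all of whose Sylow subgroups are abelian, and let 2^a be the largest power of 2 dividing the size of any conjugacy class of G. If some element has a conjugacy class of size exactly 2^a, then G is solvable. -/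
theorem result {G : Type*} [Group G] [Finite G]
    (hA : ∀ (p : ℕ) [Fact p.Prime] (P : Sylow p G), IsMulCommutative (P : Subgroup G))
    (a : ℕ) (hmax : ∀ y : G, ¬ 2 ^ (a + 1) ∣ (Subgroup.centralizer ({y} : Set G)).index) (hx : ∃ x : G, (Subgroup.centralizer ({x} : Set G)).index = 2 ^ a) :
    Group.IsSolvable G := by
  have : Fact (Nat.Prime 2) := ⟨Nat.prime_two⟩
  have hA' : ∀ p : ℕ, p.Prime → Ab p G := fun p hp =>
    have := Fact.mk hp
    Ab.of_sylow (hA p)
  obtain ⟨x, hx⟩ := hx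
  set C := centralizer ({x} : Set G) with hC
  obtain ⟨S⟩ : Nonempty (Sylow 2 G) := inferInstance
  have hf := FGS.exists_sylow_mul_of_index_eq_pow hx S
  have hSK : (S : Subgroup G) ⊓ C ≤ C.normalCore := fun w hw g => by
    obtain ⟨s, hs, c, hc, e⟩ := hf g⁻¹
    have h2 : g * w * g⁻¹ = c⁻¹ * (s⁻¹ * (w * s)) * c := by
      rw [← inv_inv g, ← e]; group
    rw [h2, hA' 2 Nat.prime_two S S.2 w hw.1 s hs, inv_mul_cancel_left]
    exact mul_mem (mul_mem (inv_mem hc) hw.2) hc
  have hQ : Group.IsSolvable (G ⧸ C.normalCore) := by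
    refine solvAB _ ((hA' 2 Nat.prime_two).quot _) ⟨C.map (QuotientGroup.mk' _), ?_,
      pow_of_dvd (hx ▸ index_map_dvd C (QuotientGroup.mk'_surjective _))⟩
    have h1 := card_fact hf
    rw [← (S : Subgroup G).card_mul_index, mul_left_comm] at h1
    have h2 := Nat.eq_of_mul_eq_mul_left Nat.card_pos h1
    obtain ⟨m, hm⟩ := card_dvd_of_le hSK
    rw [← Grp.card_map_mk'_mul_of_le _ C.normalCore_le, hm, mul_left_comm] at h2
    exact (Nat.odd_iff.2 (Nat.two_dvd_ne_zero.1 S.not_dvd_index)).of_dvd_nat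
      (Dvd.intro _ (Nat.eq_of_mul_eq_mul_left Nat.card_pos h2))
  by_contra hG
  obtain ⟨L, ⟨n, rfl⟩, hmin⟩ := exists_minimal_of_wellFoundedLT
    (fun S : Subgroup G => ∃ n, derivedSeries G n = S) ⟨_, 0, rfl⟩
  set L := derivedSeries G n with hL
  have hL1 : L ≠ ⊥ := fun h0 => hG ⟨⟨n, h0⟩⟩
  have hLL : ⁅L, L⁆ = L :=
    le_antisymm (commutator_le_self _) (hmin ⟨n + 1, rfl⟩ (commutator_le_self _))
  have hLK : L ≤ C.normalCore := by
    obtain ⟨m, hm⟩ := hQ
    have h1 : ∀ m, L ≤ derivedSeries G m := fun m => by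
      induction m with
      | zero => exact le_top
      | succ m ih => rw [← hLL]; exact commutator_mono ih ih
    have h2 := map_derivedSeries_le_derivedSeries (QuotientGroup.mk' C.normalCore) m
    rw [hm, le_bot_iff, Subgroup.map_eq_bot_iff, QuotientGroup.ker_mk'] at h2
    exact (h1 m).trans h2
  have hper : commutator L = ⊤ := by
    apply map_injective L.subtype_injective
    rw [map_subtype_commutator, hLL, ← MonoidHom.range_eq_map, range_subtype]
  have hZ := fun z => center_triv (fun p hp => (hA' p hp).sub L) hper (z := z)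
  have hLn : L.Normal := inferInstance
  have hxL : ∀ g : G, ∀ y ∈ L, y * (g * x * g⁻¹) = (g * x * g⁻¹) * y := fun g y hy => by
    have := mem_centralizer_singleton_iff.1 (hLK hy g⁻¹)
    calc y * (g * x * g⁻¹) = g * (g⁻¹ * y * g⁻¹⁻¹ * x) * g⁻¹ := by group
      _ = _ := by rw [this]; group
  have hodd : ∀ y : L, ¬ 2 ∣ (centralizer ({y} : Set L)).index := fun y hd => by
    have hle : centralizer ({x * y} : Set G) ≤ C ⊓ centralizer {(y : G)} := fun g hg => by
      have hg' := mem_centralizer_singleton_iff.1 hg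
      have e : x⁻¹ * (g * x * g⁻¹) = y * (g * y * g⁻¹)⁻¹ := by
        calc x⁻¹ * (g * x * g⁻¹) = x⁻¹ * (g * (x * y)) * g⁻¹ * (g * y * g⁻¹)⁻¹ := by group
          _ = _ := by rw [hg']; group
      have hz := congrArg Subtype.val (hZ ⟨x⁻¹ * (g * x * g⁻¹), e ▸ mul_mem y.2
        (inv_mem (hLn.conj_mem _ y.2 g))⟩ fun w => Subtype.ext (by
          have h1 : Commute (w : G) x := (by simpa using hxL 1 w w.2 : (w : G) * x = x * w)
          exact (h1.inv_right.mul_right (hxL g w w.2) : Commute _ _)))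
      simp only [OneMemClass.coe_one] at hz
      refine ⟨mem_centralizer_singleton_iff.2 ?_, mem_centralizer_singleton_iff.2 ?_⟩
      · rw [inv_mul_eq_one, eq_mul_inv_iff_mul_eq] at hz
        exact hz.symm
      · rw [e, mul_inv_eq_one, eq_mul_inv_iff_mul_eq] at hz
        exact hz.symm
    have hge : C ⊓ centralizer {(y : G)} ≤ centralizer ({x * y} : Set G) := fun g hg =>
      mem_centralizer_singleton_iff.2 (Commute.mul_right (mem_centralizer_singleton_iff.1 hg.1)
        (mem_centralizer_singleton_iff.1 hg.2))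
    apply hmax (x * y)
    rw [le_antisymm hle hge, ← relIndex_mul_index (inf_le_left : C ⊓ centralizer {(y : G)} ≤ C), hx,
      pow_succ', inf_relIndex_left]
    refine Nat.mul_dvd_mul_right (hd.trans ?_) _
    have hLC : L ≤ C := hLK.trans C.normalCore_le
    have := FGS.relIndex_normal_dvd_index ((centralizer {(y : G)}).subgroupOf C) (L.subgroupOf C)
    rw [relIndex_subgroupOf hLC] at this
    rw [FGS.centralizer_singleton_subgroupOf]
    exact this
  obtain ⟨P⟩ : Nonempty (Sylow 2 L) := inferInstance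
  have hP : centralizer ((P : Subgroup L) : Set L) = ⊤ := by
    refine FGS.eq_top_of_forall_exists_conj_mem _ fun y => ?_
    obtain ⟨Q, -, hQ⟩ := FGS.exists_sylow_le_of_not_dvd_index (hodd y) IsPGroup.of_bot bot_le
    obtain ⟨g, rfl⟩ := MulAction.exists_smul_eq L P Q
    refine ⟨g⁻¹, fun w hw => ?_⟩
    have := mem_centralizer_singleton_iff.1 (hQ (show g * w * g⁻¹ ∈ ((g • P : Sylow 2 L) : Subgroup L)
      by rw [Sylow.coe_subgroup_smul, Grp.mem_conj_smul_iff, show g⁻¹ * (g * w * g⁻¹) * g = w by group]; exact hw))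
    calc w * (g⁻¹ * y * g⁻¹⁻¹) = g⁻¹ * (g * w * g⁻¹ * y) * g := by group
      _ = _ := by rw [this]; group
  have hP1 : (P : Subgroup L) = ⊥ := (eq_bot_iff_forall _).2 fun z hz =>
    hZ z fun g => ((hP ▸ mem_top g : g ∈ centralizer ((P : Subgroup L) : Set L)) z hz).symm
  have h2 := P.not_dvd_index
  rw [hP1, index_bot] at h2
  have := S0205.result (Nat.odd_iff.2 (Nat.two_dvd_ne_zero.1 h2))
  have := (nontrivial_iff_ne_bot L).2 hL1
  exact (Group.IsSolvable.commutator_lt_top_of_nontrivial L).ne hper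

end Cfsg.Agent.S4133
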