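import Cfsg.Statements.S4139
import Mathlib
import Cfsg.Agent.FGS.BHM
import Cfsg.Agent.FGS.FrobeniusCount
import Cfsg.Agent.Transfer.PCompl
import Cfsg.Agent.Grp.Fitting

set_option autoImplicit false
open Cfsg

namespace Cfsg.Agent.S4139

open FGS.BHM Subgroup
open scoped commutatorElement

theorem card_ix (G : Type*) [Group G] [Finite G] (k : ℕ) :
    Nat.card {x : G // ix x = k} = Nat.card {C : ConjClasses G // Nat.card C.carrier = k} * k := by
  have h0 : ∀ x : G, Nat.card (ConjClasses.mk x).carrier = ix x := fun x => by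
    rw [Nat.card_coe_set_eq, FGS.ncard_carrier_mk]
  refine FGS.FrobCount.card_eq_mul_of_fibers
    (fun x => ⟨ConjClasses.mk x.1, (h0 x.1).trans x.2⟩) ?_
  rintro ⟨C, hC⟩
  refine Eq.trans ?_ hC
  refine Nat.card_congr
    { toFun := fun x => ⟨x.1.1, ConjClasses.mem_carrier_iff_mk_eq.2 (congrArg Subtype.val x.2)⟩
      invFun := fun x => ⟨⟨x.1, by
        rw [← h0, ConjClasses.mem_carrier_iff_mk_eq.1 x.2, hC]⟩,
          Subtype.ext (ConjClasses.mem_carrier_iff_mk_eq.1 x.2)⟩
      left_inv := fun _ => rfl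
      right_inv := fun _ => rfl }

theorem key (G : Type*) [Group G] [Finite G] (p : ℕ) [hp : Fact p.Prime] :
    ∃ t : ℕ, ¬ p ∣ t ∧ Nat.card {x : G // ∃ k, ix x = p ^ k} =
      Nat.card (centralizer (pResidual p G : Set G)) * t := by
  set O := pResidual p G with hO
  set C := centralizer (O : Set G) with hC
  obtain ⟨e, he⟩ := Transfer.index_pResidual (p := p) (G := G)
  have h1 : ∀ x : G, (∃ k, ix x = p ^ k) ↔
      ∃ k, (centralizer ({x} : Set G)).relIndex O = p ^ k := by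
    intro x
    constructor
    · rintro ⟨k, hk⟩
      obtain ⟨j, -, hj⟩ := (Nat.dvd_prime_pow hp.out).1
        ((FGS.relIndex_normal_dvd_index (centralizer ({x} : Set G)) O).trans hk.dvd)
      exact ⟨j, hj⟩
    · rintro ⟨k, hk⟩
      have h2 : ix x ∣ (centralizer ({x} : Set G) ⊓ O).index := index_dvd_of_le inf_le_left
      rw [← relIndex_mul_index (inf_le_right : centralizer ({x} : Set G) ⊓ O ≤ O),
        inf_relIndex_right, hk, he, ← pow_add] at h2
      obtain ⟨j, -, hj⟩ := (Nat.dvd_prime_pow hp.out).1 h2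
      exact ⟨j, hj⟩
  set X : Set G := {x | ∃ k, ix x = p ^ k} with hX
  have h2 : ∀ x ∈ X, ∀ c ∈ C, x * c ∈ X := by
    intro x hx c hc
    obtain ⟨k, hk⟩ := (h1 x).1 hx
    refine (h1 _).2 ⟨k, ?_⟩
    rw [← hk, ← inf_relIndex_right, ← inf_relIndex_right (centralizer {x})]
    congr 1
    ext g
    simp only [mem_inf, mem_c]
    refine and_congr_left fun hg => ?_
    rw [← mul_assoc, mul_assoc x, ← hc g hg, ← mul_assoc, mul_left_inj]
  set Y : Set (G ⧸ C) := QuotientGroup.mk '' X with hY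
  have h3 : X = QuotientGroup.mk ⁻¹' Y := by
    ext x
    refine ⟨fun hx => ⟨x, hx, rfl⟩, fun ⟨y, hy, e⟩ => ?_⟩
    simpa using h2 y hy _ (QuotientGroup.eq.1 e)
  refine ⟨Nat.card Y, ?_, ?_⟩
  swap
  · rw [← QuotientGroup.card_preimage_mk, ← h3]; rfl
  have h4 : ∀ y ∈ Y, y ≠ 1 → p ∣ ix y := by
    rintro _ ⟨x, ⟨k, hk⟩, rfl⟩ h1'
    obtain ⟨j, -, hj⟩ := (Nat.dvd_prime_pow hp.out).1 ((FGS.index_centralizer_map_dvd
      (QuotientGroup.mk' C) (QuotientGroup.mk'_surjective C) x).trans hk.dvd)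
    show p ∣ (centralizer ({QuotientGroup.mk' C x} : Set (G ⧸ C))).index
    rw [hj]
    refine dvd_pow_self _ ?_
    rintro rfl
    apply h1'
    have h5 : (x : G ⧸ C) ∈ center (G ⧸ C) := ix_eq_one_iff.1 hj
    have h6 : ∀ g : G, g * x * g⁻¹ * x⁻¹ ∈ C := fun g => by
      rw [← QuotientGroup.eq_one_iff]
      simp [mem_center_iff.1 h5 (g : G ⧸ C)]
    haveI : ((centralizer ({x} : Set G)).subgroupOf O).Normal := by
      refine ⟨fun u hu g => ?_⟩
      rw [mem_subgroupOf, mem_c] at hu ⊢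
      have h7 := h6 (g : G)⁻¹ u u.2
      push_cast
      calc (g : G) * u * (g : G)⁻¹ * x = g * (u * ((g : G)⁻¹ * x * (g : G)⁻¹⁻¹ * x⁻¹)) * x * (g : G)⁻¹ := by
            group
        _ = g * ((g : G)⁻¹ * x * (g : G)⁻¹⁻¹ * x⁻¹) * (u * x) * (g : G)⁻¹ := by rw [h7]; group
        _ = _ := by rw [hu]; group
    obtain ⟨i, hi⟩ := (h1 x).1 ⟨k, hk⟩
    have h7 := Transfer.pResidual_le_of_isPGroup_quotient
      (Transfer.isPGroup_quotient_iff_index.2 ⟨i, hi⟩)
    rw [Transfer.pResidual_pResidual] at h7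
    exact (QuotientGroup.eq_one_iff x).2 fun g hg => mem_c.1 (h7 (mem_top (⟨g, hg⟩ : O)))
  have h5 : ∀ y ∈ Y, ∀ z, IsConj y z → z ∈ Y := by
    rintro _ ⟨x, ⟨k, hk⟩, rfl⟩ z hz
    obtain ⟨g, rfl⟩ := isConj_iff.1 hz
    obtain ⟨g, rfl⟩ := QuotientGroup.mk_surjective g
    exact ⟨g * x * g⁻¹, ⟨k, (FGS.index_centralizer_conj x g).trans hk⟩, rfl⟩
  have h6 : p ∣ Nat.card ↥(Y \ {1}) := by
    refine FGS.FrobCount.dvd_card_of_fibers (fun y => ConjClasses.mk y.1) ?_
    rintro ⟨a, ha, ha1⟩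
    refine (h4 a ha ha1).trans (dvd_of_eq ?_)
    rw [ix, ← FGS.ncard_setOf_isConj, ← Nat.card_coe_set_eq]
    refine Nat.card_congr
      { toFun := fun x => ⟨⟨x.1, h5 a ha _ x.2, fun h => ha1 ?_⟩,
          (ConjClasses.mk_eq_mk_iff_isConj.2 x.2).symm⟩
        invFun := fun x => ⟨x.1.1, ConjClasses.mk_eq_mk_iff_isConj.1 x.2.symm⟩
        left_inv := fun _ => rfl
        right_inv := fun _ => rfl }
    have := x.2
    rw [show x.1 = 1 from h] at this
    simpa using this
  have h7 : (1 : G ⧸ C) ∈ Y := ⟨1, ⟨0, ix_eq_one_iff.2 (one_mem _)⟩, rfl⟩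
  rw [Nat.card_coe_set_eq] at h6 ⊢
  rw [← Set.ncard_sdiff_singleton_add_one h7]
  intro h
  exact hp.out.one_lt.ne' (Nat.dvd_one.1 ((Nat.dvd_add_right h6).1 h))

/-- Let G and H be finite groups such that for every natural number k, G and H have the same number of conjugacy classes of size k. If H is nilpotent then G is nilpotent. -/
theorem result {G H : Type*} [Group G] [Finite G] [Group H] [Finite H]
    (hH : Group.IsNilpotent H)
    (h : ∀ k : ℕ, Nat.card {C : ConjClasses G // Nat.card C.carrier = k} = Nat.card {C : ConjClasses H // Nat.card C.carrier = k}) :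
    Group.IsNilpotent G := by
  have e0 : ∀ k, {x : G // ix x = k} ≃ {x : H // ix x = k} := fun k =>
    (Finite.card_eq.1 (by rw [card_ix, card_ix, h])).some
  let e : G ≃ H := Equiv.ofFiberEquiv e0
  have he : ∀ x, ix (e x) = ix x := Equiv.ofFiberEquiv_map e0
  refine Grp.isNilpotent_iff_forall_sylow_normal.2 fun p hp P => ?_
  obtain ⟨t, ht, h1⟩ := key G p
  obtain ⟨s, -, h2⟩ := key H p
  have h3 : Nat.card {x : G // ∃ k, ix x = p ^ k} = Nat.card {x : H // ∃ k, ix x = p ^ k} :=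
    Nat.card_congr (e.subtypeEquiv fun x => by rw [he])
  obtain ⟨Q⟩ : Nonempty (Sylow p H) := inferInstance
  have h4 : (Q : Subgroup H) ≤ centralizer (pResidual p H : Set H) := by
    rw [le_centralizer_iff, Transfer.pResidual_le_iff]
    intro x hx y hy
    obtain ⟨k, hk⟩ := Q.isPGroup' ⟨y, hy⟩
    exact FGS.commute_of_coprime_of_isNilpotent (Nat.Coprime.coprime_dvd_left
      (orderOf_dvd_of_pow_eq_one (congrArg Subtype.val hk)) (hx.symm.pow_left k))
  have h5 : Nat.card P ∣ Nat.card (centralizer (pResidual p G : Set G)) := by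
    have h6 : Nat.card P = Nat.card Q := by
      rw [P.card_eq_multiplicity, Q.card_eq_multiplicity, Nat.card_congr e]
    refine Nat.Coprime.dvd_of_dvd_mul_right (n := t) ?_ ?_
    · rw [P.card_eq_multiplicity]
      exact (hp.out.coprime_iff_not_dvd.2 ht).pow_left _
    · rw [← h1, h3, h2, h6]
      exact (card_dvd_of_le h4).mul_right _
  have h6 : (P : Subgroup G) ≤ centralizer (pResidual p G : Set G) := by
    refine Grp.le_normal_of_coprime_card_index ?_
    refine Nat.Coprime.coprime_dvd_right ?_ P.card_coprime_index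
    obtain ⟨c, hc⟩ := h5
    have h7 := (centralizer (pResidual p G : Set G)).card_mul_index
    rw [hc, ← (P : Subgroup G).card_mul_index, mul_assoc] at h7
    exact ⟨c, by rw [← Nat.eq_of_mul_eq_mul_left Nat.card_pos h7, mul_comm]⟩
  rw [← normalizer_eq_top_iff, eq_top_iff, ← Transfer.pResidual_sup_sylow P]
  exact sup_le ((le_centralizer_iff.1 h6).trans (centralizer_le_normalizer _)) le_normalizer

end Cfsg.Agent.S4139
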