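import Cfsg.Statements.S4149
import Mathlib
import Cfsg.Agent.FGS.ClassSizeCount

set_option autoImplicit false
open Cfsg

namespace Cfsg.Agent.S4149

/-- Let G be a finite group that has a normal p-complement for at most one prime p dividing its order, and let σ be a natural number such that every conjugacy class size of G has at most σ distinct prime divisors. Then the number of primes dividing at least one conjugacy class size of G is at most 2σ. -/
theorem result {G : Type*} [Group G] [Finite G] (σ : ℕ)
    (hσ : ∀ x : G, ((Subgroup.centralizer ({x} : Set G)).index).primeFactors.card ≤ σ)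
    (hnil : ∀ p q : ℕ, p.Prime → q.Prime → p ∣ Nat.card G → q ∣ Nat.card G →
      Cfsg.HasNormalPComplement p G → Cfsg.HasNormalPComplement q G → p = q) :
    Nat.card {p : ℕ | p.Prime ∧ ∃ x : G, p ∣ (Subgroup.centralizer ({x} : Set G)).index} ≤ 2 * σ := by
  classical
  have := Fintype.ofFinite G
  set ρ : Set ℕ := {p : ℕ | p.Prime ∧ ∃ x : G, p ∣ (Subgroup.centralizer ({x} : Set G)).index} with hρ
  have hdvd : ∀ p ∈ ρ, p ∣ Nat.card G := by
    rintro p ⟨_, x, hx⟩
    exact hx.trans (Subgroup.index_dvd_card _)
  have hfin : ρ.Finite := (Set.finite_Icc 0 (Nat.card G)).subset fun p hp =>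
    ⟨Nat.zero_le _, Nat.le_of_dvd Nat.card_pos (hdvd p hp)⟩
  set R := hfin.toFinset with hR
  have hcard : Nat.card ρ = R.card := by
    rw [Nat.card_coe_set_eq, Set.ncard_eq_toFinset_card ρ hfin]
  rw [hcard]
  set R' := R.filter fun p => ¬ HasNormalPComplement p G with hR'
  have hRR' : R.card ≤ R'.card + 1 := by
    have h1 := Finset.card_filter_add_card_filter_not (s := R) (fun p => HasNormalPComplement p G)
    have h2 : (R.filter fun p => HasNormalPComplement p G).card ≤ 1 := by
      rw [Finset.card_le_one]
      intro a ha b hb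
      rw [Finset.mem_filter, hR, Set.Finite.mem_toFinset] at ha hb
      exact hnil a b ha.1.1 hb.1.1 (hdvd a ha.1) (hdvd b hb.1) ha.2 hb.2
    have h3 : (R.filter fun p => ¬ HasNormalPComplement p G).card = R'.card := by
      congr
    have h4 : (R.filter fun p => HasNormalPComplement p G).card + R'.card = R.card := by
      rw [← h1]
    omega
  have hone : Subgroup.centralizer ({1} : Set G) = ⊤ := by
    rw [eq_top_iff]; intro y _ z hz; rw [Set.mem_singleton_iff.1 hz]; simp
  -- double counting
  have hlow : ∀ p ∈ R', Nat.card G ≤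
      2 * (Finset.univ.filter fun x : G => p ∣ (Subgroup.centralizer ({x} : Set G)).index).card := by
    intro p hp
    rw [Finset.mem_filter, hR, Set.Finite.mem_toFinset] at hp
    have := Fact.mk hp.1.1
    have h1 := FGS.two_mul_card_not_dvd_index_le hp.2
    rw [Nat.card_eq_fintype_card, Fintype.card_subtype] at h1
    have h2 := Finset.card_filter_add_card_filter_not (s := (Finset.univ : Finset G))
      (fun x : G => p ∣ (Subgroup.centralizer ({x} : Set G)).index)
    rw [Finset.card_univ, ← Nat.card_eq_fintype_card] at h2
    omega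
  have hup : ∀ x : G, (R'.filter fun p => p ∣ (Subgroup.centralizer ({x} : Set G)).index).card ≤
      if x = 1 then 0 else σ := by
    intro x
    split_ifs with hx
    · subst hx
      rw [Nat.le_zero, Finset.card_eq_zero, Finset.filter_eq_empty_iff]
      intro p hp
      rw [Finset.mem_filter, hR, Set.Finite.mem_toFinset] at hp
      simp [hone, hp.1.1.ne_one]
    · refine le_trans (Finset.card_le_card ?_) (hσ x)
      intro p hp
      rw [Finset.mem_filter, Finset.mem_filter, hR, Set.Finite.mem_toFinset] at hp
      exact Nat.mem_primeFactors.2 ⟨hp.1.1.1, hp.2, Subgroup.index_ne_zero_of_finite⟩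
  have hdc : ∑ p ∈ R', (Finset.univ.filter fun x : G =>
        p ∣ (Subgroup.centralizer ({x} : Set G)).index).card =
      ∑ x : G, (R'.filter fun p => p ∣ (Subgroup.centralizer ({x} : Set G)).index).card := by
    simp only [Finset.card_filter]
    exact Finset.sum_comm
  have h5 : R'.card * Nat.card G ≤ 2 * ∑ p ∈ R', (Finset.univ.filter fun x : G =>
        p ∣ (Subgroup.centralizer ({x} : Set G)).index).card := by
    rw [Finset.mul_sum, ← smul_eq_mul, ← Finset.sum_const]
    exact Finset.sum_le_sum hlow
  have h6 : ∑ x : G, (R'.filter fun p => p ∣ (Subgroup.centralizer ({x} : Set G)).index).card + σ ≤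
      Nat.card G * σ := by
    have h7 : ∑ x : G, (if x = 1 then 0 else σ) + ∑ x : G, (if x = 1 then σ else 0) =
        Nat.card G * σ := by
      rw [← Finset.sum_add_distrib, Nat.card_eq_fintype_card, ← Finset.card_univ, ← smul_eq_mul,
        ← Finset.sum_const]
      refine Finset.sum_congr rfl fun x _ => ?_
      split_ifs <;> simp
    have h8 : ∑ x : G, (if x = 1 then σ else 0) = σ := by simp
    have h9 := Finset.sum_le_sum (fun x (_ : x ∈ (Finset.univ : Finset G)) => hup x)
    omega
  rw [hdc] at h5
  rcases Nat.eq_zero_or_pos σ with h0 | h0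
  · subst h0
    rw [mul_zero, Nat.le_zero, Finset.card_eq_zero, Finset.eq_empty_iff_forall_notMem]
    intro p hp
    rw [hR, Set.Finite.mem_toFinset] at hp
    obtain ⟨hp1, x, hx⟩ := hp
    have h1 := hσ x
    rw [Nat.le_zero, Finset.card_eq_zero] at h1
    have : p ∈ (Subgroup.centralizer ({x} : Set G)).index.primeFactors :=
      Nat.mem_primeFactors.2 ⟨hp1, hx, Subgroup.index_ne_zero_of_finite⟩
    simp [h1] at this
  · have hpos : 0 < Nat.card G := Nat.card_pos
    have h10 : R'.card * Nat.card G < (2 * σ) * Nat.card G := by nlinarith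
    have := Nat.lt_of_mul_lt_mul_right h10
    omega

end Cfsg.Agent.S4149
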