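import Cfsg.Statements.S4150
import Mathlib
import Cfsg.Agent.Perm.TwinCycle
import Cfsg.Agent.NT.TwoPrimes

set_option autoImplicit false
open Cfsg

namespace Cfsg.Agent.S4150

open Equiv Equiv.Perm Subgroup Perm.Twin

theorem core {β : Type} [Fintype β] [DecidableEq β] {x y : Perm β} {p q : ℕ} (hp : p.Prime)
    (hq : q.Prime) (hpq : p < q) (h5 : 5 ≤ q) (hx : orderOf x = p) (hy : orderOf y = q)
    (hc : Fintype.card β ≤ 2 * p) (hs : ∀ b, x b = b → y b ≠ b) (hxs : sign x = 1)
    (hys : sign y = 1)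
    (H : (Fintype.card β < 2 * p ∧ p + 3 ≤ q) ∨ (p = 3 ∧ q = 5) ∨ (p = 5 ∧ q = 7) ∨
      (p = 11 ∧ q = 13 ∧ Fintype.card β < 22)) :
    ∃ d : ℕ, 5 ≤ d ∧ Nonempty (closure ({x, y} : Set (Perm β)) ≃* alternatingGroup (Fin d)) := by
  obtain ⟨hG, hyc, hyq⟩ := isPreprimitive_closure hp hq hpq hx hy hc hs
  set G := closure ({x, y} : Set (Perm β)) with hGdef
  have hxG : x ∈ G := subset_closure (by simp)
  have hyG : y ∈ G := subset_closure (by simp)
  have hA : G ≤ alternatingGroup β := by
    rw [hGdef, closure_le]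
    rintro _ (rfl | rfl)
    exacts [mem_alternatingGroup.2 hxs, mem_alternatingGroup.2 hys]
  have hq' : q ≤ Fintype.card β := hyq ▸ Finset.card_le_univ _
  have fin : alternatingGroup β ≤ G →
      ∃ d : ℕ, 5 ≤ d ∧ Nonempty (G ≃* alternatingGroup (Fin d)) := fun h =>
    ⟨Fintype.card β, by omega, ⟨(MulEquiv.subgroupCongr (le_antisymm hA h)).trans
      (Fintype.equivFin β).altCongrHom⟩⟩
  have hcyc : Fintype.card β < 2 * p → x.IsCycle ∧ x.support.card = p := fun h => by
    have := isCycle_of_prime_order' (hx ▸ hp) (by omega : Fintype.card β < 2 * orderOf x)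
    exact ⟨this, by rw [← this.orderOf, hx]⟩
  have J : Fintype.card β < 2 * p → p + 3 ≤ Fintype.card β →
      ∃ d : ℕ, 5 ≤ d ∧ Nonempty (G ≃* alternatingGroup (Fin d)) := fun h h' =>
    fin (S0713.result G hG hp (by omega) h' (hcyc h).1 (hcyc h).2 hxG)
  rcases H with ⟨h1, h2⟩ | ⟨rfl, rfl⟩ | ⟨rfl, rfl⟩ | ⟨rfl, rfl, h1⟩
  · exact J h1 (by omega)
  · by_cases h6 : Fintype.card β = 6
    · rcases alt_le_or_of_six h6 hG hA hyc hyq hyG with h | h
      · exact fin h
      · exact ⟨5, le_rfl, h⟩
    · exact fin (alternatingGroup_le_of_isPreprimitive_of_isThreeCycle_mem hG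
        (card_support_eq_three_iff.1 (hcyc (by omega)).2) hxG)
  · by_cases h10 : Fintype.card β = 10
    · exact fin (S0713.result G hG hq (by omega) (by omega) hyc hyq hyG)
    by_cases h7 : Fintype.card β = 7
    · exact fin (alt_le_of_seven h7 hG hA (hcyc (by omega)).1 (hcyc (by omega)).2 hxG)
    exact J (by omega) (by omega)
  · by_cases h13 : Fintype.card β = 13
    · exact fin (alt_le_of_thirteen h13 hG hA (hcyc (by omega)).1 (hcyc (by omega)).2 hxG)
    exact J (by omega) (by omega)

theorem main {m p q : ℕ} (hp : p.Prime) (hq : q.Prime) (hpq : p < q) (h5 : 5 ≤ q) (hm : m ≤ 2 * p)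
    (H : (m < 2 * p ∧ p + 3 ≤ q) ∨ (p = 3 ∧ q = 5) ∨ (p = 5 ∧ q = 7) ∨
      (p = 11 ∧ q = 13 ∧ m < 22)) (x y : alternatingGroup (Fin m)) (hx : orderOf x = p)
    (hy : orderOf y = q) : ∃ d : ℕ, 5 ≤ d ∧ Nonempty
      (closure ({x, y} : Set (alternatingGroup (Fin m))) ≃* alternatingGroup (Fin d)) := by
  classical
  let P : Fin m → Prop := fun a => a ∈ (x : Perm (Fin m)).support ∪ (y : Perm (Fin m)).support
  have key : ∀ z : Perm (Fin m), (∀ a, z a ≠ a → P a) →
      ∃ z' : Perm (Subtype P), ofSubtype z' = z := by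
    intro z hz
    refine ⟨_, ofSubtype_subtypePerm (fun a => ?_) hz⟩
    by_cases h : z a = a
    · rw [h]
    · exact ⟨fun _ => hz a h, fun _ => hz _ fun e => h (z.injective e)⟩
  obtain ⟨x', hx'⟩ := key x fun a ha => Finset.mem_union_left _ (mem_support.2 ha)
  obtain ⟨y', hy'⟩ := key y fun a ha => Finset.mem_union_right _ (mem_support.2 ha)
  have hinj : Function.Injective (ofSubtype : Perm (Subtype P) →* Perm (Fin m)) :=
    ofSubtype_injective
  have hcard : Fintype.card (Subtype P) ≤ m := by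
    simpa using Fintype.card_subtype_le P
  obtain ⟨d, hd, ⟨e⟩⟩ := core (x := x') (y := y') hp hq hpq h5
    (by rw [← orderOf_injective _ hinj, hx', orderOf_coe, hx])
    (by rw [← orderOf_injective _ hinj, hy', orderOf_coe, hy]) (by omega) (by
      rintro b h1 h2
      rcases Finset.mem_union.1 b.2 with h | h
      · exact mem_support.1 h (by rw [← hx', ofSubtype_apply_coe, h1])
      · exact mem_support.1 h (by rw [← hy', ofSubtype_apply_coe, h2]))
    (by rw [← sign_ofSubtype, hx']; exact mem_alternatingGroup.1 x.2)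
    (by rw [← sign_ofSubtype, hy']; exact mem_alternatingGroup.1 y.2) (by omega)
  refine ⟨d, hd, ⟨((Subgroup.equivMapOfInjective _ _ (Subgroup.subtype_injective _)).trans
    ((MulEquiv.subgroupCongr ?_).trans (Subgroup.equivMapOfInjective _ _ hinj).symm)).trans e⟩⟩
  rw [MonoidHom.map_closure, MonoidHom.map_closure, Set.image_pair, Set.image_pair, hx', hy']
  rfl


/-- Let m ≥ 5. Then there are primes p < q with m/2 ≤ p and q ≤ m such that any two elements x, y of the alternating group of degree m with x of order p and y of order q generate a subgroup isomorphic to an alternating group of some degree d ≥ 5. -/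
theorem result (m : ℕ) (hm : 5 ≤ m) :
    ∃ p q : ℕ, p.Prime ∧ q.Prime ∧ m ≤ 2 * p ∧ p < q ∧ q ≤ m ∧
      ∀ x y : alternatingGroup (Fin m), orderOf x = p → orderOf y = q →
        ∃ d : ℕ, 5 ≤ d ∧ Nonempty (Subgroup.closure ({x, y} : Set (alternatingGroup (Fin m))) ≃* alternatingGroup (Fin d)) := by
  by_cases h1 : m ≤ 6
  · exact ⟨3, 5, by norm_num, by norm_num, by omega, by omega, hm,
      main (by norm_num) (by norm_num) (by omega) (by omega) (by omega) (by omega)⟩
  by_cases h2 : m ≤ 10
  · exact ⟨5, 7, by norm_num, by norm_num, by omega, by omega, by omega,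
      main (by norm_num) (by norm_num) (by omega) (by omega) (by omega) (by omega)⟩
  by_cases h3 : m ≤ 13
  · exact ⟨7, 11, by norm_num, by norm_num, by omega, by omega, by omega,
      main (by norm_num) (by norm_num) (by omega) (by omega) (by omega) (by omega)⟩
  by_cases h4 : m ≤ 16
  · exact ⟨11, 13, by norm_num, by norm_num, by omega, by omega, by omega,
      main (by norm_num) (by norm_num) (by omega) (by omega) (by omega) (by omega)⟩
  obtain ⟨p, q, hp, hq, h5, h6, h7⟩ := NT.TwoPrimes.exists_primes (m := m) (by omega)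
  have := hp.two_le
  exact ⟨p, q, hp, hq, by omega, by omega, h7,
    main hp hq (by omega) (by omega) (by omega) (by omega)⟩

end Cfsg.Agent.S4150
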