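import Cfsg.Statements.S4151
import Mathlib
import Cfsg.Agent.Grp.Card
import Cfsg.Agent.Grp.CommCyclic
import Cfsg.Agent.Solv.Coprime3
import Cfsg.Agent.Solv.ExtAction
import Cfsg.Agent.S4117
import Cfsg.Agent.PLocal.RelSylow
import Cfsg.Agent.FGS.ClassSizeCount
import Cfsg.Agent.Grp.Frattini

set_option autoImplicit false
open Cfsg

namespace Cfsg.Agent.S4151

open Subgroup

variable {G : Type*} [Group G] [Finite G]

omit [Finite G] in
theorem normalizer_le {H P : Subgroup G} (hTI : Cfsg.IsTISubset (H : Set G)) (hP : P ≤ H)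
    (h1 : P ≠ ⊥) : normalizer (P : Set G) ≤ normalizer (H : Set G) := by
  intro g hg
  by_contra h
  obtain ⟨⟨x, hx⟩, hx1⟩ := Subgroup.ne_bot_iff_exists_ne_one.1 h1
  exact hx1 (Subtype.ext (hTI g h x (hP hx) (hP ((hg x).1 hx))))

theorem hall {H : Subgroup G} (hTI : Cfsg.IsTISubset (H : Set G))
    (hHall : (Nat.card H).Coprime (H.subgroupOf (normalizer (H : Set G))).index) :
    (Nat.card H).Coprime H.index := by
  refine Nat.coprime_of_dvd fun p hp hpH hpi => ?_
  have := Fact.mk hp
  obtain ⟨P⟩ : Nonempty (Sylow p H) := inferInstance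
  set P' : Subgroup G := (P : Subgroup H).map H.subtype with hP'
  have hP'p : IsPGroup p P' := P.2.map _
  have hP'H : P' ≤ H := map_subtype_le _
  have hP1 : P' ≠ ⊥ := by
    rw [hP', Ne, Subgroup.map_eq_bot_iff_of_injective _ H.subtype_injective]
    exact P.ne_bot_of_dvd_card hpH
  obtain ⟨S, hS⟩ := hP'p.exists_le_sylow
  rcases hS.eq_or_lt with e | hlt
  · exact S.not_dvd_index (hpi.trans (Subgroup.index_dvd_of_le (e ▸ hP'H)))
  have h1 := Solv.lt_inf_normalizer_of_isNilpotent S.2.isNilpotent hlt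
  set U : Subgroup G := (S : Subgroup G) ⊓ normalizer (P' : Set G) with hU
  have hUp : IsPGroup p U := S.2.to_inf_left
  have hUN : U ≤ normalizer (H : Set G) := inf_le_right.trans (normalizer_le hTI hP'H hP1)
  have hUH : U ≤ H := by
    have h2 : U.subgroupOf (normalizer (H : Set G)) ≤ H.subgroupOf (normalizer (H : Set G)) := by
      apply Grp.le_normal_of_coprime_card_index
      obtain ⟨k, hk⟩ := hUp.exists_card_eq
      rw [Grp.card_subgroupOf_of_le hUN, hk]
      exact (hHall.coprime_dvd_left hpH).pow_left k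
    intro x hx
    exact h2 (show (⟨x, hUN hx⟩ : normalizer (H : Set G)) ∈ _ from hx)
  have h3 : (P : Subgroup H) ≤ U.subgroupOf H := fun x hx => h1.le ⟨x, hx, rfl⟩
  have h4 := P.is_maximal' (hUp.comap_subtype (K := H)) h3
  refine h1.ne (le_antisymm h1.le fun x hx => ⟨⟨x, hUH hx⟩, ?_, rfl⟩)
  have : (⟨x, hUH hx⟩ : H) ∈ U.comap H.subtype := hx
  rwa [h4] at this

omit [Finite G] in
theorem exists_step {n : ℕ} (M : Fin (n + 1) → Subgroup G) (hM : Monotone M) (m : ℕ)
    (h0 : (Nat.card (M 0)).Coprime m) (h1 : ¬ (Nat.card (M (Fin.last n))).Coprime m) :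
    ∃ i : Fin n, (Nat.card (M i.castSucc)).Coprime m ∧
      ¬ ((M i.castSucc).relIndex (M i.succ)).Coprime m := by
  by_contra h
  push Not at h
  apply h1
  refine Fin.induction (motive := fun i => (Nat.card (M i)).Coprime m) h0 (fun i hi => ?_) _
  rw [← Grp.card_mul_relIndex (hM (Fin.castSucc_le_succ i))]
  exact Nat.Coprime.mul_left hi (h i hi)

theorem sup_normalizer_eq_top {H : Subgroup G} (hTI : Cfsg.IsTISubset (H : Set G))
    (hH : (Nat.card H).Coprime H.index) (K L : Subgroup G) [K.Normal] [hL : L.Normal]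
    (h1 : ∀ q : ℕ, q.Prime → q ∣ K.relIndex L → q ∣ Nat.card H) (h2 : K.relIndex L ≠ 1) :
    K ⊔ normalizer (H : Set G) = ⊤ := by
  have hs := QuotientGroup.mk'_surjective K
  have hLH : L ≤ K ⊔ H := by
    have : (L.map (QuotientGroup.mk' K)).Normal := hL.map _ hs
    have h3 : L.map (QuotientGroup.mk' K) ≤ H.map (QuotientGroup.mk' K) := by
      apply Grp.le_of_coprime_card_index
      rw [← Subgroup.relIndex_ker, QuotientGroup.ker_mk']
      refine Nat.coprime_of_dvd fun q hq h3 h4 => ?_
      exact hq.one_lt.ne' (Nat.eq_one_of_dvd_coprimes hH (h1 q hq h3)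
        (h4.trans (H.index_map_dvd hs)))
    rwa [Subgroup.map_le_map_iff, QuotientGroup.ker_mk', sup_comm] at h3
  obtain ⟨p, hp, hpd⟩ := Nat.exists_prime_and_dvd h2
  have := Fact.mk hp
  obtain ⟨S, hS⟩ := FGS.exists_sylow_le_of_not_dvd_index' (H := H) (p := p) fun h =>
    hp.one_lt.ne' (Nat.eq_one_of_dvd_coprimes hH (h1 p hp hpd) h)
  obtain ⟨P, hP⟩ := Grp.exists_sylow_map_eq (P := (S : Subgroup G) ⊓ L) (L := L) inf_le_right
    S.2.to_inf_left (PLocal.RelSylow.sylow_inf_normal S L)
  have hP1 : (S : Subgroup G) ⊓ L ≠ ⊥ := by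
    rw [← hP, Ne, Subgroup.map_eq_bot_iff_of_injective _ L.subtype_injective]
    exact P.ne_bot_of_dvd_card (hpd.trans (Subgroup.relIndex_dvd_card K L))
  have h3 := Sylow.normalizer_sup_eq_top P
  rw [hP] at h3
  rw [eq_top_iff, ← h3]
  exact sup_le ((normalizer_le hTI (inf_le_left.trans hS) hP1).trans le_sup_right)
    (hLH.trans (sup_le_sup_left Subgroup.le_normalizer K))

theorem sylow_isCyclic {H K : Subgroup G} (hTI : Cfsg.IsTISubset (H : Set G)) [K.Normal]
    (hK : (Nat.card K).Coprime (Nat.card H)) (hKN : ¬ K ≤ normalizer (H : Set G))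
    (h2 : ∀ P : Sylow 2 H, IsMulCommutative (P : Subgroup H)) (p : ℕ) [Fact p.Prime]
    (P : Sylow p H) : IsCyclic (P : Subgroup H) := by
  have key : ∀ A : Subgroup H, IsMulCommutative A → IsCyclic A := by
    intro A hA
    have e := A.equivMapOfInjective H.subtype H.subtype_injective
    have hA' : IsMulCommutative (A.map H.subtype) := inferInstance
    by_contra hc
    refine hKN (Solv.le_of_centralizers_le (A.map H.subtype) K
      (fun h => hc (isCyclic_of_injective e.toMonoidHom e.injective))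
      Subgroup.le_normalizer_of_normal
      (hK.symm.coprime_dvd_left (Subgroup.card_dvd_of_le (map_subtype_le _))) _ fun a ha ha1 => ?_)
    intro x hx
    by_contra h
    have h3 : x * a * x⁻¹ = a := by
      rw [Subgroup.mem_centralizer_singleton_iff.1 hx.2, mul_inv_cancel_right]
    exact ha1 (hTI x h a (map_subtype_le _ ha) (by rw [h3]; exact map_subtype_le _ ha))
  rcases Grp.isCyclic_or_quaternion_of_comm_isCyclic P.2 (fun A _ => key A) with h | ⟨rfl, -⟩
  · exact h
  · exact key _ (h2 P)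

/-- Let G be a finite group and H a non-normal subgroup meeting each of its conjugates by elements outside N_G(H) trivially, with the order of H coprime to its index in N_G(H), such that G is π-separable for π the set of primes dividing the order of H (G has a chain of normal subgroups from 1 to G each of whose factors has order divisible only by primes dividing the order of H or coprime to it). Suppose a Sylow 2-subgroup of H is abelian and Q is a complement of H in N_G(H). Then C_H(Q), the subgroup of elements of H commuting with Q, has order coprime to its index in G and has a normal complement in G. -/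
theorem result {G : Type*} [Group G] [Finite G] (H : Subgroup G)
    (hTI : Cfsg.IsTISubset (H : Set G)) (hnn : ¬ H.Normal)
    (hHall : (Nat.card H).Coprime (H.subgroupOf (Subgroup.normalizer (H : Set G))).index)
    (hsep : ∃ (n : ℕ) (M : Fin (n + 1) → Subgroup G), M 0 = ⊥ ∧ M (Fin.last n) = ⊤ ∧ Monotone M ∧ (∀ i, (M i).Normal) ∧
      ∀ i : Fin n, (∀ q : ℕ, q.Prime → q ∣ (M i.castSucc).relIndex (M i.succ) → q ∣ Nat.card H) ∨
        ((M i.castSucc).relIndex (M i.succ)).Coprime (Nat.card H))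
    (h2 : ∀ P : Sylow 2 H, IsMulCommutative (P : Subgroup H))
    (Q : Subgroup G) (hQ : Q ≤ Subgroup.normalizer (H : Set G)) (hQH : Q ⊓ H = ⊥) (hQH' : Q ⊔ H = Subgroup.normalizer (H : Set G)) :
    (Nat.card ↥(H ⊓ Subgroup.centralizer (Q : Set G))).Coprime (H ⊓ Subgroup.centralizer (Q : Set G)).index ∧
    ∃ N : Subgroup G, N.Normal ∧ N.IsComplement' (H ⊓ Subgroup.centralizer (Q : Set G)) := by
  have hH := hall hTI hHall
  obtain ⟨n, M, hM0, hM1, hM, hMn, hstep⟩ := hsep
  have hH1 : Nat.card H ≠ 1 := fun e => hnn (by rw [Subgroup.card_eq_one.1 e]; infer_instance)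
  obtain ⟨i, hK, hL⟩ := exists_step M hM (Nat.card H) (by rw [hM0]; simp) (by
    rw [hM1, Subgroup.card_top]
    exact fun h => hH1 (Nat.eq_one_of_dvd_coprimes h (Subgroup.card_subgroup_dvd_card H) dvd_rfl))
  set K := M i.castSucc with hKdef
  have := hMn i.castSucc
  have := hMn i.succ
  have hKN := sup_normalizer_eq_top hTI hH K (M i.succ) ((hstep i).resolve_right hL)
    (fun e => hL (by rw [e]; simp))
  have hKN' : ¬ K ≤ normalizer (H : Set G) := fun h => by
    rw [sup_of_le_right h] at hKN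
    exact hnn (Subgroup.normalizer_eq_top_iff.1 hKN)
  have hQc : (Nat.card Q).Coprime (Nat.card H) := by
    have h1 := Grp.card_sup_mul_card_inf_of_le_normalizer hQ
    rw [hQH, hQH', Subgroup.card_bot, mul_one,
      ← Grp.card_mul_relIndex (Subgroup.le_normalizer (H := H)), mul_comm] at h1
    rw [← Nat.eq_of_mul_eq_mul_right Nat.card_pos h1]
    exact hHall.symm
  let _ : MulDistribMulAction Q H :=
    MulDistribMulAction.compHom H (H.normalizerMonoidHom.comp (Subgroup.inclusion hQ))
  have hsmul : ∀ (a : Q) (x : H), ((a • x : H) : G) = a * x * (a : G)⁻¹ := fun _ _ => rfl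
  obtain ⟨h1, -, h3, h4, h5⟩ := S4117.result (G := H) (A := Q) hQc (sylow_isCyclic hTI hK hKN' h2)
  set R := Subgroup.closure {y : H | ∃ (a : Q) (g : H), y = g⁻¹ * a • g} with hR
  have hC : Subgroup.closure (MulAction.fixedPoints Q H) = FixedPoints.subgroup Q H :=
    (FixedPoints.subgroup Q H).closure_eq
  rw [hC] at h5
  have h4' : FixedPoints.subgroup Q H ⊓ R = ⊥ := by
    rw [inf_comm]; exact SetLike.coe_injective h4
  have hCmap : (FixedPoints.subgroup Q H).map H.subtype = H ⊓ centralizer (Q : Set G) := by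
    ext x
    constructor
    · rintro ⟨y, hy, rfl⟩
      exact ⟨y.2, fun a ha => mul_inv_eq_iff_eq_mul.1 (congrArg Subtype.val (hy ⟨a, ha⟩))⟩
    · rintro ⟨hx, hx'⟩
      exact ⟨⟨x, hx⟩, fun a => Subtype.ext (mul_inv_eq_iff_eq_mul.2 (hx' a a.2)), rfl⟩
  set C := H ⊓ centralizer (Q : Set G) with hCdef
  have hcardC : Nat.card C = Nat.card (FixedPoints.subgroup Q H) := by
    rw [← hCmap, Subgroup.card_subtype]
  have hcardH := Grp.card_sup_of_disjoint (FixedPoints.subgroup Q H) R h4'
  rw [sup_comm, h5, Subgroup.card_top, ← hcardC] at hcardH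
  have hCR : (Nat.card C).Coprime (Nat.card R) := by
    change (Nat.card (FixedPoints.subgroup Q H)).Coprime
      (Nat.card H / Nat.card (FixedPoints.subgroup Q H)) at h1
    rwa [← hcardC, hcardH, Nat.mul_div_cancel_left _ Nat.card_pos] at h1
  have hCH : Nat.card C ∣ Nat.card H := Subgroup.card_dvd_of_le inf_le_left
  refine ⟨?_, ?_⟩
  · rw [← Subgroup.relIndex_mul_index (inf_le_left : C ≤ H)]
    refine Nat.Coprime.mul_right ?_ (hH.coprime_dvd_left hCH)
    have h6 := Grp.card_mul_relIndex (inf_le_left : C ≤ H)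
    rw [hcardH] at h6
    rwa [Nat.eq_of_mul_eq_mul_left Nat.card_pos h6]
  set R' := R.map H.subtype with hR'
  have hRinv : Solv.Ext.Inv Q R := by
    have : R = Solv.Ext.comm Q ⊤ := by simp [hR, Solv.Ext.comm]
    rw [this]
    exact Solv.Ext.inv_comm ⊤
  have hQR : Q ≤ normalizer (R' : Set G) := by
    rw [Subgroup.le_normalizer_iff]
    rintro a ha _ ⟨y, hy, rfl⟩
    exact ⟨_, hRinv ⟨a, ha⟩ y hy, rfl⟩
  have hY : normalizer (H : Set G) ≤ normalizer ((Q ⊔ R' : Subgroup G) : Set G) := by
    rw [← hQH']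
    refine sup_le (le_sup_left.trans Subgroup.le_normalizer) ?_
    intro h hh
    rw [Subgroup.mem_normalizer_iff_map_conj_eq]
    refine Subgroup.eq_of_le_of_card_ge ?_ (Grp.card_conj_smul h _).ge
    rw [Subgroup.map_sup]
    refine sup_le ?_ ?_
    · rintro _ ⟨a, ha, rfl⟩
      have e : (MulAut.conj h : G →* G) a =
          (((⟨h, hh⟩ : H)⁻¹⁻¹ * (⟨a, ha⟩ : Q) • (⟨h, hh⟩ : H)⁻¹ : H) : G) * a := by
        simp [hsmul, mul_assoc]
      rw [e, sup_comm]
      exact Subgroup.mul_mem_sup ⟨_, Subgroup.subset_closure ⟨_, _, rfl⟩, rfl⟩ ha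
    · rintro _ ⟨_, ⟨y, hy, rfl⟩, rfl⟩
      exact Subgroup.mem_sup_right ⟨_, h3.conj_mem y hy ⟨h, hh⟩, rfl⟩
  have hXn : ((Q ⊔ R') ⊔ K).Normal := by
    rw [← Subgroup.normalizer_eq_top_iff, eq_top_iff, ← hKN]
    exact sup_le (le_sup_right.trans Subgroup.le_normalizer)
      (Solv.le_normalizer_sup hY Subgroup.le_normalizer_of_normal)
  refine ⟨_, hXn, Grp.isComplement'_of_sup_eq_top ?_ ?_⟩
  · refine disjoint_iff.1 (Subgroup.disjoint_of_coprime_natCard (Nat.Coprime.symm ?_))
    refine Nat.Coprime.coprime_dvd_right ((Grp.card_sup_dvd _ K).trans (Nat.mul_dvd_mul_right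
      (Grp.card_sup_dvd_of_le_normalizer hQR) _)) ?_
    refine Nat.Coprime.mul_right (Nat.Coprime.mul_right ?_ ?_) ?_
    · exact (hQc.symm.coprime_dvd_left hCH)
    · rwa [hR', Subgroup.card_subtype]
    · exact (hK.symm.coprime_dvd_left hCH)
  · rw [eq_top_iff, ← hKN, ← hQH']
    refine sup_le (le_sup_of_le_left le_sup_right) (sup_le
      (le_sup_of_le_left (le_sup_of_le_left le_sup_left)) ?_)
    have h6 : R' ⊔ C = H := by
      rw [hR', ← hCmap, ← Subgroup.map_sup, h5, ← MonoidHom.range_eq_map, Subgroup.range_subtype]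
    conv_lhs => rw [← h6]
    exact sup_le_sup_right (le_sup_of_le_left le_sup_right) _

end Cfsg.Agent.S4151
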