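import Cfsg.Statements.S4152
import Mathlib
import Cfsg.Agent.Char.FS
import Cfsg.Agent.Solv.HallPi
import Cfsg.Agent.FGS.NilpPi
import Cfsg.Agent.Grp.Card

set_option autoImplicit false
open Cfsg

namespace Cfsg.Agent.S4152

open Subgroup

def Pi' (π : Set ℕ) {G : Type*} [Group G] (x : G) : Prop :=
  ∀ q : ℕ, q.Prime → q ∣ orderOf x → q ∈ π

abbrev Pairs (π : Set ℕ) (G : Type*) [Group G] := {p : G × G // Pi' π p.1 ∧ p.1 * p.2 = p.2 * p.1}

theorem card_pairs (π : Set ℕ) (G : Type*) [Group G] [Finite G] :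
    Nat.card (Pairs π G) = Nat.card G * Nat.card {C : ConjClasses G // ∀ q : ℕ, q.Prime →
      (∃ g : G, ConjClasses.mk g = C ∧ q ∣ orderOf g) → q ∈ π} := by
  classical
  letI := Fintype.ofFinite G
  letI := Fintype.ofFinite (ConjClasses G)
  have h := Char.sum_card_centralizer_mul (G := G) (fun C => if ∀ q : ℕ, q.Prime →
      (∃ g : G, ConjClasses.mk g = C ∧ q ∣ orderOf g) → q ∈ π then 1 else 0)
  have h1 : ∀ g : G, (∀ q : ℕ, q.Prime → (∃ g' : G, ConjClasses.mk g' = ConjClasses.mk g ∧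
      q ∣ orderOf g') → q ∈ π) ↔ Pi' π g := by
    intro g
    refine ⟨fun h q hq hd => h q hq ⟨g, rfl, hd⟩, fun h q hq ⟨g', e, hd⟩ => h q hq ?_⟩
    obtain ⟨c, rfl⟩ := isConj_iff.1 (ConjClasses.mk_eq_mk_iff_isConj.1 e)
    rwa [show c * g' * c⁻¹ = MulAut.conj c g' from rfl, MulEquiv.orderOf_eq]
  simp only [h1] at h
  rw [Finset.sum_boole, ← Fintype.card_subtype, ← Nat.card_eq_fintype_card] at h
  have e : Pairs π G ≃ Σ g : {g : G // Pi' π g}, centralizer ({g.1} : Set G) :=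
    { toFun := fun p => ⟨⟨p.1.1, p.2.1⟩, p.1.2, mem_centralizer_singleton_iff.2 p.2.2.symm⟩
      invFun := fun s => ⟨(s.1.1, s.2.1), s.1.2, (mem_centralizer_singleton_iff.1 s.2.2).symm⟩
      left_inv := fun _ => rfl
      right_inv := fun _ => rfl }
  apply Nat.cast_injective (R := ℂ)
  rw [Nat.card_congr e, Nat.card_sigma, Nat.cast_mul, ← h]
  simp only [mul_ite, mul_one, mul_zero]
  rw [← Finset.sum_filter, Nat.cast_sum]
  exact (Finset.sum_subtype (p := Pi' π) _ (by simp)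
    (fun g : G => (Nat.card (centralizer ({g} : Set G)) : ℂ))).symm

variable {G : Type*} [Group G] (N : Subgroup G) [N.Normal]

abbrev T (S : Set G) (h : G ⧸ N) := {p : G × G // p.1 ∈ S ∧ (p.2 : G ⧸ N) = h ∧ p.1 * p.2 = p.2 * p.1}

theorem shift [Finite G] (S : Set G) (h : G ⧸ N) : Nat.card (T N S h) ≤ Nat.card (T N S 1) := by
  classical
  let y0 : G → G := fun x => if hx : ∃ y : G, (y : G ⧸ N) = h ∧ x * y = y * x then hx.choose else 1
  have hy0 : ∀ p : T N S h, (y0 p.1.1 : G ⧸ N) = h ∧ p.1.1 * y0 p.1.1 = y0 p.1.1 * p.1.1 := by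
    intro p
    have hx : ∃ y : G, (y : G ⧸ N) = h ∧ p.1.1 * y = y * p.1.1 := ⟨p.1.2, p.2.2⟩
    simp only [y0, dif_pos hx]
    exact hx.choose_spec
  refine Nat.card_le_card_of_injective (fun p => ⟨(p.1.1, (y0 p.1.1)⁻¹ * p.1.2), p.2.1, ?_, ?_⟩) ?_
  · rw [QuotientGroup.mk_mul, QuotientGroup.mk_inv, (hy0 p).1, p.2.2.1, inv_mul_cancel]
  · exact (Commute.mul_right (Commute.inv_right (hy0 p).2) p.2.2.2).eq
  · rintro ⟨⟨a, b⟩, hab⟩ ⟨⟨c, d⟩, hcd⟩ e
    simp only [Subtype.mk.injEq, Prod.mk.injEq] at e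
    obtain ⟨rfl, e⟩ := e
    rw [Subtype.mk.injEq, mul_left_cancel e]

theorem swap [Finite G] (π : Set ℕ) (g : G ⧸ N) :
    Nat.card (T N {x | (x : G ⧸ N) = g ∧ Pi' π x} 1) ≤ Nat.card (T N {y | y ∈ N ∧ Pi' π y} g) := by
  obtain ⟨a, b, hab, ha, hb⟩ := Solv.Pi.exists_pi_factorization π (Nat.card_pos (α := G)).ne'
  obtain ⟨t, ht1, ht2⟩ := FGS.exists_part_exponent (Solv.Pi.coprime_of_pi ha hb)
  have h0 : ∀ x : G, x ^ (a * b) = 1 := fun x => hab ▸ pow_card_eq_one'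
  have h1 : ∀ x : G, Pi' π x → x ^ a = 1 := by
    intro x hx
    refine orderOf_dvd_iff_pow_eq_one.1 (Nat.Coprime.dvd_of_dvd_mul_right (k := orderOf x) (n := b) ?_
      (orderOf_dvd_of_pow_eq_one (h0 x)))
    exact Nat.coprime_of_dvd fun q hq h1 => hb q hq (hx q hq h1)
  have key : ∀ x y : G, Pi' π x → x * y = y * x → (x * ((y ^ t)⁻¹ * y)) ^ t = x := by
    intro x y hx hc
    have hc' : Commute x y := hc
    rw [(((hc'.pow_right t).inv_right).mul_right hc').mul_pow, FGS.pow_part_eq_self (h1 x hx) ht1,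
      FGS.pow_part_eq_one (FGS.part_pow_right (h0 y) ht1) ht2, mul_one]
  refine Nat.card_le_card_of_injective
    (fun p => ⟨(p.1.2 ^ t, p.1.1 * ((p.1.2 ^ t)⁻¹ * p.1.2)), ⟨?_, ?_⟩, ?_, ?_⟩) ?_
  · exact pow_mem ((QuotientGroup.eq_one_iff _).1 p.2.2.1) t
  · exact fun q hq hd => ha q hq (hd.trans (orderOf_dvd_of_pow_eq_one (FGS.part_pow_left (h0 _) ht2)))
  · simp only [QuotientGroup.mk_mul, QuotientGroup.mk_inv, QuotientGroup.mk_pow, p.2.2.1, p.2.1.1]
    simp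
  · have hc : Commute p.1.2 p.1.1 := p.2.2.2.symm
    exact ((hc.pow_left t).mul_right ((Commute.refl _).inv_right.mul_right
      (Commute.pow_self _ t))).eq
  · rintro ⟨⟨x, y⟩, hx, hy, hc⟩ ⟨⟨x', y'⟩, hx', hy', hc'⟩ e
    simp only [Subtype.mk.injEq, Prod.mk.injEq] at e ⊢
    obtain ⟨e1, e2⟩ := e
    have e3 : x = x' := by rw [← key x y hx.2 hc, e2, key x' y' hx'.2 hc']
    subst e3
    rw [e1] at e2
    exact ⟨rfl, mul_left_cancel (mul_left_cancel e2)⟩

theorem last [Finite G] (π : Set ℕ) :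
    Nat.card (T N {y | y ∈ N ∧ Pi' π y} 1) ≤ Nat.card (Pairs π N) := by
  refine Nat.card_le_card_of_injective (fun p => ⟨(⟨p.1.1, p.2.1.1⟩,
    ⟨p.1.2, (QuotientGroup.eq_one_iff _).1 p.2.2.1⟩), ?_, Subtype.ext p.2.2.2⟩) ?_
  · intro q hq hd
    exact p.2.1.2 q hq (by simpa using hd)
  · rintro ⟨⟨x, y⟩, h⟩ ⟨⟨x', y'⟩, h'⟩ e
    simpa using e

/-- Let G be a finite group, N a normal subgroup and π a set of primes. Then the number of conjugacy classes of π-elements of G (elements whose order is divisible only by primes in π) is at most the number of conjugacy classes of π-elements of N (under conjugation by N) times the number of conjugacy classes of π-elements of G/N. -/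
theorem result {G : Type*} [Group G] [Finite G] (N : Subgroup G) [N.Normal] (π : Set ℕ) :
    Nat.card {C : ConjClasses G // ∀ q : ℕ, q.Prime → (∃ g : G, ConjClasses.mk g = C ∧ q ∣ orderOf g) → q ∈ π} ≤ Nat.card {C : ConjClasses N // ∀ q : ℕ, q.Prime → (∃ g : N, ConjClasses.mk g = C ∧ q ∣ orderOf g) → q ∈ π} * Nat.card {C : ConjClasses (G ⧸ N) // ∀ q : ℕ, q.Prime → (∃ g : (G ⧸ N), ConjClasses.mk g = C ∧ q ∣ orderOf g) → q ∈ π} := by
  classical
  let f : Pairs π G → Pairs π (G ⧸ N) := fun p => ⟨((p.1.1 : G ⧸ N), (p.1.2 : G ⧸ N)),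
    fun q hq hd => p.2.1 q hq (hd.trans (orderOf_map_dvd (QuotientGroup.mk' N) _)), by
      rw [← QuotientGroup.mk_mul, p.2.2, QuotientGroup.mk_mul]⟩
  have hf : ∀ r : Pairs π (G ⧸ N), Nat.card {p // f p = r} ≤ Nat.card (Pairs π N) := by
    intro r
    refine le_trans ?_ ((shift N _ r.1.2).trans ((swap N π r.1.1).trans
      ((shift N _ _).trans (last N π))))
    refine Nat.card_le_card_of_injective (fun p => ⟨p.1.1,
      ⟨congrArg (fun s => s.1.1) p.2, p.1.2.1⟩, congrArg (fun s => s.1.2) p.2, p.1.2.2⟩) ?_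
    intro p p' e
    have e' := congrArg Subtype.val e
    exact Subtype.ext (Subtype.ext e')
  letI := Fintype.ofFinite (Pairs π (G ⧸ N))
  have h1 : Nat.card (Pairs π G) ≤ Nat.card (Pairs π (G ⧸ N)) * Nat.card (Pairs π N) := by
    rw [← Nat.card_congr (Equiv.sigmaFiberEquiv f), Nat.card_sigma]
    refine (Finset.sum_le_card_nsmul _ _ _ fun r _ => hf r).trans ?_
    rw [Finset.card_univ, ← Nat.card_eq_fintype_card, smul_eq_mul]
  rw [card_pairs, card_pairs, card_pairs, ← Grp.card_quotient_mul_card N] at h1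
  have h2 : 0 < Nat.card (G ⧸ N) * Nat.card N := Nat.mul_pos Nat.card_pos Nat.card_pos
  refine Nat.le_of_mul_le_mul_left ?_ h2
  refine h1.trans (le_of_eq ?_)
  ring

end Cfsg.Agent.S4152
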