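import Cfsg.Statements.S4153
import Mathlib
import Cfsg.Agent.Grp.Card

set_option autoImplicit false
open Cfsg

namespace Cfsg.Agent.S4153

theorem card_inf_mul {G : Type*} [Group G] [Finite G] (p : ℕ) [Fact p.Prime] (N : Subgroup G)
    [N.Normal] (P Q : Sylow p G) (Pbar : Sylow p (G ⧸ N)) :
    Nat.card (N ⊓ Q : Subgroup G) * Nat.card (Pbar : Subgroup (G ⧸ N)) =
      Nat.card (P : Subgroup G) := by
  have h1 := Grp.card_map_mk'_mul N (Q : Subgroup G)
  have h2 : Nat.card ((Q : Subgroup G).map (QuotientGroup.mk' N)) =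
      Nat.card (Pbar : Subgroup (G ⧸ N)) := by
    have := (Q.mapSurjective (QuotientGroup.mk'_surjective N)).card_eq_multiplicity
    rw [Sylow.coe_mapSurjective] at this
    rw [this, Pbar.card_eq_multiplicity]
  rw [mul_comm, ← h2, h1, Q.card_eq_multiplicity, P.card_eq_multiplicity]

theorem exists_lift {G : Type*} [Group G] [Finite G] (p : ℕ) [Fact p.Prime] (N : Subgroup G)
    [N.Normal] (x : G ⧸ N) (hx : ∃ k : ℕ, orderOf x = p ^ k) :
    ∃ (Q : Sylow p G) (g : G), g ∈ (Q : Subgroup G) ∧ (g : G ⧸ N) = x := by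
  obtain ⟨k, hk⟩ := hx
  have h1 : IsPGroup p (Subgroup.zpowers x) := IsPGroup.of_card (by rw [Nat.card_zpowers, hk])
  obtain ⟨R, hR⟩ := h1.exists_le_sylow
  obtain ⟨Q, rfl⟩ := Sylow.mapSurjective_surjective (QuotientGroup.mk'_surjective N) p R
  obtain ⟨g, hg, hgx⟩ := hR (Subgroup.mem_zpowers x)
  exact ⟨Q, g, hg, hgx⟩

theorem orderOf_of_mem {G : Type*} [Group G] [Finite G] (p : ℕ) [Fact p.Prime] (Q : Sylow p G)
    {g : G} (hg : g ∈ (Q : Subgroup G)) : ∃ k : ℕ, orderOf g = p ^ k := by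
  obtain ⟨k, hk⟩ := IsPGroup.iff_orderOf.1 Q.isPGroup' ⟨g, hg⟩
  exact ⟨k, by rw [← hk, Subgroup.orderOf_mk]⟩


/-- Let G be a finite group, p a prime, N a normal subgroup, P a Sylow p-subgroup of G and P̄ a Sylow p-subgroup of G/N. Count the elements of p-power order, the identity included. Then (number of such elements of G/N)/#P̄ ≤ (number of such elements of G)/#P, stated as a cross-multiplied inequality, with equality when N is central. -/
theorem result {G : Type*} [Group G] [Finite G] (p : ℕ) [Fact p.Prime] (N : Subgroup G) [N.Normal]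
    (P : Sylow p G) (Pbar : Sylow p (G ⧸ N)) :
    Nat.card {g : (G ⧸ N) // ∃ k : ℕ, orderOf g = p ^ k} * Nat.card (P : Subgroup G) ≤ Nat.card {g : G // ∃ k : ℕ, orderOf g = p ^ k} * Nat.card (Pbar : Subgroup (G ⧸ N)) ∧
    (N ≤ Subgroup.center G → Nat.card {g : (G ⧸ N) // ∃ k : ℕ, orderOf g = p ^ k} * Nat.card (P : Subgroup G) = Nat.card {g : G // ∃ k : ℕ, orderOf g = p ^ k} * Nat.card (Pbar : Subgroup (G ⧸ N))) := by
  classical
  choose Q g hg hgx using exists_lift p N
  let X := {g : (G ⧸ N) // ∃ k : ℕ, orderOf g = p ^ k}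
  let f : (Σ x : X, (N ⊓ Q x.1 x.2 : Subgroup G)) → {g : G // ∃ k : ℕ, orderOf g = p ^ k} :=
    fun y => ⟨g y.1.1 y.1.2 * y.2, orderOf_of_mem p (Q y.1.1 y.1.2)
      (Subgroup.mul_mem _ (hg _ _) y.2.2.2)⟩
  have hfx : ∀ y, (((f y).1 : G) : G ⧸ N) = y.1.1 := by
    intro y
    simp only [f, QuotientGroup.mk_mul, hgx]
    rw [(QuotientGroup.eq_one_iff _).2 y.2.2.1, mul_one]
  have hinj : Function.Injective f := by
    rintro ⟨x, n⟩ ⟨y, m⟩ h
    have h1 : x = y := by
      apply Subtype.ext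
      have := hfx ⟨x, n⟩
      rw [h, hfx] at this
      exact this.symm
    subst h1
    simp only [f, Subtype.mk.injEq, mul_right_inj] at h
    rw [Subtype.ext h]
  have := Fintype.ofFinite X
  have hcard : Nat.card (Σ x : X, (N ⊓ Q x.1 x.2 : Subgroup G)) * Nat.card (Pbar : Subgroup (G ⧸ N)) =
      Nat.card X * Nat.card (P : Subgroup G) := by
    rw [Nat.card_sigma, Finset.sum_mul]
    simp_rw [card_inf_mul p N P _ Pbar]
    simp
  refine ⟨?_, fun hN => ?_⟩
  · rw [← hcard]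
    exact Nat.mul_le_mul_right _ (Nat.card_le_card_of_injective f hinj)
  · rw [← hcard]
    congr 1
    refine Nat.card_congr (Equiv.ofBijective f ⟨hinj, ?_⟩)
    rintro ⟨y, k, hk⟩
    have hy : ∃ k : ℕ, orderOf (y : G ⧸ N) = p ^ k := by
      have : orderOf (y : G ⧸ N) ∣ p ^ k := hk ▸ orderOf_map_dvd (QuotientGroup.mk' N) y
      obtain ⟨j, -, hj⟩ := (Nat.dvd_prime_pow (Fact.out : p.Prime)).1 this
      exact ⟨j, hj⟩
    set a := g y hy with ha
    have hn : a⁻¹ * y ∈ N := by rw [← QuotientGroup.eq, ha, hgx]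
    have hc : ∀ z, z * (a⁻¹ * y) = (a⁻¹ * y) * z := fun z => Subgroup.mem_center_iff.1 (hN hn) z
    have hcomm : Commute a⁻¹ y := by
      have := hc a
      have h2 : y * a = a * y := by
        calc y * a = a * (a⁻¹ * y * a) := by group
          _ = a * y := by rw [← this]; group
      exact (Commute.inv_left (h2.symm : Commute a y))
    obtain ⟨j, hj⟩ := orderOf_of_mem p _ (hg y hy)
    have hpow : (a⁻¹ * y) ^ p ^ (j + k) = 1 := by
      rw [hcomm.mul_pow, inv_pow, pow_add, pow_mul, ← hj, pow_orderOf_eq_one, mul_comm (orderOf _),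
        pow_mul, ← hk, pow_orderOf_eq_one]
      simp
    have hP : IsPGroup p (Subgroup.zpowers (a⁻¹ * y)) := by
      obtain ⟨i, -, hi⟩ := (Nat.dvd_prime_pow (Fact.out : p.Prime)).1 (orderOf_dvd_of_pow_eq_one hpow)
      exact IsPGroup.of_card (by rw [Nat.card_zpowers, hi])
    have hnorm : (Subgroup.zpowers (a⁻¹ * y)).Normal := by
      constructor
      intro n hn' z
      have : n ∈ Subgroup.center G := (Subgroup.zpowers_le.2 (hN hn)) hn'
      rw [Subgroup.mem_center_iff.1 this z]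
      simpa using hn'
    have hle : Subgroup.zpowers (a⁻¹ * y) ≤ Q y hy := hP.le_sylow_of_normal _
    refine ⟨⟨⟨y, hy⟩, ⟨a⁻¹ * y, hn, hle (Subgroup.mem_zpowers _)⟩⟩, ?_⟩
    apply Subtype.ext
    simp [f, ha]

end Cfsg.Agent.S4153
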