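import Cfsg.Statements.S4154
import Mathlib
import Cfsg.Agent.Grp.Card

set_option autoImplicit false
open Cfsg

namespace Cfsg.Agent.S4154

/-- Let G be a finite group and α an automorphism of G such that every element of G is the product of an element fixed by α and an element of the form g⁻¹α(g). If N is a normal α-invariant subgroup, then the automorphism ᾱ induced on G/N has the same property, and every coset fixed by ᾱ contains an element fixed by α (so the fixed points of ᾱ are the images of the fixed points of α). -/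
theorem result {G : Type*} [Group G] [Finite G] (α : MulAut G)
    (hccp : ∀ x : G, ∃ c g : G, α c = c ∧ x = c * (g⁻¹ * α g))
    (N : Subgroup G) [N.Normal] (hN : ∀ n ∈ N, α n ∈ N) :
    (∀ x : G, ∃ c g : G, c⁻¹ * α c ∈ N ∧ x⁻¹ * (c * (g⁻¹ * α g)) ∈ N) ∧
    (∀ x : G, x⁻¹ * α x ∈ N → ∃ c : G, α c = c ∧ c⁻¹ * x ∈ N) := by
  refine ⟨fun x => ?_, fun x hx => ?_⟩
  · obtain ⟨c, g, hc, hx⟩ := hccp x
    exact ⟨c, g, by rw [hc]; simp, by rw [← hx]; simp⟩
  let φ : G ⧸ N →* G ⧸ N := QuotientGroup.map N N α.toMonoidHom hN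
  have hφ : ∀ g : G, φ g = (α g : G) := fun g => rfl
  let C' : Subgroup (G ⧸ N) := φ.eqLocus (MonoidHom.id _)
  let C : Subgroup (G ⧸ N) := (α.toMonoidHom.eqLocus (MonoidHom.id _)).map (QuotientGroup.mk' N)
  have hle : C ≤ C' := by
    rintro _ ⟨c, hc, rfl⟩
    have hc' : α c = c := hc
    change φ c = c
    rw [hφ, hc']
  let s : (G ⧸ N) ⧸ C' → G ⧸ N := Quotient.lift (s := QuotientGroup.leftRel _)
    (fun y => y * φ y⁻¹) (by
      intro a b hab
      have h : φ (a⁻¹ * b) = a⁻¹ * b := QuotientGroup.leftRel_apply.1 hab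
      rw [map_mul] at h
      have h2 : φ a⁻¹ = a⁻¹ * b * φ b⁻¹ := by rw [← h, map_inv φ b]; group
      rw [h2]; group)
  have hsurj : Function.Surjective (fun y : C × ((G ⧸ N) ⧸ C') => (y.1 : G ⧸ N) * s y.2) := by
    intro y
    obtain ⟨y, rfl⟩ := QuotientGroup.mk_surjective y
    obtain ⟨c, g, hc, hy⟩ := hccp y
    refine ⟨⟨⟨c, c, hc, rfl⟩, QuotientGroup.mk ((g : G ⧸ N)⁻¹)⟩, ?_⟩
    change (c : G ⧸ N) * ((g : G ⧸ N)⁻¹ * φ (g : G ⧸ N)⁻¹⁻¹) = y
    rw [inv_inv, hφ, hy]
    simp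
  have h1 := Nat.card_le_card_of_surjective _ hsurj
  rw [Nat.card_prod, Subgroup.card_eq_card_quotient_mul_card_subgroup C', mul_comm] at h1
  have h2 : Nat.card C' ≤ Nat.card C := Nat.le_of_mul_le_mul_right h1 Nat.card_pos
  have h3 : C = C' := Subgroup.eq_of_le_of_card_ge hle h2
  have h4 : (x : G ⧸ N) ∈ C' := by
    change φ x = x
    rw [hφ, eq_comm, QuotientGroup.eq]
    exact hx
  rw [← h3] at h4
  obtain ⟨c, hc, hcx⟩ := h4
  exact ⟨c, hc, QuotientGroup.eq.1 hcx⟩

end Cfsg.Agent.S4154
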