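import Cfsg.Statements.S4156


set_option autoImplicit false
open Cfsg

namespace Cfsg.Agent.S4156

open Subgroup

/-- the sum-zero subspace -/
def W (n : ℕ) (F : Type*) [Field F] : Submodule F (Fin (n + 1) → F) :=
  LinearMap.ker (∑ i, LinearMap.proj i : (Fin (n + 1) → F) →ₗ[F] F)

theorem mem_W {n : ℕ} {F : Type*} [Field F] {v : Fin (n + 1) → F} : v ∈ W n F ↔ ∑ i, v i = 0 := by
  simp [W]

theorem finrank_W (n : ℕ) (F : Type*) [Field F] : Module.finrank F (W n F) = n := by
  have h := LinearMap.finrank_range_add_finrank_ker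
    (∑ i, LinearMap.proj i : (Fin (n + 1) → F) →ₗ[F] F)
  have h2 : LinearMap.range (∑ i, LinearMap.proj i : (Fin (n + 1) → F) →ₗ[F] F) = ⊤ := by
    rw [LinearMap.range_eq_top]
    intro c
    exact ⟨Pi.single 0 c, by simp⟩
  rw [h2, finrank_top, Module.finrank_self, Module.finrank_fin_fun] at h
  unfold W
  omega

/-- the action on the sum-zero subspace -/
def rho (n : ℕ) (F : Type*) [Field F] : Equiv.Perm (Fin (n + 1)) →* Module.End F (W n F) where
  toFun σ := (LinearMap.funLeft F F σ.symm).restrict fun v hv => by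
    rw [mem_W] at hv ⊢
    rw [← hv]
    exact Equiv.sum_comp σ.symm v
  map_one' := by ext v i; rfl
  map_mul' σ τ := by ext v i; rfl

/-- Let n ≥ 5 and F a finite field. Then the projective special linear group PSL_n(F) contains a subgroup isomorphic to the alternating group of degree n + 1. -/
theorem result (n : ℕ) (hn : 5 ≤ n) (F : Type*) [Field F] [Finite F] :
    ∃ f : alternatingGroup (Fin (n + 1)) →* Matrix.ProjectiveSpecialLinearGroup (Fin n) F, Function.Injective f := by
  let b := Module.finBasisOfFinrankEq F (W n F) (finrank_W n F)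
  let m : alternatingGroup (Fin (n + 1)) →* Matrix (Fin n) (Fin n) F :=
    ((LinearMap.toMatrixAlgEquiv b).toMulEquiv.toMonoidHom.comp (rho n F)).comp
      (alternatingGroup (Fin (n + 1))).subtype
  have hc : 5 ≤ Nat.card (Fin (n + 1)) := by simp; omega
  have hperf : commutator (alternatingGroup (Fin (n + 1))) = ⊤ :=
    commutator_alternatingGroup_eq_top hc
  have hdet : ∀ σ, (m σ).det = 1 := fun σ => by
    have := Abelianization.commutator_subset_ker (Matrix.detMonoidHom.comp m).toHomUnits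
      (hperf ▸ mem_top σ)
    exact congrArg Units.val this
  let g : alternatingGroup (Fin (n + 1)) →* Matrix.SpecialLinearGroup (Fin n) F :=
    { toFun := fun σ => ⟨m σ, hdet σ⟩
      map_one' := Subtype.ext (map_one m)
      map_mul' := fun σ τ => Subtype.ext (map_mul m σ τ) }
  refine ⟨(QuotientGroup.mk' _).comp g, ?_⟩
  rw [← MonoidHom.ker_eq_bot_iff]
  have := alternatingGroup.isSimpleGroup hc
  refine (IsSimpleGroup.eq_bot_or_eq_top_of_normal _ inferInstance).resolve_right fun h => ?_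
  have h1 : ∀ σ, g σ ∈ center (Matrix.SpecialLinearGroup (Fin n) F) := fun σ => by
    have : σ ∈ ((QuotientGroup.mk' (center (Matrix.SpecialLinearGroup (Fin n) F))).comp g).ker :=
      h ▸ mem_top σ
    exact (QuotientGroup.eq_one_iff _).1 this
  have h2 : ∀ σ, g σ = 1 := fun σ => by
    have : commutator (alternatingGroup (Fin (n + 1))) ≤ g.ker := by
      rw [commutator_def, commutator_le]
      intro a _ c _
      rw [MonoidHom.mem_ker, map_commutatorElement, commutatorElement_eq_one_iff_mul_comm]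
      exact (mem_center_iff.1 (h1 c) _)
    exact this (hperf ▸ mem_top σ)
  obtain ⟨a0, a1, a2, a3, e01, e12, e20, e23, e03⟩ : ∃ a0 a1 a2 a3 : Fin (n + 1),
      a0 ≠ a1 ∧ a1 ≠ a2 ∧ a2 ≠ a0 ∧ a2 ≠ a3 ∧ a0 ≠ a3 :=
    ⟨⟨0, by omega⟩, ⟨1, by omega⟩, ⟨2, by omega⟩, ⟨3, by omega⟩, by simp, by simp, by simp,
      by simp, by simp⟩
  let σ : Equiv.Perm (Fin (n + 1)) := Equiv.swap a0 a1 * Equiv.swap a1 a2
  have hσ : σ ∈ alternatingGroup (Fin (n + 1)) := by
    rw [Equiv.Perm.mem_alternatingGroup, map_mul, Equiv.Perm.sign_swap e01,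
      Equiv.Perm.sign_swap e12]
    simp
  have h3 : rho n F σ = 1 := by
    have h4 : m ⟨σ, hσ⟩ = 1 := congrArg Subtype.val (h2 ⟨σ, hσ⟩)
    exact (LinearMap.toMatrixAlgEquiv b).injective (h4.trans (map_one _).symm)
  have hv : (Pi.single a0 1 - Pi.single a3 1 : Fin (n + 1) → F) ∈ W n F := by
    rw [mem_W]; simp [Finset.sum_sub_distrib]
  have h5 := congrFun (congrArg Subtype.val (LinearMap.congr_fun h3 ⟨_, hv⟩)) a0
  change (Pi.single a0 1 - Pi.single a3 1 : Fin (n + 1) → F) (σ.symm a0) =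
    (Pi.single a0 1 - Pi.single a3 1 : Fin (n + 1) → F) a0 at h5
  have h6 : σ.symm a0 = a2 := by
    rw [Equiv.symm_apply_eq]
    simp [σ]
  rw [h6] at h5
  simp [Pi.single_eq_of_ne e20, Pi.single_eq_of_ne e23, Pi.single_eq_of_ne e03] at h5

end Cfsg.Agent.S4156
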