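import Cfsg.Statements.S4160
import Mathlib
import Cfsg.Agent.FGS.ClassSizeCount

set_option autoImplicit false
open Cfsg

namespace Cfsg.Agent.S4160

/-- Let G be a finite group and p ≠ q primes each dividing the size of some conjugacy class of G, such that no conjugacy class size is divisible by pq. Then G has a normal p-complement or a normal q-complement. -/
theorem result {G : Type*} [Group G] [Finite G] (p q : ℕ) (hp : p.Prime) (hq : q.Prime) (hpq : p ≠ q)
    (hp' : ∃ x : G, p ∣ (Subgroup.centralizer ({x} : Set G)).index) (hq' : ∃ x : G, q ∣ (Subgroup.centralizer ({x} : Set G)).index) (h : ∀ x : G, ¬ p * q ∣ (Subgroup.centralizer ({x} : Set G)).index) :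
    Cfsg.HasNormalPComplement p G ∨ Cfsg.HasNormalPComplement q G := by
  classical
  by_contra hc
  push Not at hc
  haveI := Fact.mk hp
  haveI := Fact.mk hq
  have h1 := FGS.two_mul_card_not_dvd_index_le hc.1
  have h2 := FGS.two_mul_card_not_dvd_index_le hc.2
  have := Fintype.ofFinite G
  rw [Nat.card_eq_fintype_card, Fintype.card_subtype, Nat.card_eq_fintype_card] at h1 h2
  set A := Finset.univ.filter fun x : G => ¬ p ∣ (Subgroup.centralizer ({x} : Set G)).index
  set B := Finset.univ.filter fun x : G => ¬ q ∣ (Subgroup.centralizer ({x} : Set G)).index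
  have hU : A ∪ B = Finset.univ := by
    ext x
    simp only [A, B, Finset.mem_union, Finset.mem_filter, Finset.mem_univ, true_and, iff_true]
    by_contra hx
    push Not at hx
    exact h x (Nat.Coprime.mul_dvd_of_dvd_of_dvd ((Nat.coprime_primes hp hq).2 hpq) hx.1 hx.2)
  have hI : (1 : G) ∈ A ∩ B := by
    have : Subgroup.centralizer ({1} : Set G) = ⊤ := by
      rw [eq_top_iff]; intro y _ z hz; rw [Set.mem_singleton_iff.1 hz]; simp
    simp [A, B, this, hp.ne_one, hq.ne_one]
  have h3 := Finset.card_union_add_card_inter A B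
  rw [hU, Finset.card_univ] at h3
  have h4 : 0 < (A ∩ B).card := Finset.card_pos.2 ⟨_, hI⟩
  omega

end Cfsg.Agent.S4160
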