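import Cfsg.Statements.S4161
import Cfsg.Agent.S4160
import Cfsg.Agent.FGS.ClassSize
import Cfsg.Agent.FGS.SolvRad
import Cfsg.Agent.Grp.CoprimeIndex

set_option autoImplicit false
open Cfsg

namespace Cfsg.Agent.S4161

section
open Subgroup Cfsg.Agent.FGS
open scoped Pointwise

variable {G : Type*} [Group G] [Finite G]

/-- The size of the class of `x`. -/
noncomputable abbrev cs (x : G) : ℕ := (centralizer ({x} : Set G)).index

/-- The centralizer of a Sylow subgroup. -/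
abbrev cy {p : ℕ} (P : Sylow p G) : Subgroup G := centralizer ((P : Subgroup G) : Set G)

theorem cover {E H : Subgroup G} (h : ∀ g ∈ E, ∃ x ∈ E, x⁻¹ * g * x ∈ H) : E ≤ H := by
  refine subgroupOf_eq_top.1 (eq_top_of_forall_exists_conj_mem _ fun g => ?_)
  obtain ⟨x, hx, h⟩ := h g g.2
  exact ⟨⟨x⁻¹, inv_mem hx⟩, by simpa [mem_subgroupOf] using h⟩

omit [Finite G] in
theorem mem_cy_smul {p : ℕ} (P : Sylow p G) (g x : G) : x ∈ cy (g • P) ↔ g⁻¹ * x * g ∈ cy P := by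
  constructor
  · intro h u hu
    have := h (g * u * g⁻¹) (smul_mem_pointwise_smul u (MulAut.conj g) _ hu)
    simpa [mul_assoc] using congrArg (fun y => g⁻¹ * y * g) this
  · intro h u hu
    obtain ⟨z, hz, rfl⟩ := (mem_smul_pointwise_iff_exists _ _ _).1 hu
    simpa [mul_assoc] using congrArg (fun y => g * y * g⁻¹) (h z hz)

variable {p q : ℕ} [hp : Fact p.Prime] [hq : Fact q.Prime]

theorem cen_iff {x : G} : ¬ p ∣ cs x ↔ ∃ P : Sylow p G, x ∈ cy P :=
  ⟨fun h => (exists_sylow_le_of_not_dvd_index' h).imp fun _ h _ hy => (h hy x rfl).symm,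
    fun ⟨P, h⟩ e => P.not_dvd_index (e.trans (index_dvd_of_le fun y hy =>
      mem_centralizer_singleton_iff.2 (h y hy)))⟩

theorem cover_syl {E : Subgroup G} {P : Sylow p G} (hP : (P : Subgroup G) ≤ E)
    (h : ∀ c ∈ E, ∃ P' : Sylow p G, (P' : Subgroup G) ≤ E ∧ c ∈ cy P') : E ≤ cy P := by
  refine cover fun c hc => ?_
  obtain ⟨P', h1, h2⟩ := h c hc
  obtain ⟨e, he⟩ := MulAction.exists_smul_eq E (P.subtype hP) (P'.subtype h1)
  rw [Sylow.smul_subtype] at he
  obtain rfl := Sylow.subtype_injective he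
  exact ⟨e, e.2, (mem_cy_smul P e c).1 h2⟩

/-- A normal `p`-complement. -/
structure NC (p : ℕ) (K : Subgroup G) : Prop where
  normal : K.Normal
  mem : ∀ g, g ∈ K ↔ ¬ p ∣ orderOf g
  fac : ∀ (P : Sylow p G) (g : G), ∃ k ∈ K, ∃ u ∈ (P : Subgroup G), k * u = g

theorem exists_NC (h : HasNormalPComplement p G) : ∃ K : Subgroup G, NC p K := by
  obtain ⟨P, K, hK, h⟩ := h
  obtain ⟨a, ha⟩ := IsPGroup.iff_card.1 P.isPGroup'
  have h1 : ¬ p ∣ Nat.card K := h.index_eq_card ▸ P.not_dvd_index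
  refine ⟨K, hK, fun g => ⟨fun hg e => h1 (e.trans (orderOf_dvd_natCard K hg)), fun hg => ?_⟩,
    fun P' g => ?_⟩
  · have h2 := K.pow_index_mem g
    rw [h.symm.index_eq_card, ha] at h2
    obtain ⟨m, hm⟩ := exists_pow_eq_self_of_coprime
      (Nat.Coprime.pow_left a ((Nat.Prime.coprime_iff_not_dvd hp.out).2 hg))
    exact hm ▸ pow_mem h2 m
  · obtain ⟨c, rfl⟩ := MulAction.exists_smul_eq G P P'
    obtain ⟨⟨⟨k, hk⟩, ⟨u, hu⟩⟩, e⟩ := h.2 (c⁻¹ * g * c)
    refine ⟨c * k * c⁻¹, hK.conj_mem k hk c, c * u * c⁻¹,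
      smul_mem_pointwise_smul u (MulAut.conj c) _ hu, ?_⟩
    simpa [mul_assoc] using congrArg (fun y => c * y * c⁻¹) e

omit [Finite G] in
theorem order_syl {P : Sylow p G} {u : G} (hu : u ∈ (P : Subgroup G)) :
    ∃ a, orderOf u = p ^ a := by
  obtain ⟨a, ha⟩ := IsPGroup.iff_orderOf.1 P.isPGroup' ⟨u, hu⟩
  exact ⟨a, by rw [← ha, orderOf_mk]⟩

omit [Finite G] hp in
theorem NC.eq_one {K : Subgroup G} (h : NC p K) {u : G} (hu : ∃ a, orderOf u = p ^ a)
    (hK : u ∈ K) : u = 1 := by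
  obtain ⟨a, ha⟩ := hu
  rcases a with _ | a
  · simpa using ha
  · exact absurd (ha ▸ dvd_pow_self p a.succ_ne_zero) ((h.mem u).1 hK)

omit [Finite G] in
theorem NC.syl_le {K : Subgroup G} (h : NC p K) (hpq : p ≠ q) (Q : Sylow q G) :
    (Q : Subgroup G) ≤ K := fun u hu => by
  obtain ⟨a, ha⟩ := order_syl hu
  exact (h.mem u).2 fun e => hpq ((Nat.prime_dvd_prime_iff_eq hp.out hq.out).1
    (hp.out.dvd_of_dvd_pow (ha ▸ e)))

omit [Finite G] in
theorem cent_mul_le {u c : G} (h : u * c = c * u) (hu : ∃ a, orderOf u = p ^ a)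
    (hc : ¬ p ∣ orderOf c) : centralizer ({u * c} : Set G) ≤ centralizer {u} ⊓ centralizer {c} := by
  obtain ⟨a, ha⟩ := hu
  have hco : (orderOf u).Coprime (orderOf c) :=
    ha ▸ Nat.Coprime.pow_left a ((Nat.Prime.coprime_iff_not_dvd hp.out).2 hc)
  have h' : Commute u c := h
  intro g hg
  have hg : Commute g (u * c) := mem_centralizer_singleton_iff.1 hg
  obtain ⟨m, hm⟩ := exists_pow_eq_self_of_coprime hco.symm
  obtain ⟨n, hn⟩ := exists_pow_eq_self_of_coprime hco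
  have h1 := (hg.pow_right (orderOf c)).pow_right m
  have h2 := (hg.pow_right (orderOf u)).pow_right n
  rw [h'.mul_pow, pow_orderOf_eq_one, mul_one, hm] at h1
  rw [h'.mul_pow, pow_orderOf_eq_one, one_mul, hn] at h2
  exact ⟨mem_centralizer_singleton_iff.2 h1, mem_centralizer_singleton_iff.2 h2⟩

theorem not_vertex {P : Sylow p G} (h : ∀ g, g ∈ cy P) : ¬ ∃ x : G, p ∣ cs x :=
  fun ⟨x, hx⟩ => cen_iff.2 ⟨P, h x⟩ hx

theorem NC.cen {K : Subgroup G} (h : NC p K) (P : Sylow p G) {x : G} (hx : ¬ p ∣ cs x) :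
    ∃ k ∈ K, k⁻¹ * x * k ∈ cy P := by
  obtain ⟨P', hP'⟩ := cen_iff.1 hx
  obtain ⟨g, rfl⟩ := MulAction.exists_smul_eq G P P'
  obtain ⟨k, hk, u, hu, rfl⟩ := h.fac P g
  rw [mul_smul, Sylow.smul_eq_iff_mem_normalizer.2 (le_normalizer hu)] at hP'
  exact ⟨k, hk, (mem_cy_smul P k x).1 hP'⟩

theorem coset_count {E C : Subgroup G} {c z : G} (hc : c ∈ C) (hE : E.Normal)
    (h : ∀ e ∈ E, ∃ d ∈ E, d⁻¹ * (c * e) * d ∈ C) (hz : z ∈ E) (hzc : z * c = c * z) : z ∈ C := by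
  have k : ∀ d e : E, c⁻¹ * (d * (c * e) * d⁻¹) ∈ E := fun d e => by
    have := mul_mem (mul_mem (hE.conj_mem d d.2 c⁻¹) e.2) (inv_mem d.2)
    simpa [mul_assoc] using this
  let f : (E ⧸ C.subgroupOf E) × C.subgroupOf E → E := fun w =>
    ⟨c⁻¹ * (w.1.out * (c * w.2) * w.1.out⁻¹), k _ _⟩
  have k2 : ∀ d : E, ∀ y ∈ C, c⁻¹ * y ∈ E → ∃ e, (f (d, e) : G) = c⁻¹ * (d * y * d⁻¹) := by
    intro d y hy hy'
    obtain ⟨⟨⟨t, ht⟩, ht'⟩, e⟩ := QuotientGroup.mk_out_eq_mul (C.subgroupOf E) d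
    have ht' : t ∈ C := ht'
    refine ⟨⟨⟨c⁻¹ * (t⁻¹ * y * t), ?_⟩, mul_mem (inv_mem hc)
      (mul_mem (mul_mem (inv_mem ht') hy) ht')⟩, ?_⟩
    · simpa using k ⟨t, ht⟩⁻¹ ⟨_, hy'⟩
    · simp only [f, e]
      simp [mul_assoc]
  have hs : Function.Surjective f := fun e => by
    obtain ⟨d, hd, h⟩ := h e e.2
    obtain ⟨w, hw⟩ := k2 ⟨d, hd⟩ _ h (by simpa using k ⟨d, hd⟩⁻¹ e)
    exact ⟨_, Subtype.ext (hw.trans (by simp [mul_assoc]))⟩
  have hi := (hs.bijective_of_nat_card_le (by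
    rw [Nat.card_prod, ← card_eq_card_quotient_mul_card_subgroup])).1
  obtain ⟨e1, h1⟩ := k2 1 c hc (by simp)
  obtain ⟨e2, h2⟩ := k2 ⟨z, hz⟩ c hc (by simp)
  have := congrArg Prod.fst (hi (Subtype.ext (h1.trans (h2.trans (by simp [hzc])).symm)))
  simpa [mem_subgroupOf] using QuotientGroup.eq.1 this

theorem case_one {K D : Subgroup G} (hK : NC q K) [hD : D.Normal] (hv : ∃ x : G, q ∣ cs x)
    (h : ∀ x : G, q ∣ cs x → x ∈ D ∧ ∃ m ∈ K, m ∉ D ∧ x * m = m * x) : False := by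
  obtain ⟨Q⟩ : Nonempty (Sylow q G) := inferInstance
  have := hK.normal
  have h1 : (Q : Subgroup G) ≤ cy Q := fun u hu => by
    have : ¬ q ∣ cs u := fun e => by
      obtain ⟨h1, m, hm, h2, h3⟩ := h u e
      have := (h (u * m) (e.trans (index_dvd_of_le ((cent_mul_le h3 (order_syl hu)
        ((hK.mem m).1 hm)).trans inf_le_left)))).1
      exact h2 ((mul_mem_cancel_left h1).1 this)
    obtain ⟨k, hk, h2⟩ := hK.cen Q this
    intro v hv
    refine commutatorElement_eq_one_iff_mul_comm.1 (hK.eq_one (order_syl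
      (mul_mem (mul_mem (mul_mem hv hu) (inv_mem hv)) (inv_mem hu))) ?_)
    rw [← QuotientGroup.eq_one_iff]
    have h3 := congrArg (QuotientGroup.mk' K) (h2 v hv)
    simp only [map_mul, map_inv, show QuotientGroup.mk' K k = 1 from
      (QuotientGroup.eq_one_iff k).2 hk, inv_one, one_mul, mul_one] at h3
    exact (map_commutatorElement (QuotientGroup.mk' K) v u).trans
      (commutatorElement_eq_one_iff_mul_comm.2 h3)
  obtain ⟨x, hx, hx'⟩ : ∃ x ∈ K, q ∣ cs x := by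
    by_contra! e
    refine not_vertex (P := Q) (fun g => ?_) hv
    obtain ⟨k, hk, u, hu, rfl⟩ := hK.fac Q g
    exact mul_mem (cover (fun g hg => hK.cen Q (e g hg)) hk) (h1 hu)
  have h2 : K ≤ (K ⊓ D) ⊔ (K ⊓ cy Q) := cover fun g hg => by
    by_cases e : q ∣ cs g
    · exact ⟨1, one_mem _, mem_sup_left ⟨by simpa using hg, by simpa using (h g e).1⟩⟩
    · obtain ⟨k, hk, h⟩ := hK.cen Q e
      exact ⟨k, hk, mem_sup_right (mem_inf.2 ⟨mul_mem (mul_mem (inv_mem hk) hg) hk, h⟩)⟩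
  obtain ⟨hxD, m, hm, hmD, hxm⟩ := h x hx'
  obtain ⟨k, hk, hc⟩ := hK.cen Q fun e => hmD (h m e).1
  have hcD : k⁻¹ * m * k ∉ D := fun e => hmD (by simpa [mul_assoc] using hD.conj_mem _ e k)
  refine cen_iff.2 ⟨k • Q, (mem_cy_smul Q k x).2 (coset_count (E := K ⊓ D) hc inferInstance
    (fun e he => ?_) (mem_inf.2 ⟨mul_mem (mul_mem (inv_mem hk) hx) hk,
      by simpa using hD.conj_mem x hxD k⁻¹⟩)
    (by simp [mul_assoc, ← mul_assoc x, hxm]))⟩ hx'
  obtain ⟨l, hl, h3⟩ := hK.cen Q (x := k⁻¹ * m * k * e) fun h' =>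
    hcD ((mul_mem_cancel_right (mem_inf.1 he).2).1 (h _ h').1)
  obtain ⟨d, hd, c, hc', rfl⟩ := mem_sup_of_normal_left.1 (h2 hl)
  have hc' := (mem_inf.1 hc').2
  exact ⟨d, hd, by simpa [mul_assoc] using mul_mem (mul_mem hc' h3) (inv_mem hc')⟩

theorem step {K : Subgroup G} (hK : NC p K) (hpq : p ≠ q) (hv : ∃ x : G, q ∣ cs x)
    (hn : ∀ x : G, p ∣ cs x → ¬ q ∣ cs x) {P : Sylow p G} {Q : Sylow q G}
    (hPQ : (P : Subgroup G) ≤ cy Q) {u : G} (hu : u ∈ (P : Subgroup G)) :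
    ∃ x : G, q ∣ cs x ∧ cs u ∣ cs x := by
  by_contra! h
  have := hK.normal
  have h1 : K ⊓ centralizer {u} ≤ cy Q := by
    refine cover_syl (le_inf (hK.syl_le hpq Q) fun v hv =>
      mem_centralizer_singleton_iff.2 (hPQ hu v hv)) fun c hc => ?_
    have h2 := cent_mul_le (mem_centralizer_singleton_iff.1 hc.2).symm (order_syl hu)
      ((hK.mem c).1 hc.1)
    obtain ⟨Q', hQ'⟩ := exists_sylow_le_of_not_dvd_index' fun e =>
      h (u * c) e (index_dvd_of_le (h2.trans inf_le_left))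
    exact ⟨Q', le_inf (hK.syl_le hpq Q') (hQ'.trans (h2.trans inf_le_left)),
      fun v hv => mem_centralizer_singleton_iff.1 (h2 (hQ' hv)).2⟩
  have h2 : K ≤ cy Q := by
    refine cover_syl (hK.syl_le hpq Q) fun c hc => ?_
    by_cases e : p ∣ cs c
    · obtain ⟨Q', h⟩ := cen_iff.1 (hn c e)
      exact ⟨Q', hK.syl_le hpq Q', h⟩
    · obtain ⟨k, hk, h⟩ := hK.cen P e
      exact ⟨k • Q, hK.syl_le hpq _, (mem_cy_smul Q k c).2 (h1 (mem_inf.2
        ⟨mul_mem (mul_mem (inv_mem hk) hc) hk, mem_centralizer_singleton_iff.2 (h u hu).symm⟩))⟩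
  refine not_vertex (P := Q) (fun g => ?_) hv
  obtain ⟨k, hk, u, hu, rfl⟩ := hK.fac P g
  exact mul_mem (h2 hk) (hPQ hu)

theorem step2 {K : Subgroup G} (hK : NC p K) (hv : ∃ x : G, p ∣ cs x) {U : Subgroup G}
    (hU : ∀ P : Sylow p G, (P : Subgroup G) ≤ U) : ∃ x ∈ U, p ∣ cs x := by
  by_contra! h
  obtain ⟨P⟩ : Nonempty (Sylow p G) := inferInstance
  have h1 : U ≤ cy P := cover_syl (hU P) fun c hc =>
    (cen_iff.1 (h c hc)).imp fun P' h => ⟨hU P', h⟩
  refine not_vertex (P := P) (fun g => ?_) hv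
  obtain ⟨k, hk, u, hu, rfl⟩ := hK.fac P g
  refine mul_mem (fun v hv => ?_) (h1 (hU P hu))
  have h2 : k * v * k⁻¹ ∈ ((k • P : Sylow p G) : Subgroup G) :=
    smul_mem_pointwise_smul v (MulAut.conj k) _ hv
  have h3 : Commute (k * v * k⁻¹) v⁻¹ := (h1 (hU _ h2) _ (inv_mem hv)).symm
  obtain ⟨a, ha⟩ := order_syl h2
  obtain ⟨b, hb⟩ := order_syl (inv_mem hv)
  have h4 := h3.orderOf_mul_dvd_mul_orderOf
  rw [ha, hb, ← pow_add, Nat.dvd_prime_pow hp.out] at h4
  have := hK.eq_one (h4.imp fun _ h => h.2) (by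
    simpa [mul_assoc] using mul_mem hk (hK.normal.conj_mem _ (inv_mem hk) v))
  rw [mul_inv_eq_one, mul_inv_eq_iff_eq_mul] at this
  exact this.symm

theorem case_two {K L : Subgroup G} (hK : NC p K) (hL : NC q L) (hpq : p ≠ q)
    (hv : ∃ x : G, p ∣ cs x) (hv' : ∃ x : G, q ∣ cs x) (hn : ∀ x : G, p ∣ cs x → ¬ q ∣ cs x)
    (hr : ∀ r : ℕ, r.Prime → ∀ x y : G, p ∣ cs x → q ∣ cs y → r ∣ cs x → ¬ r ∣ cs y) : False := by
  obtain ⟨P⟩ : Nonempty (Sylow p G) := inferInstance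
  have := hL.normal
  obtain ⟨Q, hQ⟩ : ∃ Q : Sylow q G, (Q : Subgroup G) ≤ normalizer ((P : Subgroup G) : Set G) := by
    refine exists_sylow_le_of_not_dvd_index' fun e => ?_
    have h1 : normalizer ((P : Subgroup G) : Set G) ⊔ L = ⊤ :=
      Sylow.normalizer_sup_eq_top' P (hL.syl_le hpq.symm P)
    have h2 := Grp.card_sup_dvd_mul_of_normal (normalizer ((P : Subgroup G) : Set G)) L
    rw [h1, card_top, ← (normalizer ((P : Subgroup G) : Set G)).card_mul_index,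
      Nat.mul_dvd_mul_iff_left Nat.card_pos] at h2
    obtain ⟨g, hg⟩ := exists_prime_orderOf_dvd_card' q (e.trans h2)
    exact (hL.mem g).1 g.2 (by rw [orderOf_coe, hg])
  have hPQ : (P : Subgroup G) ≤ cy Q := fun u hu v hv => by
    refine commutatorElement_eq_one_iff_mul_comm.1 (hK.eq_one (order_syl (P := P)
      (mul_mem ((hQ hv u).1 hu) (inv_mem hu))) ?_)
    have hv := hK.syl_le hpq Q hv
    simpa [commutatorElement_def, mul_assoc] using mul_mem hv (hK.normal.conj_mem _ (inv_mem hv) u)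
  have h1 : ∀ (P' : Sylow p G) (Q' : Sylow q G), (P' : Subgroup G) ≤ cy Q' := by
    intro P' Q' u hu v hv
    obtain ⟨a, rfl⟩ := MulAction.exists_smul_eq G P P'
    obtain ⟨b, rfl⟩ := MulAction.exists_smul_eq G Q Q'
    obtain ⟨u, hu', rfl⟩ := (mem_smul_pointwise_iff_exists _ _ _).1 hu
    obtain ⟨v, hv'', rfl⟩ := (mem_smul_pointwise_iff_exists _ _ _).1 hv
    obtain ⟨y, hy, hy'⟩ := step hK hpq hv' hn hPQ hu'
    obtain ⟨x, hx, hx'⟩ := step hL hpq.symm ‹_› (fun x h h' => hn x h' h)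
      (fun v hv u hu => (hPQ hu v hv).symm) hv''
    have hco : (cs v).Coprime (cs u) := Nat.coprime_of_dvd fun r hr' h h' =>
      hr r hr' x y hx hy (h.trans hx') (h'.trans hy')
    obtain ⟨c, hc, d, hd, e⟩ := Grp.exists_mul_of_coprime_index hco (b⁻¹ * a)
    rw [mem_centralizer_singleton_iff] at hc hd
    obtain rfl : a = b * c * d := by rw [mul_assoc, e]; simp
    have h2 : v * (c * u * c⁻¹) = c * u * c⁻¹ * v := by
      rw [← mul_assoc, ← mul_assoc, ← hc, mul_assoc c, hPQ hu' v hv'', mul_assoc, mul_assoc,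
        mul_assoc, mul_assoc, (show Commute c v from hc).inv_left.eq]
    have h3 := congrArg (fun y => b * y * b⁻¹) h2
    simp only [MulAut.smul_def, MulAut.conj_apply, mul_assoc (b * c) d, hd]
    simpa [mul_assoc] using h3
  obtain ⟨x, hx, hx'⟩ := step2 hK hv (U := ⨅ Q : Sylow q G, cy Q) fun P => le_iInf (h1 P)
  obtain ⟨y, hy, hy'⟩ := step2 hL hv' (U := ⨅ P : Sylow p G, cy P) fun Q =>
    le_iInf fun P v hv u hu => (h1 P Q hu v hv).symm
  refine hn (x * y) ?_ ?_ <;> by_contra e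
  · obtain ⟨P', h⟩ := cen_iff.1 e
    exact cen_iff.2 ⟨P', (mul_mem_cancel_right (mem_iInf.1 hy P')).1 h⟩ hx'
  · obtain ⟨Q', h⟩ := cen_iff.1 e
    exact cen_iff.2 ⟨Q', (mul_mem_cancel_left (mem_iInf.1 hx Q')).1 h⟩ hy'

theorem chief (hG : ¬ Group.IsSolvable G) : ∃ (n : ℕ) (D : Subgroup G), D.Normal ∧
    (∀ r : ℕ, r.Prime → r ∣ n → ¬ HasNormalPComplement r G) ∧ 1 < n ∧
    ∀ x : G, (cs x).Coprime n → x ∈ D ∧ ∀ s : ℕ, s.Prime → ¬ s ∣ n →
      ∃ m, ¬ s ∣ orderOf m ∧ m ∉ D ∧ x * m = m * x := by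
  let f := QuotientGroup.mk' (solvableRadical G)
  have hf : Function.Surjective f := QuotientGroup.mk'_surjective _
  have : Nontrivial (G ⧸ solvableRadical G) := QuotientGroup.nontrivial_iff.2 fun e =>
    hG (solvableRadical_eq_top_iff.1 e)
  obtain ⟨M, hM, hM1, hM2⟩ := Grp.exists_minNormal (G ⧸ solvableRadical G)
  have hs : ¬ Group.IsSolvable M := fun h =>
    hM1 (eq_bot_iff.2 (solvableRadical_quotient G ▸ le_solvableRadical hM h))
  have k : ∀ C : Subgroup G, C.index.Coprime (Nat.card M) → M ≤ C.map f := fun C h =>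
    relIndex_eq_one.1 (Nat.eq_one_of_dvd_coprimes h ((relIndex_normal_dvd_index _ M).trans
      (index_map_dvd C hf)) (index_dvd_card _))
  refine ⟨Nat.card M, (centralizer (M : Set (G ⧸ solvableRadical G))).comap f, inferInstance,
    fun r hr h1 h2 => ?_, (one_lt_card_iff_ne_bot M).2 hM1, fun x hx => ⟨fun m hm => ?_,
      fun s hs' hs'' => ?_⟩⟩
  · have := Fact.mk hr
    obtain ⟨K, hK⟩ := exists_NC h2
    have := hK.normal.map f hf
    rcases hM2 (K.map f ⊓ M) inferInstance inf_le_right with h | h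
    · have : IsPGroup r M := fun m => by
        obtain ⟨P⟩ : Nonempty (Sylow r G) := inferInstance
        obtain ⟨g, hg⟩ := hf m
        obtain ⟨k, hk, u, hu, rfl⟩ := hK.fac P g
        obtain ⟨a, ha⟩ := order_syl hu
        refine ⟨a, Subtype.ext (mem_bot.1 (h ▸ mem_inf.2 ⟨?_, (m ^ r ^ a).2⟩))⟩
        have := hK.normal
        rw [coe_pow, ← hg, ← map_pow]
        refine mem_map_of_mem f ?_
        rw [← QuotientGroup.eq_one_iff, QuotientGroup.mk_pow, QuotientGroup.mk_mul,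
          (QuotientGroup.eq_one_iff k).2 hk, one_mul, ← QuotientGroup.mk_pow, ← ha,
          pow_orderOf_eq_one, QuotientGroup.mk_one]
      have := this.isNilpotent
      exact hs inferInstance
    · obtain ⟨m, hm⟩ := exists_prime_orderOf_dvd_card' r h1
      obtain ⟨k, hk, e⟩ := inf_eq_right.1 h m.2
      exact (hK.mem k).1 hk (by rw [← hm, ← orderOf_coe, ← e]; exact orderOf_map_dvd f k)
  · obtain ⟨c, hc, rfl⟩ := k _ hx hm
    rw [← map_mul, ← map_mul, mem_centralizer_singleton_iff.1 hc]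
  · obtain ⟨⟨m, hm⟩, hm1⟩ := ne_bot_iff_exists_ne_one.1 hM1
    obtain ⟨c, hc, hc'⟩ := exists_lift_coprime (f.subgroupMap (centralizer {x}))
      (f.subgroupMap_surjective _) (p := s) ⟨m, k _ hx hm⟩ (by
        rw [orderOf_mk]
        exact ((Nat.Prime.coprime_iff_not_dvd hs').2 fun e =>
          hs'' (e.trans (orderOf_dvd_natCard M hm))).symm)
    have hc : f c = m := congrArg Subtype.val hc
    refine ⟨c, (Nat.Prime.coprime_iff_not_dvd hs').1 (by rw [orderOf_coe]; exact hc'.symm),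
      fun e => ?_, (mem_centralizer_singleton_iff.1 c.2).symm⟩
    rw [mem_comap, hc] at e
    rcases hM2 (centralizer (M : Set (G ⧸ solvableRadical G)) ⊓ M) inferInstance inf_le_right with
      h | h
    · exact hm1 (Subtype.ext (mem_bot.1 (h ▸ mem_inf.2 ⟨e, hm⟩)))
    · exact hs (Group.isSolvable_of_comm fun a b => Subtype.ext (inf_eq_right.1 h b.2 a a.2))

theorem vertex (h : ¬ HasNormalPComplement p G) : ∃ x : G, p ∣ cs x := by
  by_contra! e
  have := two_mul_card_not_dvd_index_le h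
  rw [Nat.card_congr (Equiv.subtypeUnivEquiv e)] at this
  have := Nat.card_pos (α := G)
  omega

theorem case_three (hG : ¬ Group.IsSolvable G) (hpq : p ≠ q) (h : ¬ HasNormalPComplement p G)
    (hv' : ∃ x : G, q ∣ cs x) (hn : ∀ x : G, p ∣ cs x → ¬ q ∣ cs x)
    (hr : ∀ r : ℕ, r.Prime → ∀ x y : G, p ∣ cs x → q ∣ cs y → r ∣ cs x → ¬ r ∣ cs y) : False := by
  obtain ⟨n, D, hD, h1, h2, h3⟩ := chief hG
  have h4 := (S4160.result p q hp.out hq.out hpq (vertex h) hv' fun x e =>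
    hn x (dvd_of_mul_right_dvd e) (dvd_of_mul_left_dvd e)).resolve_left h
  obtain ⟨K, hK⟩ := exists_NC h4
  refine case_one hK (D := D) hv' fun y hy => ?_
  obtain ⟨h5, h6⟩ := h3 y (Nat.coprime_of_dvd fun r hr' e e' => by
    have := Fact.mk hr'
    by_cases hpr : p = r
    · exact hn y (hpr ▸ e) hy
    by_contra
    refine (S4160.result p r hp.out hr' hpr (vertex h) (vertex (h1 r hr' e')) fun x e'' => ?_).elim
      h (h1 r hr' e')
    exact hr r hr' x y (dvd_of_mul_right_dvd e'') hy (dvd_of_mul_left_dvd e'') e)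
  obtain ⟨m, hm, hm'⟩ := h6 q hq.out fun e => h1 q hq.out e h4
  exact ⟨h5, m, (hK.mem m).2 hm, hm'⟩

end

/-- Let G be a finite non-solvable group and p ≠ q primes each dividing the size of some conjugacy class of G. Then either some class size is divisible by pq, or there is a prime r, different from p and q, such that some class size is divisible by pr and some class size is divisible by rq. -/
theorem result {G : Type*} [Group G] [Finite G] (hG : ¬ Group.IsSolvable G)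
    (p q : ℕ) (hp : p.Prime) (hq : q.Prime) (hpq : p ≠ q) (hp' : ∃ x : G, p ∣ (Subgroup.centralizer ({x} : Set G)).index) (hq' : ∃ x : G, q ∣ (Subgroup.centralizer ({x} : Set G)).index) :
    (∃ x : G, p * q ∣ (Subgroup.centralizer ({x} : Set G)).index) ∨ ∃ r : ℕ, r.Prime ∧ r ≠ p ∧ r ≠ q ∧ (∃ x : G, p * r ∣ (Subgroup.centralizer ({x} : Set G)).index) ∧ (∃ y : G, r * q ∣ (Subgroup.centralizer ({y} : Set G)).index) := by
  by_contra! h
  have := Fact.mk hp
  have := Fact.mk hq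
  have k : ∀ {a b : ℕ} {x : G}, a.Prime → b.Prime → a ≠ b → a ∣ cs x → b ∣ cs x → a * b ∣ cs x :=
    fun ha hb hab h h' => ((Nat.coprime_primes ha hb).2 hab).mul_dvd_of_dvd_of_dvd h h'
  have hn : ∀ x : G, p ∣ cs x → ¬ q ∣ cs x := fun x h1 h2 => h.1 x (k hp hq hpq h1 h2)
  have hr : ∀ r : ℕ, r.Prime → ∀ x y : G, p ∣ cs x → q ∣ cs y → r ∣ cs x → ¬ r ∣ cs y :=
    fun r hr x y h1 h2 h3 h4 => by
      have h5 : r ≠ p := by rintro rfl; exact hn y h4 h2
      have h6 : r ≠ q := by rintro rfl; exact hn x h1 h3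
      exact h.2 r hr h5 h6 ⟨x, k hp hr h5.symm h1 h3⟩ y (k hr hq h6 h4 h2)
  by_cases h1 : HasNormalPComplement p G
  · by_cases h2 : HasNormalPComplement q G
    · obtain ⟨K, hK⟩ := exists_NC h1
      obtain ⟨L, hL⟩ := exists_NC h2
      exact case_two hK hL hpq hp' hq' hn hr
    · exact case_three hG hpq.symm h2 hp' (fun x h h' => hn x h' h)
        fun r hr' x y a b c d => hr r hr' y x b a d c
  · exact case_three hG hpq h1 hq' hn hr

end Cfsg.Agent.S4161
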