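import Cfsg.Statements.S4162
import Mathlib
import Cfsg.Agent.AH.Main
import Cfsg.Agent.KSG.ConjCount

set_option autoImplicit false
open Cfsg

namespace Cfsg.Agent.S4162

/-- Let G be a non-trivial finite solvable group in which distinct conjugacy classes have distinct sizes. Then G is isomorphic to the symmetric group of degree 3. -/
theorem result {G : Type*} [Group G] [Finite G] [Nontrivial G] (hG : Group.IsSolvable G)
    (h : Function.Injective fun C : ConjClasses G => Nat.card C.carrier) : Nonempty (G ≃* Equiv.Perm (Fin 3)) := by
  refine AH.main (fun x y e => ConjClasses.mk_eq_mk_iff_isConj.mp (h ?_)) hG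
  have hx := KSG.card_carrier_mul_card_centralizer x
  have hy := KSG.card_carrier_mul_card_centralizer y
  exact Nat.eq_of_mul_eq_mul_right (AH.c_pos x) (hx.trans (hy.symm.trans (congrArg _ e.symm)))

end Cfsg.Agent.S4162
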