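import Cfsg.Statements.S4169
import Cfsg.Agent.FGS.SmallClasses
import Cfsg.Agent.Grp.PChain

set_option autoImplicit false
open Cfsg

namespace Cfsg.Agent.S4169

/-- Let P be a finite p-group whose conjugacy classes have exactly two sizes (1 and one other value). Then P has nilpotency class at most 3. -/
theorem result {P : Type*} [Group P] [Finite P] {p : ℕ} [Fact p.Prime] (hP : IsPGroup p P)
    (m : ℕ) (hm : 1 < m) (h : ∀ x : P, (Subgroup.centralizer ({x} : Set P)).index = 1 ∨ (Subgroup.centralizer ({x} : Set P)).index = m) :
    upperCentralSeries P 3 = ⊤ := by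
  haveI : Group.IsNilpotent P := hP.isNilpotent
  obtain ⟨A, hAn, hA, -, hmax⟩ := Grp.PChain.exists_max_abelian_normal (⊥ : Subgroup P) inferInstance
  have h1 := FGS.SmallClasses.class_le_three A hA
    (Grp.PChain.centralizer_le_of_max_abelian_normal A hA hmax) m hm
    (fun x hx => by rcases h x with h | h <;> omega) ⊤
    (fun x _ => Subgroup.subset_closure (h x))
  change Subgroup.upperCentralSeries P 3 = ⊤
  rw [eq_top_iff]
  intro a _
  rw [Subgroup.mem_upperCentralSeries_succ_iff]
  intro b
  rw [Subgroup.mem_upperCentralSeries_succ_iff]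
  intro c
  rw [Subgroup.mem_upperCentralSeries_succ_iff]
  intro d
  rw [Subgroup.upperCentralSeries_zero, ← h1]
  exact Subgroup.commutator_mem_commutator (Subgroup.commutator_mem_commutator
    (Subgroup.commutator_mem_commutator trivial trivial) trivial) trivial

end Cfsg.Agent.S4169
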