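import Cfsg.Statements.S4170
import Mathlib

set_option autoImplicit false
open scoped Pointwise
open Cfsg

namespace Cfsg.Agent.S4170

open Subgroup MulAction

theorem conj_mem {L : Type*} [Group L] [Finite L] {p : ℕ} [Fact p.Prime] (H : Subgroup L)
    (hH : ¬ p ∣ H.index) {x : L} {k : ℕ} (hx : orderOf x = p ^ k) : ∃ l : L, l⁻¹ * x * l ∈ H := by
  have hp : IsPGroup p (zpowers x) := IsPGroup.of_card (by rw [Nat.card_zpowers, hx])
  obtain ⟨q, hq⟩ := hp.nonempty_fixed_point_of_prime_not_dvd_card (L ⧸ H) hH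
  obtain ⟨l, rfl⟩ := QuotientGroup.mk_surjective q
  have := hq ⟨x, mem_zpowers x⟩
  refine ⟨l, ?_⟩
  have h2 : ((x * l : L) : L ⧸ H) = l := this
  simpa [mul_assoc] using inv_mem (QuotientGroup.eq.1 h2)


/-- Let p be an odd prime and G a nontrivial group of permutations of a finite set Ω that is generated by its elements of p-power order. Then Ω has two disjoint nonempty subsets Δ₁ and Δ₂ such that the index in G of the subgroup of elements mapping Δ₁ onto Δ₁ and Δ₂ onto Δ₂ (and hence also the complement of their union onto itself) is divisible by p. -/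
theorem result {Ω : Type*} [Fintype Ω] (p : ℕ) [Fact p.Prime] (hp : p ≠ 2) (G : Subgroup (Equiv.Perm Ω)) (hG : G ≠ ⊥) (hgen : Subgroup.closure {g : G | ∃ k : ℕ, orderOf g = p ^ k} = ⊤) :
    ∃ Δ₁ Δ₂ : Set Ω, Δ₁.Nonempty ∧ Δ₂.Nonempty ∧ Disjoint Δ₁ Δ₂ ∧ p ∣ (MulAction.stabilizer G Δ₁ ⊓ MulAction.stabilizer G Δ₂).index := by
  classical
  obtain ⟨x, ⟨k, hx⟩, hx1⟩ : ∃ x : G, (∃ k : ℕ, orderOf x = p ^ k) ∧ x ≠ 1 := by
    by_contra hc
    push Not at hc
    have : (⊤ : Subgroup G) ≤ ⊥ := hgen ▸ (closure_le _).2 fun g hg => hc g hg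
    exact hG (eq_bot_iff.2 fun g hg => mem_bot.2
      (congrArg Subtype.val (mem_bot.1 (this (mem_top ⟨g, hg⟩)))))
  obtain ⟨a, ha⟩ : ∃ a, x • a ≠ a := by
    by_contra hc
    push Not at hc
    exact hx1 (Subtype.ext (Equiv.ext hc))
  let X : Set Ω := orbit (zpowers x) a
  have haX : a ∈ X := mem_orbit_self a
  refine ⟨{a}, X \ {a}, Set.singleton_nonempty a, ⟨x • a, ⟨⟨x, mem_zpowers x⟩, rfl⟩, ha⟩,
    Set.disjoint_sdiff_right, ?_⟩
  by_contra hc
  set H := stabilizer G ({a} : Set Ω) ⊓ stabilizer G (X \ {a})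
  have hHL : H ≤ stabilizer G X := fun g hg => by
    have h1 : g • ({a} : Set Ω) = {a} := hg.1
    have h2 : g • (X \ {a}) = X \ {a} := hg.2
    rw [mem_stabilizer_iff, ← Set.union_sdiff_cancel (Set.singleton_subset_iff.2 haX),
      Set.smul_set_union, h1, h2]
  have hxL : x ∈ stabilizer G X := smul_orbit (⟨x, mem_zpowers x⟩ : zpowers x) a
  obtain ⟨l, hl⟩ := conj_mem (p := p) (H.subgroupOf (stabilizer G X))
    (fun h => hc (h.trans (relIndex_dvd_index_of_le hHL))) (x := ⟨x, hxL⟩) (k := k)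
    (by rw [← hx, orderOf_mk])
  have h1 : ((l : G)⁻¹ * x * l) • a = a := by
    have : ((l : G)⁻¹ * x * l) • ({a} : Set Ω) = {a} := hl.1
    simpa using this
  have h2 : (l : G) • a ∈ X := by
    have : (l : G) • X = X := l.2
    exact this.le (Set.smul_mem_smul_set haX)
  obtain ⟨⟨_, m, rfl⟩, hm⟩ := h2
  have hm : x ^ m • a = (l : G) • a := hm
  rw [mul_smul, mul_smul, inv_smul_eq_iff, ← hm, ← mul_smul, ← (Commute.zpow_self x m).eq,
    mul_smul] at h1
  exact ha (smul_left_cancel _ h1)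

end Cfsg.Agent.S4170
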