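import Cfsg.Statements.S4177
import Cfsg.Agent.FGS.CoprimeOrbit

set_option autoImplicit false
open Cfsg

namespace Cfsg.Agent.S4177

/-- Let k be a field whose characteristic does not divide the order of the finite group H (for instance a field of characteristic zero), and ρ a k-linear representation of H on V. Let a be a vector whose H-orbit spans V. Then the space of H-fixed vectors has dimension at most 1, and every vector b whose H-orbit has size coprime to the size of the orbit of a is fixed by H. -/
theorem result {k V H : Type*} [Field k] [AddCommGroup V] [Module k V] [Group H] [Finite H]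
    (hchar : ¬ ringChar k ∣ Nat.card H) (ρ : Representation k H V) (a : V)
    (hspan : Submodule.span k {u : V | ∃ h : H, ρ h a = u} = ⊤) :
    Module.finrank k ρ.invariants ≤ 1 ∧
    ∀ b : V, (Nat.card {u : V | ∃ h : H, ρ h a = u}).Coprime (Nat.card {u : V | ∃ h : H, ρ h b = u}) → ∀ h : H, ρ h b = b := by
  have hN : (Nat.card (⊤ : Subgroup H) : k) ≠ 0 := by
    rw [Subgroup.card_top, Ne, ringChar.spec]; exact hchar
  refine ⟨FGS.CoprimeOrbit.finrank_le_one ρ (w := FGS.CoprimeOrbit.sm ρ ⊤ a) fun v hv => ?_,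
    fun b hb h => ?_⟩
  · have h1 := FGS.CoprimeOrbit.mem_span_of_fixed ρ ⊤ hN hspan (v := v) fun n _ => hv n
    have : {u : V | ∃ h : H, ρ h (FGS.CoprimeOrbit.sm ρ ⊤ a) = u} = {FGS.CoprimeOrbit.sm ρ ⊤ a} := by
      ext u
      constructor
      · rintro ⟨h, rfl⟩; exact FGS.CoprimeOrbit.sm_fixed ρ ⊤ (Subgroup.mem_top h) a
      · rintro rfl; exact ⟨1, by simp⟩
    rw [this, Submodule.mem_span_singleton] at h1
    obtain ⟨c, rfl⟩ := h1
    exact ⟨c, rfl⟩
  · rw [FGS.CoprimeOrbit.card_orbit, FGS.CoprimeOrbit.card_orbit] at hb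
    exact FGS.CoprimeOrbit.fixed_of_coprime ρ ⊤ hN (fun _ h => h) (fun _ h => h) hb hspan h
      (Subgroup.mem_top h)

end Cfsg.Agent.S4177
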