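import Cfsg.Statements.S4178
import Mathlib


set_option autoImplicit false
open Cfsg

namespace Cfsg.Agent.S4178

theorem index_le {H Y : Type*} [Group H] [Finite Y] (R : Subgroup H) (f : H → Y) (y : Y)
    (h1 : ∀ a, f a ≠ y) (h2 : ∀ a b, f a = f b → a⁻¹ * b ∈ R) : R.index ≤ Nat.card Y - 1 := by
  have h3 : Nat.card {z : Y // z ≠ y} = Nat.card Y - 1 := by
    classical
    letI := Fintype.ofFinite Y
    rw [Nat.card_eq_fintype_card, Nat.card_eq_fintype_card, Fintype.card_subtype_compl,
      Fintype.card_subtype_eq]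
  rw [← h3]
  refine Nat.card_le_card_of_injective (fun c : H ⧸ R => ⟨f c.out, h1 _⟩) fun c d e => ?_
  rw [← c.out_eq, ← d.out_eq]
  exact QuotientGroup.eq.2 (h2 _ _ (congrArg Subtype.val e))

/-- Let F be a finite field with q elements, V a non-zero finite-dimensional F-space of dimension d, H a group of invertible linear maps of V, and R the subgroup of H generated by the elements of H that fix some non-zero vector (have eigenvalue 1). Then the index of R in H is at most q^d − 1; and if H leaves invariant some proper non-zero subspace, the index is at most q^(d/2) − 1. -/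
theorem result {F V : Type*} [Field F] [Fintype F] [AddCommGroup V] [Module F V] [FiniteDimensional F V] [Nontrivial V]
    (H : Subgroup (V ≃ₗ[F] V)) :
    (Subgroup.closure {h : ↥H | ∃ v : V, v ≠ 0 ∧ (h : V ≃ₗ[F] V) v = v}).index ≤ Fintype.card F ^ Module.finrank F V - 1 ∧
    ((∃ W : Submodule F V, W ≠ ⊥ ∧ W ≠ ⊤ ∧ ∀ h ∈ H, ∀ w ∈ W, h w ∈ W) →
      ((Subgroup.closure {h : ↥H | ∃ v : V, v ≠ 0 ∧ (h : V ≃ₗ[F] V) v = v}).index : ℝ) ≤ Real.sqrt ((Fintype.card F : ℝ) ^ Module.finrank F V) - 1) := by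
  haveI : Finite V := Module.finite_of_finite F
  set R := Subgroup.closure {h : ↥H | ∃ v : V, v ≠ 0 ∧ (h : V ≃ₗ[F] V) v = v} with hR
  have hV : Nat.card V = Fintype.card F ^ Module.finrank F V := by
    rw [Module.natCard_eq_pow_finrank (K := F), Nat.card_eq_fintype_card]
  have h1 : ∀ W : Submodule F V, W ≠ ⊥ → (∀ h ∈ H, ∀ w ∈ W, h w ∈ W) →
      R.index ≤ Nat.card W - 1 := by
    intro W hW hi
    obtain ⟨w, hw, hw0⟩ := Submodule.exists_mem_ne_zero_of_ne_bot hW
    refine index_le R (fun h => (⟨h.1 w, hi h.1 h.2 w hw⟩ : W)) 0 (fun a e => hw0 ?_) fun a b e => ?_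
    · simpa using e
    · refine Subgroup.subset_closure ⟨w, hw0, ?_⟩
      have e' : a.1 w = b.1 w := congrArg Subtype.val e
      show a.1.symm (b.1 w) = w
      rw [← e', LinearEquiv.symm_apply_apply]
  refine ⟨?_, ?_⟩
  · have := h1 ⊤ top_ne_bot fun _ _ _ _ => trivial
    rwa [Nat.card_congr Submodule.topEquiv.toEquiv, hV] at this
  rintro ⟨W, hW, hW', hi⟩
  have h2 := h1 W hW hi
  haveI : Finite (V ⧸ W) := Finite.of_surjective _ W.mkQ_surjective
  have h3 : R.index ≤ Nat.card (V ⧸ W) - 1 := by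
    obtain ⟨v, hv⟩ : ∃ v, v ∉ W := by
      by_contra h
      push Not at h
      exact hW' (eq_top_iff.2 fun v _ => h v)
    refine index_le R (fun h => W.mkQ (h.1 v)) 0 (fun a e => hv ?_) fun a b e => ?_
    · have := hi _ (H.inv_mem a.2) _ ((Submodule.Quotient.mk_eq_zero W).1 e)
      simpa using this
    · set g : V ≃ₗ[F] V := (a⁻¹ * b : H).1 with hg
      have hgH : g ∈ H := (a⁻¹ * b).2
      have h4 : g v - v ∈ W := by
        have := hi _ (H.inv_mem a.2) _ ((Submodule.Quotient.eq W).1 e.symm)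
        simpa [hg] using this
      refine Subgroup.subset_closure ?_
      by_contra hc
      have h5 : ∀ u, g u = u → u = 0 := fun u hu => by
        by_contra h0
        exact hc ⟨u, h0, hu⟩
      let φ : W → W := fun w => ⟨g w - w, W.sub_mem (hi g hgH w w.2) w.2⟩
      have h6 : Function.Injective φ := by
        intro x y e
        have e' : g x - x = g y - y := congrArg Subtype.val e
        refine Subtype.ext (sub_eq_zero.1 (h5 _ ?_))
        rw [map_sub, sub_eq_sub_iff_sub_eq_sub, e']
      obtain ⟨w, hw⟩ := Finite.surjective_of_injective h6 ⟨_, h4⟩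
      have e' : g w - w = g v - v := congrArg Subtype.val hw
      have h7 := sub_eq_zero.1 (h5 (v - w) (by rw [map_sub, sub_eq_sub_iff_sub_eq_sub, e']))
      exact hv (h7 ▸ w.2)
  have h4 : Nat.card W * Nat.card (V ⧸ W) = Nat.card V := (Submodule.card_eq_card_quotient_mul_card W).symm
  have h5 : 0 < Nat.card W := Nat.card_pos
  have h6 : 0 < Nat.card (V ⧸ W) := Nat.card_pos
  have h7 : (R.index + 1) * (R.index + 1) ≤ Nat.card V :=
    h4 ▸ Nat.mul_le_mul (by omega) (by omega)
  rw [le_sub_iff_add_le]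
  refine Real.le_sqrt_of_sq_le ?_
  rw [hV] at h7
  rw [sq]
  exact_mod_cast h7

end Cfsg.Agent.S4178
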