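import Cfsg.Statements.S4181
import Mathlib
import Cfsg.Agent.SFP.Main

set_option autoImplicit false
open Cfsg

set_option linter.style.haveILetI false
set_option linter.unusedVariables false

namespace Cfsg.Agent.S4181

open Cfsg.Agent.SFP Cfsg.Agent.PLocal.Amb in
theorem ncard_syl {G : Type*} [Group G] (p : ℕ) (L : Subgroup G) :
    {T : Subgroup G | IsSyl p T L}.ncard = Nat.card (Sylow p ↥L) := by
  have h : {T : Subgroup G | IsSyl p T L} =
      Set.range fun P : Sylow p ↥L => (P : Subgroup ↥L).map L.subtype := by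
    ext T
    constructor
    · intro h
      exact IsSyl.exists_sylow_map h
    · rintro ⟨P, rfl⟩
      exact isSyl_map_subtype P
  rw [h, Set.ncard_range_of_injective]
  intro P Q h
  exact Sylow.ext (Subgroup.map_injective L.subtype_injective h)

open Cfsg.Agent.SFP Cfsg.Agent.PLocal.Amb in
theorem ncard_syl_top {G : Type*} [Group G] (p : ℕ) :
    {T : Subgroup G | IsSyl p T ⊤}.ncard = Nat.card (Sylow p G) := by
  have h : {T : Subgroup G | IsSyl p T ⊤} = Set.range fun P : Sylow p G => (P : Subgroup G) := by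
    ext T
    constructor
    · intro h
      exact IsSyl.exists_sylow_top h
    · rintro ⟨P, rfl⟩
      exact isSyl_top P
  rw [h, Set.ncard_range_of_injective]
  intro P Q h
  exact Sylow.ext h

/-- Let p be a prime and G a finite group generated by its elements of p-power order, and let H be a proper subgroup of G containing a Sylow p-subgroup of G. Then 2p − 1 times the number of Sylow p-subgroups of H is at most p − 1 times the number of Sylow p-subgroups of G. -/
theorem result {G : Type*} [Group G] [Finite G] (p : ℕ) [Fact p.Prime] (hgen : Subgroup.closure {g : G | ∃ k : ℕ, orderOf g = p ^ k} = ⊤)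
    (H : Subgroup G) (hH : H ≠ ⊤) (P : Sylow p G) (hP : (P : Subgroup G) ≤ H) :
    (2 * p - 1) * Nat.card (Sylow p ↥H) ≤ (p - 1) * Nat.card (Sylow p G) := by
  open Cfsg.Agent.SFP Cfsg.Agent.PLocal.Amb MulAction in
  have hp : p.Prime := Fact.out
  have hg : Gn p (⊤ : Subgroup G) P := by
    refine ⟨isSyl_top P, top_le_iff.1 ?_⟩
    rw [← hgen, Subgroup.closure_le]
    rintro g ⟨k, hk⟩
    have : Subgroup.zpowers g ≤ og p (Subgroup.closure {g : G | ∃ k : ℕ, orderOf g = p ^ k}) := by
      rw [hgen]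
      exact le_og_of_isPGroup (isPGroup_zpowers ⟨k, by rw [← hk, pow_orderOf_eq_one]⟩) le_top
    exact this (Subgroup.mem_zpowers g)
  have htr : ∀ x y : G ⧸ H, ∃ g : G, g • x = y := fun x y => exists_smul_eq G x y
  have hno : ∀ x ∈ (Set.univ : Set (G ⧸ H)), ¬ Fx (⊤ : Subgroup G) x := by
    intro x _ hx
    apply hH
    obtain ⟨g, hg⟩ := htr x ((1 : G) : G ⧸ H)
    rw [hx g trivial] at hg
    subst hg
    rw [fx_iff_le, stabilizer_quotient] at hx
    exact top_le_iff.1 hx
  have hE := thmE hg (inv_univ _) hno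
  have hd := dc (x := ((1 : G) : G ⧸ H)) (isSyl_top P) (mem_orb_self _ _)
  rw [orb_top_eq_univ htr, ncard_syl_top] at hd
  have h1 : {T : Subgroup G | IsSyl p T ⊤ ∧ Fx T ((1 : G) : G ⧸ H)} = {T | IsSyl p T H} := by
    ext T
    simp only [Set.mem_setOf_eq, fx_iff_le, stabilizer_quotient]
    exact (isSyl_iff_of_le (isSyl_top P) hP le_top).symm
  rw [h1, ncard_syl] at hd
  have hs := fx_add_mv (P : Subgroup G) (Set.univ : Set (G ⧸ H))
  have hpos : 0 < (Set.univ : Set (G ⧸ H)).ncard :=
    (Set.ncard_pos (Set.toFinite _)).2 Set.univ_nonempty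
  obtain ⟨k, rfl⟩ : ∃ k, p = k + 1 := ⟨p - 1, by have := hp.pos; omega⟩
  have e1 : 2 * (k + 1) - 1 = 2 * k + 1 := by omega
  rw [e1, Nat.add_sub_cancel] at *
  apply Nat.le_of_mul_le_mul_right _ hpos
  rw [mul_assoc, hd, ← hs]
  have := Nat.mul_le_mul_left (Nat.card (Sylow (k + 1) G)) hE
  nlinarith

end Cfsg.Agent.S4181
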