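import Cfsg.Statements.S4182
import Mathlib
import Mathlib

set_option autoImplicit false
open Cfsg

namespace Cfsg.Agent.S4182

open Subgroup in
theorem pgrp {G : Type*} [Group G] [Finite G] {p : ℕ} [hp : Fact p.Prime] (hG : IsPGroup p G)
    {ι : Type*} [Fintype ι] (K : ι → Subgroup G) (hK : ∀ i, K i ≠ ⊤) (hcov : ∀ g, ∃ i, g ∈ K i) :
    p + 1 ≤ Fintype.card ι := by
  classical
  haveI := Fintype.ofFinite G
  by_contra h
  have h1 : ∀ i, p * ((Finset.univ.filter (· ∈ K i)).erase 1).card + p ≤ Nat.card G := fun i => by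
    obtain ⟨n, hn⟩ := hG.index (K i)
    have h2 : p ≤ (K i).index := by
      rw [hn]
      exact Nat.le_self_pow (fun e => hK i (index_eq_one.1 (by rw [hn, e, pow_zero]))) p
    rw [← (K i).index_mul_card, ← Nat.mul_add_one, Finset.card_erase_add_one (by simp),
      Nat.card_eq_fintype_card, Fintype.card_subtype]
    exact Nat.mul_le_mul_right _ h2
  have h2 : (Finset.univ.erase (1 : G)).card ≤
      ∑ i, ((Finset.univ.filter (· ∈ K i)).erase 1).card := by
    refine le_trans (Finset.card_le_card fun g hg => ?_) Finset.card_biUnion_le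
    obtain ⟨i, hi⟩ := hcov g
    exact Finset.mem_biUnion.2 ⟨i, Finset.mem_univ _, by simpa [hi] using hg⟩
  have h3 := Finset.sum_le_sum (s := Finset.univ) fun i _ => Nat.le_sub_of_add_le (h1 i)
  rw [← Finset.mul_sum, Finset.sum_const, Finset.card_univ, smul_eq_mul] at h3
  rw [Finset.card_erase_of_mem (Finset.mem_univ _), Finset.card_univ,
    ← Nat.card_eq_fintype_card] at h2
  obtain ⟨i, -⟩ := hcov 1
  have h4 := h1 i
  have h5 := hp.out.two_le
  have h6 := Nat.le_of_mul_le_mul_left (((Nat.mul_le_mul_left p h2).trans h3).trans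
    (Nat.mul_le_mul_right _ (show Fintype.card ι ≤ p by omega))) hp.out.pos
  omega

/-- The subgroup generated by the `p`-elements of `Y`. -/
def O {G : Type*} [Group G] (p : ℕ) (Y : Subgroup G) : Subgroup G :=
  Subgroup.closure {g | g ∈ Y ∧ ∃ k : ℕ, orderOf g = p ^ k}

theorem O_le {G : Type*} [Group G] {p : ℕ} (Y : Subgroup G) : O p Y ≤ Y :=
  (Subgroup.closure_le _).2 fun _ h => h.1

theorem O_mono {G : Type*} [Group G] {p : ℕ} {X Y : Subgroup G} (h : X ≤ Y) : O p X ≤ O p Y :=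
  Subgroup.closure_mono fun _ hg => ⟨h hg.1, hg.2⟩

theorem le_O_O {G : Type*} [Group G] {p : ℕ} (Y : Subgroup G) : O p Y ≤ O p (O p Y) :=
  Subgroup.closure_mono fun _ hg => ⟨Subgroup.subset_closure hg, hg.2⟩

theorem map_le_O {G : Type*} [Group G] {p : ℕ} {Y : Subgroup G} (h : Y ≤ O p Y) (φ : G ≃* G) :
    Y.map φ.toMonoidHom ≤ O p (Y.map φ.toMonoidHom) := by
  refine (Subgroup.map_mono h).trans ?_
  rw [O, MonoidHom.map_closure]
  refine Subgroup.closure_mono ?_
  rintro _ ⟨g, hg, rfl⟩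
  exact ⟨⟨g, hg.1, rfl⟩, by simpa using hg.2⟩


/-- Let p be a prime and G a finite group generated by its p-elements. If a finite family of proper subgroups of G covers the set of p-elements of G (every element of p-power order lies in one of them), then the family has at least p + 1 members. -/
theorem result {G : Type*} [Group G] [Finite G] (p : ℕ) [Fact p.Prime] (hgen : Subgroup.closure {g : G | ∃ k : ℕ, orderOf g = p ^ k} = ⊤)
    {ι : Type*} [Fintype ι] (K : ι → Subgroup G) (hK : ∀ i, K i ≠ ⊤)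
    (hcov : ∀ g : G, (∃ k : ℕ, orderOf g = p ^ k) → ∃ i, g ∈ K i) :
    p + 1 ≤ Fintype.card ι := by
  induction hn : Nat.card G using Nat.strong_induction_on generalizing G with
  | _ n ih =>
  subst hn
  by_contra h
  have key : ∀ Y : Subgroup G, Y ≠ ⊤ → Y ≤ O p Y → ∃ i, Y ≤ K i := fun Y h1 h2 => by
    by_contra h3
    push Not at h3
    refine h (ih _ (lt_of_le_of_ne (Subgroup.card_le_card_group Y)
      fun e => h1 (Subgroup.eq_top_of_card_eq Y e)) (G := Y) ?_ (fun i => (K i).subgroupOf Y)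
      (fun i e => h3 i (Subgroup.subgroupOf_eq_top.1 e))
      (fun g hg => hcov g (by simpa using hg)) rfl)
    apply Subgroup.map_injective Y.subtype_injective
    rw [MonoidHom.map_closure, ← MonoidHom.range_eq_map, Subgroup.range_subtype]
    refine le_antisymm ((Subgroup.closure_le _).2 ?_) (h2.trans (Subgroup.closure_mono ?_))
    · rintro _ ⟨g, -, rfl⟩
      exact g.2
    · rintro g ⟨h4, h5⟩
      exact ⟨⟨g, h4⟩, by simpa using h5, rfl⟩
  obtain ⟨P⟩ : Nonempty (Sylow p G) := inferInstance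
  by_cases hP : (P : Subgroup G) = ⊤
  · have hG : IsPGroup p G := (hP ▸ P.isPGroup').of_equiv Subgroup.topEquiv
    exact h (pgrp hG K hK fun g => hcov g (IsPGroup.iff_orderOf.1 hG g))
  obtain ⟨L, -, ⟨hL1, hL2, hL3⟩, hmax⟩ := Finite.exists_le_maximal
    (p := fun Y : Subgroup G => Y ≠ ⊤ ∧ Y ≤ O p Y ∧ (P : Subgroup G) ≤ Y) (a := P)
    ⟨hP, fun g hg => Subgroup.subset_closure
      ⟨hg, by simpa using IsPGroup.iff_orderOf.1 P.isPGroup' ⟨g, hg⟩⟩, le_rfl⟩
  have hne : ∀ (Y : Subgroup G) (φ : G ≃* G), Y ≠ ⊤ → Y.map φ.toMonoidHom ≠ ⊤ := fun Y φ h1 h2 =>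
    h1 (Subgroup.map_injective (f := φ.toMonoidHom) φ.injective
      (h2.trans (Subgroup.map_top_of_surjective _ φ.surjective).symm))
  choose f hf using fun g : G => key _ (hne L (MulAut.conj g) hL1) (map_le_O hL2 _)
  have h1 : ∀ g, L.map (MulAut.conj g).toMonoidHom = O p (K (f g)) := fun g => by
    have e1 := (map_le_O hL2 (MulAut.conj g)).trans (O_mono (hf g))
    have e2 : L ≤ (O p (K (f g))).map (MulAut.conj g).symm.toMonoidHom := fun x hx =>
      ⟨_, e1 ⟨x, hx, rfl⟩, by simp [mul_assoc]⟩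
    have e3 := hmax ⟨hne _ _ (fun e => hK _ (top_le_iff.1 (e ▸ O_le _))),
      map_le_O (le_O_O _) _, hL3.trans e2⟩ e2
    exact le_antisymm e1 fun x hx => ⟨_, e3 ⟨x, hx, rfl⟩, by simp [mul_assoc]⟩
  set N := Subgroup.normalizer (L : Set G)
  have h2 : N.index ≤ Fintype.card ι := by
    rw [← Nat.card_eq_fintype_card]
    refine Nat.card_le_card_of_injective (fun q : G ⧸ N => f q.out) fun a b hab => ?_
    rw [← a.out_eq', ← b.out_eq', QuotientGroup.eq]
    have e : L.map (MulAut.conj a.out).toMonoidHom = L.map (MulAut.conj b.out).toMonoidHom := by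
      rw [h1, h1]; exact congrArg (fun i => O p (K i)) hab
    refine Subgroup.mem_normalizer_fintype fun x hx => ?_
    obtain ⟨y, hy, e2⟩ : b.out * x * b.out⁻¹ ∈ L.map (MulAut.conj a.out).toMonoidHom :=
      e ▸ ⟨x, hx, rfl⟩
    have e3 : a.out * y * a.out⁻¹ = b.out * x * b.out⁻¹ := e2
    convert hy using 1
    calc _ = a.out⁻¹ * (b.out * x * b.out⁻¹) * a.out := by group
      _ = _ := by rw [← e3]; group
  have h3 : ¬ p ∣ N.index := fun e => P.not_dvd_index
    (e.trans (Subgroup.index_dvd_of_le (hL3.trans Subgroup.le_normalizer)))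
  have h4 : N.index < p := lt_of_le_of_ne (by omega) fun e => h3 (e ▸ dvd_rfl)
  have h5 : N.normalCore = ⊤ := by
    rw [eq_top_iff, ← hgen, Subgroup.closure_le]
    rintro g ⟨k, hk⟩
    rw [Subgroup.normalCore_eq_ker, SetLike.mem_coe, MonoidHom.mem_ker, ← orderOf_eq_one_iff]
    have e1 := orderOf_map_dvd (MulAction.toPermHom G (G ⧸ N)) g
    have e2 := orderOf_dvd_natCard (MulAction.toPermHom G (G ⧸ N) g)
    rw [Nat.card_perm] at e2
    exact Nat.eq_one_of_dvd_coprimes (Nat.Coprime.pow_left k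
      ((Fact.out : p.Prime).coprime_factorial_of_lt h4)) (hk ▸ e1) e2
  haveI : L.Normal := Subgroup.normalizer_eq_top_iff.1 (top_le_iff.1 (h5 ▸ N.normalCore_le))
  apply hL1
  rw [eq_top_iff, ← hgen, Subgroup.closure_le]
  rintro g ⟨k, hk⟩
  obtain ⟨Q, hQ⟩ := (IsPGroup.of_card (G := Subgroup.zpowers g)
    (by rw [Nat.card_zpowers, hk])).exists_le_sylow
  obtain ⟨c, rfl⟩ := MulAction.exists_smul_eq G P Q
  obtain ⟨y, hy, e⟩ := hQ (Subgroup.mem_zpowers g)
  rw [← e]
  exact ‹L.Normal›.conj_mem y (hL3 hy) c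

end Cfsg.Agent.S4182
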