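import Cfsg.Statements.S4184
import Mathlib
import Cfsg.Agent.FGS.ClassSize
import Cfsg.Agent.FGS.ClassSizeCount
import Cfsg.Agent.FGS.PrimePart
import Cfsg.Agent.Solv.HallPi

set_option autoImplicit false
open Cfsg

namespace Cfsg.Agent.S4184

theorem exists_central {G : Type*} [Group G] [Finite G] {p : ℕ} [Fact p.Prime] {D : Subgroup G}
    (hD : IsPGroup p D) (h : D ≠ ⊥) : ∃ w ∈ D, w ≠ 1 ∧ D ≤ Subgroup.centralizer ({w} : Set G) := by
  have := (Subgroup.nontrivial_iff_ne_bot D).2 h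
  have := hD.center_nontrivial
  obtain ⟨⟨w, hw⟩, hw1⟩ := exists_ne (1 : Subgroup.center D)
  refine ⟨w, w.2, fun h => hw1 (Subtype.ext (Subtype.ext h)), fun d hd => ?_⟩
  rw [Subgroup.mem_centralizer_singleton_iff]
  exact congrArg Subtype.val (Subgroup.mem_center_iff.1 hw ⟨d, hd⟩)

theorem core {G : Type*} [Group G] [Finite G] {a b : ℕ} (hab : a.Coprime b)
    (H : ∀ x : G, x ≠ 1 → (Subgroup.centralizer ({x} : Set G)).index ∣ a * b ∧
      (Subgroup.centralizer ({x} : Set G)).index ≠ a * b ∧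
      (a ∣ (Subgroup.centralizer ({x} : Set G)).index ∨
        b ∣ (Subgroup.centralizer ({x} : Set G)).index))
    {q : ℕ} (hq : q.Prime) (hqb : q ∣ b) (hqG : q ∣ Nat.card G) {p : ℕ} (hp : p.Prime)
    (hpa : p ∣ a) (k : ℕ) (hk : p ^ k ∣ Nat.card G) : p ^ k ∣ a := by
  have := Fact.mk hp
  have := Fact.mk hq
  have hpb : ¬ p ∣ b := fun h => hp.ne_one (Nat.eq_one_of_dvd_coprimes hab hpa h)
  have hpq : p ≠ q := fun h => hpb (h ▸ hqb)
  obtain ⟨Q⟩ : Nonempty (Sylow q G) := inferInstance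
  obtain ⟨z, hzQ, hz1, hz⟩ := exists_central Q.isPGroup' (Q.ne_bot_of_dvd_card hqG)
  have haz : a ∣ (Subgroup.centralizer ({z} : Set G)).index :=
    (H z hz1).2.2.resolve_right fun h =>
      Q.not_dvd_index ((hqb.trans h).trans (Subgroup.index_dvd_of_le hz))
  have ha0 : 0 < a := Nat.pos_of_dvd_of_pos haz (Nat.pos_of_ne_zero Subgroup.index_ne_zero_of_finite)
  have hform : ∀ x : G, x ≠ 1 → a ∣ (Subgroup.centralizer ({x} : Set G)).index →
      ∃ c, ¬ p ∣ c ∧ (Subgroup.centralizer ({x} : Set G)).index = a * c := by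
    rintro x hx ⟨c, hc⟩
    refine ⟨c, fun h => hpb (h.trans ?_), hc⟩
    have := (H x hx).1
    rw [hc] at this
    exact Nat.dvd_of_mul_dvd_mul_left ha0 this
  obtain ⟨c, hc, hzc⟩ := hform z hz1 haz
  obtain ⟨S⟩ : Nonempty (Sylow p (Subgroup.centralizer ({z} : Set G))) := inferInstance
  set D := (S : Subgroup _).map (Subgroup.centralizer ({z} : Set G)).subtype with hD
  have hDp : IsPGroup p D := S.isPGroup'.map _
  have hDi : D.index = (S : Subgroup (Subgroup.centralizer ({z} : Set G))).index * (a * c) := by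
    rw [hD, Subgroup.index_map_subtype, hzc]
  by_cases hD0 : D = ⊥
  · rw [hD0, Subgroup.index_bot] at hDi
    rw [hDi, ← mul_assoc, mul_comm _ a, mul_assoc] at hk
    exact (Nat.Coprime.pow_left k ((Nat.Prime.coprime_iff_not_dvd hp).2
      (hp.not_dvd_mul S.not_dvd_index hc))).dvd_of_dvd_mul_right hk
  exfalso
  have hall : ∀ w ∈ D, w ≠ 1 → a ∣ (Subgroup.centralizer ({w} : Set G)).index := by
    intro w hw hw1
    refine (H w hw1).2.2.resolve_right fun hb => ?_
    have hcomm : Commute w z :=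
      Subgroup.mem_centralizer_singleton_iff.1 (Subgroup.map_subtype_le _ hw)
    obtain ⟨i, hi⟩ := IsPGroup.iff_orderOf.1 hDp ⟨w, hw⟩
    obtain ⟨j, hj⟩ := IsPGroup.iff_orderOf.1 Q.isPGroup' ⟨z, hzQ⟩
    rw [Subgroup.orderOf_mk] at hi hj
    have hcop : (orderOf w).Coprime (orderOf z) := by
      rw [hi, hj]; exact Nat.coprime_pow_primes _ _ hp hq hpq
    have he := FGS.centralizer_mul_of_coprime hcomm hcop
    have hne : w * z ≠ 1 := by
      intro h
      have h1 : w = z⁻¹ := eq_inv_of_mul_eq_one_left h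
      rw [h1, orderOf_inv, Nat.coprime_self, orderOf_eq_one_iff] at hcop
      exact hz1 hcop
    refine (H _ hne).2.1 (Nat.dvd_antisymm (H _ hne).1 (hab.mul_dvd_of_dvd_of_dvd ?_ ?_))
    · exact haz.trans (Subgroup.index_dvd_of_le (he ▸ inf_le_right))
    · exact hb.trans (Subgroup.index_dvd_of_le (he ▸ inf_le_left))
  obtain ⟨w', hw'D, hw'1, hw'⟩ := exists_central hDp hD0
  obtain ⟨c', hc', hwc⟩ := hform w' hw'1 (hall w' hw'D hw'1)
  have hrel : ¬ p ∣ D.relIndex (Subgroup.centralizer ({w'} : Set G)) := by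
    intro h
    have h1 := Subgroup.relIndex_mul_index hw'
    rw [hwc, hDi] at h1
    have h2 : D.relIndex (Subgroup.centralizer ({w'} : Set G)) * c' =
        (S : Subgroup (Subgroup.centralizer ({z} : Set G))).index * c := by
      apply Nat.eq_of_mul_eq_mul_left ha0
      linarith
    exact hp.not_dvd_mul S.not_dvd_index hc (h2 ▸ h.mul_right _)
  obtain ⟨P, hP⟩ := hDp.exists_le_sylow
  obtain ⟨w, hwP, hw1, hw⟩ := exists_central P.isPGroup' (fun h => hD0 (eq_bot_iff.2 (h ▸ hP)))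
  have hE : (P : Subgroup G) ⊓ Subgroup.centralizer ({w'} : Set G) ≤ D := by
    rw [← Subgroup.relIndex_eq_one]
    obtain ⟨i, hi⟩ := IsPGroup.iff_card.1
      (P.isPGroup'.to_inf_left (K := Subgroup.centralizer ({w'} : Set G)))
    refine Nat.eq_one_of_dvd_coprimes (Nat.Coprime.pow_left i
      ((Nat.Prime.coprime_iff_not_dvd hp).2 hrel)) (hi ▸ Subgroup.relIndex_dvd_card _ _) ?_
    rw [← Subgroup.relIndex_mul_relIndex D _ _ (le_inf hP hw') inf_le_right]
    exact Dvd.intro _ rfl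
  have hwD : w ∈ D := hE ⟨hwP, Subgroup.mem_centralizer_singleton_iff.2
    (Subgroup.mem_centralizer_singleton_iff.1 (hw (hP hw'D))).symm⟩
  exact P.not_dvd_index ((hpa.trans (hall w hwD hw1)).trans (Subgroup.index_dvd_of_le hw))



/-- Let G and M be finite groups with trivial centres and the same set of conjugacy class sizes, and suppose the prime graph of M is disconnected: the prime divisors of #M split into two non-empty parts such that M has no element of order pq with p in one part and q in the other. Then #G = #M. -/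
theorem result {G M : Type*}
    [Group G] [Finite G] [Group M] [Finite M] (hZG : Subgroup.center G = ⊥) (hZM : Subgroup.center M = ⊥)
    (h : Set.range (fun g : G => (Subgroup.centralizer ({g} : Set G)).index) = Set.range (fun g : M => (Subgroup.centralizer ({g} : Set M)).index))
    (hdisc : ∃ A : Set ℕ, (∃ a ∈ A, a.Prime ∧ a ∣ Nat.card M) ∧ (∃ b ∉ A, b.Prime ∧ b ∣ Nat.card M) ∧
      ∀ a ∈ A, ∀ b ∉ A, a.Prime → b.Prime → a ∣ Nat.card M → b ∣ Nat.card M → ¬ ∃ x : M, orderOf x = a * b) :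
    Nat.card G = Nat.card M := by
  obtain ⟨A, ⟨p₁, hp₁A, hp₁, hp₁M⟩, ⟨p₂, hp₂A, hp₂, hp₂M⟩, hA⟩ := hdisc
  obtain ⟨a, b, hM, ha, hb⟩ := Solv.Pi.exists_pi_factorization A (Nat.card_pos (α := M)).ne'
  have hab : a.Coprime b := Solv.Pi.coprime_of_pi ha hb
  have hp₁a : p₁ ∣ a := ((Nat.Prime.dvd_mul hp₁).1 (hM ▸ hp₁M)).resolve_right (hb _ hp₁ hp₁A)
  have hp₂b : p₂ ∣ b :=
    ((Nat.Prime.dvd_mul hp₂).1 (hM ▸ hp₂M)).resolve_left fun h => hp₂A (ha _ hp₂ h)
  -- no prime of `A` and prime outside `A` both divide the order of a centralizer, one of them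
  -- dividing the order of the element
  have hno : ∀ (x : M) (r s : ℕ), r.Prime → s.Prime → r ≠ s → r ∣ orderOf x →
      s ∣ Nat.card (Subgroup.centralizer ({x} : Set M)) → ∃ y : M, orderOf y = r * s := by
    intro x r s hr hs hrs h1 h2
    have := Fact.mk hs
    obtain ⟨y, hy⟩ := exists_prime_orderOf_dvd_card' s h2
    have hx' : orderOf (x ^ (orderOf x / r)) = r :=
      orderOf_pow_orderOf_div (orderOf_pos x).ne' h1
    have hc : Commute (x ^ (orderOf x / r)) (y : M) :=
      (Commute.symm (Subgroup.mem_centralizer_singleton_iff.1 y.2)).pow_left _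
    refine ⟨x ^ (orderOf x / r) * y, ?_⟩
    rw [hc.orderOf_mul_eq_mul_orderOf_of_coprime, hx', Subgroup.orderOf_coe, hy]
    rw [hx', Subgroup.orderOf_coe, hy]
    exact (Nat.coprime_primes hr hs).2 hrs
  have hA1 : ∀ (x : M) (r : ℕ), r.Prime → r ∣ orderOf x → r ∈ A →
      b ∣ (Subgroup.centralizer ({x} : Set M)).index := by
    intro x r hr h1 h2
    have hc : b.Coprime (Nat.card (Subgroup.centralizer ({x} : Set M))) := by
      refine Nat.coprime_of_dvd fun s hs hsb hsc => ?_
      have hsA : s ∉ A := fun h => hb s hs h hsb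
      exact hA r h2 s hsA hr hs (h1.trans (orderOf_dvd_natCard x)) (hM ▸ hsb.mul_left a)
        (hno x r s hr hs (fun h => hsA (h ▸ h2)) h1 hsc)
    apply hc.dvd_of_dvd_mul_left
    rw [Subgroup.card_mul_index, hM]
    exact Dvd.intro_left _ rfl
  have hA2 : ∀ (x : M) (r : ℕ), r.Prime → r ∣ orderOf x → r ∉ A →
      a ∣ (Subgroup.centralizer ({x} : Set M)).index := by
    intro x r hr h1 h2
    have hc : a.Coprime (Nat.card (Subgroup.centralizer ({x} : Set M))) := by
      refine Nat.coprime_of_dvd fun s hs hsa hsc => ?_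
      have hsA : s ∈ A := ha s hs hsa
      refine hA s hsA r h2 hs hr (hM ▸ hsa.mul_right b) (h1.trans (orderOf_dvd_natCard x)) ?_
      rw [mul_comm]
      exact hno x r s hr hs (fun h => h2 (h ▸ hsA)) h1 hsc
    apply hc.dvd_of_dvd_mul_left
    rw [Subgroup.card_mul_index, hM]
    exact Dvd.intro _ rfl
  have H : ∀ x : G, x ≠ 1 → (Subgroup.centralizer ({x} : Set G)).index ∣ a * b ∧
      (Subgroup.centralizer ({x} : Set G)).index ≠ a * b ∧
      (a ∣ (Subgroup.centralizer ({x} : Set G)).index ∨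
        b ∣ (Subgroup.centralizer ({x} : Set G)).index) := by
    intro x hx
    obtain ⟨y, hy⟩ : (Subgroup.centralizer ({x} : Set G)).index ∈
      Set.range (fun g : M => (Subgroup.centralizer ({g} : Set M)).index) := h ▸ ⟨x, rfl⟩
    simp only at hy
    have hy1 : y ≠ 1 := by
      rintro rfl
      have h1 : Subgroup.centralizer ({(1 : M)} : Set M) = ⊤ := by
        rw [eq_top_iff]; intro g _; simp [Subgroup.mem_centralizer_singleton_iff]
      rw [h1, Subgroup.index_top, eq_comm, Subgroup.index_eq_one] at hy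
      have h2 : x ∈ Subgroup.center G := Subgroup.mem_center_iff.2 fun g =>
        Subgroup.mem_centralizer_singleton_iff.1 (hy ▸ Subgroup.mem_top g)
      rw [hZG] at h2
      exact hx h2
    rw [← hy, ← hM]
    refine ⟨Subgroup.index_dvd_card _, fun h1 => ?_, ?_⟩
    · have h2 := (Subgroup.centralizer ({y} : Set M)).card_mul_index
      rw [h1] at h2
      have h3 : Nat.card (Subgroup.centralizer ({y} : Set M)) = 1 :=
        Nat.eq_of_mul_eq_mul_right Nat.card_pos (h2.trans (one_mul _).symm)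
      have h4 : y ∈ Subgroup.centralizer ({y} : Set M) :=
        Subgroup.mem_centralizer_singleton_iff.2 rfl
      rw [Subgroup.card_eq_one.1 h3] at h4
      exact hy1 h4
    · obtain ⟨r, hr, hry⟩ := Nat.exists_prime_and_dvd (mt orderOf_eq_one_iff.1 hy1)
      by_cases hrA : r ∈ A
      · exact Or.inr (hA1 y r hr hry hrA)
      · exact Or.inl (hA2 y r hr hry hrA)
  have hdiv : ∀ y : M, (Subgroup.centralizer ({y} : Set M)).index ∣ Nat.card G := by
    intro y
    obtain ⟨x, hx⟩ : (Subgroup.centralizer ({y} : Set M)).index ∈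
      Set.range (fun g : G => (Subgroup.centralizer ({g} : Set G)).index) := h ▸ ⟨y, rfl⟩
    exact hx ▸ Subgroup.index_dvd_card _
  have haG : a ∣ Nat.card G := by
    have := Fact.mk hp₂
    obtain ⟨y, hy⟩ := exists_prime_orderOf_dvd_card' p₂ hp₂M
    exact (hA2 y p₂ hp₂ hy.symm.dvd hp₂A).trans (hdiv y)
  have hbG : b ∣ Nat.card G := by
    have := Fact.mk hp₁
    obtain ⟨y, hy⟩ := exists_prime_orderOf_dvd_card' p₁ hp₁M
    exact (hA1 y p₁ hp₁ hy.symm.dvd hp₁A).trans (hdiv y)
  rw [hM]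
  refine Nat.dvd_antisymm ((Nat.dvd_iff_prime_pow_dvd_dvd _ _).2 fun p k hp hk => ?_)
    (hab.mul_dvd_of_dvd_of_dvd haG hbG)
  by_cases hpa : p ∣ a
  · exact (core hab H hp₂ hp₂b (hp₂b.trans hbG) hp hpa k hk).mul_right b
  by_cases hpb : p ∣ b
  · refine (core hab.symm (fun x hx => ?_) hp₁ hp₁a (hp₁a.trans haG) hp hpb k hk).mul_left a
    rw [mul_comm b a]
    exact ⟨(H x hx).1, (H x hx).2.1, (H x hx).2.2.symm⟩
  have := Fact.mk hp
  obtain ⟨P⟩ : Nonempty (Sylow p G) := inferInstance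
  have hC : Subgroup.centralizer ((P : Subgroup G) : Set G) = ⊤ := by
    apply FGS.eq_top_of_forall_exists_conj_mem
    intro g
    by_cases hg : g = 1
    · exact ⟨1, by simp [hg]⟩
    obtain ⟨Q, hQ⟩ := FGS.exists_sylow_le_of_not_dvd_index'
      (fun h => hp.not_dvd_mul hpa hpb (h.trans (H g hg).1))
    obtain ⟨x, hx⟩ := MulAction.exists_smul_eq G Q P
    refine ⟨x, fun y hy => ?_⟩
    rw [← hx, Sylow.coe_subgroup_smul, SetLike.mem_coe, Grp.mem_conj_smul_iff] at hy
    have := Subgroup.mem_centralizer_singleton_iff.1 (hQ hy)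
    calc y * (x * g * x⁻¹) = x * (x⁻¹ * y * x * g) * x⁻¹ := by group
      _ = x * (g * (x⁻¹ * y * x)) * x⁻¹ := by rw [this]
      _ = x * g * x⁻¹ * y := by group
  have hP : (P : Subgroup G) = ⊥ := by
    rw [eq_bot_iff, ← hZG]
    intro y hy
    exact Subgroup.mem_center_iff.2 fun g => ((hC ▸ Subgroup.mem_top g :
      g ∈ Subgroup.centralizer ((P : Subgroup G) : Set G)) y hy).symm
  rcases k with _ | k
  · simp
  · exact absurd hP (P.ne_bot_of_dvd_card ((dvd_pow_self p k.succ_ne_zero).trans hk))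

end Cfsg.Agent.S4184
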