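import Cfsg.Statements.S4186
import Mathlib

set_option autoImplicit false
open Cfsg

namespace Cfsg.Agent.S4186

/-- Let T and X be subgroups of a group with T a finite 2-group normalizing X but not centralizing it. Then some element of T inverts some non-identity element of X under conjugation. -/
theorem result {G : Type*} [Group G] (T X : Subgroup G) [Finite ↥T] (hT : IsPGroup 2 ↥T) (hTN : T ≤ Subgroup.normalizer (X : Set G)) (hTC : ¬ T ≤ Subgroup.centralizer (X : Set G)) : ∃ t ∈ T, ∃ x ∈ X, x ≠ 1 ∧ t * x * t⁻¹ = x⁻¹ := by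
  by_contra hcon
  push Not at hcon
  apply hTC
  intro t ht
  obtain ⟨k, hk⟩ := hT ⟨t, ht⟩
  have hk' : t ^ 2 ^ k = 1 := congrArg Subtype.val hk
  have key : ∀ j : ℕ, t ^ 2 ^ (j + 1) ∈ Subgroup.centralizer (X : Set G) →
      t ^ 2 ^ j ∈ Subgroup.centralizer (X : Set G) := by
    intro j hj x hx
    set s := t ^ 2 ^ j with hs
    have hsT : s ∈ T := T.pow_mem ht _
    have h2 : x * (s * s) = s * s * x := by
      have := hj x hx
      rwa [pow_succ, pow_mul, sq] at this
    by_contra hne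
    refine hcon s hsT (x⁻¹ * (s * x * s⁻¹)) (X.mul_mem (X.inv_mem hx) ((hTN hsT x).1 hx)) ?_ ?_
    · intro e
      rw [inv_mul_eq_one, eq_mul_inv_iff_mul_eq] at e
      exact hne e
    · calc s * (x⁻¹ * (s * x * s⁻¹)) * s⁻¹ = s * x⁻¹ * s⁻¹ * (s * s * x) * s⁻¹ * s⁻¹ := by group
        _ = (x⁻¹ * (s * x * s⁻¹))⁻¹ := by rw [← h2]; group
  have h3 : ∀ j : ℕ, t ^ 2 ^ j ∈ Subgroup.centralizer (X : Set G) →
      t ∈ Subgroup.centralizer (X : Set G) := by
    intro j
    induction j with
    | zero => simp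
    | succ j ih => exact fun h => ih (key j h)
  exact h3 k (by rw [hk']; exact Subgroup.one_mem _)

end Cfsg.Agent.S4186
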