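import Cfsg.Statements.S4188
import Cfsg.Agent.Misc.Four
import Cfsg.Agent.Grp.PFrattini
import Cfsg.Agent.Grp.NormalRankOne

set_option autoImplicit false
open Cfsg

namespace Cfsg.Agent.S4188

open Subgroup Cfsg.Agent.Misc Cfsg.Agent.Grp
open scoped IsMulCommutative

theorem idx_le {P : Type*} [Group P] [Finite P] (hP : IsPGroup 2 P) (K : Subgroup P) [K.Normal] :
    (frattini P).index ≤ (frattini (P ⧸ K)).index * (frattini K).index := by
  have h1 := relIndex_mul_index (le_sup_left : frattini P ≤ frattini P ⊔ K)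
  rw [relIndex_sup_left] at h1
  have h2 : (frattini P).relIndex K ≤ (frattini K).index :=
    index_antitone (map_le_iff_le_comap.1 (PFrattini.map_frattini_le K hP))
  have h3 : (frattini P ⊔ K).index ≤ (frattini (P ⧸ K)).index := by
    have h4 : frattini P ⊔ K = ((frattini P).map (QuotientGroup.mk' K)).comap (QuotientGroup.mk' K) := by
      rw [comap_map_eq, QuotientGroup.ker_mk']
    rw [h4, index_comap_of_surjective _ (QuotientGroup.mk'_surjective K)]
    refine index_antitone (PFrattini.frattini_le (p := 2) ?_ fun g => ?_)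
    · rw [commutator_def, ← map_top_of_surjective _ (QuotientGroup.mk'_surjective K),
        ← map_commutator]
      exact map_mono (PFrattini.commutator_le_frattini hP)
    · obtain ⟨x, rfl⟩ := QuotientGroup.mk'_surjective K g
      exact ⟨_, PFrattini.pow_mem_frattini hP x, map_pow _ _ _⟩
  rw [← h1, mul_comm]
  exact Nat.mul_le_mul h3 h2

theorem idx_le_card {P : Type*} [Group P] [Finite P] : (frattini P).index ≤ Nat.card P :=
  Nat.le_of_dvd Nat.card_pos (index_dvd_card _)

theorem idx_cyclic {P : Type*} [Group P] [Finite P] (hP : IsPGroup 2 P) [IsCyclic P] :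
    (frattini P).index ≤ 2 := by
  have : IsCyclic (P ⧸ frattini P) := isCyclic_of_surjective _ (QuotientGroup.mk'_surjective _)
  obtain ⟨g, hg⟩ := IsCyclic.exists_generator (α := P ⧸ frattini P)
  rw [index_eq_card, ← orderOf_eq_card_of_forall_mem_zpowers hg]
  obtain ⟨x, rfl⟩ := QuotientGroup.mk_surjective g
  refine Nat.le_of_dvd two_pos (orderOf_dvd_of_pow_eq_one ?_)
  rw [← QuotientGroup.mk_pow, QuotientGroup.eq_one_iff]
  exact PFrattini.pow_mem_frattini hP x

section Act
variable {P V : Type*} [Group P] [CommGroup V]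

/-- restriction of an action to an invariant subgroup -/
def res (ρ : P →* MulAut V) (W : Subgroup V) (h : ∀ g, ∀ w ∈ W, ρ g w ∈ W) : P →* MulAut W where
  toFun g :=
    { toFun := fun w => ⟨ρ g w, h g w w.2⟩
      invFun := fun w => ⟨ρ g⁻¹ w, h g⁻¹ w w.2⟩
      left_inv := fun w => Subtype.ext (by simp)
      right_inv := fun w => Subtype.ext (by simp)
      map_mul' := fun a b => Subtype.ext (by simp) }
  map_one' := by ext w; simp
  map_mul' a b := by ext w; simp

/-- fixed points -/
def Vp (a : MulAut V) : Subgroup V where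
  carrier := {v | a v = v}
  mul_mem' := fun {x y} hx hy => by
    simp only [Set.mem_ofPred_eq] at hx hy ⊢; rw [map_mul, hx, hy]
  one_mem' := map_one a
  inv_mem' := fun {x} hx => by simp only [Set.mem_ofPred_eq] at hx ⊢; rw [map_inv, hx]

/-- inverted elements -/
def Vm (a : MulAut V) : Subgroup V where
  carrier := {v | a v = v⁻¹}
  mul_mem' := fun {x y} hx hy => by
    simp only [Set.mem_ofPred_eq] at hx hy ⊢; rw [map_mul, hx, hy, mul_inv]
  one_mem' := by simp
  inv_mem' := fun {x} hx => by simp only [Set.mem_ofPred_eq] at hx ⊢; rw [map_inv, hx]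

theorem sq_inj [Finite V] (hV : Odd (Nat.card V)) {x y : V} (h : x ^ 2 = y ^ 2) : x = y :=
  (powCoprime (Nat.coprime_two_right.2 hV)).injective h

theorem aut_ext [Finite V] (hV : Odd (Nat.card V)) {a b c : MulAut V} (ha : a * a = 1)
    (h1 : ∀ v ∈ Vp a, b v = c v) (h2 : ∀ v ∈ Vm a, b v = c v) : b = c := by
  ext v
  have haa : a (a v) = v := by rw [← MulAut.mul_apply, ha, MulAut.one_apply]
  apply sq_inj hV
  have e : v ^ 2 = (v * a v) * (v * (a v)⁻¹) := by
    rw [mul_mul_mul_comm, mul_inv_cancel, mul_one, sq]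
  rw [← map_pow, ← map_pow, e, map_mul, map_mul c, h1 (v * a v), h2 (v * (a v)⁻¹)]
  · change a _ = _
    rw [map_mul, map_inv, haa, mul_inv, inv_inv, mul_comm]
  · change a _ = _
    rw [map_mul, haa, mul_comm]

theorem card_mul [Finite V] (hV : Odd (Nat.card V)) {a : MulAut V} (ha : a * a = 1) :
    Nat.card (Vp a) * Nat.card (Vm a) = Nat.card V := by
  let φ : V →* V := (invMonoidHom : V →* V) * a.toMonoidHom
  have hφ : ∀ v, φ v = v⁻¹ * a v := fun v => rfl
  have h1 : φ.ker = Vp a := by
    ext v
    rw [MonoidHom.mem_ker, hφ, inv_mul_eq_one, eq_comm]; rfl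
  have h2 : φ.range = Vm a := by
    ext w
    constructor
    · rintro ⟨v, rfl⟩
      have haa : a (a v) = v := by rw [← MulAut.mul_apply, ha, MulAut.one_apply]
      change a _ = _
      rw [hφ, map_mul, map_inv, haa, mul_inv, inv_inv, mul_comm]
    · intro hw
      obtain ⟨k, hk⟩ := hV
      have h3 : a (w ^ k) = (w ^ k)⁻¹ := pow_mem hw k
      refine ⟨w ^ k, ?_⟩
      rw [hφ, h3, ← mul_inv, inv_eq_iff_mul_eq_one, ← pow_add, ← pow_succ, ← two_mul, ← hk,
        pow_card_eq_one']
  rw [← h1, ← h2, ← φ.ker.card_mul_index, index_ker]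

end Act

/-- the bound -/
def B (P : Type*) [Group P] (n : ℕ) : Prop :=
  2 * (frattini P).index ≤ n ∨ (n ≤ 3 ∧ 2 * Nat.card P ≤ n + 1)

universe u v

theorem split {n : ℕ} (ih : ∀ m < n, ∀ (V : Type u) [CommGroup V] [Finite V], Nat.card V = m →
      Odd m → ∀ (P : Type v) [Group P] [Finite P] (ρ : P →* MulAut V), Function.Injective ρ →
      IsPGroup 2 P → B P m)
    {V : Type u} [CommGroup V] [Finite V] (hn : Nat.card V = n) (ho : Odd n) {P : Type v} [Group P]
    [Finite P] (ρ : P →* MulAut V) (hρ : Function.Injective ρ) (hP : IsPGroup 2 P) {a : MulAut V}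
    (ha : a * a = 1) (hc : ∀ g, ρ g * a = a * ρ g) (ha1 : a ≠ 1) (ha2 : ¬ ∀ v, a v = v⁻¹) :
    4 * (frattini P).index ≤ n ∨ (n = 9 ∧ Nat.card P ≤ 4) ∨
      (Nat.card (Vp a) ≠ Nat.card (Vm a) ∧ 2 * (frattini P).index ≤ n) := by
  have hV : Odd (Nat.card V) := hn ▸ ho
  have hm := card_mul hV ha
  have hc' : ∀ g v, a (ρ g v) = ρ g (a v) := fun g v => by
    rw [← MulAut.mul_apply, ← hc, MulAut.mul_apply]
  have i1 : ∀ g, ∀ w ∈ Vp a, ρ g w ∈ Vp a := fun g w hw => by
    change a _ = _
    rw [hc', show a w = w from hw]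
  have i2 : ∀ g, ∀ w ∈ Vm a, ρ g w ∈ Vm a := fun g w hw => by
    change a _ = _
    rw [hc', show a w = w⁻¹ from hw, map_inv]
  have o1 : Odd (Nat.card (Vp a)) := hV.of_dvd_nat (card_subgroup_dvd_card _)
  have o2 : Odd (Nat.card (Vm a)) := hV.of_dvd_nat (card_subgroup_dvd_card _)
  have n1 : Nat.card (Vp a) ≠ 1 := fun h => ha2 fun v => by
    have : Vm a = ⊤ := eq_top_of_card_eq _ (by rw [← hm, h, one_mul])
    exact (this ▸ mem_top v : v ∈ Vm a)
  have n2 : Nat.card (Vm a) ≠ 1 := fun h => ha1 (by
    have : Vp a = ⊤ := eq_top_of_card_eq _ (by rw [← hm, h, mul_one])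
    ext v
    exact (this ▸ mem_top v : v ∈ Vp a))
  have g1 : 3 ≤ Nat.card (Vp a) := by obtain ⟨k, hk⟩ := o1; omega
  have g2 : 3 ≤ Nat.card (Vm a) := by obtain ⟨k, hk⟩ := o2; omega
  let r := res ρ (Vp a) i1
  have b1 := ih _ (by nlinarith) (Vp a) rfl o1 (P ⧸ r.ker) (QuotientGroup.kerLift r)
    (QuotientGroup.kerLift_injective r) (hP.to_quotient _)
  have b2 := ih _ (by nlinarith) (Vm a) rfl o2 r.ker ((res ρ (Vm a) i2).comp r.ker.subtype) (by
    rw [injective_iff_map_eq_one]
    intro x hx
    refine Subtype.ext (hρ ((aut_ext hV ha (fun v hv => ?_) (fun v hv => ?_)).trans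
      (map_one ρ).symm))
    · exact congrArg (fun f : MulAut (Vp a) => (f ⟨v, hv⟩ : V)) x.2
    · exact congrArg (fun f : MulAut (Vm a) => (f ⟨v, hv⟩ : V)) hx) (hP.to_subgroup _)
  have h1 := idx_le hP r.ker
  have h2 := card_eq_card_quotient_mul_card_subgroup r.ker
  have h3 := idx_le_card (P := P ⧸ r.ker)
  have h4 := idx_le_card (P := r.ker)
  rw [hn] at hm
  rcases b1 with b1 | b1 <;> rcases b2 with b2 | b2
  · left; nlinarith
  · by_cases he : Nat.card (Vp a) = Nat.card (Vm a)
    · left
      have : (frattini (P ⧸ r.ker)).index ≤ 1 := by omega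
      have : (frattini r.ker).index ≤ 2 := by omega
      nlinarith
    · right; right
      have : (frattini r.ker).index ≤ 2 := by omega
      exact ⟨he, by nlinarith⟩
  · by_cases he : Nat.card (Vp a) = Nat.card (Vm a)
    · left
      have : (frattini (P ⧸ r.ker)).index ≤ 2 := by omega
      have : (frattini r.ker).index ≤ 1 := by omega
      nlinarith
    · right; right
      have : (frattini (P ⧸ r.ker)).index ≤ 2 := by omega
      exact ⟨he, by nlinarith⟩
  · right; left
    have e1 : Nat.card (Vp a) = 3 := by omega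
    have e2 : Nat.card (Vm a) = 3 := by omega
    have : Nat.card (P ⧸ r.ker) ≤ 2 := by omega
    have : Nat.card r.ker ≤ 2 := by omega
    exact ⟨by rw [← hm, e1, e2], by nlinarith⟩

theorem main (n : ℕ) : ∀ (V : Type u) [CommGroup V] [Finite V], Nat.card V = n →
      Odd n → ∀ (P : Type v) [Group P] [Finite P] (ρ : P →* MulAut V), Function.Injective ρ →
      IsPGroup 2 P → B P n := by
  induction n using Nat.strong_induction_on with
  | _ n ih =>
  intro V _ _ hn ho P _ _ ρ hρ hP
  have hV : Odd (Nat.card V) := hn ▸ ho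
  have cen : ∀ t : P, t * t = 1 → t ≠ 1 → (∀ g, g * t = t * g) → (¬ ∀ v, ρ t v = v⁻¹) → B P n := by
    intro t ht ht1 htc hti
    have := idx_le_card (P := P)
    rcases split ih hn ho ρ hρ hP (a := ρ t) (by rw [← map_mul, ht, map_one])
      (fun g => by rw [← map_mul, ← map_mul, htc]) (fun h => ht1 (hρ (h.trans (map_one ρ).symm)))
      hti with h | h | h <;> left <;> omega
  by_cases hU : ∀ U : Subgroup P, U.Normal → ¬ IsKleinFour U
  · obtain ⟨A, hAn, hAc, -, hAi⟩ := NR1.exists_cyclic_index_le_two hP hU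
    have h1 := idx_le hP A
    have h2 := idx_cyclic (hP.to_subgroup A)
    have h3 := idx_le_card (P := P ⧸ A)
    rw [← index_eq_card] at h3
    by_cases h8 : 8 ≤ n
    · left; nlinarith
    by_cases h0 : n = 1
    · have : Subsingleton V := (Nat.card_eq_one_iff_unique.1 (hn.trans h0)).1
      have : Subsingleton P := ⟨fun a b => hρ (MulEquiv.ext fun _ => Subsingleton.elim _ _)⟩
      right
      rw [h0, Nat.card_of_subsingleton (1 : P)]; omega
    have hp : Fact n.Prime := ⟨by
      obtain ⟨k, rfl⟩ := ho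
      have : k ≤ 3 := by omega
      interval_cases k <;> first | omega | norm_num⟩
    have : IsCyclic V := isCyclic_of_prime_card hn
    let e := IsCyclic.mulAutMulEquiv V
    rw [hn] at e
    have : IsCyclic P := isCyclic_of_injective (e.toMonoidHom.comp ρ) (e.injective.comp hρ)
    have h4 := idx_cyclic hP
    by_cases h3 : n = 3
    · right
      have := Nat.card_le_card_of_injective _ (e.injective.comp hρ)
      rw [Nat.card_eq_fintype_card (α := (ZMod n)ˣ), ZMod.card_units] at this
      omega
    · left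
      obtain ⟨k, rfl⟩ := ho
      omega
  push Not at hU
  obtain ⟨U, hUn, hU⟩ := hU
  have hU2 := (isKleinFour_iff.1 hU).2
  obtain ⟨z, hzU, hz1, hzc⟩ := exists_mem_centralizer_of_isPGroup (p := 2) (P := ⊤) (N := U)
    (hP.to_subgroup _) (hP.to_subgroup _) (by rw [normalizer_eq_top]) (by
      rintro rfl
      have := (isKleinFour_iff.1 hU).1
      simp at this)
  have hsq : ∀ x ∈ U, x * x = 1 := fun x hx => by rw [← sq, hU2 x hx]
  by_cases hzi : ∀ v, ρ z v = v⁻¹
  swap
  · exact cen z (hsq z hzU) hz1 (fun g => hzc g trivial) hzi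
  obtain ⟨u, huU, hu1, hzu, hUe⟩ := exists_eq_closure_pair_of_isKleinFour hU hzU hz1
  have hui : ¬ ∀ v, ρ u v = v⁻¹ := fun h => hzu (hρ (MulEquiv.ext fun v => (hzi v).trans (h v).symm))
  by_cases huc : ∀ g, g * u = u * g
  · exact cen u (hsq u huU) hu1 huc hui
  have hcj : ∀ g, g * u * g⁻¹ = u ∨ g * u * g⁻¹ = z * u := by
    intro g
    have h1 := hUn.conj_mem u huU g
    rw [hUe, mem_closure_pair_iff (hsq z hzU) (hsq u huU) (hzc u trivial).symm] at h1
    rcases h1 with h | h | h | h
    · exact absurd (by simpa using h) hu1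
    · refine absurd ?_ hzu
      calc z = g⁻¹ * (z * g) := by rw [← hzc g trivial]; group
        _ = u := by rw [← h]; group
    · exact Or.inl h
    · exact Or.inr h
  push Not at huc
  obtain ⟨g, hg⟩ := huc
  have hgu : g * u * g⁻¹ = z * u := (hcj g).resolve_left fun h => hg (by
    rw [mul_inv_eq_iff_eq_mul] at h; exact h)
  let H := centralizer ({u} : Set P)
  have hH : H.index = 2 := by
    refine index_eq_two_iff_exists_notMem_and'.2 ⟨g, fun h => hg (mem_centralizer_singleton_iff.1 h),
      fun b => ?_⟩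
    rcases hcj b with h | h
    · right
      exact mem_centralizer_singleton_iff.2 (by rw [mul_inv_eq_iff_eq_mul] at h; exact h)
    · left
      refine mem_centralizer_singleton_iff.2 ?_
      calc g * b * u = g * (b * u * b⁻¹) * b := by group
        _ = g * z * u * b := by rw [h]; group
        _ = z * (g * u * g⁻¹) * (g * b) := by rw [hzc g trivial]; group
        _ = u * (g * b) := by rw [hgu, ← mul_assoc z z, hsq z hzU, one_mul]
  have : H.Normal := normal_of_index_eq_two hH
  have h1 := idx_le hP H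
  have h3 := idx_le_card (P := P ⧸ H)
  rw [← index_eq_card, hH] at h3
  have he : Nat.card (Vp (ρ u)) = Nat.card (Vm (ρ u)) := by
    have h4 : (Vp (ρ u)).map (ρ g).toMonoidHom = Vm (ρ u) := by
      have e : u * g = z * (g * u) := by
        rw [mul_inv_eq_iff_eq_mul.1 hgu, ← mul_assoc, ← mul_assoc, hsq z hzU, one_mul]
      have k : ∀ w, ρ u (ρ g w) = (ρ g (ρ u w))⁻¹ := fun w => by
        rw [← MulAut.mul_apply, ← map_mul, e, map_mul, map_mul, MulAut.mul_apply, MulAut.mul_apply,
          hzi]
      ext v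
      constructor
      · rintro ⟨w, hw, rfl⟩
        change ρ u (ρ g w) = (ρ g w)⁻¹
        rw [k, show ρ u w = w from hw]
      · intro hv
        obtain ⟨w, rfl⟩ := (ρ g).surjective v
        refine ⟨w, ?_, rfl⟩
        have h5 : ρ u (ρ g w) = (ρ g w)⁻¹ := hv
        rw [k, inv_inj] at h5
        exact (ρ g).injective h5
    rw [← h4, card_map_of_injective (ρ g).injective]
  rcases split ih hn ho (ρ.comp H.subtype) (hρ.comp H.subtype_injective) (hP.to_subgroup H)
    (a := ρ u) (by rw [← map_mul, hsq u huU, map_one])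
    (fun x => by
      simp only [MonoidHom.comp_apply, coe_subtype]
      rw [← map_mul, ← map_mul, mem_centralizer_singleton_iff.1 x.2])
    (fun h => hu1 (hρ (h.trans (map_one ρ).symm))) hui with h | h | h
  · left; nlinarith
  · left
    have h5 := H.card_mul_index
    have h6 := (frattini P).card_mul_index
    have h7 : Nat.card (frattini P) ≠ 1 := fun h8 => hg (by
      rw [card_eq_one] at h8
      have := PFrattini.commutator_le_frattini hP (commutator_mem_commutator (mem_top g) (mem_top u))
      rwa [h8, mem_bot, commutatorElement_eq_one_iff_mul_comm] at this)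
    have h8 : 0 < Nat.card (frattini P) := Nat.card_pos
    have h9 : 2 ≤ Nat.card (frattini P) := by omega
    rw [hH] at h5
    nlinarith
  · exact absurd he h.1

/-- Let G be a finite group that is the semidirect product of a normal abelian subgroup N of odd order by a 2-subgroup P, and suppose N is the unique minimal normal subgroup of G. Then the index of the Frattini subgroup of P in P is at most #N − 1. -/
theorem result {G : Type*} [Group G] [Finite G] (N P : Subgroup G) (hN : N.Normal) (hNab : IsMulCommutative ↥N) (hNodd : Odd (Nat.card ↥N)) (hP : IsPGroup 2 ↥P) (hdisj : N ⊓ P = ⊥) (hprod : N ⊔ P = ⊤) (hmin : N ≠ ⊥ ∧ ∀ M : Subgroup G, M.Normal → M ≠ ⊥ → N ≤ M) : (frattini ↥P).index ≤ Nat.card ↥N - 1 := by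
  let ρ : P →* MulAut N := (MulAut.conjNormal : G →* MulAut N).comp P.subtype
  have hC : P ⊓ centralizer (N : Set G) = ⊥ := by
    by_contra h
    have hn : (P ⊓ centralizer (N : Set G)).Normal := by
      rw [← normalizer_eq_top_iff, eq_top_iff, ← hprod]
      refine sup_le (fun x hx => mem_normalizer_of_comm fun a ha => ?_) (fun x hx => ?_)
      · exact mem_centralizer_iff.1 ha.2 x hx
      · exact mem_normalizer_fintype fun a ha => ⟨P.mul_mem (P.mul_mem hx ha.1) (P.inv_mem hx),
          (inferInstance : (centralizer (N : Set G)).Normal).conj_mem a ha.2 x⟩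
    exact hmin.1 (by rw [← hdisj, inf_eq_left.2 ((hmin.2 _ hn h).trans inf_le_left)])
  have hρ : Function.Injective ρ := by
    rw [injective_iff_map_eq_one]
    intro x hx
    have : (x : G) ∈ P ⊓ centralizer (N : Set G) := ⟨x.2, mem_centralizer_iff.2 fun y hy => by
      have := congrArg (fun f : MulAut N => (f ⟨y, hy⟩ : G)) hx
      simp only [ρ, MonoidHom.comp_apply, coe_subtype, MulAut.conjNormal_apply,
        MulAut.one_apply] at this
      exact (mul_inv_eq_iff_eq_mul.1 this).symm⟩
    rw [hC, mem_bot] at this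
    exact Subtype.ext this
  have h1 : Nat.card N ≠ 1 := fun h => hmin.1 (card_eq_one.1 h)
  have h2 := idx_le_card (P := P)
  obtain ⟨k, hk⟩ := hNodd
  rcases main _ N rfl ⟨k, hk⟩ P ρ hρ hP with h | h <;> omega

end Cfsg.Agent.S4188
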