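import Cfsg.Statements.S4189
import Mathlib
import Cfsg.Agent.FGS.Kulakoff2
import Cfsg.Agent.Inv.AutCyc

set_option autoImplicit false
open Cfsg

namespace Cfsg.Agent.S4189

/-- Let P be a finite non-abelian 2-group whose commutator subgroup has index 4 and whose automorphism group is not a 2-group (some automorphism has order that is not a power of 2). Then P is isomorphic to the quaternion group of order 8. -/
theorem result {P : Type*} [Group P] [Finite P] (hP : IsPGroup 2 P) (hna : ¬ IsMulCommutative P) (h4 : (commutator P).index = 4) (haut : ¬ IsPGroup 2 (MulAut P)) : Nonempty (P ≃* QuaternionGroup 2) := by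
  open Subgroup FGS.SubCount in
  open scoped commutatorElement in
  obtain ⟨m, hm⟩ := hP.exists_card_eq
  have hc : ¬ IsCyclic P := fun h => hna inferInstance
  obtain ⟨n, rfl⟩ : ∃ n, m = n + 3 := by
    refine ⟨m - 3, ?_⟩
    by_contra h
    have h1 := (commutator P).card_mul_index
    have h2 : 2 ^ m ≤ 2 ^ 2 := Nat.pow_le_pow_right two_pos (by omega)
    have h3 : 0 < Nat.card (commutator P) := Nat.card_pos
    exact hna ((commutator_eq_bot_iff P).1 (Subgroup.card_eq_one.1 (by
      rw [h4, hm] at h1; omega)))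
  obtain ⟨a, ha, hi, -, h1⟩ := FGS.SubCount.exists_gen_maxClass hm hc h4.le
  obtain ⟨α, hα⟩ : ∃ α : MulAut P, α a ∉ Subgroup.zpowers a := by
    by_contra h
    push Not at h
    exact haut fun α => ⟨_, Inv.AutCyc.pow_eq_one_of_index_two α ha hi (h α)⟩
  have hx : orderOf (α a) = 2 ^ (n + 2) := by rw [MulEquiv.orderOf_eq, ha]
  generalize α a = x at hα hx
  have hNi : (Subgroup.zpowers x).index = 2 :=
    FGS.SubCount.index_of_card (k := 1) two_pos hm (by rw [Nat.card_zpowers, hx])
  haveI := FGS.normal_of_index_eq_prime hP hNi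
  have h3 : a ^ 2 ∈ Subgroup.zpowers x := hNi ▸ (Subgroup.zpowers x).pow_index_mem a
  have h5 := FGS.SubCount.pow_four_mem (h1 x hα).1 (h1 x hα).2
  rw [(FGS.Dedekind.commute_of_mem_zpowers h3).symm.commutator_eq, Subgroup.zpowers_one_eq_bot,
    Subgroup.mem_bot] at h5
  obtain rfl : n = 0 := by
    have := orderOf_dvd_of_pow_eq_one (show a ^ 2 ^ 2 = 1 by rw [← h5, ← pow_mul]; rfl)
    rw [ha, Nat.pow_dvd_pow_iff_le_right one_lt_two] at this
    omega
  have h6 : a ^ 2 ≠ 1 := pow_ne_one_of_lt_orderOf two_ne_zero (by rw [ha]; norm_num)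
  have h7 := FGS.Dedekind.eq_of_mem_zpowers_two h5 (h1 x hα).2 fun h8 => h6 (by
    have := (h1 x hα).1
    rwa [h8, Subgroup.zpowers_one_eq_bot, Subgroup.mem_bot] at this)
  have h8 : x * a * x⁻¹ = a⁻¹ := by
    rw [eq_inv_iff_mul_eq_one]
    calc x * a * x⁻¹ * a = (x * a * x⁻¹ * a⁻¹) * a ^ 2 := by rw [sq]; group
      _ = 1 := by rw [← commutatorElement_def, h7, ← sq, h5]
  have h9 : x * x = a ^ 2 := by
    have h10 := pow_mem (Subgroup.mem_zpowers a) 2
    rcases FGS.Dedekind.eq_of_mem_zpowers_four (by rw [← pow_orderOf_eq_one x, hx]; rfl) h3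
      with h | h | h | h
    · exact absurd h h6
    · exact absurd (h ▸ h10) hα
    · rw [h, sq]
    · exact absurd (inv_mem_iff.1 (h ▸ h10)) hα
  obtain ⟨e⟩ := Inv.nonempty_quaternion_of_gens (m := 2) ha h8 h9 hα
  have h10 : Subgroup.closure ({a, x} : Set P) = ⊤ := by
    rw [eq_top_iff, ← FGS.sup_zpowers_eq_top_of_prime_index (hi ▸ Nat.prime_two) hα]
    exact sup_le (Subgroup.zpowers_le.2 (Subgroup.subset_closure (by simp)))
      (Subgroup.zpowers_le.2 (Subgroup.subset_closure (by simp)))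
  exact ⟨(Subgroup.topEquiv.symm.trans (MulEquiv.subgroupCongr h10.symm)).trans e⟩

end Cfsg.Agent.S4189
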