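import Cfsg.Statements.S4194
import Cfsg.Agent.Inv.TwoCentral

set_option autoImplicit false
open Cfsg

namespace Cfsg.Agent.S4194

/-- A finite group G has commutative Sylow 2-subgroups if and only if every 2-element of G (element of order a power of 2) is 2-central, that is, its centralizer contains a Sylow 2-subgroup of G. -/
theorem result {G : Type*} [Group G] [Finite G] (P : Sylow 2 G) :
    IsMulCommutative (P : Subgroup G) ↔ ∀ x : G, (∃ k : ℕ, orderOf x = 2 ^ k) → (∃ Q : Sylow 2 G, (Q : Subgroup G) ≤ Subgroup.centralizer ({x} : Set G)) := by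
  constructor
  · rintro hP x ⟨k, hk⟩
    have hx : IsPGroup 2 (Subgroup.zpowers x) :=
      PLocal.Amb.isPGroup_zpowers ⟨k, by rw [← hk, pow_orderOf_eq_one]⟩
    obtain ⟨Q, hQ⟩ := hx.exists_le_sylow
    refine ⟨Q, fun y hy => Subgroup.mem_centralizer_singleton_iff.2 ?_⟩
    have e := P.equiv Q
    have := hP.is_comm.comm (e.symm ⟨y, hy⟩) (e.symm ⟨x, hQ (Subgroup.mem_zpowers x)⟩)
    rw [← map_mul, ← map_mul, e.symm.injective.eq_iff] at this
    exact congrArg Subtype.val this
  · intro h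
    refine Inv.TwoCentral.comm (fun x ⟨k, hk⟩ => ?_) P
    obtain ⟨j, -, hj⟩ := (Nat.dvd_prime_pow Nat.prime_two).1 (orderOf_dvd_of_pow_eq_one hk)
    obtain ⟨Q, hQ⟩ := h x ⟨j, hj⟩
    exact ⟨Q, PLocal.Amb.isSyl_top Q, hQ⟩

end Cfsg.Agent.S4194
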