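import Cfsg.Statements.S4195
import Mathlib

set_option autoImplicit false
open Cfsg

namespace Cfsg.Agent.S4195

/-- Let x be a non-identity element of a finite group G whose centralizer contains a Sylow 2-subgroup of G. If x is conjugate to its inverse, then x has order 2. -/
theorem result {G : Type*} [Group G] [Finite G] (x : G) (hx : x ≠ 1) (P : Sylow 2 G) (hP : (P : Subgroup G) ≤ Subgroup.centralizer ({x} : Set G)) (hreal : IsConj x x⁻¹) : orderOf x = 2 := by
  obtain ⟨g, hg⟩ := isConj_iff.1 hreal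
  refine orderOf_eq_prime ?_ hx
  set C := Subgroup.centralizer ({x} : Set G) with hC
  have hodd : ¬ 2 ∣ C.index := fun h => P.not_dvd_index (h.trans (Subgroup.index_dvd_of_le hP))
  have hgN : Subgroup.zpowers g ≤ Subgroup.normalizer (C : Set G) := by
    rw [Subgroup.zpowers_le]
    apply Subgroup.mem_normalizer_fintype
    intro c hc
    rw [hC, SetLike.mem_coe, Subgroup.mem_centralizer_singleton_iff] at hc ⊢
    have h1 : Commute (g * c * g⁻¹) (g * x * g⁻¹) := by
      rw [Commute, SemiconjBy]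
      calc g * c * g⁻¹ * (g * x * g⁻¹) = g * (c * x) * g⁻¹ := by group
        _ = g * x * g⁻¹ * (g * c * g⁻¹) := by rw [hc]; group
    rw [hg] at h1
    exact (Commute.inv_right_iff.1 h1).eq
  have hle : C ≤ Subgroup.normalizer (C : Set G) := Subgroup.le_normalizer
  have hn : (C.subgroupOf (Subgroup.normalizer (C : Set G))).Normal := inferInstance
  have h1 := Subgroup.pow_index_mem (C.subgroupOf (Subgroup.normalizer (C : Set G)))
    ⟨g, hgN (Subgroup.mem_zpowers g)⟩
  have h2 : ¬ 2 ∣ C.relIndex (Subgroup.normalizer (C : Set G)) := fun h =>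
    hodd (h.trans (Subgroup.relIndex_dvd_index_of_le hle))
  obtain ⟨j, hj⟩ : Odd (C.relIndex (Subgroup.normalizer (C : Set G))) := by
    rwa [← Nat.not_even_iff_odd, even_iff_two_dvd]
  have h3 : g ^ (2 * j + 1) ∈ C := by rw [← hj]; exact h1
  have h4 : g ^ 2 ∈ C := by
    rw [hC, Subgroup.mem_centralizer_singleton_iff]
    have : g * (g * x * g⁻¹) * g⁻¹ = x := by
      rw [hg, ← inv_inv g, ← mul_inv_rev, ← mul_inv_rev, inv_inv, ← mul_assoc, hg, inv_inv]
    calc g ^ 2 * x = (g * (g * x * g⁻¹) * g⁻¹) * g ^ 2 := by rw [sq]; group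
      _ = x * g ^ 2 := by rw [this]
  have h5 : g ∈ C := by
    rw [pow_succ, pow_mul] at h3
    exact (C.mul_mem_cancel_left (C.pow_mem h4 j)).1 h3
  rw [hC, Subgroup.mem_centralizer_singleton_iff] at h5
  rw [h5, mul_inv_cancel_right] at hg
  rw [sq]
  exact mul_eq_one_iff_eq_inv.2 hg

end Cfsg.Agent.S4195
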