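import Cfsg.Statements.S4196
import Mathlib
import Cfsg.Agent.S4195

set_option autoImplicit false
open Cfsg

namespace Cfsg.Agent.S4196

/-- A finite group G has elementary abelian Sylow 2-subgroups (commutative with every element squaring to the identity) if and only if every 2-element of G has a Sylow 2-subgroup in its centralizer and is conjugate to its inverse. -/
theorem result {G : Type*} [Group G] [Finite G] (P : Sylow 2 G) :
    (IsMulCommutative (P : Subgroup G) ∧ ∀ x ∈ (P : Subgroup G), x ^ 2 = 1) ↔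
      ∀ x : G, (∃ k : ℕ, orderOf x = 2 ^ k) → (∃ Q : Sylow 2 G, (Q : Subgroup G) ≤ Subgroup.centralizer ({x} : Set G)) ∧ IsConj x x⁻¹ := by
  constructor
  · rintro ⟨hc, h2⟩ x ⟨k, hk⟩
    have h1 : IsPGroup 2 (Subgroup.zpowers x) := IsPGroup.of_card (by rw [Nat.card_zpowers, hk])
    obtain ⟨Q, hQ⟩ := h1.exists_le_sylow
    obtain ⟨g, rfl⟩ := MulAction.exists_smul_eq G P Q
    have hmem : ∀ y : G, y ∈ ((g • P : Sylow 2 G) : Subgroup G) → g⁻¹ * y * g ∈ (P : Subgroup G) := by
      intro y hy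
      rw [Sylow.coe_subgroup_smul, Subgroup.mem_pointwise_smul_iff_inv_smul_mem] at hy
      simpa using hy
    have hx := hmem x (hQ (Subgroup.mem_zpowers x))
    refine ⟨⟨g • P, fun y hy => Subgroup.mem_centralizer_singleton_iff.2 ?_⟩, ?_⟩
    · have := setLike_mul_comm (hmem y hy) hx
      calc y * x = g * (g⁻¹ * y * g * (g⁻¹ * x * g)) * g⁻¹ := by group
        _ = x * y := by rw [this]; group
    · have h3 := h2 _ hx
      have h4 : x * x = 1 := by
        calc x * x = g * (g⁻¹ * x * g) ^ 2 * g⁻¹ := by rw [sq]; group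
          _ = 1 := by rw [h3]; group
      rw [inv_eq_of_mul_eq_one_right h4]
  · intro h
    have h2 : ∀ x ∈ (P : Subgroup G), x ^ 2 = 1 := by
      intro x hx
      by_cases h1 : x = 1
      · rw [h1, one_pow]
      obtain ⟨k, hk⟩ := IsPGroup.iff_orderOf.1 P.2 ⟨x, hx⟩
      rw [Subgroup.orderOf_mk] at hk
      obtain ⟨⟨Q, hQ⟩, hr⟩ := h x ⟨k, hk⟩
      rw [← S4195.result x h1 Q hQ hr, pow_orderOf_eq_one]
    refine ⟨IsMulCommutative.of_setLike_mul_comm fun a ha b hb => ?_, h2⟩
    have h3 : ∀ x ∈ (P : Subgroup G), x⁻¹ = x := fun x hx =>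
      inv_eq_of_mul_eq_one_right (by rw [← sq, h2 x hx])
    rw [← h3 _ (Subgroup.mul_mem _ ha hb), mul_inv_rev, h3 a ha, h3 b hb]

end Cfsg.Agent.S4196
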