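import Cfsg.Statements.S4230
import Mathlib


set_option autoImplicit false
open Cfsg

namespace Cfsg.Agent.S4230

/-- Let p be an odd prime, q a natural number not divisible by p, and e the multiplicative order of q modulo p. For a natural number f, p divides the value at q of the f-th cyclotomic polynomial if and only if f = e·p^j for some j ≥ 0. -/
theorem result (p q f : ℕ) (hp : p.Prime) (hp2 : p ≠ 2) (hpq : ¬ p ∣ q) :
    ((p : ℤ) ∣ (Polynomial.cyclotomic f ℤ).eval (q : ℤ)) ↔ ∃ j : ℕ, f = orderOf (q : ZMod p) * p ^ j := by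
  have := Fact.mk hp
  have hq : (q : ZMod p) ≠ 0 := fun h => hpq ((ZMod.natCast_eq_zero_iff q p).1 h)
  have ho : orderOf (q : ZMod p) ∣ p - 1 := orderOf_dvd_of_pow_eq_one (ZMod.pow_card_sub_one_eq_one hq)
  have hp1 : 0 < p - 1 := by have := hp.two_le; omega
  have ho0 : orderOf (q : ZMod p) ≠ 0 := (Nat.pos_of_dvd_of_pos ho hp1).ne'
  have hop : ¬ p ∣ orderOf (q : ZMod p) := fun h => by
    have := Nat.le_of_dvd hp1 (h.trans ho)
    omega
  have h1 : ((p : ℤ) ∣ (Polynomial.cyclotomic f ℤ).eval (q : ℤ)) ↔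
      (Polynomial.cyclotomic f (ZMod p)).IsRoot (q : ZMod p) := by
    rw [← ZMod.intCast_zmod_eq_zero_iff_dvd, Polynomial.IsRoot.def,
      ← Polynomial.map_cyclotomic_int f (ZMod p)]
    have := Polynomial.eval_intCast_map (Int.castRingHom (ZMod p)) (Polynomial.cyclotomic f ℤ) (q : ℤ)
    rw [Int.cast_natCast] at this
    rw [this]; simp
  rw [h1]
  rcases eq_or_ne f 0 with rfl | hf
  · simp only [Polynomial.cyclotomic_zero, Polynomial.IsRoot.def, Polynomial.eval_one, one_ne_zero,
      false_iff, not_exists]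
    intro j hj
    exact mul_ne_zero ho0 (pow_ne_zero j hp.ne_zero) hj.symm
  obtain ⟨k, m, hm, rfl⟩ := Nat.exists_eq_pow_mul_and_not_dvd hf p hp.ne_one
  have : NeZero (m : ZMod p) := ⟨fun h => hm ((ZMod.natCast_eq_zero_iff m p).1 h)⟩
  rw [Polynomial.isRoot_cyclotomic_prime_pow_mul_iff_of_charP]
  constructor
  · intro h
    exact ⟨k, by rw [← h.eq_orderOf, mul_comm]⟩
  · rintro ⟨j, hj⟩
    have h2 : m = orderOf (q : ZMod p) := by
      apply Nat.dvd_antisymm
      · refine (Nat.Coprime.pow_right j ((Nat.Prime.coprime_iff_not_dvd hp).2 hm).symm).dvd_of_dvd_mul_right ?_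
        exact hj ▸ Dvd.intro_left _ rfl
      · refine (Nat.Coprime.pow_right k ((Nat.Prime.coprime_iff_not_dvd hp).2 hop).symm).dvd_of_dvd_mul_left ?_
        exact hj ▸ Dvd.intro _ rfl
    rw [h2]
    exact IsPrimitiveRoot.orderOf _

end Cfsg.Agent.S4230
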