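import Cfsg.Statements.S4234
import Cfsg.Agent.MaxN.Top
import Cfsg.Agent.Class.PSL2Small

set_option autoImplicit false
open Cfsg

namespace Cfsg.Agent.S4234

open Subgroup MatrixGroups MaxN Class.Dickson KSG.M2 MulAction
open scoped commutatorElement

local notation "𝐍[" H "]" => Subgroup.normalizer (SetLike.coe H)

section PSL

variable {F : Type*} [Field F] [Fintype F] (hF : Fintype.card F = 13)
include hF

theorem cardL : Nat.card PSL(2, F) = 1092 := card_PSL_eq hF (by norm_num)

theorem card_stab (x : P1 F) : Nat.card (stabilizer PSL(2, F) x) = 78 := by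
  have := gcd_mul_card_stabilizer x
  rw [Nat.card_eq_fintype_card (α := F), hF] at this
  rw [show Nat.gcd 2 (13 - 1) = 2 from rfl] at this
  omega

theorem cases (M : Subgroup PSL(2, F)) (hM : M ≠ ⊤) :
    (∃ x : P1 F, M ≤ stabilizer PSL(2, F) x) ∨ Nat.card M ∣ 14 ∨ Nat.card M ∣ 12 := by
  have hd : Nat.card M ∣ 1092 := cardL hF ▸ card_subgroup_dvd_card M
  rcases dickson_cases M with h | ⟨h, -⟩ | ⟨⟨e⟩⟩ | ⟨⟨e⟩⟩ | ⟨⟨e⟩⟩ | h | ⟨L, m, hm, h, -⟩
  · exact Or.inl h
  · rw [hF] at h
    exact Or.inr h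
  · exact Or.inr (Or.inr (by rw [Nat.card_congr e.toEquiv, card_alt4]))
  · rw [Nat.card_congr e.toEquiv, card_sym4] at hd
    norm_num at hd
  · rw [Nat.card_congr e.toEquiv, card_alt5] at hd
    norm_num at hd
  · exact absurd h hM
  · rw [hF] at h
    have := (Nat.Prime.eq_one_of_pow (x := Nat.card L) (n := m) (h ▸ by norm_num))
    omega

theorem cases' (M : Subgroup PSL(2, F)) (hM : M ≠ ⊤) :
    Nat.card M ∣ 78 ∨ Nat.card M ∣ 14 ∨ Nat.card M ∣ 12 :=
  (cases hF M hM).imp_left fun ⟨x, hx⟩ => card_stab hF x ▸ card_dvd_of_le hx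

theorem isCoatom_of_dvd {M : Subgroup PSL(2, F)} (hM : M ≠ ⊤)
    (h : 78 ∣ Nat.card M ∨ 14 ∣ Nat.card M ∨ 12 ∣ Nat.card M) : IsCoatom M := by
  refine ⟨hM, fun K hK => by_contra fun hK' => hK.ne (eq_of_le_of_card_ge hK.le ?_)⟩
  have hd := card_dvd_of_le hK.le
  rcases h with h | h | h <;> rcases cases' hF K hK' with h' | h' | h' <;>
    first
    | exact (Nat.le_of_dvd (by decide) h').trans (Nat.le_of_dvd Nat.card_pos h)
    | exact absurd (h.trans (hd.trans h')) (by decide)

theorem card_norm {x : PSL(2, F)} (hx : ¬ orderOf x ∣ 13) :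
    Nat.card 𝐍[zpowers x] = 12 ∨ Nat.card 𝐍[zpowers x] = 14 := by
  have hp : (Fintype.card F).Prime := by rw [hF]; norm_num
  obtain ⟨c, -, -, -, -, -, h1, h2⟩ := exists_torus' (two_ne_of_prime hp (by omega)) (x := x)
    (by rwa [ringChar_eq hp, hF])
  omega

theorem isCoatom_psl {H : Subgroup PSL(2, F)} (hH : ¬ H.Normal) : IsCoatom 𝐍[H] := by
  have hp : (Fintype.card F).Prime := by rw [hF]; norm_num
  have h1 : H ≠ ⊥ := fun e => hH (e ▸ inferInstance)
  have ht : H ≠ ⊤ := fun e => hH (e ▸ inferInstance)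
  have hle : Nat.card H ∣ Nat.card 𝐍[H] := card_dvd_of_le le_normalizer
  refine isCoatom_of_dvd hF (mt normalizer_eq_top_iff.1 hH) ?_
  by_cases h13 : 13 ∣ Nat.card H
  · obtain ⟨x, hx⟩ := (cases hF H ht).resolve_right (by
      rintro (h | h) <;> exact absurd (h13.trans h) (by decide))
    have : Fact (Nat.Prime 13) := ⟨by norm_num⟩
    have : CharP F 13 := charP_of_card_eq_prime hF
    obtain ⟨⟨u, hu⟩, ho⟩ := exists_prime_orderOf_dvd_card' 13 h13
    rw [← orderOf_coe] at ho
    simp only at ho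
    have hU : zpowers u = (unip x).comap (pslTo F) := by
      refine eq_of_le_of_card_ge (zpowers_le.2 (mem_unip_of_pow 13
        ((pslTo_smul u x).trans (hx hu)) (n := 1) ?_)) ?_
      · rw [pow_one, ← map_pow, ← ho, pow_orderOf_eq_one, map_one]
      · rw [card_unip_comap, Nat.card_zpowers, ho, Nat.card_eq_fintype_card, hF]
    refine Or.inl (card_stab hF x ▸ card_dvd_of_le fun g hg => mem_normalizer_fintype
      fun y hy => ?_)
    have : ⁅g, y⁆ ∈ zpowers u := by
      rw [hU, mem_comap, map_commutatorElement]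
      exact commutator_mem_unip ((pslTo_smul g x).trans hg) ((pslTo_smul y x).trans (hx hy))
    have := mul_mem (zpowers_le.2 hu this) hy
    rwa [commutatorElement_def, inv_mul_cancel_right] at this
  refine Or.inr ?_
  have cyc : IsCyclic H → 14 ∣ Nat.card 𝐍[H] ∨ 12 ∣ Nat.card 𝐍[H] := fun hc => by
    obtain ⟨x, rfl⟩ := (Subgroup.isCyclic_iff_exists_zpowers_eq_top _).1 hc
    rw [Nat.card_zpowers] at h13
    rcases card_norm hF (x := x) (fun e => by
      rcases (Nat.dvd_prime (by norm_num)).1 e with e | e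
      · exact h1 (by simpa using e)
      · exact h13 e.symm.dvd) with e | e <;> simp [e]
  have prime : ∀ p : ℕ, p.Prime → Nat.card H = p → 14 ∣ Nat.card 𝐍[H] ∨ 12 ∣ Nat.card 𝐍[H] :=
    fun p hp e => cyc (have := Fact.mk hp; isCyclic_of_prime_card e)
  have hc : Nat.card H = 2 ∨ Nat.card H = 3 ∨ Nat.card H = 7 ∨ Nat.card H = 4 ∨ Nat.card H = 6 ∨
      Nat.card H = 12 ∨ Nat.card H = 14 := by
    have h2 : Nat.card H ≠ 1 := fun e => h1 (card_eq_one.1 e)
    have h3 := cases' hF H ht
    generalize Nat.card H = n at *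
    have : n ≤ 78 := by rcases h3 with h | h | h <;> have := Nat.le_of_dvd (by decide) h <;> omega
    interval_cases n <;> simp_all
  rcases hc with e | e | e | e | e | e | e
  · exact prime 2 (by norm_num) e
  · exact prime 3 (by norm_num) e
  · exact prime 7 (by norm_num) e
  · by_cases hc : IsCyclic H
    · exact cyc hc
    obtain ⟨a, b, V, rfl⟩ := exists_kleinPair (V := H) ⟨e, (not_isCyclic_iff_exponent_eq_prime
      Nat.prime_two e).1 hc⟩
    obtain ⟨w, e1, e2⟩ := V.exists_cycle (two_ne_of_prime hp (by omega))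
    have e3 : w * (a * b) * w⁻¹ = a := by
      calc _ = w * a * w⁻¹ * (w * b * w⁻¹) := by group
        _ = _ := by rw [e1, e2, ← mul_assoc, ← V.comm, mul_assoc, V.sq_right, mul_one]
    have hw : w ∈ 𝐍[V.sub] := mem_normalizer_fintype fun y hy => V.mem_sub.2 (by
      rcases V.mem_sub.1 hy with rfl | rfl | rfl | rfl <;> simp [e1, e2, e3])
    have h3 : 3 ∣ orderOf w := by
      by_contra h3
      have : w ∈ centralizer {a} := FGS.mem_of_pow_mem_of_coprime (m := 3)
        ((Nat.Prime.coprime_iff_not_dvd Nat.prime_three).2 h3).symm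
        (mem_centralizer_singleton_iff.2 (mul_inv_eq_iff_eq_mul.1 (by
          calc w ^ 3 * a * (w ^ 3)⁻¹ = w * (w * (w * a * w⁻¹) * w⁻¹) * w⁻¹ := by
                simp only [pow_succ, pow_zero, one_mul]; group
            _ = a := by rw [e1, e2, e3])))
      rw [mem_centralizer_singleton_iff.1 this, mul_inv_cancel_right] at e1
      exact V.ne e1
    exact Or.inr (Nat.Coprime.mul_dvd_of_dvd_of_dvd (by norm_num : Nat.Coprime 3 4)
      (h3.trans (orderOf_dvd_natCard _ hw)) (e ▸ hle))
  · have := Fact.mk Nat.prime_three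
    obtain ⟨⟨x, hx⟩, ho⟩ := exists_prime_orderOf_dvd_card' (G := H) 3 (by simp [e])
    rw [← orderOf_coe] at ho
    simp only at ho
    have l1 : zpowers x ≤ H := zpowers_le.2 hx
    have l2 : H ≤ 𝐍[zpowers x] := by
      refine (normal_subgroupOf_iff_le_normalizer l1).1 (normal_of_index_eq_two ?_)
      have := card_mul_index ((zpowers x).subgroupOf H)
      rw [Nat.card_congr (subgroupOfEquivOfLe l1).toEquiv, Nat.card_zpowers, ho, e] at this
      omega
    have c12 : Nat.card 𝐍[zpowers x] = 12 :=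
      (card_norm hF (by rw [ho]; norm_num)).resolve_right fun e' => by
        have := card_dvd_of_le l2
        rw [e, e'] at this
        norm_num at this
    refine Or.inr (c12 ▸ card_dvd_of_le
      ((normal_subgroupOf_iff_le_normalizer l2).1 (normal_of_index_eq_two ?_)))
    have := card_mul_index (H.subgroupOf 𝐍[zpowers x])
    rw [Nat.card_congr (subgroupOfEquivOfLe l2).toEquiv, e, c12] at this
    omega
  · exact Or.inr (e ▸ hle)
  · exact Or.inl (e ▸ hle)

theorem isCoatom_sl {H : Subgroup SL(2, F)} (hH : ¬ H.Normal) : IsCoatom 𝐍[H] := by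
  have hp : (Fintype.card F).Prime := by rw [hF]; norm_num
  have h2 := two_ne_of_prime hp (by omega)
  have e : 𝐍[H] = (𝐍[H.map pr]).comap pr := by
    refine le_antisymm (normalizer_le_comap _ _) fun g hg => mem_normalizer_fintype fun y hy => ?_
    obtain ⟨z, hz, e⟩ := (mem_normalizer_iff.1 hg _).1 (mem_map_of_mem pr hy)
    rw [← map_inv, ← map_mul, ← map_mul] at e
    rcases pr_eq_pr_iff.1 e.symm with e | e
    · exact e ▸ hz
    by_cases hm : (-1 : SL(2, F)) ∈ H
    · have := mul_mem hm hz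
      rwa [neg_one_mul, ← e] at this
    have odd : ∀ y ∈ H, Odd (orderOf y) := fun y hy => Nat.not_even_iff_odd.1 fun h => by
      obtain ⟨t, ht, ho⟩ := exists_order_prime Nat.prime_two h.two_dvd
      rcases (SL_sq_eq_one_iff h2).1 (orderOf_dvd_iff_pow_eq_one.1 ho.dvd) with rfl | rfl
      · simp at ho
      · exact hm (zpowers_le.2 hy ht)
    have e1 : (-z) ^ orderOf y = 1 := by rw [← e, conj_pow, pow_orderOf_eq_one]; simp
    rw [(odd y hy).neg_pow, neg_eq_iff_eq_neg] at e1
    exact absurd (e1 ▸ pow_mem hz _) hm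
  rw [e]
  refine isCoatom_comap_of_surjective pr_surjective (isCoatom_psl hF fun hn => hH ?_)
  rw [← normalizer_eq_top_iff, e, normalizer_eq_top_iff.2 hn, comap_top]

end PSL

theorem transfer {K L : Type*} [Group K] [Group L] (e : K ≃* L)
    (h : ∀ H : Subgroup L, ¬ H.Normal → IsCoatom 𝐍[H]) (H : Subgroup K) (hH : ¬ H.Normal) :
    IsCoatom 𝐍[H] := by
  have e1 : H = (H.map e.toMonoidHom).comap e.toMonoidHom :=
    (comap_map_eq_self_of_injective e.injective H).symm
  rw [e1, ← comap_normalizer_eq_of_surjective _ e.surjective]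
  exact isCoatom_comap_of_surjective e.surjective (h _ fun hn => hH (e1 ▸ hn.comap _))

/-- Let K be isomorphic to PSL(2, 13) or to SL(2, 13) and let S be a finite abelian group of order coprime to the order of K. Then in the direct product K × S every subgroup that is not normal has a normalizer that is a maximal subgroup. -/
theorem result {K S : Type*} [Group K] [CommGroup S] [Finite K] [Finite S]
    (hK : Nonempty (K ≃* Matrix.ProjectiveSpecialLinearGroup (Fin 2) (ZMod 13)) ∨
      Nonempty (K ≃* Matrix.SpecialLinearGroup (Fin 2) (ZMod 13)))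
    (hKS : (Nat.card K).Coprime (Nat.card S)) (H : Subgroup (K × S)) (hH : ¬ H.Normal) :
    IsCoatom (Subgroup.normalizer (H : Set (K × S))) := by
  have : Fact (Nat.Prime 13) := ⟨by norm_num⟩
  have hK' : ∀ H : Subgroup K, ¬ H.Normal → IsCoatom 𝐍[H] := by
    rcases hK with ⟨⟨e⟩⟩ | ⟨⟨e⟩⟩
    · exact transfer e fun H => isCoatom_psl (ZMod.card 13)
    · exact transfer e fun H => isCoatom_sl (ZMod.card 13)
  have hs : Function.Surjective (MonoidHom.fst K S) := Prod.fst_surjective
  have key : ∀ y ∈ H, ((y.1, 1) : K × S) ∈ H := fun y hy => by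
    refine FGS.mem_of_pow_mem_of_coprime (m := Nat.card S) ?_ ?_
    · rw [Prod.orderOf_mk, orderOf_one, Nat.lcm_one_right]
      exact hKS.coprime_dvd_left (orderOf_dvd_natCard _)
    · convert pow_mem hy (Nat.card S) using 1
      ext <;> simp
  have e : 𝐍[H] = (𝐍[H.map (MonoidHom.fst K S)]).comap (MonoidHom.fst K S) := by
    refine le_antisymm (normalizer_le_comap _ _) fun g hg => mem_normalizer_fintype fun y hy => ?_
    obtain ⟨z, hz, e⟩ := (mem_normalizer_iff.1 hg _).1 (mem_map_of_mem _ hy)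
    have e' : g * y * g⁻¹ = (z.1, 1) * ((y.1, 1)⁻¹ * y) := by
      ext
      · simpa using e.symm
      · simp
    exact e' ▸ mul_mem (key z hz) (mul_mem (inv_mem (key y hy)) hy)
  rw [e]
  refine isCoatom_comap_of_surjective hs (hK' _ fun hn => hH ?_)
  rw [← normalizer_eq_top_iff, e, normalizer_eq_top_iff.2 hn, comap_top]

end Cfsg.Agent.S4234
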