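import Cfsg.Statements.S4237
import Mathlib
import Cfsg.Agent.FGS.Kulakoff

set_option autoImplicit false
open Cfsg

namespace Cfsg.Agent.S4237

/-- Let G be a finite group, p a prime and a a natural number such that p^(a+1) divides the order of G. Then the number of subgroups of G of order p^a is congruent to 1 or to 1 + p modulo p². -/
theorem result {G : Type*} [Group G] [Finite G] (p a : ℕ) (hp : p.Prime) (hdvd : p ^ (a + 1) ∣ Nat.card G) :
    Nat.card {H : Subgroup G // Nat.card H = p ^ a} ≡ 1 [MOD p ^ 2] ∨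
      Nat.card {H : Subgroup G // Nat.card H = p ^ a} ≡ 1 + p [MOD p ^ 2] := by
  haveI := Fact.mk hp
  by_cases hp2 : p = 2
  · subst hp2
    have := FGS.SubCount.card_modEq_one (G := G) (p := 2) (k := a)
      ((pow_dvd_pow 2 (Nat.le_succ a)).trans hdvd)
    simp only [Nat.ModEq] at this ⊢
    omega
  obtain ⟨P, hP⟩ := PLocal.Amb.exists_isSyl p (⊤ : Subgroup G)
  have h1 := hP.card_eq_pow
  rw [Subgroup.card_top] at h1
  have h2 : a + 1 ≤ (Nat.card G).factorization p :=
    (hp.pow_dvd_iff_le_factorization Nat.card_pos.ne').1 hdvd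
  have h3 := FGS.SubCount.card_modEq_sylow hP (a := a) (h1 ▸ pow_dvd_pow p h2)
  by_cases hc : IsCyclic P
  · rw [FGS.SubCount.card_le_of_isCyclic hc (h1 ▸ pow_dvd_pow p (by omega))] at h3
    exact Or.inl h3
  rcases Nat.eq_zero_or_pos a with rfl | ha
  · left
    rw [FGS.SubCount.card_eq_one_of (a₀ := ⊥) (by simp)
      fun H hH => Subgroup.card_eq_one.1 (by simpa using hH)]
  · rw [FGS.SubCount.card_le_card_eq] at h3
    exact Or.inr (h3.trans (FGS.SubCount.kulakoff hp2 h1 hc ha (by omega)))

end Cfsg.Agent.S4237
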