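import Cfsg.Statements.S4238
import Mathlib
import Cfsg.Agent.Transfer.Frobenius
import Cfsg.Agent.Solv.Coprime
import Cfsg.Agent.Solv.CoreFree
import Cfsg.Agent.Solv.NilpAmb

set_option autoImplicit false
open Cfsg

namespace Cfsg.Agent.S4238

universe u

open Subgroup Cfsg.Agent.PLocal.Amb

/-- the condition on sections, in invariant form -/
def Sec (p : ℕ) (G : Type u) [Group G] : Prop :=
  ∀ (K : Type u) [Group K] (H : Subgroup G) (f : H →* K), Function.Surjective f →
    pPrimeCore p K = ⊥ → ∃ k : K, orderOf k = Monoid.exponent K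

theorem Sec.sub {p : ℕ} {G : Type u} [Group G] (h : Sec p G) (L : Subgroup G) : Sec p L :=
  fun K _ H f hf => h K (H.map L.subtype)
    (f.comp (H.equivMapOfInjective L.subtype L.subtype_injective).symm.toMonoidHom)
    (hf.comp (MulEquiv.surjective _))

theorem Sec.quot {p : ℕ} {G G' : Type u} [Group G] [Group G'] (h : Sec p G) (π : G →* G')
    (hπ : Function.Surjective π) : Sec p G' :=
  fun K _ H f hf => h K (H.comap π) (f.comp (π.subgroupComap H))
    (hf.comp (π.subgroupComap_surjective_of_surjective H hπ))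

theorem Sec.self {p : ℕ} {G : Type u} [Group G] (h : Sec p G) (h0 : pPrimeCore p G = ⊥) :
    ∃ k : G, orderOf k = Monoid.exponent G :=
  h G ⊤ (⊤ : Subgroup G).subtype (fun x => ⟨⟨x, mem_top x⟩, rfl⟩) h0

theorem aux {p q : ℕ} [hp : Fact p.Prime] (hq : q.Prime) (hqp : q ≠ p) (G : Type u) [Group G]
    [Finite G] : Sec p G → ∀ (B : Subgroup G) (g : G), B.Normal → IsPGroup p B →
      (∃ j, g ^ q ^ j = 1) → B ⊔ zpowers g = ⊤ → g ∈ 𝐂[B] := by
  refine Grp.card_induction (P := fun G _ _ => Sec p G → ∀ (B : Subgroup G) (g : G), B.Normal →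
    IsPGroup p B → (∃ j, g ^ q ^ j = 1) → B ⊔ zpowers g = ⊤ → g ∈ 𝐂[B]) ?_ G
  intro G _ _ ih hS B g hBn hB hg hs
  have := Fact.mk hq
  by_contra hc
  have hc' : ⁅B, zpowers g⁆ ≠ ⊥ := fun h =>
    hc (le_centralizer_iff.1 (commutator_eq_bot_iff_le_centralizer.1 h) (mem_zpowers g))
  have hgq : IsPGroup q (zpowers g) := isPGroup_zpowers hg
  have h1 : ∀ (N : Subgroup G) [N.Normal], N ≠ ⊥ → ⁅B, zpowers g⁆ ≤ N := by
    intro N _ hN
    have h2 := ih _ (Grp.card_quotient_lt N hN) (hS.quot _ (QuotientGroup.mk'_surjective N))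
      (B.map (QuotientGroup.mk' N)) (QuotientGroup.mk' N g)
      (hBn.map _ (QuotientGroup.mk'_surjective N)) (hB.map _)
      (by obtain ⟨j, hj⟩ := hg; exact ⟨j, by rw [← map_pow, hj, map_one]⟩)
      (by rw [← MonoidHom.map_zpowers, ← Subgroup.map_sup, hs,
        map_top_of_surjective _ (QuotientGroup.mk'_surjective N)])
    have h3 := commutator_eq_bot_iff_le_centralizer.2 (le_centralizer_iff.1 (zpowers_le.2 h2))
    rwa [← MonoidHom.map_zpowers, ← map_commutator, Subgroup.map_eq_bot_iff,
      QuotientGroup.ker_mk'] at h3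
  have hB0 : B ≠ ⊥ := by rintro rfl; exact hc' (commutator_bot_left _)
  have := hB.isNilpotent
  obtain ⟨-, N, -, hN, hN0, hNB, hNc, -, -, hmin⟩ := Grp.exists_minNormal_elementaryAbelian_le B hB0
  have hNp : IsPGroup p N := hB.to_le hNB
  have hcop : ∀ X : Subgroup G, IsPGroup p X → (Nat.card (zpowers g)).Coprime (Nat.card X) := by
    intro X hX
    obtain ⟨k, hk⟩ := hX.exists_card_eq
    rw [hk]
    exact (Grp.coprime_card_of_isPGroup_of_ne hqp hgq).pow_right k
  have h2 : g ∉ 𝐂[N] := fun h => hc' (Solv.coprime_commutator_eq_bot _ _ le_normalizer_of_normal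
    (hcop B hB) (Or.inr inferInstance) (commutator_eq_bot_iff_le_centralizer.2
      ((h1 N hN0).trans (le_centralizer_iff.1 (zpowers_le.2 h)))))
  have h3 : N ⊔ zpowers g = ⊤ := by
    by_contra h4
    have h5 := ih _ (Grp.card_lt_of_ne_top h4) (hS.sub _) (N.subgroupOf (N ⊔ zpowers g))
      ⟨g, mem_sup_right (mem_zpowers g)⟩ inferInstance (isPGroup_subgroupOf hNp _)
      (by obtain ⟨j, hj⟩ := hg; exact ⟨j, Subtype.ext hj⟩)
      (by
        apply map_injective (N ⊔ zpowers g).subtype_injective
        rw [Subgroup.map_sup, map_subgroupOf_of_le le_sup_left, MonoidHom.map_zpowers,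
          ← MonoidHom.range_eq_map, range_subtype]
        rfl)
    rw [centralizer_subgroupOf le_sup_left] at h5
    exact h2 h5
  have h4 : pPrimeCore p G = ⊥ := by
    by_contra h5
    refine hc' (eq_bot_iff.2 ?_)
    rw [← Grp.inf_eq_bot_of_isPGroup_of_coprime hB (Grp.pPrimeCore_coprime p G)]
    exact le_inf (commutator_le_left _ _) (h1 _ h5)
  obtain ⟨k, hk⟩ := hS.self h4
  obtain ⟨u, v, ⟨a, ha⟩, ⟨b, hb⟩, hu, hv, rfl⟩ := Transfer.exists_pPart_mul (p := p) k
  have huv : Commute u v := by
    have := Commute.zpow_zpow_self (u * v) a b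
    simp only at ha hb
    rwa [ha, hb] at this
  have h5 := huv.orderOf_mul_dvd_mul_orderOf
  rw [hk] at h5
  have hup : IsPGroup p (zpowers u) := isPGroup_zpowers hu
  have h6 : Nat.card (zpowers g) ∣ Nat.card (zpowers v) := by
    refine (hcop _ hup).dvd_of_dvd_mul_left ?_
    simp only [Nat.card_zpowers]
    exact (Monoid.order_dvd_exponent g).trans h5
  have h7 : N ⊔ zpowers v = ⊤ := by
    refine eq_top_of_card_eq _ (le_antisymm (Nat.card_le_card_of_injective _
      (subtype_injective _)) ?_)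
    have h8 := Grp.card_sup_dvd (zpowers g) N
    rw [sup_comm, h3, card_top] at h8
    rw [sup_comm, Grp.card_sup_of_disjoint _ _ (by
      rw [inf_comm]
      exact Grp.inf_eq_bot_of_isPGroup_of_coprime hNp (by rwa [Nat.card_zpowers]))]
    exact Nat.le_of_dvd (Nat.mul_pos Nat.card_pos Nat.card_pos)
      (h8.trans (Nat.mul_dvd_mul_right h6 _))
  have h8 : u ∈ N := by
    refine (isSyl_of_not_dvd_relIndex hNp le_top fun h => ?_).le_of_normalizes hup le_top
      le_normalizer_of_normal (mem_zpowers u)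
    rw [← h3, sup_comm] at h
    have h9 := (h.trans (dvd_of_eq (relIndex_sup_right _ _))).trans (relIndex_dvd_card _ _)
    exact (Nat.Prime.coprime_iff_not_dvd hp.out).1
      (Grp.coprime_card_of_isPGroup_of_ne hqp hgq).symm h9
  have h9 : u ≠ 1 := by
    rintro rfl
    obtain ⟨x, hx⟩ := exists_prime_orderOf_dvd_card' (G := G) p
      ((Solv.NA.dvd_card_of_ne_bot hNp hN0).trans (card_subgroup_dvd_card N))
    rw [orderOf_one, one_mul] at h5
    exact (Nat.Prime.coprime_iff_not_dvd hp.out).1 hv.symm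
      ((hx ▸ Monoid.order_dvd_exponent x).trans h5)
  have h10 := (hmin (N ⊓ 𝐂[zpowers v]) (Solv.normal_of_sup_eq_top_of_le_normalizer h7
    (Solv.le_normalizer_of_le_centralizer (inf_le_left.trans (le_centralizer N)))
    (Solv.le_normalizer_of_le_centralizer inf_le_right)) inf_le_left).resolve_left fun h => h9 (by
      have h11 : u ∈ N ⊓ 𝐂[zpowers v] := ⟨h8, by
        rw [centralizer_zpowers]; exact mem_centralizer_singleton_iff.2 huv.eq⟩
      rwa [h, mem_bot] at h11)
  have h11 : zpowers v ≤ pPrimeCore p G := Grp.le_pPrimeCore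
    (Solv.normal_of_sup_eq_top_of_le_normalizer h7
      ((h10.symm.le.trans inf_le_right).trans (centralizer_le_normalizer' _)) le_normalizer)
    (by rwa [Nat.card_zpowers])
  rw [h4, le_bot_iff] at h11
  rw [h11, sup_bot_eq] at h7
  exact h2 (le_centralizer N (h7 ▸ mem_top g))

/-- Let G be a finite group and p a prime. Then G has a normal p-complement if and only if every section K = H/N of G (N a normal subgroup of a subgroup H) whose largest normal subgroup of order prime to p is trivial contains an element whose order equals the exponent of K. -/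
theorem result {G : Type*} [Group G] [Finite G] (p : ℕ) [Fact p.Prime] :
    Cfsg.HasNormalPComplement p G ↔
      ∀ (H : Subgroup G) (N : Subgroup H) [N.Normal], Cfsg.pPrimeCore p (H ⧸ N) = ⊥ →
        ∃ k : H ⧸ N, orderOf k = Monoid.exponent (H ⧸ N) := by
  constructor
  · intro h H N _ h0
    have h1 := Transfer.hasNormalPComplement_iff_coprime.1
      (Transfer.HasNormalPComplement.quotient (Transfer.HasNormalPComplement.subgroup h H) N)
    have h2 := Transfer.pResidual_eq_bot_iff.1
      (eq_bot_iff.2 (h0 ▸ Grp.le_pPrimeCore inferInstance h1))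
    obtain ⟨k, hk⟩ := h2.exists_card_eq
    obtain ⟨j, -, hj⟩ := (Nat.dvd_prime_pow Fact.out).1 (hk ▸ Group.exponent_dvd_nat_card)
    obtain ⟨g, hg⟩ := (Fact.out : p.Prime).exists_orderOf_eq_pow_factorization_exponent (H ⧸ N)
    exact ⟨g, by rw [hg, hj, Nat.Prime.factorization_pow Fact.out, Finsupp.single_eq_same]⟩
  · intro h
    have hS : Sec p G := fun K _ H f hf h0 => by
      have e := QuotientGroup.quotientKerEquivOfSurjective f hf
      obtain ⟨k, hk⟩ := h H f.ker (by
        rw [← Grp.comap_pPrimeCore_equiv p e, h0]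
        exact (MonoidHom.ker_eq_bot_iff _).2 e.injective)
      exact ⟨e k, by rw [e.orderOf_eq, hk, Monoid.exponent_eq_of_mulEquiv e]⟩
    by_contra hc
    obtain ⟨B, q, g, hB, hq, hqp, ⟨k, hk⟩, hg, hg'⟩ :=
      Transfer.exists_qElement_of_not_hasNormalPComplement hc
    have h5 := aux hq hqp _ (hS.sub (B ⊔ zpowers g)) (B.subgroupOf (B ⊔ zpowers g))
      ⟨g, mem_sup_right (mem_zpowers g)⟩
      (normal_subgroupOf' (sup_le le_normalizer (zpowers_le.2 hg))) (isPGroup_subgroupOf hB _)
      ⟨k, Subtype.ext (by rw [← hk]; exact pow_orderOf_eq_one g)⟩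
      (by
        apply map_injective (B ⊔ zpowers g).subtype_injective
        rw [Subgroup.map_sup, map_subgroupOf_of_le le_sup_left, MonoidHom.map_zpowers,
          ← MonoidHom.range_eq_map, range_subtype]
        rfl)
    rw [centralizer_subgroupOf le_sup_left] at h5
    exact hg' h5

end Cfsg.Agent.S4238
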