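import Cfsg.Statements.S4242
import Mathlib
import Cfsg.Agent.Transfer.Frobenius
import Cfsg.Agent.Solv.CoprimeSylow
import Cfsg.Agent.Solv.CoreFree
import Cfsg.Agent.Solv.NilpAmb
import Cfsg.Agent.Solv.Schmidt

set_option autoImplicit false
open Cfsg

namespace Cfsg.Agent.S4242

open Subgroup Cfsg.Agent.PLocal.Amb

theorem nil_sup {G : Type*} [Group G] [Finite G] {A B : Subgroup G} (hA : Group.IsNilpotent A)
    (hB : Group.IsNilpotent B) (h : A ≤ 𝐂[B]) : Group.IsNilpotent (A ⊔ B : Subgroup G) := by
  have h1 : A ⊔ B ≤ (fittingSubgroup (A ⊔ B : Subgroup G)).map (A ⊔ B).subtype :=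
    sup_le (Grp.le_map_fitting le_sup_left (sup_le le_normalizer
      ((le_centralizer_iff.1 h).trans (centralizer_le_normalizer' _))) hA)
      (Grp.le_map_fitting le_sup_right (sup_le (h.trans (centralizer_le_normalizer' _))
        le_normalizer) hB)
  have := Grp.isNilpotent_map_fitting (A ⊔ B).subtype
  exact Grp.isNilpotent_of_le h1

/-- Let G be a finite group and p a prime dividing its order. Every maximal subgroup of G of order divisible by p is nilpotent if and only if G is nilpotent, or G is a minimal non-nilpotent group, or G is the internal direct product of a normal subgroup of order p and a normal minimal non-nilpotent subgroup of order prime to p. -/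
theorem result {G : Type*} [Group G] [Finite G] (p : ℕ) (hp : p.Prime) (hpG : p ∣ Nat.card G) :
    (∀ M : Subgroup G, IsCoatom M → p ∣ Nat.card M → Group.IsNilpotent M) ↔
      (Group.IsNilpotent G ∨ Cfsg.IsMinimalNonNilpotent G ∨
        ∃ Z K : Subgroup G, Z.Normal ∧ K.Normal ∧ Z ⊓ K = ⊥ ∧ Z ⊔ K = ⊤ ∧ Nat.card Z = p ∧
          Cfsg.IsMinimalNonNilpotent K ∧ ¬ p ∣ Nat.card K) := by
  have := Fact.mk hp
  constructor
  · intro h
    by_cases hG : Group.IsNilpotent G
    · exact Or.inl hG
    by_cases hG' : IsMinimalNonNilpotent G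
    · exact Or.inr (Or.inl hG')
    refine Or.inr (Or.inr ?_)
    have hprop : ∀ H : Subgroup G, H ≠ ⊤ → p ∣ Nat.card H → Group.IsNilpotent H := by
      intro H h1 h2
      obtain ⟨M, hM, hHM⟩ := (eq_top_or_exists_le_coatom H).resolve_left h1
      have := h M hM (h2.trans (card_dvd_of_le hHM))
      exact Grp.isNilpotent_of_le hHM
    obtain ⟨M, hM, hMn⟩ : ∃ M : Subgroup G, IsCoatom M ∧ ¬ Group.IsNilpotent M := by
      by_contra hc
      push Not at hc
      refine hG' ⟨hG, fun H h1 => ?_⟩
      obtain ⟨M, hM, hHM⟩ := (eq_top_or_exists_le_coatom H).resolve_left h1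
      have := hc M hM
      exact Grp.isNilpotent_of_le hHM
    have hMp : ¬ p ∣ Nat.card M := fun h1 => hMn (h M hM h1)
    have hMc : (Nat.card M).Coprime p := ((Nat.Prime.coprime_iff_not_dvd hp).2 hMp).symm
    have hO : pCore p G ≠ ⊥ := by
      intro hO
      obtain ⟨P⟩ := (inferInstance : Nonempty (Sylow p G))
      have hP0 : (P : Subgroup G) ≠ ⊥ := fun h0 =>
        (isSyl_top P).eq_bot_iff.1 h0 (by rwa [card_top])
      have hPd := Solv.NA.dvd_card_of_ne_bot P.isPGroup' hP0
      have h1 := Transfer.hasNormalPComplement_iff_coprime.1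
        (Transfer.hasNormalPComplement_of_normalizers P fun B hB hB0 =>
          Solv.hasNormalPComplement_of_isNilpotent (hprop _ (fun h2 => hB0 (eq_bot_iff.2
            (hO ▸ Grp.le_pCore (normalizer_eq_top_iff.1 h2) (P.isPGroup'.to_le hB))))
            ((Solv.NA.dvd_card_of_ne_bot (P.isPGroup'.to_le hB) hB0).trans
              (card_dvd_of_le le_normalizer))) p)
      have hcop : (Nat.card (P : Subgroup G)).Coprime (Nat.card (pResidual p G)) := by
        obtain ⟨k, hk⟩ := P.isPGroup'.exists_card_eq
        rw [hk]; exact h1.symm.pow_left k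
      have h2 : (𝐂[(P : Subgroup G)]).subgroupOf (pResidual p G) = ⊤ := by
        refine Grp.eq_top_of_forall_sylow_le fun q hq => ?_
        have := Fact.mk hq
        have := P.isPGroup'.isNilpotent
        obtain ⟨Q, hQ⟩ := Solv.exists_invariant_sylow P (pResidual p G) le_normalizer_of_normal
          hcop (Or.inl inferInstance) q
        refine ⟨Q, map_le_iff_le_comap.1 ?_⟩
        have hQ' := isSyl_map_subtype Q
        refine Solv.NA.le_centralizer_of_coprime (hprop (_ ⊔ P) (fun h3 => ?_)
          (hPd.trans (card_dvd_of_le le_sup_right))) le_sup_left le_sup_right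
          (hcop.symm.coprime_dvd_left (card_dvd_of_le hQ'.le))
        have h4 := sup_inf_of_le_normalizer' hQ'.le hQ
        rw [h3, top_inf_eq, inf_eq_bot_of_coprime hcop, sup_bot_eq] at h4
        have h5 : M ≤ pResidual p G := fun x hx =>
          Transfer.mem_pResidual_of_coprime (Transfer.coprime_orderOf_of_mem hMc hx)
        exact hMn (hQ'.pgrp.to_le (h5.trans h4.le)).isNilpotent
      have h3 : (P : Subgroup G).Normal := Solv.normal_of_sup_eq_top_of_le_normalizer
        (Transfer.pResidual_sup_sylow P)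
        ((subgroupOf_eq_top.1 h2).trans (centralizer_le_normalizer' _)) le_normalizer
      exact hP0 (eq_bot_iff.2 (hO ▸ Grp.le_pCore h3 P.isPGroup'))
    have hOp := Grp.pCore_isPGroup p G
    have hOd := Solv.NA.dvd_card_of_ne_bot hOp hO
    have h1 : ∀ L : Subgroup G, L ≤ M → L ≠ M → Group.IsNilpotent (L ⊔ pCore p G : Subgroup G) := by
      intro L hL hne
      refine hprop _ (fun h2 => hne ?_) (hOd.trans (card_dvd_of_le le_sup_right))
      have h3 := sup_inf_of_le_normalizer hL (le_normalizer_of_normal (H := pCore p G))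
      rw [h2, top_inf_eq, Grp.inf_eq_bot_of_isPGroup_of_coprime hOp hMc, sup_bot_eq] at h3
      exact h3.symm
    have h2 : M ≤ 𝐂[pCore p G] := FGS.le_of_forall_primePow fun r hr y hy hyr => by
      have := Fact.mk hr
      have h3 := h1 _ (zpowers_le.2 hy) fun h4 => hMn (h4 ▸ (isPGroup_zpowers hyr).isNilpotent)
      exact Solv.NA.pRes_le_centralizer h3 hOp le_sup_right (mem_pRes (mem_sup_left (mem_zpowers y))
        (Transfer.coprime_orderOf_of_mem hMc hy))
    obtain ⟨x, hx⟩ := exists_prime_orderOf_dvd_card' p hOd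
    rw [← Subgroup.orderOf_coe] at hx
    have h3 : zpowers (x : G) ⊔ M = ⊤ := hM.2 _ (lt_of_le_of_ne le_sup_right fun h4 =>
      hMp (hx ▸ M.orderOf_dvd_natCard (h4 ▸ mem_sup_left (mem_zpowers _))))
    have h4 : M ≤ 𝐂[zpowers (x : G)] := h2.trans (centralizer_anti (zpowers_le.2 x.2))
    refine ⟨zpowers (x : G), M, Solv.normal_of_sup_eq_top_of_le_normalizer h3 le_normalizer
      (h4.trans (centralizer_le_normalizer' _)), Solv.normal_of_sup_eq_top_of_le_normalizer h3
      (Solv.le_normalizer_of_le_centralizer h4) le_normalizer,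
      Grp.inf_eq_bot_of_isPGroup_of_coprime (hOp.to_le (zpowers_le.2 x.2)) hMc, h3,
      by rw [Nat.card_zpowers, hx], ⟨hMn, fun L hL => ?_⟩, hMp⟩
    have h5 := h1 (L.map M.subtype) (map_subtype_le L) fun h6 => hL (by
      rw [← map_subtype_subgroupOf L, h6, subgroupOf_self])
    have h6 : Group.IsNilpotent (L.map M.subtype) :=
      Grp.isNilpotent_of_le (K := _ ⊔ pCore p G) le_sup_left
    exact Grp.isNilpotent_of_injective
      (L.equivMapOfInjective M.subtype M.subtype_injective).toMonoidHom (MulEquiv.injective _)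
  · rintro (h | h | ⟨Z, K, hZ, hK, h1, h2, h3, h4, h5⟩) M hM hd
    · infer_instance
    · exact h.2 M hM.1
    · obtain ⟨x, hx⟩ := exists_prime_orderOf_dvd_card' p hd
      rw [← Subgroup.orderOf_coe] at hx
      have h6 : zpowers (x : G) ≤ Z := Grp.le_normal_of_coprime_card_index (by
        rw [Nat.card_zpowers, hx, (Grp.isComplement'_of_sup_eq_top h1 h2).symm.index_eq_card]
        exact (Nat.Prime.coprime_iff_not_dvd hp).2 h5)
      have h7 : Z ≤ M := (eq_of_le_of_card_ge h6 (by rw [Nat.card_zpowers, hx, h3])).symm.le.trans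
        (zpowers_le.2 x.2)
      have h8 := sup_inf_of_le_normalizer h7 (le_normalizer_of_normal (H := K))
      rw [h2, top_inf_eq] at h8
      have h9 : (K ⊓ M).subgroupOf K ≠ ⊤ := fun h10 => hM.1 (eq_top_iff.2
        (h2 ▸ sup_le h7 ((subgroupOf_eq_top.1 h10).trans inf_le_right)))
      have h10 := h4.2 _ h9
      rw [h8]
      refine nil_sup (IsPGroup.of_card (p := p) (n := 1) (by rw [h3, pow_one])).isNilpotent
        (Grp.isNilpotent_of_injective (subgroupOfEquivOfLe inf_le_left).symm.toMonoidHom
          (MulEquiv.injective _))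
        ((Grp.le_centralizer_of_normal_of_inf_eq_bot Z K h1).trans (centralizer_anti inf_le_left))

end Cfsg.Agent.S4242
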