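import Mathlib
import Cfsg.Statements.S4244
import Cfsg.Agent.Grp.Card

set_option autoImplicit false
open Cfsg

namespace Cfsg.Agent.S4244

theorem relIndex_dvd_index_of_normal {G : Type*} [Group G] [Finite G] (N K : Subgroup G)
    [N.Normal] : K.relIndex N ∣ K.index := by
  have h1 := Grp.card_sup_mul_card_inf K N
  have h2 := Grp.card_inf_mul_relIndex' K N
  have h3 := Grp.card_mul_relIndex (le_sup_left : K ≤ K ⊔ N)
  have h4 : K.relIndex N = K.relIndex (K ⊔ N) := by
    rw [← h2, ← h3] at h1
    have hK : 0 < Nat.card K := Nat.card_pos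
    have hI : 0 < Nat.card (K ⊓ N : Subgroup G) := Nat.card_pos
    have : Nat.card K * Nat.card (K ⊓ N : Subgroup G) * K.relIndex (K ⊔ N) =
        Nat.card K * Nat.card (K ⊓ N : Subgroup G) * K.relIndex N := by linarith
    exact (Nat.eq_of_mul_eq_mul_left (Nat.mul_pos hK hI) this).symm
  rw [h4]
  exact Subgroup.relIndex_dvd_index_of_le le_sup_left

/-- Let H be a subnormal subgroup of a finite group G. Then for every subgroup K of G the index of H ∩ K in H divides the index of K in G. -/
theorem result {G : Type*} [Group G] [Finite G] (H : Subgroup G) (hH : H.IsSubnormal) (K : Subgroup G) :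
    (H ⊓ K).relIndex H ∣ K.index := by
  rw [Subgroup.inf_relIndex_left]
  induction hH with
  | top => rw [Subgroup.relIndex_top_right]
  | step H L hle _ hN ih =>
    refine dvd_trans ?_ ih
    have := relIndex_dvd_index_of_normal (H.subgroupOf L) (K.subgroupOf L)
    rwa [Subgroup.relIndex_subgroupOf hle] at this

end Cfsg.Agent.S4244
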