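import Cfsg.Statements.S4253
import Mathlib
import Cfsg.Agent.Grp.Card

set_option autoImplicit false
open Cfsg

namespace Cfsg.Agent.S4253

open scoped Pointwise

/-- Let H be a Frobenius complement in a finite group G (a nontrivial proper subgroup meeting each conjugate gHg⁻¹ with g outside H trivially). Then in the action of G on the left cosets of H by left multiplication, no non-identity element of G fixes two distinct cosets. -/
theorem result {G : Type*} [Group G] [Finite G] (H : Subgroup G) (hH : Cfsg.IsFrobeniusComplement H)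
    (g : G) (hg : g ≠ 1) (a b : G ⧸ H) (ha : g • a = a) (hb : g • b = b) : a = b := by
  obtain ⟨x, rfl⟩ := QuotientGroup.mk_surjective a
  obtain ⟨y, rfl⟩ := QuotientGroup.mk_surjective b
  rw [MulAction.Quotient.smul_mk, smul_eq_mul, eq_comm, QuotientGroup.eq] at ha hb
  rw [QuotientGroup.eq]
  by_contra h
  have h1 : x⁻¹ * (g * x) ∈ H ⊓ (MulAut.conj (x⁻¹ * y) • H) :=
    ⟨ha, Grp.mem_conj_smul_iff.2 (by simpa [mul_assoc] using hb)⟩
  rw [hH.2.2 _ h, Subgroup.mem_bot] at h1
  apply hg
  calc g = x * (x⁻¹ * (g * x)) * x⁻¹ := by group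
    _ = 1 := by rw [h1]; group

end Cfsg.Agent.S4253
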