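import Cfsg.Statements.S4261
import Mathlib
import Cfsg.Agent.FGS.PrimePart
import Cfsg.Agent.Grp.Frattini
import Cfsg.Agent.Grp.PFrattini
import Cfsg.Agent.Transfer.PCompl

set_option autoImplicit false
open Cfsg

namespace Cfsg.Agent.S4261

/-- Let M be a maximal subgroup of a finite solvable group G such that x^[G : M] lies in M for every x in G. Then M is normal in G. -/
theorem result {G : Type*} [Group G] [Finite G] (hG : Group.IsSolvable G) (M : Subgroup G) (hM : IsCoatom M)
    (hexp : ∀ x : G, x ^ M.index ∈ M) : M.Normal := by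
  obtain ⟨p, k, hp, -, hk⟩ := (isPrimePow_nat_iff _).1 (Grp.isPrimePow_index_of_isCoatom G hG M hM)
  have := Fact.mk hp
  have h1 : pResidual p G ≤ M := Transfer.pResidual_le_iff.2 fun x hx =>
    FGS.mem_of_pow_mem_of_coprime (hk ▸ hx.pow_right k) (hexp x)
  have h2 := Grp.PFrattini.normal_of_isCoatom Transfer.isPGroup_quotient_pResidual
    (Grp.isCoatom_map_of_ker_le (QuotientGroup.mk' (pResidual p G)) (QuotientGroup.mk'_surjective _)
      hM (by rwa [QuotientGroup.ker_mk']))
  have h3 := h2.comap (QuotientGroup.mk' (pResidual p G))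
  rwa [Subgroup.comap_map_eq_self (by rwa [QuotientGroup.ker_mk'])] at h3

end Cfsg.Agent.S4261
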