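import Mathlib
import Cfsg.Statements.S4263
import Cfsg.Agent.S4244
import Cfsg.Agent.S0008
import Cfsg.Agent.Grp.Cores
import Cfsg.Agent.Grp.Subnormal
import Cfsg.Agent.FGS.PrimePart

set_option autoImplicit false
open Cfsg

namespace Cfsg.Agent.S4263

/-- Let G be a finite group. An element x lies in the Fitting subgroup F(G) if and only if, for every subgroup H of G, the power x^[G : H] lies in H. -/
theorem result {G : Type*} [Group G] [Finite G] (x : G) :
    x ∈ Cfsg.fittingSubgroup G ↔ ∀ H : Subgroup G, x ^ H.index ∈ H := by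
  constructor
  · intro hx H
    have hn : (Cfsg.fittingSubgroup G).Normal := Subgroup.sSup_normal _ (fun _ h => h.1)
    have h1 : Grp.SnIn (Subgroup.zpowers x) ⊤ :=
      (Grp.SnIn.of_isNilpotent S0008.result (Subgroup.zpowers_le.mpr hx)).trans
        (Grp.SnIn.of_normal le_top)
    obtain ⟨c, hc⟩ := S4244.result _ (Grp.snIn_top_iff.mp h1) H
    rw [Subgroup.inf_relIndex_left] at hc
    rw [hc, pow_mul]
    refine H.pow_mem ?_ c
    have := Subgroup.pow_index_mem (H := H.subgroupOf (Subgroup.zpowers x))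
      ⟨x, Subgroup.mem_zpowers x⟩
    exact this
  · intro h
    refine FGS.mem_of_forall_primePow_part fun p hp y hy ⟨k, hk⟩ => ?_
    have := Fact.mk hp
    have hle : pCore p G ≤ Cfsg.fittingSubgroup G :=
      le_sSup ⟨inferInstance, (Grp.pCore_isPGroup p G).isNilpotent⟩
    refine hle ?_
    rw [Grp.pCore_eq_iInf_sylow, Subgroup.mem_iInf]
    intro P
    obtain ⟨n, rfl⟩ := Subgroup.mem_zpowers_iff.mp hy
    refine FGS.mem_of_pow_mem_of_coprime (m := (P : Subgroup G).index) ?_ ?_
    · exact Nat.Coprime.coprime_dvd_left (orderOf_dvd_of_pow_eq_one hk)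
        (Nat.Coprime.pow_left k ((Nat.Prime.coprime_iff_not_dvd hp).mpr P.not_dvd_index))
    · rw [← zpow_natCast, ← zpow_mul, mul_comm, zpow_mul, zpow_natCast]
      exact (P : Subgroup G).zpow_mem (h P) n

end Cfsg.Agent.S4263
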