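import Cfsg.Statements.S4264
import Cfsg.Agent.KoRo.Base
import Cfsg.Agent.Perm.JordanSet

set_option autoImplicit false
open Cfsg

namespace Cfsg.Agent.S4264

open Subgroup MulAction Cfsg.Agent.KoRo
open scoped Pointwise

section

variable {G : Type*} [Group G] [Finite G]

theorem sub_le (H : Subgroup G) :
    Nat.card (ConjClasses H) ≤ H.index * Nat.card (ConjClasses G) := by
  have h1 := card_comm_eq_card_conjClasses_mul_card G
  have h2 := card_comm_eq_card_conjClasses_mul_card H
  have h3 : Nat.card {p : H × H // Commute p.1 p.2} ≤ Nat.card {p : G × G // Commute p.1 p.2} :=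
    Nat.card_le_card_of_injective (fun p => ⟨(p.1.1, p.1.2), congrArg Subtype.val p.2⟩) fun p q h => by
      have := congrArg Subtype.val h
      exact Subtype.ext (Prod.ext (Subtype.ext (congrArg Prod.fst this)) (Subtype.ext (congrArg Prod.snd this)))
  rw [h1, h2, ← H.index_mul_card, ← mul_assoc] at h3
  rw [mul_comm]
  exact Nat.le_of_mul_le_mul_right h3 Nat.card_pos

theorem cen_le (H : Subgroup G) (g : G) :
    Nat.card (centralizer ({g} : Set G)) ≤ H.index * Nat.card {h : H // Commute g h} := by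
  have h1 := (H.subgroupOf (centralizer ({g} : Set G))).index_mul_card
  have h2 : (H.subgroupOf (centralizer ({g} : Set G))).index ≤ H.index := by
    have := relIndex_le_of_le_right (H := H) (le_top (a := centralizer ({g} : Set G)))
      (by rw [relIndex_top_right]; exact index_ne_zero_of_finite)
    rwa [relIndex_top_right] at this
  rw [← h1]
  refine Nat.mul_le_mul h2 (Nat.card_le_card_of_injective
    (fun x => ⟨⟨x.1.1, x.2⟩, (mem_centralizer_singleton_iff.1 x.1.2).symm⟩) fun x y h => ?_)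
  exact Subtype.ext (Subtype.ext (congrArg (fun z : {h : H // Commute g h} => (z.1 : G)) h))

theorem le_sub (H : Subgroup G) :
    Nat.card (ConjClasses G) ≤ H.index * Nat.card (ConjClasses H) := by
  classical
  have := Fintype.ofFinite G
  have h1 := KSG.card_conjClasses_mul_card_eq_sum (G := G)
  have h2 : ∑ g : G, Nat.card {h : H // Commute g h} = ∑ h : H, Nat.card (centralizer ({(h : G)} : Set G)) := by
    rw [← Nat.card_sigma, ← Nat.card_sigma]
    exact Nat.card_congr ⟨fun p => ⟨p.2.1, p.1, mem_centralizer_singleton_iff.2 p.2.2⟩,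
      fun p => ⟨p.2.1, p.1, mem_centralizer_singleton_iff.1 p.2.2⟩, fun _ => rfl, fun _ => rfl⟩
  have h3 : ∑ h : H, Nat.card {k : H // Commute (h : G) k} = Nat.card (ConjClasses H) * Nat.card H := by
    rw [← Nat.card_sigma, ← card_comm_eq_card_conjClasses_mul_card]
    exact Nat.card_congr ⟨fun p => ⟨(p.1, p.2.1), Subtype.ext p.2.2⟩,
      fun p => ⟨p.1.1, p.1.2, congrArg Subtype.val p.2⟩, fun _ => rfl, fun _ => rfl⟩
  have h4 := Finset.sum_le_sum fun g (_ : g ∈ Finset.univ) => cen_le H g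
  have h5 := Finset.sum_le_sum fun (h : H) (_ : h ∈ Finset.univ) => cen_le H h
  rw [← Finset.mul_sum, ← h1, h2] at h4
  rw [← Finset.mul_sum, h3] at h5
  have h6 := h4.trans (Nat.mul_le_mul_left _ h5)
  rw [← H.index_mul_card] at h6
  refine Nat.le_of_mul_le_mul_right (h6.trans_eq (by ring)) (Nat.mul_pos (Nat.pos_of_ne_zero
    (index_ne_zero_of_finite (H := H))) (Nat.card_pos (α := H)))

end

theorem k_perm (Ω : Type*) [Fintype Ω] [DecidableEq Ω] :
    Nat.card (ConjClasses (Equiv.Perm Ω)) ≤ 2 ^ (Fintype.card Ω - 1) := by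
  rw [← composition_card, ← Nat.card_eq_fintype_card (α := Composition _)]
  refine le_trans ?_ (Nat.card_le_card_of_surjective _ Nat.Partition.ofComposition_surj)
  refine Nat.card_le_card_of_injective (fun c => (Quotient.out c).partition) fun c d h => ?_
  rw [← Quotient.out_eq c, ← Quotient.out_eq d]
  exact Quotient.sound (Equiv.Perm.partition_eq_of_isConj.2 h)

theorem base {G Ω : Type*} [Group G] [MulAction G Ω] [FaithfulSMul G Ω] [Fintype Ω] [DecidableEq Ω]
    (hprim : IsPreprimitive G Ω) (hA : ¬ alternatingGroup Ω ≤ (toPermHom G Ω).range) :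
    ∃ D : Finset Ω, (∀ g : G, (∀ x ∈ D, g • x = x) → g = 1) ∧ 2 * D.card ≤ Fintype.card Ω := by
  obtain ⟨D, hD, hmin⟩ := exists_minimalFor_of_wellFoundedLT
    (fun D : Finset Ω => ∀ g : G, (∀ x ∈ D, g • x = x) → g = 1) Finset.card
    ⟨Finset.univ, fun g hg => eq_of_smul_eq_smul (α := Ω) fun x => by simpa using hg x (by simp)⟩
  have hmin' : ∀ E : Finset Ω, E.card < D.card → ∃ g : G, (∀ x ∈ E, g • x = x) ∧ g ≠ 1 :=
    fun E hE => by
      by_contra! h
      exact hE.not_ge (hmin h hE.le)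
  refine ⟨D, hD, ?_⟩
  by_contra h1
  obtain ⟨g, hg, hg1⟩ := hmin' Dᶜ (by rw [Finset.card_compl]; omega)
  obtain ⟨a, ha⟩ : ∃ a, g • a ≠ a := by
    by_contra! h; exact hg1 (hD g fun x _ => h x)
  have haD : a ∈ D := by by_contra h; exact ha (hg a (by simpa using h))
  obtain ⟨h, hh, hh1⟩ := hmin' (D.erase a) (Finset.card_erase_lt_of_mem haD)
  refine hA (Perm.JordanSet.alt_le_of_inter hprim ha (h := h) (fun h2 => hh1 (hD h fun x hx => ?_))
    fun x h2 h3 => ?_)
  · by_cases e : x = a
    · rw [e, h2]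
    · exact hh x (Finset.mem_erase.2 ⟨e, hx⟩)
  · by_contra e
    exact h3 (hh x (Finset.mem_erase.2 ⟨e, by by_contra h; exact h2 (hg x (by simpa using h))⟩))

theorem sk_of_bot {G : Type*} [Group G] [Finite G] {N : Subgroup G} {n : ℕ} (h : RK N n)
    (hN : N.normalCore ≤ ⊥) : SK G n :=
  h.sk (MonoidHom.id G) Function.surjective_id (by simpa using hN)

theorem main (n : ℕ) : ∀ (Ω : Type) [Finite Ω], Nat.card Ω = n → SK (Equiv.Perm Ω) (5 ^ (n - 1)) := by
  classical
  induction n using Nat.strong_induction_on with | _ n ih => ?_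
  intro Ω _ hn G
  have := Fintype.ofFinite Ω
  have ih1 : ∀ (X Δ : Type) [Group X] [Finite X] [Finite Δ] [MulAction X Δ], Nat.card Δ < n →
      RK (toPermHom X Δ).ker (5 ^ (Nat.card Δ - 1)) := fun X Δ _ _ _ _ h =>
    RK.of_hom (ih _ h Δ rfl) (toPermHom X Δ) le_rfl
  have ih2 : ∀ (X : Type) [Group X] [Finite X] (H : Subgroup X), H.index < n →
      RK H (5 ^ (H.index - 1)) := fun X _ _ H h =>
    (ih1 X (X ⧸ H) h).mono (H.normalCore_eq_ker ▸ H.normalCore_le)
  rcases subsingleton_or_nontrivial Ω with hs | hs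
  · refine (SK.of_card (n := 1) (Finite.card_le_one_iff_subsingleton.2 inferInstance) G).trans
      (Nat.one_le_pow _ _ (by norm_num))
  have hn2 : 2 ≤ n := hn ▸ Finite.one_lt_card
  obtain ⟨a⟩ : Nonempty Ω := inferInstance
  by_cases ht : ∀ b, b ∈ orbit G a
  swap
  · obtain ⟨b, hb⟩ := not_forall.1 ht
    let A : SubMulAction G Ω := ⟨orbit G a, fun g _ hx => mapsTo_smul_orbit g a hx⟩
    have e : Nat.card A + Nat.card (Aᶜ : SubMulAction G Ω) = n := by
      rw [← hn]
      exact Set.ncard_add_ncard_compl (orbit G a)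
    have p1 : 0 < Nat.card A := Nat.card_pos_iff.2 ⟨⟨⟨a, mem_orbit_self a⟩⟩, inferInstance⟩
    have p2 : 0 < Nat.card (Aᶜ : SubMulAction G Ω) := Nat.card_pos_iff.2 ⟨⟨⟨b, hb⟩⟩, inferInstance⟩
    refine (sk_of_bot ((ih1 G A (by omega)).inf (ih1 G (Aᶜ : SubMulAction G Ω) (by omega)))
      ((normalCore_le _).trans fun g hg => ?_)).top.trans ?_
    · refine mem_bot.2 (Subtype.ext (Equiv.ext fun x => ?_))
      by_cases hx : x ∈ orbit G a
      · exact congrArg Subtype.val (Equiv.congr_fun (mem_inf.1 hg).1 (⟨x, hx⟩ : A))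
      · exact congrArg Subtype.val (Equiv.congr_fun (mem_inf.1 hg).2 (⟨x, hx⟩ : (Aᶜ : SubMulAction G Ω)))
    · rw [← pow_add]
      exact Nat.pow_le_pow_right (by norm_num) (by omega)
  have htr : IsPretransitive G Ω := (isPretransitive_iff_base a).2 ht
  have hi : (stabilizer G a).index = n := by rw [index_stabilizer_of_transitive, hn]
  have hcore : (stabilizer G a).normalCore ≤ ⊥ := fun g hg => by
    refine mem_bot.2 (Subtype.ext (Equiv.ext fun x => ?_))
    obtain ⟨k, rfl⟩ := exists_smul_eq G a x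
    have h1 : (k⁻¹ * g * k⁻¹⁻¹) • a = a := hg k⁻¹
    rw [inv_inv, mul_smul, mul_smul, inv_smul_eq_iff] at h1
    exact h1
  by_cases hp : IsPreprimitive G Ω
  swap
  · rw [← isCoatom_stabilizer_iff_preprimitive G a, IsCoatom, not_and] at hp
    have h1 : stabilizer G a ≠ ⊤ := fun e => by rw [e, index_top] at hi; omega
    obtain ⟨M, hM⟩ := not_forall.1 (hp h1)
    obtain ⟨hM1, hM2⟩ := Classical.not_imp.1 hM
    have e := relIndex_mul_index hM1.le
    rw [hi] at e
    have q1 : M.index ≠ 1 := fun e => hM2 (index_eq_one.1 e)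
    have q2 : (stabilizer G a).relIndex M ≠ 1 := fun e => hM1.not_ge (relIndex_eq_one.1 e)
    have q3 : ((stabilizer G a).subgroupOf M).index = (stabilizer G a).relIndex M := rfl
    have q4 := ih2 M ((stabilizer G a).subgroupOf M)
    have q5 := ih2 G M
    rw [q3] at q4
    generalize (stabilizer G a).relIndex M = s at *
    obtain ⟨s, rfl⟩ : ∃ t, s = t + 2 := ⟨s - 2, by rcases s with _ | _ | s <;> omega⟩
    obtain ⟨m, hm⟩ : ∃ t, M.index = t + 2 := ⟨M.index - 2, by
      have := index_ne_zero_of_finite (H := M)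
      omega⟩
    have q6 := RK.coset (q4 (by rw [← e, hm]; nlinarith)) (q5 (by rw [← e, hm]; nlinarith))
    refine (sk_of_bot (q6.mono (map_subgroupOf_eq_of_le hM1.le).le) hcore).top.trans (le_of_eq ?_)
    rw [← pow_mul, ← pow_add, ← e, hm]
    congr 1
    simp only [Nat.add_succ_sub_one]
    rw [show (s + 2) * (m + 2) = (s + 1) * (m + 2) + (m + 1) + 1 by ring, Nat.add_sub_cancel]
  rw [Nat.card_eq_fintype_card] at hn
  by_cases hA : alternatingGroup Ω ≤ (toPermHom G Ω).range
  · have h1 : alternatingGroup Ω ≤ G := fun x hx => by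
      obtain ⟨g, rfl⟩ := hA hx
      exact g.2
    have h2 : G.index ≤ 2 := alternatingGroup.index_eq_two (α := Ω) ▸ index_antitone h1
    refine (sub_le G).trans ((Nat.mul_le_mul h2 (k_perm Ω)).trans ?_)
    obtain ⟨m, rfl⟩ : ∃ m, n = m + 2 := ⟨n - 2, by omega⟩
    rw [hn, Nat.add_succ_sub_one, pow_succ, pow_succ]
    have := Nat.pow_le_pow_left (show 2 ≤ 5 by norm_num) m
    omega
  obtain ⟨D, hD, hD2⟩ := base hp hA
  rcases D.eq_empty_or_nonempty with rfl | hne
  · have : Subsingleton G := ⟨fun x y => by rw [hD x (by simp), hD y (by simp)]⟩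
    exact (SK.of_card (X := G) (n := 1) (Finite.card_le_one_iff_subsingleton.2 inferInstance)).top.trans
      (Nat.one_le_pow _ _ (by norm_num))
  let H := stabilizer G D
  let A : SubMulAction H Ω := ⟨D, fun g x hx => by
    have h1 : (g : G) • D = D := g.2
    have h2 : (g : G) • x ∈ (g : G) • D := Finset.smul_mem_smul_finset hx
    rwa [h1] at h2⟩
  have hc : Nat.card A = D.card := Nat.card_eq_finsetCard D
  have hpos := hne.card_pos
  have h1 := (sk_of_bot (ih1 H A (by omega)) ((normalCore_le _).trans fun g hg => mem_bot.2 (Subtype.ext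
    (hD g fun x hx => congrArg Subtype.val (Equiv.congr_fun hg (⟨x, hx⟩ : A)))))).top
  have h2 : H.index ≤ 2 ^ n := by
    rw [index_stabilizer, ← hn, ← Fintype.card_finset, ← Nat.card_eq_fintype_card]
    exact Set.ncard_le_card _
  refine (le_sub H).trans ((Nat.mul_le_mul h2 h1).trans ?_)
  rw [hc, show n - 1 = (n - D.card) + (D.card - 1) by omega, pow_add]
  refine Nat.mul_le_mul_right _ ?_
  calc 2 ^ n ≤ 2 ^ (2 * (n - D.card)) := Nat.pow_le_pow_right (by norm_num) (by omega)
    _ = 4 ^ (n - D.card) := by rw [pow_mul]; norm_num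
    _ ≤ _ := Nat.pow_le_pow_left (by norm_num) _

/-- Let G be a subgroup of the symmetric group of degree d ≥ 1. Then G has at most 5^{d−1} conjugacy classes. -/
theorem result (d : ℕ) (hd : 1 ≤ d) (G : Subgroup (Equiv.Perm (Fin d))) : Nat.card (ConjClasses ↥G) ≤ 5 ^ (d - 1) := by
  exact main d (Fin d) (Nat.card_fin d) G

end Cfsg.Agent.S4264
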