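import Cfsg.Statements.S4265
import Mathlib
import Cfsg.Agent.KoRo.Grp
import Cfsg.Agent.KoRo.Red

set_option autoImplicit false
open Cfsg

namespace Cfsg.Agent.S4265

/-- Let G be a finite solvable subgroup of GL_r(ℂ), r ≥ 1, with Fitting subgroup F(G) normal in G. Then for every subgroup H of G the quotient H/(H ∩ F(G)) has at most 3^{r−1} conjugacy classes. -/
theorem result (r : ℕ) (hr : 1 ≤ r) (G : Subgroup (GL (Fin r) ℂ)) [Finite ↥G] (hsolv : Group.IsSolvable ↥G) [hF : (Cfsg.fittingSubgroup ↥G).Normal] (H : Subgroup ↥G) : Nat.card (ConjClasses (↥H ⧸ (Cfsg.fittingSubgroup ↥G).subgroupOf H)) ≤ 3 ^ (r - 1) := by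
  obtain ⟨p, hp, hc, φ, hφ⟩ := KoRo.exists_zmod_rep r G
  haveI := Fact.mk hp
  letI : DistribMulAction G (Fin r → ZMod p) :=
    { smul := fun g v => (φ g).1.mulVec v
      one_smul := fun v => by
        change (φ 1).1.mulVec v = v
        simp
      mul_smul := fun a b v => by
        change (φ (a * b)).1.mulVec v = (φ a).1.mulVec ((φ b).1.mulVec v)
        simp
      smul_zero := fun a => Matrix.mulVec_zero _
      smul_add := fun a v w => Matrix.mulVec_add _ v w }
  have hV : Nat.card (Fin r → ZMod p) = p ^ r := by simp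
  obtain ⟨N, hN, h1, h2, -⟩ := KoRo.good_cr hsolv (KoRo.cr_of_coprime (G := G)
    (V := Fin r → ZMod p) (p := p) (fun v => by ext i; simp) (hV ▸ hc.pow_right r)) hp hV
  have h3 : N ≤ fittingSubgroup G := by
    refine Grp.le_fitting hN (Subgroup.nilpotent_iff_lowerCentralSeries.2 ⟨2, ?_⟩)
    refine eq_bot_iff.2 (Subgroup.commutator_le.2 fun x hx z _ => ?_)
    have h4 : x ∈ Subgroup.centralizer ({z} : Set N) := by
      refine (Subgroup.commutator_le.2 fun a _ b _ => ?_ : _ ≤ Subgroup.centralizer {z}) hx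
      rw [Subgroup.mem_centralizer_singleton_iff, ← commutatorElement_eq_one_iff_mul_comm]
      refine Subtype.ext (hφ (Units.ext ?_))
      rw [Subgroup.coe_one, map_one, Units.val_one, ← Matrix.toLin'.injective.eq_iff]
      refine LinearMap.ext fun v => ?_
      rw [Matrix.toLin'_one, Matrix.toLin'_apply]
      exact h2 a a.2 b b.2 z z.2 v trivial
    exact commutatorElement_eq_one_iff_mul_comm.2 (Subgroup.mem_centralizer_singleton_iff.1 h4)
  refine ((h1.mono h3).quot.of_inj (QuotientGroup.map _ _ H.subtype le_rfl) ?_).top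
  rw [injective_iff_map_eq_one]
  intro x hx
  induction x using QuotientGroup.induction_on with | H x => ?_
  exact (QuotientGroup.eq_one_iff _).2 ((QuotientGroup.eq_one_iff (x : G)).1 hx)

end Cfsg.Agent.S4265
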