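import Cfsg.Statements.S4269
import Mathlib
import Cfsg.Agent.PLocal.Amb

set_option autoImplicit false
open Cfsg

namespace Cfsg.Agent.S4269

open Subgroup Cfsg.Agent.PLocal.Amb
open scoped commutatorElement

/-- elements of `V` whose commutators with `H` lie in `K` -/
def W {G : Type*} [Group G] (V : Subgroup G) [hn : V.Normal] (hV : IsMulCommutative V)
    (H K : Subgroup G) : Subgroup G where
  carrier := {u | u ∈ V ∧ ∀ h ∈ H, h * u * h⁻¹ * u⁻¹ ∈ K}
  one_mem' := ⟨one_mem _, fun h _ => by simp⟩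
  mul_mem' := fun {a b} ha hb => ⟨mul_mem ha.1 hb.1, fun h hh => by
    have h1 := setLike_mul_comm (s := V) (inv_mem ha.1)
      (mul_mem (hn.conj_mem b hb.1 h) (inv_mem hb.1))
    have : h * (a * b) * h⁻¹ * (a * b)⁻¹ = (h * a * h⁻¹ * a⁻¹) * (h * b * h⁻¹ * b⁻¹) := by
      calc _ = h * a * h⁻¹ * (h * b * h⁻¹ * b⁻¹ * a⁻¹) := by group
        _ = _ := by rw [← h1]; group
    rw [this]
    exact mul_mem (ha.2 h hh) (hb.2 h hh)⟩
  inv_mem' := fun {a} ha => ⟨inv_mem ha.1, fun h hh => by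
    have h1 := setLike_mul_comm (s := V) ha.1 (inv_mem (hn.conj_mem a ha.1 h))
    have : h * a⁻¹ * h⁻¹ * a⁻¹⁻¹ = (h * a * h⁻¹ * a⁻¹)⁻¹ := by
      calc _ = (h * a * h⁻¹)⁻¹ * a := by group
        _ = _ := by rw [← h1]; group
    rw [this]
    exact inv_mem (ha.2 h hh)⟩

/-- Let G be a finite group, V an abelian normal subgroup and H a subgroup with HV = G. Then H is pronormal in G (H and gHg⁻¹ are conjugate inside the subgroup they generate, for every g) if and only if every H-invariant subgroup U of V satisfies U = N_U(H)·[H, U], that is, U is the join of U ∩ N_G(H) and the commutator subgroup [H, U]. -/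
theorem result {G : Type*} [Group G] [Finite G]
    (V : Subgroup G) [V.Normal] (hV : IsMulCommutative ↥V) (H : Subgroup G) (hHV : H ⊔ V = ⊤) :
    Cfsg.IsPronormal H ↔
      ∀ U : Subgroup G, U ≤ V → (∀ h ∈ H, U.map (MulAut.conj h).toMonoidHom = U) →
        U = (U ⊓ Subgroup.normalizer (H : Set G)) ⊔ ⁅H, U⁆ := by
  constructor
  · intro hH U hUV hU
    have h1 : H ≤ 𝐍[U] := fun h hh => cj_eq_iff.1 (hU h hh)
    have h2 : ⁅H, U⁆ ≤ U := le_normalizer_iff_commutator_le_right.1 h1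
    refine le_antisymm (fun u hu => ?_) (sup_le inf_le_left h2)
    obtain ⟨x, hx, hx'⟩ := hH u
    have h3 : H ⊔ cj(u, H) ≤ ⁅H, U⁆ ⊔ H := by
      refine sup_le le_sup_right (cj_le_iff_forall.2 fun h hh => ?_)
      have : u * h * u⁻¹ = ⁅h, u⁆⁻¹ * h := by rw [commutatorElement_def]; group
      rw [this]
      exact mul_mem (mem_sup_left (inv_mem (commutator_mem_commutator hh hu))) (mem_sup_right hh)
    obtain ⟨c, hc, h, hh, rfl⟩ := (mem_sup_of_le_normalizer_left
      (le_normalizer_commutator le_normalizer h1)).1 (h3 hx)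
    rw [cj_mul, cj_of_mem hh] at hx'
    have h4 : c⁻¹ * u ∈ 𝐍[H] := cj_eq_iff.1 (by rw [cj_mul, hx', cj_inv_cj])
    have := mul_mem (mem_sup_right (S := U ⊓ 𝐍[H]) hc)
      (mem_sup_left ⟨U.mul_mem (U.inv_mem (h2 hc)) hu, h4⟩)
    simpa using this
  · intro hU g
    have hg : g ∈ V ⊔ H := by rw [sup_comm, hHV]; exact mem_top g
    obtain ⟨v, hv, h, hh, rfl⟩ := (mem_sup_of_le_normalizer_left le_normalizer_of_normal).1 hg
    rw [cj_mul, cj_of_mem hh]
    set K := H ⊔ cj(v, H)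
    have h1 : H ≤ 𝐍[W V hV H K] := le_normalizer_iff_cj.2 fun k hk => cj_le_iff_forall.2
      fun u hu => ⟨Normal.conj_mem inferInstance u hu.1 k, fun h hh => by
        have : h * (k * u * k⁻¹) * h⁻¹ * (k * u * k⁻¹)⁻¹ =
            k * ((k⁻¹ * h * k) * u * (k⁻¹ * h * k)⁻¹ * u⁻¹) * k⁻¹ := by group
        rw [this]
        exact mul_mem (mul_mem (mem_sup_left hk) (hu.2 _ (mul_mem (mul_mem (inv_mem hk) hh) hk)))
          (inv_mem (mem_sup_left hk))⟩
    have h2 := hU (W V hV H K) (fun u hu => hu.1) fun k hk => cj_eq_iff.2 (h1 hk)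
    have h3 : v ∈ W V hV H K := ⟨hv, fun h hh => by
      have : h * v * h⁻¹ * v⁻¹ = h * (v * h⁻¹ * v⁻¹) := by group
      rw [this]
      exact mul_mem (mem_sup_left hh) (mem_sup_right (conj_mem_cj v (inv_mem hh)))⟩
    have h4 : ⁅H, W V hV H K⁆ ≤ K := commutator_le.2 fun h hh u hu => hu.2 h hh
    rw [h2, sup_comm] at h3
    obtain ⟨c, hc, n, hn, rfl⟩ := (mem_sup_of_le_normalizer_left (le_normalizer_commutator
      inf_le_right (inf_le_left.trans le_normalizer))).1 h3
    exact ⟨c, h4 hc, by rw [cj_mul, cj_of_mem_normalizer hn.2]⟩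

end Cfsg.Agent.S4269
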