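import Cfsg.Statements.S4270
import Mathlib
import Cfsg.Agent.FGS.Pronormal

set_option autoImplicit false
open Cfsg

namespace Cfsg.Agent.S4270

open Subgroup Cfsg Cfsg.Agent.PLocal.Amb Cfsg.Agent.FGS in
theorem aux_syl {G : Type*} [Group G] [Finite G] {p : ℕ} [Fact p.Prime] {S L : Subgroup G}
    (h : IsSyl p S L) {Q : Type*} [Group Q] [Finite Q] (f : ↥L →* Q) (hf : Function.Surjective f) :
    IsSyl p ((S.subgroupOf L).map f) ⊤ := by
  obtain ⟨P, hP⟩ := h.exists_sylow
  have := (isSyl_top P).map f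
  rwa [hP, Subgroup.map_top_of_surjective f hf] at this

open Subgroup Cfsg Cfsg.Agent.PLocal.Amb Cfsg.Agent.FGS in
theorem aux {G : Type*} [Group G] [Finite G] {p : ℕ} [Fact p.Prime]
    (A : Subgroup G) [A.Normal]
    (hA : ∀ K : Subgroup ↥A, (∃ P : Sylow p ↥A, (P : Subgroup ↥A) ≤ K) → IsPronormal K)
    (hQ : ∀ K : Subgroup (G ⧸ A), (∃ P : Sylow p (G ⧸ A), (P : Subgroup (G ⧸ A)) ≤ K) →
      IsPronormal K)
    (T : Subgroup G) (hT : IsSyl p T A) {Q : Type*} [Group Q] [Finite Q] (f : ↥(𝐍[T]) →* Q)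
    (hf : Function.Surjective f) (hk : f.ker = T.subgroupOf 𝐍[T]) :
    (∀ K : Subgroup G, (∃ P : Sylow p G, (P : Subgroup G) ≤ K) → IsPronormal K) ↔
      ((∀ K : Subgroup Q, (∃ P : Sylow p Q, (P : Subgroup Q) ≤ K) → IsPronormal K) ∧
        ∀ K : Subgroup G, (∃ P : Sylow p G, (P : Subgroup G) ≤ K) →
          (𝐍[K]).map (QuotientGroup.mk' A) = 𝐍[K.map (QuotientGroup.mk' A)]) := by
  constructor
  · intro h
    refine ⟨?_, fun K hK => FGS.IsPronormal.map_normalizer (h K hK) _ (QuotientGroup.mk'_surjective A)⟩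
    rintro K ⟨P, hP⟩
    obtain ⟨S, hS, hTS⟩ := exists_isSyl_ge hT.pgrp (le_top : T ≤ ⊤)
    have h1 : S ⊓ A = T := hT.eq (hS.pgrp.to_inf_left) (le_inf hTS hT.le) inf_le_right
    have h2 : S ≤ 𝐍[T] := by
      rw [← h1]; exact le_normalizer_inf le_normalizer le_normalizer_of_normal
    obtain ⟨g, -, hg⟩ := (isSyl_top P).exists_cj_eq (aux_syl (hS.mono h2 le_top) f hf)
    obtain ⟨g, rfl⟩ := hf g
    rw [← map_cj] at hg
    have h3 : cj(g, S.subgroupOf 𝐍[T]) ≤ K.comap f := map_le_iff_le_comap.1 (hg.le.trans hP)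
    have h4 := map_mono (f := (𝐍[T]).subtype) h3
    rw [map_subtype_cj, map_subgroupOf_of_le h2] at h4
    obtain ⟨P', hP'⟩ := (hS.cj_of_mem (mem_top (g : G))).exists_sylow_top
    have h5 := (isPronormal_subgroupOf_iff (map_subtype_le (K.comap f))).2
      (FGS.IsPronormal.pronIn (h _ ⟨P', hP' ▸ h4⟩) _)
    rw [subgroupOf, comap_map_eq_self_of_injective (subtype_injective _)] at h5
    have h6 := FGS.IsPronormal.map h5 f hf
    rwa [map_comap_eq_self_of_surjective hf] at h6
  · rintro ⟨h1, h2⟩ K ⟨P, hP⟩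
    have h3 : IsSyl p ((P : Subgroup G) ⊓ A) A :=
      (isSyl_top P).inf_of_le le_top le_normalizer_of_normal
    obtain ⟨a, ha, haT⟩ := hT.exists_cj_eq h3
    rw [cj_inf, cj_of_normal a A] at haT
    refine FGS.IsPronormal.of_cj (g := a) ?_
    obtain ⟨P', hP'⟩ := ((isSyl_top P).cj_of_mem (mem_top a)).exists_sylow_top
    have hP'K : (P' : Subgroup G) ≤ cj(a, K) := hP' ▸ cj_mono a hP
    rw [← hP'] at haT
    generalize cj(a, K) = K' at hP'K
    have hTK : T ≤ K' := (haT.symm.le.trans inf_le_left).trans hP'K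
    have h4 : IsSyl p T (K' ⊓ A) := hT.mono (le_inf hTK hT.le) inf_le_right
    have h5 : PronIn (K' ⊓ A) A := by
      refine (isPronormal_subgroupOf_iff inf_le_right).1 (hA _ ?_)
      obtain ⟨P0, hP0⟩ := hT.exists_sylow
      exact ⟨P0, hP0 ▸ comap_mono h4.le⟩
    have hPN : (P' : Subgroup G) ≤ 𝐍[T] := by
      rw [← haT]; exact le_normalizer_inf le_normalizer le_normalizer_of_normal
    have h6 : PronIn (K' ⊓ 𝐍[T]) 𝐍[T] := by
      refine (isPronormal_subgroupOf_iff inf_le_right).1 (FGS.IsPronormal.of_map f ?_ (h1 _ ?_))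
      · rw [hk]; exact comap_mono (le_inf hTK le_normalizer)
      · obtain ⟨P0, hP0⟩ := (aux_syl (isSyl_of_le P' hPN) f hf).exists_sylow_top
        exact ⟨P0, hP0 ▸ map_mono (comap_mono (le_inf hP'K hPN))⟩
    refine isPronormal_of_pronIn (pronIn_of_inf h4 h5 h6) (hQ _ ?_) (h2 _ ⟨P', hP'K⟩)
    have h7 := (isSyl_top P').map (QuotientGroup.mk' A)
    rw [Subgroup.map_top_of_surjective _ (QuotientGroup.mk'_surjective A)] at h7
    obtain ⟨P0, hP0⟩ := h7.exists_sylow_top
    exact ⟨P0, hP0 ▸ map_mono hP'K⟩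

/-- Let p be a prime and G a finite group with a normal subgroup A such that, both in A and in G/A, every subgroup containing a Sylow p-subgroup of that group is pronormal in that group. Let T be a Sylow p-subgroup of A. Then every subgroup of G containing a Sylow p-subgroup of G is pronormal in G if and only if (i) every subgroup of N_G(T)/T containing a Sylow p-subgroup of N_G(T)/T is pronormal there, and (ii) for every subgroup H of G containing a Sylow p-subgroup of G, the image of N_G(H) in G/A is the full normalizer of the image of H. (Pronormal: H and gHg⁻¹ are conjugate inside the subgroup they generate, for every g.) -/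
theorem result {G : Type*} [Group G] [Finite G] {p : ℕ} [Fact p.Prime]
    (A : Subgroup G) [A.Normal] (hA : (∀ K : Subgroup ↥A, (∃ P : Sylow p ↥A, (P : Subgroup ↥A) ≤ K) → Cfsg.IsPronormal K)) (hQ : (∀ K : Subgroup (G ⧸ A), (∃ P : Sylow p (G ⧸ A), (P : Subgroup (G ⧸ A)) ≤ K) → Cfsg.IsPronormal K))
    (T : Subgroup G) (hT : ∃ P : Sylow p ↥A, (P : Subgroup ↥A).map A.subtype = T) [(T.subgroupOf (Subgroup.normalizer (T : Set G))).Normal] :
    (∀ K : Subgroup G, (∃ P : Sylow p G, (P : Subgroup G) ≤ K) → Cfsg.IsPronormal K) ↔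
      ((∀ K : Subgroup (↥(Subgroup.normalizer (T : Set G)) ⧸ T.subgroupOf (Subgroup.normalizer (T : Set G))), (∃ P : Sylow p (↥(Subgroup.normalizer (T : Set G)) ⧸ T.subgroupOf (Subgroup.normalizer (T : Set G))), (P : Subgroup (↥(Subgroup.normalizer (T : Set G)) ⧸ T.subgroupOf (Subgroup.normalizer (T : Set G)))) ≤ K) → Cfsg.IsPronormal K) ∧
        ∀ K : Subgroup G, (∃ P : Sylow p G, (P : Subgroup G) ≤ K) →
          (Subgroup.normalizer (K : Set G)).map (QuotientGroup.mk' A) = Subgroup.normalizer ((K.map (QuotientGroup.mk' A) : Subgroup (G ⧸ A)) : Set (G ⧸ A))) := by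
  obtain ⟨P, rfl⟩ := hT
  exact aux A hA hQ _ (Cfsg.Agent.PLocal.Amb.isSyl_map_subtype P) (QuotientGroup.mk' _)
    (QuotientGroup.mk'_surjective _) (QuotientGroup.ker_mk' _)

end Cfsg.Agent.S4270
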