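import Cfsg.Statements.S4271
import Mathlib
import Cfsg.Agent.FGS.Pronormal
import Cfsg.Agent.S4270

set_option autoImplicit false
open Cfsg

namespace Cfsg.Agent.S4271

open Subgroup Cfsg Cfsg.Agent.PLocal.Amb Cfsg.Agent.FGS in
theorem aux {G : Type*} [Group G] [Finite G] {p : ℕ} [Fact p.Prime]
    (hQ : ∀ P : Sylow p G, 𝐍[(P : Subgroup G)] = P) (K : Subgroup G)
    (hK : ∃ P : Sylow p G, (P : Subgroup G) ≤ K) : IsPronormal K ∧ 𝐍[K] = K := by
  obtain ⟨P, hP⟩ := hK
  constructor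
  · intro g
    have h1 : IsSyl p (P : Subgroup G) (K ⊔ cj(g, K)) := isSyl_of_le P (hP.trans le_sup_left)
    have h2 : IsSyl p cj(g, (P : Subgroup G)) (K ⊔ cj(g, K)) :=
      ((isSyl_top P).cj_of_mem (mem_top g)).mono ((cj_mono g hP).trans le_sup_right) le_top
    obtain ⟨w, hw, hw'⟩ := h2.exists_cj_eq h1
    refine ⟨w, hw, ?_⟩
    have h3 : w⁻¹ * g ∈ 𝐍[(P : Subgroup G)] := cj_eq_iff.1 (by rw [cj_mul, ← hw', cj_inv_cj])
    rw [hQ] at h3
    have h4 := cj_of_mem (hP h3)
    rw [cj_mul] at h4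
    conv_rhs => rw [← h4, cj_cj_inv]
  · refine le_antisymm (fun g hg => ?_) le_normalizer
    obtain ⟨n, hn, x, hx, rfl⟩ := (isSyl_of_le P hP).frattini hg
    rw [hQ] at hx
    exact mul_mem hn (hP hx)

/-- Let p be a prime and G a finite group with a normal subgroup A such that every subgroup of A containing a Sylow p-subgroup of A is pronormal in A, and the Sylow p-subgroups of G/A are self-normalizing. Let T be a Sylow p-subgroup of A. Then every subgroup of G containing a Sylow p-subgroup of G is pronormal in G if and only if every subgroup of N_G(T)/T containing a Sylow p-subgroup of N_G(T)/T is pronormal in N_G(T)/T. (Pronormal: H and gHg⁻¹ are conjugate inside the subgroup they generate, for every g.) -/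
theorem result {G : Type*} [Group G] [Finite G] {p : ℕ} [Fact p.Prime]
    (A : Subgroup G) [A.Normal] (hA : (∀ K : Subgroup ↥A, (∃ P : Sylow p ↥A, (P : Subgroup ↥A) ≤ K) → Cfsg.IsPronormal K))
    (hQ : ∀ P : Sylow p (G ⧸ A), Subgroup.normalizer ((P : Subgroup (G ⧸ A)) : Set (G ⧸ A)) = P)
    (T : Subgroup G) (hT : ∃ P : Sylow p ↥A, (P : Subgroup ↥A).map A.subtype = T) [(T.subgroupOf (Subgroup.normalizer (T : Set G))).Normal] :
    (∀ K : Subgroup G, (∃ P : Sylow p G, (P : Subgroup G) ≤ K) → Cfsg.IsPronormal K) ↔ (∀ K : Subgroup (↥(Subgroup.normalizer (T : Set G)) ⧸ T.subgroupOf (Subgroup.normalizer (T : Set G))), (∃ P : Sylow p (↥(Subgroup.normalizer (T : Set G)) ⧸ T.subgroupOf (Subgroup.normalizer (T : Set G))), (P : Subgroup (↥(Subgroup.normalizer (T : Set G)) ⧸ T.subgroupOf (Subgroup.normalizer (T : Set G)))) ≤ K) → Cfsg.IsPronormal K) := by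
  rw [Cfsg.Agent.S4270.result (p := p) A hA (fun K hK => (aux hQ K hK).1) T hT]
  refine ⟨fun h => h.1, fun h => ⟨h, ?_⟩⟩
  rintro K ⟨P, hP⟩
  refine le_antisymm (Subgroup.le_normalizer_map _) ?_
  have h7 := (Cfsg.Agent.PLocal.Amb.isSyl_top P).map (QuotientGroup.mk' A)
  rw [Subgroup.map_top_of_surjective _ (QuotientGroup.mk'_surjective A)] at h7
  obtain ⟨P0, hP0⟩ := h7.exists_sylow_top
  rw [(aux hQ _ ⟨P0, hP0 ▸ Subgroup.map_mono hP⟩).2]
  exact Subgroup.map_mono Subgroup.le_normalizer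

end Cfsg.Agent.S4271
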