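import Cfsg.Statements.S4293
import Cfsg.Agent.FGS.FpfFun

set_option autoImplicit false
open Cfsg

namespace Cfsg.Agent.S4293

/-- A nontrivial finite subgroup of the multiplicative group of a division ring occurs as a Frobenius complement of some finite Frobenius group. -/
theorem result {D : Type*} [DivisionRing D] (H : Subgroup Dˣ) [Finite H] (hH : H ≠ ⊥) :
    ∃ (L : Type) (_ : Group L) (_ : Finite L) (C : Subgroup L), Cfsg.IsFrobeniusComplement C ∧ Nonempty (H ≃* C) := by
  haveI : Nontrivial H := (Subgroup.nontrivial_iff_ne_bot H).2 hH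
  let ρ : H →* D := (Units.coeHom D).comp H.subtype
  have hρ : ∀ a, ρ a = 1 → a = 1 := fun a ha => Subtype.ext (Units.ext ha)
  have hf := FGS.FrobCompl.fpfFun_of_monoidHom ρ hρ
  obtain ⟨p, hp⟩ := CharP.exists D
  rcases CharP.char_is_prime_or_zero D p with hp1 | rfl
  · haveI := Fact.mk hp1
    refine (FGS.FrobCompl.exists_int_of_prime hp1 (f := ρ) ?_ hf ?_ ?_).elim
      fun f h => FGS.FrobCompl.occurs_of_int h.1 h.2
    · intro hd
      obtain ⟨x, hx⟩ := exists_prime_orderOf_dvd_card' p hd
      have h1 : (ρ x - 1) ^ p = 0 := by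
        rw [sub_pow_char_of_commute p (Commute.one_right _), ← map_pow, ← hx, pow_orderOf_eq_one,
          map_one, one_pow, sub_self]
      have h2 := hρ x (sub_eq_zero.1 (pow_eq_zero_iff hp1.ne_zero |>.1 h1))
      rw [h2, orderOf_one] at hx
      exact hp1.one_lt.ne hx
    · intro g
      rw [nsmul_eq_mul, CharP.cast_eq_zero, zero_mul]
    · intro h
      have := congrFun h 1
      simp at this
  · haveI := CharP.charP_to_charZero D
    refine FGS.FrobCompl.occurs_of_torsionFree hf ?_
    intro m hm
    simpa using hm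

end Cfsg.Agent.S4293
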