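import Cfsg.Statements.S4294
import Cfsg.Agent.S4293
import Cfsg.Agent.S3359
import Cfsg.Agent.Perm.Stufe
import Cfsg.Agent.Perm.FpfTrace

set_option autoImplicit false
open Cfsg

namespace Cfsg.Agent.S4294

open FGS.FrobCompl

section
variable {D : Type*} [DivisionRing D]

theorem quat_aniso (h2 : (2 : D) ≠ 0) {I J a b c d : D} (hI : I * I = -1) (hJ : J * J = -1)
    (hJI : J * I = -(I * J)) (hc : ∀ x ∈ ({a, b, c, d} : Set D), I * x = x * I ∧ J * x = x * J ∧
      ∀ y ∈ ({a, b, c, d} : Set D), x * y = y * x)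
    (h : a * a + b * b + c * c + d * d = 0) : a = 0 := by
  obtain ⟨a1, a2, a3⟩ := hc a (by simp)
  obtain ⟨b1, b2, b3⟩ := hc b (by simp)
  obtain ⟨c1, c2, c3⟩ := hc c (by simp)
  obtain ⟨d1, d2, -⟩ := hc d (by simp)
  have ab := (a3 b (by simp)).symm
  have ac := (a3 c (by simp)).symm
  have ad := (a3 d (by simp)).symm
  have bc := (b3 c (by simp)).symm
  have bd := (b3 d (by simp)).symm
  have cd := (c3 d (by simp)).symm
  have e : ∀ {x y : D}, x * y = y * x → ∀ z, x * (y * z) = y * (x * z) := fun h z => by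
    rw [← mul_assoc, h, mul_assoc]
  have hI' : ∀ z, I * (I * z) = -z := fun z => by rw [← mul_assoc, hI, neg_one_mul]
  have hJ' : ∀ z, J * (J * z) = -z := fun z => by rw [← mul_assoc, hJ, neg_one_mul]
  have hJI' : ∀ z, J * (I * z) = -(I * (J * z)) := fun z => by
    rw [← mul_assoc, hJI, neg_mul, mul_assoc]
  have key : ∀ {b c d : D}, I * b = b * I → J * b = b * J → I * c = c * I → J * c = c * J →
      I * d = d * I → J * d = d * J → a + b * I + c * J + d * (I * J) = 0 → a = 0 := by
    intro b c d b1 b2 c1 c2 d1 d2 h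
    have h4 : (2 : D) * 2 * a = (a + b * I + c * J + d * (I * J)) -
        I * (a + b * I + c * J + d * (I * J)) * I - J * (a + b * I + c * J + d * (I * J)) * J -
        I * J * (a + b * I + c * J + d * (I * J)) * (I * J) := by
      simp only [mul_add, add_mul, mul_assoc, a1, a2, b1, b2, c1, c2, d1, d2, e a1, e a2, e b1,
        e b2, e c1, e c2, e d1, e d2, hI, hJ, hJI, hI', hJ', hJI', mul_neg, neg_neg, mul_one,
        neg_mul]
      noncomm_ring
    rw [h] at h4
    simpa [h2] using h4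
  have h1 : (a + b * I + c * J + d * (I * J)) * (a + -b * I + -c * J + -d * (I * J)) = 0 := by
    rw [← h]
    simp only [mul_add, add_mul, mul_assoc, a1, a2, b1, b2, c1, c2, d1, d2, e a1, e a2, e b1,
      e b2, e c1, e c2, e d1, e d2, hI, hJ, hJI, hI', hJ', hJI', mul_neg, neg_neg, mul_one,
      neg_mul, e ab, e ac, e ad, e bc, e bd, e cd]
    abel
  rcases mul_eq_zero.1 h1 with h3 | h3
  · exact key b1 b2 c1 c2 d1 d2 h3
  · exact key (by simp [b1]) (by simp [b2]) (by simp [c1]) (by simp [c2]) (by simp [d1])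
      (by simp [d2]) h3

theorem root_eq_one (h2 : (2 : D) ≠ 0) {I J s z : D} (hI : I * I = -1) (hJ : J * J = -1)
    (hJI : J * I = -(I * J)) (hs : s * s = 5) (h1 : I * s = s * I) (h3 : J * s = s * J)
    (h4 : I * z = z * I) (h5 : J * z = z * J) (h6 : s * z = z * s) {r : ℕ} (hr : r.Coprime 20)
    (hz : z ^ r = 1) : z = 1 := by
  by_contra hz1
  obtain ⟨p, hp⟩ := CharP.exists D
  rcases eq_or_ne p 0 with rfl | hp0
  · haveI := CharP.charP_to_charZero D
    let K : Subring D := Subring.centralizer (Subring.centralizer {s, z} : Set D)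
    have hsz : ∀ x ∈ ({s, z} : Set D), x ∈ Subring.centralizer ({s, z} : Set D) := by
      rintro x (rfl | rfl) y (rfl | rfl)
      exacts [rfl, h6.symm, h6, rfl]
    have hK : ∀ x ∈ K, x ∈ Subring.centralizer ({s, z} : Set D) := fun x hx y hy =>
      hx y (hsz y hy)
    have hF : IsField K :=
      { exists_pair_ne := ⟨0, 1, zero_ne_one⟩
        mul_comm := fun x y => Subtype.ext (y.2 x (hK x x.2))
        mul_inv_cancel := fun {x} hx => ⟨⟨x⁻¹, Set.inv_mem_centralizer₀ x.2⟩,
          Subtype.ext (mul_inv_cancel₀ fun h => hx (Subtype.ext h))⟩ }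
    letI := hF.toField
    have hsK : s ∈ K := fun y hy => (hy s (by simp)).symm
    have hzK : z ∈ K := fun y hy => (hy z (by simp)).symm
    obtain ⟨a, b, c, d, ha, h⟩ := Perm.Stufe.exists_four_sq (K := K) (s := ⟨s, hsK⟩)
      (z := ⟨z, hzK⟩) (Subtype.ext hs) hr (Subtype.ext (by simpa using hz))
      (fun h => hz1 (congrArg Subtype.val h))
    have hIK : I ∈ Subring.centralizer ({s, z} : Set D) := by
      rintro y (rfl | rfl)
      exacts [h1.symm, h4.symm]
    have hJK : J ∈ Subring.centralizer ({s, z} : Set D) := by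
      rintro y (rfl | rfl)
      exacts [h3.symm, h5.symm]
    have hall : ∀ x ∈ ({(a : D), (b : D), (c : D), (d : D)} : Set D), x ∈ K := by
      rintro x (rfl | rfl | rfl | rfl) <;> exact Subtype.property _
    refine ha (Subtype.ext (quat_aniso h2 hI hJ hJI (b := b) (c := c) (d := d)
      (fun x hx => ⟨hall x hx I hIK, hall x hx J hJK, fun y hy => hall y hy x (hK x (hall x hx))⟩)
      ?_))
    simpa [pow_two] using congrArg Subtype.val h
  · haveI : NeZero p := ⟨hp0⟩
    obtain ⟨a, b, h⟩ := CharP.sq_add_sq D p (-1)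
    refine one_ne_zero (α := D) (quat_aniso h2 hI hJ hJI (a := ((1 : ℕ) : D)) (b := a) (c := b)
      (d := ((0 : ℕ) : D)) ?_ ?_ |> fun h => by simpa using h)
    · rintro x (rfl | rfl | rfl | rfl) <;>
        exact ⟨(Nat.cast_comm _ _).symm, (Nat.cast_comm _ _).symm, fun y _ => Nat.cast_comm _ _⟩
    · push_cast at h ⊢
      linear_combination (norm := noncomm_ring) h

theorem albert (h2 : (2 : D) ≠ 0) {W J s : D} (hW : W * W * (W * W) = -1) (hJ : J * J = -1)
    (hJW : J * W = -(W * W * W * J)) (hs : s * s = 5) (h1 : W * s = -(s * W))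
    (h3 : J * s = s * J) : False := by
  have e1 : ∀ z, W * (W * (W * (W * z))) = -z := fun z => by
    linear_combination (norm := noncomm_ring) hW * z
  have e1' : W * (W * (W * W)) = -1 := by linear_combination (norm := noncomm_ring) hW
  have e2 : ∀ z, J * (J * z) = -z := fun z => by rw [← mul_assoc, hJ, neg_one_mul]
  have e3 : ∀ z, J * (W * z) = -(W * (W * (W * (J * z)))) := fun z => by
    linear_combination (norm := noncomm_ring) hJW * z
  have e3' : J * W = -(W * (W * (W * J))) := by linear_combination (norm := noncomm_ring) hJW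
  have e4 : ∀ z, s * (s * z) = z + z + z + z + z := fun z => by
    linear_combination (norm := noncomm_ring) hs * z
  have e4' : s * s = 1 + 1 + 1 + 1 + 1 := by rw [hs]; norm_num
  have e5 : ∀ z, W * (s * z) = -(s * (W * z)) := fun z => by
    linear_combination (norm := noncomm_ring) h1 * z
  have e6 : ∀ z, J * (s * z) = s * (J * z) := fun z => by
    linear_combination (norm := noncomm_ring) h3 * z
  have key : (s + s * (W - W * W * W) - (W * W + W * W + J)) *
      (s + s * (W - W * W * W) + (W * W + W * W + J)) = 0 := by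
    simp only [mul_add, add_mul, mul_sub, sub_mul, mul_assoc, e1, e1', e2, e3, e3', e4, e4', e5,
      e6, h1, h3, hJ, mul_neg, neg_neg, mul_one, neg_mul]
    abel
  have c1 : W * W * (s + s * (W - W * W * W)) = (s + s * (W - W * W * W)) * (W * W) := by
    simp only [mul_add, add_mul, mul_sub, sub_mul, mul_assoc, e1, e1', e5, h1, mul_neg, neg_neg,
      mul_one, neg_mul]
  have c2 : W * W * (W * W + W * W + J) - (W * W + W * W + J) * (W * W) = 2 * (W * W * J) := by
    simp only [mul_add, add_mul, mul_sub, sub_mul, mul_assoc, e1, e1', e3, e3', mul_neg, neg_neg,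
      mul_one, neg_mul, two_mul]
    abel
  have c3 : 2 * (W * W * J) ≠ 0 := by
    refine mul_ne_zero h2 (mul_ne_zero ?_ ?_)
    · intro h; rw [h] at hW; simp at hW
    · intro h; rw [h] at hJ; simp at hJ
  apply c3
  rcases mul_eq_zero.1 key with h | h
  · rw [← c2, ← sub_eq_zero.1 h, c1, sub_self]
  · rw [← c2, eq_neg_of_add_eq_zero_right h, mul_neg, neg_mul, c1, sub_self]

end

def pX : Equiv.Perm (Fin 5) := Equiv.swap 0 1 * Equiv.swap 1 2
def pY : Equiv.Perm (Fin 5) := Equiv.swap 2 3 * Equiv.swap 3 4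
def pW : Equiv.Perm (Fin 5) := Equiv.swap 0 1 * Equiv.swap 1 2 * Equiv.swap 2 3

theorem main {G D : Type*} [Group G] [Finite G] [DivisionRing D] (ι : G →* D)
    (hι : Function.Injective ι) (hR : RankOne G) (S : Subgroup G) [S.Normal] (hS : ⁅S, S⁆ = S)
    (e : S ≃* SL25) : S = ⊤ := by
  obtain ⟨θ, hker, hmap⟩ := exists_perm_five S hS e
  have hu : ∀ g, g ≠ 1 → IsUnit (ι g - 1) := fun g hg =>
    (sub_ne_zero.2 fun h => hg (hι (h.trans (map_one ι).symm))).isUnit
  have pm : ∀ g, g * g = 1 → ι g = 1 ∨ ι g = -1 := fun g hg =>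
    mul_self_eq_one_iff.1 (by rw [← map_mul, hg, map_one])
  have pm' : ∀ g, ι g = 1 ∨ ι g = -1 → θ g = 1 := fun g hg => by
    rw [← MonoidHom.mem_ker, hker, Subgroup.mem_centralizer_iff]
    intro h _
    apply hι
    rcases hg with hg | hg <;> simp [hg]
  have hSC : ∀ s ∈ S, θ s = 1 → s * s = 1 := by
    intro s hs hsC
    rw [← MonoidHom.mem_ker, hker] at hsC
    have h1 := Subgroup.mem_centralizer_iff.1 hsC
    have h2 : ∀ w : SL25, e ⟨s, hs⟩ * w = w * e ⟨s, hs⟩ := by
      intro w
      obtain ⟨w, rfl⟩ := e.surjective w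
      rw [← map_mul, ← map_mul]
      exact congrArg e (Subtype.ext (h1 _ w.2).symm)
    have h3 := sl25_central_sq _ (h2 _) (h2 _)
    rw [← map_mul, EmbeddingLike.map_eq_one_iff] at h3
    exact congrArg Subtype.val h3
  have sqneg : ∀ g, θ g ≠ 1 → g * g * (g * g) = 1 → ι g * ι g = -1 := fun g h1 h2 => by
    rw [← map_mul]
    exact (pm _ h2).resolve_left fun h => h1 (pm' g (pm g (hι (h.trans (map_one ι).symm))))
  have lift : ∀ σ : Equiv.Perm (Fin 5), Equiv.Perm.sign σ = 1 → σ ≠ 1 → σ ^ 3 = 1 →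
      ∃ x ∈ S, θ x = σ ∧ orderOf x = 3 := by
    intro σ h1 h2 h3
    obtain ⟨x, hx, rfl⟩ : σ ∈ S.map θ := hmap ▸ Equiv.Perm.mem_alternatingGroup.2 h1
    have h4 : θ (x ^ 4) = θ x := by rw [map_pow, pow_succ, h3, one_mul]
    refine ⟨x ^ 4, S.pow_mem hx 4, h4, orderOf_eq_prime ?_ fun h => h2 (by rw [← h4, h, map_one])⟩
    have h5 := hSC _ (S.pow_mem hx 3) (by rw [map_pow, h3])
    rw [← pow_mul, show 4 * 3 = (3 + 3) * 2 from rfl, pow_mul, pow_add, h5, one_pow]
  haveI : Fact (Nat.Prime 3) := ⟨Nat.prime_three⟩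
  obtain ⟨x, hxS, hx, hx3⟩ := lift pX (by decide) (by decide) (by decide)
  obtain ⟨y, hyS, hy, hy3⟩ := lift pY (by decide) (by decide) (by decide)
  have hxy := hSC _ (S.pow_mem (S.mul_mem hxS hyS) 5) (by rw [map_pow, map_mul, hx, hy]; decide)
  obtain ⟨g, hg⟩ : ∃ g, g = (x * y) ^ 6 := ⟨_, rfl⟩
  have hgS : g ∈ S := hg ▸ S.pow_mem (S.mul_mem hxS hyS) 6
  have hθg : θ g = pX * pY := by rw [hg, map_pow, map_mul, hx, hy]; decide
  have hg5 : g ^ 5 = 1 := by
    rw [hg, ← pow_mul, show 6 * 5 = (5 + 5) * 3 from rfl, pow_mul, pow_add, hxy, one_pow]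
  have hg1 : g ≠ 1 := fun h => by rw [h, map_one] at hθg; exact absurd hθg (by decide)
  obtain ⟨A, hA⟩ : ∃ A, A = ι g + ι g⁻¹ := ⟨_, rfl⟩
  have hAc : Commute A (ι x) ∧ Commute A (ι y) := by
    have ea := Perm.Fpf.tr_eq hu hx3 hy3
    have cx : Commute (ι (x * y) + ι (x * y)⁻¹) (ι x) := by
      rw [ea, Commute, SemiconjBy]
      linear_combination (norm := noncomm_ring)
        ι y * Perm.Fpf.cube_rel hu hx3 - Perm.Fpf.cube_rel hu hx3 * ι y
    have cy : Commute (ι (x * y) + ι (x * y)⁻¹) (ι y) := by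
      rw [ea, Commute, SemiconjBy]
      linear_combination (norm := noncomm_ring)
        ι x * Perm.Fpf.cube_rel hu hy3 - Perm.Fpf.cube_rel hu hy3 * ι x
    have e1 : g = (x * y) ^ 5 * (x * y) := by rw [hg, pow_succ]
    have e2 : g⁻¹ = (x * y) ^ 5 * (x * y)⁻¹ := by
      rw [e1, mul_inv_rev, inv_eq_of_mul_eq_one_right hxy]
      exact ((Commute.refl (x * y)).pow_right 5).inv_left.eq
    rw [hA, e2]
    nth_rewrite 1 [e1]
    nth_rewrite 1 [e1]
    rw [map_mul ι ((x * y) ^ 5), map_mul ι ((x * y) ^ 5), ← mul_add]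
    rcases pm _ hxy with h | h <;> rw [h]
    · rw [one_mul]; exact ⟨cx, cy⟩
    · rw [neg_one_mul]; exact ⟨cx.neg_left, cy.neg_left⟩
  have g1 : ι g * ι g⁻¹ = 1 := by rw [← map_mul, mul_inv_cancel, map_one]
  have g2 : ι g⁻¹ = ι g ^ 4 := by
    rw [← map_pow, inv_eq_of_mul_eq_one_right (b := g ^ 4) (by rw [← pow_succ', hg5])]
  have g3 : ι g ^ 5 = 1 := by rw [← map_pow, hg5, map_one]
  have g4 : ι g ^ 4 + ι g ^ 3 + ι g ^ 2 + ι g + 1 = 0 := by
    apply (hu g hg1).mul_left_cancel
    linear_combination (norm := noncomm_ring) g3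
  have hs : (2 * A + 1) * (2 * A + 1) = 5 := by
    rw [hA, g2]
    linear_combination (norm := grind) 4 * g4 + 8 * g3 + 4 * (ι g ^ 3 * g3)
  obtain ⟨i, hi⟩ : ∃ i, i = x * y * x * y * y := ⟨_, rfl⟩
  obtain ⟨j, hj⟩ : ∃ j, j = y * x * y * y * x := ⟨_, rfl⟩
  have hiS : i ∈ S := hi ▸ S.mul_mem (S.mul_mem (S.mul_mem (S.mul_mem hxS hyS) hxS) hyS) hyS
  have hjS : j ∈ S := hj ▸ S.mul_mem (S.mul_mem (S.mul_mem (S.mul_mem hyS hxS) hyS) hyS) hxS
  have hθi : θ i = pW * pW := by simp only [hi, map_mul, hx, hy]; decide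
  have hθj : θ j = pY * pX * pY * pY * pX := by simp only [hj, map_mul, hx, hy]
  have hAi : Commute A (ι i) := by
    simp only [hi, map_mul]
    exact (((hAc.1.mul_right hAc.2).mul_right hAc.1).mul_right hAc.2).mul_right hAc.2
  have hAj : Commute A (ι j) := by
    simp only [hj, map_mul]
    exact (((hAc.2.mul_right hAc.1).mul_right hAc.2).mul_right hAc.2).mul_right hAc.1
  have hI := sqneg i (by rw [hθi]; decide)
    (hSC _ (S.mul_mem hiS hiS) (by rw [map_mul, hθi]; decide))
  have hJ := sqneg j (by rw [hθj]; decide)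
    (hSC _ (S.mul_mem hjS hjS) (by rw [map_mul, hθj]; decide))
  have hK := sqneg (i * j) (by rw [map_mul, hθi, hθj]; decide)
    (hSC _ (S.mul_mem (S.mul_mem hiS hjS) (S.mul_mem hiS hjS))
      (by simp only [map_mul, hθi, hθj]; decide +kernel))
  have hJI : ι j * ι i = -(ι i * ι j) := by
    rw [map_mul] at hK
    linear_combination (norm := noncomm_ring) ι i * hK * ι j - hI * ι j * ι i * ι j * ι j
      + ι j * ι i * hJ
  have h2 : (2 : D) ≠ 0 := fun h => by
    have h1 : ι (i * i) = 1 := by rw [map_mul, hI]; linear_combination (norm := norm_num) -h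
    have h3 := pm' i (pm i (hι (h1.trans (map_one ι).symm)))
    rw [hθi] at h3
    exact absurd h3 (by decide)
  have hs' : ∀ {t : D}, Commute A t → t * (2 * A + 1) = (2 * A + 1) * t := fun h => by
    linear_combination (norm := noncomm_ring) -2 * h.eq
  have hC : ∀ c, θ c = 1 → c * c = 1 := by
    intro c hc
    by_contra hne
    have hc' : c ∈ Subgroup.centralizer (S : Set G) := hker ▸ hc
    have h3 : 2 < orderOf c := by
      by_contra h
      have h4 := orderOf_pos c
      have h5 : orderOf c ∣ 2 := by interval_cases orderOf c <;> norm_num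
      exact hne (by rw [← pow_two]; exact orderOf_dvd_iff_pow_eq_one.1 h5)
    rcases Nat.four_dvd_or_exists_odd_prime_and_dvd_of_two_lt h3 with h4 | ⟨r, hr, h4, h5⟩
    · refine hR.centralizer_no_four S e ⟨c ^ (orderOf c / 4), Subgroup.pow_mem _ hc' _⟩ ?_
      rw [Subgroup.orderOf_mk]
      exact orderOf_pow_orderOf_div (orderOf_pos c).ne' h4
    · have h6 := orderOf_pow_orderOf_div (orderOf_pos c).ne' h4
      have h7 := Subgroup.mem_centralizer_iff.1 (Subgroup.pow_mem _ hc' (orderOf c / r))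
      have h8 : θ (c ^ (orderOf c / r)) = 1 := by rw [map_pow, hc, one_pow]
      generalize c ^ (orderOf c / r) = m at h6 h7 h8
      by_cases h9 : r = 5
      · subst h9
        haveI : Fact (Nat.Prime 5) := ⟨hr⟩
        have h10 := hR.mem_zpowers (x := g) (y := m) (h7 g hgS)
          (by rw [h6, orderOf_eq_prime hg5 hg1])
        have h11 := hSC m (Subgroup.zpowers_le.2 hgS h10) h8
        have h12 := orderOf_dvd_of_pow_eq_one ((pow_two m).trans h11)
        rw [h6] at h12
        norm_num at h12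
      · have hc : ∀ t ∈ S, ι t * ι m = ι m * ι t := fun t ht => by
          rw [← map_mul, h7 t ht, map_mul]
        have h10 := root_eq_one h2 hI hJ hJI hs (hs' hAi) (hs' hAj) (hc i hiS) (hc j hjS)
          (z := ι m) (r := r) (by
            rw [hA]
            linear_combination (norm := noncomm_ring) 2 * hc g hgS + 2 * hc _ (S.inv_mem hgS))
          (by
            rw [show 20 = 2 ^ 2 * 5 from rfl]
            exact ((Nat.coprime_two_right.2 h5).pow_right 2).mul_right
              ((Nat.coprime_primes hr Nat.prime_five).2 h9))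
          (by rw [← map_pow, ← h6, pow_orderOf_eq_one, map_one])
        rw [hι (h10.trans (map_one ι).symm), orderOf_one] at h6
        exact hr.one_lt.ne h6
  have hCS : ∀ c, θ c = 1 → c ∈ S := fun c hc => by
    rcases pm c (hC c hc) with h | h
    · rw [hι (h.trans (map_one ι).symm)]; exact S.one_mem
    · rw [hι (h.trans (hI.symm.trans (map_mul ι i i).symm))]; exact S.mul_mem hiS hiS
  have hrange : θ.range ≤ alternatingGroup (Fin 5) := by
    by_contra hn
    have h1 : alternatingGroup (Fin 5) ≤ θ.range := hmap ▸ Subgroup.map_le_range _ _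
    have h3 : θ.range = ⊤ := by
      have h4 := Subgroup.index_dvd_of_le h1
      rw [alternatingGroup.index_eq_two] at h4
      rcases (Nat.dvd_prime Nat.prime_two).1 h4 with h5 | h5
      · exact Subgroup.index_eq_one.1 h5
      · exact absurd (Equiv.Perm.eq_alternatingGroup_of_index_eq_two h5).le hn
    obtain ⟨w, hw⟩ : pW ∈ θ.range := h3 ▸ Subgroup.mem_top _
    have hW := sqneg (w * w) (by rw [map_mul, hw]; decide)
      (hC _ (by simp only [map_mul, hw]; decide))
    rw [map_mul] at hW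
    have k1 : ι j * ι w = -(ι w * ι w * ι w * ι j) := by
      rcases pm _ (hC (j * w * j * w) (by simp only [map_mul, hw, hθj]; decide +kernel)) with h | h
      · have h4 := pm' _ (pm (j * w) (hι (by rw [map_one, ← h, mul_assoc (j * w)])))
        rw [map_mul, hw, hθj] at h4
        exact absurd h4 (by decide)
      · simp only [map_mul] at h
        linear_combination (norm := noncomm_ring) h * ι w * ι w * ι w * ι j
          - ι j * ι w * ι j * hW * ι j + ι j * ι w * hJ
    have k2 : w * g * w⁻¹ = y * g ^ 3 * y⁻¹ := by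
      rcases pm _ (hC (w * g * w⁻¹ * (y * g ^ 3 * y⁻¹)⁻¹)
        (by simp only [map_mul, map_inv, map_pow, hw, hθg, hy]; decide +kernel)) with h | h
      · exact mul_inv_eq_one.1 (hι (h.trans (map_one ι).symm))
      · exfalso
        have h4 : ι (w * g * w⁻¹) = -ι (y * g ^ 3 * y⁻¹) := by
          rw [← neg_one_mul, ← h, ← map_mul, inv_mul_cancel_right]
        have h5 := congrArg (· ^ 5) h4
        simp only [Odd.neg_pow (by decide : Odd 5), ← map_pow, conj_pow, hg5] at h5
        rw [← pow_mul, mul_comm 3 5, pow_mul, hg5] at h5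
        simp only [one_pow, mul_one, mul_inv_cancel, map_one] at h5
        exact h2 (by linear_combination (norm := norm_num) h5)
    have k3 : ι w * A = (-1 - A) * ι w := by
      have h4 : w * g = y * g ^ 3 * y⁻¹ * w := by rw [← k2]; group
      have h5 : w * g⁻¹ = y * g ^ 2 * y⁻¹ * w := by
        have h6 : g ^ 2 = (g ^ 3)⁻¹ := eq_inv_of_mul_eq_one_left (by rw [← pow_add, hg5])
        rw [h6, show y * (g ^ 3)⁻¹ * y⁻¹ = (y * g ^ 3 * y⁻¹)⁻¹ by group, ← k2]; group
      have h6 : ι g ^ 3 + ι g ^ 2 = -1 - A := by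
        rw [hA, g2]; linear_combination (norm := noncomm_ring) g4
      have h7 : ι y * ι y⁻¹ = 1 := by rw [← map_mul, mul_inv_cancel, map_one]
      nth_rewrite 1 [hA]
      rw [mul_add, ← map_mul, ← map_mul, h4, h5]
      simp only [map_mul, map_pow]
      linear_combination (norm := noncomm_ring) ι y * h6 * ι y⁻¹ * ι w + hAc.2.eq * ι y⁻¹ * ι w
        - h7 * ι w - A * h7 * ι w
    exact albert h2 hW hJ k1 hs (by linear_combination (norm := noncomm_ring) 2 * k3) (hs' hAj)
  rw [eq_top_iff]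
  intro g _
  obtain ⟨s, hs, h⟩ : θ g ∈ S.map θ := hmap ▸ hrange ⟨g, rfl⟩
  have := S.mul_mem hs (hCS (s⁻¹ * g) (by rw [map_mul, map_inv, h, inv_mul_cancel]))
  rwa [mul_inv_cancel_left] at this

/-- A finite non-solvable subgroup of the multiplicative group of a division ring is isomorphic to the binary icosahedral group SL(2,5). -/
theorem result {D : Type*} [DivisionRing D] (H : Subgroup Dˣ) [Finite H] (hH : ¬ Group.IsSolvable H) :
    Nonempty (H ≃* Matrix.SpecialLinearGroup (Fin 2) (ZMod 5)) := by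
  have hne : H ≠ ⊥ := by
    rintro rfl
    exact hH inferInstance
  have hocc : Occurs H := by
    obtain ⟨L, _, _, C, h1, h2⟩ := S4293.result H hne
    exact ⟨L, inferInstance, inferInstance, C, h1, h2⟩
  obtain ⟨S, hS, hp, ⟨e⟩⟩ := S3359.exists_SL25 hH hocc
  have h := main ((Units.coeHom D).comp H.subtype) (Units.val_injective.comp H.subtype_injective)
    hocc.rankOne S hp e
  exact ⟨(Subgroup.topEquiv.symm.trans (MulEquiv.subgroupCongr h.symm)).trans e⟩

end Cfsg.Agent.S4294
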