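import Mathlib
import Cfsg.Statements.S4310
import Cfsg.Agent.S4309
import Cfsg.Agent.S0001
import Cfsg.Agent.S0205
import Cfsg.Agent.FGS.Conj
import Cfsg.Agent.Grp.Card

set_option autoImplicit false
open Cfsg
open scoped Pointwise

namespace Cfsg.Agent.S4310

theorem hall_conj {G : Type*} [Group G] {π : Set ℕ} {H : Subgroup G} (h : IsPiHall π H) (g : G) :
    IsPiHall π (H.map (MulAut.conj g).toMonoidHom) := by
  unfold IsPiHall
  rw [FGS.card_mapConj, FGS.index_mapConj]
  exact h

theorem core {X : Type*} [Group X] [Finite X] (π : Set ℕ) (H D : Subgroup X) [H.Normal] [D.Normal]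
    (hHD : H ≤ D) (hH : ∀ p : ℕ, p.Prime → p ∣ Nat.card H → p ∈ π)
    (hD : ∀ p : ℕ, p.Prime → p ∈ π → ¬ p ∣ H.relIndex D)
    (hX : ∀ p : ℕ, p.Prime → p ∣ D.index → p ∈ π) :
    (∃ L : Subgroup X, IsPiHall π L ∧ Nat.card L = D.index * Nat.card H) ∧
    ∀ L M : Subgroup X, IsPiHall π L → IsPiHall π M →
      ∃ g : X, M = L.map (MulAut.conj g).toMonoidHom := by
  have hs := QuotientGroup.mk'_surjective H
  have h1 : Nat.card (D.map (QuotientGroup.mk' H)) = H.relIndex D := by
    rw [← Subgroup.relIndex_ker, QuotientGroup.ker_mk']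
  have h2 : (D.map (QuotientGroup.mk' H)).index = D.index :=
    Subgroup.index_map_eq D hs (by rw [QuotientGroup.ker_mk']; exact hHD)
  have hn : (D.map (QuotientGroup.mk' H)).Normal := Subgroup.Normal.map inferInstance _ hs
  have hcop : (Nat.card (D.map (QuotientGroup.mk' H))).Coprime (D.map (QuotientGroup.mk' H)).index := by
    rw [h1, h2]
    exact Nat.coprime_of_dvd fun p hp h h' => hD p hp (hX p hp h') h
  constructor
  · obtain ⟨L, hL⟩ := Subgroup.exists_right_complement'_of_coprime hcop
    have h3 : Nat.card (L.comap (QuotientGroup.mk' H)) = D.index * Nat.card H := by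
      rw [Grp.card_comap_mk', ← hL.symm.index_eq_card, h2]
    refine ⟨L.comap (QuotientGroup.mk' H), ⟨fun p hp h => ?_, fun p hp hπ h => ?_⟩, h3⟩
    · rw [h3] at h
      exact ((Nat.Prime.dvd_mul hp).mp h).elim (hX p hp) (hH p hp)
    · rw [Subgroup.index_comap_of_surjective _ hs, hL.index_eq_card, h1] at h
      exact hD p hp hπ h
  · have key : ∀ L : Subgroup X, IsPiHall π L →
        (D.map (QuotientGroup.mk' H)).IsComplement' (L.map (QuotientGroup.mk' H)) ∧ H ≤ L := by
      intro L hL
      have hL' := (S4309.result π L H hL).2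
      have c1 : (Nat.card (D.map (QuotientGroup.mk' H))).Coprime
          (Nat.card (L.map (QuotientGroup.mk' H))) := by
        rw [h1]
        exact Nat.coprime_of_dvd fun p hp h h' => hD p hp (hL'.1 p hp h') h
      have c2 : (D.map (QuotientGroup.mk' H)).index.Coprime (L.map (QuotientGroup.mk' H)).index := by
        rw [h2]
        exact Nat.coprime_of_dvd fun p hp h h' => hL'.2 p hp (hX p hp h) h'
      refine ⟨Subgroup.isComplement'_of_coprime ?_ c1, ?_⟩
      · have e1 := (D.map (QuotientGroup.mk' H)).card_mul_index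
        have e2 := (L.map (QuotientGroup.mk' H)).card_mul_index
        have d1 : Nat.card (L.map (QuotientGroup.mk' H)) ∣ (D.map (QuotientGroup.mk' H)).index :=
          c1.symm.dvd_of_dvd_mul_left (e1 ▸ Subgroup.card_subgroup_dvd_card _)
        have d2 : (D.map (QuotientGroup.mk' H)).index ∣ Nat.card (L.map (QuotientGroup.mk' H)) :=
          c2.dvd_of_dvd_mul_right (e2 ▸ Subgroup.index_dvd_card _)
        rw [Nat.dvd_antisymm d1 d2, e1]
      · exact Grp.le_of_coprime_card_index
          (Nat.coprime_of_dvd fun p hp h h' => hL.2 p hp (hH p hp h) h')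
    intro L M hL hM
    obtain ⟨hL1, hL2⟩ := key L hL
    obtain ⟨hM1, hM2⟩ := key M hM
    have hsolv : Group.IsSolvable (D.map (QuotientGroup.mk' H)) ∨
        Group.IsSolvable ((X ⧸ H) ⧸ D.map (QuotientGroup.mk' H)) := by
      rcases Nat.even_or_odd (Nat.card (D.map (QuotientGroup.mk' H))) with h | h
      · refine Or.inr (S0205.result ?_)
        rw [← Nat.not_even_iff_odd]
        intro h'
        exact (Nat.Prime.coprime_iff_not_dvd Nat.prime_two).mp
          (hcop.coprime_dvd_left h.two_dvd) h'.two_dvd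
      · exact Or.inl (S0205.result h)
    obtain ⟨g, hg⟩ := S0001.result _ hcop hsolv _ _ hL1 hM1
    obtain ⟨g, rfl⟩ := hs g
    refine ⟨g, ?_⟩
    rw [← Grp.map_conj_smul] at hg
    have := congrArg (Subgroup.comap (QuotientGroup.mk' H)) hg
    rw [Subgroup.comap_map_eq, Subgroup.comap_map_eq, QuotientGroup.ker_mk', sup_of_le_left hM2,
      sup_of_le_left] at this
    · exact this.symm
    · rw [← Grp.conj_smul_normal g H]
      exact Subgroup.pointwise_smul_le_pointwise_smul_iff.mpr hL2

/-- Let `π` be a set of primes and `A` a normal subgroup of the finite group `G`. Suppose `A` has a Hall `π`-subgroup and all Hall `π`-subgroups of `A` are conjugate in `A`, and likewise for `G/A`. Then `G` has a Hall `π`-subgroup and all Hall `π`-subgroups of `G` are conjugate. (The conjugacy of complements of coprime order that the usual proof uses rests, in general, on the odd order Theorem.) -/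
theorem result {G : Type*} [Group G] [Finite G] (π : Set ℕ) (A : Subgroup G) [A.Normal]
    (hA : Cfsg.IsCPiGroup π ↥A) (hQ : Cfsg.IsCPiGroup π (G ⧸ A)) : Cfsg.IsCPiGroup π G := by
  have hs := QuotientGroup.mk'_surjective A
  -- conjugacy in `A` of ambient Hall subgroups of `A`
  have hconj : ∀ H H' : Subgroup G, H ≤ A → H' ≤ A → IsPiHall π (H.subgroupOf A) →
      IsPiHall π (H'.subgroupOf A) → ∃ a ∈ A, H' = H.map (MulAut.conj a).toMonoidHom := by
    intro H H' h1 h2 h3 h4
    obtain ⟨a, ha⟩ := hA.2 _ _ h3 h4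
    refine ⟨a, a.2, ?_⟩
    have := congrArg (Subgroup.map A.subtype) ha
    rw [Subgroup.map_subgroupOf_eq_of_le h2, FGS.mapConj_eq_smul, Grp.map_conj_smul,
      Subgroup.map_subgroupOf_eq_of_le h1] at this
    exact this
  -- the core situation
  have main : ∀ (H : Subgroup G) (K : Subgroup (G ⧸ A)), H ≤ A → IsPiHall π (H.subgroupOf A) →
      IsPiHall π K →
      (∃ L : Subgroup G, IsPiHall π L) ∧ ∀ L M : Subgroup G, IsPiHall π L → IsPiHall π M →
        L ⊓ A = H → M ⊓ A = H → L.map (QuotientGroup.mk' A) = K → M.map (QuotientGroup.mk' A) = K →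
        ∃ g : G, M = L.map (MulAut.conj g).toMonoidHom := by
    intro H K hHA hH hK
    set X := Subgroup.normalizer (H : Set G) ⊓ K.comap (QuotientGroup.mk' A) with hX
    have hAK : A ≤ K.comap (QuotientGroup.mk' A) := fun a ha => by
      rw [Subgroup.mem_comap, QuotientGroup.mk'_apply, (QuotientGroup.eq_one_iff a).mpr ha]
      exact K.one_mem
    have hHX : H ≤ X := le_inf Subgroup.le_normalizer (hHA.trans hAK)
    have hXK : X.map (QuotientGroup.mk' A) = K := by
      refine le_antisymm (Subgroup.map_le_iff_le_comap.mpr inf_le_right) fun k hk => ?_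
      obtain ⟨g, rfl⟩ := hs k
      have h1 : H.map (MulAut.conj g).toMonoidHom ≤ A := by
        rw [← FGS.mapConj_of_normal A g]; exact Subgroup.map_mono hHA
      have h2 : IsPiHall π ((H.map (MulAut.conj g).toMonoidHom).subgroupOf A) := by
        have e : (H.map (MulAut.conj g).toMonoidHom).relIndex A = H.relIndex A := by
          conv_lhs => rw [← FGS.mapConj_of_normal A g]
          exact Subgroup.relIndex_map_map_of_injective _ _ (MulAut.conj g).injective
        refine ⟨fun p hp h => hH.1 p hp ?_, fun p hp hπ h => hH.2 p hp hπ ?_⟩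
        · rwa [Grp.card_subgroupOf_of_le h1, FGS.card_mapConj, ← Grp.card_subgroupOf_of_le hHA] at h
        · change p ∣ H.relIndex A
          rw [← e]; exact h
      obtain ⟨a, ha, he⟩ := hconj H _ hHA h1 hH h2
      have h3 := FGS.mapConj_eq_mapConj_iff.mp he
      have h4 : QuotientGroup.mk' A (a⁻¹ * g) = QuotientGroup.mk' A g := by
        rw [map_mul, map_inv, QuotientGroup.mk'_apply, (QuotientGroup.eq_one_iff a).mpr ha, inv_one,
          one_mul]
      exact ⟨a⁻¹ * g, ⟨h3, show QuotientGroup.mk' A (a⁻¹ * g) ∈ K from h4 ▸ hk⟩, h4⟩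
    have hn : (H.subgroupOf X).Normal :=
      (Subgroup.normal_subgroupOf_iff_le_normalizer hHX).mpr inf_le_left
    have hi : (A.subgroupOf X).index = Nat.card K := by
      rw [← hXK, ← Subgroup.relIndex_ker, QuotientGroup.ker_mk']; rfl
    have hc := core π (H.subgroupOf X) (A.subgroupOf X) (Subgroup.comap_mono hHA)
      (fun p hp h => hH.1 p hp (by
        rwa [Grp.card_subgroupOf_of_le hHX, ← Grp.card_subgroupOf_of_le hHA] at h))
      (fun p hp hπ h => hH.2 p hp hπ (by
        rw [← Subgroup.inf_subgroupOf_right A X, Subgroup.relIndex_subgroupOf inf_le_right] at h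
        refine h.trans ?_
        change _ ∣ H.relIndex A
        rw [← Subgroup.relIndex_mul_relIndex H (A ⊓ X) A (le_inf hHA hHX) inf_le_left]
        exact dvd_mul_right _ _))
      (fun p hp h => hK.1 p hp (hi ▸ h))
    constructor
    · obtain ⟨L, hL, hcard⟩ := hc.1
      have e1 : Nat.card (L.map X.subtype) = Nat.card L :=
        Subgroup.card_map_of_injective X.subtype_injective
      refine ⟨L.map X.subtype, fun p hp h => hL.1 p hp (e1 ▸ h), fun p hp hπ h => ?_⟩
      have e2 := (L.map X.subtype).card_mul_index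
      rw [e1, hcard, hi, Grp.card_subgroupOf_of_le hHX, ← Grp.card_quotient_mul_card A,
        ← K.card_mul_index, ← Grp.card_mul_relIndex hHA] at e2
      have e3 : (L.map X.subtype).index = K.index * H.relIndex A := by
        have hpos : 0 < Nat.card K * Nat.card H := Nat.mul_pos Nat.card_pos Nat.card_pos
        apply Nat.eq_of_mul_eq_mul_left hpos
        rw [e2]; ring
      rw [e3] at h
      exact ((Nat.Prime.dvd_mul hp).mp h).elim (hK.2 p hp hπ) (hH.2 p hp hπ)
    · have key : ∀ L : Subgroup G, IsPiHall π L → L ⊓ A = H → L.map (QuotientGroup.mk' A) = K →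
          L ≤ X ∧ IsPiHall π (L.subgroupOf X) := by
        intro L hL h1 h2
        have h3 : L ≤ X := by
          refine le_inf ?_ (Subgroup.map_le_iff_le_comap.mp h2.le)
          rw [← h1]
          exact le_trans (le_inf Subgroup.le_normalizer Subgroup.le_normalizer_of_normal)
            Subgroup.inf_normalizer_le_normalizer_inf
        refine ⟨h3, fun p hp h => hL.1 p hp (by rwa [Grp.card_subgroupOf_of_le h3] at h),
          fun p hp hπ h => hL.2 p hp hπ (h.trans (Subgroup.relIndex_dvd_index_of_le h3))⟩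
      intro L M hL hM h1 h2 h3 h4
      obtain ⟨l1, l2⟩ := key L hL h1 h3
      obtain ⟨m1, m2⟩ := key M hM h2 h4
      obtain ⟨g, hg⟩ := hc.2 _ _ l2 m2
      refine ⟨g, ?_⟩
      have := congrArg (Subgroup.map X.subtype) hg
      rw [Subgroup.map_subgroupOf_eq_of_le m1, FGS.mapConj_eq_smul, Grp.map_conj_smul,
        Subgroup.map_subgroupOf_eq_of_le l1] at this
      exact this
  constructor
  · obtain ⟨H, hH⟩ := hA.1
    obtain ⟨K, hK⟩ := hQ.1
    refine (main (H.map A.subtype) K (Subgroup.map_subtype_le H) ?_ hK).1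
    have : (H.map A.subtype).subgroupOf A = H :=
      Subgroup.comap_map_eq_self_of_injective A.subtype_injective H
    rwa [this]
  · intro L M hL hM
    obtain ⟨g, hg⟩ := hQ.2 _ _ (S4309.result π L A hL).2 (S4309.result π M A hM).2
    obtain ⟨g, rfl⟩ := hs g
    have hL1 := hall_conj hL g
    obtain ⟨a, ha, he⟩ := hconj _ _ inf_le_right inf_le_right (S4309.result π _ A hL1).1
      (S4309.result π M A hM).1
    have hL2 := hall_conj hL1 a
    obtain ⟨b, hb⟩ := (main (M ⊓ A) (M.map (QuotientGroup.mk' A)) inf_le_right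
      (S4309.result π M A hM).1 (S4309.result π M A hM).2).2 _ M hL2 hM
      (by rw [he, FGS.mapConj_inf, FGS.mapConj_of_normal A a]) rfl
      (by
        rw [hg, FGS.mapConj_eq_smul, FGS.mapConj_eq_smul, FGS.mapConj_eq_smul, Grp.map_conj_smul,
          Grp.map_conj_smul, QuotientGroup.mk'_apply A a, (QuotientGroup.eq_one_iff a).mpr ha,
          map_one, one_smul]) rfl
    exact ⟨b * a * g, by rw [hb, mul_assoc, FGS.mapConj_mul, FGS.mapConj_mul]⟩

end Cfsg.Agent.S4310
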