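import Cfsg.Statements.S4323
import Cfsg.Agent.Solv.WardAb3
import Cfsg.Agent.FH.Ext
import Cfsg.Agent.Grp.MinNormal

set_option autoImplicit false
open Cfsg

namespace Cfsg.Agent.S4323

open Cfsg.Agent.FT Cfsg.Agent.Solv.Ext Cfsg.Agent.PLocal.Sig Subgroup

universe v

theorem aux {A : Type*} [Group A] [Finite A] (q : ℕ) [hq : Fact q.Prime] (hA : Nat.card A = q ^ 2)
    (hnc : ¬ IsCyclic A) (G : Type v) [Group G] [Finite G] :
    ∀ [MulDistribMulAction A G], ¬ q ∣ Nat.card G →
      (∀ a : A, a ≠ 1 → ∀ x y : G, a • x = x → a • y = y → x * y = y * x) →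
      Group.IsSolvable G := by
  refine Grp.card_induction (P := fun G _ _ => ∀ [MulDistribMulAction A G], ¬ q ∣ Nat.card G →
      (∀ a : A, a ≠ 1 → ∀ x y : G, a • x = x → a • y = y → x * y = y * x) →
      Group.IsSolvable G) (fun G _ _ ih _ hcop h => ?_) G
  by_contra hns
  have hsub : ∀ H : Subgroup G, H ≠ ⊤ → Inv A H → Group.IsSolvable H := fun H hH hi => by
    obtain ⟨_, e⟩ := exists_subAction hi
    exact ih H (Grp.card_lt_of_ne_top hH) (fun hd => hcop (hd.trans (card_subgroup_dvd_card H)))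
      fun a ha x y hx hy => Subtype.ext (h a ha x y (by rw [← e, hx]) (by rw [← e, hy]))
  have hsimp : ∀ N : Subgroup G, N.Normal → Inv A N → N = ⊥ ∨ N = ⊤ := fun N hN hi => by
    by_contra hc
    push Not at hc
    obtain ⟨_, e⟩ := exists_quotAction hi
    refine hns (Solv.isSolvable_of_normal_of_quotient N (hsub N hc.2 hi) (ih _
      (Grp.card_quotient_lt N hc.1) (fun hd => hcop (hd.trans (card_quotient_dvd_card N)))
      fun a ha x y hx hy => ?_))
    have key : ∀ z : G ⧸ N, a • z = z → ∃ c : G, a • c = c ∧ (c : G ⧸ N) = z := fun z hz => by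
      obtain ⟨c, hc, e'⟩ := exists_fixed_lift (A := zpowers a) (fun b x => e b x)
        (hi.subgroup (zpowers a)) ((((hA ▸ (hq.out.coprime_iff_not_dvd.2 hcop).pow_left 2 :
          (Nat.card A).Coprime (Nat.card G))).coprime_dvd_left
            (card_subgroup_dvd_card _)).coprime_dvd_right (card_subgroup_dvd_card _))
        (Or.inl inferInstance) z fun b =>
          (zpowers_le.2 (MulAction.mem_stabilizer_iff.2 hz) : zpowers a ≤ MulAction.stabilizer A z) b.2
      exact ⟨c, hc ⟨a, mem_zpowers a⟩, e'⟩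
    obtain ⟨c, hc, rfl⟩ := key x hx
    obtain ⟨d, hd, rfl⟩ := key y hy
    rw [← QuotientGroup.mk_mul, h a ha c d hc hd, QuotientGroup.mk_mul]
  have := finite_SD (A := A) (G := G)
  have hi := iG_injective (A := A) (G := G)
  have hc : Nat.card (iA A G).range = q ^ 2 := card_range_iA.trans hA
  have hea : IsElementaryAbelian q (iA A G).range := R2.isEA_of_card_sq hc (by
    rintro _ ⟨a, rfl⟩
    rw [← map_pow, ← (not_isCyclic_iff_exponent_eq_prime hq.out hA).1 hnc, Monoid.pow_exponent_eq_one,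
      map_one])
  have hcop' : ¬ q ∣ Nat.card (iG A G).range := by rwa [card_range_iG]
  have hns' : ¬ Group.IsSolvable (iG A G).range := fun hs =>
    hns (Group.isSolvable_of_isSolvable_injective (MonoidHom.rangeRestrict_injective_iff.2 hi))
  have hab : ∀ a ∈ (iA A G).range, a ≠ 1 → (iG A G).range ⊓ 𝒞[a] ≤ 𝒞((iG A G).range ⊓ 𝒞[a]) := by
    rintro _ ⟨a, rfl⟩ ha _ ⟨⟨x, rfl⟩, hx⟩ _ ⟨⟨y, rfl⟩, hy⟩
    rw [← map_mul, ← map_mul,
      h a (fun e => ha (by rw [e, map_one])) y x (FH.iG_mem_cent1.1 hy) (FH.iG_mem_cent1.1 hx)]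
  have hs' : ∀ N : Subgroup (SD A G), N ≤ (iG A G).range → (iA A G).range ≤ 𝒩(N) →
      (iG A G).range ≤ 𝒩(N) → N = ⊥ ∨ N = (iG A G).range := fun N hN h1 h2 => by
    have e := map_comap_eq_self hN
    rcases hsimp (N.comap (iG A G)) ⟨fun x hx g => by
      rw [mem_comap, map_mul, map_mul, map_inv]; exact (h2 ⟨g, rfl⟩ _).1 hx⟩
      (inv_iff_le_normalizer.2 (e.symm ▸ h1)) with e' | e'
    · left; rw [← e, e', Subgroup.map_bot]
    · right; rw [← e, e', MonoidHom.range_eq_map]
  refine WardAb.Hp.elim (q := q) ⟨hea, hc, FH.norm_range _, hcop', ?_, hab, fun H hH h1 => ?_, hs',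
    hns'⟩
  · have k : (iG A G).range ≤ 𝒞((iG A G).range ⊓ 𝒞((iA A G).range)) :=
      le_of_cent1_le hea hc.ge (FH.norm_range _) hcop' fun a ha ha1 =>
        (hab a ha ha1).trans (cent_anti (inf_le_inf_left _ (cent_le_cent1 ha)))
    refine (hs' _ inf_le_left (norm_inf (FH.norm_range _) (norm_cent (le_norm_self _)))
      (le_norm_of_le_cent k)).resolve_right fun e => hns' ?_
    rw [e] at k
    have := abelian_iff.2 k
    exact Solv.isSolvable_of_isMulCommutative _
  · have e := map_comap_eq_self hH.le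
    rw [← e]
    refine isSolvable_map_iG (hsub _ (fun e' => hH.ne ?_) (inv_iff_le_normalizer.2 (e.symm ▸ h1)))
    rw [← e, e', MonoidHom.range_eq_map]

/-- Let `q` be a prime and `A` a non-cyclic group of order `q²` acting by automorphisms on a finite group `G` of order prime to `q`, such that the fixed-point subgroup `C_G(a)` is abelian for every non-identity `a ∈ A`. Then `G` is solvable. -/
theorem result {A G : Type*} [Group A] [Finite A]
    [Group G] [Finite G] [MulDistribMulAction A G] (q : ℕ) (hq : q.Prime) (hA : Nat.card A = q ^ 2) (hnc : ¬ IsCyclic A)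
    (hcop : ¬ q ∣ Nat.card G) (h : ∀ a : A, a ≠ 1 → IsMulCommutative ↥(FixedPoints.subgroup (Subgroup.zpowers a) G)) :
    Group.IsSolvable G := by
  have := Fact.mk hq
  refine aux q hA hnc G hcop fun a ha x y hx hy => ?_
  have key : ∀ z : G, a • z = z → z ∈ FixedPoints.subgroup (Subgroup.zpowers a) G := fun z hz b =>
    (zpowers_le.2 (MulAction.mem_stabilizer_iff.2 hz) : zpowers a ≤ MulAction.stabilizer A z) b.2
  exact congrArg Subtype.val ((h a ha).is_comm.comm ⟨x, key x hx⟩ ⟨y, key y hy⟩)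

end Cfsg.Agent.S4323
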