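import Cfsg.Statements.S4331
import Cfsg.Agent.Grp.Cores
import Cfsg.Agent.Grp.Subnormal

set_option autoImplicit false
open Cfsg

namespace Cfsg.Agent.S4331

/-- The semidihedral group of order 16. -/
def SD := ZMod 8 × Bool

instance : DecidableEq SD := inferInstanceAs (DecidableEq (ZMod 8 × Bool))
instance : Fintype SD := inferInstanceAs (Fintype (ZMod 8 × Bool))
instance : Mul SD := ⟨fun p q => (p.1 + (if p.2 then 3 * q.1 else q.1), xor p.2 q.2)⟩
instance : One SD := ⟨(0, false)⟩
instance : Inv SD := ⟨fun p => (if p.2 then -(3 * p.1) else -p.1, p.2)⟩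

instance : Group SD := Group.ofLeftAxioms (by decide +kernel) (by decide +kernel) (by decide +kernel)

abbrev V := Multiplicative (ZMod 3 × ZMod 3)

def rot (x : ZMod 3 × ZMod 3) : ZMod 3 × ZMod 3 := (x.1 - x.2, x.1 + x.2)

def act (p : SD) (x : V) : V :=
  Multiplicative.ofAdd (rot^[p.1.val] (if p.2 then ((Multiplicative.toAdd x).1, -(Multiplicative.toAdd x).2)
    else Multiplicative.toAdd x))

theorem act_mul : ∀ (p q : SD) (x : V), act (p * q) x = act p (act q x) := by decide +kernel
theorem act_one : ∀ (x : V), act 1 x = x := by decide +kernel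
theorem act_add : ∀ (p : SD) (x y : V), act p (x * y) = act p x * act p y := by decide +kernel

def phi : SD →* MulAut V where
  toFun p :=
    { toFun := act p
      invFun := act p⁻¹
      left_inv := fun x => by rw [← act_mul, inv_mul_cancel, act_one]
      right_inv := fun x => by rw [← act_mul, mul_inv_cancel, act_one]
      map_mul' := act_add p }
  map_one' := by ext1 x; exact act_one x
  map_mul' p q := by ext1 x; exact act_mul p q x

abbrev GG := V ⋊[phi] SD

def t : GG := ⟨1, ((0, true) : ZMod 8 × Bool)⟩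

theorem key : ∀ (v : V) (p : SD), ∃ (w : V) (q : SD),
    ((⟨w, q⟩ : GG) * ⟨v, p⟩ * (⟨w, q⟩ : GG)⁻¹).left = 1 ∨
    ((⟨w, q⟩ : GG) * ⟨v, p⟩ * (⟨w, q⟩ : GG)⁻¹) * t = t * ((⟨w, q⟩ : GG) * ⟨v, p⟩ * (⟨w, q⟩ : GG)⁻¹) := by
  decide +kernel

theorem card_SD : Nat.card SD = 2 ^ 4 := by
  rw [Nat.card_eq_fintype_card]; rfl

theorem sd_pgroup : IsPGroup 2 SD := IsPGroup.of_card card_SD

instance : Finite GG := Finite.of_equiv _ SemidirectProduct.equivProd.symm

theorem normal_of_commute {G : Type*} [Group G] (a b : G) (h : Commute a b) :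
    ((Subgroup.zpowers a).subgroupOf (Subgroup.zpowers a ⊔ Subgroup.zpowers b)).Normal := by
  rw [Subgroup.normal_subgroupOf_iff_le_normalizer le_sup_left]
  refine sup_le Subgroup.le_normalizer ?_
  refine le_trans ?_ (Subgroup.centralizer_le_normalizer _)
  rw [Subgroup.zpowers_le, Subgroup.mem_centralizer_iff]
  rintro _ ⟨k, rfl⟩
  exact (h.zpow_left k).eq

def v0 : GG := ⟨Multiplicative.ofAdd (0, 1), 1⟩

theorem v0_spec : (t * (v0 * t * v0⁻¹)) ^ 3 = 1 ∧ t * (v0 * t * v0⁻¹) ≠ 1 := by decide +kernel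

theorem t_spec : t ^ 2 = 1 ∧ t ≠ 1 := by decide +kernel

/-- There is a finite solvable group G with a subgroup A of order 2 such that every conjugacy class of G contains an element g for which A is subnormal in the subgroup generated by A and g, and yet A is not contained in O_2(G). (So the corresponding criteria for odd primes fail at the prime 2, even for solvable groups.) -/
theorem result :
    ∃ (G : Type) (_ : Group G) (_ : Finite G) (A : Subgroup G), Group.IsSolvable G ∧ Nat.card A = 2 ∧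
      (∀ c : G, ∃ g : G, IsConj c g ∧ (A.subgroupOf (A ⊔ Subgroup.zpowers g)).IsSubnormal) ∧
      ¬ A ≤ Cfsg.pCore 2 G := by
  haveI : Fact (Nat.Prime 2) := ⟨Nat.prime_two⟩
  refine ⟨GG, inferInstance, inferInstance, Subgroup.zpowers t, ?_, ?_, ?_, ?_⟩
  · haveI : Group.IsNilpotent SD := sd_pgroup.isNilpotent
    exact solvable_of_ker_le_range (SemidirectProduct.inl (φ := phi)) SemidirectProduct.rightHom
      SemidirectProduct.range_inl_eq_ker_rightHom.ge
  · rw [Nat.card_zpowers]
    exact orderOf_eq_prime t_spec.1 t_spec.2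
  · rintro ⟨v, p⟩
    obtain ⟨w, q, h⟩ := key v p
    refine ⟨_, isConj_iff.2 ⟨(⟨w, q⟩ : GG), rfl⟩, ?_⟩
    generalize (⟨w, q⟩ : GG) * ⟨v, p⟩ * (⟨w, q⟩ : GG)⁻¹ = g at h
    rcases h with h | h
    · have hP : IsPGroup 2 (SemidirectProduct.inr (φ := phi)).range :=
        sd_pgroup.of_surjective _ (MonoidHom.rangeRestrict_surjective _)
      have hle : Subgroup.zpowers t ⊔ Subgroup.zpowers g ≤ (SemidirectProduct.inr (φ := phi)).range := by
        refine sup_le ?_ ?_
        · rw [Subgroup.zpowers_le]; exact ⟨t.right, rfl⟩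
        · rw [Subgroup.zpowers_le]
          refine ⟨g.right, ?_⟩
          ext1
          · exact h.symm
          · rfl
      exact (Grp.SnIn.of_isPGroup (hP.to_le hle) le_sup_left).isSubnormal_subgroupOf
    · exact (normal_of_commute t g h.symm).isSubnormal
  · intro hle
    have ht : t ∈ Cfsg.pCore 2 GG := hle (Subgroup.mem_zpowers t)
    have hN : (Cfsg.pCore 2 GG).Normal := inferInstance
    have hx : t * (v0 * t * v0⁻¹) ∈ Cfsg.pCore 2 GG := mul_mem ht (hN.conj_mem t ht v0)
    obtain ⟨k, hk⟩ := Grp.pCore_isPGroup 2 GG ⟨_, hx⟩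
    have hk' : (t * (v0 * t * v0⁻¹)) ^ (2 ^ k) = 1 := by simpa using congrArg Subtype.val hk
    haveI : Fact (Nat.Prime 3) := ⟨Nat.prime_three⟩
    have ho := orderOf_eq_prime v0_spec.1 v0_spec.2
    have hd := orderOf_dvd_of_pow_eq_one hk'
    rw [ho] at hd
    have := Nat.Prime.dvd_of_dvd_pow Nat.prime_three hd
    omega

end Cfsg.Agent.S4331
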