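import Cfsg.Statements.S4332
import Cfsg.Agent.Grp.Cores

set_option autoImplicit false
open Pointwise
open Cfsg

namespace Cfsg.Agent.S4332

open Equiv Equiv.Perm in
theorem exists_not_mem8 (s : Finset (Fin 8)) (h : s.card < 8) : ∃ z, z ∉ s := by
  by_contra hc
  push Not at hc
  have : s = Finset.univ := Finset.eq_univ_iff_forall.2 hc
  rw [this] at h
  simp at h

open Equiv Equiv.Perm in
theorem conj_swaps {α : Type*} [DecidableEq α] (c : Perm α) (x y z : α) :
    c * (swap x y * swap x z) * c⁻¹ = swap (c x) (c y) * swap (c x) (c z) := by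
  rw [swap_apply_apply c x y, swap_apply_apply c x z]; group

open Equiv Equiv.Perm in
theorem comm_of_disj {α : Type*} [DecidableEq α] [Fintype α] (c : Perm α) (x y z : α)
    (h1 : c x ≠ x) (h2 : c x ≠ y) (h3 : c x ≠ z) (h4 : c y ≠ x) (h5 : c y ≠ y) (h6 : c y ≠ z)
    (h7 : c z ≠ x) (h8 : c z ≠ y) (h9 : c z ≠ z) :
    Commute (swap x y * swap x z) (c * (swap x y * swap x z) * c⁻¹) := by
  rw [conj_swaps]
  apply Equiv.Perm.Disjoint.commute
  intro w
  by_cases hw : w = x ∨ w = y ∨ w = z
  · right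
    have a1 : w ≠ c x := by rcases hw with rfl | rfl | rfl <;> [exact h1.symm; exact h2.symm; exact h3.symm]
    have a2 : w ≠ c y := by rcases hw with rfl | rfl | rfl <;> [exact h4.symm; exact h5.symm; exact h6.symm]
    have a3 : w ≠ c z := by rcases hw with rfl | rfl | rfl <;> [exact h7.symm; exact h8.symm; exact h9.symm]
    rw [Perm.mul_apply, swap_apply_of_ne_of_ne a1 a3, swap_apply_of_ne_of_ne a1 a2]
  · left
    push Not at hw
    rw [Perm.mul_apply, swap_apply_of_ne_of_ne hw.1 hw.2.2, swap_apply_of_ne_of_ne hw.1 hw.2.1]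

open Equiv Equiv.Perm in
theorem swaps_rot {α : Type*} [DecidableEq α] (x y z : α) (hxy : x ≠ y) (hxz : x ≠ z)
    (hyz : y ≠ z) : swap y z * swap y x = swap x y * swap x z := by
  ext w
  simp only [Perm.mul_apply, swap_apply_def]
  split_ifs <;> simp_all

open Equiv Equiv.Perm in
theorem exists_tau (c : Perm (Fin 8)) :
    ∃ τ : Perm (Fin 8), τ.IsThreeCycle ∧ Commute τ (c * τ * c⁻¹) := by
  classical
  set F : Finset (Fin 8) := Finset.univ.filter (fun x => c x = x) with hF
  have memF : ∀ w, w ∈ F ↔ c w = w := by intro w; simp [hF]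
  by_cases h3 : 2 < F.card
  · obtain ⟨x, y, z, hx, hy, hz, hxy, hxz, hyz⟩ := Finset.two_lt_card_iff.1 h3
    refine ⟨swap x y * swap x z, isThreeCycle_swap_mul_swap_same hxy hxz hyz, ?_⟩
    rw [conj_swaps, (memF x).1 hx, (memF y).1 hy, (memF z).1 hz]
  · push Not at h3
    obtain ⟨x, hx⟩ := exists_not_mem8 F (by omega)
    rw [memF] at hx
    by_cases hc3 : c (c (c x)) = x
    · have a1 : x ≠ c x := fun h => hx h.symm
      have a2 : c x ≠ c (c x) := fun h => a1 (c.injective h)
      have a3 : x ≠ c (c x) := fun h => hx (by rw [← h] at hc3; exact hc3)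
      refine ⟨swap x (c x) * swap x (c (c x)), isThreeCycle_swap_mul_swap_same a1 a3 a2, ?_⟩
      rw [conj_swaps, hc3, swaps_rot x (c x) (c (c x)) a1 a3 a2]
    · -- find y with small excluded set
      have hy : ∃ y, c y ≠ y ∧ y ≠ x ∧ y ≠ c x ∧ c y ≠ x ∧
          ∃ S : Finset (Fin 8), S.card ≤ 5 ∧ x ∈ S ∧ c x ∈ S ∧ c⁻¹ x ∈ S ∧ y ∈ S ∧ c y ∈ S ∧
            c⁻¹ y ∈ S := by
        by_cases hc2 : c (c x) = x
        · obtain ⟨y, hy⟩ := exists_not_mem8 (F ∪ {x, c x}) (by
            have := Finset.card_union_le F {x, c x}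
            have := Finset.card_le_two (a := x) (b := c x)
            omega)
          simp only [Finset.mem_union, Finset.mem_insert, Finset.mem_singleton, not_or, memF] at hy
          refine ⟨y, hy.1, hy.2.1, hy.2.2, ?_, {x, c x, y, c y, c⁻¹ y}, Finset.card_le_five, ?_⟩
          · intro h; apply hy.2.2; apply c.injective; rw [h, hc2]
          · have : c⁻¹ x = c x := by
              rw [Perm.inv_eq_iff_eq]; exact hc2.symm
            simp [this]
        · refine ⟨c (c x), ?_, hc2, ?_, hc3, {x, c x, c⁻¹ x, c (c x), c (c (c x))},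
            Finset.card_le_five, ?_⟩
          · intro h; exact hx (c.injective (c.injective h))
          · intro h; exact hx (c.injective h)
          · simp
      obtain ⟨y, hy1, hy2, hy3, hy4, S, hS, s1, s2, s3, s4, s5, s6⟩ := hy
      obtain ⟨z, hz⟩ := exists_not_mem8 (F ∪ S) (by
        have := Finset.card_union_le F S
        omega)
      simp only [Finset.mem_union, not_or, memF] at hz
      have hzS : ∀ w ∈ S, z ≠ w := fun w hw h => hz.2 (h ▸ hw)
      refine ⟨swap x y * swap x z, isThreeCycle_swap_mul_swap_same hy2.symm (hzS x s1).symm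
        (hzS y s4).symm, comm_of_disj c x y z hx hy3.symm (hzS _ s2).symm hy4 hy1 (hzS _ s5).symm
        ?_ ?_ hz.1⟩
      · intro h; apply hzS _ s3; rw [← h]; simp
      · intro h; apply hzS _ s6; rw [← h]; simp

theorem normal_of_commute {G : Type*} [Group G] (a b : G) (h : Commute a b) :
    ((Subgroup.zpowers a).subgroupOf (Subgroup.zpowers a ⊔ Subgroup.zpowers b)).Normal := by
  rw [Subgroup.normal_subgroupOf_iff_le_normalizer le_sup_left]
  refine sup_le Subgroup.le_normalizer ?_
  refine le_trans ?_ (Subgroup.centralizer_le_normalizer _)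
  rw [Subgroup.zpowers_le, Subgroup.mem_centralizer_iff]
  rintro _ ⟨k, rfl⟩
  exact (h.zpow_left k).eq

/-- In the symmetric group of degree 8, let A be the subgroup generated by a 3-cycle. Then every conjugacy class contains an element g for which A is subnormal in the subgroup generated by A and its conjugate by g, although O_3 of the symmetric group of degree 8 is trivial. -/
theorem result
    (σ : Equiv.Perm (Fin 8)) (hσ : σ.IsThreeCycle) :
    (∀ c : Equiv.Perm (Fin 8), ∃ g : Equiv.Perm (Fin 8), IsConj c g ∧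
      ((Subgroup.zpowers σ).subgroupOf (Subgroup.zpowers σ ⊔ MulAut.conj g • Subgroup.zpowers σ)).IsSubnormal) ∧
    Cfsg.pCore 3 (Equiv.Perm (Fin 8)) = ⊥ := by
  constructor
  · intro c
    obtain ⟨τ, hτ, hc⟩ := exists_tau c
    have hconj : IsConj τ σ := Equiv.Perm.isConj_iff_cycleType_eq.2 (by rw [hτ.cycleType, hσ.cycleType])
    obtain ⟨h, hh⟩ := isConj_iff.1 hconj
    refine ⟨h * c * h⁻¹, isConj_iff.2 ⟨h, rfl⟩, ?_⟩
    have e : MulAut.conj (h * c * h⁻¹) • Subgroup.zpowers σ =
        Subgroup.zpowers ((h * c * h⁻¹) * σ * (h * c * h⁻¹)⁻¹) := by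
      exact MonoidHom.map_zpowers (MulAut.conj (h * c * h⁻¹)).toMonoidHom σ
    rw [e]
    have hcomm : Commute σ ((h * c * h⁻¹) * σ * (h * c * h⁻¹)⁻¹) := by
      rw [← hh]
      have := hc.map (MulAut.conj h)
      simp only [MulAut.conj_apply] at this
      have e2 : h * c * h⁻¹ * (h * τ * h⁻¹) * (h * c * h⁻¹)⁻¹ = h * (c * τ * c⁻¹) * h⁻¹ := by group
      rw [e2]; exact this
    exact (normal_of_commute _ _ hcomm).isSubnormal
  · by_contra hne
    haveI : Nontrivial (Cfsg.pCore 3 (Equiv.Perm (Fin 8))) := (Subgroup.nontrivial_iff_ne_bot _).2 hne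
    have hle := Equiv.Perm.alternatingGroup_le_of_normal (α := Fin 8) (by simp) this
    have hm : (Equiv.swap (0 : Fin 8) 1 * Equiv.swap 2 3) ∈ alternatingGroup (Fin 8) := by
      rw [Equiv.Perm.mem_alternatingGroup]; decide
    obtain ⟨k, hk⟩ := Grp.pCore_isPGroup 3 (Equiv.Perm (Fin 8)) ⟨_, hle hm⟩
    have hk' : (Equiv.swap (0 : Fin 8) 1 * Equiv.swap 2 3) ^ (3 ^ k) = 1 := by
      simpa using congrArg Subtype.val hk
    have h2 : (Equiv.swap (0 : Fin 8) 1 * Equiv.swap 2 3) ^ 2 = 1 := by decide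
    have hodd : Odd (3 ^ k) := Odd.pow (by decide)
    obtain ⟨m, hm2⟩ := hodd
    rw [hm2, pow_succ, pow_mul, h2, one_pow, one_mul] at hk'
    exact absurd hk' (by decide)

end Cfsg.Agent.S4332
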