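import Cfsg.Statements.S4333
import Mathlib
import Cfsg.Agent.Grp.Card
import Cfsg.Agent.Grp.Zipper

set_option autoImplicit false
open Pointwise
open Cfsg

namespace Cfsg.Agent.S4333

/-- Let A be a subgroup of a finite group G. If A is subnormal in the subgroup generated by A and its conjugate by g⁻¹ a g, for every a ∈ A and every g ∈ G, then A is subnormal in G. (A sharpening of Wielandt's subnormality criterion: only conjugates of A by conjugates of elements of A are needed.) -/
theorem result {G : Type*} [Group G] [Finite G]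
    (A : Subgroup G)
    (h : ∀ a ∈ A, ∀ g : G, (A.subgroupOf (A ⊔ MulAut.conj (g⁻¹ * a * g) • A)).IsSubnormal) :
    A.IsSubnormal := by
  suffices H : ∀ V : Subgroup G, A ≤ V → Grp.SnIn A V from Grp.snIn_top_iff.1 (H ⊤ le_top)
  intro V
  induction V using WellFoundedLT.induction with
  | ind V ih =>
    intro hAV
    by_contra hns
    obtain ⟨M, hMV, hM⟩ := Grp.zipper hAV hns (fun W h1 h2 => ih W h2 h1)
    have hAlt : A < V := lt_of_le_of_ne hAV (fun e => hns (e ▸ Grp.SnIn.refl A))
    have hAM : A ≤ M := hM A le_rfl hAlt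
    have key : ∀ a ∈ A, ∀ g ∈ V, g⁻¹ * a * g ∈ Subgroup.normalizer (M : Set G) := by
      intro a ha g hg
      set x := g⁻¹ * a * g with hx
      have hxV : x ∈ V := V.mul_mem (V.mul_mem (V.inv_mem hg) (hAV ha)) hg
      have h1 : Grp.SnIn A (A ⊔ MulAut.conj x • A) := Grp.snIn_iff.2 ⟨le_sup_left, h a ha g⟩
      have h2 : A ⊔ MulAut.conj x • A ≤ V :=
        sup_le hAV (Grp.conj_smul_le_of_mem_normalizer hAV (Subgroup.le_normalizer hxV))
      have h3 : A ⊔ MulAut.conj x • A ≤ M :=
        hM _ le_sup_left (lt_of_le_of_ne h2 fun e => hns (e ▸ h1))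
      have h4 : A ≤ MulAut.conj x⁻¹ • M := by
        intro y hy
        rw [Grp.mem_conj_smul_iff, inv_inv]
        exact h3 (Subgroup.mem_sup_right (Grp.conj_mem_conj_smul x hy))
      have h5 : MulAut.conj x⁻¹ • M ≤ V :=
        Grp.conj_smul_le_of_mem_normalizer hMV.le (Subgroup.le_normalizer (V.inv_mem hxV))
      have h6 : MulAut.conj x⁻¹ • M ≠ V := by
        intro e
        have := Grp.card_conj_smul x⁻¹ M
        rw [e] at this
        exact hMV.ne (Subgroup.eq_of_le_of_card_ge hMV.le this.le)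
      have h7 := hM _ h4 (lt_of_le_of_ne h5 h6)
      have h8 : MulAut.conj x⁻¹ • M = M :=
        Subgroup.eq_of_le_of_card_ge h7 (Grp.card_conj_smul x⁻¹ M).ge
      exact (Subgroup.inv_mem_iff _).1 (Grp.conj_smul_eq_iff_mem_normalizer.1 h8)
    by_cases hV : V ≤ Subgroup.normalizer (M : Set G)
    · exact hns ((ih M hMV hAM).trans (Grp.SnIn.of_le_normalizer hMV.le hV))
    · let K : Subgroup G := sSup {B | ∃ g ∈ V, B = MulAut.conj g • A}
      have hAK : A ≤ K := le_sSup ⟨1, V.one_mem, by simp⟩
      have hK : K ≤ V ⊓ Subgroup.normalizer (M : Set G) := by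
        refine sSup_le ?_
        rintro _ ⟨g, hg, rfl⟩
        refine le_inf (Grp.conj_smul_le_of_mem_normalizer hAV (Subgroup.le_normalizer hg)) ?_
        intro y hy
        rw [Grp.mem_conj_smul_iff] at hy
        have := key _ hy g⁻¹ (V.inv_mem hg)
        simpa [mul_assoc] using this
      have hKV : K < V := lt_of_le_of_lt hK (inf_lt_left.2 hV)
      have hVK : V ≤ Subgroup.normalizer (K : Set G) := by
        refine Grp.le_normalizer_sSup ?_
        rintro g hg _ ⟨k, hk, rfl⟩
        exact ⟨g * k, V.mul_mem hg hk, Grp.conj_smul_conj_smul A g k⟩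
      exact hns ((ih K hKV hAK).trans (Grp.SnIn.of_le_normalizer hKV.le hVK))

end Cfsg.Agent.S4333
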