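import Cfsg.Statements.S4334
import Mathlib
import Cfsg.Agent.Solv.NilpAmb
import Cfsg.Agent.Solv.HallPi
import Cfsg.Agent.Transfer.Frobenius
import Cfsg.Agent.Grp.CardProduct
import Cfsg.Agent.Grp.MinNormal

set_option autoImplicit false
open Cfsg

namespace Cfsg.Agent.S4334

open Subgroup PLocal.Amb

theorem cj_eq_map {G : Type*} [Group G] (g : G) (A : Subgroup G) :
    A.map (MulAut.conj g).toMonoidHom = cj(g, A) := by
  ext x
  exact (mem_cj_iff_exists (g := g) (x := x) (Q := A)).symm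

theorem glue {G : Type*} [Group G] [Finite G] {s : ℕ} [Fact s.Prime] {H L X Y : Subgroup G}
    (hL : L ≤ H) (hX : IsPGroup s X) (hXL : X ≤ 𝐍[L]) (hY : IsSyl s Y ⊤) (hYH : Y ≤ H)
    (hYL : Y ≤ 𝐍[L]) : ∃ g : G, cj(g, L ⊔ X) ≤ H := by
  obtain ⟨g, hg, h⟩ := (hY.mono hYL le_top).exists_cj_le hX hXL
  exact ⟨g, by rw [cj_sup, cj_of_mem_normalizer hg]; exact sup_le hL (h.trans hYH)⟩

theorem relIndex_sup_dvd {G : Type*} [Group G] [Finite G] {A B : Subgroup G} (h : B ≤ 𝐍[A]) :
    A.relIndex (A ⊔ B) ∣ Nat.card B := by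
  haveI := normal_subgroupOf' (sup_le le_normalizer h : A ⊔ B ≤ 𝐍[A])
  have h1 : A.relIndex (A ⊔ B) = A.relIndex B := by
    have h2 := relIndex_sup_right (B.subgroupOf (A ⊔ B)) (A.subgroupOf (A ⊔ B))
    rw [← subgroupOf_sup le_sup_right le_sup_left, sup_comm B A, subgroupOf_self, relIndex_top_right,
      relIndex_subgroupOf le_sup_right] at h2
    exact h2
  rw [h1]
  exact relIndex_dvd_card _ _

/-- Let σ and τ be disjoint sets of primes with union π. Suppose a finite group G has a Hall π-subgroup H which is the direct product of a nilpotent σ-subgroup and a τ-subgroup (two elementwise-commuting subgroups generating H), and that the maximal τ-subgroups of G are pairwise conjugate. Then the maximal π-subgroups of G are pairwise conjugate. -/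
theorem result {G : Type*} [Group G] [Finite G]
    (σ τ π : Set ℕ) (hπ : π = σ ∪ τ) (hd : Disjoint σ τ) (H Hs Ht : Subgroup G) (hH : Cfsg.IsPiHall π H)
    (hs : Cfsg.IsPiSubgroup σ Hs) (ht : Cfsg.IsPiSubgroup τ Ht) (hsn : Group.IsNilpotent Hs)
    (hjoin : Hs ⊔ Ht = H) (hcomm : ∀ a ∈ Hs, ∀ b ∈ Ht, a * b = b * a) (hD : Cfsg.IsDPiGroup τ G) :
    Cfsg.IsDPiGroup π G := by
  have hsH : Hs ≤ H := hjoin ▸ le_sup_left
  have htH : Ht ≤ H := hjoin ▸ le_sup_right
  have hst : Hs ≤ 𝐂[Ht] := fun a ha b hb => (hcomm a ha b hb).symm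
  have hts : Ht ≤ 𝐂[Hs] := fun b hb a ha => hcomm a ha b hb
  have key : ∀ (n : ℕ) (K : Subgroup G), Nat.card K = n → IsPiSubgroup π K →
      ∃ g : G, cj(g, K) ≤ H := by
    intro n
    induction n using Nat.strong_induction_on with
    | _ n ih =>
    intro K hn hK
    by_cases hτ : IsPiSubgroup τ K
    · obtain ⟨M, hKM, hM⟩ := exists_maximal_ge_of_wellFoundedGT _ _ hτ
      have hHt : IsPiHall τ Ht := by
        refine ⟨ht, fun p hp hpτ hdv => ?_⟩
        rw [← relIndex_mul_index htH] at hdv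
        rcases (Nat.Prime.dvd_mul hp).1 hdv with h | h
        · rw [← hjoin, sup_comm] at h
          exact Set.disjoint_left.1 hd (hs p hp (h.trans (relIndex_sup_dvd
            (hst.trans (centralizer_le_normalizer' _))))) hpτ
        · exact hH.2 p hp (hπ ▸ Or.inr hpτ) h
      have hmax : Maximal (IsPiSubgroup τ) Ht := ⟨ht, fun M' hM' hle =>
        (Solv.Pi.hallOf_eq_of_le (Solv.Pi.isPiHallOf_top.2 hHt) hle le_top hM').le⟩
      obtain ⟨g, hg⟩ := hD M Ht hM hmax
      rw [cj_eq_map] at hg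
      exact ⟨g, (cj_mono g hKM).trans (hg ▸ htH)⟩
    obtain ⟨p, hp, hpK, hpτ⟩ : ∃ p : ℕ, p.Prime ∧ p ∣ Nat.card K ∧ p ∉ τ := by
      by_contra hc
      push Not at hc
      exact hτ hc
    have hpπ := hK p hp hpK
    haveI := Fact.mk hp
    have hP := Solv.NA.isSyl_pCoreOf (p := p) hsn
    set P := pCoreOf p Hs
    set D := 𝐎[p, Hs] ⊔ Ht with hDdef
    have hDP : D ≤ 𝐂[P] := sup_le (Solv.NA.pRes_le_centralizer hsn hP.pgrp hP.le)
      (hts.trans (centralizer_anti hP.le))
    have hPD : P ≤ 𝐂[D] := le_centralizer_iff.1 hDP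
    have hH' : D ⊔ P = H := by
      rw [hDdef, sup_right_comm, Solv.NA.pRes_sup_pCoreOf hsn, hjoin]
    have hDH : D ≤ H := hH' ▸ le_sup_left
    have hPH : P ≤ H := hH' ▸ le_sup_right
    have hPG : IsSyl p P ⊤ := by
      refine isSyl_of_not_dvd_relIndex hP.pgrp le_top fun h => ?_
      rw [relIndex_top_right, ← relIndex_mul_index hPH, ← relIndex_mul_relIndex _ _ _ hP.le hsH] at h
      rcases (Nat.Prime.dvd_mul hp).1 h with h | h
      · rcases (Nat.Prime.dvd_mul hp).1 h with h | h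
        · exact hP.not_dvd_relIndex h
        · rw [← hjoin] at h
          exact hpτ (ht p hp (h.trans (relIndex_sup_dvd (hts.trans (centralizer_le_normalizer' _)))))
      · exact hH.2 p hp hpπ h
    have hO : 𝐎[p, H] ≤ D := hH' ▸ pRes_sup_le hP.pgrp (hPD.trans (centralizer_le_normalizer' _))
    have hHP : H ≤ 𝐍[P] := hH' ▸ sup_le (hDP.trans (centralizer_le_normalizer' _)) le_normalizer
    have hnil : HasNormalPComplement p K := by
      by_contra hc
      obtain ⟨B, q, y, hB, hq, hqp, ⟨k, hk⟩, hyN, hyC⟩ :=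
        Transfer.exists_qElement_of_not_hasNormalPComplement hc
      haveI := Fact.mk hq
      rw [normalizer_eq_subgroupOf, mem_subgroupOf] at hyN
      rw [centralizer_eq_subgroupOf, mem_subgroupOf] at hyC
      have hB' := hB.map K.subtype
      set B' := B.map K.subtype
      have hk' : orderOf (y : G) = q ^ k := by rw [orderOf_coe, hk]
      have hqπ : q ∈ π := by
        refine hK q hq ((dvd_pow_self q ?_).trans (hk ▸ orderOf_dvd_natCard y))
        rintro rfl
        rw [pow_zero, orderOf_eq_one_iff] at hk'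
        exact hyC (hk' ▸ one_mem _)
      obtain ⟨g, -, hg⟩ := hPG.exists_cj_le hB' le_top
      obtain ⟨Y, hY⟩ := exists_isSyl q D
      have hYG : IsSyl q Y ⊤ := by
        refine isSyl_of_not_dvd_relIndex hY.pgrp le_top fun h => ?_
        rw [relIndex_top_right, ← relIndex_mul_index (hY.le.trans hDH),
          ← relIndex_mul_relIndex _ _ _ hY.le hDH] at h
        rcases (Nat.Prime.dvd_mul hq).1 h with h | h
        · rcases (Nat.Prime.dvd_mul hq).1 h with h | h
          · exact hY.not_dvd_relIndex h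
          · rw [← hH'] at h
            have h2 := h.trans (relIndex_sup_dvd (hPD.trans (centralizer_le_normalizer' _)))
            rw [hP.card_eq_pow] at h2
            exact hqp ((Nat.prime_dvd_prime_iff_eq hq hp).1 (hq.dvd_of_dvd_pow h2))
        · exact hH.2 q hq hqπ h
      have hy : IsPGroup q (zpowers (y : G)) := isPGroup_zpowers ⟨k, hk' ▸ pow_orderOf_eq_one _⟩
      obtain ⟨g', hg'⟩ := glue (hg.trans hPH) (isPGroup_cj g hy)
        (by rw [normalizer_cj]; exact cj_mono g (zpowers_le.2 hyN)) hYG (hY.le.trans hDH)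
        (hY.le.trans (hDP.trans ((centralizer_anti hg).trans (centralizer_le_normalizer' _))))
      rw [← cj_sup, ← cj_mul, cj_sup, sup_le_iff] at hg'
      have h1 : cj(g' * g, B') ≤ P :=
        (hPG.mono hPH le_top).le_of_normalizes (isPGroup_cj _ hB') hg'.1 (hg'.1.trans hHP)
      have h2 : g' * g * y * (g' * g)⁻¹ ∈ D := by
        refine hO (mem_pRes (hg'.2 (conj_mem_cj _ (mem_zpowers _))) ?_)
        rw [orderOf_conj', hk']
        exact ((Nat.coprime_primes hq hp).2 hqp).pow_left k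
      have h3 := centralizer_anti h1 (hDP h2)
      rw [centralizer_cj, conj_mem_cj_iff] at h3
      exact hyC h3
    have hcop : (Nat.card ↥𝐎[p, K]).Coprime p := by
      have := Transfer.hasNormalPComplement_iff_coprime.1 hnil
      rwa [← pRes_subgroupOf, Nat.card_congr (subgroupOfEquivOfLe (pRes_le p K)).toEquiv] at this
    have hlt : 𝐎[p, K] < K := by
      refine lt_of_le_of_ne (pRes_le p K) fun h => ?_
      rw [h] at hcop
      exact hp.one_lt.ne' (Nat.eq_one_of_dvd_coprimes hcop hpK dvd_rfl)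
    obtain ⟨g, hg⟩ := ih _ (hn ▸ Grp.card_lt_of_lt hlt) _ rfl fun r hr h =>
      hK r hr (h.trans (card_dvd_of_le hlt.le))
    obtain ⟨T, hT⟩ := exists_isSyl p K
    have h1 : cj(g, 𝐎[p, K]) ≤ D := fun x hx => hO (mem_pRes (hg hx)
      (Transfer.coprime_orderOf_of_mem (by rwa [card_cj]) hx))
    obtain ⟨g', hg'⟩ := glue hg (isPGroup_cj g hT.pgrp)
      (by rw [normalizer_cj]; exact cj_mono g (hT.le.trans (le_normalizer_pRes p K))) hPG hPH
      (hPD.trans ((centralizer_anti h1).trans (centralizer_le_normalizer' _)))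
    rw [← cj_sup, ← cj_mul, hT.pRes_sup] at hg'
    exact ⟨_, hg'⟩
  have key2 : ∀ A : Subgroup G, Maximal (IsPiSubgroup π) A → ∃ g : G, cj(g, A) = H := by
    intro A hA
    obtain ⟨g, hg⟩ := key _ A rfl hA.1
    refine ⟨g, le_antisymm hg (le_cj_iff.2 (hA.2 (fun r hr h => hH.1 r hr ?_) (cj_le_iff.1 hg)))⟩
    rwa [card_cj] at h
  intro A B hA hB
  obtain ⟨a, ha⟩ := key2 A hA
  obtain ⟨b, hb⟩ := key2 B hB
  exact ⟨b⁻¹ * a, by rw [cj_eq_map, cj_mul, ha, ← hb, cj_inv_cj]⟩

end Cfsg.Agent.S4334
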