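import Cfsg.Statements.S4337
import Mathlib
import Cfsg.Agent.Char.Burnside

set_option autoImplicit false
open Cfsg

namespace Cfsg.Agent.S4337

open Equiv

theorem comp {α : Type*} [DecidableEq α] (E : Finset (α × α)) : ∀ S : Finset α,
    ∃ T : Finset α, S ⊆ T ∧ T.card ≤ S.card + E.card ∧ ∀ e ∈ E, (e.1 ∈ T ↔ e.2 ∈ T) := by
  induction E using Finset.strongInduction with
  | H E ih =>
    intro S
    by_cases h : ∀ e ∈ E, (e.1 ∈ S ↔ e.2 ∈ S)
    · exact ⟨S, subset_rfl, by omega, h⟩
    push Not at h
    obtain ⟨e, he, h⟩ := h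
    obtain ⟨T, h1, h2, h3⟩ := ih (E.erase e) (Finset.erase_ssubset he) (insert e.1 (insert e.2 S))
    refine ⟨T, (Finset.subset_insert _ _).trans ((Finset.subset_insert _ _).trans h1), ?_, ?_⟩
    · rw [Finset.card_erase_of_mem he] at h2
      have := Finset.card_pos.2 ⟨e, he⟩
      have : (insert e.1 (insert e.2 S)).card ≤ S.card + 1 := by
        rcases h with ⟨h, -⟩ | ⟨-, h⟩
        · rw [Finset.insert_eq_of_mem (Finset.mem_insert_of_mem h)]
          exact Finset.card_insert_le _ _
        · rw [Finset.insert_eq_of_mem h]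
          exact Finset.card_insert_le _ _
      omega
    · intro e' he'
      by_cases h4 : e' = e
      · subst h4
        exact iff_of_true (h1 (by simp)) (h1 (by simp))
      · exact h3 e' (Finset.mem_erase.2 ⟨h4, he'⟩)


/-- In a finite symmetric group, any three transpositions generate a solvable subgroup. -/
theorem result (n : ℕ) (a b c : Equiv.Perm (Fin n))
    (ha : a.IsSwap) (hb : b.IsSwap) (hc : c.IsSwap) :
    Group.IsSolvable (Subgroup.closure ({a, b, c} : Set (Equiv.Perm (Fin n)))) := by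
  obtain ⟨a1, a2, -, rfl⟩ := ha
  obtain ⟨b1, b2, -, rfl⟩ := hb
  obtain ⟨c1, c2, -, rfl⟩ := hc
  set G := Subgroup.closure ({swap a1 a2, swap b1 b2, swap c1 c2} : Set (Perm (Fin n))) with hG
  have key : ∀ x : Fin n, ∃ k, ∀ g ∈ derivedSeries G k, g.1 x = x := by
    intro x
    obtain ⟨T, h1, h2, h3⟩ := comp {(a1, a2), (b1, b2), (c1, c2)} {x}
    have h4 : T.card ≤ 4 := by
      have : ({(a1, a2), (b1, b2), (c1, c2)} : Finset (Fin n × Fin n)).card ≤ 3 :=
        Finset.card_le_three
      simp only [Finset.card_singleton] at h2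
      omega
    have hs : ∀ p q, (p ∈ T ↔ q ∈ T) → ∀ y, swap p q y ∈ T ↔ y ∈ T := by
      intro p q h y
      rw [swap_apply_def]
      split_ifs with e1 e2
      · rw [e1, h]
      · rw [e2, h]
      · rfl
    have hinv : ∀ g ∈ G, ∀ y, g y ∈ T ↔ y ∈ T := by
      intro g hg
      induction hg using Subgroup.closure_induction with
      | mem g hg =>
        rcases hg with rfl | rfl | rfl
        · exact hs _ _ (h3 (a1, a2) (by simp))
        · exact hs _ _ (h3 (b1, b2) (by simp))
        · exact hs _ _ (h3 (c1, c2) (by simp))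
      | one => simp
      | mul g h _ _ h5 h6 => intro y; rw [Perm.mul_apply, h5, h6]
      | inv g _ h5 => intro y; rw [← h5]; simp
    let φ : G →* Perm T :=
      { toFun := fun g => g.1.subtypePerm (hinv g.1 g.2)
        map_one' := rfl
        map_mul' := fun _ _ => rfl }
    have hsol : Group.IsSolvable (Perm T) := by
      refine Char.isSolvable_of_card_dvd_pow_mul_pow (p := 2) (q := 3) (a := 3) (b := 1)
        Nat.prime_two Nat.prime_three _ ?_
      rw [Nat.card_perm, Nat.card_eq_fintype_card, Fintype.card_coe]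
      exact Nat.factorial_dvd_factorial h4
    obtain ⟨k, hk⟩ := hsol
    refine ⟨k, fun g hg => ?_⟩
    have := map_derivedSeries_le_derivedSeries φ k ⟨g, hg, rfl⟩
    rw [hk, Subgroup.mem_bot] at this
    exact congrArg (fun s : Perm T => (s ⟨x, h1 (by simp)⟩).1) this
  choose k hk using key
  refine ⟨⟨Finset.univ.sup k, ?_⟩⟩
  rw [eq_bot_iff]
  intro g hg
  rw [Subgroup.mem_bot]
  ext x
  rw [hk x g (derivedSeries_antitone _ (Finset.le_sup (Finset.mem_univ x)) hg)]
  rfl

end Cfsg.Agent.S4337
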