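import Cfsg.Statements.S4341
import Mathlib
import Cfsg.Agent.FGS.SylowCount

set_option autoImplicit false
open Cfsg

namespace Cfsg.Agent.S4341

/-- Let K be a normal subgroup of a finite group G, p a prime and P a Sylow p-subgroup of G; let N be the normalizer of P ∩ K inside the subgroup PK. Then the number of Sylow p-subgroups of G equals the product of the numbers of Sylow p-subgroups of G/K, of K, and of N/(P ∩ K). (The normality of P ∩ K in N, which always holds, is assumed as a hypothesis so that the quotient can be formed.) -/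
theorem result {G : Type*} [Group G] [Finite G]
    (p : ℕ) [Fact p.Prime] (K : Subgroup G) [K.Normal] (P : Sylow p G) (N : Subgroup G)
    (hN : N = ((P : Subgroup G) ⊔ K) ⊓ Subgroup.normalizer (((P : Subgroup G) ⊓ K : Subgroup G) : Set G))
    [hn : (((P : Subgroup G) ⊓ K).subgroupOf N).Normal] :
    Nat.card (Sylow p G) =
      Nat.card (Sylow p (G ⧸ K)) * Nat.card (Sylow p K) * Nat.card (Sylow p (N ⧸ ((P : Subgroup G) ⊓ K).subgroupOf N)) := by
  have h0 := FGS.card_sylow_quotient_of_isPGroup (p := p) (((P : Subgroup G) ⊓ K).subgroupOf N)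
    (P.isPGroup'.to_inf_left.comap_subtype)
  rw [h0]
  clear h0 hn
  set D := (P : Subgroup G) ⊓ K with hD
  have hDP : IsPGroup p D := P.isPGroup'.to_inf_left
  have hPN : (P : Subgroup G) ≤ N := by
    rw [hN]
    refine le_inf le_sup_left ?_
    exact (le_inf Subgroup.le_normalizer Subgroup.le_normalizer_of_normal).trans
      Subgroup.inf_normalizer_le_normalizer_inf
  rw [FGS.card_sylow_eq_quotient_mul K P, mul_assoc,
    FGS.card_sylow_subgroup (inf_le_right : D ≤ K) hDP (PLocal.RelSylow.sylow_inf_normal P K),
    FGS.card_sylow_subgroup hPN P.isPGroup' (PLocal.RelSylow.sylow_not_dvd_relIndex P _ hPN)]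
  congr 1
  have h1 : (Subgroup.normalizer ((P : Subgroup G) : Set G)).relIndex N =
      (Subgroup.normalizer ((P : Subgroup G) : Set G)).relIndex
        (Subgroup.normalizer (D : Set G) ⊓ K) := by
    refine FGS.relIndex_eq_of_forall_exists ?_ ?_
    · rw [hN]
      exact le_inf (inf_le_right.trans le_sup_right) inf_le_left
    · intro x hx
      have hx' := hx
      rw [hN, sup_comm] at hx'
      obtain ⟨k, hk, a, ha, rfl⟩ :=
        (Grp.mem_sup_of_le_normalizer' Subgroup.le_normalizer_of_normal).1 hx'.1
      refine ⟨k, ⟨?_, hk⟩, by simpa using Subgroup.le_normalizer ha⟩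
      have h2 : a ∈ Subgroup.normalizer (D : Set G) := by
        have := hPN ha
        rw [hN] at this
        exact this.2
      simpa using Subgroup.mul_mem _ hx'.2 (Subgroup.inv_mem _ h2)
  have h3 : Subgroup.normalizer ((P : Subgroup G) : Set G) ≤ Subgroup.normalizer (D : Set G) :=
    (le_inf le_rfl Subgroup.le_normalizer_of_normal).trans
      Subgroup.inf_normalizer_le_normalizer_inf
  rw [h1, mul_comm, Subgroup.relIndex_inf_mul_relIndex, inf_eq_left.2 h3]

end Cfsg.Agent.S4341
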