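import Cfsg.Statements.S4342
import Mathlib
import Cfsg.Agent.Grp.Card

set_option autoImplicit false
open Cfsg

namespace Cfsg.Agent.S4342

/-- Let H be a normal subgroup of a finite group G and p a prime not dividing the index of H. Then the number of Sylow p-subgroups of H/Z(H) equals the number of Sylow p-subgroups of G. -/
theorem result {G : Type*} [Group G] [Finite G]
    (p : ℕ) [Fact p.Prime] (H : Subgroup G) [H.Normal] (hp : ¬ p ∣ H.index) :
    Nat.card (Sylow p (H ⧸ Subgroup.center H)) = Nat.card (Sylow p G) := by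
  have h1 : Nat.card (Sylow p H) = Nat.card (Sylow p (H ⧸ Subgroup.center H)) := by
    refine Nat.card_congr (Equiv.ofBijective
      (fun P : Sylow p H => P.mapSurjective (QuotientGroup.mk'_surjective (Subgroup.center H)))
      ⟨?_, Sylow.mapSurjective_surjective _ p⟩)
    intro P Q h
    have h2 : (P : Subgroup H).map (QuotientGroup.mk' _) = (Q : Subgroup H).map (QuotientGroup.mk' _) :=
      congrArg (fun R : Sylow p (H ⧸ Subgroup.center H) => (R : Subgroup (H ⧸ Subgroup.center H))) h
    have h3 : (P : Subgroup H) ≤ Subgroup.normalizer ((Q : Subgroup H) : Set H) := by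
      have h4 : (P : Subgroup H) ≤ (Q : Subgroup H) ⊔ Subgroup.center H := by
        have := Subgroup.le_comap_map (QuotientGroup.mk' (Subgroup.center H)) (P : Subgroup H)
        rwa [h2, Subgroup.comap_map_eq, QuotientGroup.ker_mk'] at this
      exact h4.trans (sup_le Subgroup.le_normalizer (Subgroup.center_le_normalizer _))
    have h5 := P.isPGroup'.inf_normalizer_sylow Q
    have h6 : (P : Subgroup H) ≤ Q := by
      have : (P : Subgroup H) ⊓ Subgroup.normalizer ((Q : Subgroup H) : Set H) = P := inf_eq_left.2 h3
      have h7 : (P : Subgroup H) = (P : Subgroup H) ⊓ (Q : Subgroup H) := this.symm.trans h5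
      rw [h7]; exact inf_le_right
    exact Sylow.ext (P.is_maximal' Q.isPGroup' h6).symm
  have hle : ∀ P : Sylow p G, (P : Subgroup G) ≤ H := by
    intro P
    apply Grp.le_normal_of_coprime_card_index
    obtain ⟨n, hn⟩ := IsPGroup.iff_card.mp P.isPGroup'
    rw [hn]
    exact Nat.Coprime.pow_left _ ((Nat.Prime.coprime_iff_not_dvd Fact.out).2 hp)
  rw [← h1]
  symm
  refine Nat.card_congr (Equiv.ofBijective (fun P : Sylow p G => P.subtype (hle P)) ⟨?_, ?_⟩)
  · intro P Q h
    exact Sylow.subtype_injective h
  · intro Q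
    obtain ⟨P, hP⟩ := Q.exists_comap_subtype_eq
    exact ⟨P, Sylow.ext hP⟩

end Cfsg.Agent.S4342
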