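import Cfsg.Statements.S4343
import Mathlib
import Cfsg.Agent.Grp.Card
import Cfsg.Agent.Grp.Cores
import Cfsg.Agent.Grp.PFrattini

set_option autoImplicit false
open Cfsg

namespace Cfsg.Agent.S4343

open scoped commutatorElement

open MulAction in
/-- If there are fewer than `p ^ 2` Sylow subgroups, two distinct ones meet in index `p`. -/
theorem relIndex_eq {S : Type*} [Group S] [Finite S] (p : ℕ) [hp : Fact p.Prime]
    (hn : Nat.card (Sylow p S) < p ^ 2) (P Q : Sylow p S) (hne : P ≠ Q) :
    (Q : Subgroup S).relIndex P = p := by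
  have h1 : (Q : Subgroup S).relIndex P
      = (Subgroup.normalizer ((Q : Subgroup S) : Set S)).relIndex P := by
    have := P.isPGroup'.inf_normalizer_sylow Q
    rw [← Subgroup.inf_relIndex_left, ← Subgroup.inf_relIndex_left (P : Subgroup S)
      (Subgroup.normalizer ((Q : Subgroup S) : Set S))]
    congr 1
    exact this.symm
  have h2 : (Subgroup.normalizer ((Q : Subgroup S) : Set S)).relIndex P
      = Nat.card (orbit (P : Subgroup S) Q) := by
    have h0 : Subgroup.normalizer ((Q : Subgroup S) : Set S) = stabilizer S Q :=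
      (Sylow.stabilizer_eq_normalizer Q).symm
    rw [Subgroup.relIndex, h0]
    have : (stabilizer S Q).subgroupOf P = stabilizer (P : Subgroup S) Q := by
      ext x; rfl
    rw [this, MulAction.index_stabilizer]
    rfl
  have h3 : Nat.card (orbit (P : Subgroup S) Q) ≤ Nat.card (Sylow p S) :=
    Nat.card_le_card_of_injective _ Subtype.val_injective
  obtain ⟨k, hk⟩ := P.isPGroup'.index ((Q : Subgroup S).subgroupOf P)
  change (Q : Subgroup S).relIndex P = _ at hk
  have h4 : p ^ k < p ^ 2 := by rw [← hk, h1, h2]; omega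
  have h5 : k < 2 := (Nat.pow_lt_pow_iff_right hp.out.one_lt).1 h4
  have h6 : k ≠ 0 := by
    rintro rfl
    rw [pow_zero, Subgroup.relIndex_eq_one] at hk
    exact hne (Sylow.ext (P.is_maximal' Q.isPGroup' hk).symm)
  rw [hk, show k = 1 by omega, pow_one]


/-- Let S be a finite non-abelian simple group and p a prime dividing its order. If S has fewer than p² Sylow p-subgroups, then its Sylow p-subgroups have order p. -/
theorem result {S : Type*} [Group S] [Finite S]
    [IsSimpleGroup S] (hS : ¬ IsMulCommutative S) (p : ℕ) [Fact p.Prime] (hp : p ∣ Nat.card S)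
    (hn : Nat.card (Sylow p S) < p ^ 2) (P : Sylow p S) : Nat.card P = p := by
  have hP0 : (P : Subgroup S) ≠ ⊥ := P.ne_bot_of_dvd_card hp
  have hnn : ¬ (P : Subgroup S).Normal := by
    intro h
    rcases h.eq_bot_or_eq_top with h | h
    · exact hP0 h
    · have hG : IsPGroup p S := by
        have := P.isPGroup'
        rw [h] at this
        exact this.of_equiv Subgroup.topEquiv
      have := hG.isNilpotent
      exact hS inferInstance
  obtain ⟨Q, hQ⟩ : ∃ Q : Sylow p S, P ≠ Q := by
    by_contra hc
    push Not at hc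
    have : Subsingleton (Sylow p S) := ⟨fun a b => (hc a).symm.trans (hc b)⟩
    exact hnn P.normal_of_subsingleton
  -- D = P ⊓ Q is normalised by ... show it lies in every Sylow subgroup
  have hcore : pCore p S = ⊥ := by
    rcases (inferInstance : (pCore p S).Normal).eq_bot_or_eq_top with h | h
    · exact h
    · exfalso
      apply hnn
      have : (P : Subgroup S) = ⊤ := top_le_iff.1 (h ▸ Grp.pCore_le_sylow P)
      rw [this]; infer_instance
  -- every Sylow subgroup is abelian
  have hab : ∀ R : Sylow p S, ∀ x ∈ (R : Subgroup S), ∀ y ∈ (R : Subgroup S), x * y = y * x := by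
    intro R x hx y hy
    have : ⁅x, y⁆ ∈ pCore p S := by
      rw [Grp.pCore_eq_iInf_sylow, Subgroup.mem_iInf]
      intro T
      by_cases hT : R = T
      · subst hT
        rw [commutatorElement_def]
        exact Subgroup.mul_mem _ (Subgroup.mul_mem _ (Subgroup.mul_mem _ hx hy)
          (Subgroup.inv_mem _ hx)) (Subgroup.inv_mem _ hy)
      · have hi := relIndex_eq p hn R T hT
        have hco : IsCoatom ((T : Subgroup S).subgroupOf R) := by
          change ((T : Subgroup S).subgroupOf R).index = p at hi
          refine ⟨fun h => ?_, fun K hK => ?_⟩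
          · rw [h, Subgroup.index_top] at hi
            exact (Fact.out : p.Prime).one_lt.ne hi
          · have h1 := Subgroup.index_dvd_of_le hK.le
            rw [hi, Nat.dvd_prime Fact.out] at h1
            rcases h1 with h1 | h1
            · exact Subgroup.index_eq_one.1 h1
            · exfalso
              have h2 := Subgroup.relIndex_mul_index hK.le
              rw [hi, h1, mul_eq_right₀ (Fact.out : p.Prime).ne_zero, Subgroup.relIndex_eq_one] at h2
              exact hK.not_ge h2
        have := Grp.PFrattini.commutator_le_of_isCoatom R.isPGroup' hco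
          (Subgroup.commutator_mem_commutator (Subgroup.mem_top (⟨x, hx⟩ : R))
            (Subgroup.mem_top (⟨y, hy⟩ : R)))
        exact this
    rw [hcore, Subgroup.mem_bot, commutatorElement_eq_one_iff_mul_comm] at this
    exact this
  have hD : (P : Subgroup S) ⊓ Q = ⊥ := by
    rw [← le_bot_iff, ← hcore, Grp.pCore_eq_iInf_sylow, le_iInf_iff]
    intro T
    set C := Subgroup.centralizer (((P : Subgroup S) ⊓ Q : Subgroup S) : Set S) with hC
    have hPC : (P : Subgroup S) ≤ C := fun x hx y hy => hab P y hy.1 x hx
    have hQC : (Q : Subgroup S) ≤ C := fun x hx y hy => hab Q y hy.2 x hx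
    obtain ⟨R, hR⟩ := (T.isPGroup'.comap_subtype (K := C)).exists_le_sylow
    obtain ⟨c, hc⟩ := MulAction.exists_smul_eq C R (P.subtype hPC)
    have h1 : ((((c : S) • T : Sylow p S) : Subgroup S) ⊓ Q) ≤ P := by
      intro x hx
      obtain ⟨hxT, hxQ⟩ := Subgroup.mem_inf.1 hx
      have hxC := hQC hxQ
      rw [Sylow.coe_subgroup_smul, Grp.mem_conj_smul_iff] at hxT
      have h2 : c⁻¹ * ⟨x, hxC⟩ * c ∈ (R : Subgroup C) := hR hxT
      have h3 : (⟨x, hxC⟩ : C) ∈ ((c • R : Sylow p C) : Subgroup C) := by
        rw [Sylow.coe_subgroup_smul, Grp.mem_conj_smul_iff]; exact h2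
      rw [hc] at h3
      exact h3
    have hne : Q ≠ (c : S) • T := by
      intro h
      rw [← h, inf_idem] at h1
      exact hQ (Sylow.ext (Q.is_maximal' P.isPGroup' h1))
    have h4 := relIndex_eq p hn Q _ hne
    have h5 := relIndex_eq p hn Q P hQ.symm
    have h6 : (((c : S) • T : Sylow p S) : Subgroup S).subgroupOf Q = (P : Subgroup S).subgroupOf Q := by
      have hle : (((c : S) • T : Sylow p S) : Subgroup S).subgroupOf Q ≤ (P : Subgroup S).subgroupOf Q :=
        fun x hx => h1 ⟨hx, x.2⟩
      have h2 := Subgroup.relIndex_mul_index hle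
      rw [Subgroup.relIndex] at h4 h5
      rw [h4, h5, mul_eq_right₀ (Fact.out : p.Prime).ne_zero, Subgroup.relIndex_eq_one] at h2
      exact le_antisymm hle h2
    intro x hx
    have h7 : (⟨x, hx.2⟩ : (Q : Subgroup S)) ∈ (P : Subgroup S).subgroupOf Q := hx.1
    rw [← h6, Subgroup.mem_subgroupOf, Sylow.coe_subgroup_smul, Grp.mem_conj_smul_iff] at h7
    have h8 : x * c = c * x := c.2 x hx
    simp only at h7
    rwa [mul_assoc, h8, inv_mul_cancel_left] at h7
  have h9 := relIndex_eq p hn P Q hQ
  rw [← Subgroup.inf_relIndex_left, hD, Subgroup.relIndex_bot_left] at h9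
  exact h9

end Cfsg.Agent.S4343
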