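import Cfsg.Statements.S4344
import Mathlib
import Cfsg.Agent.Grp.Cores

set_option autoImplicit false
open Cfsg

namespace Cfsg.Agent.S4344

/-- Let S be a finite non-abelian simple group, M a maximal subgroup of S and C a cyclic normal subgroup of M. If a Sylow p-subgroup P of S (for a prime p dividing the order of S) is contained in C, then the number of Sylow p-subgroups of S equals the index of M. -/
theorem result {S : Type*} [Group S] [Finite S]
    [IsSimpleGroup S] (hS : ¬ IsMulCommutative S) (p : ℕ) [Fact p.Prime] (hp : p ∣ Nat.card S)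
    (M : Subgroup S) (hM : IsCoatom M) (C : Subgroup S) (hCM : C ≤ M) (hCn : (C.subgroupOf M).Normal)
    (hC : IsCyclic C) (P : Sylow p S) (hP : (P : Subgroup S) ≤ C) :
    Nat.card (Sylow p S) = M.index := by
  rw [P.card_eq_index_normalizer]
  congr 1
  have hMN : M ≤ Subgroup.normalizer ((P : Subgroup S) : Set S) := by
    have hMC : M ≤ Subgroup.normalizer (C : Set S) :=
      (Subgroup.normal_subgroupOf_iff_le_normalizer hCM).1 hCn
    have hchar : ((P : Subgroup S).subgroupOf C).Characteristic := by
      rw [Subgroup.characteristic_iff_map_le]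
      intro φ
      obtain ⟨g, hg⟩ := IsCyclic.exists_generator (α := C)
      obtain ⟨m, hm⟩ := hg (φ g)
      rintro _ ⟨x, hx, rfl⟩
      obtain ⟨n, rfl⟩ := hg x
      have : φ (g ^ n) = (g ^ n) ^ m := by
        simp only at hm
        rw [map_zpow, ← hm, ← zpow_mul, ← zpow_mul, mul_comm]
      change φ (g ^ n) ∈ _
      rw [this]
      exact Subgroup.zpow_mem _ hx m
    have := Grp.normalizer_le_normalizer_map_of_characteristic C ((P : Subgroup S).subgroupOf C)
    rw [Subgroup.subgroupOf_map_subtype, inf_eq_left.2 hP] at this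
    exact hMC.trans this
  have hne : Subgroup.normalizer ((P : Subgroup S) : Set S) ≠ ⊤ := by
    intro h
    have hn : (P : Subgroup S).Normal := Subgroup.normalizer_eq_top_iff.1 h
    rcases hn.eq_bot_or_eq_top with h | h
    · exact P.ne_bot_of_dvd_card hp h
    · exact hM.1 (top_le_iff.1 (h ▸ hP.trans hCM))
  exact (hM.le_iff.1 hMN |>.resolve_left hne)

end Cfsg.Agent.S4344
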