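import Cfsg.Statements.S4345
import Mathlib
import Cfsg.Agent.FGS.SylowCount
import Cfsg.Agent.Grp.MinNormal

set_option autoImplicit false
open Cfsg

namespace Cfsg.Agent.S4345

universe u

theorem aux (p ℓ : ℕ) [Fact p.Prime] (hℓ : ℓ.Prime) (G : Type u) [Group G] [Finite G] :
    Group.IsSolvable G → ℓ ^ (Nat.card (Sylow p G)).factorization ℓ ≡ 1 [MOD p] := by
  refine Grp.card_induction (P := fun G _ _ => Group.IsSolvable G →
    ℓ ^ (Nat.card (Sylow p G)).factorization ℓ ≡ 1 [MOD p]) ?_ G
  intro G _ _ ih hG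
  rcases subsingleton_or_nontrivial G with h | h
  · have : Subsingleton (Sylow p G) := ⟨fun a b => Sylow.ext (Subsingleton.elim _ _)⟩
    rw [Nat.card_of_subsingleton (default : Sylow p G)]
    simp [Nat.ModEq]
  · obtain ⟨q, K, hq, hKn, hK0, -, -, hKq, -⟩ := Grp.exists_minNormal_elementaryAbelian G
    have := Fact.mk hq
    obtain ⟨P⟩ : Nonempty (Sylow p G) := inferInstance
    have h1 := ih (G ⧸ K) (Grp.card_quotient_lt K hK0) inferInstance
    obtain ⟨k, hk⟩ := hKq.index ((Subgroup.normalizer ((P : Subgroup G) : Set G)).subgroupOf K)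
    change (Subgroup.normalizer ((P : Subgroup G) : Set G)).relIndex K = _ at hk
    have h2 : q ^ k ≡ 1 [MOD p] := by
      rw [← hk, ← FGS.card_sylow_sup K P]
      exact card_sylow_modEq_one p _
    rw [FGS.card_sylow_eq_quotient_mul K P, hk,
      Nat.factorization_mul Nat.card_pos.ne' (pow_ne_zero _ hq.ne_zero), Finsupp.add_apply, pow_add]
    have h3 : ℓ ^ (q ^ k).factorization ℓ ≡ 1 [MOD p] := by
      rw [hq.factorization_pow]
      by_cases hql : q = ℓ
      · subst hql; simpa using h2
      · simp [hql, Nat.ModEq]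
    simpa using h1.mul h3


/-- Let G be a finite solvable group and p, ℓ primes. Then the largest power of ℓ dividing the number of Sylow p-subgroups of G is congruent to 1 modulo p. -/
theorem result {G : Type*} [Group G] [Finite G]
    (hG : Group.IsSolvable G) (p ℓ : ℕ) [Fact p.Prime] (hℓ : ℓ.Prime) :
    ℓ ^ (Nat.card (Sylow p G)).factorization ℓ ≡ 1 [MOD p] := by
  exact aux p ℓ hℓ G hG

end Cfsg.Agent.S4345
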