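import Cfsg.Statements.S4346
import Cfsg.Agent.Small.Syl22b
import Cfsg.Agent.S4341
import Cfsg.Agent.Grp.Card
import Cfsg.Agent.Grp.ConjCount
import Cfsg.Agent.PLocal.SigCoprime

set_option autoImplicit false
open Cfsg

namespace Cfsg.Agent.S4346

theorem coprime_case {G : Type*} [Group G] [Finite G] (K : Subgroup G) [K.Normal] (P : Sylow 3 G)
    (h1 : (P : Subgroup G) ⊔ K = ⊤) (h2 : (P : Subgroup G) ⊓ K = ⊥)
    (h22 : Nat.card (Sylow 3 G) = 22) : False := by
  have hK3 : ¬ 3 ∣ Nat.card K := by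
    have h := (Cfsg.Agent.PLocal.Amb.isSyl_top P).inf_of_le (N := K) le_top
      (by rw [Subgroup.normalizer_eq_top])
    have h3 := h.not_dvd_relIndex
    rwa [h2, Subgroup.relIndex_bot_left] at h3
  have hcop := Cfsg.Agent.PLocal.Sig.cop_of_isPGroup P.isPGroup' hK3
  have hAK : (P : Subgroup G) ≤ Subgroup.normalizer (K : Set G) := by
    rw [Subgroup.normalizer_eq_top]; exact le_top
  have hs : Group.IsSolvable (P : Subgroup G) ∨ Group.IsSolvable K := by
    have := P.isPGroup'.isNilpotent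
    exact Or.inl inferInstance
  set N := Subgroup.normalizer ((P : Subgroup G) : Set G) with hN
  have hNi : N.index = 22 := by rw [← h22, P.card_eq_index_normalizer]; rfl
  have hKN : K ⊓ N = K ⊓ Subgroup.centralizer ((P : Subgroup G) : Set G) := by
    refine le_antisymm (fun k hk => ⟨hk.1, ?_⟩)
      (inf_le_inf_left _ (Subgroup.centralizer_le_normalizer _))
    refine Subgroup.mem_centralizer_iff.2 fun s hs => ?_
    have h3 : k * s * k⁻¹ * s⁻¹ ∈ (P : Subgroup G) ⊓ K := by
      refine Subgroup.mem_inf.2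
        ⟨mul_mem ((Subgroup.mem_normalizer_iff.1 hk.2 s).1 hs) (inv_mem hs), ?_⟩
      rw [mul_assoc, mul_assoc, ← mul_assoc s]
      exact mul_mem hk.1 (Subgroup.Normal.conj_mem inferInstance _ (inv_mem hk.1) s)
    rw [h2, Subgroup.mem_bot] at h3
    calc s * k = (k * s * k⁻¹ * s⁻¹) * (s * k) := by rw [h3, one_mul]
      _ = k * s := by group
  have hrel : (K ⊓ N).relIndex K = 22 := by
    have e1 := Subgroup.relIndex_mul_index (inf_le_left : K ⊓ N ≤ K)
    have e2 := Subgroup.relIndex_mul_index (inf_le_right : K ⊓ N ≤ N)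
    have e3 : K ⊔ N = ⊤ := by
      rw [eq_top_iff, ← h1, sup_comm]
      exact sup_le_sup_left Subgroup.le_normalizer _
    rw [Subgroup.inf_relIndex_right, ← Subgroup.relIndex_sup_left, e3, Subgroup.relIndex_top_right,
      hNi, ← e1, mul_comm] at e2
    exact (Nat.eq_of_mul_eq_mul_right (Nat.pos_of_ne_zero Subgroup.index_ne_zero_of_finite) e2).symm
  have hcard : Nat.card K =
      Nat.card ↥(K ⊓ Subgroup.centralizer ((P : Subgroup G) : Set G)) * 22 := by
    rw [← hKN, ← hrel, ← Subgroup.card_mul_index ((K ⊓ N).subgroupOf K),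
      Nat.card_congr (Subgroup.subgroupOfEquivOfLe inf_le_left).toEquiv]
    rfl
  obtain ⟨S, hS, hPS⟩ := Cfsg.Agent.PLocal.Sig.exists_invSyl hAK hcop hs 2
  have hS' := Cfsg.Agent.PLocal.Sig.invSyl_inf_cent hAK hcop hs hS hPS
  have c1 := hS.card_eq_pow
  have c2 := hS'.card_eq_pow
  rw [hcard, Nat.factorization_mul Nat.card_pos.ne' (by norm_num), Finsupp.add_apply,
    show Nat.factorization 22 2 = 1 by
      rw [show 22 = 2 * 11 by norm_num, Nat.factorization_mul (by norm_num) (by norm_num)]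
      simp [Nat.prime_two.factorization, (show Nat.Prime 11 by norm_num).factorization]] at c1
  have h3 := Cfsg.Agent.Grp.ConjCount.card_modEq P.isPGroup' (S : Set G)
    fun g hg x hx => (Subgroup.mem_normalizer_iff.1 (hPS hg) x).1 hx
  change Nat.card S ≡ Nat.card ↥(S ⊓ Subgroup.centralizer ((P : Subgroup G) : Set G)) [MOD 3] at h3
  rw [c1, c2, pow_succ, Nat.ModEq] at h3
  generalize Nat.factorization _ 2 = b at h3
  have h4 : ¬ 3 ∣ 2 ^ b := fun h => by
    have := Nat.Prime.dvd_of_dvd_pow Nat.prime_three h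
    omega
  omega

/-- No finite group has exactly 22 Sylow 3-subgroups. -/
theorem result {G : Type*} [Group G] [Finite G] : Nat.card (Sylow 3 G) ≠ 22 := by
  refine Cfsg.Agent.Grp.card_induction
    (P := fun G _ _ => Nat.card (Sylow 3 G) ≠ 22) (fun G _ _ ih h22 => ?_) G
  obtain ⟨P⟩ : Nonempty (Sylow 3 G) := inferInstance
  by_cases hK : ∃ K : Subgroup G, K.Normal ∧ K ≠ ⊥ ∧ K ≠ ⊤
  · obtain ⟨K, hn, hb, ht⟩ := hK
    have hn' : (((P : Subgroup G) ⊓ K).subgroupOf (((P : Subgroup G) ⊔ K) ⊓
        Subgroup.normalizer (((P : Subgroup G) ⊓ K : Subgroup G) : Set G))).Normal := by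
      refine (Subgroup.normal_subgroupOf_iff_le_normalizer ?_).2 inf_le_right
      exact le_inf (inf_le_left.trans le_sup_left) Subgroup.le_normalizer
    have h := Cfsg.Agent.S4341.result 3 K P _ rfl
    have hpos : 0 < Nat.card G := Nat.card_pos
    have a1 := ih (G ⧸ K) (by
      rw [← Subgroup.index_eq_card, ← K.card_mul_index]
      exact lt_mul_left (Nat.pos_of_ne_zero Subgroup.index_ne_zero_of_finite)
        (K.one_lt_card_iff_ne_bot.2 hb))
    have a2 := ih K (by
      rw [← K.card_mul_index]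
      exact lt_mul_right Nat.card_pos (Subgroup.one_lt_index_of_ne_top ht))
    have b1 := card_sylow_modEq_one 3 (G ⧸ K)
    have b2 := card_sylow_modEq_one 3 K
    set N := ((P : Subgroup G) ⊔ K) ⊓
      Subgroup.normalizer (((P : Subgroup G) ⊓ K : Subgroup G) : Set G)
    have a3 : Nat.card (Sylow 3 (N ⧸ ((P : Subgroup G) ⊓ K).subgroupOf N)) = 22 := by
      rw [h22] at h
      have d1 : Nat.card (Sylow 3 (G ⧸ K)) ∣ 22 := h ▸ (Dvd.intro _ rfl).mul_right _
      have d2 : Nat.card (Sylow 3 K) ∣ 22 := h ▸ (Dvd.intro_left _ rfl).mul_right _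
      have key : ∀ a : ℕ, a ∣ 22 → a ≡ 1 [MOD 3] → a ≠ 22 → a = 1 := by
        intro a h1 h2 h3
        have := Nat.le_of_dvd (by norm_num) h1
        rw [Nat.ModEq] at h2
        interval_cases a <;> omega
      rw [key _ d1 b1 a1, key _ d2 b2 a2, one_mul, one_mul] at h
      exact h.symm
    have a4 : Nat.card G ≤ Nat.card (N ⧸ ((P : Subgroup G) ⊓ K).subgroupOf N) :=
      not_lt.1 fun hlt => ih _ hlt a3
    have e1 := Subgroup.card_mul_index (((P : Subgroup G) ⊓ K).subgroupOf N)
    rw [Subgroup.index_eq_card] at e1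
    have e2 : Nat.card N ≤ Nat.card G := Subgroup.card_le_card_group N
    have e3 : 0 < Nat.card (((P : Subgroup G) ⊓ K).subgroupOf N) := Nat.card_pos
    have hN : N = ⊤ := Subgroup.eq_top_of_le_card _ (by nlinarith)
    have e4 : Nat.card (((P : Subgroup G) ⊓ K).subgroupOf N) = 1 := by nlinarith
    rw [Subgroup.card_eq_one, Subgroup.subgroupOf_eq_bot, hN, disjoint_top] at e4
    exact coprime_case K P (eq_top_iff.2 (hN ▸ inf_le_left)) e4 h22
  · push Not at hK
    have : Nontrivial G := by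
      by_contra h
      rw [not_nontrivial_iff_subsingleton] at h
      have := Sylow.unique_of_normal P inferInstance
      rw [Nat.card_unique] at h22
      omega
    have : IsSimpleGroup G := ⟨fun K hn => or_iff_not_imp_left.2 (hK K hn)⟩
    exact Cfsg.Agent.Small.Syl22.not_simple h22

end Cfsg.Agent.S4346
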