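import Cfsg.Statements.S4354
import Cfsg.Agent.FGS.ClassSize
import Cfsg.Agent.PLocal.RelSylow
import Cfsg.Agent.Grp.Card

set_option autoImplicit false
open Cfsg

namespace Cfsg.Agent.S4354

open Subgroup Pointwise

theorem comm_of_sylow {G : Type*} [Group G] [Finite G] {p : ℕ} [Fact p.Prime]
    (h : ∀ P : Sylow p G, IsMulCommutative P) {U : Subgroup G} (hU : IsPGroup p U) {x y : G}
    (hx : x ∈ U) (hy : y ∈ U) : x * y = y * x := by
  obtain ⟨P, hP⟩ := hU.exists_le_sylow
  exact congrArg Subtype.val ((h P).1.1 ⟨x, hP hx⟩ ⟨y, hP hy⟩)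



/-- Let G be a finite group and p a prime such that the Sylow p-subgroups of G are non-abelian while every element of p-power order has conjugacy class size prime to p, and suppose no nontrivial proper normal subgroup N of G has this property and no quotient G/N by such an N has it. Then G is simple. -/
theorem result {G : Type*} [Group G] [Finite G]
    (p : ℕ) [Fact p.Prime] (h : ((∃ P : Sylow p G, ¬ IsMulCommutative P) ∧ ∀ x : G, (∃ k : ℕ, orderOf x = p ^ k) → ¬ p ∣ (Subgroup.centralizer ({x} : Set G)).index))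
    (hmin : ∀ (N : Subgroup G) [N.Normal], N ≠ ⊥ → N ≠ ⊤ →
      ¬ ((∃ P : Sylow p N, ¬ IsMulCommutative P) ∧ ∀ x : N, (∃ k : ℕ, orderOf x = p ^ k) → ¬ p ∣ (Subgroup.centralizer ({x} : Set N)).index) ∧
      ¬ ((∃ P : Sylow p (G ⧸ N), ¬ IsMulCommutative P) ∧ ∀ x : (G ⧸ N), (∃ k : ℕ, orderOf x = p ^ k) → ¬ p ∣ (Subgroup.centralizer ({x} : Set (G ⧸ N))).index)) :
    IsSimpleGroup G := by
  obtain ⟨⟨P, hP⟩, hc⟩ := h
  have hnt : Nontrivial G := by
    by_contra hs
    rw [not_nontrivial_iff_subsingleton] at hs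
    exact hP ⟨⟨fun a b => Subsingleton.elim _ _⟩⟩
  refine ⟨fun N hN => ?_⟩
  by_contra hcon
  push Not at hcon
  obtain ⟨h1, h2⟩ := hmin N hcon.1 hcon.2
  set f := QuotientGroup.mk' N with hf
  have hsurj : Function.Surjective f := QuotientGroup.mk'_surjective N
  have hNc : ∀ Q : Sylow p N, IsMulCommutative Q := by
    intro Q
    by_contra hQ
    refine h1 ⟨⟨Q, hQ⟩, fun x hx hd => hc x (by simpa using hx)
      (hd.trans (FGS.index_centralizer_normal_dvd N x))⟩
  have hQc : ∀ Q : Sylow p (G ⧸ N), IsMulCommutative Q := by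
    intro Q
    by_contra hQ
    refine h2 ⟨⟨Q, hQ⟩, fun y hy hd => ?_⟩
    obtain ⟨x, rfl, hx⟩ := FGS.exists_lift_primePow f hsurj Fact.out y hy
    exact hc x hx (hd.trans (FGS.index_centralizer_map_dvd f hsurj x))
  have key : ∀ x ∈ (P : Subgroup G), ∃ z ∈ (P : Subgroup G), (∀ w ∈ (P : Subgroup G), w * z = z * w) ∧
      z⁻¹ * x ∈ N := by
    intro x hx
    have hz := PLocal.RelSylow.isPGroup_zpowers_of_mem P.2 hx
    obtain ⟨P', hxP', hP'⟩ := FGS.exists_sylow_le_of_not_dvd_index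
      (hc x (by simpa using (IsPGroup.iff_orderOf.1 P.2) ⟨x, hx⟩)) hz
      (by rw [zpowers_le, mem_centralizer_singleton_iff])
    obtain ⟨k, hk, hkP⟩ := PLocal.RelSylow.exists_conj_mem_sylow P
      (H := (centralizer {f x}).comap f) (P := P')
      (fun w hw => by
        rw [mem_comap, mem_centralizer_singleton_iff]
        exact comm_of_sylow hQc (P.2.map f) (mem_map_of_mem f hw) (mem_map_of_mem f hx))
      (fun w hw => by
        rw [mem_comap, mem_centralizer_singleton_iff, ← map_mul, ← map_mul,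
          mem_centralizer_singleton_iff.1 (hP' hw)]) P'.2
    have he : (P : Subgroup G) = ((k • P' : Sylow p G) : Subgroup G) :=
      (k • P').3 P.2 (fun w hw => by
        rw [Sylow.coe_subgroup_smul, Grp.mem_conj_smul_iff] at hw
        simpa [mul_assoc] using hkP _ hw)
    refine ⟨k * x * k⁻¹, hkP x (hxP' (mem_zpowers x)), fun w hw => ?_, ?_⟩
    · rw [he, Sylow.coe_subgroup_smul, Grp.mem_conj_smul_iff] at hw
      have := mem_centralizer_singleton_iff.1 (hP' hw)
      calc w * (k * x * k⁻¹) = k * (k⁻¹ * w * k * x) * k⁻¹ := by group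
        _ = k * (x * (k⁻¹ * w * k)) * k⁻¹ := by rw [this]
        _ = _ := by group
    · rw [mem_comap, mem_centralizer_singleton_iff] at hk
      rw [← QuotientGroup.eq]
      show f (k * x * k⁻¹) = f x
      rw [map_mul, map_mul, hk, map_inv, mul_inv_cancel_right]
  refine hP ⟨⟨fun ⟨x, hx⟩ ⟨y, hy⟩ => Subtype.ext ?_⟩⟩
  obtain ⟨z, hz, hzc, hzN⟩ := key x hx
  obtain ⟨z', hz', hzc', hzN'⟩ := key y hy
  have h3 := congrArg Subtype.val (comm_of_sylow hNc (U := (P : Subgroup G).subgroupOf N)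
    (P.2.comap_of_injective _ N.subtype_injective) (x := ⟨_, hzN⟩) (y := ⟨_, hzN'⟩)
    (P.1.mul_mem (P.1.inv_mem hz) hx) (P.1.mul_mem (P.1.inv_mem hz') hy))
  simp only [coe_mul] at h3 ⊢
  have e1 : Commute (z⁻¹ * x) (z'⁻¹ * y) := h3
  have e2 : Commute (z⁻¹ * x) z' := hzc' _ (P.1.mul_mem (P.1.inv_mem hz) hx)
  have e3 : Commute y z := hzc _ hy
  have e4 := e2.mul_right e1
  rw [mul_inv_cancel_left] at e4
  have e5 := e3.symm.mul_left e4
  rw [mul_inv_cancel_left] at e5
  exact e5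

end Cfsg.Agent.S4354
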