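import Mathlib
import Cfsg.Statements.S4359
import Cfsg.Agent.PLocal.SimsSeq
-- import your own Cfsg.Agent.* helpers here

set_option autoImplicit false
open Pointwise
open Cfsg Cfsg.Agent.PLocal.Amb

namespace Cfsg.Agent.S4359

/-- Let P be a subgroup of a finite group G and g an element such that P ∩ g⁻¹Pg is a normal subgroup of prime index p in g⁻¹Pg. Let n ≥ 1 and let K be the subgroup generated by P and its conjugates g⁻ⁱPgⁱ for i ≤ n. Suppose that g normalizes no non-identity normal subgroup of P and that P meets the center of K trivially. Then the order of P is pᵗ for some t with 1 ≤ t ≤ 3n and t ≠ 3n - 1. -/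
theorem result {G : Type*} [Group G] [Finite G]
    (P : Subgroup G) (g : G) (p : ℕ) (hp : p.Prime)
    (hN : ((P ⊓ MulAut.conj g⁻¹ • P).subgroupOf (MulAut.conj g⁻¹ • P)).Normal)
    (hidx : (P ⊓ MulAut.conj g⁻¹ • P).relIndex (MulAut.conj g⁻¹ • P) = p)
    (n : ℕ) (hn : 1 ≤ n) (K : Subgroup G) (hK : K = ⨆ i ∈ Finset.range (n + 1), MulAut.conj (g ^ i)⁻¹ • P)
    (h1 : ∀ Q : Subgroup G, Q ≤ P → (Q.subgroupOf P).Normal → MulAut.conj g • Q = Q → Q = ⊥)
    (h2 : P ⊓ (Subgroup.center K).map K.subtype = ⊥) :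
    ∃ t : ℕ, Nat.card P = p ^ t ∧ 1 ≤ t ∧ t ≤ 3 * n ∧ t ≠ 3 * n - 1 := by
  haveI := Fact.mk hp
  have hN' : cj(g⁻¹, P) ≤ 𝐍[P ⊓ cj(g⁻¹, P)] :=
    (Subgroup.normal_subgroupOf_iff_le_normalizer inf_le_right).1 hN
  have hidx' : P.relIndex cj(g⁻¹, P) = p := by
    rw [← Subgroup.inf_relIndex_right]; exact hidx
  obtain ⟨t, x₀, ht, hc, hs, hY⟩ := Sims.exists_seq hN' hidx' fun Q hQ hn' e =>
    h1 Q hQ (normal_subgroupOf' hn') (cj_of_mem_normalizer (inv_mem_iff.1 (cj_eq_iff.1 e)))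
  have hKY : K ≤ Sims.Y (Sims.sq g⁻¹ x₀) 0 (t + n) := by
    rw [hK]
    refine iSup₂_le fun i hi => ?_
    have e : MulAut.conj (g ^ i)⁻¹ • P = cj(g⁻¹ ^ (i : ℤ), P) := by
      rw [zpow_natCast, inv_pow]; rfl
    rw [e, ← hY, Sims.cj_Y]
    have := Finset.mem_range.1 hi
    exact Sims.Y_mono (by omega) (by omega)
  have hPK : P ≤ K := by
    rw [hK]
    refine le_iSup₂_of_le 0 (by simp) ?_
    simp
  obtain ⟨k, -, -, -, hk⟩ := hs.cases ht n fun j h3 h4 => by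
    by_contra hcon
    push Not at hcon
    have hj : Sims.sq g⁻¹ x₀ j ∈ P := hY ▸ Sims.mem_Y h3 h4
    apply hs.ne_one ht j
    rw [← Subgroup.mem_bot, ← h2]
    refine ⟨hj, ⟨_, hPK hj⟩, Subgroup.mem_center_iff.2 fun y => Subtype.ext ?_, rfl⟩
    exact (Sims.commute_Y_left hcon (hKY y.2)).symm
  exact ⟨t, hc, ht, by omega, by omega⟩

end Cfsg.Agent.S4359
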