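import Cfsg.Statements.S4370
import Cfsg.Agent.FGS.RankOneStruct

set_option autoImplicit false
open Cfsg

namespace Cfsg.Agent.S4370

open QuaternionGroup in
theorem quat_centralizer {n : ℕ} [NeZero n] (q : QuaternionGroup n) (hq : q ∉ Subgroup.center _) :
    ∃ q₀ : QuaternionGroup n, ∀ y, y * q = q * y → y ∈ Subgroup.zpowers q₀ := by
  have ha : ∀ j : ZMod (2 * n), (a j : QuaternionGroup n) ∈ Subgroup.zpowers (a 1) := fun j =>
    ⟨j.val, by simp only [zpow_natCast, a_one_pow, ZMod.natCast_zmod_val]⟩
  rcases q with i | i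
  · refine ⟨a 1, ?_⟩
    rintro (j | j) h
    · exact ha j
    · exfalso
      apply hq
      rw [xa_mul_a, a_mul_xa, xa.injEq] at h
      have h1 : i = -i := by linear_combination h
      rw [Subgroup.mem_center_iff]
      rintro (l | l)
      · rw [a_mul_a, a_mul_a, add_comm]
      · rw [xa_mul_a, a_mul_xa, sub_eq_add_neg, ← h1]
  · have h2 : ∀ j : ZMod (2 * n), -j = j → (a j : QuaternionGroup n) ∈ Subgroup.zpowers (xa i) := by
      intro j hj
      rcases (ZMod.neg_eq_self_iff j).1 hj with rfl | h
      · exact Subgroup.one_mem _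
      · have h3 : j = n := by
          rw [← ZMod.natCast_zmod_val j]
          congr 1
          omega
        rw [h3, ← xa_sq i]
        exact Subgroup.pow_mem _ (Subgroup.mem_zpowers _) 2
    refine ⟨xa i, ?_⟩
    rintro (j | j) h
    · rw [xa_mul_a, a_mul_xa, xa.injEq] at h
      exact h2 j (by linear_combination h)
    · rw [xa_mul_xa, xa_mul_xa, a.injEq] at h
      have h3 : (xa j : QuaternionGroup n) = xa i * a (j - i) := by simp
      rw [h3]
      exact Subgroup.mul_mem _ (Subgroup.mem_zpowers _) (h2 _ (by linear_combination h))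

theorem nonempty_prod {G : Type*} [Group G] {A B : Subgroup G} (hc : A.IsComplement' B)
    (hAB : A ≤ Subgroup.centralizer (B : Set G)) : Nonempty (G ≃* A × B) := by
  refine ⟨(MulEquiv.ofBijective (A.subtype.noncommCoprod B.subtype fun a b => ?_) hc).symm⟩
  exact (Subgroup.mem_centralizer_iff.1 (hAB a.2) b b.2).symm

open FGS.FrobCompl in

/-- Let G be a finite non-abelian nilpotent group. Then the centralizer of every non-central element of G is cyclic if and only if G is isomorphic to the direct product of a generalized quaternion group and a cyclic group of odd order. -/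
theorem result {G : Type*} [Group G] [Finite G] (hG : Group.IsNilpotent G)
    (hna : ¬ IsMulCommutative G) :
    (∀ x : G, x ∉ Subgroup.center G → IsCyclic (Subgroup.centralizer ({x} : Set G))) ↔
      ∃ (k m : ℕ), 1 ≤ k ∧ Odd m ∧ Nonempty (G ≃* QuaternionGroup (2 ^ k) × Multiplicative (ZMod m)) := by
  constructor
  · intro h
    have hR : RankOne G := by
      intro A hA
      by_cases hAZ : A ≤ Subgroup.center G
      · obtain ⟨x, hx⟩ : ∃ x : G, x ∉ Subgroup.center G := by
          by_contra h1
          push Not at h1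
          exact hna ⟨⟨fun a b => Subgroup.mem_center_iff.1 (h1 b) a⟩⟩
        haveI := h x hx
        exact Subgroup.isCyclic_of_le (hAZ.trans (Subgroup.center_le_centralizer {x}))
      · obtain ⟨x, hxA, hx⟩ := SetLike.not_le_iff_exists.1 hAZ
        haveI := h x hx
        refine Subgroup.isCyclic_of_le (H' := Subgroup.centralizer {x}) fun y hy => ?_
        rw [Subgroup.mem_centralizer_singleton_iff]
        exact congrArg Subtype.val (mul_comm' (⟨y, hy⟩ : A) ⟨x, hxA⟩)
    obtain ⟨e⟩ := nonempty_prod (Grp.isComplement'_pCore_pPrimeCore_of_isNilpotent (G := G) 2)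
      (Grp.pCore_le_centralizer_pPrimeCore 2 G)
    haveI : IsZGroup (pPrimeCore 2 G) :=
      (hR.subgroup _).isZGroup_of_odd (Grp.pPrimeCore_coprime 2 G)
    haveI hc : IsCyclic (pPrimeCore 2 G) := inferInstance
    rcases hR.cyclic_or_quaternion (Grp.pCore_isPGroup 2 G) with h1 | ⟨-, k, hk, ⟨e'⟩⟩
    · exfalso
      apply hna
      refine ⟨⟨fun a b => e.injective ?_⟩⟩
      rw [map_mul, map_mul]
      exact Prod.ext (mul_comm' _ _) (mul_comm' _ _)
    · exact ⟨k, _, hk, Nat.coprime_two_right.1 (Grp.pPrimeCore_coprime 2 G),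
        ⟨e.trans (e'.prodCongr (zmodCyclicMulEquiv hc).symm)⟩⟩
  · rintro ⟨k, m, hk, hm, ⟨e⟩⟩ x hx
    have h1 : (e x).1 ∉ Subgroup.center _ := by
      intro h
      apply hx
      rw [Subgroup.mem_center_iff]
      intro y
      apply e.injective
      rw [map_mul, map_mul]
      exact Prod.ext (Subgroup.mem_center_iff.1 h _) (mul_comm _ _)
    obtain ⟨q₀, hq₀⟩ := quat_centralizer _ h1
    haveI : IsCyclic (Subgroup.zpowers q₀ × Multiplicative (ZMod m)) := by
      refine Group.isCyclic_prod_iff.2 ⟨inferInstance, inferInstance, ?_⟩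
      have h2 := Subgroup.card_subgroup_dvd_card (Subgroup.zpowers q₀)
      rw [Nat.card_eq_fintype_card (α := QuaternionGroup _), QuaternionGroup.card,
        show 4 * 2 ^ k = 2 ^ (k + 2) by ring] at h2
      refine Nat.Coprime.coprime_dvd_left h2 (Nat.Coprime.pow_left _ ?_)
      rw [Nat.card_congr Multiplicative.toAdd, Nat.card_zmod]
      exact Nat.coprime_two_left.2 hm
    have h3 : ∀ y : Subgroup.centralizer ({x} : Set G), (e y).1 ∈ Subgroup.zpowers q₀ := by
      intro y
      apply hq₀
      rw [← Prod.fst_mul, ← Prod.fst_mul, ← map_mul, ← map_mul,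
        Subgroup.mem_centralizer_singleton_iff.1 y.2]
    let f := e.toMonoidHom.comp (Subgroup.centralizer ({x} : Set G)).subtype
    refine isCyclic_of_injective ((((MonoidHom.fst _ _).comp f).codRestrict _ h3).prod
      ((MonoidHom.snd _ _).comp f)) ?_
    intro a b hab
    have h4 := congrArg Prod.snd hab
    have h5 := congrArg (fun z => z.1.1) hab
    exact Subtype.ext (e.injective (Prod.ext h5 h4))

end Cfsg.Agent.S4370
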