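import Cfsg.Statements.S4373
import Mathlib
import Cfsg.Agent.SolvLin.Coprime
import Cfsg.Agent.Solv.HallPi

set_option autoImplicit false
open Pointwise
open Cfsg

namespace Cfsg.Agent.S4373

open Solv.Pi

set_option linter.style.haveILetI false

theorem core {G : Type*} [Group G] [Finite G] (π : Set ℕ) {n : ℕ} (N : Fin (n + 1) → Subgroup G)
    (h0 : N 0 = ⊥) (hl : N (Fin.last n) = ⊤) (hn : ∀ i, (N i).Normal)
    (hstep : ∀ i : Fin n, (∃ p ∈ π, p.Prime ∧ ∃ k : ℕ, (N i.castSucc).relIndex (N i.succ) ∣ p ^ k) ∨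
      (∀ q : ℕ, q.Prime → q ∣ (N i.castSucc).relIndex (N i.succ) → q ∉ π))
    (hO : ∀ T : Subgroup G, T.Normal → (∀ p : ℕ, p.Prime → p ∣ Nat.card T → p ∈ π) → T = ⊥)
    {H : Subgroup G} (hH : IsPiHall π H) :
    ∃ x y : G, ∀ g ∈ H, x⁻¹ * g * x ∈ H → y⁻¹ * g * y ∈ H → g = 1 := by
  let K := piCore πᶜ G
  have hK := pi_card_piCore (G := G) πᶜ
  have hcop : (Nat.card H).Coprime (Nat.card K) :=
    coprime_of_pi hH.1 fun p hp h hd => hK p hp hd h
  have hHK : ∀ g ∈ H, g ∈ K → g = 1 := fun g h1 h2 => Subgroup.mem_bot.1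
    ((Subgroup.disjoint_of_coprime_natCard hcop).le_bot (⟨h1, h2⟩ : g ∈ H ⊓ K))
  have hrel : ∀ (X : Subgroup G) (i : Fin n), (N i.castSucc).relIndex (X ⊓ N i.succ) ∣
      (N i.castSucc).relIndex (N i.succ) := fun X i => by
    haveI := hn i.castSucc
    rw [← Subgroup.relIndex_subgroupOf (inf_le_right : X ⊓ N i.succ ≤ N i.succ)]
    exact Subgroup.relIndex_dvd_index_of_normal _ _
  have hsol : ∀ i, Group.IsSolvable (H ⊓ N i : Subgroup G) := by
    intro i
    induction i using Fin.induction with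
    | zero => rw [h0, inf_bot_eq]; infer_instance
    | succ i ih =>
      haveI := hn i.castSucc
      refine (Group.isSolvable_iff_subgroup_quotient
        ((N i.castSucc).subgroupOf (H ⊓ N i.succ))).2 ⟨?_, ?_⟩
      · let e : (N i.castSucc).subgroupOf (H ⊓ N i.succ) →* (H ⊓ N i.castSucc : Subgroup G) :=
          MonoidHom.mk' (fun x => ⟨x.1.1, x.1.2.1, x.2⟩) fun _ _ => rfl
        exact Group.isSolvable_of_isSolvable_injective (f := e)
          fun a b h => Subtype.ext (Subtype.ext (congrArg (fun z : (H ⊓ N i.castSucc : Subgroup G) => (z : G)) h))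
      · rcases hstep i with ⟨p, -, hp, k, hk⟩ | h
        · haveI := Fact.mk hp
          obtain ⟨j, -, hj⟩ := (Nat.dvd_prime_pow hp).1 ((hrel H i).trans hk)
          haveI := (IsPGroup.of_card (G := _ ⧸ (N i.castSucc).subgroupOf (H ⊓ N i.succ))
            hj).isNilpotent
          infer_instance
        · haveI : Subsingleton (_ ⧸ (N i.castSucc).subgroupOf (H ⊓ N i.succ)) :=
            (Nat.card_eq_one_iff_unique.1 (Nat.eq_one_iff_not_exists_prime_dvd.2 fun q hq hd =>
              h q hq (hd.trans (hrel H i)) (hH.1 q hq ((hd.trans (Subgroup.index_dvd_card _)).trans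
                (Subgroup.card_dvd_of_le inf_le_left))))).1
          infer_instance
  have hcen : ∀ i, Subgroup.centralizer (K : Set G) ⊓ N i ≤ K := by
    intro i
    induction i using Fin.induction with
    | zero => rw [h0, inf_bot_eq]; exact bot_le
    | succ i ih =>
      haveI := hn i.castSucc
      haveI := hn i.succ
      set D := Subgroup.centralizer (K : Set G) ⊓ N i.succ with hD
      let E := (N i.castSucc).subgroupOf D
      have hE : ∀ e ∈ E, (e : G) ∈ K := fun e he => ih ⟨e.2.1, he⟩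
      have hcE : Nat.card E ∣ Nat.card K := by
        rw [← Subgroup.card_map_of_injective D.subtype_injective]
        refine Subgroup.card_dvd_of_le ?_
        rintro _ ⟨e, he, rfl⟩
        exact hE e he
      refine le_piCore inferInstance fun q hq hd hπ => ?_
      rcases hstep i with ⟨p, -, hp, k, hk⟩ | h
      · haveI := Fact.mk hp
        haveI := Fact.mk hq
        obtain ⟨j, -, hj⟩ := (Nat.dvd_prime_pow hp).1 ((hrel _ i).trans hk)
        haveI := (IsPGroup.of_card (G := D ⧸ E) hj).isNilpotent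
        haveI : Group.IsNilpotent D := Subgroup.isNilpotent_of_ker_le_center (QuotientGroup.mk' E)
          (by
            rw [QuotientGroup.ker_mk']
            intro e he
            rw [Subgroup.mem_center_iff]
            exact fun d => Subtype.ext (d.2.1 _ (hE e he)).symm)
        obtain ⟨P⟩ : Nonempty (Sylow q D) := inferInstance
        haveI : (P : Subgroup D).Characteristic := Sylow.characteristic_of_normal P inferInstance
        have h1 := hO ((P : Subgroup D).map D.subtype) inferInstance fun r hr hd => by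
          obtain ⟨m, hm⟩ := IsPGroup.iff_card.1 (P.2.map D.subtype)
          rw [hm] at hd
          exact (Nat.prime_dvd_prime_iff_eq hr hq).1 (hr.dvd_of_dvd_pow hd) ▸ hπ
        exact P.ne_bot_of_dvd_card hd
          ((Subgroup.map_eq_bot_iff_of_injective _ D.subtype_injective).1 h1)
      · rw [← E.card_mul_index] at hd
        exact (hq.dvd_mul.1 hd).elim (fun e => hK q hq (e.trans hcE) hπ)
          fun e => h q hq (e.trans (hrel _ i)) hπ
  have hs := hsol (Fin.last n)
  have hc := hcen (Fin.last n)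
  rw [hl, inf_top_eq] at hs hc
  letI : MulDistribMulAction H K :=
    MulDistribMulAction.compHom K ((MulAut.conjNormal (H := K)).comp H.subtype)
  have hact : ∀ (g : H) (k : K), ((g • k : K) : G) = g * k * (g : G)⁻¹ := fun _ _ => rfl
  obtain ⟨x, y, h⟩ := SolvLin.base2_coprime hs hcop
  have key : ∀ g (hg : g ∈ H) (x : K), (x : G)⁻¹ * g * x ∈ H → (⟨g, hg⟩ : H) • x = x := by
    intro g hg x hx
    have := hHK _ (mul_mem hx (inv_mem hg)) (by
      rw [mul_assoc, mul_assoc, ← mul_assoc g]
      exact mul_mem (inv_mem x.2) (Subgroup.Normal.conj_mem inferInstance _ x.2 g))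
    apply Subtype.ext
    rw [hact]
    calc g * x * g⁻¹ = x * ((x : G)⁻¹ * g * x * g⁻¹) := by group
      _ = x := by rw [this, mul_one]
  refine ⟨x, y, fun g hg hx hy => hHK g hg (hc fun k hk => ?_)⟩
  have := congrArg Subtype.val (h ⟨g, hg⟩ (key g hg x hx) (key g hg y hy) ⟨k, hk⟩)
  rw [hact] at this
  exact (mul_inv_eq_iff_eq_mul.1 this).symm

/-- Let π be a set of primes and G a finite π-solvable group: G has a chain of normal subgroups from 1 to G in which each successive index is a power of a prime in π or is divisible by no prime in π. Let H be a Hall π-subgroup of G. Then there are x, y ∈ G with H ∩ xHx⁻¹ ∩ yHy⁻¹ = O_π(G), the largest normal π-subgroup. -/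
theorem result {G : Type*} [Group G] [Finite G] (π : Set ℕ)
    (hsolv : (∃ (n : ℕ) (N : Fin (n + 1) → Subgroup G), N 0 = ⊥ ∧ N (Fin.last n) = ⊤ ∧ Monotone N ∧ (∀ i, (N i).Normal) ∧
      ∀ i : Fin n, (∃ p ∈ π, p.Prime ∧ ∃ k : ℕ, (N i.castSucc).relIndex (N i.succ) = p ^ k) ∨
        (∀ q : ℕ, q.Prime → q ∣ (N i.castSucc).relIndex (N i.succ) → q ∉ π))) (H : Subgroup G) (hH : Cfsg.IsPiHall π H) :
    ∃ x y : G, H ⊓ MulAut.conj x • H ⊓ MulAut.conj y • H = Cfsg.piCore π G := by
  obtain ⟨n, N, h0, hl, hmono, hn, hstep⟩ := hsolv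
  let O := piCore π G
  let f := QuotientGroup.mk' O
  have hf : Function.Surjective f := QuotientGroup.mk'_surjective O
  have hker : ∀ p : ℕ, p.Prime → p ∣ Nat.card f.ker → p ∈ π := by
    rw [QuotientGroup.ker_mk']
    exact pi_card_piCore π
  obtain ⟨x, y, h⟩ := core (G := G ⧸ O) π (fun i => (N i).map f) (by simp [h0])
    (by rw [hl]; exact Subgroup.map_top_of_surjective f hf)
    (fun i => (hn i).map f hf) (fun i => (hstep i).imp
      (fun ⟨p, h1, h2, k, hk⟩ => ⟨p, h1, h2, k, hk ▸ relIndex_map_dvd f _ _⟩)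
      fun h q hq hd => h q hq (hd.trans (relIndex_map_dvd f _ _))) (fun T hT hπ => by
        have h1 : T.comap f ≤ O := le_piCore (hT.comap f) (by
          rw [Grp.card_comap_of_surjective f hf]; exact pi_mul hπ hker)
        rw [← Subgroup.map_comap_eq_self_of_surjective hf T, Subgroup.map_eq_bot_iff,
          QuotientGroup.ker_mk']
        exact h1) (hall_map f hf hH)
  obtain ⟨x, rfl⟩ := hf x
  obtain ⟨y, rfl⟩ := hf y
  refine ⟨x, y, le_antisymm ?_ (le_inf (le_inf (piCore_le_hall hH)
    (piCore_le_hall (hall_conj_smul hH x))) (piCore_le_hall (hall_conj_smul hH y)))⟩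
  rintro g ⟨⟨h1, h2⟩, h3⟩
  refine (QuotientGroup.eq_one_iff g).1 (h (f g) ⟨g, h1, rfl⟩ ⟨_, Grp.mem_conj_smul_iff.1 h2, ?_⟩
    ⟨_, Grp.mem_conj_smul_iff.1 h3, ?_⟩) <;> simp

end Cfsg.Agent.S4373
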