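import Cfsg.Statements.S4377
import Mathlib

set_option autoImplicit false
open Cfsg

namespace Cfsg.Agent.S4377

/-- Two finite groups have the same number of elements of each order if and only if, for every n, they have the same number of elements g with gⁿ = 1. -/
theorem result {G H : Type*} [Group G] [Finite G] [Group H] [Finite H] :
    (∀ n : ℕ, Nat.card {g : G // orderOf g = n} = Nat.card {h : H // orderOf h = n}) ↔
      ∀ n : ℕ, Nat.card {g : G // g ^ n = 1} = Nat.card {h : H // h ^ n = 1} := by
  classical
  constructor
  · intro h n
    have e : ∀ m : ℕ, {g : G // orderOf g = m} ≃ {h : H // orderOf h = m} := fun m =>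
      (Finite.card_eq.1 (h m)).some
    let f : G ≃ H := Equiv.ofFiberEquiv e
    have hf : ∀ g, orderOf (f g) = orderOf g := fun g => Equiv.ofFiberEquiv_map e g
    refine Nat.card_congr (f.subtypeEquiv fun g => ?_)
    rw [← orderOf_dvd_iff_pow_eq_one, ← orderOf_dvd_iff_pow_eq_one, hf]
  · intro h n
    have := Fintype.ofFinite G
    have := Fintype.ofFinite H
    induction n using Nat.strong_induction_on with
    | _ n ih =>
      rcases Nat.eq_zero_or_pos n with rfl | hn
      · have : IsEmpty {g : G // orderOf g = 0} := ⟨fun g => (orderOf_pos g.1).ne' g.2⟩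
        have : IsEmpty {g : H // orderOf g = 0} := ⟨fun g => (orderOf_pos g.1).ne' g.2⟩
        rw [Nat.card_of_isEmpty, Nat.card_of_isEmpty]
      · have h1 := sum_card_orderOf_eq_card_pow_eq_one (G := G) hn.ne'
        have h2 := sum_card_orderOf_eq_card_pow_eq_one (G := H) hn.ne'
        have h3 := h n
        simp only [Nat.card_eq_fintype_card, Fintype.card_subtype] at h3 ih ⊢
        rw [← h1, ← h2, ← Nat.cons_self_properDivisors hn.ne', Finset.sum_cons, Finset.sum_cons,
          Finset.sum_congr rfl (fun d hd => ih d (Nat.mem_properDivisors.1 hd).2)] at h3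
        exact Nat.add_right_cancel h3

end Cfsg.Agent.S4377
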