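import Cfsg.Statements.S4376
import Mathlib
import Cfsg.Agent.FGS.AbExt
import Cfsg.Agent.Comp.Basic
import Cfsg.Agent.Class.PSL2Dickson
import Cfsg.Agent.S0810
import Cfsg.Agent.S4377

set_option autoImplicit false
open Cfsg

namespace Cfsg.Agent.S4376

open Cfsg.Agent.FGS.AbExt Cfsg.Agent.Comp

/-- Number of solutions of `x ^ n = 1`. -/
noncomputable abbrev E (G : Type) [Group G] (n : ℕ) : ℕ := Nat.card {x : G // x ^ n = 1}

def D : List ℕ := [1, 2, 3, 4, 6, 7, 8, 12, 14, 21, 24, 28, 42, 56, 84, 168]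

def tab (l : List ℕ) (d : ℕ) : ℕ := ((D.zip l).lookup d).getD 0

instance : Fact (Nat.Prime 7) := ⟨by norm_num⟩

abbrev F21 : Type :=
  Ext (Dat.scalar (R := ZMod 7) (K := C 3) (fun t => 2 ^ t.u.val) rfl (by decide +kernel))

abbrev V4 : Type := ZMod 2 × ZMod 2

def w (v : V4) : V4 := (v.2, v.1 + v.2)

abbrev A4 : Type := Ext (Dat.split (N := V4) (K := C 3) (fun t => w^[t.u.val]) (fun _ => rfl)
  (by decide +kernel) (by decide +kernel))

def f (v u : V4) : ZMod 4 := 2 * ((v.1 * u.1 + v.2 * u.2 + v.1 * u.2).val : ZMod 4)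

def datM : Dat (ZMod 4) A4 where
  ρ := fun _ u => u
  c := fun a b => f a.u (w^[a.k.u.val] b.u)
  ρ_one := fun _ => rfl
  ρ_add := fun _ _ _ => rfl
  ρ_mul := fun _ _ _ => rfl
  c_one := by decide +kernel
  cocycle := by decide +kernel

abbrev M48 : Type := Ext datM

instance : DecidableEq M48 := inferInstance

theorem hM : ∀ i j : ZMod 4, ∀ v u : V4,
    (-1 : ZMod 4) ^ (i + j + f v u).val = (-1) ^ i.val * (-1) ^ j.val := by decide +kernel

abbrev L : Type :=
  Ext (Dat.scalar (R := ZMod 4) (K := M48) (fun m => (-1) ^ m.u.val) rfl fun _ _ => hM _ _ _ _)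

instance : DecidableEq L := inferInstance

theorem hL : ∀ i j s : ZMod 4, ∀ t u : ZMod 3,
    ((-1) ^ (i + (-1) ^ s.val * j + 0).val * 2 ^ (t + u + 0).val : ZMod 7) =
      ((-1) ^ i.val * 2 ^ t.val) * ((-1) ^ j.val * 2 ^ u.val) := by decide +kernel

abbrev G3 : Type := Ext (Dat.scalar (R := ZMod 7) (K := L)
  (fun l => (-1) ^ l.u.val * 2 ^ l.k.k.k.u.val) rfl fun _ _ => hL _ _ _ _ _)

theorem eL : ∀ x : L, x ^ 12 = 1 := by decide +kernel

theorem cG3 : ∀ d ∈ D, E G3 d =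
    tab [1, 100, 57, 256, 324, 7, 256, 1152, 196, 63, 1152, 448, 420, 448, 1344, 1344] d := by
  intro d hd
  refine ((card_eq_sum _ d).trans (sum_scalar d fun _ => 1)).trans ?_
  simp only [pow_eq_one_iff_gcd eL _ d]
  revert d
  decide +kernel

def datQ (n : ℕ) (m : ZMod n) (h : -m = m) : Dat (ZMod n) (C 2) where
  ρ := fun e u => (-1) ^ e.u.val * u
  c := fun a b => if a.u = 1 ∧ b.u = 1 then m else 0
  ρ_one := fun u => by
    change (-1) ^ 0 * u = u
    simp
  ρ_add := fun _ _ _ => mul_add _ _ _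
  ρ_mul := fun k l u => by
    rw [← mul_assoc]
    congr 1
    have : ∀ k l : C 2, (k * l).u.val % 2 = (k.u.val + l.u.val) % 2 := by decide +kernel
    rw [← pow_add, neg_one_pow_eq_pow_mod_two, this, ← neg_one_pow_eq_pow_mod_two]
  c_one := fun k => if_neg fun h => absurd h.1 (by decide)
  cocycle := by
    rintro ⟨a, ⟨⟩⟩ ⟨b, ⟨⟩⟩ ⟨c, ⟨⟩⟩
    have e : ∀ a b : ZMod 2, ((⟨a, ()⟩ * ⟨b, ()⟩ : C 2)).u = a + b := fun a b => add_zero _
    have h1 : (1 : ZMod 2) + 1 = 0 := rfl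
    have h2 : (1 : ZMod 2).val = 1 := rfl
    have h3 : ∀ a : ZMod 2, a = 0 ∨ a = 1 := by decide
    simp only [e]
    rcases h3 a with rfl | rfl <;> rcases h3 b with rfl | rfl <;> rcases h3 c with rfl | rfl <;>
      simp [h1, h2, h]

abbrev Q16 : Type := Ext (datQ 8 4 (by decide))

abbrev Q8 : Type := Ext (datQ 4 2 (by decide))

abbrev K2 : Type := Ext (Dat.triv (ZMod 3) Q16)

instance : DecidableEq K2 := inferInstance

abbrev K2' : Type :=
  Ext (Dat.scalar (R := ZMod 3) (K := K2) (fun m => (-1) ^ m.k.u.val) rfl (by decide +kernel))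

instance : DecidableEq K2' := inferInstance

theorem hK2 : ∀ k l : K2, ((-1) ^ (k * l).k.u.val * 2 ^ (k * l).u.val : ZMod 7) =
    ((-1) ^ k.k.u.val * 2 ^ k.u.val) * ((-1) ^ l.k.u.val * 2 ^ l.u.val) := by decide +kernel

abbrev G2 : Type := Ext (Dat.scalar (R := ZMod 7) (K := K2')
  (fun l => (-1) ^ l.k.k.u.val * 2 ^ l.k.u.val) rfl fun k l => hK2 k.k l.k)

theorem eK2 : ∀ x : K2, x ^ 24 = 1 := by decide +kernel

theorem cG2 : ∀ d ∈ D, E G2 d =
    tab [1, 2, 45, 92, 90, 7, 176, 612, 14, 63, 864, 140, 126, 224, 756, 1008] d := by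
  intro d hd
  refine ((card_eq_sum _ d).trans ((sum_scalar d fun _ => 1).trans (sum_scalar d fun k : K2 =>
    (if ((-1) ^ k.k.u.val * 2 ^ k.u.val : ZMod 7) = 1 ∧ ¬ 7 ∣ d then 1 else 7) * 1))).trans ?_
  simp only [pow_eq_one_iff_gcd eK2 _ d]
  revert d
  decide +kernel

abbrev V8 : Type := ZMod 2 × ZMod 2 × ZMod 2

def T (v : V8) : V8 := (v.2.2, v.1 + v.2.2, v.2.1)

def φ (v : V8) : V8 := (v.1, v.2.2, v.2.1 + v.2.2)

abbrev G1 : Type := Ext (Dat.split (N := V8) (K := F21)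
  (fun k v => T^[k.u.val] (φ^[k.k.u.val] v)) (fun _ => rfl) (by decide +kernel) (by decide +kernel))

instance : DecidableEq G1 := inferInstance

theorem eG1 : ∀ x : G1, x ^ 42 = 1 := by decide +kernel

theorem cG1 : ∀ d ∈ D, E G1 d =
    tab [1, 8, 57, 8, 120, 49, 8, 120, 56, 105, 120, 56, 168, 56, 168, 168] d := by
  intro d hd
  rw [E, card_eq_sum]
  simp only [pow_eq_one_iff_gcd eG1 _ d]
  revert d
  decide +kernel

theorem eC3 : ∀ x : C 3, x ^ 3 = 1 := by decide +kernel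

theorem cH1 : ∀ d ∈ D, E F21 d =
    tab [1, 1, 15, 1, 15, 7, 1, 15, 7, 21, 15, 7, 21, 7, 21, 21] d := by
  intro d hd
  refine ((card_eq_sum _ d).trans (sum_scalar d fun _ => 1)).trans ?_
  simp only [pow_eq_one_iff_gcd eC3 _ d]
  revert d
  decide +kernel

abbrev H2 : Type := Ext (Dat.triv (ZMod 12) Q8)

theorem eH2 : ∀ x : H2, x ^ 12 = 1 := by decide +kernel

theorem cH2 : ∀ d ∈ D, E H2 d =
    tab [1, 4, 3, 32, 12, 1, 32, 96, 4, 3, 96, 32, 12, 32, 96, 96] d := by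
  intro d hd
  rw [E, card_eq_sum]
  simp only [pow_eq_one_iff_gcd eH2 _ d]
  revert d
  decide +kernel

abbrev K3 : Type := Ext (Dat.triv (ZMod 4) A4)

instance : DecidableEq K3 := inferInstance

abbrev H3 : Type := Ext (Dat.scalar (R := ZMod 7) (K := K3)
  (fun l => (-1) ^ l.u.val * 2 ^ l.k.k.u.val) rfl (by decide +kernel))

theorem eK3 : ∀ x : K3, x ^ 12 = 1 := by decide +kernel

theorem cH3 : ∀ d ∈ D, E H3 d =
    tab [1, 8, 57, 64, 120, 7, 64, 288, 56, 63, 288, 112, 168, 112, 336, 336] d := by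
  intro d hd
  refine ((card_eq_sum _ d).trans (sum_scalar d fun _ => 1)).trans ?_
  simp only [pow_eq_one_iff_gcd eK3 _ d]
  revert d
  decide +kernel

/-! ### `PGL₂(7)` -/

noncomputable def mulN (i j : ℕ) : ℕ :=
  force (Nat.mod i 8) fun a => force (Nat.mod (Nat.div i 8) 8) fun b =>
  force (Nat.mod (Nat.div i 64) 8) fun c => force (Nat.div i 512) fun d =>
  force (Nat.mod j 8) fun a' => force (Nat.mod (Nat.div j 8) 8) fun b' =>
  force (Nat.mod (Nat.div j 64) 8) fun c' => force (Nat.div j 512) fun d' =>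
  Nat.add (Nat.add (Nat.add (Nat.mod (Nat.add (Nat.mul a a') (Nat.mul b c')) 7)
    (Nat.mul 8 (Nat.mod (Nat.add (Nat.mul a b') (Nat.mul b d')) 7)))
    (Nat.mul 64 (Nat.mod (Nat.add (Nat.mul c a') (Nat.mul d c')) 7)))
    (Nat.mul 512 (Nat.mod (Nat.add (Nat.mul c b') (Nat.mul d d')) 7))

noncomputable def powN (i n : ℕ) : ℕ :=
  Nat.rec (motive := fun _ => ℕ) 513 (fun _ ih => force ih fun y => mulN y i) n

def dec (i : ℕ) : Matrix (Fin 2) (Fin 2) (ZMod 7) :=
  !![((i % 8 : ℕ) : ZMod 7), ((i / 8 % 8 : ℕ) : ZMod 7);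
    ((i / 64 % 8 : ℕ) : ZMod 7), ((i / 512 : ℕ) : ZMod 7)]

theorem dec_code {a b c d : ℕ} (ha : a < 8) (hb : b < 8) (hc : c < 8) :
    dec (a + 8 * b + 64 * c + 512 * d) = !![(a : ZMod 7), b; c, d] := by
  rw [dec, show (a + 8 * b + 64 * c + 512 * d) % 8 = a by omega,
    show (a + 8 * b + 64 * c + 512 * d) / 8 % 8 = b by omega,
    show (a + 8 * b + 64 * c + 512 * d) / 64 % 8 = c by omega,
    show (a + 8 * b + 64 * c + 512 * d) / 512 = d by omega]

theorem dec_mulN (i j : ℕ) : dec (mulN i j) = dec i * dec j := by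
  have e : mulN i j = (i % 8 * (j % 8) + i / 8 % 8 * (j / 64 % 8)) % 7 +
      8 * ((i % 8 * (j / 8 % 8) + i / 8 % 8 * (j / 512)) % 7) +
      64 * ((i / 64 % 8 * (j % 8) + i / 512 * (j / 64 % 8)) % 7) +
      512 * ((i / 64 % 8 * (j / 8 % 8) + i / 512 * (j / 512)) % 7) := by
    simp only [mulN, force_eq]
    rfl
  rw [e, dec_code (by omega) (by omega) (by omega)]
  simp only [dec, ZMod.natCast_mod, Nat.cast_add, Nat.cast_mul, Matrix.mul_fin_two]

theorem dec_powN (i n : ℕ) : dec (powN i n) = dec i ^ n := by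
  induction n with
  | zero =>
    rw [pow_zero, Matrix.one_fin_two]
    exact dec_code (a := 1) (b := 0) (c := 0) (d := 1) (by omega) (by omega) (by omega)
  | succ n ih =>
    have : powN i (n + 1) = force (powN i n) fun y => mulN y i := rfl
    rw [this, force_eq, dec_mulN, ih, pow_succ]

noncomputable def scal (y : ℕ) : Bool :=
  and' (Nat.beq (Nat.mod (Nat.mod (Nat.div y 8) 8) 7) 0)
    (and' (Nat.beq (Nat.mod (Nat.mod (Nat.div y 64) 8) 7) 0)
      (Nat.beq (Nat.mod (Nat.mod y 8) 7) (Nat.mod (Nat.div y 512) 7)))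

theorem scal_iff (y : ℕ) :
    scal y = true ↔ dec y 0 1 = 0 ∧ dec y 1 0 = 0 ∧ dec y 0 0 = dec y 1 1 := by
  simp only [scal, and'_eq_true, Nat.beq_eq, dec, Matrix.of_apply, Matrix.cons_val', Matrix.cons_val_zero,
    Matrix.cons_val_one, Matrix.cons_val_fin_one, ZMod.natCast_eq_natCast_iff',
    ZMod.natCast_eq_zero_iff, Nat.dvd_iff_mod_eq_zero]
  rfl

noncomputable def valid (i : ℕ) : Bool :=
  and' (Nat.blt (Nat.mod i 8) 7) (and' (Nat.blt (Nat.mod (Nat.div i 8) 8) 7)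
    (and' (Nat.blt (Nat.mod (Nat.div i 64) 8) 7) (and' (Nat.blt (Nat.div i 512) 7)
      (not' (Nat.beq (Nat.mod (Nat.mul (Nat.mod i 8) (Nat.div i 512)) 7)
        (Nat.mod (Nat.mul (Nat.mod (Nat.div i 8) 8) (Nat.mod (Nat.div i 64) 8)) 7))))))

theorem valid_iff (i : ℕ) : valid i = true ↔
    i % 8 < 7 ∧ i / 8 % 8 < 7 ∧ i / 64 % 8 < 7 ∧ i / 512 < 7 ∧ (dec i).det ≠ 0 := by
  simp only [valid, and'_eq_true, not'_eq_true, Nat.beq_eq, Nat.blt_eq, dec, Matrix.det_fin_two_of,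
    Ne, sub_eq_zero, ← Nat.cast_mul, ZMod.natCast_eq_natCast_iff']
  rfl

noncomputable def cntN (d : ℕ) : ℕ :=
  force (Nat.gcd d 8) fun a => force (Nat.gcd d 3) fun b => force (Nat.gcd d 7) fun c =>
    cntPow 12 fun i => and' (valid i)
      (force (powN i a) fun y => force (powN y b) fun z => force (powN z c) scal)

theorem cntN_val : ∀ d ∈ D, cntN d =
    6 * tab [1, 50, 57, 92, 162, 49, 176, 204, 98, 105, 288, 140, 210, 224, 252, 336] d := by
  decide +kernel

open Matrix MatrixGroups Cfsg.Agent.Class.Dickson in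
theorem cntN_eq (d : ℕ) (hd : d ∈ D) :
    Nat.card (Subgroup.center (GL (Fin 2) (ZMod 7))) * E PGL(2, ZMod 7) d = cntN d := by
  have hd' : d = Nat.gcd d 8 * Nat.gcd d 3 * Nat.gcd d 7 := by
    revert d; decide +kernel
  have h1 := QuotientGroup.card_preimage_mk (Subgroup.center (GL (Fin 2) (ZMod 7)))
    {x | x ^ d = 1}
  refine h1.symm.trans ?_
  simp only [cntN, force_eq, cntPow_eq]
  rw [← Nat.card_eq_finsetCard]
  have key : ∀ (i : ℕ) (g : GL (Fin 2) (ZMod 7)), dec i = g →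
      (scal (powN (powN (powN i (Nat.gcd d 8)) (Nat.gcd d 3)) (Nat.gcd d 7)) = true ↔
        g ∈ QuotientGroup.mk ⁻¹' {x : GL (Fin 2) (ZMod 7) ⧸ Subgroup.center _ | x ^ d = 1}) := by
    intro i g h
    rw [scal_iff, dec_powN, dec_powN, dec_powN, ← pow_mul, ← pow_mul, ← mul_assoc, ← hd', h,
      ← Units.val_pow_eq_pow_val]
    exact (pmk_eq_one_iff (g ^ d)).symm
  symm
  refine Nat.card_eq_of_bijective (fun i => ⟨Matrix.GeneralLinearGroup.mkOfDetNeZero (dec i)
    ((valid_iff i).1 ((and'_eq_true _ _).1 (Finset.mem_filter.1 i.2).2).1).2.2.2.2,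
    (key i _ rfl).1 ((and'_eq_true _ _).1 (Finset.mem_filter.1 i.2).2).2⟩) ⟨?_, ?_⟩
  · rintro ⟨i, hi⟩ ⟨j, hj⟩ e
    have e' : dec i = dec j := congrArg (fun x => x.1.1) e
    obtain ⟨a1, a2, a3, a4, -⟩ := (valid_iff i).1 ((and'_eq_true _ _).1 (Finset.mem_filter.1 hi).2).1
    obtain ⟨b1, b2, b3, b4, -⟩ := (valid_iff j).1 ((and'_eq_true _ _).1 (Finset.mem_filter.1 hj).2).1
    have c1 : ((i % 8 : ℕ) : ZMod 7) = (j % 8 : ℕ) := congrFun (congrFun e' 0) 0
    have c2 : ((i / 8 % 8 : ℕ) : ZMod 7) = (j / 8 % 8 : ℕ) := congrFun (congrFun e' 0) 1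
    have c3 : ((i / 64 % 8 : ℕ) : ZMod 7) = (j / 64 % 8 : ℕ) := congrFun (congrFun e' 1) 0
    have c4 : ((i / 512 : ℕ) : ZMod 7) = (j / 512 : ℕ) := congrFun (congrFun e' 1) 1
    rw [ZMod.natCast_eq_natCast_iff'] at c1 c2 c3 c4
    apply Subtype.ext
    change i = j
    omega
  · rintro ⟨g, hg⟩
    have a1 := ZMod.val_lt (g 0 0)
    have a2 := ZMod.val_lt (g 0 1)
    have a3 := ZMod.val_lt (g 1 0)
    have a4 := ZMod.val_lt (g 1 1)
    have e : dec ((g 0 0).val + 8 * (g 0 1).val + 64 * (g 1 0).val + 512 * (g 1 1).val) = g := by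
      rw [dec_code (by omega) (by omega) (by omega)]
      simp only [ZMod.natCast_val, ZMod.cast_id', id_eq]
      exact (Matrix.eta_fin_two _).symm
    refine ⟨⟨(g 0 0).val + 8 * (g 0 1).val + 64 * (g 1 0).val + 512 * (g 1 1).val,
      Finset.mem_filter.2 ⟨Finset.mem_range.2 (by omega), (and'_eq_true _ _).2
        ⟨(valid_iff _).2 ⟨by omega, by omega, by omega, by omega, ?_⟩, (key _ g e).2 hg⟩⟩⟩, ?_⟩
    · rw [e]
      exact g.det_ne_zero
    · exact Subtype.ext (Units.ext e)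

open MatrixGroups in
theorem cH4 : ∀ d ∈ D, E PGL(2, ZMod 7) d =
    tab [1, 50, 57, 92, 162, 49, 176, 204, 98, 105, 288, 140, 210, 224, 252, 336] d := by
  have h1 : E PGL(2, ZMod 7) 1 = 1 := by
    simp [E]
  have h6 := cntN_eq 1 (by decide)
  rw [h1, cntN_val 1 (by decide)] at h6
  intro d hd
  have := cntN_eq d hd
  rw [cntN_val d hd, show Nat.card (Subgroup.center (GL (Fin 2) (ZMod 7))) = 6 by
    rw [mul_one] at h6; rw [h6]; decide] at this
  omega

theorem E_gcd {G : Type} [Group G] [Finite G] (h : E G 168 = Nat.card G) (n : ℕ) :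
    E G n = E G (Nat.gcd n 168) :=
  Nat.card_congr (Equiv.subtypeEquivRight fun x => pow_eq_one_iff_gcd (forall_pow_of_card h) x n)

/-- There are finite groups G and H having the same number of elements of each order (the same order type) with G solvable and H not solvable. -/
theorem result :
    ∃ (G : Type) (_ : Group G) (_ : Finite G) (H : Type) (_ : Group H) (_ : Finite H),
      Group.IsSolvable G ∧ ¬ Group.IsSolvable H ∧ ∀ n : ℕ, Nat.card {g : G // orderOf g = n} = Nat.card {h : H // orderOf h = n} := by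
  refine ⟨G1 × G2 × G3, inferInstance, inferInstance,
    F21 × H2 × H3 × Matrix.ProjGenLinGroup (Fin 2) (ZMod 7), inferInstance, inferInstance,
    inferInstance, fun h => ?_, S4377.result.2 fun n => ?_⟩
  · haveI : Group.IsSolvable (Matrix.ProjGenLinGroup (Fin 2) (ZMod 7)) :=
      solvable_of_surjective (f := (MonoidHom.snd _ _).comp ((MonoidHom.snd _ _).comp
        (MonoidHom.snd F21 (H2 × H3 × Matrix.ProjGenLinGroup (Fin 2) (ZMod 7)))))
        fun x => ⟨(1, 1, 1, x), rfl⟩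
    exact S0810.not_solvable (F := ZMod 7) (by simp)
      (solvable_of_solvable_injective Class.Dickson.pslTo_injective)
  · have h168 : 168 ∈ D := by decide
    have hg : Nat.gcd n 168 ∈ D := by
      have : ∀ d ∈ Nat.divisors 168, d ∈ D := by decide
      exact this _ (Nat.mem_divisors.2 ⟨Nat.gcd_dvd_right _ _, by norm_num⟩)
    simp only [card_prod]
    change E G1 n * (E G2 n * E G3 n) = E F21 n * (E H2 n * (E H3 n * E _ n))
    rw [E_gcd (G := G1) (by rw [cG1 _ h168, Nat.card_eq_fintype_card]; decide +kernel),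
      E_gcd (G := G2) (by rw [cG2 _ h168, Nat.card_eq_fintype_card]; decide +kernel),
      E_gcd (G := G3) (by rw [cG3 _ h168, Nat.card_eq_fintype_card]; decide +kernel),
      E_gcd (G := F21) (by rw [cH1 _ h168, Nat.card_eq_fintype_card]; decide +kernel),
      E_gcd (G := H2) (by rw [cH2 _ h168, Nat.card_eq_fintype_card]; decide +kernel),
      E_gcd (G := H3) (by rw [cH3 _ h168, Nat.card_eq_fintype_card]; decide +kernel),
      E_gcd (G := Matrix.ProjGenLinGroup (Fin 2) (ZMod 7))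
        (by rw [cH4 _ h168, Class.Dickson.card_PGL2]; simp; decide +kernel),
      cG1 _ hg, cG2 _ hg, cG3 _ hg, cH1 _ hg, cH2 _ hg, cH3 _ hg, cH4 _ hg]
    generalize Nat.gcd n 168 = d at hg
    revert d
    decide +kernel

end Cfsg.Agent.S4376
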