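import Mathlib
import Cfsg.Statements.S4379
import Cfsg.Agent.Solv.Hall
import Cfsg.Agent.Solv.CoreFree
import Cfsg.Agent.Grp.Frattini
import Cfsg.Agent.Grp.MinNormal
import Cfsg.Agent.Grp.Cores
import Cfsg.Agent.PLocal.PSolv
import Cfsg.Agent.PLocal.Amb
import Cfsg.Agent.Grp.PChain
-- import your own Cfsg.Agent.* helpers here

set_option autoImplicit false
set_option linter.style.haveILetI false
open Cfsg Subgroup
open scoped Pointwise

namespace Cfsg.Agent.S4379

universe u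

/-- every maximal subgroup is `p`-nilpotent or has prime index -/
def Hyp (p : ℕ) (G : Type*) [Group G] : Prop :=
  ∀ M : Subgroup G, IsCoatom M →
    (∃ K : Subgroup ↥M, K.Normal ∧ ¬ p ∣ Nat.card K ∧ ∃ k : ℕ, K.index = p ^ k) ∨ (M.index).Prime

/-- a chain `N ≤ A ≤ B ≤ C ≤ G` of type `p', p, p', p` -/
def Chain (p : ℕ) {G : Type*} [Group G] (N : Subgroup G) : Prop :=
  ∃ A B C : Subgroup G, A.Normal ∧ B.Normal ∧ C.Normal ∧ N ≤ A ∧ A ≤ B ∧ B ≤ C ∧
    ¬ p ∣ N.relIndex A ∧ (∃ k : ℕ, A.relIndex B = p ^ k) ∧ ¬ p ∣ B.relIndex C ∧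
    ∃ k : ℕ, C.index = p ^ k

theorem Hyp.map {p : ℕ} [hp : Fact p.Prime] {G G' : Type*} [Group G] [Group G'] [Finite G]
    (h : Hyp p G) (f : G →* G') (hf : Function.Surjective f) : Hyp p G' := by
  intro M hM
  rcases h _ (isCoatom_comap_of_surjective hf hM) with ⟨K, hK, h1, k, h2⟩ | h1
  · have hg : Function.Surjective (f.subgroupComap M) := f.subgroupComap_surjective_of_surjective M hf
    refine Or.inl ⟨K.map (f.subgroupComap M), hK.map _ hg, fun hd => h1 (hd.trans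
      (card_map_dvd _ _)), ?_⟩
    obtain ⟨j, -, hj⟩ := (Nat.dvd_prime_pow hp.out).1 (h2 ▸ index_map_dvd K hg)
    exact ⟨j, hj⟩
  · rw [index_comap_of_surjective _ hf] at h1
    exact Or.inr h1

theorem Chain.comap {p : ℕ} {G G' : Type*} [Group G] [Group G'] (f : G →* G')
    (hf : Function.Surjective f) {N : Subgroup G'} (h : Chain p N) : Chain p (N.comap f) := by
  obtain ⟨A, B, C, hA, hB, hC, h0, h1, h2, h3, h4, h5, h6⟩ := h
  have e : ∀ X Y : Subgroup G', (X.comap f).relIndex (Y.comap f) = X.relIndex Y := fun X Y => by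
    rw [relIndex_comap, map_comap_eq_self_of_surjective hf]
  refine ⟨A.comap f, B.comap f, C.comap f, inferInstance, inferInstance, inferInstance,
    comap_mono h0, comap_mono h1, comap_mono h2, by rwa [e], by rwa [e], by rwa [e], ?_⟩
  rwa [index_comap_of_surjective _ hf]

theorem relIndex_inf_dvd {G : Type*} [Group G] {X₁ Y₁ X₂ Y₂ : Subgroup G} [X₁.Normal]
    [X₂.Normal] (h1 : X₁ ≤ Y₁) (h2 : X₂ ≤ Y₂) :
    (X₁ ⊓ X₂).relIndex (Y₁ ⊓ Y₂) ∣ X₁.relIndex Y₁ * X₂.relIndex Y₂ := by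
  rw [← relIndex_mul_relIndex (X₁ ⊓ X₂) (X₁ ⊓ Y₂) (Y₁ ⊓ Y₂) (inf_le_inf_left _ h2)
    (inf_le_inf_right _ h1), mul_comm]
  refine mul_dvd_mul ?_ ?_
  · have : (X₁ ⊓ Y₂).relIndex (Y₁ ⊓ Y₂) = X₁.relIndex (Y₁ ⊓ Y₂) := by
      rw [← inf_relIndex_right X₁, ← inf_relIndex_right (X₁ ⊓ Y₂)]
      congr 1; ext x; simp only [mem_inf]; tauto
    rw [this]
    exact PLocal.relIndex_dvd_relIndex_of_le_right _ inf_le_left
  · have : (X₁ ⊓ X₂).relIndex (X₁ ⊓ Y₂) = X₂.relIndex (X₁ ⊓ Y₂) := by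
      rw [← inf_relIndex_right X₂, ← inf_relIndex_right (X₁ ⊓ X₂)]
      congr 1; ext x; simp only [mem_inf]; tauto
    rw [this]
    exact PLocal.relIndex_dvd_relIndex_of_le_right _ inf_le_right

theorem Chain.inf {p : ℕ} [hp : Fact p.Prime] {G : Type*} [Group G] {N L : Subgroup G}
    [N.Normal] [L.Normal] (h : Chain p N) (h' : Chain p L) : Chain p (N ⊓ L) := by
  obtain ⟨A, B, C, hA, hB, hC, h0, h1, h2, h3, ⟨k, h4⟩, h5, ⟨l, h6⟩⟩ := h
  obtain ⟨A', B', C', hA', hB', hC', h0', h1', h2', h3', ⟨k', h4'⟩, h5', ⟨l', h6'⟩⟩ := h'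
  refine ⟨A ⊓ A', B ⊓ B', C ⊓ C', inferInstance, inferInstance, inferInstance, inf_le_inf h0 h0',
    inf_le_inf h1 h1', inf_le_inf h2 h2', fun h => ?_, ?_, fun h => ?_, ?_⟩
  · exact (hp.out.dvd_mul.1 (h.trans (relIndex_inf_dvd h0 h0'))).elim h3 h3'
  · have := relIndex_inf_dvd h1 h1'
    rw [h4, h4', ← pow_add] at this
    obtain ⟨j, -, hj⟩ := (Nat.dvd_prime_pow hp.out).1 this
    exact ⟨j, hj⟩
  · exact (hp.out.dvd_mul.1 (h.trans (relIndex_inf_dvd h2 h2'))).elim h5 h5'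
  · have := relIndex_inf_dvd (le_top : C ≤ ⊤) (le_top : C' ≤ ⊤)
    rw [inf_top_eq, relIndex_top_right, relIndex_top_right, relIndex_top_right, h6, h6',
      ← pow_add] at this
    obtain ⟨j, -, hj⟩ := (Nat.dvd_prime_pow hp.out).1 this
    exact ⟨j, hj⟩

theorem main {p : ℕ} [hp : Fact p.Prime] (n : ℕ) :
    ∀ (G : Type u) [Group G] [Finite G], Nat.card G = n → IsPSolvable p G → Hyp p G →
      Chain p (⊥ : Subgroup G) := by
  induction n using Nat.strong_induction_on with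
  | _ n ih =>
  intro G _ _ hn hG hmax
  have hp1 : ¬ p ∣ 1 := hp.out.not_dvd_one
  have IH : ∀ N : Subgroup G, N.Normal → N ≠ ⊥ → Chain p N := fun N _ hN => by
    have := (ih _ (hn ▸ Grp.card_quotient_lt N hN) (G ⧸ N) rfl (PLocal.IsPSolvable.quotient hG N)
      (hmax.map _ (QuotientGroup.mk'_surjective N))).comap _ (QuotientGroup.mk'_surjective N)
    rwa [MonoidHom.comap_bot, QuotientGroup.ker_mk'] at this
  rcases subsingleton_or_nontrivial G with h | h
  · have hb : (⊤ : Subgroup G) = ⊥ := Subsingleton.elim _ _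
    refine ⟨⊥, ⊥, ⊥, inferInstance, inferInstance, inferInstance, le_rfl, le_rfl, le_rfl,
      by simpa using hp1, ⟨0, by simp⟩, by simpa using hp1, ⟨0, by rw [← hb]; simp⟩⟩
  by_cases hO : pPrimeCore p G = ⊥
  swap
  · obtain ⟨A, B, C, hA, hB, hC, h0, h1, h2, h3, h4⟩ := IH _ inferInstance hO
    refine ⟨A, B, C, hA, hB, hC, bot_le, h1, h2, fun h => ?_, h4⟩
    rw [← relIndex_mul_relIndex ⊥ _ _ bot_le h0, relIndex_bot_left] at h
    exact (hp.out.dvd_mul.1 h).elim (Grp.not_dvd_card_pPrimeCore p G) h3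
  obtain ⟨N, hNn, hN1, hmin⟩ := Grp.exists_minNormal G
  have hNp : IsPGroup p N := by
    obtain ⟨M, hM, hM1, hMN, h | h⟩ := PLocal.IsPSolvable.exists_normal_le
      (PLocal.IsPSolvable.subgroup hG N) hN1
    · exact ((hmin M hM hMN).resolve_left hM1) ▸ h
    · exact absurd (le_bot_iff.1 (hO ▸ Grp.le_pPrimeCore hM h)) hM1
  haveI : Group.IsNilpotent N := hNp.isNilpotent
  haveI hNc : IsMulCommutative N := (Grp.minNormal_elementaryAbelian N hN1 hmin).1
  obtain ⟨a, ha⟩ := hNp.exists_card_eq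
  by_cases hL : ∃ L : Subgroup G, L.Normal ∧ L ≠ ⊥ ∧ N ⊓ L = ⊥
  · obtain ⟨L, hL, hL1, hNL⟩ := hL
    exact hNL ▸ (IH N hNn hN1).inf (IH L hL hL1)
  have huniq : ∀ L : Subgroup G, L.Normal → L ≠ ⊥ → N ≤ L := fun L hLn hL1 =>
    inf_eq_left.1 ((hmin _ inferInstance inf_le_left).resolve_left fun h => hL ⟨L, hLn, hL1, h⟩)
  by_cases hΦ : N ≤ frattini G
  · obtain ⟨A, B, C, hA, hB, hC, h0, h1, h2, h3, ⟨k, h4⟩, h5⟩ := IH N hNn hN1
    have hcN : Nat.card (N.subgroupOf A) = Nat.card N :=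
      Nat.card_congr (subgroupOfEquivOfLe h0).toEquiv
    have hcop : (Nat.card N).Coprime (N.relIndex A) :=
      ha ▸ Nat.Coprime.pow_left _ ((hp.out.coprime_iff_not_dvd).2 h3)
    obtain ⟨H₀, hH₀⟩ := exists_right_complement'_of_coprime (N := N.subgroupOf A) (hcN ▸ hcop)
    set H := H₀.map A.subtype with hH
    have hcH : Nat.card H = N.relIndex A := by
      rw [hH, card_map_of_injective A.subtype_injective, ← hH₀.symm.index_eq_card]; rfl
    have hHN : H ⊔ N = A := by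
      rw [hH, ← PLocal.Amb.map_subgroupOf_of_le h0, ← Subgroup.map_sup, hH₀.symm.sup_eq_top,
        ← MonoidHom.range_eq_map, range_subtype]
    have hHn : normalizer (H : Set G) = ⊤ := by
      refine Grp.eq_top_of_sup_le_frattini hΦ (top_le_iff.1 fun g _ => ?_)
      obtain ⟨c, hc, hcg⟩ := Solv.conj_of_complements_abelian (N := N) (K := H)
        (H := MulAut.conj g • H) le_normalizer_of_normal (hcH ▸ hcop) (by
          rw [hHN]
          rintro _ ⟨x, hx, rfl⟩
          exact hA.conj_mem _ (map_subtype_le H₀ hx) g)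
        (PLocal.Amb.card_cj g H)
      have : c⁻¹ * g ∈ normalizer (H : Set G) := by
        rw [← PLocal.Amb.cj_eq_iff, PLocal.Amb.cj_mul]
        have e : Subgroup.map (MulEquiv.toMonoidHom (MulAut.conj g)) H =
          Subgroup.map (MulEquiv.toMonoidHom (MulAut.conj c)) H := hcg.symm
        rw [e, PLocal.Amb.cj_inv_cj]
      rw [← mul_inv_cancel_left c g]
      exact mul_mem (mem_sup_right hc) (mem_sup_left this)
    have hH1 : H = ⊥ := le_bot_iff.1 (hO ▸ Grp.le_pPrimeCore (normalizer_eq_top_iff.1 hHn)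
      (hcH ▸ ((hp.out.coprime_iff_not_dvd).2 h3).symm))
    rw [hH1, bot_sup_eq] at hHN
    subst hHN
    refine ⟨⊥, B, C, inferInstance, hB, hC, le_rfl, bot_le, h2, by simpa using hp1,
      ⟨a + k, ?_⟩, h5⟩
    rw [← relIndex_mul_relIndex ⊥ _ _ bot_le h1, relIndex_bot_left, ha, h4, pow_add]
  obtain ⟨M, hM, hNM⟩ : ∃ M, IsCoatom M ∧ ¬ N ≤ M := by
    by_contra h
    push Not at h
    exact hΦ (Grp.le_frattini_iff.2 h)
  have hcore : M.normalCore = ⊥ := by
    by_contra h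
    exact hNM ((huniq _ inferInstance h).trans M.normalCore_le)
  have hc := Solv.isComplement'_of_coreFree hM hcore N hN1
  rcases hmax M hM with ⟨K, hK, h1, k, h2⟩ | h1
  · let π : M →* G ⧸ N := (QuotientGroup.mk' N).comp M.subtype
    have hπ : Function.Surjective π := by
      intro x
      obtain ⟨g, rfl⟩ := QuotientGroup.mk'_surjective N x
      obtain ⟨⟨⟨y, hy⟩, m⟩, rfl⟩ := hc.2 g
      refine ⟨m, ?_⟩
      simp [π, (QuotientGroup.eq_one_iff y).2 hy]
    have hKn : (K.map π).Normal := hK.map _ hπ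
    refine ⟨⊥, N, (K.map π).comap (QuotientGroup.mk' N), inferInstance, hNn, inferInstance,
      le_rfl, bot_le, fun x hx => ?_, by simpa using hp1, ⟨a, by rw [relIndex_bot_left, ha]⟩,
      fun h => h1 (h.trans ?_), ?_⟩
    · rw [mem_comap, QuotientGroup.mk'_apply, (QuotientGroup.eq_one_iff x).2 hx]
      exact one_mem _
    · have := relIndex_ker ((K.map π).comap (QuotientGroup.mk' N)) (QuotientGroup.mk' N)
      rw [QuotientGroup.ker_mk',
        map_comap_eq_self_of_surjective (QuotientGroup.mk'_surjective N)] at this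
      rw [this]
      exact card_map_dvd _ _
    · rw [index_comap_of_surjective _ (QuotientGroup.mk'_surjective N)]
      obtain ⟨j, -, hj⟩ := (Nat.dvd_prime_pow hp.out).1 (h2 ▸ index_map_dvd K hπ)
      exact ⟨j, hj⟩
  · rw [hc.index_eq_card, ha] at h1
    have ha1 : a = 1 := by
      rcases (Nat.Prime.pow_eq_iff h1).1 rfl with ⟨-, h⟩
      exact h
    rw [ha1, pow_one] at ha
    refine ⟨⊥, N, ⊤, inferInstance, hNn, inferInstance, le_rfl, bot_le, le_top,
      by simpa using hp1, ⟨1, by rw [relIndex_bot_left, ha, pow_one]⟩, fun h => ?_, 0, by simp⟩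
    rw [relIndex_top_right] at h
    obtain ⟨P⟩ : Nonempty (Sylow p G) := inferInstance
    have hNP : N ≤ P := hNp.le_sylow_of_normal P
    have h2 : N.subgroupOf P ≤ center P := Grp.PChain.le_center_of_card_eq_prime P.2 _
      (by rw [Nat.card_congr (subgroupOfEquivOfLe hNP).toEquiv, ha])
    have h3 : (P : Subgroup G) ≤ N := by
      rw [← Solv.centralizer_eq_of_coreFree hM hcore N hN1]
      intro x hx y hy
      exact (congrArg Subtype.val (mem_center_iff.1 (h2 (x := ⟨y, hNP hy⟩) hy) ⟨x, hx⟩)).symm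
    exact P.not_dvd_index (h.trans (index_dvd_of_le h3))

/-- Let p be an odd prime and G a finite p-solvable group in which every maximal subgroup either has a normal p-complement or has prime index. Then G has a chain of normal subgroups 1 ≤ A ≤ B ≤ C ≤ D ≤ G in which A, C/B and G/D have order prime to p and B/A and D/C are p-groups (so the p-length of G is at most 2). -/
theorem result {G : Type*} [Group G] [Finite G]
    (p : ℕ) [Fact p.Prime] (hp : p ≠ 2) (hG : Cfsg.IsPSolvable p G)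
    (hmax : ∀ M : Subgroup G, IsCoatom M → (∃ K : Subgroup ↥M, K.Normal ∧ ¬ p ∣ Nat.card K ∧ ∃ k : ℕ, K.index = p ^ k) ∨ (M.index).Prime) :
    ∃ A B C D : Subgroup G, A.Normal ∧ B.Normal ∧ C.Normal ∧ D.Normal ∧ A ≤ B ∧ B ≤ C ∧ C ≤ D ∧ ¬ p ∣ Nat.card A ∧
      (∃ k : ℕ, A.relIndex B = p ^ k) ∧ ¬ p ∣ B.relIndex C ∧ (∃ k : ℕ, C.relIndex D = p ^ k) ∧ ¬ p ∣ D.index := by
  obtain ⟨A, B, C, hA, hB, hC, -, h1, h2, h3, h4, h5, h6⟩ := main _ G rfl hG hmax
  rw [relIndex_bot_left] at h3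
  exact ⟨A, B, C, ⊤, hA, hB, hC, inferInstance, h1, h2, le_top, h3, h4, h5,
    by rwa [relIndex_top_right], by rw [index_top]; exact (Fact.out : p.Prime).not_dvd_one⟩

end Cfsg.Agent.S4379
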