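import Cfsg.Statements.S4381
import Mathlib
import Cfsg.Agent.Solv.ExtAction2

set_option autoImplicit false
open Pointwise
open Cfsg

namespace Cfsg.Agent.S4381

open Solv.Ext

theorem frattini_le_of_max {A G : Type*} [Group A] [Group G] [Finite G] [MulDistribMulAction A G]
    {M : Subgroup G} (hM : M ≠ ⊤) (hMA : Inv A M)
    (hmax : ∀ L : Subgroup G, M < L → Inv A L → L = ⊤) : frattini G ≤ M := by
  by_contra h
  have h1 : M < M ⊔ frattini G := lt_of_le_of_ne le_sup_left fun e => h (e ▸ le_sup_right)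
  exact hM (frattini_nongenerating (hmax _ h1 (hMA.sup (inv_of_characteristic _))))


/-- Let the finite group A act by automorphisms on the finite group G with the orders of A and G coprime, and assume that A or G is solvable. Call a proper A-invariant subgroup of G maximal A-invariant when no A-invariant subgroup lies strictly between it and G. Then all maximal A-invariant subgroups of G are conjugate under elements of the fixed-point subgroup C_G(A) if and only if G is a p-group for some prime p and A leaves invariant no subgroup strictly between the Frattini subgroup of G and G. In that case, if G is nontrivial, the Frattini subgroup is the only maximal A-invariant subgroup (a trivial G has none). -/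
theorem result {A G : Type*} [Group A] [Finite A]
    [Group G] [Finite G] [MulDistribMulAction A G] (hcop : (Nat.card A).Coprime (Nat.card G)) (hsol : Group.IsSolvable A ∨ Group.IsSolvable G) :
    ((∀ M N : Subgroup G, (M ≠ ⊤ ∧ (∀ a : A, ∀ x ∈ M, a • x ∈ M) ∧ ∀ L : Subgroup G, M < L → (∀ a : A, ∀ x ∈ L, a • x ∈ L) → L = ⊤) → (N ≠ ⊤ ∧ (∀ a : A, ∀ x ∈ N, a • x ∈ N) ∧ ∀ L : Subgroup G, N < L → (∀ a : A, ∀ x ∈ L, a • x ∈ L) → L = ⊤) →
        ∃ c : G, (∀ a : A, a • c = c) ∧ N = MulAut.conj c • M) ↔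
      ((∃ p : ℕ, p.Prime ∧ IsPGroup p G) ∧ ∀ L : Subgroup G, frattini G < L → (∀ a : A, ∀ x ∈ L, a • x ∈ L) → L = ⊤)) ∧
    (((∃ p : ℕ, p.Prime ∧ IsPGroup p G) ∧ ∀ L : Subgroup G, frattini G < L → (∀ a : A, ∀ x ∈ L, a • x ∈ L) → L = ⊤) →
      ∀ M : Subgroup G, (M ≠ ⊤ ∧ (∀ a : A, ∀ x ∈ M, a • x ∈ M) ∧ ∀ L : Subgroup G, M < L → (∀ a : A, ∀ x ∈ L, a • x ∈ L) → L = ⊤) ↔ (M = frattini G ∧ M ≠ ⊤)) := by
  have key : (∀ L : Subgroup G, frattini G < L → Inv A L → L = ⊤) → ∀ M : Subgroup G,
      (M ≠ ⊤ ∧ Inv A M ∧ ∀ L : Subgroup G, M < L → Inv A L → L = ⊤) ↔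
        (M = frattini G ∧ M ≠ ⊤) := by
    intro h M
    constructor
    · rintro ⟨hM, hMA, hmax⟩
      refine ⟨?_, hM⟩
      rcases (frattini_le_of_max hM hMA hmax).eq_or_lt with e | hlt
      · exact e.symm
      · exact absurd (h M hlt hMA) hM
    · rintro ⟨rfl, hM⟩
      exact ⟨hM, inv_of_characteristic _, h⟩
  refine ⟨⟨fun h => ?_, fun h M N hM hN => ?_⟩, fun h => key h.2⟩
  · have hp : ∃ p : ℕ, p.Prime ∧ IsPGroup p G := by
      by_cases hb : (⊥ : Subgroup G) = ⊤
      · have : Subsingleton G := Subgroup.subsingleton_iff.1 (subsingleton_iff_bot_eq_top.1 hb)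
        exact ⟨2, Nat.prime_two, IsPGroup.of_card (n := 0) (by simp)⟩
      obtain ⟨M, -, hM⟩ := exists_maximal_inv_ge (A := A) inv_bot hb
      have h1 : M.index ≠ 1 := fun e => hM.1 (Subgroup.index_eq_one.1 e)
      have hq := Nat.minFac_prime h1
      have := Fact.mk hq
      refine ⟨_, hq, ?_⟩
      obtain ⟨P, hP⟩ := exists_inv_sylow hcop hsol M.index.minFac
      by_cases hPt : (P : Subgroup G) = ⊤
      · have h3 : IsPGroup _ (⊤ : Subgroup G) := hPt ▸ P.2
        exact h3.of_equiv Subgroup.topEquiv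
      exfalso
      obtain ⟨N, hPN, hN⟩ := exists_maximal_inv_ge hP hPt
      obtain ⟨c, -, hc⟩ := h M N hM hN
      have h2 : N.index = M.index := by
        have e1 := N.card_mul_index
        have e2 := M.card_mul_index
        rw [hc, Grp.card_conj_smul, ← e2] at e1
        rw [hc]
        exact Nat.eq_of_mul_eq_mul_left Nat.card_pos e1
      exact P.not_dvd_index (((Nat.minFac_dvd _).trans h2.symm.dvd).trans
        (Subgroup.index_dvd_of_le hPN))
    refine ⟨hp, fun L hL hLA => ?_⟩
    obtain ⟨p, hp, hG⟩ := hp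
    have := Fact.mk hp
    by_contra hLt
    obtain ⟨W, hW, h1, h2⟩ := exists_inv_compl_mod (A := A) (p := p) (inv_of_characteristic _)
      (Grp.PFrattini.commutator_le_frattini hG) (Grp.PFrattini.pow_mem_frattini hG) hLA hL.le hcop
    have hWt : W ≠ ⊤ := by
      rintro rfl
      rw [inf_top_eq] at h1
      exact hL.ne' h1
    obtain ⟨M, hLM, hM⟩ := exists_maximal_inv_ge hLA hLt
    obtain ⟨N, hWN, hN⟩ := exists_maximal_inv_ge hW hWt
    obtain ⟨c, -, hc⟩ := h M N hM hN
    have hMn : M.Normal := Subgroup.Normal.of_commutator_le _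
      ((Grp.PFrattini.commutator_le_frattini hG).trans (hL.le.trans hLM))
    rw [Grp.conj_smul_normal] at hc
    exact hM.1 (top_le_iff.1 (h2 ▸ sup_le hLM (hc ▸ hWN)))
  · refine ⟨1, fun a => smul_one a, ?_⟩
    rw [map_one, one_smul, ((key h.2 M).1 hM).1, ((key h.2 N).1 hN).1]

end Cfsg.Agent.S4381
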