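import Cfsg.Statements.S4383
import Cfsg.Agent.FGS.TwoMax

set_option autoImplicit false
open Pointwise
open Cfsg

namespace Cfsg.Agent.S4383

/-- A finite group with exactly two conjugacy classes of maximal subgroups is solvable and its order has exactly two prime divisors. -/
theorem result {G : Type*} [Group G] [Finite G]
    (M₁ M₂ : Subgroup G) (h1 : IsCoatom M₁) (h2 : IsCoatom M₂) (hne : ∀ g : G, M₂ ≠ MulAut.conj g • M₁)
    (hall : ∀ M : Subgroup G, IsCoatom M → ∃ g : G, M = MulAut.conj g • M₁ ∨ M = MulAut.conj g • M₂) :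
    Group.IsSolvable G ∧ (Nat.card G).primeFactors.card = 2 := by
  have h : FGS.TwoMax.Cov M₁ M₂ := fun H hH => by
    obtain ⟨M, hM, hHM⟩ := (eq_top_or_exists_le_coatom H).resolve_left hH
    obtain ⟨g, rfl | rfl⟩ := hall M hM
    · exact ⟨g, Or.inl hHM⟩
    · exact ⟨g, Or.inr hHM⟩
  have h' : FGS.TwoMax.Cov M₂ M₁ := fun H hH => let ⟨g, hg⟩ := h H hH; ⟨g, hg.symm⟩
  have hc := FGS.TwoMax.coprime_index h h1 h2 fun e => hne 1 (by simp [e])
  rcases lt_trichotomy M₁.index M₂.index with e | e | e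
  · exact FGS.TwoMax.main_of_lt h h1 h2.1 hc e
  · rw [e, Nat.coprime_self] at hc
    exact absurd (Subgroup.index_eq_one.1 hc) h2.1
  · exact FGS.TwoMax.main_of_lt h' h2 h1.1 hc.symm e

end Cfsg.Agent.S4383
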