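import Mathlib
import Cfsg.Statements.S4385
import Cfsg.Agent.PLocal.SimsSeq
import Cfsg.Agent.PLocal.Sym4Rec
import Cfsg.Agent.PLocal.PSolv
import Cfsg.Agent.Inv.AutTwo
import Cfsg.Agent.Grp.Cores
-- import your own Cfsg.Agent.* helpers here

set_option autoImplicit false
open Pointwise
set_option linter.style.haveILetI false
open Cfsg Subgroup Cfsg.Agent.PLocal Cfsg.Agent.PLocal.Amb Cfsg.Agent.Sims
open scoped commutatorElement

namespace Cfsg.Agent.S4385

section six

variable {G : Type*} [Group G] [Finite G] {x : ℤ → G}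

theorem six_left (h : Seq 2 6 x) (hk : ∀ a b, a - b < 4 → b - a < 4 → Commute (x a) (x b))
    (hn : ∀ a, ¬ Commute (x a) (x (a + 4))) (a : ℤ) :
    ⁅x a, x (a + 5)⁆ ∈ Y x (a + 2) (a + 5) := by
  have hu := h.comm_mem (a := a) (b := a + 5) (by omega) (by omega)
  rcases h.decomp (by omega) (by omega) hu with h1 | ⟨v, hv, e, he⟩
  · rwa [add_assoc] at h1
  exfalso
  apply hn (a + 1)
  rw [show a + 1 + 4 = a + 5 by ring, he]
  refine (Commute.pow_right (Commute.mul_right ?_ ?_) e).symm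
  · have h2 : ∀ m, x m * x m = 1 := fun m => by rw [← pow_two]; exact h.pow_eq_one (by norm_num) m
    have h3 : ∀ w ∈ Y x (a + 1) (a + 5), w * w = 1 := by
      intro w hw
      induction hw using closure_induction with
      | mem w hw => obtain ⟨m, -, rfl⟩ := hw; exact h2 m
      | one => simp
      | mul u v hu hv iu iv =>
        have : Commute u v := commute_Y (fun m j _ _ _ _ => hk _ _ (by omega) (by omega)) hu hv
        rw [mul_assoc, ← mul_assoc v, ← this.eq, mul_assoc, iv, mul_one, iu]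
      | inv u hu iu => rw [← mul_inv_rev, iu, inv_one]
    have h4 := h3 _ hu
    have i1 := inv_eq_of_mul_eq_one_right (h2 a)
    have i2 := inv_eq_of_mul_eq_one_right (h2 (a + 5))
    have i3 := inv_eq_of_mul_eq_one_right h4
    rw [commutatorElement_inv] at i3
    rw [Commute, SemiconjBy]
    nth_rewrite 1 [← i3]
    simp only [commutatorElement_def, i1, i2]
    simp only [← mul_assoc]
    rw [h2, one_mul, mul_assoc _ (x (a + 5)) (x (a + 5)), h2, mul_one]
  · exact commute_Y_left (fun m _ _ => hk _ _ (by omega) (by omega)) hv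

theorem six_norm (h : Seq 2 6 x) (hk : ∀ a b, a - b < 4 → b - a < 4 → Commute (x a) (x b))
    (hn : ∀ a, ¬ Commute (x a) (x (a + 4))) : Y x 0 8 ≤ 𝐍[Y x 2 6] := by
  have h5 : ∀ a, ⁅x a, x (a + 5)⁆ ∈ Y x (a + 2) (a + 4) := fun a => by
    have h1 := six_left h hk hn a
    have h2 := six_left h.neg (fun a b _ _ => hk _ _ (by omega) (by omega))
      (fun b hb => hn (-(b + 4)) (by
        have := hb.symm
        rwa [show -(b + 4) + 4 = -b by ring])) (-(a + 5))
    rw [Y_neg] at h2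
    simp only [neg_neg, show -(-(a + 5) + 5) = a by ring] at h2
    have h3 := inv_mem h2
    rw [commutatorElement_inv] at h3
    exact h.inf_le (a := a + 1) (by omega) (by omega) (by omega)
      ⟨Y_mono (by omega) (by omega) h3, h1⟩
  have h4 := h.comm_mem_mid (k := 4) (by norm_num) (by norm_num) hk hn
  refine Y_le.2 fun m h1 h2 => mem_normalizer_of_cj_le (cj_le_iff.2 (Y_le.2 fun j h3 h6 => ?_))
  rw [mem_cj, inv_inv, show x m * x j * (x m)⁻¹ = ⁅x m, x j⁆ * x j by
    simp [commutatorElement_def]]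
  refine mul_mem ?_ (mem_Y h3 h6)
  by_cases e1 : j = m + 4
  · subst e1; exact Y_mono (by omega) (by omega) (h4 m)
  by_cases e2 : j = m + 5
  · subst e2; exact Y_mono (by omega) (by omega) (h5 m)
  by_cases e3 : m = j + 4
  · subst e3
    rw [← commutatorElement_inv]; exact inv_mem (Y_mono (by omega) (by omega) (h4 j))
  by_cases e4 : m = j + 5
  · subst e4
    rw [← commutatorElement_inv]; exact inv_mem (Y_mono (by omega) (by omega) (h5 j))
  rw [commutatorElement_eq_one_iff_commute.2 (hk _ _ (by omega) (by omega))]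
  exact one_mem _

end six

section struct

variable {H : Type*} [Group H] [Finite H]

theorem pow_twelve {Q Z : Subgroup H} [Q.Normal] (hQ : ∀ v ∈ Q, v * v = 1) (hZQ : Z ≤ Q)
    (hZ : Z ≤ center H) (hc : Nat.card Q = 4 * Nat.card Z) (g : H) : g ^ 12 ∈ 𝐂[Q] := by
  haveI : Z.Normal := ⟨fun z hz g => by rwa [mem_center_iff.1 (hZ hz) g, mul_inv_cancel_right]⟩
  haveI := (inferInstance : Q.Normal).map _ (QuotientGroup.mk'_surjective Z)
  have h4 : Nat.card (Q.map (QuotientGroup.mk' Z)) = 4 := by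
    have := Grp.card_map_mul_card_inf_ker (QuotientGroup.mk' Z) Q
    rw [QuotientGroup.ker_mk', inf_eq_right.2 hZQ, hc] at this
    exact Nat.eq_of_mul_eq_mul_right Nat.card_pos this
  have hK : IsKleinFour (Q.map (QuotientGroup.mk' Z)) := by
    refine ⟨h4, ?_⟩
    haveI : Nontrivial (Q.map (QuotientGroup.mk' Z)) :=
      Finite.one_lt_card_iff_nontrivial.1 (by omega)
    refine (Monoid.exponent_eq_prime_iff Nat.prime_two).2 fun v hv => orderOf_eq_prime ?_ hv
    obtain ⟨_, w, hw, rfl⟩ := v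
    exact Subtype.ext (by rw [SubmonoidClass.coe_pow, ← map_pow, pow_two, hQ w hw]; rfl)
  have h6 := Inv.relIndex_centralizer_kleinFour_dvd hK
  rw [normalizer_eq_top, relIndex_top_right] at h6
  obtain ⟨k, hk⟩ := h6
  have h7 : QuotientGroup.mk' Z (g ^ 6) ∈ 𝐂[Q.map (QuotientGroup.mk' Z)] := by
    rw [map_pow, hk, pow_mul]
    exact pow_mem (pow_index_mem _ _) _
  intro v hv
  have h8 := h7 _ ⟨v, hv, rfl⟩
  rw [← map_mul, ← map_mul, QuotientGroup.mk'_apply, QuotientGroup.mk'_apply,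
    QuotientGroup.eq] at h8
  rw [show g ^ 12 = g ^ 6 * g ^ 6 by group]
  generalize g ^ 6 = a at h8
  have e : a * v = v * a * ((v * a)⁻¹ * (a * v)) := by group
  generalize (v * a)⁻¹ * (a * v) = z at h8 e
  have hz := mem_center_iff.1 (hZ h8)
  calc v * (a * a) = v * a * (z * z) * a := by rw [hQ z (hZQ h8)]; group
    _ = (v * a * z) * (z * a) := by group
    _ = a * (v * a * z) := by rw [← hz a]; nth_rewrite 1 [← e]; group
    _ = a * a * v := by rw [← e]; group

theorem struct_A {Q P : Subgroup H} [Q.Normal] (hP : IsPGroup 2 P) (hQP : Q ≤ P) {g : H}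
    (hg : Odd (orderOf g)) (hgen : Q ⊔ zpowers g ⊔ P = ⊤) [(Q ⊔ zpowers g).Normal]
    (hQ : Q ≤ center H) (h4 : Nat.card P = 4) (he : ∀ v ∈ P, v * v = 1) :
    Nonempty (H ⧸ oddCore H ≃* Multiplicative (ZMod 2) × Multiplicative (ZMod 2)) := by
  have h1 : Q ⊔ zpowers g ≤ Q ⊔ pPrimeCore 2 H := by
    refine le_sup_pPrimeCore_of_central (hP.to_le hQP)
      (fun a _ b hb => (mem_center_iff.1 (hQ hb) a).symm) ?_
    rw [relIndex_sup_left]
    refine Nat.Coprime.coprime_dvd_left (relIndex_dvd_card _ _) ?_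
    rw [Nat.card_zpowers]
    exact hg.coprime_two_right
  let f : P →* H ⧸ oddCore H := (QuotientGroup.mk' _).comp P.subtype
  have hf : Function.Bijective f := by
    constructor
    · rw [injective_iff_map_eq_one]
      intro a ha
      have : (a : H) ∈ P ⊓ pPrimeCore 2 H := ⟨a.2, (QuotientGroup.eq_one_iff _).1 ha⟩
      rw [Grp.inf_eq_bot_of_isPGroup_of_coprime hP (Grp.pPrimeCore_coprime 2 H)] at this
      exact Subtype.ext this
    · intro a
      obtain ⟨a, rfl⟩ := QuotientGroup.mk_surjective a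
      have : a ∈ P ⊔ pPrimeCore 2 H :=
        (sup_le (h1.trans (sup_le_sup_right hQP _)) le_sup_left : _ ≤ P ⊔ pPrimeCore 2 H)
          (hgen ▸ mem_top a)
      obtain ⟨u, hu, o, ho, rfl⟩ := mem_sup_of_normal_right.1 this
      exact ⟨⟨u, hu⟩, by simp [f, (QuotientGroup.eq_one_iff o).2 ho]⟩
  haveI : IsKleinFour P := by
    refine ⟨h4, ?_⟩
    haveI : Nontrivial P := Finite.one_lt_card_iff_nontrivial.1 (by omega)
    exact (Monoid.exponent_eq_prime_iff Nat.prime_two).2 fun v hv =>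
      orderOf_eq_prime (Subtype.ext (by rw [SubmonoidClass.coe_pow, pow_two, he v v.2]; rfl)) hv
  obtain ⟨e⟩ : Nonempty (P ≃* Multiplicative (ZMod 2 × ZMod 2)) := IsKleinFour.nonempty_mulEquiv
  exact ⟨((MulEquiv.ofBijective f hf).symm.trans e).trans (MulEquiv.prodMultiplicative _ _)⟩

theorem struct_B {Q P Z : Subgroup H} [Q.Normal] (hP : IsPGroup 2 P) (hQP : Q ≤ P)
    (h2 : Q.relIndex P = 2) (hodd : ¬ 2 ∣ P.index) {g : H}
    (hg : Odd (orderOf g)) (hi : (Q ⊔ zpowers g).index = 2)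
    (hQ : IsElementaryAbelian 2 Q) (hZQ : Z ≤ Q) (hZ : Z ≤ center H)
    (hc : Nat.card Q = 4 * Nat.card Z) (hPC : ¬ P ≤ 𝐂[Q]) (hCP : 𝐂[Q] ⊔ P ≠ ⊤) :
    ∃ V : Subgroup (H ⧸ oddCore H), V.Normal ∧ IsElementaryAbelian 2 V ∧ 𝐂[V] ≤ V ∧
      Nat.card V = Nat.card Q ∧ Nat.card (H ⧸ oddCore H) = 6 * Nat.card Q ∧
      ∀ t ∈ P, t ∉ Q → (t : H ⧸ oddCore H) ∉ V := by
  have hQ2 : ∀ v ∈ Q, v * v = 1 := fun v hv => by rw [← pow_two]; exact hQ.2 v hv
  have hQC : Q ≤ 𝐂[Q] := le_centralizer_iff_isMulCommutative.2 hQ.1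
  have hCQ : P ⊓ 𝐂[Q] = Q := by
    have h3 := relIndex_mul_relIndex Q (P ⊓ 𝐂[Q]) P (le_inf hQP hQC) inf_le_left
    rw [h2] at h3
    rcases (Nat.dvd_prime Nat.prime_two).1 (Dvd.intro_left _ h3) with h4 | h4
    · exact absurd ((relIndex_eq_one.1 h4).trans inf_le_right) hPC
    · rw [h4] at h3
      exact le_antisymm (relIndex_eq_one.1 (by omega)) (le_inf hQP hQC)
  have hrel : 𝐂[Q].relIndex P = 2 := by rw [← inf_relIndex_left, hCQ, h2]
  have hO : 𝐂[Q] = Q ⊔ pPrimeCore 2 H := by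
    refine le_antisymm (le_sup_pPrimeCore_of_central (hP.to_le hQP) le_rfl ?_)
      (sup_le hQC (le_centralizer_iff.1 (Grp.le_centralizer_of_normal_of_inf_eq_bot _ _
        (Grp.inf_eq_bot_of_isPGroup_of_coprime (hP.to_le hQP) (Grp.pPrimeCore_coprime 2 H)))))
    rw [Nat.coprime_comm, Nat.prime_two.coprime_iff_not_dvd]
    intro hd
    apply hodd
    have e1 := relIndex_mul_index (le_sup_left : P ≤ P ⊔ 𝐂[Q])
    have e2 : P.relIndex (P ⊔ 𝐂[Q]) = Q.relIndex 𝐂[Q] := by
      have a1 := relIndex_mul_relIndex Q P (P ⊔ 𝐂[Q]) hQP le_sup_left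
      have a2 := relIndex_mul_relIndex Q 𝐂[Q] (P ⊔ 𝐂[Q]) hQC le_sup_right
      rw [relIndex_sup_right, hrel] at a2
      rw [h2, ← a2] at a1
      omega
    rw [← e1, e2]
    exact hd.mul_right _
  have hg3 : g ^ 3 ∈ 𝐂[Q] := mem_of_pow_mem_of_coprime (n := 4)
    (by rw [← pow_mul]; exact pow_twelve hQ2 hZQ hZ hc g)
    (Nat.Coprime.coprime_dvd_left (orderOf_pow_dvd 3) (hg.coprime_two_right.pow_right 2))
  have hidx : 𝐂[Q].index ∣ 3 * 2 := by
    rw [← relIndex_mul_index (le_sup_left : 𝐂[Q] ≤ 𝐂[Q] ⊔ zpowers g), relIndex_sup_left]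
    refine mul_dvd_mul ?_ (hi ▸ index_dvd_of_le (sup_le_sup_right hQC _))
    have := relIndex_ker (zpowers g) (QuotientGroup.mk' 𝐂[Q])
    rw [QuotientGroup.ker_mk', MonoidHom.map_zpowers, Nat.card_zpowers] at this
    rw [this, orderOf_dvd_iff_pow_eq_one, ← map_pow]
    exact (QuotientGroup.eq_one_iff _).2 hg3
  have hidx2 := relIndex_mul_index (le_sup_left : 𝐂[Q] ≤ 𝐂[Q] ⊔ P)
  rw [relIndex_sup_left, hrel] at hidx2
  have hidx3 : (𝐂[Q] ⊔ P).index ≠ 1 := fun e => hCP (index_eq_one.1 e)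
  have h6 : 𝐂[Q].index = 6 := by
    rw [← hidx2, mul_comm] at hidx
    have := Nat.dvd_of_mul_dvd_mul_right (by norm_num) hidx
    rcases (Nat.dvd_prime Nat.prime_three).1 this with e | e
    · exact absurd e hidx3
    · omega
  have hQO : Q ⊓ pPrimeCore 2 H = ⊥ :=
    Grp.inf_eq_bot_of_isPGroup_of_coprime (hP.to_le hQP) (Grp.pPrimeCore_coprime 2 H)
  have hPO : P ⊓ pPrimeCore 2 H = ⊥ :=
    Grp.inf_eq_bot_of_isPGroup_of_coprime hP (Grp.pPrimeCore_coprime 2 H)
  refine ⟨Q.map (QuotientGroup.mk' _), (inferInstance : Q.Normal).map _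
    (QuotientGroup.mk'_surjective _), ⟨?_, ?_⟩, fun a ha => ?_, ?_, ?_, ?_⟩
  · haveI := hQ.1; infer_instance
  · rintro _ ⟨v, hv, rfl⟩
    rw [← map_pow, hQ.2 v hv, map_one]
  · obtain ⟨a, rfl⟩ := QuotientGroup.mk_surjective a
    have : a ∈ 𝐂[Q] := fun v hv => by
      have h8 := ha _ ⟨v, hv, rfl⟩
      rw [QuotientGroup.mk'_apply, ← QuotientGroup.mk_mul, ← QuotientGroup.mk_mul,
        QuotientGroup.eq] at h8
      have h9 : (v * a)⁻¹ * (a * v) ∈ Q := by
        rw [show (v * a)⁻¹ * (a * v) = a⁻¹ * v⁻¹ * a⁻¹⁻¹ * v by group]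
        exact mul_mem ((inferInstance : Q.Normal).conj_mem _ (inv_mem hv) _) hv
      have := hQO.le ⟨h9, h8⟩
      rwa [mem_bot, inv_mul_eq_one] at this
    rw [hO] at this
    obtain ⟨u, hu, o, ho, rfl⟩ := mem_sup_of_normal_right.1 this
    exact ⟨u, hu, by simp [(QuotientGroup.eq_one_iff o).2 ho]⟩
  · have := Grp.card_map_mul_card_inf_ker (QuotientGroup.mk' (oddCore H)) Q
    rwa [QuotientGroup.ker_mk', hQO, card_bot, mul_one] at this
  · have e1 := card_mul_index 𝐂[Q]
    have e2 := Grp.card_sup_mul_card_inf_of_normal Q (pPrimeCore 2 H)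
    rw [hQO, card_bot, mul_one, ← hO] at e2
    have e3 := card_eq_card_quotient_mul_card_subgroup (oddCore H)
    rw [h6, e2, e3] at e1
    exact Nat.eq_of_mul_eq_mul_right (Nat.card_pos (α := oddCore H)) (by rw [← e1]; ring)
  · rintro t ht htQ ⟨v, hv, e⟩
    rw [QuotientGroup.mk'_apply, QuotientGroup.eq] at e
    have := hPO.le ⟨P.mul_mem (P.inv_mem (hQP hv)) ht, e⟩
    rw [mem_bot, inv_mul_eq_one] at this
    exact htQ (this ▸ hv)

end struct

/-- Let H be a subgroup of a finite group G whose largest normal 2-subgroup O_2(H) is nontrivial and such that H/O_2(H) is a dihedral group of order at least 4. Let P be a Sylow 2-subgroup of H and S a Sylow 2-subgroup of G containing P. Suppose y ∈ S lies outside P, normalizes P, has y² in the product of P with the centralizer of P in G, and normalizes no non-identity normal subgroup of H contained in P. Then P has order 4, 8 or 16, and H modulo its largest normal subgroup of odd order is isomorphic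 to the four-group, to the symmetric group of degree 4, or to the direct product of the symmetric group of degree 4 with a group of order 2. -/
theorem result {G : Type*} [Group G] [Finite G]
    (H : Subgroup G) (hO : Cfsg.pCore 2 ↥H ≠ ⊥) (n : ℕ) (hn : 2 ≤ n) (hdih : Nonempty (↥H ⧸ Cfsg.pCore 2 ↥H ≃* DihedralGroup n))
    (P : Subgroup G) (hPH : P ≤ H) (hP : IsPGroup 2 P) (hPsyl : ¬ 2 ∣ P.relIndex H)
    (S : Sylow 2 G) (hPS : P ≤ (S : Subgroup G)) (y : G) (hyS : y ∈ (S : Subgroup G)) (hyP : y ∉ P)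
    (hy2 : y ^ 2 ∈ P ⊔ Subgroup.centralizer (P : Set G)) (hyN : MulAut.conj y • P = P)
    (hyQ : ∀ Q : Subgroup G, Q ≤ P → (Q.subgroupOf H).Normal → MulAut.conj y • Q = Q → Q = ⊥) :
    (Nat.card P = 4 ∨ Nat.card P = 8 ∨ Nat.card P = 16) ∧
    (Nonempty (↥H ⧸ Cfsg.oddCore ↥H ≃* Multiplicative (ZMod 2) × Multiplicative (ZMod 2)) ∨
     Nonempty (↥H ⧸ Cfsg.oddCore ↥H ≃* Equiv.Perm (Fin 4)) ∨
     Nonempty (↥H ⧸ Cfsg.oddCore ↥H ≃* Equiv.Perm (Fin 4) × Multiplicative (ZMod 2))) := by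
  have hn0 : n ≠ 0 := by omega
  haveI : NeZero n := ⟨hn0⟩
  obtain ⟨φ⟩ := hdih
  let π : H →* DihedralGroup n := φ.toMonoidHom.comp (QuotientGroup.mk' _)
  have hπ : Function.Surjective π := φ.surjective.comp (QuotientGroup.mk'_surjective _)
  have hker : π.ker = pCore 2 H := by
    ext a
    rw [MonoidHom.mem_ker, ← QuotientGroup.eq_one_iff]
    exact φ.map_eq_one_iff
  have hodd : Odd n := by
    by_contra hev
    obtain ⟨k, hk⟩ := Nat.not_odd_iff_even.1 hev
    have h0 : pCore 2 (DihedralGroup n) = ⊥ := by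
      rw [← Grp.map_pCore_equiv 2 φ, Grp.pCore_quotient_pCore, Subgroup.map_bot]
    have hkk : (k : ZMod n) + k = 0 := by rw [← Nat.cast_add, ← hk, ZMod.natCast_self]
    have hc : DihedralGroup.r (k : ZMod n) ∈ center (DihedralGroup n) := by
      rw [mem_center_iff]
      rintro (i | i)
      · simp [add_comm]
      · simp only [DihedralGroup.sr_mul_r, DihedralGroup.r_mul_sr]
        rw [sub_eq_add_neg, neg_eq_of_add_eq_zero_right hkk]
    have h1 := (Grp.pCore_eq_bot_iff.1 h0) (zpowers (DihedralGroup.r (k : ZMod n)))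
      ⟨fun z hz g => by
        rwa [mem_center_iff.1 (zpowers_le.2 hc hz) g, mul_inv_cancel_right]⟩
      (isPGroup_zpowers ⟨1, by
        rw [pow_one, pow_two, DihedralGroup.r_mul_r, hkk]; rfl⟩)
    rw [zpowers_eq_bot, DihedralGroup.one_def, DihedralGroup.r.injEq,
      ZMod.natCast_eq_zero_iff] at h1
    exact absurd (Nat.le_of_dvd (by omega) h1) (by omega)
  have hsyl : IsSyl 2 P H := isSyl_of_not_dvd_relIndex hP hPH hPsyl
  set Q := pCoreOf 2 H with hQdef
  have hQP : Q ≤ P := hsyl.pCoreOf_le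
  have hQH : H ≤ 𝐍[Q] := le_normalizer_pCoreOf 2 H
  have hQi : Q.relIndex H = 2 * n := by
    rw [relIndex, hQdef, pCoreOf_subgroupOf, ← hker, index_ker, MonoidHom.range_eq_top.2 hπ,
      card_top, DihedralGroup.nat_card]
  have hQ2 : Q.relIndex P = 2 := by
    have h1 := relIndex_mul_relIndex _ _ _ hQP hPH
    obtain ⟨k, hk⟩ := hP.index (Q.subgroupOf P)
    have hk' : Q.relIndex P = 2 ^ k := hk
    rw [hQi, hk'] at h1
    obtain ⟨m, rfl⟩ := hodd
    rcases k with _ | _ | k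
    · exact absurd ⟨2 * m + 1, by omega⟩ hPsyl
    · exact hk'
    · rw [pow_succ, pow_succ, mul_right_comm, mul_right_comm (2 ^ k)] at h1
      omega
  -- an element of odd order mapping to a generator of the rotation group
  obtain ⟨g, hgo, u, hu, hg⟩ : ∃ g : H, Odd (orderOf g) ∧ ∃ u : ZMod n, IsUnit u ∧
      π g = DihedralGroup.r u := by
    obtain ⟨h, hh⟩ := hπ (DihedralGroup.r 1)
    obtain ⟨k, hk⟩ := exists_pow_coprime (p := 2) h
    refine ⟨h ^ 2 ^ k, Nat.coprime_two_right.1 hk, (2 ^ k : ℕ), ?_, ?_⟩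
    · exact (ZMod.isUnit_iff_coprime _ _).2 (hodd.coprime_two_right.symm.pow_left k)
    · rw [map_pow, hh, DihedralGroup.r_one_pow]
  have hrot : ∀ (K : Subgroup (DihedralGroup n)) (v : ZMod n), IsUnit v →
      DihedralGroup.r v ∈ K → ∀ i, DihedralGroup.r i ∈ K := by
    intro K v hv h i
    obtain ⟨w, hw⟩ := hv.exists_left_inv
    have := K.pow_mem h (i * w).val
    rwa [DihedralGroup.r_pow, ZMod.natCast_zmod_val, mul_comm, mul_assoc, hw, mul_one] at this
  have hR : (pCore 2 H ⊔ zpowers g) = (zpowers (DihedralGroup.r (1 : ZMod n))).comap π := by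
    rw [← hker, sup_comm, ← comap_map_eq, MonoidHom.map_zpowers, hg]
    congr 1
    exact le_antisymm (zpowers_le.2 (hrot _ 1 isUnit_one (mem_zpowers _) _))
      (zpowers_le.2 (hrot _ u hu (mem_zpowers _) _))
  have hRi : (pCore 2 H ⊔ zpowers g).index = 2 := by
    rw [hR, index_comap_of_surjective _ hπ]
    have := card_mul_index (zpowers (DihedralGroup.r (1 : ZMod n)))
    rw [Nat.card_zpowers, DihedralGroup.orderOf_r_one, DihedralGroup.nat_card, mul_comm 2] at this
    exact Nat.eq_of_mul_eq_mul_left (by omega) this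
  obtain ⟨s, hsP, hsQ⟩ : ∃ s ∈ P, s ∉ Q := by
    by_contra h
    push Not at h
    rw [relIndex_eq_one.2 h] at hQ2
    omega
  obtain ⟨i, hi⟩ : ∃ i, π ⟨s, hPH hsP⟩ = DihedralGroup.sr i := by
    rcases hs : π ⟨s, hPH hsP⟩ with i | i
    · exfalso
      apply hsQ
      obtain ⟨k, hk⟩ := isPGroup_iff.1 hP s hsP
      have h1 : (⟨s, hPH hsP⟩ : H) ^ n ∈ pCore 2 H := by
        rw [← hker, MonoidHom.mem_ker, map_pow, hs, DihedralGroup.r_pow, ZMod.natCast_self,
          mul_zero]; rfl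
      refine mem_of_pow_mem_of_coprime (n := n) ⟨_, h1, rfl⟩ ?_
      exact Nat.Coprime.coprime_dvd_left (orderOf_dvd_of_pow_eq_one hk)
        (hodd.coprime_two_right.symm.pow_left k)
    · exact ⟨i, rfl⟩
  have hgen : P ⊔ cj((g : G), P) = H := by
    have hle : P ⊔ cj((g : G), P) ≤ H := sup_le hPH (cj_le_of_mem hPH g.2)
    refine le_antisymm hle fun a ha => ?_
    set K := (P ⊔ cj((g : G), P)).subgroupOf H
    have h1 : DihedralGroup.sr i ∈ K.map π := ⟨_, mem_sup_left hsP, hi⟩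
    have h2 : DihedralGroup.r u * DihedralGroup.sr i * (DihedralGroup.r u)⁻¹ ∈ K.map π :=
      ⟨g * ⟨s, hPH hsP⟩ * g⁻¹, mem_sup_right (conj_mem_cj _ hsP), by simp [hg, hi]⟩
    have h3 := mul_mem h2 h1
    simp only [DihedralGroup.r_mul_sr, DihedralGroup.inv_r, DihedralGroup.sr_mul_r,
      DihedralGroup.sr_mul_sr] at h3
    have h4 := hrot _ _ (by
      rw [show i - (i - u + -u) = (2 : ℕ) * u by push_cast; ring]
      exact ((ZMod.isUnit_iff_coprime _ _).2 hodd.coprime_two_right.symm).mul hu) h3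
    have h5 : π ⟨a, ha⟩ ∈ K.map π := by
      rcases π ⟨a, ha⟩ with j | j
      · exact h4 j
      · have := mul_mem h1 (h4 (j - i))
        simpa using this
    rw [← mem_comap, comap_map_eq, hker, sup_eq_left.2 (fun b hb =>
      mem_sup_left (hQP ⟨b, hb, rfl⟩))] at h5
    exact h5
  have hyP' : cj(y, P) = P := hyN
  have hbot : ∀ D, D ≤ P → H ≤ 𝐍[D] → cj(y, D) = D → D = ⊥ := fun D h1 h2 h3 =>
    hyQ D h1 (normal_subgroupOf' h2) h3
  have hcore : ∀ D, D ≤ P → H ≤ 𝐍[D] → cj(y, H) ≤ 𝐍[D] → D = ⊥ := by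
    intro D h1 h2 h3
    obtain ⟨a, ha, b, hb, e⟩ := (mem_sup_of_le_normalizer_right
      (le_normalizer_centralizer le_normalizer)).1 hy2
    have hD' : cj(y, D) ≤ P := hyP' ▸ cj_mono y h1
    have hab : a * b = b * a := hb a ha
    have e1 : cj(y, cj(y, D)) = D := by
      rw [← cj_mul, ← pow_two, e, hab, cj_mul, cj_of_mem_normalizer (h2 (hPH ha)),
        cj_of_mem_normalizer (centralizer_le_normalizer' _ (centralizer_anti h1 hb))]
    have e2 : H ≤ 𝐍[cj(y, D)] := by
      have h4 := cj_mono y h3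
      rw [← cj_mul, ← pow_two, e, hab, cj_mul, cj_of_mem (hPH ha), ← normalizer_cj,
        cj_le_iff, ← normalizer_cj, cj_of_mem_normalizer (inv_mem
          (centralizer_le_normalizer' _ (centralizer_anti hD' hb)))] at h4
      exact h4
    have := hbot (D ⊔ cj(y, D)) (sup_le h1 hD') (le_normalizer_sup h2 e2)
      (by rw [cj_sup, e1, sup_comm])
    exact le_bot_iff.1 (le_sup_left.trans this.le)
  have hcP : cj((g : G) * y, P) = cj((g : G), P) := by rw [cj_mul, hyP']
  have hQg : Q ≤ cj((g : G), P) := by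
    rw [← cj_of_mem_normalizer (hQH g.2)]; exact cj_mono _ hQP
  have hHP : H ≠ P := fun e => by
    have := relIndex_mul_relIndex _ _ _ hQP hPH
    rw [hQi, hQ2, e, relIndex_self] at this
    omega
  have hinf : P ⊓ cj((g : G), P) = Q := by
    have h3 := relIndex_mul_relIndex Q (P ⊓ cj((g : G), P)) P (le_inf hQP hQg) inf_le_left
    rw [hQ2] at h3
    rcases (Nat.dvd_prime Nat.prime_two).1 (Dvd.intro_left _ h3) with h4 | h4
    · exfalso
      have h5 : P = cj((g : G), P) := eq_of_le_of_card_ge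
        ((relIndex_eq_one.1 h4).trans inf_le_right) (card_cj _ _).le
      exact hHP (by rw [← hgen, ← h5, sup_idem])
    · rw [h4] at h3
      exact le_antisymm (relIndex_eq_one.1 (by omega)) (le_inf hQP hQg)
  obtain ⟨t, x₀, ht, hc, hs, hY⟩ := exists_seq (p := 2) (c := (g : G) * y) (P := P)
    (by rw [hcP, hinf]; exact (cj_le_of_mem hPH g.2).trans hQH)
    (by
      rw [hcP, ← inf_relIndex_right, hinf, ← hQ2]
      nth_rewrite 1 [← cj_of_mem_normalizer (hQH g.2)]
      exact relIndex_map_map_of_injective _ _ (MulAut.conj (g : G)).injective)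
    fun D h1 h2 h3 => by
      have h4 : H ≤ 𝐍[D] := by
        rw [← hgen, ← hcP]
        refine sup_le h2 ?_
        nth_rewrite 1 [← h3]
        rw [normalizer_cj]; exact cj_mono _ h2
      refine hbot D h1 h4 ?_
      rw [cj_mul] at h3
      rw [← cj_inj (g := (g : G)), h3, cj_of_mem_normalizer (h4 g.2)]
  set x := sq ((g : G) * y) x₀ with hx
  have hY1 : Y x 1 (t + 1) = cj((g : G), P) := by
    have := cj_Y ((g : G) * y) x₀ 0 t 1
    rw [zpow_one, add_zero, add_comm (1 : ℤ)] at this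
    rw [← hcP, ← hY, this]
  have hHY : H = Y x 0 (t + 1) := by
    rw [← hgen, ← hY1, ← hY]
    refine le_antisymm (sup_le (Y_mono le_rfl (by omega)) (Y_mono (by omega) le_rfl))
      (Y_le.2 fun m h1 h2 => ?_)
    by_cases h3 : m = 0
    · exact mem_sup_left (mem_Y h1 (by omega))
    · exact mem_sup_right (mem_Y (by omega) h2)
  have hK : ∀ D, D ≤ P → Y x 0 (t + 2) ≤ 𝐍[D] → D = ⊥ := by
    intro D h1 h2
    have h3 : H ≤ 𝐍[D] := hHY.le.trans ((Y_mono le_rfl (by omega)).trans h2)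
    refine hcore D h1 h3 ?_
    have h4 : cj((g : G) * y, H) ≤ 𝐍[D] := by
      have := cj_Y ((g : G) * y) x₀ 0 (t + 1) 1
      rw [zpow_one] at this
      exact (cj_mono _ hHY.le).trans (this.le.trans ((Y_mono (by omega) (by omega)).trans h2))
    rw [cj_mul, cj_le_iff, ← normalizer_cj, cj_of_mem_normalizer (inv_mem (h3 g.2))] at h4
    exact h4
  have hQY : Q = Y x 1 t := by
    have h1 : Y x 1 t ≤ Q := by
      rw [← hinf, ← hY1, ← hY]
      exact le_inf (Y_mono (by omega) le_rfl) (Y_mono le_rfl (by omega))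
    refine (eq_of_le_of_card_ge h1 ?_).symm
    have h2 := hs.card_left (a := 0) (b := t) (by omega) (by omega)
    have h3 := card_mul_index (Q.subgroupOf P)
    rw [Nat.card_congr (subgroupOfEquivOfLe hQP).toEquiv, ← relIndex, hQ2] at h3
    rw [hY, zero_add] at h2
    omega
  have ht2 : 2 ≤ t := by
    by_contra h
    have h' : (t : ℤ) ≤ 1 := by omega
    exact hO (pCoreOf_eq_bot_iff.1 (hQY.trans (Y_eq_bot h')))
  obtain ⟨k, hk0, hk, hkn, hkt⟩ := hs.cases ht 2 fun j h3 h4 => by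
    by_contra hcon
    push Not at hcon
    refine hs.ne_one ht j (zpowers_eq_bot.1 (hK _ (zpowers_le.2 (hY ▸ mem_Y h3 h4))
      (le_trans ?_ (centralizer_le_normalizer' _))))
    rw [Amb.centralizer_zpowers]
    exact Y_le.2 fun m h5 h6 => mem_centralizer_singleton_iff.2 (hcon m h5 (by simpa using h6)).symm
  have ht6 : t ≠ 6 := by
    rintro rfl
    obtain rfl : k = 4 := by omega
    have := hK (Y x 2 6) (hY ▸ Y_mono (by omega) (by simp)) (six_norm hs hk hkn)
    exact hs.ne_one ht 2 (mem_bot.1 (this ▸ mem_Y le_rfl (by norm_num)))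
  have hx2 : ∀ m, x m * x m = 1 := fun m => by rw [← pow_two]; exact hs.pow_eq_one ht m
  have hsq : ∀ a b : ℤ, b - a ≤ k → ∀ w ∈ Y x a b, w * w = 1 := by
    intro a b hab w hw
    induction hw using closure_induction with
    | mem w hw => obtain ⟨m, -, rfl⟩ := hw; exact hx2 m
    | one => simp
    | mul u v hu hv iu iv =>
      have : Commute u v := commute_Y (fun m j _ _ _ _ => hk _ _ (by omega) (by omega)) hu hv
      rw [mul_assoc, ← mul_assoc v, ← this.eq, mul_assoc, iv, mul_one, iu]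
    | inv u hu iu => rw [← mul_inv_rev, iu, inv_one]
  have hP' : IsPGroup 2 (P.subgroupOf H) := Amb.isPGroup_subgroupOf hP H
  have hcP' : Nat.card (P.subgroupOf H) = 2 ^ t := by
    rw [Nat.card_congr (subgroupOfEquivOfLe hPH).toEquiv, hc]
  have hQP' : pCore 2 H ≤ P.subgroupOf H := fun a ha => hQP ⟨a, ha, rfl⟩
  have hQQ : Q.subgroupOf H = pCore 2 H := pCoreOf_subgroupOf 2 H
  have hcQ : Nat.card (pCore 2 H) = 2 ^ (t - 1) := by
    rw [← card_map_of_injective H.subtype_injective]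
    show Nat.card Q = _
    rw [hQY, hs.card' (by omega) (by omega)]
    congr 1; omega
  have hxH : ∀ m : ℤ, 0 ≤ m → m ≤ t → x m ∈ H := fun m h1 h2 => hHY ▸ mem_Y h1 (by omega)
  rcases hkt with ⟨h1, h2⟩ | ⟨h1, h2, h3⟩
  · obtain rfl : t = 2 := by omega
    refine ⟨Or.inl hc, Or.inl ?_⟩
    haveI := normal_of_index_eq_two hRi
    refine struct_A hP' hQP' hgo ?_ ?_ hcP' fun v hv => Subtype.ext ?_
    · rw [← index_eq_one]
      have e1 := index_dvd_of_le (le_sup_left : pCore 2 H ⊔ zpowers g ≤ _ ⊔ P.subgroupOf H)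
      have e2 := index_dvd_of_le (le_sup_right : P.subgroupOf H ≤ pCore 2 H ⊔ zpowers g ⊔ _)
      rw [hRi] at e1
      rcases (Nat.dvd_prime Nat.prime_two).1 e1 with e | e
      · exact e
      · exact absurd (e ▸ e2) hPsyl
    · intro a ha
      rw [mem_center_iff]
      intro b
      exact Subtype.ext ((Sym4Rec.mem_centralizer_of_card_le_two (Z := Q) (by
        rw [hQdef, pCoreOf, card_map_of_injective H.subtype_injective, hcQ]; norm_num)
        (hQH b.2)) _ ⟨a, ha, rfl⟩).symm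
    · exact hsq 0 (2 : ℕ) (by omega) _ (hY ▸ hv)
  have hnc : ¬ Commute (x 0) (x k) := by simpa using hkn 0
  have hea : IsElementaryAbelian 2 (pCore 2 H) := by
    refine ⟨⟨⟨fun a b => Subtype.ext (Subtype.ext ?_)⟩⟩, fun a ha => Subtype.ext ?_⟩
    · exact commute_Y (a := 1) (b := t) (c := 1) (d := t)
        (fun m j _ _ _ _ => hk _ _ (by omega) (by omega))
        (hQY.le ⟨a, a.2, rfl⟩) (hQY.le ⟨b, b.2, rfl⟩)
    · rw [pow_two]
      exact hsq 1 t (by omega) _ (hQY ▸ ⟨a, ha, rfl⟩)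
  have hx0 : (⟨x 0, hxH 0 le_rfl (by omega)⟩ : H) ∈ P.subgroupOf H :=
    (hY ▸ mem_Y le_rfl (by omega) : x 0 ∈ P)
  have hPC : ¬ P.subgroupOf H ≤ 𝐂[pCore 2 H] := fun h => hnc (congrArg Subtype.val
    (h hx0 ⟨x k, hxH k hk0.le h1.le⟩ (by
      rw [← hQQ]; exact (hQY ▸ mem_Y (by omega) h1 : x k ∈ Q)))).symm
  have hCP : 𝐂[pCore 2 H] ⊔ P.subgroupOf H ≠ ⊤ := by
    intro h
    have hPQ : ⁅P, P⁆ ≤ Q := by
      rw [commutator_le]
      intro a ha b hb
      haveI : (Q.subgroupOf P).Normal := normal_of_index_eq_two hQ2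
      haveI : IsCyclic (P ⧸ Q.subgroupOf P) := isCyclic_of_prime_card hQ2
      have : ⁅(⟨a, ha⟩ : P), (⟨b, hb⟩ : P)⁆ ∈ Q.subgroupOf P := by
        rw [← QuotientGroup.eq_one_iff, ← QuotientGroup.mk'_apply, map_commutatorElement,
          commutatorElement_eq_one_iff_mul_comm]
        exact IsCyclic.isMulCommutative.is_comm.comm _ _
      exact this
    have := hbot ⁅P, P⁆ (hPQ.trans hQP) (fun a ha => by
      have h5 : (⟨a, ha⟩ : H) ∈ 𝐂[pCore 2 H] ⊔ P.subgroupOf H := h ▸ mem_top _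
      obtain ⟨c, hc, b, hb, e⟩ := mem_sup_of_normal_left.1 h5
      rw [← show (c : G) * b = a from congrArg Subtype.val e]
      refine mul_mem (centralizer_le_normalizer' _ (centralizer_anti hPQ ?_))
        (le_normalizer_commutator le_normalizer le_normalizer hb)
      rintro _ ⟨v, hv, rfl⟩
      exact congrArg Subtype.val (hc v hv)) (by rw [← commutator_cj, hyP'])
    exact hnc (commutatorElement_eq_one_iff_commute.1 (mem_bot.1 (this ▸ commutator_mem_commutator
      (hY ▸ mem_Y le_rfl (by omega)) (hY ▸ mem_Y hk0.le h1))))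
  have h2' : (pCore 2 H).relIndex (P.subgroupOf H) = 2 := by
    rw [← hQQ, relIndex_subgroupOf hPH, hQ2]
  have ht34 : t = 3 ∨ t = 4 := by omega
  rcases ht34 with rfl | rfl
  · obtain ⟨V, hV, v1, v2, v3, v4, -⟩ := struct_B (Z := ⊥) hP' hQP' h2' hPsyl hgo hRi hea bot_le
      bot_le (by rw [hcQ]; simp) hPC hCP
    rw [hcQ] at v3 v4
    exact ⟨Or.inr (Or.inl hc), Or.inr (Or.inl (Sym4Rec.sym4 V v1 v2 v4 v3))⟩
  · obtain rfl : k = 3 := by omega
    have hz : (⟨x 2, hxH 2 (by omega) (by omega)⟩ : H) ∈ center H := mem_center_iff.2 fun b =>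
      Subtype.ext (commute_Y_left (fun m _ _ => hk _ _ (by omega) (by omega))
        (hHY ▸ b.2 : (b : G) ∈ Y x 0 ((4 : ℕ) + 1))).symm
    obtain ⟨V, hV, v1, v2, v3, v4, v5⟩ := struct_B
      (Z := zpowers (⟨x 2, hxH 2 (by omega) (by omega)⟩ : H)) hP' hQP' h2' hPsyl hgo hRi hea
      (zpowers_le.2 (by rw [← hQQ]; exact (hQY ▸ mem_Y (by omega) (by omega) : x 2 ∈ Q)))
      (zpowers_le.2 hz) (by
        rw [hcQ, Nat.card_zpowers, ← Subgroup.orderOf_coe,
          orderOf_eq_prime (hs.pow_eq_one ht 2) (hs.ne_one ht 2)]; rfl) hPC hCP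
    rw [hcQ] at v3 v4
    obtain ⟨e⟩ := Sym4Rec.two_sym4 V v1 v2 v4 v3 (t := ((⟨x 0, hxH 0 le_rfl (by omega)⟩ : H) :
      H ⧸ oddCore H)) (by
        rw [← QuotientGroup.mk_mul, QuotientGroup.eq_one_iff,
          show (⟨x 0, _⟩ * ⟨x 0, _⟩ : H) = 1 from Subtype.ext (hx2 0)]
        exact one_mem _) (v5 _ hx0 (by
        rw [← hQQ, mem_subgroupOf, hQY]
        exact hs.not_mem_left (a := 0) (by omega) (by omega)))
    exact ⟨Or.inr (Or.inr hc), Or.inr (Or.inr ⟨e.trans MulEquiv.prodComm⟩)⟩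

end Cfsg.Agent.S4385
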