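import Cfsg.Statements.S4387
import Mathlib
import Cfsg.Agent.Grp.Card
import Cfsg.Agent.Grp.PFrattini

set_option autoImplicit false
open Pointwise
open Cfsg

namespace Cfsg.Agent.S4387

/-- Let G be a non-trivial finite group in which any two maximal subgroups are conjugate. Then G is cyclic of prime-power order. -/
theorem result {G : Type*} [Group G] [Finite G] [Nontrivial G]
    (h : ∀ M N : Subgroup G, IsCoatom M → IsCoatom N → ∃ g : G, N = MulAut.conj g • M) :
    IsCyclic G ∧ IsPrimePow (Nat.card G) := by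
  obtain ⟨M, hM, -⟩ := (eq_top_or_exists_le_coatom (⊥ : Subgroup G)).resolve_left bot_ne_top
  have hcard : ∀ N : Subgroup G, IsCoatom N → N.index = M.index := by
    intro N hN
    obtain ⟨g, rfl⟩ := h M N hM hN
    have h1 := Grp.card_conj_smul g M
    have h2 := Subgroup.card_mul_index M
    have h3 := Subgroup.card_mul_index (MulAut.conj g • M)
    rw [h1, ← h2] at h3
    exact Nat.eq_of_mul_eq_mul_left Nat.card_pos h3
  have hM1 : M.index ≠ 1 := fun h1 => hM.1 (Subgroup.index_eq_one.1 h1)
  obtain ⟨p, hp, hpM⟩ := Nat.exists_prime_and_dvd hM1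
  have := Fact.mk hp
  obtain ⟨P⟩ : Nonempty (Sylow p G) := inferInstance
  have hP : (P : Subgroup G) = ⊤ := by
    by_contra hne
    obtain ⟨N, hN, hPN⟩ := (eq_top_or_exists_le_coatom (P : Subgroup G)).resolve_left hne
    apply P.not_dvd_index
    exact (hpM.trans (hcard N hN).symm.dvd).trans (Subgroup.index_dvd_of_le hPN)
  have hG : IsPGroup p G := by
    have := P.isPGroup'
    rw [hP] at this
    exact this.of_equiv Subgroup.topEquiv
  constructor
  · obtain ⟨x, hx⟩ : ∃ x, x ∉ M := by
      by_contra hc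
      push Not at hc
      exact hM.1 ((Subgroup.eq_top_iff' M).2 hc)
    have hx2 : Subgroup.zpowers x = ⊤ := by
      by_contra hne
      obtain ⟨N, hN, hxN⟩ := (eq_top_or_exists_le_coatom _).resolve_left hne
      obtain ⟨g, rfl⟩ := h M N hM hN
      have := Grp.PFrattini.normal_of_isCoatom hG hM
      rw [Grp.conj_smul_normal] at hxN
      exact hx (hxN (Subgroup.mem_zpowers x))
    exact isCyclic_iff_exists_zpowers_eq_top.2 ⟨x, hx2⟩
  · obtain ⟨n, hn⟩ := IsPGroup.iff_card.mp hG
    rw [hn]
    refine (hp.isPrimePow).pow ?_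
    rintro rfl
    exact Finite.one_lt_card.ne' (hn.trans (pow_zero p))

end Cfsg.Agent.S4387
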