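import Cfsg.Statements.S4396
import Cfsg.Agent.FrobFree.Main

set_option autoImplicit false
open Cfsg

namespace Cfsg.Agent.S4396

/-- Let the finite group A act faithfully and linearly on a finite-dimensional vector space V over a field k, and suppose A is a Frobenius group with nilpotent kernel F (every Frobenius kernel is nilpotent) and complement H such that F fixes no nonzero vector. Then V is free as a module for H: there is a subspace W with V the direct sum of the translates hW, h ∈ H. (No assumption on the characteristic of k.) -/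
theorem result {k V A : Type*} [Field k] [AddCommGroup V] [Module k V] [FiniteDimensional k V] [Group A] [Finite A] [DecidableEq A]
    (ρ : Representation k A V) (hρ : Function.Injective ρ)
    (Fk Hc : Subgroup A) [Fk.Normal] (hHc : Cfsg.IsFrobeniusComplement Hc) (hker : Cfsg.frobeniusKernel Hc = (Fk : Set A)) (hnil : Group.IsNilpotent ↥Fk)
    (hCF : ∀ v : V, (∀ f ∈ Fk, ρ f v = v) → v = 0) :
    ∃ W : Submodule k V, DirectSum.IsInternal (fun h : ↥Hc => W.map (ρ (h : A))) := by
  classical
  letI : Fintype Hc := Fintype.ofFinite _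
  obtain ⟨W, hi, hs⟩ := Cfsg.Agent.FrobFree.fr_of_nilpotent (k := k) Hc Fk (by
    intro h hh h1 f hf hc
    by_contra hf1
    have hf' : f ∈ Cfsg.frobeniusKernel Hc := hker ▸ hf
    rcases hf' with h0 | h0
    · exact hf1 h0
    have hfH : f ∉ Hc := by simpa using h0 1
    have h2 : h ∈ (⊥ : Subgroup A) := by
      rw [← hHc.2.2 f hfH]
      refine ⟨hh, ?_⟩
      have h3 : (MulAut.conj f) • h = h := by
        show f * h * f⁻¹ = h
        calc f * h * f⁻¹ = (h * f * h⁻¹) * h * f⁻¹ := by rw [hc]
          _ = h := by group
      have := Subgroup.smul_mem_pointwise_smul h (MulAut.conj f) Hc hh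
      rwa [h3] at this
    exact h1 h2) _ V ρ rfl hCF
  refine ⟨W, (DirectSum.isInternal_submodule_iff_iSupIndep_and_iSup_eq_top _).2 ⟨?_, ?_⟩⟩
  · rw [iSupIndep_iff_finsetSum_eq_zero_imp_eq_zero]
    intro s v hv h0 i hi'
    have : ∀ h : Hc, ∃ w ∈ W, ρ h w = if h ∈ s then v h else 0 := by
      intro h
      split_ifs with hh
      · exact hv h hh
      · exact ⟨0, W.zero_mem, map_zero _⟩
    choose w hw hwv using this
    have h1 := hi w hw (by
      simp only [hwv]
      rw [Finset.sum_ite_mem, Finset.univ_inter, h0]) i
    have h2 := hwv i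
    rw [h1, map_zero, if_pos hi'] at h2
    exact h2.symm
  · rw [eq_top_iff]
    intro v _
    obtain ⟨w, hw, rfl⟩ := hs v
    exact Submodule.sum_mem _ fun h _ =>
      Submodule.mem_iSup_of_mem h (Submodule.mem_map_of_mem (hw h))

end Cfsg.Agent.S4396
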