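import Cfsg.Statements.S4398
import Cfsg.Agent.S4397
import Cfsg.Agent.Grp.CyclicIndexP
import Cfsg.Agent.Inv.CycExt

set_option autoImplicit false
open Cfsg

namespace Cfsg.Agent.S4398

open Subgroup Cfsg.Agent.FT Cfsg.Agent.FT.R2

theorem zpow_fin {K : Type*} [Group K] {x : K} (hx : x ^ 4 = 1) (k : ℤ) :
    ∃ i : Fin 4, x ^ k = x ^ i.val := by
  have h0 : 0 ≤ k % 4 := Int.emod_nonneg _ (by norm_num)
  have h1 : k % 4 < 4 := Int.emod_lt_of_pos _ (by norm_num)
  refine ⟨⟨(k % 4).toNat, by omega⟩, ?_⟩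
  rw [← zpow_natCast, Int.toNat_of_nonneg h0]
  conv_lhs => rw [← Int.mul_ediv_add_emod k 4, zpow_add, zpow_mul, zpow_ofNat, hx, one_zpow, one_mul]

def Good (K : Type*) [Group K] : Prop :=
  (∀ x : K, x ^ 4 = 1) ∧ ∀ u e : K, (∀ k, ∃ i j : Fin 4, k = u ^ i.val * e ^ j.val) →
    (∃ i : Fin 4, e * u * e⁻¹ = u ^ i.val) →
      u ^ 2 ≠ 1 ∧ e * u * e⁻¹ = u⁻¹ ∧ ∃ i : Fin 4, e ^ 2 = u ^ i.val

theorem good_D : Good (DihedralGroup 4) := by unfold Good; decide +kernel
theorem good_Q : Good (QuaternionGroup 2) := by unfold Good; decide +kernel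

theorem core {S K : Type*} [Group S] [Group K] (hK : Good K) (f : K →* S)
    (hf : Function.Injective f) (a b : S) (hn : (zpowers a).Normal)
    (hab : zpowers a ⊔ zpowers b = ⊤) :
    ∃ u ∈ zpowers a, ∃ h : S, u ^ 4 = 1 ∧ u ^ 2 ≠ 1 ∧ h * u * h⁻¹ = u⁻¹ ∧ h ^ 2 ∈ zpowers a := by
  have h2 := isCyclic_quotient_of_sup_zpowers hab
  have c1 : IsCyclic ((zpowers a).comap f) :=
    isCyclic_of_injective ((f.comp ((zpowers a).comap f).subtype).codRestrict (zpowers a) (fun x => x.2))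
      (fun x y hxy => Subtype.ext (hf (congrArg Subtype.val hxy)))
  have c2 : IsCyclic (K ⧸ (zpowers a).comap f) := by
    refine isCyclic_of_injective (QuotientGroup.map ((zpowers a).comap f) (zpowers a) f le_rfl) ?_
    rw [injective_iff_map_eq_one]
    intro x hx
    obtain ⟨y, rfl⟩ := QuotientGroup.mk_surjective x
    rw [QuotientGroup.map_mk, QuotientGroup.eq_one_iff] at hx
    exact (QuotientGroup.eq_one_iff y).mpr hx
  obtain ⟨e, he⟩ := exists_sup_zpowers_of_isCyclic_quotient c2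
  obtain ⟨u, hu⟩ := (Subgroup.isCyclic_iff_exists_zpowers_eq_top _).mp c1
  have hun : (zpowers u).Normal := by rw [hu]; infer_instance
  have hua : f u ∈ zpowers a := by rw [← mem_comap, ← hu]; exact mem_zpowers u
  rw [← hu] at he
  obtain ⟨h1, h3, i, hi⟩ := hK.2 u e (fun k => by
    obtain ⟨_, ⟨i, rfl⟩, j, hj⟩ := Grp.PChain.mem_sup_zpowers.1 (he ▸ mem_top k)
    obtain ⟨i', hi'⟩ := zpow_fin (hK.1 u) i
    obtain ⟨j', hj'⟩ := zpow_fin (hK.1 e) j
    exact ⟨i', j', by rw [hj, ← hi', ← hj']⟩) (by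
    obtain ⟨i, hi⟩ := hun.conj_mem u (mem_zpowers u) e
    obtain ⟨i', hi'⟩ := zpow_fin (hK.1 u) i
    exact ⟨i', by rw [← hi', ← hi]⟩)
  refine ⟨f u, hua, f e, by rw [← map_pow, hK.1, map_one], ?_, ?_, ?_⟩
  · rw [← map_pow]; exact fun h => h1 (hf (h.trans (map_one f).symm))
  · rw [← map_inv, ← map_mul, ← map_mul, h3, map_inv]
  · rw [← map_pow, hi, map_pow]; exact pow_mem hua _

/-- Let S be a finite 2-group of sectional 2-rank at most 2 that contains a subgroup isomorphic to the dihedral group of order 8 or to the quaternion group of order 8. Then S is dihedral of order at least 8, semidihedral of order at least 16 (order 2^(k+4) with an element a of order 2^(k+3) and an involution b with b a b⁻¹ = a^(2^(k+2)−1)), or generalized quaternion of order at least 8. -/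
theorem result {S : Type*} [Group S] [Finite S] (h2 : IsPGroup 2 S) (hr : Cfsg.SectionalPRankLE 2 2 S)
    (hsub : ∃ H : Subgroup S, Nonempty (↥H ≃* DihedralGroup 4) ∨ Nonempty (↥H ≃* QuaternionGroup 2)) :
    ((∃ k : ℕ, Nonempty (S ≃* DihedralGroup (2 ^ (k + 2)))) ∨
      (∃ k : ℕ, Nat.card S = 2 ^ (k + 4) ∧ ∃ a b : S, orderOf a = 2 ^ (k + 3) ∧ orderOf b = 2 ∧ b * a * b⁻¹ = a ^ (2 ^ (k + 2) - 1)) ∨
      (∃ k : ℕ, Nonempty (S ≃* QuaternionGroup (2 ^ (k + 1))))) := by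
  haveI : Fact (Nat.Prime 2) := ⟨Nat.prime_two⟩
  obtain ⟨a, b, hn, hab⟩ := isMetacyclic_iff.1 (S4397.result h2 hr)
  obtain ⟨u, hu, h, hu4, hu2, hhu, hh2⟩ : ∃ u ∈ zpowers a, ∃ h : S, u ^ 4 = 1 ∧ u ^ 2 ≠ 1 ∧
      h * u * h⁻¹ = u⁻¹ ∧ h ^ 2 ∈ zpowers a := by
    obtain ⟨H, ⟨⟨e⟩⟩ | ⟨⟨e⟩⟩⟩ := hsub
    · exact core good_D (H.subtype.comp e.symm.toMonoidHom)
        (H.subtype_injective.comp e.symm.injective) a b hn hab
    · exact core good_Q (H.subtype.comp e.symm.toMonoidHom)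
        (H.subtype_injective.comp e.symm.injective) a b hn hab
  have hau : Commute a u := by obtain ⟨k, rfl⟩ := hu; exact Commute.zpow_right rfl k
  have hnc : ¬ Commute h u := by
    intro hc
    rw [hc.eq, mul_inv_cancel_right] at hhu
    exact hu2 (by rw [pow_two]; exact mul_eq_one_iff_eq_inv.2 hhu)
  have hha : h ∉ zpowers a := by
    rintro ⟨k, rfl⟩; exact hnc (hau.zpow_left k)
  have hb2 : Commute (b ^ 2) u := by
    obtain ⟨r, hr⟩ := hn.conj_mem a (mem_zpowers a) b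
    simp only at hr
    have e1 : b * u * b⁻¹ = u ^ r := by
      obtain ⟨k, rfl⟩ := hu
      simp only
      rw [← conj_zpow, ← hr, ← zpow_mul, ← zpow_mul, mul_comm]
    rcases Int.even_or_odd' r with ⟨m, rfl | rfl⟩
    · exfalso
      apply hu2
      have e2 : (b * u * b⁻¹) ^ 2 = 1 := by
        rw [e1, ← zpow_natCast, ← zpow_mul, show 2 * m * ((2 : ℕ) : ℤ) = 4 * m by push_cast; ring,
          zpow_mul, zpow_ofNat, hu4, one_zpow]
      rw [conj_pow] at e2
      simpa [mul_inv_eq_one] using e2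
    · have e2 : b ^ 2 * u * (b ^ 2)⁻¹ = u := by
        calc b ^ 2 * u * (b ^ 2)⁻¹ = b * (b * u * b⁻¹) * b⁻¹ := by rw [pow_two]; group
          _ = u ^ ((2 * m + 1) * (2 * m + 1)) := by rw [e1, ← conj_zpow, e1, ← zpow_mul]
          _ = u := by
            rw [show (2 * m + 1) * (2 * m + 1) = 4 * (m * m + m) + 1 by ring, zpow_add, zpow_mul,
              zpow_ofNat, hu4, one_zpow, one_mul, zpow_one]
      exact mul_inv_eq_iff_eq_mul.1 e2
  have hah : zpowers a ⊔ zpowers h = ⊤ := by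
    obtain ⟨x, hx, j, hj⟩ := Grp.PChain.mem_sup_zpowers.1 (hab ▸ mem_top h)
    rcases Int.even_or_odd' j with ⟨m, rfl | rfl⟩
    · exfalso
      apply hnc
      obtain ⟨k, rfl⟩ := hx
      rw [hj, zpow_mul, zpow_ofNat]
      exact (hau.zpow_left k).mul_left (hb2.zpow_left m)
    · rw [eq_top_iff, ← hab]
      refine sup_le le_sup_left (zpowers_le.2 ?_)
      have e1 : b ^ (2 * m + 1) ∈ zpowers a ⊔ zpowers h := by
        have := mul_mem (mem_sup_left (T := zpowers h) (inv_mem hx)) (mem_sup_right (mem_zpowers h))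
        rwa [hj, inv_mul_cancel_left, ← hj] at this
      refine zpowers_le.2 e1 (mem_zpowers_zpow_iff.2 ?_)
      obtain ⟨t, ht⟩ := IsPGroup.iff_orderOf.1 h2 b
      rw [ht, ← Int.isCoprime_iff_gcd_eq_one]
      push_cast
      exact IsCoprime.pow_right ⟨1, -m, by ring⟩
  obtain ⟨t, ht⟩ := IsPGroup.iff_orderOf.1 h2 a
  obtain ⟨m, rfl⟩ : ∃ m, t = m + 1 + 1 := by
    refine ⟨t - 2, ?_⟩
    by_contra hlt
    apply hu2
    have e1 : a ^ 2 = 1 := by
      rw [← orderOf_dvd_iff_pow_eq_one, ht]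
      exact (pow_dvd_pow 2 (by omega : t ≤ 1))
    obtain ⟨k, rfl⟩ := hu
    simp only
    rw [← zpow_natCast, ← zpow_mul, mul_comm, zpow_mul, zpow_natCast, e1, one_zpow]
  have hcard : Nat.card S = 2 ^ (m + 1 + 1) * 2 := by
    rw [← card_top, ← hah, Grp.PChain.card_sup_zpowers Nat.prime_two hha hh2, Nat.card_zpowers, ht]
  obtain ⟨i, c, hc, hcase⟩ := Grp.CycIdx.exists_two_cases (m := m + 1) (by omega) ht
    (hn.conj_mem a (mem_zpowers a) h) hh2 (fun e => hnc (by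
      obtain ⟨k, rfl⟩ := hu
      exact Commute.zpow_right (mul_inv_eq_iff_eq_mul.1 e) k))
  have hca : c ∉ zpowers a := hc ▸ Grp.CycIdx.zpow_mul_not_mem i hha
  have hcl : closure {a, c} = ⊤ := by
    rw [eq_top_iff, ← hah]
    have ha' : a ∈ closure {a, c} := subset_closure (by simp)
    have hc' : c ∈ closure {a, c} := subset_closure (by simp)
    refine sup_le (zpowers_le.2 ha') (zpowers_le.2 ?_)
    have := mul_mem (inv_mem (zpow_mem ha' i)) hc'
    rwa [hc, inv_mul_cancel_left, ← hc] at this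
  rcases hcase with ⟨e1, e2⟩ | ⟨e1, e2⟩ | ⟨hm, e1, e2⟩ | ⟨hm, e1, e2⟩
  · left
    obtain ⟨e⟩ := Inv.nonempty_dihedral_of_gens ht e2 (by rw [← pow_two]; exact e1) hca
    exact ⟨m, ⟨(topEquiv.symm.trans (MulEquiv.subgroupCongr hcl.symm)).trans e⟩⟩
  · right; right
    obtain ⟨e⟩ := Inv.nonempty_quaternion_of_gens (m := 2 ^ (m + 1)) (by rw [ht]; ring) e2
      (by rw [← pow_two]; exact e1) hca
    exact ⟨m, ⟨(topEquiv.symm.trans (MulEquiv.subgroupCongr hcl.symm)).trans e⟩⟩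
  · exfalso
    apply hnc
    have e3 : c * u * c⁻¹ = u := by
      have : c * u * c⁻¹ = u ^ (1 + 2 ^ (m + 1)) := by
        obtain ⟨k, rfl⟩ := hu
        simp only
        rw [← conj_zpow, e2, ← zpow_natCast, ← zpow_natCast, ← zpow_mul, ← zpow_mul, mul_comm]
      obtain ⟨n, rfl⟩ : ∃ n, m = n + 1 := ⟨m - 1, by omega⟩
      rw [this, show 1 + 2 ^ (n + 1 + 1) = 1 + 4 * 2 ^ n by ring, pow_add, pow_mul, hu4, one_pow,
        pow_one, mul_one]
    have e4 : Commute c u := mul_inv_eq_iff_eq_mul.1 e3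
    have := (hau.zpow_left i).inv_left.mul_left e4
    rwa [hc, inv_mul_cancel_left] at this
  · right; left
    obtain ⟨n, rfl⟩ : ∃ n, m = n + 1 := ⟨m - 1, by omega⟩
    refine ⟨n, by rw [hcard]; ring, a, c, ht, orderOf_eq_prime e1 (fun h => hca (h ▸ one_mem _)), e2⟩

end Cfsg.Agent.S4398
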