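import Cfsg.Statements.S4400
import Cfsg.Agent.FGS.SecRank2

set_option autoImplicit false
open Cfsg

namespace Cfsg.Agent.S4400

open Subgroup FGS.SecRank

/-- Let S be a finite 2-group of sectional 2-rank at most 4, and let P and Q be normal non-abelian subgroups of S whose centres have order 2 and are different. Then P and Q commute elementwise and intersect trivially, and PQ contains its own centralizer in S. -/
theorem result {S : Type*} [Group S] [Finite S] (h2 : IsPGroup 2 S) (hr : Cfsg.SectionalPRankLE 2 4 S)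
    (P Q : Subgroup S) [P.Normal] [Q.Normal] (hP : ¬ IsMulCommutative ↥P) (hQ : ¬ IsMulCommutative ↥Q)
    (hZP : Nat.card ↥(Subgroup.center ↥P) = 2) (hZQ : Nat.card ↥(Subgroup.center ↥Q) = 2)
    (hne : (Subgroup.center ↥P).map P.subtype ≠ (Subgroup.center ↥Q).map Q.subtype) :
    ⁅P, Q⁆ = ⊥ ∧ P ⊓ Q = ⊥ ∧ Subgroup.centralizer ((P ⊔ Q : Subgroup S) : Set S) ≤ P ⊔ Q := by
  obtain ⟨z, hz, hz'⟩ := exists_zc hZP
  obtain ⟨w, hw, hw'⟩ := exists_zc hZQ
  have hzw : z ≠ w := by
    rintro rfl
    exact hne (Subgroup.ext fun x => (hz' x).trans (hw' x).symm)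
  obtain ⟨h1, h3, h4⟩ := pair h2 hr (T := ⊤) le_top le_top le_normalizer_of_normal
    le_normalizer_of_normal hP hQ hz hw hzw
  refine ⟨?_, h1, fun c hc => ?_⟩
  · rw [eq_bot_iff, commutator_le]
    intro a ha b hb
    exact commutatorElement_eq_one_iff_commute.2 (h3 a ha b hb)
  · rcases h4 c (fun a ha => hc a (mem_sup_left ha)) (fun a ha => hc a (mem_sup_right ha))
      with e | e | e | e <;> rw [e]
    · exact one_mem _
    · exact mem_sup_left hz.mem
    · exact mem_sup_right hw.mem
    · exact mul_mem (mem_sup_left hz.mem) (mem_sup_right hw.mem)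

end Cfsg.Agent.S4400
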