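import Cfsg.Statements.S4401
import Cfsg.Agent.FGS.SecRank2
import Cfsg.Agent.Grp.Subnormal

set_option autoImplicit false
open Cfsg

namespace Cfsg.Agent.S4401

open Subgroup FGS.SecRank

theorem zc_conj {G : Type*} [Group G] {P : Subgroup G} {z : G} (h : Zc P z) (g : G) :
    Zc (P.map (MulAut.conj g).toMonoidHom) (g * z * g⁻¹) := by
  refine ⟨⟨z, h.mem, rfl⟩, fun e => h.ne (by simpa [mul_inv_eq_one] using e), ?_, ?_⟩
  · rintro _ ⟨a, ha, rfl⟩
    change g * a * g⁻¹ * (g * z * g⁻¹) = g * z * g⁻¹ * (g * a * g⁻¹)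
    calc g * a * g⁻¹ * (g * z * g⁻¹) = g * (a * z) * g⁻¹ := by group
      _ = _ := by rw [h.comm a ha]; group
  · rintro _ ⟨x, hx, rfl⟩ hc
    have := h.eq x hx fun a ha => by
      have e := hc _ ⟨a, ha, rfl⟩
      rw [← map_mul, ← map_mul] at e
      exact (MulAut.conj g).injective e
    rcases this with rfl | rfl
    · left; exact map_one _
    · right; rfl

/-- Let S be a finite 2-group of sectional 2-rank at most 4 and P a proper non-abelian subgroup whose centre has order 2. Let S₀ be the centralizer in S of Z(P) and suppose P is normal in S₀. Then either S₀ = S, or P has sectional 2-rank at most 2 and S₀ has index 2 in S. -/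
theorem result {S : Type*} [Group S] [Finite S] (h2 : IsPGroup 2 S) (hr : Cfsg.SectionalPRankLE 2 4 S)
    (P : Subgroup S) (hPlt : P ≠ ⊤) (hP : ¬ IsMulCommutative ↥P) (hZP : Nat.card ↥(Subgroup.center ↥P) = 2)
    (S₀ : Subgroup S) (hS₀ : S₀ = Subgroup.centralizer (((Subgroup.center ↥P).map P.subtype : Subgroup S) : Set S))
    (hPn : ∀ s ∈ S₀, ∀ x ∈ P, s * x * s⁻¹ ∈ P) :
    S₀ = ⊤ ∨ (Cfsg.SectionalPRankLE 2 2 ↥P ∧ S₀.index = 2) := by
  haveI : Fact (Nat.Prime 2) := ⟨Nat.prime_two⟩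
  haveI : Group.IsNilpotent S := h2.isNilpotent
  obtain ⟨z, hz, hz'⟩ := exists_zc hZP
  have mem0 : ∀ s, s ∈ S₀ ↔ z * s = s * z := by
    intro s
    rw [hS₀, mem_centralizer_iff]
    refine ⟨fun h => h z ((hz' z).2 (Or.inr rfl)), fun h x hx => ?_⟩
    rcases (hz' x).1 hx with rfl | rfl
    · simp
    · exact h
  by_cases htop : S₀ = ⊤
  · exact Or.inl htop
  right
  have hnc := Group.normalizerCondition_of_isNilpotent (G := S)
  obtain ⟨g, hgN, hg0⟩ := SetLike.exists_of_lt (hnc S₀ (lt_top_iff_ne_top.2 htop))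
  set N := normalizer (S₀ : Set S) with hN
  have hP0 : P ≤ S₀ := fun a ha => (mem0 a).2 (hz.comm a ha).symm
  have hNc : ∀ n ∈ N, ∀ s ∈ S₀, n * s * n⁻¹ ∈ S₀ := fun n hn s hs => (mem_normalizer_iff.1 hn s).1 hs
  have h0P : S₀ ≤ normalizer (P : Set S) := fun s hs => mem_normalizer_fintype (hPn s hs)
  -- conjugates of P by elements of N outside S₀
  have hpair : ∀ n ∈ N, n ∉ S₀ → P ⊓ P.map (MulAut.conj n).toMonoidHom = ⊥ ∧
      (∀ a ∈ P, ∀ b ∈ P.map (MulAut.conj n).toMonoidHom, Commute a b) ∧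
      (∀ c : S, (∀ a ∈ P, Commute a c) → (∀ a ∈ P.map (MulAut.conj n).toMonoidHom, Commute a c) →
        c = 1 ∨ c = z ∨ c = n * z * n⁻¹ ∨ c = z * (n * z * n⁻¹)) ∧
      ¬ IsMulCommutative (P.map (MulAut.conj n).toMonoidHom) ∧
      P.map (MulAut.conj n).toMonoidHom ≤ S₀ ∧
      S₀ ≤ normalizer (P.map (MulAut.conj n).toMonoidHom : Set S) ∧ z ≠ n * z * n⁻¹ := by
    intro n hn hn0
    have q1 : P.map (MulAut.conj n).toMonoidHom ≤ S₀ := by
      rintro _ ⟨a, ha, rfl⟩; exact hNc n hn a (hP0 ha)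
    have q2 : S₀ ≤ normalizer (P.map (MulAut.conj n).toMonoidHom : Set S) := by
      intro s hs
      refine mem_normalizer_fintype ?_
      rintro _ ⟨a, ha, rfl⟩
      refine ⟨_, hPn _ (hNc n⁻¹ (inv_mem hn) s hs) a ha, ?_⟩
      simp only [MulEquiv.coe_toMonoidHom, MulAut.conj_apply]; group
    have q3 : ¬ IsMulCommutative (P.map (MulAut.conj n).toMonoidHom) := by
      intro hc
      apply hP
      refine Grp.PChain.isMulCommutative_of_commute fun a ha b hb => ?_
      have e := (Grp.PChain.commute_of_mem hc ⟨a, ha, rfl⟩ ⟨b, hb, rfl⟩).eq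
      rw [← map_mul, ← map_mul] at e
      exact (MulAut.conj n).injective e
    have q4 : z ≠ n * z * n⁻¹ := fun e => hn0 ((mem0 n).2 (by
      rw [eq_mul_inv_iff_mul_eq] at e; exact e))
    obtain ⟨a, b, c⟩ := pair h2 hr hP0 q1 h0P q2 hP q3 hz (zc_conj hz n) q4
    exact ⟨a, b, c, q3, q1, q2, q4⟩
  obtain ⟨hd, hc, hcen, hQ, hQ0, h0Q, hzw⟩ := hpair g hgN hg0
  set Q := P.map (MulAut.conj g).toMonoidHom with hQdef
  have hw := zc_conj hz g
  set w := g * z * g⁻¹ with hwdef
  refine ⟨rank_two_of_commute h2 hr hd hc hQ hw, ?_⟩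
  -- conjugates of z under N are central in S₀
  have hcz : ∀ n ∈ N, ∀ s ∈ S₀, s * (n * z * n⁻¹) = (n * z * n⁻¹) * s := by
    intro n hn s hs
    have := (mem0 _).1 (hNc n⁻¹ (inv_mem hn) s hs)
    calc s * (n * z * n⁻¹) = n * (n⁻¹ * s * n⁻¹⁻¹ * z) * n⁻¹ := by group
      _ = _ := by rw [← this]; group
  have hV : ∀ c : S, (∀ s ∈ S₀, s * c = c * s) → c = 1 ∨ c = z ∨ c = w ∨ c = z * w :=
    fun c h => hcen c (fun a ha => h a (hP0 ha)) (fun a ha => h a (hQ0 ha))
  have hzz := hz.sq
  have hww := hw.sq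
  have hz0 : z ∈ S₀ := hP0 hz.mem
  have hzwc : z * w = w * z := hcz g hgN z hz0
  have hconj1 : ∀ n : S, n * z * n⁻¹ ≠ 1 := fun n e => hz.ne (by simpa [mul_inv_eq_one] using e)
  -- N fixes z * w
  have hfixN : ∀ n ∈ N, n * (z * w) * n⁻¹ = z * w := by
    let V : Subgroup S := S₀ ⊓ centralizer (S₀ : Set S)
    have hNV : N ≤ normalizer (V : Set S) := by
      intro n hn
      refine mem_normalizer_fintype fun v hv => ⟨hNc n hn v hv.1, ?_⟩
      refine mem_centralizer_iff.2 fun s hs => ?_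
      have := mem_centralizer_iff.1 hv.2 _ (hNc n⁻¹ (inv_mem hn) s hs)
      calc s * (n * v * n⁻¹) = n * (n⁻¹ * s * n⁻¹⁻¹ * v) * n⁻¹ := by group
        _ = _ := by rw [this]; group
    obtain ⟨x, hx, hx1, hxc⟩ := Misc.exists_mem_centralizer_of_isPGroup (h2.to_subgroup N)
      (h2.to_subgroup V) hNV (fun e => hz.ne (by
        have : z ∈ V := ⟨hz0, mem_centralizer_iff.2 fun s hs => ((mem0 s).1 hs).symm⟩
        rwa [e] at this))
    rcases hV x (mem_centralizer_iff.1 hx.2) with e | e | e | e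
    · exact absurd e hx1
    · exact absurd ((mem0 g).2 (e ▸ (hxc g hgN).symm)) hg0
    · exfalso
      apply hzw
      have := hxc g⁻¹ (inv_mem hgN)
      rw [e, hwdef] at this
      calc z = g⁻¹ * (g * z * g⁻¹) * g := by group
        _ = _ := by rw [this, inv_mul_cancel_right]
    · intro n hn
      rw [← e, hxc n hn, mul_inv_cancel_right]
  have horb : ∀ n ∈ N, n * z * n⁻¹ = z ∨ n * z * n⁻¹ = w := by
    intro n hn
    rcases hV _ (hcz n hn) with e | e | e | e
    · exact absurd e (hconj1 n)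
    · exact Or.inl e
    · exact Or.inr e
    · exfalso
      have := hfixN n⁻¹ (inv_mem hn)
      rw [← e] at this
      have e2 : z = n * z * n⁻¹ := by rw [← this]; group
      rw [← e2] at e
      exact hw.ne (left_eq_mul.1 e)
  have hNtop : N = ⊤ := by
    by_contra hNt
    obtain ⟨x, hxN, hx0⟩ := SetLike.exists_of_lt (hnc N (lt_top_iff_ne_top.2 hNt))
    have hxc : ∀ n ∈ N, x⁻¹ * n * x ∈ N := fun n hn => by
      simpa using (mem_normalizer_iff.1 (inv_mem hxN) n).1 hn
    have hxc' : ∀ n ∈ N, x * n * x⁻¹ ∈ N := fun n hn => (mem_normalizer_iff.1 hxN n).1 hn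
    have h0N : S₀ ≤ N := le_normalizer
    set t := z * w with ht
    have ht1 : t ≠ 1 := by
      intro e
      apply hzw
      rw [ht, ← hzz] at e
      exact (mul_left_cancel e).symm
    have htN : t ∈ N := h0N (mul_mem hz0 (hQ0 hw.mem))
    -- x fixes t
    have hxt : x * t * x⁻¹ = t := by
      have e1 : ∀ n ∈ N, n * (x * t * x⁻¹) = (x * t * x⁻¹) * n := fun n hn => by
        have := hfixN _ (hxc n hn)
        calc n * (x * t * x⁻¹) = x * (x⁻¹ * n * x * t * (x⁻¹ * n * x)⁻¹) * x⁻¹ * n := by group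
          _ = _ := by rw [this]
      rcases hV _ (fun s hs => e1 s (h0N hs)) with e | e | e | e
      · exact absurd (by simpa [mul_inv_eq_one] using e) ht1
      · exact absurd ((mem0 g).2 (e ▸ (e1 g hgN).symm)) hg0
      · exfalso
        apply hzw
        have := e1 g⁻¹ (inv_mem hgN)
        rw [e, hwdef] at this
        calc z = g⁻¹ * (g * z * g⁻¹) * g := by group
          _ = _ := by rw [this, inv_mul_cancel_right]
      · exact e
    set v := x * z * x⁻¹ with hv
    have hvN : v ∈ N := hxc' z (h0N hz0)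
    have hwz : w = z * t := by rw [ht, ← mul_assoc, hzz, one_mul]
    have hvorb : ∀ n ∈ N, n * v * n⁻¹ = v ∨ n * v * n⁻¹ = v * t := by
      intro n hn
      have e0 : n * v * n⁻¹ = x * ((x⁻¹ * n * x) * z * (x⁻¹ * n * x)⁻¹) * x⁻¹ := by rw [hv]; group
      rcases horb _ (hxc n hn) with e | e
      · left; rw [e0, e]
      · right; rw [e0, e, hwz, hv]
        conv_rhs => rw [← hxt]
        group
    have htP : t ∉ P := fun h => hw.ne (by
      have : w ∈ P ⊓ Q := ⟨by rw [hwz]; exact mul_mem hz.mem h, hw.mem⟩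
      rwa [hd] at this)
    have htQ : t ∉ Q := fun h => hz.ne (by
      have : z ∈ P ⊓ Q := ⟨hz.mem, by
        have := mul_mem h (inv_mem hw.mem)
        rwa [ht, mul_inv_cancel_right] at this⟩
      rwa [hd] at this)
    -- commutators with v
    have hcomm : ∀ n ∈ N, v * n * v⁻¹ = n ∨ v * n * v⁻¹ = n * t := by
      intro n hn
      rcases hvorb n⁻¹ (inv_mem hn) with e | e
      · left
        calc v * n * v⁻¹ = n * (n⁻¹ * v * n⁻¹⁻¹) * v⁻¹ := by group
          _ = n := by rw [e]; group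
      · right
        calc v * n * v⁻¹ = n * (n⁻¹ * v * n⁻¹⁻¹) * v⁻¹ := by group
          _ = n * (v * t * v⁻¹) := by rw [e]; group
          _ = n * t := by rw [hfixN v hvN]
    by_cases hv0 : v ∈ S₀
    · have k : ∀ R : Subgroup S, R ≤ S₀ → S₀ ≤ normalizer (R : Set S) → t ∉ R →
          ∀ a ∈ R, Commute a v := by
        intro R hR h0R htR a ha
        rcases hcomm a (h0N (hR ha)) with e | e
        · exact (mul_inv_eq_iff_eq_mul.1 e).symm
        · exfalso
          apply htR
          have := mul_mem (inv_mem ha) ((mem_normalizer_iff.1 (h0R hv0) a).1 ha)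
          rwa [e, inv_mul_cancel_left] at this
      have hS1 : ∀ u, (u = z ∨ u = w) → v = u → False := by
        intro u hu e
        apply hx0
        rw [← inv_mem_iff]
        refine mem_normalizer_fintype fun s hs => (mem0 _).2 ?_
        have e3 : s * v = v * s := by
          rcases hu with rfl | rfl
          · rw [e]; exact ((mem0 s).1 hs).symm
          · rw [e]; exact hcz g hgN s hs
        calc z * (x⁻¹ * s * x⁻¹⁻¹) = x⁻¹ * (v * s) * x := by rw [hv]; group
          _ = _ := by rw [← e3, hv]; group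
      rcases hcen v (k P hP0 h0P htP) (k Q hQ0 h0Q htQ) with e | e | e | e
      · exact hconj1 x e
      · exact hS1 z (Or.inl rfl) e
      · exact hS1 w (Or.inr rfl) e
      · rw [← hxt, hv] at e
        have e2 : z = t := by simpa using e
        exact htP (e2 ▸ hz.mem)
    · obtain ⟨hd', hc', -⟩ := hpair v hvN hv0
      apply hP
      refine Grp.PChain.isMulCommutative_of_commute fun a ha b hb => ?_
      have := hc' a ha _ ⟨b, hb, rfl⟩
      change Commute a (v * b * v⁻¹) at this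
      rcases hcomm b (h0N (hP0 hb)) with e | e
      · rwa [e] at this
      · rw [e] at this
        have h5 : Commute a t := mul_inv_eq_iff_eq_mul.1 (hfixN a (h0N (hP0 ha)))
        have := this.mul_right h5.inv_right
        rwa [mul_inv_cancel_right] at this
  rw [index_eq_two_iff]
  refine ⟨g, fun b => ?_⟩
  have hbN : b ∈ N := hNtop ▸ mem_top b
  by_cases hb : b ∈ S₀
  · exact Or.inr ⟨hb, fun h => hg0 (by simpa using mul_mem (inv_mem hb) h)⟩
  · refine Or.inl ⟨?_, hb⟩
    have e1 : b⁻¹ * z * b⁻¹⁻¹ = w := (horb b⁻¹ (inv_mem hbN)).resolve_left fun e =>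
      hb ((mem0 b).2 (by
        calc z * b = b * (b⁻¹ * z * b⁻¹⁻¹) := by group
          _ = _ := by rw [e]))
    rw [mem0]
    calc z * (b * g) = b * (b⁻¹ * z * b⁻¹⁻¹) * g := by group
      _ = _ := by rw [e1, hwdef]; group

end Cfsg.Agent.S4401
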