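import Cfsg.Statements.S4402
import Cfsg.Agent.FGS.D8WrAut

set_option autoImplicit false
open Cfsg

namespace Cfsg.Agent.S4402

/-- Let S be a finite 2-group of sectional 2-rank at most 4 and P a proper subgroup isomorphic to the wreath product of the dihedral group of order 8 by a group of order 2 (equivalently, to a Sylow 2-subgroup of the symmetric group of degree 8; order 128). Then Z(S) = Z(P) has order 2, P has index 2 in its normalizer N_S(P), N_S(P)/Z(S) is again isomorphic to that wreath product, and every elementary abelian subgroup V of order 16 that is normal in P satisfies N_S(V) = P. -/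
theorem result {S : Type*} [Group S] [Finite S] (h2 : IsPGroup 2 S) (hr : Cfsg.SectionalPRankLE 2 4 S)
    (P : Subgroup S) (hPlt : P ≠ ⊤) (hP : ∃ T : Sylow 2 (Equiv.Perm (Fin 8)), Nonempty (↥P ≃* ↥(T : Subgroup (Equiv.Perm (Fin 8))))) :
    Subgroup.center S = (Subgroup.center ↥P).map P.subtype ∧ Nat.card ↥(Subgroup.center S) = 2 ∧
    P.relIndex (Subgroup.normalizer (P : Set S)) = 2 ∧
    (∃ (_ : ((Subgroup.center S).subgroupOf (Subgroup.normalizer (P : Set S))).Normal) (T : Sylow 2 (Equiv.Perm (Fin 8))),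
      Nonempty (↥(Subgroup.normalizer (P : Set S)) ⧸ (Subgroup.center S).subgroupOf (Subgroup.normalizer (P : Set S)) ≃*
        ↥(T : Subgroup (Equiv.Perm (Fin 8))))) ∧
    ∀ V : Subgroup S, V ≤ P → (∀ g ∈ P, ∀ v ∈ V, g * v * g⁻¹ ∈ V) → Cfsg.IsElementaryAbelian 2 V → Nat.card ↥V = 16 →
      Subgroup.normalizer (V : Set S) = P := by
  open Subgroup FGS.D8Wr in
  haveI : Fact (Nat.Prime 2) := ⟨Nat.prime_two⟩
  haveI : Group.IsNilpotent S := h2.isNilpotent
  obtain ⟨T, ⟨eP⟩⟩ := hP
  obtain ⟨eM⟩ := syl_iso M.card_M (α := Bool × Bool × Bool) (by simp) _ act_inj T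
  let φ : M →* S := P.subtype.comp (eM.trans eP.symm).toMonoidHom
  have hφ : Function.Injective φ := P.subtype_injective.comp (eM.trans eP.symm).injective
  have hrange : φ.range = P := by
    rw [MonoidHom.range_comp, MonoidHom.range_eq_top.2 (eM.trans eP.symm).surjective,
      ← MonoidHom.range_eq_map, range_subtype]
  clear_value φ
  subst hrange
  have hcore := core φ hφ h2 hr
  -- normalizers of the two normal E16
  have hV : ∀ V : Subgroup S, V ≤ φ.range → (∀ g ∈ φ.range, ∀ v ∈ V, g * v * g⁻¹ ∈ V) →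
      Cfsg.IsElementaryAbelian 2 V → Nat.card ↥V = 16 →
      Subgroup.normalizer (V : Set S) = φ.range := by
    intro V hle hn hE hc
    have hVm : (V.comap φ).map φ = V := map_comap_eq_self hle
    have hA : V.comap φ = V1 ∨ V.comap φ = V2 := by
      refine eq_or_eq (fun x hx => (U_iff x).2 ⟨?_, fun g => ?_⟩) ?_
      · apply hφ; rw [map_mul, map_one, ← sq]; exact hE.2 _ hx
      · apply hφ
        have h1 : φ (g * x * g⁻¹) ∈ V := by
          rw [map_mul, map_mul, map_inv]; exact hn _ ⟨g, rfl⟩ _ hx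
        rw [map_mul, map_mul φ _ x]
        exact congrArg Subtype.val (hE.1.is_comm.comm (⟨φ x, hx⟩ : V) ⟨_, h1⟩)
      · rw [← card_map_of_injective hφ, hVm, hc]
    have hPN : φ.range ≤ normalizer (V : Set S) := fun g hg => mem_normalizer_fintype (hn g hg)
    by_contra hne
    have hlt : φ.range.subgroupOf (normalizer (V : Set S)) < ⊤ := by
      rw [lt_top_iff_ne_top, Ne, subgroupOf_eq_top]
      exact fun h => hne (le_antisymm h hPN)
    obtain ⟨g, hgN, hg0⟩ := SetLike.exists_of_lt
      (Group.normalizerCondition_of_isNilpotent (G := normalizer (V : Set S)) _ hlt)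
    have hgP : (g : S) ∈ normalizer (φ.range : Set S) := by
      refine mem_normalizer_fintype fun x hx => ?_
      exact (mem_normalizer_iff.1 hgN ⟨x, hPN hx⟩).1 hx
    have hfix : (V.comap φ).map (aut φ hφ ⟨g, hgP⟩).toMonoidHom ≤ V.comap φ := by
      rintro _ ⟨x, hx, rfl⟩
      change φ (aut φ hφ ⟨g, hgP⟩ x) ∈ V
      rw [aut_apply]
      exact (mem_normalizer_iff.1 g.2 _).1 hx
    have hfix' : (V.comap φ).map (aut φ hφ ⟨g, hgP⟩).toMonoidHom = V.comap φ :=
      eq_of_le_of_card_ge hfix (by rw [card_map_of_injective (aut φ hφ ⟨g, hgP⟩).injective])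
    refine hg0 (hcore ⟨g, hgP⟩ ?_)
    rcases hA with h | h
    · rwa [h] at hfix'
    · rw [h] at hfix'
      rcases map_cases (aut φ hφ ⟨g, hgP⟩) with h' | h'
      · exact h'.1
      · exact absurd (h'.2.symm.trans hfix') V1_ne_V2
  have hN1 : normalizer (V1.map φ : Set S) = φ.range := by
    refine hV _ (map_le_range _ _) ?_ ⟨⟨⟨?_⟩⟩, ?_⟩ (by rw [card_map_of_injective hφ, card_V1])
    · rintro _ ⟨g, rfl⟩ _ ⟨v, hv, rfl⟩
      exact ⟨_, V1_conj g v hv, by simp⟩
    · rintro ⟨_, x, hx, rfl⟩ ⟨_, y, hy, rfl⟩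
      apply Subtype.ext
      change φ x * φ y = φ y * φ x
      rw [← map_mul, ← map_mul]
      congr 1
      have hc : ∀ x y : M, x ∈ V1 → y ∈ V1 → x * y = y * x := by decide +kernel
      exact hc x y hx hy
    · rintro _ ⟨x, hx, rfl⟩
      rw [← map_pow, sq, ((U_iff x).1 (Or.inl hx)).1, map_one]
  have hZP : center S ≤ φ.range := hN1 ▸ center_le_normalizer _
  have hZ1 : ∀ x ∈ center S, x = 1 ∨ x = φ zz := by
    intro x hx
    obtain ⟨m, rfl⟩ := hZP hx
    rcases (center_iff m).1 (fun g => hφ (by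
      rw [map_mul, map_mul]; exact mem_center_iff.1 hx _)) with rfl | rfl
    · exact Or.inl (map_one φ)
    · exact Or.inr rfl
  have hzz1 : φ zz ≠ 1 := fun h => absurd (hφ (h.trans (map_one φ).symm)) (by decide)
  haveI : Nontrivial S := ⟨_, _, hzz1⟩
  have hzz : φ zz ∈ center S := by
    haveI := h2.center_nontrivial
    obtain ⟨⟨x, hx⟩, hx1⟩ := exists_ne (1 : center S)
    rcases hZ1 x hx with rfl | rfl
    · exact absurd rfl hx1
    · exact hx
  have hZ : ∀ x, x ∈ center S ↔ x = 1 ∨ x = φ zz := fun x =>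
    ⟨hZ1 x, by rintro (rfl | rfl); exacts [one_mem _, hzz]⟩
  have hZc : Nat.card (center S) = 2 := by
    have : (center S : Set S) = {1, φ zz} := by ext x; simpa using hZ x
    change Nat.card (center S : Set S) = 2
    rw [this, Nat.card_coe_set_eq, Set.ncard_pair hzz1.symm]
  have hswap : ∀ g : normalizer (φ.range : Set S), (g : S) ∉ φ.range →
      V1.map (aut φ hφ g).toMonoidHom = V2 ∧ V2.map (aut φ hφ g).toMonoidHom = V1 := by
    intro g hg
    rcases map_cases (aut φ hφ g) with h | h
    · exact absurd (hcore g h.1) hg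
    · exact h
  have hidx : φ.range.relIndex (normalizer (φ.range : Set S)) = 2 := by
    obtain ⟨g, hgN, hg0⟩ := SetLike.exists_of_lt
      (Group.normalizerCondition_of_isNilpotent (G := S) _ (lt_top_iff_ne_top.2 hPlt))
    rw [relIndex_eq_two_iff]
    refine ⟨g, hgN, fun b hb => ?_⟩
    by_cases hbP : b ∈ φ.range
    · exact Or.inr ⟨hbP, fun h => hg0 (by simpa using mul_mem (inv_mem hbP) h)⟩
    · refine Or.inl ⟨hcore (⟨b, hb⟩ * ⟨g, hgN⟩) ?_, hbP⟩
      rw [map_mul]
      change V1.map ((aut φ hφ ⟨b, hb⟩).toMonoidHom.comp (aut φ hφ ⟨g, hgN⟩).toMonoidHom) = V1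
      rw [← map_map, (hswap ⟨g, hgN⟩ hg0).1, (hswap ⟨b, hb⟩ hbP).2]
  refine ⟨?_, hZc, hidx, ⟨inferInstance, T, ?_⟩, hV⟩
  · ext x
    rw [hZ]
    constructor
    · rintro (rfl | rfl)
      · exact one_mem _
      · exact ⟨⟨φ zz, zz, rfl⟩, mem_center_iff.2 fun y => Subtype.ext (mem_center_iff.1 hzz y), rfl⟩
    · rintro ⟨⟨_, m, rfl⟩, hm, rfl⟩
      rcases (center_iff m).1 (fun g => hφ (by
        rw [map_mul, map_mul]
        exact congrArg Subtype.val (mem_center_iff.1 hm ⟨φ g, g, rfl⟩))) with rfl | rfl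
      · exact Or.inl (map_one φ)
      · exact Or.inr rfl
  · have hW : ∀ (α : MulAut M) (w : M), (α w ∉ Q ∧ α w * α w = 1) ↔ (w ∉ Q ∧ w * w = 1) := by
      intro α w
      rw [← map_mul, map_eq_one_iff _ α.injective]
      exact and_congr_left fun _ => not_congr ⟨Q_map' α, Q_map α⟩
    let ψ0 : MulAut M →* Equiv.Perm {w : M // w ∉ Q ∧ w * w = 1} :=
      { toFun := fun α => Equiv.Perm.subtypePerm α.toEquiv (hW α)
        map_one' := Equiv.ext fun _ => rfl
        map_mul' := fun _ _ => Equiv.ext fun _ => rfl }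
    let ψ := ψ0.comp (aut φ hφ)
    have hker : ψ.ker = (center S).subgroupOf (normalizer (φ.range : Set S)) := by
      ext g
      rw [MonoidHom.mem_ker, mem_subgroupOf]
      constructor
      · intro hg
        have hfix : ∀ w, w ∉ Q → w * w = 1 → aut φ hφ g w = w := fun w h1 h2 => by
          have := congrArg Subtype.val (DFunLike.congr_fun hg ⟨w, h1, h2⟩)
          exact this
        by_cases hgP : (g : S) ∈ φ.range
        · obtain ⟨m, hm⟩ := hgP
          rw [hZ, ← hm]
          rcases cent_W m (fun w h1 h2 => hφ (by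
            rw [map_mul, map_mul, map_inv, hm, ← aut_apply φ hφ, hfix w h1 h2])) with rfl | rfl
          · exact Or.inl (map_one φ)
          · exact Or.inr rfl
        · exfalso
          have e : a1 * a2 = tt * (a1 * a2 * tt) := by decide
          have h1 : aut φ hφ g (a1 * a2) = a1 * a2 := by
            rw [e, map_mul, hfix tt (by decide) (by decide), hfix _ (by decide) (by decide)]
          have h3 : aut φ hφ g (a1 * a2) ∈ V2 :=
            (hswap g hgP).1 ▸ mem_map_of_mem (aut φ hφ g).toMonoidHom (by decide : a1 * a2 ∈ V1)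
          rw [h1] at h3
          revert h3; decide
      · intro hg
        ext w : 2
        apply hφ
        change φ (aut φ hφ g w) = φ w
        rw [aut_apply, ← mem_center_iff.1 hg]; simp
    refine syl_iso ?_ card_W (QuotientGroup.lift _ ψ hker.ge) ?_ T
    · have h1 := card_mul_index ((center S).subgroupOf (normalizer (φ.range : Set S)))
      have h3 := card_mul_index (φ.range.subgroupOf (normalizer (φ.range : Set S)))
      rw [Nat.card_congr (subgroupOfEquivOfLe (hZP.trans le_normalizer)).toEquiv, hZc] at h1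
      rw [Nat.card_congr (subgroupOfEquivOfLe le_normalizer).toEquiv,
        ← Nat.card_congr (MonoidHom.ofInjective hφ).toEquiv, M.card_M] at h3
      change 128 * φ.range.relIndex _ = _ at h3
      rw [hidx] at h3
      change ((center S).subgroupOf (normalizer (φ.range : Set S))).index = 128
      omega
    · rw [QuotientGroup.injective_lift_iff]; exact hker.symm

end Cfsg.Agent.S4402
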