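import Cfsg.Statements.S4405
import Mathlib
import Cfsg.Agent.Grp.ExtraspecialIso
import Cfsg.Agent.Grp.Fitting

set_option autoImplicit false
open Cfsg

namespace Cfsg.Agent.S4405

open Subgroup
open scoped commutatorElement

/-- fixed points of an automorphism -/
abbrev fx {V : Type*} [Group V] (σ : MulAut V) : Subgroup V := σ.toMonoidHom.eqLocus (.id V)

theorem mem_fx {V : Type*} [Group V] {σ : MulAut V} {v : V} : v ∈ fx σ ↔ σ v = v := Iff.rfl

theorem pure {A : Type*} [CommGroup A] [Finite A] (hA : Nat.card A = 16) (h2 : ∀ a : A, a * a = 1)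
    {t s : MulAut A} (ht : t * t = 1) (hs : s ^ 5 = 1) (hs1 : s ≠ 1) (hts : t * s * (t * s) = 1)
    {a : A} (ha : t a = a) : ∃ b, a = b⁻¹ * t b := by
  have : Fact (Nat.Prime 5) := ⟨by norm_num⟩
  have h1 : fx s = ⊥ := by
    have hp : IsPGroup 5 (zpowers s) := IsPGroup.of_card (n := 1) (by
      rw [Nat.card_zpowers, orderOf_eq_prime hs hs1]; rfl)
    have h3 := hp.card_modEq_card_fixedPoints A
    have h4 : MulAction.fixedPoints (zpowers s) A = fx s := by
      ext v
      refine ⟨fun h => h ⟨s, mem_zpowers s⟩, fun h g => ?_⟩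
      exact (zpowers_le.2 h : zpowers s ≤ MulAction.stabilizer (MulAut A) v) g.2
    rw [h4, hA] at h3
    have h5 := card_subgroup_dvd_card (fx s)
    rw [hA] at h5
    have h6 : Nat.card (fx s) ≠ 16 := fun h => hs1 (by
      have := eq_top_of_card_eq _ (h.trans hA.symm)
      exact MulEquiv.ext fun v => mem_fx.1 (this.ge (mem_top v)))
    have h7 := Nat.le_of_dvd (by norm_num) h5
    change 16 ≡ Nat.card (fx s) [MOD 5] at h3
    rw [← card_eq_one]
    unfold Nat.ModEq at h3
    generalize Nat.card (fx s) = k at *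
    interval_cases k <;> omega
  have e0 : ∀ v, t (t v) = v := fun v => DFunLike.congr_fun ht v
  have e1 : ∀ v, s (t (s v)) = t v := fun v => by
    have : t (s (t (s v))) = v := DFunLike.congr_fun hts v
    rw [← e0 (s (t (s v))), this]
  have e5 : ∀ v, s (s (s (s (s v)))) = v := fun v => DFunLike.congr_fun hs v
  let f : fx t × fx t →* A := (fx t).subtype.coprod ((s * s).toMonoidHom.comp (fx t).subtype)
  have hf : Function.Injective f := by
    rw [injective_iff_map_eq_one]
    rintro ⟨⟨x, hx⟩, ⟨y, hy⟩⟩ h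
    rw [mem_fx] at hx hy
    change x * s (s y) = 1 at h
    have k1 : t (s (s y)) = s (s y) := by
      rw [eq_inv_of_mul_eq_one_right h, map_inv, hx]
    have k2 : s (s (s (s y))) = y := by rw [← k1, e1, e1, hy]
    have k3 : s y = y := by rw [← k2, e5, k2]
    have k4 : y = 1 := mem_bot.1 (h1 ▸ mem_fx.2 k3)
    have k5 : x = 1 := by simpa [k4] using h
    simp [k4, k5]
  have h3 := Nat.card_le_card_of_injective f hf
  rw [Nat.card_prod, hA] at h3
  let g : A →* A := MonoidHom.mk' (fun b => b⁻¹ * t b) fun x y => by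
    rw [map_mul, mul_inv_rev, mul_comm y⁻¹, mul_mul_mul_comm]
  have hk : g.ker = fx t := by
    ext v
    rw [MonoidHom.mem_ker, mem_fx]
    change v⁻¹ * t v = 1 ↔ _
    rw [inv_mul_eq_one, eq_comm]
  have hr : g.range ≤ fx t := by
    rintro _ ⟨b, rfl⟩
    rw [mem_fx]
    change t (b⁻¹ * t b) = b⁻¹ * t b
    rw [map_mul, map_inv, e0, inv_eq_of_mul_eq_one_right (h2 _), inv_eq_of_mul_eq_one_right (h2 _),
      mul_comm]
  have h4 := g.ker.card_mul_index
  rw [index_ker, hk, hA] at h4
  have h5 : g.range = fx t := eq_of_le_of_card_ge hr (by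
    have : 0 < Nat.card (fx t) := Nat.card_pos
    nlinarith)
  obtain ⟨b, hb⟩ := h5.ge (mem_fx.2 ha)
  exact ⟨b, hb.symm⟩

theorem ten {Q : Type*} [Group Q] [Finite Q] (hQ : Nat.card Q = 10) (h : pCore 2 Q = ⊥) {t x : Q}
    (ht : orderOf t = 2) (hx : orderOf x = 5) : t * x * (t * x) = 1 := by
  have hi : (zpowers x).index = 2 := by
    have := (zpowers x).card_mul_index
    rw [Nat.card_zpowers, hx, hQ] at this
    omega
  have ht' : t ∉ zpowers x := fun h => by
    have := orderOf_dvd_of_mem_zpowers h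
    rw [ht, hx] at this
    omega
  have htx : t * x ∉ zpowers x := fun h => ht' (by simpa using mul_mem h (inv_mem (mem_zpowers x)))
  have hu : t * x * (t * x) ∈ zpowers x := (mul_mem_iff_of_index_two hi).2 Iff.rfl
  by_contra hne
  have : Fact (Nat.Prime 5) := ⟨by norm_num⟩
  have : Fact (Nat.Prime 2) := ⟨by norm_num⟩
  have h1 : zpowers (t * x * (t * x)) = zpowers x := by
    refine eq_of_le_of_card_ge (zpowers_le.2 hu) ?_
    have := orderOf_dvd_of_mem_zpowers hu
    rw [hx] at this
    rw [Nat.card_zpowers, Nat.card_zpowers, hx]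
    rcases (Nat.dvd_prime Nat.prime_five).1 this with h | h
    · exact absurd (orderOf_eq_one_iff.1 h) hne
    · exact h.ge
  have h2 : zpowers x ≤ centralizer {t * x} := by
    rw [← h1, zpowers_le, mem_centralizer_singleton_iff]; group
  have h3 : x * t = t * x := by
    have := mem_centralizer_singleton_iff.1 (h2 (mem_zpowers x))
    rw [← mul_assoc] at this
    exact mul_right_cancel this
  have h4 : zpowers x ≤ centralizer {t} := by
    rw [zpowers_le, mem_centralizer_singleton_iff]; exact h3
  have h5 : ∀ g, g * t = t * g := fun g => by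
    by_cases hg : g ∈ zpowers x
    · exact mem_centralizer_singleton_iff.1 (h4 hg)
    · have := mem_centralizer_singleton_iff.1
        (h4 ((mul_mem_iff_of_index_two hi).2 (iff_of_false hg ht')))
      rw [← mul_assoc] at this
      exact mul_right_cancel this
  have h6 : zpowers t ≤ pCore 2 Q := Grp.le_pCore ⟨fun n hn g => by
    have : zpowers t ≤ centralizer {g} := by
      rw [zpowers_le, mem_centralizer_singleton_iff]; exact (h5 g).symm
    rw [← mem_centralizer_singleton_iff.1 (this hn), mul_inv_cancel_right]; exact hn⟩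
    (IsPGroup.of_card (n := 1) (by rw [Nat.card_zpowers, ht]; rfl))
  rw [h, le_bot_iff, zpowers_eq_bot] at h6
  rw [h6, orderOf_one] at ht
  omega


/-- Let G be a finite group of order 320 = 64·5 whose largest normal 2-subgroup H = O₂(G) equals the Fitting subgroup F(G) and is extraspecial of order 32 containing no elementary abelian subgroup of order 8 (so H is the central product of a quaternion group and a dihedral group of order 8). If T is an involution of G outside H whose centralizer in H contains an elementary abelian subgroup of order 4, then C_H(T) itself is elementary abelian of order 4. -/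
theorem result {G : Type*} [Group G] [Finite G]
    (hG : Nat.card G = 320) (hHF : Cfsg.pCore 2 G = Cfsg.fittingSubgroup G)
    (hex : Cfsg.IsExtraspecial 2 ↥(Cfsg.pCore 2 G)) (h32 : Nat.card ↥(Cfsg.pCore 2 G) = 32)
    (hminus : ∀ A : Subgroup G, A ≤ Cfsg.pCore 2 G → Cfsg.IsElementaryAbelian 2 A → Nat.card ↥A ≤ 4)
    (T : G) (hT : orderOf T = 2) (hTH : T ∉ Cfsg.pCore 2 G)
    (V : Subgroup G) (hV : V ≤ Cfsg.pCore 2 G ⊓ Subgroup.centralizer ({T} : Set G)) (hV4 : Nat.card ↥V = 4) (hVe : Cfsg.IsElementaryAbelian 2 V) :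
    Nat.card ↥(Cfsg.pCore 2 G ⊓ Subgroup.centralizer ({T} : Set G)) = 4 ∧
      Cfsg.IsElementaryAbelian 2 (Cfsg.pCore 2 G ⊓ Subgroup.centralizer ({T} : Set G)) := by
  have : Fact (Nat.Prime 5) := ⟨by norm_num⟩
  have : Fact (Nat.Prime 2) := ⟨by norm_num⟩
  obtain ⟨z, hz, -, hzc⟩ := Grp.ES.isES_of_isExtraspecial hex
  have hQ : Nat.card (G ⧸ pCore 2 G) = 10 := by
    have := (pCore 2 G).card_mul_index
    rw [h32, hG] at this
    change (pCore 2 G).index = 10
    omega
  have hsolv : Group.IsSolvable G := by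
    have := IsZGroup.of_squarefree (G := G ⧸ pCore 2 G) (by rw [hQ]; decide +kernel)
    have := (Grp.pCore_isPGroup 2 G).isNilpotent
    exact Group.isSolvable_of_ker_le_range (pCore 2 G).subtype (QuotientGroup.mk' (pCore 2 G)) (by simp)
  have hC := Grp.centralizer_fitting_le G
  rw [← hHF] at hC
  obtain ⟨x, hx⟩ := exists_prime_orderOf_dvd_card' (G := G) 5 (by rw [hG]; norm_num)
  have hxH : x ∉ pCore 2 G := fun h => by
    have := orderOf_dvd_natCard (⟨x, h⟩ : pCore 2 G)
    rw [orderOf_mk, hx, h32] at this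
    omega
  have hTT : T * T = 1 := by rw [← pow_two, ← hT, pow_orderOf_eq_one]
  have hx5 : x ^ 5 = 1 := by rw [← hx, pow_orderOf_eq_one]
  have hTx : T * x * (T * x) ∈ pCore 2 G := by
    rw [← QuotientGroup.eq_one_iff]
    refine ten (t := T) (x := x) hQ (Grp.pCore_quotient_pCore 2 G) (orderOf_eq_prime ?_ ?_) (orderOf_eq_prime ?_ ?_)
    · rw [pow_two, ← QuotientGroup.mk_mul, hTT]; rfl
    · rwa [Ne, QuotientGroup.eq_one_iff]
    · rw [← QuotientGroup.mk_pow, hx5]; rfl
    · rwa [Ne, QuotientGroup.eq_one_iff]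
  set H := pCore 2 G with hH
  have hZn : (zpowers z).Normal := hzc ▸ inferInstance
  have hzg : ∀ g : G, g * z = z * g := fun g => by
    rcases hz.eq_one_or_eq (hZn.conj_mem z (mem_zpowers z) g) with h | h
    · exact absurd (by simpa using h) hz.z_ne_one
    · exact mul_inv_eq_iff_eq_mul.1 h
  let π := QuotientGroup.mk' (zpowers z)
  have hπ : ∀ a b, π a = π b → a = b ∨ a = b * z := fun a b h => by
    rcases hz.eq_one_or_eq (QuotientGroup.eq.1 h.symm) with h | h
    · exact Or.inl (inv_mul_eq_one.1 h).symm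
    · exact Or.inr (inv_mul_eq_iff_eq_mul.1 h)
  have : (H.map π).Normal := Normal.map inferInstance π (QuotientGroup.mk'_surjective _)
  have hcomm : ∀ a ∈ H, ∀ b ∈ H, π a * π b = π b * π a := fun a ha b hb => by
    rw [← commutatorElement_eq_one_iff_mul_comm, ← map_commutatorElement]
    exact (QuotientGroup.eq_one_iff _).2 (hz.comm a ha b hb)
  letI : CommGroup (H.map π) := { (inferInstance : Group (H.map π)) with
    mul_comm := by
      rintro ⟨_, a, ha, rfl⟩ ⟨_, b, hb, rfl⟩
      exact Subtype.ext (hcomm a ha b hb) }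
  let ψ : G →* MulAut (H.map π) := MulAut.conjNormal.comp π
  have hψ : ∀ g (a : H.map π), (ψ g a : G ⧸ zpowers z) = π g * a * (π g)⁻¹ := fun _ _ => rfl
  have hA : Nat.card (H.map π) = 16 := by
    have h1 := (π.ker.subgroupOf H).card_mul_index
    change _ * π.ker.relIndex H = _ at h1
    rw [relIndex_ker, QuotientGroup.ker_mk',
      Nat.card_congr (subgroupOfEquivOfLe hz.zpowers_le).toEquiv, Nat.card_zpowers, hz.ord,
      h32] at h1
    omega
  have hs1 : ψ x ≠ 1 := fun h => hxH (hC fun a ha => by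
      have key : ∀ a ∈ H, x * a * x⁻¹ = a ∨ x * a * x⁻¹ = a * z := fun a ha => hπ _ _ (by
        have := hψ x ⟨π a, mem_map_of_mem π ha⟩
        rw [h] at this
        rw [map_mul, map_mul, map_inv]
        exact this.symm)
      have h1 : x * x ∈ centralizer ({a} : Set G) := by
        rw [mem_centralizer_singleton_iff]
        rcases key a ha with h | h
        · rw [mul_inv_eq_iff_eq_mul] at h
          rw [mul_assoc, h, ← mul_assoc, h, mul_assoc]
        · rw [mul_inv_eq_iff_eq_mul] at h
          rw [mul_assoc, h, ← mul_assoc, ← mul_assoc, h]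
          calc a * z * x * z * x = a * (z * (x * z)) * x := by group
            _ = _ := by rw [hzg x, ← mul_assoc z, hz.z_mul_z]; group
      have h2 : x = (x * x) ^ 3 := by rw [← pow_two, ← pow_mul, pow_succ, hx5, one_mul]
      exact (mem_centralizer_singleton_iff.1 (h2 ▸ pow_mem h1 3)).symm)
  have hts : ψ T * ψ x * (ψ T * ψ x) = 1 := by
    rw [← map_mul, ← map_mul]
    refine MulEquiv.ext ?_
    rintro ⟨_, a, ha, rfl⟩
    refine Subtype.ext ?_
    rw [hψ, hcomm _ hTx a ha, mul_inv_cancel_right]; rfl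
  have hsq : ∀ c ∈ H ⊓ centralizer {T}, c ^ 2 = 1 := by
    intro c hc
    have hcT : T * c = c * T := (mem_centralizer_singleton_iff.1 hc.2).symm
    obtain ⟨⟨_, b, hb, rfl⟩, h⟩ := pure (t := ψ T) (s := ψ x) hA (by
      rintro ⟨_, a, ha, rfl⟩
      refine Subtype.ext ?_
      change π a * π a = 1
      rw [← map_mul, ← pow_two]
      exact (QuotientGroup.eq_one_iff _).2 (hz.pow_mem ha)) (by rw [← map_mul, hTT, map_one])
      (by rw [← map_pow, hx5, map_one]) hs1 hts
      (a := ⟨π c, mem_map_of_mem π hc.1⟩) (Subtype.ext (by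
        rw [hψ, ← map_inv, ← map_mul, ← map_mul, hcT, mul_inv_cancel_right]))
    · have h1 : π c = π (b⁻¹ * (T * b * T⁻¹)) := by
        rw [map_mul, map_mul, map_mul, map_inv, map_inv]
        exact congrArg Subtype.val h
      set w := b⁻¹ * (T * b * T⁻¹) with hw
      have hTi : T⁻¹ = T := inv_eq_of_mul_eq_one_right hTT
      have h2 : T * w * T⁻¹ * w = 1 := by
        rw [hw, hTi]
        calc T * (b⁻¹ * (T * b * T)) * T * (b⁻¹ * (T * b * T))
            = T * b⁻¹ * T * b * (T * T) * b⁻¹ * T * b * T := by group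
          _ = T * b⁻¹ * (T * T) * b * T := by nth_rewrite 1 [hTT]; group
          _ = 1 := by rw [hTT]; simp [hTT]
      rcases hπ _ _ h1.symm with h3 | h3
      · rw [h3, hcT, mul_inv_cancel_right] at h2
        rw [pow_two, h2]
      · rw [h3, ← mul_assoc T, hcT, mul_assoc c, hzg T, ← mul_assoc c, mul_inv_cancel_right,
          mul_assoc c, ← mul_assoc z, ← hzg c, mul_assoc c, hz.z_mul_z, mul_one] at h2
        rw [pow_two, h2]
  have hel : IsElementaryAbelian 2 (H ⊓ centralizer {T}) := by
    refine ⟨⟨⟨fun a b => Subtype.ext ?_⟩⟩, hsq⟩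
    have ha := hsq a a.2
    have hb := hsq b b.2
    have hab := hsq _ (mul_mem a.2 b.2)
    rw [pow_two] at ha hb hab
    change (a : G) * b = b * a
    rw [← inv_eq_of_mul_eq_one_right hab, mul_inv_rev, inv_eq_of_mul_eq_one_right ha,
      inv_eq_of_mul_eq_one_right hb]
  exact ⟨le_antisymm (hminus _ inf_le_left hel) (hV4 ▸ card_le_of_le hV), hel⟩

end Cfsg.Agent.S4405
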