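import Cfsg.Statements.S4406


set_option autoImplicit false
open Cfsg

namespace Cfsg.Agent.S4406

abbrev A4 := ↥(alternatingGroup (Fin 4))

set_option synthInstance.maxSize 1024 in
theorem cyc : ∀ w : A4, w ^ 3 = 1 → w ≠ 1 → ∀ b : A4, b ^ 2 = 1 → b ≠ 1 → ∀ c : A4, c ^ 2 = 1 →
    c ≠ 1 → b ≠ c →
    ((w * b * w⁻¹ = c ∧ w * c * w⁻¹ = b * c) ∧ (w⁻¹ * b * w⁻¹⁻¹ = b * c ∧ w⁻¹ * c * w⁻¹⁻¹ = b)) ∨
    ((w * b * w⁻¹ = b * c ∧ w * c * w⁻¹ = b) ∧ (w⁻¹ * b * w⁻¹⁻¹ = c ∧ w⁻¹ * c * w⁻¹⁻¹ = b * c)) := by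
  decide +kernel

set_option synthInstance.maxSize 1024 in
theorem four : ∀ b : A4, b ^ 2 = 1 → b ≠ 1 → ∀ c : A4, c ^ 2 = 1 → c ≠ 1 → b ≠ c →
    ∀ x : A4, x ^ 2 = 1 → x = 1 ∨ x = b ∨ x = c ∨ x = b * c := by
  decide +kernel

theorem sq_or_cube : ∀ x : A4, x ^ 2 = 1 ∨ x ^ 3 = 1 := by decide +kernel

theorem exists_cube : ∃ x : A4, x ≠ 1 ∧ x ^ 3 = 1 := by decide +kernel

theorem pow_of_pow {p q k : ℕ} (hpq : p.Coprime q) {x : A4} (h : x ^ p ^ k = 1)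
    (h2 : x ^ p = 1 ∨ x ^ q = 1) : x ^ p = 1 := by
  rcases h2 with h2 | h2
  · exact h2
  · have := pow_gcd_eq_one.2 ⟨h, h2⟩
    rw [(Nat.Coprime.pow_left k hpq).gcd_eq_one, pow_one] at this
    rw [this, one_pow]

theorem isPGroup_prod {G H : Type*} [Group G] [Group H] {p : ℕ} {A : Subgroup G} {B : Subgroup H}
    (hA : IsPGroup p A) (hB : IsPGroup p B) : IsPGroup p (A.prod B) := by
  rintro ⟨⟨a, b⟩, ha, hb⟩
  obtain ⟨i, hi⟩ := hA ⟨a, ha⟩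
  obtain ⟨j, hj⟩ := hB ⟨b, hb⟩
  refine ⟨i + j, Subtype.ext (Prod.ext ?_ ?_)⟩
  · change a ^ p ^ (i + j) = 1
    rw [pow_add, pow_mul, show a ^ p ^ i = 1 from congrArg Subtype.val hi, one_pow]
  · change b ^ p ^ (i + j) = 1
    rw [pow_add, mul_comm, pow_mul, show b ^ p ^ j = 1 from congrArg Subtype.val hj, one_pow]

theorem exists_gens (Q : Sylow 3 (A4 × A4)) :
    ∃ u w : A4, u ≠ 1 ∧ w ≠ 1 ∧ (u, 1) ∈ (Q : Subgroup (A4 × A4)) ∧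
      (1, w) ∈ (Q : Subgroup (A4 × A4)) := by
  haveI : Fact (Nat.Prime 3) := ⟨Nat.prime_three⟩
  have key : ∀ A B : Subgroup A4, IsPGroup 3 A → IsPGroup 3 B →
      (Q : Subgroup (A4 × A4)).map (MonoidHom.fst _ _) ≤ A →
      (Q : Subgroup (A4 × A4)).map (MonoidHom.snd _ _) ≤ B → A.prod B = Q :=
    fun A B hA hB h1 h2 => Q.is_maximal' (isPGroup_prod hA hB)
      (fun x hx => ⟨h1 ⟨x, hx, rfl⟩, h2 ⟨x, hx, rfl⟩⟩)
  have ex : ∀ A : Subgroup A4, IsPGroup 3 A → ∃ A' : Subgroup A4, IsPGroup 3 A' ∧ A ≤ A' ∧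
      ∃ u ∈ A', u ≠ 1 := by
    intro A hA
    by_cases h : A = ⊥
    · obtain ⟨x, hx, hx3⟩ := exists_cube
      refine ⟨Subgroup.zpowers x, IsPGroup.of_card (n := 1) ?_, h ▸ bot_le, x,
        Subgroup.mem_zpowers x, hx⟩
      rw [Nat.card_zpowers, orderOf_eq_prime hx3 hx]; rfl
    · obtain ⟨⟨u, hu⟩, hu1⟩ := Subgroup.ne_bot_iff_exists_ne_one.1 h
      exact ⟨A, hA, le_rfl, u, hu, fun h => hu1 (Subtype.ext h)⟩
  obtain ⟨A, hA, h1, u, hu, hu1⟩ := ex _ (Q.isPGroup'.map (MonoidHom.fst _ _))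
  obtain ⟨B, hB, h2, w, hw, hw1⟩ := ex _ (Q.isPGroup'.map (MonoidHom.snd _ _))
  rw [← key A B hA hB h1 h2]
  exact ⟨u, w, hu1, hw1, ⟨hu, B.one_mem⟩, ⟨A.one_mem, hw⟩⟩


/-- In the direct product P = A₄ × A₄, let X be the Sylow 2-subgroup, X₁ and X₂ its intersections with the two direct factors, Q a Sylow 3-subgroup and Q₁, Q₂ its intersections with the two factors. Then every subgroup B of X of order 4 either meets X₁ or X₂ nontrivially, or is normalized by one of the two subgroups of Q of order 3 other than Q₁ and Q₂. -/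
theorem result
    (X : Sylow 2 (↥(alternatingGroup (Fin 4)) × ↥(alternatingGroup (Fin 4))))
    (Q : Sylow 3 (↥(alternatingGroup (Fin 4)) × ↥(alternatingGroup (Fin 4))))
    (B : Subgroup (↥(alternatingGroup (Fin 4)) × ↥(alternatingGroup (Fin 4)))) (hBX : B ≤ (X : Subgroup _)) (hB4 : Nat.card ↥B = 4) :
    B ⊓ ((X : Subgroup _) ⊓ Subgroup.prod ⊤ ⊥) ≠ ⊥ ∨ B ⊓ ((X : Subgroup _) ⊓ Subgroup.prod ⊥ ⊤) ≠ ⊥ ∨
      ∃ R : Subgroup (↥(alternatingGroup (Fin 4)) × ↥(alternatingGroup (Fin 4))), R ≤ (Q : Subgroup _) ∧ Nat.card ↥R = 3 ∧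
        R ≠ (Q : Subgroup _) ⊓ Subgroup.prod ⊤ ⊥ ∧ R ≠ (Q : Subgroup _) ⊓ Subgroup.prod ⊥ ⊤ ∧ R ≤ Subgroup.normalizer (B : Set _) := by
  haveI : Fact (Nat.Prime 3) := ⟨Nat.prime_three⟩
  by_cases h1 : B ⊓ ((X : Subgroup _) ⊓ Subgroup.prod ⊤ ⊥) = ⊥
  swap
  · exact Or.inl h1
  by_cases h2 : B ⊓ ((X : Subgroup _) ⊓ Subgroup.prod ⊥ ⊤) = ⊥
  swap
  · exact Or.inr (Or.inl h2)
  right; right
  have hsnd : ∀ x ∈ B, x.2 = 1 → x = 1 := fun x hx h =>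
    (Subgroup.eq_bot_iff_forall _).1 h1 x ⟨hx, hBX hx, trivial, h⟩
  have hfst : ∀ x ∈ B, x.1 = 1 → x = 1 := fun x hx h =>
    (Subgroup.eq_bot_iff_forall _).1 h2 x ⟨hx, hBX hx, h, trivial⟩
  have hfst' : ∀ x ∈ B, ∀ y ∈ B, x.1 = y.1 → x = y := fun x hx y hy h =>
    mul_inv_eq_one.1 (hfst _ (B.mul_mem hx (B.inv_mem hy)) (mul_inv_eq_one.2 h))
  have hsnd' : ∀ x ∈ B, ∀ y ∈ B, x.2 = y.2 → x = y := fun x hx y hy h =>
    mul_inv_eq_one.1 (hsnd _ (B.mul_mem hx (B.inv_mem hy)) (mul_inv_eq_one.2 h))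
  have hsq : ∀ x ∈ B, x.1 ^ 2 = 1 ∧ x.2 ^ 2 = 1 := by
    intro x hx
    obtain ⟨k, hk⟩ := X.isPGroup' ⟨x, hBX hx⟩
    have h3 : x ^ 2 ^ k = 1 := congrArg Subtype.val hk
    exact ⟨pow_of_pow (q := 3) (by norm_num) (congrArg Prod.fst h3) (sq_or_cube _),
      pow_of_pow (q := 3) (by norm_num) (congrArg Prod.snd h3) (sq_or_cube _)⟩
  obtain ⟨b, c, hb1, hc1, hbc⟩ : ∃ b c : B, b ≠ 1 ∧ c ≠ 1 ∧ b ≠ c := by
    haveI := Fintype.ofFinite B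
    obtain ⟨x, y, z, hxy, hxz, hyz⟩ := Fintype.two_lt_card_iff.1
      (show 2 < Fintype.card B by rw [← Nat.card_eq_fintype_card, hB4]; norm_num)
    exact ⟨x⁻¹ * y, x⁻¹ * z, fun h => hxy (inv_mul_eq_one.1 h), fun h => hxz (inv_mul_eq_one.1 h),
      fun h => hyz (mul_left_cancel h)⟩
  obtain ⟨b, hb⟩ := b
  obtain ⟨c, hc⟩ := c
  rw [Ne, Subtype.ext_iff] at hb1 hc1 hbc
  obtain ⟨u, w, hu1, hw1, hu, hw⟩ := exists_gens Q
  have hu3 : u ^ 3 = 1 := by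
    obtain ⟨k, hk⟩ := Q.isPGroup' ⟨_, hu⟩
    exact pow_of_pow (q := 2) (by norm_num) (congrArg (fun z => z.1.1) hk) (sq_or_cube _).symm
  have hw3 : w ^ 3 = 1 := by
    obtain ⟨k, hk⟩ := Q.isPGroup' ⟨_, hw⟩
    exact pow_of_pow (q := 2) (by norm_num) (congrArg (fun z => z.1.2) hk) (sq_or_cube _).symm
  have main : ∀ w' : A4, w' ≠ 1 → w' ^ 3 = 1 → (1, w') ∈ (Q : Subgroup (A4 × A4)) →
      (u, w') * b * (u, w')⁻¹ ∈ B → (u, w') * c * (u, w')⁻¹ ∈ B →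
      ∃ R : Subgroup (A4 × A4), R ≤ (Q : Subgroup _) ∧ Nat.card ↥R = 3 ∧
        R ≠ (Q : Subgroup _) ⊓ Subgroup.prod ⊤ ⊥ ∧ R ≠ (Q : Subgroup _) ⊓ Subgroup.prod ⊥ ⊤ ∧
        R ≤ Subgroup.normalizer (B : Set _) := by
    intro w' hw1' hw3' hw' h3 h4
    refine ⟨Subgroup.zpowers (u, w'), Subgroup.zpowers_le.2 ?_, ?_, ?_, ?_, Subgroup.zpowers_le.2 ?_⟩
    · simpa using (Q : Subgroup (A4 × A4)).mul_mem hu hw'
    · rw [Nat.card_zpowers]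
      exact orderOf_eq_prime (Prod.ext hu3 hw3') fun h => hu1 (congrArg Prod.fst h)
    · intro h
      exact hw1' (h.le (Subgroup.mem_zpowers _)).2.2
    · intro h
      exact hu1 (h.le (Subgroup.mem_zpowers _)).2.1
    · apply Subgroup.mem_normalizer_fintype
      intro x hx
      rcases four b.1 (hsq b hb).1 (fun h => hb1 (hfst b hb h)) c.1 (hsq c hc).1
        (fun h => hc1 (hfst c hc h)) (fun h => hbc (hfst' b hb c hc h)) x.1 (hsq x hx).1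
        with h | h | h | h
      · rw [hfst x hx h, mul_one, mul_inv_cancel]; exact B.one_mem
      · rw [hfst' x hx b hb h]; exact h3
      · rw [hfst' x hx c hc h]; exact h4
      · rw [hfst' x hx _ (B.mul_mem hb hc) h]
        have := B.mul_mem h3 h4
        rwa [conj_mul] at this
  have hw' : (1, w⁻¹) ∈ (Q : Subgroup (A4 × A4)) := by
    simpa using (Q : Subgroup (A4 × A4)).inv_mem hw
  have hbc' := B.mul_mem hb hc
  have mm : ∀ {x y : A4 × A4}, x.1 = y.1 → x.2 = y.2 → y ∈ B → x ∈ B := fun h1 h2 hy =>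
    (Prod.ext h1 h2 : _ = _) ▸ hy
  rcases cyc u hu3 hu1 b.1 (hsq b hb).1 (fun h => hb1 (hfst b hb h)) c.1 (hsq c hc).1
    (fun h => hc1 (hfst c hc h)) (fun h => hbc (hfst' b hb c hc h)) with ⟨⟨e1, e2⟩, -⟩ | ⟨⟨e1, e2⟩, -⟩ <;>
  rcases cyc w hw3 hw1 b.2 (hsq b hb).2 (fun h => hb1 (hsnd b hb h)) c.2 (hsq c hc).2
    (fun h => hc1 (hsnd c hc h)) (fun h => hbc (hsnd' b hb c hc h)) with
    ⟨⟨f1, f2⟩, f3, f4⟩ | ⟨⟨f1, f2⟩, f3, f4⟩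
  · exact main w hw1 hw3 hw (mm e1 f1 hc) (mm e2 f2 hbc')
  · exact main w⁻¹ (inv_ne_one.2 hw1) (by rw [inv_pow, hw3, inv_one]) hw'
      (mm e1 f3 hc) (mm e2 f4 hbc')
  · exact main w⁻¹ (inv_ne_one.2 hw1) (by rw [inv_pow, hw3, inv_one]) hw'
      (mm e1 f3 hbc') (mm e2 f4 hb)
  · exact main w hw1 hw3 hw (mm e1 f1 hbc') (mm e2 f2 hb)

end Cfsg.Agent.S4406
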