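import Cfsg.Statements.S4407
import Cfsg.Agent.PLocal.Hyperplane
import Cfsg.Agent.PLocal.ElemAb

set_option autoImplicit false
open Cfsg

namespace Cfsg.Agent.S4407

open Subgroup

open DihedralGroup

section
variable {S : Type*} [Group S] [Finite S] {A : Subgroup S} [hAn : A.Normal] (hA : Cfsg.IsElementaryAbelian 3 A)
  (hA9 : Nat.card ↥A = 9) (hAC : Subgroup.centralizer (A : Set S) = A)
  (φ : DihedralGroup 4 →* S) (hφ : Function.Injective φ)
include hA hAC hφ

omit [Finite S] hAn in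
theorem faith {d : DihedralGroup 4} (h : ∀ x ∈ A, φ d * x * (φ d)⁻¹ = x) : d = 1 := by
  have h1 : φ d ∈ A := hAC ▸ fun x hx => (mul_inv_eq_iff_eq_mul.1 (h x hx)).symm
  have h2 : d ^ 3 = 1 := hφ (by rw [map_pow, hA.2 _ h1, map_one])
  exact (by decide : ∀ d : DihedralGroup 4, d ^ 3 = 1 → d = 1) d h2

include hA9 in
theorem z_inv : ∀ x ∈ A, φ (r 2) * x * (φ (r 2))⁻¹ = x⁻¹ := by
  classical
  have hc := fun x y hx hy => PLocal.elemAb_comm hA (x := x) (y := y) hx hy
  let I : Subgroup S :=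
    { carrier := {x | x ∈ A ∧ φ (r 2) * x * (φ (r 2))⁻¹ = x⁻¹}
      one_mem' := ⟨one_mem _, by simp⟩
      mul_mem' := fun {x y} hx hy => ⟨mul_mem hx.1 hy.1, by
        rw [hc x y hx.1 hy.1, mul_inv_rev, hc x⁻¹ _ (inv_mem hx.1) (inv_mem hy.1), ← hx.2, ← hy.2]; group⟩
      inv_mem' := fun {x} hx => ⟨inv_mem hx.1, by
        rw [show φ (r 2) * x⁻¹ * (φ (r 2))⁻¹ = (φ (r 2) * x * (φ (r 2))⁻¹)⁻¹ by group, hx.2]⟩ }
  have hI : I ≤ A := fun x hx => hx.1
  have h1 := card_dvd_of_le hI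
  rw [hA9, show 9 = 3 ^ 2 from rfl, Nat.dvd_prime_pow Nat.prime_three] at h1
  obtain ⟨k, hk, h1⟩ := h1
  have hz : φ (r 2) * φ (r 2) = 1 := by rw [← map_mul]; exact map_one φ
  interval_cases k
  · exfalso
    have h2 : I = ⊥ := card_eq_one.1 h1
    refine absurd (faith hA hAC φ hφ (d := r 2) fun x hx => ?_) (by decide)
    have h3 : x * (φ (r 2) * x * (φ (r 2))⁻¹)⁻¹ ∈ I := ⟨mul_mem hx (inv_mem (hAn.conj_mem _ hx _)), by
      rw [mul_inv_rev x, inv_inv]
      calc _ = φ (r 2) * x * (φ (r 2))⁻¹ * ((φ (r 2) * φ (r 2)) * x⁻¹ * (φ (r 2) * φ (r 2))⁻¹) := by group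
        _ = _ := by rw [hz]; group⟩
    rw [h2, mem_bot, mul_inv_eq_one] at h3
    exact h3.symm
  · exfalso
    have : Fact (Nat.Prime 3) := ⟨Nat.prime_three⟩
    obtain ⟨c, c1, c3, hc'⟩ := PLocal.exists_eq_zpowers_of_card_prime (A := I) (p := 3) h1
    have hcI : c ∈ I := hc' ▸ mem_zpowers c
    have h2 : φ (r 1) * c * (φ (r 1))⁻¹ ∈ I := ⟨hAn.conj_mem _ hcI.1 _, by
      have e : φ (r 2) * φ (r 1) = φ (r 1) * φ (r 2) := by rw [← map_mul, ← map_mul]; rfl
      calc _ = (φ (r 2) * φ (r 1)) * c * (φ (r 2) * φ (r 1))⁻¹ := by group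
        _ = φ (r 1) * (φ (r 2) * c * (φ (r 2))⁻¹) * (φ (r 1))⁻¹ := by rw [e]; group
        _ = _ := by rw [hcI.2]; group⟩
    rw [hc', mem_zpowers_iff_mem_range_orderOf, orderOf_eq_prime c3 c1] at h2
    have e : φ (r 2) = φ (r 1) * φ (r 1) := by rw [← map_mul]; rfl
    have h3 := hcI.2
    rw [e, show φ (r 1) * φ (r 1) * c * (φ (r 1) * φ (r 1))⁻¹ =
      φ (r 1) * (φ (r 1) * c * (φ (r 1))⁻¹) * (φ (r 1))⁻¹ by group] at h3
    have c2 : c ≠ c⁻¹ := fun h => c1 (by
      have : c ^ 3 = c * c * c := pow_three' c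
      rw [c3, mul_eq_one_iff_eq_inv.2 h, one_mul] at this; exact this.symm)
    simp only [Finset.mem_image, Finset.mem_range] at h2
    obtain ⟨j, hj, h2⟩ := h2
    interval_cases j
    · exact c1 (by simpa using h2.symm)
    · rw [pow_one] at h2; rw [← h2, ← h2] at h3; exact c2 h3
    · rw [← h2, ← conj_pow, ← h2, ← pow_mul, show 2 * 2 = 3 + 1 from rfl, pow_succ, c3, one_mul] at h3
      exact c2 h3
  · have h2 : I = A := eq_of_le_of_card_ge hI (by rw [h1, hA9]; rfl)
    exact fun x hx => (h2 ▸ hx : x ∈ I).2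

end

theorem fix_step {M : Type*} [AddCommGroup M] [Module (ZMod 2) M] (T : M →ₗ[ZMod 2] M) (hT : ∀ v, T (T v) = v)
    (p : M → Prop) (hp : ∀ v, p v → p (v + T v)) {w : M} (hw : w ≠ 0) (h : p w) :
    ∃ v, v ≠ 0 ∧ p v ∧ T v = v := by
  by_cases h1 : T w = w
  · exact ⟨w, hw, h, h1⟩
  · refine ⟨w + T w, fun h2 => h1 ?_, hp w h, by rw [map_add, hT, add_comm]⟩
    rw [eq_neg_of_add_eq_zero_right h2, ZModModule.neg_eq_self]

theorem four {S : Type*} [Group S] [Finite S] (φ : DihedralGroup 4 →* S) (hφ : Function.Injective φ) :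
    ∃ B₁ B₂ : Subgroup S, (∀ x, x ∈ B₁ ↔ x = 1 ∨ x = φ (r 2) ∨ x = φ (sr 0) ∨ x = φ (sr 0) * φ (r 2)) ∧
      (∀ x, x ∈ B₂ ↔ x = 1 ∨ x = φ (r 2) ∨ x = φ (sr 1) ∨ x = φ (sr 1) * φ (r 2)) ∧
      (B₂ ≤ φ.range ∧ Nat.card B₂ = 4 ∧ ∀ b ∈ B₂, b ^ 2 = 1) ∧
      ∀ B : Subgroup S, B ≤ φ.range → Nat.card B = 4 → (∀ b ∈ B, b ^ 2 = 1) → B = B₁ ∨ B = B₂ := by
  let V : ZMod 4 → Subgroup (DihedralGroup 4) := fun i =>
    { carrier := {x | x = 1 ∨ x = r 2 ∨ x = sr i ∨ x = sr i * r 2}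
      one_mem' := Or.inl rfl
      mul_mem' := by simp only [Set.mem_setOf_eq]; revert i; decide
      inv_mem' := by simp only [Set.mem_setOf_eq]; revert i; decide }
  have hV : ∀ i x, x ∈ (V i).map φ ↔ x = 1 ∨ x = φ (r 2) ∨ x = φ (sr i) ∨ x = φ (sr i) * φ (r 2) := fun i x => by
    constructor
    · rintro ⟨d, rfl | rfl | rfl | rfl, rfl⟩ <;> simp only [map_one, map_mul, true_or, or_true]
    · rintro (rfl | rfl | rfl | rfl)
      exacts [one_mem _, ⟨_, Or.inr (Or.inl rfl), rfl⟩, ⟨_, Or.inr (Or.inr (Or.inl rfl)), rfl⟩,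
        ⟨_, Or.inr (Or.inr (Or.inr rfl)), map_mul _ _ _⟩]
  have hc : ∀ i, Nat.card ((V i).map φ) = 4 := fun i => by
    rw [card_map_of_injective hφ]
    change Nat.card {x : DihedralGroup 4 // x = 1 ∨ x = r 2 ∨ x = sr i ∨ x = sr i * r 2} = 4
    rw [Nat.card_eq_fintype_card]; revert i; decide
  refine ⟨_, _, hV 0, hV 1, ⟨map_le_range _ _, hc 1, ?_⟩, fun B h1 h2 h3 => ?_⟩
  · rintro _ ⟨d, hd, rfl⟩
    rw [← map_pow, show d ^ 2 = 1 by rcases hd with rfl | rfl | rfl | rfl <;> rfl, map_one]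
  · have h4 : ∀ d, φ d ∈ B → d ^ 2 = 1 := fun d hd => hφ (by rw [map_pow, h3 _ hd, map_one])
    by_cases h5 : B ≤ (V 0).map φ
    · exact Or.inl (eq_of_le_of_card_ge h5 (by rw [hc, h2]))
    · refine Or.inr (eq_of_le_of_card_ge (fun x hx => ?_) (by rw [hc, h2]))
      obtain ⟨y, hy, hy'⟩ := SetLike.not_le_iff_exists.1 h5
      obtain ⟨d, rfl⟩ := h1 hx
      obtain ⟨e, rfl⟩ := h1 hy
      have h6 : ¬ (e = 1 ∨ e = r 2 ∨ e = sr 0 ∨ e = sr 0 * r 2) := fun h => hy' ⟨e, h, rfl⟩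
      have h7 := h4 (d * e) (by rw [map_mul]; exact mul_mem hx hy)
      have h8 : d = 1 ∨ d = r 2 ∨ d = sr 1 ∨ d = sr 1 * r 2 := by
        have := h4 d hx
        have := h4 e hy
        clear hx hy hy'
        revert d e; decide
      exact ⟨d, h8, rfl⟩

theorem main {S : Type*} [Group S] [Finite S]
    (A : Subgroup S) [hAn : A.Normal] (hA : Cfsg.IsElementaryAbelian 3 A) (hA9 : Nat.card ↥A = 9)
    (hAC : Subgroup.centralizer (A : Set S) = A) (φ : DihedralGroup 4 →* S) (hφ : Function.Injective φ)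
    (hAX : A ⊔ φ.range = ⊤)
    {M : Type*} [AddCommGroup M] [Module (ZMod 2) M] [Finite M] (ρ : Representation (ZMod 2) S M)
    (hfaith : Function.Injective ρ)
    (hirr : ∀ N : Submodule (ZMod 2) M, (∀ s : S, ∀ m ∈ N, ρ s m ∈ N) → N = ⊥ ∨ N = ⊤)
    {a : S} (ha : a ∈ A) (a1 : a ≠ 1) (hta : φ (sr 0) * a * (φ (sr 0))⁻¹ = a) {w : M} (hw : w ≠ 0)
    (haw : ρ a w = w) :
    Nat.card M = 16 ∧
      ∃! B : Subgroup S, B ≤ φ.range ∧ Nat.card ↥B = 4 ∧ (∀ b ∈ B, b ^ 2 = 1) ∧
        Nat.card {m : M // ∀ b ∈ B, ρ b m = m} = 2 := by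
  have : Fact (Nat.Prime 3) := ⟨Nat.prime_three⟩
  have hz := z_inv hA hA9 hAC φ hφ
  set t := φ (sr 0) with ht
  set u := φ (sr 1) with hu
  set z := φ (r 2) with hzd
  have tt : t * t = 1 := by rw [← map_mul]; exact map_one φ
  have uu : u * u = 1 := by rw [← map_mul]; exact map_one φ
  have zz : z * z = 1 := by rw [← map_mul]; exact map_one φ
  have tu : t * u = u * (t * z) := by rw [← map_mul, ← map_mul, ← map_mul]; rfl
  have zu : z * u = u * z := by rw [← map_mul, ← map_mul]; rfl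
  have zt : z * t = t * z := by rw [← map_mul, ← map_mul]; rfl
  obtain ⟨b, hb⟩ : ∃ b, b = u * a * u⁻¹ := ⟨_, rfl⟩
  have hbA : b ∈ A := hb ▸ hAn.conj_mem _ ha _
  have sq : ∀ x ∈ A, x⁻¹ = x * x := fun x hx => inv_eq_of_mul_eq_one_right (by
    rw [← hA.2 x hx, pow_three])
  have b1 : b ≠ 1 := fun h => a1 (by simpa [hb] using h)
  have ab : a * b = b * a := PLocal.elemAb_comm hA ha hbA
  have ta : t * a = a * t := mul_inv_eq_iff_eq_mul.1 hta
  have za : z * a = a * a * z := by rw [← sq a ha]; exact mul_inv_eq_iff_eq_mul.1 (hz a ha)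
  have zb : z * b = b * b * z := by rw [← sq b hbA]; exact mul_inv_eq_iff_eq_mul.1 (hz b hbA)
  have bu : b * u = u * a := by rw [hb, inv_mul_cancel_right]
  have au : a * u = u * b := by rw [hb, ← mul_assoc, ← mul_assoc, uu, one_mul, inv_eq_of_mul_eq_one_right uu]
  have tb : t * b = b * b * t := by
    have : t * b * u = b * b * t * u := by
      rw [mul_assoc, bu, ← mul_assoc, tu, mul_assoc (b * b), tu, mul_assoc b, ← mul_assoc b u, bu, mul_assoc u,
        ← mul_assoc b, ← mul_assoc b, bu, mul_assoc t, za]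
      simp only [← mul_assoc]
      rw [mul_assoc u t, ta, mul_assoc u, mul_assoc a t, ta]
      simp only [← mul_assoc]
    exact mul_right_cancel this
  have hAab : zpowers a ⊔ zpowers b = A := by
    have h1 : zpowers a ⊔ zpowers b ≤ A := sup_le (zpowers_le.2 ha) (zpowers_le.2 hbA)
    have h2 := card_dvd_of_le h1
    have h3 : Nat.card (zpowers a) = 3 := by rw [Nat.card_zpowers, orderOf_eq_prime (hA.2 a ha) a1]
    have h4 := card_le_of_le (le_sup_left : zpowers a ≤ zpowers a ⊔ zpowers b)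
    rw [hA9, show 9 = 3 ^ 2 from rfl, Nat.dvd_prime_pow Nat.prime_three] at h2
    obtain ⟨k, hk, h2⟩ := h2
    interval_cases k
    · omega
    · exfalso
      have h5 := eq_of_le_of_card_ge (le_sup_left : zpowers a ≤ zpowers a ⊔ zpowers b) (by omega)
      have h6 : zpowers a ≤ centralizer {t} := zpowers_le.2 (mem_centralizer_singleton_iff.2 ta.symm)
      have h7 := mem_centralizer_singleton_iff.1 (h6 (h5 ▸ mem_sup_right (mem_zpowers b)))
      rw [tb, mul_left_inj, left_eq_mul] at h7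
      exact b1 h7
    · exact eq_of_le_of_card_ge h1 (by omega)
  have ap : ∀ (x y : S) (m : M), ρ (x * y) m = ρ x (ρ y m) := fun x y m => by rw [map_mul]; rfl
  have sw : ∀ {x y x' : S}, x * y = x' → ∀ m, ρ x (ρ y m) = ρ x' m := fun h m => by rw [← ap, h]
  have hN : ∀ m, ρ a m = m → ρ b m = m → m = 0 := fun m h1 h2 => by
    let N : Submodule (ZMod 2) M :=
      { carrier := {m | ∀ x ∈ A, ρ x m = m}
        add_mem' := fun h1 h2 x hx => by rw [map_add, h1 x hx, h2 x hx]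
        zero_mem' := fun x _ => map_zero _
        smul_mem' := fun c m h x hx => by rw [map_smul, h x hx] }
    rcases hirr N (fun s m h x hx => by
      rw [← ap, show x * s = s * (s⁻¹ * x * s⁻¹⁻¹) by group, ap, h _ (hAn.conj_mem _ hx _)]) with h | h
    · have : m ∈ N := fun x hx => by
        let C : Subgroup S :=
          { carrier := {x | ρ x m = m}
            one_mem' := by simp
            mul_mem' := fun {x y} hx hy => by rw [Set.mem_setOf_eq, ap, hy, hx]
            inv_mem' := fun {x} hx => by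
              rw [Set.mem_setOf_eq] at hx ⊢
              conv_lhs => rw [← hx, ← ap, inv_mul_cancel, map_one, Module.End.one_apply] }
        have : A ≤ C := hAab ▸ sup_le (zpowers_le.2 h1) (zpowers_le.2 h2)
        exact this hx
      rwa [h] at this
    · exact absurd (hfaith ((LinearMap.ext fun m => (h ▸ Submodule.mem_top : m ∈ N) a ha).trans
        (map_one ρ).symm)) a1
  have one : ∀ m : M, ρ 1 m = m := fun m => by rw [map_one]; rfl
  obtain ⟨w', hw', haw', htw⟩ := fix_step (ρ t) (fun v => by rw [sw tt, one]) (fun v => ρ a v = v)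
    (fun v h => by rw [map_add, sw ta.symm, ap, h]) hw haw
  obtain ⟨v, v0, ⟨hav, htv⟩, hzv⟩ := fix_step (ρ z) (fun v => by rw [sw zz, one])
    (fun v => ρ a v = v ∧ ρ t v = v) (fun v h => ⟨by
      have h1 : a * z = z * (a * a) := by
        rw [← mul_assoc, za, mul_assoc, za, ← mul_assoc, ← mul_assoc, ← pow_three', hA.2 a ha, one_mul]
      rw [map_add, sw h1, ap, ap, h.1, h.1], by rw [map_add, sw zt.symm, ap, h.2]⟩) hw' ⟨haw', htw⟩
  have nn : ∀ m : M, m + m = 0 := ZModModule.add_self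
  have habv : ρ a (ρ b v) = ρ b v := by rw [sw ab, ap, hav]
  have hbb : ρ b (ρ b v) = v + ρ b v := by
    have h1 := hN (v + ρ b v + ρ b (ρ b v)) (by
      rw [map_add, map_add, hav, habv, sw ab, ap, habv]) (by
      have h3 : ρ b (ρ b (ρ b v)) = v := by rw [← ap, ← ap, ← pow_three', hA.2 b hbA, one]
      rw [map_add, map_add, h3]; abel)
    rw [eq_neg_of_add_eq_zero_right h1, ZModModule.neg_eq_self]
  have hzb : ρ z (ρ b v) = v + ρ b v := by rw [sw zb, ap, ap, hzv, hbb]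
  have htb : ρ t (ρ b v) = v + ρ b v := by rw [sw tb, ap, ap, htv, hbb]
  let f : (Fin 4 → ZMod 2) →ₗ[ZMod 2] M := Fintype.linearCombination (ZMod 2) ![v, ρ b v, ρ u v, ρ u (ρ b v)]
  have hf : ∀ c, f c = (c 0 • v + c 1 • ρ b v) + ρ u (c 2 • v + c 3 • ρ b v) := fun c => by
    simp [f, Fintype.linearCombination_apply, Fin.sum_univ_four, add_assoc]
  have ind : ∀ c d : ZMod 2, c • v + d • ρ b v = 0 → c = 0 ∧ d = 0 := fun c d h => by
    have hbv : ρ b v ≠ v := fun h => v0 (hN v hav h)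
    have hb0 : ρ b v ≠ 0 := fun h => v0 (by rw [h, map_zero, add_zero] at hbb; exact hbb.symm)
    have h01 : ∀ c : ZMod 2, c = 0 ∨ c = 1 := by decide
    rcases h01 c with rfl | rfl <;> rcases h01 d with rfl | rfl
    · exact ⟨rfl, rfl⟩
    · exact absurd (by simpa using h) hb0
    · exact absurd (by simpa using h) v0
    · refine absurd ?_ hbv
      have : v + ρ b v = 0 := by simpa using h
      rw [eq_neg_of_add_eq_zero_right this, ZModModule.neg_eq_self]
  have finj : ∀ c, f c = 0 → c = 0 := fun c h => by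
    rw [hf] at h
    have h1 : c 0 • v + c 1 • ρ b v = 0 := hN _ (by rw [map_add, map_smul, map_smul, hav, habv]) (by
      rw [eq_neg_of_add_eq_zero_left h, map_neg, sw bu, ap, map_add, map_smul, map_smul, hav, habv])
    rw [h1, zero_add] at h
    have h2 := congrArg (ρ u) h
    rw [sw uu, one, map_zero] at h2
    funext i
    fin_cases i
    exacts [(ind _ _ h1).1, (ind _ _ h1).2, (ind _ _ h2).1, (ind _ _ h2).2]
  have fsurj : LinearMap.range f = ⊤ := by
    have hgen : ∀ s : S, ∀ m ∈ LinearMap.range f, ρ s m ∈ LinearMap.range f := by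
      let C : Subgroup S :=
        { carrier := {s | ∀ m ∈ LinearMap.range f, ρ s m ∈ LinearMap.range f}
          one_mem' := fun m h => by rwa [one]
          mul_mem' := fun {x y} hx hy m h => by rw [ap]; exact hx _ (hy m h)
          inv_mem' := fun {x} hx m h => by
            have h1 : ∀ n : ℕ, ρ (x ^ n) m ∈ LinearMap.range f := fun n => by
              induction n with
              | zero => rwa [pow_zero, one]
              | succ n ih => rw [pow_succ', ap]; exact hx _ ih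
            have h2 : x⁻¹ = x ^ (orderOf x - 1) := inv_eq_of_mul_eq_one_right (by
              rw [← pow_succ', Nat.sub_add_cancel (orderOf_pos x), pow_orderOf_eq_one])
            exact h2 ▸ h1 _ }
      have hu' : u ∈ C := by
        rintro _ ⟨c, rfl⟩
        exact ⟨![c 2, c 3, c 0, c 1], by rw [hf, hf, map_add (ρ u) _ (ρ u _), sw uu, one, add_comm]; rfl⟩
      have ht' : t ∈ C := by
        rintro _ ⟨c, rfl⟩
        refine ⟨![c 0 + c 1, c 1, c 2, c 3], ?_⟩
        rw [hf, hf, map_add (ρ t), sw tu, ap, ap]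
        simp only [map_add, map_smul, htv, hzv, hzb, htb, Matrix.cons_val, add_smul, smul_add]
        rw [← add_assoc (c 3 • ρ u v), nn, zero_add, add_assoc (c 0 • v)]
      have ha' : a ∈ C := by
        rintro _ ⟨c, rfl⟩
        refine ⟨![c 0, c 1, c 3, c 2 + c 3], ?_⟩
        rw [hf, hf, map_add (ρ a), sw au, ap]
        simp only [map_add, map_smul, hav, habv, hbb, Matrix.cons_val, add_smul, smul_add]
        abel
      have : (⊤ : Subgroup S) ≤ C := by
        rw [← hAX, ← hAab]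
        refine sup_le (sup_le (zpowers_le.2 ha') (zpowers_le.2 (hb ▸ mul_mem (mul_mem hu' ha') (inv_mem hu')))) ?_
        rintro _ ⟨d, rfl⟩
        have : ∀ d : DihedralGroup 4, ∃ k : Fin 4, d = (sr 0 * sr 1) ^ (k : ℕ) ∨ d = sr 0 * (sr 0 * sr 1) ^ (k : ℕ) := by
          decide
        obtain ⟨k, rfl | rfl⟩ := this d
        · rw [map_pow, map_mul]; exact pow_mem (mul_mem ht' hu') _
        · rw [map_mul, map_pow, map_mul]; exact mul_mem ht' (pow_mem (mul_mem ht' hu') _)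
      exact fun s => this (mem_top s)
    refine (hirr _ hgen).resolve_left fun h => v0 ?_
    have : v ∈ LinearMap.range f := ⟨![1, 0, 0, 0], by simp [hf]⟩
    rwa [h] at this
  have finj' : Function.Injective f := (injective_iff_map_eq_zero f).2 finj
  obtain ⟨B₁, B₂, h1, h2, ⟨h3, h4, h5⟩, h6⟩ := four φ hφ
  have hzuv : ρ z (ρ u v) = ρ u v := by rw [sw zu, ap, hzv]
  have e1 : f ![1, 0, 0, 0] = v := by simp [hf]
  have e2 : f ![0, 0, 1, 0] = ρ u v := by simp [hf]
  have e3 : f ![1, 0, 1, 0] = v + ρ u v := by simp [hf]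
  refine ⟨by rw [← Nat.card_congr (Equiv.ofBijective f ⟨finj', LinearMap.range_eq_top.1 fsurj⟩)]; simp,
    B₂, ⟨h3, h4, h5, ?_⟩, fun B hB => (h6 B hB.1 hB.2.1 hB.2.2.1).resolve_left ?_⟩
  · rw [Nat.card_eq_two_iff]
    refine ⟨⟨0, fun _ _ => map_zero _⟩, ⟨v + ρ u v, fun x hx => ?_⟩, fun h => ?_, ?_⟩
    · rcases (h2 x).1 hx with rfl | rfl | rfl | rfl
      · exact one _
      · rw [map_add, hzv, hzuv]
      · rw [map_add, sw uu, one, add_comm]
      · rw [ap, map_add, hzv, hzuv, map_add, sw uu, one, add_comm]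
    · have := finj _ (e3.trans (congrArg Subtype.val h).symm)
      exact absurd (congrFun this 0) (by decide)
    · rw [Set.eq_univ_iff_forall]
      rintro ⟨m, hm⟩
      obtain ⟨c, rfl⟩ := LinearMap.range_eq_top.1 fsurj m
      have k1 : f ![c 0 + c 1, c 1, c 2 + c 3, c 3] = f c := by
        rw [← hm z ((h2 _).2 (Or.inr (Or.inl rfl))), hf, hf, map_add (ρ z), sw zu, ap]
        simp only [map_add, map_smul, hzv, hzb, Matrix.cons_val, add_smul, smul_add, add_assoc]
      have k2 : f ![c 2, c 3, c 0, c 1] = f c := by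
        rw [← hm u ((h2 _).2 (Or.inr (Or.inr (Or.inl rfl)))), hf, hf, map_add (ρ u) _ (ρ u _), sw uu, one, add_comm]; rfl
      have k3 : c = 0 ∨ c = ![1, 0, 1, 0] := by
        have := finj' k1
        have := finj' k2
        clear hm k1 k2
        revert c; decide
      rcases k3 with rfl | rfl
      · exact Or.inl (Subtype.ext (map_zero f))
      · exact Or.inr (Subtype.ext e3)
  · rintro rfl
    have hv : ∀ x ∈ B, ρ x v = v := fun x hx => by
      rcases (h1 x).1 hx with rfl | rfl | rfl | rfl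
      exacts [one _, hzv, htv, by rw [ap, hzv, htv]]
    have htuv : ρ t (ρ u v) = ρ u v := by rw [sw tu, ap, ap, hzv, htv]
    have hv' : ∀ x ∈ B, ρ x (ρ u v) = ρ u v := fun x hx => by
      rcases (h1 x).1 hx with rfl | rfl | rfl | rfl
      exacts [one _, hzuv, htuv, by rw [ap, hzuv, htuv]]
    obtain ⟨y, -, hy⟩ := (Nat.card_eq_two_iff' ⟨0, fun _ _ => map_zero _⟩).1 hB.2.2.2
    have k1 := hy ⟨v, hv⟩ fun h => v0 (congrArg Subtype.val h)
    have k2 := hy ⟨ρ u v, hv'⟩ fun h => absurd (congrFun (finj _ (e2.trans (congrArg Subtype.val h))) 2) (by decide)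
    have k3 := finj' (e1.trans ((congrArg Subtype.val (k1.trans k2.symm)).trans e2.symm))
    exact absurd (congrFun k3 0) (by decide)


/-- Let S be a finite group with a normal elementary abelian subgroup A of order 9 that is self-centralizing (C_S(A) = A), and a dihedral subgroup X of order 8 with S = AX. Let M be a finite-dimensional module for S over the field with two elements that is faithful and irreducible. Then M has 16 elements, and X contains exactly one subgroup B of order 4 and exponent 2 whose fixed points on M form a subspace with exactly 2 elements (equivalently, M is free of rank one over the group algebra of B). -/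
theorem result {S : Type*} [Group S] [Finite S]
    (A : Subgroup S) [A.Normal] (hA : Cfsg.IsElementaryAbelian 3 A) (hA9 : Nat.card ↥A = 9)
    (hAC : Subgroup.centralizer (A : Set S) = A) (X : Subgroup S) (hX : Nonempty (↥X ≃* DihedralGroup 4)) (hAX : A ⊔ X = ⊤)
    {M : Type*} [AddCommGroup M] [Module (ZMod 2) M] [Finite M] (ρ : Representation (ZMod 2) S M)
    (hfaith : Function.Injective ρ)
    (hirr : ∀ N : Submodule (ZMod 2) M, (∀ s : S, ∀ m ∈ N, ρ s m ∈ N) → N = ⊥ ∨ N = ⊤) (hM : Nontrivial M) :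
    Nat.card M = 16 ∧
      ∃! B : Subgroup S, B ≤ X ∧ Nat.card ↥B = 4 ∧ (∀ b ∈ B, b ^ 2 = 1) ∧
        Nat.card {m : M // ∀ b ∈ B, ρ b m = m} = 2 := by
  obtain ⟨e⟩ := hX
  let φ : DihedralGroup 4 →* S := X.subtype.comp e.symm.toMonoidHom
  have hφ : Function.Injective φ := X.subtype_injective.comp e.symm.injective
  have hr : φ.range = X := by
    ext x
    exact ⟨by rintro ⟨d, rfl⟩; exact (e.symm d).2, fun h => ⟨e ⟨x, h⟩, by simp [φ]⟩⟩
  let α : DihedralGroup 4 →* DihedralGroup 4 := MonoidHom.mk'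
    (fun d => match d with | r i => r i | sr i => sr (i + 1)) (by decide)
  have hα : Function.Bijective α := by decide
  have hr' : (φ.comp α).range = X := by rw [MonoidHom.range_comp, MonoidHom.range_eq_top.2 hα.2, ← hr, φ.range_eq_map]
  have hz := z_inv hA hA9 hAC φ hφ
  have hc := fun x y hx hy => PLocal.elemAb_comm hA (x := x) (y := y) hx hy
  set t := φ (sr 0) with ht
  set u := φ (sr 1) with hu
  have tt : t * t = 1 := by rw [← map_mul]; exact map_one φ
  have uu : u * u = 1 := by rw [← map_mul]; exact map_one φ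
  have hn : A.Normal := inferInstance
  obtain ⟨a, ha, a1, hta⟩ : ∃ a ∈ A, a ≠ 1 ∧ t * a * t⁻¹ = a := by
    by_contra h
    push Not at h
    refine absurd (faith hA hAC φ hφ (d := sr 0 * r 2) fun x hx => ?_) (by decide)
    have h1 : x * (t * x * t⁻¹) = 1 := by
      by_contra h1
      refine h _ (mul_mem hx (hn.conj_mem _ hx _)) h1 ?_
      rw [hc x _ hx (hn.conj_mem _ hx _)]
      calc _ = (t * t) * x * (t * t)⁻¹ * (t * x * t⁻¹) := by group
        _ = _ := by rw [tt, one_mul, inv_one, mul_one, hc x _ hx (hn.conj_mem _ hx _)]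
    rw [map_mul, show t * φ (r 2) * x * (t * φ (r 2))⁻¹ = t * (φ (r 2) * x * (φ (r 2))⁻¹) * t⁻¹ by group, hz x hx,
      show t * x⁻¹ * t⁻¹ = (t * x * t⁻¹)⁻¹ by group]
    exact (eq_inv_of_mul_eq_one_left h1).symm
  have ap : ∀ (x y : S) (m : M), ρ (x * y) m = ρ x (ρ y m) := fun x y m => by rw [map_mul]; rfl
  have cj : ∀ (g x : S) (w : M), w ≠ 0 → ρ x w = w → ρ g w ≠ 0 ∧ ρ (g * x * g⁻¹) (ρ g w) = ρ g w :=
    fun g x w h0 h => ⟨fun h1 => h0 (by
      have := congrArg (ρ g⁻¹) h1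
      rwa [← ap, inv_mul_cancel, map_one, map_zero] at this), by rw [← ap, inv_mul_cancel_right, ap, h]⟩
  obtain ⟨b, hb⟩ : ∃ b, b = u * a * u⁻¹ := ⟨_, rfl⟩
  have hbA : b ∈ A := hb ▸ hn.conj_mem _ ha _
  have ub : u * b * u⁻¹ = a := by
    rw [hb, show u * (u * a * u⁻¹) * u⁻¹ = (u * u) * a * (u * u)⁻¹ by group, uu]; group
  have tb : t * b * t⁻¹ = b⁻¹ := by
    have e : t * u = u * (t * φ (r 2)) := by rw [← map_mul, ← map_mul, ← map_mul]; rfl
    calc _ = (t * u) * a * (t * u)⁻¹ := by rw [hb]; group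
      _ = u * (t * (φ (r 2) * a * (φ (r 2))⁻¹) * t⁻¹) * u⁻¹ := by rw [e]; group
      _ = u * (t * a * t⁻¹)⁻¹ * u⁻¹ := by rw [hz a ha]; group
      _ = _ := by rw [hta, hb]; group
  by_cases h1 : ∃ w, w ≠ 0 ∧ ρ a w = w
  · obtain ⟨w, hw, h⟩ := h1
    exact hr ▸ main A hA hA9 hAC φ hφ (hr ▸ hAX) ρ hfaith hirr ha a1 hta hw h
  have h2 : ¬ ∃ w, w ≠ 0 ∧ ρ b w = w := fun ⟨w, hw, h⟩ => h1 ⟨_, ub ▸ cj u b w hw h⟩
  have quad : ∀ x ∈ A, (¬ ∃ w, w ≠ 0 ∧ ρ x w = w) → ∀ m, ρ x (ρ x m) = -m - ρ x m := fun x hx h m => by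
    have : m + ρ x m + ρ x (ρ x m) = 0 := by
      by_contra h0
      refine h ⟨_, h0, ?_⟩
      have h3 : ρ x (ρ x (ρ x m)) = m := by
        rw [← ap, ← ap, ← pow_three', hA.2 x hx, map_one, Module.End.one_apply]
      rw [map_add, map_add, h3]; abel
    rw [eq_neg_of_add_eq_zero_right this]; abel
  obtain ⟨w, hw, h⟩ : ∃ w, w ≠ 0 ∧ ρ (a * b) w = w := by
    obtain ⟨m, hm⟩ := exists_ne (0 : M)
    by_cases h3 : ρ a m = ρ b m
    · have := cj t (a * b⁻¹) (ρ b m) (cj b 1 m hm (by simp)).1 (by rw [← ap, inv_mul_cancel_right, h3])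
      rw [show t * (a * b⁻¹) * t⁻¹ = (t * a * t⁻¹) * (t * b * t⁻¹)⁻¹ by group, hta, tb, inv_inv] at this
      exact ⟨_, this⟩
    · refine ⟨ρ a m - ρ b m, sub_ne_zero.2 h3, ?_⟩
      have k : ∀ m, ρ b (ρ a m) = ρ a (ρ b m) := fun m => by rw [← ap, ← ap, hc a b ha hbA]
      rw [ap, map_sub, map_sub, k, quad a ha h1, quad b hbA h2, map_sub, map_neg]; abel
  have ab1 : a * b ≠ 1 := fun h0 => by
    have h3 := tb
    rw [eq_inv_of_mul_eq_one_right h0, inv_inv, show t * a⁻¹ * t⁻¹ = (t * a * t⁻¹)⁻¹ by group, hta] at h3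
    have : a ^ 3 = a * a * a := pow_three' a
    rw [hA.2 a ha, mul_eq_one_iff_eq_inv.2 h3.symm, one_mul] at this
    exact a1 this.symm
  exact hr' ▸ main A hA hA9 hAC (φ.comp α) (hφ.comp hα.1) (hr' ▸ hAX) ρ hfaith hirr (mul_mem ha hbA) ab1
    (by
      change u * (a * b) * u⁻¹ = a * b
      rw [show u * (a * b) * u⁻¹ = (u * a * u⁻¹) * (u * b * u⁻¹) by group, ub, ← hb, hc a b ha hbA]) hw h

end Cfsg.Agent.S4407
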