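import Cfsg.Statements.S4410
import Mathlib
import Cfsg.Agent.Grp.Fitting
import Cfsg.Agent.Grp.AutCard

set_option autoImplicit false
open Cfsg

namespace Cfsg.Agent.S4410

open Subgroup Module

section
variable {X V : Type*} [Group X] [AddCommGroup V] [Module (ZMod 2) V] (ρ : X →* V ≃ₗ[ZMod 2] V)

/-- elements acting trivially modulo `W` -/
def triv (W : Submodule (ZMod 2) V) : Subgroup X where
  carrier := {g | ∀ v, ρ g v - v ∈ W}
  one_mem' := fun v => by simp
  mul_mem' := fun {a b} ha hb v => by simpa using W.add_mem (ha (ρ b v)) (hb v)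
  inv_mem' := fun {a} ha v => by simpa using W.neg_mem (ha (ρ a⁻¹ v))

theorem triv_mem {W : Submodule (ZMod 2) V} (g : triv ρ W) (w : W) : ρ g w ∈ W := by
  simpa using W.add_mem (g.2 w) w.2

/-- the restriction to `W` -/
def res (W : Submodule (ZMod 2) V) : triv ρ W →* MulAut (Multiplicative W) :=
  MonoidHom.mk' (fun g =>
    { toFun := fun w => Multiplicative.ofAdd ⟨ρ g w.toAdd, triv_mem ρ g _⟩
      invFun := fun w => Multiplicative.ofAdd ⟨ρ (g⁻¹ : triv ρ W) w.toAdd, triv_mem ρ g⁻¹ _⟩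
      left_inv := fun w => Subtype.ext (by simp)
      right_inv := fun w => Subtype.ext (by simp)
      map_mul' := fun a b => Subtype.ext (map_add (ρ g) _ _) })
    fun a b => MulEquiv.ext fun w => Subtype.ext (by simp)

theorem two_smul_zero (v : V) : v + v = 0 := by
  rw [← two_smul (ZMod 2), show (2 : ZMod 2) = 0 from rfl, zero_smul]

theorem card_dvd [Finite V] [Finite X] (hρ : Function.Injective ρ) {W : Submodule (ZMod 2) V}
    {B : Subgroup X} (hB : B ≤ triv ρ W) (hc : (Nat.card B).Coprime 2) :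
    Nat.card B ∣ ∏ i ∈ Finset.range (finrank (ZMod 2) W), (2 ^ finrank (ZMod 2) W - 2 ^ i) := by
  rw [← Grp.card_mulAut_of_elemAb (V := Multiplicative W) mul_comm
    (fun w => by rw [sq]; exact Subtype.ext (two_smul_zero _))
    (by rw [show Nat.card (Multiplicative W) = Nat.card W from rfl,
      natCard_eq_pow_finrank (K := ZMod 2), Nat.card_zmod])]
  refine card_dvd_of_injective ((res ρ W).comp (inclusion hB)) ((injective_iff_map_eq_one _).2 ?_)
  intro b hb
  have h1 : ∀ w ∈ W, ρ b w = w := fun w hw =>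
    congrArg Subtype.val (MulEquiv.congr_fun hb (Multiplicative.ofAdd ⟨w, hw⟩))
  have h2 : b ^ 2 = 1 := by
    refine Subtype.ext (hρ (LinearEquiv.ext fun v => ?_))
    have := h1 _ (hB b.2 v)
    rw [map_sub, sub_eq_iff_eq_add, sub_add_eq_add_sub, two_smul_zero, zero_sub,
      neg_eq_of_add_eq_zero_right (two_smul_zero v)] at this
    simpa [sq] using this
  exact orderOf_eq_one_iff.1 (Nat.eq_one_of_dvd_coprimes hc (orderOf_dvd_natCard b)
    (orderOf_dvd_of_pow_eq_one h2))

theorem conj_mem_triv {W : Submodule (ZMod 2) V} {t : X} (ht : t ∈ triv ρ W) (g : X) :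
    g * t * g⁻¹ ∈ triv ρ (W.map (ρ g : V →ₗ[ZMod 2] V)) :=
  fun v => ⟨_, ht (ρ g⁻¹ v), by simp⟩

theorem triv_mono {W W' : Submodule (ZMod 2) V} (h : W ≤ W') : triv ρ W ≤ triv ρ W' :=
  fun _ hg v => h (hg v)

theorem main [Finite V] [Finite X] [Group.IsSolvable X] (hρ : Function.Injective ρ)
    (hO : pCore 2 X = ⊥) {P : X} (hP : orderOf P = 4) {R : Submodule (ZMod 2) V}
    (hR : finrank (ZMod 2) R ≤ 1) (ht : P * P ∈ triv ρ R) : False := by
  classical
  have hF : (Nat.card (fittingSubgroup X)).Coprime 2 :=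
    Grp.coprime_of_le_pPrimeCore (Grp.fitting_le_pPrimeCore_of_pCore_eq_bot hO)
  have h4 : P * P * (P * P) = 1 := by
    have := pow_orderOf_eq_one P
    rw [hP] at this
    rw [← this]; simp [pow_succ, mul_assoc]
  obtain ⟨f, hf, hne⟩ : ∃ f ∈ fittingSubgroup X, f * (P * P) ≠ P * P * f := by
    by_contra hc
    push Not at hc
    have h1 := (fittingSubgroup X).orderOf_dvd_natCard (Grp.centralizer_fitting_le X hc)
    have h2 := orderOf_eq_one_iff.1 (Nat.eq_one_of_dvd_coprimes hF h1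
      (orderOf_dvd_of_pow_eq_one (by rw [sq, h4])))
    have h3 := orderOf_dvd_of_pow_eq_one (show P ^ 2 = 1 by rwa [sq])
    rw [hP] at h3
    omega
  have hn := (inferInstance : (fittingSubgroup X).Normal)
  obtain ⟨x, hx⟩ : ∃ x, x = f * (P * P) * f⁻¹ * (P * P) := ⟨_, rfl⟩
  have hi : (P * P)⁻¹ = P * P := inv_eq_of_mul_eq_one_right h4
  have hxF : x ∈ fittingSubgroup X := by
    have := mul_mem hf (hn.conj_mem _ (inv_mem hf) (P * P))
    rwa [hi, ← mul_assoc f, ← mul_assoc f, ← hx] at this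
  have hx1 : x ≠ 1 := fun h => hne (by
    rw [hx, mul_eq_one_iff_eq_inv, hi] at h
    exact mul_inv_eq_iff_eq_mul.1 h)
  have hinv : P * P * x * (P * P)⁻¹ = x⁻¹ := by
    generalize P * P = t at hx hi
    calc _ = t * f * t * f⁻¹ := by rw [hx]; group
      _ = t⁻¹ * f * t⁻¹ * f⁻¹ := by rw [hi]
      _ = _ := by rw [hx]; group
  have hsub : ∀ B ≤ fittingSubgroup X, (Nat.card B).Coprime 2 := fun B hB =>
    hF.coprime_dvd_left (card_dvd_of_le hB)
  have hm : ∀ g : X, finrank (ZMod 2) (R.map (ρ g : V →ₗ[ZMod 2] V)) ≤ 1 := fun g =>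
    (Submodule.finrank_map_le _ _).trans hR
  have hxW : x ∈ triv ρ (R ⊔ R.map (ρ f : V →ₗ[ZMod 2] V)) :=
    hx ▸ mul_mem (triv_mono ρ le_sup_right (conj_mem_triv ρ ht f)) (triv_mono ρ le_sup_left ht)
  have hx3 : orderOf x = 3 := by
    have h1 := card_dvd ρ hρ (zpowers_le.2 hxW) (hsub _ (zpowers_le.2 hxF))
    have h2 := hsub _ (zpowers_le.2 hxF)
    have h3 := Submodule.finrank_add_le_finrank_add_finrank R (R.map (ρ f : V →ₗ[ZMod 2] V))
    have h5 := hm f
    have h6 := mt orderOf_eq_one_iff.1 hx1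
    rw [Nat.card_zpowers] at h1 h2
    generalize finrank (ZMod 2) ↥(R ⊔ R.map (ρ f : V →ₗ[ZMod 2] V)) = r at h1 h3
    have h7 : orderOf x ∣ 6 := by
      obtain rfl | rfl | rfl : r = 0 ∨ r = 1 ∨ r = 2 := by omega
      all_goals exact h1.trans (by decide)
    have h8 := Nat.le_of_dvd (by norm_num) h7
    generalize orderOf x = m at *
    interval_cases m <;> simp_all (config := {decide := true})
  have hxO : x ∈ pCore 3 X := Grp.le_pCore_of_le_fitting
    (IsPGroup.of_card (n := 1) (by rw [Nat.card_zpowers, hx3, pow_one])) (zpowers_le.2 hxF)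
    (mem_zpowers x)
  have hyO := (inferInstance : (pCore 3 X).Normal).conj_mem _ hxO P
  have hle : zpowers x ⊔ zpowers (P * x * P⁻¹) ≤ pCore 3 X :=
    sup_le (zpowers_le.2 hxO) (zpowers_le.2 hyO)
  have hyW : P * x * P⁻¹ ∈ triv ρ (R ⊔ R.map (ρ f : V →ₗ[ZMod 2] V) ⊔
      R.map (ρ (P * f) : V →ₗ[ZMod 2] V)) := by
    have : P * x * P⁻¹ = P * f * (P * P) * (P * f)⁻¹ * (P * P) := by rw [hx]; group
    rw [this]
    exact mul_mem (triv_mono ρ le_sup_right (conj_mem_triv ρ ht _))
      (triv_mono ρ (le_sup_left.trans le_sup_left) ht)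
  have h1 := card_dvd ρ hρ (sup_le (zpowers_le.2 (triv_mono ρ le_sup_left hxW)) (zpowers_le.2 hyW))
    (hsub _ (hle.trans (Grp.pCore_le_fitting 3)))
  obtain ⟨k, hk⟩ := ((Grp.pCore_isPGroup 3 X).to_le hle).exists_card_eq
  have h2 := Submodule.finrank_add_le_finrank_add_finrank (R ⊔ R.map (ρ f : V →ₗ[ZMod 2] V))
    (R.map (ρ (P * f) : V →ₗ[ZMod 2] V))
  have h3 := Submodule.finrank_add_le_finrank_add_finrank R (R.map (ρ f : V →ₗ[ZMod 2] V))
  have h5 := hm f
  have h6 := hm (P * f)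
  generalize finrank (ZMod 2) ↥(R ⊔ R.map (ρ f : V →ₗ[ZMod 2] V) ⊔
      R.map (ρ (P * f) : V →ₗ[ZMod 2] V)) = r at h1 h2
  have h7 : 3 ^ k ∣ 168 := by
    rw [← hk]
    obtain rfl | rfl | rfl | rfl : r = 0 ∨ r = 1 ∨ r = 2 ∨ r = 3 := by omega
    all_goals exact h1.trans (by decide)
  have h8 : k ≤ 1 := by
    by_contra hc
    exact absurd ((pow_dvd_pow 3 (by omega : 2 ≤ k)).trans h7) (by decide)
  have h9 := eq_of_le_of_card_ge (le_sup_left : zpowers x ≤ zpowers x ⊔ zpowers (P * x * P⁻¹))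
    (by rw [hk, Nat.card_zpowers, hx3]; exact (Nat.pow_le_pow_right (by norm_num) h8))
  have h10 : P * x * P⁻¹ ∈ zpowers x := h9 ▸ mem_sup_right (mem_zpowers _)
  rw [mem_zpowers_iff_mem_range_orderOf, hx3, Finset.mem_image] at h10
  obtain ⟨i, hi3, hi'⟩ := h10
  have h11 : x⁻¹ = x ^ (i * i) := by
    rw [← hinv, pow_mul, hi', conj_pow, hi']; group
  have h12 := orderOf_dvd_of_pow_eq_one (show x ^ (i * i + 1) = 1 by rw [pow_succ, ← h11]; simp)
  rw [hx3] at h12
  rw [Finset.mem_range] at hi3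
  interval_cases i <;> omega

end

/-- Let V be a finite-dimensional vector space over the field with two elements and S a solvable group of linear automorphisms of V with O₂(S) = 1. If P ∈ S has order 4 and (P − 1)³ = 0 on V, then the image of (P − 1)² has at least 4 elements; equivalently, in the decomposition of V into indecomposable modules for the cyclic group generated by P, at least two summands have dimension 3. -/
theorem result
    {V : Type*} [AddCommGroup V] [Module (ZMod 2) V] [Finite V]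
    (S : Subgroup (V ≃ₗ[ZMod 2] V)) (hS : Group.IsSolvable ↥S) (hO2 : Cfsg.pCore 2 ↥S = ⊥)
    (P : V ≃ₗ[ZMod 2] V) (hPS : P ∈ S) (hP4 : orderOf P = 4)
    (hcub : ((P : V →ₗ[ZMod 2] V) - LinearMap.id) ^ 3 = 0) :
    4 ≤ Nat.card ↥(LinearMap.range (((P : V →ₗ[ZMod 2] V) - LinearMap.id) ^ 2)) := by
  by_contra hc
  haveI : Finite (V ≃ₗ[ZMod 2] V) :=
    Finite.of_injective (fun e => (e : V → V)) DFunLike.coe_injective
  refine main S.subtype S.subtype_injective hO2 (P := ⟨P, hPS⟩) (by rw [← orderOf_coe]; exact hP4)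
    (R := LinearMap.range (((P : V →ₗ[ZMod 2] V) - LinearMap.id) ^ 2)) ?_ fun v => ⟨v, ?_⟩
  · by_contra h
    rw [natCard_eq_pow_finrank (K := ZMod 2), Nat.card_zmod] at hc
    exact hc (Nat.pow_le_pow_right two_pos (not_le.1 h))
  · have := two_smul_zero (P v)
    have h2 := two_smul_zero v
    simp only [sq, Module.End.mul_apply, LinearMap.sub_apply, LinearMap.id_apply, map_sub,
      LinearEquiv.coe_coe]
    show _ = P (P v) - v
    rw [sub_eq_add_neg (P (P v)) v, neg_eq_of_add_eq_zero_right h2]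
    calc _ = P (P v) + v - (P v + P v) := by abel
      _ = _ := by rw [this, sub_zero]

end Cfsg.Agent.S4410
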