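import Mathlib
import Cfsg.Statements.S4412
import Cfsg.Agent.Fus.AutCop
import Cfsg.Agent.PLocal.Hyperplane
import Cfsg.Agent.Grp.PFrattini
import Cfsg.Agent.Grp.Frattini
import Cfsg.Agent.Solv.Coprime2
-- import your own Cfsg.Agent.* helpers here

set_option autoImplicit false
set_option linter.unusedSectionVars false
open Cfsg

namespace Cfsg.Agent.S4412

open Subgroup Cfsg.Agent.Solv
open scoped commutatorElement

section

variable {P : Type*} [Group P] [Finite P] {p : ℕ} [hp : Fact p.Prime]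

theorem mem_of_sq (hP : IsPGroup p P) (hp2 : p ≠ 2) {N : Subgroup P} {x : P} (h : x * x ∈ N) :
    x ∈ N := by
  obtain ⟨k, hk⟩ := hP x
  obtain ⟨m, hm⟩ : Odd (p ^ k) := (hp.out.odd_of_ne_two hp2).pow
  have : x = (x * x) ^ (m + 1) := by
    rw [← pow_two, ← pow_mul, show 2 * (m + 1) = p ^ k + 1 by omega, pow_succ, hk, one_mul]
  exact this ▸ N.pow_mem h _

/-- elements fixed or inverted by each member of `I` generate the group -/
theorem closure_wt (hP : IsPGroup p P) (hp2 : p ≠ 2) {I : Subgroup (MulAut P)}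
    (hI : IsElementaryAbelian 2 I) (h1 : I ≠ ⊥) :
    closure {y : P | ∀ T ∈ I, T y = y ∨ T y = y⁻¹} = ⊤ := by
  have := Ext.finite_SD (A := I) (G := P)
  have hc : ∀ a b : I, a * b = b * a := hI.1.1.1
  have hA : IsElementaryAbelian 2 (Ext.iA I P).range := by
    refine ⟨⟨⟨?_⟩⟩, ?_⟩
    · rintro ⟨_, a, rfl⟩ ⟨_, b, rfl⟩
      exact Subtype.ext (by simp only [coe_mul, ← map_mul, hc a b])
    · rintro _ ⟨a, rfl⟩
      rw [← map_pow, show a ^ 2 = 1 from Subtype.ext (hI.2 a a.2), map_one]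
  have hA1 : (Ext.iA I P).range ≠ ⊥ := fun e => h1 (by
    rw [← card_eq_one, ← Ext.card_range_iA (G := P), e, card_bot])
  have hK : (Nat.card ((⊤ : Subgroup P).map (Ext.iG I P))).Coprime 2 := by
    obtain ⟨k, hk⟩ := IsPGroup.iff_card.1 hP
    rw [Ext.card_map_iG, card_top, hk]
    exact (hp.out.odd_of_ne_two hp2).pow.coprime_two_right
  have key := PLocal.le_of_hyperplane_centralizers_le hA hA1
    (Ext.inv_iff_le_normalizer.1 Ext.inv_top) hK
    ((closure {y : P | ∀ T ∈ I, T y = y ∨ T y = y⁻¹}).map (Ext.iG I P)) ?_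
  · exact top_le_iff.1 ((map_le_map_iff_of_injective Ext.iG_injective).1 key)
  rintro B hB h2 _ ⟨⟨x, -, rfl⟩, hx⟩
  refine mem_map_of_mem _ ?_
  have hW : (B.comap (Ext.iA I P)).index = 2 := by rw [index_comap, h2]
  have hfix : ∀ w ∈ B.comap (Ext.iA I P), (w : MulAut P) x = x := fun w hw =>
    Ext.iG_injective (A := I) (by
      have := Ext.iG_smul w x
      rw [hx _ hw, mul_inv_cancel_right] at this
      exact this)
  obtain ⟨T, hT⟩ := index_eq_two_iff'.1 hW
  have hTT : ∀ z, (T : MulAut P) ((T : MulAut P) z) = z := fun z => by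
    rw [← MulAut.mul_apply, ← pow_two, hI.2 _ T.2, MulAut.one_apply]
  have hcase : ∀ z : P, (∀ w ∈ B.comap (Ext.iA I P), (w : MulAut P) z = z) → ∀ S ∈ I,
      S z = z ∨ S z = (T : MulAut P) z := fun z hz S hS => by
    rcases hT ⟨S, hS⟩ with h | h
    · right
      have := congrArg (T : MulAut P) (hz _ h.1)
      rwa [coe_mul, MulAut.mul_apply, hTT] at this
    · exact Or.inl (hz _ h.1)
  have hu : ∀ w ∈ B.comap (Ext.iA I P), (w : MulAut P) (x⁻¹ * (T : MulAut P) x) =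
      x⁻¹ * (T : MulAut P) x := fun w hw => by
    rw [map_mul, map_inv, hfix w hw, ← MulAut.mul_apply, ← coe_mul, hc, coe_mul, MulAut.mul_apply,
      hfix w hw]
  have hu' : (T : MulAut P) (x⁻¹ * (T : MulAut P) x) = (x⁻¹ * (T : MulAut P) x)⁻¹ := by
    simp [hTT]
  generalize hud : x⁻¹ * (T : MulAut P) x = u at hu hu'
  obtain ⟨m, hm⟩ : u ∈ zpowers (u * u) := mem_of_sq hP hp2 (mem_zpowers _)
  have h3 : (T : MulAut P) (x * u ^ m) = x * u ^ m := by
    rw [map_mul, map_zpow, hu', ← mul_inv_cancel_left x ((T : MulAut P) x), hud, mul_assoc]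
    congr 1
    nth_rewrite 1 [← hm]
    simp only [← pow_two, ← zpow_natCast, ← zpow_mul, inv_zpow', ← zpow_add]
    congr 1
    push_cast
    ring
  have h4 : x * u ^ m ∈ closure {y : P | ∀ T ∈ I, T y = y ∨ T y = y⁻¹} :=
    subset_closure fun S hS => Or.inl ((hcase _ (fun w hw => by
      rw [map_mul, map_zpow, hfix w hw, hu w hw]) S hS).elim id fun e => e.trans h3)
  have h5 : u ∈ closure {y : P | ∀ T ∈ I, T y = y ∨ T y = y⁻¹} :=
    subset_closure fun S hS => (hcase _ hu S hS).imp id fun e => e.trans hu'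
  simpa using mul_mem h4 (inv_mem (zpow_mem h5 m))

theorem zpowers_eq (hP : IsPGroup p P) {g y : P} (h : y ∈ zpowers g) (hy : y ∉ frattini P) :
    zpowers y = zpowers g := by
  obtain ⟨n, rfl⟩ := (mem_powers_iff_mem_zpowers).2 h
  refine le_antisymm (zpowers_le_of_mem h) (zpowers_le_of_mem ?_)
  obtain ⟨k, hk⟩ := (IsPGroup.iff_orderOf.1 hP) g
  refine mem_zpowers_pow_iff.2 ?_
  rw [hk]
  refine Nat.Coprime.pow_right _ ((hp.out.coprime_iff_not_dvd.2 ?_).symm)
  rintro ⟨j, rfl⟩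
  exact hy (by simp only [pow_mul']; exact Grp.PFrattini.pow_mem_frattini hP _)

/-- `[a, b] ∈ γ₃` when `S` inverts `a`, `b` and `T` fixes them and inverts `C(S)` -/
theorem comm_mem (hP : IsPGroup p P) (hp2 : p ≠ 2) {S T : MulAut P} (hS : S ^ 2 = 1) {a b c : P}
    (h1 : S a = a⁻¹) (h2 : S b = b⁻¹) (h3 : T a = a) (h4 : T b = b) (h5 : T c = c⁻¹)
    (h6 : ∀ x, S x = x → x ∈ zpowers c) : ⁅a, b⁆ ∈ ⁅commutator P, (⊤ : Subgroup P)⁆ := by
  have hch : ∀ U : MulAut P, ∀ x ∈ ⁅commutator P, (⊤ : Subgroup P)⁆,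
      U x ∈ ⁅commutator P, (⊤ : Subgroup P)⁆ := fun U x hx =>
    Fus.AC.inv_of_char ⊤ _ U (mem_top _) x hx
  have hab : ⁅a, b⁆ ∈ commutator P := commutator_mem_commutator (mem_top _) (mem_top _)
  obtain ⟨d, hd, hd'⟩ := Fus.AC.exists_fixed_of_coset₁ (p := p) (α := S)
    (((Nat.coprime_primes Nat.prime_two hp.out).2 hp2.symm).coprime_dvd_left
      (orderOf_dvd_of_pow_eq_one hS)) (hP.to_subgroup _) (hch S) (g := ⁅a, b⁆) (by
      have : ⁅a, b⁆⁻¹ * S ⁅a, b⁆ = ⁅⁅a, b⁆⁻¹, (b * a)⁻¹⁆ := by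
        rw [map_commutatorElement, h1, h2]
        simp only [commutatorElement_def]
        group
      rw [this]
      exact commutator_mem_commutator (inv_mem hab) (mem_top _))
  obtain ⟨k, rfl⟩ := h6 d hd
  have h7 := hch T _ hd'
  rw [map_mul, map_inv, map_commutatorElement, h3, h4, map_zpow, h5] at h7
  have h8 : c ^ k ∈ ⁅commutator P, (⊤ : Subgroup P)⁆ :=
    mem_of_sq hP hp2 (by convert mul_mem (inv_mem h7) hd' using 1; group)
  simpa using inv_mem (mul_mem hd' (inv_mem h8))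

theorem comm_of (hP : IsPGroup p P) {a b c : P} (h : closure {a, b, c} = ⊤)
    (h1 : ⁅a, b⁆ ∈ ⁅commutator P, (⊤ : Subgroup P)⁆) (h2 : ⁅a, c⁆ ∈ ⁅commutator P, (⊤ : Subgroup P)⁆)
    (h3 : ⁅b, c⁆ ∈ ⁅commutator P, (⊤ : Subgroup P)⁆) : IsMulCommutative P := by
  have hs : ∀ x y : P, ⁅x, y⁆ ∈ ⁅commutator P, (⊤ : Subgroup P)⁆ →
      ⁅y, x⁆ ∈ ⁅commutator P, (⊤ : Subgroup P)⁆ := fun x y hxy => by
    rw [← commutatorElement_inv]; exact Subgroup.inv_mem _ hxy
  have h4 : commutator P ≤ ⁅commutator P, (⊤ : Subgroup P)⁆ := by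
    let π := QuotientGroup.mk' ⁅commutator P, (⊤ : Subgroup P)⁆
    have e : ∀ x y : P, ⁅x, y⁆ ∈ ⁅commutator P, (⊤ : Subgroup P)⁆ ↔
        x ∈ (centralizer {π y}).comap π := fun x y => by
      rw [mem_comap, mem_centralizer_singleton_iff, ← commutatorElement_eq_one_iff_mul_comm,
        ← map_commutatorElement, QuotientGroup.mk'_apply, QuotientGroup.eq_one_iff]
    have k1 : ∀ y ∈ ({a, b, c} : Set P), ∀ x : P, ⁅x, y⁆ ∈ ⁅commutator P, (⊤ : Subgroup P)⁆ := by
      intro y hy x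
      refine (e x y).2 ((h.ge.trans ((closure_le _).2 fun z hz => (e z y).1 ?_)) (mem_top x))
      rcases hy with rfl | rfl | rfl <;> rcases hz with rfl | rfl | rfl <;>
        first | simp only [commutatorElement_self, one_mem] | assumption | exact hs _ _ ‹_›
    exact commutator_le.2 fun x _ y _ => (e x y).2
      ((h.ge.trans ((closure_le _).2 fun z hz => (e z y).1 (hs _ _ (k1 z hz y)))) (mem_top x))
  have := eq_bot_of_le_commutator_of_isNilpotent (H := ⊤) (hP.to_subgroup ⊤).isNilpotent le_top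
    le_top h4
  exact ⟨⟨fun x y => commutatorElement_eq_one_iff_mul_comm.1
    (mem_bot.1 (this ▸ commutator_mem_commutator (mem_top x) (mem_top y)))⟩⟩

end

/-- Let p be an odd prime, P a finite p-group and I an elementary abelian subgroup of order 8 of Aut(P). Call T ∈ I, T ≠ 1, broad when its fixed-point subgroup C_P(T) is not cyclic. Suppose I has a proper subgroup I₀ containing no broad element such that the product of any two broad elements lies in I₀. Then P is abelian of rank exactly 3 (generated by three elements but not by two), there are exactly three broad elements and they generate I, and I₀ is exactly the set of products of two broad elements. -/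
theorem result
    {P : Type*} [Group P] [Finite P] (p : ℕ) (hp : p.Prime) (hp2 : p ≠ 2) (hP : IsPGroup p P)
    (I : Subgroup (MulAut P)) (hI : Cfsg.IsElementaryAbelian 2 I) (hI8 : Nat.card ↥I = 8)
    (I₀ : Subgroup (MulAut P)) (hI₀ : I₀ < I)
    (hdisj : ∀ T ∈ I₀, T ≠ 1 → ∃ g : P, ∀ x : P, (T x = x ↔ x ∈ Subgroup.zpowers g))
    (hprod : ∀ T ∈ I, ∀ T' ∈ I, T ≠ 1 → T' ≠ 1 → (¬ ∃ g : P, ∀ x : P, (T x = x ↔ x ∈ Subgroup.zpowers g)) →
      (¬ ∃ g : P, ∀ x : P, (T' x = x ↔ x ∈ Subgroup.zpowers g)) → T * T' ∈ I₀) :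
    IsMulCommutative P ∧ (∃ a b c : P, Subgroup.closure {a, b, c} = ⊤) ∧ (¬ ∃ a b : P, Subgroup.closure {a, b} = ⊤) ∧
      Nat.card {T : MulAut P // T ∈ I ∧ T ≠ 1 ∧ ¬ ∃ g : P, ∀ x : P, (T x = x ↔ x ∈ Subgroup.zpowers g)} = 3 ∧
      Subgroup.closure {T : MulAut P | T ∈ I ∧ T ≠ 1 ∧ ¬ ∃ g : P, ∀ x : P, (T x = x ↔ x ∈ Subgroup.zpowers g)} = I ∧
      (I₀ : Set (MulAut P)) = {S : MulAut P | ∃ T T' : MulAut P, T ∈ I ∧ T' ∈ I ∧ T ≠ 1 ∧ T' ≠ 1 ∧
        (¬ ∃ g : P, ∀ x : P, (T x = x ↔ x ∈ Subgroup.zpowers g)) ∧ (¬ ∃ g : P, ∀ x : P, (T' x = x ↔ x ∈ Subgroup.zpowers g)) ∧ S = T * T'} := by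
  classical
  have := Fact.mk hp
  have hc : ∀ a ∈ I, ∀ b ∈ I, a * b = b * a := fun a ha b hb =>
    congrArg Subtype.val (hI.1.1.1 ⟨a, ha⟩ ⟨b, hb⟩)
  have hTT : ∀ T ∈ I, T * T = 1 := fun T hT => by rw [← pow_two, hI.2 T hT]
  have hI1 : I ≠ ⊥ := fun e => by simp [e] at hI8
  set Y : Set P := {y | y ∉ frattini P ∧ ∀ T ∈ I, T y = y ∨ T y = y⁻¹} with hY
  have hgen : closure Y = ⊤ := Grp.eq_top_of_sup_le_frattini le_rfl (top_le_iff.1
    ((closure_wt hP hp2 hI hI1).ge.trans ((closure_le _).2 fun y hy => by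
      by_cases h : y ∈ frattini P
      · exact mem_sup_right h
      · exact mem_sup_left (subset_closure ⟨h, hy⟩))))
  have hne : ∀ y ∈ Y, y⁻¹ ≠ y := fun y hy e =>
    hy.1 (mem_of_sq hP hp2 (by rw [mul_eq_one_iff_inv_eq.2 e]; exact one_mem _))
  have hmv : ∀ T : MulAut P, T ≠ 1 → ∃ y ∈ Y, T y ≠ y := fun T hT => by
    by_contra! h
    exact hT (Fus.AC.eq_one_of_fix₁ (top_le_iff.1 (hgen.ge.trans ((closure_le _).2 h))))
  have step : ∀ K : Subgroup (MulAut P), ∃ y ∈ Y, K = ⊥ ∨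
      Nat.card ↥(K ⊓ MulAction.stabilizer (MulAut P) y) * 2 ≤ Nat.card K := fun K => by
    by_cases hK : K = ⊥
    · obtain ⟨⟨T, hT'⟩, hT⟩ := ne_bot_iff_exists_ne_one.1 hI1
      obtain ⟨y, hy, -⟩ := hmv T fun e => hT (Subtype.ext e)
      exact ⟨y, hy, Or.inl hK⟩
    obtain ⟨⟨T, hTK⟩, hT⟩ := ne_bot_iff_exists_ne_one.1 hK
    obtain ⟨y, hy, h⟩ := hmv T fun e => hT (Subtype.ext e)
    refine ⟨y, hy, Or.inr ?_⟩
    obtain ⟨c, hc⟩ := card_dvd_of_le (inf_le_left : K ⊓ MulAction.stabilizer (MulAut P) y ≤ K)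
    rw [hc]
    refine Nat.mul_le_mul_left _ ?_
    have h0 : c ≠ 0 := fun e => Nat.card_pos.ne' (by rw [hc, e, mul_zero])
    have h1 : c ≠ 1 := fun e => h (mem_inf.1 ((eq_of_le_of_card_ge (inf_le_left :
      K ⊓ MulAction.stabilizer (MulAut P) y ≤ K) (by rw [hc, e, mul_one])).ge hTK)).2
    omega
  obtain ⟨a, ha, h1⟩ := step I
  obtain ⟨b, hb, h2⟩ := step (I ⊓ MulAction.stabilizer (MulAut P) a)
  obtain ⟨c, hc', h3⟩ := step (I ⊓ MulAction.stabilizer (MulAut P) a ⊓
    MulAction.stabilizer (MulAut P) b)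
  have h4 : I ⊓ MulAction.stabilizer (MulAut P) a ⊓ MulAction.stabilizer (MulAut P) b ⊓
      MulAction.stabilizer (MulAut P) c = ⊥ := by
    rcases h3 with h3 | h3
    · rw [h3, bot_inf_eq]
    rcases h2 with h2 | h2
    · rw [h2, bot_inf_eq, bot_inf_eq]
    refine eq_bot_of_card_le _ ?_
    have := h1.resolve_left hI1
    omega
  have hext : ∀ T ∈ I, ∀ T' ∈ I, T a = T' a → T b = T' b → T c = T' c → T = T' := by
    intro T hT T' hT' e1 e2 e3
    have e : ∀ y, T y = T' y → T⁻¹ * T' ∈ MulAction.stabilizer (MulAut P) y := fun y e => by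
      change (T⁻¹ * T') y = y
      rw [MulAut.mul_apply, ← e, ← MulAut.mul_apply, inv_mul_cancel, MulAut.one_apply]
    exact inv_mul_eq_one.1 (mem_bot.1 (h4 ▸ ⟨⟨⟨I.mul_mem (I.inv_mem hT) hT', e a e1⟩, e b e2⟩, e c e3⟩))
  have hpat : ∀ s : Bool × Bool × Bool, ∃ T ∈ I, decide (T a = a) = s.1 ∧ decide (T b = b) = s.2.1 ∧
      decide (T c = c) = s.2.2 := by
    let f : I → Bool × Bool × Bool := fun T =>
      (decide ((T : MulAut P) a = a), decide ((T : MulAut P) b = b), decide ((T : MulAut P) c = c))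
    have e : ∀ y ∈ Y, ∀ T T' : I, decide ((T : MulAut P) y = y) = decide ((T' : MulAut P) y = y) →
        (T : MulAut P) y = (T' : MulAut P) y := fun y hy T T' e => by
      rcases hy.2 T T.2 with h | h <;> rcases hy.2 T' T'.2 with h' | h' <;>
        simp [h, h', hne y hy] at e ⊢
    have hf : Function.Bijective f := (Nat.bijective_iff_injective_and_card f).2
      ⟨fun T T' h => Subtype.ext (hext _ T.2 _ T'.2 (e a ha _ _ (congrArg Prod.fst h))
        (e b hb _ _ (congrArg (fun x => x.2.1) h)) (e c hc' _ _ (congrArg (fun x => x.2.2) h))),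
        by simp [hI8]⟩
    intro s
    obtain ⟨T, rfl⟩ := hf.2 s
    exact ⟨T, T.2, rfl, rfl, rfl⟩
  obtain ⟨A, hA, A1, A2, A3⟩ := hpat (false, true, true)
  obtain ⟨B, hB, B1, B2, B3⟩ := hpat (true, false, true)
  obtain ⟨C, hC, C1, C2, C3⟩ := hpat (true, true, false)
  simp only [decide_eq_true_eq, decide_eq_false_iff_not] at A1 A2 A3 B1 B2 B3 C1 C2 C3
  have A0 := (ha.2 A hA).resolve_left A1
  have B0 := (hb.2 B hB).resolve_left B2
  have C0 := (hc'.2 C hC).resolve_left C3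
  have hall : ∀ T ∈ I, T = 1 ∨ T = A ∨ T = B ∨ T = C ∨ T = A * B ∨ T = A * C ∨ T = B * C ∨
      T = A * B * C := by
    intro T hT
    have m1 := mul_mem hA hB
    have m2 := mul_mem hA hC
    have m3 := mul_mem hB hC
    have m4 := mul_mem m1 hC
    have m0 := one_mem I
    rcases ha.2 T hT with e1 | e1 <;> rcases hb.2 T hT with e2 | e2 <;>
      rcases hc'.2 T hT with e3 | e3
    · exact Or.inl (hext _ hT _ m0 (by simp [*]) (by simp [*]) (by simp [*]))
    · exact .inr (.inr (.inr (.inl (hext _ hT _ hC (by simp [*]) (by simp [*]) (by simp [*])))))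
    · exact .inr (.inr (.inl (hext _ hT _ hB (by simp [*]) (by simp [*]) (by simp [*]))))
    · exact .inr (.inr (.inr (.inr (.inr (.inr (.inl
        (hext _ hT _ m3 (by simp [*]) (by simp [*]) (by simp [*]))))))))
    · exact .inr (.inl (hext _ hT _ hA (by simp [*]) (by simp [*]) (by simp [*])))
    · exact .inr (.inr (.inr (.inr (.inr (.inl
        (hext _ hT _ m2 (by simp [*]) (by simp [*]) (by simp [*])))))))
    · exact .inr (.inr (.inr (.inr (.inl
        (hext _ hT _ m1 (by simp [*]) (by simp [*]) (by simp [*]))))))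
    · exact .inr (.inr (.inr (.inr (.inr (.inr (.inr
        (hext _ hT _ m4 (by simp [*]) (by simp [*]) (by simp [*]))))))))
  have hnar : ∀ T : MulAut P, (∃ g : P, ∀ x : P, (T x = x ↔ x ∈ zpowers g)) → ∀ y ∈ Y, T y = y →
      ∀ x, T x = x → x ∈ zpowers y := by
    rintro T ⟨g, hg⟩ y hy e x hx
    rw [zpowers_eq hP ((hg y).1 e) hy.1]
    exact (hg x).1 hx
  have hbr : ∀ T U : MulAut P, ∀ y ∈ Y, ∀ y' ∈ Y, T y = y → T y' = y' → U y = y → U y' ≠ y' →
      ¬ ∃ g : P, ∀ x : P, (T x = x ↔ x ∈ zpowers g) := fun T U y hy y' _ e1 e2 e3 e4 h => by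
    obtain ⟨k, rfl⟩ := hnar T h y hy e1 y' e2
    exact e4 (by rw [map_zpow, e3])
  have bA := hbr A C b hb c hc' A2 A3 C2 C3
  have bB := hbr B C a ha c hc' B1 B3 C1 C3
  have bC := hbr C B a ha b hb C1 C2 B1 B2
  have nA : A ≠ 1 := fun e => A1 (by simp [e])
  have nB : B ≠ 1 := fun e => B2 (by simp [e])
  have nC : C ≠ 1 := fun e => C3 (by simp [e])
  have iAB := hprod A hA B hB nA nB bA bB
  have iAC := hprod A hA C hC nA nC bA bC
  have iBC := hprod B hB C hC nB nC bB bC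
  have dAB := hdisj _ iAB fun e => A1 (by simpa [B1] using congrArg (fun T : MulAut P => T a) e)
  have dAC := hdisj _ iAC fun e => A1 (by simpa [C1] using congrArg (fun T : MulAut P => T a) e)
  have dBC := hdisj _ iBC fun e => B2 (by simpa [C2] using congrArg (fun T : MulAut P => T b) e)
  have fAB := hnar _ dAB c hc' (by simp [*])
  have fAC := hnar _ dAC b hb (by simp [*])
  have fBC := hnar _ dBC a ha (by simp [*])
  have habc : closure {a, b, c} = ⊤ := by
    refine top_le_iff.1 (hgen.ge.trans ((closure_le _).2 fun y hy => ?_))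
    have z : ∀ x ∈ ({a, b, c} : Set P), y ∈ zpowers x → y ∈ closure {a, b, c} := fun x hx =>
      fun h => zpowers_le_of_mem (subset_closure hx) h
    rcases hy.2 A hA with e1 | e1 <;> rcases hy.2 B hB with e2 | e2 <;>
      rcases hy.2 C hC with e3 | e3
    all_goals first
      | refine z c (by simp) (fAB y ?_); simp [e1, e2]; done
      | refine z b (by simp) (fAC y ?_); simp [e1, e3]; done
      | refine z a (by simp) (fBC y ?_); simp [e2, e3]
  have hab : IsMulCommutative P := comm_of hP habc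
    (comm_mem hP hp2 (hI.2 _ (mul_mem hA hB)) (by simp [*]) (by simp [*]) C1 C2 C0 fAB)
    (comm_mem hP hp2 (hI.2 _ (mul_mem hA hC)) (by simp [*]) (by simp [*]) B1 B3 B0 fAC)
    (comm_mem hP hp2 (hI.2 _ (mul_mem hB hC)) (by simp [*]) (by simp [*]) A2 A3 A0 fBC)
  have dZ : ∃ g : P, ∀ x : P, ((A * B * C) x = x ↔ x ∈ zpowers g) := by
    have hz : ∀ x, (A * B * C) x = x⁻¹ := fun x => by
      refine closure_induction (p := fun x _ => (A * B * C) x = x⁻¹) ?_ (by simp) ?_ ?_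
        (habc.ge (mem_top x))
      · rintro y (rfl | rfl | rfl) <;> simp [*]
      · intro y z _ _ e1 e2
        rw [map_mul, e1, e2, mul_inv_rev, hab.1.1]
      · intro y _ e
        rw [map_inv, e]
    refine ⟨1, fun x => ?_⟩
    rw [hz, zpowers_one_eq_bot]
    exact ⟨fun e => mem_of_sq hP hp2 (by rw [mul_eq_one_iff_inv_eq.2 e]; exact one_mem _),
      fun e => by rw [mem_bot.1 e, inv_one]⟩
  have hset : {T : MulAut P | T ∈ I ∧ T ≠ 1 ∧ ¬ ∃ g : P, ∀ x : P, (T x = x ↔ x ∈ zpowers g)} =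
      {A, B, C} := by
    ext T
    refine ⟨fun ⟨t1, t2, t3⟩ => ?_, ?_⟩
    · rcases hall T t1 with e | e | e | e | e | e | e | e
      · exact absurd e t2
      · exact Or.inl e
      · exact Or.inr (Or.inl e)
      · exact Or.inr (Or.inr e)
      all_goals exact absurd (e ▸ ‹_›) t3
    · rintro (rfl | rfl | rfl)
      exacts [⟨hA, nA, bA⟩, ⟨hB, nB, bB⟩, ⟨hC, nC, bC⟩]
  refine ⟨hab, ⟨a, b, c, habc⟩, ?_, ?_, ?_, ?_⟩
  · rintro ⟨u, v, huv⟩
    let π := QuotientGroup.mk' (frattini P)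
    have hs := QuotientGroup.mk'_surjective (frattini P)
    have q1 : ∀ x y : P ⧸ frattini P, x * y = y * x := fun x y => by
      obtain ⟨x, rfl⟩ := hs x
      obtain ⟨y, rfl⟩ := hs y
      rw [← map_mul, hab.1.1, map_mul]
    have q2 : ∀ x : P ⧸ frattini P, x ^ p = 1 := fun x => by
      obtain ⟨x, rfl⟩ := hs x
      exact (QuotientGroup.eq_one_iff _).2 (Grp.PFrattini.pow_mem_frattini hP x)
    obtain ⟨S, S1, S2, S3⟩ := Grp.exists_subset_card_map_closure_eq hp π q1 q2 {u, v}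
    obtain ⟨T, T1, T2, T3⟩ := Grp.exists_subset_card_map_closure_eq hp π q1 q2 {a, b, c}
    rw [Finset.coe_pair, huv] at S2
    rw [Finset.coe_insert, Finset.coe_pair, habc] at T2
    have e1 : T.card ≤ 2 := by
      rw [Nat.pow_right_injective hp.two_le (T3.symm.trans (by rw [T2, ← S2, S3]))]
      exact (Finset.card_le_card S1).trans Finset.card_le_two
    have e2 : closure (T : Set P) = ⊤ := Grp.eq_top_of_map_eq_top_of_ker_le_frattini π
      (QuotientGroup.ker_mk' _).le (by rw [T2, map_top_of_surjective _ hs])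
    have e3 : ∀ U : MulAut P, U ≠ 1 → ∃ x ∈ T, U x ≠ x := fun U hU => by
      by_contra! h
      exact hU (Fus.AC.eq_one_of_fix₁ (top_le_iff.1 (e2.ge.trans ((closure_le _).2 h))))
    have e4 : ∀ U : MulAut P, U ≠ 1 → ∀ y, (∀ x ∈ ({a, b, c} : Finset P), x = y ∨ U x = x) →
        y ∈ T := fun U hU y h => by
      obtain ⟨x, hx, hx'⟩ := e3 U hU
      exact (h x (T1 hx)).resolve_right hx' ▸ hx
    have e5 : ({a, b, c} : Finset P) ⊆ T := by
      simp only [Finset.insert_subset_iff, Finset.singleton_subset_iff]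
      exact ⟨e4 A nA a (by simp [*]), e4 B nB b (by simp [*]), e4 C nC c (by simp [*])⟩
    have e6 : ({a, b, c} : Finset P).card = 3 := Finset.card_eq_three.2
      ⟨a, b, c, fun e => A1 (e ▸ A2), fun e => A1 (e ▸ A3), fun e => B2 (e ▸ B3), rfl⟩
    have := Finset.card_le_card e5
    omega
  · exact (congrArg (fun s : Set (MulAut P) => Nat.card s) hset).trans (Set.ncard_eq_three.2
      ⟨A, B, C, fun e => A1 (e ▸ B1), fun e => A1 (e ▸ C1), fun e => B2 (e ▸ C2), rfl⟩)
  · rw [hset]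
    refine le_antisymm ((closure_le _).2 ?_) fun T hT => ?_
    · rintro _ (rfl | rfl | rfl) <;> assumption
    · have m1 : A ∈ closure ({A, B, C} : Set (MulAut P)) := subset_closure (by simp)
      have m2 : B ∈ closure ({A, B, C} : Set (MulAut P)) := subset_closure (by simp)
      have m3 : C ∈ closure ({A, B, C} : Set (MulAut P)) := subset_closure (by simp)
      rcases hall T hT with e | e | e | e | e | e | e | e <;> rw [e]
      exacts [one_mem _, m1, m2, m3, mul_mem m1 m2, mul_mem m1 m3, mul_mem m2 m3,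
        mul_mem (mul_mem m1 m2) m3]
  · ext T
    refine ⟨fun hT => ?_, fun ⟨U, V, u1, v1, u2, v2, u3, v3, e⟩ => e ▸ hprod U u1 V v1 u2 v2 u3 v3⟩
    rcases hall T (hI₀.le hT) with e | e | e | e | e | e | e | e
    · exact ⟨A, A, hA, hA, nA, nA, bA, bA, e.trans (hTT A hA).symm⟩
    · exact absurd (hdisj A (e ▸ hT) nA) bA
    · exact absurd (hdisj B (e ▸ hT) nB) bB
    · exact absurd (hdisj C (e ▸ hT) nC) bC
    · exact ⟨A, B, hA, hB, nA, nB, bA, bB, e⟩
    · exact ⟨A, C, hA, hC, nA, nC, bA, bC, e⟩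
    · exact ⟨B, C, hB, hC, nB, nC, bB, bC, e⟩
    · exact absurd (hdisj C (by simpa only [e, inv_mul_cancel_left] using mul_mem (inv_mem iAB) hT) nC) bC

end Cfsg.Agent.S4412
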