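import Cfsg.Statements.S4413
import Cfsg.Agent.TT.ESType
import Cfsg.Agent.S0824

set_option autoImplicit false
open Cfsg

namespace Cfsg.Agent.S4413

open Subgroup

/-- Let P be an extraspecial 2-group of order 32 with no elementary abelian subgroup of order 8 (the central product of a dihedral and a quaternion group of order 8). Then the inner automorphism group of P has order 16 and the outer automorphism group Aut(P)/Inn(P) is isomorphic to the symmetric group of degree 5; in particular Aut(P) has order 1920. -/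
theorem result {P : Type*} [Group P] [Finite P]
    (hex : Cfsg.IsExtraspecial 2 P) (h32 : Nat.card P = 32)
    (hminus : ∀ A : Subgroup P, Cfsg.IsElementaryAbelian 2 A → Nat.card ↥A ≤ 4)
    [(MulAut.conj : P →* MulAut P).range.Normal] :
    Nat.card ↥(MulAut.conj : P →* MulAut P).range = 16 ∧ Nat.card (MulAut P) = 1920 ∧
      Nonempty ((MulAut P ⧸ (MulAut.conj : P →* MulAut P).range) ≃* Equiv.Perm (Fin 5)) := by
  obtain ⟨-, ⟨⟨φ⟩⟩ | ⟨⟨φ⟩⟩⟩ := TT.exists_equiv_plus_or_minus hex (n := 2) h32
  · obtain ⟨A, hA, hc⟩ := TT.exists_elab_congr φ.symm (TT.exists_elab_plus _)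
    have := hminus A hA
    omega
  obtain ⟨ψ⟩ := S0824.result (F := ZMod 2) rfl
  rw [← TT.bMinus_quad] at ψ
  have e : Out P ≃* Equiv.Perm (Fin 5) :=
    ((TT.outCongr φ).trans (TT.ESM.outEquiv (TT.xs_minus _))).trans ψ
  have h16 : Nat.card (MulAut.conj : P →* MulAut P).range = 16 := by
    have h1 := card_eq_card_quotient_mul_card_subgroup (MulAut.conj : P →* MulAut P).ker
    have h2 : (MulAut.conj : P →* MulAut P).ker = center P := by
      ext x
      rw [MonoidHom.mem_ker, mem_center_iff, MulEquiv.ext_iff]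
      exact forall_congr' fun y => by
        rw [MulAut.conj_apply, MulAut.one_apply, mul_inv_eq_iff_eq_mul, eq_comm]
    rw [Nat.card_congr (QuotientGroup.quotientKerEquivRange _).toEquiv, h2, hex.2, h32] at h1
    omega
  refine ⟨h16, ?_, ⟨e⟩⟩
  rw [card_eq_card_quotient_mul_card_subgroup (MulAut.conj : P →* MulAut P).range, h16,
    Nat.card_congr e.toEquiv, Nat.card_perm, Nat.card_fin]
  rfl


end Cfsg.Agent.S4413
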