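import Cfsg.Statements.S4414
import Cfsg.Agent.FT.RepBridge
import Cfsg.Agent.Perm.PermModule

set_option autoImplicit false
open Cfsg

namespace Cfsg.Agent.S4414
open Module Cfsg.Agent.FT.Rep
open scoped commutatorElement TensorProduct

theorem exists_fixed_of_not_dvd {ι : Type*} {O : Set ι} (hO : O.Finite) {f : ι → ι} {q : ℕ}
    (hq : q.Prime) (hf : ∀ i ∈ O, f i ∈ O) (hk : ∀ i ∈ O, f^[q] i = i) (hd : ¬ q ∣ O.ncard) :
    ∃ i ∈ O, f i = i := by
  classical
  have : Fact q.Prime := ⟨hq⟩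
  have := hO.fintype
  let g : Function.End O := fun x => ⟨f x, hf x x.2⟩
  have hg : ∀ n (x : O), ((g ^ n) x : ι) = f^[n] x := by
    intro n
    induction n with
    | zero => intro x; rfl
    | succ n ih =>
      intro x
      rw [pow_succ, Function.iterate_succ_apply]
      exact ih (g x)
  have h1 : g ^ q ^ 1 = 1 := by
    funext x
    apply Subtype.ext
    rw [pow_one, hg, hk x x.2]; rfl
  have h2 := Equiv.Perm.card_fixedPoints_modEq h1
  by_contra hne
  push Not at hne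
  have : IsEmpty (Function.fixedPoints g) := ⟨fun x => hne x.1 x.1.2 (congrArg Subtype.val x.2)⟩
  rw [Fintype.card_eq_zero (α := Function.fixedPoints g)] at h2
  apply hd
  rw [← Nat.card_coe_set_eq, Nat.card_eq_fintype_card]
  exact (Nat.modEq_zero_iff_dvd).1 h2

theorem core {F W Γ ι : Type*} [Field F] [CharP F 2] [AddCommGroup W] [Module F W]
    [FiniteDimensional F W] [Nontrivial W] [Group Γ] [Finite Γ] [MulAction Γ ι]
    (σ : Γ →* End F W) (U : ι → Submodule F W) (hind : iSupIndep U) (hspan : ⨆ i, U i = ⊤)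
    (hmap : ∀ x i, ∀ u ∈ U i, σ x u ∈ U (x • i)) (T : Subgroup Γ) (hT : IsPGroup 2 T)
    {x : Γ} {q : ℕ} (hq : q.Prime) (hq2 : q ≠ 2) (hxq : x ^ q = 1)
    (hfree : ∀ i, U i ≠ ⊥ → x • i ≠ i) :
    2 ≤ finrank F (fix σ T) ∧
      (finrank F (fix σ T) = 2 → ¬ ∀ v ∈ fix σ T, σ x v ∈ fix σ T) := by
  classical
  have hint := DirectSum.isInternal_submodule_of_iSupIndep_of_iSup_eq_top hind hspan
  letI := hint.chooseDecomposition U
  let π : ι → W →ₗ[F] W := fun i => (U i).subtype ∘ₗ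
    DirectSum.component F ι (fun i => U i) i ∘ₗ (DirectSum.decomposeLinearEquiv U).toLinearMap
  have hπ : ∀ i v, π i v = (DirectSum.decompose U v i : W) := fun i v => rfl
  have hπmem : ∀ i v, π i v ∈ U i := fun i v => (DirectSum.decompose U v i).2
  have hsame : ∀ i, ∀ u ∈ U i, π i u = u := fun i u hu => by
    rw [hπ]; exact DirectSum.decompose_of_mem_same U hu
  have hne : ∀ i j, i ≠ j → ∀ u ∈ U i, π j u = 0 := fun i j hij u hu => by
    rw [hπ]; exact DirectSum.decompose_of_mem_ne U hu hij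
  have hzero : ∀ v, (∀ i, π i v = 0) → v = 0 := fun v hv => by
    apply (DirectSum.decompose U).injective
    rw [DirectSum.decompose_zero]
    ext i
    exact hv i
  have heq : ∀ g i v, π (g • i) (σ g v) = σ g (π i v) := by
    intro g i v
    have hv : v ∈ ⨆ i, U i := hspan ▸ Submodule.mem_top
    induction hv using Submodule.iSup_induction' with
    | mem j u hu =>
      by_cases hij : j = i
      · subst hij; rw [hsame _ _ (hmap g j u hu), hsame _ _ hu]
      · rw [hne j i hij u hu, map_zero, hne (g • j) (g • i) (fun h => hij (smul_left_cancel g h)) _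
          (hmap g j u hu)]
    | zero => simp
    | add a b _ _ ha hb => simp only [map_add, ha, hb]
  let supp : W → Set ι := fun v => {i | π i v ≠ 0}
  have hsupp : ∀ g v i, g • i ∈ supp (σ g v) ↔ i ∈ supp v := by
    intro g v i
    simp only [supp, Set.mem_ofPred_eq, heq]
    exact ⟨fun h h0 => h (by rw [h0, map_zero]), fun h => apply_ne_zero σ g h⟩
  have hsuppU : ∀ v, ∀ i ∈ supp v, U i ≠ ⊥ := fun v i hi h0 =>
    hi ((Submodule.eq_bot_iff _).1 h0 _ (hπmem i v))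
  have hsuppne : ∀ v, v ≠ 0 → (supp v).Nonempty := fun v hv => by
    by_contra h
    exact hv (hzero v fun i => by
      by_contra hi
      exact h ⟨i, hi⟩)
  have hUmap : ∀ (g : Γ) i, U i ≠ ⊥ → U (g • i) ≠ ⊥ := fun g i hi h0 => by
    obtain ⟨u, hu, hu0⟩ := (Submodule.ne_bot_iff _).1 hi
    exact apply_ne_zero σ g hu0 ((Submodule.eq_bot_iff _).1 h0 _ (hmap g i u hu))
  -- fixed vectors with support in an invariant set
  have hfix : ∀ O : Set ι, (∀ t ∈ T, ∀ i ∈ O, t • i ∈ O) → (∃ i ∈ O, U i ≠ ⊥) →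
      ∃ v ∈ fix σ T, v ≠ 0 ∧ supp v ⊆ O := by
    rintro O hO ⟨i, hi, hUi⟩
    let Y : Submodule F W := ⨅ j : {j // j ∉ O}, LinearMap.ker (π j)
    have hY : ∀ v, v ∈ Y ↔ supp v ⊆ O := fun v => by
      simp only [Y, Submodule.mem_iInf, LinearMap.mem_ker, supp, Subtype.forall]
      exact ⟨fun h j hj => by_contra fun hjO => hj (h j hjO), fun h j hj => by_contra fun h0 => hj (h h0)⟩
    have : Fact (Nat.Prime 2) := ⟨Nat.prime_two⟩
    obtain ⟨w, hw, hw0, hwf⟩ := Cfsg.Agent.Perm.exists_fixed_vector_of_isPGroup hT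
      (σ.comp T.subtype) Y (fun g v hv => by
        rw [hY] at hv ⊢
        intro j hj
        have h1 : (g : Γ)⁻¹ • j ∈ supp v := by
          rw [← hsupp g, smul_inv_smul]; exact hj
        have := hO g g.2 _ (hv h1)
        rwa [smul_inv_smul] at this) (by
        obtain ⟨u, hu, hu0⟩ := (Submodule.ne_bot_iff _).1 hUi
        refine (Submodule.ne_bot_iff _).2 ⟨u, (hY u).2 fun j hj => ?_, hu0⟩
        by_contra hjO
        exact hj (hne i j (fun h => hjO (h ▸ hi)) u hu))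
    exact ⟨w, fun a ha => hwf ⟨a, ha⟩, hw0, (hY w).1 hw⟩
  obtain ⟨w₀, hw₀⟩ := exists_ne (0 : W)
  obtain ⟨i₁, hi₁⟩ := hsuppne w₀ hw₀
  have hU₁ := hsuppU w₀ i₁ hi₁
  obtain ⟨O, hO⟩ : ∃ O, O = MulAction.orbit T i₁ := ⟨_, rfl⟩
  have hOfin : O.Finite := hO ▸ Set.finite_range _
  have hOmem : ∀ i, i ∈ O ↔ ∃ t ∈ T, t • i₁ = i := fun i => by
    rw [hO, MulAction.mem_orbit_iff]
    exact ⟨fun ⟨t, ht⟩ => ⟨t, t.2, ht⟩, fun ⟨t, ht, h⟩ => ⟨⟨t, ht⟩, h⟩⟩
  have hOinv : ∀ t ∈ T, ∀ i ∈ O, t • i ∈ O := fun t ht i hi => by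
    obtain ⟨s, hs, rfl⟩ := (hOmem i).1 hi
    exact (hOmem _).2 ⟨t * s, T.mul_mem ht hs, mul_smul _ _ _⟩
  have hi₁O : i₁ ∈ O := (hOmem _).2 ⟨1, T.one_mem, one_smul _ _⟩
  have hOU : ∀ i ∈ O, U i ≠ ⊥ := fun i hi => by
    obtain ⟨s, hs, rfl⟩ := (hOmem i).1 hi
    exact hUmap s _ hU₁
  have hnot : ¬ ∀ i ∈ O, x • i ∈ O := by
    intro h
    have : Fact (Nat.Prime 2) := ⟨Nat.prime_two⟩
    have : Finite (MulAction.orbit T i₁) := (hO ▸ hOfin : (MulAction.orbit T i₁).Finite)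
    obtain ⟨n, hn⟩ := hT.card_orbit i₁
    obtain ⟨i, hi, hxi⟩ := exists_fixed_of_not_dvd hOfin (f := fun i => x • i) hq h
      (fun i _ => by rw [smul_iterate, hxq]; exact one_smul _ _) (by
        rw [← Nat.card_coe_set_eq, hO, hn]
        intro hd
        exact hq2 ((Nat.prime_dvd_prime_iff_eq hq Nat.prime_two).1 (hq.dvd_of_dvd_pow hd)))
    exact hfree i (hOU i hi) hxi
  obtain ⟨v₁, hv₁, hv₁0, hs₁⟩ := hfix O hOinv ⟨i₁, hi₁O, hU₁⟩
  obtain ⟨v₂, hv₂, hv₂0, hs₂⟩ := hfix Oᶜ (fun t ht i hi h => hi (by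
    have := hOinv t⁻¹ (T.inv_mem ht) _ h
    rwa [inv_smul_smul] at this)) (by
    push Not at hnot
    obtain ⟨i, hi, hxi⟩ := hnot
    exact ⟨x • i, hxi, hUmap x i (hOU i hi)⟩)
  have hs₁' : O ⊆ supp v₁ := by
    obtain ⟨j, hj⟩ := hsuppne v₁ hv₁0
    obtain ⟨s, hs, rfl⟩ := (hOmem j).1 (hs₁ hj)
    intro i hi
    obtain ⟨t, ht, rfl⟩ := (hOmem i).1 hi
    have := (hsupp (t * s⁻¹) v₁ _).2 hj
    rwa [hv₁ _ (T.mul_mem ht (T.inv_mem hs)), mul_smul, inv_smul_smul] at this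
  have hπ₁ : ∀ i, i ∉ O → π i v₁ = 0 := fun i hi => by_contra fun h => hi (hs₁ h)
  have hπ₂ : ∀ i ∈ O, π i v₂ = 0 := fun i hi => by_contra fun h => hs₂ h hi
  have hli : LinearIndependent F ![(⟨v₁, hv₁⟩ : fix σ T), ⟨v₂, hv₂⟩] := by
    rw [LinearIndependent.pair_iff]
    intro a b hab
    have hab' : a • v₁ + b • v₂ = 0 := congrArg Subtype.val hab
    have ha : a = 0 := by
      have := congrArg (π i₁) hab'
      rw [map_add, map_smul, map_smul, hπ₂ _ hi₁O, smul_zero, add_zero, map_zero] at this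
      exact (smul_eq_zero.1 this).resolve_right (hs₁' hi₁O)
    rw [ha, zero_smul, zero_add] at hab'
    exact ⟨ha, (smul_eq_zero.1 hab').resolve_right hv₂0⟩
  refine ⟨by simpa using hli.fintype_card_le_finrank, fun h2 hinv => ?_⟩
  have hsp : ∀ v ∈ fix σ T, ∃ a b : F, a • v₁ + b • v₂ = v := by
    intro v hv
    have := hli.span_eq_top_of_card_eq_finrank' (by simp [h2])
    have hm : (⟨v, hv⟩ : fix σ T) ∈ Submodule.span F
        (Set.range ![(⟨v₁, hv₁⟩ : fix σ T), ⟨v₂, hv₂⟩]) := this ▸ Submodule.mem_top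
    rw [Matrix.range_cons, Matrix.range_cons, Matrix.range_empty, Set.union_empty,
      Set.singleton_union, Submodule.mem_span_pair] at hm
    obtain ⟨a, b, hab⟩ := hm
    exact ⟨a, b, congrArg Subtype.val hab⟩
  -- supports of the images
  have himg : ∀ v, supp (σ x v) = (fun i => x • i) '' supp v := fun v => by
    ext j
    constructor
    · intro hj
      exact ⟨x⁻¹ • j, by rw [← hsupp x, smul_inv_smul]; exact hj, smul_inv_smul _ _⟩
    · rintro ⟨i, hi, rfl⟩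
      exact (hsupp x v i).2 hi
  have hO₁ : supp v₁ = O := Set.Subset.antisymm hs₁ hs₁'
  have hfin : ∀ v, (supp v).Finite := fun v =>
    (WellFoundedGT.finite_ne_bot_of_iSupIndep hind).subset (hsuppU v)
  have hcard : ∀ v, (supp (σ x v)).ncard = (supp v).ncard := fun v => by
    rw [himg, Set.ncard_image_of_injective _ (MulAction.injective x)]
  have hcases : ∀ v ∈ fix σ T, supp v ⊆ supp v₁ ∨ supp v ⊆ supp v₂ ∨
      supp v₁ ∪ supp v₂ ⊆ supp v := by
    intro v hv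
    obtain ⟨a, b, rfl⟩ := hsp v hv
    by_cases hb : b = 0
    · left
      intro i hi h0
      exact hi (by simp [hb, h0])
    by_cases ha : a = 0
    · right; left
      intro i hi h0
      exact hi (by simp [ha, h0])
    right; right
    rintro i (hi | hi) h0
    · rw [map_add, map_smul, map_smul, hπ₂ _ (hs₁ hi), smul_zero, add_zero] at h0
      exact hi ((smul_eq_zero.1 h0).resolve_left ha)
    · rw [map_add, map_smul, map_smul, hπ₁ _ (hs₂ hi), smul_zero, zero_add] at h0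
      exact hi ((smul_eq_zero.1 h0).resolve_left hb)
  have hdis : Disjoint (supp v₁) (supp v₂) := Set.disjoint_left.2 fun i h1 h2 => hs₂ h2 (hs₁ h1)
  have hc12 := Set.ncard_union_eq hdis (hfin v₁) (hfin v₂)
  have hp₁ := (Set.ncard_pos (hfin v₁)).2 (hsuppne v₁ hv₁0)
  have hp₂ := (Set.ncard_pos (hfin v₂)).2 (hsuppne v₂ hv₂0)
  have hx₁ : supp (σ x v₁) ⊆ supp v₂ := by
    rcases hcases _ (hinv v₁ hv₁) with h | h | h
    · exact absurd (fun i hi => hs₁ (h ((hsupp x v₁ i).2 (hs₁' hi)))) hnot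
    · exact h
    · have := Set.ncard_le_ncard h (hfin _)
      rw [hcard] at this
      omega
  have hx₂ : supp (σ x v₂) ⊆ supp v₁ := by
    rcases hcases _ (hinv v₂ hv₂) with h | h | h
    · exact h
    · have h3 : supp (σ x v₂) = supp v₂ := Set.eq_of_subset_of_ncard_le h (hcard v₂).ge (hfin _)
      have h4 := hx₁ ((hsupp x v₁ i₁).2 (hs₁' hi₁O))
      rw [← h3, hsupp] at h4
      exact absurd hi₁O (hs₂ h4)
    · have := Set.ncard_le_ncard h (hfin _)
      rw [hcard] at this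
      omega
  have hsq : ∀ i ∈ O, (x * x) • i ∈ O := fun i hi => by
    rw [mul_smul]
    exact hs₁ (hx₂ ((hsupp x v₂ _).2 (hx₁ ((hsupp x v₁ i).2 (hs₁' hi)))))
  have hpow : ∀ n : ℕ, ∀ i ∈ O, (x * x) ^ n • i ∈ O := by
    intro n
    induction n with
    | zero => intro i hi; simpa using hi
    | succ n ih => intro i hi; rw [pow_succ, mul_smul]; exact ih _ (hsq i hi)
  obtain ⟨k, hk⟩ := hq.odd_of_ne_two hq2
  apply hnot
  intro i hi
  have := hpow (k + 1) i hi
  rwa [← sq, ← pow_mul, show 2 * (k + 1) = q + 1 by omega, pow_succ, hxq, one_mul] at this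

/-- Let S be a finite solvable group whose order is divisible only by the primes 2, p, q (p, q distinct odd primes), with a Sylow system S₂, S_p, S_q (pairwise permutable Sylow subgroups) such that: S_p is a minimal normal subgroup of S of order p or p²; S_q has order q and [S_p, S_q] = S_p; and O₂(S) = 1. Let E be an irreducible module for S over the field with two elements on which S_p acts faithfully, and E₀ the subspace of fixed points of S₂. Then either E₀ has at least 8 elements, or E₀ has exactly 4 elements and S_q does not leave E₀ invariant. -/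
theorem result {S : Type*} [Group S] [Finite S]
    [Group.IsSolvable S] (p q : ℕ) (hp : p.Prime) (hq : q.Prime) (hp2 : p ≠ 2) (hq2 : q ≠ 2) (hpq : p ≠ q)
    (hπ : ∀ r : ℕ, r.Prime → r ∣ Nat.card S → r = 2 ∨ r = p ∨ r = q)
    (S₂ : Sylow 2 S) (Sp : Sylow p S) (Sq : Sylow q S)
    (h2q : Nat.card ↥((S₂ : Subgroup S) ⊔ (Sq : Subgroup S)) = Nat.card ↥S₂ * Nat.card ↥Sq)
    (h2p : Nat.card ↥((S₂ : Subgroup S) ⊔ (Sp : Subgroup S)) = Nat.card ↥S₂ * Nat.card ↥Sp)
    (hpq' : Nat.card ↥((Sp : Subgroup S) ⊔ (Sq : Subgroup S)) = Nat.card ↥Sp * Nat.card ↥Sq)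
    (hSpN : (Sp : Subgroup S).Normal) (hSpmin : ∀ N : Subgroup S, N.Normal → N ≤ (Sp : Subgroup S) → N = ⊥ ∨ N = (Sp : Subgroup S))
    (hSpcard : Nat.card ↥Sp = p ∨ Nat.card ↥Sp = p ^ 2)
    (hSq : Nat.card ↥Sq = q) (hcomm : ⁅(Sp : Subgroup S), (Sq : Subgroup S)⁆ = (Sp : Subgroup S))
    (hO2 : Cfsg.pCore 2 S = ⊥)
    {E : Type*} [AddCommGroup E] [Module (ZMod 2) E] [Finite E] (ρ : Representation (ZMod 2) S E) (hE : Nontrivial E)
    (hirr : ∀ N : Submodule (ZMod 2) E, (∀ s : S, ∀ m ∈ N, ρ s m ∈ N) → N = ⊥ ∨ N = ⊤)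
    (hfaith : ∀ x ∈ (Sp : Subgroup S), ρ x = 1 → x = 1) :
    8 ≤ Nat.card {v : E // ∀ s ∈ (S₂ : Subgroup S), ρ s v = v} ∨
      (Nat.card {v : E // ∀ s ∈ (S₂ : Subgroup S), ρ s v = v} = 4 ∧
        ∃ x ∈ (Sq : Subgroup S), ∃ v : E, (∀ s ∈ (S₂ : Subgroup S), ρ s v = v) ∧ ¬ ∀ s ∈ (S₂ : Subgroup S), ρ s (ρ x v) = ρ x v) := by
  classical
  have : Fact p.Prime := ⟨hp⟩
  have : Fact q.Prime := ⟨hq⟩
  have : Fact (Nat.Prime 2) := ⟨Nat.prime_two⟩
  obtain ⟨P, hP⟩ : ∃ P, P = (Sp : Subgroup S) := ⟨_, rfl⟩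
  obtain ⟨Q, hQ⟩ : ∃ Q, Q = (Sq : Subgroup S) := ⟨_, rfl⟩
  obtain ⟨T, hT⟩ : ∃ T, T = (S₂ : Subgroup S) := ⟨_, rfl⟩
  have hTp : IsPGroup 2 T := hT ▸ S₂.isPGroup'
  have hPc : Nat.card P = p ∨ Nat.card P = p ^ 2 := hP ▸ hSpcard
  have hQc : Nat.card Q = q := hQ ▸ hSq
  rw [← hP, ← hQ] at hcomm
  rw [← hP] at hfaith hSpN
  rw [← hT, ← hQ]
  clear hSpmin h2q h2p hpq' hSpcard hSq
  let F := AlgebraicClosure (ZMod 2)
  let σ : S →* End F (F ⊗[ZMod 2] E) := (End.baseChangeHom (ZMod 2) F E).toMonoidHom.comp ρ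
  have hfr : ∀ A : Subgroup S, finrank F (fix σ A) = finrank (ZMod 2) (fix ρ A) := fun A =>
    finrank_fix_baseChange F ρ A
  have hPcomm : ∀ a ∈ P, ∀ b ∈ P, a * b = b * a := by
    intro a ha b hb
    rcases hPc with h | h
    · have := isCyclic_of_prime_card h
      let _ := IsCyclic.commGroup (α := P)
      exact congrArg Subtype.val (mul_comm (⟨a, ha⟩ : P) ⟨b, hb⟩)
    · let _ := IsPGroup.commGroupOfCardEqPrimeSq h
      exact congrArg Subtype.val (mul_comm (⟨a, ha⟩ : P) ⟨b, hb⟩)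
  have hc : ∀ a ∈ P, ∀ b ∈ P, Commute (σ a) (σ b) := fun a ha b hb => by
    rw [Commute, SemiconjBy, ← map_mul, ← map_mul, hPcomm a ha b hb]
  have hp0 : (p : F) ≠ 0 := fun h =>
    hp2 ((Nat.prime_dvd_prime_iff_eq Nat.prime_two hp).1 ((CharP.cast_eq_zero_iff F 2 p).1 h)).symm
  have hn : (Nat.card P : F) ≠ 0 := by
    rcases hPc with h | h <;> rw [h]
    · exact hp0
    · rw [Nat.cast_pow]; exact pow_ne_zero _ hp0
  have hPne : P ≠ ⊥ := by
    intro h
    rw [h, Subgroup.card_bot] at hPc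
    rcases hPc with h | h
    · exact hp.one_lt.ne h
    · exact (Nat.one_lt_pow two_ne_zero hp.one_lt).ne h
  have hfixP : fix ρ P = ⊥ := by
    refine (hirr _ fun s m hm => apply_mem_fix ρ (by
      rw [Subgroup.normalizer_eq_top]; trivial) hm).resolve_right fun h => hPne ?_
    rw [fix_eq_top_iff] at h
    exact (Subgroup.eq_bot_iff_forall _).2 fun x hx => hfaith x hx (h x hx)
  have hfixP' : fix σ P = ⊥ := by
    rw [← Submodule.finrank_eq_zero, hfr, hfixP, finrank_bot]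
  have : Nontrivial (F ⊗[ZMod 2] E) := by
    rw [← Module.finrank_pos_iff (R := F), Module.finrank_baseChange]
    exact Module.finrank_pos
  have hQne : Q ≠ ⊥ := fun h => by
    rw [h, Subgroup.card_bot] at hQc
    exact hq.one_lt.ne hQc
  obtain ⟨⟨x, hxQ⟩, hx1⟩ := Subgroup.ne_bot_iff_exists_ne_one.1 hQne
  have hx1' : x ≠ 1 := fun h => hx1 (Subtype.ext h)
  have hxq : x ^ q = 1 := by
    have := pow_card_eq_one' (G := Q) (x := ⟨x, hxQ⟩)
    rw [hQc] at this
    exact congrArg Subtype.val this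
  have hzp : ∀ y ∈ Q, y ≠ 1 → Subgroup.zpowers y = Q := fun y hy hy1 => by
    apply Subgroup.eq_of_le_of_card_ge ((Subgroup.zpowers_le).2 hy)
    rw [hQc, Nat.card_zpowers]
    have h1 : orderOf y ∣ q := hQc ▸ Subgroup.orderOf_dvd_natCard Q hy
    rcases (Nat.dvd_prime hq).1 h1 with h | h
    · exact absurd (orderOf_eq_one_iff.1 h) hy1
    · exact h.ge
  have hNP : ∀ g : S, g ∈ Subgroup.normalizer (P : Set S) := fun g => by
    rw [Subgroup.normalizer_eq_top]; trivial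
  obtain ⟨h2, h3⟩ := core σ (wt σ P) (wt_indep σ P hc) (wt_span σ P hc hn)
    (fun g χ u hu => apply_mem_wt σ (hNP g) hu) T hTp hq hq2 hxq (fun χ hχ hfix => hx1' <|
      eq_one_of_smul_eq (R := Q) (fun g _ => hNP g)
        (fun y hy hy1 => by rw [hzp y hy hy1, hcomm]) (fun h => hχ (by
          rw [h, wt_triv, hfixP'])) hχ hxQ hfix)
  have hcard : Nat.card {v : E // ∀ s ∈ T, ρ s v = v} = 2 ^ finrank (ZMod 2) (fix ρ T) := by
    rw [FiniteField.pow_finrank_eq_natCard]; rfl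
  rw [hfr] at h2 h3
  rcases h2.lt_or_eq with h | h
  · left
    rw [hcard]
    calc 8 = 2 ^ 3 := rfl
      _ ≤ _ := Nat.pow_le_pow_right two_pos h
  right
  refine ⟨by rw [hcard, ← h]; rfl, x, hxQ, ?_⟩
  by_contra hcon
  push Not at hcon
  apply h3 h.symm
  let T' : Subgroup S := T ⊔ T.map (MulAut.conj x⁻¹).toMonoidHom
  have h4 : fix ρ T' = fix ρ T := by
    refine le_antisymm (fix_anti ρ le_sup_left) (le_fixer_iff.1 (sup_le (le_fixer_iff.2 le_rfl) ?_))
    rw [le_fixer_iff]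
    rintro v hv _ ⟨t, ht, rfl⟩
    have := hcon v hv t ht
    simp only [MulEquiv.coe_toMonoidHom, MulAut.conj_apply, inv_inv]
    rw [apply_mul, apply_mul, this, apply_inv_apply]
  have h5 : fix σ T' = fix σ T :=
    Submodule.eq_of_le_of_finrank_eq (fix_anti σ le_sup_left) (by rw [hfr, hfr, h4])
  intro v hv t ht
  rw [← h5] at hv
  have := hv (x⁻¹ * t * x) (Subgroup.mem_sup_right ⟨t, ht, by simp⟩)
  rw [apply_mul, apply_mul] at this
  have h6 := congrArg (σ x) this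
  rwa [apply_apply_inv] at h6

end Cfsg.Agent.S4414
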