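import Cfsg.Statements.S4420
import Mathlib

set_option autoImplicit false
open Cfsg

namespace Cfsg.Agent.S4420

theorem inv_of_sq {H : Type*} [Group H] (A : Subgroup H) (hD : ∀ x : H, x ∉ A → x ^ 2 = 1)
    {x : H} (hx : x ∉ A) {a : H} (ha : a ∈ A) : x * a * x⁻¹ = a⁻¹ := by
  have h1 := hD x hx
  have h2 : (x * a) ^ 2 = 1 := hD _ (fun h => hx (by simpa using A.mul_mem h (A.inv_mem ha)))
  rw [pow_two] at h1 h2
  have h3 : x⁻¹ = x := inv_eq_of_mul_eq_one_right h1
  rw [h3]
  exact eq_inv_of_mul_eq_one_left (by rw [← h2]; group)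

theorem comm_of_sq {H : Type*} [Group H] (h : ∀ x : H, x ^ 2 = 1) : IsMulCommutative H := by
  refine ⟨⟨fun a b => ?_⟩⟩
  have i : ∀ x : H, x⁻¹ = x := fun x => inv_eq_of_mul_eq_one_right (by rw [← pow_two, h])
  rw [← i (a * b), mul_inv_rev, i, i]

theorem index_two_case {H : Type*} [Group H] (A : Subgroup H) (hA : A.index = 2)
    (hD : ∀ x : H, x ∉ A → x ^ 2 = 1) : A.Normal ∧ IsMulCommutative ↥A ∧ A.index = 2 ∧
      (∀ x : H, x ∉ A → x ^ 2 = 1 ∧ ∀ b ∈ A, x * b * x⁻¹ = b⁻¹) := by
  refine ⟨Subgroup.normal_of_index_eq_two hA, ?_, hA,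
    fun x hx => ⟨hD x hx, fun b hb => inv_of_sq A hD hx hb⟩⟩
  obtain ⟨x, hx⟩ : ∃ x, x ∉ A := by
    by_contra hc
    push Not at hc
    rw [(Subgroup.eq_top_iff' A).2 hc, Subgroup.index_top] at hA
    omega
  refine ⟨⟨fun a b => Subtype.ext ?_⟩⟩
  have h1 := inv_of_sq A hD hx a.2
  have h2 := inv_of_sq A hD hx b.2
  have h3 := inv_of_sq A hD hx (A.mul_mem a.2 b.2)
  have h4 : x * (a * b) * x⁻¹ = (x * a * x⁻¹) * (x * b * x⁻¹) := by group
  rw [h3, h1, h2, ← mul_inv_rev, inv_inj] at h4
  exact h4


/-- Structure of groups in which every element outside some proper subgroup has square 1. Let H be a finite group with a proper subgroup A such that every element outside A has square 1. Then H has an abelian normal subgroup B of index 2 such that every element outside B is an involution inverting every element of B; and if H is not an elementary abelian 2-group, B is the only abelian normal subgroup of index 2 with this property. -/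
theorem result {H : Type*} [Group H] [Finite H] (A : Subgroup H) (hA : A ≠ ⊤) (hD : ∀ x : H, x ∉ A → x ^ 2 = 1) :
    ∃ B : Subgroup H, B.Normal ∧ IsMulCommutative ↥B ∧ B.index = 2 ∧
      (∀ x : H, x ∉ B → x ^ 2 = 1 ∧ ∀ b ∈ B, x * b * x⁻¹ = b⁻¹) ∧
      (¬ (IsMulCommutative H ∧ ∀ x : H, x ^ 2 = 1) →
        ∀ B' : Subgroup H, B'.Normal → IsMulCommutative ↥B' → B'.index = 2 →
          (∀ x : H, x ∉ B' → x ^ 2 = 1 ∧ ∀ b ∈ B', x * b * x⁻¹ = b⁻¹) → B' = B) := by
  have main : ∃ B : Subgroup H, B.index = 2 ∧ ∀ x : H, x ∉ B → x ^ 2 = 1 := by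
    by_cases hall : ∀ x : H, x ^ 2 = 1
    · have := comm_of_sq hall
      obtain ⟨M, hM, -⟩ := (eq_top_or_exists_le_coatom A).resolve_left hA
      refine ⟨M, ?_, fun x _ => hall x⟩
      obtain ⟨x, hx⟩ : ∃ x, x ∉ M := by
        by_contra hc
        push Not at hc
        exact hM.1 ((Subgroup.eq_top_iff' M).2 hc)
      rw [Subgroup.index_eq_two_iff]
      refine ⟨x, fun b => ?_⟩
      have hxx : x * x = 1 := by rw [← pow_two, hall]
      let N : Subgroup H :=
        { carrier := {y | y ∈ M ∨ y * x ∈ M}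
          one_mem' := Or.inl M.one_mem
          mul_mem' := by
            rintro a b (ha | ha) (hb | hb)
            · exact Or.inl (M.mul_mem ha hb)
            · exact Or.inr (by rw [mul_assoc]; exact M.mul_mem ha hb)
            · refine Or.inr ?_
              have : a * b * x = (a * x) * b := by
                rw [mul_assoc, mul_assoc, (this.is_comm.comm b x)]
              rw [this]; exact M.mul_mem ha hb
            · refine Or.inl ?_
              have : a * b = (a * x) * (b * x) := by
                rw [this.is_comm.comm b x, mul_assoc, ← mul_assoc x x, hxx, one_mul]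
              rw [this]; exact M.mul_mem ha hb
          inv_mem' := by
            intro a ha
            have : a⁻¹ = a := inv_eq_of_mul_eq_one_right (by rw [← pow_two, hall])
            rw [this]; exact ha }
      have hN : N = ⊤ := hM.2 N (lt_of_le_of_ne (fun y hy => Or.inl hy) (fun h => hx (by
        rw [h]; exact Or.inr (by rw [hxx]; exact M.one_mem))))
      have hb : b ∈ N := hN ▸ Subgroup.mem_top b
      rcases hb with hb | hb
      · exact Or.inr ⟨hb, fun h => hx (by simpa using M.mul_mem (M.inv_mem hb) h)⟩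
      · exact Or.inl ⟨hb, fun h => hx (by simpa using M.mul_mem (M.inv_mem h) hb)⟩
    · refine ⟨A, ?_, hD⟩
      push Not at hall
      obtain ⟨a, ha⟩ := hall
      have haA : a ∈ A := by by_contra h; exact ha (hD a h)
      obtain ⟨x, hx⟩ : ∃ x, x ∉ A := by
        by_contra hc
        push Not at hc
        exact hA ((Subgroup.eq_top_iff' A).2 hc)
      rw [Subgroup.index_eq_two_iff]
      refine ⟨x, fun b => ?_⟩
      by_cases hb : b ∈ A
      · exact Or.inr ⟨hb, fun h => hx (by simpa using A.mul_mem (A.inv_mem hb) h)⟩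
      · refine Or.inl ⟨?_, hb⟩
        by_contra hbx
        have h1 := inv_of_sq A hD hx haA
        have h2 := inv_of_sq A hD hb (A.inv_mem haA)
        have h3 := inv_of_sq A hD hbx haA
        have h4 : b * x * a * (b * x)⁻¹ = b * (x * a * x⁻¹) * b⁻¹ := by group
        rw [h3, h1, h2, inv_inv] at h4
        exact ha (by rw [pow_two]; nth_rewrite 1 [← h4]; exact inv_mul_cancel a)
  obtain ⟨B, hB, hBD⟩ := main
  obtain ⟨h1, h2, h3, h4⟩ := index_two_case B hB hBD
  refine ⟨B, h1, h2, h3, h4, fun hne B' _ hc' hi' hB' => ?_⟩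
  have hex : ∃ a : H, a ^ 2 ≠ 1 := by
    by_contra hc
    push Not at hc
    exact hne ⟨comm_of_sq hc, hc⟩
  obtain ⟨a, ha⟩ := hex
  have haB : a ∈ B := by by_contra h; exact ha (hBD a h)
  have haB' : a ∈ B' := by by_contra h; exact ha (hB' a h).1
  have key : ∀ (C D : Subgroup H), IsMulCommutative C → a ∈ C → a ∈ D →
      (∀ x : H, x ∉ D → x ^ 2 = 1 ∧ ∀ b ∈ D, x * b * x⁻¹ = b⁻¹) → C ≤ D := by
    intro C D hC haC haD hD' x hx
    by_contra hxD
    have h5 := (hD' x hxD).2 a haD
    have h6 : x * a = a * x := congrArg Subtype.val (hC.is_comm.comm ⟨x, hx⟩ ⟨a, haC⟩)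
    rw [h6, mul_inv_cancel_right] at h5
    exact ha (by rw [pow_two]; nth_rewrite 1 [h5]; exact inv_mul_cancel a)
  exact le_antisymm (key B' B hc' haB' haB h4) (key B B' h2 haB haB' hB')

end Cfsg.Agent.S4420
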