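import Cfsg.Statements.S4466
import Cfsg.Agent.Char.Blichfeldt
import Cfsg.Agent.Char.Burnside
import Cfsg.Agent.Char.FS
import Cfsg.Agent.Char.SchurBound
import Cfsg.Agent.Char.Degrees
import Cfsg.Agent.Char.Ito

set_option autoImplicit false
open Cfsg

namespace Cfsg.Agent.S4466

open Cfsg.Agent.Char Subgroup

theorem exists_central {G : Type*} [Group G] [Finite G] {p : ℕ} (hp : p.Prime)
    (hd : p ∣ Nat.card G) : ∃ z : G, z ≠ 1 ∧ ¬ p ∣ (centralizer ({z} : Set G)).index := by
  have := Fact.mk hp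
  obtain ⟨P⟩ := (inferInstance : Nonempty (Sylow p G))
  have : Nontrivial (P : Subgroup G) := (nontrivial_iff_ne_bot _).mpr (P.ne_bot_of_dvd_card hd)
  have := P.2.center_nontrivial
  obtain ⟨⟨c, hc⟩, hc1⟩ := exists_ne (1 : center (P : Subgroup G))
  refine ⟨c, fun h => hc1 (Subtype.ext (Subtype.ext h)), fun h => P.not_dvd_index ?_⟩
  refine h.trans (index_dvd_of_le fun x hx => ?_)
  rw [mem_centralizer_singleton_iff]
  exact congrArg Subtype.val (mem_center_iff.mp hc ⟨x, hx⟩)

theorem simple_case {G : Type*} [Group G] [Finite G] [IsSimpleGroup G]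
    (h : ∀ χ : IrrCharacter G, charDegree χ.1 ≠ 1 → (charDegree χ.1).Prime) (a b : G) :
    a * b = b * a := by
  classical
  by_contra hab
  have hZ : center G = ⊥ := (IsSimpleGroup.eq_bot_or_eq_top_of_normal (center G) inferInstance).resolve_right
    fun h => hab (mem_center_iff.1 (h ▸ mem_top b) a)
  have hc : commutator G = ⊤ :=
    (IsSimpleGroup.eq_bot_or_eq_top_of_normal (commutator G) inferInstance).resolve_left fun h => hab (by
      have : a * b * a⁻¹ * b⁻¹ ∈ commutator G := commutator_mem_commutator (mem_top a) (mem_top b)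
      rw [h, mem_bot, mul_inv_eq_one, mul_inv_eq_iff_eq_mul] at this
      exact this)
  have hlin : ∀ χ : G → ℂ, IsCharacter G χ → χ 1 = 1 → ∀ g, χ g = 1 := by
    intro χ hχ h1 g
    obtain ⟨μ, rfl⟩ := exists_hom_of_isCharacter_one hχ h1
    have : commutator G ≤ μ.ker := Abelianization.commutator_subset_ker μ
    simp [MonoidHom.mem_ker.1 (this (hc ▸ mem_top g))]
  have hf : ∀ χ : IrrCharacter G, charDegree χ.1 ≠ 1 → ∀ g, χ.1 g = χ.1 1 → g = 1 := by
    intro χ h1 g hg
    rcases IsSimpleGroup.eq_bot_or_eq_top_of_normal (charKer χ.1) inferInstance with h | h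
    · exact mem_bot.1 (h ▸ (mem_charKer_irr χ).2 hg)
    · exact (h1 (charDegree_eq_of_one_eq (n := 1) (by
        simpa using one_eq_one_of_commutator_le χ.2 (h ▸ le_top)))).elim
  have hv : ∀ χ : IrrCharacter G, charDegree χ.1 ≠ 1 → ∀ g, g ≠ 1 →
      ¬ charDegree χ.1 ∣ (centralizer ({g} : Set G)).index → χ.1 g = 0 := by
    intro χ h1 g hg hd
    refine (χ.2.eq_zero_or_norm_eq (coe_charDegree_of_isCharacter χ.2.isCharacter).symm g
      ((Nat.Prime.coprime_iff_not_dvd (h χ h1)).2 hd)).resolve_right fun hn => hg ?_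
    exact mem_bot.1 (hZ ▸ mem_center_of_norm_eq χ.2.isCharacter (hf χ h1) hn)
  have hex : ∃ n, ∃ χ : IrrCharacter G, charDegree χ.1 ≠ 1 ∧ charDegree χ.1 = n := by
    obtain ⟨χ, hχ⟩ := exists_charDegree_ne_one ⟨a, b, hab⟩
    exact ⟨_, χ, hχ, rfl⟩
  obtain ⟨χ, h1, hχ⟩ := Nat.find_spec hex
  have hmin : ∀ ψ : IrrCharacter G, charDegree ψ.1 ≠ 1 → charDegree χ.1 ≤ charDegree ψ.1 :=
    fun ψ hψ => hχ ▸ Nat.find_min' hex ⟨ψ, hψ, rfl⟩
  clear hχ
  have hp := h χ h1
  obtain ⟨z, hz1, hz⟩ := exists_central hp (charDegree_irr_dvd_card χ)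
  have h2 : charDegree χ.1 ≠ 2 := by
    intro h2
    have e1 : χ.1 1 = 2 := by
      rw [← coe_charDegree_of_isCharacter χ.2.isCharacter, h2]; rfl
    have := hlin _ (isCharacter_altSq χ.2.isCharacter) (by simp [altSq, e1]; norm_num) z
    simp only [altSq, hv χ h1 z hz1 hz] at this
    by_cases hzz : z * z = 1
    · rw [hzz, e1] at this
      norm_num at this
    · rw [hv χ h1 _ hzz fun hd => hz (hd.trans (index_dvd_of_le fun x hx => ?_))] at this
      · norm_num at this
      · rw [mem_centralizer_singleton_iff] at hx ⊢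
        rw [← mul_assoc, hx, mul_assoc, hx, mul_assoc]
  obtain ⟨A, hA, hAi⟩ := exists_comm_not_dvd_index _ G χ.1 χ.2.isCharacter (hf χ h1) rfl
  have hq : ∀ ψ : IrrCharacter G, charDegree ψ.1 ≠ 1 → charDegree ψ.1 ≠ charDegree χ.1 →
      charDegree ψ.1 = Nat.card A := by
    intro ψ hψ hne
    have hq := h ψ hψ
    have hlt : charDegree χ.1 + 1 < charDegree ψ.1 := by
      have := hmin ψ hψ
      obtain ⟨k, hk⟩ := hp.odd_of_ne_two h2
      obtain ⟨l, hl⟩ := hq.odd_of_ne_two (by have := hp.two_le; omega)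
      omega
    have hi := hAi _ hq hlt
    refine Nat.dvd_antisymm ?_ ?_
    · exact ((Nat.Prime.dvd_mul hq).1
        (A.card_mul_index ▸ charDegree_irr_dvd_card ψ)).resolve_right hi
    · refine card_dvd_of_eq_zero (θ := fun x : A => ψ.1 x)
        (ψ.2.isCharacter.restrict A).isGen (fun g hg => ?_)
        (coe_charDegree_of_isCharacter ψ.2.isCharacter).symm
      refine hv ψ hψ g (fun e => hg (Subtype.ext e)) fun hd => hi (hd.trans (index_dvd_of_le ?_))
      exact fun x hx => mem_centralizer_singleton_iff.2 (hA x hx g g.2)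
  obtain ⟨q, hq1, hq2⟩ : ∃ q : ℕ, q.Prime ∧ ∀ ψ : IrrCharacter G, charDegree ψ.1 ≠ 1 →
      charDegree ψ.1 ≠ charDegree χ.1 → q ∣ charDegree ψ.1 := by
    by_cases hA' : (Nat.card A).Prime
    · exact ⟨_, hA', fun ψ a b => (hq ψ a b).symm ▸ dvd_rfl⟩
    · exact ⟨2, Nat.prime_two, fun ψ a b => (hA' (hq ψ a b ▸ h ψ a)).elim⟩
  obtain ⟨ψ, n, hψ, hne, hn, hqn, h0⟩ := exists_irr_ne_one_not_dvd_ne_zero z hz1 hq1
  have hn' : charDegree ψ = n := charDegree_eq_of_one_eq hn
  have hψ1 : charDegree ψ ≠ 1 := fun e => hne (funext (hlin ψ hψ.isCharacter (by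
    rw [hn, ← hn', e, Nat.cast_one])))
  by_cases e : charDegree ψ = charDegree χ.1
  · exact h0 (hv ⟨ψ, hψ⟩ hψ1 z hz1 (e ▸ hz))
  · exact hqn (hn' ▸ hq2 ⟨ψ, hψ⟩ hψ1 e)

theorem solv.{u} (G : Type u) [Group G] [Finite G] :
    (∀ χ : IrrCharacter G, charDegree χ.1 ≠ 1 → (charDegree χ.1).Prime) → Group.IsSolvable G := by
  induction hn : Nat.card G using Nat.strong_induction_on generalizing G with
  | _ n ih =>
    intro h
    rcases subsingleton_or_nontrivial G with hG | hG
    · infer_instance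
    by_cases hs : IsSimpleGroup G
    · exact Group.isSolvable_of_comm (simple_case h)
    obtain ⟨N, hN, hN1, hN2⟩ : ∃ N : Subgroup G, N.Normal ∧ N ≠ ⊥ ∧ N ≠ ⊤ := by
      by_contra hcon
      push Not at hcon
      exact hs ⟨fun N hN => by
        by_cases h : N = ⊥
        · exact Or.inl h
        · exact Or.inr (hcon N hN h)⟩
    have hmul : Nat.card N * N.index = n := hn ▸ N.card_mul_index
    have h1 : 1 < Nat.card N := (one_lt_card_iff_ne_bot N).mpr hN1
    have h2 : 1 < N.index := one_lt_index_of_ne_top hN2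
    rw [Group.isSolvable_iff_subgroup_quotient N]
    refine ⟨ih _ (by nlinarith) N rfl fun θ hθ => ?_,
      ih N.index (by nlinarith) (G ⧸ N) rfl fun θ hθ => ?_⟩
    · obtain ⟨χ, hχ⟩ := exists_irr_dvd_charDegree N θ
      have hp := h χ fun e => hθ (Nat.dvd_one.1 (e ▸ hχ))
      exact ((Nat.dvd_prime hp).1 hχ).resolve_left hθ ▸ hp
    · obtain ⟨χ, hχ⟩ := exists_irr_charDegree_eq_of_surjective _ (QuotientGroup.mk'_surjective N) θ
      exact hχ ▸ h χ (hχ ▸ hθ)


/-- If every irreducible character of the finite group G of degree greater than one has prime degree, then G is solvable. -/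
theorem result {G : Type*} [Group G] [Finite G] (h : ∀ χ : Cfsg.IrrCharacter G, Cfsg.charDegree (χ : G → ℂ) ≠ 1 → (Cfsg.charDegree (χ : G → ℂ)).Prime) : Group.IsSolvable G := by
  exact solv G h

end Cfsg.Agent.S4466
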