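import Mathlib
import Cfsg.Statements.S4520
import Cfsg.Agent.Block.GalPrin
import Cfsg.Agent.Block.Cover
import Cfsg.Agent.Block.Count
import Cfsg.Agent.S4438

set_option autoImplicit false
open Cfsg

namespace Cfsg.Agent.S4520

open Cfsg.Agent.Block Cfsg.Agent.Char


/-- Let N be a normal subgroup of odd index in the finite group G, M a maximal ideal of the algebraic integers containing 2, and k coprime to the order of G with k ^ (2 ^ e) ≡ 1 modulo the order of G for some e and g ^ k = g⁻¹ for every element g of odd order. Let θ be an irreducible character of N and χ an irreducible character of G over θ, both unchanged by composing with g ↦ g ^ k. Then χ lies in the principal 2-block of G if and only if θ lies in the principal 2-block of N. -/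
theorem result {G : Type*} [Group G] [Fintype G] (M : Ideal Cfsg.AlgInt) (hM : Cfsg.IsPModular 2 M) (N : Subgroup G) [N.Normal] [Fintype N] (hidx : Odd N.index) (k e : ℕ) (hk : Nat.Coprime k (Nat.card G)) (hke : k ^ (2 ^ e) ≡ 1 [MOD Nat.card G]) (hk₂ : ∀ g : G, Odd (orderOf g) → g ^ k = g⁻¹) (θ : Cfsg.IrrCharacter N) (hθ : ∀ n : N, (θ : N → ℂ) (n ^ k) = (θ : N → ℂ) n) (χ : Cfsg.IrrCharacter G) (hχ : ∀ g : G, (χ : G → ℂ) (g ^ k) = (χ : G → ℂ) g) (hover : Cfsg.classInner (fun n : N => (χ : G → ℂ) n) (θ : N → ℂ) ≠ 0) : χ ∈ Cfsg.principalBlock M G ↔ θ ∈ Cfsg.principalBlock M N := by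
  have : Fact (Nat.Prime 2) := ⟨Nat.prime_two⟩
  have hcov : Covers N (blockOf M (χ : G → ℂ)) (blockOf M (θ : N → ℂ)) :=
    ⟨χ, self_mem_blockOf hM χ, θ, self_mem_blockOf hM θ, hover⟩
  constructor
  · intro h
    rw [← eq_blockOf_of_mem hM isPBlock_principal h] at hcov
    obtain ⟨g, hg⟩ := Covers.exists_conjSet_eq hM isPBlock_principal isPBlock_principal
      (isPBlock_blockOf θ) (covers_principal hM) hcov
    have h1 : conjIrr N (irrOne N) g ∈ blockOf M (θ : N → ℂ) :=
      hg ▸ mem_conjSet.2 ⟨_, irrOne_mem_principal hM, rfl⟩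
    rw [block_eq_of_mem hM isPBlock_principal (isPBlock_blockOf θ) (irrOne_mem_principal hM) h1]
    exact self_mem_blockOf hM θ
  · intro h
    rw [← eq_blockOf_of_mem hM isPBlock_principal h] at hcov
    obtain ⟨Q⟩ : Nonempty (Sylow 2 N) := inferInstance
    have hQ : IsDefectGroup 2 M (principalBlock M N) (Q : Subgroup N) := by
      rw [isDefectGroup_sylow_iff hM isPBlock_principal,
        blockDefect_eq_of_height_zero (irrOne_mem_principal hM) (blockHeight_one _)]
      simp [irrOne, charDegree_const_one]
    have e : ((Q : Subgroup N).map N.subtype).subgroupOf N = Q :=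
      Subgroup.comap_map_eq_self_of_injective N.subtype_injective _
    obtain ⟨P, hP, hPQ⟩ := S4438.result 2 M hM N _ isPBlock_principal
      ((Q : Subgroup N).map N.subtype) (Subgroup.map_subtype_le _) (e.symm ▸ hQ) _
      (isPBlock_blockOf χ) hcov
    have h1 := Subgroup.card_le_of_le (hPQ.ge.trans inf_le_left)
    rw [card_defectGroup hM (isPBlock_blockOf χ) hP, Subgroup.card_map_of_injective
      N.subtype_injective, Q.card_eq_multiplicity,
      Nat.pow_le_pow_iff_right (by norm_num)] at h1
    have h2 : (Nat.card G).factorization 2 = (Nat.card N).factorization 2 := by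
      rw [← N.card_mul_index, Nat.factorization_mul Nat.card_pos.ne' hidx.pos.ne',
        Finsupp.add_apply, Nat.factorization_eq_zero_of_not_dvd hidx.not_two_dvd_nat, add_zero]
    rw [← eq_principal_of_centralChar_inv hM (isPBlock_blockOf χ) (h2 ▸ h1)
      (self_mem_blockOf hM χ) fun g hg => ?_]
    · exact self_mem_blockOf hM χ
    · simp only [centralChar, centralizer_inv_eq]
      rw [← hk₂ g (Nat.not_even_iff_odd.1 fun e => hg e.two_dvd), hχ]
      simp

end Cfsg.Agent.S4520
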