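import Cfsg.Statements.S4523
import Mathlib
import Cfsg.Agent.Block.RealCoeff
import Cfsg.Agent.Block.DefectNum
import Cfsg.Agent.S0205

set_option autoImplicit false
open Cfsg

set_option linter.style.haveILetI false
set_option linter.unusedVariables false

namespace Cfsg.Agent.S4523

open Cfsg.Agent.Char Cfsg.Agent.Block Subgroup
open scoped ComplexConjugate

/-- Let S be a non-abelian finite simple group with commutative Sylow 2-subgroups and M a maximal ideal of the algebraic integers containing 2. Let k be a natural number with g ^ k = g for every 2-element g and g ^ k = g⁻¹ for every element g of odd order. Then S has an irreducible character χ₁ of even degree with χ₁ (g ^ k) = χ₁ g for all g, and its principal 2-block contains a character χ₂ other than the principal character with χ₂ (g ^ k) = χ₂ g for all g. -/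
theorem result {S : Type*} [Group S] [Finite S] [IsSimpleGroup S] (hna : ¬ IsMulCommutative S) (P : Sylow 2 S) (hP : IsMulCommutative P) (M : Ideal Cfsg.AlgInt) (hM : Cfsg.IsPModular 2 M) (k : ℕ) (hk₁ : ∀ g : S, (∃ j : ℕ, orderOf g = 2 ^ j) → g ^ k = g) (hk₂ : ∀ g : S, Odd (orderOf g) → g ^ k = g⁻¹) : (∃ χ₁ : Cfsg.IrrCharacter S, Even (Cfsg.charDegree (χ₁ : S → ℂ)) ∧ ∀ g : S, (χ₁ : S → ℂ) (g ^ k) = (χ₁ : S → ℂ) g) ∧ ∃ χ₂ ∈ Cfsg.principalBlock M S, (χ₂ : S → ℂ) ≠ (fun _ => 1) ∧ ∀ g : S, (χ₂ : S → ℂ) (g ^ k) = (χ₂ : S → ℂ) g := by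
  classical
  have : Fact (Nat.Prime 2) := ⟨Nat.prime_two⟩
  have := charP_resField hM
  have hev : 2 ∣ Nat.card S := by
    by_contra h
    have := S0205.result (G := S) (Nat.odd_iff.2 (Nat.two_dvd_ne_zero.1 h))
    exact hna ⟨⟨IsSimpleGroup.comm_iff_isSolvable.2 this⟩⟩
  have hab : ∀ Q : Subgroup S, IsPGroup 2 Q → ∀ a ∈ Q, ∀ b ∈ Q, a * b = b * a := by
    intro Q hQ a ha b hb
    obtain ⟨T, hT⟩ := hQ.exists_le_sylow
    have h := hP.is_comm.comm (T.equiv P ⟨a, hT ha⟩) (T.equiv P ⟨b, hT hb⟩)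
    rw [← map_mul, ← map_mul] at h
    exact congrArg Subtype.val ((T.equiv P).injective h)
  have hodd : ∀ g : S, ¬ 2 ∣ orderOf g → g ^ k = g⁻¹ := fun g hg =>
    hk₂ g (Nat.odd_iff.2 (Nat.two_dvd_ne_zero.1 hg))
  have hkk : ∀ g : S, g ^ k ^ 2 = g := fun g => by
    have h1 := hk₁ _ (orderOf_pPart 2 g)
    have h2 := hodd _ (not_dvd_orderOf_pReg 2 g)
    conv_lhs => rw [← pPart_mul_pReg 2 g, (commute_pPart_pReg 2 g).mul_pow, sq, pow_mul, pow_mul,
      h1, h1, h2, inv_pow, h2, inv_inv, pPart_mul_pReg]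
  have hk : k.Coprime (Nat.card S) := by
    refine Nat.Coprime.symm (Nat.coprime_of_dvd fun r hr h1 h2 => ?_)
    have := Fact.mk hr
    obtain ⟨g, hg⟩ := exists_prime_orderOf_dvd_card' r h1
    have h3 := hkk g
    rw [sq, pow_mul, (orderOf_dvd_iff_pow_eq_one (x := g)).1 (hg ▸ h2), one_pow] at h3
    rw [← h3, orderOf_one] at hg
    exact hr.one_lt.ne hg
  obtain ⟨x, g, a1, a2, a3⟩ : ∃ x g : S, x ≠ 1 ∧ ¬ 2 ∣ orderOf x ∧ g * x * g⁻¹ = x⁻¹ := by
    obtain ⟨t, ht⟩ := exists_prime_orderOf_dvd_card' 2 hev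
    have h1 : t * t = 1 := by rw [← sq, ← ht, pow_orderOf_eq_one]
    have h2 : t ≠ 1 := by
      rintro rfl
      simp at ht
    by_contra hcon
    have h3 : ∀ c : S, t * (c * t * c⁻¹) = c * t * c⁻¹ * t := fun c => by
      have h4 : c * t * c⁻¹ * (c * t * c⁻¹) = 1 := by rw [conj_mul, h1, mul_one, mul_inv_cancel]
      refine commute_of_invol_of_pReg hab h1 h4 ?_
      by_contra h5
      exact hcon ⟨_, t, h5, not_dvd_orderOf_pReg 2 _, by
        rw [← pReg_conj, invol_mul_inverts h1 h4, pReg_inv]⟩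
    have h4 : normalClosure ({t} : Set S) = ⊤ :=
      (normalClosure_normal.eq_bot_or_eq_top).resolve_left fun h =>
        h2 (mem_bot.1 (h ▸ subset_normalClosure (Set.mem_singleton t)))
    have h5 : normalClosure ({t} : Set S) ≤ centralizer {t} := by
      refine (closure_le _).2 fun a ha => ?_
      obtain ⟨_, rfl, h⟩ := Group.mem_conjugatesOfSet_iff.1 ha
      obtain ⟨c, rfl⟩ := isConj_iff.1 h
      exact mem_centralizer_singleton_iff.2 (h3 c).symm
    have h6 : center S = ⊤ := (inferInstance : (center S).Normal).eq_bot_or_eq_top.resolve_left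
      fun h => h2 (mem_bot.1 (h ▸ mem_center_iff.2 fun c =>
        mem_centralizer_singleton_iff.1 (h5 (h4 ▸ mem_top c))))
    exact hna ⟨⟨fun a b => mem_center_iff.1 (h6 ▸ mem_top b) a⟩⟩
  constructor
  · by_contra hcon
    obtain ⟨y, c, b1, b2, b3⟩ := exists_real_val_blockCoeff hM _ S rfl hab x g a1 a2 a3
    have b4 : ¬ 2 ∣ orderOf y := fun h0 => by
      rw [blockCoeff_eq_zero_of_val hM (val_blockCoeff_principal_le_one hM) h0, map_zero] at b3
      exact zero_ne_one b3
    have hA : ∀ w : S, blockCoeff (principalBlock M S)ᶜ w =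
        (1 : MonoidAlgebra ℂ S).coeff w - blockCoeff (principalBlock M S) w := fun w => by
      rw [← coeff_eSet, eSet_compl]; rfl
    have hAi : eSet (principalBlock M S)ᶜ ∈ intAlg M S := by
      rw [eSet_compl]
      exact sub_mem (one_mem _) (eSet_mem_intAlg hM isPBlock_principal)
    have := Fintype.ofFinite (P : Subgroup S)
    choose n hn using fun χ : IrrCharacter S =>
      (χ.2.isCharacter.restrict (P : Subgroup S)).exists_nat_inner isCharacter_one
    have hPc := card_ne_zero (P : Subgroup S)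
    have h1 : ∑ᶠ χ ∈ (principalBlock M S)ᶜ, (n χ : ℂ) * conj ((χ : S → ℂ) y) =
        (Nat.card (P : Subgroup S) : ℂ)⁻¹ * ∑ u : (P : Subgroup S),
          ∑ᶠ χ ∈ (principalBlock M S)ᶜ, (χ : S → ℂ) u * conj ((χ : S → ℂ) y) := by
      simp only [finsum_mem_irr_eq_sum, ← hn, classInner_one_right]
      rw [Finset.sum_comm, Finset.mul_sum]
      exact Finset.sum_congr rfl fun χ _ => by rw [← Finset.sum_mul, mul_assoc]
    have h2 : ∑ᶠ χ ∈ (principalBlock M S)ᶜ, (n χ : ℂ) * conj ((χ : S → ℂ) y) =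
        ((P : Subgroup S).index : ℂ) * blockCoeff (principalBlock M S)ᶜ y := by
      rw [h1, Finset.sum_eq_single 1, blockCoeff, ← (P : Subgroup S).card_mul_index]
      · have hi : (((P : Subgroup S).index : ℕ) : ℂ) ≠ 0 :=
          Nat.cast_ne_zero.2 Subgroup.index_ne_zero_of_finite
        push_cast; field_simp
      · intro u _ hu
        refine sum_mul_conj_eq_zero_of_singular_regular hM (mem_intAlg.1 hAi) ?_ b4
        by_contra h
        exact hu (Subtype.ext (eq_one_of_orderOf_pow_of_not_dvd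
          (orderOf_eq_pow_of_mem P.isPGroup' u.2) h))
      · simp
    have hle : ∀ χ : IrrCharacter S, val M ((n χ : ℂ) * conj ((χ : S → ℂ) y)) ≤ 1 := fun χ =>
      val_mul_le_one (val_natCast_le_one _) (val_conj_char_le_one χ.2.isCharacter y)
    have h3 : red M (∑ᶠ χ ∈ (principalBlock M S)ᶜ, (n χ : ℂ) * conj ((χ : S → ℂ) y)) = 0 := by
      rw [finsum_mem_irr_eq_sum, red_sum fun χ _ => hle χ]
      refine Finset.sum_involution (fun χ _ => powIrr hk χ) (fun χ _ => ?_) (fun χ hχ _ h => ?_)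
        (fun χ hχ => ?_) fun χ _ => Subtype.ext (funext fun g => by
          rw [powIrr_apply, powIrr_apply, ← pow_mul, ← sq, hkk])
      · have h4 : (n (powIrr hk χ) : ℂ) = n χ := by
          rw [← hn, ← hn]
          congr 1
          funext u
          exact congrArg χ.1 (hk₁ _ (orderOf_eq_pow_of_mem P.isPGroup' u.2))
        rw [h4, powIrr_apply, hodd y b4, ← b2, χ.2.isClassFunction, CharTwo.add_self_eq_zero]
      · have h4 := (powIrr_eq_iff hk χ).1 h
        have h6 : χ ∉ principalBlock M S := by simpa using hχ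
        refine h6 (mem_principal_of_real_odd hM (fun w hw => ?_)
          (Nat.not_even_iff_odd.1 fun h5 => hcon ⟨χ, h5, h4⟩))
        rw [← hodd w hw, h4, sub_self, map_zero]
        exact zero_lt_one
      · simpa [powIrr_mem_principal_iff hk two_ne_zero hkk] using hχ
    rw [red_eq_zero_iff (by rw [finsum_mem_irr_eq_sum]; exact val_sum_le_one fun χ _ => hle χ),
      h2, map_mul, (val_natCast_eq_one_iff hM _).2 P.not_dvd_index, one_mul, hA,
      MonoidAlgebra.one_def, MonoidAlgebra.coeff_single, Finsupp.single_eq_of_ne b1, zero_sub,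
      Valuation.map_neg, b3] at h3
    exact lt_irrefl _ h3
  · by_contra hcon
    have h1 := sum_principal_fixed_eq_zero hM hk (n := 1) (by simpa using hkk) hev
    rw [Finset.sum_eq_single (irrOne S), if_pos ⟨irrOne_mem_principal hM, fun _ => rfl⟩] at h1
    · rw [charDegree_irrOne] at h1
      simp at h1
    · intro χ _ hχ
      exact if_neg fun h => hcon ⟨χ, h.1, fun h0 => hχ (Subtype.ext h0), h.2⟩
    · simp

end Cfsg.Agent.S4523
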