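import Cfsg.Statements.S4534
import Cfsg.Agent.Sym.Def
import Cfsg.Agent.Sym.Span

set_option autoImplicit false
open Cfsg

namespace Cfsg.Agent.S4534

/-- Let B be a p-block of a finite symmetric group (relative to a maximal ideal M of the algebraic integers containing p) with a nontrivial defect group D all of whose sections have p-rank at most s. Then the p-regular rank of B is less than p ^ s. -/
theorem result (n : ℕ) (p : ℕ) [Fact p.Prime] (M : Ideal Cfsg.AlgInt) (hM : Cfsg.IsPModular p M) (B : Set (Cfsg.IrrCharacter (Equiv.Perm (Fin n)))) (hB : Cfsg.IsPBlock M B) (D : Subgroup (Equiv.Perm (Fin n))) (hD : Cfsg.IsDefectGroup p M B D) (hD1 : D ≠ ⊥) (s : ℕ) (hs : Cfsg.SectionalPRankLE p s D) : Cfsg.blockRank p B < p ^ s := by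
  open Cfsg.Agent.SymCh Cfsg.Agent.Block in
  classical
  have hp : p.Prime := Fact.out
  obtain ⟨χ, hχ⟩ := block_nonempty hM hB
  obtain ⟨β, h⟩ := exists_lab_of_irr (N := n) (by simp) χ
  rcases Nat.eq_zero_or_pos (wt p β) with hw | hw
  · obtain ⟨t, h1, h2⟩ := exists_cover hp.pos 0
    haveI := (Subgroup.nontrivial_iff_ne_bot D).2 hD1
    exact ((blockRank_le (by simp) hM hB hχ h (h1 _ hw.le)).trans h2).trans_lt
      (Nat.pow_lt_pow_right hp.one_lt (pos_of_sec (isPGroup_of_isDefectGroup hD) hs))
  · obtain ⟨t, h1, h2⟩ := exists_cover_lt hp.pos hw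
    refine ((blockRank_le (by simp) hM hB hχ h h1).trans_lt h2).trans_le ?_
    have hc : Nat.card (Fin (wt p β) → Multiplicative (ZMod p)) = p ^ wt p β := by simp
    obtain ⟨e, he⟩ := h.exists_embedding hM hB hD hχ (by simp [mul_comm]) (IsPGroup.of_card hc)
      (prodReg (Fin (wt p β)) (Multiplicative (ZMod p)))
    rw [← hc]
    refine card_le_of_sec hs (((Equiv.Perm.viaEmbeddingHom e).comp (prodReg _ _)).codRestrict D he)
      (fun a b hab => prodReg_injective _ _ (Equiv.Perm.viaEmbeddingHom_injective e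
        (congrArg Subtype.val hab))) mul_comm fun a => ?_
    funext i
    rw [Pi.pow_apply, ← ofAdd_toAdd (a i), ← ofAdd_nsmul]
    simp

end Cfsg.Agent.S4534
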