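import Cfsg.Statements.S4539
import Cfsg.Agent.Block.GDN

set_option autoImplicit false
open Cfsg

namespace Cfsg.Agent.S4539

open Cfsg.Agent.Block Subgroup

open Cfsg.Agent.Char
open scoped ComplexConjugate

theorem reduce (a b c : ℤ) (ha : 0 < c) (hdet : 0 < a * c - b ^ 2) :
    ∃ v1 v2 w1 w2 α β γ : ℤ, (v1 * w2 - v2 * w1) ^ 2 = 1 ∧
      α = c * v1 ^ 2 - 2 * b * v1 * v2 + a * v2 ^ 2 ∧
      γ = c * w1 ^ 2 - 2 * b * w1 * w2 + a * w2 ^ 2 ∧
      β = c * v1 * w1 - b * (v1 * w2 + v2 * w1) + a * v2 * w2 ∧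
      (α + γ - β ≤ a * c - b ^ 2 ∨ (α = 1 ∧ β = 0 ∧ γ = a * c - b ^ 2)) := by
  let Q : ℤ → ℤ → ℤ := fun x y => c * x ^ 2 - 2 * b * x * y + a * y ^ 2
  have hQ0 : ∀ x y, 0 ≤ Q x y := fun x y => by
    have : 0 ≤ c * Q x y := by
      simp only [Q]; nlinarith [sq_nonneg (c * x - b * y), mul_nonneg hdet.le (sq_nonneg y)]
    exact nonneg_of_mul_nonneg_right this ha
  have hQ : ∀ x y z w : ℤ, (x * w - y * z) ^ 2 = 1 → 0 < Q x y := fun x y z w h => by
    refine (hQ0 x y).lt_of_ne fun h0 => ?_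
    have h1 : (c * x - b * y) ^ 2 + (a * c - b ^ 2) * y ^ 2 = 0 := by
      have : c * Q x y = 0 := by rw [← h0, mul_zero]
      simp only [Q] at this; linarith
    have h2 : y = 0 := by
      by_contra hy
      nlinarith [sq_nonneg (c * x - b * y), mul_pos hdet (sq_pos_of_ne_zero hy)]
    subst h2
    have h3 : x = 0 := by simpa [ha.ne'] using h1
    simp [h3] at h
  obtain ⟨n, ⟨x1, x2, y1, y2, hd, rfl⟩, hmin⟩ := Int.exists_least_of_bdd
    (P := fun n => ∃ x1 x2 y1 y2 : ℤ, (x1 * y2 - x2 * y1) ^ 2 = 1 ∧ n = Q x1 x2 + Q y1 y2)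
    ⟨0, by rintro _ ⟨x1, x2, y1, y2, -, rfl⟩; exact add_nonneg (hQ0 _ _) (hQ0 _ _)⟩
    ⟨_, 1, 0, 0, 1, by norm_num, rfl⟩
  -- normalise
  have key : ∀ v1 v2 w1 w2 : ℤ, (v1 * w2 - v2 * w1) ^ 2 = 1 → Q v1 v2 + Q w1 w2 = Q x1 x2 + Q y1 y2 →
      Q v1 v2 ≤ Q w1 w2 → 0 ≤ c * v1 * w1 - b * (v1 * w2 + v2 * w1) + a * v2 * w2 →
      ∃ v1 v2 w1 w2 α β γ : ℤ, (v1 * w2 - v2 * w1) ^ 2 = 1 ∧
      α = c * v1 ^ 2 - 2 * b * v1 * v2 + a * v2 ^ 2 ∧
      γ = c * w1 ^ 2 - 2 * b * w1 * w2 + a * w2 ^ 2 ∧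
      β = c * v1 * w1 - b * (v1 * w2 + v2 * w1) + a * v2 * w2 ∧
      (α + γ - β ≤ a * c - b ^ 2 ∨ (α = 1 ∧ β = 0 ∧ γ = a * c - b ^ 2)) := by
    intro v1 v2 w1 w2 h1 h2 h3 h4
    refine ⟨v1, v2, w1, w2, Q v1 v2, _, Q w1 w2, h1, rfl, rfl, rfl, ?_⟩
    have h5 := hmin _ ⟨v1, v2, w1 - v1, w2 - v2, by rw [← h1]; ring, rfl⟩
    have h6 := hQ _ _ _ _ h1
    set β := c * v1 * w1 - b * (v1 * w2 + v2 * w1) + a * v2 * w2 with hβ
    have h7 : Q (w1 - v1) (w2 - v2) = Q v1 v2 + Q w1 w2 - 2 * β := by simp only [Q, hβ]; ring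
    have h8 : Q v1 v2 * Q w1 w2 - β ^ 2 = a * c - b ^ 2 := by
      rw [← mul_one (a * c - b ^ 2), ← h1]; simp only [Q, hβ]; ring
    rw [← h8]
    generalize Q v1 v2 = α at *
    generalize Q w1 w2 = γ at *
    have h9 : 2 * β ≤ α := by linarith
    rcases eq_or_lt_of_le (show 1 ≤ α from h6) with h | h
    · have : β = 0 := by omega
      exact Or.inr ⟨h.symm, this, by rw [← h, this]; ring⟩
    · left
      rcases eq_or_lt_of_le h4 with h' | h'
      · rw [← h']; nlinarith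
      · nlinarith
  have hneg : ∀ x y, Q (-x) (-y) = Q x y := fun x y => by simp only [Q]; ring
  rcases le_total (Q x1 x2) (Q y1 y2) with h | h <;>
    rcases le_total 0 (c * x1 * y1 - b * (x1 * y2 + x2 * y1) + a * x2 * y2) with h' | h'
  · exact key _ _ _ _ hd rfl h h'
  · exact key x1 x2 (-y1) (-y2) (by rw [← hd]; ring) (by rw [hneg]) (by rwa [hneg]) (by linarith)
  · exact key y1 y2 x1 x2 (by rw [← hd]; ring) (add_comm _ _) h (by linarith)
  · exact key y1 y2 (-x1) (-x2) (by rw [← hd]; ring) (by rw [hneg, add_comm]) (by rwa [hneg])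
      (by linarith)

theorem arith {p d : ℕ} (hp : p.Prime) {a b c x y z : ℤ} (hx : 0 < x) (hz : 0 < z)
    (hC : 0 ≤ x * z - y ^ 2) (h1 : x * a + y * b = p ^ d) (h2 : x * b + y * c = 0)
    (h3 : y * a + z * b = 0) (h4 : y * b + z * c = p ^ d) (hdvd : (p : ℤ) ∣ a * c - b * b)
    (hn : ¬ ((p : ℤ) ∣ a ∧ (p : ℤ) ∣ b ∧ (p : ℤ) ∣ c)) :
    ∃ r s : ℕ, 1 ≤ s ∧ d = r + s ∧ a * c - b ^ 2 = p ^ s ∧ x = p ^ r * c ∧ y = -(p ^ r * b) ∧
      z = p ^ r * a := by
  have hp0 : (0 : ℤ) < p := by exact_mod_cast hp.pos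
  have hm : (x * z - y ^ 2) * (a * c - b ^ 2) = p ^ (2 * d) := by
    rw [two_mul, pow_add]
    linear_combination (y * b + z * c) * h1 + (p : ℤ) ^ d * h4 - (y * a + z * b) * h2
  have hpos : 0 < a * c - b ^ 2 := pos_of_mul_pos_right (hm ▸ pow_pos hp0 _) hC
  obtain ⟨n, hn'⟩ := Int.eq_ofNat_of_zero_le hpos.le
  obtain ⟨s, -, rfl⟩ := (Nat.dvd_prime_pow hp).1 (Int.natCast_dvd_natCast.1
    (show (n : ℤ) ∣ ((p ^ (2 * d) : ℕ) : ℤ) from ⟨x * z - y ^ 2, by push_cast; rw [← hm, hn']; ring⟩))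
  push_cast at hn'
  have e1 : (p : ℤ) ^ s * x = p ^ d * c := by rw [← hn']; linear_combination c * h1 - b * h2
  have e2 : (p : ℤ) ^ s * y = -(p ^ d * b) := by rw [← hn']; linear_combination a * h2 - b * h1
  have e3 : (p : ℤ) ^ s * z = p ^ d * a := by rw [← hn']; linear_combination a * h4 - b * h3
  have hs : 1 ≤ s := by
    rcases s with _ | s
    · rw [← sq, hn', pow_zero] at hdvd
      exact absurd (Int.natCast_dvd_natCast.1 hdvd) hp.not_dvd_one
    · omega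
  rcases le_or_gt s d with h | h
  · obtain ⟨r, rfl⟩ := Nat.exists_eq_add_of_le' h
    have := (pow_pos hp0 s).ne'
    refine ⟨r, s, hs, rfl, hn', mul_left_cancel₀ this ?_, mul_left_cancel₀ this ?_,
      mul_left_cancel₀ this ?_⟩
    · rw [e1]; ring
    · rw [e2]; ring
    · rw [e3]; ring
  · obtain ⟨r, rfl⟩ := Nat.exists_eq_add_of_lt h
    have := (pow_pos hp0 d).ne'
    refine absurd ⟨⟨p ^ r * z, mul_left_cancel₀ this ?_⟩, ⟨-(p ^ r * y), mul_left_cancel₀ this ?_⟩,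
      ⟨p ^ r * x, mul_left_cancel₀ this ?_⟩⟩ hn
    · rw [← e3]; ring
    · linear_combination e2
    · rw [← e1]; ring


/-- Let B be a p-block of the finite group G (relative to a maximal ideal M of the algebraic integers containing p) of defect d with defect group D. Let z be an element of D commuting with every element of D, and let b be a block of the centralizer C of z with defect group D that induces B (a major subsection (z, b)). If b has p-regular rank at most two, then B contains at most p ^ d irreducible characters. -/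
theorem result {G : Type*} [Group G] [Finite G] (p : ℕ) [Fact p.Prime] (M : Ideal Cfsg.AlgInt) (hM : Cfsg.IsPModular p M) (B : Set (Cfsg.IrrCharacter G)) (hB : Cfsg.IsPBlock M B) (D : Subgroup G) (hD : Cfsg.IsDefectGroup p M B D) (z : G) (hzD : z ∈ D) (hzc : ∀ d ∈ D, d * z = z * d) (b : Set (Cfsg.IrrCharacter ↥(Subgroup.centralizer ({z} : Set G)))) (hb : Cfsg.IsInducedBlock M (Subgroup.centralizer ({z} : Set G)) b B) (hbD : Cfsg.IsDefectGroup p M b (D.subgroupOf (Subgroup.centralizer ({z} : Set G)))) (hl : Cfsg.blockRank p b ≤ 2) : Nat.card B ≤ p ^ Cfsg.blockDefect p B := by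
  classical
  have hz : ∃ k, orderOf z = p ^ k := orderOf_eq_pow_of_mem (isPGroup_of_isDefectGroup hD) hzD
  have hd := blockDefect_eq_of_majorSub hM hb hD hbD fun d hd =>
    mem_centralizer_singleton_iff.2 (hzc d hd)
  have he := eSet_mem_intAlg hM hb.1
  have := Fintype.ofFinite (centralizer ({z} : Set G))
  have hne : ∀ χ ∈ Finset.univ.filter (· ∈ B), bcmp p _ z b (χ : G → ℂ) ≠ 0 := fun χ hχ =>
    bcmp_ne_zero_of_induced_major hM hz rfl hb hd (Finset.mem_filter.1 hχ).2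
  rw [natCard_block_eq', ← hd]
  have hl0 := blockRank_pos hM hb.1
  rcases (by omega : blockRank p b = 1 ∨ blockRank p b = 2) with h | h
  · exact card_le_pow_of_rank_one hM hz rfl hb h _ hne
  rw [blockRank_block_eq_card hM hb.1, Finset.card_eq_two] at h
  obtain ⟨i, j, hij, h⟩ := h
  have hi : i ∈ ibrOf M b := by simp [h]
  have hj : j ∈ ibrOf M b := by simp [h]
  have hsc : ∀ w ∈ gens z, ∀ χ ψ : IrrCharacter G, sctr p b (w : G) (χ : G → ℂ) (ψ : G → ℂ) =
      cinv p b i i * (gdn _ (w : G) (χ : G → ℂ) (pim i) * conj (gdn _ (w : G) (ψ : G → ℂ) (pim i))) +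
      cinv p b i j * (gdn _ (w : G) (χ : G → ℂ) (pim i) * conj (gdn _ (w : G) (ψ : G → ℂ) (pim j))) +
      (cinv p b i j * (gdn _ (w : G) (χ : G → ℂ) (pim j) * conj (gdn _ (w : G) (ψ : G → ℂ) (pim i))) +
      cinv p b j j * (gdn _ (w : G) (χ : G → ℂ) (pim j) * conj (gdn _ (w : G) (ψ : G → ℂ) (pim j)))) :=
    fun w hw χ ψ => by
      rw [sctr_eq_sum_gdn hM (centralizer_eq_of_mem_gens hw) hb.1 χ.2.isClassFunction
        ψ.2.isClassFunction, h, Finset.sum_pair hij, Finset.sum_pair hij, Finset.sum_pair hij,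
        cinv_comm hM hb.1 hj hi]
  have hg : ∀ (w : zpowers z) (χ : IrrCharacter G) {Φ}, IsProj p b Φ →
      val M (gdn _ (w : G) (χ : G → ℂ) Φ) ≤ 1 ∧ val M (conj (gdn _ (w : G) (χ : G → ℂ) Φ)) ≤ 1 :=
    fun w χ Φ hΦ => by
      have := (isGen_gdn_zpowers rfl χ.2.isGen hΦ.gen).isIntegral w
      exact ⟨val_le_one_of_isIntegral this, val_le_one_of_isIntegral (isIntegral_conj this)⟩
  have hpi := isProj_pim hM he hi
  have hpj := isProj_pim hM he hj
  obtain ⟨η, hη, hη0⟩ := exists_blockHeight_eq_zero (p := p) (block_nonempty hM hB)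
  have h1 := sum_cartan_mul_cinv hM hb.1 hi hi
  have h2 := sum_cartan_mul_cinv hM hb.1 hi hj
  have h3 := sum_cartan_mul_cinv hM hb.1 hj hi
  have h4 := sum_cartan_mul_cinv hM hb.1 hj hj
  rw [h, Finset.sum_pair hij] at h1 h2 h3 h4
  rw [if_pos rfl] at h1 h4
  rw [if_neg hij] at h2
  rw [if_neg hij.symm, cartan_comm j i, cinv_comm hM hb.1 hj hi] at h3
  rw [cinv_comm hM hb.1 hj hi] at h1
  rw [cartan_comm j i] at h4
  have h5 := dvd_cinv_minor hM hb.1 hi hi hj hj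
  rw [cinv_comm hM hb.1 hj hi] at h5
  have hcj : (0 : ℤ) < cartan i i := Nat.cast_pos.2 (Nat.pos_of_ne_zero (cartan_self_ne_zero i))
  obtain ⟨r, s, hs, hrs, hdet, c1, c2, c3⟩ := arith hM.1 hcj
    (Nat.cast_pos.2 (Nat.pos_of_ne_zero (cartan_self_ne_zero j))) (by
      have := Finset.sum_mul_sq_le_sq_mul_sq Finset.univ
        (fun χ : IrrCharacter (centralizer ({z} : Set G)) =>
          (dec (χ : centralizer ({z} : Set G) → ℂ) i : ℤ))
        fun χ => (dec (χ : centralizer ({z} : Set G) → ℂ) j : ℤ)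
      simp only [cartan, Nat.cast_sum, Nat.cast_mul, sub_nonneg]
      simpa only [sq] using this) h1 h2 h3 h4 h5 (by
      rintro ⟨e1, e2, e3⟩
      rw [← val_intCast_lt_one_iff hM] at e1 e2 e3
      refine (val_sctr_zp_eq_one hM hz rfl hb hη hη0 hη hη0 (ygen z)).not_lt ?_
      rw [hsc _ (ygen_mem_gens z)]
      exact val_add_lt_one (val_add_lt_one
        (val_mul_lt_one_left e1 (val_mul_le_one (hg _ η hpi).1 (hg _ η hpi).2))
        (val_mul_lt_one_left e2 (val_mul_le_one (hg _ η hpi).1 (hg _ η hpj).2))) (val_add_lt_one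
        (val_mul_lt_one_left e2 (val_mul_le_one (hg _ η hpj).1 (hg _ η hpi).2))
        (val_mul_lt_one_left e3 (val_mul_le_one (hg _ η hpj).1 (hg _ η hpj).2))))
  have hp0 : (0 : ℤ) < p := by exact_mod_cast hM.1.pos
  obtain ⟨v1, v2, w1, w2, α, β, γ, hδ, hα, hγ, hβ, hcase⟩ := reduce (cinv p b i i) (cinv p b i j)
    (cinv p b j j) (pos_of_mul_pos_right (c1 ▸ hcj) (pow_pos hp0 r).le) (hdet ▸ pow_pos hp0 s)
  rw [hdet] at hcase
  let Φ : ℤ → ℤ → centralizer ({z} : Set G) → ℂ := fun x y => (x : ℂ) • pim i + (y : ℂ) • pim j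
  have hΦ : ∀ x y, IsProj p b (Φ x y) := fun x y => (hpi.smul x).add (hpj.smul y)
  have hΦn : ∀ x y, classInner (Φ x y) (Φ x y) = ((p ^ r * (cinv p b j j * x ^ 2 -
      2 * cinv p b i j * x * y + cinv p b i i * y ^ 2) : ℤ) : ℂ) := fun x y => by
    have e1 : (cartan i i : ℂ) = p ^ r * cinv p b j j := by exact_mod_cast c1
    have e2 : (cartan i j : ℂ) = -(p ^ r * cinv p b i j) := by exact_mod_cast c2
    have e3 : (cartan j j : ℂ) = p ^ r * cinv p b i i := by exact_mod_cast c3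
    simp only [Φ, classInner_add_left, classInner_add_right, classInner_smul_left,
      classInner_smul_right, classInner_pim_pim, map_intCast, cartan_comm j i, e1, e2, e3]
    push_cast
    ring
  have hΦg : ∀ (w : G) (χ : G → ℂ) x y, gdn _ w χ (Φ x y) =
      x * gdn _ w χ (pim i) + y * gdn _ w χ (pim j) := fun w χ x y => by
    simp only [Φ, gdn_add, gdn_smul]
  have hnz : ∀ χ ∈ Finset.univ.filter (· ∈ B), gdn _ z (χ : G → ℂ) (Φ v1 v2) ≠ 0 ∨
      gdn _ z (χ : G → ℂ) (Φ w1 w2) ≠ 0 := fun χ hχ => by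
    by_contra h'
    push Not at h'
    obtain ⟨e1, e2⟩ := h'
    rw [hΦg] at e1 e2
    have hδ' : ((v1 : ℂ) * w2 - v2 * w1) ^ 2 = 1 := by exact_mod_cast hδ
    obtain ⟨k, hk, h'⟩ := exists_gdn_ne_zero hM rfl he χ.2.isClassFunction (hne χ hχ)
    rw [h, Finset.mem_insert, Finset.mem_singleton] at hk
    refine h' ?_
    rcases hk with rfl | rfl
    · linear_combination (-gdn _ z (χ : G → ℂ) (pim k)) * hδ' +
        ((v1 : ℂ) * w2 - v2 * w1) * (w2 * e1 - v2 * e2)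
    · linear_combination (-gdn _ z (χ : G → ℂ) (pim k)) * hδ' +
        ((v1 : ℂ) * w2 - v2 * w1) * (v1 * e2 - w1 * e1)
  rcases hcase with hcase | ⟨rfl, rfl, rfl⟩
  · have h6 := mul_card_le_of_gdn hM hz rfl hb (Finset.univ : Finset (Fin 3))
      (Φ := ![Φ v1 v2, Φ w1 w2, Φ (v1 - w1) (v2 - w2)])
      (fun k _ => by fin_cases k <;> exact hΦ _ _)
      (n := ![p ^ r * α, p ^ r * γ, p ^ r * (α + γ - 2 * β)]) (fun k _ => by
        fin_cases k
        · simp only [hα]; exact hΦn _ _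
        · simp only [hγ]; exact hΦn _ _
        · refine (hΦn _ _).trans ?_
          simp only [hα, hγ, hβ]
          congr 1
          simp only [Fin.reduceFinMk, Matrix.cons_val]
          ring) (Finset.univ.filter (· ∈ B)) (m := 2) fun χ hχ => by
        have e : gdn _ z (χ : G → ℂ) (Φ (v1 - w1) (v2 - w2)) =
            gdn _ z (χ : G → ℂ) (Φ v1 v2) - gdn _ z (χ : G → ℂ) (Φ w1 w2) := by
          simp only [hΦg]; push_cast; ring
        by_cases e1 : gdn _ z (χ : G → ℂ) (Φ v1 v2) = 0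
        · have e2 := (hnz χ hχ).resolve_left (not_not.2 e1)
          exact ⟨{1, 2}, Finset.subset_univ _, by simp, by simp [e, e1, e2]⟩
        by_cases e2 : gdn _ z (χ : G → ℂ) (Φ w1 w2) = 0
        · exact ⟨{0, 2}, Finset.subset_univ _, by simp, by simp [e, e1, e2]⟩
        · exact ⟨{0, 1}, Finset.subset_univ _, by simp, by simp [e1, e2]⟩
    rw [Fin.sum_univ_three] at h6
    simp only [Matrix.cons_val] at h6
    have h7 := mul_le_mul_of_nonneg_left hcase (pow_pos hp0 r).le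
    have h8 : ((Finset.univ.filter (· ∈ B)).card : ℤ) ≤ p ^ blockDefect p b := by
      rw [hrs, pow_add]; push_cast at h6; linarith
    exact_mod_cast h8
  have hsc' : ∀ w ∈ gens z, ∀ χ ψ : IrrCharacter G, sctr p b (w : G) (χ : G → ℂ) (ψ : G → ℂ) =
      p ^ s * (gdn _ (w : G) (χ : G → ℂ) (Φ v1 v2) * conj (gdn _ (w : G) (ψ : G → ℂ) (Φ v1 v2))) +
      gdn _ (w : G) (χ : G → ℂ) (Φ w1 w2) * conj (gdn _ (w : G) (ψ : G → ℂ) (Φ w1 w2)) := fun w hw χ ψ => by
    have e1 : (cinv p b i i : ℂ) = p ^ s * v1 ^ 2 + w1 ^ 2 := by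
      have : cinv p b i i = p ^ s * v1 ^ 2 + w1 ^ 2 := by
        linear_combination (-cinv p b i i) * hδ - v1 ^ 2 * hγ - w1 ^ 2 * hα + 2 * v1 * w1 * hβ
      exact_mod_cast this
    have e2 : (cinv p b i j : ℂ) = p ^ s * v1 * v2 + w1 * w2 := by
      have : cinv p b i j = p ^ s * v1 * v2 + w1 * w2 := by
        linear_combination (-cinv p b i j) * hδ - v1 * v2 * hγ - w1 * w2 * hα +
          (v1 * w2 + v2 * w1) * hβ
      exact_mod_cast this
    have e3 : (cinv p b j j : ℂ) = p ^ s * v2 ^ 2 + w2 ^ 2 := by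
      have : cinv p b j j = p ^ s * v2 ^ 2 + w2 ^ 2 := by
        linear_combination (-cinv p b j j) * hδ - v2 ^ 2 * hγ - w2 ^ 2 * hα + 2 * v2 * w2 * hβ
      exact_mod_cast this
    rw [hsc w hw, e1, e2, e3]
    simp only [hΦg, map_add, map_mul, map_intCast]
    ring
  have hn2 : classInner (Φ w1 w2) (Φ w1 w2) = (((p : ℤ) ^ blockDefect p b : ℤ) : ℂ) := by
    rw [hΦn, ← hγ, hrs, pow_add]
  by_cases hU : ∃ χ ∈ Finset.univ.filter (· ∈ B), gdn _ z (χ : G → ℂ) (Φ w1 w2) = 0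
  swap
  · push Not at hU
    exact_mod_cast card_le_of_gdn hM hz rfl hb (hΦ w1 w2) hn2 _ hU
  obtain ⟨χ₀, hχ₀, hU⟩ := hU
  have h6 := card_le_of_gdn hM hz rfl hb (hΦ v1 v2) (hΦn v1 v2)
    ((Finset.univ.filter (· ∈ B)).filter fun χ => gdn _ z (χ : G → ℂ) (Φ v1 v2) ≠ 0)
    fun χ hχ => (Finset.mem_filter.1 hχ).2
  rw [← hα, mul_one] at h6
  have h7 := sum_pow_le_of_gdn hM hz rfl hb (hΦ w1 w2) hn2
    ((Finset.univ.filter (· ∈ B)).filter fun χ => ¬ gdn _ z (χ : G → ℂ) (Φ v1 v2) ≠ 0) (fun _ => 1)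
    (fun χ hχ => (hnz χ (Finset.mem_filter.1 hχ).1).resolve_left (Finset.mem_filter.1 hχ).2)
    fun χ hχ w hw => by
      rw [Finset.mem_filter, not_not] at hχ
      have hχB := (Finset.mem_filter.1 hχ.1).2
      have e1 : blockHeight p B (χ : G → ℂ) ≠ 0 := fun e => by
        have := val_sctr_zp_of_major hM hz rfl hb hd (Finset.mem_filter.1 hχ₀).2 hχB e (ygen z)
        rw [hsc' _ (ygen_mem_gens z), coe_ygen, hU, hχ.2] at this
        simp only [map_zero, mul_zero, zero_mul, add_zero] at this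
        exact val_prime_pow_ne_zero hM _ this.symm
      have e2 := val_sctr_zp_of_major hM hz rfl hb hd hχB hη hη0 w
      rw [hsc' _ hw, (eq_zero_iff_of_mem_gens (isGen_gdn_zpowers rfl χ.2.isGen (hΦ v1 v2).gen)
        hw).2 hχ.2, zero_mul, mul_zero, zero_add, map_mul] at e2
      have e3 : val M (conj (gdn _ (w : G) (η : G → ℂ) (Φ w1 w2))) = 1 := by
        refine (val_eq_one_iff_not_lt (hg w η (hΦ _ _)).2).2 fun e3 => ?_
        refine (val_sctr_zp_eq_one hM hz rfl hb hη hη0 hη hη0 w).not_lt ?_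
        rw [hsc' _ hw]
        refine val_add_lt_one (val_mul_lt_one_left ?_ (val_mul_le_one (hg w η (hΦ _ _)).1
          (hg w η (hΦ _ _)).2)) (val_mul_lt_one_right (hg w η (hΦ _ _)).1 e3)
        rw [map_pow]
        exact pow_lt_one' (val_prime_lt_one hM) (by omega)
      rw [e3, mul_one] at e2
      rw [e2]
      exact (val_prime_pow_le_iff hM _ _).2 (Nat.one_le_iff_ne_zero.2 e1)
  rw [Finset.sum_const, nsmul_eq_mul] at h7
  rw [← Finset.card_filter_add_card_filter_not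
    fun χ : IrrCharacter G => gdn _ z (χ : G → ℂ) (Φ v1 v2) ≠ 0]
  obtain ⟨s, rfl⟩ := Nat.exists_eq_add_of_le' hs
  rw [hrs] at h7 ⊢
  zify
  generalize (Finset.card _ : ℤ) = k1 at h6 ⊢
  generalize (Finset.card _ : ℤ) = k2 at h7 ⊢
  have h8 : (2 : ℤ) ≤ p := by exact_mod_cast hM.1.two_le
  have h9 : (p : ℤ) ^ r ≤ p ^ (r + s) := pow_le_pow_right₀ (by omega) (by omega)
  rw [← add_assoc, pow_succ _ (r + s)] at h7 ⊢
  generalize (p : ℤ) ^ (r + s) = q at *
  have h10 : k2 * p ≤ q := le_of_mul_le_mul_right (by rw [mul_assoc, ← sq]; exact h7) hp0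
  have h11 : 0 ≤ q := (pow_pos hp0 r).le.trans h9
  have h12 : k2 ≤ q := by
    by_contra h13
    nlinarith
  nlinarith

end Cfsg.Agent.S4539
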