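import Cfsg.Statements.S4540
import Cfsg.Agent.Block.SubAvg

set_option autoImplicit false
open Cfsg

namespace Cfsg.Agent.S4540

open Cfsg.Agent.Block Subgroup

open Cfsg.Agent.Char


/-- Let B be a 2-block of the finite group G (relative to a maximal ideal M of the algebraic integers containing 2) of defect d with defect group D. Let z be an element of D commuting with every element of D, and let b be a block of the centralizer C of z with defect group D that induces B (a major subsection (z, b)). If b has 2-regular rank at most three, then 3·k(B) ≤ 3·k₀(B) + 2·Σ 2 ^ h(χ), where k(B) is the number of members of B, k₀(B) the number of members of height zero, and the sum runs over the members χ of B of positive height h(χ); this bound is at most 3·2 ^ d, so in particular B contains at most 2 ^ d irreducible characters. -/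
theorem result {G : Type*} [Group G] [Finite G] (M : Ideal Cfsg.AlgInt) (hM : Cfsg.IsPModular 2 M) (B : Set (Cfsg.IrrCharacter G)) (hB : Cfsg.IsPBlock M B) (D : Subgroup G) (hD : Cfsg.IsDefectGroup 2 M B D) (z : G) (hzD : z ∈ D) (hzc : ∀ d ∈ D, d * z = z * d) (b : Set (Cfsg.IrrCharacter ↥(Subgroup.centralizer ({z} : Set G)))) (hb : Cfsg.IsInducedBlock M (Subgroup.centralizer ({z} : Set G)) b B) (hbD : Cfsg.IsDefectGroup 2 M b (D.subgroupOf (Subgroup.centralizer ({z} : Set G)))) (hl : Cfsg.blockRank 2 b ≤ 3) : 3 * Nat.card B ≤ 3 * Nat.card {χ : Cfsg.IrrCharacter G // χ ∈ B ∧ Cfsg.blockHeight 2 B (χ : G → ℂ) = 0} + 2 * (∑ᶠ χ ∈ {χ : Cfsg.IrrCharacter G | χ ∈ B ∧ 1 ≤ Cfsg.blockHeight 2 B (χ : G → ℂ)}, 2 ^ Cfsg.blockHeight 2 B (χ : G → ℂ)) ∧ 3 * Nat.card {χ : Cfsg.IrrCharacter G // χ ∈ B ∧ Cfsg.blockHeight 2 B (χ : G → ℂ) = 0} + 2 * (∑ᶠ χ ∈ {χ : Cfsg.IrrCharacter G | χ ∈ B ∧ 1 ≤ Cfsg.blockHeight 2 B (χ : G → ℂ)}, 2 ^ Cfsg.blockHeight 2 B (χ : G →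 ℂ)) ≤ 3 * 2 ^ Cfsg.blockDefect 2 B := by
  classical
  have hz : ∃ k, orderOf z = 2 ^ k := orderOf_eq_pow_of_mem (isPGroup_of_isDefectGroup hD) hzD
  have hd := blockDefect_eq_of_majorSub hM hb hD hbD fun d hd =>
    mem_centralizer_singleton_iff.2 (hzc d hd)
  have hN : (0 : ℝ) < (gens z).card := Nat.cast_pos.2 (card_gens_pos z)
  have hsum : ∀ F : ℕ → ℕ, ∑ χ ∈ Finset.univ.filter (· ∈ B), (if blockHeight 2 B (χ : G → ℂ) = 0
      then 3 else F (blockHeight 2 B (χ : G → ℂ))) = 3 * Nat.card {χ : Cfsg.IrrCharacter G // χ ∈ B ∧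
      Cfsg.blockHeight 2 B (χ : G → ℂ) = 0} + ∑ᶠ χ ∈ {χ : Cfsg.IrrCharacter G | χ ∈ B ∧
      1 ≤ Cfsg.blockHeight 2 B (χ : G → ℂ)}, F (blockHeight 2 B (χ : G → ℂ)) := fun F => by
    rw [Finset.sum_ite, Finset.sum_const, natCard_height_eq, finsum_mem_irr_filter, smul_eq_mul,
      mul_comm, Finset.filter_filter]
    congr 2
    ext χ
    simp [Nat.one_le_iff_ne_zero]
  rw [finsum_mem_irr_filter, Finset.mul_sum, ← finsum_mem_irr_filter _ fun χ : IrrCharacter G =>
    2 * 2 ^ blockHeight 2 B (χ : G → ℂ), ← hsum (fun h => 2 * 2 ^ h)]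
  constructor
  · rw [natCard_block_eq, mul_comm, ← smul_eq_mul]
    refine Finset.card_nsmul_le_sum _ _ _ fun χ _ => ?_
    split_ifs with h
    · rfl
    · have := Nat.pow_le_pow_right two_pos (Nat.one_le_iff_ne_zero.2 h)
      omega
  by_cases h : ∃ ψ ∈ B, blockHeight 2 B (ψ : G → ℂ) = 0 ∧ dsum 2 b z (ψ : G → ℂ) = (gens z).card
  · obtain ⟨ψ, hψ, hψ0, h⟩ := h
    have h1 := (Finset.sum_le_sum fun χ hχ => card_mul_le_osum2_of_major hM hz rfl hb hd hψ hψ0
      (Finset.mem_filter.1 hχ).2).trans_eq (sum_osum2 hM hz rfl hb _)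
    rw [h, ← Finset.mul_sum, mul_comm, hd] at h1
    have h2 : ∑ χ ∈ Finset.univ.filter (· ∈ B), 2 ^ (2 * blockHeight 2 B (χ : G → ℂ)) ≤
        2 ^ blockDefect 2 B := by exact_mod_cast le_of_mul_le_mul_right h1 hN
    refine le_trans ?_ (Nat.mul_le_mul_left 3 h2)
    rw [Finset.mul_sum]
    refine Finset.sum_le_sum fun χ _ => ?_
    split_ifs with h
    · simp [h]
    · have := Nat.pow_le_pow_right two_pos (show blockHeight 2 B (χ : G → ℂ) ≤
        2 * blockHeight 2 B (χ : G → ℂ) by omega)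
      omega
  · have h1 : ∀ χ ∈ Finset.univ.filter (· ∈ B), (gens z).card *
        ((if blockHeight 2 B (χ : G → ℂ) = 0 then 3 else 2 * 2 ^ blockHeight 2 B (χ : G → ℂ) : ℕ) :
          ℝ) ≤ dsum 2 b z (χ : G → ℂ) := fun χ hχ => by
      replace hχ := (Finset.mem_filter.1 hχ).2
      split_ifs with h0
      · obtain ⟨a, ⟨i, rfl⟩, ha⟩ := exists_odd_dsum hM hz rfl hb hχ h0
        have : i ≠ 0 := by
          rintro rfl
          exact h ⟨χ, hχ, h0, by simpa using ha⟩
        rw [ha]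
        exact mul_le_mul_of_nonneg_left (Nat.cast_le.2 (by omega)) hN.le
      · obtain ⟨a, ha, h2⟩ := exists_dsum_of_major hM hz rfl hb hd hχ h0
        rw [h2]
        refine mul_le_mul_of_nonneg_left ?_ hN.le
        rw [mul_comm 2]
        exact_mod_cast Nat.mul_le_mul_left _ ha
    have h2 := (Finset.sum_le_sum h1).trans_eq (sum_dsum hM hz rfl hb)
    rw [← Finset.mul_sum, hd] at h2
    have h3 := le_of_mul_le_mul_left h2 hN
    refine le_trans ?_ ((Nat.mul_le_mul_left (2 ^ blockDefect 2 B) hl).trans_eq (mul_comm _ _))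
    exact_mod_cast h3

end Cfsg.Agent.S4540
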