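import Cfsg.Statements.S4549
import Cfsg.Agent.Block.PrincipalPow

set_option autoImplicit false
open Cfsg

namespace Cfsg.Agent.S4549

open Cfsg.Agent.Char Cfsg.Agent.Block

/-- Let G be a finite group and M a maximal ideal of the algebraic integers containing 2. Let k be a natural number with g ^ k = g ^ 3 for every 2-element g and g ^ k = g for every element g of odd order (such k exist); an irreducible character χ is unchanged by g ↦ g ^ k exactly when it is fixed by the field automorphism that cubes the 2-power roots of unity and fixes the roots of unity of odd order. Then G has a normal 2-complement if and only if every member χ of the principal 2-block of odd degree with χ (g ^ k) = χ g for all g has degree one. -/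
theorem result {G : Type*} [Group G] [Finite G] (M : Ideal Cfsg.AlgInt) (hM : Cfsg.IsPModular 2 M) (k : ℕ) (hk₁ : ∀ g : G, (∃ j : ℕ, orderOf g = 2 ^ j) → g ^ k = g ^ 3) (hk₂ : ∀ g : G, Odd (orderOf g) → g ^ k = g) : Cfsg.HasNormalPComplement 2 G ↔ ∀ χ ∈ Cfsg.principalBlock M G, Odd (Cfsg.charDegree (χ : G → ℂ)) → (∀ g : G, (χ : G → ℂ) (g ^ k) = (χ : G → ℂ) g) → Cfsg.charDegree (χ : G → ℂ) = 1 := by
  haveI : Fact (Nat.Prime 2) := ⟨Nat.prime_two⟩
  obtain ⟨hk, n, hn⟩ := cube_exponent hk₁ hk₂
  constructor
  · intro h χ hχ hodd _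
    exact charDegree_eq_one_of_hasNormalPComplement hM h hχ hodd.not_two_dvd_nat
  · intro h
    exact hasNormalPComplement_of_principal_linear hM hk hn fun χ hχ hd hf =>
      h χ hχ (Nat.odd_iff.2 (Nat.two_dvd_ne_zero.1 hd)) hf

end Cfsg.Agent.S4549
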