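import Cfsg.Statements.S4550
import Cfsg.Agent.Block.PrincipalPow

set_option autoImplicit false
open Cfsg

namespace Cfsg.Agent.S4550

open Cfsg.Agent.Char Cfsg.Agent.Block

/-- Let G be a finite group of even order and M a maximal ideal of the algebraic integers containing 2. Let k be a natural number with g ^ k = g ^ 3 for every 2-element g and g ^ k = g for every element g of odd order (such k exist); an irreducible character χ is unchanged by g ↦ g ^ k exactly when it is fixed by the field automorphism that cubes the 2-power roots of unity and fixes the roots of unity of odd order. Then the number of members χ of the principal 2-block of odd degree with χ (g ^ k) = χ g for all g is even. -/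
theorem result {G : Type*} [Group G] [Finite G] (M : Ideal Cfsg.AlgInt) (hM : Cfsg.IsPModular 2 M) (hev : Even (Nat.card G)) (k : ℕ) (hk₁ : ∀ g : G, (∃ j : ℕ, orderOf g = 2 ^ j) → g ^ k = g ^ 3) (hk₂ : ∀ g : G, Odd (orderOf g) → g ^ k = g) : Even (Nat.card {χ : Cfsg.IrrCharacter G // χ ∈ Cfsg.principalBlock M G ∧ Odd (Cfsg.charDegree (χ : G → ℂ)) ∧ ∀ g : G, (χ : G → ℂ) (g ^ k) = (χ : G → ℂ) g}) := by
  classical
  haveI : Fact (Nat.Prime 2) := ⟨Nat.prime_two⟩
  obtain ⟨hk, n, hn⟩ := cube_exponent hk₁ hk₂
  have h1 := sum_principal_fixed_eq_zero hM hk hn hev.two_dvd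
  rw [even_iff_two_dvd, ← ZMod.natCast_eq_zero_iff, ← h1, Nat.card_eq_fintype_card,
    Fintype.card_subtype, Finset.card_filter]
  push_cast
  refine Finset.sum_congr rfl fun χ _ => ?_
  rcases Nat.even_or_odd (Cfsg.charDegree (χ : G → ℂ)) with h | h
  · rw [if_neg (fun h' => (Nat.not_odd_iff_even.2 h) h'.2.1),
      (ZMod.natCast_eq_zero_iff _ _).2 h.two_dvd]
    simp
  · rw [(ZMod.natCast_eq_one_iff_odd).2 h]
    simp [h]

end Cfsg.Agent.S4550
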