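import Cfsg.Statements.S4548
import Cfsg.Agent.Eta.Three
import Cfsg.Agent.Block.AlgBasic
import Cfsg.Agent.Grp.PFrattini
import Cfsg.Agent.S4549
import Cfsg.Agent.S4550

set_option autoImplicit false
open Cfsg

namespace Cfsg.Agent.S4548

open Cfsg.Agent.Char Cfsg.Agent.Block Cfsg.Agent.Eta Subgroup

open Classical in
theorem sum_fixed {X V : Type*} [Finite X] {p : ℕ} [Fact p.Prime] [AddCommGroup V]
    (hV : ∀ v : V, p • v = 0) (f : X → X) (hinj : Function.Injective f)
    {n : ℕ} (hf : ∀ x, f^[p ^ n] x = x) (s : Finset X) (hs : ∀ x ∈ s, f x ∈ s) (F : X → V)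
    (hF : ∀ x, F (f x) = F x) :
    ∑ x ∈ s, F x = ∑ x ∈ s.filter (fun x => f x = x), F x := by
  let σ : Equiv.Perm X := Equiv.ofBijective f (Finite.injective_iff_bijective.1 hinj)
  have hσ : σ ^ p ^ n = 1 := by
    ext x
    rw [Equiv.Perm.coe_pow]
    exact hf x
  have hP : IsPGroup p (zpowers σ) := by
    rintro ⟨_, m, rfl⟩
    refine ⟨n, Subtype.ext ?_⟩
    show (σ ^ m) ^ p ^ n = 1
    rw [← zpow_natCast, ← zpow_mul, mul_comm, zpow_mul, zpow_natCast, hσ, one_zpow]
  have hF' : ∀ (a : zpowers σ) (x : X), (x ∈ s → a.1 x ∈ s) ∧ F (a.1 x) = F x := by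
    rintro ⟨a, ha⟩ x
    obtain ⟨m, rfl⟩ := mem_powers_iff_mem_zpowers.2 ha
    show (x ∈ s → (σ ^ m) x ∈ s) ∧ F ((σ ^ m) x) = F x
    clear ha
    induction m with
    | zero => exact ⟨id, rfl⟩
    | succ m ih =>
      rw [pow_succ', Equiv.Perm.mul_apply]
      exact ⟨fun h => hs _ (ih.1 h), (hF _).trans ih.2⟩
  rw [Alg.sum_eq_sum_fixed hV hP (fun a x => a.1 x) (fun _ => rfl) (fun _ _ _ => rfl) s
    (fun a y hy => (hF' a y).1 hy) F (fun a y _ => (hF' a y).2)]
  refine Finset.sum_congr (Finset.filter_congr fun x _ => ⟨fun h => h ⟨σ, mem_zpowers σ⟩, ?_⟩)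
    fun _ _ => rfl
  rintro h ⟨_, m, rfl⟩
  exact Equiv.Perm.zpow_apply_eq_self_of_apply_eq_self (f := σ) h m

open Classical in
theorem fixed_osima {G : Type*} [Group G] [Finite G] {M : Ideal AlgInt} {p k : ℕ} [Fact p.Prime]
    (hM : IsPModular p M) (hG : p ∣ Nat.card G) (hk : k.Coprime (Nat.card G)) {n : ℕ}
    (hkn : ∀ g : G, g ^ k ^ p ^ n = g) (hk₂ : ∀ g : G, ¬ p ∣ orderOf g → g ^ k = g) (g : G) :
    val M (∑ χ ∈ (H0 p M G).filter (fun χ => powIrr hk χ = χ),
      (charDegree χ.1 : ℂ) * χ.1 g) < 1 := by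
  have := charP_resField hM
  have hv : ∀ (χ : IrrCharacter G) (x : G), val M ((charDegree χ.1 : ℂ) * χ.1 x) ≤ 1 :=
    fun χ x => val_mul_le_one (val_natCast_le_one _) (val_char χ x)
  have h1 := red_eq_zero_of_lt (osima hM hG (pReg p g))
  rw [red_sum fun χ _ => hv χ _, sum_fixed (p := p) (fun v => by simp) (powIrr hk) (powIrr_inj hk)
    (n := n) (fun χ => Subtype.ext (funext fun g => by rw [powIrr_iterate, hkn])) _
    (fun χ h => pow_mem_H0 hk h) _ (fun χ => by
      rw [charDegree_powIrr, powIrr_apply, hk₂ _ (not_dvd_orderOf_pReg p g)]),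
    ← red_sum fun χ _ => hv χ _, red_eq_zero_iff (val_sum_le_one fun χ _ => hv χ _)] at h1
  refine val_lt_one_of_sub_lt h1 ?_
  have h2 : val M (∑ χ ∈ (H0 p M G).filter (fun χ => powIrr hk χ = χ),
      ((charDegree χ.1 : ℂ) * χ.1 g - (charDegree χ.1 : ℂ) * χ.1 (pReg p g))) < 1 := by
    refine val_sum_lt_one fun χ _ => ?_
    rw [← mul_sub]
    exact val_mul_lt_one_right (val_natCast_le_one _)
      (val_char_sub_pReg_lt_one hM χ.2.isCharacter g)
  rw [Finset.sum_sub_distrib] at h2
  convert h2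

open Classical in
/-- The sign character of a subgroup of index two. -/
noncomputable def sgn {G : Type*} [Group G] (H : Subgroup G) (h : H.index = 2) : G →* ℂˣ where
  toFun g := if g ∈ H then 1 else -1
  map_one' := if_pos H.one_mem
  map_mul' a b := by
    rw [mul_mem_iff_of_index_two h]
    by_cases ha : a ∈ H <;> by_cases hb : b ∈ H <;> simp [ha, hb]

theorem sgn_eq_one {G : Type*} [Group G] (H : Subgroup G) (h : H.index = 2) (g : G) :
    (sgn H h g : ℂ) = 1 ↔ g ∈ H := by
  by_cases hg : g ∈ H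
  · simp [sgn, hg]
  · simp [sgn, hg]; norm_num

theorem sgn_or {G : Type*} [Group G] (H : Subgroup G) (h : H.index = 2) (g : G) :
    (sgn H h g : ℂ) = 1 ∨ (sgn H h g : ℂ) = -1 := by
  by_cases hg : g ∈ H <;> simp [sgn, hg]

/-- Let G be a finite group of even order with Sylow 2-subgroup P and M a maximal ideal of the algebraic integers containing 2. Let k be a natural number with g ^ k = g ^ 3 for every 2-element g and g ^ k = g for every element g of odd order (such k exist); an irreducible character χ is unchanged by g ↦ g ^ k exactly when it is fixed by the field automorphism that cubes the 2-power roots of unity and fixes the roots of unity of odd order. Then P is cyclic if and only if exactly two members χ of the principal 2-block of odd degree satisfy χ (g ^ k) = χ g for all g. -/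
theorem result {G : Type*} [Group G] [Finite G] (M : Ideal Cfsg.AlgInt) (hM : Cfsg.IsPModular 2 M) (hev : Even (Nat.card G)) (P : Sylow 2 G) (k : ℕ) (hk₁ : ∀ g : G, (∃ j : ℕ, orderOf g = 2 ^ j) → g ^ k = g ^ 3) (hk₂ : ∀ g : G, Odd (orderOf g) → g ^ k = g) : IsCyclic P ↔ Nat.card {χ : Cfsg.IrrCharacter G // χ ∈ Cfsg.principalBlock M G ∧ Odd (Cfsg.charDegree (χ : G → ℂ)) ∧ ∀ g : G, (χ : G → ℂ) (g ^ k) = (χ : G → ℂ) g} = 2 := by
  classical
  haveI : Fact (Nat.Prime 2) := ⟨Nat.prime_two⟩
  obtain ⟨hk, n, hn⟩ := cube_exponent hk₁ hk₂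
  have hev2 := S4550.result M hM hev k hk₁ hk₂
  set F := (H0 2 M G).filter (fun χ => powIrr hk χ = χ) with hF
  have memF : ∀ χ, χ ∈ F ↔ χ ∈ principalBlock M G ∧ Odd (charDegree (χ : G → ℂ)) ∧
      ∀ g : G, (χ : G → ℂ) (g ^ k) = (χ : G → ℂ) g := fun χ => by
    rw [hF, Finset.mem_filter, mem_H0, powIrr_eq_iff, and_assoc, Nat.odd_iff,
      Nat.two_dvd_ne_zero]
  have hc : Nat.card {χ : IrrCharacter G // χ ∈ principalBlock M G ∧
      Odd (charDegree (χ : G → ℂ)) ∧ ∀ g : G, (χ : G → ℂ) (g ^ k) = (χ : G → ℂ) g} = F.card := by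
    rw [Nat.card_eq_fintype_card, Fintype.card_subtype]
    congr 1
    ext χ
    simp [memF]
  rw [hc] at hev2 ⊢
  have h1F : irrOne G ∈ F := Finset.mem_filter.2 ⟨one_mem_H0 hM, rfl⟩
  constructor
  · intro hP
    have hC := hP.isComplement' (P := P) (by
      rw [Nat.minFac_eq, if_pos hev.two_dvd])
    set N := (MonoidHom.transferSylow P (hP.normalizer_le_centralizer (by
      rw [Nat.minFac_eq, if_pos hev.two_dvd]))).ker
    have hN : ¬ 2 ∣ Nat.card N := hC.index_eq_card ▸ P.not_dvd_index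
    have hlin := (S4549.result M hM k hk₁ hk₂).1 ⟨P, N, inferInstance, hC⟩
    obtain ⟨x, hx⟩ := hP.exists_generator
    have hom : ∀ χ ∈ F, ∃ μ : G →* ℂˣ, χ.1 = fun g => (μ g : ℂ) := fun χ hχ =>
      exists_hom_of_isCharacter_one χ.2.isCharacter ((charDegree_eq_one_iff χ.2.isCharacter).1
        (hlin χ ((memF χ).1 hχ).1 ((memF χ).1 hχ).2.1 ((memF χ).1 hχ).2.2))
    have hle : F.card ≤ ({1, -1} : Finset ℂ).card := by
      refine Finset.card_le_card_of_injOn (fun χ => χ.1 x) (fun χ hχ => ?_) fun χ hχ ψ hψ e => ?_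
      · obtain ⟨μ, hμ⟩ := hom χ hχ
        have h2 := ((memF χ).1 hχ).2.2 x
        rw [hk₁ _ (orderOf_eq_pow_of_mem P.2 x.2), hμ] at h2
        simp only [map_pow, Units.val_pow_eq_pow_val] at h2
        have h3 : (μ x : ℂ) ^ 2 = 1 := mul_right_cancel₀ (μ x).ne_zero (by
          rw [← pow_succ, one_mul]; exact h2)
        simpa [hμ] using h3
      · obtain ⟨μ, hμ⟩ := hom χ hχ
        obtain ⟨ν, hν⟩ := hom ψ hψ
        ext g
        obtain ⟨⟨a, b⟩, rfl⟩ := hC.2 g
        obtain ⟨j, hj⟩ := hx b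
        have e1 := apply_eq_of_mem_principal hM ((memF χ).1 hχ).1 N hN a.2
        have e2 := apply_eq_of_mem_principal hM ((memF ψ).1 hψ).1 N hN a.2
        simp only [hμ, hν, map_one, Units.val_one] at e e1 e2
        have e3 : (b : G) = (x : G) ^ j := by rw [← hj]; rfl
        simp only [hμ, hν, map_mul, Units.val_mul, e1, e2, e3, map_zpow,
          Units.val_zpow_eq_zpow_val, e]
    have h2 := Finset.card_pos.2 ⟨_, h1F⟩
    have h3 := Finset.card_le_two (a := (1 : ℂ)) (b := -1)
    obtain ⟨r, hr⟩ := hev2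
    omega
  · intro h
    obtain ⟨χ, hχ⟩ := Finset.card_eq_one.1 (show (F.erase (irrOne G)).card = 1 by
      rw [Finset.card_erase_of_mem h1F, h])
    have h1 : charDegree χ.1 = 1 := deg_eq_one (M := M) (c := charDegree χ.1) fun g => by
      have := fixed_osima hM hev.two_dvd hk hn
        (fun g hg => hk₂ g (Nat.odd_iff.2 (Nat.two_dvd_ne_zero.1 hg))) g
      rw [← hF, ← Finset.add_sum_erase _ _ h1F, hχ, Finset.sum_singleton, deg_one] at this
      simpa using this
    have h2 := (S4549.result M hM k hk₁ hk₂).2 fun ψ a b c => by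
      by_cases e : ψ = irrOne G
      · rw [e, deg_one]
      · have : ψ ∈ F.erase (irrOne G) := Finset.mem_erase.2 ⟨e, (memF ψ).2 ⟨a, b, c⟩⟩
        rw [hχ, Finset.mem_singleton] at this
        rw [this, h1]
    obtain ⟨N, hN, hC⟩ := (Transfer.hasNormalPComplement_iff_sylow P).1 h2
    let π : G →* P := hC.symm.QuotientMulEquiv.toMonoidHom.comp (QuotientGroup.mk' N)
    have hπ : Function.Surjective π :=
      hC.symm.QuotientMulEquiv.surjective.comp (QuotientGroup.mk'_surjective N)
    have hodd : Odd k := Nat.coprime_two_right.1 (hk.coprime_dvd_right hev.two_dvd)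
    have key : ∀ (H : Subgroup G) (hH : H.index = 2),
        (⟨_, isIrrCharacter_hom (sgn H hH)⟩ : IrrCharacter G) = χ := by
      intro H hH
      rw [← Finset.mem_singleton, ← hχ, Finset.mem_erase, memF]
      refine ⟨fun e => ?_, (mem_linPrincipal hM _).1 fun g => ?_, ?_, fun g => ?_⟩
      · have : H = ⊤ := eq_top_iff.2 fun g _ =>
          (sgn_eq_one H hH g).1 (congrFun (congrArg Subtype.val e) g)
        simp [this] at hH
      · refine val_mul_lt_one_right (val_natCast_le_one _) ?_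
        rcases sgn_or H hH g with e | e <;> rw [e]
        · simp
        · have := (val_intCast_lt_one_iff hM (-2)).2 (by norm_num)
          convert this using 2; norm_num
      · rw [charDegree_eq_of_one_eq (n := 1) (by simp)]; exact odd_one
      · show ((sgn H hH (g ^ k) : ℂˣ) : ℂ) = sgn H hH g
        rw [map_pow, Units.val_pow_eq_pow_val]
        rcases sgn_or H hH g with e | e <;> rw [e]
        · simp
        · exact hodd.neg_one_pow
    by_contra hP
    have hco : ∀ x : P, ∃ K : Subgroup P, IsCoatom K ∧ x ∈ K := fun x => by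
      obtain ⟨K, h1, h2⟩ := (eq_top_or_exists_le_coatom (zpowers x)).resolve_left fun e =>
        hP ⟨x, fun y => show y ∈ zpowers x from e ▸ mem_top y⟩
      exact ⟨K, h1, h2 (mem_zpowers x)⟩
    obtain ⟨K, hK, -⟩ := hco 1
    obtain ⟨x, hx⟩ : ∃ x, x ∉ K := by
      by_contra e
      push Not at e
      exact hK.1 (eq_top_iff.2 fun x _ => e x)
    obtain ⟨L, hL, hx'⟩ := hco x
    have i1 : (K.comap π).index = 2 := by
      rw [index_comap_of_surjective _ hπ, Grp.PFrattini.index_of_isCoatom P.2 hK]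
    have i2 : (L.comap π).index = 2 := by
      rw [index_comap_of_surjective _ hπ, Grp.PFrattini.index_of_isCoatom P.2 hL]
    obtain ⟨g, rfl⟩ := hπ x
    have e := congrFun (congrArg Subtype.val ((key _ i1).trans (key _ i2).symm)) g
    exact hx ((sgn_eq_one _ i1 g).1 (e.trans ((sgn_eq_one _ i2 g).2 hx')))

end Cfsg.Agent.S4548
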