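import Cfsg.Statements.S4551
import Mathlib
import Cfsg.Agent.Block.DadeIso

set_option autoImplicit false
open Cfsg

set_option linter.style.haveILetI false
set_option linter.unusedVariables false

namespace Cfsg.Agent.S4551

open Block Cfsg.Agent.Char Subgroup

/-- Let N be a normal subgroup of the finite group G of index prime to p, P a Sylow p-subgroup of G with G = N·C_G(P), and M a maximal ideal of the algebraic integers containing p. Then restriction to N is a bijection from the principal p-block of G onto the principal p-block of N: every member of the principal block of G restricts to a member of the principal block of N, and every member of the principal block of N is the restriction of exactly one member of the principal block of G. -/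
theorem result {G : Type*} [Group G] [Finite G] (p : ℕ) [Fact p.Prime] (M : Ideal Cfsg.AlgInt) (hM : Cfsg.IsPModular p M) (N : Subgroup G) [N.Normal] (hidx : ¬ p ∣ N.index) (P : Sylow p G) (hsup : N ⊔ Subgroup.centralizer ((P : Subgroup G) : Set G) = ⊤) : (∀ χ ∈ Cfsg.principalBlock M G, ∃ θ ∈ Cfsg.principalBlock M ↥N, ∀ n : N, (χ : G → ℂ) n = (θ : N → ℂ) n) ∧ ∀ θ ∈ Cfsg.principalBlock M ↥N, ∃! χ : Cfsg.IrrCharacter G, χ ∈ Cfsg.principalBlock M G ∧ ∀ n : N, (χ : G → ℂ) n = (θ : N → ℂ) n := by
  have := Fintype.ofFinite G
  have := Fintype.ofFinite N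
  have hPN : (P : Subgroup G) ≤ N := by
    have h1 : N.relIndex (P : Subgroup G) = 1 := by
      obtain ⟨k, hk⟩ := P.isPGroup'.index (N.subgroupOf (P : Subgroup G))
      have h2 : N.relIndex (P : Subgroup G) ∣ N.index := relIndex_dvd_index_of_normal N _
      rw [relIndex, hk] at h2 ⊢
      rcases k with _ | k
      · rfl
      · exact absurd ((dvd_pow_self p k.succ_ne_zero).trans h2) hidx
    exact relIndex_eq_one.1 h1
  have key := fun θ hθ χ hχ h1 => principal_restrict_of_sup_centralizer hM hidx P.not_dvd_index hPN
    hsup (θ := θ) hθ (χ := χ) hχ h1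
  refine ⟨fun χ hχ => ?_, fun θ hθ => ?_⟩
  · obtain ⟨θ, hθ, h1⟩ := mem_above.1 ((covers_principal (N := N) hM).subset_above hM
      isPBlock_principal isPBlock_principal hχ)
    exact ⟨θ, hθ, (key θ hθ χ hχ h1).1⟩
  · obtain ⟨χ, hχ, h1⟩ := (covers_principal (N := N) hM).exists_over hM isPBlock_principal
      isPBlock_principal hθ
    refine ⟨χ, ⟨hχ, (key θ hθ χ hχ h1).1⟩, fun ψ hψ => (key θ hθ χ hχ h1).2 ψ hψ.1 ?_⟩
    rw [funext hψ.2]
    erw [θ.2.inner_self]
    exact one_ne_zero

end Cfsg.Agent.S4551
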