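import Cfsg.Statements.S4552
import Cfsg.Agent.Block.Homocyclic
import Cfsg.Agent.Block.Nilpotent
import Cfsg.Agent.S4639

set_option autoImplicit false
open Cfsg

namespace Cfsg.Agent.S4552

open Cfsg.Agent.Block Subgroup

section
variable {G : Type*} [Group G] [Finite G] {P T : Subgroup G}

theorem mem_of_two (hT : T ≤ normalizer (P : Set G))
    (ho : ¬ 2 ∣ (centralizer (P : Set G)).relIndex T) {x : G} (hx : x ∈ T)
    (h2 : ∃ k, orderOf x = 2 ^ k) : x ∈ centralizer (P : Set G) := by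
  obtain ⟨k, hk⟩ := h2
  have : ((centralizer (P : Set G)).subgroupOf T).Normal :=
    (normal_subgroupOf_iff_le_normalizer_inf.2 (by
      intro g hg
      refine inf_normalizer_le_normalizer_inf ⟨?_, T.le_normalizer hg⟩
      exact Alg.normalizer_le_normalizer_centralizer _ (hT hg)))
  have h1 := ((centralizer (P : Set G)).subgroupOf T).pow_index_mem ⟨x, hx⟩
  rw [mem_subgroupOf] at h1
  have hc : Nat.Coprime ((centralizer (P : Set G)).relIndex T) (orderOf x) := by
    rw [hk]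
    exact ((Nat.prime_two.coprime_iff_not_dvd.2 ho).symm).pow_right k
  obtain ⟨m, hm⟩ := exists_pow_eq_self_of_coprime hc
  rw [← hm]
  exact pow_mem h1 m

theorem free (hP : IsPGroup 2 P) [IsMulCommutative P] (hT : T ≤ normalizer (P : Set G))
    (ho : ¬ 2 ∣ (centralizer (P : Set G)).relIndex T)
    (h3 : {t : G | t ∈ P ∧ orderOf t = 2}.ncard ≤ 3) {n z : G} (hn : n ∈ T) (hz : z ∈ P)
    (hz1 : z ≠ 1) (hnz : Commute n z) : n ∈ centralizer (P : Set G) := by
  rw [← pPart_mul_pReg 2 n]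
  refine mul_mem (mem_of_two hT ho (pPart_mem hn) (orderOf_pPart 2 n)) ?_
  set r := pReg 2 n with hr
  have hrn : r ∈ normalizer (P : Set G) := pReg_mem (hT hn)
  have hodd : ¬ 2 ∣ orderOf r := not_dvd_orderOf_pReg 2 n
  have key : ∀ s ∈ P, orderOf s = 2 → Commute r s := by
    intro s hs hs2
    obtain ⟨t, ht, ht2⟩ := Inv.exists_involution_of_isPGroup
      (hP.to_le (zpowers_le.2 hz)) (by simpa using hz1)
    have htP : t ∈ P := zpowers_le.2 hz ht
    have hrt : Commute r t := by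
      obtain ⟨j, rfl⟩ := mem_zpowers_iff.1 ht
      exact (commute_pReg hnz.symm).symm.zpow_right j
    by_contra hcon
    have hc2 : ¬ Commute (r * r) s := fun h => hcon (commute_of_sq_commute_of_odd hodd h)
    have hst : s ≠ t := fun h => hcon (h ▸ hrt)
    have hconj : ∀ x, x ∈ {t : G | t ∈ P ∧ orderOf t = 2} →
        r * x * r⁻¹ ∈ {t : G | t ∈ P ∧ orderOf t = 2} := fun x hx =>
      ⟨(mem_normalizer_iff.1 hrn x).1 hx.1, by rw [orderOf_conj_eq, hx.2]⟩
    have hrt' : r * t * r⁻¹ = t := by rw [hrt.eq]; simp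
    have hsub : ({t, s, r * s * r⁻¹, r * (r * s * r⁻¹) * r⁻¹} : Set G) ⊆
        {t : G | t ∈ P ∧ orderOf t = 2} := by
      intro x hx
      simp only [Set.mem_insert_iff, Set.mem_singleton_iff] at hx
      rcases hx with rfl | rfl | rfl | rfl
      · exact ⟨htP, ht2⟩
      · exact ⟨hs, hs2⟩
      · exact hconj _ ⟨hs, hs2⟩
      · exact hconj _ (hconj _ ⟨hs, hs2⟩)
    have hinj : ∀ x y : G, r * x * r⁻¹ = r * y * r⁻¹ → x = y := fun x y h => by simpa using h
    have h1 : r * s * r⁻¹ ≠ t := fun h => hst (hinj _ _ (h.trans hrt'.symm))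
    have h2 : r * (r * s * r⁻¹) * r⁻¹ ≠ t := fun h => h1 (hinj _ _ (h.trans hrt'.symm))
    have h4 : r * s * r⁻¹ ≠ s := fun h => hcon (by rwa [mul_inv_eq_iff_eq_mul] at h)
    have h5 : r * (r * s * r⁻¹) * r⁻¹ ≠ r * s * r⁻¹ := fun h => h4 (hinj _ _ h)
    have h6 : r * (r * s * r⁻¹) * r⁻¹ ≠ s := fun h => hc2 (by
      change r * r * s = s * (r * r)
      conv_rhs => rw [← h]
      group)
    have hcard : ({t, s, r * s * r⁻¹, r * (r * s * r⁻¹) * r⁻¹} : Set G).ncard = 4 := by
      rw [Set.ncard_insert_of_notMem (by simp [hst.symm, h1.symm, h2.symm]),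
        Set.ncard_insert_of_notMem (by simp [h4.symm, h6.symm]), Set.ncard_pair h5.symm]
    have := Set.ncard_le_ncard hsub
    omega
  have := Solv.coprime_le_centralizer_of_prime_order (zpowers r) P (zpowers_le.2 hrn) ?_ ?_
  · exact this (mem_zpowers _)
  · rw [Nat.card_zpowers]
    exact Solv.coprime_card_of_isPGroup hP (not_dvd_iff_coprime.1 hodd)
  · intro v hv hpr a ha
    obtain ⟨k, hk⟩ := orderOf_eq_pow_of_mem hP hv
    have hvp : orderOf v = 2 := by
      have : orderOf v ∣ 2 := hpr.dvd_of_dvd_pow hk.dvd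
      exact (Nat.prime_dvd_prime_iff_eq hpr Nat.prime_two).1 this
    obtain ⟨j, rfl⟩ := mem_zpowers_iff.1 ha
    exact (key v hv hvp).zpow_left j

theorem relIndex_le (hP : IsPGroup 2 P) [IsMulCommutative P] (hP1 : P ≠ ⊥)
    (hT : T ≤ normalizer (P : Set G)) (ho : ¬ 2 ∣ (centralizer (P : Set G)).relIndex T)
    (h3 : {t : G | t ∈ P ∧ orderOf t = 2}.ncard ≤ 3) :
    (centralizer (P : Set G)).relIndex T ≤ 3 := by
  obtain ⟨z, hz, hz2⟩ := Inv.exists_involution_of_isPGroup hP hP1
  let _ : MulAction T G := MulAction.compHom G ((MulAut.conj (G := G)).comp (Subgroup.subtype _))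
  have h1 := MulAction.index_stabilizer T z
  have h2 : MulAction.stabilizer T z = (centralizer (P : Set G)).subgroupOf _ := by
    ext n
    rw [MulAction.mem_stabilizer_iff, mem_subgroupOf]
    change (n : G) * z * (n : G)⁻¹ = z ↔ _
    rw [mul_inv_eq_iff_eq_mul]
    exact ⟨fun h => free hP hT ho h3 n.2 hz (Inv.ne_one_of_orderOf_two hz2) h,
      fun h => (h z hz).symm⟩
  rw [relIndex, ← h2, h1]
  refine le_trans (Set.ncard_le_ncard ?_) h3
  rintro _ ⟨n, rfl⟩
  exact ⟨(mem_normalizer_iff.1 (hT n.2) z).1 hz, (orderOf_conj_eq _ _).trans hz2⟩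

end


/-- Let B be a 2-block of the finite group G (relative to a maximal ideal M of the algebraic integers containing 2) whose defect group D is the direct product of two cyclic groups of the same order 2 ^ m, m ≥ 2. Then either B has 2-regular rank one and exactly 4 ^ m irreducible characters, or B has 2-regular rank three and exactly (4 ^ m + 8) / 3 irreducible characters. -/
theorem result {G : Type*} [Group G] [Finite G] (M : Ideal Cfsg.AlgInt) (hM : Cfsg.IsPModular 2 M) (B : Set (Cfsg.IrrCharacter G)) (hB : Cfsg.IsPBlock M B) (D : Subgroup G) (hD : Cfsg.IsDefectGroup 2 M B D) (m : ℕ) (hm : 2 ≤ m) (hiso : Nonempty (D ≃* Multiplicative (ZMod (2 ^ m) × ZMod (2 ^ m)))) : (Cfsg.blockRank 2 B = 1 ∧ Nat.card B = 4 ^ m) ∨ (Cfsg.blockRank 2 B = 3 ∧ 3 * Nat.card B = 4 ^ m + 8) := by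
  obtain ⟨f⟩ := hiso
  have := charP_resField hM
  have := isMulCommutative_of_homocyclic f
  have h3 := ncard_involutions_of_homocyclic (by omega) f
  have hcard : Nat.card D = 4 ^ m := by
    rw [Nat.card_congr f.toEquiv, Nat.card_congr Multiplicative.toAdd, Nat.card_prod, Nat.card_zmod,
      ← mul_pow, show 2 * 2 = 4 from rfl]
  have h16 : 16 ≤ 4 ^ m := (by norm_num : 16 = 4 ^ 2) ▸ Nat.pow_le_pow_right (by norm_num) hm
  have hD1 : D ≠ ⊥ := fun h => by
    rw [h, card_bot] at hcard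
    omega
  obtain ⟨e, he⟩ := ((isDef_top_iff hM hB).2 hD).exists_maxBP (isPrim_redAlg_eSet hM hB)
  obtain ⟨c, hc, rfl⟩ := exists_block_of_isPrim_subtype hM (top_inf_eq (centralizer (D : Set G)) ▸ he.of.pair.prim)
  have hP := he.of.pair.pgroup
  have hind := (isInducedBlock_cent_iff_br hM hP hc hB).2 he.of.mul
  have hT := Alg.nst_le_normalizer ⊤ D (cbar M D c)
  have ho := he.not_dvd_relIndex
  rw [top_inf_eq, sup_eq_left.2 D.le_centralizer] at ho
  have hle := relIndex_le hP hD1 hT ho h3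
  set T := Alg.nst ⊤ D (cbar M D c) with hTdef
  have hfree : ∀ g ∈ T, ∀ x ∈ D, x ≠ 1 → g * x * g⁻¹ = x → g ∈ centralizer (D : Set G) :=
    fun g hg x hx hx1 h => free hP hT ho h3 hg hx hx1 (mul_inv_eq_iff_eq_mul.1 h)
  have h13 : (centralizer (D : Set G)).relIndex T = 1 ∨ (centralizer (D : Set G)).relIndex T = 3 := by
    omega
  have hn : ((centralizer (D : Set G)).subgroupOf T).Normal :=
    (normal_subgroupOf_iff_le_normalizer_inf.2 (by
      intro g hg
      refine inf_normalizer_le_normalizer_inf ⟨?_, T.le_normalizer hg⟩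
      exact Alg.normalizer_le_normalizer_centralizer _ (hT hg)))
  have hab : ∀ g ∈ T, ∀ h ∈ T, g * h * g⁻¹ * h⁻¹ ∈ centralizer (D : Set G) := by
    intro g hg h hh
    have hcyc : IsCyclic (T ⧸ (centralizer (D : Set G)).subgroupOf T) := by
      rcases h13 with h1 | h1
      · have : Subsingleton (T ⧸ (centralizer (D : Set G)).subgroupOf T) :=
          (Nat.card_eq_one_iff_unique.1 h1).1
        infer_instance
      · have : Fact (Nat.Prime 3) := ⟨Nat.prime_three⟩
        exact isCyclic_of_prime_card h1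
    have h2 : (QuotientGroup.mk (⟨g, hg⟩ * ⟨h, hh⟩ * ⟨g, hg⟩⁻¹ * ⟨h, hh⟩⁻¹ : T) :
        T ⧸ (centralizer (D : Set G)).subgroupOf T) = 1 := by
      simp only [QuotientGroup.mk_mul, QuotientGroup.mk_inv]
      rw [mul_comm' (QuotientGroup.mk (⟨g, hg⟩ : T) : T ⧸ _) (QuotientGroup.mk ⟨h, hh⟩)]
      simp
    exact mem_subgroupOf.1 ((QuotientGroup.eq_one_iff _).1 h2)
  obtain ⟨-, -, -, h4⟩ := Cfsg.Agent.S4639.result 2 M hM B hB D hD hD1
    (fun x hx y hy => (D.le_centralizer hy x hx)) c hind T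
    (fun g => mem_nst_cbar_iff hM hc) _ rfl hab hfree
  obtain ⟨h5, h6⟩ := h4 hle
  have h7 : 4 ^ m % 3 = 1 := by rw [Nat.pow_mod]; simp
  rw [hcard] at h5
  rcases h13 with h1 | h1 <;> rw [h1] at h5 h6
  · left
    exact ⟨h6, by omega⟩
  · right
    exact ⟨h6, by omega⟩

end Cfsg.Agent.S4552
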