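import Mathlib
import Cfsg.Statements.S4553
import Cfsg.Agent.Block.PrincipalPow
import Cfsg.Agent.Block.PrinReg
import Cfsg.Agent.Char.Gallagher

set_option autoImplicit false
open Cfsg

namespace Cfsg.Agent.S4553

open Cfsg.Agent.Block Cfsg.Agent.Char Subgroup

theorem card_hom_pow {G : Type*} [Group G] [Finite G] {p : ℕ} [hp : Fact p.Prime]
    (N : Subgroup G) [N.Normal] (hcyc : IsCyclic (G ⧸ N)) (hd : p ∣ N.index) :
    Nat.card {μ : G →* ℂˣ // (∀ n ∈ N, μ n = 1) ∧ ∀ g, μ g ^ p = 1} = p := by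
  obtain ⟨q, hq⟩ := hcyc.exists_generator
  obtain ⟨g, rfl⟩ := QuotientGroup.mk_surjective q
  have : NeZero p := ⟨hp.out.ne_zero⟩
  conv_rhs => rw [← Complex.card_rootsOfUnity p]
  refine Nat.card_eq_of_bijective (fun μ => ⟨μ.1 g, (mem_rootsOfUnity _ _).2 (μ.2.2 g)⟩)
    ⟨fun μ ν e => Subtype.ext (MonoidHom.ext fun x => ?_), fun ζ => ?_⟩
  · have e' : μ.1 g = ν.1 g := congrArg Subtype.val e
    obtain ⟨k, hk⟩ := hq (x : G ⧸ N)
    have h1 : (g ^ k)⁻¹ * x ∈ N := QuotientGroup.eq.1 hk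
    have h2 := μ.2.1 _ h1
    have h3 := ν.2.1 _ h1
    rw [map_mul, map_inv, map_zpow, inv_mul_eq_one] at h2 h3
    rw [← h2, ← h3, e']
  · have h1 : orderOf ζ.1 ∣ orderOf (g : G ⧸ N) := by
      rw [orderOf_eq_card_of_forall_mem_zpowers hq]
      exact (orderOf_dvd_of_pow_eq_one ((mem_rootsOfUnity _ _).1 ζ.2)).trans hd
    refine ⟨⟨(monoidHomOfForallMemZpowers hq h1).comp (QuotientGroup.mk' N), fun n hn => ?_,
      fun x => ?_⟩, Subtype.ext ?_⟩
    · simp [(QuotientGroup.eq_one_iff n).2 hn]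
    · obtain ⟨k, hk⟩ := hq (x : G ⧸ N)
      simp only at hk
      rw [MonoidHom.comp_apply, QuotientGroup.mk'_apply, ← hk, map_zpow,
        monoidHomOfForallMemZpowers_apply_gen, ← zpow_natCast, ← zpow_mul, mul_comm, zpow_mul,
        zpow_natCast, (mem_rootsOfUnity _ _).1 ζ.2, one_zpow]
    · simp


/-- Let G be a finite group, p a prime, P a Sylow p-subgroup, N the p-residual of G (the subgroup generated by the elements of order prime to p, the smallest normal subgroup with G/N a p-group), and M a maximal ideal of the algebraic integers containing p; suppose G/N is cyclic and nontrivial. Let k be a natural number with g ^ k = g ^ (1 + p) for every p-element g and g ^ k = g for every element g of order prime to p (so that χ (g ^ k) is the image of χ g under the field automorphism that raises p-power roots of unity to the power 1 + p and fixes the roots of unity of order prime to p). Then the number of members χ of the principal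 block of G of degree prime to p with χ (g ^ k) = χ g for all g equals p times the number of members θ of the principal block of N of degree prime to p that are invariant under conjugation by P and satisfy θ (n ^ k) = θ n for all n. -/
theorem result {G : Type*} [Group G] [Finite G] (p : ℕ) [Fact p.Prime] (M : Ideal Cfsg.AlgInt) (hM : Cfsg.IsPModular p M) (P : Sylow p G) (N : Subgroup G) [hN : N.Normal] (hNres : N = Cfsg.pResidual p G) (hcyc : IsCyclic (G ⧸ N)) (hnt : N ≠ ⊤) (k : ℕ) (hk₁ : ∀ g : G, (∃ j : ℕ, orderOf g = p ^ j) → g ^ k = g ^ (1 + p)) (hk₂ : ∀ g : G, Nat.Coprime (orderOf g) p → g ^ k = g) : Nat.card {χ : Cfsg.IrrCharacter G // χ ∈ Cfsg.principalBlock M G ∧ ¬ p ∣ Cfsg.charDegree (χ : G → ℂ) ∧ ∀ g : G, (χ : G → ℂ) (g ^ k) = (χ : G → ℂ) g} = p * Nat.card {θ : Cfsg.IrrCharacter ↥N // θ ∈ Cfsg.principalBlock M ↥N ∧ ¬ p ∣ Cfsg.charDegree (θ : ↥N → ℂ) ∧ (∀ x ∈ (P : Subgroup G), ∀ n : ↥N, (θ : ↥N → ℂ) ⟨x * n * x⁻¹, hN.conj_mem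 n n.2 x⟩ = (θ : ↥N → ℂ) n) ∧ ∀ n : ↥N, (θ : ↥N → ℂ) (n ^ k) = (θ : ↥N → ℂ) n} := by
  subst hNres
  have hp : p.Prime := Fact.out
  have := Fintype.ofFinite G
  obtain ⟨a, ha⟩ := Transfer.index_pResidual (p := p) (G := G)
  have hd : p ∣ (pResidual p G).index := by
    rw [ha]
    refine dvd_pow_self p fun h => hnt ?_
    rw [← index_eq_one, ha, h, pow_zero]
  have hk : k.Coprime (Nat.card G) := by
    refine Nat.Coprime.symm (Nat.coprime_of_dvd fun r hr h1 h2 => ?_)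
    have := Fact.mk hr
    obtain ⟨g, hg⟩ := exists_prime_orderOf_dvd_card' r h1
    have h3 : g ^ k = 1 := orderOf_dvd_iff_pow_eq_one.1 (hg ▸ h2)
    have h4 : g ≠ 1 := by
      rintro rfl
      rw [orderOf_one] at hg
      exact hr.one_lt.ne hg
    by_cases hrp : r = p
    · subst hrp
      have h5 := hk₁ g ⟨1, by simpa using hg⟩
      rw [h3, pow_add, ← hg, pow_orderOf_eq_one, mul_one, pow_one] at h5
      exact h4 h5.symm
    · rw [hk₂ g (hg ▸ (Nat.coprime_primes hr hp).2 hrp)] at h3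
      exact h4 h3
  have hμ : ∀ μ : G →* ℂˣ, (∀ n ∈ pResidual p G, μ n = 1) → ∀ g, μ (g ^ k) = μ g * μ g ^ p := by
    intro μ h g
    have h1 : pReg p g ∈ pResidual p G :=
      Transfer.mem_pResidual_of_coprime (not_dvd_iff_coprime.1 (not_dvd_orderOf_pReg p g))
    have h2 : μ g = μ (pPart p g) := by
      conv_lhs => rw [← pPart_mul_pReg p g, map_mul, h _ h1, mul_one]
    rw [map_pow, h2, ← map_pow, hk₁ _ (orderOf_pPart p g), map_pow, pow_add, pow_one]
  have hinv : ∀ θ : IrrCharacter (pResidual p G), (∀ x ∈ (P : Subgroup G), ∀ n : pResidual p G,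
      (θ : pResidual p G → ℂ) ⟨x * n * x⁻¹, hN.conj_mem n n.2 x⟩ = (θ : pResidual p G → ℂ) n) →
      ∀ (x : G) (n : pResidual p G),
      (θ : pResidual p G → ℂ) ⟨x * n * x⁻¹, hN.conj_mem n n.2 x⟩ = (θ : pResidual p G → ℂ) n := by
    intro θ h
    rw [← inertia_eq_top_iff, eq_top_iff, ← Transfer.pResidual_sup_sylow P]
    exact sup_le (le_inertia _ θ.2.isClassFunction) fun x hx => (mem_inertia' _).mpr (h x hx)
  have hext := fun θ : {θ : Cfsg.IrrCharacter ↥(pResidual p G) // θ ∈ Cfsg.principalBlock M ↥(pResidual p G) ∧ ¬ p ∣ Cfsg.charDegree (θ : ↥(pResidual p G) → ℂ) ∧ (∀ x ∈ (P : Subgroup G), ∀ n : ↥(pResidual p G), (θ : ↥(pResidual p G) → ℂ) ⟨x * n * x⁻¹, hN.conj_mem n n.2 x⟩ = (θ : ↥(pResidual p G) → ℂ) n) ∧ ∀ n : ↥(pResidual p G), (θ : ↥(pResidual p G) → ℂ) (n ^ k) = (θ : ↥(pResidual p G) → ℂ) n} =>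
    exists_ext_pResidual hM hk θ.1 (hinv θ.1 θ.2.2.2.1) θ.2.2.1 θ.2.1 θ.2.2.2.2
  choose E hE1 hE2 hE3 using hext
  have hEirr : ∀ θ, IsIrrCharacter (pResidual p G) (fun n : pResidual p G => (E θ).1 n) :=
    fun θ => by rw [funext (hE2 θ)]; exact θ.1.2
  refine Eq.trans ?_ (congrArg (· * _) (card_hom_pow (pResidual p G) hcyc hd))
  rw [← Nat.card_prod]
  symm
  refine Nat.card_eq_of_bijective (fun x => ⟨⟨fun g => (E x.2).1 g * x.1.1 g,
    (E x.2).2.mul_linear _⟩, ?_⟩) ⟨?_, ?_⟩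
  · have h1 := (mem_principal_iff_of_extends hM (pResidual p G) ⟨a, ha⟩
      (χ := ⟨fun g => (E x.2).1 g * x.1.1 g, (E x.2).2.mul_linear _⟩) (θ := x.2.1)
      (fun n => by simp [hE2, x.1.2.1 n n.2])).2 ⟨x.2.2.1, x.2.2.2.1⟩
    refine ⟨h1.1, h1.2, fun g => ?_⟩
    simp only
    rw [hE3, hμ _ x.1.2.1, x.1.2.2, mul_one]
  · rintro ⟨μ, θ⟩ ⟨ν, φ⟩ e
    have e1 : ∀ g, (E θ).1 g * μ.1 g = (E φ).1 g * ν.1 g :=
      congrFun (congrArg (fun x => x.1.1) e)
    have e2 : θ = φ := Subtype.ext (Subtype.ext (funext fun n => by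
      have := e1 n
      rwa [μ.2.1 n n.2, ν.2.1 n n.2, Units.val_one, mul_one, mul_one, hE2, hE2] at this))
    subst e2
    refine Prod.ext (Subtype.ext (hom_coe_inj ?_)) rfl
    refine gallagher_inj (E θ).2.isCharacter (hEirr θ) (isIrrCharacter_hom _)
      (fun n => by simp [μ.2.1 n n.2]) (isIrrCharacter_hom _) (fun n => by simp [ν.2.1 n n.2])
      (funext fun g => ?_)
    simp only [Pi.mul_apply]
    rw [mul_comm, e1, mul_comm]
  · rintro ⟨χ, h1, h2, h3⟩
    have h4 := isIrr_restrict_of_coprime (pResidual p G) χ.2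
      (ha ▸ (not_dvd_iff_coprime.1 h2).pow_right a)
    have h5 := (mem_principal_iff_of_extends hM (pResidual p G) ⟨a, ha⟩
      (χ := χ) (θ := ⟨_, h4⟩) (fun n => rfl)).1 ⟨h1, h2⟩
    let θ : {θ : Cfsg.IrrCharacter ↥(pResidual p G) // θ ∈ Cfsg.principalBlock M ↥(pResidual p G) ∧ ¬ p ∣ Cfsg.charDegree (θ : ↥(pResidual p G) → ℂ) ∧ (∀ x ∈ (P : Subgroup G), ∀ n : ↥(pResidual p G), (θ : ↥(pResidual p G) → ℂ) ⟨x * n * x⁻¹, hN.conj_mem n n.2 x⟩ = (θ : ↥(pResidual p G) → ℂ) n) ∧ ∀ n : ↥(pResidual p G), (θ : ↥(pResidual p G) → ℂ) (n ^ k) = (θ : ↥(pResidual p G) → ℂ) n} :=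
      ⟨⟨_, h4⟩, h5.1, h5.2, fun x _ n => χ.2.isClassFunction _ _, fun n => h3 n⟩
    obtain ⟨μ, hμ1, hμ2⟩ := exists_hom_mul_of_extends (E θ).2.isCharacter
      (hEirr θ) χ.2.isCharacter (fun n => (hE2 θ n).symm)
    have h6 : μ ^ (1 + p) = μ := by
      refine hom_coe_inj (gallagher_inj (E θ).2.isCharacter (hEirr θ)
        (isIrrCharacter_hom _) (fun n => by simp [hμ1 n n.2]) (isIrrCharacter_hom _)
        (fun n => by simp [hμ1 n n.2]) (funext fun g => ?_))
      have := h3 g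
      rw [hμ2] at this
      simp only at this
      rw [hE3, hμ _ hμ1] at this
      simp only [Pi.mul_apply, MonoidHom.pow_apply, pow_add, pow_one, MonoidHom.mul_apply]
      exact this
    refine ⟨(⟨μ, hμ1, fun g => ?_⟩, θ), Subtype.ext (Subtype.ext (funext fun g => ?_))⟩
    · have := DFunLike.congr_fun h6 g
      rwa [MonoidHom.pow_apply, pow_add, pow_one, mul_eq_left] at this
    · simp only
      rw [hμ2, mul_comm]

end Cfsg.Agent.S4553
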