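import Cfsg.Statements.S4560
import Cfsg.Agent.Sym.Van

set_option autoImplicit false
open Cfsg

namespace Cfsg.Agent.S4560

open Cfsg.Agent.SymCh Cfsg.Agent.Char Function Finset Equiv

theorem key {N : ℕ} (n : ℕ) (hn : 7 ≤ n) (β κ : Fin N → ℕ) (hβ : Injective β) (hκ : Injective κ)
    (hs : ∑ j, β j = n + d0 N) (j : Fin N) (h4 : 4 ≤ β j) (hk : ∀ k, k ≠ j → β k < 4 ∧ β k + 4 ≠ β j)
    (q : ℕ) (hq : 0 < q) (hm : ∀ k, β k % q = κ k % q) (h0 : ∀ j, q ≤ κ j → ∃ k, κ k + q = κ j)
    (a b f r s : ℕ) (hr : q ∣ r) (hs' : q ∣ s) (hr0 : 0 < r) (hs0 : 0 < s)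
    (hsum : a * r + b * s + f = n) (hbig : ∑ j, β j < ∑ j, κ j + a * r + b * s)
    (hev : Even (n + a + b + f)) :
    ∃ χ : IrrCharacter (alternatingGroup (Fin n)), (∃ x : alternatingGroup (Fin n),
      parts (x : Perm (Fin n)) = Multiset.replicate a r + Multiset.replicate b s +
        Multiset.replicate f 1 ∧ (χ : alternatingGroup (Fin n) → ℂ) x = 0) ∧
      ∃ ψ : IrrCharacter (Perm (Fin n)), ∀ x : alternatingGroup (Fin n),
        (ψ : Perm (Fin n) → ℂ) x = (χ : alternatingGroup (Fin n) → ℂ) x := by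
  classical
  obtain ⟨ψ, hψ⟩ := exists_lab (α := Fin n) hβ (by simpa using hs)
  obtain ⟨y, hy⟩ := exists_parts_eq (Fin n) (ρ := 4 ::ₘ Multiset.replicate (n - 4) 1)
    (by
      intro r hr
      rcases Multiset.mem_cons.1 hr with rfl | hr
      · omega
      · rw [Multiset.eq_of_mem_replicate hr]; omega)
    (by simp; omega)
  have hy1 : y ∉ alternatingGroup (Fin n) := by
    rw [mem_alt_iff_parts, hy]
    simp only [Fintype.card_fin, Multiset.card_cons, Multiset.card_replicate, Nat.not_even_iff_odd]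
    exact ⟨n - 2, by omega⟩
  have hy2 : (ψ : Perm (Fin n) → ℂ) y ≠ 0 := by
    rw [Ne, hψ.eq_zero_iff, chi, hy, st_cons_eq_of_unique h4
      (fun k hk' h => by have := hk k hk'; omega)]
    refine st_replicate_ne_zero (injective_update hβ fun k hk' => by have := hk k hk'; omega) ?_
    have := sum_update β j (β j - 4)
    omega
  haveI : Nontrivial (Fin n) := Fin.nontrivial_iff_two_le.2 (by omega)
  have hχ := isIrr_restrict_of_ne_zero (alternatingGroup.index_eq_two (α := Fin n)) ψ.2 hy1 hy2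
  obtain ⟨x, hx⟩ := exists_parts_eq (Fin n) (ρ := Multiset.replicate a r + Multiset.replicate b s +
        Multiset.replicate f 1)
    (by
      intro t ht
      simp only [Multiset.mem_add, Multiset.mem_replicate] at ht
      omega)
    (by simpa using hsum)
  have hx1 : x ∈ alternatingGroup (Fin n) := by
    rw [mem_alt_iff_parts, hx]
    simpa [add_assoc] using hev
  refine ⟨⟨_, hχ⟩, ⟨⟨x, hx1⟩, hx, ?_⟩, ψ, fun _ => rfl⟩
  change (ψ : Perm (Fin n) → ℂ) x = 0
  rw [hψ.eq_zero_iff, chi, hx]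
  by_contra hc
  have h1 := sum_le_mul_wt hq _ _ β (by
    intro t ht
    simp only [Multiset.mem_add, Multiset.mem_replicate] at ht
    rcases ht with ⟨-, rfl⟩ | ⟨-, rfl⟩ <;> assumption) hc
  have h2 := sum_add_wt hq hβ hκ (resM_congr hm)
  rw [wt_eq_zero_of hq hκ h0] at h2
  simp only [Multiset.sum_add, Multiset.sum_replicate, smul_eq_mul] at h1
  omega

theorem inj2 {a b : ℕ} (h : a ≠ b) : Injective ![a, b] := by
  intro i j; fin_cases i <;> fin_cases j <;> simp [h, h.symm]

theorem inj3 {c : ℕ} (h : 2 < c) : Injective ![1, 2, c] := by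
  intro i j; fin_cases i <;> fin_cases j <;> simp <;> omega

theorem two {n : ℕ} {x : alternatingGroup (Fin n)} {a b f r s : ℕ} (hr : r ∣ 8) (hs : s ∣ 8)
    (h : parts (x : Perm (Fin n)) = Multiset.replicate a r + Multiset.replicate b s +
      Multiset.replicate f 1) : ∃ j : ℕ, orderOf x = 2 ^ j := by
  have : orderOf (x : Perm (Fin n)) ∣ 2 ^ 3 := orderOf_dvd_of_parts (by
    intro t ht
    simp only [h, Multiset.mem_add, Multiset.mem_replicate] at ht
    rcases ht with (⟨-, rfl⟩ | ⟨-, rfl⟩) | ⟨-, rfl⟩ <;> simpa)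
  obtain ⟨j, -, hj⟩ := (Nat.dvd_prime_pow Nat.prime_two).1 this
  exact ⟨j, by rw [← hj, Subgroup.orderOf_coe]⟩

theorem three {n : ℕ} {x : alternatingGroup (Fin n)} {a f : ℕ} (ha : 0 < a)
    (h : parts (x : Perm (Fin n)) = Multiset.replicate a 3 + Multiset.replicate 0 3 +
      Multiset.replicate f 1) : orderOf x = 3 := by
  rw [← Subgroup.orderOf_coe]
  refine Nat.dvd_antisymm (orderOf_dvd_of_parts ?_) (dvd_orderOf_of_mem_parts ?_)
  · intro t ht
    simp only [h, Multiset.mem_add, Multiset.mem_replicate] at ht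
    rcases ht with (⟨-, rfl⟩ | ⟨-, rfl⟩) | ⟨-, rfl⟩ <;> simp
  · rw [h]
    simp only [Multiset.mem_add, Multiset.mem_replicate]
    exact Or.inl (Or.inl ⟨ha.ne', trivial⟩)

theorem d2 : d0 2 = 1 := by decide

theorem d3 : d0 3 = 3 := by decide


/-- For n ≥ 7 the alternating group on n letters has an irreducible character that vanishes at some 2-element and is the restriction of an irreducible character of the symmetric group, and an irreducible character that vanishes at some element of order 3 and is the restriction of an irreducible character of the symmetric group. -/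
theorem result (n : ℕ) (hn : 7 ≤ n) : (∃ χ : Cfsg.IrrCharacter (alternatingGroup (Fin n)), (∃ x : alternatingGroup (Fin n), (∃ j : ℕ, orderOf x = 2 ^ j) ∧ (χ : alternatingGroup (Fin n) → ℂ) x = 0) ∧ ∃ ψ : Cfsg.IrrCharacter (Equiv.Perm (Fin n)), ∀ x : alternatingGroup (Fin n), (ψ : Equiv.Perm (Fin n) → ℂ) x = (χ : alternatingGroup (Fin n) → ℂ) x) ∧ (∃ χ : Cfsg.IrrCharacter (alternatingGroup (Fin n)), (∃ y : alternatingGroup (Fin n), orderOf y = 3 ∧ (χ : alternatingGroup (Fin n) → ℂ) y = 0) ∧ ∃ ψ : Cfsg.IrrCharacter (Equiv.Perm (Fin n)), ∀ x : alternatingGroup (Fin n), (ψ : Equiv.Perm (Fin n) → ℂ) x = (χ : alternatingGroup (Fin n) → ℂ) x) := by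
  constructor
  · rcases Nat.even_or_odd' n with ⟨m, hm | hm⟩
    · rcases Nat.even_or_odd' m with ⟨k, hk | hk⟩
      · obtain ⟨χ, ⟨x, h1, h2⟩, h3⟩ := key n hn ![2, n - 1] ![2, 3] (inj2 (by omega)) (inj2 (by omega))
          (by simp [d2]; omega) 1 (by simp; omega) (by simp [Fin.forall_fin_two]; omega) 4 (by omega)
          (by simp [Fin.forall_fin_two]; omega) (by simp [Fin.forall_fin_two])
          (k - 2 * (k % 2)) (k % 2) 0 4 8 (by omega) (by omega) (by omega) (by omega) (by omega)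
          (by simp; omega) (by rw [Nat.even_iff]; omega)
        exact ⟨χ, ⟨x, two (by omega) (by omega) h1, h2⟩, h3⟩
      · obtain ⟨χ, ⟨x, h1, h2⟩, h3⟩ := key n hn ![1, 2, n] ![1, 2, 6] (inj3 (by omega))
          (inj3 (by omega)) (by simp [d3, Fin.sum_univ_three]; omega) 2 (by simp; omega)
          (by simp [Fin.forall_fin_succ]; omega) 4 (by omega)
          (by simp [Fin.forall_fin_succ]; omega) (by decide)
          (k - 2 * (k % 2)) (k % 2) 2 4 8 (by omega) (by omega) (by omega) (by omega) (by omega)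
          (by simp [Fin.sum_univ_three]; omega) (by rw [Nat.even_iff]; omega)
        exact ⟨χ, ⟨x, two (by omega) (by omega) h1, h2⟩, h3⟩
    · obtain ⟨χ, ⟨x, h1, h2⟩, h3⟩ := key n hn ![1, n] ![1, 3] (inj2 (by omega)) (inj2 (by omega))
        (by simp [d2]; omega) 1 (by simp; omega) (by simp [Fin.forall_fin_two]; omega) 2 (by omega)
        (by simp [Fin.forall_fin_two]; omega) (by decide)
        (m - 2 * (m % 2)) (m % 2) 1 2 4 (by omega) (by omega) (by omega) (by omega) (by omega)
        (by simp; omega) (by rw [Nat.even_iff]; omega)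
      exact ⟨χ, ⟨x, two (by omega) (by omega) h1, h2⟩, h3⟩
  · obtain h | h | h : n % 3 = 0 ∨ n % 3 = 1 ∨ n % 3 = 2 := by omega
    · obtain ⟨χ, ⟨x, h1, h2⟩, h3⟩ := key n hn ![2, n - 1] ![2, 5] (inj2 (by omega)) (inj2 (by omega))
        (by simp [d2]; omega) 1 (by simp; omega) (by simp [Fin.forall_fin_two]; omega) 3 (by omega)
        (by simp [Fin.forall_fin_two]; omega) (by decide)
        (n / 3) 0 0 3 3 (by omega) (by omega) (by omega) (by omega) (by omega)
        (by simp; omega) (by rw [Nat.even_iff]; omega)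
      exact ⟨χ, ⟨x, three (by omega) h1, h2⟩, h3⟩
    · obtain ⟨χ, ⟨x, h1, h2⟩, h3⟩ := key n hn ![1, n] ![1, 4] (inj2 (by omega)) (inj2 (by omega))
        (by simp [d2]; omega) 1 (by simp; omega) (by simp [Fin.forall_fin_two]; omega) 3 (by omega)
        (by simp [Fin.forall_fin_two]; omega) (by decide)
        (n / 3) 0 1 3 3 (by omega) (by omega) (by omega) (by omega) (by omega)
        (by simp; omega) (by rw [Nat.even_iff]; omega)
      exact ⟨χ, ⟨x, three (by omega) h1, h2⟩, h3⟩
    · obtain ⟨χ, ⟨x, h1, h2⟩, h3⟩ := key n hn ![1, 2, n] ![1, 2, 5] (inj3 (by omega))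
        (inj3 (by omega)) (by simp [d3, Fin.sum_univ_three]; omega) 2 (by simp; omega)
        (by simp [Fin.forall_fin_succ]; omega) 3 (by omega)
        (by simp [Fin.forall_fin_succ]; omega) (by decide)
        (n / 3) 0 2 3 3 (by omega) (by omega) (by omega) (by omega) (by omega)
        (by simp [Fin.sum_univ_three]; omega) (by rw [Nat.even_iff]; omega)
      exact ⟨χ, ⟨x, three (by omega) h1, h2⟩, h3⟩

end Cfsg.Agent.S4560
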