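import Cfsg.Statements.S4561
import Cfsg.Agent.Char.Wreath
import Cfsg.Agent.Char.DegreeP
import Cfsg.Agent.Char.TripleIso
import Cfsg.Agent.Solv.MinNonNilpotent

set_option autoImplicit false
universe u
open Cfsg

namespace Cfsg.Agent.S4561

open Cfsg.Agent.Char RegularWreathProduct
set_option linter.style.haveILetI false

def Good (G : Type u) [Group G] : Prop :=
  ∃ (H : Type u) (_ : Group H) (_ : Finite H) (χ : Cfsg.IrrCharacter H), (∀ h : H, (χ : H → ℂ) h = (χ : H → ℂ) 1 → h = 1) ∧ (Cfsg.charDegree (χ : H → ℂ)) ^ 2 = (Subgroup.center H).index ∧ (∃ f : G →* H ⧸ Subgroup.center H, Function.Injective f) ∧ (∀ p : ℕ, p.Prime → ((p ∣ Nat.card H ↔ p ∣ Nat.card G) ∧ (p ∣ Nat.card (Subgroup.center H) ↔ p ∣ Nat.card G))) ∧ Squarefree (Nat.card (Subgroup.center H))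

theorem finish {G Γ T : Type u} [Group G] [Group Γ] [Finite Γ] [Group T] (ψ : IrrCharacter Γ)
    (Φ : Γ →* T) (hΦ : Function.Surjective Φ) (h1 : ∀ a ∈ Φ.ker, ‖ψ.1 a‖ = ‖ψ.1 1‖)
    (h2 : charDegree ψ.1 ^ 2 = Nat.card T) (f : G →* T) (hf : Function.Injective f) {n : ℕ}
    (hn : Squarefree n) (h3 : ∀ a ∈ Φ.ker, a ^ n = 1)
    (h4 : ∀ r : ℕ, r.Prime → r ∣ Nat.card G → ∃ a ∈ Φ.ker, a ^ r = 1 ∧ ψ.1 a ≠ ψ.1 1)
    (h5 : ∀ r : ℕ, r.Prime → r ∣ Nat.card Γ → r ∣ Nat.card G) : Good G := by
  obtain ⟨χ, hχ, hfa⟩ := exists_faithful_deflation ψ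
  set K := charKer ψ.1
  have hπ := QuotientGroup.mk'_surjective K
  have e1 : χ.1 1 = ψ.1 1 := hχ 1
  have hd : charDegree χ.1 = charDegree ψ.1 := charDegree_congr_one e1
  have hle : Φ.ker ≤ (Subgroup.center (Γ ⧸ K)).comap (QuotientGroup.mk' K) := fun a ha =>
    mem_center_of_norm_eq χ.2.isCharacter hfa (by rw [e1, ← h1 a ha]; exact congrArg _ (hχ a))
  have hi : Φ.ker.index = Nat.card T := by
    rw [Subgroup.index_ker, MonoidHom.range_eq_top.2 hΦ, Subgroup.card_top]
  have hb := charDegree_sq_le_index_center χ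
  rw [hd, h2, ← hi, ← Subgroup.index_comap_of_surjective _ hπ] at hb
  have heq : Φ.ker = (Subgroup.center (Γ ⧸ K)).comap (QuotientGroup.mk' K) := by
    refine Subgroup.eq_of_le_of_card_ge hle ?_
    have a1 := Φ.ker.index_mul_card
    rw [← ((Subgroup.center (Γ ⧸ K)).comap (QuotientGroup.mk' K)).index_mul_card] at a1
    by_contra hlt
    push Not at hlt
    have := Nat.mul_lt_mul_of_le_of_lt hb hlt (Nat.pos_of_ne_zero Subgroup.FiniteIndex.index_ne_zero)
    exact this.ne a1
  have hz : ∀ r : ℕ, r.Prime → r ∣ Nat.card G → r ∣ Nat.card (Subgroup.center (Γ ⧸ K)) := by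
    intro r hr hrG
    obtain ⟨a, ha, b1, b2⟩ := h4 r hr hrG
    haveI := Fact.mk hr
    have : orderOf (QuotientGroup.mk' K a) = r := orderOf_eq_prime (by rw [← map_pow, b1, map_one])
      fun h => b2 ((mem_charKer_irr ψ).1 ((QuotientGroup.eq_one_iff a).1 h))
    exact this ▸ Subgroup.orderOf_dvd_natCard _ (hle ha)
  have hH : ∀ r : ℕ, r.Prime → r ∣ Nat.card (Γ ⧸ K) → r ∣ Nat.card G := fun r hr h =>
    h5 r hr (h.trans (Subgroup.card_quotient_dvd_card K))
  have hZ := (Subgroup.center (Γ ⧸ K)).card_subgroup_dvd_card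
  refine ⟨Γ ⧸ K, inferInstance, inferInstance, χ, hfa, ?_, ?_, fun r hr =>
    ⟨⟨hH r hr, fun h => (hz r hr h).trans hZ⟩, ⟨fun h => hH r hr (h.trans hZ), hz r hr⟩⟩, ?_⟩
  · rw [hd, h2, ← hi, heq, Subgroup.index_comap_of_surjective _ hπ]
  · let π := (QuotientGroup.mk' (Subgroup.center (Γ ⧸ K))).comp (QuotientGroup.mk' K)
    have hk : π.ker = Φ.ker := by
      rw [heq, ← MonoidHom.comap_ker, QuotientGroup.ker_mk']
    suffices h : Function.Injective (Φ.liftOfSurjective hΦ ⟨π, hk.ge⟩) from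
      ⟨(Φ.liftOfSurjective hΦ ⟨π, hk.ge⟩).comp f, h.comp hf⟩
    rw [injective_iff_map_eq_one]
    intro t ht
    obtain ⟨a, rfl⟩ := hΦ t
    rw [MonoidHom.liftOfRightInverse_comp_apply] at ht
    exact hk.le ht
  · obtain ⟨lam, hlam⟩ := exists_central_hom χ.2 _ le_rfl
    have hinj : Function.Injective lam := (injective_iff_map_eq_one _).2 fun z hz =>
      Subtype.ext (hfa _ (by simpa [hz] using hlam z 1))
    haveI : IsCyclic (Subgroup.center (Γ ⧸ K)) :=
      isCyclic_of_injective_ringHom ((Units.coeHom ℂ).comp lam) (Units.val_injective.comp hinj)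
    refine hn.squarefree_of_dvd ?_
    rw [← IsCyclic.exponent_eq_card, Monoid.exponent_dvd_iff_forall_pow_eq_one]
    rintro ⟨z, hz⟩
    obtain ⟨a, rfl⟩ := hπ z
    exact Subtype.ext (by
      change (QuotientGroup.mk' K a) ^ n = 1
      rw [← map_pow, h3 a (heq.ge hz), map_one])

theorem step {G : Type u} [Group G] [Finite G] (N : Subgroup G) [N.Normal] (hp : N.index.Prime)
    (h : Good N) : Good G := by
  classical
  obtain ⟨D, _, _, θ, hfa, hdeg, ⟨f, hf⟩, hpr, hsq⟩ := h
  obtain ⟨g, hg⟩ := exists_wr_embed N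
  set Q := G ⧸ N
  have hQ : (Nat.card Q).Prime := hp
  haveI : Fact (Nat.card Q).Prime := ⟨hQ⟩
  haveI : IsCyclic Q := isCyclic_of_prime_card rfl
  obtain ⟨C, _, β, hC, hsep⟩ : ∃ (C : Type u) (_ : CommGroup C) (β : C →* Q →* ℂˣ),
      Nat.card C = Nat.card Q ∧ ∀ q : Q, q ≠ 1 → ∃ c : C, β c q ≠ 1 := by
    letI : CommGroup Q := IsCyclic.commGroup
    exact ⟨Q →* ℂˣ, inferInstance, MonoidHom.id _,
      CommGroup.card_monoidHom_of_hasEnoughRootsOfUnity Q ℂ,
      fun q hq => CommGroup.exists_apply_ne_one_of_hasEnoughRootsOfUnity Q ℂ hq⟩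
  haveI : Finite C := Nat.finite_of_card_ne_zero (hC ▸ hQ.ne_zero)
  letI : Fintype Q := Fintype.ofFinite _
  letI : Fintype (D × C) := Fintype.ofFinite _
  letI : Fintype ((D × C) ≀ᵣ Q) := Fintype.ofFinite _
  set Z := Subgroup.center D
  let ev : Q → (D × C →* ℂˣ) := fun x =>
    { toFun := fun d => β d.2 x, map_one' := by simp, map_mul' := fun _ _ => by simp }
  let t : Q → D × C → ℂ := fun x d => θ.1 d.1 * (ev x d : ℂ)
  have ht : ∀ x, IsIrrCharacter _ (t x) := fun x => by
    have h0 := θ.2.comp_surjective (H := D × C) (MonoidHom.fst D C) fun d => ⟨(d, 1), rfl⟩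
    exact h0.mul_linear (ev x)
  have ht1 : ∀ x, t x 1 = θ.1 1 := fun x => by simp [t]
  set B := (wrBase (D × C) Q).range
  have hΘ : IsIrrCharacter B (onBase (piFun t)) := by
    rw [onBase_eq]
    exact (isIrr_piFun ht).comp_mulEquiv _
  have hψ : IsIrrCharacter _ (indFun B (onBase (piFun t))) := by
    rw [isIrr_indFun_iff_inertia_le B hΘ]
    intro w hw
    rw [mem_inertia_onBase ht] at hw
    have : w.right = 1 := by
      by_contra hne
      obtain ⟨c, hc⟩ := hsep _ hne
      have := congrFun (hw 1) (1, c)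
      simp only [t, ev, mul_one, MonoidHom.coe_mk, OneHom.coe_mk, map_one, Units.val_one,
        mul_eq_left₀ θ.2.one_ne_zero, Units.val_eq_one] at this
      exact hc this
    exact ⟨w.left, RegularWreathProduct.ext rfl this.symm⟩
  let Φ : (D × C) ≀ᵣ Q →* ((D ⧸ Z) ≀ᵣ Q) × C :=
    (wrMap ((QuotientGroup.mk' Z).comp (MonoidHom.fst D C)) Q).prod (wrProd (MonoidHom.snd D C))
  have hker : ∀ a, a ∈ Φ.ker ↔ ∃ u : Q → D × C, a = wrBase _ _ u ∧ (∀ x, (u x).1 ∈ Z) ∧
      ∏ x, (u x).2 = 1 := by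
    intro a
    rw [MonoidHom.mem_ker, Prod.ext_iff]
    constructor
    · rintro ⟨h1, h2⟩
      exact ⟨a.left, RegularWreathProduct.ext rfl (congrArg (RegularWreathProduct.right (D := D ⧸ Z)) h1),
        fun x => (QuotientGroup.eq_one_iff _).1
          (congrFun (congrArg RegularWreathProduct.left h1) x), h2⟩
    · rintro ⟨u, rfl, h1, h2⟩
      exact ⟨RegularWreathProduct.ext (funext fun x => (QuotientGroup.eq_one_iff _).2 (h1 x)) rfl,
        h2⟩
  have hval : ∀ u : Q → D × C, ∏ x, (u x).2 = 1 → indFun B (onBase (piFun t)) (wrBase _ _ u) =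
      Nat.card Q * piFun t u := by
    intro u hu
    have := indFun_apply_of_normal B (onBase (piFun t)) ⟨_, u, rfl⟩
    rw [this]
    have h2 : ∀ w : (D × C) ≀ᵣ Q, onBase (piFun t) ⟨w * wrBase _ _ u * w⁻¹,
        (wrBase_normal).conj_mem _ ⟨u, rfl⟩ w⟩ = piFun t u := by
      intro w
      simp only [onBase, conj_wrBase]
      refine (piFun_conj (fun x => (ht x).isClassFunction) w u).trans ?_
      have h3 : ∏ x, ((β (u x).2 w.right : ℂˣ) : ℂ) = 1 := by
        rw [← Units.coe_prod, ← MonoidHom.finsetProd_apply, ← map_prod, hu, map_one]; rfl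
      simp only [piFun, t, ev, MonoidHom.coe_mk, OneHom.coe_mk, map_mul, Units.val_mul,
        Finset.prod_mul_distrib, h3, one_mul]
    rw [Finset.sum_congr rfl fun w _ => h2 w, Finset.sum_const, Finset.card_univ,
      Fintype.card_eq_nat_card, ← B.index_mul_card, wrBase_index, nsmul_eq_mul]
    push_cast
    field_simp [card_ne_zero B]
  have hone : indFun B (onBase (piFun t)) 1 = Nat.card Q * θ.1 1 ^ Nat.card Q := by
    rw [← map_one (wrBase (D × C) Q), hval 1 (by simp)]
    simp [piFun, ht1]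
  have hQ0 : (Nat.card Q : ℂ) ≠ 0 := card_ne_zero Q
  have hcG : Nat.card G = Nat.card Q * Nat.card N := N.index_mul_card.symm
  refine finish ⟨_, hψ⟩ Φ ?_ ?_ ?_ ((MonoidHom.inl _ C).comp ((wrMap f Q).comp g))
    (fun a b e => hg (wrMap_injective hf (congrArg Prod.fst e)))
    (n := Nat.lcm (Nat.card Z) (Nat.card Q)) ?_ ?_ ?_ ?_
  · rintro ⟨w, c⟩
    refine ⟨⟨fun x => ((w.left x).out, Pi.mulSingle (M := fun _ => C) 1 c x), w.right⟩, ?_⟩
    refine Prod.ext (RegularWreathProduct.ext (funext fun x => ?_) rfl) ?_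
    · exact QuotientGroup.out_eq' _
    · exact Fintype.prod_pi_mulSingle' (1 : Q) c
  · intro a ha
    obtain ⟨u, rfl, h1, h2⟩ := (hker a).1 ha
    change ‖indFun B (onBase (piFun t)) _‖ = ‖indFun B (onBase (piFun t)) _‖
    rw [hval u h2, hone, norm_mul, norm_mul, piFun, norm_prod, norm_pow,
      ← Fintype.card_eq_nat_card, ← Finset.card_univ, ← Finset.prod_const]
    congr 1
    refine Finset.prod_congr rfl fun x _ => ?_
    rw [norm_mul, norm_eq_of_mem_center θ.2 (h1 x), mul_eq_left₀ (norm_ne_zero_iff.2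
      θ.2.one_ne_zero)]
    have := norm_eq_of_mem_center (isIrrCharacter_linear (β (u x).2)) (z := x)
      (Subgroup.mem_center_iff.2 fun y => by
        letI : CommGroup Q := IsCyclic.commGroup
        exact mul_comm _ _)
    simpa [ev] using this
  · have : charDegree (indFun B (onBase (piFun t))) =
        Nat.card Q * charDegree θ.1 ^ Nat.card Q :=
      charDegree_eq_of_one_eq (by rw [hone, ← coe_charDegree_irr]; push_cast; rfl)
    change charDegree (indFun B (onBase (piFun t))) ^ 2 = _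
    rw [this, Nat.card_prod, RegularWreathProduct.card, hC, ← Z.index_eq_card, ← hdeg]
    ring
  · by_cases h : Nat.card Q ∣ Nat.card Z
    · rwa [Nat.lcm_eq_left h]
    · have hc := ((Nat.Prime.coprime_iff_not_dvd hQ).2 h).symm
      rw [hc.lcm_eq_mul, Nat.squarefree_mul hc]
      exact ⟨hsq, hQ.prime.squarefree⟩
  · intro a ha
    obtain ⟨u, rfl, h1, h2⟩ := (hker a).1 ha
    rw [← map_pow, ← map_one (wrBase (D × C) Q)]
    congr 1
    funext x
    refine Prod.ext ?_ ?_
    · exact orderOf_dvd_iff_pow_eq_one.1 ((Z.orderOf_dvd_natCard (h1 x)).trans (Nat.dvd_lcm_left _ _))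
    · exact orderOf_dvd_iff_pow_eq_one.1 ((hC ▸ orderOf_dvd_natCard (u x).2).trans
        (Nat.dvd_lcm_right _ _))
  · intro r hr hrG
    rw [hcG] at hrG
    rcases (Nat.Prime.dvd_mul hr).1 hrG with h | h
    · obtain rfl := (Nat.prime_dvd_prime_iff_eq hr hQ).1 h
      haveI : Nontrivial Q := Finite.one_lt_card_iff_nontrivial.1 hQ.one_lt
      obtain ⟨q, hq⟩ := exists_ne (1 : Q)
      obtain ⟨c, hc⟩ := hsep q hq
      let v : Q → C := Pi.mulSingle q c * Pi.mulSingle 1 c⁻¹
      have hv : ∏ x, v x = 1 := by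
        simp only [v, Pi.mul_apply, Finset.prod_mul_distrib, Fintype.prod_pi_mulSingle',
          mul_inv_cancel]
      refine ⟨wrBase _ _ fun x => (1, v x), (hker _).2 ⟨_, rfl, fun _ => Z.one_mem, hv⟩, ?_, ?_⟩
      · rw [← map_pow, ← map_one (wrBase (D × C) Q)]
        congr 1
        funext x
        exact Prod.ext (one_pow _) (hC ▸ pow_card_eq_one')
      · change indFun B (onBase (piFun t)) _ ≠ indFun B (onBase (piFun t)) _
        rw [hval _ hv, hone, Ne, mul_right_inj' hQ0]
        have h3 : ∏ x, ((β (v x) x : ℂˣ) : ℂ) = β c q := by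
          rw [Finset.prod_eq_single q (fun x _ hx => ?_) (by simp)]
          · simp [v, Pi.mulSingle_eq_of_ne hq]
          · by_cases h1 : x = 1
            · simp [h1]
            · simp [v, Pi.mulSingle_eq_of_ne hx, Pi.mulSingle_eq_of_ne h1]
        simp only [piFun, t, ev, MonoidHom.coe_mk, OneHom.coe_mk, Finset.prod_mul_distrib, h3,
          Finset.prod_const, Finset.card_univ, Fintype.card_eq_nat_card,
          mul_eq_left₀ (pow_ne_zero _ θ.2.one_ne_zero), Units.val_eq_one]
        exact hc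
    · haveI := Fact.mk hr
      obtain ⟨z, hz⟩ := exists_prime_orderOf_dvd_card' r ((hpr r hr).2.2 h)
      let v : Q → D := Pi.mulSingle 1 z.1
      refine ⟨wrBase _ _ fun x => (v x, 1), (hker _).2 ⟨_, rfl, fun x => ?_, by simp⟩, ?_, ?_⟩
      · by_cases h1 : x = 1
        · simp [v, h1]
        · simp [v, Pi.mulSingle_eq_of_ne h1]
      · rw [← map_pow, ← map_one (wrBase (D × C) Q)]
        congr 1
        funext x
        refine Prod.ext ?_ (one_pow _)
        change v x ^ r = 1
        by_cases h1 : x = 1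
        · simp only [v, h1, Pi.mulSingle_eq_same]
          rw [← hz]
          exact congrArg Subtype.val (pow_orderOf_eq_one z)
        · simp [v, Pi.mulSingle_eq_of_ne h1]
      · change indFun B (onBase (piFun t)) _ ≠ indFun B (onBase (piFun t)) _
        rw [hval _ (by simp), hone, Ne, mul_right_inj' hQ0, piFun, ← Fintype.card_eq_nat_card,
          ← Finset.card_univ, ← Finset.prod_const, ← Finset.mul_prod_erase _ _ (Finset.mem_univ 1),
          ← Finset.mul_prod_erase _ _ (Finset.mem_univ 1),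
          Finset.prod_congr rfl (g := fun _ => θ.1 1) (fun x hx => by
            simp [t, ev, v, Pi.mulSingle_eq_of_ne (Finset.ne_of_mem_erase hx)]),
          mul_left_inj' (Finset.prod_ne_zero_iff.2 fun _ _ => θ.2.one_ne_zero)]
        intro h1
        have : z.1 = 1 := hfa _ (by simpa [t, ev, v] using h1)
        rw [show z = 1 from Subtype.ext this, orderOf_one] at hz
        exact hr.one_lt.ne hz
  · intro r hr h
    rw [RegularWreathProduct.card, Nat.card_prod, hC] at h
    rw [hcG]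
    rcases (Nat.Prime.dvd_mul hr).1 h with h | h
    · rcases (Nat.Prime.dvd_mul hr).1 (hr.dvd_of_dvd_pow h) with h | h
      · exact ((hpr r hr).1.1 h).mul_left _
      · exact h.mul_right _
    · exact h.mul_right _

theorem main (n : ℕ) : ∀ (G : Type u) [Group G] [Finite G], Nat.card G = n → Group.IsSolvable G →
    Good G := by
  induction n using Nat.strong_induction_on with
  | _ n ih =>
  intro G _ _ hn hs
  rcases subsingleton_or_nontrivial G with h | h
  · have h1 : Nat.card G = 1 := Nat.card_unique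
    refine finish (irrOne G) (MonoidHom.id G) Function.surjective_id (fun _ _ => rfl) ?_
      (MonoidHom.id G) Function.injective_id squarefree_one (fun _ _ => Subsingleton.elim _ _)
      (fun r hr h => absurd (Nat.dvd_one.1 (h1 ▸ h)) hr.ne_one) fun _ _ h => h
    rw [h1, show charDegree (irrOne G).1 = 1 from charDegree_const_one, one_pow]
  obtain ⟨N, hN, hp⟩ := Solv.exists_normal_index_prime G
  have hlt : Nat.card N < n := by
    rw [← hn, ← N.index_mul_card]
    exact lt_mul_left Nat.card_pos hp.one_lt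
  exact step N hp (ih _ hlt N rfl inferInstance)

/-- For every finite solvable group G there is a finite group H with a faithful irreducible character χ whose degree squared equals the index of the centre Z(H) (so χ is fully ramified over the centre), such that G is isomorphic to a subgroup of H/Z(H), the primes dividing the orders of H, of Z(H) and of G are the same, and the order of Z(H) is squarefree. -/
theorem result {G : Type u} [Group G] [Finite G] (hsolv : Group.IsSolvable G) : ∃ (H : Type u) (_ : Group H) (_ : Finite H) (χ : Cfsg.IrrCharacter H), (∀ h : H, (χ : H → ℂ) h = (χ : H → ℂ) 1 → h = 1) ∧ (Cfsg.charDegree (χ : H → ℂ)) ^ 2 = (Subgroup.center H).index ∧ (∃ f : G →* H ⧸ Subgroup.center H, Function.Injective f) ∧ (∀ p : ℕ, p.Prime → ((p ∣ Nat.card H ↔ p ∣ Nat.card G) ∧ (p ∣ Nat.card (Subgroup.center H) ↔ p ∣ Nat.card G))) ∧ Squarefree (Nat.card (Subgroup.center H)) := by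
  exact main _ G rfl hsolv

end Cfsg.Agent.S4561
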