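import Cfsg.Statements.S4563
import Cfsg.Agent.Char.FullyRam
import Cfsg.Agent.S0006

set_option autoImplicit false
open Cfsg

namespace Cfsg.Agent.S4563

open Cfsg.Agent.Char Cfsg.Agent.Char.FullyRam Subgroup


/-- Let χ be an irreducible character of the finite group H that is fully ramified over the normal subgroup Z: the restriction of χ to Z is e times an irreducible character of Z with e ^ 2 equal to the index of Z. If K is a proper normal subgroup of H containing Z and χ is induced from a character of K, then H/K is solvable; in particular, if K is solvable then so is H. -/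
theorem result {H : Type*} [Group H] [Fintype H] (Z : Subgroup H) [Z.Normal] (χ : Cfsg.IrrCharacter H) (hfr : ∃ (θ : Cfsg.IrrCharacter ↥Z) (e : ℕ), e ^ 2 = Z.index ∧ ∀ z : ↥Z, (χ : H → ℂ) z = (e : ℂ) * (θ : ↥Z → ℂ) z) (K : Subgroup H) [K.Normal] [Fintype K] (hZK : Z ≤ K) (hK : K ≠ ⊤) (φ : ↥K → ℂ) (hφ : Cfsg.IsCharacter ↥K φ) (hind : Cfsg.indFun K φ = (χ : H → ℂ)) : Group.IsSolvable (H ⧸ K) ∧ (Group.IsSolvable ↥K → Group.IsSolvable H) := by
  classical
  obtain ⟨θ, e, he, hres⟩ := hfr
  have h : FR Z χ θ e := ⟨he, hres⟩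
  have hφi : IsIrrCharacter K φ := isIrr_of_isIrr_indFun K hφ (hind ▸ χ.2)
  have hm : mult χ (⟨φ, hφi⟩ : IrrCharacter K) ≠ 0 := by
    rw [mult_ne_zero_iff, ← hind, inner_restrict_indFun_eq_one K (hind ▸ χ.2)]
    exact one_ne_zero
  have hdeg : charDegree χ.1 = K.index * charDegree φ := by
    apply charDegree_eq_of_one_eq
    rw [← hind, indFun_one]; push_cast; rw [coe_charDegree_of_isCharacter hφ]
  have hs : Group.IsSolvable (H ⧸ K) := by
    apply Cfsg.Agent.S0006.result
    intro p hp
    have := Fact.mk hp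
    obtain ⟨P, k, η, hZP, hk, hi, hη, hall, hcount, hfin⟩ := h.setup K hZK p
    have hDI : P ⊓ K ≤ invSubgroup η.1 :=
      (invBy_iff_le le_normalizer).1 (invBy_self η.2.isClassFunction)
    obtain ⟨M, j, hKM, hj, hM⟩ := hfin (by
      have h1 : charDegree η.1 ∣ charDegree φ := by
        rw [charDegree_eq_sum_nmult (inf_le_right : P ⊓ K ≤ K) hφ]
        refine Finset.dvd_sum fun ξ _ => ?_
        by_cases h0 : nmult (inf_le_right : P ⊓ K ≤ K) φ ξ.1 = 0
        · rw [h0]; simp
        · rw [← hall ξ (mult_trans χ _ ⟨φ, hφi⟩ ξ hm h0)]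
          exact Dvd.intro_left _ rfl
      obtain ⟨c, hc⟩ := h1
      rw [hdeg, hc, ← relIndex_mul_index (inf_le_right : P ⊓ K ≤ K)] at hcount
      have h2 : (invSubgroup η.1).relIndex P * (P ⊓ K).relIndex K = K.index * c ^ 2 := by
        have hpos : 0 < K.index * charDegree η.1 ^ 2 :=
          Nat.mul_pos (Nat.pos_of_ne_zero index_ne_zero_of_finite)
            (pow_pos (charDegree_irr_pos η) 2)
        apply Nat.eq_of_mul_eq_mul_right hpos
        linarith
      have h3 := relIndex_mul_relIndex (P ⊓ K) (invSubgroup η.1 ⊓ P) P (le_inf hDI inf_le_left)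
        inf_le_right
      rw [inf_relIndex_right (invSubgroup η.1)] at h3
      have h4 : (P ⊓ K).relIndex P ∣ K.index := by
        rw [inf_relIndex_left]; exact relIndex_dvd_index_of_normal K P
      have h5 : (P ⊓ K).relIndex (invSubgroup η.1 ⊓ P) ∣ (P ⊓ K).relIndex K := by
        have := (h4.mul_right (c ^ 2))
        rw [← h2, ← h3, mul_comm] at this
        exact Nat.dvd_of_mul_dvd_mul_left (Nat.pos_of_ne_zero
          (show (invSubgroup η.1).relIndex P ≠ 0 from index_ne_zero_of_finite)) this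
      have h6 : (P ⊓ K).relIndex K ∣ P.index := by
        rw [inf_relIndex_right]; exact FullyRam.relIndex_dvd_index_of_normal P K
      have h7 : (P ⊓ K).relIndex (invSubgroup η.1 ⊓ P) ∣ p ^ k :=
        (Dvd.intro _ h3).trans (hk ▸ relIndex_dvd_of_le_left P (le_inf hZP hZK))
      have h8 := Nat.eq_one_of_dvd_coprimes
        (Nat.Coprime.pow_left k (hp.coprime_iff_not_dvd.2 hi)) h7 (h5.trans h6)
      exact (relIndex_eq_one.1 h8).trans inf_le_right)
    obtain ⟨L, hL, -⟩ := exists_quotient_complement K hKM hj hM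
    exact ⟨L, hL⟩
  refine ⟨hs, fun hK' => ?_⟩
  exact Group.isSolvable_of_ker_le_range K.subtype (QuotientGroup.mk' K) (by simp)

end Cfsg.Agent.S4563
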