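import Cfsg.Statements.S4564
import Cfsg.Agent.Char.FullyRam
import Cfsg.Agent.S0886

set_option autoImplicit false
open Cfsg

namespace Cfsg.Agent.S4564

open Cfsg.Agent.Char Cfsg.Agent.Char.FullyRam Subgroup


/-- Let χ be an irreducible character of the finite group H that is fully ramified over the normal subgroup Z: the restriction of χ to Z is e times an irreducible character of Z with e ^ 2 equal to the index of Z. Let K be a normal subgroup of H containing Z and P a cyclic Sylow p-subgroup of H/K. Then P has a complement in H/K: a subgroup meeting P trivially whose product with P is the whole group. -/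
theorem result {H : Type*} [Group H] [Finite H] (Z : Subgroup H) [Z.Normal] (χ : Cfsg.IrrCharacter H) (hfr : ∃ (θ : Cfsg.IrrCharacter ↥Z) (e : ℕ), e ^ 2 = Z.index ∧ ∀ z : ↥Z, (χ : H → ℂ) z = (e : ℂ) * (θ : ↥Z → ℂ) z) (K : Subgroup H) [K.Normal] (hZK : Z ≤ K) (p : ℕ) [Fact p.Prime] (P : Sylow p (H ⧸ K)) (hcyc : IsCyclic P) : ∃ M : Subgroup (H ⧸ K), M.IsComplement' (P : Subgroup (H ⧸ K)) := by
  classical
  have hp : p.Prime := Fact.out
  obtain ⟨θ, e, he, hres⟩ := hfr
  have h : FR Z χ θ e := ⟨he, hres⟩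
  obtain ⟨Q, k, η, hZQ, hk, hi, hη, -, hcount, hfin⟩ := h.setup K hZK p
  have hDI : Q ⊓ K ≤ invSubgroup η.1 :=
    (invBy_iff_le le_normalizer).1 (invBy_self η.2.isClassFunction)
  obtain ⟨M, j, hKM, hj, hM⟩ := hfin (by
    set T := invSubgroup η.1 ⊓ Q with hT
    have hDT : Q ⊓ K ≤ T := le_inf hDI inf_le_left
    have hZD : Z ≤ Q ⊓ K := le_inf hZQ hZK
    have h3 := relIndex_mul_relIndex (Q ⊓ K) T Q hDT inf_le_right
    have h7 : (Q ⊓ K).relIndex T ∣ p ^ k :=
      (Dvd.intro _ h3).trans (hk ▸ relIndex_dvd_of_le_left Q hZD)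
    let f : T →* H ⧸ K := (QuotientGroup.mk' K).comp T.subtype
    have hker : f.ker = (Q ⊓ K).subgroupOf T := by
      ext x
      simp only [f, MonoidHom.mem_ker, MonoidHom.comp_apply, coe_subtype, QuotientGroup.mk'_apply,
        QuotientGroup.eq_one_iff, mem_subgroupOf, mem_inf]
      exact ⟨fun h => ⟨x.2.2, h⟩, fun h => h.2⟩
    have hrange : IsPGroup p f.range := by
      obtain ⟨i, -, hi⟩ := (Nat.dvd_prime_pow hp).1 h7
      refine IsPGroup.of_card (n := i) ?_
      rw [← index_ker, hker]; exact hi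
    obtain ⟨R, hR⟩ := hrange.exists_le_sylow
    have hcR : IsCyclic R := isCyclic_of_surjective _ (Sylow.equiv P R).surjective
    have hcr : IsCyclic f.range := isCyclic_of_injective (inclusion hR) (inclusion_injective hR)
    have hcq : IsCyclic (T ⧸ f.ker) :=
      isCyclic_of_surjective _ (QuotientGroup.quotientKerEquivRange f).symm.surjective
    have hle : ∀ x : f.ker, ((x : T) : H) ∈ Q ⊓ K := fun x => hker.le x.2
    have hirr : IsIrrCharacter f.ker (fun x => η.1 ⟨_, hle x⟩) := by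
      have := (isIrr_subgroupOf hDT η.2).comp_mulEquiv (MulEquiv.subgroupCongr hker)
      exact this
    obtain ⟨ξ, hξ, hext⟩ := Cfsg.Agent.S0886.result f.ker hcq _ hirr fun g n =>
      g.2.1.2 ⟨_, hle n⟩ _ rfl
    have hext' : ∀ z : Z, ξ ⟨z, hDT (hZD z.2)⟩ = η.1 ⟨z, hZD z.2⟩ := fun z =>
      hext ⟨⟨z, hDT (hZD z.2)⟩, by rw [hker]; exact hZD z.2⟩
    have h1 : mult χ (⟨ξ, hξ⟩ : IrrCharacter T) ≠ 0 := by
      rw [h.mult_ne_zero_iff_over (hZD.trans hDT)]
      have := (h.mult_ne_zero_iff_over hZD η).1 hη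
      unfold nmult at this ⊢
      simpa only [hext'] using this
    have h2 := h.index_mul_deg (hZD.trans hDT) h1
    have h4 : charDegree ξ = charDegree η.1 := charDegree_congr_one (hext' 1)
    simp only at h2
    have hTQ : T.relIndex Q = (invSubgroup η.1).relIndex Q := inf_relIndex_right _ _
    rw [h4, ← relIndex_mul_index (inf_le_right : T ≤ Q), hTQ] at h2
    rw [← relIndex_mul_index (inf_le_left : Q ⊓ K ≤ Q), ← h3, hTQ] at hcount
    have h5 : Q.index = (Q ⊓ K).relIndex T * mult χ (⟨ξ, hξ⟩ : IrrCharacter T) ^ 2 := by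
      have hpos : 0 < (invSubgroup η.1).relIndex Q ^ 2 * Q.index * charDegree η.1 ^ 2 :=
        Nat.mul_pos (Nat.mul_pos (pow_pos (Nat.pos_of_ne_zero
          (show (invSubgroup η.1).relIndex Q ≠ 0 from index_ne_zero_of_finite)) 2)
          (Nat.pos_of_ne_zero index_ne_zero_of_finite)) (pow_pos (charDegree_irr_pos η) 2)
      apply Nat.eq_of_mul_eq_mul_right hpos
      calc _ = ((invSubgroup η.1).relIndex Q * Q.index * charDegree η.1) ^ 2 := by ring
        _ = mult χ (⟨ξ, hξ⟩ : IrrCharacter T) ^ 2 * charDegree χ.1 ^ 2 := by rw [h2]; ring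
        _ = _ := by rw [← hcount]; ring
    have h8 := Nat.eq_one_of_dvd_coprimes
      (Nat.Coprime.pow_left k (hp.coprime_iff_not_dvd.2 hi)) h7 (Dvd.intro _ h5.symm)
    exact (relIndex_eq_one.1 h8).trans inf_le_right)
  obtain ⟨L, hL, hL'⟩ := exists_quotient_complement K hKM hj hM
  refine ⟨L, isComplement'_of_coprime ?_ ?_⟩
  · rw [P.card_eq_multiplicity, ← hL, mul_comm, L.index_mul_card]
  · rw [P.card_eq_multiplicity]
    exact Nat.Coprime.pow_right _ (hp.coprime_iff_not_dvd.2 hL').symm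

end Cfsg.Agent.S4564
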