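import Cfsg.Statements.S4565
import Cfsg.Agent.Char.FullyRam

set_option autoImplicit false
open Cfsg

namespace Cfsg.Agent.S4565

open Cfsg.Agent.Char Cfsg.Agent.Char.FullyRam Subgroup
open scoped ComplexConjugate


/-- Let χ be an irreducible character of the finite group H that is fully ramified over the normal subgroup Z: the restriction of χ to Z is e times an irreducible character of Z with e ^ 2 equal to the index of Z. If Z ≠ H, then H/Z has no cyclic subgroup that is its own centralizer. -/
theorem result {H : Type*} [Group H] [Finite H] (Z : Subgroup H) [Z.Normal] (χ : Cfsg.IrrCharacter H) (hfr : ∃ (θ : Cfsg.IrrCharacter ↥Z) (e : ℕ), e ^ 2 = Z.index ∧ ∀ z : ↥Z, (χ : H → ℂ) z = (e : ℂ) * (θ : ↥Z → ℂ) z) (hZ : Z ≠ ⊤) (C : Subgroup (H ⧸ Z)) (hC : IsCyclic C) : Subgroup.centralizer (C : Set (H ⧸ Z)) ≠ C := by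
  classical
  have := Fintype.ofFinite H
  obtain ⟨θ, e, he, hres⟩ := hfr
  have h : FR Z χ θ e := ⟨he, hres⟩
  intro hcent
  obtain ⟨⟨q, hq⟩, hgen⟩ := hC.exists_generator
  obtain ⟨g, rfl⟩ := QuotientGroup.mk_surjective q
  have hCq : C = zpowers (g : H ⧸ Z) := by
    refine le_antisymm (fun x hx => ?_) (zpowers_le.2 hq)
    obtain ⟨k, hk⟩ := hgen ⟨x, hx⟩
    exact ⟨k, congrArg Subtype.val hk⟩
  have hgZ : g ∉ Z := fun hg => hZ (by
    rw [eq_top_iff]
    intro x _
    have h1 : (x : H ⧸ Z) ∈ C := by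
      rw [← hcent, hCq, (QuotientGroup.eq_one_iff g).2 hg]
      simp [mem_centralizer_iff]
    rw [hCq, (QuotientGroup.eq_one_iff g).2 hg, zpowers_one_eq_bot, mem_bot] at h1
    exact (QuotientGroup.eq_one_iff x).1 h1)
  set T := C.comap (QuotientGroup.mk' Z) with hT
  have hZT : Z ≤ T := fun z hz => by
    rw [hT, mem_comap, QuotientGroup.mk'_apply, (QuotientGroup.eq_one_iff z).2 hz]; exact one_mem _
  have hgT : g ∈ T := hq
  have hcyc : IsCyc (inclusion hZT) (⟨g, hgT⟩ : T) := by
    refine ⟨inclusion_injective hZT, by rw [inclusion_range]; infer_instance, ?_⟩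
    rw [eq_top_iff, inclusion_range]
    rintro ⟨x, hx⟩ -
    have hx' : (x : H ⧸ Z) ∈ zpowers (g : H ⧸ Z) := hCq ▸ hx
    obtain ⟨k, hk⟩ := hx'
    have h1 : (g ^ k)⁻¹ * x ∈ Z := by
      rw [← QuotientGroup.eq]; simpa using hk
    have h2 : (⟨x, hx⟩ : T) = ⟨g, hgT⟩ ^ k * ⟨_, hZT h1⟩ := Subtype.ext (by simp)
    rw [h2]
    exact mul_mem (mem_sup_right (zpow_mem (mem_zpowers _) k)) (mem_sup_left h1)
  have := Fintype.ofFinite Z
  have := Fintype.ofFinite T
  obtain ⟨η, hη, hext⟩ := hcyc.exists_ext θ.2 fun z z' e => h.inv (congrArg Subtype.val e)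
  have hres' : (fun z => η (inclusion hZT z)) = θ.1 := funext hext
  let φ : T → ℂ := fun t => if (t : H) * g⁻¹ ∈ Z then η t else 0
  have hind : indFun T φ = 0 := by
    refine (isClassFunction_indFun T φ).eq_zero_of_inner fun ξ hξ => ?_
    rw [classInner_indFun_left T φ hξ.isClassFunction, classInner_def]
    have h1 : ∑ t : T, φ t * conj (ξ t) =
        ∑ z : Z, η (inclusion hZT z * ⟨g, hgT⟩) * conj (ξ (z * g)) := by
      symm
      refine Finset.sum_of_injOn (fun z : Z => inclusion hZT z * ⟨g, hgT⟩) ?_ (by simp) ?_ ?_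
      · intro a _ b _ e
        exact inclusion_injective hZT (mul_right_cancel e)
      · intro t _ ht
        have : (t : H) * g⁻¹ ∉ Z := fun h' => ht ⟨⟨_, h'⟩, by simp, Subtype.ext (by simp)⟩
        simp [φ, this]
      · intro z _
        simp [φ]
    rw [h1]
    by_cases e : ξ = χ.1
    · rw [Finset.sum_eq_zero, mul_zero]
      intro z _
      rw [e, h.vanish (fun h' => hgZ ((Z.mul_mem_cancel_left z.2).1 h'))]; simp
    · have h2 := cin_eq_zero_of_inner (inclusion hZT) hcyc.inj hcyc.normal hη.isCharacter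
        (hξ.isCharacter.restrict T) (by
          rw [hres']
          by_contra h3
          refine e (congrArg Subtype.val (h.eq_of_over (ξ := ⟨ξ, hξ⟩) ?_))
          rw [mult_ne_zero_iff, ← θ.2.isCharacter.inner_symm (hξ.isCharacter.restrict Z)]
          exact h3) ⟨g, hgT⟩
      rw [cin, classInner_def, mul_eq_zero] at h2
      rw [show ∑ z : Z, η (inclusion hZT z * ⟨g, hgT⟩) * conj (ξ (z * g)) = 0 from
        h2.resolve_left (inv_ne_zero (card_ne_zero Z)), mul_zero]
  have hvan : ∀ z : Z, η (inclusion hZT z * ⟨g, hgT⟩) = 0 := by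
    intro z
    have h1 := congrFun hind (z * g)
    rw [indFun_apply', Pi.zero_apply, mul_eq_zero] at h1
    have h2 := h1.resolve_left (inv_ne_zero (card_ne_zero T))
    have h3 : ∑ x : H, extendByZero T φ (x * (z * g) * x⁻¹) =
        ∑ t : T, η (inclusion hZT z * ⟨g, hgT⟩) := by
      symm
      refine Finset.sum_of_injOn (fun t : T => (t : H)) Subtype.val_injective.injOn (by simp) ?_ ?_
      · intro x _ hx
        rw [extendByZero_apply]
        split_ifs with h4
        · simp only [φ]
          rw [if_neg]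
          intro h5
          apply hx
          refine ⟨⟨x, ?_⟩, by simp, rfl⟩
          rw [hT, mem_comap, ← hcent, hCq, zpowers_eq_closure, centralizer_closure,
            mem_centralizer_singleton_iff, QuotientGroup.mk'_apply]
          have h6 := (QuotientGroup.eq_one_iff _).2 h5
          simp only [QuotientGroup.mk_mul, QuotientGroup.mk_inv,
            (QuotientGroup.eq_one_iff (z : H)).2 z.2, one_mul] at h6
          calc (x : H ⧸ Z) * g = (x * g * (x : H ⧸ Z)⁻¹ * (g : H ⧸ Z)⁻¹) * g * x := by group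
            _ = g * x := by rw [h6, one_mul]
        · rfl
      · intro t _
        have h4 : (t : H) * (z * g) * (t : H)⁻¹ = ((t * (inclusion hZT z * ⟨g, hgT⟩) * t⁻¹ : T) : H) := by
          simp
        rw [h4, extendByZero_coe]
        simp only [φ]
        rw [if_pos, hη.isClassFunction]
        rw [← h4, ← QuotientGroup.eq_one_iff]
        have h5 : ((t : H) : H ⧸ Z) ∈ centralizer (C : Set (H ⧸ Z)) := by rw [hcent]; exact t.2
        have h6 := h5 _ hq
        simp only [QuotientGroup.mk_mul, QuotientGroup.mk_inv,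
          (QuotientGroup.eq_one_iff (z : H)).2 z.2, one_mul]
        rw [← h6]; group
    rw [h3, Finset.sum_const, nsmul_eq_mul, mul_eq_zero] at h2
    exact h2.resolve_left (by simp)
  have h1 := cin_self_of_irr (inclusion hZT) hcyc.inj hcyc.normal hη.isCharacter
    (hres' ▸ θ.2) ⟨g, hgT⟩
  rw [cin, classInner_def] at h1
  simp [hvan] at h1

end Cfsg.Agent.S4565
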