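import Cfsg.Statements.S4566
import Cfsg.Agent.Char.Quot

set_option autoImplicit false
open Cfsg

namespace Cfsg.Agent.S4566

open Cfsg.Agent.Char

/-- Let N be a central subgroup of the finite group G, ψ a faithful irreducible (hence degree-one) character of N, and χ an irreducible character of G whose restriction to N contains ψ. If g ∈ G and some x ∈ G has commutator x⁻¹ g⁻¹ x g in N but different from 1, then χ g = 0. -/
theorem result {G : Type*} [Group G] [Fintype G] (N : Subgroup G) [Fintype N] (hN : N ≤ Subgroup.center G) (ψ : Cfsg.IrrCharacter ↥N) (hfaith : ∀ n : ↥N, (ψ : ↥N → ℂ) n = (ψ : ↥N → ℂ) 1 → n = 1) (χ : Cfsg.IrrCharacter G) (hover : Cfsg.classInner (fun n : ↥N => (χ : G → ℂ) n) (ψ : ↥N → ℂ) ≠ 0) (g x : G) (hcomm : x⁻¹ * g⁻¹ * x * g ∈ N) (hne : x⁻¹ * g⁻¹ * x * g ≠ 1) : (χ : G → ℂ) g = 0 := by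
  by_contra hg
  set c : G := x⁻¹ * g⁻¹ * x * g with hc
  have hcZ : c ∈ Subgroup.center G := hN hcomm
  have hχ : IsIrrCharacter G (χ : G → ℂ) := χ.2
  have hψ : IsIrrCharacter N (ψ : N → ℂ) := ψ.2
  obtain ⟨ω, -, hω⟩ := (isCharacter_norm_eq_iff hχ.isCharacter c).1
    (norm_eq_of_mem_center hχ hcZ)
  have hcN : (⟨c, hcomm⟩ : N) ∈ Subgroup.center N := by
    rw [Subgroup.mem_center_iff]
    intro m
    ext
    exact (Subgroup.mem_center_iff.1 hcZ m)
  obtain ⟨ω', -, hω'⟩ := (isCharacter_norm_eq_iff hψ.isCharacter ⟨c, hcomm⟩).1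
    (norm_eq_of_mem_center hψ hcN)
  -- `ω = 1`
  have h1 : ω = 1 := by
    have e1 : c * (x⁻¹ * g * x) = g := by
      rw [← Subgroup.mem_center_iff.1 hcZ, hc]; group
    have e2 := hω (x⁻¹ * g * x)
    rw [e1] at e2
    have e3 : (χ : G → ℂ) (x⁻¹ * g * x) = (χ : G → ℂ) g := by
      have := hχ.isClassFunction g x⁻¹
      simpa using this
    rw [e3] at e2
    exact (mul_eq_right₀ hg).1 e2.symm
  have h2 : ω * (starRingEnd ℂ) ω' = 1 := by
    have e : Cfsg.classInner (fun n : ↥N => (χ : G → ℂ) n) (ψ : ↥N → ℂ) =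
        ω * (starRingEnd ℂ) ω' * Cfsg.classInner (fun n : ↥N => (χ : G → ℂ) n) (ψ : ↥N → ℂ) := by
      unfold Cfsg.classInner
      conv_lhs => rw [← Equiv.sum_comp (Equiv.mulLeft (⟨c, hcomm⟩ : N))]
      rw [mul_left_comm]
      congr 1
      rw [Finset.mul_sum]
      refine Finset.sum_congr rfl fun m _ => ?_
      simp only [Equiv.coe_mulLeft, Subgroup.coe_mul, hω, hω', map_mul]
      ring
    exact ((mul_eq_right₀ hover).1 e.symm)
  rw [h1, one_mul] at h2
  have h3 : ω' = 1 := by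
    have := congrArg (starRingEnd ℂ) h2
    simpa using this
  have h4 := hω' 1
  rw [mul_one, h3, one_mul] at h4
  exact hne (congrArg Subtype.val (hfaith _ h4))

end Cfsg.Agent.S4566
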