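import Cfsg.Statements.S4567
import Cfsg.Agent.Char.ExtraspecialChar
import Cfsg.Agent.Char.Clifford
import Cfsg.Agent.Char.Inflate
import Cfsg.Agent.Char.FS

set_option autoImplicit false
open Cfsg

namespace Cfsg.Agent.S4567

open Cfsg.Agent.Char Subgroup
open scoped commutatorElement ComplexConjugate

/-- special elements -/
def Sp {G : Type*} [Group G] (N : Subgroup G) (g : G) : Prop :=
  ∀ x : G, x⁻¹ * g⁻¹ * x * g ∈ N → x * g = g * x

theorem sp_of_isConj {G : Type*} [Group G] (N : Subgroup G) [hn : N.Normal]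
    (hN : N ≤ Subgroup.center G) {g h : G} (hg : Sp N g)
    (e : IsConj (g : G ⧸ N) (h : G ⧸ N)) : Sp N h := by
  obtain ⟨c, hc⟩ := isConj_iff.1 e
  obtain ⟨y, rfl⟩ := QuotientGroup.mk_surjective c
  have h1 : (y * g * y⁻¹)⁻¹ * h ∈ N := by
    rw [← QuotientGroup.eq]
    simpa using hc
  obtain ⟨n, hn', rfl⟩ : ∃ n ∈ N, h = y * g * y⁻¹ * n := ⟨_, h1, by group⟩
  have hc := mem_center_iff.1 (hN hn')
  have hc' := mem_center_iff.1 (hN (inv_mem hn'))
  intro x hx
  have h2 : x⁻¹ * (y * g * y⁻¹ * n)⁻¹ * x * (y * g * y⁻¹ * n) =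
      y * ((y⁻¹ * x * y)⁻¹ * g⁻¹ * (y⁻¹ * x * y) * g) * y⁻¹ := by
    calc x⁻¹ * (y * g * y⁻¹ * n)⁻¹ * x * (y * g * y⁻¹ * n)
        = x⁻¹ * n⁻¹ * ((y * g⁻¹ * y⁻¹ * x * y * g * y⁻¹) * n) := by group
      _ = x⁻¹ * n⁻¹ * (n * (y * g⁻¹ * y⁻¹ * x * y * g * y⁻¹)) := by rw [hc]
      _ = _ := by group
  rw [h2] at hx
  have h3 := hn.conj_mem _ hx y⁻¹
  have h4 := hg (y⁻¹ * x * y) (by simpa [mul_assoc] using h3)
  calc x * (y * g * y⁻¹ * n) = y * ((y⁻¹ * x * y) * g) * y⁻¹ * n := by group
    _ = y * (g * (y⁻¹ * x * y)) * y⁻¹ * n := by rw [h4]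
    _ = y * g * y⁻¹ * (x * n) := by group
    _ = _ := by rw [hc x]; group

theorem card_centralizer_of_sp {G : Type*} [Group G] [Finite G] (N : Subgroup G) [hn : N.Normal]
    (hN : N ≤ Subgroup.center G) {g : G} (hg : Sp N g) :
    Nat.card (centralizer ({g} : Set G)) =
      Nat.card N * Nat.card (centralizer ({(g : G ⧸ N)} : Set (G ⧸ N))) := by
  have h1 : (centralizer ({(g : G ⧸ N)} : Set (G ⧸ N))).comap (QuotientGroup.mk' N) =
      centralizer ({g} : Set G) := by
    ext x
    simp only [mem_comap, mem_centralizer_singleton_iff, QuotientGroup.mk'_apply]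
    constructor
    · intro h
      apply hg
      rw [← QuotientGroup.mk_mul, ← QuotientGroup.mk_mul, eq_comm, QuotientGroup.eq] at h
      simpa [mul_assoc] using h
    · intro h
      rw [← QuotientGroup.mk_mul, h, QuotientGroup.mk_mul]
  have h2 := Subgroup.index_comap_of_surjective
    (centralizer ({(g : G ⧸ N)} : Set (G ⧸ N))) (QuotientGroup.mk'_surjective N)
  rw [h1] at h2
  have e1 := (centralizer ({g} : Set G)).index_mul_card
  have e2 := (centralizer ({(g : G ⧸ N)} : Set (G ⧸ N))).index_mul_card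
  have e3 := N.card_eq_card_quotient_mul_card_subgroup
  have e4 : 0 < (centralizer ({g} : Set G)).index :=
    Nat.pos_of_ne_zero Subgroup.index_ne_zero_of_finite
  apply Nat.eq_of_mul_eq_mul_left e4
  rw [e1, e3, ← e2, h2]; ring


/-- Let N be a central subgroup of the finite group G and ψ a faithful irreducible (hence degree-one) character of N. Call a coset g N special when every x ∈ G whose commutator x⁻¹ g⁻¹ x g lies in N actually commutes with g (this depends only on the coset). Then the number of irreducible characters of G whose restriction to N contains ψ equals the number of conjugacy classes of G/N consisting of special cosets. -/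
theorem result {G : Type*} [Group G] [Fintype G] (N : Subgroup G) [N.Normal] [Fintype N] (hN : N ≤ Subgroup.center G) (ψ : Cfsg.IrrCharacter ↥N) (hfaith : ∀ n : ↥N, (ψ : ↥N → ℂ) n = (ψ : ↥N → ℂ) 1 → n = 1) : Nat.card {χ : Cfsg.IrrCharacter G // Cfsg.classInner (fun n : ↥N => (χ : G → ℂ) n) (ψ : ↥N → ℂ) ≠ 0} = Nat.card {C : ConjClasses (G ⧸ N) // ∃ g : G, ConjClasses.mk (g : G ⧸ N) = C ∧ ∀ x : G, x⁻¹ * g⁻¹ * x * g ∈ N → x * g = g * x} := by
  classical
  obtain ⟨lam, hlam⟩ := ψ.2.exists_linear_of_comm fun a b =>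
    Subtype.ext (mem_center_iff.1 (hN b.2) a)
  have hψ1 : (ψ : N → ℂ) 1 = 1 := by rw [hlam]; simp
  have hnorm : ∀ n : N, (ψ : N → ℂ) n * conj ((ψ : N → ℂ) n) = 1 := fun n => by
    rw [← ψ.2.map_inv, hlam]; simp
  set S := Finset.univ.filter fun χ : IrrCharacter G =>
    classInner (fun n : N => (χ : G → ℂ) n) (ψ : N → ℂ) ≠ 0 with hS
  have hover : ∀ χ ∈ S, ∀ n : N, (χ : G → ℂ) n = (χ : G → ℂ) 1 * (ψ : N → ℂ) n := by
    intro χ hχ n
    have h := (Finset.mem_filter.1 hχ).2
    have h1 := clifford_invariant N χ.2 ψ.2 h fun g => by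
      funext m
      rw [conjChar_apply]
      refine congrArg (ψ : N → ℂ) (Subtype.ext ?_)
      simp only
      rw [mem_center_iff.1 (hN m.2) g]; group
    have h2 := congrFun h1 1
    have h3 := congrFun h1 n
    simp only [Pi.smul_apply, smul_eq_mul, OneMemClass.coe_one, hψ1, mul_one] at h2 h3
    rw [h3, h2]
  have hmul : ∀ (χ : IrrCharacter G) (g : G) (n : N),
      (χ : G → ℂ) 1 * (χ : G → ℂ) (n * g) = (χ : G → ℂ) n * (χ : G → ℂ) g := fun χ g n =>
    irr_one_mul_apply_central_mul χ.2 (hN n.2) g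
  have hproj : ∀ (χ : IrrCharacter G) (g : G),
      ∑ n : N, (χ : G → ℂ) (n * g) * conj ((ψ : N → ℂ) n) =
        if χ ∈ S then Nat.card N * (χ : G → ℂ) g else 0 := by
    intro χ g
    apply mul_left_cancel₀ χ.2.one_ne_zero
    rw [Finset.mul_sum]
    simp_rw [← mul_assoc, hmul]
    have : ∑ n : N, (χ : G → ℂ) n * (χ : G → ℂ) g * conj ((ψ : N → ℂ) n) =
        (χ : G → ℂ) g * ∑ n : N, (χ : G → ℂ) n * conj ((ψ : N → ℂ) n) := by
      rw [Finset.mul_sum]; exact Finset.sum_congr rfl fun n _ => by ring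
    rw [this]
    split_ifs with h
    · simp_rw [hover χ h, mul_assoc, hnorm]
      simp; ring
    · rw [sum_mul_conj_eq (fun n : N => (χ : G → ℂ) n)]
      have : classInner (fun n : N => (χ : G → ℂ) n) (ψ : N → ℂ) = 0 := by
        by_contra h'
        exact h (Finset.mem_filter.2 ⟨Finset.mem_univ _, h'⟩)
      rw [this]; simp
  have hcol : ∀ g : G, ∑ χ ∈ S, (χ : G → ℂ) g * conj ((χ : G → ℂ) g) =
      if Sp N g then (Nat.card (centralizer ({(g : G ⧸ N)} : Set (G ⧸ N))) : ℂ) else 0 := by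
    intro g
    split_ifs with hg
    · apply mul_left_cancel₀ (card_ne_zero N)
      have h1 : (Nat.card N : ℂ) * ∑ χ ∈ S, (χ : G → ℂ) g * conj ((χ : G → ℂ) g) =
          ∑ χ : IrrCharacter G, (∑ n : N, (χ : G → ℂ) (n * g) * conj ((ψ : N → ℂ) n)) *
            conj ((χ : G → ℂ) g) := by
        simp_rw [hproj, ite_mul, zero_mul]
        rw [Finset.sum_ite_mem, Finset.univ_inter, Finset.mul_sum]
        exact Finset.sum_congr rfl fun χ _ => by ring
      rw [h1]
      simp_rw [Finset.sum_mul]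
      rw [Finset.sum_comm]
      have h2 : ∀ n : N, ∑ χ : IrrCharacter G,
          (χ : G → ℂ) (n * g) * conj ((ψ : N → ℂ) n) * conj ((χ : G → ℂ) g) =
          if n = 1 then (Nat.card (centralizer ({g} : Set G)) : ℂ) else 0 := by
        intro n
        have : ∑ χ : IrrCharacter G,
            (χ : G → ℂ) (n * g) * conj ((ψ : N → ℂ) n) * conj ((χ : G → ℂ) g) =
            conj ((ψ : N → ℂ) n) *
              ∑ χ : IrrCharacter G, (χ : G → ℂ) (n * g) * conj ((χ : G → ℂ) g) := by
          rw [Finset.mul_sum]; exact Finset.sum_congr rfl fun n _ => by ring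
        rw [this]
        split_ifs with hn
        · subst hn
          simp only [OneMemClass.coe_one, one_mul, hψ1, map_one]
          exact sum_irr_mul_conj_of_isConj (IsConj.refl g)
        · rw [sum_irr_mul_conj_of_not_isConj, mul_zero]
          intro hc
          obtain ⟨c, hc⟩ := isConj_iff.1 hc.symm
          have h3 := hg c⁻¹ (by
            have : c⁻¹⁻¹ * g⁻¹ * c⁻¹ * g = ((n : G) * g)⁻¹ * g := by rw [← hc]; group
            rw [this, ← mem_center_iff.1 (hN n.2) g]
            simp)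
          apply hn
          apply Subtype.ext
          have h4 : c * g * c⁻¹ = g := by rw [mul_assoc, ← h3]; group
          rw [h4] at hc
          simpa using hc.symm
      simp_rw [h2]
      rw [Finset.sum_ite_eq' Finset.univ (1 : N), if_pos (Finset.mem_univ _),
        card_centralizer_of_sp N hN hg]
      push_cast; rfl
    · apply Finset.sum_eq_zero
      intro χ hχ
      simp only [Sp, not_forall] at hg
      obtain ⟨x, hx, hne⟩ := hg
      have h1 : ⁅x⁻¹, g⁻¹⁆ = x⁻¹ * g⁻¹ * x * g := by rw [commutatorElement_def]; group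
      have h2 : (χ : G → ℂ) g⁻¹ = 0 := by
        apply irr_eq_zero_of_commutator_central χ.2 (y := x⁻¹) (h1 ▸ hN hx)
        rw [h1, hover χ hχ ⟨_, hx⟩]
        intro h
        have h3 : (ψ : N → ℂ) ⟨_, hx⟩ = (ψ : N → ℂ) 1 := by
          rw [hψ1]
          exact mul_left_cancel₀ χ.2.one_ne_zero (by rw [h, mul_one])
        have h4 := congrArg Subtype.val (hfaith _ h3)
        apply hne
        simp only [OneMemClass.coe_one] at h4
        calc x * g = g * x * (x⁻¹ * g⁻¹ * x * g) := by group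
          _ = g * x := by rw [h4, mul_one]
      rw [← χ.2.map_inv, h2, mul_zero]
  let T : ConjClasses (G ⧸ N) → Prop := fun C => ∃ g : G, ConjClasses.mk (g : G ⧸ N) = C ∧
    ∀ x : G, x⁻¹ * g⁻¹ * x * g ∈ N → x * g = g * x
  have hT : ∀ g : G, Sp N g ↔ T (ConjClasses.mk (g : G ⧸ N)) := fun g =>
    ⟨fun h => ⟨g, rfl, h⟩, fun ⟨h, e, hh⟩ =>
      sp_of_isConj N hN hh (ConjClasses.mk_eq_mk_iff_isConj.1 e)⟩
  have := Fintype.ofFinite (G ⧸ N)
  have := Fintype.ofFinite (ConjClasses (G ⧸ N))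
  have e1 : ∑ g : G, ∑ χ ∈ S, (χ : G → ℂ) g * conj ((χ : G → ℂ) g) = Nat.card G * S.card := by
    rw [Finset.sum_comm]
    rw [Finset.sum_congr rfl fun χ _ => by rw [sum_mul_conj_eq, χ.2.inner_self, mul_one]]
    simp [mul_comm]
  have e2 := avg_comp_surjective (QuotientGroup.mk' N) (QuotientGroup.mk'_surjective N)
    (fun q => (Nat.card (centralizer ({q} : Set (G ⧸ N))) : ℂ) *
      if T (ConjClasses.mk q) then 1 else 0)
  rw [sum_card_centralizer_mul (fun C => if T C then (1 : ℂ) else 0), ← mul_assoc,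
    inv_mul_cancel₀ (card_ne_zero _), one_mul, Finset.sum_boole] at e2
  have e3 : ∑ g : G, ∑ χ ∈ S, (χ : G → ℂ) g * conj ((χ : G → ℂ) g) =
      ∑ x : G, (Nat.card (centralizer ({(QuotientGroup.mk' N) x} : Set (G ⧸ N))) : ℂ) *
      if T (ConjClasses.mk ((QuotientGroup.mk' N) x)) then 1 else 0 := by
    refine Finset.sum_congr rfl fun g _ => ?_
    rw [hcol, QuotientGroup.mk'_apply]
    by_cases h : Sp N g
    · rw [if_pos h, if_pos ((hT g).1 h), mul_one]
    · rw [if_neg h, if_neg (fun h' => h ((hT g).2 h')), mul_zero]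
  rw [← e3, e1, ← mul_assoc, inv_mul_cancel₀ (card_ne_zero _), one_mul] at e2
  rw [Nat.subtype_card S (fun χ => by simp [hS]),
    Nat.subtype_card (Finset.univ.filter T) (fun C => by simp [T])]
  exact_mod_cast e2

end Cfsg.Agent.S4567
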