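import Cfsg.Statements.S4574
import Cfsg.Agent.Char.Zeros

set_option autoImplicit false
open Cfsg

namespace Cfsg.Agent.S4574

open Cfsg.Agent.Char

/-- Let χ be an irreducible character of the finite group G, of degree d, and let Z(χ) be the set of elements g with |χ g| = d (the centre of χ). Then χ vanishes on at least (d ^ 2 - 1) · |Z(χ)| elements of G, with equality when every value |χ g| is 0, 1 or d. -/
theorem result {G : Type*} [Group G] [Fintype G] [DecidableEq G] (χ : G → ℂ) (hχ : Cfsg.IsIrrCharacter G χ) : (Cfsg.charDegree χ ^ 2 - 1) * (Finset.univ.filter (fun g : G => ‖χ g‖ = (Cfsg.charDegree χ : ℝ))).card ≤ (Finset.univ.filter (fun g : G => χ g = 0)).card ∧ ((∀ g : G, ‖χ g‖ = 0 ∨ ‖χ g‖ = 1 ∨ ‖χ g‖ = (Cfsg.charDegree χ : ℝ)) → (Cfsg.charDegree χ ^ 2 - 1) * (Finset.univ.filter (fun g : G => ‖χ g‖ = (Cfsg.charDegree χ : ℝ))).card = (Finset.univ.filter (fun g : G => χ g = 0)).card) := by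
  classical
  set d := Cfsg.charDegree χ with hd
  have hdpos : 0 < d := charDegree_pos_of_isIrr hχ
  set Z := Finset.univ.filter (fun g : G => ‖χ g‖ = (d : ℝ)) with hZ
  set O := Finset.univ.filter (fun g : G => χ g = 0) with hO
  set R := Finset.univ.filter (fun g : G => ‖χ g‖ ≠ (d : ℝ) ∧ χ g ≠ 0) with hR
  have hsplit : ∀ f : G → ℝ, ∑ g, f g = ∑ g ∈ Z, f g + ∑ g ∈ O, f g + ∑ g ∈ R, f g := by
    intro f
    simp only [hZ, hO, hR, Finset.sum_filter, ← Finset.sum_add_distrib]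
    refine Finset.sum_congr rfl fun g _ => ?_
    have : (0 : ℝ) ≠ d := by exact_mod_cast hdpos.ne
    by_cases h1 : χ g = 0
    · simp [h1, this]
    · by_cases h2 : ‖χ g‖ = (d : ℝ) <;> simp [h1, h2]
  have h1 := hsplit fun _ => 1
  have h2 := hsplit fun g => ‖χ g‖ ^ 2
  rw [hχ.sum_norm_sq, Nat.card_eq_fintype_card] at h2
  simp only [Finset.sum_const, Finset.card_univ, nsmul_eq_mul, mul_one] at h1
  have h3 : ∑ g ∈ Z, ‖χ g‖ ^ 2 = Z.card * (d : ℝ) ^ 2 := by
    rw [Finset.sum_congr rfl (g := fun _ => (d : ℝ) ^ 2), Finset.sum_const, nsmul_eq_mul]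
    intro g hg
    rw [(Finset.mem_filter.mp hg).2]
  have h4 : ∑ g ∈ O, ‖χ g‖ ^ 2 = 0 :=
    Finset.sum_eq_zero fun g hg => by simp [(Finset.mem_filter.mp hg).2]
  have hcast : (((d ^ 2 - 1) * Z.card : ℕ) : ℝ) = ((d : ℝ) ^ 2 - 1) * Z.card := by
    rw [Nat.cast_mul, Nat.cast_sub (Nat.one_le_pow _ _ hdpos)]
    push_cast
    ring
  constructor
  · have h5 := hχ.isGen.card_le_sum_norm_sq R (fun m hm g hg => by
      have hm' := hm.coprime_dvd_right (orderOf_dvd_natCard g)
      simp only [hR, Finset.mem_filter, Finset.mem_univ, true_and, Ne] at hg ⊢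
      rwa [hχ.isGen.norm_pow_eq_iff g hm', hχ.isGen.pow_eq_zero_iff g hm'])
      fun g hg => (Finset.mem_filter.mp hg).2.2
    have : (((d ^ 2 - 1) * Z.card : ℕ) : ℝ) ≤ O.card := by
      rw [hcast]; linarith
    exact_mod_cast this
  · intro h
    have h5 : ∑ g ∈ R, ‖χ g‖ ^ 2 = R.card := by
      rw [Finset.sum_congr rfl (g := fun _ => (1 : ℝ)), Finset.sum_const, nsmul_eq_mul, mul_one]
      intro g hg
      obtain ⟨a, b⟩ := (Finset.mem_filter.mp hg).2
      rcases h g with e | e | e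
      · exact absurd (norm_eq_zero.mp e) b
      · rw [e, one_pow]
      · exact absurd e a
    have : (((d ^ 2 - 1) * Z.card : ℕ) : ℝ) = O.card := by
      rw [hcast]; linarith
    exact_mod_cast this

end Cfsg.Agent.S4574
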