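import Cfsg.Statements.S4575
import Cfsg.Agent.Block.SubAvg

set_option autoImplicit false
open Cfsg

namespace Cfsg.Agent.S4575

open Cfsg.Agent.Block Subgroup

open Cfsg.Agent.Char


/-- Let B be a 2-block of the finite group G (relative to a maximal ideal M of the algebraic integers containing 2) of defect d with defect group D. Let z be an element of D commuting with every element of D, and let b be a block of the centralizer of z with defect group D that induces B (a major subsection (z, b)). If the number of irreducible characters in B exceeds the 2-regular rank of b by at most three, then B contains at most 2 ^ d irreducible characters. -/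
theorem result {G : Type*} [Group G] [Finite G] (M : Ideal Cfsg.AlgInt) (hM : Cfsg.IsPModular 2 M) (B : Set (Cfsg.IrrCharacter G)) (hB : Cfsg.IsPBlock M B) (D : Subgroup G) (hD : Cfsg.IsDefectGroup 2 M B D) (z : G) (hzD : z ∈ D) (hzc : ∀ d ∈ D, d * z = z * d) (b : Set (Cfsg.IrrCharacter ↥(Subgroup.centralizer ({z} : Set G)))) (hb : Cfsg.IsInducedBlock M (Subgroup.centralizer ({z} : Set G)) b B) (hbD : Cfsg.IsDefectGroup 2 M b (D.subgroupOf (Subgroup.centralizer ({z} : Set G)))) (h : Nat.card B ≤ Cfsg.blockRank 2 b + 3) : Nat.card B ≤ 2 ^ Cfsg.blockDefect 2 B := by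
  classical
  have hz : ∃ k, orderOf z = 2 ^ k := orderOf_eq_pow_of_mem (isPGroup_of_isDefectGroup hD) hzD
  have hd := blockDefect_eq_of_majorSub hM hb hD hbD fun d hd =>
    mem_centralizer_singleton_iff.2 (hzc d hd)
  have hN : (0 : ℝ) < (gens z).card := Nat.cast_pos.2 (card_gens_pos z)
  rcases (blockDefect 2 B).eq_zero_or_pos with hd0 | hd0
  · rw [card_eq_one_of_defect_zero hM hB hd0, hd0, pow_zero]
  have hle : ∀ χ ∈ B, dsum 2 b z (χ : G → ℂ) ≤ (gens z).card * ((2 : ℕ) : ℝ) ^ blockDefect 2 b :=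
    fun χ hχ => by
      rw [← nsmul_eq_mul]
      exact Finset.sum_le_card_nsmul _ _ _ fun w hw => norm_sctr_self_le hM
        (orderOf_zpowers_eq_pow hz w) (centralizer_eq_of_mem_gens hw) hb hχ
  rw [natCard_block_eq'] at h ⊢
  by_cases hA : ∃ ψ ∈ B, blockHeight 2 B (ψ : G → ℂ) = 0 ∧ (gens z).card *
      ((2 : ℕ) : ℝ) ^ blockDefect 2 b - dsum 2 b z (ψ : G → ℂ) = (gens z).card
  · obtain ⟨ψ, hψ, hψ0, hA⟩ := hA
    have h1 := sum_erase_osum2_add hM hz rfl hb hψ
    have h2 := Finset.card_nsmul_le_sum ((Finset.univ.filter (· ∈ B)).erase ψ) _ ((gens z).card : ℝ)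
      fun χ hχ => (le_mul_of_one_le_right hN.le (one_le_pow₀ (by norm_num))).trans
        (card_mul_le_osum2_of_major hM hz rfl hb hd hψ hψ0
          (Finset.mem_filter.1 (Finset.mem_of_mem_erase hχ)).2)
    have h3 := card_gens_le_sum (isGen_pow_sub_sctr hM rfl hb.1 ψ.2.isGen ψ.2.isGen
      (blockDefect 2 b)) (ne_zero_of_val_eq_one (M := M) (by
        refine val_eq_one_of_sub_lt (b := - sctr 2 b z (ψ : G → ℂ) (ψ : G → ℂ)) ?_ ?_
        · rw [Valuation.map_neg]
          exact val_sctr_zp_eq_one hM hz rfl hb hψ hψ0 hψ hψ0 (ygen z)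
        · rw [sub_neg_eq_add, coe_ygen, sub_add_cancel, map_pow, hd]
          exact pow_lt_one' (val_prime_lt_one hM) hd0.ne'))
    rw [← Finset.card_erase_add_one (Finset.mem_filter.2 ⟨Finset.mem_univ _, hψ⟩), ← hd]
    rw [nsmul_eq_mul] at h2
    rw [hA] at h1
    have h4 : (((Finset.univ.filter (· ∈ B)).erase ψ).card + 1 : ℝ) ≤
        ((2 : ℕ) : ℝ) ^ blockDefect 2 b := le_of_mul_le_mul_right (by linarith) hN
    exact_mod_cast h4
  · have h1 : ∀ χ ∈ Finset.univ.filter (· ∈ B), dsum 2 b z (χ : G → ℂ) ≤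
        (gens z).card * (((2 : ℕ) : ℝ) ^ blockDefect 2 b - 3) := fun χ hχ => by
      replace hχ := (Finset.mem_filter.1 hχ).2
      have h2 := hle χ hχ
      by_cases h0 : blockHeight 2 B (χ : G → ℂ) = 0
      · obtain ⟨a, ha, h3⟩ := exists_odd_dsum hM hz rfl hb hχ h0
        rw [h3] at h2 ⊢
        have h4 : a ≤ 2 ^ blockDefect 2 b := by exact_mod_cast le_of_mul_le_mul_left h2 hN
        have h5 : a + 1 ≠ 2 ^ blockDefect 2 b := fun e => hA ⟨χ, hχ, h0, by
          rw [h3, ← Nat.cast_pow, ← e]; push_cast; ring⟩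
        have h6 : Even (2 ^ blockDefect 2 b) := (Nat.even_pow' (hd ▸ hd0.ne')).2 even_two
        have h7 : a + 3 ≤ 2 ^ blockDefect 2 b := by
          obtain ⟨i, rfl⟩ := ha
          obtain ⟨j, hj⟩ := h6
          omega
        refine mul_le_mul_of_nonneg_left ?_ hN.le
        rw [le_sub_iff_add_le]
        exact_mod_cast h7
      · obtain ⟨a, ha, h3⟩ := exists_dsum_of_major hM hz rfl hb hd hχ h0
        obtain ⟨η, hη, hη0⟩ := exists_blockHeight_eq_zero (p := 2) (block_nonempty hM hB)
        have h4 : 2 ^ blockHeight 2 B (χ : G → ℂ) * a ≤ 2 ^ blockDefect 2 b := by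
          rw [h3] at h2
          exact_mod_cast le_of_mul_le_mul_left h2 hN
        have h5 : 1 < blockDefect 2 b := by
          have := Nat.pow_le_pow_right two_pos (Nat.one_le_iff_ne_zero.2 h0)
          exact (Nat.pow_lt_pow_iff_right one_lt_two).1 (by nlinarith)
        have hg := isGen_pow_sub_sctr hM rfl hb.1 χ.2.isGen χ.2.isGen (blockDefect 2 b)
        have h6 := card_gens_mul_pow_lt_sum hM hg (h := 1) (fun e => ?_) fun w _ => ?_
        · rw [Finset.sum_congr rfl fun w hw => norm_pow_sub_sctr hM (orderOf_zpowers_eq_pow hz w)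
            (centralizer_eq_of_mem_gens hw) hb hχ, Finset.sum_sub_distrib, Finset.sum_const,
            nsmul_eq_mul, ← dsum, h3, ← mul_sub] at h6
          have h7 := lt_of_mul_lt_mul_left h6 hN.le
          rw [lt_sub_iff_add_lt] at h7
          have h8 : 2 ^ 1 + 2 ^ blockHeight 2 B (χ : G → ℂ) * a < 2 ^ blockDefect 2 b := by
            exact_mod_cast h7
          rw [h3]
          refine mul_le_mul_of_nonneg_left ?_ hN.le
          rw [le_sub_iff_add_le]
          exact_mod_cast (by omega : 2 ^ blockHeight 2 B (χ : G → ℂ) * a + 3 ≤ 2 ^ blockDefect 2 b)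
        · have h7 := sum_erase_osum2_add hM hz rfl hb hχ
          have h8 : dsum 2 b z (χ : G → ℂ) = (gens z).card * ((2 : ℕ) : ℝ) ^ blockDefect 2 b := by
            rw [dsum, ← nsmul_eq_mul, ← Finset.sum_const]
            refine Finset.sum_congr rfl fun w hw => ?_
            rw [← sub_eq_zero.1 ((eq_zero_iff_of_mem_gens hg hw).2 e)]
            simp
          rw [h8, sub_self, mul_zero] at h7
          have h9 := Finset.single_le_sum (s := (Finset.univ.filter (· ∈ B)).erase χ)
            (f := fun ψ : IrrCharacter G => osum2 2 b z (χ : G → ℂ) (ψ : G → ℂ))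
            (fun _ _ => osum2_nonneg _ _) (a := η) (Finset.mem_erase.2 ⟨fun e => h0 (e ▸ hη0),
              Finset.mem_filter.2 ⟨Finset.mem_univ _, hη⟩⟩)
          have h10 := card_mul_le_osum2_of_major hM hz rfl hb hd hη hη0 hχ
          rw [osum2_comm hM hb.1] at h10
          have h11 : 0 < (gens z).card * ((2 : ℕ) : ℝ) ^ (2 * blockHeight 2 B (χ : G → ℂ)) := by
            positivity
          have h12 : 0 ≤ ∑ w ∈ gens z, ‖((2 : ℕ) : ℂ) ^ blockDefect 2 b -
            sctr 2 b (w : G) (χ : G → ℂ) (χ : G → ℂ)‖ ^ 2 := Finset.sum_nonneg fun _ _ => by positivity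
          linarith
        · refine (val M).map_sub_lt ?_ ((val_sctr_zp_lt_of_major hM rfl hb hd hχ h0 w).trans_le
            ((val_prime_pow_le_iff hM _ _).2 (Nat.one_le_iff_ne_zero.2 h0)))
          rw [map_pow]
          exact (val_prime_pow_lt_iff hM _ _).2 h5
    have h2 := (sum_dsum hM hz rfl hb).symm.trans_le (Finset.sum_le_card_nsmul _ _ _ h1)
    rw [nsmul_eq_mul] at h2
    have h3 := le_of_mul_le_mul_left (h2.trans_eq (mul_left_comm _ _ _)) hN
    have h4 : ((Finset.univ.filter (· ∈ B)).card : ℝ) ≤ blockRank 2 b + 3 := by exact_mod_cast h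
    have h5 : (0 : ℝ) < ((2 : ℕ) : ℝ) ^ blockDefect 2 b := by positivity
    have h6 : ((Finset.univ.filter (· ∈ B)).card : ℝ) ≤ ((2 : ℕ) : ℝ) ^ blockDefect 2 b := by
      nlinarith
    rw [← hd]
    exact_mod_cast h6

end Cfsg.Agent.S4575
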