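import Cfsg.Statements.S4578
import Cfsg.Agent.Spin.Even
import Cfsg.Agent.S2116
import Cfsg.Agent.S3974
import Cfsg.Agent.Block.Transport

set_option autoImplicit false
open Cfsg

namespace Cfsg.Agent.S4578

open Cfsg.Agent.Char Cfsg.Agent.Block Cfsg.Agent.Spin Subgroup

variable {G : Type*} [Group G] [Finite G] {p : ℕ} [hp : Fact p.Prime] {M : Ideal AlgInt}
  {B : Set (IrrCharacter G)} {D : Subgroup G} {χ : IrrCharacter G} {n : ℕ}
  {σ : G →* alternatingGroup (Fin n)}

omit [Finite G] hp in
theorem rb_congr {K : Type*} [Group K] [Finite K] (e : G ≃* K)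
    (h : Rb p (blockHeight p (trSet e.symm B) (irrCongr e.symm χ : K → ℂ)) (D.map e.toMonoidHom)) :
    Rb p (blockHeight p B (χ : G → ℂ)) D := by
  have f := D.equivMapOfInjective e.toMonoidHom e.injective
  have h1 : (center D).index = (center (D.map e.toMonoidHom)).index := by
    have h2 := (center D).card_mul_index
    rw [Nat.card_congr f.toEquiv, Nat.card_congr (centerCongr f).toEquiv,
      ← (center (D.map e.toMonoidHom)).card_mul_index] at h2
    exact Nat.eq_of_mul_eq_mul_left Nat.card_pos h2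
  rw [Rb, h1, ← blockHeight_trSet e.symm B χ]
  exact ⟨h.1, h.2.trans ⟨fun h2 => ⟨⟨fun a b => f.injective (by
    rw [map_mul, map_mul, h2.is_comm.comm])⟩⟩, fun h2 => ⟨⟨fun a b => f.symm.injective (by
    rw [map_mul, map_mul, h2.is_comm.comm])⟩⟩⟩⟩

omit [Finite G] hp in
theorem defect_congr {K : Type*} [Group K] (e : G ≃* K) (hD : IsDefectGroup p M B D) :
    IsDefectGroup p M (trSet e.symm B) (D.map e.toMonoidHom) :=
  isDefectGroup_map_of_trSet e (by rwa [trSet_trSet_symm])

theorem exists_equiv_cov (hn : n = 5 ∨ 8 ≤ n) (h : IsStemExtension σ) (h2 : Nat.card σ.ker = 2) :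
    Nonempty (G ≃* Cov (Fin n)) := by
  have h0 : ∀ i j : Fin 4, i ≠ j → Fin.castLE (show 4 ≤ n by omega) i ≠ Fin.castLE (by omega) j :=
    fun i j h => (Fin.castLE_injective _).ne h
  have h1 : IsStemExtension (projA (Fin n)) := ⟨projA_surjective, ker_projA_le,
    ker_projA_le_commutator (h0 0 1 (by decide)) (h0 2 3 (by decide)) (h0 0 2 (by decide))
      (h0 0 3 (by decide)) (h0 1 2 (by decide)) (h0 1 3 (by decide))⟩
  have h3 : Nat.card (Multiplicative (ZMod 2)) = 2 := by simp
  obtain ⟨e, -⟩ := S3974.unique_of_coprime (FGS.hasSchurMultiplier_of h1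
    (mulEquivOfPrimeCardEq card_ker_projA h3) fun Δ _ _ τ hτ => by
      have h4 := AltCover.card_ker_le_two τ hτ.1 hτ.2.1 hτ.2.2 (by simpa using hn)
      rcases h4.eq_or_lt with h5 | h5
      · exact ⟨(mulEquivOfPrimeCardEq h3 h5).toMonoidHom, (mulEquivOfPrimeCardEq h3 h5).surjective⟩
      · have := Finite.card_le_one_iff_subsingleton.1 (Nat.le_of_lt_succ h5)
        exact ⟨1, fun _ => ⟨1, Subsingleton.elim _ _⟩⟩) h h1
    (mulEquivOfPrimeCardEq h2 h3) (mulEquivOfPrimeCardEq card_ker_projA h3) (by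
      rw [show Nat.card (Abelianization (alternatingGroup (Fin n))) = (commutator _).index from rfl,
        AltCover.commutator_alt_eq_top (by simp; omega), index_top]
      exact Nat.coprime_one_left _)
  exact ⟨e⟩

theorem rb_exc (hn : n = 6 ∨ n = 7) (h : IsStemExtension σ) (hp2 : p ≠ 2) (hM : IsPModular p M)
    (hB : IsPBlock M B) (hD : IsDefectGroup p M B D) (hχ : χ ∈ B) :
    Rb p (blockHeight p B (χ : G → ℂ)) D := by
  obtain ⟨π, hπ⟩ := FGS.HasSchurMultiplier.exists_surjective (S2116.result n hn) h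
  have h1 : Nat.card σ.ker ∣ 6 := by simpa using card_dvd_of_surjective π hπ
  have : Nontrivial (Fin n) := Fin.nontrivial_iff_two_le.2 (by omega)
  have h2 : σ.ker.index ∣ 2520 := by
    rw [index_ker, MonoidHom.range_eq_top.2 h.1, card_top, nat_card_alternatingGroup, Nat.card_fin]
    rcases hn with rfl | rfl <;> decide
  have h3 := σ.ker.card_mul_index
  have h4 : Nat.card G ∣ 15120 := h3 ▸ mul_dvd_mul h1 h2
  obtain ⟨d, hd⟩ := IsPGroup.iff_card.1 (isPGroup_of_isDefectGroup hD)
  refine rb_of_small hM hB hD hχ ?_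
  rw [hd]
  by_cases h5 : d ≤ 2
  · exact Or.inl (Nat.pow_le_pow_right hp.out.pos h5)
  have h6 : p ^ d ∣ 15120 := hd ▸ D.card_subgroup_dvd_card.trans h4
  have h7 := (pow_dvd_pow p (show 3 ≤ d by omega)).trans h6
  have h8 : p < 25 := lt_of_pow_lt_pow_left₀ 3 (by norm_num)
    ((Nat.le_of_dvd (by norm_num) h7).trans_lt (by norm_num))
  obtain rfl : p = 3 := by
    have := hp.out
    interval_cases p <;> simp_all (decide := true)
  obtain rfl : d = 3 := by
    by_contra h9
    exact absurd ((pow_dvd_pow 3 (show 4 ≤ d by omega)).trans h6) (by norm_num)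
  refine Or.inr ⟨rfl, fun h9 => ?_⟩
  have h10 : 3 ∣ Nat.card σ.ker := by
    by_contra h10
    have h11 := D.card_subgroup_dvd_card
    rw [hd, ← h3] at h11
    exact absurd (((((Nat.Prime.coprime_iff_not_dvd hp.out).2 h10).pow_left 3).dvd_of_dvd_mul_left
      h11).trans h2) (by norm_num)
  obtain ⟨z, hz⟩ := exists_prime_orderOf_dvd_card' 3 h10
  have h11 := Transfer.pow_index_mem_commutator_of_central D (h.2.1 z.2) (h.2.2 z.2)
  rw [commutator_eq_bot_iff_le_centralizer.2 (le_centralizer_iff_isMulCommutative.2 h9), mem_bot,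
    ← orderOf_dvd_iff_pow_eq_one, orderOf_coe, hz] at h11
  have h12 := mul_dvd_mul_left (3 ^ 3) h11
  rw [← hd, D.card_mul_index, hd] at h12
  exact absurd (h12.trans h4) (by norm_num)

/-- Let H be a finite quasisimple group whose central quotient H/Z(H) is isomorphic to the alternating group on n ≥ 5 letters, p any prime, M a maximal ideal of the algebraic integers containing p, and B a p-block of H with defect group D. For every irreducible character χ in B, p raised to the height of χ is at most the index of Z(D) in D, with equality exactly when D is abelian. -/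
theorem result {H : Type*} [Group H] [Finite H] (hq : Cfsg.IsQuasisimple H) (n : ℕ) (hn : 5 ≤ n) (e : H ⧸ Subgroup.center H ≃* alternatingGroup (Fin n)) (p : ℕ) [Fact p.Prime] (M : Ideal Cfsg.AlgInt) (hM : Cfsg.IsPModular p M) (B : Set (Cfsg.IrrCharacter H)) (hB : Cfsg.IsPBlock M B) (D : Subgroup H) (hD : Cfsg.IsDefectGroup p M B D) (χ : Cfsg.IrrCharacter H) (hχ : χ ∈ B) :
    Cfsg.blockHeight p B (χ : H → ℂ) ≤ ((Subgroup.center D).index).factorization p ∧
      (Cfsg.blockHeight p B (χ : H → ℂ) = ((Subgroup.center D).index).factorization p ↔ IsMulCommutative D) := by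
  let σ : H →* alternatingGroup (Fin n) := e.toMonoidHom.comp (QuotientGroup.mk' _)
  have hk : σ.ker = center H := by
    ext x
    simp [σ]
  have h : IsStemExtension σ := ⟨e.surjective.comp (QuotientGroup.mk'_surjective _), hk.le,
    le_top.trans hq.1.commutator_eq_top.ge⟩
  have : Nontrivial (Fin n) := Fin.nontrivial_iff_two_le.2 (by omega)
  have h2 : ¬ (n = 6 ∨ n = 7) → Nat.card σ.ker ≤ 2 := fun h1 =>
    AltCover.card_ker_le_two σ h.1 h.2.1 h.2.2 (by simp; omega)
  by_cases hp2 : p = 2
  · subst hp2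
    have hE := (isPGroup_of_isDefectGroup hD).map σ
    refine rb_two σ h.1 h.2.1 h.2.2 hM hB hD hχ ?_
    by_cases h1 : n = 6 ∨ n = 7
    · obtain ⟨k, hk⟩ := IsPGroup.iff_card.1 hE
      by_cases h3 : k ≤ 2
      · exact Or.inr ⟨hk ▸ Nat.pow_le_pow_right two_pos h3, fun x _ =>
          (Finset.card_le_univ _).trans (by simp; omega)⟩
      · refine np_or_small hE (fun _ _ => Finset.subset_univ _) (m := 7) (by simp; omega) ?_
        rw [show (Nat.factorial 7).factorization 2 = 4 by decide +kernel, hk, ← pow_succ']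
        exact Nat.pow_le_pow_right two_pos (by omega)
    · obtain ⟨C, hC, -, h3⟩ := exists_block_domSet_defectGroup hM (center H) (by
        have h3 := h2 h1
        have h4 : 0 < Nat.card σ.ker := Nat.card_pos
        rw [hk] at h3 h4
        interval_cases h5 : Nat.card (center H)
        exacts [.of_card (n := 0) h5, .of_card (n := 1) h5]) hB hD
      have h4 := defect_congr e h3
      rw [map_map] at h4
      exact np_of_block hM (isPBlock_trSet _ hC) h4
  by_cases h1 : n = 6 ∨ n = 7
  · exact rb_exc h1 h hp2 hM hB hD hχ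
  rcases (h2 h1).eq_or_lt with h3 | h3
  · obtain ⟨f⟩ := exists_equiv_cov (by omega) h h3
    exact rb_congr f (rb_cov_odd hp2 hM (isPBlock_trSet _ hB) (defect_congr f hD)
      (irrCongr_mem_trSet.2 hχ))
  · let f := MulEquiv.ofBijective σ ⟨(MonoidHom.ker_eq_bot_iff σ).1
      (eq_bot_of_card_le _ (Nat.le_of_lt_succ h3)), h.1⟩
    exact rb_congr f (rb_alt_odd hp2 hM (isPBlock_trSet _ hB) (defect_congr f hD)
      (irrCongr_mem_trSet.2 hχ))

end Cfsg.Agent.S4578
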