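import Cfsg.Statements.S4580
import Cfsg.Agent.Char.Gallagher
import Cfsg.Agent.Block.DefectNum
import Cfsg.Agent.Char.Quot

set_option autoImplicit false
open Cfsg

namespace Cfsg.Agent.S4580

open Cfsg.Agent.Char Cfsg.Agent.Block


/-- Let N be a normal subgroup of the finite group G, M a maximal ideal of the algebraic integers containing 2, and θ a real-valued irreducible character of N of odd degree that extends to G (some irreducible character of G restricts to θ). Then θ has an extension to G lying in the principal 2-block of G. -/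
theorem result {G : Type*} [Group G] [Finite G] (N : Subgroup G) [N.Normal] (M : Ideal Cfsg.AlgInt) (hM : Cfsg.IsPModular 2 M) (θ : Cfsg.IrrCharacter N) (hreal : ∀ n : N, ((θ : N → ℂ) n).im = 0) (hodd : Odd (Cfsg.charDegree (θ : N → ℂ))) (hext : ∃ η : Cfsg.IrrCharacter G, ∀ n : N, (η : G → ℂ) n = (θ : N → ℂ) n) :
    ∃ η : Cfsg.IrrCharacter G, (∀ n : N, (η : G → ℂ) n = (θ : N → ℂ) n) ∧ η ∈ Cfsg.principalBlock M G := by
  classical
  have := Fintype.ofFinite G
  obtain ⟨η, hη⟩ := hext
  have hirr : IsIrrCharacter N (fun n : N => (η : G → ℂ) n) := by rw [funext hη]; exact θ.2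
  obtain ⟨μ, hμN, hμ⟩ := exists_hom_mul_of_extends η.2.isCharacter hirr η.2.isCharacter.conj
    (fun n => by rw [hη]; exact Complex.conj_eq_iff_im.mpr (hreal n))
  obtain ⟨a, m, hm, hcard⟩ := Nat.exists_eq_two_pow_mul_odd (Nat.card_pos (α := G)).ne'
  obtain ⟨k, hk⟩ := hm
  refine ⟨⟨_, η.2.mul_linear (μ ^ (k + 1))⟩, fun n => ?_, mem_principal_of_real_odd hM
    (fun g hg => ?_) ?_⟩
  · simp [hη, hμN n n.2]
  · have h1 : g ^ m = 1 := by
      rw [← orderOf_dvd_iff_pow_eq_one]
      refine Nat.Coprime.dvd_of_dvd_mul_left (k := orderOf g) (m := 2 ^ a) ?_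
        (hcard ▸ orderOf_dvd_natCard g)
      exact Nat.Coprime.pow_right _ ((Nat.Prime.coprime_iff_not_dvd Nat.prime_two).mpr hg).symm
    have h2 : μ g * (μ ^ (k + 1)) g⁻¹ = (μ ^ (k + 1)) g := by
      rw [map_inv, mul_inv_eq_iff_eq_mul, ← map_mul, MonoidHom.pow_apply, ← map_pow, ← pow_two,
        ← pow_mul, show 2 * (k + 1) = m + 1 by omega, pow_succ, h1, one_mul]
    have h3 := congrFun hμ g
    simp only at h3 ⊢
    rw [η.2.map_inv, h3, mul_comm _ ((η : G → ℂ) g), mul_assoc, ← Units.val_mul, h2, sub_self,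
      map_zero]
    exact zero_lt_one
  · rwa [charDegree_congr_one (ψ := (θ : N → ℂ)) (by simp [← hη])]

end Cfsg.Agent.S4580
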