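import Cfsg.Statements.S4581
import Cfsg.Agent.Char.RelMcKay
import Cfsg.Agent.Char.FS
import Cfsg.Agent.Char.Degrees
import Cfsg.Agent.Grp.PFrattini

set_option autoImplicit false
open Cfsg

namespace Cfsg.Agent.S4581

open Cfsg.Agent.Char Cfsg.Agent.PLocal.Amb Subgroup
open scoped ComplexConjugate

theorem nmult_bot_ne_zero {Γ : Type*} [Group Γ] [Finite Γ] {H : Subgroup Γ}
    (χ : IrrCharacter H) : nmult (bot_le : ⊥ ≤ H) χ.1 (irrOne _).1 ≠ 0 := by
  obtain ⟨ξ, h⟩ := exists_nmult_ne_zero_below (bot_le : ⊥ ≤ H) χ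
  have : ξ = irrOne _ := Subtype.ext (funext fun x => by
    rw [Subsingleton.elim x 1]
    exact ξ.2.one_eq_one_of_comm fun a b => Subsingleton.elim _ _)
  rwa [← this]

theorem card_PF_eq {G : Type*} [Group G] [Finite G] {p : ℕ} [Fact p.Prime] {r : Prop}
    (hr : r → p = 2) (hG : IsPSolvable p G) (S : Sylow p G) :
    Nat.card {χ : IrrCharacter G // PF p r χ} =
      Nat.card {χ : IrrCharacter 𝐍[(S : Subgroup G)] // PF p r χ} := by
  have h := mkCnt_eq_normalizer hr _ (bot_le : ⊥ ≤ ⊤) rfl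
    (by rw [normalizer_eq_top ⊥]) (isSyl_top S) (PLocal.isPSolvable_top_iff.2 hG)
    (ν := irrOne _) (fun _ _ _ _ _ => rfl) (fun _ => Subtype.ext (funext fun _ => map_one _)) bot_le
  rw [mkCnt_congr (H := ⊤ ⊓ 𝐍[⊥ ⊔ (S : Subgroup G)]) (by rw [bot_sup_eq, top_inf_eq]) _
    (bot_le : ⊥ ≤ 𝐍[(S : Subgroup G)])] at h
  refine Eq.trans ?_ (h.trans ?_)
  · refine Nat.card_congr (Equiv.subtypeEquiv (irrCongr topEquiv) fun χ => ?_)
    rw [and_iff_left (nmult_bot_ne_zero _)]
    refine and_congr Iff.rfl (forall_congr' fun _ => ?_)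
    rw [irrConj_eq_self_iff, irrConj_eq_self_iff]
    exact ⟨fun h g => h g, fun h g => h ⟨g, mem_top g⟩⟩
  · exact Nat.card_congr (Equiv.subtypeEquivRight fun χ => and_iff_left (nmult_bot_ne_zero _))

theorem PF_true_iff {G : Type*} [Group G] [Finite G] (χ : IrrCharacter G) :
    PF 2 True χ ↔ (∀ g, (χ.1 g).im = 0) ∧ Odd (charDegree χ.1) := by
  rw [PF, irrConj_eq_self_iff, ← even_iff_two_dvd, Nat.not_even_iff_odd, and_comm, true_imp_iff]

theorem PF_false_iff {G : Type*} [Group G] [Finite G] (χ : IrrCharacter G) :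
    PF 2 False χ ↔ Odd (charDegree χ.1) := by
  rw [PF, ← even_iff_two_dvd, Nat.not_even_iff_odd]
  simp

theorem forall_iff_card {G : Type*} [Group G] [Finite G] :
    (∀ χ : IrrCharacter G, Odd (charDegree χ.1) → ∀ g, (χ.1 g).im = 0) ↔
      Nat.card {χ : IrrCharacter G // PF 2 True χ} =
        Nat.card {χ : IrrCharacter G // PF 2 False χ} := by
  simp only [PF_true_iff, PF_false_iff]
  constructor
  · intro h
    exact Nat.card_congr (Equiv.subtypeEquivRight fun χ => ⟨fun h => h.2, fun h' => ⟨h χ h', h'⟩⟩)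
  · intro h χ hχ
    let F : {χ : IrrCharacter G // (∀ g, (χ.1 g).im = 0) ∧ Odd (charDegree χ.1)} →
      {χ : IrrCharacter G // Odd (charDegree χ.1)} := fun x => ⟨x.1, x.2.2⟩
    obtain ⟨x, hx⟩ := ((Nat.bijective_iff_injective_and_card F).2
      ⟨fun a b e => Subtype.ext (congrArg (·.1) e : (F a).1 = (F b).1), h⟩).2 ⟨χ, hχ⟩
    have h1 : x.1 = χ := congrArg (·.1) hx
    rw [← h1]
    exact x.2.1

theorem forall_iff_of_isPGroup {P : Type*} [Group P] [Finite P] (hP : IsPGroup 2 P) :
    (∀ χ : IrrCharacter P, Odd (charDegree χ.1) → ∀ g, (χ.1 g).im = 0) ↔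
      commutator P = frattini P := by
  constructor
  · intro h
    refine le_antisymm (Grp.PFrattini.commutator_le_frattini hP) (Grp.PFrattini.frattini_le (p := 2) le_rfl fun g => ?_)
    refine mem_commutator_of_forall_hom fun μ => ?_
    have h1 := h ⟨_, isIrrCharacter_hom μ⟩ (by
      rw [charDegree_eq_of_one_eq (n := 1) (by simp)]; exact odd_one) g
    have h2 := (isCharacter_hom μ).map_inv g
    rw [Complex.conj_eq_iff_im.2 h1] at h2
    have h3 : μ g⁻¹ = μ g := Units.ext h2
    rw [pow_two, map_mul]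
    nth_rewrite 1 [← h3]
    rw [← map_mul, inv_mul_cancel, map_one]
  · intro h χ hχ g
    obtain ⟨k, hk⟩ := hP.exists_card_eq
    have h1 : charDegree χ.1 = 1 := Nat.eq_one_of_dvd_coprimes
      ((Nat.coprime_two_left.2 hχ).pow_left k) (hk ▸ charDegree_irr_dvd_card χ) dvd_rfl
    obtain ⟨μ, hμ⟩ := χ.2.isCharacter.exists_linear ((charDegree_eq_one_iff χ.2.isCharacter).1 h1)
    have h2 : μ (g ^ 2) = 1 := Abelianization.commutator_subset_ker μ
      (h ▸ Grp.PFrattini.pow_mem_frattini hP g)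
    rw [map_pow, Units.ext_iff, Units.val_pow_eq_pow_val, Units.val_one, sq_eq_one_iff] at h2
    rw [hμ]
    rcases h2 with h2 | h2 <;> simp [h2]

/-- Let G be a finite solvable group, P a Sylow 2-subgroup and N its normalizer. Then G and N have the same number of real-valued irreducible characters of odd degree; and every odd-degree irreducible character of G is real-valued exactly when the derived subgroup of P equals the Frattini subgroup of P and P is its own normalizer in G. -/
theorem result {G : Type*} [Group G] [Finite G] [Group.IsSolvable G] (P : Sylow 2 G) :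
    Nat.card {χ : Cfsg.IrrCharacter G // (∀ g : G, ((χ : G → ℂ) g).im = 0) ∧ Odd (Cfsg.charDegree (χ : G → ℂ))} =
      Nat.card {ψ : Cfsg.IrrCharacter (Subgroup.normalizer ((P : Subgroup G) : Set G)) // (∀ g, ((ψ : Subgroup.normalizer ((P : Subgroup G) : Set G) → ℂ) g).im = 0) ∧ Odd (Cfsg.charDegree (ψ : Subgroup.normalizer ((P : Subgroup G) : Set G) → ℂ))} ∧
    ((∀ χ : Cfsg.IrrCharacter G, Odd (Cfsg.charDegree (χ : G → ℂ)) → ∀ g : G, ((χ : G → ℂ) g).im = 0) ↔
      (commutator (P : Subgroup G) = frattini (P : Subgroup G) ∧ Subgroup.normalizer ((P : Subgroup G) : Set G) = (P : Subgroup G))) := by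
  have hG : IsPSolvable 2 G := PLocal.isPSolvable_of_isSolvable
  have h1 := card_PF_eq (r := True) (fun _ => rfl) hG P
  have h2 := card_PF_eq (r := False) False.elim hG P
  refine ⟨by simpa only [PF_true_iff] using h1, ?_⟩
  rw [forall_iff_card, h1, h2, ← forall_iff_card]
  constructor
  · intro h
    have h3 : 𝐍[(P : Subgroup G)] = P := by
      haveI := normal_subgroupOf' (le_refl 𝐍[(P : Subgroup G)])
      have hodd : Odd (Nat.card (𝐍[(P : Subgroup G)] ⧸ (P : Subgroup G).subgroupOf 𝐍[(P : Subgroup G)])) := by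
        rw [← Nat.not_even_iff_odd, even_iff_two_dvd]
        exact (isSyl_of_le P le_normalizer).not_dvd_relIndex
      refine le_antisymm (fun x hx => ?_) le_normalizer
      refine (QuotientGroup.eq_one_iff (N := (P : Subgroup G).subgroupOf 𝐍[(P : Subgroup G)])
        ⟨x, hx⟩).1 (eq_one_of_forall_irr fun χ => ?_)
      have := h (inflateIrr _ (QuotientGroup.mk'_surjective _) χ)
        (by rw [charDegree_inflateIrr]; exact hodd.of_dvd_nat (charDegree_irr_dvd_card χ))
      rw [eq_one_of_real_of_odd hodd χ.2 fun q => by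
        obtain ⟨g, rfl⟩ := QuotientGroup.mk'_surjective _ q
        exact this g]
    rw [h3] at h
    exact ⟨(forall_iff_of_isPGroup P.isPGroup').1 h, h3⟩
  · rintro ⟨h3, h4⟩
    rw [h4]
    exact (forall_iff_of_isPGroup P.isPGroup').2 h3

end Cfsg.Agent.S4581
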