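import Cfsg.Statements.S4582
import Mathlib

set_option autoImplicit false
open Cfsg

namespace Cfsg.Agent.S4582

open Subgroup
open scoped commutatorElement

theorem core {G A : Type*} [Group G] [Finite G] [CommGroup A] (H : Subgroup G) (φ : H →* A)
    (hV : ∀ ψ : G →* A, ∀ x ∈ H, ψ x ^ 2 = 1)
    (hc : ∀ (x : H) (g : G) (h : g⁻¹ * x * g ∈ H), φ ⟨_, h⟩ ^ 2 = φ x ^ 2) (x : H) :
    (φ x ^ 2) ^ H.index = 1 := by
  classical
  let _ := H.fintypeQuotientOfFiniteIndex
  rw [← hV (MonoidHom.transfer φ) x x.2, MonoidHom.transfer_eq_prod_quotient_orbitRel_zpowers_quot,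
    Subgroup.index_eq_sum_minimalPeriod H (x : G), ← Finset.prod_pow_eq_pow_sum,
    ← Finset.prod_pow]
  refine Finset.prod_congr rfl fun q _ => ?_
  rw [← pow_mul, mul_comm, pow_mul, ← map_pow]
  exact (hc (x ^ Function.minimalPeriod ((x : G) • ·) q.out) q.out.out _).symm

theorem of_eq_one_iff {G : Type*} [Group G] (P : Subgroup G) (x : P) :
    Abelianization.of x = 1 ↔ (x : G) ∈ ⁅P, P⁆ := by
  have h1 : Abelianization.of x = 1 ↔ x ∈ commutator P := by
    rw [← Abelianization.ker_of, MonoidHom.mem_ker]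
  rw [h1, ← Subgroup.map_subtype_commutator P]
  exact (Subgroup.mem_map_iff_mem P.subtype_injective).symm

/-- Let N be a normal subgroup of the finite group G, P a Sylow 2-subgroup of G and Q = P ∩ N. Suppose that P/QP' and Q/Q' are elementary abelian (every square of an element of P lies in the subgroup generated by Q and the derived subgroup of P, and every square of an element of Q lies in the derived subgroup of Q), and that the commutator factor group N/N' has odd order. Then P/P' is elementary abelian. -/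
theorem result {G : Type*} [Group G] [Finite G] (N : Subgroup G) [N.Normal] (P : Sylow 2 G)
    (hP : ∀ x ∈ (P : Subgroup G), x ^ 2 ∈ ((P : Subgroup G) ⊓ N) ⊔ ⁅(P : Subgroup G), (P : Subgroup G)⁆)
    (hQ : ∀ x ∈ (P : Subgroup G) ⊓ N, x ^ 2 ∈ ⁅(P : Subgroup G) ⊓ N, (P : Subgroup G) ⊓ N⁆)
    (hodd : Odd (Nat.card (Abelianization N))) :
    ∀ x ∈ (P : Subgroup G), x ^ 2 ∈ ⁅(P : Subgroup G), (P : Subgroup G)⁆ := by
  classical
  intro x hx
  set H : Subgroup G := N ⊔ (P : Subgroup G) with hH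
  have hPH : (P : Subgroup G) ≤ H := le_sup_right
  have hNH : N ≤ H := le_sup_left
  set P' : Subgroup H := (P : Subgroup G).subgroupOf H with hP'
  let e : P' ≃* (P : Subgroup G) := subgroupOfEquivOfLe hPH
  let φ : P' →* Abelianization (P : Subgroup G) := Abelianization.of.comp e.toMonoidHom
  have hA : IsPGroup 2 (Abelianization (P : Subgroup G)) :=
    P.isPGroup'.of_surjective Abelianization.of (QuotientGroup.mk'_surjective _)
  have hQ2 : ∀ q : (P : Subgroup G), (q : G) ∈ N → Abelianization.of q ^ 2 = 1 := by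
    intro q hq
    rw [← map_pow, of_eq_one_iff]
    exact commutator_mono inf_le_left inf_le_left (hQ q ⟨q.2, hq⟩)
  have key := core P' φ ?_ ?_ ⟨⟨x, hPH hx⟩, hx⟩
  · have hi : (P'.index).Coprime 2 := by
      have h1 : P'.index ∣ (P : Subgroup G).index := relIndex_dvd_index_of_le hPH
      have h2 := P.not_dvd_index
      exact ((Nat.Prime.coprime_iff_not_dvd Nat.prime_two).2 fun h => h2 (h.trans h1)).symm
    obtain ⟨k, hk⟩ := hA (φ ⟨⟨x, hPH hx⟩, hx⟩ ^ 2)
    have h3 := pow_gcd_eq_one.2 ⟨key, hk⟩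
    rw [Nat.Coprime.pow_right k hi, pow_one] at h3
    have h4 : Abelianization.of ((⟨x, hx⟩ : (P : Subgroup G)) ^ 2) = 1 := by
      rw [map_pow]; exact h3
    exact (of_eq_one_iff _ _).1 h4
  · intro ψ y hy
    have hN : ∀ n : N, ψ (inclusion hNH n) = 1 := by
      intro n
      let ψ' := Abelianization.lift (ψ.comp (inclusion hNH))
      have h1 : ψ (inclusion hNH n) = ψ' (Abelianization.of n) := rfl
      have h2 : ψ (inclusion hNH n) ^ Nat.card (Abelianization N) = 1 := by
        rw [h1, ← map_pow, pow_card_eq_one', map_one]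
      obtain ⟨k, hk⟩ := hA (ψ (inclusion hNH n))
      have h3 := pow_gcd_eq_one.2 ⟨h2, hk⟩
      rwa [Nat.Coprime.pow_right k (Nat.coprime_two_right.2 hodd), pow_one] at h3
    have hle : ((P : Subgroup G) ⊓ N) ⊔ ⁅(P : Subgroup G), (P : Subgroup G)⁆ ≤
        ψ.ker.map H.subtype := by
      refine sup_le ?_ ?_
      · intro q hq
        exact ⟨⟨q, hNH hq.2⟩, hN ⟨q, hq.2⟩, rfl⟩
      · rw [commutator_le]
        intro a ha b hb
        refine ⟨⁅(⟨a, hPH ha⟩ : H), (⟨b, hPH hb⟩ : H)⁆, ?_, rfl⟩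
        show ψ _ = 1
        rw [map_commutatorElement, commutatorElement_eq_one_iff_commute]
        exact Commute.all _ _
    obtain ⟨z, hz, hzy⟩ := hle (hP y hy)
    have : z = y ^ 2 := Subtype.ext hzy
    rw [← map_pow, ← this]
    exact hz
  · intro y g h
    obtain ⟨n, hn, u, hu, hnu⟩ := (mem_sup_of_normal_left (s := N) (t := (P : Subgroup G))).1 g.2
    have hy : ((y : H) : G) ∈ (P : Subgroup G) := y.2
    have h' : (g : G)⁻¹ * ((y : H) : G) * g ∈ (P : Subgroup G) := h
    have h1 : n⁻¹ * ((y : H) : G) * n ∈ (P : Subgroup G) := by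
      have : n⁻¹ * ((y : H) : G) * n = u * ((g : G)⁻¹ * ((y : H) : G) * g) * u⁻¹ := by
        rw [← hnu]; group
      rw [this]
      exact mul_mem (mul_mem hu h') (inv_mem hu)
    have h2 : ((y : H) : G)⁻¹ * (n⁻¹ * ((y : H) : G) * n) ∈ N := by
      have : ((y : H) : G)⁻¹ * (n⁻¹ * ((y : H) : G) * n) =
          (((y : H) : G)⁻¹ * n⁻¹ * ((y : H) : G)⁻¹⁻¹) * n := by group
      rw [this]
      exact mul_mem ((inferInstance : N.Normal).conj_mem _ (inv_mem hn) _) hn
    have h3 := hQ2 ⟨_, mul_mem (inv_mem hy) h1⟩ h2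
    have h4 : e ⟨_, h⟩ = (⟨u, hu⟩ : (P : Subgroup G))⁻¹ * ((⟨_, hy⟩ : (P : Subgroup G)) *
        ⟨_, mul_mem (inv_mem hy) h1⟩) * ⟨u, hu⟩ := by
      apply Subtype.ext
      show (g : G)⁻¹ * ((y : H) : G) * g = u⁻¹ * (((y : H) : G) *
        (((y : H) : G)⁻¹ * (n⁻¹ * ((y : H) : G) * n))) * u
      rw [← hnu]; group
    show Abelianization.of (e ⟨_, h⟩) ^ 2 = Abelianization.of (⟨_, hy⟩ : (P : Subgroup G)) ^ 2
    rw [h4, map_mul, map_mul, map_mul, map_inv, mul_right_comm, inv_mul_cancel, one_mul, mul_pow,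
      h3, mul_one]

end Cfsg.Agent.S4582
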