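import Mathlib
import Cfsg.Statements.S4583
import Cfsg.Agent.Block.PrinReg

set_option autoImplicit false
open Cfsg

namespace Cfsg.Agent.S4583

open Cfsg.Agent.Block Cfsg.Agent.Char


/-- Let N be a normal subgroup of the finite group G, p a prime, M a maximal ideal of the algebraic integers containing p, and P a Sylow p-subgroup of G. Let θ be an irreducible character of N of degree prime to p lying in the principal p-block of N, and suppose θ extends to the subgroup NP (some irreducible character of NP restricts to θ). Then some irreducible character χ of G of degree prime to p in the principal p-block of G lies over θ (θ is a constituent of the restriction of χ to N). -/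
theorem result {G : Type*} [Group G] [Finite G] (N : Subgroup G) [N.Normal] (p : ℕ) [Fact p.Prime] (M : Ideal Cfsg.AlgInt) (hM : Cfsg.IsPModular p M) (P : Sylow p G)
    (θ : Cfsg.IrrCharacter N) (hθ : θ ∈ Cfsg.principalBlock M N) (hdeg : ¬ p ∣ Cfsg.charDegree (θ : N → ℂ))
    (hext : ∃ η : Cfsg.IrrCharacter ↥(N ⊔ (P : Subgroup G)), ∀ n : N, (η : ↥(N ⊔ (P : Subgroup G)) → ℂ) (Subgroup.inclusion le_sup_left n) = (θ : N → ℂ) n) :
    ∃ χ : Cfsg.IrrCharacter G, χ ∈ Cfsg.principalBlock M G ∧ ¬ p ∣ Cfsg.charDegree (χ : G → ℂ) ∧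
      haveI := Fintype.ofFinite N; Cfsg.classInner (fun n : N => (χ : G → ℂ) n) (θ : N → ℂ) ≠ 0 := by
  have := Fintype.ofFinite G
  let H := N ⊔ (P : Subgroup G)
  obtain ⟨η : IrrCharacter H, hη⟩ := hext
  have := Fintype.ofFinite H
  letI := Fintype.ofFinite N
  have hidx : ∃ k, (N.subgroupOf H).index = p ^ k := by
    obtain ⟨k, hk⟩ := P.isPGroup'.exists_card_eq
    have : (N.subgroupOf H).index ∣ p ^ k := by
      rw [← hk]
      change N.relIndex (N ⊔ (P : Subgroup G)) ∣ _
      rw [Subgroup.relIndex_sup_left]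
      exact Subgroup.relIndex_dvd_card _ _
    obtain ⟨j, -, hj⟩ := (Nat.dvd_prime_pow Fact.out).1 this
    exact ⟨j, hj⟩
  have h1 : η ∈ principalBlock M H ∧ ¬ p ∣ charDegree (η : H → ℂ) := by
    rw [mem_principal_and_not_dvd_iff hM, ev_regElt_one_of_index _ hidx]
    have h2 := (mem_principal_and_not_dvd_iff hM θ).1 ⟨hθ, hdeg⟩
    have := Fintype.ofFinite (N.subgroupOf H)
    rw [ev_regElt] at h2 ⊢
    rw [← h2]
    refine congrArg _ (Fintype.sum_equiv (Subgroup.subgroupOfEquivOfLe le_sup_left).toEquiv _ _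
      fun x => ?_)
    rw [← hη, ← (Subgroup.subgroupOfEquivOfLe (le_sup_left : N ≤ H)).orderOf_eq x]
    rfl
  obtain ⟨χ, h3, h4, h5⟩ := exists_principal_over_of_index hM H
    (fun h => P.not_dvd_index (h.trans (Subgroup.index_dvd_of_le le_sup_right))) h1.1 h1.2
  refine ⟨χ, h3, h4, ?_⟩
  have := inner_comp_ne_zero_of_sub (Subgroup.inclusion (le_sup_left : N ≤ H)) η.2.isCharacter
    ((χ.2.isCharacter.restrict H).sub_irr η.2 (ne_zero_of_val_eq_one h5)) θ.2.isCharacter
    (by rw [funext hη, θ.2.inner_self]; exact one_ne_zero)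
  exact this

end Cfsg.Agent.S4583
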