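import Cfsg.Statements.S4584
import Mathlib
import Cfsg.Agent.Grp.IndexPrimeComm
import Cfsg.Agent.Grp.MinNormal

set_option autoImplicit false
open Cfsg

namespace Cfsg.Agent.S4584

open scoped commutatorElement in
theorem index_centralizer_le {G : Type*} [Group G] [Finite G] (x : G) :
    (Subgroup.centralizer ({x} : Set G)).index ≤ Nat.card (commutator G) := by
  let f : G ⧸ Subgroup.centralizer ({x} : Set G) → commutator G := fun q =>
    ⟨⁅q.out, x⁆, Subgroup.commutator_mem_commutator (Subgroup.mem_top _) (Subgroup.mem_top _)⟩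
  refine Nat.card_le_card_of_injective f fun a b hab => ?_
  have h : ⁅a.out, x⁆ = ⁅b.out, x⁆ := congrArg Subtype.val hab
  rw [← a.out_eq, ← b.out_eq]
  apply QuotientGroup.eq.2
  rw [Subgroup.mem_centralizer_singleton_iff]
  simp only [commutatorElement_def, mul_left_inj] at h
  calc a.out⁻¹ * b.out * x = a.out⁻¹ * (b.out * x * b.out⁻¹) * b.out := by group
    _ = a.out⁻¹ * (a.out * x * a.out⁻¹) * b.out := by rw [h]
    _ = _ := by group

theorem index_commutator_eq {P : Type*} [Group P] [Finite P] (p : ℕ) [Fact p.Prime]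
    (hP : Nat.card P = p ^ 4) {x : P} (hx : x ∉ Subgroup.center P)
    (hi : (Subgroup.centralizer ({x} : Set P)).index = p) :
    (commutator P).index = p * Nat.card (Subgroup.center P) := by
  have hp : p.Prime := Fact.out
  have hG : IsPGroup p P := IsPGroup.of_card hP
  set C := Subgroup.centralizer ({x} : Set P) with hC
  have hmin : (Nat.card P).minFac = p := by rw [hP]; exact hp.pow_minFac (by norm_num)
  haveI : C.Normal := Subgroup.normal_of_index_eq_minFac_card (by rw [hi, hmin])
  have hCcard : Nat.card C = p ^ 3 := by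
    have := Subgroup.card_mul_index C
    rw [hi, hP] at this
    apply Nat.eq_of_mul_eq_mul_right hp.pos
    rw [this]; ring
  have hZC : Subgroup.center P ≤ C := fun z hz =>
    Subgroup.mem_centralizer_singleton_iff.2 (Subgroup.mem_center_iff.1 hz x).symm
  have hxC : x ∈ C := Subgroup.mem_centralizer_singleton_iff.2 rfl
  haveI : Nontrivial P := (hG.nontrivial_iff_card).2 ⟨4, by norm_num, hP⟩
  have hlt : (Subgroup.center P).subgroupOf C < Subgroup.center C := by
    refine lt_of_le_of_ne ?_ ?_
    · intro z hz
      rw [Subgroup.mem_center_iff]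
      intro g
      exact Subtype.ext (Subgroup.mem_center_iff.1 hz g)
    · intro h
      have : (⟨x, hxC⟩ : C) ∈ Subgroup.center C := by
        rw [Subgroup.mem_center_iff]
        intro g
        exact Subtype.ext (Subgroup.mem_centralizer_singleton_iff.1 g.2)
      rw [← h] at this
      exact hx this
  have h1 := Grp.card_lt_of_lt hlt
  rw [Grp.card_subgroupOf_of_le hZC] at h1
  obtain ⟨k, hk0, hk⟩ := IsPGroup.card_center_eq_prime_pow hP (by norm_num)
  obtain ⟨l, hl0, hl⟩ := IsPGroup.card_center_eq_prime_pow hCcard (by norm_num)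
  rw [hk, hl, Nat.pow_lt_pow_iff_right hp.one_lt] at h1
  have h2 : Nat.card (C ⧸ Subgroup.center C) ∣ p := by
    have h3 := Subgroup.card_eq_card_quotient_mul_card_subgroup (Subgroup.center C)
    rw [hCcard, hl] at h3
    obtain ⟨m, rfl⟩ : ∃ m, l = m + 2 := ⟨l - 2, by omega⟩
    refine ⟨p ^ m, ?_⟩
    apply Nat.eq_of_mul_eq_mul_right (pow_pos hp.pos 2)
    rw [mul_assoc, ← pow_add, ← h3]; ring
  haveI : IsCyclic (C ⧸ Subgroup.center C) := isCyclic_of_card_dvd_prime h2
  have hcomm : IsMulCommutative C := isMulCommutative_of_isCyclic_quotient_center_self C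
  have hc : ∀ a ∈ C, ∀ b ∈ C, a * b = b * a := fun a ha b hb =>
    congrArg Subtype.val (hcomm.is_comm.comm (⟨a, ha⟩ : C) ⟨b, hb⟩)
  obtain ⟨y, hy⟩ : ∃ y : P, y ∉ C := by
    by_contra hc
    push Not at hc
    have : C = ⊤ := eq_top_iff.2 fun x _ => hc x
    rw [this, Subgroup.index_top] at hi
    exact hp.one_lt.ne hi
  rw [Grp.index_commutator_of_comm hp C hi hc hy]
  congr 3
  apply le_antisymm
  · rintro u ⟨hu1, hu2⟩
    have : Subgroup.centralizer ({u} : Set P) = ⊤ :=
      Grp.eq_top_of_index_prime hp hi
        (fun a ha => Subgroup.mem_centralizer_singleton_iff.2 (hc a ha u hu1)) hy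
        (Subgroup.mem_centralizer_singleton_iff.2
          (Subgroup.mem_centralizer_singleton_iff.1 hu2).symm)
    rw [Subgroup.mem_center_iff]
    intro g
    exact Subgroup.mem_centralizer_singleton_iff.1 (this ▸ Subgroup.mem_top g)
  · exact le_inf hZC fun z hz =>
      Subgroup.mem_centralizer_singleton_iff.2 (Subgroup.mem_center_iff.1 hz y).symm

/-- Let p be a prime and P a group of order p^4. Then the derived subgroup P' has order p if and only if the centre Z(P) has index p^2 in P. -/
theorem result {P : Type*} [Group P] [Finite P] (p : ℕ) [Fact p.Prime] (hP : Nat.card P = p ^ 4) :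
    Nat.card (commutator P) = p ↔ (Subgroup.center P).index = p ^ 2 := by
  have hp : p.Prime := Fact.out
  have hG : IsPGroup p P := IsPGroup.of_card hP
  have h4 := Subgroup.card_mul_index (commutator P)
  have h5 := Subgroup.card_mul_index (Subgroup.center P)
  rw [hP] at h4 h5
  have hne : ∀ x : P, x ∉ Subgroup.center P → (Subgroup.centralizer ({x} : Set P)).index ≠ 1 := by
    intro x hx h
    rw [Subgroup.index_eq_one] at h
    apply hx
    rw [Subgroup.mem_center_iff]
    intro g
    exact Subgroup.mem_centralizer_singleton_iff.1 (h ▸ Subgroup.mem_top g)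
  constructor
  · intro h
    obtain ⟨x, hx⟩ : ∃ x : P, x ∉ Subgroup.center P := by
      by_contra hc
      push Not at hc
      have : commutator P = ⊥ := by
        rw [commutator_def, eq_bot_iff, Subgroup.commutator_le]
        intro a _ b _
        rw [Subgroup.mem_bot, commutatorElement_eq_one_iff_mul_comm]
        exact Subgroup.mem_center_iff.1 (hc b) a
      rw [this, Subgroup.card_bot] at h
      exact hp.one_lt.ne h
    obtain ⟨j, hj⟩ := hG.index (Subgroup.centralizer ({x} : Set P))
    have h1 := index_centralizer_le x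
    have h2 := hne x hx
    rw [h, hj] at h1
    rw [hj] at h2
    have hj1 : j = 1 := by
      have h3 : j ≤ 1 := by
        rw [← Nat.pow_le_pow_iff_right hp.one_lt, pow_one]; exact h1
      rcases Nat.le_one_iff_eq_zero_or_eq_one.1 h3 with h0 | h0
      · subst h0; simp at h2
      · exact h0
    rw [hj1, pow_one] at hj
    rw [index_commutator_eq p hP hx hj, h] at h4
    have h6 : Nat.card (Subgroup.center P) = p ^ 2 := by
      apply Nat.eq_of_mul_eq_mul_left (pow_pos hp.pos 2)
      rw [← pow_add, ← h4]; ring
    rw [h6] at h5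
    apply Nat.eq_of_mul_eq_mul_left (pow_pos hp.pos 2)
    rw [h5]; ring
  · intro h
    have hp2 : 1 < p ^ 2 := Nat.one_lt_pow (by norm_num) hp.one_lt
    obtain ⟨x, hx⟩ : ∃ x : P, x ∉ Subgroup.center P := by
      by_contra hc
      push Not at hc
      have : Subgroup.center P = ⊤ := eq_top_iff.2 fun x _ => hc x
      rw [this, Subgroup.index_top] at h
      exact hp2.ne h
    have hZC : Subgroup.center P ≤ Subgroup.centralizer ({x} : Set P) := fun z hz =>
      Subgroup.mem_centralizer_singleton_iff.2 (Subgroup.mem_center_iff.1 hz x).symm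
    have h1 := Subgroup.relIndex_mul_index hZC
    have h2 : (Subgroup.centralizer ({x} : Set P)).index ∣ p ^ 2 := h ▸ Dvd.intro_left _ h1
    obtain ⟨j, hj2, hj⟩ := (Nat.dvd_prime_pow hp).1 h2
    have h3 := hne x hx
    have hj1 : j = 1 := by
      interval_cases j
      · simp at hj; simp [hj] at h3
      · rfl
      · exfalso
        rw [hj, h] at h1
        have h7 : (Subgroup.center P).relIndex (Subgroup.centralizer ({x} : Set P)) = 1 :=
          Nat.eq_of_mul_eq_mul_right (pow_pos hp.pos 2) (h1.trans (one_mul _).symm)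
        exact hx (Subgroup.relIndex_eq_one.1 h7 (Subgroup.mem_centralizer_singleton_iff.2 rfl))
    rw [hj1, pow_one] at hj
    rw [h] at h5
    have h6 : Nat.card (Subgroup.center P) = p ^ 2 := by
      apply Nat.eq_of_mul_eq_mul_right (pow_pos hp.pos 2)
      rw [h5]; ring
    rw [index_commutator_eq p hP hx hj, h6] at h4
    apply Nat.eq_of_mul_eq_mul_right (pow_pos hp.pos 3)
    rw [← pow_succ', h4.symm]; ring

end Cfsg.Agent.S4584
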