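import Cfsg.Statements.S4585
import Mathlib
import Cfsg.Agent.S4584

set_option autoImplicit false
open Cfsg

namespace Cfsg.Agent.S4585

open scoped commutatorElement in
/-- In a nilpotent group a nontrivial term of the lower central series is strictly larger than
the next one. -/
theorem lcs_lt {G : Type*} [Group G] [Group.IsNilpotent G] (n : ℕ)
    (h : (⊤ : Subgroup G).lowerCentralSeries n ≠ ⊥) :
    (⊤ : Subgroup G).lowerCentralSeries (n + 1) < (⊤ : Subgroup G).lowerCentralSeries n := by
  refine lt_of_le_of_ne (Subgroup.lowerCentralSeries_antitone _ (Nat.le_succ n)) fun he => h ?_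
  have key : ∀ k, (⊤ : Subgroup G).lowerCentralSeries (n + k) =
      (⊤ : Subgroup G).lowerCentralSeries n := by
    intro k
    induction k with
    | zero => rfl
    | succ k ih => rw [← add_assoc, Subgroup.lowerCentralSeries_succ, ih]; exact he
  rw [← key (Group.nilpotencyClass G), Subgroup.lowerCentralSeries_eq_bot_iff_nilpotencyClass_le]
  omega

open scoped commutatorElement in
/-- A nilpotent group with cyclic abelianization is commutative. -/
theorem commutator_eq_bot_of_isCyclic {G : Type*} [Group G] [Group.IsNilpotent G]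
    [IsCyclic (G ⧸ commutator G)] : commutator G = ⊥ := by
  by_contra hne
  have hlt := lcs_lt (G := G) 1 hne
  set K := (⊤ : Subgroup G).lowerCentralSeries (1 + 1) with hK
  rw [Subgroup.top_lowerCentralSeries_one] at hlt
  haveI : K.Normal := inferInstance
  let f : G ⧸ K →* G ⧸ commutator G := QuotientGroup.map K (commutator G) (MonoidHom.id G) hlt.le
  have hker : f.ker ≤ Subgroup.center (G ⧸ K) := by
    intro z hz
    obtain ⟨z, rfl⟩ := QuotientGroup.mk_surjective z
    have hz' : z ∈ commutator G := by
      rw [MonoidHom.mem_ker] at hz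
      exact (QuotientGroup.eq_one_iff z).1 hz
    rw [Subgroup.mem_center_iff]
    intro g
    obtain ⟨g, rfl⟩ := QuotientGroup.mk_surjective g
    symm
    rw [← commutatorElement_eq_one_iff_mul_comm]
    change ⁅QuotientGroup.mk' K z, QuotientGroup.mk' K g⁆ = 1
    rw [← map_commutatorElement, QuotientGroup.mk'_apply, QuotientGroup.eq_one_iff]
    exact Subgroup.commutator_mem_commutator hz' (Subgroup.mem_top g)
  have hc := f.isMulCommutative_of_isCyclic_of_ker_le_center hker
  apply hlt.not_ge
  rw [commutator_def, Subgroup.commutator_le]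
  intro a _ b _
  rw [← QuotientGroup.eq_one_iff]
  change QuotientGroup.mk' K ⁅a, b⁆ = 1
  rw [map_commutatorElement, commutatorElement_eq_one_iff_mul_comm]
  exact hc.is_comm.comm _ _

/-- Let p be a prime and P a group of order p^4. Then P' has index p^2 in P if and only if P has maximal nilpotency class, that is, nilpotency class exactly 3. -/
theorem result {P : Type*} [Group P] [Finite P] (p : ℕ) [Fact p.Prime] (hP : Nat.card P = p ^ 4) :
    (commutator P).index = p ^ 2 ↔ Group.nilpotencyClass P = 3 := by
  have hp : p.Prime := Fact.out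
  have hG : IsPGroup p P := IsPGroup.of_card hP
  haveI := hG.isNilpotent
  have h4 := Subgroup.card_mul_index (commutator P)
  rw [hP] at h4
  have hcard : ∀ H : Subgroup P, ∃ k, Nat.card H = p ^ k := fun H =>
    IsPGroup.iff_card.1 (hG.to_subgroup H)
  have hlt : ∀ n a, (⊤ : Subgroup P).lowerCentralSeries n ≠ ⊥ →
      Nat.card ((⊤ : Subgroup P).lowerCentralSeries n) ≤ p ^ (a + 1) →
      Nat.card ((⊤ : Subgroup P).lowerCentralSeries (n + 1)) ≤ p ^ a := by
    intro n a h1 h2
    have h3 := Grp.card_lt_of_lt (lcs_lt n h1)
    obtain ⟨k, hk⟩ := hcard ((⊤ : Subgroup P).lowerCentralSeries (n + 1))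
    have h5 := lt_of_lt_of_le h3 h2
    rw [hk, Nat.pow_lt_pow_iff_right hp.one_lt] at h5
    rw [hk, Nat.pow_le_pow_iff_right hp.one_lt]; omega
  constructor
  · intro h
    have h6 : Nat.card (commutator P) = p ^ 2 := by
      rw [h] at h4
      apply Nat.eq_of_mul_eq_mul_right (pow_pos hp.pos 2)
      rw [h4]; ring
    have hp2 : 1 < p ^ 2 := Nat.one_lt_pow (by norm_num) hp.one_lt
    have h1 : (⊤ : Subgroup P).lowerCentralSeries 1 ≠ ⊥ := by
      rw [Subgroup.top_lowerCentralSeries_one]
      intro hb
      rw [hb, Subgroup.card_bot] at h6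
      exact hp2.ne h6
    apply le_antisymm
    · rw [← Subgroup.lowerCentralSeries_eq_bot_iff_nilpotencyClass_le]
      have h2 := hlt 1 1 h1 (by rw [Subgroup.top_lowerCentralSeries_one, h6])
      by_cases h3 : (⊤ : Subgroup P).lowerCentralSeries 2 = ⊥
      · exact le_bot_iff.1 (h3 ▸ Subgroup.lowerCentralSeries_antitone _ (by norm_num))
      · have h5 := hlt 2 0 h3 h2
        rw [pow_zero] at h5
        exact Subgroup.eq_bot_of_card_le _ h5
    · by_contra hc
      have h2 : (⊤ : Subgroup P).lowerCentralSeries 2 = ⊥ := by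
        rw [Subgroup.lowerCentralSeries_eq_bot_iff_nilpotencyClass_le]; omega
      have h3 : commutator P ≤ Subgroup.center P := by
        rw [Subgroup.lowerCentralSeries_succ, Subgroup.top_lowerCentralSeries_one,
          Subgroup.commutator_eq_bot_iff_le_centralizer, Subgroup.coe_top,
          Subgroup.centralizer_univ] at h2
        exact h2
      have h5 : (Subgroup.center P).index ∣ p ^ 2 := h ▸ Subgroup.index_dvd_of_le h3
      obtain ⟨j, hj2, hj⟩ := (Nat.dvd_prime_pow hp).1 h5
      by_cases hj' : j = 2
      · subst hj'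
        have := (S4584.result p hP).2 hj
        rw [this] at h6
        have h7 : p ^ 1 = p ^ 2 := by rw [pow_one]; exact h6
        have := Nat.pow_right_injective hp.two_le h7
        omega
      · have h7 : Nat.card (P ⧸ Subgroup.center P) ∣ p := by
          rw [← Subgroup.index_eq_card, hj]
          exact (pow_dvd_pow p (show j ≤ 1 by omega)).trans (by simp)
        haveI : IsCyclic (P ⧸ Subgroup.center P) := isCyclic_of_card_dvd_prime h7
        have hcomm : IsMulCommutative P := isMulCommutative_of_isCyclic_quotient_center_self P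
        apply h1
        rw [Subgroup.lowerCentralSeries_eq_bot_iff_nilpotencyClass_le,
          Group.IsNilpotent.nilpotencyClass_le_one_iff]
        exact hcomm
  · intro h
    have h2 : (⊤ : Subgroup P).lowerCentralSeries 2 ≠ ⊥ := by
      rw [Ne, Subgroup.lowerCentralSeries_eq_bot_iff_nilpotencyClass_le]; omega
    have h1 : (⊤ : Subgroup P).lowerCentralSeries 1 ≠ ⊥ := by
      rw [Ne, Subgroup.lowerCentralSeries_eq_bot_iff_nilpotencyClass_le]; omega
    obtain ⟨j, hj⟩ := hG.index (commutator P)
    obtain ⟨k, hk⟩ := hcard (commutator P)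
    rw [hj, hk, ← pow_add] at h4
    have h5 : k + j = 4 := Nat.pow_right_injective hp.two_le h4
    have hk2 : 2 ≤ k := by
      by_contra hc
      have h6 := hlt 1 0 h1 (by
        rw [Subgroup.top_lowerCentralSeries_one, hk, Nat.pow_le_pow_iff_right hp.one_lt]; omega)
      rw [pow_zero] at h6
      exact h2 (Subgroup.eq_bot_of_card_le _ h6)
    have hj2 : 2 ≤ j := by
      by_contra hc
      have h7 : Nat.card (P ⧸ commutator P) ∣ p := by
        rw [← Subgroup.index_eq_card, hj]
        exact (pow_dvd_pow p (show j ≤ 1 by omega)).trans (by simp)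
      haveI : IsCyclic (P ⧸ commutator P) := isCyclic_of_card_dvd_prime h7
      exact h1 commutator_eq_bot_of_isCyclic
    rw [hj, show j = 2 by omega]

end Cfsg.Agent.S4585
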