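import Cfsg.Statements.S4601
import Cfsg.Agent.PLocal.PSolv
import Cfsg.Agent.Solv.CoprimeSylow
import Cfsg.Agent.Transfer.Control
import Cfsg.Agent.FGS.ClassSize
import Cfsg.Agent.Grp.Card
import Cfsg.Agent.Grp.Cores

set_option autoImplicit false
open Cfsg

namespace Cfsg.Agent.S4601

open Subgroup
open scoped Pointwise

universe u

theorem exists_sylow_le {G : Type*} [Group G] [Finite G] {p : ℕ} [hp : Fact p.Prime]
    (H : Subgroup G) (h : ¬ p ∣ H.index) : ∃ P : Sylow p G, (P : Subgroup G) ≤ H := by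
  obtain ⟨P⟩ : Nonempty (Sylow p H) := inferInstance
  refine ⟨(P.isPGroup'.map H.subtype).toSylow ?_, map_subtype_le _⟩
  rw [index_map_subtype, hp.out.dvd_mul, not_or]
  exact ⟨P.not_dvd_index, h⟩

theorem not_dvd_of_sup {G : Type*} [Group G] [Finite G] {p : ℕ} (hp : p.Prime) {N M : Subgroup G}
    [M.Normal] (h1 : ¬ p ∣ (N ⊔ M).index) (h2 : ¬ p ∣ N.relIndex M) : ¬ p ∣ N.index := by
  rw [← relIndex_mul_index (le_sup_left : N ≤ N ⊔ M), ← Transfer.relIndex_eq_relIndex_sup_of_normal,
    hp.dvd_mul, not_or]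
  exact ⟨h2, h1⟩

theorem comap_normalizer_le {G : Type*} [Group G] [Finite G] {q : ℕ} [Fact q.Prime]
    (Q : Sylow q G) (M : Subgroup G) [M.Normal] :
    (normalizer (((Q : Subgroup G).map (QuotientGroup.mk' M) : Subgroup (G ⧸ M)) : Set (G ⧸ M))).comap
      (QuotientGroup.mk' M) ≤ normalizer ((Q : Subgroup G) : Set G) ⊔ M := by
  intro g hg
  have h1 : (Q : Subgroup G) ≤ (Q : Subgroup G) ⊔ M := le_sup_left
  have h2 : ((g • Q : Sylow q G) : Subgroup G) ≤ (Q : Subgroup G) ⊔ M := by
    rintro _ ⟨x, hx, rfl⟩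
    have := (mem_normalizer_iff.1 hg _).1 (mem_map_of_mem (QuotientGroup.mk' M) hx)
    rw [← map_inv, ← map_mul, ← map_mul, ← mem_comap, comap_map_eq, QuotientGroup.ker_mk'] at this
    exact this
  obtain ⟨x, hx⟩ := MulAction.exists_smul_eq (↥((Q : Subgroup G) ⊔ M)) ((g • Q).subtype h2)
    (Q.subtype h1)
  rw [Sylow.smul_subtype] at hx
  have h3 : ((x : G) * g) • Q = Q := by
    rw [mul_smul]
    exact Sylow.subtype_injective hx
  have h4 : (x : G) * g ∈ normalizer ((Q : Subgroup G) : Set G) := Sylow.smul_eq_iff_mem_normalizer.1 h3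
  have h5 : (x : G) ∈ normalizer ((Q : Subgroup G) : Set G) ⊔ M :=
    sup_le_sup_right le_normalizer M x.2
  exact (Subgroup.mul_mem_cancel_left _ h5).1 (mem_sup_left h4)

theorem qsolv {p q : ℕ} [hp : Fact p.Prime] [hq : Fact q.Prime] (G : Type u) [Group G] [Finite G] :
    IsPSolvable q G → ∀ Q : Sylow q G, (∀ y ∈ (Q : Subgroup G), ¬ p ∣ (centralizer ({y} : Set G)).index) →
      ¬ p ∣ (normalizer ((Q : Subgroup G) : Set G)).index := by
  refine Grp.card_induction (P := fun G _ _ => IsPSolvable q G → ∀ Q : Sylow q G,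
    (∀ y ∈ (Q : Subgroup G), ¬ p ∣ (centralizer ({y} : Set G)).index) →
      ¬ p ∣ (normalizer ((Q : Subgroup G) : Set G)).index) ?_ G
  intro G _ _ ih hs Q h
  rcases subsingleton_or_nontrivial G with hG | hG
  · rw [Subsingleton.elim (normalizer _) ⊤, index_top]
    exact hp.out.not_dvd_one
  obtain ⟨M, hMn, hM1, hM⟩ := PLocal.IsPSolvable.exists_normal hs
  have h1 := ih (G ⧸ M) (by
      rw [card_eq_card_quotient_mul_card_subgroup M]
      exact lt_mul_of_one_lt_right Nat.card_pos ((one_lt_card_iff_ne_bot M).2 hM1))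
    (PLocal.IsPSolvable.quotient hs M) (Q.mapSurjective (QuotientGroup.mk'_surjective M)) (by
      rintro _ ⟨y, hy, rfl⟩ hd
      exact h y hy (hd.trans (FGS.index_centralizer_map_dvd _ (QuotientGroup.mk'_surjective M) y)))
  rw [← index_comap_of_surjective _ (QuotientGroup.mk'_surjective M)] at h1
  refine not_dvd_of_sup hp.out (M := M)
    (fun hd => h1 (hd.trans (index_dvd_of_le (comap_normalizer_le Q M)))) ?_
  rcases hM with hM | hM
  · rw [relIndex_eq_one.2 ((hM.le_sylow_of_normal Q).trans le_normalizer)]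
    exact hp.out.not_dvd_one
  have hcop : ∀ A : Subgroup G, A ≤ Q → (Nat.card A).Coprime (Nat.card M) := fun A hA => by
    obtain ⟨n, hn⟩ := (Q.isPGroup'.to_le hA).exists_card_eq
    rw [hn]
    exact hM.symm.pow_left n
  have hsol : ∀ A : Subgroup G, A ≤ Q → Group.IsSolvable A := fun A hA => by
    have := (Q.isPGroup'.to_le hA).isNilpotent
    infer_instance
  obtain ⟨P, hP⟩ := Solv.exists_invariant_sylow (Q : Subgroup G) M le_normalizer_of_normal
    (hcop _ le_rfl) (Or.inl (hsol _ le_rfl)) p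
  have hc : ∀ y ∈ (Q : Subgroup G), ∀ x ∈ (P : Subgroup M), y * x = x * y := by
    intro y hy
    obtain ⟨P₁, hP₁⟩ := exists_sylow_le ((centralizer ({y} : Set G)).subgroupOf M) fun hd =>
      h y hy (hd.trans (by
        rw [← relIndex, Transfer.relIndex_eq_relIndex_sup_of_normal]
        exact relIndex_dvd_index_of_le le_sup_left))
    have hz : zpowers y ≤ Q := (zpowers_le).2 hy
    obtain ⟨c, hc, e⟩ := Solv.invariant_sylow_conj (zpowers y) M le_normalizer_of_normal
      (hcop _ hz) (Or.inl (hsol _ hz)) p P₁ P (by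
        refine le_trans ?_ (centralizer_le_normalizer _)
        rw [zpowers_le]
        rintro _ ⟨x, hx, rfl⟩
        exact mem_centralizer_singleton_iff.1 (hP₁ hx)) (hz.trans hP)
    rw [← e]
    rintro _ ⟨x, hx, rfl⟩
    have c1 : Commute y (c : G) := hc y (mem_zpowers y)
    have c2 : Commute y (x : G) := (mem_centralizer_singleton_iff.1 (hP₁ hx)).symm
    exact ((c1.mul_right c2).mul_right c1.inv_right).eq
  have hle : (P : Subgroup M) ≤ (normalizer ((Q : Subgroup G) : Set G)).subgroupOf M :=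
    fun x hx => centralizer_le_normalizer _ fun y hy => hc y hy x hx
  exact fun hd => P.not_dvd_index (hd.trans (index_dvd_of_le hle))

theorem psolv {p q : ℕ} [hp : Fact p.Prime] [hq : Fact q.Prime] (hpq : p ≠ q) {G : Type*} [Group G]
    [Finite G] (hs : IsPSolvable p G) (Q : Sylow q G)
    (h : ∀ y ∈ (Q : Subgroup G), ¬ p ∣ (centralizer ({y} : Set G)).index) :
    ¬ p ∣ (normalizer ((Q : Subgroup G) : Set G)).index := by
  have hQ : (Q : Subgroup G) ≤ pPrimeCore p G := by
    intro y hy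
    obtain ⟨P, hP⟩ := exists_sylow_le (centralizer ({QuotientGroup.mk' (pPrimeCore p G) y} : Set _))
      fun hd => h y hy (hd.trans
        (FGS.index_centralizer_map_dvd _ (QuotientGroup.mk'_surjective _) y))
    have h1 := PLocal.centralizer_pCore_le_of_isPSolvable (PLocal.IsPSolvable.quotient hs _)
      (Grp.pPrimeCore_quotient_pPrimeCore p G) (x := QuotientGroup.mk' (pPrimeCore p G) y)
      fun x hx => mem_centralizer_singleton_iff.1
        (hP ((Grp.pCore_isPGroup p _).le_sylow_of_normal P hx))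
    obtain ⟨a, ha⟩ := Grp.pCore_isPGroup p _ ⟨_, h1⟩
    obtain ⟨b, hb⟩ := Q.isPGroup' ⟨y, hy⟩
    have ha' := orderOf_dvd_of_pow_eq_one (congrArg Subtype.val ha)
    have hb' := (orderOf_map_dvd (QuotientGroup.mk' (pPrimeCore p G)) y).trans
      (orderOf_dvd_of_pow_eq_one (congrArg Subtype.val hb))
    exact (QuotientGroup.eq_one_iff y).1 (orderOf_eq_one_iff.1 (Nat.eq_one_of_dvd_coprimes
      (Nat.coprime_pow_primes a b hp.out hq.out hpq) ha' hb'))
  refine not_dvd_of_sup hp.out (M := pPrimeCore p G) ?_ fun hd => ?_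
  · rw [show normalizer ((Q : Subgroup G) : Set G) ⊔ pPrimeCore p G = ⊤ from
      Sylow.normalizer_sup_eq_top' Q hQ, index_top]
    exact hp.out.not_dvd_one
  · exact hp.out.coprime_iff_not_dvd.1 (Grp.pPrimeCore_coprime p G).symm
      (hd.trans (relIndex_dvd_card _ _))

/-- Let p and q be primes and G a finite group that is p-solvable or q-solvable, in which no q-element has conjugacy class size divisible by p. Then some Sylow p-subgroup of G normalizes some Sylow q-subgroup of G. -/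
theorem result {G : Type*} [Group G] [Finite G] (p q : ℕ) [Fact p.Prime] [Fact q.Prime] (hsolv : Cfsg.IsPSolvable p G ∨ Cfsg.IsPSolvable q G)
    (h : ∀ y : G, (∃ k : ℕ, orderOf y = q ^ k) → ¬ p ∣ (Subgroup.centralizer ({y} : Set G)).index) :
    ∃ (P : Sylow p G) (Q : Sylow q G), (P : Subgroup G) ≤ Subgroup.normalizer ((Q : Subgroup G) : Set G) := by
  obtain ⟨Q⟩ : Nonempty (Sylow q G) := inferInstance
  by_cases hpq : p = q
  · subst hpq
    exact ⟨Q, Q, le_normalizer⟩
  have h' : ∀ y ∈ (Q : Subgroup G), ¬ p ∣ (centralizer ({y} : Set G)).index := fun y hy => h y (by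
    obtain ⟨k, hk⟩ := IsPGroup.iff_orderOf.1 Q.isPGroup' ⟨y, hy⟩
    exact ⟨k, by rw [← hk, orderOf_mk]⟩)
  obtain ⟨P, hP⟩ := exists_sylow_le _
    (hsolv.elim (fun hs => psolv hpq hs Q h') fun hs => qsolv G hs Q h')
  exact ⟨P, Q, hP⟩

end Cfsg.Agent.S4601
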