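import Cfsg.Statements.S4602
import Cfsg.Agent.Grp.Cores
import Cfsg.Agent.Solv.CoprimeSylow
import Cfsg.Agent.PLocal.PSolv

set_option autoImplicit false
open Cfsg

namespace Cfsg.Agent.S4602

open Subgroup

theorem aux {G : Type*} [Group G] [Finite G] (p q : ℕ) [Fact p.Prime] [Fact q.Prime]
    (hpq : p ≠ q) (hsolv : Cfsg.IsPSolvable p G) (hO : pPrimeCore p G = ⊥)
    (P : Sylow p G) (Q : Sylow q G)
    (h : (P : Subgroup G) ≤ Subgroup.normalizer ((Q : Subgroup G) : Set G)) :
    ¬ q ∣ Nat.card G := by
  have hC := PLocal.centralizer_pCore_le_of_isPSolvable hsolv hO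
  have hd : Disjoint (pCore p G) (Q : Subgroup G) :=
    IsPGroup.disjoint_of_ne p q hpq _ _ (Grp.pCore_isPGroup p G) Q.isPGroup'
  have hQ : (Q : Subgroup G) ≤ centralizer (pCore p G : Set G) := by
    intro y hy
    rw [mem_centralizer_iff]
    intro x hx
    have hxN : x ∈ normalizer ((Q : Subgroup G) : Set G) := h (Grp.pCore_le_sylow P hx)
    have h1 : x * y * x⁻¹ * y⁻¹ ∈ (Q : Subgroup G) :=
      mul_mem ((mem_normalizer_iff.1 hxN y).1 hy) (inv_mem hy)
    have h2 : x * y * x⁻¹ * y⁻¹ ∈ pCore p G := by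
      have : x * y * x⁻¹ * y⁻¹ = x * (y * x⁻¹ * y⁻¹) := by group
      rw [this]
      exact mul_mem hx ((inferInstance : (pCore p G).Normal).conj_mem _ (inv_mem hx) y)
    have h3 := (Subgroup.disjoint_def.1 hd) h2 h1
    calc x * y = (x * y * x⁻¹ * y⁻¹) * (y * x) := by group
      _ = y * x := by rw [h3, one_mul]
  have hQb : (Q : Subgroup G) = ⊥ := by
    rw [eq_bot_iff]
    exact (le_inf (hQ.trans hC) le_rfl).trans (disjoint_iff_inf_le.1 hd)
  have := Q.not_dvd_index
  rwa [hQb, index_bot] at this

/-- Let G be a finite p-solvable group and q a prime different from p. Some Sylow p-subgroup of G normalizes some Sylow q-subgroup of G if and only if q does not divide the order of G/O_{p'}(G), the quotient by the largest normal subgroup of order prime to p. -/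
theorem result {G : Type*} [Group G] [Finite G] (p q : ℕ) [Fact p.Prime] [Fact q.Prime] (hpq : p ≠ q) (hsolv : Cfsg.IsPSolvable p G) :
    (∃ (P : Sylow p G) (Q : Sylow q G), (P : Subgroup G) ≤ Subgroup.normalizer ((Q : Subgroup G) : Set G)) ↔ ¬ q ∣ (Cfsg.pPrimeCore p G).index := by
  set K := Cfsg.pPrimeCore p G with hK
  constructor
  · rintro ⟨P, Q, h⟩
    have hs := QuotientGroup.mk'_surjective K
    have := aux p q hpq (PLocal.IsPSolvable.quotient hsolv K)
      (Grp.pPrimeCore_quotient_pPrimeCore p G) (P.mapSurjective hs) (Q.mapSurjective hs) (by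
        rw [Sylow.coe_mapSurjective, Sylow.coe_mapSurjective]
        exact (map_mono h).trans (Subgroup.le_normalizer_map _))
    exact this
  · intro h
    obtain ⟨P⟩ : Nonempty (Sylow p G) := inferInstance
    have hcop : (Nat.card (P : Subgroup G)).Coprime (Nat.card K) := by
      obtain ⟨n, hn⟩ := P.isPGroup'.exists_card_eq
      rw [hn]
      exact Nat.Coprime.pow_left _ (Grp.pPrimeCore_coprime p G).symm
    haveI := P.isPGroup'.isNilpotent
    obtain ⟨Q, hQ⟩ := Solv.exists_invariant_sylow (P : Subgroup G) K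
      (by rw [normalizer_eq_top]; exact le_top) hcop (Or.inl inferInstance) q
    have hidx : ¬ q ∣ ((Q : Subgroup K).map K.subtype).index := by
      rw [Subgroup.index_map_subtype]
      intro hd
      rcases (Nat.Prime.dvd_mul (Fact.out : q.Prime)).1 hd with h1 | h1
      · exact Q.not_dvd_index h1
      · exact h h1
    exact ⟨P, (Q.isPGroup'.map K.subtype).toSylow hidx, hQ⟩

end Cfsg.Agent.S4602
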