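import Cfsg.Statements.S4604
import Cfsg.Agent.Char.RegSep

set_option autoImplicit false
open Cfsg

namespace Cfsg.Agent.S4604

open Cfsg.Agent.Char

/-- Let G be a finite group, p a prime and p^a the p-part of the order of G. Let x, y ∈ G and let x′, y′ be their p-regular parts: x′ has order prime to p, commutes with x·x′⁻¹, and x·x′⁻¹ has p-power order (likewise for y). Then x′ and y′ are conjugate in G if and only if for every irreducible character χ of G the algebraic integer χ(x)^(p^a) − χ(y)^(p^a) is p times an algebraic integer. -/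
theorem result {G : Type*} [Group G] [Finite G] (p : ℕ) [Fact p.Prime] (x y x' y' : G)
    (hx : (∃ k : ℕ, orderOf (x * x'⁻¹) = p ^ k) ∧ Commute (x * x'⁻¹) x' ∧ ¬ p ∣ orderOf x')
    (hy : (∃ k : ℕ, orderOf (y * y'⁻¹) = p ^ k) ∧ Commute (y * y'⁻¹) y' ∧ ¬ p ∣ orderOf y') :
    IsConj x' y' ↔ ∀ χ : Cfsg.IrrCharacter G, ∃ γ : Cfsg.AlgInt,
      (χ : G → ℂ) x ^ (p ^ (Nat.card G).factorization p) - (χ : G → ℂ) y ^ (p ^ (Nat.card G).factorization p) = (p : ℂ) * (γ : ℂ) := by
  have hp : p.Prime := Fact.out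
  have key : ∀ x x' : G, ((∃ k : ℕ, orderOf (x * x'⁻¹) = p ^ k) ∧ Commute (x * x'⁻¹) x' ∧
      ¬ p ∣ orderOf x') → Block.pReg p x = x' ∧ x ^ (p ^ (Nat.card G).factorization p) =
        x' ^ (p ^ (Nat.card G).factorization p) := by
    rintro x x' ⟨⟨k, hk⟩, h2, h3⟩
    refine ⟨by simpa using Block.pReg_mul_eq h2 ⟨k, hk⟩ h3, ?_⟩
    have h4 : (x * x'⁻¹) ^ (p ^ (Nat.card G).factorization p) = 1 := by
      rw [← orderOf_dvd_iff_pow_eq_one, hk]
      exact pow_dvd_pow p ((hp.pow_dvd_iff_le_factorization Nat.card_pos.ne').mp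
        (hk ▸ orderOf_dvd_natCard _))
    have h5 := h2.mul_pow (p ^ (Nat.card G).factorization p)
    rwa [h4, one_mul, inv_mul_cancel_right] at h5
  obtain ⟨hx1, hx2⟩ := key x x' hx
  obtain ⟨hy1, hy2⟩ := key y y' hy
  constructor
  · intro h χ
    obtain ⟨a, ha, ha'⟩ := χ.2.isCharacter.exists_pow_prime_pow_eq hp
      ((Nat.card G).factorization p) x
    obtain ⟨b, hb, hb'⟩ := χ.2.isCharacter.exists_pow_prime_pow_eq hp
      ((Nat.card G).factorization p) y
    refine ⟨⟨a - b, ha.sub hb⟩, ?_⟩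
    rw [ha', hb', hx2, hy2, χ.2.isClassFunction.eq_of_isConj (h.pow _)]
    ring
  · intro h
    obtain ⟨M, hM⟩ := Block.exists_isPModular hp
    rw [← hx1, ← hy1, isConj_pReg_iff_val hM]
    intro χ
    obtain ⟨γ, hγ⟩ := h χ
    refine val_sub_lt_one_of_pow hM (Block.val_le_one_of_isIntegral (χ.2.isCharacter.isIntegral x))
      (Block.val_le_one_of_isIntegral (χ.2.isCharacter.isIntegral y))
      (k := (Nat.card G).factorization p) ?_
    rw [hγ]
    exact Block.val_mul_lt_one_left (Block.val_prime_lt_one hM) (Block.val_algInt_le_one γ)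

end Cfsg.Agent.S4604
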