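import Mathlib
import Cfsg.Statements.S4607
import Cfsg.Agent.Block.RankLift
import Cfsg.Agent.Block.GDN
import Cfsg.Agent.Block.Contrib
import Cfsg.Agent.Block.Height

set_option autoImplicit false
open Cfsg

namespace Cfsg.Agent.S4607

open Cfsg.Agent.Block Cfsg.Agent.Char




/-- Let G be a finite group, p a prime, M a maximal ideal of the algebraic integers containing p, and B a p-block of G with defect group D. Then B contains exactly two irreducible characters if and only if D has order 2. -/
theorem result {G : Type*} [Group G] [Finite G] (p : ℕ) [Fact p.Prime] (M : Ideal Cfsg.AlgInt) (hM : Cfsg.IsPModular p M) (B : Set (Cfsg.IrrCharacter G)) (hB : Cfsg.IsPBlock M B) (D : Subgroup G) (hD : Cfsg.IsDefectGroup p M B D) : Nat.card B = 2 ↔ Nat.card D = 2 := by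
  have := Fintype.ofFinite G
  rw [card_defectGroup hM hB hD]
  constructor
  · intro hk
    have hd : blockDefect p B ≠ 0 := fun h => by
      have := card_eq_one_of_defect_zero hM hB h
      omega
    have h1 := blockRank_lt_card hM hB hd
    have h2 := blockRank_pos hM hB
    obtain ⟨i, hi, hc, -⟩ := exists_proj_of_rank_one hM hB (by omega)
    have h3 := cartan_le_two (eSet_mem_intAlg hM hB) hi hk.le
    have h4 := Nat.one_lt_pow hd (Fact.out : p.Prime).one_lt
    omega
  · intro h
    have hd : blockDefect p B ≠ 0 := fun e => by simp [e] at h
    have h1 := blockRank_lt_card hM hB hd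
    have h2 := blockRank_pos hM hB
    have h3 := four_mul_card_le hM hB
    rw [mul_comm 2, pow_mul, h] at h3
    omega

end Cfsg.Agent.S4607
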