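import Cfsg.Statements.S4610
import Cfsg.Agent.Eta.Cent
import Cfsg.Agent.Grp.CoprimeIndex
import Cfsg.Agent.Grp.Cores
import Cfsg.Agent.Char.BrauerPerm
import Cfsg.Agent.Transfer.Control

set_option autoImplicit false
open Cfsg

namespace Cfsg.Agent.S4610

open Cfsg.Agent.Char Cfsg.Agent.Block Subgroup

/-- Let G be a finite group and p a prime dividing its order; fix for every prime r a maximal ideal M r of the algebraic integers containing r. Then, for every prime q ≠ p dividing the order of G, the principal p-block and the principal q-block of G have only the principal character in common, if and only if a Sylow p-subgroup P of G is normal and G is generated by P and its largest normal subgroup of order prime to p (that is, G is the direct product of P and that subgroup). -/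
theorem result {G : Type*} [Group G] [Finite G] (p : ℕ) [Fact p.Prime] (hp : p ∣ Nat.card G) (M : ℕ → Ideal Cfsg.AlgInt) (hM : ∀ r : ℕ, r.Prime → Cfsg.IsPModular r (M r)) (P : Sylow p G) :
    (∀ q : ℕ, q.Prime → q ≠ p → q ∣ Nat.card G →
        ∀ χ : Cfsg.IrrCharacter G, χ ∈ Cfsg.principalBlock (M p) G → χ ∈ Cfsg.principalBlock (M q) G → (χ : G → ℂ) = fun _ => 1) ↔
      ((P : Subgroup G).Normal ∧ (P : Subgroup G) ⊔ Cfsg.pPrimeCore p G = ⊤) := by
  have := Fintype.ofFinite G
  have hpp : p.Prime := Fact.out
  constructor
  · intro h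
    have key : ∀ x ∈ (P : Subgroup G), ∀ g : G, ∃ v ∈ (P : Subgroup G),
        v * x * v⁻¹ = g * x * g⁻¹ := by
      intro x hx g
      have hc : (P : Subgroup G).index.Coprime (centralizer ({x} : Set G)).index := by
        refine Nat.coprime_of_dvd fun r hr h1 h2 => ?_
        have := Fact.mk hr
        have hrp : r ≠ p := by
          rintro rfl
          exact P.not_dvd_index h1
        obtain ⟨Q⟩ : Nonempty (Sylow r G) := inferInstance
        obtain ⟨v, hv, hv'⟩ := Eta.cent (hM p hpp) (hM r hr) (fun χ a b _ => Subtype.ext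
          (h r hr hrp (h1.trans (index_dvd_card _)) χ a b)) Q.2 x
        rw [pPart_eq_self_iff.2 (orderOf_eq_pow_of_mem P.2 hx)] at hv'
        have h3 : (centralizer ({x} : Set G)).index = (centralizer ({v} : Set G)).index := by
          have e1 := (centralizer ({x} : Set G)).card_mul_index
          rw [Char.card_centralizer_eq_of_isConj hv', ← (centralizer ({v} : Set G)).card_mul_index]
            at e1
          exact Nat.eq_of_mul_eq_mul_left Nat.card_pos e1
        rw [h3] at h2
        exact Q.not_dvd_index (h2.trans (index_dvd_of_le fun y hy =>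
          mem_centralizer_singleton_iff.2 (hv y hy)))
      obtain ⟨a, ha, c, hc', rfl⟩ := Grp.exists_mul_of_coprime_index hc g
      refine ⟨a, ha, ?_⟩
      rw [mul_assoc a c, mem_centralizer_singleton_iff.1 hc']
      group
    refine ⟨⟨fun x hx g => ?_⟩, ?_⟩
    · obtain ⟨v, hv, e⟩ := key x hx g
      exact e ▸ mul_mem (mul_mem hv hx) (inv_mem hv)
    · obtain ⟨N, hN, hC⟩ := (Transfer.hasNormalPComplement_iff_sylow P).1
        (Transfer.hasNormalPComplement_of_no_fusion P fun x hx g _ => key x hx g)
      have h1 : N ≤ pPrimeCore p G := Grp.le_pPrimeCore hN (by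
        rw [Nat.coprime_comm, hpp.coprime_iff_not_dvd, ← hC.index_eq_card]
        exact P.not_dvd_index)
      rw [eq_top_iff, ← hC.sup_eq_top, sup_comm]
      exact sup_le_sup_left h1 _
  · rintro ⟨h1, h2⟩ q hq hqp - χ a b
    refine eq_one_of_charKer_eq_top χ.2 (eq_top_iff.2 (h2 ▸ sup_le ?_ ?_))
    · have := Fact.mk hq
      refine mem_charKer_of_mem_principal (hM q hq) b _ fun e => hqp ?_
      rw [P.card_eq_multiplicity] at e
      exact (Nat.prime_dvd_prime_iff_eq hq hpp).1 (hq.dvd_of_dvd_pow e)
    · exact mem_charKer_of_mem_principal (hM p hpp) a _ (Grp.not_dvd_card_pPrimeCore p G)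

end Cfsg.Agent.S4610
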