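import Cfsg.Statements.S4611
import Cfsg.Agent.Block.Dominate
import Cfsg.Agent.Block.Principal
import Cfsg.Agent.Char.Burnside
import Cfsg.Agent.Grp.Fitting
import Cfsg.Agent.S4487

set_option autoImplicit false
open Cfsg

namespace Cfsg.Agent.S4611

open Cfsg.Agent.Char Cfsg.Agent.Block

theorem mem_principalBlock_iff {G : Type*} [Group G] [Finite G] [Group.IsSolvable G] {p : ℕ}
    (hp : p.Prime) {M : Ideal AlgInt} (hM : IsPModular p M) (χ : IrrCharacter G) :
    χ ∈ principalBlock M G ↔ pPrimeCore p G ≤ charKer (χ : G → ℂ) := by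
  have := Fact.mk hp
  have hd : ¬ p ∣ Nat.card (pPrimeCore p G) :=
    hp.coprime_iff_not_dvd.1 (Grp.pPrimeCore_coprime p G).symm
  refine ⟨fun h n hn => (mem_charKer_irr χ).2 (apply_eq_of_mem_principalBlock hM hd h n hn),
    fun h => ?_⟩
  obtain ⟨ψ, rfl⟩ := (mem_range_inflateIrr (QuotientGroup.mk' (pPrimeCore p G))
    (QuotientGroup.mk'_surjective _) χ).2 fun n hn =>
      (mem_charKer_irr χ).1 (h (by rwa [QuotientGroup.ker_mk'] at hn))
  have h0 := Grp.pPrimeCore_quotient_pPrimeCore p G
  exact inflateIrr_mem_principalBlock hM _ _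
    (S4487.result p M hM h0 (Grp.centralizer_pCore_le h0) (irrOne _) ψ)

/-- Let G be a finite solvable group and π a nonempty set of primes, each dividing the order of G; fix for each p in π a maximal ideal M p of the algebraic integers containing p. Then the only irreducible character lying in the principal p-block for every p in π is the principal character if and only if G is generated by the subgroups O_{p'}(G), p in π (the largest normal subgroups of order prime to p). -/
theorem result {G : Type*} [Group G] [Finite G] [Group.IsSolvable G] (π : Set ℕ) (hπ : ∀ p ∈ π, p.Prime ∧ p ∣ Nat.card G) (hne : π.Nonempty) (M : ℕ → Ideal Cfsg.AlgInt) (hM : ∀ p ∈ π, Cfsg.IsPModular p (M p)) :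
    (∀ χ : Cfsg.IrrCharacter G, (∀ p ∈ π, χ ∈ Cfsg.principalBlock (M p) G) → (χ : G → ℂ) = fun _ => 1) ↔
      ⨆ p ∈ π, Cfsg.pPrimeCore p G = ⊤ := by
  have hn : (⨆ p ∈ π, pPrimeCore p G).Normal :=
    Subgroup.biSup_normal π _ fun _ _ => inferInstance
  constructor
  · intro h
    by_contra hN
    obtain ⟨g, -, hg⟩ := SetLike.exists_of_lt (lt_top_iff_ne_top.2 hN)
    obtain ⟨ψ, -, hψ, h1, -⟩ := exists_irr_ne_one_not_dvd_ne_zero
      (QuotientGroup.mk' (⨆ p ∈ π, pPrimeCore p G) g) (mt (QuotientGroup.eq_one_iff g).1 hg)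
      Nat.prime_two
    have := h (inflateIrr _ (QuotientGroup.mk'_surjective _) ⟨ψ, hψ⟩) fun p hp =>
      (mem_principalBlock_iff (hπ p hp).1 (hM p hp) _).2 fun n hn => (mem_charKer_irr _).2
        ((mem_range_inflateIrr _ _ _).1 ⟨_, rfl⟩ n (by
          rw [QuotientGroup.ker_mk']
          exact (le_iSup₂ (f := fun p (_ : p ∈ π) => pPrimeCore p G) p hp) hn))
    apply h1
    funext q
    obtain ⟨x, rfl⟩ := QuotientGroup.mk'_surjective _ q
    exact congrFun this x
  · intro h χ hχ
    refine eq_one_of_charKer_eq_top χ.2 (top_le_iff.1 ?_)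
    rw [← h]
    exact iSup₂_le fun p hp => (mem_principalBlock_iff (hπ p hp).1 (hM p hp) χ).1 (hχ p hp)

end Cfsg.Agent.S4611
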