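import Mathlib
import Cfsg.Statements.S4613
import Cfsg.Agent.UL.Family

set_option autoImplicit false
open Cfsg

namespace Cfsg.Agent.S4613
open Cfsg.Agent.UL

/-- Let G be a finite simple group of Lie type in characteristic p and α an automorphism of G of order prime to p that fixes some Sylow p-subgroup of G elementwise. Then α is the identity. -/
theorem result {G : Type*} [Group G] [Finite G] [IsSimpleGroup G] (p : ℕ) [Fact p.Prime] (hG : Cfsg.IsLieTypeChar p G) (α : MulAut G) (hα : ¬ p ∣ orderOf α) (U : Sylow p G) (hfix : ∀ x ∈ (U : Subgroup G), α x = x) : α = 1 := by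
  obtain ⟨ι, W, _, _, ⟨T⟩⟩ := hasSplit_of_lie hG
  obtain ⟨g, hg⟩ := exists_sylow_eq T.toSplit0 U
  have h := aut_eq_one T.toSplit0 (core_of_simple T) ((MulAut.conj g)⁻¹ * α * MulAut.conj g) (by
    have : SemiconjBy (MulAut.conj g) ((MulAut.conj g)⁻¹ * α * MulAut.conj g) α := by
      unfold SemiconjBy; group
    rwa [this.orderOf_eq]) fun u hu => by
    have h1 := hfix (g * u * g⁻¹) ((hg _).2 (by simpa [mul_assoc] using hu))
    simp only [MulAut.mul_apply, MulAut.conj_apply, MulAut.conj_inv_apply, h1]
    group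
  calc α = MulAut.conj g * ((MulAut.conj g)⁻¹ * α * MulAut.conj g) * (MulAut.conj g)⁻¹ := by group
    _ = 1 := by rw [h]; group

end Cfsg.Agent.S4613
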