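import Cfsg.Statements.S4620
import Cfsg.Agent.Grp.Cores

set_option autoImplicit false
open scoped Pointwise
open Cfsg

namespace Cfsg.Agent.S4620

open Subgroup
open scoped Pointwise

def TI {H : Type*} [Group H] (P : Subgroup H) : Prop :=
  ∀ g : H, ∀ x ∈ P, x ≠ 1 → g * x * g⁻¹ ∈ P → g ∈ normalizer (P : Set H)

theorem ti_iff {H : Type*} [Group H] (P : Subgroup H) : TI P ↔
    ∀ g : H, g ∉ normalizer (P : Set H) → P ⊓ (MulAut.conj g • P) = ⊥ := by
  constructor
  · intro h g hg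
    rw [eq_bot_iff]
    rintro _ ⟨h1, x, hx, rfl⟩
    by_contra h2
    exact hg (h g x hx (by rintro rfl; simp at h2) h1)
  · intro h g x hx h1 h2
    by_contra h3
    have : g * x * g⁻¹ ∈ P ⊓ (MulAut.conj g • P) := ⟨h2, x, hx, rfl⟩
    rw [h g h3, mem_bot] at this
    exact h1 (by simpa using this)

variable {H : Type*} [Group H] [Finite H] {p : ℕ} [hp : Fact p.Prime]

theorem exists_ord (hOp' : pPrimeCore p H = ⊥) (K : Subgroup H) (hK : K.Normal) (h : K ≠ ⊥) :
    ∃ x ∈ K, x ≠ 1 ∧ IsPGroup p (zpowers x) := by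
  have h1 : p ∣ Nat.card K := by
    by_contra h2
    exact h (Grp.pPrimeCore_eq_bot_iff.1 hOp' K hK
      (hp.out.coprime_iff_not_dvd.2 h2).symm)
  obtain ⟨x, hx⟩ := exists_prime_orderOf_dvd_card' p h1
  rw [← orderOf_coe] at hx
  refine ⟨x, x.2, fun h => ?_, IsPGroup.of_card (n := 1) (by rw [Nat.card_zpowers, hx, pow_one])⟩
  rw [h, orderOf_one] at hx
  exact hp.out.one_lt.ne hx

theorem cent (hOp : pCore p H = ⊥) (hOp' : pPrimeCore p H = ⊥)
    (hTI : ∀ P : Sylow p H, TI (P : Subgroup H)) (K : Subgroup H) [hK : K.Normal] (h : K ≠ ⊥) :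
    centralizer (K : Set H) = ⊥ := by
  obtain ⟨x, hx, hx1, hxp⟩ := exists_ord hOp' K hK h
  obtain ⟨P, hP⟩ := hxp.exists_le_sylow
  have hxP := hP (mem_zpowers x)
  have h1 : centralizer (K : Set H) ≤ normalizer ((P : Subgroup H) : Set H) := fun g hg =>
    hTI P g x hxP hx1 (by rwa [← hg x hx, mul_inv_cancel_right])
  by_contra h2
  obtain ⟨y, hy, hy1, hyp⟩ := exists_ord hOp' _ inferInstance h2
  have h3 : y ∈ (P : Subgroup H) := by
    have : y ∈ zpowers y ⊓ normalizer ((P : Subgroup H) : Set H) := ⟨mem_zpowers y, h1 hy⟩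
    exact ((hyp.inf_normalizer_sylow P).le this).2
  have h4 := Grp.le_pCore (normal_subgroupOf_of_le_normalizer h1)
    (P.isPGroup'.comap_of_injective _ (subtype_injective _))
  rw [Grp.pCore_eq_subgroupOf_of_normal, hOp] at h4
  exact hy1 (h4 (show (⟨y, hy⟩ : centralizer (K : Set H)) ∈ _ from h3))

theorem minN [Nontrivial H] (hOp : pCore p H = ⊥) (hOp' : pPrimeCore p H = ⊥)
    (hTI : ∀ P : Sylow p H, TI (P : Subgroup H)) :
    ∃ N : Subgroup H, N.Normal ∧ N ≠ ⊥ ∧ ∀ K : Subgroup H, K.Normal → K ≠ ⊥ → N ≤ K := by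
  obtain ⟨N, ⟨hN, h0⟩, hmin⟩ := exists_minimal_of_wellFoundedLT
    (fun N : Subgroup H => N.Normal ∧ N ≠ ⊥) ⟨⊤, inferInstance, top_ne_bot⟩
  refine ⟨N, hN, h0, fun K hK h1 => ?_⟩
  refine (hmin (y := N ⊓ K) ⟨inferInstance, fun h2 => h1 ?_⟩ inf_le_left).trans inf_le_right
  rw [eq_bot_iff, ← cent hOp hOp' hTI N h0]
  exact Grp.le_centralizer_of_normal_of_inf_eq_bot K N (by rwa [inf_comm])


/-- Let H be a finite group with no nontrivial normal p-subgroup and no nontrivial normal subgroup of order prime to p, whose Sylow p-subgroup P is nontrivial and a trivial-intersection set (P meets its conjugates by elements outside N_H(P) trivially). Then H has a unique minimal normal subgroup N; N is non-abelian simple with trivial centralizer in H (so H embeds in Aut(N)), and a Sylow p-subgroup of N is again a nontrivial trivial-intersection set in N. -/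
theorem result {H : Type*} [Group H] [Finite H] (p : ℕ) [Fact p.Prime] (hOp : Cfsg.pCore p H = ⊥) (hOp' : Cfsg.pPrimeCore p H = ⊥) (P : Sylow p H) (hP1 : (P : Subgroup H) ≠ ⊥)
    (hTI : ∀ g : H, g ∉ Subgroup.normalizer ((P : Subgroup H) : Set H) → (P : Subgroup H) ⊓ (MulAut.conj g • (P : Subgroup H)) = ⊥) :
    ∃ N : Subgroup H, N.Normal ∧ N ≠ ⊥ ∧ (∀ K : Subgroup H, K.Normal → K ≠ ⊥ → N ≤ K) ∧
      IsSimpleGroup N ∧ ¬ IsMulCommutative N ∧ Subgroup.centralizer (N : Set H) = ⊥ ∧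
      ∀ Q : Sylow p N, (Q : Subgroup N) ≠ ⊥ ∧
        ∀ n : N, n ∉ Subgroup.normalizer ((Q : Subgroup N) : Set N) → (Q : Subgroup N) ⊓ (MulAut.conj n • (Q : Subgroup N)) = ⊥ := by
  have hall : ∀ Q : Sylow p H, TI (Q : Subgroup H) := fun Q g x hx h1 h2 => by
    obtain ⟨c, rfl⟩ := MulAction.exists_smul_eq H P Q
    have key : ∀ y, y ∈ ((c • P : Sylow p H) : Subgroup H) ↔ c⁻¹ * y * c ∈ (P : Subgroup H) :=
      fun y => by rw [Sylow.coe_subgroup_smul, mem_pointwise_smul_iff_inv_smul_mem]; simp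
    have := (ti_iff _).2 hTI (c⁻¹ * g * c) _ ((key x).1 hx) (fun h => h1 (by
      rw [show x = c * (c⁻¹ * x * c) * c⁻¹ by group, h]; group)) (by
      have := (key _).1 h2
      convert this using 1; group)
    rw [mem_normalizer_iff] at this ⊢
    intro y
    rw [key, key, this]
    congr! 1; group
  have : Nontrivial H := by
    obtain ⟨x, hx⟩ := ne_bot_iff_exists_ne_one.1 hP1
    exact ⟨x, 1, fun h => hx (Subtype.ext h)⟩
  obtain ⟨N, hN, h0, hmin⟩ := minN hOp hOp' hall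
  have hC := cent hOp hOp' hall N h0
  have h1 : pCore p N = ⊥ := by rw [Grp.pCore_eq_subgroupOf_of_normal, hOp, bot_subgroupOf]
  have h2 : pPrimeCore p N = ⊥ := by
    rw [Grp.pPrimeCore_eq_subgroupOf_of_normal, hOp', bot_subgroupOf]
  have h3 : ∀ Q : Sylow p N, TI (Q : Subgroup N) := fun Q g x hx e1 e2 => by
    obtain ⟨R, hR⟩ := Q.exists_comap_subtype_eq
    rw [← hR] at hx e2 ⊢
    have := hall R g x hx (fun h => e1 (Subtype.ext h)) e2
    rw [mem_normalizer_iff] at this ⊢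
    exact fun y => this y
  have : Nontrivial N := (nontrivial_iff_ne_bot N).2 h0
  refine ⟨N, hN, h0, hmin, ?_, fun h => h0 ?_, hC, fun Q => ⟨fun h => ?_, (ti_iff _).1 (h3 Q)⟩⟩
  · obtain ⟨L, hL, hL0, hLmin⟩ := minN h1 h2 h3
    have : L.Characteristic := characteristic_iff_le_comap.2 fun φ =>
      hLmin _ (hL.comap _) fun h => hL0 (by
        rw [← map_comap_eq_self_of_surjective (f := φ.toMonoidHom) φ.surjective L, h, Subgroup.map_bot])
    have h4 := hmin (L.map N.subtype) inferInstance fun h =>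
      hL0 ((map_eq_bot_iff_of_injective _ N.subtype_injective).1 h)
    refine ⟨fun K hK => ?_⟩
    by_cases h5 : K = ⊥
    · exact Or.inl h5
    · refine Or.inr (eq_top_iff.2 fun x _ => hLmin K hK h5 ?_)
      obtain ⟨y, hy, e⟩ := h4 x.2
      exact Subtype.ext e ▸ hy
  · rw [eq_bot_iff, ← hC]
    exact le_centralizer N
  · obtain ⟨x, -, hx1, hxp⟩ := exists_ord h2 ⊤ inferInstance top_ne_bot
    obtain ⟨R, hR⟩ := hxp.exists_le_sylow
    obtain ⟨c, rfl⟩ := MulAction.exists_smul_eq N Q R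
    have := hR (mem_zpowers x)
    rw [Sylow.coe_subgroup_smul, h] at this
    exact hx1 (by simpa using this)

end Cfsg.Agent.S4620
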