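import Cfsg.Statements.S4627
import Cfsg.Agent.Class.Wr.SL

set_option autoImplicit false
open Cfsg

namespace Cfsg.Agent.S4627

open Cfsg.Agent.Class.Wr

/-- Let F be a finite field of odd order q and m ≥ 1. If 4 divides q + 1, or if 4 divides q − 1 and m is a power of 2, then a Sylow 2-subgroup P of SL_{2m}(F) has P/P' elementary abelian: the square of every element of P lies in the derived subgroup of P. -/
theorem result {F : Type*} [Field F] [Fintype F] (hF : Odd (Fintype.card F)) (m : ℕ) (hm : 1 ≤ m)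
    (hq : 4 ∣ Fintype.card F + 1 ∨ (4 ∣ Fintype.card F - 1 ∧ ∃ j : ℕ, m = 2 ^ j)) (P : Sylow 2 (Matrix.SpecialLinearGroup (Fin (2 * m)) F)) :
    ∀ x : (P : Subgroup (Matrix.SpecialLinearGroup (Fin (2 * m)) F)), x ^ 2 ∈ commutator (P : Subgroup (Matrix.SpecialLinearGroup (Fin (2 * m)) F)) := by
  classical
  have : Nonempty (Fin m) := ⟨⟨0, hm⟩⟩
  have := finite_linEquiv (F := F) (V := Fin m → Fin 2 → F)
  obtain ⟨e⟩ := nonempty_ker_det_equiv_SL (F := F) (V := Fin m → Fin 2 → F) (n := 2 * m)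
    (by simp [Module.finrank_pi_fintype, mul_comm])
  obtain ⟨Q⟩ : Nonempty (Sylow 2 (LinearEquiv.det :
    ((Fin m → Fin 2 → F) ≃ₗ[F] (Fin m → Fin 2 → F)) →* Fˣ).ker) := inferInstance
  obtain ⟨e'⟩ := nonempty_sylow_equiv_of_equiv e Q P
  exact (eag_sylow_ker_det hF (hq.imp id fun h => by simpa using h.2) Q).of_equiv e'

end Cfsg.Agent.S4627
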