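import Cfsg.Statements.S4630
import Cfsg.Agent.Class.Wr.Orth

set_option autoImplicit false
open Cfsg

namespace Cfsg.Agent.S4630

open Cfsg.Agent.Class Cfsg.Agent.Class.Orth Cfsg.Agent.Class.Wr

/-- Let F be a finite field of odd order and m ≥ 1 with m even or m ≥ 4. For the commutator subgroup Ω of the isometry group of the plus-type quadratic form Σ_{i<m} x_i y_i in dimension 2m over F, a Sylow 2-subgroup P of Ω has P/P' elementary abelian: the square of every element of P lies in the derived subgroup of P. -/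
theorem result {F : Type*} [Field F] [Fintype F] (hF : Odd (Fintype.card F)) (m : ℕ) (hm : 1 ≤ m) (hm' : Even m ∨ 4 ≤ m) (P : Sylow 2 (Cfsg.Omega F (Cfsg.quadFormPlus m F))) : ∀ x : (P : Subgroup (Cfsg.Omega F (Cfsg.quadFormPlus m F))), x ^ 2 ∈ commutator (P : Subgroup (Cfsg.Omega F (Cfsg.quadFormPlus m F))) := by
  have := finite_OG (Q := plusQF m F)
  obtain ⟨k, rfl⟩ := Nat.exists_eq_add_of_le' hm
  refine eag_omega_of_equiv (plusEquiv (k + 1) F).symm ?_ P
  rcases hm' with ⟨j, hj⟩ | h
  · refine eag_omega_of_mem hF (nd_plusQF _ F) (m := k) (by omega) (by simp; omega) ?_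
    rw [negOne_mem_commutator_plus_iff (two_ne_zero_of_odd_card hF), hj, pow_add, Nat.mul_mod]
    rcases pow_mod_four_of_odd (Nat.odd_iff.1 hF) j with h | h <;> rw [h]
  · exact eag_omega_even hF (nd_plusQF _ F) (m := k) (by omega) (by simp; omega)

end Cfsg.Agent.S4630
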