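import Cfsg.Statements.S4697
import Cfsg.Agent.Block.KBound
-- import your own Cfsg.Agent.* helpers here

set_option autoImplicit false
open Cfsg

namespace Cfsg.Agent.S4697

open Cfsg.Agent.Block Cfsg.Agent.Char
open scoped ComplexConjugate

/-- Let p be a prime, M a maximal ideal of the algebraic integers containing p, and B a p-block of the finite group G with an abelian defect group D of order p^d. If D has rank 2 (its least number of generators is 2) then B contains at most p^d irreducible characters; if D has rank 3 then the number k of irreducible characters in B satisfies k^3 ≤ p^(5d). -/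
theorem result {G : Type*} [Group G] [Finite G] (p : ℕ) [Fact p.Prime] (M : Ideal Cfsg.AlgInt) (hM : Cfsg.IsPModular p M) (B : Set (Cfsg.IrrCharacter G)) (hB : Cfsg.IsPBlock M B) (D : Subgroup G) (hBD : Cfsg.IsDefectGroup p M B D) (hab : IsMulCommutative D) (d : ℕ) (hDd : Nat.card D = p ^ d) : (Group.rank D = 2 → Nat.card B ≤ p ^ d) ∧ (Group.rank D = 3 → Nat.card B ^ 3 ≤ p ^ (5 * d)) := by
  classical
  obtain ⟨S, h1, h2⟩ := Group.rank_spec D
  have hc : ∀ a b : D, a * b = b * a := hab.is_comm.comm
  refine ⟨fun h => ?_, fun h => ?_⟩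
  · obtain ⟨x, y, -, rfl⟩ := Finset.card_eq_two.1 (h1.trans h)
    rw [Finset.coe_pair, Set.insert_eq, Subgroup.closure_union, ← Subgroup.zpowers_eq_closure,
      ← Subgroup.zpowers_eq_closure] at h2
    exact hDd ▸ (card_le_of_two_gen hM hB hBD (Subgroup.mem_center_iff.2 fun g => hc g x) h2).1
  · obtain ⟨x, y, z, -, -, -, rfl⟩ := Finset.card_eq_three.1 (h1.trans h)
    rw [Finset.coe_insert, Finset.coe_pair, Set.insert_eq, Set.insert_eq, Subgroup.closure_union,
      Subgroup.closure_union, ← Subgroup.zpowers_eq_closure, ← Subgroup.zpowers_eq_closure,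
      ← Subgroup.zpowers_eq_closure] at h2
    rw [mul_comm, pow_mul, ← hDd]
    by_cases h3 : orderOf y ≤ orderOf x ∧ orderOf z ≤ orderOf x
    · exact card_cube_le_of_three_gen hM hB hBD hc h2 h3.1 h3.2
    by_cases h4 : orderOf z ≤ orderOf y
    · exact card_cube_le_of_three_gen hM hB hBD hc (z := y) (x := x) (y := z)
        (by rw [← h2, sup_left_comm]) (by omega) h4
    · exact card_cube_le_of_three_gen hM hB hBD hc (z := z) (x := x) (y := y)
        (by rw [← h2, sup_left_comm, sup_comm (Subgroup.zpowers z)]) (by omega) (by omega)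

end Cfsg.Agent.S4697
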