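import Cfsg.Statements.S4702
import Mathlib
import Cfsg.Agent.Perm.ZassEven

set_option autoImplicit false
open Cfsg

namespace Cfsg.Agent.S4702



/-- Let G be a triply transitive permutation group on a finite set of odd size m ≥ 3 in which only the identity fixes three or more points. Then m = 2^a + 1 for some a ≥ 1 and G is isomorphic to SL(2, 2^a). -/
theorem result {α : Type*} [Fintype α] [DecidableEq α] (hm : 3 ≤ Fintype.card α) (hodd : Odd (Fintype.card α)) (G : Subgroup (Equiv.Perm α)) (h3 : MulAction.IsMultiplyPretransitive G α 3) (hfix : ∀ g : G, 3 ≤ Nat.card (MulAction.fixedBy α g) → g = 1) : ∃ a : ℕ, 1 ≤ a ∧ Fintype.card α = 2 ^ a + 1 ∧ ∃ (F : Type) (_ : Field F) (_ : Fintype F), Fintype.card F = 2 ^ a ∧ Nonempty (G ≃* Matrix.SpecialLinearGroup (Fin 2) F) := by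
  have hsharp : ∀ x : Fin 3 ↪ α, MulAction.stabilizer G x = ⊥ := by
    refine Perm.sharp_three_iff.mpr fun g a b c hab hac hbc ha hb hc => hfix g ?_
    have h1 : ({a, b, c} : Set α) ⊆ MulAction.fixedBy α g := by
      rintro x (rfl | rfl | rfl) <;> assumption
    have h2 := Set.ncard_le_ncard h1
    rw [Set.ncard_eq_three.mpr ⟨a, b, c, hab, hac, hbc, rfl⟩] at h2
    exact h2
  rw [← Nat.card_eq_fintype_card] at hm hodd ⊢
  have key : ∃ (F : Type) (_ : Field F) (_ : Fintype F), Nat.card α = Nat.card F + 1 ∧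
      Nonempty (G ≃* Matrix.ProjGenLinGroup (Fin 2) F) := by
    rcases hm.eq_or_lt with h | h
    · have hG := Perm.card_eq_descFactorial_of_sharp h3 hsharp hm
      refine ⟨ZMod 2, inferInstance, inferInstance, by rw [← h, Nat.card_zmod],
        Perm.ZassPSL.pgl_of_card_perm G (ZMod 2) (by rw [← h, Nat.card_zmod]) ?_ ?_⟩
      · rw [hG, ← h]; decide
      · rw [← h, Nat.card_zmod]; decide
    · have hZ := Perm.ZassPSL.isZassenhaus_of_sharp_odd inferInstance hodd h h3 hsharp
      obtain ⟨a, b, hab⟩ := Perm.Zass.exists_pair hZ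
      exact Perm.ZassPSL.pgl_of_sharp_odd hZ hodd hab
        (Perm.ZassPSL.card_two_of_sharp hZ h3 hsharp hab)
  obtain ⟨F, _, _, h1, ⟨e⟩⟩ := key
  have hev : Even (Nat.card F) := by
    obtain ⟨k, hk⟩ := hodd
    exact ⟨k, by omega⟩
  obtain ⟨p, hp⟩ := CharP.exists F
  obtain ⟨n, hp', hn⟩ := FiniteField.card F p
  obtain rfl : p = 2 := by
    rw [Nat.card_eq_fintype_card, hn] at hev
    exact (hp'.even_iff).mp (Nat.even_pow.mp hev).1
  refine ⟨n, n.pos, by rw [h1, Nat.card_eq_fintype_card, hn], F, inferInstance, inferInstance, hn,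
    ⟨e.trans ((Perm.ZassPSL.slEquivPsl hev).trans (Perm.ZassPSL.pslEquivPgl hev)).symm⟩⟩

end Cfsg.Agent.S4702
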