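import Cfsg.Statements.S4706
import Cfsg.Agent.Char.SelfCentTwo
import Cfsg.Agent.Char.PermRank
import Cfsg.Agent.S0676
import Cfsg.Agent.S4702

set_option autoImplicit false
open Cfsg

namespace Cfsg.Agent.S4706

open Subgroup MulAction Cfsg.Agent.Grp Cfsg.Agent.Grp.SelfCent Cfsg.Agent.Char Cfsg.Agent.Char.SelfC Cfsg.Agent.Small

theorem trans_of_dvd {α : Type*} [Fintype α] [DecidableEq α] {p : ℕ} [hp : Fact p.Prime]
    (hα : Fintype.card α = p) (G : Subgroup (Equiv.Perm α)) (h : p ∣ Nat.card G) :
    IsPretransitive G α := by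
  obtain ⟨x, hx⟩ := exists_prime_orderOf_dvd_card' p h
  have h1 : orderOf (x : Equiv.Perm α) = p := by rw [orderOf_coe, hx]
  have h2 := Equiv.Perm.isCycle_of_prime_order'' (hα ▸ hp.out) (h1.trans hα.symm)
  have h3 : (x : Equiv.Perm α).support = Finset.univ :=
    Finset.eq_univ_of_card _ (by rw [← h2.orderOf, h1, hα])
  refine ⟨fun a b => ?_⟩
  obtain ⟨i, hi⟩ := h2.exists_zpow_eq (x := a) (y := b)
    (Equiv.Perm.mem_support.1 (h3 ▸ Finset.mem_univ a))
    (Equiv.Perm.mem_support.1 (h3 ▸ Finset.mem_univ b))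
  exact ⟨x ^ i, hi⟩

theorem normal_of_affine {G Ω : Type*} [Group G] [MulAction G Ω] [FaithfulSMul G Ω] {p : ℕ}
    [hp : Fact p.Prime] {c : G} {e : ZMod p ≃ Ω} (hc : ∀ i, c • e i = e (i + 1))
    (h : ∀ g : G, ∃ a b : ZMod p, ∀ i, g • e i = e (a * i + b)) : (zpowers c).Normal := by
  have key : ∀ g : G, g * c * g⁻¹ ∈ zpowers c := fun g => by
    obtain ⟨a, b, hab⟩ := h g
    rw [Perm.eq_pow_of_translation (g := g * c * g⁻¹) hc (b := a) fun i => by
      obtain ⟨j, hj⟩ := e.surjective (g⁻¹ • e i)
      have h1 : e i = e (a * j + b) := by rw [← hab, hj, smul_inv_smul]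
      rw [mul_smul, mul_smul, ← hj, hc, hab, e.injective h1]
      congr 1; ring]
    exact npow_mem_zpowers _ _
  refine ⟨?_⟩
  rintro _ ⟨k, rfl⟩ g
  rw [← conj_zpow]
  exact zpow_mem (key g) k

/-- Let p > 2 be a prime and G a permutation group on p letters whose Sylow p-subgroup P has normalizer of order 2p. Then either P is normal in G, or p − 1 = 2^a for some a and G is isomorphic to SL(2, 2^a). -/
theorem result {α : Type*} [Fintype α] [DecidableEq α] {p : ℕ} [Fact p.Prime] (hp : 2 < p) (hα : Fintype.card α = p) (G : Subgroup (Equiv.Perm α)) (P : Sylow p G) (hN : Nat.card (Subgroup.normalizer ((P : Subgroup G) : Set G)) = 2 * p) : (P : Subgroup G).Normal ∨ ∃ (a : ℕ) (F : Type) (_ : Field F) (_ : Fintype F), p = 2 ^ a + 1 ∧ Fintype.card F = 2 ^ a ∧ Nonempty (G ≃* Matrix.SpecialLinearGroup (Fin 2) F) := by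
  classical
  by_cases hpG : p ∣ Nat.card G
  swap
  · left
    have : (P : Subgroup G) = ⊥ := by
      obtain ⟨k, hk⟩ := P.isPGroup'.exists_card_eq
      rcases k with _ | k
      · exact card_eq_one.1 hk
      · exact absurd ((dvd_pow_self p k.succ_ne_zero).trans (hk ▸ card_subgroup_dvd_card _)) hpG
    rw [this]; infer_instance
  haveI := trans_of_dvd hα G hpG
  have hΩ : Nat.card α = p := by rw [Nat.card_eq_fintype_card, hα]
  obtain ⟨x, e, hP, hx, hc⟩ := Perm.exists_coord_of_prime_degree hΩ P
  by_cases hG : ∀ g : G, ∃ a b : ZMod p, ∀ i, g • e i = e (a * i + b)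
  · exact Or.inl (hP ▸ normal_of_affine hc hG)
  right
  have h5 := S0675.five_le_of_not_affine hG
  have h2 := S0675.two_trans_of_not_affine hc hG
  rw [hP] at hN
  obtain ⟨t, ht⟩ := exists_prime_orderOf_dvd_card' (G := normalizer ((zpowers x : Subgroup G) : Set G))
    2 (hN ▸ dvd_mul_right 2 p)
  obtain ⟨b, hb⟩ := Perm.reflection_of_orderOf_eq_two (by omega) hc (by rw [orderOf_coe, ht]) t.2
  have h3 := S0676.three_trans_of_not_affine hc hG (by rw [orderOf_coe, ht]) hb
  have hC : centralizer ({x} : Set G) = zpowers x := by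
    rw [← Perm.centralizer_eq_of_coord hc, zpowers_eq_closure, centralizer_closure]
  have he : (zpowers x).relIndex (normalizer ((zpowers x : Subgroup G) : Set G)) = 2 := by
    rw [card_normalizer hx, mul_comm] at hN
    exact Nat.eq_of_mul_eq_mul_right (by omega) hN
  have hw := Complex.isPrimitiveRoot_exp p (by omega)
  set w := Complex.exp (2 * Real.pi * Complex.I / p)
  obtain ⟨χ, θ, hχ, hθ, hχ1, hθ1, hint, ε, hε, hv, hr⟩ := exists_pair hx hC he h5 hw
  haveI : Nontrivial α := Fintype.one_lt_card_iff_nontrivial.1 (by omega)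
  have hπ := (isIrr_permChar_sub_one_iff (G := G) α).2 h2
  have hπ0 : ∀ j ∈ Finset.Ico 1 p, permChar G α (x ^ j) = 0 := fun j hj => by
    rw [permChar_apply, Nat.cast_eq_zero, Nat.card_eq_zero]
    refine Or.inl ⟨fun ⟨a, ha⟩ => ?_⟩
    obtain ⟨i, rfl⟩ := e.surjective a
    rw [mem_fixedBy, Perm.pow_smul_coord hc, e.apply_eq_iff_eq, add_eq_left,
      ZMod.natCast_eq_zero_iff] at ha
    rw [Finset.mem_Ico] at hj
    exact not_dvd_of_lt (by omega) hj.2 ha
  have h4 := inner_pair hx hC he hχ.isClassFunction hθ.isClassFunction hr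
    (isCharacter_permChar α).isClassFunction hπ0
  have h6 : ∀ ψ, IsIrrCharacter G ψ → ψ ≠ (fun _ => 1) → classInner (permChar G α) ψ =
      if (permChar G α - fun _ => 1) = ψ then 1 else 0 := fun ψ hψ h1 => by
    rw [← hπ.inner_eq_ite hψ, classInner_sub_left, isIrrCharacter_one.inner_eq_zero hψ h1.symm,
      sub_zero]
  rw [h6 θ hθ hθ1, h6 χ hχ hχ1, classInner_permChar_one_of_isPretransitive] at h4
  obtain ⟨rfl, h7⟩ : ε = -1 ∧ (permChar G α - fun _ => 1) = χ := by
    rcases hε with rfl | rfl
    · exfalso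
      have h7 : (permChar G α - fun _ => 1) = θ := by
        by_contra h
        rw [if_neg h] at h4
        split_ifs at h4 <;> norm_num at h4
      have h8 := sum_tw_one hw (by omega)
      rw [Finset.sum_congr rfl fun j hj => show tw w j = -1 by
        have := (hv j hj).2
        rw [← h7] at this
        simpa [hπ0 j hj] using this.symm, sum_const_Ico (by omega)] at h8
      have h9 : ((3 : ℕ) : ℂ) = p := by push_cast; linear_combination h8
      have := Nat.cast_injective h9
      omega
    · refine ⟨rfl, ?_⟩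
      by_contra h
      rw [if_neg h] at h4
      split_ifs at h4 <;> norm_num at h4
  have hval : ∀ g : G, ¬ p ∣ orderOf g → θ g = Nat.card (fixedBy α g) - 2 := fun g hg => by
    rw [hr g hg, ← h7, Pi.sub_apply, permChar_apply]; push_cast; ring
  have hone : θ 1 = p - 2 := by
    rw [hr 1 (by simp; omega), ← h7, Pi.sub_apply, permChar_one, hΩ]; push_cast; ring
  have T : Theta p x θ w := ⟨hx, hC, he, h5, hθ, hw, hone,
    fun g hg => ⟨Nat.card (fixedBy α g) - 2, by rw [hval g hg]; push_cast; rfl⟩,
    fun j hj => by simpa using (hv j hj).2⟩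
  obtain ⟨a, -, ha, F, _, _, hF, hiso⟩ := S4702.result (by omega)
    (hα ▸ (Fact.out : p.Prime).odd_of_ne_two (by omega)) G h3 fun g hg => by
      by_cases hpg : p ∣ orderOf g
      · have := apply_eq_of_dvd hx hC (isCharacter_permChar α).isClassFunction (c := 0)
          (fun z hz h1 => by
            obtain ⟨j, hj, rfl⟩ := exists_pow_of_mem hx hz h1
            exact hπ0 j hj) hpg
        rw [permChar_apply, Nat.cast_eq_zero] at this
        omega
      · rcases T.values hpg with h | h | h <;> rw [hval g hpg] at h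
        · have h8 : Nat.card (fixedBy α g) = Nat.card α := by
            rw [hΩ]; exact_mod_cast sub_left_injective h
          have h9 : fixedBy α g = Set.univ := by
            rw [Set.eq_univ_iff_ncard, ← Nat.card_coe_set_eq]
            exact h8
          exact FaithfulSMul.eq_of_smul_eq_smul (α := α) fun a => by
            rw [one_smul]; exact (Set.eq_univ_iff_forall.1 h9 a)
        · have h8 : (Nat.card (fixedBy α g) : ℂ) = (2 : ℕ) := by push_cast; linear_combination h
          have := Nat.cast_injective h8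
          omega
        · have h8 : (Nat.card (fixedBy α g) : ℂ) = (1 : ℕ) := by push_cast; linear_combination h
          have := Nat.cast_injective h8
          omega
  exact ⟨a, F, _, _, hα ▸ ha, hF, hiso⟩

end Cfsg.Agent.S4706
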