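import Cfsg.Statements.S4713
import Cfsg.Agent.Char.Degrees

set_option autoImplicit false
open Cfsg

namespace Cfsg.Agent.S4713

open Cfsg.Agent.Char

/-- Let p be a prime and G a finite p-solvable group. Then G has a normal abelian Sylow p-subgroup if and only if the degree of every irreducible character of G is prime to p. -/
theorem result {G : Type*} [Group G] [Finite G] (p : ℕ) [Fact p.Prime] (hsolv : Cfsg.IsPSolvable p G) (P : Sylow p G) : ((P : Subgroup G).Normal ∧ IsMulCommutative P) ↔ ∀ χ : Cfsg.IrrCharacter G, ¬ p ∣ Cfsg.charDegree (χ : G → ℂ) := by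
  constructor
  · rintro ⟨hP, hc⟩ χ hd
    exact P.not_dvd_index (hd.trans (χ.2.deg_dvd_index_of_comm (coe_charDegree_irr χ).symm P
      fun a ha b hb => congrArg Subtype.val (hc.1.1 ⟨a, ha⟩ ⟨b, hb⟩)))
  · intro h
    have h1 : pCore p G = P := by
      have h2 := not_dvd_index_pCore_of_isPSolvable G hsolv h
      obtain ⟨Q, hQ, hQ'⟩ := FGS.exists_sylow_le_of_not_dvd_index h2 (Grp.pCore_isPGroup p G) le_rfl
      have h4 : (Q : Subgroup G) = pCore p G := le_antisymm hQ' hQ
      exact (Q.is_maximal' P.isPGroup' (h4 ▸ Grp.pCore_le_sylow P)).symm ▸ h4.symm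
    refine ⟨h1 ▸ inferInstance, ⟨⟨fun a b => Subtype.ext ?_⟩⟩⟩
    exact comm_pCore_of_not_dvd h a (h1.ge a.2) b (h1.ge b.2)

end Cfsg.Agent.S4713
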