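import Cfsg.Statements.S4741
import Cfsg.Agent.Block.Robinson

set_option autoImplicit false
open Cfsg

namespace Cfsg.Agent.S4741

/-- Let p be a prime, M a maximal ideal of the algebraic integers containing p, and D a subgroup of the finite group G. Let x₁, …, x_r be pairwise non-conjugate elements of G such that D is a Sylow p-subgroup of the centralizer of each xᵢ, and such that for any conjugates g of some xᵢ and h of some xⱼ the element g h⁻¹ is never a non-identity p-element. Then there are r distinct p-blocks B₁, …, B_r of G, each having D as a defect group, such that for every choice of characters χᵢ ∈ Bᵢ of height zero the determinant of the r × r matrix (χᵢ(xⱼ)) does not lie in the local ideal at M. -/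
theorem result {G : Type*} [Group G] [Finite G] (p : ℕ) [Fact p.Prime] (M : Ideal Cfsg.AlgInt) (hM : Cfsg.IsPModular p M) (D : Subgroup G) {r : ℕ} (x : Fin r → G) (hx : ∀ i j : Fin r, IsConj (x i) (x j) → i = j) (hD : ∀ i : Fin r, ∃ S : Sylow p ↥(Subgroup.centralizer ({x i} : Set G)), (S : Subgroup ↥(Subgroup.centralizer ({x i} : Set G))).map (Subgroup.centralizer ({x i} : Set G)).subtype = D) (hsep : ∀ i j : Fin r, ∀ g h : G, IsConj (x i) g → IsConj (x j) h → ∀ k : ℕ, 0 < k → orderOf (g * h⁻¹) ≠ p ^ k) : ∃ B : Fin r → Set (Cfsg.IrrCharacter G), Function.Injective B ∧ (∀ i : Fin r, Cfsg.IsPBlock M (B i) ∧ Cfsg.IsDefectGroup p M (B i) D) ∧ ∀ χ : Fin r → Cfsg.IrrCharacter G, (∀ i : Fin r, χ i ∈ B i ∧ Cfsg.blockHeight p (B i) (χ i : G → ℂ) = 0) → ¬ Cfsg.MemLocalIdeal M (Matrix.det (Matrix.of fun i j : Fin r => (χ i : G → ℂ) (x j))) := by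
  open Cfsg.Agent.Block Cfsg.Agent.PLocal in
  classical
  have := charP_resField hM
  have := Fintype.ofFinite G
  set I := {B : Set (Cfsg.IrrCharacter G) // Cfsg.IsPBlock M B ∧ Cfsg.IsDefectGroup p M B D}
  have := Fintype.ofFinite I
  choose ρ hρ using fun B : I => block_nonempty hM B.2.1
  choose Q hQ using hD
  have hxD : ∀ i, IsSylowIn p D (Subgroup.centralizer {x i}) := fun i => hQ i ▸ isSylowIn_map (Q i)
  obtain ⟨S⟩ : Nonempty (Sylow p G) := inferInstance
  set q : ℂ := (p : ℂ) ^ ((Nat.card G).factorization p - (Nat.card D).factorization p) with hq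
  have hq0 : val M q ≠ 0 := by rw [hq, map_pow]; exact val_prime_pow_ne_zero hM _
  have hq1 : q ≠ 0 := fun h => hq0 (by rw [h, map_zero])
  have hidx : ∀ i, val M (((Subgroup.centralizer ({x i} : Set G)).index : ℂ) / q) = 1 := fun i => by
    rw [map_div₀, val_index_centralizer hM (hxD i), ← map_pow, div_self hq0]
  let U : Matrix (Fin r) I (resField M) := fun i B => red M (centralChar (ρ B : G → ℂ) (x i)⁻¹)
  let W : Matrix I (Fin r) (resField M) := fun B i => red M (centralChar (ρ B : G → ℂ) (x i))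
  let c : I → resField M := fun B => red M (blockCoeff B.1 1 / q)
  let d : Fin r → resField M := fun i =>
    red M (((Subgroup.centralizer ({x i} : Set G)).index : ℂ) / q)
  have hd : ∀ i, d i ≠ 0 := fun i => (red_ne_zero_iff (hidx i).le).2 (hidx i)
  have hcount : ∀ i j (yz : G × G), (IsConj (x i) yz.1 ∧ IsConj (x j) yz.2 ∧
      yz.2 * yz.1⁻¹ ∈ (S : Subgroup G)) → yz.2 = yz.1 := by
    rintro i j ⟨y, z⟩ ⟨h1, h2, h3⟩
    obtain ⟨n, hn⟩ := IsPGroup.iff_orderOf.1 S.isPGroup' ⟨_, h3⟩
    rw [← Subgroup.orderOf_coe] at hn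
    rcases n with _ | n
    · exact mul_inv_eq_one.1 (orderOf_eq_one_iff.1 hn)
    · exact absurd hn (hsep j i z y h2 h1 _ n.succ_pos)
  have hA : U * (Matrix.diagonal c * W) = Matrix.diagonal d := by
    ext i j
    obtain ⟨-, h2⟩ := red_card_pairs hM S (hxD i) (hxD j) ρ hρ
    rw [Matrix.mul_apply, Finset.sum_congr rfl fun B _ => by rw [Matrix.diagonal_mul]]
    refine h2.symm.trans ?_
    rw [Matrix.diagonal_apply]
    split_ifs with e
    · subst e
      congr 2
      have e1 := ev_classSum (G := G) (χ := fun _ => (1 : ℂ)) (fun _ _ => rfl) (x i)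
      rw [mul_one, ev_apply] at e1
      simp only [coeff_classSum, mul_one] at e1
      have e2 : (Nat.card {g // IsConj (x i) g} : ℂ) =
          ∑ g, if IsConj (x i) g then (1 : ℂ) else 0 := by
        rw [Finset.sum_boole, ← Fintype.card_subtype, ← Nat.card_eq_fintype_card]
      refine Eq.trans ?_ ((e2.trans (by congr!)).trans e1)
      congr 1
      exact Nat.card_congr ⟨fun a => ⟨a.1.1, a.2.1⟩,
        fun a => ⟨(a.1, a.1), a.2, a.2, by simp⟩,
        fun a => Subtype.ext (Prod.ext rfl (hcount i i a.1 a.2).symm), fun a => rfl⟩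
    · have : IsEmpty {yz : G × G // IsConj (x i) yz.1 ∧ IsConj (x j) yz.2 ∧
          yz.2 * yz.1⁻¹ ∈ (S : Subgroup G)} :=
        ⟨fun a => e (hx i j (a.2.1.trans ((hcount i j a.1 a.2) ▸ a.2.2.1).symm))⟩
      rw [Nat.card_of_isEmpty, Nat.cast_zero, zero_div, red_zero]
  have hW : W.rank = Fintype.card (Fin r) := by
    refine le_antisymm (Matrix.rank_le_card_width W) ?_
    have h4 : (Matrix.diagonal d).rank = Fintype.card (Fin r) := by
      refine Matrix.rank_of_det_ne_zero ?_
      rw [Matrix.det_diagonal]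
      exact Finset.prod_ne_zero_iff.2 fun i _ => hd i
    rw [← h4, ← hA]
    exact (Matrix.rank_mul_le_right _ _).trans (Matrix.rank_mul_le_right _ _)
  obtain ⟨a, ha, hu⟩ := exists_rows_isUnit W hW
  refine ⟨fun i => (a i).1, fun i j h => ha (Subtype.ext h), fun i => (a i).2, fun χ hχ hm => ?_⟩
  have hdeg : ∀ i, val M ((χ i : G → ℂ) 1 / q) = 1 := fun i => by
    rw [map_div₀, (val_irr_one_eq_iff hM (hχ i).1).2 (hχ i).2,
      blockDefect_eq_of_isDefectGroup hM (a i).2.1 (a i).2.2, ← map_pow, div_self hq0]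
  let e : Fin r → resField M := fun i => red M ((χ i : G → ℂ) 1 / q)
  let X : Matrix (Fin r) (Fin r) (resField M) := fun i j => red M ((χ i : G → ℂ) (x j))
  have h5 : X * Matrix.diagonal d = Matrix.diagonal e * W.submatrix a id := by
    ext i j
    rw [Matrix.mul_diagonal, Matrix.diagonal_mul, Matrix.submatrix_apply]
    have h6 : W (a i) (id j) = red M (centralChar (χ i : G → ℂ) (x j)) :=
      (red_eq_iff (val_centralChar_le_one (ρ (a i)).2 _) (val_centralChar_le_one (χ i).2 _)).2
        ((sameBlock_iff_val hM (ρ (a i)).2 (χ i).2).1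
          (sameBlock_of_mem hM (a i).2.1 (hρ (a i)) (hχ i).1) _)
    rw [h6, ← red_mul (val_irr_le_one _ _) (hidx j).le,
      ← red_mul (hdeg i).le (val_centralChar_le_one (χ i).2 _), centralChar]
    congr 1
    have : (χ i : G → ℂ) 1 ≠ 0 := fun h => zero_ne_one ((hdeg i).symm.trans (by rw [h]; simp)).symm
    field_simp
  have h7 : X.det = red M (Matrix.det (Matrix.of fun i j : Fin r => (χ i : G → ℂ) (x j))) := by
    let Y : Matrix (Fin r) (Fin r) (valRing M) := fun i j =>
      ⟨(χ i : G → ℂ) (x j), (mem_valRing_iff _).2 (val_irr_le_one _ _)⟩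
    have e1 : (Matrix.of fun i j : Fin r => (χ i : G → ℂ) (x j)) =
      (valRing M).subtype.mapMatrix Y := rfl
    have e2 : X = (IsLocalRing.residue (valRing M)).mapMatrix Y := by
      ext i j
      exact red_coe (Y i j)
    rw [e1, e2, ← RingHom.map_det, ← RingHom.map_det]
    exact (red_coe _).symm
  have h8 := congrArg Matrix.det h5
  rw [Matrix.det_mul, Matrix.det_mul, h7,
    red_eq_zero_of_lt (val_lt_one_of_memLocalIdeal hM hm), zero_mul, Matrix.det_diagonal] at h8
  refine mul_ne_zero (Finset.prod_ne_zero_iff.2 fun i _ => ?_)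
    ((Matrix.isUnit_iff_isUnit_det _).1 hu).ne_zero h8.symm
  exact (red_ne_zero_iff (hdeg i).le).2 (hdeg i)

end Cfsg.Agent.S4741
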