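import Cfsg.Statements.S4742
import Cfsg.Agent.Char.ClassPair

set_option autoImplicit false
open Cfsg

namespace Cfsg.Agent.S4742

/-- Let p ≠ q be primes dividing the order of the finite group G, and suppose the centralizer of every non-identity p-element of G has order prime to q. Then either G has an irreducible character of p-defect zero, or for every non-identity q-element z of G there are conjugates g, h of z such that g h⁻¹ is a non-identity p-element. -/
theorem result {G : Type*} [Group G] [Finite G] (p q : ℕ) [Fact p.Prime] [Fact q.Prime] (hppq : p ≠ q) (hpG : p ∣ Nat.card G) (hqG : q ∣ Nat.card G) (hC : ∀ g : G, g ≠ 1 → (∃ k : ℕ, orderOf g = p ^ k) → ¬ q ∣ Nat.card ↥(Subgroup.centralizer ({g} : Set G))) : (∃ χ : Cfsg.IrrCharacter G, (Cfsg.charDegree (χ : G → ℂ)).factorization p = (Nat.card G).factorization p) ∨ ∀ z : G, z ≠ 1 → (∃ k : ℕ, orderOf z = q ^ k) → ∃ g h : G, IsConj z g ∧ IsConj z h ∧ g * h⁻¹ ≠ 1 ∧ ∃ k : ℕ, orderOf (g * h⁻¹) = p ^ k := by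
  by_contra hcon
  push Not at hcon
  obtain ⟨hno, z, hz1, ⟨k, hk⟩, hz⟩ := hcon
  have hp : p.Prime := Fact.out
  have hq : q.Prime := Fact.out
  have h1 : ¬ p ∣ Nat.card (Subgroup.centralizer ({z} : Set G)) := by
    intro h
    obtain ⟨x, hx⟩ := exists_prime_orderOf_dvd_card' p h
    rw [← Subgroup.orderOf_coe] at hx
    refine hC x ?_ ⟨1, by rw [hx, pow_one]⟩ ?_
    · intro h1
      rw [h1, orderOf_one] at hx
      exact hp.ne_one hx.symm
    · refine Dvd.dvd.trans ?_ (Subgroup.orderOf_dvd_natCard _ (x := z)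
        (Subgroup.mem_centralizer_singleton_iff.mpr
          (Subgroup.mem_centralizer_singleton_iff.mp x.2).symm))
      rw [hk]
      refine dvd_pow_self q ?_
      rintro rfl
      exact hz1 (orderOf_eq_one_iff.mp (by simpa using hk))
  obtain ⟨χ, hχ, -⟩ := Char.exists_defect_zero_of_quotients hp z h1 fun g h hg hh ⟨j, hj⟩ => by
    by_contra hne
    exact hz g h hg hh hne j hj
  exact hno χ hχ

end Cfsg.Agent.S4742
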