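import Cfsg.Statements.S4743
import Cfsg.Agent.S4742
import Cfsg.Agent.PLocal.PSolv

set_option autoImplicit false
open Cfsg

namespace Cfsg.Agent.S4743

/-- Let p ≠ q be primes dividing the order of the finite group G, suppose the centralizer of every non-identity p-element has order prime to q, and suppose G is p-solvable or q-solvable. Then G has an irreducible character of p-defect zero or an irreducible character of q-defect zero. -/
theorem result {G : Type*} [Group G] [Finite G] (p q : ℕ) [Fact p.Prime] [Fact q.Prime] (hppq : p ≠ q) (hpG : p ∣ Nat.card G) (hqG : q ∣ Nat.card G) (hC : ∀ g : G, g ≠ 1 → (∃ k : ℕ, orderOf g = p ^ k) → ¬ q ∣ Nat.card ↥(Subgroup.centralizer ({g} : Set G))) (hsolv : Cfsg.IsPSolvable p G ∨ Cfsg.IsPSolvable q G) : (∃ χ : Cfsg.IrrCharacter G, (Cfsg.charDegree (χ : G → ℂ)).factorization p = (Nat.card G).factorization p) ∨ (∃ χ : Cfsg.IrrCharacter G, (Cfsg.charDegree (χ : G → ℂ)).factorization q = (Nat.card G).factorization q) := by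
  by_contra hcon
  push Not at hcon
  have hp : p.Prime := Fact.out
  have hq : q.Prime := Fact.out
  have sym : ∀ (p q : ℕ) [Fact p.Prime] [Fact q.Prime],
      (∀ g : G, g ≠ 1 → (∃ k : ℕ, orderOf g = p ^ k) →
        ¬ q ∣ Nat.card ↥(Subgroup.centralizer ({g} : Set G))) →
      ∀ g : G, g ≠ 1 → (∃ k : ℕ, orderOf g = q ^ k) →
        ¬ p ∣ Nat.card ↥(Subgroup.centralizer ({g} : Set G)) := by
    intro p q _ _ hC z hz1 ⟨k, hk⟩ h
    obtain ⟨x, hx⟩ := exists_prime_orderOf_dvd_card' p h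
    rw [← Subgroup.orderOf_coe] at hx
    refine hC x ?_ ⟨1, by rw [hx, pow_one]⟩ ?_
    · intro h1
      rw [h1, orderOf_one] at hx
      exact (Fact.out : p.Prime).ne_one hx.symm
    · refine Dvd.dvd.trans ?_ (Subgroup.orderOf_dvd_natCard _ (x := z)
        (Subgroup.mem_centralizer_singleton_iff.mpr
          (Subgroup.mem_centralizer_singleton_iff.mp x.2).symm))
      rw [hk]
      refine dvd_pow_self q ?_
      rintro rfl
      exact hz1 (orderOf_eq_one_iff.mp (by simpa using hk))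
  have key : ∀ (p q : ℕ) [Fact p.Prime] [Fact q.Prime],
      (∀ z : G, z ≠ 1 → (∃ k : ℕ, orderOf z = q ^ k) → ∃ g h : G, IsConj z g ∧ IsConj z h ∧
        g * h⁻¹ ≠ 1 ∧ ∃ k : ℕ, orderOf (g * h⁻¹) = p ^ k) →
      ∀ H : Subgroup G, H.Normal → q ∣ Nat.card H → p ∣ Nat.card H := by
    intro p q _ _ hz H hH h
    obtain ⟨x, hx⟩ := exists_prime_orderOf_dvd_card' q h
    rw [← Subgroup.orderOf_coe] at hx
    obtain ⟨g, h, hg, hh, hne, k, hk⟩ := hz x (by
      intro h1
      rw [h1, orderOf_one] at hx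
      exact (Fact.out : q.Prime).ne_one hx.symm) ⟨1, by rw [hx, pow_one]⟩
    obtain ⟨c, rfl⟩ := isConj_iff.mp hg
    obtain ⟨d, rfl⟩ := isConj_iff.mp hh
    refine Dvd.dvd.trans ?_ (Subgroup.orderOf_dvd_natCard H
      (mul_mem (hH.conj_mem _ x.2 c) (inv_mem (hH.conj_mem _ x.2 d))))
    rw [hk]
    refine dvd_pow_self p ?_
    rintro rfl
    exact hne (orderOf_eq_one_iff.mp (by simpa using hk))
  have h1 := key p q ((S4742.result p q hppq hpG hqG hC).resolve_left (by
    rintro ⟨χ, hχ⟩; exact hcon.1 χ hχ))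
  have h2 := key q p ((S4742.result q p hppq.symm hqG hpG (sym p q hC)).resolve_left (by
    rintro ⟨χ, hχ⟩; exact hcon.2 χ hχ))
  have fin : ∀ (p q : ℕ) [Fact p.Prime] [Fact q.Prime], p ≠ q → p ∣ Nat.card G →
      (∀ H : Subgroup G, H.Normal → q ∣ Nat.card H → p ∣ Nat.card H) →
      (∀ H : Subgroup G, H.Normal → p ∣ Nat.card H → q ∣ Nat.card H) →
      ¬ Cfsg.IsPSolvable p G := by
    intro p q _ _ hpq hpG h1 h2 hs
    have hp : p.Prime := Fact.out
    have hq : q.Prime := Fact.out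
    obtain ⟨N, ⟨hN, hpN⟩, hmax⟩ := Set.Finite.exists_maximal (s := {N : Subgroup G |
      N.Normal ∧ ¬ p ∣ Nat.card N}) (Set.toFinite _)
      ⟨⊥, inferInstance, by simpa using hp.ne_one⟩
    obtain ⟨M, hM, hNM, hpow⟩ := PLocal.isPSolvable_iff_exists_lt.mp hs N hN (by
      rintro rfl
      exact hpN (by simpa using hpG))
    have hpM : p ∣ Nat.card M := by
      by_contra h
      exact hNM.not_ge (hmax ⟨hM, h⟩ hNM.le)
    have hcard : Nat.card N * N.relIndex M = Nat.card M := by
      rw [← Nat.card_congr (Subgroup.subgroupOfEquivOfLe hNM.le).toEquiv]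
      exact Subgroup.card_mul_index _
    have hqM := h2 M hM hpM
    rw [← hcard] at hpM hqM
    rcases hpow with ⟨k, hk⟩ | hc
    · rcases (Nat.Prime.dvd_mul hq).mp hqM with h | h
      · exact hpN (h1 N hN h)
      · rw [hk] at h
        exact hpq ((Nat.prime_dvd_prime_iff_eq hq hp).mp (hq.dvd_of_dvd_pow h)).symm
    · rcases (Nat.Prime.dvd_mul hp).mp hpM with h | h
      · exact hpN h
      · exact (Nat.Prime.coprime_iff_not_dvd hp).mp hc.symm h
  rcases hsolv with h | h
  · exact fin p q hppq hpG h1 h2 h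
  · exact fin q p hppq.symm hqG h2 h1 h

end Cfsg.Agent.S4743
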