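import Cfsg.Statements.S4744
import Cfsg.Agent.Char.InvSylow

set_option autoImplicit false
open Cfsg

namespace Cfsg.Agent.S4744

/-- Let p be an odd prime and G a finite group of even order divisible by p in which the centralizer of every non-identity p-element has odd order. Then either G has an irreducible character of p-defect zero, or the normalizer of every Sylow p-subgroup P of G has even order and P is abelian. -/
theorem result {G : Type*} [Group G] [Finite G] (p : ℕ) [Fact p.Prime] (hp2 : p ≠ 2) (hpG : p ∣ Nat.card G) (h2G : 2 ∣ Nat.card G) (hC : ∀ g : G, g ≠ 1 → (∃ k : ℕ, orderOf g = p ^ k) → Odd (Nat.card ↥(Subgroup.centralizer ({g} : Set G)))) : (∃ χ : Cfsg.IrrCharacter G, (Cfsg.charDegree (χ : G → ℂ)).factorization p = (Nat.card G).factorization p) ∨ ∀ P : Sylow p G, Even (Nat.card ↥(Subgroup.normalizer ((P : Subgroup G) : Set G))) ∧ IsMulCommutative ↥(P : Subgroup G) := by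
  by_contra hcon
  rw [not_or] at hcon
  obtain ⟨hno, hcon⟩ := hcon
  push Not at hno
  refine hcon fun P => ?_
  obtain ⟨t, ht⟩ := exists_prime_orderOf_dvd_card' (G := G) 2 h2G
  obtain ⟨y, hy1, hy, hty⟩ := Char.exists_inverted_of_no_defect_zero hC hno ht
  obtain ⟨Q, hQ⟩ := Char.exists_sylow_inverted hC ht hy1 hy hty
  obtain ⟨s, hs, hP⟩ := Char.exists_isConj_inverts_sylow hQ P
  refine ⟨Inv.even_card_of_involution (Char.mem_normalizer_of_inverted (Q := (P : Subgroup G)) hP)
    (Inv.orderOf_eq_of_isConj hs ▸ ht), ⟨⟨fun a b => Subtype.ext ?_⟩⟩⟩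
  exact Char.comm_of_inverted (Q := (P : Subgroup G)) hP a.2 b.2

end Cfsg.Agent.S4744
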