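import Cfsg.Statements.S4746
import Cfsg.Agent.Char.InvSylow

set_option autoImplicit false
open Cfsg

namespace Cfsg.Agent.S4746

open Cfsg.Agent.Char

/-- Let p be an odd prime and G a finite group of even order divisible by p in which the centralizer of every non-identity p-element has odd order. Then G has an irreducible character of p-defect zero or an irreducible character of even degree. -/
theorem result {G : Type*} [Group G] [Finite G] (p : ℕ) [Fact p.Prime] (hp2 : p ≠ 2) (hpG : p ∣ Nat.card G) (h2G : 2 ∣ Nat.card G) (hC : ∀ g : G, g ≠ 1 → (∃ k : ℕ, orderOf g = p ^ k) → Odd (Nat.card ↥(Subgroup.centralizer ({g} : Set G)))) : (∃ χ : Cfsg.IrrCharacter G, (Cfsg.charDegree (χ : G → ℂ)).factorization p = (Nat.card G).factorization p) ∨ ∃ χ : Cfsg.IrrCharacter G, Even (Cfsg.charDegree (χ : G → ℂ)) := by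
  classical
  by_contra hcon
  rw [not_or] at hcon
  obtain ⟨hno, hcon⟩ := hcon
  push Not at hno hcon
  have := Fintype.ofFinite G
  obtain ⟨t, ht⟩ := exists_prime_orderOf_dvd_card' (G := G) 2 h2G
  obtain ⟨y, hy1, hy, hty⟩ := exists_inverted_of_no_defect_zero hC hno ht
  have hreal : ∀ χ : IrrCharacter G, (starRingEnd ℂ) ((χ : G → ℂ) y) = (χ : G → ℂ) y := by
    intro χ
    rw [← χ.2.isCharacter.map_inv, ← hty, χ.2.isClassFunction]
  have h1 := sum_irr_mul_conj_of_isConj (G := G) (IsConj.refl y)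
  simp only [hreal] at h1
  have h2 := sum_irr_one_mul hy1
  choose m hm using fun χ => Nat.not_even_iff_odd.mp (hcon χ)
  let a : IrrCharacter G → integralClosure ℤ ℂ := fun χ =>
    ⟨(χ : G → ℂ) 1 * (χ : G → ℂ) y,
      (χ.2.isCharacter.isIntegral 1).mul (χ.2.isCharacter.isIntegral y)⟩
  obtain ⟨r, hr⟩ := exists_sum_pow_prime_pow_eq Nat.prime_two 1 Finset.univ a
  have h3 := congrArg (fun x : integralClosure ℤ ℂ => (x : ℂ)) hr
  simp only [a] at h3
  push_cast at h3
  rw [h2] at h3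
  have h4 : ((Nat.card (Subgroup.centralizer ({y} : Set G)) : ℕ) : ℂ) / ((2 : ℕ) : ℂ) =
      -(r : ℂ) - ∑ χ : IrrCharacter G, ((2 * m χ ^ 2 + 2 * m χ : ℕ) : ℤ) *
        ((χ : G → ℂ) y * (χ : G → ℂ) y) := by
    have h5 : ∑ χ : IrrCharacter G, ((χ : G → ℂ) 1 * (χ : G → ℂ) y) ^ 2 =
        ∑ χ : IrrCharacter G, (χ : G → ℂ) y * (χ : G → ℂ) y + 2 * ∑ χ : IrrCharacter G,
          ((2 * m χ ^ 2 + 2 * m χ : ℕ) : ℤ) * ((χ : G → ℂ) y * (χ : G → ℂ) y) := by
      rw [Finset.mul_sum, ← Finset.sum_add_distrib]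
      refine Finset.sum_congr rfl fun χ _ => ?_
      rw [← coe_charDegree_irr, hm]
      push_cast
      ring
    rw [h5, h1, show ((2 : integralClosure ℤ ℂ) : ℂ) = 2 from rfl] at h3
    push_cast at h3 ⊢
    linear_combination (-1 / 2 : ℂ) * h3
  have h6 : IsIntegral ℤ (((Nat.card (Subgroup.centralizer ({y} : Set G)) : ℕ) : ℂ) /
      ((2 : ℕ) : ℂ)) := by
    rw [h4]
    refine IsIntegral.sub r.2.neg (IsIntegral.sum _ fun χ _ => ?_)
    exact (isIntegral_algebraMap (x := ((2 * m χ ^ 2 + 2 * m χ : ℕ) : ℤ))).mul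
      ((χ.2.isCharacter.isIntegral y).mul (χ.2.isCharacter.isIntegral y))
  exact Nat.not_even_iff_odd.mpr (hC y hy1 hy)
    (even_iff_two_dvd.mpr (dvd_of_isIntegral_div two_ne_zero h6))

end Cfsg.Agent.S4746
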