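import Cfsg.Statements.S4750
import Mathlib
import Cfsg.Agent.Char.Quot
import Cfsg.Agent.Block.Lattice

set_option autoImplicit false
open scoped Pointwise
open Cfsg

namespace Cfsg.Agent.S4750

open Cfsg.Agent.Char Cfsg.Agent.Block
open scoped ComplexConjugate

theorem free_of_TI {G : Type*} [Group G] [Finite G] (p : ℕ) [Fact p.Prime] (P : Sylow p G)
    (hTI : ∀ g : G, g ∉ Subgroup.normalizer ((P : Subgroup G) : Set G) →
      (P : Subgroup G) ⊓ (MulAut.conj g • (P : Subgroup G)) = ⊥) (H : Subgroup G)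
    (hH : Subgroup.normalizer ((P : Subgroup G) : Set G) ≤ H) :
    ∀ x ∈ (P : Subgroup G), ∀ g : G, g⁻¹ * x * g ∈ H → x = 1 ∨ g ∈ H := by
  intro x hx g hg
  have hPH : (P : Subgroup G) ≤ H := Subgroup.le_normalizer.trans hH
  have hpx : IsPGroup p (Subgroup.zpowers (⟨g⁻¹ * x * g, hg⟩ : H)) := by
    obtain ⟨k, hk⟩ := P.isPGroup' ⟨x, hx⟩
    have hk' : x ^ p ^ k = 1 := congrArg Subtype.val hk
    have : (⟨g⁻¹ * x * g, hg⟩ : H) ^ p ^ k = 1 := by
      apply Subtype.ext
      have := conj_pow (a := g⁻¹) (b := x) (i := p ^ k)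
      simp only [inv_inv] at this
      simp [this, hk']
    rintro ⟨y, hy⟩
    obtain ⟨n, rfl⟩ := Subgroup.mem_zpowers_iff.1 hy
    refine ⟨k, Subtype.ext ?_⟩
    change ((⟨g⁻¹ * x * g, hg⟩ : H) ^ n) ^ p ^ k = 1
    rw [← zpow_natCast, ← zpow_mul, mul_comm, zpow_mul, zpow_natCast, this, one_zpow]
  obtain ⟨Q, hQ⟩ := hpx.exists_le_sylow
  obtain ⟨h, hh⟩ := MulAction.exists_smul_eq H (P.subtype hPH) Q
  have hmem : (⟨g⁻¹ * x * g, hg⟩ : H) ∈ (Q : Subgroup H) := hQ (Subgroup.mem_zpowers _)
  rw [← hh, Sylow.coe_subgroup_smul, Subgroup.mem_pointwise_smul_iff_inv_smul_mem] at hmem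
  have hmem' : (g * h)⁻¹ * x * (g * h) ∈ (P : Subgroup G) := by
    have h2 : ((h : G)⁻¹ * (g⁻¹ * x * g) * h) ∈ (P : Subgroup G) := by
      simpa [Sylow.coe_subtype, Subgroup.mem_subgroupOf] using hmem
    simpa [mul_assoc] using h2
  by_cases hn : g * h ∈ Subgroup.normalizer ((P : Subgroup G) : Set G)
  · right
    simpa using H.mul_mem (hH hn) (H.inv_mem h.2)
  · left
    have : x ∈ (P : Subgroup G) ⊓ (MulAut.conj (g * h) • (P : Subgroup G)) := by
      refine ⟨hx, ?_⟩
      change x ∈ MulAut.conj (g * h) • (P : Subgroup G)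
      rw [Subgroup.mem_pointwise_smul_iff_inv_smul_mem]
      simpa [mul_assoc] using hmem'
    rw [hTI _ hn] at this
    exact this

/-- Let P be a Sylow p-subgroup of the finite group G that meets each conjugate g P g⁻¹ with g outside N_G(P) trivially, χ a character of G with χ(1)² ≤ |P|, and H a subgroup of G containing N_G(P). Then the inner product of χ with itself over G equals the inner product over H of the restriction of χ to H. -/
theorem result {G : Type*} [Group G] [Fintype G] [DecidableEq G] (p : ℕ) [Fact p.Prime] (P : Sylow p G) (hTI : ∀ g : G, g ∉ Subgroup.normalizer ((P : Subgroup G) : Set G) → (P : Subgroup G) ⊓ (MulAut.conj g • (P : Subgroup G)) = ⊥) (χ : G → ℂ) (hχ : Cfsg.IsCharacter G χ) (hdeg : Cfsg.charDegree χ ^ 2 ≤ Nat.card ↥(P : Subgroup G)) (H : Subgroup G) [Fintype ↥H] (hH : Subgroup.normalizer ((P : Subgroup G) : Set G) ≤ H) : Cfsg.classInner χ χ = Cfsg.classInner (fun h : ↥H => χ h) (fun h : ↥H => χ h) := by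
  classical
  have hPH : (P : Subgroup G) ≤ H := Subgroup.le_normalizer.trans hH
  have key : ∀ {K : Type _} [Group K] [Fintype K] (φ : K → ℂ),
      classInner φ φ = classInner (fun g => φ g * conj (φ g)) (fun _ => 1) := by
    intro K _ _ φ
    simp [classInner]
  have key' : classInner (fun h : H => χ h) (fun h : H => χ h) =
      classInner (fun g : H => χ g * conj (χ g)) (fun _ => 1) := by simp [classInner]
  rw [key, key']
  have hθ : IsCharacter G (fun g => χ g * conj (χ g)) := hχ.mul hχ.conj
  by_cases h0 : χ = 0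
  · subst h0; simp [classInner]
  obtain ⟨l, hl, hsum⟩ := hθ.exists_multiset
  have hmem : (fun _ => (1 : ℂ)) ∈ l := by
    by_contra hne
    apply h0
    rw [← classInner_self_eq_zero, key, hsum]
    clear hsum
    induction l using Multiset.induction_on with
    | empty => simp [classInner]
    | cons a l ih =>
      rw [Multiset.sum_cons, classInner_add_left, ih (fun ψ h => hl ψ (Multiset.mem_cons_of_mem h))
        (fun h => hne (Multiset.mem_cons_of_mem h)),
        (hl a (Multiset.mem_cons_self _ _)).inner_eq_zero isIrrCharacter_one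
          (fun h => hne (h ▸ Multiset.mem_cons_self _ _)), add_zero]
  obtain ⟨l', rfl⟩ := Multiset.exists_cons_of_mem hmem
  rw [Multiset.sum_cons] at hsum
  have hθ' : IsCharacter G l'.sum :=
    isCharacter_multiset_sum _ fun ψ h => (hl ψ (Multiset.mem_cons_of_mem h)).isCharacter
  obtain ⟨m, hm⟩ := hθ'.exists_nat_one
  have hlt : m < Nat.card (P : Subgroup G) := by
    have h1 := congrFun hsum 1
    simp only [Pi.add_apply, hm] at h1
    rw [hχ.conj_one, ← coe_charDegree_of_isCharacter hχ] at h1
    have h2 : charDegree χ * charDegree χ = 1 + m := by exact_mod_cast h1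
    nlinarith
  have h3 := classInner_one_restrict (P : Subgroup G) H P.isPGroup' hPH (free_of_TI p P hTI H hH)
    hθ' hm hlt
  have hsum' : (fun g : H => χ g * conj (χ g)) = (fun _ : H => (1 : ℂ)) + fun g : H => l'.sum g := by
    ext g; exact congrFun hsum g
  rw [hsum', hsum, classInner_add_left, classInner_add_left, h3, isIrrCharacter_one.inner_self,
    isIrrCharacter_one.inner_self]

end Cfsg.Agent.S4750
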