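import Cfsg.Statements.S4748
import Mathlib
import Cfsg.Agent.Char.Quot
import Cfsg.Agent.Char.Irr
import Cfsg.Agent.S4750
import Cfsg.Agent.PLocal.PSolv
import Cfsg.Agent.Grp.Cores

set_option autoImplicit false
open scoped Pointwise
open Cfsg

set_option linter.style.haveILetI false
set_option linter.unusedVariables false

namespace Cfsg.Agent.S4748

open Cfsg.Agent.Char Cfsg.Agent.Grp
open scoped ComplexConjugate

/-- Let G be a finite p-solvable group whose Sylow p-subgroup P meets each conjugate g P g⁻¹ with g outside N_G(P) trivially, and let χ be a faithful character of G (χ g = χ 1 only for g = 1) whose degree d satisfies d² ≤ |P|. Then P is normal in G. -/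
theorem result {G : Type*} [Group G] [Finite G] (p : ℕ) [Fact p.Prime] (hsolv : Cfsg.IsPSolvable p G) (P : Sylow p G) (hTI : ∀ g : G, g ∉ Subgroup.normalizer ((P : Subgroup G) : Set G) → (P : Subgroup G) ⊓ (MulAut.conj g • (P : Subgroup G)) = ⊥) (χ : G → ℂ) (hχ : Cfsg.IsCharacter G χ) (hfaith : ∀ g : G, χ g = χ 1 → g = 1) (hdeg : Cfsg.charDegree χ ^ 2 ≤ Nat.card ↥(P : Subgroup G)) : (P : Subgroup G).Normal := by
  classical
  by_contra hPn
  obtain ⟨g₀, hg₀⟩ : ∃ g : G, g ∉ Subgroup.normalizer ((P : Subgroup G) : Set G) := by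
    by_contra h
    push Not at h
    exact hPn (Subgroup.normalizer_eq_top_iff.1 (eq_top_iff.2 fun g _ => h g))
  have hcore : pCore p G = ⊥ := by
    rw [eq_bot_iff, ← hTI g₀ hg₀]
    refine le_inf (pCore_le_sylow P) ?_
    exact pCore_le_sylow (g₀ • P)
  have hP0 : (P : Subgroup G) ≠ ⊥ := fun h => hPn (h ▸ inferInstance)
  haveI : Nontrivial (P : Subgroup G) := (Subgroup.nontrivial_iff_ne_bot _).2 hP0
  haveI := P.isPGroup'.center_nontrivial
  obtain ⟨⟨⟨z, hzP⟩, hzc⟩, hz1⟩ := exists_ne (1 : Subgroup.center (P : Subgroup G))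
  have hz1' : z ≠ 1 := fun h => hz1 (by ext; exact h)
  have hzcomm : ∀ u ∈ (P : Subgroup G), u * z = z * u := fun u hu =>
    congrArg Subtype.val (Subgroup.mem_center_iff.1 hzc ⟨u, hu⟩)
  set N := pPrimeCore p G with hN
  have hPN : (P : Subgroup G) ⊓ N = ⊥ :=
    inf_eq_bot_of_isPGroup_of_coprime P.isPGroup' (pPrimeCore_coprime p G)
  let L : Subgroup G := N ⊔ P
  have hPL : (P : Subgroup G) ≤ L := le_sup_right
  let P' : Sylow p L := P.subtype hPL
  have hP' : ∀ x : L, x ∈ (P' : Subgroup L) ↔ (x : G) ∈ (P : Subgroup G) := fun x => Iff.rfl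
  have hnorm : ∀ g : L, g ∈ Subgroup.normalizer ((P' : Subgroup L) : Set L) ↔
      (g : G) ∈ Subgroup.normalizer ((P : Subgroup G) : Set G) := by
    intro g
    rw [Subgroup.mem_normalizer_iff, Subgroup.mem_normalizer_iff]
    constructor
    · intro h x
      constructor
      · intro hx
        exact (h ⟨x, hPL hx⟩).1 hx
      · intro hx
        have hxL : x ∈ L := by
          have := L.mul_mem (L.mul_mem (L.inv_mem g.2) (hPL hx)) g.2
          simpa [mul_assoc] using this
        exact (h ⟨x, hxL⟩).2 hx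
    · intro h x
      exact h x
  have hTI' : ∀ g : L, g ∉ Subgroup.normalizer ((P' : Subgroup L) : Set L) →
      (P' : Subgroup L) ⊓ (MulAut.conj g • (P' : Subgroup L)) = ⊥ := by
    intro g hg
    rw [hnorm] at hg
    rw [eq_bot_iff]
    rintro x ⟨hx1, hx2⟩
    have : (x : G) ∈ (P : Subgroup G) ⊓ (MulAut.conj (g : G) • (P : Subgroup G)) := by
      refine ⟨hx1, ?_⟩
      change (x : G) ∈ MulAut.conj (g : G) • (P : Subgroup G)
      change x ∈ MulAut.conj g • (P' : Subgroup L) at hx2
      rw [Subgroup.mem_pointwise_smul_iff_inv_smul_mem] at hx2 ⊢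
      exact hx2
    rw [hTI _ hg] at this
    exact Subtype.ext this
  let H : Subgroup L := Subgroup.normalizer ((P' : Subgroup L) : Set L)
  let z' : L := ⟨z, hPL hzP⟩
  have hzH : z' ∈ H := Subgroup.le_normalizer (show z' ∈ (P' : Subgroup L) from hzP)
  have hzcH : (⟨z', hzH⟩ : H) ∈ Subgroup.center H := by
    rw [Subgroup.mem_center_iff]
    rintro ⟨⟨h, hL⟩, hH⟩
    have hH' : h ∈ Subgroup.normalizer ((P : Subgroup G) : Set G) := (hnorm ⟨h, hL⟩).1 hH
    have hL' : h ∈ ((N ⊔ (P : Subgroup G) : Subgroup G) : Set G) := hL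
    rw [Subgroup.normal_mul] at hL'
    obtain ⟨n, hn, u, hu, rfl⟩ := hL'
    have hnn : n ∈ Subgroup.normalizer ((P : Subgroup G) : Set G) := by
      have := Subgroup.mul_mem _ hH' (Subgroup.inv_mem _ (Subgroup.le_normalizer hu))
      simpa using this
    have hc : n * z * n⁻¹ * z⁻¹ ∈ (P : Subgroup G) ⊓ N := by
      refine ⟨Subgroup.mul_mem _ ((Subgroup.mem_normalizer_iff.1 hnn z).1 hzP)
        (Subgroup.inv_mem _ hzP), ?_⟩
      have := N.mul_mem hn ((inferInstance : N.Normal).conj_mem _ (N.inv_mem hn) z)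
      simpa [mul_assoc] using this
    rw [hPN, Subgroup.mem_bot] at hc
    have hnz : n * z = z * n := by
      calc n * z = (n * z * n⁻¹ * z⁻¹) * (z * n) := by group
        _ = z * n := by rw [hc, one_mul]
    apply Subtype.ext; apply Subtype.ext
    change n * u * z = z * (n * u)
    rw [mul_assoc, hzcomm u hu, ← mul_assoc, hnz, mul_assoc]
  haveI := Fintype.ofFinite L
  haveI := Fintype.ofFinite H
  have hχL : IsCharacter L (fun x : L => χ x) := hχ.restrict L
  have hcardP : Nat.card (P' : Subgroup L) = Nat.card (P : Subgroup G) :=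
    Nat.card_congr (Subgroup.subgroupOfEquivOfLe hPL).toEquiv
  have hker : ∀ ψ : IrrCharacter L, classInner (fun x : L => χ x) ψ ≠ 0 → ∀ g : L,
      (ψ : L → ℂ) (z' * g * z'⁻¹ * g⁻¹) = (ψ : L → ℂ) 1 := by
    intro ψ hψ g
    have hle := hχL.one_le_of_inner_ne_zero ψ.2 hψ
    simp only [OneMemClass.coe_one] at hle
    rw [← coe_charDegree_irr, ← coe_charDegree_of_isCharacter hχ] at hle
    have hle' : charDegree (ψ : L → ℂ) ≤ charDegree χ := by exact_mod_cast hle
    have h1 := S4750.result p P' hTI' ψ ψ.2.isCharacter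
      (by rw [hcardP]; exact (Nat.pow_le_pow_left hle' 2).trans hdeg) H le_rfl
    rw [ψ.2.inner_self] at h1
    have hirr := (ψ.2.isCharacter.restrict H).isIrr_of_inner_self h1.symm
    have h2 := norm_eq_of_mem_center hirr hzcH
    exact (mem_charKer_irr ψ).1 (commutator_mem_charKer_of_norm_eq ψ.2.isCharacter h2 g)
  have hzN : z ∈ Subgroup.centralizer (N : Set G) := by
    rw [Subgroup.mem_centralizer_iff]
    intro n hn
    let n' : L := ⟨n, (le_sup_left : N ≤ L) hn⟩
    have h1 := hχL.isClassFunction.apply_eq_sum_irr (z' * n' * z'⁻¹ * n'⁻¹)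
    have h2 := hχL.isClassFunction.apply_eq_sum_irr 1
    have h3 : χ (z * n * z⁻¹ * n⁻¹) = χ 1 := by
      change χ ((z' * n' * z'⁻¹ * n'⁻¹ : L) : G) = χ ((1 : L) : G)
      rw [h1, h2]
      refine Finset.sum_congr rfl fun ψ _ => ?_
      by_cases h0 : classInner (fun x : L => χ x) ψ = 0
      · rw [h0, zero_mul, zero_mul]
      · rw [hker ψ h0]
    have h4 := hfaith _ h3
    calc n * z = (z * n * z⁻¹ * n⁻¹) * (n * z) := by rw [h4, one_mul]
      _ = z * n := by group
  have : z ∈ (P : Subgroup G) ⊓ N :=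
    ⟨hzP, PLocal.centralizer_pPrimeCore_le_of_isPSolvable hsolv hcore hzN⟩
  rw [hPN] at this
  exact hz1' this

end Cfsg.Agent.S4748
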