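import Cfsg.Statements.S4752
import Cfsg.Agent.XS3.Cen

set_option autoImplicit false
open Cfsg

namespace Cfsg.Agent.S4752

open Subgroup Cfsg.Agent.PLocal.Amb Cfsg.Agent.Block Cfsg.Agent.Char Cfsg.Agent.XS3
open scoped ComplexConjugate commutatorElement

section

variable {G : Type*} [Group G] [Fintype G] {M : Ideal AlgInt} {P : Subgroup G} {z : G}
  {T : Type*} [Fintype T] {u : T → G}

open Classical in
theorem k0_eq (hM : IsPModular 3 M) : Nat.card {χ : IrrCharacter G // χ ∈ principalBlock M G ∧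
    blockHeight 3 (principalBlock M G) (χ : G → ℂ) = 0} = (Finset.univ.filter
      fun χ : principalBlock M G => ¬ 3 ∣ charDegree (χ.1 : G → ℂ)).card := by
  rw [← Nat.card_congr (Equiv.subtypeSubtypeEquivSubtypeInter _ _)]
  exact Nat.subtype_card _ fun χ => by rw [Finset.mem_filter_univ, height_iff hM]

theorem odd (h : XS P z) (hM : IsPModular 3 M) (hn : HasNormalPComplement 3 G)
    (hk : Nat.card (principalBlock M G) = 11) : Nat.card {χ : IrrCharacter G //
      χ ∈ principalBlock M G ∧ blockHeight 3 (principalBlock M G) (χ : G → ℂ) = 0} = 9 := by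
  classical
  have h1 := lamB_of_hasNormalPComplement hM hn
  rw [← card_top, ← h.syl.card_eq_pow, h.card, lamB, fs, dot_cast (fun χ => (coe_charDegree_irr _).symm)
    (v := fun χ => charDegree (χ.1 : G → ℂ)) (w := fun χ => charDegree (χ.1 : G → ℂ))
    fun χ => (coe_charDegree_irr _).symm, dotProduct] at h1
  have h2 := Finset.dvd_sum (s := Finset.univ) (a := (9 : ℤ)) (f := fun χ : principalBlock M G =>
      (charDegree (χ.1 : G → ℂ) : ℤ) * charDegree (χ.1 : G → ℂ) -
        if ¬ 3 ∣ charDegree (χ.1 : G → ℂ) then 1 else 0) fun χ _ => by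
    split_ifs with e
    · obtain ⟨d, e⟩ := e
      exact ⟨d * d, by rw [e]; push_cast; ring⟩
    · simp [charDegree_eq_one_of_hasNormalPComplement hM hn χ.2 e]
  rw [Finset.sum_sub_distrib, Finset.sum_boole, show ∑ χ : principalBlock M G, _ = (27 : ℤ) by
    exact_mod_cast h1] at h2
  have h3 := Finset.card_filter_le Finset.univ
    fun χ : principalBlock M G => ¬ 3 ∣ charDegree (χ.1 : G → ℂ)
  have h4 := Finset.card_pos.2 ⟨_, (Finset.mem_filter_univ (p := fun χ : principalBlock M G =>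
    ¬ 3 ∣ charDegree (χ.1 : G → ℂ)) ⟨_, irrOne_mem_principal hM⟩).2 (by simp [charDegree_irrOne])⟩
  rw [Finset.card_univ, ← Nat.card_eq_fintype_card, hk] at h3
  rw [k0_eq hM]
  omega

theorem even (h : XS P z) (r : Reps P z u) (hM : IsPModular 3 M) (t : T)
    (he : 2 ∣ (P ⊔ 𝐂[P]).relIndex 𝐍[P]) :
    Nat.card (principalBlock M G) + 2 * Fintype.card T = 18 ∧ Nat.card {χ : IrrCharacter G //
      χ ∈ principalBlock M G ∧ blockHeight 3 (principalBlock M G) (χ : G → ℂ) = 0} = 6 ∧
      blockRank 3 (principalBlock M G) + Fintype.card T = 6 := by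
  classical
  have h' := h.sub h.pc
  have r' := h.reps_sub r
  have hr := fun t => h.real he (r.mem t) (r.nmem t)
  obtain ⟨m, x, ρ, a, L⟩ := h'.exists_loc h.cen_sub r' hM t fun t => by
    obtain ⟨s, hs⟩ := r'.cov _ (inv_mem (r'.mem t)) (by rw [inv_mem_iff]; exact r'.nmem t)
    obtain rfl := r.inj _ _ ((hr t).trans ((centralizer {z}).subtype.map_isConj hs))
    exact hs.symm
  obtain ⟨D, hD, hc, hd⟩ := h.col r hM hr
  choose X hX using fun j (χ : principalBlock M G) =>
    (L.gx j).exists_int_inner (χ.1.2.isGen.restrict (centralizer {z}))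
  choose R hR using fun j (χ : principalBlock M G) =>
    (L.gr j).exists_int_inner (χ.1.2.isGen.restrict (centralizer {z}))
  have dD : ∀ s (χ : principalBlock M G), classInner (dl (⟨u s, h.pc (r.mem s)⟩ :
      centralizer ({z} : Set G))) (fun g => (χ.1 : G → ℂ) g) = D s χ :=
    fun s η => by rw [dl_inner, hD, map_intCast]
  have d0 := fun s g => dl_reg (g := g) (h'.ordu r' s)
  have ci := Int.cast_injective (α := ℂ)
  obtain ⟨k1, k2⟩ := hc.lat t (R := R) (X := X) (a := a)
    (fun j s => ci (by rw [← dot_cast (hX j) (dD s), h.iso_inner r hM _ (d0 s), L.xD]))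
    (fun j k => ci (by rw [← dot_cast (hX j) (hX k), h.iso_inner r hM _ (L.x0 k), L.xx])) L.a3
    (fun j k => ci (by rw [← dot_cast (hR j) (hR k), h.iso_inner r hM _ (L.r0 k), L.rr]))
    (fun j k => ci (by rw [← dot_cast (hR j) (hX k), h.iso_inner r hM _ (L.x0 k), L.rx]))
    (fun j s => ci (by rw [← dot_cast (hR j) (dD s), h.iso_inner r hM _ (d0 s), L.rD])) L.c6
    fun χ e => by
      by_contra! e'
      obtain ⟨α, β, c, hw⟩ := L.cov
      generalize hw' : dl _ + _ + _ - _ = w at hw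
      have h1 := h.iso_inner r hM w (x' := w) fun g hg => by
        simp [← hw', dl_reg h'.ord hg, Finset.sum_apply, L.x0 _ g hg, L.r0 _ g hg, d0 _ g hg]
      simp only [hw, classInner_zero_left, Complex.mul_conj] at h1
      have h2 := (Finset.sum_eq_zero_iff_of_nonneg fun i _ => Complex.normSq_nonneg _).1
        (by exact_mod_cast h1) χ (Finset.mem_univ _)
      simp only [← hw', classInner_add_left, classInner_sub_left, classInner_sum_left,
        classInner_smul_left, dD, hX, hR, e', hc.zero _ e] at h2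
      exact apply_ne_zero_of_mem_principal hM χ.2 (g := z)
        (fun e => h.nidx (e.trans (index_dvd_of_le h.pc))) (by simpa [dl_inner] using h2)
  have k3 := h.card_eq r hM
  have k4 := h'.card_eq r' hM
  have k5 := L.c6
  have k6 := L.cb
  rw [lAt_of_central hM h.cen_sub] at k4
  rw [← Nat.card_eq_fintype_card] at k2
  rw [lAt] at k3
  refine ⟨by omega, ?_, by omega⟩
  rw [k0_eq hM, ← k1]
  exact congrArg _ (Finset.ext fun χ => by rw [mem_supp, hd, Finset.mem_filter_univ])

end

/-- Let G be a finite group whose Sylow 3-subgroup P is extraspecial of order 27 and exponent 3, with N_G(P) ≤ C_G(Z(P)), and let M be a maximal ideal of the algebraic integers containing 3, B the principal 3-block of G, k its number of irreducible characters, k₀ the number of those of height zero, l its 3-regular rank (number of irreducible Brauer characters), and e the index of P·C_G(P) in N_G(P) (the order of the inertial quotient). Then e = 1 gives (k, k₀, l) = (11, 9, 1); e = 2 gives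 (10, 6, 2); e = 4 gives (14, 6, 4); e = 8 gives (16, 6, 5). -/
theorem result {G : Type*} [Group G] [Finite G] (P : Sylow 3 G) (hE : Cfsg.IsExtraspecial 3 ↥(P : Subgroup G)) (h27 : Nat.card ↥(P : Subgroup G) = 27) (hexp : ∀ x ∈ (P : Subgroup G), x ^ 3 = 1) (hNC : ∀ g ∈ Subgroup.normalizer ((P : Subgroup G) : Set G), ∀ z ∈ (P : Subgroup G), (∀ y ∈ (P : Subgroup G), z * y = y * z) → g * z = z * g) (M : Ideal Cfsg.AlgInt) (hM : Cfsg.IsPModular 3 M) (k k₀ l e : ℕ) (hk : Nat.card ↥(Cfsg.principalBlock M G) = k) (hk₀ : Nat.card {χ : Cfsg.IrrCharacter G // χ ∈ Cfsg.principalBlock M G ∧ Cfsg.blockHeight 3 (Cfsg.principalBlock M G) (χ : G → ℂ) = 0} = k₀) (hl : Cfsg.blockRank 3 (Cfsg.principalBlock M G) = l) (he : ((P : Subgroup G) ⊔ Subgroup.centralizer ((P : Subgroup G) : Set G)).relIndex (Subgroup.normalizer ((P : Subgroup G) : Set G)) = e) : (e = 1 → k = 11 ∧ k₀ = 9 ∧ l = 1) ∧ (e = 2 → k = 10 ∧ k₀ = 6 ∧ l = 2) ∧ (e = 4 → k = 14 ∧ k₀ = 6 ∧ l = 4) ∧ (e = 8 → k = 16 ∧ k₀ = 6 ∧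 l = 5) := by
  have := Fintype.ofFinite G
  obtain ⟨⟨-, -, h1⟩, h2⟩ := hE
  obtain ⟨⟨ζ, hζ⟩, h3⟩ := exists_prime_orderOf_dvd_card' (G := center P) 3 h2.symm.dvd
  rw [orderOf_mk] at h3
  have h4 : zpowers ζ = center _ :=
    eq_of_le_of_card_ge (zpowers_le.2 hζ) (by rw [h2, Nat.card_zpowers, h3])
  have h5 : ∀ x : (P : Subgroup G), (x : G) ∈ zpowers (ζ : G) ↔ x ∈ center _ := fun x => by
    rw [← h4, ← mem_map_subtype, MonoidHom.map_zpowers]; rfl
  have h6 : ∀ g ∈ (P : Subgroup G), g * ζ = ζ * g := fun g hg =>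
    congrArg Subtype.val (mem_center_iff.1 hζ ⟨g, hg⟩)
  have h : XS (P : Subgroup G) ζ := ⟨isSyl_top P, h27, (orderOf_coe ζ).trans h3,
    le_antisymm (fun x hx => (h5 ⟨x, hx.1⟩).2 (mem_center_iff.2 fun g => Subtype.ext (hx.2 g g.2)))
      (zpowers_le.2 ⟨ζ.2, h6⟩), fun a ha b hb => (h5 ⁅(⟨a, ha⟩ : (P : Subgroup G)), ⟨b, hb⟩⁆).2
        (h1.le (commutator_mem_commutator (mem_top _) (mem_top _))), hexp,
    fun g hg => mem_centralizer_singleton_iff.2 (hNC g hg ζ ζ.2 fun y hy => (h6 y hy).symm)⟩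
  obtain ⟨n, u, r⟩ := exists_reps (P : Subgroup G) ζ
  have hn := h.count r
  have hev := fun t => even h r hM t
  rw [he, Fintype.card_fin] at hn hev
  rw [hk, hk₀, hl] at hev
  refine ⟨?_, ?_, ?_, ?_⟩ <;> rintro rfl
  · have hG := h.nil_top he
    have h7 := h.card_eq r hM
    rw [(blockRank_principal_eq_one_iff hM).2 hG] at h7 hl
    rw [lAt, (blockRank_principal_eq_one_iff hM).2 (Transfer.HasNormalPComplement.subgroup hG _),
      Fintype.card_fin] at h7
    exact ⟨by omega, hk₀ ▸ odd h hM hG (by omega), hl.symm⟩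
  all_goals
    have := hev ⟨0, by omega⟩ (by norm_num)
    omega

end Cfsg.Agent.S4752
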