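import Cfsg.Statements.S4754
import Mathlib
import Cfsg.Agent.Char.Inner
import Cfsg.Agent.S0943
import Cfsg.Agent.S0136

set_option autoImplicit false
open Cfsg

namespace Cfsg.Agent.S4754

open Cfsg.Agent.Char

/-- For elements x, y of a finite group G, the conjugacy class of x y equals the set of all products of a conjugate of x with a conjugate of y if and only if χ(1) χ(a x a⁻¹ b y b⁻¹) = χ(x) χ(y) for all a, b ∈ G and every irreducible character χ. -/
theorem result {G : Type*} [Group G] [Finite G] (x y : G) : (∀ z : G, IsConj (x * y) z ↔ ∃ a b : G, z = a * x * a⁻¹ * (b * y * b⁻¹)) ↔ ∀ (a b : G) (χ : Cfsg.IrrCharacter G), (χ : G → ℂ) 1 * (χ : G → ℂ) (a * x * a⁻¹ * (b * y * b⁻¹)) = (χ : G → ℂ) x * (χ : G → ℂ) y := by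
  constructor
  · intro h a b χ
    have hc : ∀ u v : G, IsConj x u → IsConj y v → (χ : G → ℂ) (u * v) = (χ : G → ℂ) (x * y) := by
      intro u v hu hv
      obtain ⟨c, rfl⟩ := isConj_iff.1 hu
      obtain ⟨d, rfl⟩ := isConj_iff.1 hv
      exact (χ.2.isClassFunction.eq_of_isConj ((h _).2 ⟨c, d, rfl⟩)).symm
    rw [S0943.result χ x y hc, hc _ _ (isConj_iff.2 ⟨a, rfl⟩) (isConj_iff.2 ⟨b, rfl⟩)]
  · intro h z
    constructor
    · intro hz
      obtain ⟨c, rfl⟩ := isConj_iff.1 hz
      exact ⟨c, c, by group⟩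
    · rintro ⟨a, b, rfl⟩
      rw [S0136.result]
      intro χ
      have h1 := h a b χ
      have h2 := h 1 1 χ
      simp only [one_mul, inv_one, mul_one] at h2
      exact mul_left_cancel₀ χ.2.one_ne_zero (h2.trans h1.symm)

end Cfsg.Agent.S4754
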