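import Cfsg.Statements.S4757
import Cfsg.Agent.Char.Codeg
import Cfsg.Agent.Grp.Cores
import Cfsg.Agent.Solv.Frobenius
import Cfsg.Agent.FGS.IndexP

set_option autoImplicit false
open Cfsg

namespace Cfsg.Agent.S4757

open Cfsg.Agent.Char Cfsg.Agent.Char.Codeg

/-- Let u ≠ 1 be an element of the finite group G and c a complex number such that every non-principal irreducible character χ satisfies χ(1) − χ(u) = c or χ(u) = 0. Then the following are equivalent: (a) u has order 2, G is generated by u together with O(G), the largest normal subgroup of G of odd order, and the centralizer of u is {1, u}; (b) G is not perfect; (c) c = 2. -/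
theorem result {G : Type*} [Group G] [Finite G] (u : G) (hu : u ≠ 1) (c : ℂ) (hyp : ∀ χ : Cfsg.IrrCharacter G, (χ : G → ℂ) ≠ (fun _ => (1 : ℂ)) → ((χ : G → ℂ) 1 - (χ : G → ℂ) u = c ∨ (χ : G → ℂ) u = 0)) : ((orderOf u = 2 ∧ Subgroup.zpowers u ⊔ Cfsg.oddCore G = ⊤ ∧ Subgroup.centralizer ({u} : Set G) = Subgroup.zpowers u) ↔ commutator G ≠ ⊤) ∧ (commutator G ≠ ⊤ ↔ c = 2) := by
  classical
  have hsum : ∑ χ : IrrCharacter G, ((χ : G → ℂ) 1 * (χ : G → ℂ) u).re = 0 := by
    rw [← Complex.re_sum, sum_irr_one_mul hu, Complex.zero_re]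
  have hne : ∀ χ : IrrCharacter G, χ ≠ irrOne G → (χ : G → ℂ) ≠ fun _ => 1 :=
    fun χ h e => h (Subtype.ext e)
  have hpos : ¬ ∀ χ : IrrCharacter G, χ ≠ irrOne G → 0 ≤ ((χ : G → ℂ) 1 * (χ : G → ℂ) u).re := by
    intro h
    rw [← Finset.add_sum_erase _ _ (Finset.mem_univ (irrOne G))] at hsum
    have := Finset.sum_nonneg (s := Finset.univ.erase (irrOne G)) fun χ hχ => h χ (Finset.ne_of_mem_erase hχ)
    simp only [irrOne_apply, mul_one, Complex.one_re] at hsum
    linarith
  have hc0 : c ≠ 0 := by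
    rintro rfl
    refine hpos fun χ hχ => ?_
    rcases hyp χ (hne χ hχ) with e | e
    · rw [← sub_eq_zero.1 e, ← coe_charDegree_irr, ← Nat.cast_mul, Complex.natCast_re]; positivity
    · simp [e]
  have hlin : ∀ lam : G →* ℂˣ, lam ≠ 1 → 1 - (lam u : ℂ) = c := fun lam h => by
    have := (hyp ⟨_, isIrrCharacter_hom lam⟩ fun e => h (hom_coe_inj (by simpa using e))).resolve_right
      (Units.ne_zero _)
    simpa using this
  have hlin2 : ∀ lam : G →* ℂˣ, lam ≠ 1 → (lam u : ℂ) = -1 := fun lam h => by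
    have h1 := hlin lam h
    have h2 := hlin lam⁻¹ (fun e => h (by ext x; simpa using congrArg Units.val (DFunLike.congr_fun e x)))
    have h3 : (lam u : ℂ) * lam u = 1 := by
      have : (lam u : ℂ) = (lam⁻¹ u : ℂ) := by linear_combination h2 - h1
      nth_rewrite 2 [this]
      simp
    refine (mul_self_eq_one_iff.1 h3).resolve_left fun e => hc0 ?_
    rw [← h1, e, sub_self]
  have hbc : commutator G ≠ ⊤ → c = 2 := fun h => by
    obtain ⟨lam, hl⟩ := exists_hom_ne_one h
    rw [← hlin lam hl, hlin2 lam hl]; norm_num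
  have hnl : c = 2 → ∀ χ : IrrCharacter G, (χ : G → ℂ) 1 ≠ 1 →
      0 ≤ ((χ : G → ℂ) 1 * (χ : G → ℂ) u).re ∧
        (((χ : G → ℂ) 1 * (χ : G → ℂ) u).re = 0 → (χ : G → ℂ) u = 0) := by
    rintro rfl χ h1
    rcases hyp χ (fun e => h1 (congrFun e 1)) with e | e
    · obtain ⟨d, hd0, hd⟩ := χ.2.exists_nat_one
      obtain ⟨k, rfl⟩ : ∃ k, d = k + 2 := ⟨d - 2, by
        have : d ≠ 1 := by rintro rfl; exact h1 (by simpa using hd)
        omega⟩
      have e' : (χ : G → ℂ) u = k := by rw [hd] at e; push_cast at e; linear_combination -e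
      rw [hd, e', ← Nat.cast_mul, Complex.natCast_re]
      refine ⟨by positivity, fun h => ?_⟩
      have : (k + 2) * k = 0 := by exact_mod_cast h
      have : k = 0 := by simpa using this
      simp [this]
    · exact ⟨by simp [e], fun _ => e⟩
  have hcb : c = 2 → commutator G ≠ ⊤ := fun h2 hG => hpos fun χ hχ =>
    (hnl h2 χ fun e => hne χ hχ (eq_one_of_charKer_eq_top χ.2
      (top_le_iff.1 (hG ▸ commutator_le_charKer_of_one χ.2.isCharacter e)))).1
  refine ⟨⟨?_, fun h => ?_⟩, hbc, hcb⟩
  · rintro ⟨h1, h2, -⟩ hG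
    have h3 : commutator G ≤ oddCore G :=
      Subgroup.Normal.commutator_le_of_self_sup_commutative_eq_top (H := Subgroup.zpowers u)
        (by rw [sup_comm, h2]) inferInstance
    have := Grp.orderOf_coprime_of_mem_pPrimeCore (h3 (hG ▸ Subgroup.mem_top u))
    rw [h1] at this
    norm_num at this
  · obtain ⟨lam, hl⟩ := exists_hom_ne_one h
    have h2 := hbc h
    set L : IrrCharacter G := ⟨_, isIrrCharacter_hom lam⟩ with hL
    have hL1 : L ≠ irrOne G := fun e => hl (hom_coe_inj (congrArg Subtype.val e))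
    have hoth : ∀ χ ∈ (Finset.univ.erase (irrOne G)).erase L, (χ : G → ℂ) 1 ≠ 1 := by
      intro χ hχ e
      obtain ⟨μ, hμ⟩ := exists_hom_of_isCharacter_one χ.2.isCharacter e
      have hμ1 : μ ≠ 1 := fun e => Finset.ne_of_mem_erase (Finset.mem_of_mem_erase hχ)
        (Subtype.ext (by rw [hμ, e]; rfl))
      have : μ * lam⁻¹ = 1 := by
        by_contra h3
        have := hlin2 _ h3
        simp [hlin2 _ hμ1, hlin2 _ hl] at this
        norm_num at this
      exact Finset.ne_of_mem_erase hχ (Subtype.ext (by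
        rw [hμ]; funext x; simpa [hL, mul_inv_eq_one₀] using congrArg Units.val (DFunLike.congr_fun this x)))
    have hmem : L ∈ Finset.univ.erase (irrOne G) := Finset.mem_erase.2 ⟨hL1, Finset.mem_univ _⟩
    rw [← Finset.add_sum_erase _ _ (Finset.mem_univ (irrOne G)), ← Finset.add_sum_erase _ _ hmem] at hsum
    have hz := (Finset.sum_eq_zero_iff_of_nonneg fun χ hχ => (hnl h2 χ (hoth χ hχ)).1).1 (by
      simpa [hL, hlin2 lam hl] using hsum)
    have hC := sum_irr_norm_sq u
    rw [← Finset.add_sum_erase _ _ (Finset.mem_univ (irrOne G)), ← Finset.add_sum_erase _ _ hmem,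
      Finset.sum_eq_zero fun χ hχ => by rw [(hnl h2 χ (hoth χ hχ)).2 (hz χ hχ)]; simp] at hC
    have hC2 : Nat.card (Subgroup.centralizer ({u} : Set G)) = 2 := by
      simp only [hL, hlin2 lam hl, irrOne_apply, norm_one, norm_neg] at hC
      exact_mod_cast hC.symm
    have hle : Subgroup.zpowers u ≤ Subgroup.centralizer {u} :=
      Subgroup.zpowers_le.2 (Subgroup.mem_centralizer_singleton_iff.2 rfl)
    have ho : orderOf u = 2 := by
      have := Subgroup.card_dvd_of_le hle
      rw [hC2, Nat.card_zpowers] at this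
      exact ((Nat.dvd_prime Nat.prime_two).1 this).resolve_left fun e => hu (orderOf_eq_one_iff.1 e)
    have he : Subgroup.centralizer {u} = Subgroup.zpowers u :=
      (Subgroup.eq_of_le_of_card_ge hle (by rw [hC2, Nat.card_zpowers, ho])).symm
    have huN : u ∉ lam.ker := fun e => by
      have := hlin2 lam hl
      rw [MonoidHom.mem_ker.1 e] at this
      norm_num at this
    have hi : lam.ker.index = 2 := ker_index_eq_of_orderOf_prime Nat.prime_two (orderOf_eq_prime (by
      by_contra h3
      have := hlin2 _ h3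
      simp [hlin2 _ hl] at this
      norm_num at this) hl)
    have hmz : ∀ a ∈ Subgroup.zpowers u, a = 1 ∨ a = u := fun a ha => by
      obtain ⟨k, hk, rfl⟩ := Finset.mem_image.1 (mem_zpowers_iff_mem_range_orderOf.1 ha)
      rw [ho, Finset.mem_range] at hk
      interval_cases k <;> simp
    have hodd : (Nat.card lam.ker).Coprime 2 := by
      rw [← ho, ← Nat.card_zpowers]
      refine (Solv.Frob.coprime_card_of_fpf (by rw [Subgroup.normalizer_eq_top]; exact le_top)
        fun a ha ha1 => ?_).symm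
      obtain rfl := (hmz a ha).resolve_left ha1
      rw [he, eq_bot_iff]
      rintro x ⟨hx, hx'⟩
      exact (hmz x hx').resolve_right fun e => huN (e ▸ hx)
    refine ⟨ho, top_le_iff.1 ?_, he⟩
    rw [← FGS.sup_eq_top_of_prime_index (H := lam.ker) (K := Subgroup.zpowers u) (hi ▸ Nat.prime_two)
      (fun e => huN (Subgroup.zpowers_le.1 e)), sup_comm]
    exact sup_le_sup_left (Grp.le_pPrimeCore inferInstance hodd) _

end Cfsg.Agent.S4757
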