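import Cfsg.Statements.S4762
import Cfsg.Agent.Char.DegreeP
import Cfsg.Agent.Char.ExtraspecialChar
import Cfsg.Agent.Char.Codeg
import Cfsg.Agent.Char.Prod
import Cfsg.Agent.Grp.Fitting
import Cfsg.Agent.Grp.PChain
import Cfsg.Agent.Grp.PFrattini
import Cfsg.Agent.S0095

set_option autoImplicit false
open Cfsg

namespace Cfsg.Agent.S4762

open Cfsg.Agent.Char Subgroup
open scoped commutatorElement

theorem isPGroup_of_unique {G : Type*} [Group G] [Finite G] [Group.IsNilpotent G] (p : ℕ)
    [hp : Fact p.Prime] (χ : IrrCharacter G) (hχ : p ∣ charDegree (χ : G → ℂ))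
    (hu : ∀ ψ : IrrCharacter G, p ∣ charDegree (ψ : G → ℂ) → ψ = χ) : IsPGroup p G := by
  classical
  set P := pCore p G with hP
  set Q := pPrimeCore p G with hQ
  have hc := Grp.isComplement'_pCore_pPrimeCore_of_isNilpotent (G := G) p
  have comm : ∀ (a : P) (b : Q), Commute (P.subtype a) (Q.subtype b) := fun a b =>
    Subgroup.commute_of_normal_of_disjoint P Q inferInstance inferInstance hc.disjoint a b a.2 b.2
  have hinj : Function.Injective (P.subtype.noncommCoprod Q.subtype comm) := by
    rw [MonoidHom.noncommCoprod_injective]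
    refine ⟨P.subtype_injective, Q.subtype_injective, ?_⟩
    simpa using hc.disjoint
  have hsurj : Function.Surjective (P.subtype.noncommCoprod Q.subtype comm) := by
    rw [← MonoidHom.range_eq_top, MonoidHom.noncommCoprod_range]
    simpa using Grp.pCore_sup_pPrimeCore_of_isNilpotent (G := G) p
  let e : P × Q ≃* G := MulEquiv.ofBijective _ ⟨hinj, hsurj⟩
  obtain ⟨α, β, hα, hβ, hαβ⟩ := (χ.2.comp_mulEquiv e).exists_prodFun
  have hdeg : charDegree (χ : G → ℂ) = charDegree α * charDegree β := by
    apply charDegree_eq_of_one_eq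
    have := congrFun hαβ 1
    simp only [map_one, Prod.fst_one, Prod.snd_one] at this
    rw [this]; push_cast
    rw [coe_charDegree_of_isCharacter hα.isCharacter, coe_charDegree_of_isCharacter hβ.isCharacter]
  have hβp : ¬ p ∣ charDegree β := fun h =>
    Grp.not_dvd_card_pPrimeCore p G (h.trans (Codeg.charDegree_dvd_card hβ))
  have hαp : p ∣ charDegree α := by
    rw [hdeg] at hχ
    exact ((Nat.Prime.dvd_mul hp.out).1 hχ).resolve_right hβp
  have key : ∀ γ : Q → ℂ, IsIrrCharacter Q γ → γ = β := by
    intro γ hγ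
    have h1 := (hα.prodFun hγ).comp_mulEquiv e.symm
    have h2 := hu ⟨_, h1⟩ (by
      have : charDegree (fun x : G => α (e.symm x).1 * γ (e.symm x).2) =
          charDegree α * charDegree γ := by
        apply charDegree_eq_of_one_eq
        simp only [map_one, Prod.fst_one, Prod.snd_one]
        push_cast
        rw [coe_charDegree_of_isCharacter hα.isCharacter,
          coe_charDegree_of_isCharacter hγ.isCharacter]
      change p ∣ charDegree (fun x : G => α (e.symm x).1 * γ (e.symm x).2)
      rw [this]
      exact hαp.mul_right _)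
    have h3 : (fun x : P × Q => α x.1 * γ x.2) = fun x => α x.1 * β x.2 := by
      rw [← hαβ, ← h2]
      funext x
      simp
    exact (prodFun_injective hα hγ hα hβ h3).2
  have hQ1 : Q = ⊥ := by
    rw [eq_bot_iff]
    intro q hq
    have := eq_one_of_forall_irr (G := Q) (g := ⟨q, hq⟩) fun ψ => by
      rw [key _ ψ.2, ← key _ isIrrCharacter_one]
    exact mem_bot.2 (congrArg Subtype.val this)
  have hP1 : P = ⊤ := by
    have := Grp.pCore_sup_pPrimeCore_of_isNilpotent (G := G) p
    rwa [← hQ, hQ1, sup_bot_eq] at this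
  have := Grp.pCore_isPGroup p G
  rw [← hP, hP1] at this
  exact this.of_equiv Subgroup.topEquiv

theorem arith {p a c b : ℕ} (hp : p.Prime) (h : p ^ (a + c) = p ^ a + p ^ b) :
    p = 2 ∧ c = 1 ∧ a = b := by
  have hp1 := hp.one_lt
  have hc : c ≠ 0 := by
    rintro rfl
    have : 0 < p ^ b := by positivity
    simp at h; omega
  have h1 : p ^ a * (p ^ c - 1) = p ^ b := by
    rw [Nat.mul_sub, ← pow_add, h]; simp
  have h2 : p ^ c - 1 ∣ p ^ b := Dvd.intro_left _ h1
  obtain ⟨k, -, hk⟩ := (Nat.dvd_prime_pow hp).1 h2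
  have hpc : 1 < p ^ c := Nat.one_lt_pow hc hp1
  have hk0 : k = 0 := by
    by_contra hk0
    have h3 : p ∣ p ^ c - 1 := hk ▸ dvd_pow_self p hk0
    have h4 : p ∣ p ^ c := dvd_pow_self p hc
    have : p ∣ 1 := by
      have := (Nat.dvd_sub_iff_right hpc.le h4).1 h3
      exact this
    exact hp.one_lt.ne' (Nat.dvd_one.1 this)
  subst hk0
  have h5 : p ^ c = 2 := by simp at hk; omega
  have h6 := (Nat.Prime.pow_eq_iff Nat.prime_two).1 h5
  refine ⟨h6.1, h6.2, ?_⟩
  rw [hk] at h1
  simp only [pow_zero, mul_one] at h1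
  exact Nat.pow_right_injective hp1 h1


/-- Let p be a prime and G a finite nilpotent group. Then G has exactly one irreducible complex character of degree divisible by p if and only if p = 2 and G is an extraspecial 2-group. -/
theorem result {G : Type*} [Group G] [Finite G] [Group.IsNilpotent G] (p : ℕ) [Fact p.Prime] : Nat.card {χ : Cfsg.IrrCharacter G // p ∣ Cfsg.charDegree (χ : G → ℂ)} = 1 ↔ (p = 2 ∧ Cfsg.IsExtraspecial 2 G) := by
  classical
  have hp : p.Prime := Fact.out
  constructor
  · intro h
    obtain ⟨⟨χ, hχ⟩, hu⟩ := Nat.card_eq_one_iff_exists.1 h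
    have hu' : ∀ ψ : IrrCharacter G, p ∣ charDegree (ψ : G → ℂ) → ψ = χ := fun ψ hψ =>
      congrArg Subtype.val (hu ⟨ψ, hψ⟩)
    have hG := isPGroup_of_unique p χ hχ hu'
    obtain ⟨n, hn⟩ := IsPGroup.iff_card.1 hG
    have hsum := card_eq_index_commutator_add_sum (G := G)
    have hfil : Finset.univ.filter (fun ψ : IrrCharacter G => ¬ ψ.1 1 = 1) = {χ} := by
      ext ψ
      simp only [Finset.mem_filter, Finset.mem_univ, true_and, Finset.mem_singleton]
      constructor
      · intro h1
        apply hu'
        have h2 := charDegree_irr_dvd_card ψ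
        rw [hn] at h2
        obtain ⟨k, -, hk⟩ := (Nat.dvd_prime_pow hp).1 h2
        rw [hk]
        apply dvd_pow_self
        rintro rfl
        apply h1
        rw [← coe_charDegree_irr ψ, hk]; simp
      · rintro rfl h1
        have := (charDegree_eq_one_iff ψ.2.isCharacter).2 h1
        rw [this] at hχ
        exact hp.one_lt.ne' (Nat.dvd_one.1 hχ)
    rw [hfil, Finset.sum_singleton, ← coe_charDegree_irr χ] at hsum
    have hsum' : Nat.card G = (commutator G).index + charDegree (χ : G → ℂ) ^ 2 := by
      exact_mod_cast hsum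
    obtain ⟨a, ha⟩ := IsPGroup.iff_card.1 (hG.to_quotient (commutator G))
    obtain ⟨c, hc⟩ := IsPGroup.iff_card.1 (hG.to_subgroup (commutator G))
    have h2 := charDegree_irr_dvd_card χ
    rw [hn] at h2
    obtain ⟨b, -, hb⟩ := (Nat.dvd_prime_pow hp).1 h2
    have hi : (commutator G).index = p ^ a := by rw [Subgroup.index_eq_card, ha]
    have hac : Nat.card G = p ^ (a + c) := by
      rw [← (commutator G).index_mul_card, hi, hc, pow_add]
    rw [hac, hi, hb, ← pow_mul] at hsum'
    obtain ⟨rfl, rfl, hab⟩ := arith hp hsum'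
    have hG'Z : commutator G ≤ center G :=
      Grp.PChain.le_center_of_card_eq_prime hG _ (by simpa using hc)
    have hle := charDegree_sq_le_index_center χ
    rw [hb, ← pow_mul, ← hab, ← hi] at hle
    have hZ : commutator G = center G := by
      apply Subgroup.eq_of_le_of_card_ge hG'Z
      have e1 := (commutator G).index_mul_card
      have e2 := (center G).index_mul_card
      have e3 : 0 < (commutator G).index := Nat.pos_of_ne_zero Subgroup.index_ne_zero_of_finite
      by_contra hlt
      push Not at hlt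
      have : (commutator G).index * Nat.card (commutator G) <
          (center G).index * Nat.card (center G) :=
        Nat.mul_lt_mul_of_le_of_lt hle hlt (lt_of_lt_of_le e3 hle)
      omega
    refine ⟨rfl, ⟨hG, ?_, hZ⟩, by rw [← hZ]; simpa using hc⟩
    apply le_antisymm
    · apply Grp.PFrattini.frattini_le (p := 2) hZ.le
      intro g
      rw [mem_center_iff]
      intro x
      have h1 : ⁅g, x⁆ ∈ center G := hG'Z (commutator_mem_commutator (mem_top _) (mem_top _))
      have h2 : ⁅g, x⁆ ^ 2 = 1 := by
        have := pow_card_eq_one' (G := commutator G)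
          (x := ⟨⁅g, x⁆, commutator_mem_commutator (mem_top _) (mem_top _)⟩)
        rw [hc] at this
        simpa using congrArg Subtype.val this
      have h3 : g * x = ⁅g, x⁆ * x * g := by rw [commutatorElement_def]; group
      have h4 := mem_center_iff.1 h1
      calc x * g ^ 2 = ⁅g, x⁆ ^ 2 * x * g * g := by rw [h2, pow_two]; group
        _ = ⁅g, x⁆ * (⁅g, x⁆ * x * g) * g := by rw [pow_two]; group
        _ = ⁅g, x⁆ * (g * x) * g := by rw [← h3]
        _ = (⁅g, x⁆ * g) * x * g := by group
        _ = g * (⁅g, x⁆ * x * g) := by rw [← h4 g]; group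
        _ = g ^ 2 * x := by rw [← h3, pow_two]; group
    · rw [← hZ]; exact Grp.PFrattini.commutator_le_frattini hG
  · rintro ⟨rfl, hE⟩
    obtain ⟨n, hn1, hn⟩ := Cfsg.Agent.S0095.result hE
    have := extraspecial_card_irr hE hn
    rw [show (2 - 1 : ℕ) = 1 from rfl] at this
    rw [← this]
    refine Nat.card_congr (Equiv.subtypeEquivRight fun χ => ?_)
    constructor
    · intro h
      refine (extraspecial_irr_cases hE hn χ.2).resolve_left fun h1 => ?_
      rw [(charDegree_eq_one_iff χ.2.isCharacter).2 h1] at h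
      omega
    · intro h
      rw [charDegree_eq_of_one_eq (n := 2 ^ n) (by rw [h]; push_cast; rfl)]
      exact dvd_pow_self 2 (by omega)

end Cfsg.Agent.S4762
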