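import Cfsg.Statements.S4765
import Mathlib
import Cfsg.Agent.KSG.SL2Deg
import Cfsg.Agent.Char.Quot

set_option autoImplicit false
open Cfsg

namespace Cfsg.Agent.S4765

open KSG KSG.GL2 KSG.M2 Char

/-- Let F be a finite field of characteristic p with at least 4 elements. Then PSL(2,F) has exactly one irreducible complex character of degree divisible by p, and its degree is the order of F. -/
theorem result (p : ℕ) [Fact p.Prime] (F : Type*) [Field F] [Fintype F] [CharP F p] (hF : 4 ≤ Fintype.card F) : Nat.card {χ : Cfsg.IrrCharacter (Matrix.ProjectiveSpecialLinearGroup (Fin 2) F) // p ∣ Cfsg.charDegree (χ : Matrix.ProjectiveSpecialLinearGroup (Fin 2) F → ℂ)} = 1 ∧ ∀ χ : Cfsg.IrrCharacter (Matrix.ProjectiveSpecialLinearGroup (Fin 2) F), p ∣ Cfsg.charDegree (χ : Matrix.ProjectiveSpecialLinearGroup (Fin 2) F → ℂ) → Cfsg.charDegree (χ : Matrix.ProjectiveSpecialLinearGroup (Fin 2) F → ℂ) = Fintype.card F := by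
  classical
  obtain ⟨g1, _⟩ := exists_fact_noEigS (F := F)
  have hp : p.Prime := Fact.out
  have hq : p ∣ Fintype.card F := by
    obtain ⟨n, -, hn⟩ := FiniteField.card F p
    rw [hn]
    exact dvd_pow_self p n.ne_zero
  have key : ∀ χ : Matrix.SpecialLinearGroup (Fin 2) F → ℂ, IsIrrCharacter _ χ →
      p ∣ charDegree χ → χ = stS F := by
    intro χ hχ hd
    have e := coe_charDegree_of_isCharacter hχ.isCharacter
    have hp1 : ∀ {m : ℕ}, p ∣ m → m = Fintype.card F + 1 ∨ m + 1 = Fintype.card F → False := by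
      rintro m hm (h | h)
      · exact hp.one_lt.ne' (Nat.dvd_one.1 ((Nat.dvd_add_right hq).1 (h ▸ hm)))
      · exact hp.one_lt.ne' (Nat.dvd_one.1 ((Nat.dvd_add_right hm).1 (h ▸ hq)))
    rcases irrS_cases_deg g1 hχ with ⟨-, h⟩ | ⟨h, -⟩ | ⟨-, h⟩ | ⟨-, h⟩ | ⟨-, h⟩ | ⟨-, h⟩
    · rw [← e, Nat.cast_eq_one] at h
      exact absurd (Nat.dvd_one.1 (h ▸ hd)) hp.one_lt.ne'
    · exact h
    · exact (hp1 hd (Or.inl (by rw [← e] at h; exact_mod_cast h))).elim
    · exact (hp1 hd (Or.inr (by rw [← e, eq_sub_iff_add_eq] at h; exact_mod_cast h))).elim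
    · exact (hp1 (hd.mul_left 2) (Or.inl (by rw [← e] at h; exact_mod_cast h))).elim
    · exact (hp1 (hd.mul_left 2) (Or.inr (by
        rw [← e, eq_sub_iff_add_eq] at h; exact_mod_cast h))).elim
  have hs := QuotientGroup.mk'_surjective (Subgroup.center (Matrix.SpecialLinearGroup (Fin 2) F))
  have key' : ∀ χ : IrrCharacter (Matrix.ProjectiveSpecialLinearGroup (Fin 2) F),
      p ∣ charDegree (χ : Matrix.ProjectiveSpecialLinearGroup (Fin 2) F → ℂ) →
        (inflateIrr _ hs χ : Matrix.SpecialLinearGroup (Fin 2) F → ℂ) = stS F := fun χ h =>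
    key _ (inflateIrr _ hs χ).2 (by rwa [charDegree_inflateIrr])
  refine ⟨?_, fun χ h => ?_⟩
  · rw [Nat.card_eq_one_iff_unique]
    refine ⟨⟨fun a b => Subtype.ext (inflateIrr_injective _ hs (Subtype.ext ?_))⟩, ?_⟩
    · rw [key' a.1 a.2, key' b.1 b.2]
    · obtain ⟨ψ, hψ⟩ := (mem_range_inflateIrr _ hs ⟨stS F, isIrr_stS⟩).2 (by
        intro n hn
        rw [QuotientGroup.ker_mk', SL_mem_center_iff] at hn
        obtain ⟨a, -, e⟩ := sl_scal hn
        change stS F n = stS F 1
        rw [stS_one, stS, res_apply, e, (vals_stw (Matrix.SpecialLinearGroup.toGL g1) 1).scal,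
          MulChar.one_apply_coe, mul_one, mul_one])
      refine ⟨⟨ψ, ?_⟩⟩
      rw [← charDegree_inflateIrr _ hs, hψ, charDegree_eq_of_one_eq stS_one]
      exact hq
  · rw [← charDegree_inflateIrr _ hs, key' χ h, charDegree_eq_of_one_eq stS_one]

end Cfsg.Agent.S4765
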