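import Mathlib
import Cfsg.Statements.S4768
import Cfsg.Agent.S4713
import Cfsg.Agent.S0864
import Cfsg.Agent.Char.Gallagher

set_option autoImplicit false
open Cfsg

namespace Cfsg.Agent.S4768
open Cfsg.Agent.Char
open Subgroup
open scoped commutatorElement
universe u

theorem exists_irr_not_dvd {G : Type*} [Group G] [Fintype G] {φ : G → ℂ} (hφ : IsCharacter G φ)
    {p : ℕ} (h : ¬ p ∣ charDegree φ) :
    ∃ ψ : IrrCharacter G, classInner φ ψ ≠ 0 ∧ ¬ p ∣ charDegree (ψ : G → ℂ) := by
  obtain ⟨c, hc, e⟩ := hφ.exists_coeff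
  by_contra hne
  push Not at hne
  apply h
  have : charDegree φ = ∑ χ : IrrCharacter G, c χ * charDegree (χ : G → ℂ) := by
    apply charDegree_eq_of_one_eq
    rw [e]
    simp [coe_charDegree_irr]
  rw [this]
  refine Finset.dvd_sum fun χ _ => ?_
  by_cases h0 : c χ = 0
  · simp [h0]
  · exact (hne χ (by rw [hc]; exact_mod_cast h0)).mul_left _

/-- If all irreducible characters not containing the abelian normal `p`-subgroup `M ≠ 1` in their
kernel have `p'`-degree, then `P' ≤ M`. -/
theorem commutator_le_of_rel {G : Type*} [Group G] [Finite G] {p : ℕ} [hp : Fact p.Prime]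
    (hG : IsPSolvable p G) (P : Sylow p G) (M : Subgroup G) [hM : M.Normal] (hMp : IsPGroup p M)
    (hne : M ≠ ⊥)
    (h : ∀ χ : IrrCharacter G, p ∣ charDegree (χ : G → ℂ) → ∀ m ∈ M, χ.1 m = χ.1 1) :
    ⁅(P : Subgroup G), (P : Subgroup G)⁆ ≤ M := by
  classical
  have := Fintype.ofFinite G
  have := Fintype.ofFinite M
  have := Fintype.ofFinite (P : Subgroup G)
  have hMP : M ≤ P := (Grp.le_pCore hM hMp).trans (Grp.pCore_le_sylow P)
  obtain ⟨m, hm, hm1⟩ := (M.bot_or_exists_ne_one).resolve_left hne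
  obtain ⟨χ, hχ⟩ : ∃ χ : IrrCharacter G, χ.1 m ≠ χ.1 1 := by
    by_contra hc
    push Not at hc
    exact hm1 (eq_one_of_forall_irr hc)
  obtain ⟨μ, hμ, hμd⟩ := exists_irr_not_dvd (p := p) (χ.2.isCharacter.restrict (P : Subgroup G))
    fun hd => hχ (h χ hd m hm)
  have hμ1 : μ.1 1 = 1 := by
    obtain ⟨k, hk⟩ := P.isPGroup'.exists_card_eq
    obtain ⟨j, -, hj⟩ := (Nat.dvd_prime_pow hp.out).1 (hk ▸ charDegree_irr_dvd_card μ)
    rcases j with _ | j
    · rw [← coe_charDegree_irr, hj]; simp
    · exact absurd (hj ▸ dvd_pow_self p j.succ_ne_zero) hμd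
  obtain ⟨ν, hν⟩ := μ.2.isCharacter.exists_linear hμ1
  let lam : M → ℂ := fun n => ν (inclusion hMP n)
  have hlam : IsIrrCharacter M lam := isIrrCharacter_linear (ν.comp (inclusion hMP))
  have hover : classInner (fun n : M => χ.1 n) lam ≠ 0 := by
    refine inner_comp_ne_zero_of_sub (inclusion hMP) μ.2.isCharacter
      ((χ.2.isCharacter.restrict _).sub_irr μ.2 hμ) hlam.isCharacter ?_
    rw [hν]
    exact (hlam.inner_self ▸ one_ne_zero : classInner lam lam ≠ 0)
  have hlam1 : lam ≠ fun _ => 1 := fun e =>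
    hχ (restrict_eq_const_of_inner_one_ne_zero M χ.2 (e ▸ hover) ⟨m, hm⟩)
  set I := inertia M lam
  have := Fintype.ofFinite I
  have hPI : (P : Subgroup G) ≤ I := by
    intro g hg
    rw [mem_inertia']
    intro n
    have : inclusion hMP ⟨g * n * g⁻¹, hM.conj_mem n n.2 g⟩ =
      ⟨g, hg⟩ * inclusion hMP n * ⟨g, hg⟩⁻¹ := rfl
    simp only [lam, this, map_mul, map_inv, mul_inv_cancel_comm]
  have hMI : M ≤ I := hMP.trans hPI
  have := Fintype.ofFinite (M.subgroupOf I)
  have hl' := isIrr_subgroupOf hMI hlam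
  obtain ⟨η, hη, hη1, hηl⟩ := S0864.result (M.subgroupOf I) _ ⟨hl'.isCharacter, by
      change (ν (inclusion hMP 1) : ℂ) = 1
      simp⟩
    (fun g n => (mem_inertia' M).1 g.2 ⟨_, n.2⟩) (by
      intro q hq hqd
      obtain ⟨k, hk⟩ := hMp.exists_card_eq
      have h1 : orderOf (fun x : M.subgroupOf I => lam ⟨(x : I), x.2⟩) ∣ p ^ k := by
        rw [orderOf_dvd_iff_pow_eq_one]
        funext x
        change (ν (inclusion hMP ⟨(x : I), x.2⟩) : ℂ) ^ p ^ k = 1
        rw [← Units.val_pow_eq_pow_val, ← map_pow, ← map_pow, ← hk, pow_card_eq_one']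
        simp
      obtain rfl : q = p := (Nat.prime_dvd_prime_iff_eq hq hp.out).1
        (hq.dvd_of_dvd_pow (hqd.trans h1))
      refine ⟨(P : Subgroup G).subgroupOf I, subgroupOf_mono I hMP,
        fun x => ν ⟨(x : I), x.2⟩, ?_, ?_, ?_, ?_, fun n => rfl⟩
      · exact ((hp.out.coprime_iff_not_dvd).2 fun hd => P.not_dvd_index
          (hd.trans (relIndex_dvd_index_of_le hPI))).symm
      · rw [relIndex_subgroupOf hPI]
        obtain ⟨a, ha⟩ := P.isPGroup'.exists_card_eq
        obtain ⟨j, -, hj⟩ := (Nat.dvd_prime_pow hp.out).1 (ha ▸ relIndex_dvd_card M (P : Subgroup G))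
        exact ⟨j, hj⟩
      · exact (isIrrCharacter_linear (ν.comp (subgroupOfEquivOfLe hPI).toMonoidHom)).isCharacter
      · change (ν 1 : ℂ) = 1
        simp)
  have hηe : (fun n : M.subgroupOf I => η n) = fun x : M.subgroupOf I => lam ⟨(x : I), x.2⟩ := funext hηl
  have hs := QuotientGroup.mk'_surjective (M.subgroupOf I)
  have h2 := ((S4713.result p (PLocal.IsPSolvable.quotient (PLocal.IsPSolvable.subgroup hG I)
    (M.subgroupOf I)) ((P.subtype hPI).mapSurjective hs)).2 fun β hd => ?_).2
  · rw [commutator_le]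
    intro a ha b hb
    have h3 := congrArg Subtype.val (h2.1.1 ⟨_, ⟨a, hPI ha⟩, ha, rfl⟩ ⟨_, ⟨b, hPI hb⟩, hb, rfl⟩)
    have h4 : ⁅(⟨a, hPI ha⟩ : I), ⟨b, hPI hb⟩⁆ ∈ M.subgroupOf I := by
      rw [← QuotientGroup.eq_one_iff, ← QuotientGroup.mk'_apply, map_commutatorElement,
        commutatorElement_eq_one_iff_mul_comm]
      exact h3
    exact h4
  · have hβ1 : ∀ n : M.subgroupOf I, (inflateIrr _ hs β).1 n = (inflateIrr _ hs β).1 1 := by
      intro n
      rw [inflateIrr_apply, inflateIrr_apply, QuotientGroup.mk'_apply,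
        (QuotientGroup.eq_one_iff _).2 n.2, map_one]
    have hirr := gallagher_isIrr hη (hηe ▸ hl') (inflateIrr _ hs β).2 hβ1
    have hres : (fun n : M => ((inflateIrr _ hs β).1 * η) ⟨n, hMI n.2⟩) =
        (inflateIrr _ hs β).1 1 • lam := by
      funext n
      rw [Pi.mul_apply, hβ1 ⟨⟨n, hMI n.2⟩, n.2⟩, hηl ⟨⟨n, hMI n.2⟩, n.2⟩]
      rfl
    have hin : classInner (fun n : M => ((inflateIrr _ hs β).1 * η) ⟨n, hMI n.2⟩) lam ≠ 0 := by
      rw [hres, classInner_smul_left, hlam.inner_self, mul_one]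
      exact (inflateIrr _ hs β).2.one_ne_zero
    have hind := isIrr_indFun_of_inertia_le hMI hirr hlam le_rfl hin
    have hin2 := classInner_restrict_indFun_of_inertia_le hMI hirr hlam le_rfl hin
    have h3 := h ⟨_, hind⟩ (by
      have : charDegree (indFun I ((inflateIrr _ hs β).1 * η)) =
          I.index * charDegree β.1 := by
        apply charDegree_eq_of_one_eq
        rw [indFun_one, Pi.mul_apply, hη1, inflateIrr_apply, map_one, Nat.cast_mul,
          coe_charDegree_irr, mul_one]
      exact this ▸ hd.mul_left _)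
    apply hin
    rw [← hin2]
    have : (fun n : M => indFun I ((inflateIrr _ hs β).1 * η) n) =
        indFun I ((inflateIrr _ hs β).1 * η) 1 • fun _ => (1 : ℂ) := by
      funext n
      simpa using h3 n n.2
    rw [this, classInner_smul_left, isIrrCharacter_one.inner_eq_zero hlam hlam1.symm, mul_zero]

theorem aux (p : ℕ) [hp : Fact p.Prime] (G : Type u) [Group G] [Finite G] (hG : IsPSolvable p G)
    (P : Sylow p G) : derivedSeries ↥(P : Subgroup G)
      (Nat.card {χ : IrrCharacter G // p ∣ charDegree (χ : G → ℂ)} + 1) = ⊥ := by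
  induction hn : Nat.card G using Nat.strong_induction_on generalizing G with
  | _ n ih =>
  by_cases h0 : Nat.card {χ : IrrCharacter G // p ∣ charDegree (χ : G → ℂ)} = 0
  · rw [h0, zero_add, derivedSeries_one, commutator_eq_bot_iff_center_eq_top, eq_top_iff]
    have hc := ((S4713.result p hG P).2 fun χ hd =>
      (Nat.card_eq_zero.1 h0).elim (fun h => h.elim ⟨χ, hd⟩) fun h => (h.not_finite inferInstance).elim).2
    exact fun a _ => mem_center_iff.2 fun b => hc.1.1 b a
  have hnt : Nontrivial G := by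
    by_contra hc
    rw [not_nontrivial_iff_subsingleton] at hc
    apply h0
    rw [Nat.card_eq_zero]
    refine Or.inl ⟨fun χ => hp.out.one_lt.ne' (Nat.dvd_one.1 ?_)⟩
    rw [← charDegree_eq_one_of_comm (fun a b => Subsingleton.elim _ _) χ.1]
    exact χ.2
  have key : ∀ (M : Subgroup G) [M.Normal], M ≠ ⊥ →
      ∃ k ≤ Nat.card {χ : IrrCharacter G // p ∣ charDegree (χ : G → ℂ)},
        derivedSeries (P : Subgroup G) (k + 1) ≤ M.subgroupOf P ∧
        (k = Nat.card {χ : IrrCharacter G // p ∣ charDegree (χ : G → ℂ)} →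
          ∀ χ : IrrCharacter G, p ∣ charDegree (χ : G → ℂ) → ∀ m ∈ M, χ.1 m = χ.1 1) := by
    intro M _ hM
    have hs := QuotientGroup.mk'_surjective M
    let F : {χ : IrrCharacter (G ⧸ M) // p ∣ charDegree (χ : G ⧸ M → ℂ)} →
        {χ : IrrCharacter G // p ∣ charDegree (χ : G → ℂ)} :=
      fun χ => ⟨inflateIrr _ hs χ.1, by rw [charDegree_inflateIrr]; exact χ.2⟩
    have hF : Function.Injective F := fun a b e =>
      Subtype.ext (inflateIrr_injective _ hs (congrArg Subtype.val e))
    refine ⟨_, Nat.card_le_card_of_injective F hF, ?_, fun e χ hχ m hm => ?_⟩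
    · have h1 := ih _ (hn ▸ Grp.card_quotient_lt M hM) (G ⧸ M) (PLocal.IsPSolvable.quotient hG M)
        (P.mapSurjective hs) rfl
      have h2 := map_derivedSeries_le_derivedSeries
        ((QuotientGroup.mk' M).subgroupMap (P : Subgroup G))
        (Nat.card {χ : IrrCharacter (G ⧸ M) // p ∣ charDegree (χ : G ⧸ M → ℂ)} + 1)
      intro x hx
      have h3 := h2 ⟨x, hx, rfl⟩
      erw [h1] at h3
      exact (QuotientGroup.eq_one_iff (x : G)).1 (congrArg Subtype.val (mem_bot.1 h3))
    · obtain ⟨ψ, hψ⟩ := ((Nat.bijective_iff_injective_and_card F).2 ⟨hF, e⟩).2 ⟨χ, hχ⟩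
      exact (mem_range_inflateIrr _ hs χ).1 ⟨ψ.1, congrArg Subtype.val hψ⟩ m
        (by rwa [QuotientGroup.ker_mk'])
  obtain ⟨M, hMn, hM, hMp | hMp⟩ := PLocal.IsPSolvable.exists_normal hG
  · let Z : Subgroup G := (center M).map M.subtype
    have hZn : Z.Normal := inferInstance
    have hZ : Z ≠ ⊥ := by
      have : Nontrivial M := (nontrivial_iff_ne_bot M).2 hM
      have := hMp.center_nontrivial
      rw [Ne, map_eq_bot_iff_of_injective _ M.subtype_injective]
      exact (nontrivial_iff_ne_bot _).1 this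
    have hZp : IsPGroup p Z := (hMp.to_subgroup _).map _
    have hab : ∀ k, derivedSeries (P : Subgroup G) k ≤ Z.subgroupOf P →
        derivedSeries (P : Subgroup G) (k + 1) = ⊥ := by
      intro k hk
      rw [derivedSeries_succ, commutator_eq_bot_iff_le_centralizer]
      intro a ha b hb
      obtain ⟨a', ha', e⟩ := hk ha
      obtain ⟨b', -, e'⟩ := hk hb
      apply Subtype.ext
      change (b : G) * a = a * b
      have := congrArg Subtype.val (mem_center_iff.1 ha' b')
      have e1 : (a : G) = a' := e.symm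
      have e2 : (b : G) = b' := e'.symm
      rw [e1, e2]
      exact this
    obtain ⟨k, hk, h1, h2⟩ := key Z hZ
    rcases hk.eq_or_lt with e | hlt
    · have h3 := commutator_le_of_rel hG P Z hZp hZ (h2 e)
      have h4 : derivedSeries (P : Subgroup G) 2 = ⊥ := by
        apply hab 1
        rw [derivedSeries_one, ← map_subtype_le_map_subtype, map_commutator_eq, range_subtype,
          subgroupOf_map_subtype]
        exact le_inf h3 (commutator_le_self _)
      exact eq_bot_iff.2 ((derivedSeries_antitone _ (by omega)).trans h4.le)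
    · exact eq_bot_iff.2 ((derivedSeries_antitone _ (by omega)).trans (hab _ h1).le)
  · obtain ⟨k, hk, h1, -⟩ := key M hM
    refine eq_bot_iff.2 ((derivedSeries_antitone _ (by omega)).trans (h1.trans ?_))
    rw [← inf_subgroupOf_left, Grp.inf_eq_bot_of_isPGroup_of_coprime P.isPGroup' hMp,
      bot_subgroupOf]


/-- Let p be a prime, G a finite p-solvable group and P a Sylow p-subgroup of G. If n is the number of irreducible complex characters of G whose degree is divisible by p, then the (n+1)-st term of the derived series of P is trivial. (The p-solvable case has a direct inductive proof.) -/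
theorem result {G : Type*} [Group G] [Finite G] (p : ℕ) [Fact p.Prime] (hG : Cfsg.IsPSolvable p G) (P : Sylow p G) : derivedSeries ↥(P : Subgroup G) (Nat.card {χ : Cfsg.IrrCharacter G // p ∣ Cfsg.charDegree (χ : G → ℂ)} + 1) = ⊥ := by
  exact aux p G hG P

end Cfsg.Agent.S4768
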