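import Cfsg.Statements.S4781
import Cfsg.Agent.Palfy.ND4
import Cfsg.Agent.Char.MinNonab
import Cfsg.Agent.Char.DegreeP

set_option autoImplicit false
open Cfsg

namespace Cfsg.Agent.S4781

open Subgroup Cfsg.Agent.Char Cfsg.Agent.Palfy

/-- Let G be a finite solvable group in which no irreducible complex character degree a with 1 < a divides a larger irreducible character degree, and suppose the character degree graph of G (primes dividing some degree, distinct primes adjacent when their product divides a degree) has exactly two connected components. Then G has exactly three distinct irreducible character degrees. -/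
theorem result {G : Type*} [Group G] [Finite G] [Group.IsSolvable G] (hnd : ∀ a ∈ Cfsg.charDegrees G, ∀ b ∈ Cfsg.charDegrees G, 1 < a → a < b → ¬ a ∣ b) (htwo : Nat.card ((Cfsg.degreeGraph G).induce (Cfsg.degreePrimes G)).ConnectedComponent = 2) : Nat.card ↥(Cfsg.charDegrees G) = 3 := by
  have pos : ∀ a ∈ charDegrees G, 0 < a := fun a ⟨χ, e⟩ => e ▸ charDegree_irr_pos χ
  have nd : ∀ a ∈ charDegrees G, ∀ b ∈ charDegrees G, a ≠ 1 → a ∣ b → a = b :=
    fun a ha b hb h1 h2 => by_contra fun ne => hnd a ha b hb (by have := pos a ha; omega)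
      (lt_of_le_of_ne (Nat.le_of_dvd (pos b hb) h2) ne) h2
  set Γ := (degreeGraph G).induce (degreePrimes G)
  have R : ∀ (p q : degreePrimes G), ∀ d ∈ charDegrees G, p.1 ∣ d → q.1 ∣ d → Γ.Reachable p q :=
    fun p q d hd h1 h2 => by
    by_cases e : p = q
    · rw [e]
    have e : p.1 ≠ q.1 := fun c => e (Subtype.ext c)
    exact SimpleGraph.Adj.reachable ⟨e, p.2.1, q.2.1, d, hd,
      ((Nat.coprime_primes p.2.1 q.2.1).2 e).mul_dvd_of_dvd_of_dvd h1 h2⟩
  have hub : ∀ s, ¬ ∀ p, Γ.Reachable p s := fun s h => by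
    have : Subsingleton Γ.ConnectedComponent := ⟨SimpleGraph.ConnectedComponent.ind₂ fun a b =>
      SimpleGraph.ConnectedComponent.sound ((h a).trans (h b).symm)⟩
    have := Finite.card_le_one_iff_subsingleton.2 this
    omega
  have n1 : ∀ (p : degreePrimes G) d, p.1 ∣ d → d ≠ 1 := fun p d h e =>
    p.2.1.ne_one (Nat.dvd_one.1 (e ▸ h))
  obtain ⟨c⟩ := (Nat.card_ne_zero.1 (htwo ▸ two_ne_zero)).1
  obtain ⟨p0, -⟩ := c.exists_rep
  obtain ⟨_, ⟨χ0, rfl⟩, h0⟩ := p0.2.2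
  have ne : commutator G ≠ ⊥ := fun e => n1 p0 _ h0 ((commutator_le_charKer_iff χ0).1 (e ▸ bot_le))
  rcases degree_dichotomy (Group.IsSolvable.commutator_lt_of_ne_bot ne).not_ge with
    ⟨s, K, _, hs, hP, hab⟩ | ⟨r, L, _, hr, ab, f1, f2, f3, h⟩
  · have := Fact.mk hs
    obtain ⟨β, hβ⟩ := exists_charDegree_ne_one hab
    obtain ⟨j, hj⟩ := hP.exists_card_eq
    obtain ⟨a, -, ha⟩ := (Nat.dvd_prime_pow hs).1 (hj ▸ charDegree_irr_dvd_card β)
    have b1 := cdSet_subset_of_surjective _ (QuotientGroup.mk'_surjective K) ⟨β, rfl⟩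
    refine (hub ⟨s, hs, _, b1, ha ▸ dvd_pow_self s fun h => hβ (by rw [ha, h, pow_zero])⟩ fun p => ?_).elim
    obtain ⟨_, ⟨χ, rfl⟩, hd⟩ := p.2.2
    refine R _ _ _ ⟨χ, rfl⟩ hd (by_contra fun c => n1 p _ hd ((mul_eq_left₀ (pos _ b1).ne').1
      (nd _ b1 _ (exists_mul_degree_of_coprime K β χ ?_) hβ (dvd_mul_right _ _)).symm))
    rw [K.index_eq_card, hj]
    exact ((Nat.Prime.coprime_iff_not_dvd hs).2 c).symm.pow_right _
  have dd : ∀ d, DD L d → d ∈ charDegrees G ∧ r ∣ d := by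
    rintro _ ⟨χ, h1, rfl⟩
    obtain ⟨ψ, ⟨e, h2, -⟩, h3, -⟩ := exists_under L χ
    exact ⟨⟨χ, rfl⟩, h2 ▸ ((h ψ).resolve_left fun c => mt h3.1 h1 ((mul_eq_left₀ (pos _ f2).ne').1
      (nd _ f2 _ c f1 (dvd_mul_right _ _)).symm)).mul_left e⟩
  have cs : ∀ d ∈ charDegrees G, DD L d ∨ d ∣ L.index := by
    rintro _ ⟨χ, rfl⟩
    obtain ⟨ψ, ⟨e, h2, h4⟩, h3, -⟩ := exists_under L χ
    refine or_iff_not_imp_left.2 fun c => ?_
    rwa [h2, h3.2 (by_contra fun n => c ⟨χ, n, rfl⟩), mul_one]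
  obtain ⟨t, ht, td⟩ := Nat.exists_prime_and_dvd f1
  obtain ⟨n, hn⟩ : ∃ n, DD L n := by
    by_contra c
    refine hub ⟨t, ht, _, f2, td⟩ fun p => ?_
    obtain ⟨d, h1, h2⟩ := p.2.2
    exact R _ _ _ f2 (h2.trans ((cs d h1).resolve_left fun e => c ⟨d, e⟩)) td
  have H : Hy L := ⟨ab, fun d hd => by
    by_contra c
    obtain ⟨s, hs, h1, h2⟩ := Nat.Prime.not_coprime_iff_dvd.1 c
    refine hub ⟨r, hr, _, (dd d hd).1, (dd d hd).2⟩ fun p => ?_
    obtain ⟨e, h3, h4⟩ := p.2.2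
    rcases cs e h3 with c | c
    · exact R _ _ _ h3 h4 (dd e c).2
    · exact (R p ⟨s, hs, _, f2, h2⟩ _ f2 (h4.trans c) h2).trans (R _ _ _ (dd d hd).1 h1 (dd d hd).2),
    fun a b ha hb => nd a (dd a ha).1 b (dd b hb).1 fun e => hr.ne_one (Nat.dvd_one.1 (e ▸ (dd a ha).2))⟩
  have nc : ¬ L ≤ CC L := fun c => by
    obtain ⟨χ, e⟩ := id f2
    obtain ⟨ψ, rfl⟩ := (mem_range_inflateIrr _ (QuotientGroup.mk'_surjective ⁅L, L⁆) χ).2 fun n hn =>
      (mem_charKer_irr χ).1 ((by_contra fun n => f3 (dd _ ⟨χ, n, e⟩).2 : ⁅L, L⁆ ≤ charKer χ.1)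
        ((QuotientGroup.ker_mk' _).le hn))
    have h1 := charDegree_sq_le_index_center ψ
    rw [charDegree_inflateIrr] at e
    rw [e, ← index_comap_of_surjective _ (QuotientGroup.mk'_surjective _)] at h1
    have h2 := h1.trans (index_antitone c)
    have := pos _ f2
    exact f1 (by nlinarith)
  have e : charDegrees G = {1, L.index, n} := Set.ext fun d => ⟨fun hd => by
    rcases cs d hd with c | c
    · exact .inr (.inr (H.main nc c hn))
    · exact or_iff_not_imp_left.2 fun n => .inl (nd d hd _ f2 n c), by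
    rintro (rfl | rfl | rfl)
    exacts [one_mem_cdSet, f2, (dd _ hn).1]⟩
  rw [e]
  exact Set.ncard_eq_three.2 ⟨_, _, _, f1.symm, fun e => hr.ne_one (Nat.dvd_one.1 (e ▸ (dd _ hn).2)),
    fun e => f3 (e ▸ (dd _ hn).2), rfl⟩

end Cfsg.Agent.S4781
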