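import Mathlib
import Cfsg.Statements.S4782
import Cfsg.Agent.Char.Degrees
import Cfsg.Agent.Char.Burnside

set_option autoImplicit false
open Cfsg

namespace Cfsg.Agent.S4782

open scoped commutatorElement
open Module Cfsg.Agent.Char

/-- Burnside's argument: if every degree prime to `q` is prime to the class size of `g ≠ 1`,
then `g` is central modulo a proper normal subgroup. -/
theorem exists_normal_aux {G : Type*} [Group G] [Finite G] {q : ℕ}
    (hq : q.Prime) (g : G) (hg : g ≠ 1)
    (hclass : ∀ (χ : G → ℂ) (n : ℕ), IsIrrCharacter G χ → χ 1 = n → ¬ q ∣ n →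
      Nat.Coprime n (Subgroup.centralizer ({g} : Set G)).index) :
    ∃ N : Subgroup G, N.Normal ∧ N ≠ ⊤ ∧ ∀ x, ⁅g, x⁆ ∈ N := by
  obtain ⟨χ, n, hχ, hne, hn, hpn, h0⟩ := exists_irr_ne_one_not_dvd_ne_zero g hg hq
  have hcop0 := hclass χ n hχ hn hpn
  obtain ⟨m, ρ, hρ, rfl⟩ := hχ
  have hn' : finrank ℂ (Fin m → ℂ) = n := by
    rw [ρ.char_one] at hn
    exact_mod_cast hn
  have hcop : Nat.Coprime (finrank ℂ (Fin m → ℂ)) (Subgroup.centralizer ({g} : Set G)).index := by
    rw [hn']
    exact hcop0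
  obtain ⟨ω, hω⟩ := (rep_norm_char_eq_iff ρ g).mp
    ((rep_char_eq_zero_or_norm_eq ρ g hcop).resolve_left h0)
  refine ⟨ρ.asGroupHom.ker, inferInstance, fun htop => hne ?_, fun x => ?_⟩
  · have htriv : ∀ x, ρ x = 1 := fun x => by
      have : x ∈ ρ.asGroupHom.ker := htop ▸ Subgroup.mem_top x
      rw [MonoidHom.mem_ker, Units.ext_iff] at this
      exact this
    have hconst : ρ.character = fun _ => (n : ℂ) := by
      ext x
      rw [← hn, Representation.character, Representation.character, htriv, htriv]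
    have := Fintype.ofFinite G
    by_contra hne'
    have h2 := Cfsg.IsIrrCharacter.sum_eq_zero ⟨m, ρ, hρ, rfl⟩ hne'
    rw [hconst] at h2 h0
    simp only [Finset.sum_const, Finset.card_univ, nsmul_eq_mul, mul_eq_zero,
      Nat.cast_eq_zero, Fintype.card_ne_zero, false_or] at h2
    exact h0 (by simp [h2])
  · rw [MonoidHom.mem_ker, map_commutatorElement, commutatorElement_eq_one_iff_mul_comm,
      Units.ext_iff]
    change ρ g * ρ x = ρ x * ρ g
    rw [hω, smul_mul_assoc, mul_smul_comm]
    rfl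

theorem exists_ne_one_not_dvd_index {G : Type*} [Group G] [Finite G] [Nontrivial G] {p : ℕ}
    (hp : p.Prime) :
    ∃ z : G, z ≠ 1 ∧ ¬ p ∣ (Subgroup.centralizer ({z} : Set G)).index := by
  have := Fact.mk hp
  obtain ⟨P⟩ : Nonempty (Sylow p G) := inferInstance
  by_cases hP : (P : Subgroup G) = ⊥
  · obtain ⟨z, hz⟩ := exists_ne (1 : G)
    refine ⟨z, hz, fun h => P.not_dvd_index ?_⟩
    rw [hP, Subgroup.index_bot]
    exact h.trans (Subgroup.index_dvd_card _)
  · have : Nontrivial P := (Subgroup.nontrivial_iff_ne_bot _).mpr hP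
    have := P.isPGroup'.center_nontrivial
    obtain ⟨⟨z, hz⟩, hz1⟩ := exists_ne (1 : Subgroup.center P)
    have hz1' : (z : G) ≠ 1 := fun h => hz1 (Subtype.ext (Subtype.ext h))
    have hle : (P : Subgroup G) ≤ Subgroup.centralizer ({(z : G)} : Set G) := by
      intro x hx
      rw [Subgroup.mem_centralizer_singleton_iff]
      exact congrArg Subtype.val (Subgroup.mem_center_iff.mp hz ⟨x, hx⟩)
    exact ⟨z, hz1', fun h => P.not_dvd_index (h.trans (Subgroup.index_dvd_of_le hle))⟩

universe u

theorem solvable_aux {p q : ℕ} (hp : p.Prime) (hq : q.Prime)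
    (G : Type u) [Group G] [Finite G] (hdeg : ∀ r ∈ Cfsg.degreePrimes G, r = p ∨ r = q) :
    Group.IsSolvable G := by
  induction hn : Nat.card G using Nat.strong_induction_on generalizing G with
  | _ n ih =>
    rcases subsingleton_or_nontrivial G with hG | hG
    · infer_instance
    by_cases hs : IsSimpleGroup G
    · obtain ⟨g, hg, hgp⟩ := exists_ne_one_not_dvd_index (G := G) hp
      obtain ⟨N, hN, hNtop, hc⟩ := exists_normal_aux hq g hg (by
        intro χ m hχ hm hqm
        refine Nat.Coprime.symm (Nat.coprime_of_dvd fun r hr hr1 hr2 => ?_)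
        have hmem : r ∈ Cfsg.degreePrimes G :=
          ⟨hr, m, ⟨⟨χ, hχ⟩, by simp [charDegree, hm]⟩, hr2⟩
        rcases hdeg r hmem with rfl | rfl
        · exact hgp hr1
        · exact hqm hr2)
      have hbot : N = ⊥ := (hN.eq_bot_or_eq_top).resolve_right hNtop
      have hgz : g ∈ Subgroup.center G := by
        rw [Subgroup.mem_center_iff]
        intro x
        have := hc x
        rw [hbot, Subgroup.mem_bot, commutatorElement_eq_one_iff_mul_comm] at this
        exact this.symm
      have hz : Subgroup.center G = ⊤ := by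
        refine (Subgroup.Normal.eq_bot_or_eq_top inferInstance).resolve_left fun h => hg ?_
        rwa [h, Subgroup.mem_bot] at hgz
      exact Group.isSolvable_of_comm fun a b =>
        (Subgroup.mem_center_iff.mp (hz ▸ Subgroup.mem_top b) a)
    · obtain ⟨N, hN, hN1, hN2⟩ : ∃ N : Subgroup G, N.Normal ∧ N ≠ ⊥ ∧ N ≠ ⊤ := by
        by_contra hcon
        push Not at hcon
        exact hs ⟨fun N hN => by
          by_cases h : N = ⊥
          · exact Or.inl h
          · exact Or.inr (hcon N hN h)⟩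
      have hmul : Nat.card N * N.index = n := hn ▸ N.card_mul_index
      have h1 : 1 < Nat.card N := (Subgroup.one_lt_card_iff_ne_bot N).mpr hN1
      have h2 : 1 < N.index := Subgroup.one_lt_index_of_ne_top hN2
      rw [Group.isSolvable_iff_subgroup_quotient N]
      refine ⟨ih _ (by nlinarith) N ?_ rfl, ih N.index (by nlinarith) (G ⧸ N) ?_ rfl⟩
      · rintro r ⟨hr, d, ⟨θ, rfl⟩, hd⟩
        obtain ⟨χ, hχ⟩ := exists_irr_dvd_charDegree N θ
        exact hdeg r ⟨hr, _, ⟨χ, rfl⟩, hd.trans hχ⟩
      · rintro r ⟨hr, d, ⟨θ, rfl⟩, hd⟩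
        obtain ⟨χ, hχ⟩ := exists_irr_charDegree_eq_of_surjective (QuotientGroup.mk' N)
          (QuotientGroup.mk'_surjective N) θ
        exact hdeg r ⟨hr, _, ⟨χ, rfl⟩, hχ ▸ hd⟩

/-- If the finite group G is not solvable, then at least three distinct primes each divide some irreducible complex character degree of G. -/
theorem result {G : Type*} [Group G] [Finite G] (hG : ¬ Group.IsSolvable G) : ∃ p q r : ℕ, p ≠ q ∧ q ≠ r ∧ p ≠ r ∧ p ∈ Cfsg.degreePrimes G ∧ q ∈ Cfsg.degreePrimes G ∧ r ∈ Cfsg.degreePrimes G := by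
  by_contra hcon
  apply hG
  by_cases h1 : ∃ p, p ∈ Cfsg.degreePrimes G
  · obtain ⟨p, hp⟩ := h1
    by_cases h2 : ∃ q, q ∈ Cfsg.degreePrimes G ∧ q ≠ p
    · obtain ⟨q, hq, hqp⟩ := h2
      refine solvable_aux hp.1 hq.1 G fun r hr => ?_
      by_contra h
      push Not at h
      exact hcon ⟨p, q, r, hqp.symm, h.2.symm, h.1.symm, hp, hq, hr⟩
    · push Not at h2
      exact solvable_aux hp.1 hp.1 G fun r hr => Or.inl (h2 r hr)
  · push Not at h1
    exact solvable_aux Nat.prime_two Nat.prime_two G fun r hr => (h1 r hr).elim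

end Cfsg.Agent.S4782
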