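import Cfsg.Statements.S4784
import Cfsg.Agent.Char.FS
import Cfsg.Agent.Char.Quot
import Cfsg.Agent.Char.PermChar
import Cfsg.Agent.Char.PermRank

set_option autoImplicit false
open Cfsg

namespace Cfsg.Agent.S4784

open Cfsg.Agent.Char

theorem apply_eq_of_inner_ne_zero {G : Type*} [Group G] [Fintype G] {φ χ : G → ℂ}
    (hφ : IsCharacter G φ) (hχ : IsIrrCharacter G χ) (hne : classInner φ χ ≠ 0) {g : G}
    (hg : φ g = φ 1) : χ g = χ 1 := by
  have h1 := (hφ.sub_irr hχ hne).norm_le g
  have h2 := hχ.isCharacter.norm_le g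
  have h3 := Complex.re_le_norm ((φ - χ) g)
  have h4 := Complex.re_le_norm (χ g)
  simp only [Pi.sub_apply, hg, Complex.sub_re] at h1 h3
  obtain ⟨n, -, hn⟩ := hχ.exists_nat_one
  rw [hn] at h1 h2 ⊢
  have h5 : (χ g).re = n := by simp only [Complex.natCast_re] at h1 h2; linarith
  have h6 : (χ g).im = 0 := by
    have := Complex.sq_norm (χ g)
    rw [Complex.normSq_apply, h5] at this
    simp only [Complex.natCast_re] at h2
    have h7 : ‖χ g‖ = n := le_antisymm h2 (h5 ▸ h4)
    rw [h7] at this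
    nlinarith
  exact Complex.ext (by simpa using h5) (by simpa using h6)


/-- Let H be a subgroup of the finite group G and consider the permutation character of G on the cosets of H (the function induced from the principal character of H). Then exactly one irreducible constituent of it is real-valued with Frobenius–Schur indicator +1 (namely the principal character) if and only if the normal core of H has odd index in G. -/
theorem result {G : Type*} [Group G] [Fintype G] (H : Subgroup G) : Nat.card {χ : Cfsg.IrrCharacter G // Cfsg.classInner (Cfsg.indFun H (fun _ : H => (1 : ℂ))) (χ : G → ℂ) ≠ 0 ∧ (∀ g : G, (starRingEnd ℂ) ((χ : G → ℂ) g) = (χ : G → ℂ) g) ∧ (Nat.card G : ℂ)⁻¹ * ∑ g : G, (χ : G → ℂ) (g * g) = 1} = 1 ↔ Odd H.normalCore.index := by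
  classical
  have hπ : indFun H (fun _ : H => (1 : ℂ)) = permChar G (G ⧸ H) :=
    funext fun g => PermChar.indFun_one_eq_card_fixedBy H g
  rw [hπ]
  have hπc : IsCharacter G (permChar G (G ⧸ H)) := isCharacter_permChar _
  have hπ1 : classInner (permChar G (G ⧸ H)) (fun _ => 1) = 1 :=
    classInner_permChar_one_of_isPretransitive _
  have hfix : ∀ g : G, g ∈ H.normalCore ↔ MulAction.fixedBy (G ⧸ H) g = Set.univ := by
    intro g
    rw [Subgroup.normalCore_eq_ker, MonoidHom.mem_ker, Set.eq_univ_iff_forall, Equiv.ext_iff]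
    rfl
  let o : {χ : Cfsg.IrrCharacter G // Cfsg.classInner (permChar G (G ⧸ H)) (χ : G → ℂ) ≠ 0 ∧
      (∀ g : G, (starRingEnd ℂ) ((χ : G → ℂ) g) = (χ : G → ℂ) g) ∧
      (Nat.card G : ℂ)⁻¹ * ∑ g : G, (χ : G → ℂ) (g * g) = 1} :=
    ⟨irrOne G, by
      refine ⟨?_, fun g => by simp [irrOne_apply], fsInd_one⟩
      change classInner _ (fun _ => 1) ≠ 0
      rw [hπ1]; exact one_ne_zero⟩
  rw [Nat.card_eq_one_iff_unique]
  constructor
  · rintro ⟨hsub, -⟩
    by_contra hodd
    rw [Nat.not_odd_iff_even] at hodd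
    have : Fact (Nat.Prime 2) := ⟨Nat.prime_two⟩
    obtain ⟨q, hq⟩ := exists_prime_orderOf_dvd_card' (G := G ⧸ H.normalCore) 2 hodd.two_dvd
    obtain ⟨x, rfl⟩ := QuotientGroup.mk_surjective q
    have hx1 : x ∉ H.normalCore := by
      intro h
      rw [(QuotientGroup.eq_one_iff x).mpr h, orderOf_one] at hq
      omega
    have hx2 : x * x ∈ H.normalCore := by
      rw [← QuotientGroup.eq_one_iff, QuotientGroup.mk_mul, ← pow_two, ← hq, pow_orderOf_eq_one]
    have h1 : ∑ g : G, Nat.card (MulAction.fixedBy (G ⧸ H) g) <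
        ∑ g : G, Nat.card (MulAction.fixedBy (G ⧸ H) (g * g)) := by
      refine Finset.sum_lt_sum (fun g _ => ?_) ⟨x, Finset.mem_univ _, ?_⟩
      · refine Set.ncard_le_ncard (fun y hy => ?_) (Set.toFinite _)
        rw [MulAction.mem_fixedBy] at hy ⊢
        rw [mul_smul, hy, hy]
      · rw [(hfix _).mp hx2]
        exact Set.ncard_lt_ncard (Set.ssubset_univ_iff.mpr fun h => hx1 ((hfix _).mpr h))
          (Set.toFinite _)
    have h2 : ((∑ g : G, Nat.card (MulAction.fixedBy (G ⧸ H) g) : ℕ) : ℂ) = Nat.card G := by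
      rw [classInner_one_right, inv_mul_eq_iff_eq_mul₀ (card_ne_zero G), mul_one] at hπ1
      rw [← hπ1, Nat.cast_sum]; rfl
    obtain ⟨c, hc, hsum⟩ := hπc.exists_coeff
    have h3 : ((∑ g : G, Nat.card (MulAction.fixedBy (G ⧸ H) (g * g)) : ℕ) : ℂ) =
        Nat.card G * ∑ χ : IrrCharacter G, c χ * fsInd (χ : G → ℂ) := by
      have : ∀ g : G, (Nat.card (MulAction.fixedBy (G ⧸ H) (g * g)) : ℂ) =
          ∑ χ : IrrCharacter G, c χ * (χ : G → ℂ) (g * g) := fun g => by
        rw [← permChar_apply, hsum]; simp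
      rw [Nat.cast_sum, Finset.sum_congr rfl fun g _ => this g, Finset.sum_comm, Finset.mul_sum]
      refine Finset.sum_congr rfl fun χ _ => ?_
      rw [← Finset.mul_sum, fsInd_def]
      field_simp [card_ne_zero G]
    have h4 : (∑ χ : IrrCharacter G, c χ * fsInd (χ : G → ℂ)).re ≤ 1 := by
      rw [Complex.re_sum, ← Finset.add_sum_erase _ _ (Finset.mem_univ (irrOne G)),
        show fsInd (irrOne G : G → ℂ) = 1 from fsInd_one, ← hc,
        show classInner (permChar G (G ⧸ H)) (irrOne G : G → ℂ) = 1 from hπ1]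
      have : ∑ χ ∈ Finset.univ.erase (irrOne G), ((c χ : ℂ) * fsInd (χ : G → ℂ)).re ≤ 0 := by
        refine Finset.sum_nonpos fun χ hχ => ?_
        rcases fsInd_trichotomy χ.2 with e | e | e
        · simp [e]
        · by_cases hc0 : c χ = 0
          · simp [hc0]
          · exfalso
            refine Finset.ne_of_mem_erase hχ (congrArg Subtype.val (hsub.elim ⟨χ, ?_, ?_, e⟩ o))
            · rw [hc]; exact_mod_cast hc0
            · by_contra hr
              rw [fsInd_eq_zero_of_not_real χ.2 fun h => hr fun g =>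
                Complex.conj_eq_iff_im.mpr (h g)] at e
              exact zero_ne_one e
        · simp [e]
      simp only [mul_one, Complex.one_re]
      linarith
    have h5 := congrArg Complex.re h3
    rw [Complex.natCast_re, Complex.mul_re, Complex.natCast_re, Complex.natCast_im, zero_mul,
      sub_zero] at h5
    have h6 : ((∑ g : G, Nat.card (MulAction.fixedBy (G ⧸ H) g) : ℕ) : ℝ) = Nat.card G := by
      exact_mod_cast h2
    have h7 : ((∑ g : G, Nat.card (MulAction.fixedBy (G ⧸ H) g) : ℕ) : ℝ) <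
        (∑ g : G, Nat.card (MulAction.fixedBy (G ⧸ H) (g * g)) : ℕ) := by exact_mod_cast h1
    have h8 : (0 : ℝ) < Nat.card G := by exact_mod_cast Nat.card_pos
    nlinarith
  · intro hodd
    refine ⟨⟨fun a b => ?_⟩, ⟨o⟩⟩
    suffices h : ∀ a, a = o by rw [h a, h b]
    rintro ⟨χ, h1, h2, h3⟩
    obtain ⟨ψ, hψ⟩ := exists_irr_deflation H.normalCore χ.2 fun n hn =>
      apply_eq_of_inner_ne_zero hπc χ.2 h1 (by
        rw [permChar_apply, permChar_apply, (hfix n).mp hn, (hfix 1).mp (one_mem _)])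
    have h4 := eq_one_of_real_of_odd (G := G ⧸ H.normalCore) hodd ψ.2 fun q => by
      obtain ⟨g, rfl⟩ := QuotientGroup.mk_surjective q
      rw [hψ]; exact Complex.conj_eq_iff_im.mp (h2 g)
    refine Subtype.ext (Subtype.ext (funext fun g => ?_))
    rw [← hψ, h4]; rfl

end Cfsg.Agent.S4784
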