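import Cfsg.Statements.S4793
import Cfsg.Agent.CJ.FinA
import Cfsg.Agent.CJ.DZ
import Cfsg.Agent.CJ.MA
import Cfsg.Agent.CJ.D3

set_option autoImplicit false
open Cfsg

namespace Cfsg.Agent.S4793

open Module Matrix Cfsg.Agent.CJ Cfsg.Agent.Class.U Cfsg.Agent.KSG

theorem exists_desc {A B N : Type*} [Group A] [Group B] [Monoid N] (π : A →* B)
    (hπ : Function.Surjective π) (ρ : A →* N) (h : ∀ a, π a = 1 → ρ a = 1) :
    ∃ τ : B →* N, ∀ a, τ (π a) = ρ a := by
  have hk : π.ker ≤ ρ.toHomUnits.ker := fun a ha => Units.ext (h a ha)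
  exact ⟨(Units.coeHom N).comp (π.liftOfRightInverseAux _ (Function.rightInverse_surjInv hπ)
    ρ.toHomUnits hk), fun a => congrArg Units.val (MonoidHom.liftOfRightInverseAux_comp_apply π _
      (Function.rightInverse_surjInv hπ) ρ.toHomUnits hk a)⟩

theorem deg_iff {q m k : ℕ} (hq : 2 ≤ q) :
    k = (q ^ (2 * m + 1) - q) / (q + 1) ↔ k * (q + 1) + q = q ^ (2 * m + 1) := by
  have h1 : q ≤ q ^ (2 * m + 1) := Nat.le_self_pow (by omega) _
  have h2 : q + 1 ∣ q ^ (2 * m + 1) - q := by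
    have h3 : q ^ 2 - 1 ∣ (q ^ 2) ^ m - 1 := by simpa using Nat.sub_dvd_pow_sub_pow (q ^ 2) 1 m
    have h4 : q + 1 ∣ q ^ 2 - 1 := ⟨q - 1, by
      obtain ⟨r, rfl⟩ : ∃ r, q = r + 1 := ⟨q - 1, by omega⟩
      rw [Nat.add_sub_cancel, Nat.sub_eq_iff_eq_add (Nat.one_le_pow _ _ (by omega))]; ring⟩
    have h5 : q ^ (2 * m + 1) - q = ((q ^ 2) ^ m - 1) * q := by
      rw [Nat.sub_mul, one_mul, pow_succ, pow_mul]
    exact h5 ▸ (h4.trans h3).mul_right q
  obtain ⟨c, hc⟩ := h2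
  rw [hc, Nat.mul_div_cancel_left _ (by omega)]
  constructor
  · rintro rfl
    rw [mul_comm]; omega
  · intro h
    refine Nat.eq_of_mul_eq_mul_left (show 0 < q + 1 by omega) ?_
    rw [mul_comm]; omega

theorem deg_char {G M : Type*} [Group G] [AddCommGroup M] [Module ℂ M] [FiniteDimensional ℂ M]
    (ρ : Representation ℂ G M) : charDegree ρ.character = finrank ℂ M := by
  simp [charDegree]

/-- Let F be a finite field with q² elements, n ≥ 3 with n coprime to 2(q + 1), and G a finite group isomorphic to the projective special unitary group PSU(n, q). Then G has exactly one irreducible complex character of degree (qⁿ − q)/(q + 1), and an irreducible character χ of G has nonzero inner product with the conjugation character g ↦ #C_G(g) (is a constituent of the permutation character of G on itself by conjugation) if and only if its degree is not (qⁿ − q)/(q + 1). -/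
theorem result {G : Type*} [Group G] [Fintype G] (n q : ℕ) (F : Type*) [Field F] [Fintype F] (hF : Fintype.card F = q ^ 2) (hn : 3 ≤ n) (hcop : Nat.Coprime n (2 * (q + 1))) (hG : Nonempty (G ≃* Cfsg.PSU n F q)) : Nat.card {χ : Cfsg.IrrCharacter G // Cfsg.charDegree (χ : G → ℂ) = (q ^ n - q) / (q + 1)} = 1 ∧ ∀ χ : Cfsg.IrrCharacter G, Cfsg.classInner (χ : G → ℂ) (fun g : G => (Nat.card ↥(Subgroup.centralizer ({g} : Set G)) : ℂ)) ≠ 0 ↔ Cfsg.charDegree (χ : G → ℂ) ≠ (q ^ n - q) / (q + 1) := by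
  classical
  haveI hU := UF.of_card hF
  have hq := two_le_q F q
  obtain ⟨m, rfl⟩ : Odd n := Nat.coprime_two_right.1 (hcop.coprime_dvd_right (dvd_mul_right _ _))
  have hy : Hyp q m := ⟨by omega, hcop.coprime_dvd_right (dvd_mul_left _ _)⟩
  obtain ⟨e⟩ := hG
  obtain ⟨π0, hπ0, hk0⟩ := exists_pi (F := F) hy
  let π : Ga F q m →* G := e.symm.toMonoidHom.comp π0
  have hπ : Function.Surjective π := e.symm.surjective.comp hπ0
  have hk : ∀ g, π g = 1 ↔ ∃ z : F, z * conj F q z = 1 ∧ g = sc q m z := fun g => by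
    rw [← hk0]; exact e.symm.map_eq_one_iff
  obtain ⟨ω, W, hW, hWR, hWZ, hWC⟩ := exists_E (F := F) (q := q) hy.1
  obtain ⟨τ, hτ⟩ := exists_desc π hπ W.toRepresentation fun a ha => by
    obtain ⟨z, hz, rfl⟩ := (hk a).1 ha
    exact hWZ z hz
  obtain ⟨hWn, hWs⟩ := (Char.isIrreducible_iff _).1 hW
  have hτi : Representation.IsIrreducible τ := (Char.isIrreducible_iff _).2
    ⟨hWn, fun U hU' => hWs U fun g v hv => by rw [← hτ]; exact hU' _ v hv⟩
  have hτd : charDegree (Representation.character τ) = (q ^ (2 * m + 1) - q) / (q + 1) := by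
    rw [deg_char, deg_iff hq]
    exact finrank_eq hy hWR hWZ fun Φ hΦ => schur _ hW Φ hΦ
  have hτ0 : ¬ classInner (Representation.character τ)
      (fun g : G => (Nat.card (Subgroup.centralizer ({g} : Set G)) : ℂ)) ≠ 0 := by
    rw [inner_ne_iff]
    rintro ⟨h, x, hx, hf⟩
    obtain ⟨g, rfl⟩ := hπ h
    refine hx (hWC g x fun k hk' => ?_)
    rw [← hτ]
    exact hf _ (by rw [← map_mul, hk', map_mul])
  have hZ : ∀ {k : ℕ} (ρ : Representation ℂ G (Fin k → ℂ)), ZT (ρ.comp π) := fun ρ z hz => by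
    rw [MonoidHom.comp_apply, (hk _).2 ⟨z, hz, rfl⟩, map_one]
  have h1 : ∀ {k : ℕ} (ρ : Representation ℂ G (Fin k → ℂ)), ρ.IsIrreducible → RF (ρ.comp π) →
      ρ.character = Representation.character τ := fun ρ hρ hR => by
    haveI := ((Char.isIrreducible_iff _).1 hρ).1
    obtain ⟨Φ, h0, hΦ⟩ := exists_iw hy hR hWR (hZ ρ) hWZ
    refine char_eq_of_iw ρ hρ τ hτi h0 fun g x => ?_
    obtain ⟨a, rfl⟩ := hπ g
    rw [hτ]
    exact hΦ a x
  have h2 : ∀ {k : ℕ} (ρ : Representation ℂ G (Fin k → ℂ)), ρ.IsIrreducible →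
      charDegree ρ.character = (q ^ (2 * m + 1) - q) / (q + 1) → RF (ρ.comp π) := fun {k} ρ hρ hd => by
    rw [deg_char, deg_iff hq] at hd
    refine main_D hy (hZ ρ) hd ?_
    by_contra hA
    push Not at hA
    obtain ⟨c, hc0, hc⟩ := exists_trace_zero F q
    let i : Fin m := ⟨0, hy.1⟩
    have hN := normal_top hy (MonoidHom.toHomUnits (ρ.comp π)).ker (fun z hz => Units.ext (hZ ρ z hz))
      ⟨tv q (Pi.single i 1) c, Units.ext (hA _ (skew_tv _ hc)), fun z hz he => by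
        have h3 := congrArg (fun g : Ga F q m => (g.1 (0, 0, Pi.single i 1)).1 i) he
        simp only [tv_app _ hc, Herm.sc_app _ hz, herm_single_right] at h3
        simp [hc0] at h3⟩
    have hk2 : 2 ≤ k := by
      rw [finrank_fin_fun] at hd
      by_contra hk2
      have h4 : q ^ 3 ≤ q ^ (2 * m + 1) := Nat.pow_le_pow_right (by omega) (by have := hy.1; omega)
      have h5 : k * (q + 1) ≤ 1 * (q + 1) := Nat.mul_le_mul_right _ (by omega)
      have h6 : 4 * q ≤ q ^ 3 := by nlinarith [Nat.mul_le_mul hq hq]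
      omega
    obtain ⟨g, hg⟩ := exists_ne_one_of_irreducible ρ hρ hk2
    obtain ⟨a, rfl⟩ := hπ g
    have : a ∈ (MonoidHom.toHomUnits (ρ.comp π)).ker := hN ▸ Subgroup.mem_top a
    exact hg (congrArg Units.val this)
  refine ⟨Nat.card_eq_one_iff_exists.2 ⟨⟨⟨_, @Char.isIrrCharacter_character _ _ _ _ _ _ τ hτi⟩, hτd⟩, ?_⟩, ?_⟩
  · rintro ⟨⟨χ, k, ρ, hρ, rfl⟩, hd⟩
    exact Subtype.ext (Subtype.ext (h1 ρ hρ (h2 ρ hρ hd)))
  rintro ⟨χ, k, ρ, hρ, rfl⟩
  dsimp only
  by_cases hR : RF (ρ.comp π)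
  · rw [h1 ρ hρ hR]
    exact iff_of_false hτ0 (not_not.2 hτd)
  refine iff_of_true ?_ fun hd => hR (h2 ρ hρ hd)
  obtain ⟨K, _, _, _, ι, hK⟩ := exists_singer (F := F) (q := q) hy.1
  obtain ⟨a, ha0, -, ha⟩ := exists_gen K
  obtain ⟨x, hx0, hx⟩ := main_A ι hy hK (hZ ρ) hR
  refine (inner_ne_iff ρ).2 ⟨π (lev q (ι a)), x, hx0, fun g hg => ?_⟩
  obtain ⟨g, rfl⟩ := hπ g
  obtain ⟨z, hz, hz'⟩ := (hk (g * lev q (ι a) * (lev q (ι a) * g)⁻¹)).1
    (by rw [map_mul, map_inv, map_mul, map_mul, hg, mul_inv_cancel])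
  have hz1 := sc_eq_one_of_comm hy hz (mul_inv_eq_iff_eq_mul.1 hz')
  rw [hz1, sc, Herm.sc_one, mul_inv_eq_one] at hz'
  obtain ⟨t, y, ht, hy1, rfl⟩ := cen ι hy hK ha0 ha hz'
  have hy0 : algebraMap F K y ≠ 0 := (map_ne_zero _).2 (left_ne_zero_of_mul_eq_one hy1)
  have h3 : lev q (ι t) * rr q m y = lev q (ι (t * (algebraMap F K y)⁻¹)) * sc q m y := by
    rw [sc_eq hy1, ← sing_alg ι, ← mul_assoc, ← lev_mul (sing_unit ι (mul_ne_zero ht (inv_ne_zero hy0)))
      (sing_unit ι hy0), ← map_mul, inv_mul_cancel_right₀ hy0]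
  change (ρ.comp π) _ x = x
  rw [h3, map_mul, hZ ρ y hy1, mul_one]
  exact hx _ (mul_ne_zero ht (inv_ne_zero hy0))

end Cfsg.Agent.S4793
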