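import Cfsg.Statements.S4796
import Cfsg.Agent.Char.Codeg
import Cfsg.Agent.Solv.Frobenius

set_option autoImplicit false
open Cfsg

namespace Cfsg.Agent.S4796

open Cfsg.Agent.Char Cfsg.Agent.Char.Codeg
open scoped ComplexConjugate

/-- Let G be a finite group with a faithful irreducible complex character χ whose codegree #G / χ(1) is a prime p (for a faithful character the kernel is trivial, so the codegree is #G / χ(1)). Then either G is cyclic of order p, or G is a Frobenius group whose Frobenius kernel has order p: some proper non-trivial subgroup H satisfies H ∩ gHg⁻¹ = 1 for every element g outside H, and the set of elements lying in no conjugate of H, together with the identity, has exactly p elements. -/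
theorem result {G : Type*} [Group G] [Finite G] (χ : Cfsg.IrrCharacter G) (hfaith : ∀ g : G, (χ : G → ℂ) g = (χ : G → ℂ) 1 → g = 1) (p : ℕ) (hp : p.Prime) (hcod : Nat.card G = p * Cfsg.charDegree (χ : G → ℂ)) : (IsCyclic G ∧ Nat.card G = p) ∨ ∃ H : Subgroup G, Cfsg.IsFrobeniusComplement H ∧ Nat.card ↥(Cfsg.frobeniusKernel H) = p := by
  obtain ⟨P, hN, hP, hcop, hC⟩ := exists_normal_of_prime χ.2 hp hcod
  haveI := Fact.mk hp
  obtain ⟨H, hH⟩ := Subgroup.exists_right_complement'_of_coprime (N := P) (by rw [hP]; exact hcop.symm)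
  by_cases h1 : H = ⊥
  · have : Nat.card G = p := by rw [← hH.card_mul, h1, Subgroup.card_bot, mul_one, hP]
    exact Or.inl ⟨isCyclic_of_prime_card this, this⟩
  have hP1 : P ≠ ⊥ := by
    rintro rfl
    rw [Subgroup.card_bot] at hP
    exact hp.one_lt.ne hP
  have hF : IsFrobeniusComplement H := by
    refine Solv.Frob.isFrobeniusComplement_of_fpf hH hP1 h1 fun h hh hh1 => ?_
    haveI : Fact (Nat.card P).Prime := ⟨hP ▸ hp⟩
    rcases ((Subgroup.centralizer {h}).subgroupOf P).eq_bot_or_eq_top_of_prime_card with e | e
    · rwa [Subgroup.subgroupOf_eq_bot, disjoint_comm, disjoint_iff] at e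
    · rw [Subgroup.subgroupOf_eq_top] at e
      refine (hh1 (Subgroup.disjoint_def.1 hH.disjoint (hC ?_) hh)).elim
      exact Subgroup.mem_centralizer_iff.2 fun x hx =>
        Subgroup.mem_centralizer_singleton_iff.1 (e hx)
  refine Or.inr ⟨H, hF, ?_⟩
  rw [← Solv.Frob.coe_eq_frobeniusKernel hF hH]
  exact hP

end Cfsg.Agent.S4796
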