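import Cfsg.Statements.S4797
import Cfsg.Agent.Char.Codeg
import Cfsg.Agent.Char.Linear

set_option autoImplicit false
open Cfsg

namespace Cfsg.Agent.S4797

open Cfsg.Agent.Char Cfsg.Agent.Char.Codeg
open scoped ComplexConjugate

/-- The codegree of an irreducible complex character χ of a finite group G is [G : ker χ] / χ(1), where ker χ is the set of elements at which χ takes the value χ(1). A non-trivial finite group is perfect if and only if no irreducible complex character of it has prime codegree. -/
theorem result {G : Type*} [Group G] [Finite G] [Nontrivial G] : commutator G = ⊤ ↔ ∀ χ : Cfsg.IrrCharacter G, ¬ ((Nat.card G / (Nat.card {g : G // (χ : G → ℂ) g = (χ : G → ℂ) 1} * Cfsg.charDegree (χ : G → ℂ)))).Prime := by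
  constructor
  · intro hG χ hp
    obtain ⟨ψ, hψ, -⟩ := exists_faithful_deflation χ
    rw [card_charKer χ.2.isCharacter] at hp
    set p := Nat.card G / (Nat.card (charKer (χ : G → ℂ)) * charDegree (χ : G → ℂ)) with hpdef
    have hd : charDegree ψ.1 = charDegree (χ : G → ℂ) := charDegree_congr_one (by simpa using hψ 1)
    have hc : Nat.card (G ⧸ charKer (χ : G → ℂ)) = p * charDegree ψ.1 := by
      apply Nat.eq_of_mul_eq_mul_right (Nat.card_pos (α := charKer (χ : G → ℂ)))
      rw [← Subgroup.card_eq_card_quotient_mul_card_subgroup, hd, mul_assoc, mul_comm (charDegree _),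
        hpdef, Nat.div_mul_cancel (card_ker_mul_charDegree_dvd χ.2)]
    obtain ⟨P, hN, hP, -, hC⟩ := exists_normal_of_prime ψ.2 hp hc
    haveI := Fact.mk hp
    haveI : IsCyclic P := isCyclic_of_prime_card hP
    have hQ : commutator (G ⧸ charKer (χ : G → ℂ)) = ⊤ := by
      have := Subgroup.map_commutator (⊤ : Subgroup G) ⊤ (QuotientGroup.mk' (charKer (χ : G → ℂ)))
      rw [Subgroup.map_top_of_surjective _ (QuotientGroup.mk'_surjective _), ← commutator_def, hG,
        Subgroup.map_top_of_surjective _ (QuotientGroup.mk'_surjective _)] at this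
      exact this.symm
    have h1 : commutator (G ⧸ charKer (χ : G → ℂ)) ≤ (MulAut.conjNormal (H := P)).ker := by
      rw [commutator_def, Subgroup.commutator_le]
      intro a _ b _
      rw [MonoidHom.mem_ker, map_commutatorElement, commutatorElement_eq_one_iff_mul_comm]
      obtain ⟨e⟩ := (IsCyclic.mulAutMulEquiv P : _) |> Nonempty.intro
      exact e.injective (by rw [map_mul, map_mul, mul_comm])
    have h2 : ∀ g, g ∈ Subgroup.centralizer (P : Set (G ⧸ charKer (χ : G → ℂ))) := by
      intro g
      have := h1 (hQ ▸ Subgroup.mem_top g)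
      rw [MonoidHom.mem_ker] at this
      refine Subgroup.mem_centralizer_iff.2 fun x hx => ?_
      have h3 := congrArg (fun f : MulAut P => (f ⟨x, hx⟩ : G ⧸ charKer (χ : G → ℂ))) this
      simp only [MulAut.conjNormal_apply, MulAut.one_apply] at h3
      rw [← h3, inv_mul_cancel_right, h3]
    have h4 : commutator (G ⧸ charKer (χ : G → ℂ)) = ⊥ := by
      rw [commutator_def, Subgroup.commutator_eq_bot_iff_le_centralizer]
      intro a _
      exact Subgroup.mem_centralizer_iff.2 fun b _ => Subgroup.mem_centralizer_iff.1 (h2 a) b (hC (h2 b))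
    have h5 : P = ⊥ := le_bot_iff.1 (h4 ▸ hQ ▸ le_top)
    rw [h5, Subgroup.card_bot] at hP
    exact hp.one_lt.ne hP
  · intro h
    by_contra hG
    obtain ⟨μ, hμ⟩ := exists_hom_ker_index_prime hG
    apply h ⟨_, isIrrCharacter_hom μ⟩
    rw [card_charKer (isCharacter_hom μ), charKer_hom, (charDegree_eq_one_iff (isCharacter_hom μ)).2 (by simp),
      mul_one, ← μ.ker.index_mul_card, Nat.mul_div_cancel _ Nat.card_pos]
    exact hμ

end Cfsg.Agent.S4797
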