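import Cfsg.Statements.S4798
import Cfsg.Agent.Char.Codeg

set_option autoImplicit false
open Cfsg

namespace Cfsg.Agent.S4798

open Cfsg.Agent.Char Cfsg.Agent.Char.Codeg
open scoped ComplexConjugate

/-- Let p be a prime and χ a faithful irreducible complex character of the finite group G (χ(g) = χ(1) only for g = 1), so that its codegree is #G / χ(1). Then #G / χ(1) is a power of p if and only if χ is induced from a character of a Sylow p-subgroup of G. -/
theorem result {G : Type*} [Group G] [Fintype G] (p : ℕ) [Fact p.Prime] (χ : Cfsg.IrrCharacter G) (hfaith : ∀ g : G, (χ : G → ℂ) g = (χ : G → ℂ) 1 → g = 1) : (∃ k : ℕ, Nat.card G = p ^ k * Cfsg.charDegree (χ : G → ℂ)) ↔ ∃ (P : Sylow p G) (θ : ↥(P : Subgroup G) → ℂ), Cfsg.IsCharacter ↥(P : Subgroup G) θ ∧ (χ : G → ℂ) = Cfsg.indFun (P : Subgroup G) θ := by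
  constructor
  · rintro ⟨k, hk⟩
    obtain ⟨P⟩ : Nonempty (Sylow p G) := inferInstance
    obtain ⟨θ, hθ, e⟩ := exists_ind_sylow χ.2 hk P
    exact ⟨P, θ, hθ.isCharacter, e⟩
  · rintro ⟨P, θ, hθ, e⟩
    have hθ' := isIrr_of_isIrr_indFun _ hθ (e ▸ χ.2)
    obtain ⟨a, ha⟩ := IsPGroup.iff_card.1 P.isPGroup'
    obtain ⟨c, hc⟩ := charDegree_dvd_card hθ'
    obtain ⟨k, -, hk⟩ := (Nat.dvd_prime_pow Fact.out).1 (ha ▸ Dvd.intro_left _ hc.symm : c ∣ p ^ a)
    refine ⟨k, ?_⟩
    have : charDegree (χ : G → ℂ) = (P : Subgroup G).index * charDegree θ := by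
      apply charDegree_eq_of_one_eq
      rw [e, indFun_one, ← coe_charDegree_of_isCharacter hθ]; push_cast; rfl
    rw [this, ← (P : Subgroup G).card_mul_index, hc, hk]; ring

end Cfsg.Agent.S4798
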