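import Cfsg.Statements.S4801
import Cfsg.Agent.Char.Codeg

set_option autoImplicit false
open Cfsg

namespace Cfsg.Agent.S4801

open Cfsg.Agent.Char Cfsg.Agent.Char.Codeg
open scoped ComplexConjugate

/-- The codegree of an irreducible complex character χ of a finite group G is [G : ker χ] / χ(1), where ker χ is the set of elements at which χ takes the value χ(1). Let S be a finite simple group and G a finite group such that every codegree of an irreducible character of S is a codegree of an irreducible character of G. Then the order of S divides the order of G. -/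
theorem result {S : Type*} [Group S] [Finite S] (hS : IsSimpleGroup S) {G : Type*} [Group G] [Finite G] (hsub : ∀ χ : Cfsg.IrrCharacter S, ∃ ψ : Cfsg.IrrCharacter G, (Nat.card S / (Nat.card {g : S // (χ : S → ℂ) g = (χ : S → ℂ) 1} * Cfsg.charDegree (χ : S → ℂ))) = (Nat.card G / (Nat.card {g : G // (ψ : G → ℂ) g = (ψ : G → ℂ) 1} * Cfsg.charDegree (ψ : G → ℂ)))) : Nat.card S ∣ Nat.card G := by
  classical
  have key : ∀ χ : IrrCharacter S, χ ≠ irrOne S →
      Nat.card S ∣ Nat.card G * charDegree (χ : S → ℂ) := by
    intro χ hχ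
    obtain ⟨ψ, e⟩ := hsub χ
    have hk : charKer (χ : S → ℂ) = ⊥ :=
      (hS.eq_bot_or_eq_top_of_normal _ inferInstance).resolve_right fun h =>
        hχ (Subtype.ext (eq_one_of_charKer_eq_top χ.2 h))
    rw [card_charKer χ.2.isCharacter, card_charKer ψ.2.isCharacter, hk, Subgroup.card_bot, one_mul] at e
    rw [← Nat.div_mul_cancel (charDegree_dvd_card χ.2), e]
    exact Nat.mul_dvd_mul_right (Nat.div_dvd_of_dvd (card_ker_mul_charDegree_dvd ψ.2)) _
  have h1 := sum_charDegree_sq (G := S)
  rw [← Finset.add_sum_erase _ _ (Finset.mem_univ (irrOne S))] at h1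
  have h2 : charDegree (irrOne S : S → ℂ) = 1 := charDegree_const_one
  have h3 : Nat.card S ∣ ∑ χ ∈ Finset.univ.erase (irrOne S), Nat.card G * charDegree (χ : S → ℂ) ^ 2 :=
    Finset.dvd_sum fun χ hχ => by
      rw [sq, ← mul_assoc]; exact (key χ (Finset.ne_of_mem_erase hχ)).mul_right _
  rw [← Finset.mul_sum] at h3
  have h4 : Nat.card S ∣ Nat.card G * Nat.card S := Dvd.intro_left _ rfl
  conv_rhs at h4 => rw [← h1, h2, mul_add, one_pow, mul_one]
  exact (Nat.dvd_add_left h3).1 h4

end Cfsg.Agent.S4801
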