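import Mathlib
import Cfsg.Statements.S4805
import Cfsg.Agent.NCE.Solv
import Cfsg.Agent.Char.Irr
import Cfsg.Agent.Char.Quot
import Cfsg.Agent.FT.PF1

set_option autoImplicit false
open Cfsg

namespace Cfsg.Agent.S4805

open scoped ComplexConjugate commutatorElement
open Cfsg.Agent.Char

open Classical in
theorem sum_linear {G : Type*} [Group G] [Finite G] (x g : G) :
    ∑ ψ ∈ Finset.univ.filter (fun ψ : IrrCharacter G => charDegree (ψ : G → ℂ) = 1),
      (ψ : G → ℂ) x * conj ((ψ : G → ℂ) g) =
      if x⁻¹ * g ∈ commutator G then ((commutator G).index : ℂ) else 0 := by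
  have hcomm : ∀ u v : G ⧸ commutator G, u * v = v * u := by
    intro u v
    obtain ⟨u, rfl⟩ := QuotientGroup.mk_surjective u
    obtain ⟨v, rfl⟩ := QuotientGroup.mk_surjective v
    rw [← commutatorElement_eq_one_iff_mul_comm]
    exact (map_commutatorElement (QuotientGroup.mk' _) u v).symm.trans
      ((QuotientGroup.eq_one_iff _).mpr
        (Subgroup.commutator_mem_commutator (Subgroup.mem_top _) (Subgroup.mem_top _)))
  have h1 := sum_irr_mul_conj (x : G ⧸ commutator G) (g : G ⧸ commutator G)
  have h2 : IsConj (x : G ⧸ commutator G) (g : G ⧸ commutator G) ↔ x⁻¹ * g ∈ commutator G := by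
    rw [← QuotientGroup.eq, isConj_iff]
    constructor
    · rintro ⟨c, hc⟩
      rw [← hc, hcomm c, mul_inv_cancel_right]
    · intro h
      exact ⟨1, by simpa using h⟩
  have h3 : Subgroup.centralizer ({(x : G ⧸ commutator G)} : Set (G ⧸ commutator G)) = ⊤ := by
    rw [eq_top_iff]
    intro y _
    rw [Subgroup.mem_centralizer_singleton_iff]
    exact hcomm _ _
  rw [h3, Subgroup.card_top] at h1
  simp only [h2] at h1
  rw [Subgroup.index, ← h1]
  symm
  refine Finset.sum_bij (fun ψ _ => inflateIrr (QuotientGroup.mk' (commutator G))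
    (QuotientGroup.mk'_surjective _) ψ) ?_ ?_ ?_ ?_
  · intro ψ _
    rw [Finset.mem_filter]
    refine ⟨Finset.mem_univ _, ?_⟩
    rw [charDegree_eq_one_iff (inflateIrr _ _ ψ).2.isCharacter]
    refine one_eq_one_of_commutator_le (inflateIrr _ _ ψ).2 fun n hn => ?_
    rw [mem_charKer_irr, inflateIrr_apply, inflateIrr_apply, QuotientGroup.mk'_apply,
      (QuotientGroup.eq_one_iff _).mpr hn, map_one]
  · intro ψ _ ψ' _ h
    exact inflateIrr_injective _ _ h
  · intro ψ hψ
    rw [Finset.mem_filter, charDegree_eq_one_iff ψ.2.isCharacter] at hψ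
    obtain ⟨ψ', h⟩ := (mem_range_inflateIrr (QuotientGroup.mk' (commutator G))
      (QuotientGroup.mk'_surjective _) ψ).mpr fun n hn => by
        rw [QuotientGroup.ker_mk'] at hn
        exact (mem_charKer_irr ψ).mp (commutator_le_charKer_of_one ψ.2.isCharacter hψ.2 hn)
    exact ⟨ψ', Finset.mem_univ _, h⟩
  · intro ψ _
    rfl

/-- Let G be a finite group, g an element outside the centre of G, and χ an irreducible complex character of degree greater than one with χ(g) ≠ 0 such that every other irreducible character of degree greater than one vanishes at g. Then g lies in the derived subgroup G′ and χ(g) = −[G : G′]/χ(1); G′ is the union of the kernel of χ (the elements where χ takes the value χ(1)) and the conjugacy class of g, and χ vanishes outside G′; every irreducible character of degree greater than one whose kernel contains that of χ equals χ; and G is solvable. -/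
theorem result {G : Type*} [Group G] [Finite G] (g : G) (hg : g ∉ Subgroup.center G) (χ : Cfsg.IrrCharacter G) (hχ1 : Cfsg.charDegree (χ : G → ℂ) ≠ 1) (hχg : (χ : G → ℂ) g ≠ 0) (hother : ∀ ψ : Cfsg.IrrCharacter G, Cfsg.charDegree (ψ : G → ℂ) ≠ 1 → ψ ≠ χ → (ψ : G → ℂ) g = 0) : g ∈ commutator G ∧ (χ : G → ℂ) g = -(((commutator G).index : ℂ) / (χ : G → ℂ) 1) ∧ ((commutator G : Set G) = {x : G | (χ : G → ℂ) x = (χ : G → ℂ) 1} ∪ {h : G | IsConj g h}) ∧ (∀ x : G, x ∉ commutator G → (χ : G → ℂ) x = 0) ∧ (∀ ψ : Cfsg.IrrCharacter G, Cfsg.charDegree (ψ : G → ℂ) ≠ 1 → (∀ x : G, (χ : G → ℂ) x = (χ : G → ℂ) 1 → (ψ : G → ℂ) x = (ψ : G → ℂ) 1) → ψ = χ) ∧ Group.IsSolvable G := by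
  classical
  have hg1 : g ≠ 1 := fun h => hg (h ▸ one_mem _)
  have hsplit : ∀ x : G, ∑ ψ : IrrCharacter G, (ψ : G → ℂ) x * conj ((ψ : G → ℂ) g) =
      (if x⁻¹ * g ∈ commutator G then ((commutator G).index : ℂ) else 0) +
        (χ : G → ℂ) x * conj ((χ : G → ℂ) g) := by
    intro x
    rw [← sum_linear, ← Finset.sum_filter_add_sum_filter_not Finset.univ
      (fun ψ : IrrCharacter G => charDegree (ψ : G → ℂ) = 1)]
    congr 1
    refine Finset.sum_eq_single_of_mem χ (by simpa using hχ1) fun ψ hψ hne => ?_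
    rw [hother ψ (by simpa using hψ) hne, map_zero, mul_zero]
  have hc0 : conj ((χ : G → ℂ) g) ≠ 0 := by simpa using hχg
  have hd0 : (χ : G → ℂ) 1 ≠ 0 := by
    rw [← coe_charDegree_irr]
    exact Nat.cast_ne_zero.mpr (charDegree_irr_ne_zero χ)
  have hi0 : ((commutator G).index : ℂ) ≠ 0 :=
    Nat.cast_ne_zero.mpr Subgroup.index_ne_zero_of_finite
  have h1 := hsplit 1
  rw [sum_irr_mul_conj_of_not_isConj (fun h => hg1 (isConj_one_right.mp h)), inv_one,
    one_mul] at h1
  have hgH : g ∈ commutator G := by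
    by_contra h
    rw [if_neg h, zero_add] at h1
    exact mul_ne_zero hd0 hc0 h1.symm
  rw [if_pos hgH] at h1
  have hval : (χ : G → ℂ) g = -(((commutator G).index : ℂ) / (χ : G → ℂ) 1) := by
    have h2 := congrArg conj h1
    rw [map_zero, map_add, map_mul, Complex.conj_conj, χ.2.isCharacter.conj_one,
      map_natCast] at h2
    field_simp
    linear_combination -h2
  have hconjH : ∀ x, IsConj g x → x ∈ commutator G := by
    intro x hx
    obtain ⟨c, rfl⟩ := isConj_iff.mp hx
    exact Subgroup.Normal.conj_mem inferInstance g hgH c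
  have hoff : ∀ x : G, x ∉ commutator G → (χ : G → ℂ) x = 0 := by
    intro x hx
    have h2 := hsplit x
    rw [sum_irr_mul_conj_of_not_isConj (fun h => hx (hconjH x h.symm)), if_neg (fun h => hx (by
      simpa using mul_mem hgH (inv_mem h))), zero_add] at h2
    exact (mul_eq_zero.mp h2.symm).resolve_right hc0
  have hin : ∀ x ∈ commutator G, ¬ IsConj g x → (χ : G → ℂ) x = (χ : G → ℂ) 1 := by
    intro x hx hc
    have h2 := hsplit x
    rw [sum_irr_mul_conj_of_not_isConj (fun h => hc h.symm),
      if_pos (mul_mem (inv_mem hx) hgH)] at h2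
    exact mul_right_cancel₀ hc0 (by linear_combination h1 - h2)
  have hker : ∀ x, (χ : G → ℂ) x = (χ : G → ℂ) 1 → x ∈ commutator G := by
    intro x hx
    by_contra h
    exact hd0 (hx ▸ hoff x h)
  have hgK : (χ : G → ℂ) g ≠ (χ : G → ℂ) 1 := by
    intro h
    rw [h, χ.2.isCharacter.conj_one, ← coe_charDegree_irr] at h1
    have h2 : (commutator G).index + charDegree (χ : G → ℂ) * charDegree (χ : G → ℂ) = 0 := by
      exact_mod_cast h1.symm
    exact Subgroup.index_ne_zero_of_finite (Nat.eq_zero_of_add_eq_zero_right h2)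
  refine ⟨hgH, hval, ?_, hoff, ?_, ?_⟩
  · ext x
    constructor
    · intro hx
      by_cases hc : IsConj g x
      · exact Or.inr hc
      · exact Or.inl (hin x hx hc)
    · rintro (hx | hx)
      · exact hker x hx
      · exact hconjH x hx
  · intro ψ hψ1 hψ
    by_contra hne
    have h0 := hother ψ hψ1 hne
    have hψ0 : (ψ : G → ℂ) 1 ≠ 0 := by
      rw [← coe_charDegree_irr]
      exact Nat.cast_ne_zero.mpr (charDegree_irr_ne_zero ψ)
    have := Fintype.ofFinite G
    have h2 := sum_normal_eq_zero ψ.2 (commutator G) ⟨g, hgH, by rw [h0]; exact hψ0.symm⟩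
    have h3 : ∀ n : commutator G, (ψ : G → ℂ) n =
        if (χ : G → ℂ) n = (χ : G → ℂ) 1 then (ψ : G → ℂ) 1 else 0 := by
      intro n
      split_ifs with hn
      · exact hψ n hn
      · by_cases hc : IsConj g (n : G)
        · rw [← h0]
          exact ((isConj_iff_irr g n).mp hc ψ).symm
        · exact absurd (hin n n.2 hc) hn
    simp only [h3, ← Finset.sum_filter, Finset.sum_const, nsmul_eq_mul, mul_eq_zero,
      Nat.cast_eq_zero, Finset.card_eq_zero] at h2
    rcases h2 with h2 | h2
    · have : (1 : commutator G) ∈ Finset.univ.filter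
          (fun n : commutator G => (χ : G → ℂ) n = (χ : G → ℂ) 1) := by simp
      rw [h2] at this
      simp at this
    · exact hψ0 h2
  · have hcls : NCE.Cls (charKer (χ : G → ℂ)) g :=
      ⟨fun x hx => hker x ((mem_charKer_irr χ).mp hx), hgH,
        fun h => hgK ((mem_charKer_irr χ).mp h), fun x hx hxK => by
          by_contra hc
          exact hxK ((mem_charKer_irr χ).mpr (hin x hx hc))⟩
    refine hcls.isSolvable fun y hy => ?_
    by_contra h
    have h2 := FT.PF1.norm_eq_of_commutator χ.2 (d := y) fun c => (mem_charKer_irr χ).mp (hy c)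
    rw [hoff y h, norm_zero, eq_comm, norm_eq_zero] at h2
    exact hd0 h2

end Cfsg.Agent.S4805
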