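import Cfsg.Statements.S4808
import Mathlib
import Cfsg.Agent.Char.Codeg
import Cfsg.Agent.Char.DefectZero

set_option autoImplicit false
open Cfsg

set_option linter.style.haveILetI false
set_option linter.unusedVariables false

namespace Cfsg.Agent.S4808

open Cfsg.Agent.Char Subgroup

/-- The codegree of an irreducible complex character χ of a finite group G is [G : ker χ] / χ(1), where ker χ is the set of elements at which χ takes the value χ(1). A prime divides the order of G if and only if it divides the codegree of some irreducible complex character of G. -/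
theorem result {G : Type*} [Group G] [Finite G] (p : ℕ) (hp : p.Prime) : p ∣ Nat.card G ↔ ∃ χ : Cfsg.IrrCharacter G, p ∣ (Nat.card G / (Nat.card {g : G // (χ : G → ℂ) g = (χ : G → ℂ) 1} * Cfsg.charDegree (χ : G → ℂ))) := by
  classical
  refine ⟨fun h => ?_, fun ⟨χ, h⟩ => ?_⟩
  · have := Fact.mk hp
    obtain ⟨g, hg⟩ := exists_prime_orderOf_dvd_card' p h
    have hg1 : g ≠ 1 := by
      rintro rfl
      exact hp.one_lt.ne (by simpa using hg)
    obtain ⟨χ, h1, h2⟩ : ∃ χ : IrrCharacter G, (χ : G → ℂ) g ≠ 0 ∧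
        (χ : G → ℂ) g ≠ (χ : G → ℂ) 1 := by
      by_contra hc
      push Not at hc
      have h3 := sum_irr_one_mul hg1
      rw [Finset.sum_congr rfl fun (χ : IrrCharacter G) _ => (by
        by_cases h0 : (χ : G → ℂ) g = 0
        · simp [h0]
        · rw [if_neg h0, hc χ h0, Nat.cast_mul, coe_charDegree_irr] :
        (χ : G → ℂ) 1 * (χ : G → ℂ) g = ((if (χ : G → ℂ) g = 0 then 0 else
          charDegree (χ : G → ℂ) * charDegree (χ : G → ℂ) : ℕ) : ℂ)), ← Nat.cast_sum,
        Nat.cast_eq_zero, Finset.sum_eq_zero_iff] at h3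
      have h4 := h3 (irrOne G) (Finset.mem_univ _)
      rw [if_neg (by simp)] at h4
      exact (mul_ne_zero (charDegree_irr_ne_zero _) (charDegree_irr_ne_zero _)) h4
    refine ⟨χ, ?_⟩
    obtain ⟨ψ, h3, -⟩ := exists_faithful_deflation χ
    obtain ⟨r, hr⟩ := Codeg.charDegree_dvd_card ψ.2
    have h4 : charDegree ψ.1 = charDegree (χ : G → ℂ) := charDegree_congr_one (h3 1)
    rw [card_charKer χ.2.isCharacter, ← (charKer (χ : G → ℂ)).card_mul_index, index, hr, h4,
      ← mul_assoc, Nat.mul_div_cancel_left _ (Nat.mul_pos Nat.card_pos (charDegree_irr_pos _))]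
    by_contra hpr
    refine h1 ((h3 g).symm.trans (ψ.2.eq_zero_of_defect_zero hp (coe_charDegree_irr ψ).symm hr
      hpr ?_))
    have h5 : orderOf (g : G ⧸ charKer (χ : G → ℂ)) ∣ p :=
      hg ▸ orderOf_map_dvd (QuotientGroup.mk' _) g
    rcases (Nat.dvd_prime hp).1 h5 with h6 | h6
    · exact absurd ((mem_charKer_irr χ).1 ((QuotientGroup.eq_one_iff g).1 (orderOf_eq_one_iff.1 h6)))
        h2
    · rw [h6]
  · refine h.trans (Nat.div_dvd_of_dvd ?_)
    rw [card_charKer χ.2.isCharacter]
    exact Codeg.card_ker_mul_charDegree_dvd χ.2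

end Cfsg.Agent.S4808
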