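import Cfsg.Statements.S4812
import Cfsg.Agent.S4774

set_option autoImplicit false
open Cfsg

namespace Cfsg.Agent.S4812

open KSG KSG.GL2 KSG.M2 Char S4774

theorem arith2 {S : Type*} [Group S] {q : ℕ} {k : ℕ} (hk : k ≠ 0)
    (hq : q = 2 ^ k) (h1 : ∀ d ∈ charDegrees S, d = q ∨ d ∣ q + 1 ∨ d ∣ q - 1)
    (h2 : q ∈ charDegrees S) (h3 : q + 1 ∈ charDegrees S) (h4 : q - 1 ∈ charDegrees S) :
    Cfsg.degreePrimes S = {r : ℕ | r.Prime ∧ r ∣ q * (q ^ 2 - 1)} ∧ ∀ r s : ℕ, (Cfsg.degreeGraph S).Adj r s ↔ (r ≠ s ∧ r.Prime ∧ s.Prime ∧ ((r ∣ q + 1 ∧ s ∣ q + 1) ∨ (r ∣ q - 1 ∧ s ∣ q - 1))) := by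
  have e : q ^ 2 - 1 = (q + 1) * (q - 1) := by simpa using Nat.sq_sub_sq q 1
  rw [e]
  refine ⟨?_, fun r s => ?_⟩
  · ext r
    refine and_congr_right fun hr => ⟨?_, fun h => ?_⟩
    · rintro ⟨d, hd, hrd⟩
      rcases h1 d hd with rfl | h | h
      · exact hrd.mul_right _
      · exact ((hrd.trans h).mul_right _).mul_left _
      · exact ((hrd.trans h).mul_left _).mul_left _
    · rcases (Nat.Prime.dvd_mul hr).1 h with h | h
      · exact ⟨_, h2, h⟩
      · rcases (Nat.Prime.dvd_mul hr).1 h with h | h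
        · exact ⟨_, h3, h⟩
        · exact ⟨_, h4, h⟩
  · change (r ≠ s ∧ r.Prime ∧ s.Prime ∧ ∃ d ∈ charDegrees S, r * s ∣ d) ↔ _
    refine and_congr_right fun hrs => and_congr_right fun hr => and_congr_right fun hs => ?_
    have hc : r.Coprime s := (Nat.coprime_primes hr hs).2 hrs
    constructor
    · rintro ⟨d, hd, h⟩
      have hr' : r ∣ d := (dvd_mul_right r s).trans h
      have hs' : s ∣ d := (dvd_mul_left s r).trans h
      rcases h1 d hd with rfl | h' | h'
      · rw [hq] at hr' hs'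
        exact absurd (((Nat.prime_dvd_prime_iff_eq hr Nat.prime_two).1 (hr.dvd_of_dvd_pow hr')).trans
          ((Nat.prime_dvd_prime_iff_eq hs Nat.prime_two).1 (hs.dvd_of_dvd_pow hs')).symm) hrs
      · exact Or.inl ⟨hr'.trans h', hs'.trans h'⟩
      · exact Or.inr ⟨hr'.trans h', hs'.trans h'⟩
    · rintro (⟨a, b⟩ | ⟨a, b⟩)
      · exact ⟨_, h3, hc.mul_dvd_of_dvd_of_dvd a b⟩
      · exact ⟨_, h4, hc.mul_dvd_of_dvd_of_dvd a b⟩

section
variable {F : Type*} [Field F] [Fintype F] [DecidableEq F]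

theorem exists_deg2 (h5 : 4 ≤ Fintype.card F) (hev : 2 ∣ Fintype.card F) (d : ℕ) (hd : d = Fintype.card F ∨
    d = Fintype.card F + 1 ∨ d = Fintype.card F - 1) :
    ∃ χ : Matrix.SpecialLinearGroup (Fin 2) F → ℂ, IsIrrCharacter _ χ ∧ χ 1 = d ∧
      ∀ n ∈ Subgroup.center (Matrix.SpecialLinearGroup (Fin 2) F), χ n = χ 1 := by
  obtain ⟨g1, _⟩ := exists_fact_noEigS (F := F)
  rcases hd with rfl | rfl | rfl
  · refine ⟨stS F, isIrr_stS, stS_one, fun n hn => ?_⟩
    obtain ⟨a, -, e⟩ := sl_scal (SL_mem_center_iff.1 hn)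
    rw [stS_one, stS, res_apply, e, (vals_stw (Matrix.SpecialLinearGroup.toGL g1) 1).scal,
      MulChar.one_apply_coe, mul_one, mul_one]
  · obtain ⟨β, hβ⟩ := MulChar.exists_mulChar_orderOf (R := ℂ) F (n := Fintype.card F - 1) dvd_rfl
      (Complex.isPrimitiveRoot_exp _ (by omega))
    refine ⟨psS (β ^ 2), isIrr_psS_iff.2 fun h => ?_, by rw [psS_one]; simp, fun n hn => ?_⟩
    · rw [← pow_mul, ← orderOf_dvd_iff_pow_eq_one, hβ] at h
      have h' := Nat.le_of_dvd (by norm_num) h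
      have : Fintype.card F - 1 = 3 := by omega
      rw [this] at h
      omega
    · obtain ⟨a, ha, e⟩ := sl_scal (SL_mem_center_iff.1 hn)
      have ha2 : (a : F) ^ 2 = 1 := by
        rcases SL_mem_center_iff'.1 hn with rfl | rfl
        · rw [← ha]; simp
        · rw [← ha]; simp
      rw [psS_one, psS_eq, res_apply, e, (vals_ps (Matrix.SpecialLinearGroup.toGL g1) _ 1).scal,
        MulChar.one_apply_coe, MulChar.pow_apply_coe, ← map_pow, ha2]
      simp
  · obtain ⟨c, hc⟩ := IsCyclic.exists_ofOrder_eq_natCard (α := TorS g1)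
    rw [card_torS, Nat.card_eq_fintype_card] at hc
    have hc4 : c ^ 4 ≠ 1 := fun h => by
      rw [← orderOf_dvd_iff_pow_eq_one, hc] at h
      have := Nat.le_of_dvd (by norm_num) h
      omega
    obtain ⟨η, hη⟩ : ∃ η : TorS g1 →* ℂˣ, η (c ^ 4) ≠ 1 := by
      letI : CommGroup (TorS g1) := IsCyclic.commGroup
      exact CommGroup.exists_apply_ne_one_of_hasEnoughRootsOfUnity (TorS g1) ℂ hc4
    refine ⟨cuspS (η ^ 2), isIrr_cuspS fun h => hη ?_, ?_, fun n hn => ?_⟩
    · rw [← pow_mul] at h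
      rw [map_pow]
      exact DFunLike.congr_fun h c
    · rw [cuspS_one, Nat.cast_sub (by omega)]; simp
    · obtain ⟨a, ha, e⟩ := sl_scal (SL_mem_center_iff.1 hn)
      have hm : n ∈ TorS g1 := Subgroup.center_le_centralizer _ hn
      have e2 : scT (Matrix.SpecialLinearGroup.toGL g1) a = torIncl g1 ⟨n, hm⟩ :=
        Subtype.ext (by rw [coe_torIncl, e]; rfl)
      have e3 : (⟨n, hm⟩ : TorS g1) ^ 2 = 1 := Subtype.ext (sq_center hn)
      rw [cuspS_one, cuspS, res_apply, e, (vals_cusp _).scal, e2, extT_apply, MonoidHom.pow_apply,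
        ← map_pow, e3]
      simp

end

/-- Let F be a finite field of characteristic 2 with q ≥ 4 elements and let S be isomorphic to PSL(2,F) or to SL(2,F). Then the vertices of the character degree graph of S are the primes dividing q(q²−1), and two distinct primes are adjacent exactly when both divide q + 1 or both divide q − 1; so the graph has the three connected components {2}, the primes dividing q + 1 and the primes dividing q − 1, each complete. -/
theorem result (F : Type*) [Field F] [Fintype F] [CharP F 2] (q : ℕ) (hq : Fintype.card F = q) (h4 : 4 ≤ q) {S : Type*} [Group S] [Finite S] (hS : Nonempty (S ≃* Matrix.ProjectiveSpecialLinearGroup (Fin 2) F) ∨ Nonempty (S ≃* Matrix.SpecialLinearGroup (Fin 2) F)) : Cfsg.degreePrimes S = {r : ℕ | r.Prime ∧ r ∣ q * (q ^ 2 - 1)} ∧ ∀ r s : ℕ, (Cfsg.degreeGraph S).Adj r s ↔ (r ≠ s ∧ r.Prime ∧ s.Prime ∧ ((r ∣ q + 1 ∧ s ∣ q + 1) ∨ (r ∣ q - 1 ∧ s ∣ q - 1))) := by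
  classical
  obtain ⟨k, -, hk⟩ := FiniteField.card F 2
  subst hq
  have hev : 2 ∣ Fintype.card F := hk ▸ dvd_pow_self 2 k.ne_zero
  have hs := QuotientGroup.mk'_surjective (Subgroup.center (Matrix.SpecialLinearGroup (Fin 2) F))
  rcases hS with ⟨⟨e⟩⟩ | ⟨⟨e⟩⟩
  · have ex : ∀ d, (d = Fintype.card F ∨ d = Fintype.card F + 1 ∨ d = Fintype.card F - 1) →
        d ∈ charDegrees S := by
      intro d hd
      obtain ⟨χ, hχ, h1, h2⟩ := exists_deg2 h4 hev d hd
      obtain ⟨ψ, hψ⟩ := (mem_range_inflateIrr _ hs ⟨χ, hχ⟩).2 (by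
        intro n hn
        rw [QuotientGroup.ker_mk'] at hn
        exact h2 n hn)
      rw [degs_congr e]
      exact ⟨ψ, by rw [← charDegree_inflateIrr _ hs, hψ, charDegree_eq_of_one_eq h1]⟩
    refine arith2 k.ne_zero hk ?_ (ex _ (by simp)) (ex _ (by simp)) (ex _ (by simp))
    rw [degs_congr e]
    rintro _ ⟨χ, rfl⟩
    rw [← charDegree_inflateIrr _ hs]
    exact deg_cases (inflateIrr _ hs χ).2
  · have ex : ∀ d, (d = Fintype.card F ∨ d = Fintype.card F + 1 ∨ d = Fintype.card F - 1) →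
        d ∈ charDegrees S := by
      intro d hd
      obtain ⟨χ, hχ, h1, -⟩ := exists_deg2 h4 hev d hd
      rw [degs_congr e]
      exact ⟨⟨χ, hχ⟩, charDegree_eq_of_one_eq h1⟩
    refine arith2 k.ne_zero hk ?_ (ex _ (by simp)) (ex _ (by simp)) (ex _ (by simp))
    rw [degs_congr e]
    rintro _ ⟨χ, rfl⟩
    exact deg_cases χ.2

end Cfsg.Agent.S4812
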