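import Cfsg.Statements.S4813
import Cfsg.Agent.Char.MinNonab
import Cfsg.Agent.S4466

set_option autoImplicit false
open Cfsg

namespace Cfsg.Agent.S4813

open Cfsg.Agent.Char

theorem card_le {s : Set ℕ} {a b c : ℕ} (h : s ⊆ {a, b, c}) : Nat.card s ≤ 3 := by
  rw [Nat.card_coe_set_eq]
  refine (Set.ncard_le_ncard h (Set.toFinite _)).trans ?_
  refine (Set.ncard_insert_le _ _).trans ?_
  have := Set.ncard_insert_le b ({c} : Set ℕ)
  rw [Set.ncard_singleton] at this
  omega


/-- If every irreducible complex character of the finite group G of degree greater than one has prime degree, then G has at most three distinct irreducible character degrees. -/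
theorem result {G : Type*} [Group G] [Finite G] (hprime : ∀ d ∈ Cfsg.charDegrees G, d = 1 ∨ d.Prime) : Nat.card ↥(Cfsg.charDegrees G) ≤ 3 := by
  classical
  letI := Fintype.ofFinite G
  have := S4466.result (G := G) fun χ h => (hprime _ ⟨χ, rfl⟩).resolve_left h
  have hnp : ∀ a b : ℕ, a ≠ 1 → b ≠ 1 → a * b ∉ cdSet G := fun a b ha hb h =>
    (hprime _ h).elim (fun e => ha (Nat.eq_one_of_mul_eq_one_right e)) (Nat.not_prime_mul ha hb)
  by_cases h : commutator G ≤ ⁅commutator G, commutator G⁆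
  · have h0 : commutator G = ⊥ := by
      by_contra hne
      exact (Group.IsSolvable.commutator_lt_of_ne_bot hne).not_ge h
    refine card_le (a := 1) (b := 1) (c := 1) ?_
    rintro _ ⟨χ, rfl⟩
    exact Or.inl (charDegree_eq_of_one_eq (n := 1) (by
      simpa using one_eq_one_of_commutator_le χ.2 (h0 ▸ bot_le)))
  rcases degree_dichotomy h with ⟨p, K, _, hp, hP, hab⟩ | ⟨r, L, _, hr, hL, h1, h2, h3, h4⟩
  · have := Fact.mk hp
    obtain ⟨β, hβ⟩ := exists_charDegree_ne_one hab
    obtain ⟨k, hk⟩ := hP.exists_card_eq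
    refine card_le (a := 1) (b := p) (c := p) ?_
    rintro _ ⟨χ, rfl⟩
    rcases hprime _ ⟨χ, rfl⟩ with h1 | h1
    · exact Or.inl h1
    by_contra hn
    refine hnp _ _ hβ h1.one_lt.ne' (exists_mul_degree_of_coprime K β χ ?_)
    rw [K.index_eq_card, hk]
    exact ((Nat.coprime_primes h1 hp).2 fun e => hn (Or.inr (Or.inl e))).pow_right _
  · refine card_le (a := 1) (b := L.index) (c := r) ?_
    rintro _ ⟨χ, rfl⟩
    rcases hprime _ ⟨χ, rfl⟩ with h5 | h5
    · exact Or.inl h5
    obtain ⟨ψ, hψ, h0⟩ := exists_irr_inner_restrict_ne_zero L χ.2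
    obtain ⟨e, he, hed⟩ := exists_deg_eq_mul_dvd_index L hψ χ.2 h0
    have he' : charDegree χ.1 = e * charDegree ψ := charDegree_eq_of_one_eq (by
      rw [he, Nat.cast_mul, coe_charDegree_of_isCharacter hψ.isCharacter])
    by_cases h6 : charDegree ψ = 1
    · rw [h6, mul_one] at he'
      exact Or.inr (Or.inl ((Nat.prime_dvd_prime_iff_eq h5
        ((hprime _ h2).resolve_left h1)).1 (he' ▸ hed)))
    rcases h4 ⟨ψ, hψ⟩ with h7 | h7
    · exact (hnp _ _ h1 h6 h7).elim
    · exact Or.inr (Or.inr ((Nat.prime_dvd_prime_iff_eq hr h5).1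
        (he' ▸ Dvd.dvd.mul_left h7 e)).symm)

end Cfsg.Agent.S4813
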