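import Cfsg.Statements.S4814
import Cfsg.Agent.Char.Prod
import Cfsg.Agent.Char.Values

set_option autoImplicit false
open Cfsg

namespace Cfsg.Agent.S4814

open Cfsg.Agent.Char
open scoped ComplexConjugate

/-- Let G be a finite group such that the sum, over the irreducible complex characters χ of G, of 1/χ(1)² is less than 2. Then every element of G is a product of two commutators. -/
theorem result {G : Type*} [Group G] [Finite G]
    (h : ∑ᶠ χ : Cfsg.IrrCharacter G, 1 / ‖(χ : G → ℂ) 1‖ ^ 2 < (2 : ℝ)) (g : G) :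
    ∃ a b c d : G, (a * b * a⁻¹ * b⁻¹) * (c * d * c⁻¹ * d⁻¹) = g := by
  classical
  haveI := Fintype.ofFinite G
  rw [finsum_eq_sum_of_fintype] at h
  by_contra hcon
  push Not at hcon
  set N : G → ℂ := fun x => ((Finset.univ.filter fun p : G × G => p.1 * p.2 * p.1⁻¹ * p.2⁻¹ = x).card : ℂ)
    with hN
  have hNe : N = ∑ χ : IrrCharacter G, ((Nat.card G : ℂ) / (χ : G → ℂ) 1) • (χ : G → ℂ) := by
    funext x
    rw [hN]
    simp only [card_commutator_eq, Finset.sum_apply, Pi.smul_apply, smul_eq_mul, Finset.mul_sum]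
    exact Finset.sum_congr rfl fun χ _ => by ring
  have hcl : IsClassFunction G N := hNe ▸ isClassFunction_sum_smul_irr _
  have h0 : ∑ x : G, conj (N x) * N (x * g) = 0 := by
    refine Finset.sum_eq_zero fun x _ => ?_
    by_contra hne
    obtain ⟨h1, h2⟩ := mul_ne_zero_iff.1 hne
    have h1' : N x ≠ 0 := fun e => h1 (by rw [e, map_zero])
    obtain ⟨p, hp⟩ := Finset.card_ne_zero.1 (Nat.cast_ne_zero.1 h1')
    obtain ⟨q, hq⟩ := Finset.card_ne_zero.1 (Nat.cast_ne_zero.1 h2)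
    simp only [Finset.mem_filter, Finset.mem_univ, true_and] at hp hq
    apply hcon p.2 p.1 q.1 q.2
    rw [hq, ← hp]; group
  have hG := card_ne_zero G
  have h1 : ∑ x : G, conj (N x) * N (x * g) =
      (Nat.card G : ℂ) ^ 3 * ∑ χ : IrrCharacter G, (χ : G → ℂ) g / (χ : G → ℂ) 1 ^ 3 := by
    have : ∀ x, N (x * g) = ∑ χ : IrrCharacter G, ((Nat.card G : ℂ) / (χ : G → ℂ) 1) * (χ : G → ℂ) (x * g) := by
      intro x
      conv_lhs => rw [hNe]
      simp [Finset.sum_apply]
    simp only [this, Finset.mul_sum]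
    rw [Finset.sum_comm]
    refine Finset.sum_congr rfl fun χ _ => ?_
    have e1 := χ.2.sum_conj_mul_mul hcl g
    have e2 : classInner (χ : G → ℂ) N = (Nat.card G : ℂ) / (χ : G → ℂ) 1 := by
      rw [← classInner_conj_symm]
      conv_lhs => rw [hNe]
      rw [classInner_sum_smul_irr, map_div₀, χ.2.isCharacter.conj_one, Complex.conj_natCast]
    have h3 := χ.2.one_ne_zero
    rw [e2] at e1
    have e3 : ∑ x : G, conj (N x) * (χ : G → ℂ) (x * g) =
        Nat.card G * ((Nat.card G : ℂ) / (χ : G → ℂ) 1) * (χ : G → ℂ) g / (χ : G → ℂ) 1 := by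
      rw [← e1]; field_simp
    calc _ = (Nat.card G : ℂ) / (χ : G → ℂ) 1 * ∑ x : G, conj (N x) * (χ : G → ℂ) (x * g) := by
          rw [Finset.mul_sum]; exact Finset.sum_congr rfl fun x _ => by ring
      _ = _ := by rw [e3]; field_simp
  rw [h0, eq_comm, mul_eq_zero] at h1
  have h2 := h1.resolve_left (pow_ne_zero _ hG)
  rw [← Finset.add_sum_erase _ _ (Finset.mem_univ (irrOne G))] at h h2
  simp only [irrOne_apply, norm_one, one_pow, div_one] at h h2
  have h3 : ‖∑ χ ∈ Finset.univ.erase (irrOne G), (χ : G → ℂ) g / (χ : G → ℂ) 1 ^ 3‖ = 1 := by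
    rw [eq_neg_of_add_eq_zero_right h2, norm_neg, norm_one]
  have h4 : ‖∑ χ ∈ Finset.univ.erase (irrOne G), (χ : G → ℂ) g / (χ : G → ℂ) 1 ^ 3‖ ≤
      ∑ χ ∈ Finset.univ.erase (irrOne G), 1 / ‖(χ : G → ℂ) 1‖ ^ 2 := by
    refine (norm_sum_le _ _).trans (Finset.sum_le_sum fun χ _ => ?_)
    have h5 := isCharacter_norm_le χ.2.isCharacter g
    have h6 : 0 < ‖(χ : G → ℂ) 1‖ := norm_pos_iff.2 χ.2.one_ne_zero
    rw [norm_div, norm_pow, div_le_div_iff₀ (by positivity) (by positivity)]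
    nlinarith [sq_nonneg ‖(χ : G → ℂ) 1‖]
  linarith

end Cfsg.Agent.S4814
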