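import Cfsg.Statements.S4823
import Cfsg.Agent.EBall.Mat
import Cfsg.Agent.EBall.Grp

set_option autoImplicit false
universe u
open Cfsg

namespace Cfsg.Agent.S4823

/-- For every prime p and every natural number k there is a bound N such that, for every finite group G and every maximal ideal M of the algebraic integers containing p, if the principal p-block of G has at most k irreducible characters then the p-part of the order of G (the order of a defect group of the principal block) is at most p ^ N. -/
theorem result (p : ℕ) [Fact p.Prime] (k : ℕ) : ∃ N : ℕ, ∀ (G : Type u) [Group G] [Finite G] (M : Ideal Cfsg.AlgInt), Cfsg.IsPModular p M → Nat.card (Cfsg.principalBlock M G) ≤ k → (Nat.card G).factorization p ≤ N := by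
  have hF : (⋃ n ∈ Set.Iio k, {r : ℚ | ∃ (q : ℤ) (C : Fin (n + 1) → Fin (n + 1) → ℤ),
      EBall.Dat q C ∧ EBall.Dat q (fun i j => (if i = j then q else 0) - C i j) ∧
      r = (C 0 0 : ℚ) / q}).Finite :=
    (Set.finite_Iio k).biUnion fun n _ => EBall.fin_ratio n
  obtain ⟨N, hN⟩ := (hF.image Rat.den).bddAbove
  refine ⟨N, fun G _ _ M hM hk => ?_⟩
  have hp : p.Prime := Fact.out
  have : Nonempty (principalBlock M G) := ⟨⟨_, Block.irrOne_mem_principal hM⟩⟩
  have : Finite (principalBlock M G) := inferInstance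
  obtain ⟨n, hn⟩ : ∃ n, Nat.card (principalBlock M G) = n + 1 :=
    ⟨_, (Nat.succ_pred_eq_of_pos Nat.card_pos).symm⟩
  obtain ⟨C, h1, h2, h3⟩ := EBall.exists_dat hM hn
  have h4 := hN ⟨_, Set.mem_biUnion (show n ∈ Set.Iio k by simp only [Set.mem_Iio]; omega)
    ⟨_, C, h1, h2, rfl⟩, rfl⟩
  have h5 : (C 0 0).natAbs.Coprime ((p : ℤ) ^ (Nat.card G).factorization p).natAbs := by
    rw [Int.natAbs_pow, Int.natAbs_natCast]
    exact (Nat.Coprime.pow_left _
      ((Nat.Prime.coprime_iff_not_dvd hp).2 fun h => h3 (Int.natCast_dvd.2 h))).symm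
  have h6 := Rat.den_div_eq_of_coprime (a := C 0 0) (pow_pos (Int.natCast_pos.2 hp.pos) _) h5
  have h7 : p ^ (Nat.card G).factorization p ≤ N := by
    have : ((p : ℤ) ^ (Nat.card G).factorization p) ≤ N := h6 ▸ Int.ofNat_le.2 h4
    exact_mod_cast this
  exact (Nat.lt_pow_self hp.one_lt).le.trans h7

end Cfsg.Agent.S4823
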