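import Mathlib
import Cfsg.Statements.S4825
import Cfsg.Agent.Block.Cover
import Cfsg.Agent.Block.PPart
import Cfsg.Agent.Block.Trace

set_option autoImplicit false
open Cfsg

namespace Cfsg.Agent.S4825

open Cfsg.Agent.Block Cfsg.Agent.Char

open scoped ComplexConjugate in
theorem dvd_sum_sq {G : Type*} [Group G] [Fintype G] {p : ℕ} [Fact p.Prime] {M : Ideal AlgInt}
    (hM : IsPModular p M) {B : Set (IrrCharacter G)} (hB : IsPBlock M B) (N : Subgroup G)
    [N.Normal] [Fintype N] {y : G} (hy : ∃ k, orderOf y = p ^ k) (hyN : y ∉ N)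
    (A : Set (IrrCharacter N)) [DecidablePred (· ∈ B ∩ above N A)] :
    p ∣ ∑ χ ∈ Finset.univ.filter (· ∈ B ∩ above N A), charDegree (χ : G → ℂ) ^ 2 := by
  have h1 : blockCoeff (B ∩ above N A) y = 0 := by
    rw [← coeff_eSet, ← eSet_mul_eSet, coeff_mul_eq_sum']
    refine Finset.sum_eq_zero fun x _ => ?_
    rw [coeff_eSet, coeff_eSet]
    by_cases hx : x ∈ N
    · rw [blockCoeff_eq_zero_of_dvd hM hB, zero_mul]
      by_contra h
      apply hyN
      rw [← QuotientGroup.eq_one_iff]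
      refine eq_one_of_orderOf_pow_of_not_dvd (p := p) ?_ fun h' => h ?_
      · obtain ⟨k, hk⟩ := hy
        exact orderOf_eq_pow_iff.2 ⟨k, by
          rw [← QuotientGroup.mk_pow, ← hk, pow_orderOf_eq_one, QuotientGroup.mk_one]⟩
      · refine h'.trans ?_
        have := orderOf_map_dvd (QuotientGroup.mk' N) (y * x⁻¹)
        rwa [QuotientGroup.mk'_apply, QuotientGroup.mk_mul,
          (QuotientGroup.eq_one_iff _).2 (N.inv_mem hx), mul_one] at this
    · rw [blockCoeff_above_of_notMem A hx, mul_zero]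
  rw [blockCoeff, mul_eq_zero, inv_eq_zero, finsum_mem_irr_filter] at h1
  replace h1 := h1.resolve_left (card_ne_zero G)
  rw [← val_natCast_lt_one_iff hM, ← sub_zero (Nat.cast _), ← h1, Nat.cast_sum,
    ← Finset.sum_sub_distrib]
  refine val_sum_lt_one fun χ _ => ?_
  rw [Nat.cast_pow, cast_charDegree χ.2.isCharacter, sq, ← mul_sub, ← χ.2.map_inv]
  refine val_mul_lt_one_right (val_irr_le_one χ 1) ?_
  have := val_char_sub_pReg_lt_one hM χ.2.isCharacter y⁻¹
  rwa [pReg_eq_one_iff.2 (by simpa using hy), val_sub_comm] at this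

/-- Let p be a prime, G a finite group with Sylow p-subgroup P, M a maximal ideal of the algebraic integers containing p, and B a p-block of G with defect group P. Let N be a normal subgroup of G not containing P and θ an irreducible character of N. Then the number of irreducible characters in B of degree prime to p lying over θ (having θ as a constituent on restriction to N) is either 0 or at least 2, and when p ≤ 3 it is divisible by p. -/
theorem result {G : Type*} [Group G] [Fintype G] (p : ℕ) [Fact p.Prime] (P : Sylow p G) (M : Ideal Cfsg.AlgInt) (hM : Cfsg.IsPModular p M) (B : Set (Cfsg.IrrCharacter G)) (hB : Cfsg.IsPBlock M B) (hBP : Cfsg.IsDefectGroup p M B P) (N : Subgroup G) [N.Normal] [Fintype N] (hPN : ¬ (P : Subgroup G) ≤ N) (θ : Cfsg.IrrCharacter N) :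
    (Nat.card {χ : Cfsg.IrrCharacter G // χ ∈ B ∧ ¬ p ∣ Cfsg.charDegree (χ : G → ℂ) ∧ Cfsg.classInner (fun n : N => (χ : G → ℂ) n) (θ : N → ℂ) ≠ 0} = 0 ∨
      2 ≤ Nat.card {χ : Cfsg.IrrCharacter G // χ ∈ B ∧ ¬ p ∣ Cfsg.charDegree (χ : G → ℂ) ∧ Cfsg.classInner (fun n : N => (χ : G → ℂ) n) (θ : N → ℂ) ≠ 0}) ∧
    (p ≤ 3 → p ∣ Nat.card {χ : Cfsg.IrrCharacter G // χ ∈ B ∧ ¬ p ∣ Cfsg.charDegree (χ : G → ℂ) ∧ Cfsg.classInner (fun n : N => (χ : G → ℂ) n) (θ : N → ℂ) ≠ 0}) := by
  classical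
  have hp : p.Prime := Fact.out
  obtain ⟨y, hyP, hyN⟩ := SetLike.not_le_iff_exists.1 hPN
  have h1 := dvd_sum_sq hM hB N (orderOf_eq_pow_of_mem P.isPGroup' hyP) hyN {θ}
  set S := Finset.univ.filter (fun χ : IrrCharacter G => χ ∈ B ∧ ¬ p ∣ charDegree (χ : G → ℂ) ∧
    classInner (fun n : N => (χ : G → ℂ) n) (θ : N → ℂ) ≠ 0) with hS
  have h2 : p ∣ ∑ χ ∈ S, charDegree (χ : G → ℂ) ^ 2 := by
    rw [← Finset.sum_filter_add_sum_filter_not _ (fun χ : IrrCharacter G =>
      p ∣ charDegree (χ : G → ℂ)), Nat.dvd_add_right (Finset.dvd_sum fun χ hχ =>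
        Dvd.dvd.pow (Finset.mem_filter.1 hχ).2 two_ne_zero)] at h1
    convert h1 using 2
    ext χ
    simp only [hS, Finset.mem_filter, Finset.mem_univ, true_and, Set.mem_inter_iff,
      mem_above_singleton]
    tauto
  rw [Nat.card_eq_fintype_card, Fintype.card_subtype, ← hS]
  constructor
  · by_contra h
    obtain ⟨χ, hχ⟩ := Finset.card_eq_one.1 (show S.card = 1 by omega)
    have h3 : χ ∈ S := hχ ▸ Finset.mem_singleton_self χ
    rw [hχ, Finset.sum_singleton] at h2
    exact (Finset.mem_filter.1 h3).2.2.1 (hp.dvd_of_dvd_pow h2)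
  · intro h3
    have h4 : ∑ χ ∈ S, charDegree (χ : G → ℂ) ^ 2 ≡ ∑ χ ∈ S, 1 [MOD p] := by
      refine Nat.ModEq.sum fun χ hχ => ?_
      have h5 := (Finset.mem_filter.1 hχ).2.2.1
      generalize charDegree (χ : G → ℂ) = d at h5
      have := hp.two_le
      have h6 : p = 2 ∨ p = 3 := by omega
      rcases h6 with rfl | rfl
      · have : d % 2 = 1 := by omega
        simp [Nat.ModEq, Nat.pow_mod, this]
      · have : d % 3 = 1 ∨ d % 3 = 2 := by omega
        rcases this with h | h <;> simp [Nat.ModEq, Nat.pow_mod, h]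
    rw [← Finset.card_eq_sum_ones] at h4
    exact (h4.dvd_iff dvd_rfl).1 h2

end Cfsg.Agent.S4825
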