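import Cfsg.Statements.S4828
import Cfsg.Agent.Block.BrauerPair
import Cfsg.Agent.Block.NormalDefect

set_option autoImplicit false
open Cfsg

namespace Cfsg.Agent.S4828

open Cfsg.Agent.Block Subgroup


/-- Let p be a prime, M a maximal ideal of the algebraic integers containing p, and (Q, e) a Brauer pair of the finite group G (Q a p-subgroup, e a block of C_G(Q)). Then (Q, e) is a maximal Brauer pair of some block of G if and only if e contains an irreducible character θ such that θ takes the value θ(1) at every element of Z(Q) = Q ∩ C_G(Q), the p-part of θ(1) times the p-part of the order of Z(Q) equals the p-part of the order of C_G(Q) (θ has defect zero as a character of C_G(Q)/Z(Q)), and every element of N_G(Q) of p-power order that stabilizes e lies in Q·C_G(Q) (the stabilizer of e in N_G(Q) has index prime to p over Q·C_G(Q)). -/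
theorem result {G : Type*} [Group G] [Finite G] (p : ℕ) [Fact p.Prime] (M : Ideal Cfsg.AlgInt) (hM : Cfsg.IsPModular p M) (Q : Subgroup G) (e : Set (Cfsg.IrrCharacter (Subgroup.centralizer (Q : Set G)))) (he : Cfsg.IsBrauerPair p M Q e) :
    (∃ B : Set (Cfsg.IrrCharacter G), Cfsg.IsMaximalBrauerPair p M B Q e) ↔
      ∃ θ ∈ e, (∀ z : Subgroup.centralizer (Q : Set G), (z : G) ∈ Q → (θ : Subgroup.centralizer (Q : Set G) → ℂ) z = (θ : Subgroup.centralizer (Q : Set G) → ℂ) 1) ∧
        (Cfsg.charDegree (θ : Subgroup.centralizer (Q : Set G) → ℂ)).factorization p + (Nat.card ↥(Q ⊓ Subgroup.centralizer (Q : Set G))).factorization p = (Nat.card (Subgroup.centralizer (Q : Set G))).factorization p ∧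
        (∀ g : G, g ∈ Subgroup.normalizer (Q : Set G) → Cfsg.StabilizesBlock (Subgroup.centralizer (Q : Set G)) e g → (∃ k : ℕ, orderOf g = p ^ k) → g ∈ Q ⊔ Subgroup.centralizer (Q : Set G)) := by
  have := charP_resField hM
  have hp : p.Prime := Fact.out
  have hbp := (bp_bar_iff hM he.2).2 he
  have hZ : (Q ⊓ (centralizer (Q : Set G))).subgroupOf (centralizer (Q : Set G)) ≤ center (centralizer (Q : Set G)) := fun z hz =>
    mem_center_iff.2 fun g => Subtype.ext (g.2 z hz.1).symm
  have hZp : IsPGroup p ((Q ⊓ (centralizer (Q : Set G))).subgroupOf (centralizer (Q : Set G))) :=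
    (he.1.to_le inf_le_left).comap_of_injective _ (centralizer (Q : Set G)).subtype_injective
  have hidx : ((Q ⊓ (centralizer (Q : Set G))).subgroupOf (centralizer (Q : Set G))).index.factorization p + (Nat.card ↥(Q ⊓ (centralizer (Q : Set G)))).factorization p =
      (Nat.card (centralizer (Q : Set G))).factorization p := by
    rw [← ((Q ⊓ (centralizer (Q : Set G))).subgroupOf (centralizer (Q : Set G))).index_mul_card,
      Nat.factorization_mul FiniteIndex.index_ne_zero Nat.card_pos.ne',
      Nat.card_congr (subgroupOfEquivOfLe (inf_le_right : Q ⊓ (centralizer (Q : Set G)) ≤ (centralizer (Q : Set G)))).toEquiv]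
    rfl
  constructor
  · rintro ⟨B, hB⟩
    have hm := maxBP_of_isMaximal hM hB
    have hD := (isDef_cbar_iff hM he.2 Q).1 hm.isDef_center
    have : ((Q ⊓ (centralizer (Q : Set G))).subgroupOf (centralizer (Q : Set G))).Normal := ⟨fun z hz g => by
      rw [mem_center_iff.1 (hZ hz) g, mul_inv_cancel_right]; exact hz⟩
    obtain ⟨θ, hθ, hk⟩ := exists_mem_ker_of_normal hM he.2 hZp
    refine ⟨θ, hθ, fun z hz => hk z ⟨hz, z.2⟩, ?_, ?_⟩
    · rw [factorization_eq_index_of_ker hM he.2 hD hθ hk, hidx]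
    · rintro g hg hs ⟨k, hk⟩
      have h1 := hm.not_dvd_relIndex
      rw [top_inf_eq, sup_comm] at h1
      have hg' : g ∈ Alg.nst ⊤ Q (cbar M Q e) := (mem_nst_cbar_iff hM he.2).2 ⟨hg, hs⟩
      have : ((Q ⊔ (centralizer (Q : Set G))).subgroupOf (Alg.nst ⊤ Q (cbar M Q e))).Normal :=
        normal_subgroupOf_of_le_normalizer fun x hx =>
          normalizer_inf_normalizer_le_normalizer_sup _ _ ⟨Alg.nst_le_normalizer _ _ _ hx,
            Alg.normalizer_le_normalizer_centralizer _ (Alg.nst_le_normalizer _ _ _ hx)⟩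
      exact mem_of_orderOf_eq_pow_of_index ((Q ⊔ (centralizer (Q : Set G))).subgroupOf _) h1 (x := ⟨g, hg'⟩)
        ⟨k, by rw [← hk, orderOf_mk]⟩
  · rintro ⟨θ, hθ, -, hdeg, hT⟩
    have hD := isDefectGroup_of_central hM hZp hZ θ (by omega)
    rw [← eq_blockOf_of_mem hM he.2 hθ] at hD
    obtain ⟨b, hb⟩ := hbp.exists_of
    obtain ⟨B, hB, rfl⟩ := exists_block_of_isPrim_top hM hb.block
    refine ⟨B, (maxBP_cbar_iff hM hB he.2).1 (hb.maxBP_of_isDef_center
      ((isDef_cbar_iff hM he.2 Q).2 hD) fun R hR hRp g hg => ?_)⟩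
    rw [top_inf_eq]
    obtain ⟨h1, h2⟩ := (mem_nst_cbar_iff hM he.2).1 (hR hg)
    obtain ⟨k, hk⟩ := IsPGroup.iff_orderOf.1 hRp ⟨g, hg⟩
    exact hT g h1 h2 ⟨k, by rw [← hk, orderOf_mk]⟩

end Cfsg.Agent.S4828
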