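import Cfsg.Statements.S4838
import Cfsg.Agent.Char.Gagola

set_option autoImplicit false
open Cfsg

namespace Cfsg.Agent.S4838

open Cfsg.Agent.Char

/-- Let G be a finite group of order greater than 2 with an irreducible character χ nonzero on exactly two conjugacy classes, N the normal p-subgroup of elements where χ is nonzero, and P a Sylow p-subgroup of G. Then (a) for every x outside N the centralizer of x in G has the same order as the centralizer of xN in G/N; (b) the centre of P lies in N, and equals N exactly when P is normal in G; (c) N, viewed inside P, is a term of the upper central series of P. -/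
theorem result {G : Type*} [Group G] [Finite G] (hG : 2 < Nat.card G) (χ : Cfsg.IrrCharacter G) (hχ : Nat.card {C : ConjClasses G // ∃ g ∈ C.carrier, (χ : G → ℂ) g ≠ 0} = 2) (p : ℕ) [Fact p.Prime] (N : Subgroup G) [N.Normal] (hN : ∀ g : G, g ∈ N ↔ (χ : G → ℂ) g ≠ 0) (hNp : IsPGroup p N) (hN1 : N ≠ ⊥) (P : Sylow p G) :
    (∀ x : G, x ∉ N → Nat.card (Subgroup.centralizer ({x} : Set G)) = Nat.card (Subgroup.centralizer ({(x : G ⧸ N)} : Set (G ⧸ N)))) ∧
      ((Subgroup.center ↥(P : Subgroup G)).map (P : Subgroup G).subtype ≤ N ∧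
        ((Subgroup.center ↥(P : Subgroup G)).map (P : Subgroup G).subtype = N ↔ (P : Subgroup G).Normal)) ∧
      (∃ i : ℕ, Subgroup.upperCentralSeries ↥(P : Subgroup G) i = N.subgroupOf (P : Subgroup G)) := by
  have h := gagola_of hG χ.2 hχ hN
  refine ⟨fun x hx => h.card_centralizer hx, ⟨h.center_le hNp P, fun e => ?_, fun hP => ?_⟩,
    h.upper hNp P⟩
  · obtain ⟨x, hx, hx1⟩ := h.exists_mem
    obtain ⟨Q, hQ⟩ := h.centralizer_sylow hNp hx hx1
    have h1 : (P : Subgroup G) ≤ Subgroup.centralizer (N : Set G) := fun y hy =>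
      Subgroup.mem_centralizer_iff.2 fun n hn => by
        rw [← e] at hn
        obtain ⟨c, hc, rfl⟩ := hn
        exact congrArg Subtype.val (Subgroup.mem_center_iff.1 hc ⟨y, hy⟩).symm
    have h2 : IsPGroup p (Subgroup.centralizer (N : Set G)) :=
      Q.isPGroup'.to_le (hQ ▸ Subgroup.centralizer_le (Set.singleton_subset_iff.2 hx))
    rw [← P.is_maximal' h2 h1]
    infer_instance
  · refine le_antisymm (h.center_le hNp P) fun n hn => ?_
    by_cases h1 : n = 1
    · rw [h1]; exact Subgroup.one_mem _
    obtain ⟨Q, hQ⟩ := h.centralizer_sylow hNp hn h1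
    haveI := Sylow.unique_of_normal P hP
    obtain rfl : Q = P := Subsingleton.elim _ _
    refine ⟨⟨n, hNp.le_sylow_of_normal Q hn⟩, Subgroup.mem_center_iff.2 fun y => Subtype.ext ?_, rfl⟩
    exact Subgroup.mem_centralizer_singleton_iff.1 (show (y : G) ∈ _ by rw [hQ]; exact y.2)

end Cfsg.Agent.S4838
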