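import Cfsg.Statements.S4839
import Cfsg.Agent.Char.Gagola

set_option autoImplicit false
open Cfsg

namespace Cfsg.Agent.S4839

open Cfsg.Agent.Char

/-- Let G be a finite group of order greater than 2 with an irreducible character χ nonzero on exactly two conjugacy classes, and let N be the normal p-subgroup of elements where χ is nonzero. Then N is the whole p-core O_p(G) if and only if G is a doubly transitive Frobenius group with kernel N: G has a Frobenius complement H whose Frobenius kernel is N and whose order is one less than that of N. -/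
theorem result {G : Type*} [Group G] [Finite G] (hG : 2 < Nat.card G) (χ : Cfsg.IrrCharacter G) (hχ : Nat.card {C : ConjClasses G // ∃ g ∈ C.carrier, (χ : G → ℂ) g ≠ 0} = 2) (p : ℕ) [Fact p.Prime] (N : Subgroup G) [N.Normal] (hN : ∀ g : G, g ∈ N ↔ (χ : G → ℂ) g ≠ 0) (hNp : IsPGroup p N) (hN1 : N ≠ ⊥) :
    N = Cfsg.pCore p G ↔ ∃ H : Subgroup G, Cfsg.IsFrobeniusComplement H ∧ Cfsg.frobeniusKernel H = (N : Set G) ∧ Nat.card H + 1 = Nat.card N := by
  have h := gagola_of hG χ.2 hχ hN
  constructor
  · intro e
    obtain ⟨H, hH⟩ := h.exists_compl e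
    exact ⟨H, h.frobenius_of_compl hH⟩
  · rintro ⟨H, hF, hK, hc⟩
    have h1 := Solv.Frob.card_frobeniusKernel hF
    rw [hK] at h1
    have h2 : N.index = Nat.card N - 1 := by
      apply Nat.eq_of_mul_eq_mul_left (Nat.card_pos (α := N))
      rw [N.card_mul_index, ← H.index_mul_card, ← h1, ← hc, Nat.add_sub_cancel]
      exact congrArg₂ _ hc.symm rfl
    obtain ⟨P, hP⟩ := h.sylow_of_index hNp h2
    exact hP.trans (Grp.pCore_eq_sylow_of_normal P (hP ▸ h.normal)).symm

end Cfsg.Agent.S4839
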