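import Cfsg.Statements.S4843
import Cfsg.Agent.Char.ExtraspecialChar
import Cfsg.Agent.Char.Prod
import Cfsg.Agent.Char.Zeros
import Cfsg.Agent.Char.Galois
import Cfsg.Agent.Char.Integrality
import Cfsg.Agent.Grp.Fitting

set_option autoImplicit false
open Cfsg

namespace Cfsg.Agent.S4843

open Cfsg.Agent.Char Subgroup
open scoped commutatorElement ComplexConjugate

theorem avg_conj {G Γ : Type*} [Group G] [Fintype G] [Group Γ] (i : G →* Γ) {θ : Γ → ℂ}
    (hθ : IsCharacter Γ θ) (hi : IsIrrCharacter G (fun g => θ (i g))) (a c : Γ) :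
    θ 1 * ∑ g : G, θ (i g * a * (i g)⁻¹ * c) = Nat.card G * θ a * θ c := by
  obtain ⟨n, ρ, rfl⟩ := hθ
  have hirr : Representation.IsIrreducible (ρ.comp i) :=
    isIrreducible_of_isIrrCharacter (ρ.comp i) (by rw [char_comp]; exact hi)
  obtain ⟨s, hs⟩ := exists_eq_smul_of_commute (ρ.comp i) (∑ g : G, ρ (i g * a * (i g)⁻¹)) fun h => by
    rw [Finset.sum_mul, Finset.mul_sum, ← Equiv.sum_comp (Equiv.mulLeft h)]
    refine Finset.sum_congr rfl fun g _ => ?_
    simp only [MonoidHom.comp_apply, ← map_mul ρ, Equiv.coe_mulLeft, map_mul i]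
    congr 1; group
  have h1 : ∀ c, ∑ g : G, ρ.character (i g * a * (i g)⁻¹ * c) = s * ρ.character c := by
    intro c
    have := congrArg (fun T => LinearMap.trace ℂ _ (T * ρ c)) hs
    simpa only [Finset.sum_mul, map_sum, ← map_mul ρ, smul_mul_assoc, one_mul, map_smul,
      smul_eq_mul, Representation.character] using this
  have h2 := h1 1
  simp only [mul_one, Representation.char_conj, Finset.sum_const, Finset.card_univ, nsmul_eq_mul,
    Fintype.card_eq_nat_card] at h2
  rw [h1, h2]; ring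

theorem avg_prod {G : Type*} [Group G] [Fintype G] {α β : G → ℂ} (hα : IsCharacter G α)
    (hβ : IsCharacter G β) (h : IsIrrCharacter G (fun g => α g * β g)) (a b u v : G) :
    α 1 * β 1 * ∑ g : G, α (g * a * g⁻¹ * u) * β (g * b * g⁻¹ * v) =
      Nat.card G * (α a * β b) * (α u * β v) :=
  avg_conj ((MonoidHom.id G).prod (MonoidHom.id G)) (hα.prodFun hβ) h (a, b) (u, v)


/-- Let G be a finite group with a faithful irreducible character χ (taking the value χ(1) only at the identity) and let k be prime to the order of G, so that g ↦ χ(g^k) is a Galois conjugate of χ. If the pointwise product g ↦ χ(g)·χ(g^k) is again an irreducible character, then the Fitting subgroup of G equals its centre. -/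
theorem result {G : Type*} [Group G] [Finite G] (χ : Cfsg.IrrCharacter G) (hfaith : ∀ g : G, (χ : G → ℂ) g = (χ : G → ℂ) 1 → g = 1) (k : ℕ) (hk : Nat.Coprime k (Nat.card G)) (hirr : Cfsg.IsIrrCharacter G (fun g => (χ : G → ℂ) g * (χ : G → ℂ) (g ^ k))) : Cfsg.fittingSubgroup G = Subgroup.center G := by
  classical
  have := Fintype.ofFinite G
  set β : G → ℂ := fun g => (χ : G → ℂ) (g ^ k) with hβdef
  have hβ : IsIrrCharacter G β := χ.2.comp_pow hk
  have hβ1 : β 1 = (χ : G → ℂ) 1 := by simp [hβdef]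
  have hβf : ∀ g, β g = β 1 → g = 1 := fun g h => by
    apply pow_injective_of_coprime hk
    simp only [one_pow]
    exact hfaith _ (h.trans hβ1)
  have hβk : ∀ g, (χ : G → ℂ) (g ^ k) = β g := fun g => rfl
  have key := avg_prod χ.2.isCharacter hβ.isCharacter hirr
  rw [← hβ1] at key
  obtain ⟨d, hd0, hd⟩ := hβ.exists_nat_one
  have hd' : (d : ℂ) ≠ 0 := Nat.cast_ne_zero.2 hd0.ne'
  have step1 : ∀ w : G, (∀ g, Commute (g * w * g⁻¹) w) → w ∈ center G := by
    intro w hw
    let Y : G → ℂ := fun g => β (g * w * g⁻¹ * w⁻¹)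
    have h1 := key (w ^ k) w⁻¹ (w⁻¹ ^ k) w
    have h2 : ∀ g, (χ : G → ℂ) (g * w ^ k * g⁻¹ * w⁻¹ ^ k) * β (g * w⁻¹ * g⁻¹ * w) =
        Y g * conj (Y g) := by
      intro g
      rw [← conj_pow, ← (hw g).inv_right.mul_pow, hβk, ← hβ.map_inv]
      congr 2
      have := (hw g).inv_left.eq
      rw [mul_inv_rev, inv_inv, ← this]; group
    simp_rw [h2] at h1
    have h3 := hβ.one_mul_sum_conj_mul w w⁻¹
    rw [hβk, hβk, hd] at h1
    rw [hd] at h3
    set m : ℂ := β w * β w⁻¹ / d with hm
    have hmc : conj m = m := by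
      rw [hm, hβ.map_inv]; simp [mul_comm]
    have e1 : ∑ g, Y g = Nat.card G * m := by
      apply mul_left_cancel₀ hd'
      rw [h3, hm]; field_simp
    have e2 : ∑ g, Y g * conj (Y g) = Nat.card G * m ^ 2 := by
      apply mul_left_cancel₀ (mul_ne_zero hd' hd')
      rw [h1, hm]; field_simp
    have e3 : classInner (fun g => Y g - m) (fun g => Y g - m) = 0 := by
      rw [classInner_def]
      have : ∑ g, (Y g - m) * conj (Y g - m) =
          ∑ g, Y g * conj (Y g) - m * ∑ g, Y g - m * conj (∑ g, Y g) + Nat.card G * m ^ 2 := by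
        rw [map_sum, Finset.mul_sum, Finset.mul_sum, ← Finset.sum_sub_distrib,
          ← Finset.sum_sub_distrib, Nat.card_eq_fintype_card, ← nsmul_eq_mul, ← Finset.card_univ,
          ← Finset.sum_const, ← Finset.sum_add_distrib]
        refine Finset.sum_congr rfl fun g _ => ?_
        rw [map_sub, hmc]; ring
      rw [this, e2, e1, map_mul, hmc, Complex.conj_natCast]; ring
    have e4 : ∀ g, Y g = m := fun g => sub_eq_zero.1 (congrFun (classInner_self_eq_zero.1 e3) g)
    rw [mem_center_iff]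
    intro g
    have e5 : Y g = β 1 := by
      rw [e4, ← e4 1]; simp [Y]
    have := hβf _ e5
    calc g * w = (g * w * g⁻¹ * w⁻¹) * w * g := by group
      _ = w * g := by rw [this, one_mul]
  refine le_antisymm ?_ Grp.center_le_fitting
  by_contra hne
  set F := fittingSubgroup G with hF
  set π := QuotientGroup.mk' (center G) with hπ
  have hπ1 : ∀ y, π y = 1 ↔ y ∈ center G := fun y => QuotientGroup.eq_one_iff y
  have hnil : Group.IsNilpotent (F.map π) := Grp.isNilpotent_map_fitting π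
  have hnt : Nontrivial (F.map π) := by
    rw [nontrivial_iff_ne_bot]
    intro h
    rw [Subgroup.map_eq_bot_iff, hπ, QuotientGroup.ker_mk'] at h
    exact hne h
  obtain ⟨⟨⟨_, x, hxF, rfl⟩, hxc⟩, hx1⟩ :=
    (ne_bot_iff_exists_ne_one.1 (Group.IsNilpotent.center_ne_bot (F.map π)))
  have hxZ : x ∉ center G := fun h => hx1 (Subtype.ext (Subtype.ext ((hπ1 x).2 h)))
  have hxc' : ∀ f ∈ F, π f * π x = π x * π f := fun f hf =>
    congrArg Subtype.val (mem_center_iff.1 hxc ⟨_, f, hf, rfl⟩)
  have hvan : ∀ y ∈ F, (∀ f ∈ F, π f * π y = π y * π f) → y ∉ center G → β y = 0 := by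
    intro y hy hc hZ
    by_cases h : ∀ f ∈ F, f * y = y * f
    · exact absurd (step1 y fun g => h _ (Subgroup.Normal.conj_mem inferInstance y hy g)) hZ
    · push Not at h
      obtain ⟨f, hf, hne⟩ := h
      refine irr_eq_zero_of_commutator_central hβ (y := f) ?_ fun h' => hne ?_
      · rw [← hπ1, map_commutatorElement, commutatorElement_eq_one_iff_mul_comm]
        exact hc f hf
      · exact commutatorElement_eq_one_iff_mul_comm.1 (hβf _ h')
  have h1 := key (x ^ k) x⁻¹ (x⁻¹ ^ k) x
  rw [hvan x hxF hxc' hxZ, mul_zero, mul_zero] at h1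
  have h2 : ∀ g, (χ : G → ℂ) (g * x ^ k * g⁻¹ * x⁻¹ ^ k) * β (g * x⁻¹ * g⁻¹ * x) =
      if g * x⁻¹ * g⁻¹ * x ∈ center G then (d : ℂ) ^ 2 else 0 := by
    intro g
    split_ifs with h
    · set z := g * x⁻¹ * g⁻¹ * x with hz
      have e1 : g * x * g⁻¹ = x * z⁻¹ := by rw [hz]; group
      have hc : Commute x z⁻¹ := mem_center_iff.1 (inv_mem h) x
      have e2 : g * x ^ k * g⁻¹ * x⁻¹ ^ k = z⁻¹ ^ k := by
        rw [← conj_pow, e1, hc.mul_pow, (hc.pow_pow k k).eq, mul_assoc, inv_pow x,
          mul_inv_cancel, mul_one]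
      rw [e2, hβk, hβ.map_inv, mul_comm, Complex.mul_conj', norm_eq_of_mem_center hβ h, hd]
      simp
    · rw [hvan _ (F.mul_mem (Subgroup.Normal.conj_mem inferInstance _ (F.inv_mem hxF) g) hxF) _ h,
        mul_zero]
      intro f hf
      have e1 := hxc' f hf
      have e2 := hxc' (g⁻¹ * f * g) (by
        simpa using Subgroup.Normal.conj_mem (inferInstance : F.Normal) f hf g⁻¹)
      simp only [map_mul, map_inv] at e2 ⊢
      have e3 : Commute (π f) (π g * π x * (π g)⁻¹) := by
        change π f * (π g * π x * (π g)⁻¹) = π g * π x * (π g)⁻¹ * π f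
        calc π f * (π g * π x * (π g)⁻¹) = π g * ((π g)⁻¹ * π f * π g * π x) * (π g)⁻¹ := by group
          _ = _ := by rw [e2]; group
      have e4 := (e3.inv_right.mul_right e1).eq
      simpa only [mul_inv_rev, inv_inv, mul_assoc] using e4
  simp_rw [h2] at h1
  rw [← Finset.sum_filter, Finset.sum_const, nsmul_eq_mul, hd] at h1
  have h3 : (Finset.univ.filter fun g : G => g * x⁻¹ * g⁻¹ * x ∈ center G).card ≠ 0 :=
    Finset.card_ne_zero.2 ⟨1, by simp⟩
  exact mul_ne_zero (mul_ne_zero hd' hd') (mul_ne_zero (Nat.cast_ne_zero.2 h3) (pow_ne_zero 2 hd')) h1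

end Cfsg.Agent.S4843
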