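import Cfsg.Statements.S4845
import Cfsg.Agent.Char.RelDeg
import Cfsg.Agent.Char.DegreeP
import Cfsg.Agent.Grp.CommPow
import Cfsg.Agent.Char.Zeros

set_option autoImplicit false
open Cfsg

namespace Cfsg.Agent.S4845

open Cfsg.Agent.Char Subgroup
open scoped commutatorElement

theorem exists_central_hom {G : Type*} [Group G] [Finite G] (χ : IrrCharacter G) :
    ∃ ω : center G →* ℂˣ, ∀ z : center G, χ.1 z = χ.1 1 * ω z := by
  classical
  letI := Fintype.ofFinite G
  obtain ⟨θ, h1, h2⟩ := exists_irr_inner_restrict_ne_zero (center G) χ.2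
  obtain ⟨ω, rfl⟩ := exists_hom_of_isCharacter_one h1.isCharacter
    (h1.one_eq_one_of_comm fun a b => Subtype.ext (mem_center_iff.1 b.2 a))
  have := clifford_invariant (center G) χ.2 h1 h2 fun g => funext fun n => by
    rw [conjChar_apply]
    congr 3
    rw [mem_center_iff.1 n.2 g, mul_inv_cancel_right]
  refine ⟨ω, fun z => ?_⟩
  have e1 := congrFun this z
  have e2 := congrFun this 1
  simp only [Pi.smul_apply, smul_eq_mul, map_one, Units.val_one, mul_one,
    OneMemClass.coe_one] at e1 e2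
  rw [e1, e2]

theorem ker_central_hom {G : Type*} [Group G] [Finite G] (χ : IrrCharacter G) {ω : center G →* ℂˣ}
    (h : ∀ z : center G, χ.1 z = χ.1 1 * ω z) (z : center G) :
    ω z = 1 ↔ (z : G) ∈ charKer χ.1 := by
  rw [mem_charKer_irr, h, mul_eq_left₀ χ.2.one_ne_zero, Units.val_eq_one]

theorem exists_Y {G : Type*} [Group G] [Finite G] (χ : IrrCharacter G)
    (h : ∀ d ∈ commutator G, ∀ g, ⁅d, g⁆ ∈ charKer χ.1) : ∃ Y : Subgroup G,
      (∀ x, x ∈ Y ↔ ∀ g, ⁅x, g⁆ ∈ charKer χ.1) ∧ charDegree χ.1 ^ 2 = Y.index ∧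
        ∃ ω : Y →* ℂˣ, ∀ y, ω y = 1 ↔ (y : G) ∈ charKer χ.1 := by
  obtain ⟨ψ, h1, h2⟩ := exists_faithful_deflation χ
  have h3 := (charKer_eq_bot_iff ψ.2.isCharacter).2 h2
  have hs := QuotientGroup.mk'_surjective (charKer χ.1)
  have key : ∀ x : G, (x : G ⧸ charKer χ.1) ∈ center _ ↔ ∀ g, ⁅x, g⁆ ∈ charKer χ.1 := by
    intro x
    rw [mem_center_iff, hs.forall]
    refine forall_congr' fun g => ?_
    rw [← QuotientGroup.eq_one_iff, ← QuotientGroup.mk'_apply _ ⁅x, g⁆, map_commutatorElement,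
      commutatorElement_eq_one_iff_mul_comm, eq_comm]
    rfl
  obtain ⟨ω, hω⟩ := exists_central_hom ψ
  refine ⟨(center _).comap (QuotientGroup.mk' (charKer χ.1)), key, ?_,
    ω.comp ((QuotientGroup.mk' _).subgroupComap _), fun y => ?_⟩
  · rw [index_comap_of_surjective _ hs, ← charDegree_sq_eq_index_center _ ψ h3,
      charDegree_congr_one (ψ := ψ.1) (h1 1).symm]
    rw [commutator_def, ← map_top_of_surjective _ hs, ← map_commutator, map_le_iff_le_comap]
    exact fun d hd => (key d).2 (h d hd)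
  · rw [MonoidHom.comp_apply, ker_central_hom ψ hω, h3, mem_bot]
    exact QuotientGroup.eq_one_iff _

theorem relIndex_dvd {G : Type*} [Group G] [Finite G] {Y K : Subgroup G} {p : ℕ} (ω : Y →* ℂˣ)
    (h : ∀ y, ω y = 1 ↔ (y : G) ∈ K) (hK : K ≤ center G) (hp : ∀ y ∈ Y, y ^ p ∈ center G) :
    (center G).relIndex Y ∣ p := by
  have := isCyclic_of_injective_ringHom ((Units.coeHom ℂ).comp (QuotientGroup.kerLift ω))
    (Units.val_injective.comp (QuotientGroup.kerLift_injective ω))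
  have : IsCyclic (Y ⧸ (center G).subgroupOf Y) := isCyclic_of_surjective
    (QuotientGroup.map ω.ker ((center G).subgroupOf Y) (MonoidHom.id Y)
      fun y hy => hK ((h y).1 hy)) fun y => by
      obtain ⟨y, rfl⟩ := QuotientGroup.mk_surjective y
      exact ⟨y, rfl⟩
  rw [relIndex, index_eq_card, ← IsCyclic.exponent_eq_card]
  refine Monoid.exponent_dvd_of_forall_pow_eq_one fun y => ?_
  obtain ⟨y, rfl⟩ := QuotientGroup.mk_surjective y
  rw [← QuotientGroup.mk_pow, QuotientGroup.eq_one_iff]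
  exact hp _ y.2

theorem chain {p : ℕ} (hp : p.Prime) {a b : ℂˣ} {i j : ℕ} (ha : a ^ p ^ i = 1) (hb : b ^ p ^ j = 1) :
    (∃ n, b ^ n = a) ∨ ∃ n, a ^ n = b := by
  obtain ⟨i, -, hi⟩ := (Nat.dvd_prime_pow hp).1 (orderOf_dvd_of_pow_eq_one ha)
  obtain ⟨j, -, hj⟩ := (Nat.dvd_prime_pow hp).1 (orderOf_dvd_of_pow_eq_one hb)
  have key : ∀ {a b : ℂˣ} {i j : ℕ}, orderOf a = p ^ i → orderOf b = p ^ j → i ≤ j →
      ∃ n, b ^ n = a := fun {a b i j} hi hj h => by
    have := NeZero.mk (pow_pos hp.pos j).ne'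
    obtain ⟨n, -, hn⟩ := (hj ▸ IsPrimitiveRoot.orderOf b).eq_pow_of_mem_rootsOfUnity (ξ := a)
      (orderOf_dvd_iff_pow_eq_one.1 (hi ▸ pow_dvd_pow p h))
    exact ⟨n, hn⟩
  exact (le_total i j).imp (key hi hj) (key hj hi)

theorem mul_assoc_comm {G : Type*} [Group G] (d a b : G) :
    ⁅d, a * b⁆ = ⁅d, a⁆ * (a * ⁅d, b⁆ * a⁻¹) := by
  simp only [commutatorElement_def]; group

def H (G : Type*) [Group G] : Prop := ∀ χ ψ : IrrCharacter G, charDegree χ.1 ≠ 1 →
  charDegree χ.1 = charDegree ψ.1 → charKer χ.1 = charKer ψ.1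

theorem H.ker_le {G : Type*} [Group G] [Finite G] (h : H G) (χ : IrrCharacter G)
    (h1 : charDegree χ.1 ≠ 1) : charKer χ.1 ≤ commutator G := fun x hx =>
  mem_commutator_of_forall_hom fun μ => by
    have h2 := h χ ⟨_, χ.2.mul_linear μ⟩ h1 (charDegree_congr_one (by simp))
    have h3 := (mem_charKer_irr _).1 (h2 ▸ hx)
    simpa [(mem_charKer_irr _).1 hx, χ.2.one_ne_zero] using h3

theorem eq_of_relIndex {G : Type*} [Group G] {p : ℕ} (hp : p.Prime) {N K D : Subgroup G}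
    (h : N.relIndex D = p) (h1 : N ≤ K) (h2 : K ≤ D) : K = N ∨ K = D := by
  rw [← relIndex_mul_relIndex N K D h1 h2] at h
  rcases (Nat.dvd_prime hp).1 (Dvd.intro_left _ h) with e | e
  · exact Or.inr (le_antisymm h2 (relIndex_eq_one.1 e))
  · rw [e, mul_eq_right₀ hp.ne_zero] at h
    exact Or.inl (le_antisymm (relIndex_eq_one.1 h) h1)

theorem not_sq {G : Type*} [Group G] [Finite G] {p : ℕ} [hp : Fact p.Prime] (hG : IsPGroup p G)
    (h : H G) (N : Subgroup G) [N.Normal] (h0 : Nat.card N = p) (h1 : N ≤ commutator G)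
    (h2 : N ≤ center G) (h4 : N.relIndex (commutator G) = p)
    (h5 : ∀ d ∈ commutator G, d ^ p ∈ N ∧ ∀ g, ⁅d, g⁆ ∈ N) : False := by
  have h3 : ∀ x ∈ N, x ^ p = 1 := fun x hx =>
    congrArg Subtype.val (h0 ▸ pow_card_eq_one' (x := (⟨x, hx⟩ : N)))
  have hc : ∀ x y : G, ⁅x, y⁆ ∈ commutator G := fun x y =>
    commutator_mem_commutator (mem_top x) (mem_top y)
  have hpow : ∀ (x y : G) n, ⁅x, y⁆ ∈ center G → ⁅x ^ n, y⁆ = ⁅x, y⁆ ^ n := fun x y n h =>
    Grp.CommPow.commutator_pow_left (mem_center_iff.1 h x).symm n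
  have hZ : ∀ x : G, x ∈ center G ↔ ∀ g : G, ⁅x, g⁆ = 1 := fun x => by
    simp only [mem_center_iff, commutatorElement_eq_one_iff_mul_comm, eq_comm]
  have hdeg : ∀ χ : IrrCharacter G, ∃ k, charDegree χ.1 = p ^ k := fun χ => by
    obtain ⟨k, hk⟩ := hG.exists_card_eq
    obtain ⟨j, -, hj⟩ := (Nat.dvd_prime_pow hp.out).1 (hk ▸ charDegree_irr_dvd_card χ)
    exact ⟨j, hj⟩
  obtain ⟨d, hd, hdN⟩ := SetLike.not_le_iff_exists.1 (mt relIndex_eq_one.2 (h4 ▸ hp.out.ne_one))
  obtain ⟨ψ, h6, h7⟩ := exists_irr_ker_ne N hdN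
  have hψ : charDegree ψ.1 ≠ 1 := fun e =>
    h7 ((mem_charKer_irr ψ).1 ((commutator_le_charKer_iff ψ).2 e hd))
  have hk : charKer ψ.1 = N := (eq_of_relIndex hp.out h4
    (fun x hx => (mem_charKer_irr ψ).2 (h6 x hx)) (h.ker_le ψ hψ)).resolve_right
      fun e => h7 ((mem_charKer_irr ψ).1 (e ▸ hd))
  obtain ⟨n, hn, hn1⟩ := (bot_or_exists_ne_one N).resolve_left fun e =>
    hp.out.ne_one (by rw [← h0, e, card_bot])
  obtain ⟨χ, -, h8⟩ := exists_irr_ker_ne ⊥ (mt mem_bot.1 hn1)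
  have hχ : charDegree χ.1 ≠ 1 := fun e =>
    h8 ((mem_charKer_irr χ).1 ((commutator_le_charKer_iff χ).2 e (h1 hn)))
  have hne : charDegree χ.1 ≠ charDegree ψ.1 := fun e =>
    h8 ((mem_charKer_irr χ).1 (h χ ψ hχ e ▸ hk ▸ hn))
  obtain ⟨Y, hY, hYi, ω, hω⟩ := exists_Y ψ fun d hd g => hk ▸ (h5 d hd).2 g
  rw [hk] at hY hω
  have hZY : center G ≤ Y := fun z hz => (hY z).2 fun g => (hZ z).1 hz g ▸ one_mem _
  have hr := relIndex_dvd (p := p) ω hω h2 fun y hy => (hZ _).2 fun g => by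
    rw [hpow _ _ _ (h2 ((hY y).1 hy g)), h3 _ ((hY y).1 hy g)]
  have hi := relIndex_mul_index hZY
  obtain ⟨i, hi'⟩ := hdeg ψ
  obtain ⟨j, hj'⟩ := hdeg χ
  obtain ⟨e, he, he'⟩ := (Nat.dvd_prime_pow hp.out).1 (pow_one p ▸ hr)
  rw [← hYi, hi', he', ← pow_mul, ← pow_add] at hi
  by_cases hD : commutator G ≤ center G
  · by_cases hE : ∀ x y : G, ⁅x, y⁆ ^ p = 1
    · obtain ⟨Y', hY', hYi', ω', hω'⟩ := exists_Y χ fun d hd g =>
        (hZ d).1 (hD hd) g ▸ one_mem _
      have hZY' : center G ≤ Y' := fun z hz => (hY' z).2 fun g => (hZ z).1 hz g ▸ one_mem _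
      have hr' := relIndex_dvd (p := p) ω' hω' ((h.ker_le χ hχ).trans hD) fun y _ =>
        (hZ _).2 fun g => by rw [hpow _ _ _ (hD (hc _ _)), hE]
      have hj := relIndex_mul_index hZY'
      obtain ⟨f, hf, hf'⟩ := (Nat.dvd_prime_pow hp.out).1 (pow_one p ▸ hr')
      rw [← hYi', hj', hf', ← pow_mul, ← pow_add, ← hi,
        Nat.pow_right_inj hp.out.one_lt] at hj
      exact hne (by rw [hi', hj', show j = i by omega])
    push Not at hE
    obtain ⟨x, y, hxy⟩ := hE
    have h9 : ∀ x : G, x ^ p ∈ Y := fun x => (hY _).2 fun g => by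
      rw [hpow _ _ _ (hD (hc _ _))]
      exact (h5 _ (hc _ _)).1
    have key : ∀ (x y : G) n, ω ⟨_, h9 y⟩ ^ n = ω ⟨_, h9 x⟩ → ⁅x, y⁆ ^ p = 1 := by
      intro x y n e
      rw [← map_pow, eq_comm, ← mul_inv_eq_one, ← map_inv, ← map_mul, hω] at e
      have e1 : x ^ p * ((y ^ p) ^ n)⁻¹ * y = y * (x ^ p * ((y ^ p) ^ n)⁻¹) :=
        (mem_center_iff.1 (h2 e) y).symm
      rw [← hpow _ _ _ (hD (hc _ _)), commutatorElement_eq_one_iff_mul_comm]
      have e2 : ((y ^ p) ^ n)⁻¹ * y = y * ((y ^ p) ^ n)⁻¹ :=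
        (((Commute.refl y).pow_left p).pow_left n).inv_left
      rw [mul_assoc, e2, ← mul_assoc, ← mul_assoc] at e1
      exact mul_right_cancel e1
    obtain ⟨a, ha⟩ := hG.to_subgroup Y ⟨_, h9 x⟩
    obtain ⟨b, hb⟩ := hG.to_subgroup Y ⟨_, h9 y⟩
    rcases chain hp.out (a := ω ⟨_, h9 x⟩) (b := ω ⟨_, h9 y⟩) (by rw [← map_pow, ha, map_one])
      (by rw [← map_pow, hb, map_one]) with ⟨n, e⟩ | ⟨n, e⟩
    · exact hxy (key x y n e)
    · exact hxy (by rw [← commutatorElement_inv, inv_pow, key y x n e, inv_one])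
  have hN : center G ⊓ commutator G = N := (eq_of_relIndex hp.out h4 (le_inf h2 h1)
    inf_le_right).resolve_right fun e => hD (e ▸ inf_le_left)
  let φ : G →* N := MonoidHom.mk' (fun g => ⟨⁅d, g⁆, (h5 d hd).2 g⟩) fun a b => Subtype.ext (by
    change ⁅d, a * b⁆ = ⁅d, a⁆ * ⁅d, b⁆
    rw [mul_assoc_comm d a b, mem_center_iff.1 (h2 ((h5 d hd).2 b)) a, mul_inv_cancel_right])
  have hC : commutator G ≤ centralizer (φ.ker : Set G) := by
    refine ((eq_of_relIndex hp.out h4 (K := centralizer (φ.ker : Set G) ⊓ commutator G)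
      (le_inf (h2.trans (center_le_centralizer _)) h1) inf_le_right).resolve_left
        fun e => hdN (e ▸ ⟨fun c hc => ?_, hd⟩)).ge.trans inf_le_left
    exact (commutatorElement_eq_one_iff_mul_comm.1 (congrArg Subtype.val hc)).symm
  have hC' : ⁅φ.ker, φ.ker⁆ ≤ charKer ψ.1 := by
    refine (le_inf ?_ (commutator_mono le_top le_top)).trans (hN.trans hk.symm).le
    rw [← centralizer_univ, ← coe_top, ← commutator_eq_bot_iff_le_centralizer]
    exact commutator_commutator_eq_bot_of_rotate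
      (commutator_eq_bot_iff_le_centralizer.2 ((commutator_mono le_top le_top).trans hC))
      (commutator_eq_bot_iff_le_centralizer.2 ((commutator_mono le_top le_top).trans hC))
  obtain ⟨θ, ⟨f, hf, hf'⟩, h9, -⟩ := exists_under φ.ker ψ
  rw [h9.2 hC', mul_one] at hf
  rw [← hf, index_ker, hi'] at hf'
  have h10 := (Nat.pow_dvd_pow_iff_le_right hp.out.one_lt).1
    ((pow_one p).symm ▸ h0 ▸ hf'.trans (card_subgroup_dvd_card _) : p ^ i ∣ p ^ 1)
  have h11 := charDegree_sq_le_index_center χ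
  rw [← hi, hj', ← pow_mul, Nat.pow_le_pow_iff_right hp.out.one_lt] at h11
  have : i ≠ 0 := fun e => hψ (by rw [hi', e, pow_zero])
  have : j ≠ 0 := fun e => hχ (by rw [hj', e, pow_zero])
  exact hne (by rw [hi', hj', show j = i by omega])

theorem exists_central {G : Type*} [Group G] [Finite G] {p : ℕ} [hp : Fact p.Prime]
    (hG : IsPGroup p G) (D : Subgroup G) [D.Normal] (hD : D ≠ ⊥) :
    ∃ N : Subgroup G, Nat.card N = p ∧ N ≤ D ∧ N ≤ center G := by
  have : Nontrivial (center G ⊓ D : Subgroup G) := by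
    obtain ⟨k, hk, hk'⟩ := (hG.to_subgroup D).nontrivial_iff_card.1 ((nontrivial_iff_ne_bot D).2 hD)
    letI : MulAction G D := MulAction.compHom D (MulAut.conjNormal (H := D))
    obtain ⟨b, hb, hb1⟩ := hG.exists_fixed_point_of_prime_dvd_card_of_fixed_point D
      (hk' ▸ dvd_pow_self p hk.ne') (a := 1) fun x => map_one (MulAut.conjNormal (H := D) x)
    refine ⟨⟨b, mem_center_iff.2 fun g => ?_, b.2⟩, 1,
      fun e => hb1 (Subtype.ext (congrArg Subtype.val e).symm)⟩
    exact mul_inv_eq_iff_eq_mul.1 (congrArg Subtype.val (hb g))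
  obtain ⟨k, hk, hk'⟩ := (hG.to_subgroup (center G ⊓ D)).nontrivial_iff_card.1 this
  obtain ⟨x, hx⟩ := exists_prime_orderOf_dvd_card' (G := (center G ⊓ D : Subgroup G)) p
    (hk' ▸ dvd_pow_self p hk.ne')
  exact ⟨zpowers (x : G), by rw [Nat.card_zpowers, orderOf_coe, hx], zpowers_le.2 x.2.2,
    zpowers_le.2 x.2.1⟩

theorem le_center {G : Type*} [Group G] [Finite G] {p : ℕ} [hp : Fact p.Prime]
    (hG : IsPGroup p G) (D : Subgroup G) [D.Normal] (hD : Nat.card D = p) : D ≤ center G := by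
  obtain ⟨N, h1, h2, h3⟩ := exists_central hG D fun e => hp.out.ne_one (by rw [← hD, e, card_bot])
  exact eq_of_le_of_card_ge h2 (by rw [h1, hD]) ▸ h3

theorem card_commutator.{u} {p : ℕ} [hp : Fact p.Prime] (G : Type u) [Group G] [Finite G] :
    IsPGroup p G → H G → commutator G ≠ ⊥ → Nat.card (commutator G) = p := by
  induction hn : Nat.card G using Nat.strong_induction_on generalizing G with
  | _ n ih =>
    intro hG h hne
    obtain ⟨N, h1, h2, h3⟩ := exists_central hG _ hne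
    by_contra h4
    have : N.Normal := ⟨fun n hn g => by rwa [mem_center_iff.1 (h3 hn) g, mul_inv_cancel_right]⟩
    have hs := QuotientGroup.mk'_surjective N
    have h5 : commutator (G ⧸ N) = (commutator G).map (QuotientGroup.mk' N) := by
      rw [commutator_def, ← map_top_of_surjective _ hs, ← map_commutator]; rfl
    have h6 := ih N.index (by
      rw [← hn, ← N.card_mul_index, h1]
      exact lt_mul_of_one_lt_left (Nat.pos_of_ne_zero index_ne_zero_of_finite) hp.out.one_lt)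
      (G ⧸ N) rfl (hG.to_quotient N) (fun χ ψ h6 h7 => by
        have := h (inflateIrr _ hs χ) (inflateIrr _ hs ψ) (by rwa [charDegree_inflateIrr])
          (by rwa [charDegree_inflateIrr, charDegree_inflateIrr])
        ext x
        obtain ⟨x, rfl⟩ := hs x
        rw [← zpowers_le, ← zpowers_le, ← MonoidHom.map_zpowers, ← le_charKer_inflateIrr _ hs,
          ← le_charKer_inflateIrr _ hs, this]) (by
        rw [h5, Ne, Subgroup.map_eq_bot_iff, QuotientGroup.ker_mk']
        exact fun e => h4 (le_antisymm h2 e ▸ h1))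
    have h7 := le_center (hG.to_quotient N) _ h6
    refine not_sq hG h N h1 h2 h3 ?_ fun d hd => ⟨?_, fun g => ?_⟩
    · rw [← h6, h5, ← relIndex_ker, QuotientGroup.ker_mk']
    · rw [← QuotientGroup.eq_one_iff, QuotientGroup.mk_pow]
      exact congrArg Subtype.val (h6 ▸ pow_card_eq_one' (G := commutator (G ⧸ N))
        (x := ⟨d, h5 ▸ mem_map_of_mem _ hd⟩))
    · rw [← QuotientGroup.eq_one_iff, ← QuotientGroup.mk'_apply, map_commutatorElement,
        commutatorElement_eq_one_iff_mul_comm]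
      exact (mem_center_iff.1 (h7 (h5 ▸ mem_map_of_mem _ hd)) _).symm

theorem pow_eq_one_le {G : Type*} [Group G] [Finite G] {p : ℕ} (hp : p.Prime)
    [IsCyclic (center G)] {D : Subgroup G} (h1 : Nat.card D = p) (h2 : D ≤ center G) {x : G}
    (hx : x ∈ center G) (h3 : x ^ p = 1) : x ∈ D := by
  letI : CommGroup (center G) := IsCyclic.commGroup
  have h4 : D.subgroupOf (center G) = (powMonoidHom p : center G →* center G).ker := by
    have h5 : ∀ y ∈ D, y ^ p = 1 := fun y hy =>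
      congrArg Subtype.val (h1 ▸ pow_card_eq_one' (x := (⟨y, hy⟩ : D)))
    refine eq_of_le_of_card_ge (fun y hy => Subtype.ext (h5 y hy)) ?_
    rw [Nat.card_congr (subgroupOfEquivOfLe h2).toEquiv, h1, ← IsCyclic.exponent_eq_card]
    exact Nat.le_of_dvd hp.pos (Monoid.exponent_dvd_of_forall_pow_eq_one fun y => Subtype.ext y.2)
  exact (h4.ge (Subtype.ext h3) : (⟨x, hx⟩ : center G) ∈ D.subgroupOf _)


/-- Let p be a prime and P a finite non-commutative p-group. Then every two irreducible characters of P of the same degree greater than 1 are Galois conjugate (one is obtained from the other by composing with g ↦ g^k for some k prime to the order of P) if and only if the centre of P is cyclic and the derived subgroup of P has order p. -/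
theorem result {P : Type*} [Group P] [Finite P] (p : ℕ) [Fact p.Prime] (hP : IsPGroup p P) (hna : ¬ IsMulCommutative P) :
    (∀ χ ψ : Cfsg.IrrCharacter P, Cfsg.charDegree (χ : P → ℂ) ≠ 1 → Cfsg.charDegree (χ : P → ℂ) = Cfsg.charDegree (ψ : P → ℂ) → ∃ k : ℕ, Nat.Coprime k (Nat.card P) ∧ ∀ g : P, (ψ : P → ℂ) g = (χ : P → ℂ) (g ^ k)) ↔
      (IsCyclic (Subgroup.center P) ∧ Nat.card (commutator P) = p) := by
  have hp : p.Prime := Fact.out
  have hne : commutator P ≠ ⊥ := fun e => hna ⟨⟨fun a b =>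
    commutatorElement_eq_one_iff_mul_comm.1 (mem_bot.1
      (e ▸ commutator_mem_commutator (mem_top a) (mem_top b)))⟩⟩
  have hker : ∀ χ : IrrCharacter P, charDegree χ.1 ≠ 1 → Nat.card (commutator P) = p →
      charKer χ.1 ⊓ commutator P = ⊥ := fun χ h1 h2 =>
    (eq_of_relIndex hp (by rwa [relIndex_bot_left]) bot_le inf_le_right).resolve_right
      fun e => h1 ((commutator_le_charKer_iff χ).1 (e ▸ inf_le_left))
  constructor
  · intro h
    have hH : H P := fun χ ψ h1 h2 => by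
      obtain ⟨k, hk, h3⟩ := h χ ψ h1 h2
      ext x
      rw [mem_charKer_irr ψ, h3, h3, one_pow, ← mem_charKer_irr,
        pow_mem_iff_of_coprime_card hk]
    have h1 := card_commutator P hP hH hne
    refine ⟨?_, h1⟩
    obtain ⟨χ, hχ⟩ := exists_charDegree_ne_one (G := P)
      (by_contra fun h => hna ⟨⟨by simpa using h⟩⟩)
    obtain ⟨ω, hω⟩ := exists_central_hom χ
    refine isCyclic_of_injective_ringHom ((Units.coeHom ℂ).comp ω)
      (Units.val_injective.comp ((injective_iff_map_eq_one ω).2 fun z hz => Subtype.ext ?_))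
    have := (ker_central_hom χ hω z).1 hz
    exact mem_bot.1 (hker χ hχ h1 ▸ ⟨this, hH.ker_le χ hχ this⟩)
  rintro ⟨h1, h2⟩ χ ψ hχ e
  have hD := le_center hP _ h2
  obtain ⟨z, hz⟩ := IsCyclic.exists_generator (α := center P)
  have hf : ∀ χ : IrrCharacter P, charDegree χ.1 ≠ 1 → charKer χ.1 = ⊥ := fun χ hχ => by
    by_contra h3
    obtain ⟨N, h4, h5, h6⟩ := exists_central hP _ h3
    have h7 : N = commutator P := eq_of_le_of_card_ge (fun x hx => pow_eq_one_le hp h2 hD (h6 hx)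
      (congrArg Subtype.val (h4 ▸ pow_card_eq_one' (x := (⟨x, hx⟩ : N))))) (by rw [h4, h2])
    exact hχ ((commutator_le_charKer_iff χ).1 (h7 ▸ h5))
  have ho : ∀ (χ : IrrCharacter P) (ω : center P →* ℂˣ), charDegree χ.1 ≠ 1 →
      (∀ z : center P, χ.1 z = χ.1 1 * ω z) → IsPrimitiveRoot (ω z) (orderOf z) := by
    intro χ ω hχ hω
    rw [← orderOf_injective ω ((injective_iff_map_eq_one ω).2 fun z hz => Subtype.ext
      (mem_bot.1 (hf χ hχ ▸ (ker_central_hom χ hω z).1 hz)))]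
    exact IsPrimitiveRoot.orderOf _
  obtain ⟨ω, hω⟩ := exists_central_hom χ
  obtain ⟨ω', hω'⟩ := exists_central_hom ψ
  have := NeZero.mk (orderOf_pos z).ne'
  obtain ⟨k, -, hk, hk'⟩ := ((ho χ ω hχ hω).isPrimitiveRoot_iff').1 (ho ψ ω' (e ▸ hχ) hω')
  have hk2 : k.Coprime (Nat.card P) := by
    obtain ⟨a, ha⟩ := hP.exists_card_eq
    rw [ha]
    refine (hk.coprime_dvd_right ?_).pow_right a
    rw [orderOf_eq_card_of_forall_mem_zpowers hz, ← h2]
    exact card_dvd_of_le hD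
  refine ⟨k, hk2, fun g => ?_⟩
  by_cases hg : g ∈ center P
  · obtain ⟨n, hn⟩ := hz ⟨g, hg⟩
    have e1 := hω' ⟨g, hg⟩
    have e2 := hω (⟨g, hg⟩ ^ k)
    rw [← hn, map_pow, map_zpow] at e2
    rw [← hn, map_zpow, ← hk', ← zpow_natCast, ← zpow_mul, mul_comm (k : ℤ), zpow_mul,
      zpow_natCast, ← coe_charDegree_irr, ← e, coe_charDegree_irr, ← e2] at e1
    simpa [show (z : P) ^ n = g from congrArg Subtype.val hn] using e1
  · rw [eq_zero_of_commutator_le_center hD ψ (hf ψ (e ▸ hχ)) hg,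
      eq_zero_of_commutator_le_center hD χ (hf χ hχ) (by rwa [pow_mem_iff_of_coprime_card hk2])]

end Cfsg.Agent.S4845
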