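import Cfsg.Statements.S4847
import Cfsg.Agent.Palfy.CaseA

set_option autoImplicit false
open Cfsg

namespace Cfsg.Agent.S4847

/-- Let G be a finite solvable group and p, q, r three distinct primes each dividing the degree of some irreducible character of G. Then for some two of them the product divides the degree of some irreducible character of G (the character degree graph of a solvable group has no three pairwise non-adjacent vertices). -/
theorem result {G : Type*} [Group G] [Finite G] [hs : Group.IsSolvable G] (p q r : ℕ) (hp : p.Prime) (hq : q.Prime) (hr : r.Prime) (hpq : p ≠ q) (hqr : q ≠ r) (hpr : p ≠ r)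
    (hpd : ∃ χ : Cfsg.IrrCharacter G, p ∣ Cfsg.charDegree (χ : G → ℂ)) (hqd : ∃ χ : Cfsg.IrrCharacter G, q ∣ Cfsg.charDegree (χ : G → ℂ)) (hrd : ∃ χ : Cfsg.IrrCharacter G, r ∣ Cfsg.charDegree (χ : G → ℂ)) :
    (∃ χ : Cfsg.IrrCharacter G, p * q ∣ Cfsg.charDegree (χ : G → ℂ)) ∨ (∃ χ : Cfsg.IrrCharacter G, q * r ∣ Cfsg.charDegree (χ : G → ℂ)) ∨ (∃ χ : Cfsg.IrrCharacter G, p * r ∣ Cfsg.charDegree (χ : G → ℂ)) := by
  by_contra c
  generalize e : Nat.card G = n
  induction n using Nat.strong_induction_on generalizing G with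
  | _ n ih =>
  refine Palfy.Bad.false ⟨hp, hq, hr, hpq, hqr, hpr, hpd, hqd, hrd, fun h => c (.inl h),
    fun h => c (.inr (.inl h)), fun h => c (.inr (.inr h)), fun N _ ne => ?_⟩
  by_contra d
  simp only [not_or, not_not] at d
  have s := QuotientGroup.mk'_surjective N
  refine ih _ ?_ d.1 d.2.1 d.2.2 (fun h => c (h.imp (Palfy.Dv.of_surj · _ s)
    (Or.imp (Palfy.Dv.of_surj · _ s) (Palfy.Dv.of_surj · _ s)))) rfl
  rw [← e, N.card_eq_card_quotient_mul_card_subgroup]
  exact lt_mul_of_one_lt_right Nat.card_pos ((Subgroup.one_lt_card_iff_ne_bot N).2 ne)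

end Cfsg.Agent.S4847
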