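import Cfsg.Statements.S4850
import Mathlib
import Cfsg.Agent.SolvLin.NV
import Cfsg.Agent.Grp.Subnormal

set_option autoImplicit false
open Cfsg

namespace Cfsg.Agent.S4850

/-- Let p be a prime and G a finite solvable group whose vanishing elements (elements at which some irreducible character is zero) of order divisible by p all have the same order, with at least one such element. Let P be a Sylow p-subgroup of G. Then the derived subgroup of P is subnormal in G and the image of P in G/O_p(G) is cyclic. -/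
theorem result {G : Type*} [Group G] [Finite G] [hs : Group.IsSolvable G] (p : ℕ) [Fact p.Prime] (b : ℕ) (hvo : {n : ℕ | p ∣ n ∧ ∃ (g : G) (χ : Cfsg.IrrCharacter G), orderOf g = n ∧ (χ : G → ℂ) g = 0} = {b}) (P : Sylow p G) :
    ((commutator ↥(P : Subgroup G)).map (P : Subgroup G).subtype).IsSubnormal ∧ IsCyclic ↥((P : Subgroup G).map (QuotientGroup.mk' (Cfsg.pCore p G))) := by
  have h := SolvLin.relIndex_dvd_prime (p := p) (b := b) (fun x ⟨χ, h1, h2⟩ hx =>
    show orderOf x ∈ ({b} : Set ℕ) from hvo ▸ ⟨hx, x, ⟨χ, h1⟩, rfl, h2⟩) P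
  have h1 : IsCyclic ((P : Subgroup G).map (QuotientGroup.mk' (pCore p G))) := by
    refine isCyclic_of_card_dvd_prime (p := p) ?_
    rwa [← Subgroup.relIndex_ker, QuotientGroup.ker_mk']
  refine ⟨Grp.snIn_top_iff.1 ((Grp.SnIn.of_isPGroup (Grp.pCore_isPGroup p G) ?_).trans
    (.of_normal le_top)), h1⟩
  rw [Subgroup.map_subtype_commutator, Subgroup.commutator_le]
  intro x hx y hy
  rw [← QuotientGroup.eq_one_iff, ← QuotientGroup.mk'_apply, map_commutatorElement]
  exact commutatorElement_eq_one_iff_mul_comm.2 (congrArg Subtype.val (h1.isMulCommutative.1.1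
    ⟨_, Subgroup.mem_map_of_mem _ hx⟩ ⟨_, Subgroup.mem_map_of_mem _ hy⟩))

end Cfsg.Agent.S4850
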