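import Cfsg.Statements.S4864
import Cfsg.Agent.Block.RealPP
-- import your own Cfsg.Agent.* helpers here

set_option autoImplicit false
open Cfsg

namespace Cfsg.Agent.S4864

open Cfsg.Agent.Block Cfsg.Agent.Char
open scoped ComplexConjugate

open Subgroup

/-- Let p be a prime and G a finite group such that the subgroup generated by the p-elements of G is solvable and every real-valued irreducible complex character of G has degree prime to p. Then the normalizer of a Sylow p-subgroup of G contains an element of every real conjugacy class of G: every element conjugate to its inverse is conjugate to an element of that normalizer. -/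
theorem result {G : Type*} [Group G] [Finite G] (p : ℕ) [Fact p.Prime] (hsolv : Group.IsSolvable ↥(Subgroup.closure {g : G | ∃ k : ℕ, orderOf g = p ^ k})) (hreal : ∀ χ : Cfsg.IrrCharacter G, (∀ g : G, ((χ : G → ℂ) g).im = 0) → ¬ p ∣ Cfsg.charDegree (χ : G → ℂ)) (P : Sylow p G) (x : G) (hx : IsConj x x⁻¹) : ∃ y ∈ Subgroup.normalizer ((P : Subgroup G) : Set G), IsConj x y := by
  haveI : (elCl 2 G).Normal := elCl_normal
  obtain ⟨Q, hQn, hQK, hQ, hi⟩ := exists_normal_sylow_elCl hsolv hreal
  let π := QuotientGroup.mk' Q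
  have hπ : Function.Surjective π := QuotientGroup.mk'_surjective Q
  haveI : ((elCl 2 G).map π).Normal := Normal.map inferInstance π hπ
  have h1 : Nat.card ((elCl 2 G).map π) = Q.relIndex (elCl 2 G) := by
    rw [← relIndex_ker, QuotientGroup.ker_mk']
  obtain ⟨y, hy, e⟩ := exists_conj_mem_normalizer_of_not_dvd (K := (elCl 2 G).map π)
    (Odd.of_dvd_nat odd_index_elCl (index_map_dvd _ hπ)) (h1 ▸ hi) (RealHyp.quot hreal π hπ)
    (P.mapSurjective hπ) (π x) (by simpa using π.map_isConj hx)
  obtain ⟨g, rfl⟩ := isConj_iff.1 e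
  obtain ⟨g, rfl⟩ := hπ g
  refine ⟨g * x * g⁻¹, mem_normalizer_fintype fun z hz => ?_, isConj_iff.2 ⟨g, rfl⟩⟩
  have h2 := (hy (π z)).1 ⟨z, hz, rfl⟩
  rw [← map_inv π g, ← map_mul, ← map_mul, ← map_inv, ← map_mul, ← map_mul] at h2
  have h3 : g * x * g⁻¹ * z * (g * x * g⁻¹)⁻¹ ∈ ((P : Subgroup G).map π).comap π := h2
  rwa [comap_map_eq, QuotientGroup.ker_mk', sup_eq_left.2 (hQ.le_sylow_of_normal P)] at h3

end Cfsg.Agent.S4864
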