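import Cfsg.Statements.S4866
import Cfsg.Agent.Char.RealClifford

set_option autoImplicit false
open Cfsg

namespace Cfsg.Agent.S4866

open Cfsg.Agent.Char

theorem card_quot_eq {α β : Type*} (r : α → α → Prop) (f : α → β) (h : ∀ a b, r a b ↔ f a = f b)
    (hf : Function.Surjective f) : Nat.card (Quot r) = Nat.card β := by
  refine Nat.card_congr (Equiv.ofBijective (Quot.lift f fun a b e => (h a b).mp e) ⟨?_, ?_⟩)
  · rintro ⟨a⟩ ⟨b⟩ e
    exact Quot.sound ((h a b).mpr e)
  · intro b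
    obtain ⟨a, rfl⟩ := hf b
    exact ⟨Quot.mk _ a, rfl⟩


/-- Let K be a normal subgroup of odd index in the finite group G. Then G has as many orbits on the real-valued irreducible complex characters of K (acting by conjugation) as it has orbits on the conjugacy classes of K that are real in K; equivalently, the number of G-orbits of real-valued irreducible characters of K equals the number of G-conjugacy classes of elements of K that are conjugate in K to their inverses. -/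
theorem result {G : Type*} [Group G] [Finite G] (K : Subgroup G) [K.Normal] (hodd : Odd K.index) : Nat.card (Quot (fun θ η : {θ : Cfsg.IrrCharacter ↥K // (∀ k : ↥K, ((θ : ↥K → ℂ) k).im = 0)} => ∃ g : G, ∀ k k' : ↥K, (k' : G) = g * (k : G) * g⁻¹ → (η.1 : ↥K → ℂ) k' = (θ.1 : ↥K → ℂ) k)) = Nat.card (Quot (fun x y : {x : ↥K // IsConj x x⁻¹} => ∃ g : G, (y.1 : G) = g * x.1 * g⁻¹)) := by
  classical
  have := Fintype.ofFinite G
  have hK : K.Normal := inferInstance
  obtain ⟨k, hk⟩ := id hodd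
  have h1 := fun θ : {θ : IrrCharacter K // ∀ k : K, ((θ : K → ℂ) k).im = 0} =>
    existsUnique_real_over K hodd θ.1.2 θ.2
  choose Φ hΦ huniq using h1
  rw [card_quot_eq _ (β := {χ : IrrCharacter G // ∀ g : G, ((χ : G → ℂ) g).im = 0})
    (fun θ => ⟨Φ θ, (hΦ θ).1⟩), card_real_irr_eq_card_real_classes,
    card_quot_eq _ (β := {C : ConjClasses G // ∀ g : G, ConjClasses.mk g = C → IsConj g g⁻¹})
    (fun x => ⟨ConjClasses.mk (x.1 : G), fun g hg => ?_⟩)]
  · intro x y
    rw [Subtype.mk.injEq, ConjClasses.mk_eq_mk_iff_isConj, isConj_iff]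
    exact exists_congr fun g => eq_comm
  · rintro ⟨C, hC⟩
    obtain ⟨g, rfl⟩ := ConjClasses.mk_surjective C
    have h2 := hC g rfl
    have hg : g ∈ K := mem_of_isConj_inv_of_odd_index K hodd (one_mem K) (by rwa [one_mul])
    obtain ⟨x, hx⟩ := isConj_iff.mp h2
    have h3 : Commute (x ^ 2) g := by
      have h4 : x * g⁻¹ * x⁻¹ = g := by rw [← conj_inv, hx, inv_inv]
      rw [Commute, SemiconjBy, ← mul_inv_eq_iff_eq_mul]
      calc x ^ 2 * g * (x ^ 2)⁻¹ = x * (x * g * x⁻¹) * x⁻¹ := by rw [pow_two]; group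
        _ = g := by rw [hx, h4]
    refine ⟨⟨⟨g, hg⟩, isConj_iff.mpr ⟨⟨x ^ K.index, K.pow_index_mem x⟩, Subtype.ext ?_⟩⟩, rfl⟩
    simp only [Subgroup.coe_mul, Subgroup.coe_inv]
    rw [hk, pow_succ', pow_mul, mul_assoc x, (h3.pow_left k).eq, ← hx]
    group
  · obtain ⟨c, rfl⟩ := isConj_iff.mp (ConjClasses.mk_eq_mk_iff_isConj.mp hg).symm
    have h2 : IsConj (x.1 : G) (x.1 : G)⁻¹ := K.subtype.map_isConj x.2
    refine ((isConj_iff.mpr ⟨c, rfl⟩).symm.trans h2).trans (isConj_iff.mpr ⟨c, ?_⟩)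
    group
  · intro θ η
    rw [Subtype.mk.injEq]
    constructor
    · rintro ⟨g, hg⟩
      refine huniq η _ ⟨(hΦ θ).1, ?_⟩
      have h2 : conjChar K (η.1 : K → ℂ) g = θ.1 := funext fun n => hg n _ rfl
      rw [← classInner_restrict_conjChar (Φ θ).2.isClassFunction _ g, h2]
      exact (hΦ θ).2
    · intro e
      obtain ⟨g, hg⟩ := exists_conjChar_eq_of_inner_ne_zero K (Φ η).2 η.1.2 θ.1.2 (hΦ η).2
        (e ▸ (hΦ θ).2)
      refine ⟨g, fun a b hab => ?_⟩
      rw [← hg, conjChar_apply]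
      exact congrArg (η.1 : K → ℂ) (Subtype.ext hab)
  · rintro ⟨χ, hχ⟩
    obtain ⟨θ, hθ, h2⟩ := exists_irr_inner_restrict_ne_zero K χ.2
    have h3 : classInner (fun n : K => (χ : G → ℂ) n) (fun n => (starRingEnd ℂ) (θ n)) ≠ 0 := by
      have h4 : (fun n : K => (χ : G → ℂ) n) = fun n : K => (starRingEnd ℂ) ((χ : G → ℂ) n) :=
        funext fun n => (Complex.conj_eq_iff_im.mpr (hχ n)).symm
      rw [h4, classInner_conj_conj, ← classInner_conj_symm]
      simpa using h2
    obtain ⟨g, hg⟩ := exists_conjChar_eq_of_inner_ne_zero K χ.2 hθ hθ.conj h2 h3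
    have h4 : g * g ∈ inertia K θ := by
      rw [mem_inertia, conjChar_mul, hg, conjChar_star, hg]
      simp
    have h5 : g ∈ inertia K θ := by
      have h6 := le_inertia K hθ.isClassFunction (K.pow_index_mem g)
      rw [hk, pow_succ, pow_mul, pow_two] at h6
      exact ((inertia K θ).mul_mem_cancel_left (pow_mem h4 k)).mp h6
    rw [mem_inertia, hg] at h5
    have h6 : ∀ n, (θ n).im = 0 := fun n => Complex.conj_eq_iff_im.mp (congrFun h5 n)
    exact ⟨⟨⟨θ, hθ⟩, h6⟩, Subtype.ext (huniq ⟨⟨θ, hθ⟩, h6⟩ χ ⟨hχ, h2⟩).symm⟩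

end Cfsg.Agent.S4866
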