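import Cfsg.Statements.S4872
import Cfsg.Agent.Char.RealClifford
import Cfsg.Agent.Char.Triple
import Cfsg.Agent.Char.DefectZero
import Cfsg.Agent.Char.Ito

set_option autoImplicit false
open Cfsg

namespace Cfsg.Agent.S4872

open Cfsg.Agent.Char


/-- Let N be a normal subgroup of the finite group G with G/N a 2-group, and let φ be an irreducible complex character of N of 2-defect zero (the 2-part of #N divides φ(1)) whose complex conjugate is G-conjugate to φ. Then some irreducible character of G with Frobenius–Schur indicator +1 contains φ with multiplicity exactly one on restriction to N. -/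
theorem result {G : Type*} [Group G] [Finite G] (N : Subgroup G) [N.Normal] (h2 : IsPGroup 2 (G ⧸ N)) (φ : Cfsg.IrrCharacter ↥N) (hdef : 2 ^ (Nat.card ↥N).factorization 2 ∣ Cfsg.charDegree (φ : ↥N → ℂ)) (hconj : ∃ g : G, ∀ n n' : ↥N, (n' : G) = g * (n : G) * g⁻¹ → (φ : ↥N → ℂ) n' = (starRingEnd ℂ) ((φ : ↥N → ℂ) n)) : ∃ χ : Cfsg.IrrCharacter G, (Nat.card G : ℂ)⁻¹ * ∑ᶠ g : G, (χ : G → ℂ) (g * g) = 1 ∧ (Nat.card ↥N : ℂ)⁻¹ * ∑ᶠ n : ↥N, (χ : G → ℂ) n * (starRingEnd ℂ) ((φ : ↥N → ℂ) n) = 1 := by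
  classical
  have := Fintype.ofFinite G
  have two : Fact (Nat.Prime 2) := ⟨Nat.prime_two⟩
  simp only [finsum_eq_sum_of_fintype]
  obtain ⟨S⟩ : Nonempty (Sylow 2 G) := inferInstance
  have hd : (φ : N → ℂ) 1 = charDegree (φ : N → ℂ) := (coe_charDegree_irr φ).symm
  have hN0 : Nat.card N ≠ 0 := Nat.card_pos.ne'
  have hα := isCharacter_indFun N φ.2.isCharacter
  have hαr : (fun g => (starRingEnd ℂ) (indFun N (φ : N → ℂ) g)) = indFun N (φ : N → ℂ) := by
    obtain ⟨g, hg⟩ := hconj
    funext x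
    rw [← indFun_star, ← indFun_conjChar N (φ : N → ℂ) g]
    congr 1
    funext n
    exact (hg n _ rfl).symm
  have hvan : ∀ s : (S : Subgroup G), s ≠ 1 → indFun N (φ : N → ℂ) s = 0 := by
    intro s hs
    refine indFun_eq_zero N _ _ fun x hx => ?_
    refine φ.2.eq_zero_of_pow_dvd Nat.prime_two hd
      (Nat.pow_succ_factorization_not_dvd hN0 Nat.prime_two) hdef ?_
    obtain ⟨k, hk⟩ := (IsPGroup.iff_orderOf.mp S.isPGroup') s
    rw [← Subgroup.orderOf_coe, show orderOf (x * s * x⁻¹) = orderOf (s : G) from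
      (MulAut.conj x).orderOf_eq s, Subgroup.orderOf_coe, hk]
    refine dvd_pow_self 2 fun h => hs ?_
    rw [h, pow_zero, orderOf_eq_one_iff] at hk
    exact hk
  obtain ⟨r, hr⟩ := hdef
  have hrodd : Odd r := by
    rw [← Nat.not_even_iff_odd]
    rintro ⟨r', rfl⟩
    refine Nat.pow_succ_factorization_not_dvd hN0 Nat.prime_two
      (dvd_trans ?_ (φ.2.deg_dvd_card hd))
    rw [hr, pow_succ, ← two_mul]
    exact mul_dvd_mul_left _ (dvd_mul_right _ _)
  obtain ⟨k, hk⟩ := h2.exists_card_eq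
  have hk' : N.index = 2 ^ k := hk
  have hS : Nat.card (S : Subgroup G) = N.index * 2 ^ (Nat.card N).factorization 2 := by
    rw [S.card_eq_multiplicity, ← N.index_mul_card, Nat.factorization_mul (by simp [hk']) hN0,
      hk', Finsupp.add_apply, Nat.factorization_pow_self Nat.prime_two, pow_add]
  have hinner : classInner (indFun N (φ : N → ℂ)) (indFun (S : Subgroup G) fun _ => 1) = r := by
    rw [classInner_indFun_right _ _ hα.isClassFunction, classInner_one_right,
      Finset.sum_eq_single 1 (fun s _ hs => hvan s hs) (by simp), OneMemClass.coe_one, indFun_one,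
      hd, hr, inv_mul_eq_iff_eq_mul₀ (card_ne_zero _), hS]
    push_cast; ring
  have hπ := isCharacter_indFun (S : Subgroup G) isCharacter_one
  have hπr : (fun g => (starRingEnd ℂ) (indFun (S : Subgroup G) (fun _ => 1) g)) =
      indFun (S : Subgroup G) fun _ => 1 := by
    funext x
    rw [← indFun_star]
    simp
  obtain ⟨e, he, -⟩ := hα.exists_coeff
  obtain ⟨a, ha, -⟩ := hπ.exists_coeff
  have hconj : ∀ {β : G → ℂ} {c : IrrCharacter G → ℕ}, IsCharacter G β →
      (fun g => (starRingEnd ℂ) (β g)) = β → (∀ χ : IrrCharacter G, classInner β χ = c χ) →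
      ∀ χ, c (irrConj χ) = c χ := by
    intro β c hβ hβr hc χ
    have h1 := hc (irrConj χ)
    rw [← hβr, coe_irrConj, classInner_conj_conj, ← hβ.inner_symm χ.2.isCharacter, hc] at h1
    exact_mod_cast h1.symm
  have hsum : ∑ χ, e χ * a χ = r := by
    rw [hα.isClassFunction.inner_eq_sum] at hinner
    simp only [he, ha, Complex.conj_natCast] at hinner
    exact_mod_cast hinner
  obtain ⟨χ, hχr, hχ⟩ := exists_real_odd_of_odd_sum (fun χ => e χ * a χ)
    (fun χ => by rw [hconj hα hαr he, hconj hπ hπr ha]) (hsum ▸ hrodd)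
  rw [Nat.odd_mul] at hχ
  refine ⟨χ, fsInd_eq_one_of_odd_inner_indFun χ.2 hχr _ hχ.2 (ha χ), ?_⟩
  have he' : classInner (fun n : N => (χ : G → ℂ) n) (φ : N → ℂ) = e χ := by
    rw [← he, hα.inner_symm χ.2.isCharacter, classInner_indFun_right _ _ χ.2.isClassFunction]
  have hne : classInner (fun n : N => (χ : G → ℂ) n) (φ : N → ℂ) ≠ 0 := by
    rw [he']; exact_mod_cast hχ.1.pos.ne'
  obtain ⟨f, hf, hfd⟩ := exists_deg_eq_mul_dvd_index N φ.2 χ.2 hne
  rw [clifford_degree N χ.2 φ.2 hne, he', mul_left_inj' φ.2.one_ne_zero] at hf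
  have hf' : e χ * (inertia N (φ : N → ℂ)).index = f := by exact_mod_cast hf
  have h1 : e χ ∣ 2 ^ k := (Dvd.intro _ hf').trans (hk' ▸ hfd)
  have h3 : e χ = 1 := Nat.Coprime.eq_one_of_dvd (Nat.Coprime.pow_right _ hχ.1.coprime_two_right) h1
  rw [h3, Nat.cast_one] at he'
  exact he'

end Cfsg.Agent.S4872
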