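import Cfsg.Statements.S4871
import Cfsg.Agent.Char.LinearTwist
import Cfsg.Agent.S4872
import Cfsg.Agent.Grp.PChain
import Cfsg.Agent.Char.Restrict

set_option autoImplicit false
open Cfsg

namespace Cfsg.Agent.S4871

open Cfsg.Agent.Char


/-- Let G be a finite group that is the semidirect product of a normal elementary abelian subgroup N of odd order by a non-trivial 2-subgroup P, with N the unique minimal normal subgroup of G. Consider the strongly real irreducible complex characters of G (Frobenius–Schur indicator +1) whose degree is 1 or even. Then their average degree is at least 4/3: four times their number is at most three times the sum of their degrees. -/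
theorem result {G : Type*} [Group G] [Finite G] (N P : Subgroup G) (hN : N.Normal) (q : ℕ) [Fact q.Prime] (hq : q ≠ 2) (hNel : Cfsg.IsElementaryAbelian q N) (hP : IsPGroup 2 ↥P) (hP1 : P ≠ ⊥) (hdisj : N ⊓ P = ⊥) (hprod : N ⊔ P = ⊤) (hmin : N ≠ ⊥ ∧ ∀ M : Subgroup G, M.Normal → M ≠ ⊥ → N ≤ M) : 4 * Nat.card {χ : Cfsg.IrrCharacter G // (Cfsg.charDegree (χ : G → ℂ) = 1 ∨ 2 ∣ Cfsg.charDegree (χ : G → ℂ)) ∧ (Nat.card G : ℂ)⁻¹ * ∑ᶠ g : G, (χ : G → ℂ) (g * g) = 1} ≤ 3 * (∑ᶠ χ : {χ : Cfsg.IrrCharacter G // (Cfsg.charDegree (χ : G → ℂ) = 1 ∨ 2 ∣ Cfsg.charDegree (χ : G → ℂ)) ∧ (Nat.card G : ℂ)⁻¹ * ∑ᶠ g : G, (χ : G → ℂ) (g * g) = 1}, Cfsg.charDegree (χ.1 : G → ℂ)) := by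
  classical
  have := Fintype.ofFinite G
  have two : Fact (Nat.Prime 2) := ⟨Nat.prime_two⟩
  have hqp : q.Prime := Fact.out
  obtain ⟨hcomm, hpow⟩ := hNel
  have hc : ∀ a ∈ N, ∀ b ∈ N, a * b = b * a := fun a ha b hb =>
    congrArg Subtype.val (hcomm.1.1 ⟨a, ha⟩ ⟨b, hb⟩)
  have hpow' : ∀ a ∈ N, a ^ q = 1 := hpow
  obtain ⟨r, hr⟩ := hqp.odd_of_ne_two hq
  have hsq : ∀ a ∈ N, a = a ^ (r + 1) * a ^ (r + 1) := fun a ha => by
    rw [← pow_add, show r + 1 + (r + 1) = q + 1 by omega, pow_succ, hpow' a ha, one_mul]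
  have hdec : ∀ g : G, ∃ n ∈ N, ∃ x ∈ P, g = n * x := exists_mul_of_sup_eq_top hprod
  have hNP : ¬ N ≤ P := fun h => hmin.1 (by rw [← hdisj, inf_eq_left.mpr h])
  -- an involution inverting `N`
  obtain ⟨z, hzP, hinv⟩ : ∃ z ∈ P, ∀ n ∈ N, z * n * z⁻¹ = n⁻¹ := by
    obtain ⟨u, -, h1, h2, h3⟩ := Grp.PChain.exists_central_mod_pow hP ⊤ ⊥ (by
      have := (Subgroup.nontrivial_iff_ne_bot P).mpr hP1
      simp)
    simp only [Subgroup.mem_bot, commutatorElement_eq_one_iff_mul_comm] at h1 h2 h3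
    have h3' : ∀ x ∈ P, (u : G) * x = x * u := fun x hx => congrArg Subtype.val (h3 ⟨x, hx⟩)
    have h2' : (u : G) * u = 1 := by simpa [pow_two] using congrArg Subtype.val h2
    have hC : (N ⊓ Subgroup.centralizer {(u : G)}).Normal := ⟨fun a ha g => by
      obtain ⟨n, hn, x, hx, rfl⟩ := hdec g
      refine ⟨hN.conj_mem a ha.1 _, Subgroup.mem_centralizer_singleton_iff.mpr ?_⟩
      have h4 := Subgroup.mem_centralizer_singleton_iff.mp ha.2
      have h5 := hc n hn _ (hN.conj_mem a ha.1 x)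
      have h6 : n * x * a * (n * x)⁻¹ = x * a * x⁻¹ := by
        rw [mul_inv_rev, ← mul_assoc, show n * x * a * x⁻¹ = n * (x * a * x⁻¹) by group, h5,
          mul_inv_cancel_right]
      rw [h6, mul_assoc, ← h3' _ (inv_mem hx), ← mul_assoc, mul_assoc x, h4, ← mul_assoc,
        ← h3' x hx]
      group⟩
    have hC0 : N ⊓ Subgroup.centralizer {(u : G)} = ⊥ := by
      by_contra h
      have h4 := hmin.2 _ hC h
      have h5 : ∀ g : G, g * u = u * g := fun g => by
        obtain ⟨n, hn, x, hx, rfl⟩ := hdec g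
        rw [mul_assoc, ← h3' x hx, ← mul_assoc,
          Subgroup.mem_centralizer_singleton_iff.mp (h4 hn).2, mul_assoc]
      have h6 : (Subgroup.zpowers (u : G)).Normal := ⟨fun a ha g => by
        obtain ⟨k, rfl⟩ := ha
        have : g * (u : G) ^ k = (u : G) ^ k * g := (Commute.zpow_right (h5 g) k).eq
        simp only
        rw [this, mul_inv_cancel_right]
        exact ⟨k, rfl⟩⟩
      exact hNP ((hmin.2 _ h6 (by simpa using h1)).trans (Subgroup.zpowers_le.mpr u.2))
    refine ⟨u, u.2, fun n hn => ?_⟩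
    have h4 : n * (u * n * (u : G)⁻¹) ∈ N ⊓ Subgroup.centralizer {(u : G)} := by
      refine ⟨mul_mem hn (hN.conj_mem n hn _), Subgroup.mem_centralizer_singleton_iff.mpr ?_⟩
      rw [hc n hn _ (hN.conj_mem n hn _)]
      conv_rhs => rw [← hc n hn _ (hN.conj_mem n hn _)]
      rw [inv_eq_of_mul_eq_one_right h2']
      group
    rw [hC0, Subgroup.mem_bot] at h4
    exact eq_inv_of_mul_eq_one_right h4
  -- a non-principal character of `N`
  obtain ⟨φ, hφ1⟩ : ∃ φ : IrrCharacter N, ∃ n, (φ : N → ℂ) n ≠ (φ : N → ℂ) 1 := by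
    obtain ⟨n, hn⟩ := (Subgroup.ne_bot_iff_exists_ne_one.mp hmin.1)
    by_contra h
    push Not at h
    exact hn (isConj_one_right.mp ((isConj_iff_irr 1 n).mpr fun χ => (h χ n).symm))
  have hφd : (φ : N → ℂ) 1 = 1 := φ.2.one_eq_one_of_comm hcomm.1.1
  have hidx : N.index = Nat.card P := by
    have h := (Subgroup.isComplement'_of_disjoint_and_mul_eq_univ (H := P) (K := N)
      (disjoint_iff.mpr (by rw [inf_comm, hdisj])) (by
        rw [← Subgroup.mul_normal, sup_comm, hprod, Subgroup.coe_top])).index_eq_card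
    exact h
  obtain ⟨k, hk⟩ := hP.exists_card_eq
  have hodd : ¬ 2 ∣ Nat.card N := fun h => by
    obtain ⟨a, ha⟩ := exists_prime_orderOf_dvd_card' 2 h
    have := orderOf_dvd_of_pow_eq_one (hpow a a.2)
    rw [Subgroup.orderOf_coe, ha] at this
    omega
  obtain ⟨χ, hν, hχ⟩ := S4872.result N (IsPGroup.of_card (hidx.trans hk)) φ
    (by rw [Nat.factorization_eq_zero_of_not_dvd hodd, pow_zero]; exact one_dvd _)
    ⟨z, fun n n' e => by
      rw [← φ.2.map_inv, show n' = n⁻¹ from Subtype.ext (e.trans (hinv n n.2))]⟩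
  simp only [finsum_eq_sum_of_fintype] at hν hχ ⊢
  have hχ' : classInner (fun n : N => (χ : G → ℂ) n) (φ : N → ℂ) = 1 := hχ
  set T := inertia N (φ : N → ℂ) with hT
  have hNT : N ≤ T := le_inertia N φ.2.isClassFunction
  obtain ⟨ψ, hψ, hind, hψ1⟩ := exists_clifford_corr hNT φ.2 le_rfl χ.2
    (by rw [hχ']; exact one_ne_zero)
  rw [hχ'] at hψ1
  have hext := clifford_homogeneous hNT hψ φ.2 le_rfl (by rw [hψ1]; exact one_ne_zero)
  rw [hψ1, one_smul] at hext
  have hT1 : T.index ≠ 1 := by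
    rw [Ne, Subgroup.index_eq_one, hT, inertia_eq_top_iff]
    intro h
    obtain ⟨n, hn⟩ := hφ1
    obtain ⟨l, hl⟩ := φ.2.isCharacter.exists_linear hφd
    have h1 := h z ⟨n ^ (r + 1), pow_mem n.2 _⟩
    have h2 : (⟨z * (n : G) ^ (r + 1) * z⁻¹, hN.conj_mem _ (pow_mem n.2 _) z⟩ : N) =
        (n ^ (r + 1))⁻¹ := Subtype.ext (hinv _ (pow_mem n.2 _))
    have h3 : n = n ^ (r + 1) * n ^ (r + 1) := Subtype.ext (hsq n n.2)
    simp only [h2, hl] at h1
    change ((l (n ^ (r + 1))⁻¹ : ℂˣ) : ℂ) = l (n ^ (r + 1)) at h1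
    apply hn
    rw [hφd, hl, h3]
    simp only [map_mul, Units.val_mul]
    nth_rewrite 1 [← h1]
    rw [← Units.val_mul, ← map_mul, inv_mul_cancel, map_one, Units.val_one]
  have hT2 : 2 ∣ T.index := by
    obtain ⟨j, -, hj⟩ := (Nat.dvd_prime_pow Nat.prime_two).mp
      (hk ▸ hidx ▸ Subgroup.index_dvd_of_le hNT)
    rw [hj] at hT1 ⊢
    exact dvd_pow_self 2 fun h => hT1 (by rw [h, pow_zero])
  have hT3 : 2 ≤ T.index := Nat.le_of_dvd (Nat.pos_of_ne_zero T.index_ne_zero_of_finite) hT2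
  have key := card_le_index_mul_card_of_twist φ.2 le_rfl hNT hψ (congrFun hext)
    (fun χ => charDegree (χ : G → ℂ) = 1 ∧ fsInd (χ : G → ℂ) = 1)
    (fun χ => charDegree (χ : G → ℂ) = T.index ∧ fsInd (χ : G → ℂ) = 1)
    (fun lam h => (charDegree_eq_one_iff lam.2.isCharacter).mp h.1)
    (fun lam h n hn => by
      rw [hsq n hn]
      exact apply_mul_self_eq_one_of_real lam.2.isCharacter
        ((charDegree_eq_one_iff lam.2.isCharacter).mp h.1) (real_of_fsInd_eq_one lam.2 h.2) _)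
    (fun lam χ' h e => ⟨charDegree_eq_of_one_eq (by
      rw [e]
      simp only
      rw [(charDegree_eq_one_iff lam.2.isCharacter).mp h.1, one_mul, indFun_one,
        show ψ 1 = (φ : N → ℂ) 1 from congrFun hext 1, hφd, mul_one]), by
      rw [e, fsInd_mul_of_sq_eq_one _ _ (apply_mul_self_eq_one_of_real lam.2.isCharacter
        ((charDegree_eq_one_iff lam.2.isCharacter).mp h.1) (real_of_fsInd_eq_one lam.2 h.2)),
        hind]
      exact hν⟩)
  rw [Nat.card_eq_fintype_card, Nat.card_eq_fintype_card, Fintype.card_subtype,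
    Fintype.card_subtype, Finset.card_filter, Finset.card_filter, Finset.mul_sum, ← hT] at key
  rw [Nat.card_eq_fintype_card, Fintype.card_subtype, ← Finset.sum_subtype (Finset.univ.filter _)
    (fun χ => (Finset.mem_filter_univ χ)) (fun χ : IrrCharacter G => charDegree (χ : G → ℂ)),
    Finset.card_filter, Finset.sum_filter, Finset.mul_sum, Finset.mul_sum]
  refine Nat.le_of_add_le_add_right (le_trans ?_ (Nat.add_le_add_left key _))
  rw [← Finset.sum_add_distrib, ← Finset.sum_add_distrib]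
  refine Finset.sum_le_sum fun ξ _ => ?_
  simp only [finsum_eq_sum_of_fintype, ← fsInd_def]
  by_cases h1 : fsInd (ξ : G → ℂ) = 1
  · simp only [h1, and_true]
    have := charDegree_irr_pos ξ
    split_ifs <;> omega
  · simp [h1]

end Cfsg.Agent.S4871
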