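import Cfsg.Statements.S4873
import Cfsg.Agent.Char.RealClifford

set_option autoImplicit false
open Cfsg

namespace Cfsg.Agent.S4873

open Cfsg.Agent.Char


/-- Let N be a normal subgroup of odd index in the finite group G. Then every irreducible complex character of N with Frobenius–Schur indicator +1 lies under exactly one irreducible character of G with Frobenius–Schur indicator +1. -/
theorem result {G : Type*} [Group G] [Finite G] (N : Subgroup G) [N.Normal] (hodd : Odd N.index) (φ : Cfsg.IrrCharacter ↥N) (hφ : (Nat.card ↥N : ℂ)⁻¹ * ∑ᶠ g : ↥N, (φ : ↥N → ℂ) (g * g) = 1) : ∃! χ : Cfsg.IrrCharacter G, (Nat.card G : ℂ)⁻¹ * ∑ᶠ g : G, (χ : G → ℂ) (g * g) = 1 ∧ (∑ᶠ n : ↥N, (χ : G → ℂ) n * (starRingEnd ℂ) ((φ : ↥N → ℂ) n)) ≠ 0 := by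
  classical
  have := Fintype.ofFinite G
  simp only [finsum_eq_sum_of_fintype] at hφ ⊢
  have hφ' : fsInd (φ : N → ℂ) = 1 := hφ
  have hr := real_of_fsInd_eq_one φ.2 hφ'
  have key : ∀ χ : IrrCharacter G, (∑ n : N, (χ : G → ℂ) n * (starRingEnd ℂ) ((φ : N → ℂ) n)) ≠ 0 ↔
      classInner (fun n : N => (χ : G → ℂ) n) (φ : N → ℂ) ≠ 0 := fun χ => by
    rw [sum_mul_conj_eq (fun n : N => (χ : G → ℂ) n), mul_ne_zero_iff_left (card_ne_zero N)]
  obtain ⟨χ, ⟨h1, h2⟩, huniq⟩ := existsUnique_real_over N hodd φ.2 hr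
  refine ⟨χ, ⟨?_, (key χ).mpr h2⟩, fun ψ hψ => huniq ψ ⟨real_of_fsInd_eq_one ψ.2 hψ.1,
    (key ψ).mp hψ.2⟩⟩
  exact (fsInd_eq_and_inner_eq_one_of_real_over N hodd φ.2 hr χ.2 h1 h2).1.trans hφ'

end Cfsg.Agent.S4873
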