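import Cfsg.Statements.S4881
import Cfsg.Agent.R3C.Red
import Cfsg.Agent.R3C.Aff

set_option autoImplicit false
open Cfsg

namespace Cfsg.Agent.S4881

open Subgroup Cfsg.Agent.R3C Cfsg.Agent.S4878

/-- Let p be a prime and G a finite p-solvable group with exactly three conjugacy classes of p-elements (counting the identity). Then twice the number of conjugacy classes of p-regular elements of G is at least p − 1, with equality if and only if p is odd, G has order p(p − 1)/2 and G embeds in the one-dimensional affine group over the field with p elements (so G is that group's subgroup of index 2: cyclic of order p extended by cyclic of order (p − 1)/2). -/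
theorem result {G : Type*} [Group G] [Finite G] (p : ℕ) [Fact p.Prime] (hsolv : Cfsg.IsPSolvable p G) (h3 : Nat.card {c : ConjClasses G // ∃ g : G, ConjClasses.mk g = c ∧ ∃ k : ℕ, orderOf g = p ^ k} = 3) : p - 1 ≤ 2 * Nat.card {c : ConjClasses G // ∃ g : G, ConjClasses.mk g = c ∧ ¬ p ∣ orderOf g} ∧ (2 * Nat.card {c : ConjClasses G // ∃ g : G, ConjClasses.mk g = c ∧ ¬ p ∣ orderOf g} = p - 1 ↔ (p ≠ 2 ∧ 2 * Nat.card G = p * (p - 1) ∧ ∃ f : G →* ↥(Cfsg.affineGroup (ZMod p)), Function.Injective f)) := by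
  change p - 1 ≤ 2 * Nat.card (RC p G) ∧ (2 * Nat.card (RC p G) = _ ↔ _)
  have hp : p.Prime := Fact.out
  have h2 := hp.two_le
  have hT := three_of_card h3
  have key : p ≤ 2 * Nat.card (RC p G) ∨ (p - 1 ≤ 2 * Nat.card (RC p G) ∧ p ≠ 2 ∧
      2 * Nat.card G = p * (p - 1) ∧
        ∃ f : G →* affineGroup (ZMod p), Function.Injective f) := by
    by_cases hO : pPrimeCore p G = ⊥
    · exact main0 hsolv hO hT
    left
    set N := pPrimeCore p G
    have hN : ¬ p ∣ Nat.card N :=
      (Nat.Prime.coprime_iff_not_dvd hp).1 (Grp.pPrimeCore_coprime p G).symm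
    have hNo : ∀ n ∈ N, ¬ p ∣ orderOf n := fun n hn h => hN (h.trans (orderOf_dvd_natCard N hn))
    obtain ⟨n, hn1⟩ := ne_bot_iff_exists_ne_one.1 hO
    classical
    have h1 := card_add_le (p := p) (QuotientGroup.mk'_surjective N)
      {⟨_, 1, rfl, hNo 1 N.one_mem⟩, ⟨_, n, rfl, hNo n n.2⟩} fun s hs => by
        rcases Finset.mem_insert.1 hs with rfl | hs
        · exact ⟨1, one_mem _, rfl⟩
        · rw [Finset.mem_singleton.1 hs]
          exact ⟨n, (QuotientGroup.eq_one_iff _).2 n.2, rfl⟩
    rw [Finset.card_pair fun e => hn1 (Subtype.ext (isConj_one_right.1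
      (ConjClasses.mk_eq_mk_iff_isConj.1 (Subtype.mk.inj e))))] at h1
    rcases main0 (PLocal.IsPSolvable.quotient hsolv N) (Grp.pPrimeCore_quotient_pPrimeCore p G)
      (hT.quot N hN) with h | ⟨h, -⟩ <;> omega
  refine ⟨by omega, fun h => (key.resolve_left (by omega)).2, fun ⟨h4, h5, f, hf⟩ => ?_⟩
  have h6 := aff_le h4 h5 f hf
  omega

end Cfsg.Agent.S4881
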