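import Cfsg.Statements.S4885
import Cfsg.Agent.Block.TwoPrimes
-- import your own Cfsg.Agent.* helpers here

set_option autoImplicit false
open Cfsg

namespace Cfsg.Agent.S4885

open Cfsg.Agent.Block Cfsg.Agent.Char
open scoped ComplexConjugate

open Subgroup

/-- Let p and q be primes dividing the order of the finite group G, and suppose G is p-solvable and q-solvable. Fix maximal ideals of the algebraic integers containing p and q, defining the principal p-block and the principal q-block. If the irreducible characters of degree prime to p in the principal p-block are exactly the irreducible characters of degree prime to q in the principal q-block, then p = q. -/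
theorem result {G : Type*} [Group G] [Finite G] (p q : ℕ) [Fact p.Prime] [Fact q.Prime] (hp : p ∣ Nat.card G) (hq : q ∣ Nat.card G) (hps : Cfsg.IsPSolvable p G) (hqs : Cfsg.IsPSolvable q G) (Mp Mq : Ideal Cfsg.AlgInt) (hMp : Cfsg.IsPModular p Mp) (hMq : Cfsg.IsPModular q Mq) (h : ∀ χ : Cfsg.IrrCharacter G, (χ ∈ Cfsg.principalBlock Mp G ∧ ¬ p ∣ Cfsg.charDegree (χ : G → ℂ)) ↔ (χ ∈ Cfsg.principalBlock Mq G ∧ ¬ q ∣ Cfsg.charDegree (χ : G → ℂ))) : p = q := by
  by_contra hpq
  have H : DegHyp p q G := fun χ hχ hd =>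
    ((h χ).1 ⟨(mem_principal_iff_of_isPSolvable hMp hps χ).2 hχ, hd⟩).2
  have H' : DegHyp q p G := fun χ hχ hd =>
    ((h χ).2 ⟨(mem_principal_iff_of_isPSolvable hMq hqs χ).2 hχ, hd⟩).2
  have h2 := not_dvd_index_pPrimeCore _ q p G rfl (Ne.symm hpq) hqs hps H' H
  let π := QuotientGroup.mk' (pPrimeCore p G)
  have hπ : Function.Surjective π := QuotientGroup.mk'_surjective _
  let P : Sylow p (G ⧸ pPrimeCore p G) := default
  have hP : commutator P = ⊤ := eq_top_iff.2 fun x _ => mem_commutator_of_forall_hom fun μ => by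
    let θ : IrrCharacter (P : Subgroup (G ⧸ pPrimeCore p G)) := ⟨_, isIrrCharacter_hom μ⟩
    obtain ⟨χ, h3, h4⟩ := exists_over_not_dvd (p := p) le_top
      (by rw [relIndex_top_right]; exact P.not_dvd_index) θ
      (by rw [charDegree_eq_of_one_eq (n := 1) (by simp [θ])]; exact Nat.Prime.not_dvd_one Fact.out)
    obtain ⟨χ, rfl⟩ := exists_topIrr_eq χ
    have h5 := (mem_principal_iff_of_isPSolvable hMq hqs _).1 ((h (inflateIrr π hπ χ)).1
      ⟨(mem_principal_iff_of_isPSolvable hMp hps _).2 fun y hy => (mem_charKer_irr _).2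
        (congrArg χ.1 ((QuotientGroup.eq_one_iff y).2 hy)), h4⟩).1
    have : ((pPrimeCore q G).map π).Normal := Normal.map inferInstance π hπ
    obtain ⟨y, hy, e⟩ := mem_of_orderOf_eq_pow_of_index ((pPrimeCore q G).map π)
      (fun e => h2 (e.trans (index_map_dvd _ hπ))) (orderOf_eq_pow_of_mem P.2 x.2)
    have h6 := apply_eq_of_nmult_ne_zero le_top (topIrr χ) θ (fun e => h3 (e ▸ dvd_zero p))
      (n := x) (by rw [topIrr_apply, ← e]; exact (mem_charKer_irr (inflateIrr π hπ χ)).1 (h5 hy))
    exact Units.ext (h6.trans (by simp [θ]))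
  have h7 : (P : Subgroup (G ⧸ pPrimeCore p G)) = ⊥ := by
    by_contra hne
    have := (nontrivial_iff_ne_bot _).2 hne
    have := Solv.isSolvable_of_isPGroup P.2
    exact (Group.IsSolvable.commutator_lt_top_of_nontrivial P).ne hP
  have h8 := P.not_dvd_index
  rw [h7, index_bot] at h8
  rw [card_eq_card_quotient_mul_card_subgroup (pPrimeCore p G)] at hp
  exact ((Nat.Prime.dvd_mul Fact.out).1 hp).elim h8 (Grp.not_dvd_card_pPrimeCore p G)

end Cfsg.Agent.S4885
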