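import Cfsg.Statements.S4886
import Cfsg.Agent.Block.TwoPrimes
-- import your own Cfsg.Agent.* helpers here

set_option autoImplicit false
open Cfsg

namespace Cfsg.Agent.S4886

open Cfsg.Agent.Block Cfsg.Agent.Char
open scoped ComplexConjugate

/-- Let p ≠ q be primes and G a finite group that is p-solvable and q-solvable. Fix maximal ideals of the algebraic integers containing p and q, defining the principal p-block and the principal q-block. Then every irreducible character of degree prime to p in the principal p-block has degree prime to q and every irreducible character of degree prime to q in the principal q-block has degree prime to p, if and only if some Sylow p-subgroup of G commutes elementwise with some Sylow q-subgroup. -/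
theorem result {G : Type*} [Group G] [Finite G] (p q : ℕ) [Fact p.Prime] [Fact q.Prime] (hpq : p ≠ q) (Mp Mq : Ideal Cfsg.AlgInt) (hMp : Cfsg.IsPModular p Mp) (hMq : Cfsg.IsPModular q Mq) (hps : Cfsg.IsPSolvable p G) (hqs : Cfsg.IsPSolvable q G) : ((∀ χ : Cfsg.IrrCharacter G, χ ∈ Cfsg.principalBlock Mp G → ¬ p ∣ Cfsg.charDegree (χ : G → ℂ) → ¬ q ∣ Cfsg.charDegree (χ : G → ℂ)) ∧ (∀ χ : Cfsg.IrrCharacter G, χ ∈ Cfsg.principalBlock Mq G → ¬ q ∣ Cfsg.charDegree (χ : G → ℂ) → ¬ p ∣ Cfsg.charDegree (χ : G → ℂ))) ↔ ∃ (P : Sylow p G) (Q : Sylow q G), ∀ x ∈ (P : Subgroup G), ∀ y ∈ (Q : Subgroup G), x * y = y * x := by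
  refine ⟨fun ⟨h1, h2⟩ => ?_, fun ⟨P, Q, h⟩ => ⟨fun χ hχ _ hd => ?_, fun χ hχ _ hd => ?_⟩⟩
  · have H : DegHyp p q G := fun χ hχ => h1 χ ((mem_principal_iff_of_isPSolvable hMp hps χ).2 hχ)
    have H' : DegHyp q p G := fun χ hχ => h2 χ ((mem_principal_iff_of_isPSolvable hMq hqs χ).2 hχ)
    let P : Sylow p G := default
    obtain ⟨Q, hQ, hQP⟩ := exists_isSyl_le_centralizer
      (not_dvd_index_pPrimeCore _ q p G rfl hpq.symm hqs hps H' H) P.2
      (Grp.not_dvd_card_pPrimeCore p G) Subgroup.le_normalizer_of_normal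
    obtain ⟨Q, rfl⟩ := (isSyl_of_le_of_not_dvd hQ le_top (by
      rw [Subgroup.relIndex_top_right]
      exact not_dvd_index_pPrimeCore _ p q G rfl hpq hps hqs H H')).exists_sylow_top
    exact ⟨P, Q, fun x hx y hy => hQP hy x hx⟩
  · obtain ⟨ψ, hψ⟩ := exists_irr_deflation (pPrimeCore p G) χ.2 fun n hn =>
      apply_eq_of_mem_principal hMp hχ _ (Grp.not_dvd_card_pPrimeCore p G) hn
    rw [← charDegree_congr_one (χ := ψ.1) (hψ 1)] at hd
    exact not_dvd_index_of_comm hpq hps P Q h (hd.trans (charDegree_irr_dvd_card ψ))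
  · obtain ⟨ψ, hψ⟩ := exists_irr_deflation (pPrimeCore q G) χ.2 fun n hn =>
      apply_eq_of_mem_principal hMq hχ _ (Grp.not_dvd_card_pPrimeCore q G) hn
    rw [← charDegree_congr_one (χ := ψ.1) (hψ 1)] at hd
    exact not_dvd_index_of_comm hpq.symm hqs Q P (fun x hx y hy => (h y hy x hx).symm)
      (hd.trans (charDegree_irr_dvd_card ψ))

end Cfsg.Agent.S4886
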