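import Cfsg.Statements.S4888
import Cfsg.Agent.Block.PrincipalPow
import Cfsg.Agent.Block.Height

set_option autoImplicit false
open Cfsg

namespace Cfsg.Agent.S4888

open Cfsg.Agent.Char Cfsg.Agent.Block

/-- Let G be a finite group, p a prime and M a maximal ideal of the algebraic integers containing p. Then all height-zero irreducible characters of the principal p-block of G (equivalently, all its characters of degree prime to p) have the same degree if and only if G has a normal p-complement. -/
theorem result {G : Type*} [Group G] [Finite G] (p : ℕ) [Fact p.Prime] (M : Ideal Cfsg.AlgInt) (hM : Cfsg.IsPModular p M) : (∃ d : ℕ, ∀ χ : Cfsg.IrrCharacter G, χ ∈ (Cfsg.principalBlock M G) → Cfsg.blockHeight p (Cfsg.principalBlock M G) (χ : G → ℂ) = 0 → Cfsg.charDegree (χ : G → ℂ) = d) ↔ Cfsg.HasNormalPComplement p G := by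
  have hp : p.Prime := Fact.out
  have h0 : ∀ χ : Cfsg.IrrCharacter G,
      Cfsg.blockHeight p (Cfsg.principalBlock M G) (χ : G → ℂ) = 0 ↔
        ¬ p ∣ Cfsg.charDegree (χ : G → ℂ) := by
    intro χ
    rw [blockHeight_eq_zero_iff ⟨_, irrOne_mem_principal hM⟩]
    constructor
    · intro h hd
      have := h _ (irrOne_mem_principal hM)
      rw [charDegree_irrOne, Nat.factorization_one] at this
      have h2 := hp.factorization_pos_of_dvd (charDegree_irr_ne_zero χ) hd
      simp only [Finsupp.coe_zero, Pi.zero_apply] at this
      omega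
    · intro h ψ _
      rw [Nat.factorization_eq_zero_of_not_dvd h]
      exact Nat.zero_le _
  constructor
  · rintro ⟨d, hd⟩
    have h1 : d = 1 := by
      rw [← hd _ (irrOne_mem_principal hM) ((h0 _).2 (by
        rw [charDegree_irrOne]; exact hp.not_dvd_one)), charDegree_irrOne]
    exact hasNormalPComplement_of_principal_linear (k := 1) (n := 0) hM (Nat.coprime_one_left _)
      (fun g => by simp) fun χ hχ h _ => h1 ▸ hd χ hχ ((h0 χ).2 h)
  · intro h
    exact ⟨1, fun χ hχ h1 => charDegree_eq_one_of_hasNormalPComplement hM h hχ ((h0 χ).1 h1)⟩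

end Cfsg.Agent.S4888
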