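import Cfsg.Statements.S4892
import Cfsg.Agent.Block.RatExt

set_option autoImplicit false
open Cfsg

namespace Cfsg.Agent.S4892

/-- Let p be an odd prime, M a maximal ideal of the algebraic integers containing p, N a normal subgroup of the finite group G, and θ an irreducible character of N that is G-invariant, of degree prime to p, p-rational (values in the field generated over ℚ by a root of unity of order prime to p) and lies in the principal p-block of N. Let Q be a Sylow p-subgroup of N and suppose the index of N·C_G(Q) in G is a power of p. Then θ extends to a p-rational irreducible character of G lying in the principal p-block of G. -/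
theorem result {G : Type*} [Group G] [Finite G] (p : ℕ) [Fact p.Prime] (hp : p ≠ 2) (M : Ideal Cfsg.AlgInt) (hM : Cfsg.IsPModular p M) (N : Subgroup G) [N.Normal] (θ : Cfsg.IrrCharacter ↥N) (hinv : ∀ g : G, ∀ n n' : ↥N, (n' : G) = g * (n : G) * g⁻¹ → (θ : ↥N → ℂ) n' = (θ : ↥N → ℂ) n) (hdeg : ¬ p ∣ Cfsg.charDegree (θ : ↥N → ℂ)) (hrat : ∃ m : ℕ, ¬ p ∣ m ∧ ∀ n : ↥N, (θ : ↥N → ℂ) n ∈ IntermediateField.adjoin ℚ ({Complex.exp (2 * Real.pi * Complex.I / m)} : Set ℂ)) (hB : θ ∈ Cfsg.principalBlock M ↥N) (Q : Sylow p ↥N) (hidx : ∃ a : ℕ, (N ⊔ Subgroup.centralizer (((Q : Subgroup ↥N).map N.subtype : Subgroup G) : Set G)).index = p ^ a) : ∃ χ : Cfsg.IrrCharacter G, χ ∈ (Cfsg.principalBlock M G) ∧ (∃ n : ℕ, ¬ p ∣ n ∧ ∀ g : G, (χ : G → ℂ) g ∈ IntermediateField.adjoin ℚ ({Complex.exp (2 * Real.pi * Complex.I / n)} : Set ℂ)) ∧ ∀ n : ↥N, (χ : G → ℂ) n = (θ : ↥N → ℂ) n := by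
  open Cfsg.Agent.Char Cfsg.Agent.Block Cfsg.Agent.Block.RatExt in
  have hpp : p.Prime := Fact.out
  obtain ⟨m, hm, hθm⟩ := hrat
  have hm0 : m ≠ 0 := by rintro rfl; exact hm (dvd_zero p)
  have hfix : ∀ σ : ℂ ≃+* ℂ, (∀ z : ℂ, z ^ m = 1 → σ z = z) → ∀ n, σ (θ.1 n) = θ.1 n := by
    intro σ hσ n
    refine IntermediateField.adjoin_induction (p := fun x _ => σ x = x) ℚ ?_ ?_ ?_ ?_ ?_ (hθm n)
    · rintro x rfl
      exact hσ _ (Complex.isPrimitiveRoot_exp m hm0).pow_eq_one
    · intro q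
      simp
    · intro x y _ _ hx hy
      rw [map_add, hx, hy]
    · intro x _ hx
      rw [map_inv₀, hx]
    · intro x y _ _ hx hy
      rw [map_mul, hx, hy]
  have hP : ¬ p ∣ ((Q : Subgroup N).map N.subtype).relIndex N := by
    rw [Subgroup.relIndex, Subgroup.subgroupOf,
      Subgroup.comap_map_eq_self_of_injective N.subtype_injective]
    exact Q.not_dvd_index
  obtain ⟨χ, h1, h2, h3⟩ := exists_good hM (Subgroup.map_subtype_le _) hP
    (by rw [sup_comm]; exact Q.normalizer_sup_eq_top) hidx hB (fun s _ => hinv s) hdeg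
    (not_dvd_detOrder_of_rat hp θ.2.isCharacter hm hfix)
  obtain ⟨e, t, ht, het⟩ := Nat.exists_eq_pow_mul_and_not_dvd (Nat.card_pos (α := G)).ne' p
    hpp.ne_one
  have ht0 : t ≠ 0 := by rintro rfl; exact ht (dvd_zero p)
  have hmt : m * t ≠ 0 := mul_ne_zero hm0 ht0
  refine ⟨χ, h1, ⟨m * t, fun h => ((Nat.Prime.dvd_mul hpp).1 h).elim hm ht, fun g => ?_⟩, h2.ext⟩
  set F := IntermediateField.adjoin ℚ ({Complex.exp (2 * Real.pi * Complex.I / (m * t : ℕ))} : Set ℂ)
    with hF
  obtain ⟨r, hr⟩ := mem_range_algebraMap_of_forall_algEquiv (F := F) (x := χ.1 g)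
    (χ.2.isCharacter.isIntegral g).tower_top fun σ => by
      have hζ := Complex.isPrimitiveRoot_exp (m * t) hmt
      have h4 : ∀ z : ℂ, z ^ (m * t) = 1 → σ z = z := fun z hz => by
        have : NeZero (m * t) := ⟨hmt⟩
        obtain ⟨i, -, rfl⟩ := hζ.eq_pow_of_pow_eq_one hz
        rw [map_pow]
        congr 1
        exact σ.commutes ⟨_, IntermediateField.mem_adjoin_simple_self ℚ _⟩
      have h5 := h2.galois σ.toRingEquiv.toRingHom
        (hfix σ.toRingEquiv fun z hz => h4 z (by rw [pow_mul, hz, one_pow]))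
        (fun n hn hnG z hz => by
          have h6 : n ∣ t := Nat.Coprime.dvd_of_dvd_mul_left (Nat.Coprime.pow_right _
            ((Nat.Prime.coprime_iff_not_dvd hpp).2 hn).symm) (het ▸ hnG)
          obtain ⟨s, hs⟩ := h6
          exact h4 z (by rw [hs, mul_left_comm, pow_mul, hz, one_pow]))
      exact congrFun (h3 _ h5) g
  rw [← hr]
  exact r.2

end Cfsg.Agent.S4892
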