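import Cfsg.Statements.S4911
import Mathlib
import Cfsg.Agent.Char.GlaubCount
import Cfsg.Agent.Char.FS
import Cfsg.Agent.Solv.Coprime2

set_option autoImplicit false
open Cfsg

namespace Cfsg.Agent.S4911

open Cfsg.Agent.Char Subgroup

/-- Let P and K be subgroups of a finite group with P a p-group normalizing K and K of order prime to p. Then the number of P-invariant real-valued irreducible complex characters of K equals the number of conjugacy classes of K that are real (closed under inversion) and P-invariant. Moreover, if every real-valued irreducible character of K is P-invariant, then every real element of K (one conjugate in K to its inverse) is conjugate in K to an element centralized by P. -/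
theorem result {G : Type*} [Group G] [Finite G] (p : ℕ) [Fact p.Prime] (P K : Subgroup G) (hP : IsPGroup p ↥P) (hK : ¬ p ∣ Nat.card ↥K) (hPK : P ≤ Subgroup.normalizer (K : Set G)) : Nat.card {θ : Cfsg.IrrCharacter ↥K // (∀ k : ↥K, ((θ : ↥K → ℂ) k).im = 0) ∧ (∀ x ∈ P, ∀ k k' : ↥K, (k' : G) = x * (k : G) * x⁻¹ → (θ : ↥K → ℂ) k' = (θ : ↥K → ℂ) k)} = Nat.card {c : ConjClasses ↥K // (∀ k : ↥K, ConjClasses.mk k = c → IsConj k k⁻¹) ∧ ∀ k : ↥K, ConjClasses.mk k = c → ∀ x ∈ P, ∀ k' : ↥K, (k' : G) = x * (k : G) * x⁻¹ → ConjClasses.mk k' = c} ∧ ((∀ θ : Cfsg.IrrCharacter ↥K, (∀ k : ↥K, ((θ : ↥K → ℂ) k).im = 0) → (∀ x ∈ P, ∀ k k' : ↥K, (k' : G) = x * (k : G) * x⁻¹ → (θ : ↥K → ℂ) k' = (θ : ↥K → ℂ) k)) → ∀ k : ↥K, IsConj k k⁻¹ → ∃ k' : ↥K, IsConj k k' ∧ ∀ x ∈ P, x * (k' : G) * x⁻¹ = (k' : G)) := by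
  have hp : p.Prime := Fact.out
  have hcop : (Nat.card K).Coprime (Nat.card P) :=
    Solv.coprime_card_of_isPGroup hP ((Nat.Prime.coprime_iff_not_dvd hp).2 hK).symm
  have hsolv : Group.IsSolvable P ∨ Group.IsSolvable K := Or.inl (Solv.isSolvable_of_isPGroup hP)
  let C := K ⊓ centralizer (P : Set G)
  have hCK : C ≤ K := inf_le_left
  have hc : GCorr p P hCK := gcorr_centralizer hP hPK hK rfl hCK
  have hinv : ∀ β : IrrCharacter C, InvBy P β.1 := fun β => invBy_of_centralizer _ inf_le_right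
  have h1 : Nat.card {θ : Cfsg.IrrCharacter ↥K // (∀ k : ↥K, ((θ : ↥K → ℂ) k).im = 0) ∧ (∀ x ∈ P, ∀ k k' : ↥K, (k' : G) = x * (k : G) * x⁻¹ → (θ : ↥K → ℂ) k' = (θ : ↥K → ℂ) k)} = Nat.card {c : ConjClasses ↥K // (∀ k : ↥K, ConjClasses.mk k = c → IsConj k k⁻¹) ∧ ∀ k : ↥K, ConjClasses.mk k = c → ∀ x ∈ P, ∀ k' : ↥K, (k' : G) = x * (k : G) * x⁻¹ → ConjClasses.mk k' = c} := by
    rw [hc.card_eq_of _ (fun ξ => ∀ c, (ξ.1 c).im = 0) (fun _ h => h.2) (fun ξ _ => hinv ξ)
      (fun χ ξ h1 h2 h3 => ⟨fun h => (hc.real_iff h1 h2 h3).1 h.1,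
        fun h => ⟨(hc.real_iff h1 h2 h3).2 h, h1⟩⟩), card_real_irr_eq_card_real_classes]
    symm
    refine card_invariant_classes hPK hcop hsolv rfl hCK _ _
      (fun _ h s hs g g' e e' => h.2 g e' s hs g' e) fun c => ⟨fun h g e => ?_, fun h => ⟨fun g e => ?_,
        fun g e s hs g' e' => invariant_class_of_centralizer hPK _ c.2.2 s hs g g' e' e⟩⟩
    · refine isConj_of_centralizer hPK hcop hsolv rfl hCK _ _ ?_
      rw [map_inv]
      refine h.1 _ (ConjClasses.mk_eq_mk_iff_isConj.2 ?_)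
      exact (inclusion hCK).map_isConj (ConjClasses.mk_eq_mk_iff_isConj.1 e)
    · have h2 := ConjClasses.mk_eq_mk_iff_isConj.1 e
      have h3 := (inclusion hCK).map_isConj (h c rfl)
      rw [map_inv] at h3
      refine (h2.trans h3).trans ?_
      obtain ⟨k, hk⟩ := isConj_iff.1 h2.symm
      exact isConj_iff.2 ⟨k, by rw [← hk]; group⟩
  refine ⟨h1, fun hall k hk => ?_⟩
  have h2 : Nat.card {c : ConjClasses ↥K // ∀ k : ↥K, ConjClasses.mk k = c → IsConj k k⁻¹} ≤
      Nat.card {c : ConjClasses ↥K // (∀ k : ↥K, ConjClasses.mk k = c → IsConj k k⁻¹) ∧ ∀ k : ↥K, ConjClasses.mk k = c → ∀ x ∈ P, ∀ k' : ↥K, (k' : G) = x * (k : G) * x⁻¹ → ConjClasses.mk k' = c} := by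
    rw [← h1, ← card_real_irr_eq_card_real_classes]
    exact le_of_eq (Nat.card_congr (Equiv.subtypeEquivRight fun θ =>
      ⟨fun h => ⟨h, hall θ h⟩, fun h => h.1⟩))
  have h3 := (Function.Injective.bijective_of_nat_card_le
    (f := Subtype.map id (fun c h => h.1)) (Subtype.map_injective _ Function.injective_id) h2).2
  obtain ⟨⟨c, hc1, hc2⟩, e⟩ := h3 ⟨ConjClasses.mk k, fun k' e => by
    have h4 := ConjClasses.mk_eq_mk_iff_isConj.1 e
    refine (h4.trans hk).trans ?_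
    obtain ⟨a, ha⟩ := isConj_iff.1 h4.symm
    exact isConj_iff.2 ⟨a, by rw [← ha]; group⟩⟩
  have e' : c = ConjClasses.mk k := congrArg Subtype.val e
  subst e'
  obtain ⟨k', h4, h5⟩ := exists_conj_mem_centralizer hPK hcop hsolv k fun s hs g' e =>
    ConjClasses.mk_eq_mk_iff_isConj.1 (hc2 k rfl s hs g' e).symm
  exact ⟨k', h4, fun x hx => mul_inv_eq_iff_eq_mul.2 (h5 x hx)⟩

end Cfsg.Agent.S4911
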