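import Cfsg.Statements.S4912
import Cfsg.Agent.Char.LinearTwist

set_option autoImplicit false
open Cfsg

namespace Cfsg.Agent.S4912

open Cfsg.Agent.Char


/-- Let G be a finite group with a non-abelian minimal normal subgroup N, and let φ be an irreducible complex character of N with stabilizer I in G such that φ extends to an irreducible character of I with Frobenius–Schur indicator +1. Put d = φ(1)·[G : I]. Then the number of linear characters of G with Frobenius–Schur indicator +1 is at most [G : I] times the number of irreducible characters of G of degree d with Frobenius–Schur indicator +1. -/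
theorem result {G : Type*} [Group G] [Finite G] (N : Subgroup G) (hN : N.Normal) (hN1 : N ≠ ⊥) (hmin : ∀ M : Subgroup G, M.Normal → M ≤ N → M = ⊥ ∨ M = N) (hna : ¬ IsMulCommutative ↥N) (φ : Cfsg.IrrCharacter ↥N) (I : Subgroup G) (hI : ∀ g : G, g ∈ I ↔ ∀ n n' : ↥N, (n' : G) = g * (n : G) * g⁻¹ → (φ : ↥N → ℂ) n' = (φ : ↥N → ℂ) n) (hNI : N ≤ I) (hext : ∃ ψ : Cfsg.IrrCharacter ↥I, (Nat.card ↥I : ℂ)⁻¹ * ∑ᶠ g : ↥I, (ψ : ↥I → ℂ) (g * g) = 1 ∧ ∀ n : ↥N, (ψ : ↥I → ℂ) (Subgroup.inclusion hNI n) = (φ : ↥N → ℂ) n) : Nat.card {χ : Cfsg.IrrCharacter G // Cfsg.charDegree (χ : G → ℂ) = 1 ∧ (Nat.card G : ℂ)⁻¹ * ∑ᶠ g : G, (χ : G → ℂ) (g * g) = 1} ≤ I.index * Nat.card {χ : Cfsg.IrrCharacter G // Cfsg.charDegree (χ : G → ℂ) = Cfsg.charDegree (φ : ↥N → ℂ) * I.index ∧ (Nat.card G : ℂ)⁻¹ * ∑ᶠ g : G, (χ : G → ℂ) (g * g) = 1} := by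
  classical
  have := Fintype.ofFinite G
  simp only [finsum_eq_sum_of_fintype] at hext ⊢
  obtain ⟨ψ, hν, hψ⟩ := hext
  have hle := le_commutator_of_minNormal N hmin hna
  have hI' := (eq_inertia_of_iff N _ I hI).ge
  refine card_le_index_mul_card_of_twist φ.2 hI' hNI ψ.2 hψ _ _
    (fun lam h => (charDegree_eq_one_iff lam.2.isCharacter).mp h.1) (fun lam h n hn => ?_)
    fun lam χ h e => ⟨?_, ?_⟩
  · have h1 := (charDegree_eq_one_iff lam.2.isCharacter).mp h.1
    rw [(mem_charKer_irr lam).mp (commutator_le_charKer_of_one lam.2.isCharacter h1 (hle hn)), h1]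
  · refine charDegree_eq_of_one_eq ?_
    rw [e]
    simp only
    rw [(charDegree_eq_one_iff lam.2.isCharacter).mp h.1, one_mul, indFun_one,
      show (ψ : I → ℂ) 1 = (φ : N → ℂ) 1 from hψ 1, Nat.cast_mul, coe_charDegree_irr, mul_comm]
  · change fsInd (χ : G → ℂ) = 1
    rw [e, fsInd_mul_of_sq_eq_one _ _ (apply_mul_self_eq_one_of_real lam.2.isCharacter
      ((charDegree_eq_one_iff lam.2.isCharacter).mp h.1) (real_of_fsInd_eq_one lam.2 h.2)),
      fsInd_indFun_of_isIrr I ψ.2 (real_of_fsInd_eq_one ψ.2 hν)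
        (isIrr_indFun_of_extends φ.2 hI' hNI ψ.2 hψ)]
    exact hν

end Cfsg.Agent.S4912
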