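import Cfsg.Statements.S4914
import Mathlib
import Cfsg.Agent.Char.Glauberman

set_option autoImplicit false
open Cfsg

namespace Cfsg.Agent.S4914

open Cfsg.Agent.Char Subgroup

/-- Let P and K be subgroups of a finite group G with P a p-group normalizing K, and suppose K has a normal Sylow p-subgroup Q. Let C be the subgroup of those k ∈ K whose commutator with every element of P lies in Q (so that C/Q is the fixed-point subgroup of P on K/Q). Then there is a bijection f from the P-invariant irreducible complex characters of K onto the P-invariant irreducible complex characters of C such that, for every P-invariant irreducible character χ of K, the multiplicity of f(χ) in the restriction of χ to C is a natural number congruent to 1 or to −1 modulo p, every other P-invariant irreducible character of C occurs in that restriction with multiplicity divisible by p, and the degrees of χ and f(χ)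 are congruent modulo p up to sign. -/
theorem result {G : Type*} [Group G] [Finite G] (p : ℕ) [Fact p.Prime] (P K Q C : Subgroup G) (hP : IsPGroup p ↥P) (hPK : P ≤ Subgroup.normalizer (K : Set G)) (hQK : Q ≤ K) (hQn : ∀ k ∈ K, ∀ q ∈ Q, k * q * k⁻¹ ∈ Q) (hQp : ∃ a : ℕ, Nat.card ↥Q = p ^ a) (hQsyl : ¬ p ∣ Q.relIndex K) (hCK : C ≤ K) (hC : ∀ k : G, k ∈ C ↔ (k ∈ K ∧ ∀ x ∈ P, x * k * x⁻¹ * k⁻¹ ∈ Q)) : ∃ f : {χ : Cfsg.IrrCharacter ↥K // (∀ x ∈ P, ∀ k k' : ↥K, (k' : G) = x * (k : G) * x⁻¹ → (χ : ↥K → ℂ) k' = (χ : ↥K → ℂ) k)} → {ξ : Cfsg.IrrCharacter ↥C // (∀ x ∈ P, ∀ k k' : ↥C, (k' : G) = x * (k : G) * x⁻¹ → (ξ : ↥C → ℂ) k' = (ξ : ↥C → ℂ) k)}, Function.Bijective f ∧ ∀ χ, (∀ ξ : {ξ : Cfsg.IrrCharacter ↥C // (∀ x ∈ P, ∀ k k' : ↥C, (k' : G) = x * (k : G) * x⁻¹ → (ξ : ↥C → ℂ) k' = (ξ : ↥C → ℂ) k)}, ∃ m : ℕ, (Nat.card ↥C : ℂ)⁻¹ * ∑ᶠ c : ↥C, (χ.1 : ↥K → ℂ) (Subgroup.inclusion hCK c) * (starRingEnd ℂ) ((ξ.1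 : ↥C → ℂ) c) = (m : ℂ) ∧ (ξ = f χ → ((m : ZMod p) = 1 ∨ (m : ZMod p) = -1)) ∧ (ξ ≠ f χ → p ∣ m)) ∧ ((Cfsg.charDegree ((f χ).1 : ↥C → ℂ) : ZMod p) = (Cfsg.charDegree (χ.1 : ↥K → ℂ) : ZMod p) ∨ (Cfsg.charDegree ((f χ).1 : ↥C → ℂ) : ZMod p) = -(Cfsg.charDegree (χ.1 : ↥K → ℂ) : ZMod p)) := by
  classical
  have hp : p.Prime := Fact.out
  have hKQ : K ≤ normalizer (Q : Set G) := le_normalizer_iff.2 hQn
  obtain ⟨a, ha⟩ := hQp
  have hQP : IsPGroup p Q := IsPGroup.of_card ha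
  have hPQ : P ≤ normalizer (Q : Set G) := by
    rw [le_normalizer_iff]
    intro x hx q hq
    haveI : (Q.subgroupOf K).Normal := (normal_subgroupOf_iff_le_normalizer hQK).2 hKQ
    have hmem : x * q * x⁻¹ ∈ K := (mem_normalizer_iff.1 (hPK hx) q).1 (hQK hq)
    obtain ⟨k, hk⟩ := hQP ⟨q, hq⟩
    have hk' : q ^ p ^ k = 1 := congrArg Subtype.val hk
    have h1 : (QuotientGroup.mk (⟨_, hmem⟩ : K) : K ⧸ Q.subgroupOf K) ^ p ^ k = 1 := by
      rw [← QuotientGroup.mk_pow]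
      have : (⟨_, hmem⟩ : K) ^ p ^ k = 1 := Subtype.ext (by
        change (x * q * x⁻¹) ^ p ^ k = 1
        rw [conj_pow, hk']; simp)
      rw [this]; rfl
    have h2 : (QuotientGroup.mk (⟨_, hmem⟩ : K) : K ⧸ Q.subgroupOf K) ^ Q.relIndex K = 1 :=
      pow_card_eq_one'
    have h3 : (p ^ k).Coprime (Q.relIndex K) :=
      Nat.Coprime.pow_left _ ((Nat.Prime.coprime_iff_not_dvd hp).2 hQsyl)
    have h4 := (pow_gcd_eq_one (a := (QuotientGroup.mk (⟨_, hmem⟩ : K) : K ⧸ Q.subgroupOf K))).2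
      ⟨h1, h2⟩
    rw [h3, pow_one] at h4
    exact mem_subgroupOf.1 ((QuotientGroup.eq_one_iff _).1 h4)
  have hC' : C = relCent Q K hKQ P := by
    ext g
    exact hC g
  have key : GCorr p P hCK := gcorr_relCent hP hPQ K hQK hKQ hPK hQsyl C hC' hCK
  have hPC : P ≤ normalizer (C : Set G) := by
    rw [hC']
    exact normalizer_relCent_of_le hKQ hPK hPK hPQ le_normalizer
  choose f hf1 hf2 using key.ex
  refine ⟨fun χ => ⟨f χ.1 χ.2, hf1 χ.1 χ.2⟩, ⟨fun χ χ' e => ?_, fun ξ => ?_⟩, fun χ => ⟨fun ξ => ?_, ?_⟩⟩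
  · have e' : f χ.1 χ.2 = f χ'.1 χ'.2 := congrArg Subtype.val e
    refine Subtype.ext (key.inj _ _ χ.2 χ'.2 _ (hf1 _ χ.2) (hf2 _ χ.2) ?_)
    rw [e']
    exact hf2 _ _
  · obtain ⟨χ, hχ, h⟩ := key.surj ξ.1 ξ.2
    exact ⟨⟨χ, hχ⟩, Subtype.ext (key.uniq χ hχ _ _ (hf1 _ hχ) ξ.2 (hf2 _ hχ) h)⟩
  · letI : Fintype C := Fintype.ofFinite C
    refine ⟨nmult hCK χ.1.1 ξ.1.1, ?_, ?_, fun hne => ?_⟩
    · rw [coe_nmult_irr, finsum_eq_sum_of_fintype]
      rfl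
    · rintro rfl
      have := key.pm _ χ.2 _ (hf1 _ χ.2) (hf2 _ χ.2)
      simp only [← ZMod.intCast_eq_intCast_iff] at this
      push_cast at this
      exact this
    · by_contra h
      exact hne (Subtype.ext (key.uniq _ χ.2 _ _ ξ.2 (hf1 _ χ.2) h (hf2 _ χ.2)))
  · have h1 := key.degree hP hPK hPC χ.2 (hf1 _ χ.2) (hf2 _ χ.2)
    have := key.pm _ χ.2 _ (hf1 _ χ.2) (hf2 _ χ.2)
    simp only [← ZMod.intCast_eq_intCast_iff] at this
    push_cast at this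
    rw [h1]
    rcases this with h | h <;> simp [h]

end Cfsg.Agent.S4914
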