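import Cfsg.Statements.S4916
import Mathlib
import Cfsg.Agent.Char.Irr
import Cfsg.Agent.Char.Quot
import Cfsg.Agent.Block.Red
import Cfsg.Agent.S0907
import Cfsg.Agent.S0914

set_option autoImplicit false
open Cfsg

namespace Cfsg.Agent.S4916
open Cfsg.Agent.Char

/-- Let G be a finite group, p a prime and M a maximal ideal of the algebraic integers containing p. Then the principal character is the only irreducible character of degree prime to p in the principal p-block of G if and only if p does not divide the order of G. -/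
theorem result {G : Type*} [Group G] [Finite G] (p : ℕ) [Fact p.Prime] (M : Ideal Cfsg.AlgInt) (hM : Cfsg.IsPModular p M) : (∀ χ : Cfsg.IrrCharacter G, χ ∈ Cfsg.principalBlock M G → ¬ p ∣ Cfsg.charDegree (χ : G → ℂ) → (χ : G → ℂ) = fun _ => (1 : ℂ)) ↔ ¬ p ∣ Nat.card G := by
  classical
  have h1 : Char.irrOne G ∈ Cfsg.principalBlock M G := fun g => by
    change Cfsg.MemLocalIdeal M (Cfsg.centralChar (fun _ : G => (1 : ℂ)) g -
      Cfsg.centralChar (fun _ : G => (1 : ℂ)) g)
    rw [sub_self, Block.memLocalIdeal_iff hM]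
    exact ⟨isAlgebraic_zero, by simp⟩
  constructor
  · intro h hp
    obtain ⟨y, hy⟩ := exists_prime_orderOf_dvd_card' p hp
    have h2 := S0907.result p M hM (Cfsg.principalBlock M G) ⟨Char.irrOne G, rfl⟩ 1 y
      (by rw [orderOf_one]; exact hM.1.one_lt.ne' ∘ Nat.dvd_one.mp) (hy ▸ dvd_rfl)
    rw [finsum_mem_eq_finite_toFinset_sum _ (Set.toFinite _),
      ← Finset.add_sum_erase _ _ ((Set.Finite.mem_toFinset _).mpr h1)] at h2
    have h3 : Block.val M (∑ χ ∈ ((Set.toFinite (Cfsg.principalBlock M G)).toFinset.erase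
        (Char.irrOne G)), (χ : G → ℂ) 1 * (starRingEnd ℂ) ((χ : G → ℂ) y)) < 1 := by
      refine Valuation.map_sum_lt _ one_ne_zero fun χ hχ => ?_
      rw [Finset.mem_erase, Set.Finite.mem_toFinset] at hχ
      have h4 : p ∣ Cfsg.charDegree (χ : G → ℂ) := by
        by_contra h5
        exact hχ.1 (Subtype.ext (h χ hχ.2 h5))
      rw [map_mul, ← Char.coe_charDegree_irr, ← χ.2.map_inv]
      calc _ ≤ Block.val M (Cfsg.charDegree (χ : G → ℂ) : ℂ) * 1 :=
            mul_le_mul_right (Block.val_le_one_of_isIntegral (χ.2.isCharacter.isIntegral _)) _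
        _ < 1 := by rw [mul_one]; exact (Block.val_natCast_lt_one_iff hM _).mpr h4
    rw [eq_neg_of_add_eq_zero_right h2] at h3
    simp at h3
  · intro hp χ hχ _
    have h2 := (S0914.result p M hM (Char.irrOne G)).mp (by
      rwa [show Cfsg.charDegree (Char.irrOne G : G → ℂ) = 1 from Char.charDegree_const_one,
        Nat.div_one])
    have h3 : χ ∈ Cfsg.blockOf M (Char.irrOne G : G → ℂ) := hχ
    rw [h2, Set.mem_singleton_iff] at h3
    rw [h3]; rfl

end Cfsg.Agent.S4916
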