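import Cfsg.Statements.S4923
import Cfsg.Agent.Char.SchurBound
import Cfsg.Agent.Char.Galois
import Cfsg.Agent.Grp.MaxClass
import Cfsg.Agent.Grp.CyclicIndexP
import Cfsg.Agent.Transfer.PCompl

set_option autoImplicit false
open Cfsg

namespace Cfsg.Agent.S4923

open Cfsg.Agent.Char Subgroup
open scoped commutatorElement

theorem adjoin_le_of_fix {S T : Set ℂ} (hT : ∀ z ∈ T, IsIntegral ℚ z)
    (h : ∀ σ : ℂ ≃+* ℂ, (∀ z ∈ S, σ z = z) → ∀ z ∈ T, σ z = z) :
    IntermediateField.adjoin ℚ T ≤ IntermediateField.adjoin ℚ S := by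
  rw [IntermediateField.adjoin_le_iff]
  intro z hz
  obtain ⟨r, hr⟩ := mem_range_algebraMap_of_forall_algEquiv (F := IntermediateField.adjoin ℚ S)
    (hT z hz).tower_top (fun σ => h σ.toRingEquiv (fun y hy =>
      σ.commutes ⟨y, IntermediateField.subset_adjoin ℚ S hy⟩) z hz)
  rw [← hr]
  exact r.2

theorem fix_iff {ζ c : ℂ} (hζ : ζ ≠ 0) (hc : c = 1 ∨ c = -1) (σ : ℂ ≃+* ℂ) :
    σ (ζ + c * ζ⁻¹) = ζ + c * ζ⁻¹ ↔ σ ζ = ζ ∨ σ ζ * ζ = c := by
  have hy : σ ζ ≠ 0 := by simpa using hζ
  have hσc : σ c = c := by rcases hc with rfl | rfl <;> simp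
  rw [map_add, map_mul, map_inv₀, hσc]
  generalize σ ζ = y at hy
  have : y + c * y⁻¹ = ζ + c * ζ⁻¹ ↔ (y - ζ) * (y * ζ - c) = 0 := by
    rw [← sub_eq_zero]
    have : y + c * y⁻¹ - (ζ + c * ζ⁻¹) = (y - ζ) * (y * ζ - c) * (y * ζ)⁻¹ := by
      field_simp
      ring
    rw [this, mul_eq_zero, or_iff_left (inv_ne_zero (mul_ne_zero hy hζ))]
  rw [this, mul_eq_zero, sub_eq_zero, sub_eq_zero]

variable {G : Type*} [Group G] [Finite G]

theorem fix_vals (g : G) (σ : ℂ ≃+* ℂ) {N m : ℕ} (hσ : ∀ z : ℂ, z ^ N = 1 → σ z = z ^ m)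
    (hg : g ^ N = 1) :
    (∀ z ∈ {z : ℂ | ∃ χ : Cfsg.IrrCharacter G, (χ : G → ℂ) g = z}, σ z = z) ↔
      IsConj g (g ^ m) := by
  rw [isConj_iff_irr]
  constructor
  · intro h χ
    rw [← χ.2.isCharacter.galois_apply σ.toRingHom hσ g hg]
    exact (h _ ⟨χ, rfl⟩).symm
  · rintro h _ ⟨χ, rfl⟩
    exact (χ.2.isCharacter.galois_apply σ.toRingHom hσ g hg).trans (h χ).symm

theorem conj_pow_iter {x g : G} {m : ℕ} (h : x * g * x⁻¹ = g ^ m) (j : ℕ) :
    x ^ j * g * (x ^ j)⁻¹ = g ^ m ^ j := by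
  induction j with
  | zero => simp
  | succ j ih =>
    rw [pow_succ' x, mul_inv_rev,
      show x * x ^ j * g * ((x ^ j)⁻¹ * x⁻¹) = x * (x ^ j * g * (x ^ j)⁻¹) * x⁻¹ by group, ih,
      ← conj_pow, h, ← pow_mul, pow_succ']

/-- fusion of a cyclic `2`-subgroup normal in a Sylow subgroup is realised in it -/
theorem fusion (P : Sylow 2 G) {g : G} {a : ℕ} (ho : orderOf g = 2 ^ a)
    (hP : (P : Subgroup G) ≤ normalizer (zpowers g : Set G)) {m : ℕ} (h : IsConj g (g ^ m)) :
    ∃ u ∈ (P : Subgroup G), u * g * u⁻¹ = g ^ m := by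
  obtain ⟨x, hx⟩ := isConj_iff.1 h
  set N := normalizer (zpowers g : Set G) with hN
  have hxN : x ∈ N := by
    refine mem_normalizer_fintype ?_
    rintro _ ⟨k, rfl⟩
    rw [← conj_zpow, hx]
    exact zpow_mem (pow_mem (mem_zpowers g) m) k
  let C : Subgroup N := (centralizer ({g} : Set G)).subgroupOf N
  have hgN : ∀ y ∈ N, ∃ k : ℕ, y * g * y⁻¹ = g ^ k := fun y hy => by
    have := (mem_normalizer_iff.1 hy g).1 (mem_zpowers g)
    obtain ⟨k, hk⟩ := (mem_powers_iff_mem_zpowers.2 this)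
    exact ⟨k, hk.symm⟩
  have hCn : C.Normal := ⟨fun c hc y => by
    rw [mem_subgroupOf, mem_centralizer_singleton_iff] at hc ⊢
    obtain ⟨k, hk⟩ := hgN _ (N.inv_mem y.2)
    have h1 : (c : G) * g ^ k = g ^ k * c := (Commute.pow_right hc k)
    simp only [coe_mul, InvMemClass.coe_inv]
    rw [inv_inv] at hk
    calc (y : G) * c * (y : G)⁻¹ * g = y * (c * ((y : G)⁻¹ * g * y)) * (y : G)⁻¹ := by group
      _ = y * (((y : G)⁻¹ * g * y) * c) * (y : G)⁻¹ := by rw [hk, h1]
      _ = _ := by group⟩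
  have hq : IsPGroup 2 (N ⧸ C) := by
    intro y
    obtain ⟨y, rfl⟩ := QuotientGroup.mk_surjective y
    obtain ⟨k, hk⟩ := hgN y y.2
    have hko : k.Coprime (2 ^ a) := by
      have h1 : orderOf (g ^ k) = orderOf g := by
        rw [← hk]; exact (MulAut.conj (y : G)).orderOf_eq g
      rw [orderOf_pow, ho] at h1
      have h2 := Nat.div_mul_cancel (Nat.gcd_dvd_left (2 ^ a) k)
      rw [h1] at h2
      exact Nat.Coprime.symm (Nat.eq_of_mul_eq_mul_left (by positivity) (h2.trans (mul_one _).symm))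
    refine ⟨a, ?_⟩
    rw [← QuotientGroup.mk_pow, QuotientGroup.eq_one_iff, mem_subgroupOf,
      mem_centralizer_singleton_iff, ← mul_inv_eq_iff_eq_mul]
    have h3 := conj_pow_iter hk (2 ^ a)
    rw [coe_pow, h3, ← pow_one g, ← pow_mul, one_mul, pow_eq_pow_iff_modEq, ho]
    have h4 := Nat.ModEq.pow_totient hko
    obtain ⟨t, ht⟩ : (2 ^ a).totient ∣ 2 ^ a := by
      rcases a with _ | a
      · simp
      · rw [Nat.totient_prime_pow_succ Nat.prime_two]
        exact ⟨2, by ring⟩
    have h5 := h4.pow t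
    rwa [← pow_mul, ← ht, one_pow] at h5
  obtain ⟨k, hk⟩ := Transfer.isPGroup_quotient_iff_index.1 hq
  have ht := Transfer.sup_sylow_eq_top_of_index hk (P.subtype hP)
  have hx' : (⟨x, hxN⟩ : N) ∈ (((P.subtype hP : Subgroup N) ⊔ C : Subgroup N) : Set N) := by
    rw [sup_comm, ht]; trivial
  rw [mul_normal] at hx'
  obtain ⟨u, hu, c, hc, e⟩ := hx'
  refine ⟨u, hu, ?_⟩
  have e' : (u : G) * c = x := congrArg Subtype.val e
  have hc' : (c : G) * g = g * c := mem_centralizer_singleton_iff.1 hc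
  rw [← hx, ← e']
  calc (u : G) * g * (u : G)⁻¹ = u * (g * c) * (c : G)⁻¹ * (u : G)⁻¹ := by group
    _ = _ := by rw [← hc']; group

theorem even_index_iff (P : Sylow 2 G) {g : G} (h : ¬ 2 ∣ (centralizer ({g} : Set G)).index) :
    ∃ Q : Sylow 2 G, (Q : Subgroup G) ≤ centralizer ({g} : Set G) := by
  obtain ⟨R⟩ : Nonempty (Sylow 2 (centralizer ({g} : Set G))) := inferInstance
  have h1 : ¬ 2 ∣ ((R : Subgroup _).map (centralizer ({g} : Set G)).subtype).index := by
    rw [index_map_subtype]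
    intro h2
    rcases (Nat.Prime.dvd_mul Nat.prime_two).1 h2 with h2 | h2
    · exact R.not_dvd_index h2
    · exact h h2
  exact ⟨(R.isPGroup'.map _).toSylow h1, map_subtype_le _⟩

theorem integ (g : G) : ∀ z ∈ {z : ℂ | ∃ χ : Cfsg.IrrCharacter G, (χ : G → ℂ) g = z},
    IsIntegral ℚ z := by
  rintro _ ⟨χ, rfl⟩
  exact (χ.2.isCharacter.isIntegral g).tower_top

theorem integ2 {ζ c : ℂ} {N : ℕ} (hN : N ≠ 0) (h : ζ ^ N = 1) (hc : c = 1 ∨ c = -1) :
    ∀ z ∈ ({ζ + c * ζ⁻¹} : Set ℂ), IsIntegral ℚ z := by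
  rintro _ rfl
  have h1 : ∀ y : ℂ, y ^ N = 1 → IsIntegral ℚ y := fun y hy =>
    IsIntegral.of_pow (Nat.pos_of_ne_zero hN) (hy ▸ isIntegral_one)
  refine (h1 ζ h).add (IsIntegral.mul ?_ (h1 _ (by rw [inv_pow, h, inv_one])))
  rcases hc with rfl | rfl
  · exact isIntegral_one
  · exact isIntegral_one.neg

/-- Let G be a finite group with Sylow 2-subgroup P of order 2^n ≥ 8, and let ζ be a primitive 2^(n−1)-th root of unity in ℂ. Then the commutator subgroup of P has index 4 in P if and only if there is an element g of P whose conjugacy class in G has even size and such that the field generated over ℚ by the values at g of all irreducible complex characters of G equals ℚ(ζ + ζ⁻¹) or ℚ(ζ − ζ⁻¹). -/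
theorem result {G : Type*} [Group G] [Finite G] (P : Sylow 2 G) (n : ℕ) (hn : 3 ≤ n) (hP : Nat.card P = 2 ^ n) (ζ : ℂ) (hζ : IsPrimitiveRoot ζ (2 ^ (n - 1))) :
    (commutator ↥P).index = 4 ↔
      ∃ g : G, g ∈ (P : Subgroup G) ∧ 2 ∣ (Subgroup.centralizer ({g} : Set G)).index ∧
        (IntermediateField.adjoin ℚ {z : ℂ | ∃ χ : Cfsg.IrrCharacter G, (χ : G → ℂ) g = z} = IntermediateField.adjoin ℚ ({ζ + ζ⁻¹} : Set ℂ) ∨
          IntermediateField.adjoin ℚ {z : ℂ | ∃ χ : Cfsg.IrrCharacter G, (χ : G → ℂ) g = z} = IntermediateField.adjoin ℚ ({ζ - ζ⁻¹} : Set ℂ)) := by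
  have key : (commutator ↥P).index = 4 ↔
      ∃ g : G, g ∈ (P : Subgroup G) ∧ 2 ∣ (Subgroup.centralizer ({g} : Set G)).index ∧
        ∃ c : ℂ, (c = 1 ∨ c = -1) ∧
        IntermediateField.adjoin ℚ {z : ℂ | ∃ χ : Cfsg.IrrCharacter G, (χ : G → ℂ) g = z} =
          IntermediateField.adjoin ℚ ({ζ + c * ζ⁻¹} : Set ℂ) := by
    obtain ⟨m, rfl⟩ : ∃ m, n = m + 3 := ⟨n - 3, by omega⟩
    have e1 : m + 3 - 1 = m + 2 := rfl
    rw [e1] at hζ
    have hζ0 : ζ ≠ 0 := hζ.ne_zero (by positivity)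
    have hζN : ζ ^ 2 ^ (m + 3) = 1 := by rw [pow_succ, pow_mul, hζ.pow_eq_one, one_pow]
    have hζo : orderOf ζ = 2 ^ (m + 2) := hζ.eq_orderOf.symm
    constructor
    · intro h
      obtain ⟨c, hc, hi, hZ, hcx⟩ := Grp.MaxClass.exists_gens_of_index_commutator_le hn hP h.le
      rw [e1] at hc
      obtain ⟨x, hx⟩ := Grp.MaxClass.exists_not_mem_of_index_ne_one (H := zpowers c) (by omega)
      have hcn : (zpowers c).Normal := normal_of_index_eq_two hi
      obtain ⟨k, hk⟩ := mem_powers_iff_mem_zpowers.2 (hcn.conj_mem c (mem_zpowers c) x)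
      change c ^ k = _ at hk
      have hk2 : ((2 : ℕ) : ℤ) ^ (m + 2) ∣ (k : ℤ) ^ 2 - 1 :=
        Grp.CycIdx.pow_dvd_pow_sub_one (b := x) hc (by rw [← hk, zpow_natCast])
          (sq_mem_of_index_two hi x)
      have hk4 : ¬ (4 : ℤ) ∣ (k : ℤ) - 1 := by
        rintro ⟨t, ht⟩
        have h1 : c ^ 2 ^ m ∈ center P := by
          rw [hcx x hx]
          refine mem_inf.2 ⟨pow_mem (mem_zpowers c) _, ?_⟩
          rw [mem_centralizer_singleton_iff, eq_comm, ← mul_inv_eq_iff_eq_mul,
            ← conj_pow, ← hk, ← pow_mul, pow_eq_pow_iff_modEq, hc, Nat.modEq_iff_dvd]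
          refine ⟨-t, ?_⟩
          push_cast
          linear_combination (-(2 : ℤ) ^ m) * ht
        have h2 := (center P).orderOf_dvd_natCard h1
        rw [hZ, orderOf_pow, hc, Nat.gcd_eq_right (pow_dvd_pow 2 (by omega)),
          Nat.pow_div (by omega) (by norm_num), show m + 2 - m = 2 by omega] at h2
        norm_num at h2
      have hk1 : (ζ ^ k * ζ) ^ 2 = 1 := by
        rw [← pow_succ, ← pow_mul, ← orderOf_dvd_iff_pow_eq_one, hζo, ← Int.natCast_dvd_natCast]
        push_cast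
        rcases Grp.CycIdx.two_pow_dvd_or (m := m + 1) hk2 with h1 | h1
        · rcases m with _ | m
          · obtain ⟨t, ht⟩ := h1
            exact ⟨t + 1, by linear_combination 2 * ht⟩
          · exact absurd ((show (4 : ℤ) ∣ 2 ^ (m + 1 + 1) from ⟨2 ^ m, by ring⟩).trans h1) hk4
        · rw [pow_succ]
          exact mul_dvd_mul_right h1 2
      have hgo : orderOf (c : G) = 2 ^ (m + 2) := by rw [orderOf_coe, hc]
      have hgN : (c : G) ^ 2 ^ (m + 3) = 1 := by
        rw [← orderOf_dvd_iff_pow_eq_one, hgo]; exact pow_dvd_pow 2 (by omega)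
      have hfus : ∀ j : ℕ, IsConj (c : G) ((c : G) ^ j) ↔ ζ ^ j = ζ ∨ ζ ^ j * ζ = ζ ^ k * ζ := by
        intro j
        have a1 : ∀ i, ζ ^ j = ζ ^ i ↔ (c : G) ^ j = (c : G) ^ i := fun i => by
          rw [pow_eq_pow_iff_modEq, hgo, ← hζo]
          exact (hζ.isOfFinOrder (by positivity)).pow_eq_pow_iff_modEq
        have a2 := a1 1
        rw [pow_one, pow_one] at a2
        rw [mul_left_inj' hζ0, a1, a2]
        have hk' : (x : G) * c * (x : G)⁻¹ = (c : G) ^ k := (congrArg Subtype.val hk).symm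
        constructor
        · intro hj
          obtain ⟨u, hu, e⟩ := fusion P hgo (by
            intro y hy
            refine mem_normalizer_fintype ?_
            rintro _ ⟨i, rfl⟩
            obtain ⟨l, hl⟩ := hcn.conj_mem _ (zpow_mem (mem_zpowers c) i) ⟨y, hy⟩
            exact ⟨l, congrArg Subtype.val hl⟩) hj
          rw [← e]
          by_cases hu' : (⟨u, hu⟩ : P) ∈ zpowers c
          · left
            obtain ⟨l, hl⟩ := hu'
            have : u = (c : G) ^ l := (congrArg Subtype.val hl).symm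
            rw [this]; group
          · right
            have : x⁻¹ * (⟨u, hu⟩ : P) ∈ zpowers c := by
              rw [mul_mem_iff_of_index_two hi, inv_mem_iff]; tauto
            obtain ⟨l, hl⟩ := this
            have h3 : (c : G) ^ l = (x : G)⁻¹ * u := congrArg Subtype.val hl
            have : u = x * (c : G) ^ l := by rw [h3]; group
            rw [this, ← hk']; group
        · rintro (hj | hj)
          · rw [hj]
          · rw [hj, ← hk']
            exact isConj_iff.2 ⟨x, rfl⟩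
      refine ⟨c, c.2, ?_, ζ ^ k * ζ, sq_eq_one_iff.1 hk1, ?_⟩
      · by_contra hodd
        obtain ⟨Q, hQ⟩ := even_index_iff P hodd
        have hcQ : (c : G) ∈ (Q : Subgroup G) := by
          have hp : IsPGroup 2 (zpowers (c : G)) := IsPGroup.of_card (by rw [Nat.card_zpowers, hgo])
          have h1 : IsPGroup 2 (zpowers (c : G) ⊔ Q : Subgroup G) := by
            refine IsPGroup.to_sup_of_normal_left' hp Q.isPGroup' (fun y hy => ?_)
            refine mem_normalizer_fintype ?_
            rintro _ ⟨i, rfl⟩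
            have := mem_centralizer_singleton_iff.1 (hQ hy)
            rw [← conj_zpow, this, mul_inv_cancel_right]
            exact zpow_mem (mem_zpowers _) i
          rw [← Q.is_maximal' h1 le_sup_right]
          exact mem_sup_left (mem_zpowers _)
        have hz : (⟨c, hcQ⟩ : Q) ∈ center Q := mem_center_iff.2 fun y =>
          Subtype.ext (mem_centralizer_singleton_iff.1 (hQ y.2))
        have h2 := (center Q).orderOf_dvd_natCard hz
        have h3 : Nat.card (center Q) = 2 := by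
          exact (Nat.card_congr (Subgroup.centerCongr (Sylow.equiv Q P)).toEquiv).trans hZ
        rw [h3, ← orderOf_coe, hgo] at h2
        have := Nat.le_of_dvd (by norm_num) h2
        have : 2 ^ 2 ≤ 2 ^ (m + 2) := Nat.pow_le_pow_right (by norm_num) (by omega)
        omega
      · have hc1 := sq_eq_one_iff.1 hk1
        have hσ : ∀ σ : ℂ ≃+* ℂ, (∀ z ∈ {z : ℂ | ∃ χ : Cfsg.IrrCharacter G,
            (χ : G → ℂ) c = z}, σ z = z) ↔ ∀ z ∈ ({ζ + ζ ^ k * ζ * ζ⁻¹} : Set ℂ), σ z = z := by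
          intro σ
          obtain ⟨j, -, hj⟩ := exists_pow_of_ringHom σ.toRingHom (n := 2 ^ (m + 3)) (by positivity)
          rw [fix_vals (c : G) σ hj hgN, hfus]
          simp only [Set.mem_singleton_iff, forall_eq]
          rw [fix_iff hζ0 hc1, show σ ζ = ζ ^ j from hj ζ hζN]
        exact le_antisymm (adjoin_le_of_fix (integ _) fun σ h => (hσ σ).2 h)
          (adjoin_le_of_fix (integ2 (by positivity) hζN hc1) fun σ h => (hσ σ).1 h)
    · rintro ⟨g, hg, hev, c, hc, hF⟩
      have hna : ¬ ∀ y : P, y * ⟨g, hg⟩ = ⟨g, hg⟩ * y := by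
        intro h
        have : (P : Subgroup G) ≤ centralizer ({g} : Set G) := fun y hy =>
          mem_centralizer_singleton_iff.2 (congrArg Subtype.val (h ⟨y, hy⟩))
        exact P.not_dvd_index (hev.trans (index_dvd_of_le this))
      have hnc : ¬ IsCyclic P := fun h => hna fun y => by
        letI := IsCyclic.commGroup (α := P)
        exact mul_comm _ _
      have hge := Grp.MaxClass.sq_le_index_commutator P.isPGroup' hnc
      suffices h : 2 ^ (m + 1) ≤ Nat.card (commutator P) by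
        have h1 := (commutator P).index_mul_card
        rw [hP] at h1
        have h2 : (commutator P).index * 2 ^ (m + 1) ≤ 4 * 2 ^ (m + 1) := by
          calc _ ≤ (commutator P).index * Nat.card (commutator P) := Nat.mul_le_mul_left _ h
            _ = _ := by rw [h1]; ring
        exact le_antisymm (Nat.le_of_mul_le_mul_right h2 (by positivity)) hge
      rcases m with _ | m
      · push Not at hna
        obtain ⟨y, hy⟩ := hna
        have : Nontrivial (commutator P) := (nontrivial_iff_ne_bot _).2 fun h => hy (by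
          have : ⁅y, (⟨g, hg⟩ : (P : Subgroup G))⁆ ∈ commutator (P : Subgroup G) := commutator_mem_commutator (mem_top _) (mem_top _)
          rw [h, mem_bot] at this
          exact commutatorElement_eq_one_iff_mul_comm.1 this)
        exact Finite.one_lt_card
      have hgN : g ^ 2 ^ (m + 1 + 3) = 1 := by
        have : (⟨g, hg⟩ : P) ^ Nat.card P = 1 := pow_card_eq_one'
        rw [hP] at this
        exact congrArg Subtype.val this
      have hfix : ∀ j : ℕ, IsConj g (g ^ j) → Odd j → ζ ^ j = ζ ∨ ζ ^ j * ζ = c := by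
        intro j hj hodd
        obtain ⟨σ, hσ⟩ := exists_ringEquiv_pow (n := 2 ^ (m + 1 + 3)) (m := j) (by positivity)
          (Nat.Coprime.pow_right _ (Nat.coprime_two_right.2 hodd))
        have h1 := (fix_vals g σ hσ hgN).2 hj
        have h2 : σ (ζ + c * ζ⁻¹) = ζ + c * ζ⁻¹ := ringEquiv_apply_eq_of_mem_adjoin σ h1
          (hF ▸ IntermediateField.subset_adjoin ℚ _ rfl)
        rwa [fix_iff hζ0 hc, hσ ζ hζN] at h2
      have hc2 : c ^ 2 = 1 := by rcases hc with rfl | rfl <;> simp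
      obtain ⟨a, ha, hao⟩ := (Nat.dvd_prime_pow Nat.prime_two).1 (orderOf_dvd_of_pow_eq_one hgN)
      have ha1 : ¬ a ≤ m + 2 := by
        intro h
        have h1 : g ^ (1 + 2 ^ (m + 2)) = g := by
          rw [pow_add, pow_one, orderOf_dvd_iff_pow_eq_one.1 (hao ▸ pow_dvd_pow 2 h), mul_one]
        rcases hfix (1 + 2 ^ (m + 2)) (by rw [h1]) (odd_one.add_even (by
          rw [pow_succ]; exact even_two.mul_left _)) with h2 | h2
        · rw [pow_add, pow_one, mul_eq_left₀ hζ0, ← orderOf_dvd_iff_pow_eq_one, hζo] at h2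
          have := (Nat.pow_dvd_pow_iff_le_right (by norm_num)).1 h2
          omega
        · rw [← h2, ← pow_succ, ← pow_mul, ← orderOf_dvd_iff_pow_eq_one, hζo,
            show (1 + 2 ^ (m + 2) + 1) * 2 = 2 ^ (m + 1 + 2) + 2 ^ 2 by ring,
            Nat.dvd_add_right dvd_rfl] at hc2
          have := (Nat.pow_dvd_pow_iff_le_right (by norm_num)).1 hc2
          omega
      have hgo : orderOf (⟨g, hg⟩ : P) = 2 ^ a := by rw [← orderOf_coe, ← hao]
      have ha2 : a ≠ m + 1 + 3 := by
        rintro rfl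
        exact hnc (isCyclic_of_orderOf_eq_card _ (hgo.trans hP.symm))
      obtain rfl : a = m + 3 := by omega
      have hi := Grp.MaxClass.index_zpowers_of_orderOf (n := m + 1 + 3) two_pos (by omega) hP hgo
      have hcn := normal_of_index_eq_two hi
      push Not at hna
      obtain ⟨x, hx⟩ := hna
      obtain ⟨k, hk⟩ := mem_powers_iff_mem_zpowers.2 (hcn.conj_mem _ (mem_zpowers _) x)
      change (⟨g, hg⟩ : P) ^ k = _ at hk
      have hk' : (x : G) * g * (x : G)⁻¹ = g ^ k := (congrArg Subtype.val hk).symm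
      have hodd : Odd k := by
        have h1 : orderOf (g ^ k) = orderOf g := by
          rw [← hk']; exact (MulAut.conj (x : G)).orderOf_eq g
        rw [orderOf_pow, hao] at h1
        have h2 := Nat.div_mul_cancel (Nat.gcd_dvd_left (2 ^ (m + 3)) k)
        rw [h1] at h2
        have h3 : (2 ^ (m + 3)).Coprime k :=
          Nat.eq_of_mul_eq_mul_left (by positivity) (h2.trans (mul_one _).symm)
        exact Nat.coprime_two_left.1 (h3.coprime_dvd_left (dvd_pow_self 2 (by omega)))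
      rcases hfix k (isConj_iff.2 ⟨x, hk'⟩) hodd with h2 | h2
      · exfalso
        apply hx
        rw [← mul_inv_eq_iff_eq_mul, ← hk]
        conv_rhs => rw [← pow_one (⟨g, hg⟩ : P)]
        rw [pow_eq_pow_iff_modEq, hgo, ← hζo]
        exact (hζ.isOfFinOrder (by positivity)).pow_eq_pow_iff_modEq.1 (by rw [h2, pow_one])
      · rw [← h2, ← pow_succ, ← pow_mul, ← orderOf_dvd_iff_pow_eq_one, hζo] at hc2
        have h4 : 8 ∣ (k + 1) * 2 := (show 8 ∣ 2 ^ (m + 1 + 2) from ⟨2 ^ m, by ring⟩).trans hc2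
        obtain ⟨t, ht⟩ : ∃ t, k = 2 * (2 * t + 1) + 1 := ⟨(k - 3) / 4, by omega⟩
        have h5 : (⟨g, hg⟩ : P) ^ (2 * (2 * t + 1)) ∈ commutator P := by
          have : ⁅x, (⟨g, hg⟩ : (P : Subgroup G))⁆ ∈ commutator (P : Subgroup G) := commutator_mem_commutator (mem_top _) (mem_top _)
          rwa [commutatorElement_def, ← hk, ht, pow_succ, mul_inv_cancel_right] at this
        have h6 := (commutator P).orderOf_dvd_natCard h5
        rw [orderOf_pow, hgo, pow_succ' 2 (m + 2), Nat.gcd_mul_left,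
          Nat.Coprime.gcd_eq_one (Nat.Coprime.pow_left _ (Nat.coprime_two_left.2 ⟨t, rfl⟩)),
          mul_one, Nat.mul_div_cancel_left _ two_pos] at h6
        exact Nat.le_of_dvd Nat.card_pos h6
  rw [key]
  refine exists_congr fun g => and_congr_right fun _ => and_congr_right fun _ => ?_
  constructor
  · rintro ⟨c, rfl | rfl, h⟩
    · left; rwa [one_mul] at h
    · right; rwa [neg_one_mul, ← sub_eq_add_neg] at h
  · rintro (h | h)
    · exact ⟨1, Or.inl rfl, by rwa [one_mul]⟩
    · exact ⟨-1, Or.inr rfl, by rwa [neg_one_mul, ← sub_eq_add_neg]⟩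

end Cfsg.Agent.S4923
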