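import Cfsg.Statements.S4924
import Cfsg.Agent.Eta.Three

set_option autoImplicit false
open Cfsg

namespace Cfsg.Agent.S4924

/-- Let G be a finite group, p a prime, M a maximal ideal of the algebraic integers containing p, P a Sylow p-subgroup of G, and k = 2 or k = 3. Then the principal p-block of G contains exactly k irreducible characters of degree not divisible by p (its height-zero characters) if and only if P has order k. -/
theorem result {G : Type*} [Group G] [Finite G] (p : ℕ) [Fact p.Prime] (M : Ideal Cfsg.AlgInt) (hM : Cfsg.IsPModular p M) (P : Sylow p G) (k : ℕ) (hk : k = 2 ∨ k = 3) :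
    Nat.card {χ : Cfsg.IrrCharacter G // χ ∈ Cfsg.principalBlock M G ∧ ¬ p ∣ Cfsg.charDegree (χ : G → ℂ)} = k ↔ Nat.card P = k := by
  rw [Eta.card_H0]
  have hc := P.card_eq_multiplicity
  have key : ¬ p ^ 2 ∣ Nat.card G → p ∣ Nat.card G → Nat.card P = p := fun h1 h2 => by
    have h3 := (hM.1.pow_dvd_iff_le_factorization (n := Nat.card G) (k := 2) Nat.card_pos.ne').not.1 h1
    have h4 := (hM.1.dvd_iff_one_le_factorization (n := Nat.card G) Nat.card_pos.ne').1 h2
    rw [hc, show (Nat.card G).factorization p = 1 by omega, pow_one]
  constructor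
  · intro h
    have h0 := Eta.dvd_card (G := G) hM (by omega)
    rcases hk with rfl | rfl
    · exact (key (Eta.two hM h).2 h0).trans (Eta.two hM h).1
    · exact (key (Eta.three hM h).2 h0).trans (Eta.three hM h).1
  · intro h
    have hkp : k.Prime := by rcases hk with rfl | rfl <;> norm_num
    have h1 : p = k := by
      rw [hc] at h
      exact ((Nat.Prime.pow_eq_iff hkp).1 h).1
    have h2 : p ∣ Nat.card G := by
      rw [h1, ← h]; exact Subgroup.card_subgroup_dvd_card _
    have h3 := Eta.bound hM P
    have h4 := Eta.card_ne_one hM h2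
    have h5 := Finset.card_pos.2 ⟨_, Eta.one_mem_H0 (G := G) hM⟩
    rw [h] at h3
    rcases hk with rfl | rfl
    · omega
    · have h6 : (Eta.H0 p M G).card ≠ 2 := fun e => by
        have := (Eta.two hM e).1
        omega
      omega

end Cfsg.Agent.S4924
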