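import Cfsg.Statements.S4931
import Cfsg.Agent.Char.Ito
import Cfsg.Agent.Char.Irr
import Cfsg.Agent.Char.Quot
import Cfsg.Agent.Transfer.Tate
import Cfsg.Agent.Transfer.Focal
import Cfsg.Agent.FGS.SylowCount
import Cfsg.Agent.Grp.PFrattini

set_option autoImplicit false
open Cfsg

namespace Cfsg.Agent.S4931

open Cfsg.Agent.Char Cfsg.Agent.Transfer Subgroup

theorem sep {H : Type*} [Group H] [Finite H] (A : Subgroup H) [A.Normal] {x : H} (hx : x ∉ A) :
    ∃ θ : IrrCharacter H, (∀ a ∈ A, θ.1 a = θ.1 1) ∧ θ.1 x ≠ θ.1 1 := by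
  have h1 : ¬ IsConj ((x : H ⧸ A)) 1 := by
    rw [isConj_one_left, QuotientGroup.eq_one_iff]
    exact hx
  rw [isConj_iff_irr] at h1
  push Not at h1
  obtain ⟨ψ, hψ⟩ := h1
  refine ⟨inflateIrr (QuotientGroup.mk' A) (QuotientGroup.mk'_surjective A) ψ, fun a ha => ?_, ?_⟩
  · change ψ.1 (QuotientGroup.mk' A a) = ψ.1 (QuotientGroup.mk' A 1)
    rw [map_one, QuotientGroup.mk'_apply, (QuotientGroup.eq_one_iff a).2 ha]
  · change ψ.1 (QuotientGroup.mk' A x) ≠ ψ.1 (QuotientGroup.mk' A 1)
    rw [map_one]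
    exact hψ

theorem deg_dvd {H : Type*} [Group H] [Finite H] (P : Subgroup H) [P.Normal] (θ : IrrCharacter H)
    (h : ∀ a ∈ ⁅P, P⁆, θ.1 a = θ.1 1) : charDegree θ.1 ∣ P.index := by
  obtain ⟨ψ, hψ⟩ := exists_irr_deflation ⁅P, P⁆ θ.2 h
  have hs := QuotientGroup.mk'_surjective ⁅P, P⁆
  haveI : (P.map (QuotientGroup.mk' ⁅P, P⁆)).Normal := Subgroup.Normal.map inferInstance _ hs
  have h1 : ψ.1 1 = charDegree θ.1 := by
    rw [coe_charDegree_irr, ← hψ 1]; rfl
  refine (ψ.2.deg_dvd_index_of_comm h1 (P.map (QuotientGroup.mk' ⁅P, P⁆)) ?_).trans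
    (index_map_dvd _ hs)
  rintro _ ⟨a, ha, rfl⟩ _ ⟨b, hb, rfl⟩
  rw [← commutatorElement_eq_one_iff_mul_comm, ← map_commutatorElement, QuotientGroup.mk'_apply,
    QuotientGroup.eq_one_iff]
  exact commutator_mem_commutator ha hb

theorem npc {X : Type*} [Group X] [Finite X] {p : ℕ} [Fact p.Prime] (P : Sylow p X)
    (hN : normalizer ((P : Subgroup X) : Set X) ≤ P) (K : Subgroup X) [K.Normal]
    (h1 : K ⊓ P ≤ ⁅(P : Subgroup X), (P : Subgroup X)⁆)
    (h2 : ⁅(P : Subgroup X), (P : Subgroup X)⁆ ≤ K) : HasNormalPComplement p X := by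
  have hs := QuotientGroup.mk'_surjective K
  have hq : HasNormalPComplement p (X ⧸ K) := by
    refine hasNormalPComplement_of_normalizer_le_centralizer (P.mapSurjective hs) ?_
    intro y hy
    obtain ⟨y, rfl⟩ := hs y
    have hy' : y ∈ (normalizer ((((P : Subgroup X).map (QuotientGroup.mk' K)) : Subgroup (X ⧸ K)) :
        Set (X ⧸ K))).comap (QuotientGroup.mk' K) := hy
    rw [FGS.comap_normalizer_map_sylow _ hs P, QuotientGroup.ker_mk'] at hy'
    have hy2 : y ∈ K ⊔ (P : Subgroup X) := sup_le_sup_left hN K hy'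
    rw [← SetLike.mem_coe, normal_mul] at hy2
    obtain ⟨k, hk, u, hu, rfl⟩ := hy2
    rw [mem_centralizer_iff]
    rintro _ ⟨v, hv, rfl⟩
    have hk1 : QuotientGroup.mk' K k = 1 := (QuotientGroup.eq_one_iff k).2 hk
    simp only [map_mul, hk1, one_mul]
    rw [← commutatorElement_eq_one_iff_mul_comm, ← map_commutatorElement, QuotientGroup.mk'_apply,
      QuotientGroup.eq_one_iff]
    exact h2 (commutator_mem_commutator hv hu)
  rw [hasNormalPComplement_iff_inf_eq_bot (P.mapSurjective hs)] at hq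
  refine hasNormalPComplement_of_inf_pResidual_le_frattini P ?_
  intro x hx
  have hx1 : QuotientGroup.mk' K x ∈ (⊥ : Subgroup (X ⧸ K)) :=
    hq ▸ ⟨map_pResidual_le _ ⟨x, hx.1, rfl⟩, ⟨x, hx.2, rfl⟩⟩
  have hxK : x ∈ K := (QuotientGroup.eq_one_iff x).1 (mem_bot.1 hx1)
  have hc := h1 ⟨hxK, hx.2⟩
  have : ⁅(P : Subgroup X), (P : Subgroup X)⁆ = (_root_.commutator (P : Subgroup X)).map
      (P : Subgroup X).subtype := by
    rw [_root_.commutator_def, map_commutator, ← MonoidHom.range_eq_map, range_subtype]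
  rw [this] at hc
  exact map_mono (Grp.PFrattini.commutator_le_frattini P.isPGroup') hc

/-- Let G be a finite group, p a prime and P a Sylow p-subgroup of G with normalizer N. Then every irreducible complex character of N of degree not divisible by p is the restriction of an irreducible character of G if and only if there is a normal subgroup K of G with KN = G and K ∩ N = 1. -/
theorem result {G : Type*} [Group G] [Finite G] (p : ℕ) [Fact p.Prime] (P : Sylow p G) :
    (∀ θ : Cfsg.IrrCharacter ↥(Subgroup.normalizer ((P : Subgroup G) : Set G)), ¬ p ∣ Cfsg.charDegree (θ : ↥(Subgroup.normalizer ((P : Subgroup G) : Set G)) → ℂ) →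
        ∃ χ : Cfsg.IrrCharacter G, ∀ x : ↥(Subgroup.normalizer ((P : Subgroup G) : Set G)), (χ : G → ℂ) x = (θ : ↥(Subgroup.normalizer ((P : Subgroup G) : Set G)) → ℂ) x) ↔
      ∃ K : Subgroup G, K.Normal ∧ K ⊔ Subgroup.normalizer ((P : Subgroup G) : Set G) = ⊤ ∧ K ⊓ Subgroup.normalizer ((P : Subgroup G) : Set G) = ⊥ := by
  set N := Subgroup.normalizer ((P : Subgroup G) : Set G) with hNdef
  have hPN : (P : Subgroup G) ≤ N := le_normalizer
  constructor
  · intro h
    haveI hPn : ((P : Subgroup G).subgroupOf N).Normal := normal_in_normalizer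
    have key : ∀ A : Subgroup G, (A.subgroupOf N).Normal → A ≤ N →
        ⁅(P : Subgroup G), (P : Subgroup G)⁆ ≤ A → normalClosure (A : Set G) ⊓ N ≤ A := by
      intro A hAn hAN hPA x hx
      by_contra hxA
      obtain ⟨θ, h1, h2⟩ := sep (A.subgroupOf N) (x := ⟨x, hx.2⟩) hxA
      have hd : ¬ p ∣ charDegree θ.1 := by
        intro hd
        have h3 := deg_dvd ((P : Subgroup G).subgroupOf N) θ (fun a ha => h1 a (by
          have : a.1 ∈ (⁅(P : Subgroup G).subgroupOf N, (P : Subgroup G).subgroupOf N⁆).map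
              N.subtype := ⟨a, ha, rfl⟩
          rw [map_commutator, subgroupOf_map_subtype, inf_eq_left.2 hPN] at this
          exact hPA this))
        exact P.not_dvd_index ((hd.trans h3).trans (relIndex_dvd_index_of_le hPN))
      obtain ⟨χ, hχ⟩ := h θ hd
      have hk : normalClosure (A : Set G) ≤ charKer χ.1 := by
        refine normalClosure_le_normal fun a ha => ?_
        rw [SetLike.mem_coe, mem_charKer_irr]
        rw [hχ ⟨a, hAN ha⟩, h1 _ ha]
        exact (hχ 1).symm
      apply h2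
      rw [← hχ, ← hχ]
      exact (mem_charKer_irr χ).1 (hk hx.1)
    set M := normalClosure ((P : Subgroup G) : Set G) with hM
    set K := normalClosure ((⁅(P : Subgroup G), (P : Subgroup G)⁆ : Subgroup G) : Set G) with hK
    have hPP : ⁅(P : Subgroup G), (P : Subgroup G)⁆ ≤ P := commutator_le.2 fun a ha b hb =>
      mul_mem (mul_mem (mul_mem ha hb) (inv_mem ha)) (inv_mem hb)
    have hMN : M ⊓ N ≤ P := key P hPn hPN hPP
    have hKN : K ⊓ N ≤ ⁅(P : Subgroup G), (P : Subgroup G)⁆ := by
      refine key _ ?_ (hPP.trans hPN) le_rfl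
      have : (⁅(P : Subgroup G), (P : Subgroup G)⁆).subgroupOf N =
          ⁅(P : Subgroup G).subgroupOf N, (P : Subgroup G).subgroupOf N⁆ := by
        apply map_injective N.subtype_injective
        rw [map_commutator, subgroupOf_map_subtype, subgroupOf_map_subtype, inf_eq_left.2 hPN,
          inf_eq_left.2 (hPP.trans hPN)]
      rw [this]
      infer_instance
    have hPM : (P : Subgroup G) ≤ M := le_normalClosure
    have hcomm : (⁅(P : Subgroup G).subgroupOf M, (P : Subgroup G).subgroupOf M⁆).map M.subtype =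
        ⁅(P : Subgroup G), (P : Subgroup G)⁆ := by
      rw [map_commutator, subgroupOf_map_subtype, inf_eq_left.2 hPM]
    have hnpc : HasNormalPComplement p M := by
      refine npc (P.subtype hPM) ?_ (K.subgroupOf M) ?_ ?_
      · intro y hy
        refine hMN ⟨y.2, ?_⟩
        rw [Sylow.coe_subtype, ← subgroupOf_normalizer_eq hPM] at hy
        exact hy
      · intro y hy
        have := hKN ⟨hy.1, hPN hy.2⟩
        rw [← hcomm] at this
        obtain ⟨z, hz, e⟩ := this
        rw [← Subtype.ext e]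
        exact hz
      · intro y hy
        have : y.1 ∈ ⁅(P : Subgroup G), (P : Subgroup G)⁆ := hcomm ▸ ⟨y, hy, rfl⟩
        exact le_normalClosure this
    refine ⟨(pResidual p M).map M.subtype, ConjAct.normal_of_characteristic_of_normal, ?_, ?_⟩
    · rw [eq_top_iff, ← P.normalizer_sup_eq_top' hPM]
      refine sup_le le_sup_right ?_
      intro y hy
      obtain ⟨n, hn, u, hu, e⟩ := exists_pResidual_mul_sylow (P.subtype hPM) ⟨y, hy⟩
      have : y = n.1 * u.1 := (congrArg Subtype.val e).symm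
      rw [this]
      exact mul_mem (mem_sup_left ⟨n, hn, rfl⟩) (mem_sup_right (hPN hu))
    · rw [eq_bot_iff]
      rintro _ ⟨⟨y, hy, rfl⟩, hyN⟩
      have h1 : y.1 ∈ (P : Subgroup G) := hMN ⟨y.2, hyN⟩
      have h2 : y ∈ (⊥ : Subgroup M) :=
        (hasNormalPComplement_iff_inf_eq_bot (P.subtype hPM)).1 hnpc ▸ ⟨hy, h1⟩
      rw [mem_bot] at h2
      rw [h2]
      exact one_mem _
  · rintro ⟨K, hKn, h1, h2⟩ θ -
    have hc : K.IsComplement' N := isComplement'_of_disjoint_and_mul_eq_univ (disjoint_iff.2 h2)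
      (by rw [← normal_mul, h1]; rfl)
    let e : G ⧸ K ≃* N := (MulEquiv.ofBijective ((QuotientGroup.mk' K).comp N.subtype) (by
      constructor
      · rw [injective_iff_map_eq_one]
        intro a ha
        have : a.1 ∈ (⊥ : Subgroup G) := h2 ▸ ⟨(QuotientGroup.eq_one_iff _).1 ha, a.2⟩
        exact Subtype.ext (mem_bot.1 this)
      · intro y
        obtain ⟨y, rfl⟩ := QuotientGroup.mk'_surjective K y
        have : y ∈ ((K ⊔ N : Subgroup G) : Set G) := h1 ▸ mem_top y
        rw [normal_mul] at this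
        obtain ⟨k, hk, n, hn, rfl⟩ := this
        refine ⟨⟨n, hn⟩, ?_⟩
        have hk1 : QuotientGroup.mk' K k = 1 := (QuotientGroup.eq_one_iff k).2 hk
        simp only [map_mul, hk1, one_mul]
        rfl)).symm
    refine ⟨inflateIrr (e.toMonoidHom.comp (QuotientGroup.mk' K))
      (e.surjective.comp (QuotientGroup.mk'_surjective K)) θ, fun x => ?_⟩
    change θ.1 (e (QuotientGroup.mk' K x)) = θ.1 x
    exact congrArg θ.1 (e.apply_symm_apply x)

end Cfsg.Agent.S4931
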