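import Cfsg.Statements.S4949
import Cfsg.Agent.Sym.HtOne
import Cfsg.Agent.Sym.Wr
import Cfsg.Agent.S4710

set_option autoImplicit false
open Cfsg

namespace Cfsg.Agent.S4949

open Cfsg.Agent.SymCh Cfsg.Agent.Block Cfsg.Agent.Char Equiv

theorem comm_of_le {D : Type*} [Group D] {p d : ℕ} [hp : Fact p.Prime] (h : Nat.card D = p ^ d)
    (hd : d ≤ 2) : IsMulCommutative D := by
  obtain rfl | hd : d = 2 ∨ d ≤ 1 := by omega
  · exact IsPGroup.isMulCommutative_of_card_eq_prime_sq h
  · have : IsCyclic D := isCyclic_of_card_dvd_prime (p := p) (by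
      rw [h]; simpa using pow_dvd_pow p hd)
    infer_instance

theorem sgn2 : ∀ k : Multiplicative (ZMod 2), Perm.sign (Equiv.mulLeft k) =
    if k = 1 then 1 else -1 := by decide

theorem odd3 : ∀ i j : Fin 3, i ≠ j → ∃ v : Fin 3 → Multiplicative (ZMod 2), v i ≠ v j ∧
    ∏ l, (if v l = 1 then 1 else -1 : ℤˣ) = 1 := by decide

theorem hasDeg_two {α : Type*} [Fintype α] [DecidableEq α] {P : Subgroup (Perm α)}
    {D : Subgroup (alternatingGroup α)}
    (h : P ⊓ alternatingGroup α = D.map (alternatingGroup α).subtype) (hD : IsPGroup 2 D) {w : ℕ}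
    (hw : 3 ≤ w) (R : Sylow 2 (Perm (Fin w))) (e : Fin w × Multiplicative (ZMod 2) ↪ α)
    (he : ((Perm.viaEmbeddingHom e).comp (wrHom _ R.1)).range = P) : HasDeg 2 D := by
  obtain ⟨g, -, hg⟩ := exists_hom_to h ((Perm.viaEmbeddingHom e).comp (wrHom _ R.1))
    ((Perm.viaEmbeddingHom_injective e).comp (wrHom_injective _ _)) he
  have h1 : ∀ r : R.1, ∃ d, g d = .inr r := fun r => hg _ (by
    rw [MonoidHom.comp_apply, Perm.viaEmbeddingHom_apply, sign_viaEmbedding, sign_wrHom]
    simp)
  rcases hw.eq_or_lt with rfl | hw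
  · obtain ⟨r, i, hr⟩ := exists_apply_ne (by omega) R
    obtain ⟨v, h2, h3⟩ := odd3 _ _ hr
    obtain ⟨a, ha⟩ := hg (.inl v) (by
      rw [MonoidHom.comp_apply, Perm.viaEmbeddingHom_apply, sign_viaEmbedding, sign_wrHom]
      simpa [sgn2] using h3)
    obtain ⟨b, hb⟩ := h1 r
    refine hasDeg_of_small hD (by simp) ((wrHom _ _).comp g) (a := a) (b := b) ?_
    rw [MonoidHom.comp_apply, MonoidHom.comp_apply, ha, hb]
    exact wrHom_not_commute h2
  · refine (hasDeg_sylow w hw R).of_surjective (SemidirectProduct.rightHom.comp g) fun r => ?_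
    obtain ⟨d, hd⟩ := h1 r
    exact ⟨d, by rw [MonoidHom.comp_apply, hd, SemidirectProduct.rightHom_inr]⟩


/-- Let n be a natural number, p a prime, M a maximal ideal of the algebraic integers containing p, B a p-block of the alternating group of degree n and D a defect group of B. Then either B contains an irreducible character of height 1 and D has an irreducible complex character of degree p, or every irreducible character of B has height zero and D is commutative (so the least positive height in B and the least positive exponent of a character degree of D are both 1 or both absent). -/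
theorem result (n : ℕ) (p : ℕ) [Fact p.Prime] (M : Ideal Cfsg.AlgInt) (hM : Cfsg.IsPModular p M) (B : Set (Cfsg.IrrCharacter ↥(alternatingGroup (Fin n)))) (hB : Cfsg.IsPBlock M B) (D : Subgroup ↥(alternatingGroup (Fin n))) (hD : Cfsg.IsDefectGroup p M B D) :
    ((∃ χ : Cfsg.IrrCharacter ↥(alternatingGroup (Fin n)), χ ∈ B ∧ Cfsg.blockHeight p B (χ : ↥(alternatingGroup (Fin n)) → ℂ) = 1) ∧ (∃ φ : Cfsg.IrrCharacter ↥D, Cfsg.charDegree (φ : ↥D → ℂ) = p)) ∨
    ((∀ χ : Cfsg.IrrCharacter ↥(alternatingGroup (Fin n)), χ ∈ B → Cfsg.blockHeight p B (χ : ↥(alternatingGroup (Fin n)) → ℂ) = 0) ∧ IsMulCommutative D) := by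
  classical
  have hp : p.Prime := Fact.out
  have h3 := card_defectGroup hM hB hD
  by_cases hd : blockDefect p B ≤ 2
  · refine Or.inr ⟨fun χ hχ => ?_, comm_of_le h3 hd⟩
    have := (S4710.result p M hM B hB _ rfl).2 χ hχ
    omega
  have : Nontrivial (Fin n) := by
    by_contra hc
    rw [not_nontrivial_iff_subsingleton] at hc
    rw [Subsingleton.elim D ⊥, Subgroup.card_bot, eq_comm, Nat.pow_eq_one] at h3
    have := hp.ne_one
    omega
  have hA := alternatingGroup.index_eq_two (α := Fin n)
  obtain ⟨B', P, χ, β, hB', hc, hP, hPD, hχ, h⟩ := exists_cover_data (N := n + 2) (by simp) hM hB hD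
  have hN : Fintype.card (Fin n) ≤ n + 2 := by simp
  have h1 := card_eq_card_inf hPD
  have h2 := card_defectGroup hM hB' hP
  rw [h.blockDefect_eq hN hM hB' hχ] at h2
  obtain ⟨θ₀, hθ₀, h4⟩ := exists_blockHeight_eq_zero (p := p) (block_nonempty hM hB)
  have h5 := blockDefect_eq_of_height_zero hθ₀ h4
  have h6 : ∀ θ : IrrCharacter (alternatingGroup (Fin n)), blockHeight p B θ.1 =
      (charDegree θ.1).factorization p - (charDegree θ₀.1).factorization p := fun θ => by
    rw [blockHeight, sInf_degree_eq hθ₀ ((blockHeight_eq_zero_iff ⟨θ₀, hθ₀⟩ _).1 h4)]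
  have h7 : (Nat.card (alternatingGroup (Fin n))).factorization p + Nat.factorization 2 p =
      (Fintype.card (Fin n)).factorial.factorization p := by
    rw [← Finsupp.add_apply, ← Nat.factorization_mul Nat.card_pos.ne' two_ne_zero, ← hA,
      Subgroup.card_mul_index, Nat.card_perm, Nat.card_eq_fintype_card]
  by_cases hp2 : p = 2
  · subst hp2
    left
    have hw : 0 < wt 2 β := by
      by_contra hw
      rw [show wt 2 β = 0 by omega] at h2
      have := Subgroup.card_le_of_le (inf_le_left : P ⊓ alternatingGroup (Fin n) ≤ P)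
      have h8 := Nat.one_lt_pow (show blockDefect 2 B ≠ 0 by omega) hp.one_lt
      simp only [mul_zero, Nat.factorial_zero, Nat.factorization_one, Finsupp.coe_zero,
        Pi.zero_apply, pow_zero] at h2
      omega
    have h8 := two_mul_card_inf hA (h.not_le_alt hM hB' hP hχ hw)
    rw [← h1, h2, h3, ← pow_succ', Nat.pow_right_inj hp.one_lt] at h8
    have h9 : 3 ≤ wt 2 β := by
      rw [Nat.factorization_factorial_mul hp] at h8
      by_contra h9
      obtain h9 | h9 : wt 2 β = 1 ∨ wt 2 β = 2 := by omega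
      · rw [h9] at h8
        simp at h8
        omega
      · rw [h9, show Nat.factorial 2 = 2 from rfl, hp.factorization_self] at h8
        omega
    constructor
    · obtain ⟨ψ, hψ, h10, h11⟩ := h.exists_height_one (by simp) hM hB' hχ (by omega) fun _ => h9
      obtain ⟨x, hx, h12⟩ := h11 rfl
      obtain ⟨θ, hθ, h13⟩ := hc.subset_above hM hB' hB hψ
      have h14 := (isIrr_restrict_of_ne_zero hA ψ.2 hx h12).eq_of_inner_ne_zero θ.2 h13
      have h15 : charDegree θ.1 = charDegree ψ.1 := by rw [← h14]; rfl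
      refine ⟨θ, hθ, ?_⟩
      rw [hp.factorization_self] at h7
      rw [h6, h15]
      omega
    · obtain ⟨R⟩ : Nonempty (Sylow 2 (Perm (Fin (wt 2 β)))) := inferInstance
      obtain ⟨e, he⟩ := h.exists_range_eq hN hM hB' hP hχ (by simp [mul_comm]) (card_wr _ R)
        (wrHom _ R.1) (wrHom_injective _ _)
      exact hasDeg_two hPD (isPGroup_of_isDefectGroup hD) h9 R e he
  · have hle := le_alt_of_odd hp2 (isPGroup_of_isDefectGroup hP)
    rw [inf_eq_left.2 hle, h2, h3, Nat.pow_right_inj hp.one_lt] at h1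
    have h8 : Nat.factorization 2 p = 0 := Nat.factorization_eq_zero_of_not_dvd
      fun e => hp2 ((Nat.prime_dvd_prime_iff_eq hp Nat.prime_two).1 e)
    have h9 : ∀ (ψ : IrrCharacter (Perm (Fin n))) (θ : IrrCharacter (alternatingGroup (Fin n))),
        classInner (fun a : alternatingGroup (Fin n) => ψ.1 a) θ.1 ≠ 0 →
        (charDegree θ.1).factorization p = (charDegree ψ.1).factorization p := by
      intro ψ θ h10
      rcases restrict_cases hA ψ.2 θ.2 h10 with h11 | ⟨-, h11, -⟩
      · rw [← h11]; rfl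
      · rw [← cast_charDegree ψ.2.isCharacter, ← cast_charDegree θ.2.isCharacter] at h11
        have h12 : charDegree ψ.1 = 2 * charDegree θ.1 := by exact_mod_cast h11
        rw [h12, Nat.factorization_mul two_ne_zero (charDegree_ne_zero θ.2), Finsupp.add_apply, h8,
          zero_add]
    rcases lt_or_ge (wt p β) p with hw | hw
    · refine Or.inr ⟨fun θ hθ => ?_, ?_⟩
      · obtain ⟨ψ, hψ, h10⟩ := hc.exists_over hM hB' hB hθ
        obtain ⟨γ, hγ⟩ := exists_lab_of_irr hN ψ
        have h11 := hγ.factorization_add_le hp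
        rw [hγ.wt_eq hN hM hB' hψ hχ h] at h11
        rw [factorization_mul_factorial_of_lt hw] at h1
        rw [h6, h9 ψ θ h10]
        omega
      · obtain ⟨e, he⟩ := h.exists_range_eq hN hM hB' hP hχ (by simp [mul_comm])
          (by simp [factorization_mul_factorial_of_lt hw])
          (prodReg (Fin (wt p β)) (Multiplicative (ZMod p))) (prodReg_injective _ _)
        obtain ⟨g, hg, -⟩ := exists_hom_to hPD ((Perm.viaEmbeddingHom e).comp (prodReg _ _))
          ((Perm.viaEmbeddingHom_injective e).comp (prodReg_injective _ _)) he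
        exact ⟨⟨fun a b => hg (by rw [map_mul, map_mul, mul_comm])⟩⟩
    · refine Or.inl ⟨?_, ?_⟩
      · obtain ⟨ψ, hψ, h10, -⟩ := h.exists_height_one (by simp) hM hB' hχ hw fun e => (hp2 e).elim
        obtain ⟨θ, hθ, h13⟩ := hc.subset_above hM hB' hB hψ
        refine ⟨θ, hθ, ?_⟩
        rw [h6, h9 ψ θ h13]
        omega
      · obtain ⟨R⟩ : Nonempty (Sylow p (Perm (Fin (p * wt p β)))) := inferInstance
        obtain ⟨e, he⟩ := h.exists_range_eq hN hM hB' hP hχ (by simp)
          (by rw [R.card_eq_multiplicity, Nat.card_perm, Nat.card_fin]) R.1.subtype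
          (Subgroup.subtype_injective _)
        obtain ⟨g, hg, hg'⟩ := exists_hom_to hPD ((Perm.viaEmbeddingHom e).comp R.1.subtype)
          ((Perm.viaEmbeddingHom_injective e).comp (Subgroup.subtype_injective _)) he
        exact (hasDeg_sylow _ (by rw [sq]; exact Nat.mul_le_mul_left _ hw) R).of_surjective g
          fun r => hg' r (hle (he ▸ ⟨r, rfl⟩))

end Cfsg.Agent.S4949
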