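import Cfsg.Statements.S4993
import Cfsg.Agent.Char.PrimDeg
import Cfsg.Agent.S0205

set_option autoImplicit false
open Cfsg

namespace Cfsg.Agent.S4993

/-- Let G be a group of odd order whose order has exactly two prime divisors and whose quotient by its Fitting subgroup is nilpotent (G is metanilpotent), and let χ be a primitive irreducible complex character of G (not induced from a character of any proper subgroup). Then χ(1) divides the size of some conjugacy class of G. -/
theorem result {G : Type*} [Group G] [Fintype G] (hodd : Odd (Nat.card G)) (h2 : (Nat.card G).primeFactors.card = 2) [hF : (Cfsg.fittingSubgroup G).Normal] (hmeta : Group.IsNilpotent (G ⧸ Cfsg.fittingSubgroup G)) (χ : Cfsg.IrrCharacter G) (hprim : ¬ ∃ (H : Subgroup G), H ≠ ⊤ ∧ ∃ θ : ↥H → ℂ, Cfsg.IsCharacter ↥H θ ∧ Cfsg.indFun H θ = (χ : G → ℂ)) : ∃ g : G, Cfsg.charDegree (χ : G → ℂ) ∣ (Subgroup.centralizer ({g} : Set G)).index := by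
  have := S0205.result hodd
  obtain ⟨p, q, -, hpq⟩ := Finset.card_eq_two.1 h2
  have hp := Fact.mk (Nat.prime_of_mem_primeFactors (n := Nat.card G) (show p ∈ _ by rw [hpq]; simp))
  have hq := Fact.mk (Nat.prime_of_mem_primeFactors (n := Nat.card G) (show q ∈ _ by rw [hpq]; simp))
  have hr : ∀ r, r.Prime → r ∣ Nat.card G → r = p ∨ r = q := fun r h1 h3 => by
    simpa using hpq.le (Nat.mem_primeFactors.2 ⟨h1, h3, Nat.card_pos.ne'⟩)
  let π := QuotientGroup.mk' (fittingSubgroup G)
  obtain ⟨g, hg⟩ := Char.AvgFix.exists_phi_top hprim p ((pCore p _).comap π) fun x hx =>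
    (Grp.pCore_isPGroup p _ ⟨_, hx⟩).imp fun k hk =>
      (QuotientGroup.eq_one_iff _).1 (congrArg Subtype.val hk)
  obtain ⟨k, hk⟩ := Char.AvgFix.exists_phi_top hprim q ((pPrimeCore p _).comap π) fun x hx => by
    refine ⟨(orderOf (π x)).primeFactorsList.length,
      (QuotientGroup.eq_one_iff _).1 (?_ : π x ^ _ = 1)⟩
    rw [← Nat.eq_prime_pow_of_unique_prime_dvd (orderOf_pos _).ne' fun {r} h1 h3 =>
      (hr r h1 (h3.trans ((orderOf_map_dvd π x).trans (orderOf_dvd_natCard x)))).resolve_left ?_,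
      pow_orderOf_eq_one]
    rintro rfl
    exact Grp.not_dvd_card_pPrimeCore _ _ (h3.trans (Subgroup.orderOf_dvd_natCard _ hx))
  obtain ⟨a, ha, b, hb, e⟩ := Subgroup.mem_sup_of_normal_left.1
    (show g⁻¹ * k ∈ (pCore p _).comap π ⊔ (pPrimeCore p _).comap π by
      rw [Subgroup.comap_sup_eq π _ _ (QuotientGroup.mk'_surjective _),
        Grp.pCore_sup_pPrimeCore_of_isNilpotent]; trivial)
  refine ⟨g * a, (Nat.factorization_prime_le_iff_dvd (Char.charDegree_irr_pos χ).ne'
    Subgroup.index_ne_zero_of_finite).1 fun r h1 => ?_⟩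
  by_cases h3 : r ∣ Nat.card G
  · rcases hr r h1 h3 with rfl | rfl
    · exact hg a ha
    · rw [show g * a = k * b⁻¹ by rw [eq_mul_inv_iff_mul_eq, mul_assoc, e]; simp]
      exact hk _ (inv_mem hb)
  · rw [Nat.factorization_eq_zero_of_not_dvd fun h => h3 (h.trans (Char.charDegree_irr_dvd_card χ))]
    exact Nat.zero_le _

end Cfsg.Agent.S4993
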