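import Cfsg.Statements.S4996
import Cfsg.Agent.Char.Zeros

set_option autoImplicit false
open Cfsg

namespace Cfsg.Agent.S4996

open Cfsg.Agent.Char

/-- Let N be a normal subgroup of the finite group G and χ an irreducible complex character of G. Then the restriction of χ to N is not irreducible if and only if χ vanishes on some whole coset Nx of N in G. -/
theorem result {G : Type*} [Group G] [Finite G] (N : Subgroup G) [N.Normal] (χ : Cfsg.IrrCharacter G) : ¬ Cfsg.IsIrrCharacter ↥N (fun n : ↥N => (χ : G → ℂ) n) ↔ ∃ x : G, ∀ n : ↥N, (χ : G → ℂ) ((n : G) * x) = 0 := by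
  classical
  have := Fintype.ofFinite G
  have hN0 := card_ne_zero N
  have hNpos : (0 : ℝ) < Nat.card N := by exact_mod_cast Nat.card_pos
  have hc := χ.2.isCharacter
  let F : G → ℝ := fun x => (Nat.card N : ℝ)⁻¹ * ∑ n : N, ‖(χ : G → ℂ) (x * n)‖ ^ 2
  have hF : IsCharacter G (fun x => (F x : ℂ)) := by
    convert (hc.mul hc.conj).cosetAvg N using 2 with x
    simp [F, Complex.mul_conj, Complex.normSq_eq_norm_sq]
  have hF0 : ∀ x, 0 ≤ F x := fun x => by positivity
  have hF1 : classInner (fun n : N => (χ : G → ℂ) n) (fun n : N => (χ : G → ℂ) n) = F 1 := by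
    rw [classInner_self_eq_sum_normSq]
    simp [F]
  have hsum : ∑ x, F x = Nat.card G := by
    simp only [F]
    rw [← Finset.mul_sum, Finset.sum_comm]
    have : ∀ n : N, ∑ x : G, ‖(χ : G → ℂ) (x * n)‖ ^ 2 = Nat.card G := fun n => by
      rw [← χ.2.sum_norm_sq]
      exact Fintype.sum_equiv (Equiv.mulRight (n : G)) _ _ fun _ => rfl
    simp only [this, Finset.sum_const, Finset.card_univ, nsmul_eq_mul,
      ← Nat.card_eq_fintype_card]
    rw [inv_mul_cancel_left₀ hNpos.ne']
  have hzero : ∀ x, F x = 0 ↔ ∀ n : N, (χ : G → ℂ) ((n : G) * x) = 0 := fun x => by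
    simp only [F, mul_eq_zero, inv_eq_zero, hNpos.ne', false_or]
    rw [Finset.sum_eq_zero_iff_of_nonneg fun _ _ => by positivity]
    simp only [Finset.mem_univ, true_imp_iff, ne_eq, OfNat.ofNat_ne_zero, not_false_eq_true,
      pow_eq_zero_iff, norm_eq_zero, hc.isClassFunction.mul_comm x]
  constructor
  · intro hirr
    by_contra hcon
    apply hirr
    have hne : ∀ x, (F x : ℂ) ≠ 0 := fun x h0 =>
      hcon ⟨x, (hzero x).mp (by exact_mod_cast h0)⟩
    have h5 := hF.isGen.card_le_sum_norm (Finset.univ.filter fun g => g ∉ N) (fun m hm g hg => by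
      simp only [Finset.mem_filter, Finset.mem_univ, true_and] at hg ⊢
      rwa [pow_mem_iff_of_coprime_card hm]) fun g _ => hne g
    simp only [Complex.norm_real, Real.norm_of_nonneg (hF0 _)] at h5
    have h6 : ∀ f : G → ℝ, ∑ g, f g =
        ∑ n : N, f n + ∑ g ∈ Finset.univ.filter fun g => g ∉ N, f g := fun f => by
      rw [← Finset.sum_subtype (Finset.univ.filter fun x => x ∈ N) (by simp) f,
        Finset.sum_filter_add_sum_filter_not]
    have h7 := h6 fun _ => 1
    have h8 := h6 F
    have h9 : ∀ n : N, F n = F 1 := fun n => by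
      simp only [F, one_mul]
      congr 1
      exact Fintype.sum_equiv (Equiv.mulLeft n) _ _ fun _ => rfl
    simp only [h9, hsum, Finset.sum_const, Finset.card_univ, nsmul_eq_mul, mul_one,
      ← Nat.card_eq_fintype_card] at h7 h8
    have h10 : F 1 ≤ 1 := by
      by_contra hlt
      push Not at hlt
      nlinarith
    obtain ⟨k, hk⟩ := hF.exists_nat_one
    have hk' : F 1 = k := by exact_mod_cast hk
    have hk0 : k ≠ 0 := by
      rintro rfl
      exact hne 1 (by simpa using hk)
    have hk1 : k = 1 := by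
      have : (k : ℝ) ≤ 1 := hk' ▸ h10
      have : k ≤ 1 := by exact_mod_cast this
      omega
    exact (hc.restrict N).isIrr_of_inner_self (by rw [hF1, hk', hk1]; simp)
  · rintro ⟨x, hx⟩ hirr
    have h1 : (fun x => (F x : ℂ)) 1 = 1 := by
      simp only [← hF1, hirr.inner_self]
    obtain ⟨lam, hlam⟩ := hF.exists_linear h1
    have h2 := congrFun hlam x
    simp only [(hzero x).mpr hx, Complex.ofReal_zero] at h2
    exact (lam x).ne_zero h2.symm

end Cfsg.Agent.S4996
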