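import Cfsg.Statements.S5001
import Mathlib
import Cfsg.Agent.Block.Val
import Cfsg.Agent.Char.Values
import Cfsg.Agent.Char.Basic
import Cfsg.Agent.S0908

set_option autoImplicit false
open Cfsg

namespace Cfsg.Agent.S5001

open Module in
/-- If the trace of a finite-order endomorphism is a unit at `M`, some generalized eigenspace has
dimension prime to `p`. -/
theorem exists_maxGenEigenspace_not_dvd {V : Type*} [AddCommGroup V] [Module ℂ V]
    [FiniteDimensional ℂ V] {p : ℕ} {M : Ideal Cfsg.AlgInt} (hM : Cfsg.IsPModular p M)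
    (f : Module.End ℂ V) {N : ℕ} (hN : N ≠ 0) (hf : f ^ N = 1)
    (ht : ¬ Block.val M (LinearMap.trace ℂ V f) < 1) :
    ∃ c : ℂ, ¬ p ∣ finrank ℂ (f.maxGenEigenspace c) := by
  classical
  by_contra hcon
  push Not at hcon
  apply ht
  rw [Module.End.trace_eq_sum_roots_charpoly_of_splits (IsAlgClosed.splits _),
    Finset.sum_multiset_count]
  refine Valuation.map_sum_lt _ one_ne_zero fun c hc => ?_
  rw [Multiset.mem_toFinset, Polynomial.mem_roots (LinearMap.charpoly_monic f).ne_zero,
    ← Module.End.hasEigenvalue_iff_isRoot_charpoly] at hc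
  have hc1 : c ^ N = 1 := by
    obtain ⟨v, hv⟩ := hc.exists_hasEigenvector
    have h1 := hv.pow_apply N
    rw [hf, Module.End.one_apply] at h1
    have h2 : (c ^ N - 1) • v = 0 := by rw [sub_smul, one_smul, ← h1, sub_self]
    rcases smul_eq_zero.mp h2 with h | h
    · exact sub_eq_zero.mp h
    · exact absurd h hv.2
  have h3 := hcon c
  rw [LinearMap.finrank_maxGenEigenspace_eq, ← Polynomial.count_roots] at h3
  rw [nsmul_eq_mul, map_mul]
  calc Block.val M _ * Block.val M c ≤ Block.val M _ * 1 :=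
        mul_le_mul_right (Block.val_le_one_of_isIntegral
          (Char.isIntegral_of_pow_eq_one hN hc1)) _
    _ < 1 := by rw [mul_one]; exact (Block.val_natCast_lt_one_iff hM _).mpr h3

/-- Let p be a prime, G a finite group and B a p-block of G (relative to a maximal ideal M of the algebraic integers containing p) with defect group D. Let Z be a central p-subgroup of G contained in D and λ a linear character of Z (a homomorphism to the nonzero complex numbers). Say an irreducible character χ of G lies over λ when χ(z) = χ(1)λ(z) for all z ∈ Z. If some irreducible character in B lying over λ has height zero, then λ extends to a linear character of D. -/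
theorem result {G : Type*} [Group G] [Finite G] (p : ℕ) [Fact p.Prime] (M : Ideal Cfsg.AlgInt) (hM : Cfsg.IsPModular p M) (B : Set (Cfsg.IrrCharacter G)) (hB : Cfsg.IsPBlock M B) (D : Subgroup G) (hD : Cfsg.IsDefectGroup p M B D) (Z : Subgroup G) (hZc : Z ≤ Subgroup.center G) (hZp : IsPGroup p ↥Z) (hZD : Z ≤ D) (lam : ↥Z →* ℂˣ) (χ : Cfsg.IrrCharacter G) (hχ : χ ∈ B) (hover : (∀ z : ↥Z, (χ : G → ℂ) z = (χ : G → ℂ) 1 * (lam z : ℂ))) (h0 : Cfsg.blockHeight p B (χ : G → ℂ) = 0) : (∃ μ : ↥D →* ℂˣ, ∀ z : ↥Z, μ ⟨(z : G), hZD z.2⟩ = lam z) := by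
  classical
  have hcard := S0908.result p M hM B hB D hD
  obtain ⟨y, hy, P, hP⟩ := hD
  have hp : p.Prime := hM.1
  obtain ⟨n, ρ, hirr, hρ⟩ := χ.2
  have hχ1 : (χ : G → ℂ) 1 = n := by rw [← hρ]; simp
  have hn0 : n ≠ 0 := by
    rintro rfl
    have := hirr
    have : Nontrivial (Fin 0 → ℂ) := Char.nontrivial_of_isIrreducible ρ
    exact not_subsingleton (Fin 0 → ℂ) inferInstance
  have hdeg : Cfsg.charDegree (χ : G → ℂ) = n := by
    simp [Cfsg.charDegree, hχ1]
  by_cases hd : Cfsg.blockDefect p B = 0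
  · rw [hd, pow_zero] at hcard
    refine ⟨1, fun z => ?_⟩
    have hz : z = 1 := by
      have : D = ⊥ := Subgroup.eq_bot_of_card_eq D hcard
      have h2 : (z : G) ∈ D := hZD z.2
      rw [this] at h2
      exact Subtype.ext (Subgroup.mem_bot.mp h2)
    simp [hz]
  -- the value of `χ` at the defect class is a unit
  let C := Subgroup.centralizer ({y} : Set G)
  have hCD : (Nat.card C).factorization p = Cfsg.blockDefect p B := by
    have h1 : Nat.card D = Nat.card P := by
      rw [hP]
      exact Subgroup.card_map_of_injective (Subgroup.subtype_injective _)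
    rw [P.card_eq_multiplicity, hcard] at h1
    exact (Nat.pow_right_injective hp.two_le h1).symm
  have hidx : C.index.factorization p + (Nat.card C).factorization p
      = (Nat.card G).factorization p := by
    rw [← C.index_mul_card, Nat.factorization_mul C.index_ne_zero_of_finite Nat.card_pos.ne']
    rfl
  have hle : n.factorization p ≤ C.index.factorization p := by
    unfold Cfsg.blockHeight at h0
    unfold Cfsg.blockDefect at hCD hd
    rw [hdeg] at h0
    omega
  have hval : ¬ Block.val M ((χ : G → ℂ) y) < 1 := by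
    intro hlt
    apply hy.2.2 χ hχ
    have hint : IsIntegral ℤ ((χ : G → ℂ) y) := by
      rw [← hρ]; exact Char.rep_char_isIntegral ρ y
    rw [Block.memLocalIdeal_iff hM]
    constructor
    · unfold Cfsg.centralChar
      refine Block.isAlgebraic_div ?_ ?_
      · exact ((isIntegral_algebraMap (R := ℤ) (x := (C.index : ℤ))).mul hint).isAlgebraic
      · rw [hχ1]
        exact (isIntegral_algebraMap (R := ℤ) (x := (n : ℤ))).isAlgebraic
    · unfold Cfsg.centralChar
      have hvn : 0 < Block.val M (n : ℂ) := by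
        rw [zero_lt_iff]; simpa using hn0
      rw [hχ1, map_div₀, map_mul, div_lt_one₀ hvn]
      have h5 : Block.val M (C.index : ℂ) ≤ Block.val M (n : ℂ) :=
        (Block.val_natCast_le_iff hM C.index_ne_zero_of_finite hn0).mpr hle
      calc Block.val M (C.index : ℂ) * Block.val M ((χ : G → ℂ) y)
          ≤ Block.val M (n : ℂ) * Block.val M ((χ : G → ℂ) y) := mul_le_mul_left h5 _
        _ < Block.val M (n : ℂ) * 1 := mul_lt_mul_of_pos_left hlt hvn
        _ = _ := mul_one _
  rw [← hρ] at hval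
  obtain ⟨c, hc⟩ := exists_maxGenEigenspace_not_dvd hM (ρ y) (orderOf_pos y).ne'
    (by rw [← map_pow, pow_orderOf_eq_one, map_one]) hval
  set W := Module.End.maxGenEigenspace (ρ y) c with hW
  have hcomm : ∀ d : D, Commute (ρ y) (ρ d) := fun d => by
    have h1 : (d : G) ∈ C := by
      have h2 : (d : G) ∈ (P : Subgroup C).map C.subtype := hP ▸ d.2
      exact Subgroup.map_subtype_le _ h2
    have h2 : y * d = d * y := Subgroup.mem_centralizer_iff.mp h1 y rfl
    change ρ y * ρ d = ρ d * ρ y
    rw [← map_mul, h2, map_mul]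
  have hmaps : ∀ d : D, ∀ v ∈ W, ρ d v ∈ W := fun d =>
    Module.End.mapsTo_maxGenEigenspace_of_comm (hcomm d) c
  let σ : D →* Module.End ℂ W :=
    { toFun := fun d => (ρ d).restrict (hmaps d)
      map_one' := by ext v; simp
      map_mul' := fun a b => by ext v; simp }
  let μ : D →* ℂˣ := (LinearMap.det.comp σ).toHomUnits
  obtain ⟨k, hk⟩ := IsPGroup.iff_card.mp hZp
  have hcop : (Module.finrank ℂ W).Coprime (p ^ k) :=
    Nat.Coprime.pow_right _ ((Nat.Prime.coprime_iff_not_dvd hp).mpr hc).symm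
  obtain ⟨m, hm⟩ : ∃ m : ℕ, Module.finrank ℂ W * m ≡ 1 [MOD p ^ k] := by
    obtain ⟨m, -, hm⟩ := Nat.exists_mul_mod_eq_of_coprime 1 hcop (pow_pos hp.pos k).ne'
    exact ⟨m, hm⟩
  refine ⟨μ ^ m, fun z => ?_⟩
  have hsc : ρ z = (lam z : ℂ) • (LinearMap.id : (Fin n → ℂ) →ₗ[ℂ] (Fin n → ℂ)) := by
    have hlam : (lam z : ℂ) ^ (p ^ k) = 1 := by
      rw [← Units.val_pow_eq_pow_val, ← map_pow, ← hk, pow_card_eq_one', map_one, Units.val_one]
    have h1 : ρ.character z = n * (lam z : ℂ) := by rw [hρ, hover z, hχ1]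
    obtain ⟨ω, hω⟩ := (Char.rep_norm_char_eq_iff ρ z).mp (by
      rw [h1, norm_mul, Char.norm_eq_one_of_pow_eq_one (pow_pos hp.pos k).ne' hlam]; simp)
    have h2 := Char.rep_char_of_eq_smul ρ z ω hω
    rw [h1] at h2
    simp only [Module.finrank_fin_fun] at h2
    have h3 : (lam z : ℂ) = ω := by
      have hn : (n : ℂ) ≠ 0 := Nat.cast_ne_zero.mpr hn0
      rw [mul_comm] at h2
      exact mul_right_cancel₀ hn h2
    rw [h3, hω]
  have hσ : σ ⟨(z : G), hZD z.2⟩ = (lam z : ℂ) • (LinearMap.id : W →ₗ[ℂ] W) := by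
    ext v
    simp [σ, hsc]
  have hμ : μ ⟨(z : G), hZD z.2⟩ = lam z ^ Module.finrank ℂ W := by
    ext
    simp [μ, hσ]
  rw [MonoidHom.pow_apply, hμ, ← pow_mul]
  have hord : orderOf (lam z) ∣ p ^ k := by
    rw [orderOf_dvd_iff_pow_eq_one, ← map_pow, ← hk, pow_card_eq_one', map_one]
  rw [pow_eq_pow_iff_modEq.mpr (hm.of_dvd hord), pow_one]

end Cfsg.Agent.S5001
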