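import Cfsg.Statements.S5011
import Mathlib

set_option autoImplicit false
open Cfsg

namespace Cfsg.Agent.S5011

/-- Let G be a finite non-abelian simple group and ρ an irreducible complex representation of G on a space of dimension greater than one (irreducible in the sense that the only subspaces invariant under every ρ(x) are 0 and the whole space). Then for every non-identity element g of G, the centralizer of g does not act irreducibly: there is a non-zero proper subspace invariant under ρ(c) for every c commuting with g. -/
theorem result {G : Type*} [Group G] [Finite G] [IsSimpleGroup G]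
    (hG : ¬ IsMulCommutative G) {V : Type*} [AddCommGroup V] [Module ℂ V] [FiniteDimensional ℂ V]
    (ρ : Representation ℂ G V)
    (hirr : ∀ W : Submodule ℂ V, (∀ x : G, ∀ v ∈ W, ρ x v ∈ W) → W = ⊥ ∨ W = ⊤)
    (hdim : 1 < Module.finrank ℂ V) (g : G) (hg : g ≠ 1) :
    ∃ W : Submodule ℂ V, W ≠ ⊥ ∧ W ≠ ⊤ ∧ ∀ c ∈ Subgroup.centralizer ({g} : Set G), ∀ v ∈ W, ρ c v ∈ W := by
  classical
  haveI : Nontrivial V := Module.finrank_pos_iff.mp (by omega : 0 < Module.finrank ℂ V)
  obtain ⟨c, hc⟩ := Module.End.exists_eigenvalue (ρ g)
  refine ⟨Module.End.eigenspace (ρ g) c, hc, ?_, ?_⟩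
  · intro htop
    have hsc : ∀ v : V, ρ g v = c • v := fun v =>
      Module.End.mem_eigenspace_iff.mp (htop ▸ Submodule.mem_top)
    -- the kernel of `ρ` is trivial
    have hker : ρ.ker = ⊥ := by
      rcases (inferInstance : ρ.ker.Normal).eq_bot_or_eq_top with h | h
      · exact h
      · exfalso
        obtain ⟨v, hv⟩ := exists_ne (0 : V)
        have hfix : ∀ x : G, ρ x = 1 := fun x => by
          have : x ∈ ρ.ker := h ▸ Subgroup.mem_top x
          exact this
        rcases hirr (Submodule.span ℂ {v}) (fun x w hw => by rw [hfix x]; exact hw) with h1 | h1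
        · exact hv (Submodule.span_singleton_eq_bot.mp h1)
        · have := finrank_span_singleton (K := ℂ) hv
          rw [h1, finrank_top] at this
          omega
    have hinj : Function.Injective ρ := (MonoidHom.ker_eq_bot_iff _).mp hker
    have hcen : g ∈ Subgroup.center G := by
      rw [Subgroup.mem_center_iff]
      intro x
      apply hinj
      ext v
      simp only [map_mul, Module.End.mul_apply, hsc, map_smul]
    rcases (inferInstance : (Subgroup.center G).Normal).eq_bot_or_eq_top with h | h
    · rw [h] at hcen
      exact hg (Subgroup.mem_bot.mp hcen)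
    · apply hG
      refine ⟨⟨fun a b => ?_⟩⟩
      have : b ∈ Subgroup.center G := h ▸ Subgroup.mem_top b
      exact Subgroup.mem_center_iff.mp this a
  · intro x hx v hv
    rw [Module.End.mem_eigenspace_iff] at hv ⊢
    have hcomm : g * x = x * g := (Subgroup.mem_centralizer_iff.mp hx) g rfl
    rw [← Module.End.mul_apply, ← map_mul, hcomm, map_mul, Module.End.mul_apply, hv, map_smul]

end Cfsg.Agent.S5011
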