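import Cfsg.Statements.S5057
import Cfsg.Agent.RootInv.Class

set_option autoImplicit false
open Cfsg

namespace Cfsg.Agent.S5057

open Equiv Equiv.Perm in
theorem pows : ∀ g : Perm (Fin 6), sign g = 1 →
    g * g = 1 ∨ g * g * g = 1 ∨ g * g * (g * g) = 1 ∨ g * g * (g * g) * g = 1 := by
  decide +kernel

open Equiv Equiv.Perm in
theorem ctype : ∀ g : Perm (Fin 6), sign g = 1 → g * g = 1 → g ≠ 1 →
    (∃ a b c d : Fin 6, [a, b, c, d].Nodup ∧ g = swap a b * swap c d) := by
  decide +kernel

theorem ord_le (g : alternatingGroup (Fin 6)) : orderOf g ≤ 5 := by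
  have h := pows g.1 (Equiv.Perm.mem_alternatingGroup.1 g.2)
  have key : ∀ n, 0 < n → n ≤ 5 → g.1 ^ n = 1 → orderOf g ≤ 5 := fun n h0 h5 hn =>
    (orderOf_le_of_pow_eq_one h0 (Subtype.ext (by simpa using hn))).trans h5
  rcases h with h | h | h | h
  · exact key 2 (by norm_num) (by norm_num) (by simpa [pow_succ] using h)
  · exact key 3 (by norm_num) (by norm_num) (by simpa [pow_succ] using h)
  · exact key 4 (by norm_num) (by norm_num) (by simpa [pow_succ, mul_assoc] using h)
  · exact key 5 (by norm_num) (by norm_num) (by simpa [pow_succ, mul_assoc] using h)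

open Equiv Equiv.Perm in
theorem ctype' (g : alternatingGroup (Fin 6)) (hg : orderOf g = 2) : g.1.cycleType = {2, 2} := by
  obtain ⟨h1, h2⟩ := Inv.orderOf_two_iff.1 hg
  obtain ⟨a, b, c, d, hn, e⟩ := ctype g.1 (Equiv.Perm.mem_alternatingGroup.1 g.2)
    (congrArg Subtype.val h1) (fun e => h2 (Subtype.ext e))
  simp only [List.nodup_cons, List.mem_cons, List.not_mem_nil, or_false, not_or] at hn
  obtain ⟨⟨hab, hac, had⟩, ⟨hbc, hbd⟩, hcd, -⟩ := hn
  rw [e, Disjoint.cycleType_mul, (isSwap_iff_cycleType.1 ⟨a, b, hab, rfl⟩),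
    (isSwap_iff_cycleType.1 ⟨c, d, hcd, rfl⟩)]
  · rfl
  · exact disjoint_swap_swap (by simp [hab, hac, had, hbc, hbd, hcd])

/-- The involutions of the alternating group of degree 6 form a class of root involutions (a single conjugacy class of involutions generating the group, any two of which commute, have product of odd order, or have product of order 4 whose square is again an involution of the class), and the product of any two of them has order at most 5. -/
theorem result :
    Cfsg.IsRootInvolutionClass {g : ↥(alternatingGroup (Fin 6)) | orderOf g = 2} ∧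
    ∀ d ∈ {g : ↥(alternatingGroup (Fin 6)) | orderOf g = 2}, ∀ e ∈ {g : ↥(alternatingGroup (Fin 6)) | orderOf g = 2},
      orderOf (d * e) ≤ 5 := by
  have hpos : ∀ g : alternatingGroup (Fin 6), 0 < orderOf g := fun g => orderOf_pos g
  let d0 : alternatingGroup (Fin 6) :=
    ⟨Equiv.swap 0 1 * Equiv.swap 2 3, by rw [Equiv.Perm.mem_alternatingGroup]; decide⟩
  have hd0 : orderOf d0 = 2 := Inv.orderOf_two_iff.2 ⟨Subtype.ext (by decide), fun e =>
    absurd (congrArg Subtype.val e) (by decide)⟩
  have hconj : ∀ d ∈ {g : ↥(alternatingGroup (Fin 6)) | orderOf g = 2},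
      ∀ g : alternatingGroup (Fin 6), g * d * g⁻¹ ∈
        {g : ↥(alternatingGroup (Fin 6)) | orderOf g = 2} := fun d hd g => by
    simpa [Inv.orderOf_conj] using hd
  refine ⟨⟨⟨fun d hd => hd, ?_, hconj, ?_⟩, ⟨d0, hd0⟩, ?_⟩, fun d _ e _ => ord_le _⟩
  · haveI := alternatingGroup.isSimpleGroup (α := Fin 6) (by simp)
    refine ((RootInv.normal_closure hconj).eq_bot_or_eq_top).resolve_left fun e => ?_
    have : d0 ∈ (⊥ : Subgroup (alternatingGroup (Fin 6))) := e ▸ Subgroup.subset_closure hd0
    exact Inv.ne_one_of_orderOf_two hd0 (Subgroup.mem_bot.1 this)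
  · intro a ha b hb
    have h1 := ord_le (a * b)
    have h2 := hpos (a * b)
    have h3 : orderOf (a * b) = 1 ∨ orderOf (a * b) = 2 ∨ orderOf (a * b) = 3 ∨
      orderOf (a * b) = 4 ∨ orderOf (a * b) = 5 := by omega
    rcases h3 with h | h | h | h | h
    · right; left; rw [h]; decide
    · left
      exact RootInv.commute_of_mul_sq (Inv.mul_self_of_orderOf_two ha)
        (Inv.mul_self_of_orderOf_two hb) (Inv.mul_self_of_orderOf_two h)
    · right; left; rw [h]; decide
    · right; right
      refine ⟨h, ?_⟩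
      show orderOf ((a * b) ^ 2) = 2
      rw [orderOf_pow' _ (by norm_num), h]; rfl
    · right; left; rw [h]; decide
  · intro a ha b hb
    have h1 : IsConj a.1 b.1 := Equiv.Perm.isConj_iff_cycleType_eq.2 (by rw [ctype' a ha, ctype' b hb])
    have h2 : IsConj a b := alternatingGroup.isConj_of h1 (by
      rw [← Equiv.Perm.sum_cycleType, ctype' a ha]; simp)
    obtain ⟨g, hg⟩ := isConj_iff.1 h2
    exact ⟨g, hg.symm⟩

end Cfsg.Agent.S5057
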