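import Cfsg.Statements.S5075
import Cfsg.Agent.McL.Main

set_option autoImplicit false
open Cfsg

namespace Cfsg.Agent.S5075

open Cfsg.Agent.McL Cfsg.Agent.Class.Max Module in
theorem exists_tv {F V : Type*} [Field F] [AddCommGroup V] [Module F V] [FiniteDimensional F V]
    (t : V ≃ₗ[F] V) (h : finrank F ↥(LinearMap.ker ((t : V →ₗ[F] V) - LinearMap.id)) + 1 =
      finrank F V) : ∃ (φ : Dual F V) (v : V), v ≠ 0 ∧ ∀ x, t x = x + φ x • v := by
  have h1 := LinearMap.finrank_range_add_finrank_ker ((t : V →ₗ[F] V) - LinearMap.id)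
  obtain ⟨v, v0, hv⟩ := finrank_eq_one_iff'.mp (show finrank F (LinearMap.range
    ((t : V →ₗ[F] V) - LinearMap.id)) = 1 by omega)
  let e := LinearEquiv.toSpanNonzeroSingleton F _ v v0
  have m : ∀ x, ((t : V →ₗ[F] V) - LinearMap.id).rangeRestrict x ∈ Submodule.span F {v} :=
    fun x => Submodule.mem_span_singleton.mpr (hv _)
  refine ⟨e.symm.toLinearMap ∘ₗ LinearMap.codRestrict _ _ m, v, fun k => v0 (Subtype.ext k),
    fun x => ?_⟩
  have := congrArg (fun y => ((y : LinearMap.range ((t : V →ₗ[F] V) - LinearMap.id)) : V))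
    (congrArg Subtype.val (e.apply_symm_apply ⟨_, m x⟩))
  exact (sub_eq_iff_eq_add'.mp this.symm)

open Cfsg.Agent.McL Cfsg.Agent.Class.Max Module in
theorem hyp {p : ℕ} [Fact p.Prime] (hp : Odd p) {V : Type*} [AddCommGroup V] [Module (ZMod p) V]
    [Finite V] (H : Subgroup (V ≃ₗ[ZMod p] V)) (T : Set (V ≃ₗ[ZMod p] V))
    (hHT : H = Subgroup.closure T)
    (hT : ∀ t ∈ T, orderOf t = p ∧
      finrank (ZMod p) ↥(LinearMap.ker ((t : V →ₗ[ZMod p] V) - LinearMap.id)) + 1 =
        finrank (ZMod p) V)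
    (hOp : Cfsg.pCore p ↥H = ⊥) : Hyp H where
  two := fun e => by
    have : p ∣ 2 := (ZMod.natCast_eq_zero_iff 2 p).mp e
    rw [(Nat.prime_dvd_prime_iff_eq Fact.out Nat.prime_two).mp this] at hp
    exact absurd hp (by decide)
  gen := hHT.le.trans ((Subgroup.closure_le _).mpr fun t ht => by
    obtain ⟨φ, v, v0, e⟩ := exists_tv t (hT t ht).2
    refine Subgroup.subset_closure ⟨φ, v, ⟨?_, t, hHT ▸ Subgroup.subset_closure ht, e⟩, trivial, e⟩
    have k : ∀ n : ℕ, (t ^ n) v = (1 + φ v) ^ n • v := fun n => by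
      induction n with
      | zero => simp
      | succ n ih => rw [pow_succ', mul_app, ih, map_smul, e, pow_succ, mul_smul, add_smul, one_smul]
    have := k p
    rw [ZMod.pow_card, orderOf_dvd_iff_pow_eq_one.mp (hT t ht).1.dvd, one_app, add_smul, one_smul,
      left_eq_add] at this
    exact (smul_eq_zero.mp this).resolve_right v0)
  smul φ v c e t := by
    obtain ⟨n, rfl⟩ := ZMod.natCast_zmod_surjective c
    induction n with
    | zero => simpa using hasTv_zero_right φ
    | succ n ih => simpa [add_smul] using ih.add_right e t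
  unip W hW g hg h1 h2 := by
    let N : Subgroup H :=
      { carrier := {g | (∀ x, g.1 x - x ∈ W) ∧ ∀ w ∈ W, g.1 w = w}
        mul_mem' := fun {a b} ha hb => ⟨fun x => by
          simpa using W.add_mem (ha.1 (b.1 x)) (hb.1 x), fun w hw => by simp [ha.2 w hw, hb.2 w hw]⟩
        one_mem' := ⟨fun x => by simp, fun w _ => rfl⟩
        inv_mem' := fun {a} ha => ⟨fun x => by simpa using W.neg_mem (ha.1 (a.1⁻¹ x)),
          fun w hw => a.1.injective (by simp [ha.2 w hw])⟩ }
    have hN : N ≤ pCore p H := le_sSup ⟨⟨fun n hn k => ⟨fun x => by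
      simpa using stab_apply (hW k.2) (hn.1 (k.1⁻¹ x)), fun w hw => by
        have := hn.2 _ (stab_apply (inv_mem (hW k.2)) hw)
        simp only [Subgroup.coe_mul, mul_app, Subgroup.coe_inv, this, app_inv_app]⟩⟩,
      fun n => ⟨1, Subtype.ext (Subtype.ext (LinearEquiv.ext fun x => by
        have k : ∀ m : ℕ, (n.1.1 ^ m) x = x + (m : ZMod p) • (n.1.1 x - x) := fun m => by
          induction m with
          | zero => simp
          | succ m ih =>
            rw [pow_succ', mul_app, ih, map_add, map_smul, n.2.2 _ (n.2.1 x)]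
            push_cast; module
        simpa using k p))⟩⟩
    exact congrArg Subtype.val ((Subgroup.mem_bot (x := (⟨g, hg⟩ : H))).mp (hOp ▸ hN ⟨h1, h2⟩))

open Cfsg.Agent.McL Cfsg.Agent.Class.Max in
/-- Let p be an odd prime, V a finite-dimensional vector space over the field with p elements, and H a group of linear automorphisms of V generated by transvections (elements of order p fixing a hyperplane pointwise) and having no nontrivial normal p-subgroup. Then for some n ≥ 1 there are a decomposition V = V₀ ⊕ V₁ ⊕ ⋯ ⊕ Vₙ into H-invariant subspaces and a decomposition of H as the internal direct product of normal subgroups H₁, …, Hₙ such that Hⱼ acts trivially on every Vᵢ with i ≠ j, and Hⱼ induces on Vⱼ exactly the special linear group of Vⱼ or exactly the isometry group of a non-degenerate alternating form on Vⱼ. -/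
theorem result {p : ℕ} [Fact p.Prime] (hp : Odd p) {V : Type*} [AddCommGroup V] [Module (ZMod p) V] [Finite V]
    (H : Subgroup (V ≃ₗ[ZMod p] V)) (T : Set (V ≃ₗ[ZMod p] V)) (hHT : H = Subgroup.closure T)
    (hT : ∀ t ∈ T, orderOf t = p ∧
      Module.finrank (ZMod p) ↥(LinearMap.ker ((t : V →ₗ[ZMod p] V) - LinearMap.id)) + 1 =
        Module.finrank (ZMod p) V)
    (hOp : Cfsg.pCore p ↥H = ⊥) :
    ∃ (n : ℕ) (W : Fin (n + 1) → Submodule (ZMod p) V) (K : Fin n → Subgroup (V ≃ₗ[ZMod p] V)),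
      1 ≤ n ∧ DirectSum.IsInternal W ∧
      (∀ h ∈ H, ∀ i, (W i).map (h : V →ₗ[ZMod p] V) = W i) ∧
      (∀ j, K j ≤ H ∧ ((K j).subgroupOf H).Normal) ∧ ⨆ j, K j = H ∧
      (∀ j, K j ⊓ (⨆ j' ∈ {j' : Fin n | j' ≠ j}, K j') = ⊥) ∧
      (∀ j j', j ≠ j' → ∀ a ∈ K j, ∀ b ∈ K j', a * b = b * a) ∧
      (∀ j, ∀ h ∈ K j, ∀ i : Fin (n + 1), i ≠ j.succ → ∀ v ∈ W i, h v = v) ∧
      (∀ j, ∃ ρ : ↥(K j) →* (↥(W j.succ) ≃ₗ[ZMod p] ↥(W j.succ)),
        (∀ (h : ↥(K j)) (v : ↥(W j.succ)), ((ρ h v : ↥(W j.succ)) : V) = (h : V ≃ₗ[ZMod p] V) (v : V)) ∧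
        ((ρ.range : Set (↥(W j.succ) ≃ₗ[ZMod p] ↥(W j.succ))) =
            {f : ↥(W j.succ) ≃ₗ[ZMod p] ↥(W j.succ) | LinearMap.det (f : ↥(W j.succ) →ₗ[ZMod p] ↥(W j.succ)) = 1} ∨
          ∃ B : LinearMap.BilinForm (ZMod p) ↥(W j.succ), B.IsAlt ∧ B.Nondegenerate ∧
            (ρ.range : Set (↥(W j.succ) ≃ₗ[ZMod p] ↥(W j.succ))) = {f : ↥(W j.succ) ≃ₗ[ZMod p] ↥(W j.succ) | ∀ x y, B (f x) (f y) = B x y})) := by
  classical
  have h := hyp hp H T hHT hT hOp
  have : Finite (Submodule (ZMod p) V) := Finite.of_injective _ SetLike.coe_injective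
  obtain ⟨n, ⟨E⟩⟩ := Finite.exists_equiv_fin {W // Comp H W}
  let e : Fin n → Submodule (ZMod p) V := fun j => (E.symm j).1
  have he : ∀ j, Comp H (e j) := fun j => (E.symm j).2
  have ei : ∀ {i j}, i ≠ j → e j ≤ CW H (e i) := fun hne => h.comp_le_CW (he _) (he _)
    fun k => hne (E.symm.injective (Subtype.ext k))
  have hK := h.iSup_KW e fun W hW => ⟨E ⟨W, hW⟩, by simp [e]⟩
  let W : Fin (n + 1) → Submodule (ZMod p) V := Fin.cons (⨅ j, CW H (e j)) e
  have hW : ∀ j i, i ≠ j.succ → W i ≤ CW H (e j) := fun j i hi => by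
    induction i using Fin.cases with
    | zero => exact iInf_le _ j
    | succ i => exact ei fun k => hi (by rw [k])
  have mv : ∀ {j j'}, j ≠ j' → ∀ a ∈ KW H (e j), ∀ b ∈ KW H (e j'), ∀ x,
      a (b x) = a x + b x - x := fun hne a ha b hb x => by
    have := KW_fix ha (ei hne (KW_move hb x))
    rw [map_sub, sub_eq_iff_eq_add] at this
    rw [this]; abel
  refine ⟨n, W, fun j => KW H (e j), (E ⟨⊥, Or.inl rfl⟩).pos, ?_, fun g hg i => ?_,
    fun j => ⟨KW_le, ⟨fun a ha g => KW_conj (h.comp_stab (he j)) g.2 ha⟩⟩, hK, fun j => ?_,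
    fun j j' hne a ha b hb => LinearEquiv.ext fun x => ?_,
    fun j g hg i hi v hv => KW_fix hg (hW j i hi hv),
    fun j => ⟨h.rho (he j), fun _ _ => rfl, ?_⟩⟩
  · refine DirectSum.isInternal_submodule_of_iSupIndep_of_iSup_eq_top ?_ (eq_top_iff.mpr
      fun x _ => ?_)
    · rw [iSupIndep_iff_finsetSum_eq_zero_imp_eq_zero]
      intro s v hv h0
      have k : ∀ j : Fin n, j.succ ∈ s → v j.succ = 0 := fun j hj => by
        refine h.comp_disj (he j) (hv _ hj) ?_
        rw [← s.add_sum_erase _ hj, add_eq_zero_iff_eq_neg] at h0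
        rw [h0]
        exact Submodule.neg_mem _ (Submodule.sum_mem _ fun i hi =>
          hW j i (Finset.ne_of_mem_erase hi) (hv i (Finset.mem_of_mem_erase hi)))
      intro i hi
      induction i using Fin.cases with
      | succ i => exact k i hi
      | zero =>
        rwa [← s.add_sum_erase _ hi, Finset.sum_eq_zero, add_zero] at h0
        intro j hj
        induction j using Fin.cases with
        | zero => simp at hj
        | succ j => exact k j (Finset.mem_of_mem_erase hj)
    · choose w hw hx using fun j => h.comp_sup (he j) x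
      rw [← sub_add_cancel x (∑ j, w j)]
      refine Submodule.add_mem _ (Submodule.mem_iSup_of_mem 0 ((Submodule.mem_iInf _).mpr
        fun i => ?_)) (Submodule.sum_mem _ fun j _ => Submodule.mem_iSup_of_mem j.succ (hw j))
      rw [← Finset.add_sum_erase _ _ (Finset.mem_univ i), ← sub_sub]
      exact Submodule.sub_mem _ (hx i) (Submodule.sum_mem _ fun j hj =>
        ei (Finset.ne_of_mem_erase hj).symm (hw j))
  · refine mem_stab_iff_map.mp ?_
    induction i using Fin.cases with
    | succ i => exact h.comp_stab (he i) hg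
    | zero =>
      exact (hK.ge.trans (iSup_le fun j a ha => mem_stab_of_mapsTo fun v hv => by
        rwa [KW_fix ha (hW j 0 (Fin.succ_ne_zero j).symm hv)])) hg
  · refine eq_bot_iff.mpr fun g hg => LinearEquiv.ext fun x => ?_
    obtain ⟨w, hw, hx⟩ := h.comp_sup (he j) x
    have : g w = w := (iSup₂_le (a := MulAction.stabilizer _ w) fun i hi a ha =>
      KW_fix ha (ei hi hw)) hg.2
    rw [← sub_add_cancel x w, map_add, KW_fix hg.1 hx, this]; rfl
  · rw [mul_app, mul_app, mv hne a ha b hb, mv hne.symm b hb a ha, add_comm]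
  · rcases h.range_cases (he j) with k | ⟨B, h1, h2, k⟩
    · exact Or.inl ((congrArg SetLike.coe k).trans (Set.ext fun f => mem_SLV))
    · exact Or.inr ⟨B, h1, h2, congrArg SetLike.coe k⟩

end Cfsg.Agent.S5075
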