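import Cfsg.Statements.S5094
import Mathlib
import Cfsg.Agent.Fus.Normal
import Cfsg.Agent.Fus.GroupQuot
import Cfsg.Agent.Block.ZStar
import Cfsg.Agent.Inv.IsolatedIff
import Cfsg.Agent.Grp.Cores

set_option autoImplicit false
open Cfsg

namespace Cfsg.Agent.S5094

theorem mem_center_group_iff {G : Type*} [Group G] [Finite G] {p : ℕ} [Fact p.Prime]
    (S : Sylow p G) {x : G} : x ∈ (groupFusionSystem (S : Subgroup G)).center ↔
      x ∈ (S : Subgroup G) ∧ ∀ g : G, g * x * g⁻¹ ∈ (S : Subgroup G) → g * x * g⁻¹ = x := by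
  rw [Fus.mem_center_iff S.isPGroup' (Fus.isSaturated_group S)]
  refine and_congr_right fun hx => ⟨fun h g hg => ?_, fun h P f hf hxP => ?_⟩
  · refine h (Subgroup.zpowers x) _ (Fus.isMap_group_conj g (Subgroup.zpowers_le.2 hx) ?_)
      (Subgroup.mem_zpowers x)
    rintro _ ⟨k, rfl⟩
    rw [← conj_zpow]; exact Subgroup.zpow_mem _ hg k
  · obtain ⟨-, h2, g, e⟩ := Fus.isMap_group_iff.1 hf
    rw [e x hxP]
    exact h g (e x hxP ▸ h2 x hxP)

theorem mk_mem_center {G : Type*} [Group G] [Finite G] {p : ℕ} [Fact p.Prime]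
    (S : Sylow p G) (N : Subgroup G) [N.Normal] {x : G}
    (hx : x ∈ (groupFusionSystem (S : Subgroup G)).center) :
    (x : G ⧸ N) ∈ (groupFusionSystem
      (S.mapSurjective (QuotientGroup.mk'_surjective N) : Subgroup (G ⧸ N))).center := by
  rw [mem_center_group_iff] at hx ⊢
  refine ⟨⟨x, hx.1, rfl⟩, fun γ hγ => ?_⟩
  obtain ⟨g, rfl, hg⟩ := Fus.exists_lift_conj S N (P := Subgroup.zpowers x)
    (S.isPGroup'.to_le (Subgroup.zpowers_le.2 hx.1)) γ (by
      rintro _ ⟨k, rfl⟩
      rw [QuotientGroup.mk_zpow, ← conj_zpow]; exact Subgroup.zpow_mem _ hγ k)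
  have := hx.2 g (hg x (Subgroup.mem_zpowers x))
  conv_rhs => rw [← this]
  rfl

theorem card_quot_lt {G : Type*} [Group G] [Finite G] {N : Subgroup G} (h : N ≠ ⊥) :
    Nat.card (G ⧸ N) < Nat.card G := by
  rw [← Subgroup.index_eq_card, ← N.index_mul_card]
  have : 1 < Nat.card N := (Subgroup.one_lt_card_iff_ne_bot _).2 h
  have h0 : 0 < N.index := Nat.pos_of_ne_zero Subgroup.index_ne_zero_of_finite
  nlinarith

theorem aux.{u} (n : ℕ) : ∀ (G : Type u) [Group G] [Finite G], Nat.card G = n →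
    ∀ (S : Sylow 2 G) (x : G), x ∈ (groupFusionSystem (S : Subgroup G)).center →
      ∀ g, x * g * x⁻¹ * g⁻¹ ∈ pPrimeCore 2 G := by
  induction n using Nat.strong_induction_on with | _ n ih => ?_
  intro G _ _ hn S x hx g
  by_cases hO : pPrimeCore 2 G = ⊥
  · by_cases h1 : x = 1
    · simp [h1]
    have hxS := ((mem_center_group_iff S).1 hx).1
    obtain ⟨k, hk⟩ := (IsPGroup.iff_orderOf.1 S.isPGroup') ⟨x, hxS⟩
    rw [← Subgroup.orderOf_coe] at hk
    have h2 : 2 ∣ orderOf x := by
      refine hk ▸ dvd_pow_self 2 ?_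
      rintro rfl
      exact h1 (orderOf_eq_one_iff.1 hk)
    have hz := orderOf_pow_orderOf_div (orderOf_pos x).ne' h2
    set z := x ^ (orderOf x / 2) with hzdef
    have hzc := (mem_center_group_iff S).1 (Subgroup.pow_mem _ hx (orderOf x / 2))
    have h3 := Block.zstar ((Inv.isIsolatedInvolution_iff_sylow hz S hzc.1).2 hzc.2)
    have hZ : Subgroup.zpowers z ≤ Subgroup.center G := by
      refine Subgroup.zpowers_le.2 (Subgroup.mem_center_iff.2 fun a => ?_)
      have := h3 a
      rw [hO, Subgroup.mem_bot, mul_inv_eq_one, mul_inv_eq_iff_eq_mul] at this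
      exact this.symm
    have : (Subgroup.zpowers z).Normal := ⟨fun a ha b => by
      rw [Subgroup.mem_center_iff.1 (hZ ha) b, mul_inv_cancel_right]; exact ha⟩
    have hZS : Subgroup.zpowers z ≤ S := Subgroup.zpowers_le.2 hzc.1
    have h4 := ih _ (hn ▸ card_quot_lt (N := Subgroup.zpowers z) (by
      rw [Ne, Subgroup.zpowers_eq_bot]
      rintro h
      rw [h, orderOf_one] at hz
      exact absurd hz (by decide))) _ rfl _ _ (mk_mem_center S (Subgroup.zpowers z) hx) g
    rw [Block.pPrimeCore_quotient_eq_bot_of_central _ hZ (S.isPGroup'.to_le hZS) hO,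
      Subgroup.mem_bot] at h4
    have h5 : x * g * x⁻¹ * g⁻¹ ∈ (S : Subgroup G) := hZS ((QuotientGroup.eq_one_iff _).1 h4)
    have h6 := ((mem_center_group_iff S).1 (Subgroup.inv_mem _ hx)).2 g (by
      have := Subgroup.mul_mem _ (Subgroup.inv_mem _ hxS) h5
      simpa [mul_assoc] using this)
    rw [mul_assoc, mul_assoc, ← mul_assoc g, h6, mul_inv_cancel]
    exact Subgroup.one_mem _
  · have h4 := ih _ (hn ▸ card_quot_lt hO) _ rfl _ _ (mk_mem_center S (pPrimeCore 2 G) hx) g
    rw [Grp.pPrimeCore_quotient_pPrimeCore, Subgroup.mem_bot] at h4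
    exact (QuotientGroup.eq_one_iff _).1 h4

/-- Glauberman's Z*-Theorem in fusion language: for a finite group G with Sylow 2-subgroup S, the centre of the fusion system of G on S is the set of elements of S whose image in G/O(G) is central, O(G) being the largest normal subgroup of odd order. -/
theorem result {G : Type*} [Group G] [Finite G] (S : Sylow 2 G) : (Cfsg.groupFusionSystem (S : Subgroup G)).center = (S : Subgroup G) ⊓ (Subgroup.center (G ⧸ Cfsg.oddCore G)).comap (QuotientGroup.mk' (Cfsg.oddCore G)) := by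
  ext x
  constructor
  · intro hx
    refine ⟨((mem_center_group_iff S).1 hx).1, Subgroup.mem_center_iff.2 fun γ => ?_⟩
    induction γ using QuotientGroup.induction_on with | H g => ?_
    have := (QuotientGroup.eq_one_iff _).2 (aux _ G rfl S x hx g)
    rw [QuotientGroup.mk_mul, QuotientGroup.mk_mul, QuotientGroup.mk_mul, QuotientGroup.mk_inv,
      QuotientGroup.mk_inv, mul_inv_eq_one, mul_inv_eq_iff_eq_mul] at this
    exact this.symm
  · rintro ⟨hx, hc⟩
    refine (mem_center_group_iff S).2 ⟨hx, fun g hg => ?_⟩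
    have h1 : g * x * g⁻¹ * x⁻¹ ∈ (S : Subgroup G) ⊓ pPrimeCore 2 G := by
      refine ⟨Subgroup.mul_mem _ hg (Subgroup.inv_mem _ hx), (QuotientGroup.eq_one_iff _).1 ?_⟩
      have := Subgroup.mem_center_iff.1 hc (g : G ⧸ pPrimeCore 2 G)
      rw [QuotientGroup.mk'_apply] at this
      rw [QuotientGroup.mk_mul, QuotientGroup.mk_mul, QuotientGroup.mk_mul, QuotientGroup.mk_inv,
        QuotientGroup.mk_inv, this]
      simp
    rwa [Grp.inf_eq_bot_of_isPGroup_of_coprime S.isPGroup' (Grp.pPrimeCore_coprime 2 G),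
      Subgroup.mem_bot, mul_inv_eq_one] at h1

end Cfsg.Agent.S5094
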