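import Cfsg.Statements.S5126
import Mathlib
import Cfsg.Agent.Fus.WNorm

set_option autoImplicit false
open Cfsg

namespace Cfsg.Agent.S5126

/-- In a saturated fusion system over a finite p-group S, the normalizer system of a fully normalized, centric, radical subgroup R is constrained, and in every model of that normalizer system the largest normal p-subgroup is the image of R. -/
theorem result {Ω : Type*} [Group Ω] {S : Subgroup Ω} [Finite S] (p : ℕ) [Fact p.Prime] (hS : IsPGroup p S) (F : Cfsg.FusionSystem S) (hF : F.IsSaturated p) (R : Subgroup Ω) (hRn : F.IsFullyNormalized R) (hRc : F.IsCentric R) (hRr : F.IsRadical p R) (E : Cfsg.FusionSystem (Cfsg.FusionSystem.normalizerIn S R)) (hE : F.IsNormalizerSystem R E) {G : Type*} [Group G] (ι : ↥(Cfsg.FusionSystem.normalizerIn S R) →* G) : E.IsConstrained p ∧ (E.IsModel p G ι → (Cfsg.pCore p G : Subgroup G) = (R.subgroupOf (Cfsg.FusionSystem.normalizerIn S R)).map ι) := by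
  have hsat := Fus.normalizerSystem_saturated hS hF hRn hE
  have hN := Fus.isNormal_normalizerSystem hRn.1 hE
  have hC : Cfsg.FusionSystem.centralizerIn (Cfsg.FusionSystem.normalizerIn S R) R ≤ R :=
    fun x hx => Fus.isCentric_self hRc ⟨hx.1.1, hx.2⟩
  refine ⟨⟨hsat, R, hN, Fus.isCentric_of_isNormal hN hC⟩, fun hG => ?_⟩
  have hS' := Fus.isPGroup_of_le hS (Fus.normalizerIn_le S R)
  have haut : E.autGroup R = F.autGroup R := by
    ext α
    rw [Fus.mem_autGroup hN.1, Fus.mem_autGroup hRn.1, (Fus.isNormalizerSystem_iff.1 hE)]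
    exact ⟨fun h => h.isMap, fun h => Fus.isNMap_of_isMap h le_rfl le_rfl hN.1 (Fus.img_afn α)⟩
  have hr : E.IsRadical p R := ⟨hN.1, by rw [haut]; exact hRr.2⟩
  have hcore : E.core = R := le_antisymm
    (Fus.le_of_isNormal_of_radical hS' (Fus.isNormal_core E) hC hr) (Fus.le_core hN)
  rw [← Fus.IsModel_core hG, hcore]
  rfl

end Cfsg.Agent.S5126
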