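import Mathlib
import Cfsg.Statements.S5162
import Cfsg.Agent.Fus.CompMeet
import Cfsg.Agent.Fus.CProd
-- import your own Cfsg.Agent.* helpers here

set_option autoImplicit false
open Cfsg

namespace Cfsg.Agent.S5162

open Subgroup Cfsg.Agent.Fus Cfsg.Agent.FGS Cfsg.Agent.PLocal.CF

/-- Let F be a saturated fusion system over a finite p-group S that is a central product of two saturated subsystems F₁ (over S₁) and F₂ (over S₂) inside S. Then every component of F is a component of F₁ or a component of F₂. -/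
theorem result {Ω : Type*} [Group Ω] {S : Subgroup Ω} [Finite S] (p : ℕ) [Fact p.Prime] (hS : IsPGroup p S) (F : Cfsg.FusionSystem S) (hF : F.IsSaturated p) {S₁ S₂ : Subgroup Ω} (F₁ : Cfsg.FusionSystem S₁) (F₂ : Cfsg.FusionSystem S₂) (h₁ : F₁.IsSaturated p) (h₂ : F₂.IsSaturated p) (h₁F : F₁.IsSubsystemOf F) (h₂F : F₂.IsSubsystemOf F) (hc : Cfsg.FusionSystem.IsCentralProductOf F₁ F₂ F) {T : Subgroup Ω} (C : Cfsg.FusionSystem T) (hC : C.IsComponentIn F p) : C.IsComponentIn F₁ p ∨ C.IsComponentIn F₂ p := by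
  have := finite_of_le (le_of_isSubsystemOf h₁F)
  have := finite_of_le (le_of_isSubsystemOf h₂F)
  have := finite_of_le (IsSubnormalIn_le hC.1)
  have h := cPr_of_isCentralProductOf hc
  rcases component_dichotomy hS hC (h.normal₁ hS h₁ hF).1 with k₁ | k₁
  · exact Or.inl k₁
  rcases component_dichotomy hS hC (h.normal₂ hS h₂ hF).1 with k₂ | k₂
  · exact Or.inr k₂
  refine (qs_not_comm (isPGroup_of_le hS (IsSubnormalIn_le hC.1)) hC.2 fun x hx y hy => ?_).elim
  obtain ⟨x₁, hx₁, x₂, hx₂, rfl⟩ := h.exists_mul (IsSubnormalIn_le hC.1 hx)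
  rw [mul_assoc, (mem_centralizerIn.1 ((k₂ _ _ (isMap_id C le_rfl)).1 hy)).2 _ hx₂, ← mul_assoc,
    (mem_centralizerIn.1 ((k₁ _ _ (isMap_id C le_rfl)).1 hy)).2 _ hx₁, mul_assoc]

end Cfsg.Agent.S5162
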