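import Cfsg.Statements.S5196
import Mathlib
import Cfsg.Agent.Fus.FunctorThm

set_option autoImplicit false
universe u
open Cfsg

namespace Cfsg.Agent.S5196

/-- Let p be an odd prime and W a positive characteristic p-functor: W assigns to every finite p-group Q (in a fixed universe) a subgroup W(Q), nontrivial when Q is, carried to W(R) by every isomorphism Q ≅ R; assume also Z(Q) ≤ W(Q) for every finite p-group Q. Suppose W satisfies the local condition: for every finite group G with Sylow p-subgroup P, O_p(G) ∩ Z(G) = O_p(G) ∩ Z(N_G(W(P))). Then W controls weak closure of elements in every saturated fusion system F over a finite p-group S: the centre of the normalizer fusion system of W(S) in F equals the centre of F. (For p = 2 no functor satisfies the local condition, so p is taken odd.) -/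
theorem result {p : ℕ} [Fact p.Prime] (hp : p ≠ 2) (W : ∀ (Q : Type u) [Group Q], Subgroup Q) (hW1 : ∀ (Q : Type u) [Group Q] [Finite Q], IsPGroup p Q → Nontrivial Q → W Q ≠ ⊥) (hW2 : ∀ (Q R : Type u) [Group Q] [Group R] [Finite Q], IsPGroup p Q → ∀ φ : Q ≃* R, (W Q).map φ.toMonoidHom = W R) (hWZ : ∀ (Q : Type u) [Group Q] [Finite Q], IsPGroup p Q → Subgroup.center Q ≤ W Q) (hC : ∀ (G : Type u) [Group G] [Finite G] (P : Sylow p G), Cfsg.pCore p G ⊓ Subgroup.center G = Cfsg.pCore p G ⊓ (Subgroup.center ↥(Subgroup.normalizer (((W ↥(P : Subgroup G)).map (P : Subgroup G).subtype : Subgroup G) : Set G))).map (Subgroup.normalizer (((W ↥(P : Subgroup G)).map (P : Subgroup G).subtype : Subgroup G) : Set G)).subtype) {Ω : Type u} [Group Ω] {S : Subgroup Ω} [Finite S] (hS : IsPGroup p S) (F : Cfsg.FusionSystem S) (hF : F.IsSaturated p) (N : Cfsg.FusionSystem (Cfsg.FusionSystem.normalizerIn S ((W ↥S).map S.subtype))) (hN : F.IsNormalizerSystem ((W ↥S).map S.subtype) N) : N.center = F.center := by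
  have hW : Cfsg.IsCharPFunctor.{u} p W := ⟨hW1, hW2⟩
  have hW' := Fus.isFunctorOn_induced hW hS F
  have hfn := Fus.fullyNormalized_of_le_normalizer F (hW'.le S le_rfl) hW'.le_normalizer
  have hNs := Fus.normalizerSystem_saturated hS hF hfn hN
  have hT := Fus.isPGroup_of_le hS (Fus.normalizerIn_le S ((W ↥S).map S.subtype))
  have hNm := Fus.isNormalizerSystem_iff.1 hN
  have hST : S ≤ FusionSystem.normalizerIn S ((W ↥S).map S.subtype) :=
    le_inf le_rfl hW'.le_normalizer
  ext z
  rw [Fus.mem_center_iff hT hNs, Fus.mem_center_iff hS hF]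
  refine ⟨fun ⟨h1, h2⟩ => ⟨h1.1, ?_⟩, fun ⟨h1, h2⟩ => ⟨hST h1, fun P f hf =>
    h2 P f ((hNm P f).1 hf).isMap⟩⟩
  have hz : z ∈ FusionSystem.centralizerIn S S := Fus.mem_centralizerIn.2 ⟨h1.1, fun x hx => by
    have := h2 _ _ (Fus.isMap_conj N le_rfl (hST hx)) h1
    exact mul_inv_eq_iff_eq_mul.1 this⟩
  have := Fus.fix_of_induced hW (Fus.goodClass_true p) 1 (fun G _ _ T _ _ w hw hO h g => by
    rw [pow_one] at hO h ⊢
    have hwN : w ∈ Subgroup.normalizer (inducedFunctor W (T : Subgroup G) : Set G) :=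
      (Fus.isFunctorOn_induced hW T.isPGroup' (innerFusionSystem _)).le_normalizer hw.1
    have h3 := (hC G T).ge ⟨hO, ⟨w, hwN⟩, Subgroup.mem_center_iff.2 fun g =>
      Subtype.ext (mul_inv_eq_iff_eq_mul.1 (h g g.2)), rfl⟩
    rw [Subgroup.mem_center_iff.1 h3.2 g, mul_inv_cancel_right]) F hS hF trivial z hz
  simp only [pow_one] at this
  exact this fun P f hf => h2 P f ((hNm P f).2 hf)

end Cfsg.Agent.S5196
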