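import Cfsg.Statements.S5214
import Mathlib
import Cfsg.Agent.Fus.Normal
import Cfsg.Agent.S1137
import Cfsg.Agent.S1138


set_option autoImplicit false
open Cfsg

namespace Cfsg.Agent.S5214

/-- Let S be a Suzuki 2-group (a finite nonabelian 2-group with more than one involution admitting a cyclic group of automorphisms permuting its involutions regularly). Then S is normal in every saturated fusion system over S (such a group is resistant). -/
theorem result {Ω : Type*} [Group Ω] {S : Subgroup Ω} [Finite S] (hS : IsPGroup 2 S) (F : Cfsg.FusionSystem S) (hF : F.IsSaturated 2) (hsz : Cfsg.IsSuzukiTwoGroup ↥S) : F.IsNormal S := by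
  open Cfsg.Agent.Fus in
  have hZ : ∀ x, x ∈ FusionSystem.centralizerIn S S ↔ x ∈ S ∧ x * x = 1 := by
    intro x
    rw [mem_centralizerIn]
    refine and_congr_right fun hx => ⟨fun h => ?_, fun h y hy => ?_⟩
    · exact congrArg Subtype.val ((S1137.result hsz).2 ⟨x, hx⟩
        (Subgroup.mem_center_iff.2 fun y => Subtype.ext (h y y.2)))
    · by_cases h1 : x = 1
      · simp [h1]
      · have := (((S1137.result hsz).1 ⟨x, hx⟩).1 ⟨fun e => h1 (congrArg Subtype.val e),
          Subtype.ext h⟩).1
        exact congrArg Subtype.val (Subgroup.mem_center_iff.1 this ⟨y, hy⟩)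
  open Cfsg.Agent.Fus in
  have hsc : F.StronglyClosed (FusionSystem.centralizerIn S S) :=
    stronglyClosed_iff.2 ⟨centralizerIn_le _ _, fun P f hf x hx hxZ =>
      (hZ _).2 ⟨hf.mem hx, by rw [← hf.map_mul hx hx, ((hZ _).1 hxZ).2, hf.map_one]⟩⟩
  open Cfsg.Agent.Fus in
  refine isNormal_of_chain hS hF (stronglyClosed_top F)
    (fun i => if i = 0 then ⊥ else if i = 1 then FusionSystem.centralizerIn S S else S) 2 rfl le_rfl
    ?_ ?_
  · intro i hi
    interval_cases i
    · exact stronglyClosed_bot F
    · exact hsc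
    · exact stronglyClosed_top F
  · intro i hi x hx y hy
    interval_cases i
    · have := (mem_centralizerIn.1 hy).2 x hx
      simp [this]
    · have := (S1138.result hsz).2.1 ⟨x⁻¹, S.inv_mem hx⟩ ⟨y⁻¹, S.inv_mem hy⟩
      refine mem_centralizerIn.2 ⟨S.mul_mem (S.mul_mem (S.mul_mem hx hy) (S.inv_mem hx))
        (S.inv_mem hy), fun w hw => ?_⟩
      simpa using congrArg Subtype.val (Subgroup.mem_center_iff.1 this ⟨w, hw⟩)

end Cfsg.Agent.S5214
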