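import Cfsg.Statements.S5222
import Mathlib
import Cfsg.Agent.Fus.Tate
import Cfsg.Agent.Fus.KNorm


set_option autoImplicit false
open Cfsg

namespace Cfsg.Agent.S5222

/-- Let F be a saturated fusion system over a finite p-group S whose normalizer fusion system of S is the inner fusion system of S (Aut_F(S) is a p-group). Then for every subgroup Q of S with [S, S] ≤ Q ≤ Φ(S), the normalizer fusion system of Q in F is the inner fusion system of N_S(Q) = S. -/
theorem result {Ω : Type*} [Group Ω] {S : Subgroup Ω} [Finite S] (p : ℕ) [Fact p.Prime] (hS : IsPGroup p S) (F : Cfsg.FusionSystem S) (hF : F.IsSaturated p) (hN : ∀ N : Cfsg.FusionSystem (Cfsg.FusionSystem.normalizerIn S S), F.IsNormalizerSystem S N → ∀ P : Subgroup Ω, N.Hom P = (Cfsg.innerFusionSystem (Cfsg.FusionSystem.normalizerIn S S)).Hom P) (Q : Subgroup Ω) (h1 : (commutator ↥S).map S.subtype ≤ Q) (h2 : Q ≤ (frattini ↥S).map S.subtype) : ∀ N : Cfsg.FusionSystem (Cfsg.FusionSystem.normalizerIn S Q), F.IsNormalizerSystem Q N → ∀ P : Subgroup Ω,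 N.Hom P = (Cfsg.innerFusionSystem (Cfsg.FusionSystem.normalizerIn S Q)).Hom P := by
  intro N hQN P
  rw [Subgroup.map_subtype_commutator] at h1
  have hQS : Q ≤ S := h2.trans (Subgroup.map_subtype_le _)
  have := Fus.finite_of_le hQS
  have hn : S ≤ FusionSystem.normalizerIn S Q := fun g hg =>
    Fus.mem_normalizerIn_of_conj hg fun y hy => by
      simpa [commutatorElement_def, mul_assoc] using Q.mul_mem
        (h1 (Subgroup.commutator_mem_commutator hg (hQS hy))) hy
  have e : FusionSystem.normalizerIn S Q = S := le_antisymm (Fus.normalizerIn_le S Q) hn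
  have hS' := Fus.isPGroup_of_le hS (Fus.normalizerIn_le S Q)
  have hsat := Fus.normalizerSystem_saturated hS hF
    (Fus.fullyNormalized_of_le_normalizer F hQS (hn.trans inf_le_right)) hQN
  rw [Fus.eq_inner_of_hyp_le_frattini hS' hsat ((Fus.hyp_le_of_stronglyClosed_of_inner hS' hsat
    (Fus.stronglyClosed_of_isNormal (Fus.isNormal_normalizerSystem hQS hQN)) (by rwa [e])
    fun f hf => ?_).trans (by rwa [e]))]
  obtain ⟨g, hg, h3⟩ := Fus.inner_top_of_normalizerSystem hN f
    (((Fus.isNormalizerSystem_iff.1 hQN _ f).1 hf).isMap.mono hn)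
  exact ⟨g, hn hg, fun x hx => h3 x hx.1⟩

end Cfsg.Agent.S5222
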