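import Cfsg.Statements.S5223
import Mathlib
import Cfsg.Agent.Fus.Hyper
import Cfsg.Agent.Fus.Normal


set_option autoImplicit false
open Cfsg

namespace Cfsg.Agent.S5223

/-- Let F be a saturated fusion system over a finite p-group S. Suppose there are subgroups Q₀ = S, Q₁, …, Qₙ = 1 (not required to be nested) such that for each i < n the focal subgroup of Qᵢ (generated by the elements x⁻¹φ(x), x ∈ Qᵢ, φ a map of F defined on the cyclic group generated by x) lies in Qᵢ₊₁. Then F is the inner fusion system of S. -/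
theorem result {Ω : Type*} [Group Ω] {S : Subgroup Ω} [Finite S] (p : ℕ) [Fact p.Prime] (hS : IsPGroup p S) (F : Cfsg.FusionSystem S) (hF : F.IsSaturated p) (n : ℕ) (Q : Fin (n + 1) → Subgroup Ω) (hQ0 : Q 0 = S) (hQn : Q (Fin.last n) = ⊥) (hstep : ∀ i : Fin n, Subgroup.closure {y : Ω | ∃ x ∈ Q i.castSucc, ∃ φ ∈ F.Hom (Subgroup.zpowers x), y = x⁻¹ * φ ⟨x, Subgroup.mem_zpowers x⟩} ≤ Q i.succ) : ∀ P : Subgroup Ω, F.Hom P = (Cfsg.innerFusionSystem S).Hom P := by
  open Cfsg.Agent.Fus in
  have key : F.hyperfocalSubgroup p = ⊥ := by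
    rw [eq_bot_iff, hyp_le_iff]
    intro P hP α hα hc x hx
    haveI : Finite P := finite_of_le hP
    have hPp := isPGroup_of_le hS hP
    have hm := isMap_afn hP hα
    have H : ∀ i : Fin (n + 1), ∀ y ∈ P, y ∈ Q i → afn α y = y := by
      intro i
      induction i using Fin.reverseInduction with
      | last =>
        intro y hy hyQ
        rw [hQn, Subgroup.mem_bot] at hyQ
        subst hyQ
        exact hm.map_one
      | cast i ih =>
        intro y hy hyQ
        have hz : Subgroup.zpowers y⁻¹ ≤ P := (Subgroup.zpowers_le).2 (P.inv_mem hy)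
        have h1 := hstep i (Subgroup.subset_closure ⟨y⁻¹, (Q _).inv_mem hyQ,
          (hm.mono hz).homOn.toHom, (hm.mono hz).toHom_mem, rfl⟩)
        rw [HomOn.toHom_apply] at h1
        refine fix_of_step hPp hc ih hy ?_
        have h2 := (Q _).inv_mem h1
        simp only [inv_inv, mul_inv_rev] at h2
        rwa [hm.map_inv hy, inv_inv] at h2
    rw [H 0 x hx (by rw [hQ0]; exact hP hx)]
    simp
  intro P
  rw [Cfsg.Agent.Fus.eq_inner_of_hyp_eq_bot hS hF key]

end Cfsg.Agent.S5223
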