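import Cfsg.Statements.S5225
import Mathlib
import Cfsg.Agent.Fus.Yoshida


set_option autoImplicit false
open Cfsg

namespace Cfsg.Agent.S5225

/-- Yoshida's Theorem for fusion systems. Let F be a saturated fusion system over a finite p-group S and N the normalizer fusion system of S in F. If the focal subgroups of F and N differ (N does not control transfer in F), then S has a quotient isomorphic to the wreath product C_p ≀ C_p (realised as a Sylow p-subgroup of the symmetric group of degree p²). -/
theorem result {Ω : Type*} [Group Ω] {S : Subgroup Ω} [Finite S] (p : ℕ) [Fact p.Prime] (hS : IsPGroup p S) (F : Cfsg.FusionSystem S) (hF : F.IsSaturated p) (N : Cfsg.FusionSystem (Cfsg.FusionSystem.normalizerIn S S)) (hN : F.IsNormalizerSystem S N) (hne : N.focalSubgroup ≠ F.focalSubgroup) : ∃ (W : Sylow p (Equiv.Perm (Fin (p ^ 2)))) (f : ↥S →* ↥(W : Subgroup (Equiv.Perm (Fin (p ^ 2))))), Function.Surjective f := by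
  have hN' := Fus.isNormalizerSystem_iff.1 hN
  have hle : N.focalSubgroup ≤ F.focalSubgroup :=
    Fus.focal_mono (Fus.isSubsystemOf_iff.2 fun P f hf => ((hN' P f).1 hf).isMap)
  refine Fus.yoshida_fusion hS hF (fun f hf x hx => ?_) hle fun h => hne (le_antisymm hle h)
  refine Fus.mem_focal ((hN' S f).2 ⟨Fus.le_normalizerIn le_rfl, f, by rwa [sup_idem],
    fun _ _ => rfl, hf.img_eq_self fun y hy => hf.mem hy⟩) hx

end Cfsg.Agent.S5225
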