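import Cfsg.Statements.S5226
import Mathlib
import Cfsg.Agent.Fus.Normal

set_option autoImplicit false
open Cfsg

namespace Cfsg.Agent.S5226

/-- Let F be a saturated fusion system over a finite p-group S and Q a subgroup of S. Then Q is normal in F (F equals the normalizer system of Q) if and only if Q is strongly closed in F and admits a central series 1 = Q₀ ≤ Q₁ ≤ ⋯ ≤ Qₙ = Q ([Qᵢ₊₁, Q] ≤ Qᵢ) all of whose proper terms are weakly closed in F. -/
theorem result {Ω : Type*} [Group Ω] {S : Subgroup Ω} [Finite S] (p : ℕ) [Fact p.Prime] (hS : IsPGroup p S) (F : Cfsg.FusionSystem S) (hF : F.IsSaturated p) (Q : Subgroup Ω) : F.IsNormal Q ↔ F.StronglyClosed Q ∧ ∃ (n : ℕ) (C : Fin (n + 1) → Subgroup Ω), C 0 = ⊥ ∧ C (Fin.last n) = Q ∧ Monotone C ∧ (∀ i : Fin n, ⁅C i.succ, Q⁆ ≤ C i.castSucc) ∧ ∀ i : Fin n, F.WeaklyClosed (C i.castSucc) := by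
  constructor
  · intro h
    have := Fus.finite_of_le h.1
    obtain ⟨n, hn⟩ := Fus.exists_ucs_eq (hS.to_le h.1)
    refine ⟨Fus.stronglyClosed_of_isNormal h, n, fun i => Fus.ucs Q i, Fus.ucs_zero Q, hn,
      fun i j hij => Fus.ucs_mono Q hij, fun i => ?_,
      fun i => Fus.weaklyClosed_of_isNormal (Fus.isNormal_ucs h _)⟩
    rw [Subgroup.commutator_le]
    intro x hx y hy
    exact (Fus.mem_ucs_succ.1 hx).2 y hy
  · rintro ⟨hQ, n, C, h0, hn, hmono, h, hw⟩
    refine Fus.isNormal_of_weak_chain hS hF hQ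
      (fun i => if hi : i < n + 1 then C ⟨i, hi⟩ else ⊤) n (by simpa using h0) ?_ ?_ ?_ ?_
    · simp only [Nat.lt_succ_self, dif_pos]; exact hn
    · intro i hi
      simp only [Nat.lt_succ_of_le hi, dif_pos]
      rw [← hn]; exact hmono (Fin.le_last _)
    · intro i hi
      have h2 : i < n + 1 := by omega
      simp only [h2, dif_pos]; exact hw ⟨i, hi⟩
    · intro i hi x hx y hy
      have h1 : i + 1 < n + 1 := by omega
      have h2 : i < n + 1 := by omega
      simp only [h1, h2, dif_pos] at hy ⊢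
      have := Subgroup.inv_mem _ (h ⟨i, hi⟩ (Subgroup.commutator_mem_commutator hy hx))
      rw [commutatorElement_inv] at this
      exact this

end Cfsg.Agent.S5226
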