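import Mathlib
import Cfsg.Statements.S5233
import Cfsg.Agent.Fus.Resist
-- import your own Cfsg.Agent.* helpers here

set_option autoImplicit false
open Cfsg

namespace Cfsg.Agent.S5233

open Cfsg.Agent.Fus Cfsg.FusionSystem

open Subgroup in
open scoped commutatorElement in
theorem aux {G : Type*} [Group G] [Finite G] {p : ℕ} [hp : Fact p.Prime] (hG : IsPGroup p G)
    {z : G} (hz : orderOf z = p) (hΦ : frattini G = zpowers z)
    (h2 : p = 2 → ¬ ∃ (A : Type) (_ : CommGroup A), (∀ a : A, a ^ 2 = 1) ∧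
      Nonempty (G ≃* DihedralGroup 4 × A))
    (hodd : p ≠ 2 → ¬ ∃ (E : Type) (_ : Group E) (A : Type) (_ : CommGroup A),
      IsExtraspecial p E ∧ Nat.card E = p ^ 3 ∧ Monoid.exponent E = p ∧ (∀ a : A, a ^ p = 1) ∧
      Nonempty (G ≃* E × A)) {w x : G} (hx : ⁅x, w⁆ ≠ 1) (h3 : ∀ a, a * w = w * a → a ^ p = 1)
    (h4 : ∀ a b, a * w = w * a → b * w = w * b → a * b = b * a) :
    p ≠ 2 ∧ ∀ x, x ^ p = 1 → x * w = w * x := by
  have hΦc : Nat.card (frattini G) = p := by rw [hΦ, Nat.card_zpowers, hz]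
  have hcomm : ∀ a b : G, ⁅a, b⁆ ∈ zpowers z := fun a b => hΦ ▸
    Grp.PFrattini.commutator_le_frattini hG (commutator_mem_commutator (mem_top a) (mem_top b))
  have hzc := Grp.PChain.le_center_of_card_eq_prime hG _ hΦc
  have hcc : ∀ a b c : G, Commute ⁅a, b⁆ c := fun a b c =>
    (Subgroup.mem_center_iff.1 (hzc (hΦ ▸ hcomm a b)) c).symm
  have hZ := AC.index_center_of_abelian_centralizer hz hG hcomm hx h4
  have hexp : ∀ u ∈ center G, u ^ p = 1 := fun u hu => h3 u (Subgroup.mem_center_iff.1 hu w).symm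
  have key : ∀ y, y ^ p = 1 → y * w = w * y := by
    intro y hy
    by_contra hne
    replace hne : ⁅y, w⁆ ≠ 1 := fun h => hne (commutatorElement_eq_one_iff_mul_comm.1 h)
    obtain ⟨K, hyK, hwK, hK, M, hM, ⟨e⟩⟩ := AC.exists_split_center hG hZ hexp hΦc hne
    let ψ : Shrink.{0} M ≃* M := Shrink.mulEquiv
    let : CommGroup (Shrink.{0} M) := { (inferInstance : Group (Shrink.{0} M)) with
      mul_comm := fun a b => ψ.injective (Subtype.ext (by
        simpa using Subgroup.mem_center_iff.1 (hM (ψ b).2) (ψ a))) }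
    have hA : ∀ a : Shrink.{0} M, a ^ p = 1 := fun a =>
      ψ.injective (Subtype.ext (by simpa using hexp _ (hM (ψ a).2)))
    by_cases hp2 : p = 2
    · subst hp2
      obtain ⟨φ⟩ := AC.nonempty_equiv_D8 hK (x := ⟨y, hyK⟩) (y := ⟨w, hwK⟩) (Subtype.ext hy)
        (Subtype.ext (h3 w rfl)) (fun h => hne (congrArg Subtype.val h))
      exact h2 rfl ⟨Shrink.{0} M, this, hA, ⟨e.trans (φ.prodCongr ψ.symm)⟩⟩
    let π : G →* G := MonoidHom.mk' (fun g => g ^ p) fun a b =>
      Grp.CommPow.mul_pow_eq_of_odd (hcc _ _ _) (hcc _ _ _) (hp.out.odd_of_ne_two hp2)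
        (hexp _ (hzc (hΦ ▸ hcomm b a)))
    have hall : ∀ g : G, g ^ p = 1 := fun g => by
      obtain ⟨-, -, -, -, -, -, hgen⟩ := AC.exists_z hZ
      obtain ⟨a, b, u, hu, rfl⟩ := hgen y w hne g
      exact mul_mem (mul_mem (zpow_mem (show y ∈ π.ker from hy) a)
        (zpow_mem (show w ∈ π.ker from h3 w rfl) b)) (show u ∈ π.ker from hexp u hu)
    let φ : Shrink.{0} K ≃* K := Shrink.mulEquiv
    have : Finite (Shrink.{0} K) := Finite.of_equiv _ φ.symm.toEquiv
    have hc : Nat.card (Shrink.{0} K) = p ^ 3 := (Nat.card_congr φ.toEquiv).trans hK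
    have : Nontrivial (Shrink.{0} K) := (IsPGroup.of_card hc).nontrivial_iff_card.2 ⟨3, by norm_num, hc⟩
    refine hodd hp2 ⟨Shrink.{0} K, inferInstance, Shrink.{0} M, inferInstance,
      AC.isExtraspecial_of_cube hc ⟨φ.symm ⟨y, hyK⟩, φ.symm ⟨w, hwK⟩, fun h => hne ?_⟩, hc,
      (Monoid.exponent_eq_prime_iff hp.out).2 fun g hg => orderOf_eq_prime
        (φ.injective (Subtype.ext (by simpa using hall (φ g)))) hg, hA,
      ⟨e.trans (φ.symm.prodCongr ψ.symm)⟩⟩
    rw [← map_commutatorElement, map_eq_one_iff _ φ.symm.injective] at h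
    exact congrArg Subtype.val h
  refine ⟨?_, key⟩
  rintro rfl
  have hE : ∀ u ∈ zpowers z, u ≠ 1 → u = z := by
    classical
    intro u hu h1
    rw [← mem_powers_iff_mem_zpowers, mem_powers_iff_mem_range_orderOf, hz] at hu
    simp only [Finset.mem_image, Finset.mem_range] at hu
    obtain ⟨i, hi, rfl⟩ := hu
    interval_cases i <;> simp_all
  have e1 := hE _ (hΦ ▸ Grp.PFrattini.pow_mem_frattini hG x)
    fun h => hx (commutatorElement_eq_one_iff_mul_comm.2 (key x h))
  have e2 := hE _ (hcomm w x) (by rwa [← commutatorElement_inv, Ne, inv_eq_one])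
  have e3 := key (x * w) (by
    rw [Grp.CommPow.mul_pow_of_commute (hcc _ _ _) (hcc _ _ _), e1, e2, h3 w rfl, ← hz]
    simp [hz, ← pow_two, show z ^ 2 = 1 from hz ▸ pow_orderOf_eq_one z])
  exact hx (commutatorElement_eq_one_iff_mul_comm.2 (by simpa [← mul_assoc] using e3))

/-- Let F be a saturated fusion system over a finite p-group S and P a subgroup of S strongly closed in F that is generalized extraspecial (its Frattini subgroup equals its commutator subgroup and has order p) and not isomorphic to E × A with A elementary abelian and E dihedral of order 8 (p = 2) or extraspecial of order p³ and exponent p (p odd). Then P is normal in F. -/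
theorem result {Ω : Type*} [Group Ω] {S : Subgroup Ω} [Finite S] (p : ℕ) [Fact p.Prime] (hS : IsPGroup p S) (F : Cfsg.FusionSystem S) (hF : F.IsSaturated p) (P : Subgroup Ω) (hP : F.StronglyClosed P) (hge : frattini ↥P = commutator ↥P ∧ Nat.card ↥(commutator ↥P) = p) (h2 : p = 2 → ¬ ∃ (A : Type) (_ : CommGroup A), (∀ a : A, a ^ 2 = 1) ∧ Nonempty (↥P ≃* DihedralGroup 4 × A)) (hodd : p ≠ 2 → ¬ ∃ (E : Type) (_ : Group E) (A : Type) (_ : CommGroup A), Cfsg.IsExtraspecial p E ∧ Nat.card E = p ^ 3 ∧ Monoid.exponent E = p ∧ (∀ a : A, a ^ p = 1) ∧ Nonempty (↥P ≃* E × A)) : F.IsNormal P := by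
  have : Finite P := finite_of_le hP.1
  have hp : p.Prime := Fact.out
  have hG := isPGroup_of_le hS hP.1
  obtain ⟨⟨z, hz⟩, hz1⟩ := Subgroup.ne_bot_iff_exists_ne_one.1
    (show commutator P ≠ ⊥ from fun h => hp.one_lt.ne (by simpa [h] using hge.2))
  have hΦ := hge.1.trans (AC.eq_zpowers_of_card hge.2 hz fun h => hz1 (Subtype.ext h))
  have ho : orderOf z = p := by rw [← Nat.card_zpowers, ← hΦ, hge.1, hge.2]
  have hN := le_normalizerIn_of_weaklyClosed (weaklyClosed_of_stronglyClosed hP)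
  have hm : ∀ u : P, u ∈ frattini P → (u : Ω) ∈ Subgroup.zpowers (z : Ω) := fun u hu => by
    obtain ⟨i, hi⟩ := hΦ ▸ hu
    exact ⟨i, congrArg Subtype.val hi⟩
  refine isNormal_of_genES hS hF hP (z := z) (by rw [Subgroup.orderOf_coe, ho]) z.2
    (fun s hs => ?_) (fun x hx y hy => hm _ (Grp.PFrattini.commutator_le_frattini hG
      (Subgroup.commutator_mem_commutator (Subgroup.mem_top ⟨x, hx⟩) (Subgroup.mem_top ⟨y, hy⟩))))
    (fun x hx => hm _ (Grp.PFrattini.pow_mem_frattini hG ⟨x, hx⟩)) ?_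
  · obtain ⟨k, hk⟩ := exists_pow_conjAut hS (hN hs)
    have := AC.step_of_pElt hG hk (U := ⊥) (V := commutator P) (by simp)
      (AC.inv_of_char ⊤ _ _ trivial) (by simp [hge.2]) hz
    exact mul_inv_eq_iff_eq_mul.1 (congrArg Subtype.val
      (inv_mul_eq_one.1 (Subgroup.mem_bot.1 this))).symm
  · rintro w hw ⟨x, hx, hxw⟩ h3 h4
    obtain ⟨h5, h6⟩ := aux hG ho hΦ h2 hodd (w := ⟨w, hw⟩) (x := ⟨x, hx⟩)
      (fun h => hxw (congrArg Subtype.val h))
      (fun a h => Subtype.ext (h3 a a.2 (congrArg Subtype.val h)))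
      (fun a b h h' => Subtype.ext (h4 a a.2 b b.2 (congrArg Subtype.val h) (congrArg Subtype.val h')))
    exact ⟨h5, fun y hy h => congrArg Subtype.val (h6 ⟨y, hy⟩ (Subtype.ext h))⟩

end Cfsg.Agent.S5233
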