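import Cfsg.Statements.S5236
import Mathlib
import Cfsg.Agent.Fus.Omega

set_option autoImplicit false
open Cfsg

namespace Cfsg.Agent.S5236

open scoped commutatorElement

/-- Let p be an odd prime, F a saturated fusion system over a finite p-group S and P a subgroup of S strongly closed in F. Then P is normal in F if and only if Ω₁(P) (the subgroup generated by the elements of order p of P) has a chain of subgroups 1 = Q₀ ≤ Q₁ ≤ ⋯ ≤ Qₙ = Ω₁(P), each strongly closed in F, with [Qᵢ₊₁, P] ≤ Qᵢ for all i. -/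
theorem result {Ω : Type*} [Group Ω] {S : Subgroup Ω} [Finite S] (p : ℕ) [Fact p.Prime] (hS : IsPGroup p S) (F : Cfsg.FusionSystem S) (hF : F.IsSaturated p) (hp : p ≠ 2) (P : Subgroup Ω) (hP : F.StronglyClosed P) : F.IsNormal P ↔ ∃ (n : ℕ) (Q : Fin (n + 1) → Subgroup Ω), Q 0 = ⊥ ∧ Q (Fin.last n) = Cfsg.omegaOne p P ∧ Monotone Q ∧ (∀ i : Fin (n + 1), F.StronglyClosed (Q i)) ∧ ∀ i : Fin n, ⁅Q i.succ, P⁆ ≤ Q i.castSucc := by
  constructor
  · intro h
    have : Finite P := Fus.finite_of_le h.1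
    obtain ⟨n, hn⟩ := Fus.exists_ucs_eq (Fus.isPGroup_of_le hS h.1)
    refine ⟨n, fun i => Fus.ucs P i ⊓ Cfsg.omegaOne p P, by simp [Fus.ucs_zero], ?_,
      fun i j hij => inf_le_inf_right _ (Fus.ucs_mono P hij), fun i => Fus.stronglyClosed_inf
        (Fus.stronglyClosed_of_isNormal (Fus.isNormal_ucs h i))
        (Fus.stronglyClosed_of_isNormal (Fus.isNormal_omegaOne h)), fun i => ?_⟩
    · simp only [Fin.val_last, hn]
      exact inf_eq_right.2 (Fus.omegaOne_le p P)
    · refine Subgroup.commutator_le.2 fun y hy x hx => ⟨?_, ?_⟩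
      · exact (Fus.mem_ucs_succ.1 hy.1).2 x hx
      · show ⁅y, x⁆ ∈ Cfsg.omegaOne p P
        have h1 := Fus.conj_mem_of_stronglyClosed
            (Fus.stronglyClosed_of_isNormal (Fus.isNormal_omegaOne (p := p) h)) (h.1 hx)
            (Subgroup.inv_mem _ hy.2)
        have h2 : ⁅y, x⁆ = y * (x * y⁻¹ * x⁻¹) := by rw [commutatorElement_def]; group
        rw [h2]; exact Subgroup.mul_mem _ hy.2 h1
  · rintro ⟨n, Q, h0, hn, -, hQ, hstep⟩
    refine Fus.isNormal_of_small_chain hS hF hP (fun i => if h : i < n + 1 then Q ⟨i, h⟩ else ⊥) n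
      (by simpa using h0) (fun x hx hq => ?_) (fun i hi => ?_) fun i hi x hx y hy => ?_
    · rw [Grp.CritExp.expQ_of_ne hp] at hq
      simp only [Nat.lt_add_one, dite_true]
      rw [show (⟨n, Nat.lt_add_one n⟩ : Fin (n + 1)) = Fin.last n from rfl, hn]
      exact Subgroup.subset_closure ⟨hx, hq⟩
    · simp only [Nat.lt_add_one_of_le hi, dite_true]; exact hQ _
    · simp only [Nat.add_lt_add_right hi 1, dite_true] at hy
      simp only [Nat.lt_add_one_of_lt hi, dite_true]
      have := hstep ⟨i, hi⟩ (Subgroup.commutator_mem_commutator hy hx)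
      have h2 := Subgroup.inv_mem _ this
      rw [commutatorElement_inv] at h2
      exact h2

end Cfsg.Agent.S5236
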