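import Cfsg.Statements.S5243
import Mathlib
import Cfsg.Agent.Fus.PPrime

set_option autoImplicit false
open Cfsg

namespace Cfsg.Agent.S5243

/-- Let F be a saturated fusion system over a finite p-group S, E a normal subsystem of F over T ≤ S, and χ a surjective homomorphism from Aut_F(T) onto a nontrivial finite group Δ of order prime to p whose kernel contains Aut_E(T). Then there is a proper normal subsystem F₀ of F over S containing E such that Aut_{F₀}(S) consists of those α ∈ Aut_F(S) whose restriction to T is an element of Aut_F(T) in the kernel of χ; moreover every p'-residual subsystem O^{p'}(F) of F is contained in F₀. -/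
theorem result {Ω : Type*} [Group Ω] {S : Subgroup Ω} [Finite S] (p : ℕ) [Fact p.Prime] (hS : IsPGroup p S) (F : Cfsg.FusionSystem S) (hF : F.IsSaturated p) {T : Subgroup Ω} (hTS : T ≤ S) (E : Cfsg.FusionSystem T) (hE : E.IsNormalIn F p) {Δ : Type*} [Group Δ] [Finite Δ] [Nontrivial Δ] (hΔ : (Nat.card Δ).Coprime p) (χ : ↥(F.autGroup T) →* Δ) (hχ : Function.Surjective χ) (hker : (E.autGroup T).subgroupOf (F.autGroup T) ≤ χ.ker) : ∃ F₀ : Cfsg.FusionSystem S, F₀.IsNormalIn F p ∧ ¬ (∀ P : Subgroup Ω, F₀.Hom P = F.Hom P) ∧ E.IsSubsystemOf F₀ ∧ (∀ α : MulAut ↥S, α ∈ F₀.autGroup S ↔ α ∈ F.autGroup S ∧ ∃ β : ↥(F.autGroup T), χ β = 1 ∧ ∀ t : ↥T, (((β : MulAut ↥T) t : ↥T) : Ω) = ((α ⟨(t : Ω), hTS t.2⟩ : ↥S) : Ω)) ∧ ∀ R : Cfsg.FusionSystem S, F.IsPPrimeResidual p R → R.IsSubsystemOf F₀ := by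
  have hw := hE.1
  have hT := Fus.Inv.sc hw.2.2
  have := Fus.finite_of_le hTS
  have hTp := Fus.isPGroup_of_le hS hTS
  set K : Subgroup (MulAut T) := χ.ker.map (F.autGroup T).subtype with hKd
  have hmem : ∀ β (hβ : β ∈ F.autGroup T), β ∈ K ↔ χ ⟨β, hβ⟩ = 1 := fun β hβ =>
    ⟨fun ⟨b, hb, e⟩ => by
      have : b = ⟨β, hβ⟩ := Subtype.ext e
      rw [← this]; exact hb, fun h => ⟨⟨β, hβ⟩, h, rfl⟩⟩
  have hK : K ≤ F.autGroup T := Subgroup.map_subtype_le _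
  have hEK : E.autGroup T ≤ K := fun β hβ =>
    (hmem β (Fus.autGroup_mono (Fus.Inv.sub hw.2.2) T hβ)).2 (hker hβ)
  have hp : ∀ β ∈ F.autGroup T, ∀ k : ℕ, β ^ p ^ k ∈ K → β ∈ K := fun β hβ k h => by
    rw [hmem _ (Subgroup.pow_mem _ hβ _)] at h
    rw [hmem _ hβ]
    have h1 : χ ⟨β, hβ⟩ ^ p ^ k = 1 := by rw [← map_pow]; exact h
    exact orderOf_eq_one_iff.1 (Nat.eq_one_of_dvd_coprimes (hΔ.pow_right k)
      (orderOf_dvd_natCard _) (orderOf_dvd_of_pow_eq_one h1))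
  have hKn : ∀ β ∈ F.autGroup T, ∀ κ ∈ K, β * κ * β⁻¹ ∈ K := fun β hβ κ hκ => by
    have hκ' := hK hκ
    rw [hmem _ hκ'] at hκ
    exact ⟨⟨β, hβ⟩ * ⟨κ, hκ'⟩ * ⟨β, hβ⟩⁻¹, χ.normal_ker.conj_mem _ hκ _, rfl⟩
  have hpp := Fus.ppCond_autRes hS hw hK hEK hp
  have hres : ∀ α ∈ F.autGroup S, ∃ β ∈ F.autGroup T, ∀ x ∈ T, Fus.afn β x = Fus.afn α x :=
    fun α hα =>
      have h1 := (Fus.isMap_afn le_rfl hα).mono hTS
      h1.exists_aut (h1.img_stronglyClosed hT le_rfl)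
  have hN := Fus.ppSys_normal hS hF inf_le_left hpp fun β hβ α hα =>
    ⟨Subgroup.mul_mem _ (Subgroup.mul_mem _ hβ hα.1) (Subgroup.inv_mem _ hβ),
      Fus.conj_mem_autRes hTS le_rfl hKn ⟨hβ, Fus.mem_stab_of_img hTS
        (((Fus.isMap_afn le_rfl hβ).mono hTS).img_stronglyClosed hT le_rfl)⟩ hα.2⟩
  have haut := Fus.autGroup_ppSys hS hF inf_le_left hpp
  have hTn := Fus.fullyNormalized_of_weaklyClosed (Fus.weaklyClosed_of_stronglyClosed hT)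
  -- every element of `Aut_F(T)` is a restriction from `S` modulo `O^{p'}`
  have hdec : ∀ γ ∈ F.autGroup T, ∃ κ ∈ Fus.ppSub p (F.autGroup T), ∃ α ∈ F.autGroup S,
      ∃ β ∈ F.autGroup T, (∀ x ∈ T, Fus.afn β x = Fus.afn α x) ∧ γ = κ * β := fun γ hγ => by
    obtain ⟨κ, hκ, g, hg, e⟩ := Fus.exists_mul_ext hS hF hTn (Fus.ppSub_le p _)
      (fun γ hγ κ hκ => Fus.conj_mem_ppSub hγ hκ)
      (Fus.le_normalizerIn_of_weaklyClosed (Fus.weaklyClosed_of_stronglyClosed hT))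
      (Fus.le_ppSub_of_isPGroup (Fus.isPGroup_autInducedBy hS T)
        (Fus.autInducedBy_le_autGroup F hTS)) hγ
    have hg' := hg.mono le_sup_left
    obtain ⟨α, hα, eα⟩ := hg'.exists_aut' fun x hx => hg'.mem hx
    obtain ⟨β, hβ, eβ⟩ := hres α hα
    exact ⟨κ, hκ, α, hα, β, hβ, eβ, Fus.aut_ext fun x hx => by
      rw [(e x hx).1, Fus.afn_mul _ _ hx, eβ x hx, eα x (hTS hx)]⟩
  have hppK : Fus.ppSub p (F.autGroup T) ≤ K := Fus.ppSub_le_iff.2 fun β hβ ⟨k, hk⟩ =>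
    hp β hβ k (by rw [← hk, pow_orderOf_eq_one]; exact K.one_mem)
  refine ⟨_, hN, fun heq => ?_, ?_, fun α => ?_, fun R hR => ?_⟩
  · have h1 := Fus.fs_ext heq
    rw [h1] at haut
    obtain ⟨d, hd⟩ := exists_ne (1 : Δ)
    obtain ⟨γ, rfl⟩ := hχ d
    obtain ⟨κ, hκ, α, hα, β, hβ, e, eγ⟩ := hdec γ γ.2
    rw [haut] at hα
    obtain ⟨β', hβ', e'⟩ := hα.2
    have : β' = β := Fus.aut_ext fun x hx => by rw [e' x hx, e x hx]
    exact hd ((hmem γ γ.2).1 (eγ ▸ K.mul_mem (hppK hκ) (this ▸ hβ')))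
  · refine (Fus.le_resSys_iff (hT := hTS)).1 (Fus.le_of_sInv_of_top hTp hw.1 (Fus.Inv.sub hw.2.2)
      ((Fus.Inv.sInv hN.1.2.2).resSys hT hTS) fun γ hγ => ?_)
    rw [Fus.autGroup_resSys _ hTS le_rfl]
    obtain ⟨κ, hκ, α, hα, β, hβ, e, eγ⟩ := hdec γ (Fus.autGroup_mono (Fus.Inv.sub hw.2.2) T hγ)
    have h1 : β ∈ K := by
      have := K.mul_mem (K.inv_mem (hppK hκ)) (hEK hγ)
      rwa [eγ, inv_mul_cancel_left] at this
    have h2 : α ∈ (Fus.ppSys p F _ inf_le_left).autGroup S := haut.ge ⟨hα, β, h1, e⟩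
    rw [eγ]
    exact Subgroup.mul_mem _ (Fus.ppSub_le_of_sInv_top hS hF (Fus.Inv.sInv hN.1.2.2) hTS hκ)
      (Fus.mem_autGroup_of_isMap ((Fus.isMap_afn le_rfl h2).mono hTS) e)
  · rw [haut]
    refine and_congr_right fun hα => ⟨fun ⟨β, hβ, e⟩ => ⟨⟨β, hK hβ⟩, (hmem β (hK hβ)).1 hβ,
      fun t => ?_⟩, fun ⟨β, hβ, e⟩ => ⟨β, (hmem β β.2).2 hβ, fun y hy => ?_⟩⟩
    · rw [← Fus.afn_coe, e t t.2, Fus.afn_apply]
    · rw [Fus.afn_apply _ hy, Fus.afn_apply _ (hTS hy)]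
      exact e ⟨y, hy⟩
  · exact hR.2.2 _ hN.1.1 (Fus.hasPrimeToPIndexIn_of_opStar_le hS hF (Fus.opStar_le_ppSys _)
      (Fus.ppSys_le _))

end Cfsg.Agent.S5243
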