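import Mathlib
import Cfsg.Statements.S5244
import Cfsg.Agent.Fus.AbelIdx
-- import your own Cfsg.Agent.* helpers here

set_option autoImplicit false
open Cfsg

namespace Cfsg.Agent.S5244

open Cfsg.Agent.Fus Cfsg.FusionSystem

/-- Let p be an odd prime, S a finite nonabelian p-group with a unique abelian subgroup A of index p, and F a saturated fusion system over S with no nontrivial normal subgroup (O_p(F) = 1) in which A is not F-essential. Then some subgroup Z(S)⟨x⟩ with x ∈ S outside A is F-essential, the centre Z(S) is contained in the commutator subgroup of S, and S has maximal nilpotency class (if S has order pⁿ with n ≥ 3, the term of index n − 2 of its lower central series, counting S itself as the term of index 0, is nontrivial). -/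
theorem result {Ω : Type*} [Group Ω] {S : Subgroup Ω} [Finite S] (p : ℕ) [Fact p.Prime] (hS : IsPGroup p S) (F : Cfsg.FusionSystem S) (hF : F.IsSaturated p) (hp : p ≠ 2) (hna : ¬ IsMulCommutative ↥S) (A : Subgroup Ω) (hA : A ≤ S ∧ IsMulCommutative ↥A ∧ (A.subgroupOf S).index = p) (huniq : ∀ B : Subgroup Ω, B ≤ S → IsMulCommutative ↥B → (B.subgroupOf S).index = p → B = A) (hcore : F.core = ⊥) (hAe : ¬ F.IsEssential p A) : (∃ x ∈ S, x ∉ A ∧ F.IsEssential p ((S ⊓ Subgroup.centralizer (S : Set Ω)) ⊔ Subgroup.zpowers x)) ∧ (S ⊓ Subgroup.centralizer (S : Set Ω)) ≤ (commutator ↥S).map S.subtype ∧ ∀ n : ℕ, Nat.card S = p ^ n → 3 ≤ n → Subgroup.lowerCentralSeries S (n - 2) ≠ ⊥ := by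
  have hp' : p.Prime := Fact.out
  have hca : ∀ x ∈ A, ∀ y ∈ A, x * y = y * x := fun x hx y hy =>
    congrArg Subtype.val (hA.2.1.is_comm.comm ⟨x, hx⟩ ⟨y, hy⟩)
  have hcs := fun P (hP : F.IsEssential p P) => ess_cases hS hF hna hA.1 hca hA.2.2 huniq hP
    fun h => hAe (h ▸ hP)
  have hna' : commutator S ≠ ⊥ := fun h => hna ((commutator_eq_bot_iff _).1 h)
  have hS1 : S ≠ ⊥ := by
    rintro rfl
    exact hna ⟨⟨fun a b => Subsingleton.elim _ _⟩⟩
  obtain ⟨P, hP⟩ : ∃ R, F.IsEssential p R := by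
    by_contra h
    exact hS1 (le_bot_iff.1 (hcore ▸ le_core
      (isNormal_top_of_no_essential hS hF fun R hR => h ⟨R, hR⟩)))
  obtain ⟨-, -, -, h1, h2, -⟩ := hcs P hP
  have := AC.normal_subgroupOf_of_relIndex_dvd hS (show A.relIndex S = p from hA.2.2).dvd
  have hc : IsMulCommutative (A.subgroupOf S) := Grp.PChain.isMulCommutative_of_commute
    fun a ha b hb => Subtype.ext (hca a ha b hb)
  have h3 : Subgroup.upperCentralSeries S 2 ≤ A.subgroupOf S := fun a ha => h1 ⟨a, ha, rfl⟩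
  obtain ⟨h4, -⟩ := AC.card_center_inf_commutator (A.subgroupOf S) hc hA.2.2 hna' h3
  have h6 : (Subgroup.center S).relIndex (Subgroup.upperCentralSeries S 2) = p := by
    rw [← Subgroup.relIndex_map_map_of_injective _ _ S.subtype_injective, map_center_eq]
    exact h2
  rw [h6] at h4
  obtain ⟨⟨z, hz⟩, hz1⟩ := Subgroup.ne_bot_iff_exists_ne_one.1
    (show Subgroup.center S ⊓ commutator S ≠ ⊥ from fun h => hp'.one_lt.ne (by simpa [h] using h4))
  have h5 := AC.eq_zpowers_of_card h4 hz fun h => hz1 (Subtype.ext h)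
  have hSS : (commutator S).map S.subtype = ⁅S, S⁆ := S.map_subtype_commutator
  have hzp : z ^ p = 1 := by
    rw [← h4, h5, Nat.card_zpowers, pow_orderOf_eq_one]
  have hz' : ∀ u ∈ centralizerIn S S, u ∈ ⁅S, S⁆ → u ∈ Subgroup.zpowers (z : Ω) := by
    intro u hu hu'
    obtain ⟨v, hv, rfl⟩ := hSS ▸ hu'
    obtain ⟨i, hi⟩ := h5.le (⟨center_subgroupOf_self S ▸ hu, hv⟩ :
      v ∈ Subgroup.center S ⊓ commutator S)
    exact ⟨i, congrArg Subtype.val hi⟩
  have hzS : (z : Ω) ∈ ⁅S, S⁆ := hSS ▸ ⟨z, hz.2, rfl⟩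
  obtain ⟨⟨R, hR, hi⟩, h7⟩ := center_le_zpowers hS hF hp hcore hS1 (congrArg Subtype.val hzp)
    (center_subgroupOf_self S ▸ hz.1 :) hz' hzS fun R hR => by
      obtain ⟨x, hx, -, k1, -, -, k2⟩ := hcs R hR
      refine k2.imp And.left fun ⟨k3, k4, a, ha, b, hb, hab, k5⟩ => ⟨k4, ?_⟩
      have : Finite R := finite_of_le hR.1.1
      obtain ⟨i, hi⟩ := hz' _ k5 (Subgroup.commutator_mem_commutator (hR.1.1 ha) (hR.1.1 hb))
      obtain ⟨j, hj⟩ := AC.exists_zpow_of_mem_zpowers hzp (u := z ^ i) ⟨i, rfl⟩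
        (fun h => hab (hi ▸ congrArg Subtype.val h)) (Subgroup.mem_zpowers z)
      have := zpow_mem (Subgroup.commutator_mem_commutator ha hb) j
      rw [← hi] at this
      exact (congrArg Subtype.val hj : ((z : Ω) ^ i) ^ j = z) ▸ this
  refine ⟨?_, h7.trans (hSS ▸ Subgroup.zpowers_le.2 hzS), fun n hn h3 hbot => ?_⟩
  · obtain ⟨x, hx, hxA, -, k1, -, k2⟩ := hcs R hR
    rcases k2 with k2 | ⟨-, -, a, ha, b, hb, hab, -⟩
    · exact ⟨x, hR.1.1 hx, hxA, k2.2 ▸ hR⟩
    · exact absurd (commutatorElement_eq_one_iff_mul_comm.2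
        (comm_of_relIndex_center hR.1.1 hi a ha b hb)) hab
  · have h8 := AC.card_le_of_lcs_le (A.subgroupOf S) hc hA.2.2 hna' h4.le (k := n - 3) fun u hu =>
      Subgroup.mem_center_iff.2 fun g => by
        have := Subgroup.commutator_mem_commutator (Subgroup.top_subtype_lowerCentralSeries S _ ▸
          ⟨u, hu, rfl⟩ : (u : Ω) ∈ S.lowerCentralSeries (n - 3)) g.2
        rw [← Subgroup.lowerCentralSeries_succ, show n - 3 + 1 = n - 2 by omega, hbot] at this
        exact Subtype.ext (commutatorElement_eq_one_iff_mul_comm.1 this).symm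
    have h9 := (A.subgroupOf S).card_mul_index
    have h10 : Subgroup.center S ⊓ commutator S = Subgroup.center S := inf_eq_left.2 fun u hu => by
      obtain ⟨i, hi⟩ := h7 (center_subgroupOf_self S ▸ hu :)
      exact (Subtype.ext hi : z ^ i = u) ▸ zpow_mem (Subgroup.mem_inf.1 hz).2 i
    rw [hA.2.2, hn, show n = n - 3 + 1 + 1 + 1 by omega, pow_succ] at h9
    rw [Nat.eq_of_mul_eq_mul_right hp'.pos h9, ← h10, h4, ← pow_succ'] at h8
    exact absurd ((Nat.pow_le_pow_iff_right hp'.one_lt).1 h8) (by omega)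

end Cfsg.Agent.S5244
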