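import Mathlib
import Cfsg.Statements.S5245
import Cfsg.Agent.Fus.InnerNormal
import Cfsg.Agent.Fus.Hyper
-- import your own Cfsg.Agent.* helpers here

set_option autoImplicit false
open Cfsg

namespace Cfsg.Agent.S5245

open Cfsg.Agent.Fus Cfsg.FusionSystem

/-- Let F be an extremely sparse fusion system over a finite p-group S (saturated, not the inner system, and every saturated fusion system over any subgroup T of S contained in F is F itself or the inner system of T). Then S is normal in F, the focal and hyperfocal subgroups of F are both S, and Aut_F(S) is generated by the inner automorphisms of S together with a single automorphism of prime order q ≠ p (F is the fusion system of the semidirect product of S by a cyclic group of prime order). -/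
theorem result {Ω : Type*} [Group Ω] {S : Subgroup Ω} [Finite S] (p : ℕ) [Fact p.Prime] (hS : IsPGroup p S) (F : Cfsg.FusionSystem S) (hF : F.IsSaturated p) (hxs : ¬ (∀ P : Subgroup Ω, F.Hom P = (Cfsg.innerFusionSystem S).Hom P) ∧ ∀ (T : Subgroup Ω) (E : Cfsg.FusionSystem T), E.IsSaturated p → E.IsSubsystemOf F → (T = S ∧ ∀ P : Subgroup Ω, E.Hom P = F.Hom P) ∨ (∀ P : Subgroup Ω, E.Hom P = (Cfsg.innerFusionSystem T).Hom P)) : F.IsNormal S ∧ F.focalSubgroup = S ∧ F.hyperfocalSubgroup p = S ∧ ∃ (q : ℕ) (β : MulAut ↥S), q.Prime ∧ q ≠ p ∧ β ∈ F.autGroup S ∧ orderOf β = q ∧ (F.autGroup S : Subgroup (MulAut ↥S)) = Cfsg.Inn ↥S ⊔ Subgroup.zpowers β := by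
  have hp : p.Prime := Fact.out
  have key : ∀ T : Subgroup Ω, T ≤ S → ∀ β ∈ F.autGroup T, (orderOf β).Coprime p → β ≠ 1 →
      T = S ∧ F.autGroup T = Inn T ⊔ Subgroup.zpowers β := by
    intro T hT β hβ hc h1
    have := finite_of_le hT
    have hpT := isPGroup_of_le hS hT
    rcases hxs.2 T _ (autSys_sup_saturated (B := Subgroup.zpowers β) hpT
      (by rwa [Nat.card_zpowers])) (autSys_isSubsystemOf hT
        (sup_le (inn_le_autGroup F hT) (Subgroup.zpowers_le.2 hβ))) with ⟨rfl, h⟩ | h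
    · exact ⟨rfl, by rw [← fs_ext h, autGroup_autSys]⟩
    · have h2 := autGroup_autSys (𝒜 := Inn T ⊔ Subgroup.zpowers β) (hI := le_sup_left)
      rw [fs_ext h, autGroup_inner_top] at h2
      exact absurd (eq_one_of_isPGroup_of_coprime (isPGroup_inn hpT)
        (h2 ▸ Subgroup.mem_sup_right (Subgroup.mem_zpowers β)) hc) h1
  have hN : F.IsNormal S := by
    refine isNormal_top_of_not_ess hS hF fun P hP _ hE => ?_
    have := finite_mulAut hP.le
    obtain ⟨t, ht, ht', -⟩ := hE.ex
    refine ht' (hE.le_inn _ (AC.isPGroup_of_coprime fun β hβ hc => ?_) le_rfl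
      (fun α hα κ hκ => mul_mem (mul_mem hα hκ) (inv_mem hα)) ht)
    by_contra h1
    exact hP.ne (key P hP.le β hβ hc h1).1
  obtain ⟨γ, hγ, hc, h1⟩ : ∃ γ ∈ F.autGroup S, (orderOf γ).Coprime p ∧ γ ≠ 1 := by
    by_contra h
    push Not at h
    exact hxs.1 fun P => by rw [← eq_inner_of_isNormal_top hN (autGroup_top_le_inn hS hF h)]
  obtain ⟨q, hq, m, hm⟩ := Nat.exists_prime_and_dvd (fun h => h1 (orderOf_eq_one_iff.1 h))
  have hm0 : m ≠ 0 := by rintro rfl; exact (orderOf_pos γ).ne' hm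
  have hβq : orderOf (γ ^ m) = q := by
    rw [orderOf_pow' _ hm0, hm, Nat.gcd_mul_left_left, Nat.mul_div_cancel _ (Nat.pos_of_ne_zero hm0)]
  have hβ := pow_mem hγ m
  set β := γ ^ m
  have hβc : (orderOf β).Coprime p := Nat.Coprime.of_dvd_left (hβq ▸ ⟨m, hm⟩) hc
  have hβ1 : β ≠ 1 := fun h => hq.ne_one (by rw [← hβq, h, orderOf_one])
  have hB : (Nat.card (Subgroup.zpowers β)).Coprime p := by rwa [Nat.card_zpowers]
  have hT : (AC.comm (Subgroup.zpowers β) ⊤).map S.subtype = S := by
    set U := AC.comm (Subgroup.zpowers β) ⊤ with hU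
    have hst : β ∈ stab S (U.map S.subtype) := by
      have := finite_of_le (Subgroup.map_subtype_le U)
      refine mem_stab_of_maps (Subgroup.map_subtype_le U) ?_
      rintro _ ⟨x, hx, rfl⟩
      exact ⟨β x, AC.inv_comm _ _ β (Subgroup.mem_zpowers β) x hx, (afn_coe β x).symm⟩
    obtain ⟨β', hβ', e⟩ : ∃ β' ∈ F.autGroup (U.map S.subtype),
        ∀ x ∈ U.map S.subtype, afn β' x = afn β x :=
      ⟨_, resAut_mem (Subgroup.map_subtype_le U) le_rfl ⟨β, hst⟩ hβ,
        fun x hx => afn_resAut _ _ hx⟩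
    refine (key _ (Subgroup.map_subtype_le U) β' hβ' (Nat.Coprime.of_dvd_left
      (orderOf_dvd_of_res (Subgroup.map_subtype_le U) e) hβc) fun h => hβ1 ?_).1
    have h2 : U = ⊥ := by
      rw [hU, ← AC.comm_comm hB (hS.to_subgroup ⊤) (AC.inv_top _), eq_bot_iff,
        AC.comm_zpowers_le_iff (by simp)]
      intro x hx
      have := e x ⟨x, hx, rfl⟩
      rw [h, afn_one, afn_coe] at this
      rw [← Subtype.ext this]; simp
    ext x
    have : x⁻¹ * β x ∈ U := AC.mem_comm (Subgroup.mem_zpowers β) trivial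
    rw [h2, Subgroup.mem_bot, inv_mul_eq_one] at this
    rw [← this]; rfl
  have hhyp : F.hyperfocalSubgroup p = S := by
    refine le_antisymm (hyp_le F p) (hT.ge.trans ?_)
    rw [Subgroup.map_le_iff_le_comap, AC.comm_le_iff]
    intro a ha x _
    have := mem_hyp_of_coprime le_rfl (Subgroup.zpowers_le.2 hβ ha) (Nat.Coprime.of_dvd_left
      (orderOf_dvd_of_mem_zpowers ha) hβc) x.2
    rwa [afn_coe] at this
  refine ⟨hN, le_antisymm (focal_le F) (hhyp.ge.trans (hyp_le_focal F p)), hhyp, q, β, hq, ?_, hβ,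
    hβq, (key S le_rfl β hβ hβc hβ1).2⟩
  rintro rfl
  exact hq.ne_one (by simpa [hβq] using hβc)

end Cfsg.Agent.S5245
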