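import Mathlib
import Cfsg.Statements.S5254
import Cfsg.Agent.Fus.AbelIdx
-- import your own Cfsg.Agent.* helpers here

set_option autoImplicit false
open Cfsg

namespace Cfsg.Agent.S5254

open Cfsg.Agent.Fus Cfsg.FusionSystem

/-- Let p be an odd prime, S a finite nonabelian p-group with a unique abelian subgroup A of index p, and F a saturated fusion system over S. Then every F-essential subgroup P is A, or Z(S)⟨x⟩ for some x ∈ S outside A, or (when the second centre Z₂(S) lies in A) Z₂(S)⟨x⟩ for some x ∈ S outside A; and P has index p in its normalizer in S. -/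
theorem result {Ω : Type*} [Group Ω] {S : Subgroup Ω} [Finite S] (p : ℕ) [Fact p.Prime] (hS : IsPGroup p S) (F : Cfsg.FusionSystem S) (hF : F.IsSaturated p) (hp : p ≠ 2) (hna : ¬ IsMulCommutative ↥S) (A : Subgroup Ω) (hA : A ≤ S ∧ IsMulCommutative ↥A ∧ (A.subgroupOf S).index = p) (huniq : ∀ B : Subgroup Ω, B ≤ S → IsMulCommutative ↥B → (B.subgroupOf S).index = p → B = A) (P : Subgroup Ω) (hP : F.IsEssential p P) : (P = A ∨ (∃ x ∈ S, x ∉ A ∧ P = (S ⊓ Subgroup.centralizer (S : Set Ω)) ⊔ Subgroup.zpowers x) ∨ (((upperCentralSeries ↥S 2).map S.subtype) ≤ A ∧ ∃ x ∈ S, x ∉ A ∧ P = ((upperCentralSeries ↥S 2).map S.subtype) ⊔ Subgroup.zpowers x)) ∧ (P.subgroupOf (S ⊓ Subgroup.normalizer (P : Set Ω))).index = p := by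
  by_cases hPA : P = A
  · subst hPA
    have := AC.normal_subgroupOf_of_relIndex_dvd hS (show P.relIndex S = p from hA.2.2).dvd
    refine ⟨Or.inl rfl, ?_⟩
    rw [inf_eq_left.2 (Subgroup.le_normalizer_of_normal_subgroupOf hA.1)]
    exact hA.2.2
  obtain ⟨x, hx, hxA, h1, -, h2, h3⟩ := ess_cases hS hF hna hA.1 (fun x hx y hy =>
    congrArg Subtype.val (hA.2.1.is_comm.comm ⟨x, hx⟩ ⟨y, hy⟩)) hA.2.2 huniq hP hPA
  refine ⟨Or.inr (h3.imp (fun h => ⟨x, hP.1.1 hx, hxA, h.2⟩) fun h =>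
    ⟨h1, x, hP.1.1 hx, hxA, h.1⟩), h2⟩

end Cfsg.Agent.S5254
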