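import Cfsg.Statements.S5255
import Mathlib
import Cfsg.Agent.Fus.WNorm

set_option autoImplicit false
open Cfsg

namespace Cfsg.Agent.S5255

/-- Let F be a saturated fusion system over a finite p-group S and T a subgroup of S strongly closed in F. Then T·C_S(T) is strongly closed in F. -/
theorem result {Ω : Type*} [Group Ω] {S : Subgroup Ω} [Finite S] (p : ℕ) [Fact p.Prime] (hS : IsPGroup p S) (F : Cfsg.FusionSystem S) (hF : F.IsSaturated p) (T : Subgroup Ω) (hT : F.StronglyClosed T) : F.StronglyClosed (T ⊔ Cfsg.FusionSystem.centralizerIn S T) := by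
  refine Fus.stronglyClosed_iff.2 ⟨sup_le hT.1 (Fus.centralizerIn_le S T), fun P f hf x hx hxT => ?_⟩
  obtain ⟨g, hg, e⟩ := Fus.exists_map_sup_stronglyClosed hS hF hT hf
  obtain ⟨t, ht, c, hc, rfl⟩ := Fus.exists_mul_of_mem_sup
    (A := T) (C := Cfsg.FusionSystem.centralizerIn S T)
    ((Fus.le_normalizerIn hT.1).trans (Fus.normalizerIn_le_normalizer_centralizerIn le_rfl)) hxT
  have hcP : c ∈ P ⊔ T := by
    have := (P ⊔ T).mul_mem ((P ⊔ T).inv_mem (Subgroup.mem_sup_right ht)) (Subgroup.mem_sup_left hx)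
    rwa [inv_mul_cancel_left] at this
  have h1 : g (t * c) ∈ T ⊔ Cfsg.FusionSystem.centralizerIn S T := by
    rw [hg.map_mul (Subgroup.mem_sup_right ht) hcP]
    exact Subgroup.mul_mem_sup (hg.mem_of_stronglyClosed hT (Subgroup.mem_sup_right ht) ht)
      (hg.mem_centralizerIn_of_img le_sup_right (hg.img_stronglyClosed hT le_sup_right) hcP hc)
  have h2 := Subgroup.mul_mem _ h1 (Subgroup.inv_mem _
    (Subgroup.mem_sup_left (T := Cfsg.FusionSystem.centralizerIn S T) (e _ hx)))
  simpa using h2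

end Cfsg.Agent.S5255
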