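import Mathlib
import Cfsg.Statements.S5257
import Cfsg.Agent.Fus.AbelIdx
-- import your own Cfsg.Agent.* helpers here

set_option autoImplicit false
open Cfsg

namespace Cfsg.Agent.S5257

open Cfsg.Agent.Fus Cfsg.FusionSystem

/-- Let p be an odd prime, S a finite nonabelian p-group with a unique abelian subgroup A of index p, and F a saturated fusion system over S having an F-essential subgroup other than A. Then the second centre Z₂(S) lies in A; Z(S) ∩ [S, S] has order p; Z(S)[S, S] has index p in A; Z(S) has index p in Z₂(S); and S/Z(S) has maximal nilpotency class (if S/Z(S) has order pᵐ with m ≥ 3 then the term of index m − 2 of the lower central series of S, counting S as index 0, is not contained in Z(S)). -/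
theorem result {Ω : Type*} [Group Ω] {S : Subgroup Ω} [Finite S] (p : ℕ) [Fact p.Prime] (hS : IsPGroup p S) (F : Cfsg.FusionSystem S) (hF : F.IsSaturated p) (hp : p ≠ 2) (hna : ¬ IsMulCommutative ↥S) (A : Subgroup Ω) (hA : A ≤ S ∧ IsMulCommutative ↥A ∧ (A.subgroupOf S).index = p) (huniq : ∀ B : Subgroup Ω, B ≤ S → IsMulCommutative ↥B → (B.subgroupOf S).index = p → B = A) (P : Subgroup Ω) (hP : F.IsEssential p P) (hPA : P ≠ A) : ((upperCentralSeries ↥S 2).map S.subtype) ≤ A ∧ Nat.card ↥((S ⊓ Subgroup.centralizer (S : Set Ω)) ⊓ ((commutator ↥S).map S.subtype)) = p ∧ (((S ⊓ Subgroup.centralizer (S : Set Ω)) ⊔ ((commutator ↥S).map S.subtype)).subgroupOf A).index = p ∧ (((S ⊓ Subgroup.centralizer (S : Set Ω))).subgroupOf ((upperCentralSeries ↥S 2).map S.subtype)).index = p ∧ ∀ m : ℕ, ((S ⊓ Subgroup.centralizer (S : Set Ω)).subgroupOf S).index = p ^ m → 3 ≤ m → ¬ Subgroup.lowerCentralSeries S (m - 2) ≤ (S ⊓ Subgroup.centralizer (S : Set Ω)) := by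
  have hp' : p.Prime := Fact.out
  obtain ⟨x, hx, hxA, h1, h2, -⟩ := ess_cases hS hF hna hA.1 (fun x hx y hy =>
    congrArg Subtype.val (hA.2.1.is_comm.comm ⟨x, hx⟩ ⟨y, hy⟩)) hA.2.2 huniq hP hPA
  have := AC.normal_subgroupOf_of_relIndex_dvd hS (show A.relIndex S = p from hA.2.2).dvd
  have hc : IsMulCommutative (A.subgroupOf S) := Grp.PChain.isMulCommutative_of_commute
    fun a ha b hb => Subtype.ext (congrArg (Subtype.val : A → Ω) (hA.2.1.is_comm.comm ⟨a, ha⟩ ⟨b, hb⟩))
  have hna' : commutator S ≠ ⊥ := fun h => hna ((commutator_eq_bot_iff _).1 h)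
  have h3 : Subgroup.upperCentralSeries S 2 ≤ A.subgroupOf S := fun a ha => h1 ⟨a, ha, rfl⟩
  obtain ⟨h4, h5⟩ := AC.card_center_inf_commutator (A.subgroupOf S) hc hA.2.2 hna' h3
  have h6 : (Subgroup.center S).relIndex (Subgroup.upperCentralSeries S 2) = p := by
    rw [← Subgroup.relIndex_map_map_of_injective _ _ S.subtype_injective, map_center_eq]
    exact h2
  rw [h6] at h4
  rw [h4] at h5
  refine ⟨h1, ?_, ?_, h2, fun m hm h3 hle => ?_⟩
  · rw [← h4, ← Subgroup.card_subtype, Subgroup.map_inf _ _ _ S.subtype_injective, map_center_eq]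
    rfl
  · rw [← h5, ← Subgroup.relIndex_map_map_of_injective _ _ S.subtype_injective, Subgroup.map_sup,
      map_center_eq, Subgroup.map_subgroupOf_eq_of_le hA.1]
    rfl
  · have h7 := AC.card_le_of_lcs_le (A.subgroupOf S) hc hA.2.2 hna' h4.le (k := m - 2) fun u hu => by
      rw [← center_subgroupOf_self]
      exact hle (Subgroup.top_subtype_lowerCentralSeries S _ ▸ ⟨u, hu, rfl⟩)
    have h8 := (A.subgroupOf S).card_mul_index
    have h9 := (Subgroup.center S).card_mul_index
    rw [← center_subgroupOf_self] at h9 h7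
    rw [show ((centralizerIn S S).subgroupOf S).index = p ^ m from hm, ← h8, hA.2.2,
      show m = m - 2 + 1 + 1 by omega, pow_succ, ← mul_assoc] at h9
    rw [← Nat.eq_of_mul_eq_mul_right hp'.pos h9] at h7
    exact absurd ((Nat.pow_le_pow_iff_right hp'.one_lt).1 (Nat.le_of_mul_le_mul_left h7 Nat.card_pos))
      (by omega)

end Cfsg.Agent.S5257
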