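import Mathlib
import Cfsg.Statements.S5271
import Cfsg.Agent.H41.WEmb

set_option autoImplicit false
open Cfsg

namespace Cfsg.Agent.S5271

/-- A nilpotency criterion for fusion systems. Let F be a saturated fusion system over a finite p-group S of order at least p². Call a subgroup Q of S weakly embedded in F when there is a subgroup P of S strongly closed in F such that both the product QP and the intersection Q ∩ P are strongly closed in F. Then F is the inner fusion system of S if and only if there is a subgroup D of S with 1 < D < S such that every subgroup of S of the same order as D is weakly embedded in F and, for every fully normalized subgroup H of S of that order, the normalizer fusion system of H in F is the inner fusion system of N_S(H). -/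
theorem result {Ω : Type*} [Group Ω] {S : Subgroup Ω} [Finite S] (p : ℕ) [Fact p.Prime] (hS : IsPGroup p ↥S) (F : Cfsg.FusionSystem S) (hF : F.IsSaturated p) (hcard : p ^ 2 ≤ Nat.card S) : (∀ P : Subgroup Ω, F.Hom P = (Cfsg.innerFusionSystem S).Hom P) ↔ ∃ D : Subgroup Ω, ⊥ < D ∧ D < S ∧ (∀ Q : Subgroup Ω, Q ≤ S → Nat.card ↥Q = Nat.card ↥D → ∃ P : Subgroup Ω, F.StronglyClosed P ∧ F.StronglyClosed (Q ⊔ P) ∧ F.StronglyClosed (Q ⊓ P)) ∧ (∀ H : Subgroup Ω, F.IsFullyNormalized H → Nat.card ↥H = Nat.card ↥D → ∀ N : Cfsg.FusionSystem (Cfsg.FusionSystem.normalizerIn S H), F.IsNormalizerSystem H N → ∀ P : Subgroup Ω, N.Hom P = (Cfsg.innerFusionSystem (Cfsg.FusionSystem.normalizerIn S H)).Hom P) := by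
  constructor
  · intro h
    obtain rfl : F = Cfsg.innerFusionSystem S :=
      Fus.ext_isMap fun P => Fus.hom_eq_iff_isMap.1 (h P)
    obtain ⟨D, h1, h2, h3⟩ := H41.WEmb.of_inner hS hcard
    refine ⟨D, h1, h2, fun Q hQ hc => ⟨⊥, Fus.stronglyClosed_bot _, ?_, ?_⟩,
      fun H hH _ N hN => H41.WEmb.norm_inner hH.1 N hN⟩
    · rw [sup_bot_eq]
      exact h3 Q hQ hc
    · rw [inf_bot_eq]
      exact Fus.stronglyClosed_bot _
  · rintro ⟨D, h1, h2, hW, hN⟩ P
    rw [H41.WEmb.eq_inner hS hF h1 h2 hW hN]

end Cfsg.Agent.S5271
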