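import Cfsg.Statements.S5274
import Mathlib
import Cfsg.Agent.Fus.Hyper
import Cfsg.Agent.Fus.Normal


set_option autoImplicit false
open Cfsg

namespace Cfsg.Agent.S5274

open Cfsg.Agent.Fus Cfsg.FusionSystem

section
variable {Ω : Type*} [Group Ω] {S : Subgroup Ω} [Finite S] {F : Cfsg.FusionSystem S}

/-- centralizer of an element in `S` -/
def C (S : Subgroup Ω) (x : Ω) : Subgroup Ω := centralizerIn S (Subgroup.zpowers x)

omit [Finite S] in
theorem mem_C {x y : Ω} : y ∈ C S x ↔ y ∈ S ∧ x * y = y * x := by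
  rw [C, mem_centralizerIn]
  refine and_congr_right fun _ => ⟨fun h => h x (Subgroup.mem_zpowers x), fun h w hw => ?_⟩
  obtain ⟨k, rfl⟩ := Subgroup.mem_zpowers_iff.1 hw
  exact (Commute.zpow_left h k).eq

omit [Finite S] in
theorem C_le (x : Ω) : C S x ≤ S := centralizerIn_le _ _

theorem ext_C {p : ℕ} [Fact p.Prime] (hS : IsPGroup p S) (hF : F.IsSaturated p) {x z : Ω}
    (hz : z ∈ centralizerIn S S) (h : F.IsConjElt x z) : ∃ g, IsMap F (C S x) g ∧ g x = z := by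
  obtain ⟨f, hf, e⟩ := isConjElt_iff.1 h
  have hc : F.IsFullyCentralized (img (Subgroup.zpowers x) f) := by
    refine ⟨hf.img_le, fun Q _ => ?_⟩
    have : centralizerIn S (img (Subgroup.zpowers x) f) = S := by
      refine le_antisymm (centralizerIn_le _ _) fun s hs => mem_centralizerIn.2 ⟨hs, fun y hy => ?_⟩
      obtain ⟨w, hw, rfl⟩ := hf.mem_img.1 hy
      obtain ⟨k, rfl⟩ := Subgroup.mem_zpowers_iff.1 hw
      rw [hf.map_zpow (Subgroup.mem_zpowers x), e]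
      exact (Commute.zpow_left ((mem_centralizerIn.1 hz).2 s hs).symm k).eq
    rw [this]
    exact card_le_of_le (centralizerIn_le _ _)
  obtain ⟨g, hg, hge⟩ := sat_extend_centralizer hS hF hf hc
  exact ⟨g, hg.mono le_sup_right, by rw [hge x (Subgroup.mem_zpowers x), e]⟩

omit [Finite S] in
theorem conj_symm {x y : Ω} (h : F.IsConjElt x y) : F.IsConjElt y x := by
  obtain ⟨f, hf, e⟩ := isConjElt_iff.1 h
  obtain ⟨g, hg, h1, -⟩ := hf.exists_inv
  have := hg.isConjElt (mem_img_of_mem f (Subgroup.mem_zpowers x))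
  rwa [h1 x (Subgroup.mem_zpowers x), e] at this

omit [Finite S] in
theorem conj_trans {x y z : Ω} (h : F.IsConjElt x y) (h' : F.IsConjElt y z) :
    F.IsConjElt x z := by
  obtain ⟨f, hf, e⟩ := isConjElt_iff.1 h
  obtain ⟨g, hg, e'⟩ := isConjElt_iff.1 h'
  have := (hg.comp' hf (fun w hw => by
    obtain ⟨k, rfl⟩ := Subgroup.mem_zpowers_iff.1 hw
    rw [hf.map_zpow (Subgroup.mem_zpowers x), e]
    exact Subgroup.zpow_mem_zpowers _ _)).isConjElt (Subgroup.mem_zpowers x)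
  simpa [e, e'] using this

omit [Finite S] in
theorem conj_sq {x y : Ω} (h : F.IsConjElt x y) : F.IsConjElt (x ^ 2) (y ^ 2) := by
  obtain ⟨f, hf, e⟩ := isConjElt_iff.1 h
  have := hf.isConjElt (Subgroup.pow_mem _ (Subgroup.mem_zpowers x) 2)
  rwa [hf.map_pow (Subgroup.mem_zpowers x), e] at this

theorem lemA (hS : IsPGroup 2 S) (hF : F.IsSaturated 2)
    (h : ∀ x ∈ S, ∃ z ∈ centralizerIn S S, F.IsConjElt x z) {n v c : Ω} (hn : n ∈ S) (hv : v ∈ S)
    (hc : c ∈ centralizerIn S S) (hnv : n ^ 2 * v = v * n ^ 2) (e : (n * v) ^ 2 = n ^ 2 * c) :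
    ∃ z ∈ centralizerIn S S, c = z ^ 2 := by
  obtain ⟨z, hz, hnz⟩ := h n hn
  obtain ⟨g, hg, hge⟩ := ext_C hS hF (Subgroup.pow_mem _ hz 2) (conj_sq hnz)
  have hnC : n ∈ C S (n ^ 2) := mem_C.2 ⟨hn, by group⟩
  have hvC : v ∈ C S (n ^ 2) := mem_C.2 ⟨hv, hnv⟩
  have hcC : c ∈ C S (n ^ 2) := mem_C.2 ⟨hc.1, (mem_centralizerIn.1 hc).2 _ (S.pow_mem hn 2)⟩
  have hy : (z⁻¹ * g (n * v)) ^ 2 = g c := by
    have hcm : Commute z⁻¹ (g (n * v)) :=
      Commute.inv_left ((mem_centralizerIn.1 hz).2 _ (hg.mem (Subgroup.mul_mem _ hnC hvC))).symm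
    rw [hcm.mul_pow, ← hg.map_pow (Subgroup.mul_mem _ hnC hvC), e,
      hg.map_mul (Subgroup.pow_mem _ hnC 2) hcC, hge]
    group
  obtain ⟨z₁, hz₁, hyz⟩ := h (z⁻¹ * g (n * v))
    (S.mul_mem (S.inv_mem hz.1) (hg.mem (Subgroup.mul_mem _ hnC hvC)))
  have h1 : F.IsConjElt (z₁ ^ 2) c :=
    conj_symm (conj_trans (hy ▸ hg.isConjElt hcC) (conj_sq hyz))
  obtain ⟨g₃, hg₃, e₃⟩ := ext_C hS hF hc h1
  have hSC : S ≤ C S (z₁ ^ 2) := fun s hs =>
    mem_C.2 ⟨hs, ((mem_centralizerIn.1 (Subgroup.pow_mem _ hz₁ 2)).2 s hs).symm⟩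
  have hg₄ := hg₃.mono hSC
  refine ⟨g₃ z₁, hg₄.mem_centralizerIn_of_img le_rfl (hg₄.img_eq_self fun x hx => hg₄.mem hx)
    hz₁.1 hz₁, ?_⟩
  rw [← e₃, hg₄.map_pow hz₁.1]

/-- an automorphism of odd order acting trivially on `V/V²` fixes `V`. -/
theorem fix_of_sq {Q : Subgroup Ω} [Finite Q] (hQ : IsPGroup 2 Q) {α : MulAut Q}
    (hα : (orderOf α).Coprime 2) {V : Subgroup Ω} (hV : V ≤ Q)
    (hab : ∀ x ∈ V, ∀ y ∈ V, x * y = y * x)
    (h : ∀ v ∈ V, ∃ w ∈ V, afn α v * v⁻¹ = w ^ 2) : ∀ v ∈ V, afn α v = v := by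
  have key : ∀ j k : ℕ, (∀ v ∈ V, v ^ 2 ^ (k + j) = 1) →
      ∀ v ∈ V, afn α (v ^ 2 ^ k) = v ^ 2 ^ k := by
    intro j
    induction j with
    | zero =>
      intro k hk v hv
      rw [add_zero] at hk
      rw [hk v hv]
      exact (homOn_afn α).map_one
    | succ j ih =>
      intro k hk v hv
      obtain ⟨w, hw, e⟩ := h v hv
      let U : Subgroup Ω :=
        { carrier := {x | ∃ y ∈ V, x = y ^ 2 ^ (k + 1)}
          mul_mem' := by
            rintro _ _ ⟨a, ha, rfl⟩ ⟨b, hb, rfl⟩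
            exact ⟨a * b, V.mul_mem ha hb, ((show Commute a b from hab a ha b hb).mul_pow _).symm⟩
          one_mem' := ⟨1, V.one_mem, (one_pow _).symm⟩
          inv_mem' := by
            rintro _ ⟨a, ha, rfl⟩
            exact ⟨a⁻¹, V.inv_mem ha, (inv_pow _ _).symm⟩ }
      refine fix_of_step (U := U) hQ hα ?_ (hV (V.pow_mem hv _)) ⟨w, hw, ?_⟩
      · rintro _ - ⟨y, hy, rfl⟩
        exact ih (k + 1) (fun v hv => by rw [← hk v hv]; congr 2; omega) y hy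
      · have h1 : afn α v = w ^ 2 * v := by rw [← e]; group
        rw [(homOn_afn α).map_pow (hV hv), h1,
          (show Commute (w ^ 2) v from hab _ (V.pow_mem hw 2) v hv).mul_pow, ← pow_mul, ← pow_succ']
        group
  obtain ⟨N, hN⟩ := (IsPGroup.iff_card (p := 2) (G := Q)).1 hQ
  intro v hv
  have := key N 0 (fun v hv => by
    have := pow_card_eq_one' (x := (⟨v, hV hv⟩ : Q))
    rw [hN] at this
    simpa using congrArg Subtype.val this) v hv
  simpa using this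

end

/-- Let F be a saturated fusion system over a finite 2-group S. Suppose that every element of S is F-conjugate to an element of the centre Z(S) (some map of F defined on the cyclic subgroup it generates sends it into Z(S)). Then S is abelian. -/
theorem result {Ω : Type*} [Group Ω] {S : Subgroup Ω} [Finite S] (hS : IsPGroup 2 ↥S) (F : Cfsg.FusionSystem S) (hF : F.IsSaturated 2) (h : ∀ x ∈ S, ∃ z ∈ S ⊓ Subgroup.centralizer (S : Set Ω), F.IsConjElt x z) : IsMulCommutative ↥S := by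
  by_contra hna
  have hZ : ∃ y ∈ S, y ∉ centralizerIn S S := by
    by_contra! H
    exact hna ⟨⟨fun a b => Subtype.ext ((mem_centralizerIn.1 (H b b.2)).2 a a.2)⟩⟩
  -- a noncentral element with the largest centralizer
  obtain ⟨y₀, ⟨hy₀, hy₀Z⟩, hmax⟩ := Set.exists_max_image {y | y ∈ S ∧ y ∉ centralizerIn S S}
    (fun y => Nat.card (C S y)) ((S : Set Ω).toFinite.subset fun _ h => h.1)
    (let ⟨y, h1, h2⟩ := hZ; ⟨y, h1, h2⟩)
  have big : ∀ y ∈ S, ∀ R ≤ C S y, Nat.card (C S y₀) < Nat.card R → y ∈ centralizerIn S S := by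
    intro y hy R hR hlt
    by_contra hyZ
    have h1 := hmax y ⟨hy, hyZ⟩
    have : Finite (C S y) := finite_of_le (C_le y)
    have h2 := Subgroup.card_le_of_le hR
    omega
  have hCne : ∀ R ≤ S, Nat.card R = Nat.card (C S y₀) → R < S := by
    intro R hR hc
    refine lt_of_le_of_ne hR fun e => hy₀Z ?_
    have : C S y₀ = S := Subgroup.eq_of_le_of_card_ge (C_le _) (by rw [← hc, e])
    exact mem_centralizerIn.2 ⟨hy₀, fun s hs => (mem_C.1 (this.ge hs)).2.symm⟩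
  -- maps from larger subgroups preserve the centre
  have pres : ∀ R g, IsMap F R g → Nat.card (C S y₀) < Nat.card R →
      ∀ z ∈ centralizerIn S S, z ∈ R → g z ∈ centralizerIn S S := by
    intro R g hg hlt z hz hzR
    refine big _ (hg.mem hzR) (img R g) (img_le_iff.2 fun x hx => mem_C.2 ⟨hg.mem hx, ?_⟩)
      (by rwa [hg.card_img])
    rw [← hg.map_mul hzR hx, ← hg.map_mul hx hzR, (mem_centralizerIn.1 hz).2 x (hg.le hx)]
  obtain ⟨Q, hQc, hQ⟩ := exists_fullyNormalized F (C_le y₀ : C S y₀ ≤ S)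
  have hQS : Q ≤ S := isConj_right_le hQc
  have : Finite Q := finite_of_le hQS
  have hQcard : Nat.card Q = Nat.card (C S y₀) := (isConj_card_eq hQc).symm
  have hCQ : ∀ y ∈ centralizerIn Q Q, y ∉ centralizerIn S S → C S y = Q := by
    intro y hy hyZ
    have h1 : Q ≤ C S y := fun x hx => mem_C.2 ⟨hQS hx, ((mem_centralizerIn.1 hy).2 x hx).symm⟩
    have : Finite (C S y) := finite_of_le (C_le y)
    exact (Subgroup.eq_of_le_of_card_ge h1 (hQcard ▸ hmax y ⟨hQS hy.1, hyZ⟩)).symm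
  obtain ⟨y, hy, hyZ⟩ : ∃ y ∈ centralizerIn Q Q, y ∉ centralizerIn S S := by
    by_contra! H
    obtain ⟨f, hf, hi⟩ := isConj_iff.1 hQc
    have hZC : centralizerIn S S ≤ C S y₀ := fun z hz =>
      mem_C.2 ⟨hz.1, (mem_centralizerIn.1 hz).2 _ hy₀⟩
    have hcen : ∀ x ∈ C S y₀, (∀ w ∈ C S y₀, w * x = x * w) → f x ∈ centralizerIn S S := by
      intro x hx hc
      refine H _ (mem_centralizerIn.2 ⟨hi ▸ mem_img_of_mem f hx, fun w hw => ?_⟩)
      obtain ⟨w, hw', rfl⟩ := hf.mem_img.1 (hi ▸ hw)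
      rw [← hf.map_mul hw' hx, ← hf.map_mul hx hw', hc w hw']
    have h1 : img (centralizerIn S S) f = centralizerIn S S :=
      (hf.mono hZC).img_eq_self fun z hz => hcen z (hZC hz) fun w hw =>
        (mem_centralizerIn.1 hz).2 w (C_le _ hw)
    have h2 := hcen y₀ (mem_C.2 ⟨hy₀, rfl⟩) fun w hw => (mem_C.1 hw).2.symm
    exact hy₀Z (hf.mem_of_mem_img hZC (mem_C.2 ⟨hy₀, rfl⟩) (h1.symm ▸ h2))
  have hZQ : centralizerIn S S ≤ centralizerIn Q Q := fun z hz => mem_centralizerIn.2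
    ⟨(hCQ y hy hyZ).le (mem_C.2 ⟨hz.1, (mem_centralizerIn.1 hz).2 _ (hQS hy.1)⟩),
      fun x hx => (mem_centralizerIn.1 hz).2 x (hQS hx)⟩
  have hVab : ∀ x ∈ centralizerIn Q Q, ∀ y ∈ centralizerIn Q Q, x * y = y * x :=
    fun x hx y hy => (mem_centralizerIn.1 hy).2 x hx.1
  have hVinv : ∀ α : MulAut Q, ∀ v ∈ centralizerIn Q Q, afn α v ∈ centralizerIn Q Q := by
    intro α v hv
    refine mem_centralizerIn.2 ⟨afn_mem α hv.1, fun x hx => ?_⟩
    have hx' := afn_mem α⁻¹ hx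
    rw [← afn_afn_inv α hx, ← afn_map_mul α hx' hv.1, ← afn_map_mul α hv.1 hx',
      (mem_centralizerIn.1 hv).2 _ hx']
  -- an element `n` of the normalizer with `n² ∈ Q`
  obtain ⟨n, hn, hnQ, hn2⟩ : ∃ n ∈ normalizerIn S Q, n ∉ Q ∧ n ^ 2 ∈ Q := by
    obtain ⟨m, hm, hmQ⟩ := exists_mem_normalizerIn_not_mem hS (hCne Q hQS hQcard)
    obtain ⟨k, hk⟩ := hS ⟨m, hm.1⟩
    have hk' : m ^ 2 ^ k ∈ Q := by
      have : m ^ 2 ^ k = 1 := by simpa using congrArg Subtype.val hk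
      rw [this]; exact Q.one_mem
    classical
    have hex : ∃ k, m ^ 2 ^ k ∈ Q := ⟨k, hk'⟩
    have h0 : Nat.find hex ≠ 0 := fun e => hmQ (by simpa [e] using Nat.find_spec hex)
    obtain ⟨j, hj⟩ := Nat.exists_eq_succ_of_ne_zero h0
    refine ⟨m ^ 2 ^ j, Subgroup.pow_mem _ hm _, Nat.find_min hex (by omega), ?_⟩
    have := Nat.find_spec hex
    rwa [hj, pow_succ, pow_mul] at this
  let K : Subgroup (MulAut Q) :=
    { carrier := {α | α ∈ F.autGroup Q ∧ ∀ v ∈ centralizerIn Q Q,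
        ∃ w ∈ centralizerIn Q Q, afn α v * v⁻¹ = w ^ 2}
      mul_mem' := by
        rintro a b ⟨ha, ha'⟩ ⟨hb, hb'⟩
        refine ⟨Subgroup.mul_mem _ ha hb, fun v hv => ?_⟩
        obtain ⟨w, hw, e⟩ := hb' v hv
        obtain ⟨w', hw', e'⟩ := ha' _ (hVinv b v hv)
        refine ⟨w' * w, Subgroup.mul_mem _ hw' hw, ?_⟩
        rw [(show Commute w' w from hVab _ hw' _ hw).mul_pow, ← e, ← e', afn_mul _ _ hv.1]
        group
      one_mem' := ⟨Subgroup.one_mem _, fun v _ => ⟨1, Subgroup.one_mem _, by simp [afn_one]⟩⟩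
      inv_mem' := by
        rintro a ⟨ha, ha'⟩
        refine ⟨Subgroup.inv_mem _ ha, fun v hv => ?_⟩
        obtain ⟨w, hw, e⟩ := ha' _ (hVinv a⁻¹ v hv)
        refine ⟨w⁻¹, Subgroup.inv_mem _ hw, ?_⟩
        rw [inv_pow, ← e, afn_afn_inv _ hv.1]
        group }
  have hKn : ∀ g ∈ F.autGroup Q, ∀ κ ∈ K, g * κ * g⁻¹ ∈ K := by
    rintro g hg κ ⟨hκ, hκ'⟩
    refine ⟨Subgroup.mul_mem _ (Subgroup.mul_mem _ hg hκ) (Subgroup.inv_mem _ hg), fun v hv => ?_⟩
    obtain ⟨w, hw, e⟩ := hκ' _ (hVinv g⁻¹ v hv)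
    refine ⟨afn g w, hVinv g w hw, ?_⟩
    have h1 := (hVinv g⁻¹ v hv).1
    rw [← (homOn_afn g).map_pow hw.1, ← e, afn_map_mul g (afn_mem _ h1) (Q.inv_mem h1),
      afn_map_inv g h1, afn_afn_inv g hv.1, afn_mul _ _ hv.1, afn_mul _ _ h1]
  have hKfix : ∀ κ ∈ K, ∀ z ∈ centralizerIn S S, afn κ z = z := by
    intro κ hκ z hz
    have hs := SylIn.inf_normal (N := K) (fullyAutomized_iff.1 (sat_fullyAutomized hS hF hQ)).2
      (autInducedBy_le_autGroup F hQS)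
      (fun _ h => h.1) hKn
    obtain ⟨o, ho, b, hb, -, rfl⟩ := hs.exists_opSub_mul hκ
    obtain ⟨s, hs, e⟩ := mem_autInducedBy.1 hb.1
    have hzQ := (hZQ hz).1
    rw [afn_mul _ _ hzQ, e z hzQ, (mem_centralizerIn.1 hz).2 s hs, mul_inv_cancel_right]
    have : opSub 2 K ≤ MulAction.stabilizer (MulAut Q) (⟨z, hzQ⟩ : Q) := by
      rw [opSub_le_iff]
      intro a ha hc
      have := fix_of_sq (isPGroup_of_le hS hQS) hc (centralizerIn_le Q Q) hVab ha.2 z (hZQ hz)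
      rw [afn_apply _ hzQ] at this
      exact Subtype.ext this
    rw [afn_apply _ hzQ]
    exact congrArg Subtype.val (this ho)
  have hfixZ : ∀ v ∈ centralizerIn Q Q, n * v = v * n → v ∈ centralizerIn S S := by
    intro v hv e
    by_contra hvZ
    exact hnQ ((hCQ v hv hvZ).le (mem_C.2 ⟨hn.1, e.symm⟩))
  have ht : conjAut Q n⁻¹ (Subgroup.inv_mem _ hn).2 ∈ K := by
    refine ⟨autInducedBy_le_autGroup F hQS (conjAut_mem_autInducedBy (Subgroup.inv_mem _ hn)),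
      fun v hv => ?_⟩
    have hv' := hVinv (conjAut Q n⁻¹ (Subgroup.inv_mem _ hn).2) v hv
    rw [afn_conjAut _ hv.1, inv_inv] at hv' ⊢
    have hn2v : n ^ 2 * v = v * n ^ 2 := (mem_centralizerIn.1 hv).2 _ hn2
    have hc : n⁻¹ * v * n * v ∈ centralizerIn S S := by
      refine hfixZ _ (Subgroup.mul_mem _ hv' hv) ?_
      have h1 : n⁻¹ * v * n * v = v * (n⁻¹ * v * n) := hVab _ hv' _ hv
      calc n * (n⁻¹ * v * n * v) = v * n * v := by group
        _ = v * n⁻¹ * (n ^ 2 * v) := by group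
        _ = v * (n⁻¹ * v * n) * n := by rw [hn2v, pow_two]; group
        _ = n⁻¹ * v * n * v * n := by rw [h1]
    obtain ⟨z, hz, e⟩ := lemA hS hF h hn.1 (hQS hv.1) hc hn2v (by rw [pow_two, pow_two]; group)
    refine ⟨z * v⁻¹, Subgroup.mul_mem _ (hZQ hz) (Subgroup.inv_mem _ hv), ?_⟩
    rw [(show Commute z v⁻¹ from hVab _ (hZQ hz) _ (Subgroup.inv_mem _ hv)).mul_pow, ← e, pow_two]
    group
  have hZinv : ∀ g ∈ F.autGroup Q, ∀ z ∈ centralizerIn S S, afn g z ∈ centralizerIn S S := by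
    intro g hg z hz
    have hzQ := (hZQ hz).1
    have h1 := hKfix _ (hKn g⁻¹ (Subgroup.inv_mem _ hg) _ ht) z hz
    rw [inv_inv, afn_mul _ _ hzQ, afn_mul _ _ (afn_mem _ hzQ), afn_conjAut _ (afn_mem _ hzQ)] at h1
    have h2 := congrArg (afn g) h1
    rw [afn_afn_inv _ (conj_mem_of_mem_normalizerIn (Subgroup.inv_mem _ hn) (afn_mem _ hzQ))] at h2
    refine hfixZ _ (hVinv g z (hZQ hz)) ?_
    conv_lhs => rw [← h2]
    group
  obtain ⟨z, hz, hyz⟩ := h y (hQS hy.1)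
  obtain ⟨φ, hφ, e⟩ := ext_C hS hF hz hyz
  rw [hCQ y hy hyZ] at hφ
  obtain ⟨χ, hχ, hi⟩ := sat_exists_map_normalizer hS hF hQ (isConj_symm hφ.isConj)
  have hlt := lt_normalizerIn hS (hCne _ hφ.img_le (hφ.card_img.trans hQcard))
  have hzN : z ∈ normalizerIn S (img Q φ) := hlt.le (e ▸ mem_img_of_mem φ hy.1)
  have h3 := pres _ χ hχ (by
    rw [← hQcard, ← hφ.card_img]; exact card_lt_of_lt_of_le hlt (normalizerIn_le _ _)) z hz hzN
  have h4 := hχ.comp' hφ fun x hx => hlt.le (mem_img_of_mem φ hx)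
  obtain ⟨α, hα, hαe⟩ := h4.exists_aut' fun x hx => hi ▸ mem_img_of_mem χ (mem_img_of_mem φ hx)
  have h5 := hZinv α⁻¹ (Subgroup.inv_mem _ hα) _ h3
  rw [← e, ← hαe y hy.1, afn_inv_afn _ hy.1] at h5
  exact hyZ h5

end Cfsg.Agent.S5274
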