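import Cfsg.Statements.S5276
import Mathlib
import Cfsg.Agent.Fus.Tate
import Cfsg.Agent.Fus.KNorm


set_option autoImplicit false
open Cfsg

namespace Cfsg.Agent.S5276

/-- Let p be a prime and F a saturated fusion system over a finite p-group S. Then F is the inner fusion system of S if and only if the normalizer fusion system of S itself in F is the inner fusion system (equivalently, Aut_F(S) is induced by S) and the Frattini subgroup Φ(S) is strongly closed in F. -/
theorem result {Ω : Type*} [Group Ω] {S : Subgroup Ω} [Finite S] (p : ℕ) [Fact p.Prime] (hS : IsPGroup p ↥S) (F : Cfsg.FusionSystem S) (hF : F.IsSaturated p) : (∀ P : Subgroup Ω, F.Hom P = (Cfsg.innerFusionSystem S).Hom P) ↔ (∀ N : Cfsg.FusionSystem (Cfsg.FusionSystem.normalizerIn S S), F.IsNormalizerSystem S N → ∀ P : Subgroup Ω, N.Hom P = (Cfsg.innerFusionSystem (Cfsg.FusionSystem.normalizerIn S S)).Hom P) ∧ F.StronglyClosed ((frattini ↥S).map S.subtype) := by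
  constructor
  · intro h
    obtain rfl : F = innerFusionSystem S := Fus.fs_ext h
    refine ⟨fun N hN P => Fus.hom_eq_iff_isMap.2 fun f => ?_, ?_⟩
    · have e : FusionSystem.normalizerIn S S = S :=
        le_antisymm (Fus.normalizerIn_le S S) (Fus.le_normalizerIn le_rfl)
      rw [Fus.isNormalizerSystem_iff.1 hN, Fus.isMap_inner_iff, e]
      constructor
      · exact fun h1 => Fus.isMap_inner_iff.1 h1.isMap
      · rintro ⟨h1, g, hg, h2⟩
        exact ⟨h1.trans e.ge, _, Fus.isMap_conj _ (sup_le h1 le_rfl) hg, fun x hx => (h2 x hx).symm,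
          Fus.img_conj_eq_self (e.ge hg)⟩
    · refine Fus.stronglyClosed_iff.2 ⟨Subgroup.map_subtype_le _, fun P f hf x hx hx' => ?_⟩
      obtain ⟨-, g, hg, h2⟩ := Fus.isMap_inner_iff.1 hf
      obtain ⟨y, hy, rfl⟩ := hx'
      rw [h2 _ hx]
      exact ⟨_, (inferInstance : (frattini S).Normal).conj_mem y hy ⟨g, hg⟩, rfl⟩
  · rintro ⟨h1, h2⟩ P
    rw [Fus.eq_inner_of_hyp_le_frattini hS hF (Fus.hyp_le_of_stronglyClosed_of_inner hS hF h2
      (Fus.commutator_le_map_frattini hS) (Fus.inner_top_of_normalizerSystem h1))]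

end Cfsg.Agent.S5276
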