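import Mathlib
import Cfsg.Statements.S5283
import Cfsg.Agent.Fus.InnerNormal
import Cfsg.Agent.Fus.Flag
import Cfsg.Agent.Solv.Supersolvable
-- import your own Cfsg.Agent.* helpers here

set_option autoImplicit false
open Cfsg

namespace Cfsg.Agent.S5283

open Cfsg.Agent.Fus Cfsg.FusionSystem

theorem flag_of_chain {Ω : Type*} [Group Ω] {S : Subgroup Ω} [Finite S] {p : ℕ} [Fact p.Prime]
    (hS : IsPGroup p S) {F : FusionSystem S} {m : ℕ} (c : Fin (m + 1) → Subgroup Ω) (h0 : c 0 = ⊥)
    (h1 : c (Fin.last m) = S) (hsc : ∀ i, F.StronglyClosed (c i))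
    (hstep : ∀ i : Fin m, c i.castSucc ≤ c i.succ ∧
      ∃ x ∈ S, c i.succ = c i.castSucc ⊔ Subgroup.zpowers x) {P : Subgroup Ω} (hP : P ≤ S) :
    IsPGroup p (AC.flagKer p (F.autGroup P)) := by
  have := finite_of_le hP
  have hpP := isPGroup_of_le hS hP
  refine AC.isPGroup_flagKer hpP bot_le ?_
  have key : ∀ i, Relation.ReflTransGen (AC.PStep p (F.autGroup P)) ⊥ ((c i).subgroupOf P) := by
    intro i
    induction i using Fin.induction with
    | zero => rw [h0, Subgroup.bot_subgroupOf]
    | succ i ih =>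
      obtain ⟨hle, x, hx, e⟩ := hstep i
      have : ((c i.castSucc).subgroupOf S).Normal := AC.normal_of_inv (inn_le_autGroup F le_rfl)
        (inv_subgroupOf_of_stronglyClosed le_rfl (hsc _))
      let π := (QuotientGroup.mk' ((c i.castSucc).subgroupOf S)).comp (Subgroup.inclusion hP)
      have hπ : π.ker = (c i.castSucc).subgroupOf P := by
        ext y; exact QuotientGroup.eq_one_iff _
      refine ih.trans (hπ ▸ AC.flag_of_cyclic hpP π (c := ((⟨x, hx⟩ : S) : S ⧸ _)) (fun y hy => ?_)
        (hπ ▸ inv_subgroupOf_of_stronglyClosed hP (hsc _))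
        (inv_subgroupOf_of_stronglyClosed hP (hsc _)) (hπ ▸ Subgroup.subgroupOf_mono _ hle))
      have h2 : Subgroup.inclusion hP y ∈
          (c i.castSucc).subgroupOf S ⊔ Subgroup.zpowers (⟨x, hx⟩ : S) := by
        rw [← Subgroup.mem_map_iff_mem S.subtype_injective, Subgroup.map_sup,
          Subgroup.map_subgroupOf_eq_of_le (hsc _).1, MonoidHom.map_zpowers]
        exact e ▸ hy
      have := Subgroup.mem_map_of_mem (QuotientGroup.mk' ((c i.castSucc).subgroupOf S)) h2
      rwa [Subgroup.map_sup, QuotientGroup.map_mk'_self, bot_sup_eq, MonoidHom.map_zpowers] at this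
  have := key (Fin.last m)
  rwa [h1, Subgroup.subgroupOf_eq_top.2 hP] at this

/-- Call a saturated fusion system F over a finite p-group S supersoluble when S has a chain of subgroups 1 = S_0 ≤ S_1 ≤ … ≤ S_m = S, each strongly closed in F, with each S_{i+1} generated by S_i together with one further element (cyclic steps). Then every saturated fusion system over S is supersoluble if and only if S is normal in every saturated fusion system over S (S is resistant) and every subgroup of Aut(S) of order prime to p is abelian of exponent dividing p − 1. -/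
theorem result {Ω : Type*} [Group Ω] {S : Subgroup Ω} [Finite S] (p : ℕ) [Fact p.Prime] (hS : IsPGroup p ↥S) : (∀ F : Cfsg.FusionSystem S, F.IsSaturated p → (∃ (m : ℕ) (c : Fin (m + 1) → Subgroup Ω), c 0 = ⊥ ∧ c (Fin.last m) = S ∧ (∀ i : Fin (m + 1), F.StronglyClosed (c i)) ∧ ∀ i : Fin m, c i.castSucc ≤ c i.succ ∧ ∃ x ∈ S, c i.succ = c i.castSucc ⊔ Subgroup.zpowers x)) ↔ (∀ F : Cfsg.FusionSystem S, F.IsSaturated p → F.IsNormal S) ∧ ∀ H : Subgroup (MulAut ↥S), (Nat.card ↥H).Coprime p → IsMulCommutative ↥H ∧ ∀ h ∈ H, h ^ (p - 1) = 1 := by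
  constructor
  · intro h
    refine ⟨fun F hF => ?_, fun H hH => ?_⟩
    · obtain ⟨m, c, h0, h1, hsc, hstep⟩ := h F hF
      exact isNormal_top_of_not_ess hS hF fun P hP _ hE =>
        have := finite_of_le hP.le
        hE.not_isPGroup_flagKer (isPGroup_of_le hS hP.le) (flag_of_chain hS c h0 h1 hsc hstep hP.le)
    · obtain ⟨m, c, h0, h1, hsc, hstep⟩ := h _ (autSys_sup_saturated hS hH)
      exact AC.comm_of_isPGroup_flagKer hS (flag_of_chain hS c h0 h1 hsc hstep le_rfl)
        (by rw [autGroup_autSys]; exact le_sup_right) hH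
  · rintro ⟨h1, h2⟩ F hF
    have hN := h1 F hF
    have hp : p.Prime := Fact.out
    have hnd := (sat_sylIn_inn hS hF).not_dvd_relIndex
    obtain ⟨H, hH⟩ := Subgroup.exists_right_complement'_of_coprime
      (N := (Inn S).subgroupOf (F.autGroup S)) (by
        obtain ⟨k, hk⟩ := IsPGroup.iff_card.1 (isPGroup_subgroupOf (F.autGroup S) (isPGroup_inn hS))
        rw [hk]
        exact Nat.Coprime.pow_left k ((Nat.Prime.coprime_iff_not_dvd hp).2 hnd))
    obtain ⟨hc, he⟩ := h2 (H.map (F.autGroup S).subtype) (by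
      rw [Subgroup.card_map_of_injective (F.autGroup S).subtype_injective, ← hH.symm.index_eq_card]
      exact ((Nat.Prime.coprime_iff_not_dvd hp).2 hnd).symm)
    have hdec : ∀ α ∈ F.autGroup S, ∃ h ∈ H.map (F.autGroup S).subtype,
        QuotientGroup.mk' (Inn S) α = QuotientGroup.mk' (Inn S) h := by
      intro α hα
      obtain ⟨⟨n, h⟩, e⟩ := hH.2 ⟨α, hα⟩
      refine ⟨_, ⟨h, h.2, rfl⟩, ?_⟩
      rw [← show ((n : F.autGroup S) : MulAut S) * (h : F.autGroup S) = α from congrArg Subtype.val e,
        map_mul, QuotientGroup.mk'_apply, 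
        (QuotientGroup.eq_one_iff ((n : F.autGroup S) : MulAut S)).2 n.2, one_mul]
      rfl
    have key : ∀ U : Subgroup S, AC.Inv (F.autGroup S) U → Relation.ReflTransGen
        (fun A B : Subgroup Ω => F.StronglyClosed B ∧ A ≤ B ∧ ∃ x ∈ S, B = A ⊔ Subgroup.zpowers x)
        (U.map S.subtype) S := by
      intro U
      induction U using WellFoundedGT.induction with | ind U ih => ?_
      intro hU
      by_cases hne : U = ⊤
      · rw [hne, ← MonoidHom.range_eq_map, Subgroup.range_subtype]
      have := AC.normal_of_inv (inn_le_autGroup F le_rfl) hU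
      obtain ⟨x, hx, hV⟩ := AC.exists_cyclic_step hS (fun α hα β hβ => by
          obtain ⟨a, ha, ea⟩ := hdec α hα
          obtain ⟨b, hb, eb⟩ := hdec β hβ
          rw [← QuotientGroup.eq_one_iff, ← QuotientGroup.mk'_apply, map_commutatorElement, ea, eb,
            ← map_commutatorElement, commutatorElement_eq_one_iff_mul_comm.2
              (congrArg Subtype.val (hc.is_comm.comm ⟨a, ha⟩ ⟨b, hb⟩)), map_one])
        (fun α hα => by
          obtain ⟨a, ha, ea⟩ := hdec α hα
          rw [← QuotientGroup.eq_one_iff, ← QuotientGroup.mk'_apply, map_pow, ea, ← map_pow,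
            he a ha, map_one]) hU hne
      refine (ih _ (lt_of_le_of_ne le_sup_left fun h => hx
        (h ▸ Subgroup.mem_sup_right (Subgroup.mem_zpowers x))) hV).head
        ⟨stronglyClosed_map_of_isNormal_top hN hV, Subgroup.map_mono le_sup_left, x, x.2, ?_⟩
      rw [Subgroup.map_sup, MonoidHom.map_zpowers]; rfl
    have := key ⊥ (AC.inv_bot _)
    rw [Subgroup.map_bot, Solv.reflTransGen_iff_fin_chain] at this
    obtain ⟨m, c, h0, hl, hs⟩ := this
    refine ⟨m, c, h0, hl, fun i => ?_, fun i => (hs i).2⟩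
    induction i using Fin.cases with
    | zero => exact h0 ▸ stronglyClosed_bot F
    | succ i => exact (hs i).1

end Cfsg.Agent.S5283
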