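import Mathlib
import Cfsg.Statements.S5284
import Cfsg.Agent.S5283
-- import your own Cfsg.Agent.* helpers here

set_option autoImplicit false
open Cfsg

namespace Cfsg.Agent.S5284

open Cfsg.Agent.Fus Cfsg.FusionSystem

theorem exists_bad' {p : ℕ} [hp : Fact p.Prime] {C : Type} [CommGroup C] [Finite C] (g : C)
    (hg : g ≠ 1) (hg2 : p ≠ 2 → g⁻¹ ≠ g) : ∃ H : Subgroup (MulAut (C × C)),
      (Nat.card H).Coprime p ∧ ¬ (IsMulCommutative H ∧ ∀ h ∈ H, h ^ (p - 1) = 1) := by
  by_cases h2 : p = 2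
  · let β : MulAut (C × C) :=
      { toFun := fun x => (x.2⁻¹, x.1 * x.2⁻¹)
        invFun := fun x => (x.1⁻¹ * x.2, x.1⁻¹)
        left_inv := fun x => by simp [mul_comm]
        right_inv := fun x => by simp [mul_comm]
        map_mul' := fun x y => by simp [mul_comm, mul_left_comm, mul_assoc] }
    have h3 : β ^ 3 = 1 := by
      ext x <;> simp [β, pow_succ, mul_comm]
    refine ⟨Subgroup.zpowers β, ?_, fun h => hg ?_⟩
    · rw [Nat.card_zpowers, h2]
      exact Nat.Coprime.of_dvd_left (orderOf_dvd_of_pow_eq_one h3) (by norm_num)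
    · have := h.2 β (Subgroup.mem_zpowers β)
      rw [show p - 1 = 1 by omega, pow_one] at this
      simpa [β] using (congrArg (fun α : MulAut (C × C) => (α (g, 1)).1) this).symm
  · let σ : MulAut (C × C) := MulEquiv.prodComm
    let δ : MulAut (C × C) := (MulEquiv.inv C).prodCongr (MulEquiv.refl C)
    have key : ∀ α ∈ Subgroup.closure {σ, δ}, ∃ e₁ e₂ : ℤ, e₁ * e₁ = 1 ∧ e₂ * e₂ = 1 ∧
        ((∀ x, α x = (x.1 ^ e₁, x.2 ^ e₂)) ∨ ∀ x, α x = (x.2 ^ e₁, x.1 ^ e₂)) := by
      intro α hα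
      induction hα using Subgroup.closure_induction'' with
      | mem α hα =>
        rcases hα with rfl | rfl
        · exact ⟨1, 1, rfl, rfl, Or.inr fun x => by simp [σ, Prod.swap]⟩
        · exact ⟨-1, 1, rfl, rfl, Or.inl fun x => by simp [δ]; rfl⟩
      | inv_mem α hα =>
        rcases hα with rfl | rfl
        · exact ⟨1, 1, rfl, rfl, Or.inr fun x => by simp [σ]; rfl⟩
        · exact ⟨-1, 1, rfl, rfl, Or.inl fun x => by simp [δ]; rfl⟩
      | one => exact ⟨1, 1, rfl, rfl, Or.inl fun x => by simp⟩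
      | mul α β _ _ hα hβ =>
        obtain ⟨a, b, ha, hb, hα⟩ := hα
        obtain ⟨c, d, hc, hd, hβ⟩ := hβ
        have h : ∀ {u v : ℤ}, u * u = 1 → v * v = 1 → u * v * (u * v) = 1 := fun {u v} hu hv => by
          rw [mul_mul_mul_comm, hu, hv, one_mul]
        rcases hα with hα | hα <;> rcases hβ with hβ | hβ
        · exact ⟨_, _, h hc ha, h hd hb, Or.inl fun x => by simp [hα, hβ, zpow_mul]⟩
        · exact ⟨_, _, h hc ha, h hd hb, Or.inr fun x => by simp [hα, hβ, zpow_mul]⟩
        · exact ⟨_, _, h hd ha, h hc hb, Or.inr fun x => by simp [hα, hβ, zpow_mul]⟩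
        · exact ⟨_, _, h hd ha, h hc hb, Or.inl fun x => by simp [hα, hβ, zpow_mul]⟩
    have h4 : IsPGroup 2 (Subgroup.closure {σ, δ}) := by
      rintro ⟨α, hα⟩
      refine ⟨2, Subtype.ext (MulEquiv.ext fun x => ?_)⟩
      obtain ⟨a, b, ha, hb, h⟩ := key α hα
      change α (α (α (α x))) = x
      rcases h with h | h
      · simp only [h, ← zpow_mul]
        rw [show a * a * a * a = 1 by rw [mul_assoc, ha, one_mul],
          show b * b * b * b = 1 by rw [mul_assoc, hb, one_mul]]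
        simp
      · simp only [h, ← zpow_mul]
        rw [show b * a * b * a = 1 by linear_combination (b * b) * ha + hb,
          show a * b * a * b = 1 by linear_combination (b * b) * ha + hb]
        simp
    refine ⟨Subgroup.closure {σ, δ}, ?_, fun h => ?_⟩
    · have : Fact (Nat.Prime 2) := ⟨Nat.prime_two⟩
      obtain ⟨k, hk⟩ := IsPGroup.iff_card.1 h4
      rw [hk]
      exact Nat.Coprime.pow_left k ((Nat.coprime_primes Nat.prime_two hp.out).2 (Ne.symm h2))
    · have h1 := congrArg (fun α : Subgroup.closure {σ, δ} => ((α : MulAut (C × C)) (g, 1)).2)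
        (h.1.is_comm.comm ⟨σ, Subgroup.subset_closure (by simp)⟩
          ⟨δ, Subgroup.subset_closure (by simp)⟩)
      exact hg2 h2 h1

theorem exists_bad {p : ℕ} [hp : Fact p.Prime] {n : ℕ} (hn : 0 < n) :
    ∃ H : Subgroup (MulAut (Multiplicative (ZMod (p ^ n)) × Multiplicative (ZMod (p ^ n)))),
      (Nat.card H).Coprime p ∧ ¬ (IsMulCommutative H ∧ ∀ h ∈ H, h ^ (p - 1) = 1) := by
  have : Fact (1 < p ^ n) := ⟨Nat.one_lt_pow hn.ne' hp.out.one_lt⟩
  refine exists_bad' (Multiplicative.ofAdd 1) (fun h => one_ne_zero (α := ZMod (p ^ n)) h)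
    fun h2 h3 => ?_
  have h5 : ((2 : ℕ) : ZMod (p ^ n)) = 0 := by
    have : (-1 : ZMod (p ^ n)) = 1 := congrArg Multiplicative.toAdd h3
    push_cast
    linear_combination -this
  rw [ZMod.natCast_eq_zero_iff] at h5
  exact h2 ((Nat.prime_dvd_prime_iff_eq hp.out Nat.prime_two).1
    ((dvd_pow_self p hn.ne').trans h5))

/-- Splitting two coordinates off a product. -/
def splitTwo {ι : Type} [DecidableEq ι] (A : ι → Type) [∀ i, Group (A i)] {i j : ι} (h : i ≠ j) :
    ((k : ι) → A k) ≃* (A i × A j) × ((k : {k // k ≠ i ∧ k ≠ j}) → A k) where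
  toFun x := ((x i, x j), fun k => x k)
  invFun y k := if h1 : k = i then h1 ▸ y.1.1 else if h2 : k = j then h2 ▸ y.1.2 else y.2 ⟨k, h1, h2⟩
  left_inv x := by
    funext k
    by_cases h1 : k = i
    · subst h1; simp
    · by_cases h2 : k = j
      · subst h2; simp [h1]
      · simp [h1, h2]
  right_inv y := by
    refine Prod.ext (Prod.ext ?_ ?_) (funext fun k => ?_)
    · simp
    · simp [h.symm]
    · simp [k.2.1, k.2.2]
  map_mul' _ _ := rfl

/-- Let S be a finite abelian p-group. Every saturated fusion system over S is supersoluble (S has a chain of F-strongly closed subgroups from 1 to S with cyclic steps) if and only if the invariants of S are pairwise distinct, that is, S is not isomorphic to a direct product (Z/p^n × Z/p^n) × H with n ≥ 1. -/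
theorem result {Ω : Type*} [Group Ω] {S : Subgroup Ω} [Finite S] (p : ℕ) [Fact p.Prime] (hS : IsPGroup p ↥S) (hab : IsMulCommutative ↥S) : (∀ F : Cfsg.FusionSystem S, F.IsSaturated p → (∃ (m : ℕ) (c : Fin (m + 1) → Subgroup Ω), c 0 = ⊥ ∧ c (Fin.last m) = S ∧ (∀ i : Fin (m + 1), F.StronglyClosed (c i)) ∧ ∀ i : Fin m, c i.castSucc ≤ c i.succ ∧ ∃ x ∈ S, c i.succ = c i.castSucc ⊔ Subgroup.zpowers x)) ↔ ¬ ∃ (n : ℕ) (H : Type) (_ : CommGroup H), 0 < n ∧ Nonempty (↥S ≃* (Multiplicative (ZMod (p ^ n)) × Multiplicative (ZMod (p ^ n))) × H) := by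
  have hp : p.Prime := Fact.out
  rw [Cfsg.Agent.S5283.result p hS]
  constructor
  · rintro ⟨-, h⟩ ⟨n, H, _, hn, ⟨e⟩⟩
    obtain ⟨K, hK, hK'⟩ := exists_bad (p := p) hn
    let ρ : MulAut (Multiplicative (ZMod (p ^ n)) × Multiplicative (ZMod (p ^ n))) →* MulAut S :=
      (MulAut.congr e.symm).toMonoidHom.comp
        (MonoidHom.mk' (fun α => MulEquiv.prodCongr α (MulEquiv.refl H)) fun _ _ => rfl)
    have hρ : Function.Injective ρ := (MulAut.congr e.symm).injective.comp fun α β h =>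
      MulEquiv.ext fun x => congrArg (fun γ : MulAut (_ × H) => (γ (x, 1)).1) h
    obtain ⟨h1, h2⟩ := h (K.map ρ) (by rwa [Subgroup.card_map_of_injective hρ])
    exact hK' ⟨⟨⟨fun a b => Subtype.ext (hρ (by
      simpa using congrArg Subtype.val
        (h1.is_comm.comm ⟨ρ a, a, a.2, rfl⟩ ⟨ρ b, b, b.2, rfl⟩)))⟩⟩,
      fun a ha => hρ (by rw [map_pow, map_one]; exact h2 _ ⟨a, ha, rfl⟩)⟩
  · intro h
    refine ⟨fun F hF => isNormal_top_of_comm hS hF fun x hx y hy =>
      congrArg Subtype.val (hab.is_comm.comm ⟨x, hx⟩ ⟨y, hy⟩), fun H hH => ?_⟩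
    classical
    let : CommGroup S := { (inferInstance : Group S) with mul_comm := hab.is_comm.comm }
    obtain ⟨ι, _, m, hm, ⟨e⟩⟩ := CommGroup.equiv_prod_multiplicative_zmod_of_finite S
    have : ∀ i, ∃ a, m i = p ^ a := fun i => by
      have : NeZero (m i) := ⟨by have := hm i; omega⟩
      obtain ⟨a, ha⟩ := IsPGroup.iff_card.1 ((hS.of_equiv e).of_surjective
        (Pi.evalMonoidHom _ i) (Function.surjective_eval i))
      exact ⟨a, by simpa using ha⟩
    choose a ha using this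
    obtain rfl : m = fun i => p ^ a i := funext ha
    refine AC.comm_of_isPGroup_flagKer hS (AC.isPGroup_flagKer_of_distinct (fun i j hij h0 => ?_) e ⊤)
      le_top hH
    by_contra hne
    refine h ⟨a i, (k : {k // k ≠ i ∧ k ≠ j}) → Multiplicative (ZMod (p ^ a k)), inferInstance,
      Nat.pos_of_ne_zero h0, ⟨(e.trans (splitTwo _ hne)).trans (MulEquiv.prodCongr
        (MulEquiv.prodCongr (MulEquiv.refl _) ?_) (MulEquiv.refl _))⟩⟩
    rw [hij]
    exact MulEquiv.refl _

end Cfsg.Agent.S5284
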