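import Cfsg.Statements.S5290
import Mathlib
import Cfsg.Agent.Fus.WNorm

set_option autoImplicit false
open Cfsg

namespace Cfsg.Agent.S5290

/-- Let F be a saturated fusion system over a finite p-group S and Q a subgroup of S. Then Q is normal in F (F = N_F(Q)) if and only if the inner fusion system of Q, consisting of the conjugations by elements of Q on subgroups of Q, is a weakly normal subsystem of F (both saturated, Q strongly closed, invariant under F-conjugation, with the Frattini property). -/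
theorem result {Ω : Type*} [Group Ω] {S : Subgroup Ω} [Finite S] (p : ℕ) [Fact p.Prime] (hS : IsPGroup p S)
    (F : Cfsg.FusionSystem S) (hF : F.IsSaturated p)
    (Q : Subgroup Ω) (hQ : Q ≤ S) :
    F.IsNormal Q ↔ (Cfsg.innerFusionSystem Q).IsWeaklyNormalIn F p := by
  have : Finite Q := Fus.finite_of_le hQ
  constructor
  · intro h
    refine ⟨Fus.isSaturated_inner (Fus.isPGroup_of_le hS hQ), hF, Fus.isInvariantIn_iff.2
      ⟨Fus.isSubsystemOf_iff.2 fun P f hf => ?_, Fus.stronglyClosed_of_isNormal h,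
        fun P f hf α hα => ?_, fun P f hP hf => ?_⟩⟩
    · obtain ⟨hP, g, hg, e⟩ := Fus.isMap_inner_iff.1 hf
      exact (Fus.isMap_conj F (hP.trans hQ) (hQ hg)).congr fun x hx => (e x hx).symm
    · obtain ⟨hP, g, hg, e⟩ := Fus.isMap_inner_iff.1 hf
      refine Fus.isMap_inner_iff.2 ⟨Fus.img_afn_le hP α, _, Fus.afn_mem α hg, fun y hy => ?_⟩
      obtain ⟨x, hx, rfl⟩ := (Fus.mem_img_afn hP).1 hy
      rw [Fus.afn_inv_afn α (hP hx), e x hx, (Fus.homOn_afn α).map_conj hg (hP hx)]
    · obtain ⟨g, hg, e, hi⟩ := Fus.IsNormal_extend h hf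
      obtain ⟨α, hα, eα⟩ := (hg.mono le_sup_right).exists_aut hi
      exact ⟨α, hα, _, Fus.isMap_id _ hP, fun x hx => by rw [eα x (hP hx), e x hx]⟩
  · intro h
    exact Fus.isNormal_of_normal_invariant hS hF h.2.2
      (Fus.isNormal_iff.2 ⟨le_rfl, fun P f hf => by
        obtain ⟨hP, g, hg, e⟩ := Fus.isMap_inner_iff.1 hf
        exact ⟨_, Fus.isMap_conj _ (sup_le hP le_rfl) hg, fun x hx => (e x hx).symm,
          Fus.img_conj_eq_self (Fus.le_normalizerIn le_rfl hg)⟩⟩)
      fun α _ x hx => Fus.afn_mem α hx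

end Cfsg.Agent.S5290
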