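import Cfsg.Statements.S5291
import Mathlib
import Cfsg.Agent.Fus.WNorm

set_option autoImplicit false
open Cfsg

namespace Cfsg.Agent.S5291

/-- Let F be a saturated fusion system over a finite p-group S and E a weakly normal subsystem of F over a subgroup T. Suppose a subgroup R of T is normal in E (E = N_E(R)), and let R* be the subgroup of T generated by the images of R under all maps of F with source R. Then R* is normal in F (F = N_F(R*)). -/
theorem result {Ω : Type*} [Group Ω] {S : Subgroup Ω} [Finite S] (p : ℕ) [Fact p.Prime] (hS : IsPGroup p S)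
    (F : Cfsg.FusionSystem S) (hF : F.IsSaturated p)
    {T : Subgroup Ω} (E : Cfsg.FusionSystem T) (hE : E.IsWeaklyNormalIn F p)
    (R : Subgroup Ω) (hR : E.IsNormal R) :
    F.IsNormal (Subgroup.closure {x : Ω | ∃ φ ∈ F.Hom R, ∃ r : R, x = φ r}) := by
  have hT := hE.2.2.2.1
  have : Finite T := Fus.finite_of_le hT.1
  have key : Subgroup.closure {x : Ω | ∃ φ ∈ F.Hom R, ∃ r : R, x = φ r} =
      sSup {U | E.IsNormal U ∧ U ≤ Subgroup.closure {x : Ω | ∃ φ ∈ F.Hom R, ∃ r : R, x = φ r}} := by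
    refine le_antisymm ((Subgroup.closure_le _).2 ?_) (sSup_le fun U hU => hU.2)
    rintro _ ⟨φ, hφ, r, rfl⟩
    obtain ⟨α, hα, f₀, hf₀, e⟩ := Fus.invIn_frattini hE.2.2 hR.1 (Fus.isMap_fn hφ)
    have h1 := (Fus.fIso_of_invariant hE.2.2 hα).isNormal hR
    have h3 : Fus.imX (Fus.afn α) R ≤ Subgroup.closure {x : Ω | ∃ φ ∈ F.Hom R, ∃ r : R, x = φ r} :=
      Fus.imX_le_iff.2 fun x hx =>
        Subgroup.subset_closure ⟨_, ((Fus.isMap_afn hT.1 hα).mono hR.1).toHom_mem, ⟨x, hx⟩, rfl⟩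
    refine Subgroup.mem_sSup_of_mem (S := {U | E.IsNormal U ∧
      U ≤ Subgroup.closure {x : Ω | ∃ φ ∈ F.Hom R, ∃ r : R, x = φ r}}) ⟨h1, h3⟩ ?_
    rw [← Fus.fn_coe, e r r.2]
    exact Fus.mem_imX_of_mem _
      (hf₀.mem_of_stronglyClosed (Fus.stronglyClosed_of_isNormal hR) r.2 r.2)
  have hN : E.IsNormal (Subgroup.closure {x : Ω | ∃ φ ∈ F.Hom R, ∃ r : R, x = φ r}) := by
    rw [key]
    exact (Fus.sSup_mem_of_sup_closed (S := T)
      (𝒜 := {U | E.IsNormal U ∧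
        U ≤ Subgroup.closure {x : Ω | ∃ φ ∈ F.Hom R, ∃ r : R, x = φ r}})
      (fun U hU => hU.1.1) ⟨⊥, Fus.isNormal_bot E, bot_le⟩
      fun U hU V hV => ⟨Fus.isNormal_sup hU.1 hV.1, sup_le hU.2 hV.2⟩).1
  refine Fus.isNormal_of_normal_invariant hS hF hE.2.2 hN fun α hα => ?_
  refine ((Fus.homOn_afn α).mono hN.1).mem_of_closure ?_
  rintro _ ⟨φ, hφ, r, rfl⟩
  have h1 := Fus.isMap_fn hφ
  have h2 := (Fus.isMap_afn hT.1 hα).comp' h1 fun x hx =>
    h1.mem_of_stronglyClosed hT hx (hR.1 hx)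
  refine Subgroup.subset_closure ⟨_, h2.toHom_mem, r, ?_⟩
  rw [Fus.HomOn.toHom_apply, Fus.fn_coe]

end Cfsg.Agent.S5291
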