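import Cfsg.Statements.S5292
import Mathlib
import Cfsg.Agent.Fus.ModelSolv

set_option autoImplicit false
universe u
open Cfsg

namespace Cfsg.Agent.S5292

/-- Let F be a saturated fusion system over a finite p-group S. Then F is the fusion system of some finite p-solvable group on a Sylow p-subgroup if and only if F is constrained (some subgroup normal in F is centric in F) and the group of automorphisms that F induces on its largest normal subgroup O_p(F) is p-solvable. -/
theorem result {Ω : Type u} [Group Ω] {S : Subgroup Ω} [Finite S] (p : ℕ) [Fact p.Prime] (hS : IsPGroup p S)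
    (F : Cfsg.FusionSystem S) (hF : F.IsSaturated p) :
    (∃ (G : Type u) (_ : Group G) (_ : Finite G) (ι : S →* G), Cfsg.IsPSolvable p G ∧ F.IsRealizedBy ι ∧
        ∃ T : Sylow p G, (T : Subgroup G) = ι.range) ↔
      (F.IsConstrained p ∧ Cfsg.IsPSolvable p ↥(F.autGroup F.core)) := by
  constructor
  · rintro ⟨G, _, _, ι, h1, h2, h3⟩
    have h := Fus.isModel_quotient_of_isPSolvable h2 h3 h1
    exact ⟨Fus.constrained_of_isModel h,
      (Fus.IsModel_isPSolvable_iff h).1 (PLocal.IsPSolvable.quotient h1 _)⟩
  · rintro ⟨h1, h2⟩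
    obtain ⟨G, _, ι, h⟩ := Fus.exists_model hS h1
    exact ⟨G, _, h.1, ι, (Fus.IsModel_isPSolvable_iff h).2 h2, h.2.1, h.2.2.1⟩

end Cfsg.Agent.S5292
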