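import Cfsg.Statements.S5300
import Mathlib
import Cfsg.Agent.Fus.Omega

set_option autoImplicit false
universe u
open Cfsg

namespace Cfsg.Agent.S5300

/-- Let F be a saturated fusion system over a finite p-group S. If every cyclic subgroup of the focal subgroup of F of order p (of order 2 or 4 when p = 2) is normal in S, then S is normal in F. -/
theorem result {Ω : Type u} [Group Ω] {S : Subgroup Ω} [Finite S] (p : ℕ) [Fact p.Prime] (hS : IsPGroup p S)
    (F : Cfsg.FusionSystem S) (hF : F.IsSaturated p)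
    (hnorm : ∀ x ∈ F.focalSubgroup, (x ^ p = 1 ∨ (p = 2 ∧ x ^ 4 = 1)) → ∀ s ∈ S, s * x * s⁻¹ ∈ Subgroup.zpowers x) :
    F.IsNormal S := by
  have hT := Fus.stronglyClosed_of_focalSubgroup_le (F := F) le_rfl (Fus.FIso.focal_le F)
  have hcent : ∀ x ∈ F.focalSubgroup, x ^ p = 1 → ∀ s ∈ S, x * s = s * x := by
    intro x hx hp s hs
    have : Finite (Subgroup.zpowers x) := Fus.finite_of_le (Subgroup.zpowers_le.2 (hT.1 hx))
    refine FGS.le_centralizer_of_card_le hS (Z := Subgroup.zpowers x) (fun s hs =>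
      Fus.mem_normalizer_of_conj_mem fun y hy => ?_) ?_ hs x (Subgroup.mem_zpowers x)
    · obtain ⟨k, rfl⟩ := Subgroup.mem_zpowers_iff.1 hy
      rw [← conj_zpow]
      exact Subgroup.zpow_mem _ (hnorm x hx (Or.inl hp) s hs) k
    · rw [Nat.card_zpowers]
      exact Nat.le_of_dvd (Fact.out : p.Prime).pos (orderOf_dvd_of_pow_eq_one hp)
  let Z : Subgroup Ω :=
    { carrier := {x | x ∈ F.focalSubgroup ∧ x ^ p = 1}
      one_mem' := ⟨Subgroup.one_mem _, one_pow _⟩
      mul_mem' := fun {a b} ha hb => ⟨Subgroup.mul_mem _ ha.1 hb.1, by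
        rw [Commute.mul_pow (hcent a ha.1 ha.2 b (hT.1 hb.1)), ha.2, hb.2, one_mul]⟩
      inv_mem' := fun {a} ha => ⟨Subgroup.inv_mem _ ha.1, by rw [inv_pow, ha.2, inv_one]⟩ }
  have hZ : ∀ x, x ∈ Z ↔ x ∈ F.focalSubgroup ∧ x ^ p = 1 := fun _ => Iff.rfl
  refine Fus.isNormal_of_le_cr hS hF (Fus.weaklyClosed_of_stronglyClosed (Fus.stronglyClosed_top F))
    fun R _ hc hr => ?_
  have : Finite R := Fus.finite_of_le hc.1
  have hR := Fus.isPGroup_of_le hS hc.1
  refine Fus.le_of_normalizer_le hS le_rfl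
    (hc.1.trans (Fus.le_normalizerIn le_rfl)) fun x hx hxN => ?_
  let V : Subgroup Ω := Subgroup.closure
    {y | y ∈ R ∧ y ∈ F.focalSubgroup ∧ y ^ Grp.CritExp.expQ p = 1}
  have hVR : V ≤ R := (Subgroup.closure_le _).2 fun y hy => hy.1
  have hZinv : ∀ α ∈ F.autGroup R, ∀ y ∈ R, y ∈ Z → Fus.afn α y ∈ Z := fun α hα y hy hyZ =>
    ⟨(Fus.isMap_afn hc.1 hα).mem_of_stronglyClosed hT hy hyZ.1, by
      rw [← (Fus.homOn_afn α).map_pow hy, hyZ.2, (Fus.homOn_afn α).map_one]⟩
  refine Fus.mem_of_pairs (Fus.isCentric_self hc) hr (ι := Bool)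
    (fun i => cond i Z ⊥) (fun i => cond i V Z) ?_ ?_ ?_ hxN ?_
  · rintro (_ | _) α hα y hy hyU
    · exact (Fus.isMap_afn hc.1 hα).mem_of_stronglyClosed (Fus.stronglyClosed_bot F) hy hyU
    · exact hZinv α hα y hy hyU
  · rintro (_ | _) α hα y hy hyU
    · exact hZinv α hα y hy hyU
    · refine ((Fus.homOn_afn α).mono hVR).mem_of_closure (R := V) (fun z hz => ?_) y hyU
      exact Subgroup.subset_closure ⟨Fus.afn_mem α hz.1,
        (Fus.isMap_afn hc.1 hα).mem_of_stronglyClosed hT hz.1 hz.2.1, by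
          rw [← (Fus.homOn_afn α).map_pow hz.1, hz.2.2, (Fus.homOn_afn α).map_one]⟩
  · intro α hα hcop h
    have h1 : ∀ y ∈ R, y ∈ Z → Fus.afn α y = y := fun y hy hyZ =>
      mul_inv_eq_one.1 (Subgroup.mem_bot.1 (h false y hy hyZ))
    have h2 := Fus.fix_of_fix_small hR hcop
      (fun y hy hyP => (Fus.isMap_afn hc.1 hα).mem_of_stronglyClosed hT hy hyP)
      fun y hy hyP hq => Fus.fix_of_step hR hcop h1 hy
        (h true y hy (Subgroup.subset_closure ⟨hy, hyP, hq⟩))
    exact fun y hy => Fus.fix_of_step hR hcop h2 hy ((Fus.isMap_afn hc.1 hα).mul_inv_mem_focal hy)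
  · rintro (_ | _) y hy hyV
    · show _ ∈ (⊥ : Subgroup Ω)
      rw [Subgroup.mem_bot, ← hcent y hyV.1 hyV.2 x hx]; group
    · show _ ∈ Z
      clear hy
      have hyV' : y ∈ V := hyV
      induction hyV' using Subgroup.closure_induction with
      | mem z hz =>
        have h4 := Grp.CritExp.pow_expQ_eq_one_iff.1 hz.2.2
        rcases h4 with h4 | ⟨rfl, h4⟩
        · rw [← hcent z hz.2.1 h4 x hx]
          simpa using Z.one_mem
        · have h5 := hnorm z hz.2.1 (Or.inr ⟨rfl, h4⟩) x hx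
          have h6 := hcent (z ^ 2) (Subgroup.pow_mem _ hz.2.1 2) (by rw [← pow_mul]; exact h4) x hx
          refine ⟨Subgroup.mul_mem _ (Fus.conj_mem_of_stronglyClosed hT hx hz.2.1)
            (Subgroup.inv_mem _ hz.2.1), ?_⟩
          obtain ⟨k, hk⟩ := Subgroup.mem_zpowers_iff.1 h5
          have hc : Commute (x * z * x⁻¹) z⁻¹ := by
            rw [← hk]; exact ((Commute.refl z).zpow_left k).inv_right
          rw [hc.mul_pow, conj_pow, ← h6]; group
      | one => simpa using Z.one_mem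
      | mul a b ha hb iha ihb =>
        have h1 := iha ha
        have h2 := ihb hb
        have h3 := hcent _ h2.1 h2.2 a⁻¹ (S.inv_mem (hc.1 (hVR ha)))
        have : x * (a * b) * x⁻¹ * (a * b)⁻¹ =
            x * a * x⁻¹ * ((x * b * x⁻¹ * b⁻¹) * a⁻¹) := by group
        rw [this, h3, ← mul_assoc]
        exact Z.mul_mem h1 h2
      | inv a ha iha =>
        have h1 := iha ha
        have h3 := hcent _ h1.1 h1.2 a (hc.1 (hVR ha))
        have : x * a⁻¹ * x⁻¹ * a⁻¹⁻¹ = (a⁻¹ * ((x * a * x⁻¹ * a⁻¹) * a))⁻¹ := by group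
        rw [this, h3, inv_mul_cancel_left]
        exact Z.inv_mem h1

end Cfsg.Agent.S5300
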