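import Mathlib
import Cfsg.Statements.S5301
import Cfsg.Agent.Fus.EssTools
-- import your own Cfsg.Agent.* helpers here

set_option autoImplicit false
universe u
open Cfsg

namespace Cfsg.Agent.S5301

open Cfsg.Agent.Fus Cfsg.FusionSystem

/-- Let F be a saturated fusion system over a finite p-group S. If for every subgroup P of S that is fully normalized, centric and radical in F the automorphism group that F induces on P has a normal Sylow p-subgroup, then S is normal in F. -/
theorem result {Ω : Type u} [Group Ω] {S : Subgroup Ω} [Finite S] (p : ℕ) [Fact p.Prime] (hS : IsPGroup p S)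
    (F : Cfsg.FusionSystem S) (hF : F.IsSaturated p)
    (hcl : ∀ P : Subgroup Ω, F.IsFullyNormalized P → F.IsCentric P → F.IsRadical p P →
      ∃ R : Sylow p ↥(F.autGroup P), (R : Subgroup ↥(F.autGroup P)).Normal) :
    F.IsNormal S := by
  refine isNormal_of_le_cr hS hF (weaklyClosed_of_stronglyClosed (stronglyClosed_top F))
    fun P hn hc hr => ?_
  by_contra hSP
  obtain ⟨t, ht, ht', k, hk⟩ := (ess_of_radical hS hr (isCentric_self hc)
    (lt_of_le_of_ne hr.1 fun h => hSP h.ge)).ex
  obtain ⟨R, hR⟩ := hcl P hn hc hr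
  have := finite_mulAut hr.1
  have h1 : (R : Subgroup (F.autGroup P)).map (F.autGroup P).subtype ≤ Inn P :=
    radical_le_inn hr (R.isPGroup'.map _) (Subgroup.map_subtype_le _) (by
      rintro α hα _ ⟨κ, hκ, rfl⟩
      exact ⟨_, hR.conj_mem κ hκ ⟨α, hα⟩, rfl⟩)
  have h2 : IsPGroup p (Subgroup.zpowers (⟨t, ht⟩ : F.autGroup P)) :=
    AC.isPGroup_zpowers (k := k) (Subtype.ext hk)
  obtain ⟨R', hR'⟩ := h2.exists_le_sylow
  have := Sylow.unique_of_normal R hR
  exact ht' (h1 ⟨_, (Subsingleton.elim R' R) ▸ hR' (Subgroup.mem_zpowers _), rfl⟩)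

end Cfsg.Agent.S5301
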