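import Mathlib
import Cfsg.Statements.S5310
import Cfsg.Agent.Fus.CProd
import Cfsg.Agent.Fus.CompCons
import Cfsg.Agent.Fus.InnerNormal
import Cfsg.Agent.Fus.Functor
-- import your own Cfsg.Agent.* helpers here

set_option autoImplicit false
open Cfsg

namespace Cfsg.Agent.S5310

open Subgroup Cfsg.Agent.Fus Cfsg.Agent.FGS Cfsg.Agent.PLocal.CF

/-- A saturated fusion system F over a finite p-group S is constrained (its largest normal subgroup O_p(F) is centric) if and only if the inner fusion system of O_p(F) is itself a generalized Fitting subsystem of F (that is, F*(F) = O_p(F)). -/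
theorem result {Ω : Type*} [Group Ω] {S : Subgroup Ω} [Finite S] (p : ℕ) [Fact p.Prime] (hS : IsPGroup p S) (F : Cfsg.FusionSystem S) (hF : F.IsSaturated p) :
    F.IsConstrained p ↔ (Cfsg.innerFusionSystem F.core).IsGeneralizedFittingOf F p := by
  have hQ := (isNormal_core F).1
  have := finite_of_le hQ
  constructor
  · intro h
    refine ⟨⊥, innerFusionSystem ⊥, ⟨isNormalIn_inner_of_isNormal hS hF (isNormal_bot F),
      fun U C hC => (not_component_of_constrained hS h hC).elim,
      fun R D _ _ => inner_isSubsystemOf D bot_le⟩, (cPr_bot_right _ _).isCentralProductOf⟩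
  · rintro ⟨T, E, hE, h⟩
    have := finite_of_le (le_of_isSubsystemOf hE.1.1.2.2.1)
    have h' := cPr_of_isCentralProductOf h
    refine isConstrained_of_no_component hS hF fun U C hC => ?_
    have := finite_of_le (IsSubnormalIn_le hC.1)
    have h1 := hyp_mono (isSubsystemOf_trans (hE.2.1 U C hC) h'.sub₂) p
    rw [hyp_inner _ (isPGroup_of_le hS hQ), hC.2.2.1] at h1
    exact qs_not_le_center hC.2 (h1.trans bot_le)

end Cfsg.Agent.S5310
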