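import Cfsg.Statements.S5315
import Mathlib
import Cfsg.Agent.Fus.Hyper
import Cfsg.Agent.Fus.Normal
import Cfsg.Agent.Fus.Factor


set_option autoImplicit false
open Cfsg

namespace Cfsg.Agent.S5315

open Cfsg.Agent.Fus Cfsg.FusionSystem


/-- An analogue of Grün's lemma for fusion systems. Let F be a saturated fusion system over a finite p-group S that is perfect in the sense that its hyperfocal subgroup is all of S (F coincides with its p-residual subsystem). Then the second centre of F equals its centre: every fusion system over S/(Z(F) ∩ S) that is the factor system of F modulo its centre Z(F), read through the quotient map, has trivial centre. -/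
theorem result {Ω : Type*} [Group Ω] {S : Subgroup Ω} [Finite S] (p : ℕ) [Fact p.Prime] (hS : IsPGroup p S) (F : Cfsg.FusionSystem S) (hF : F.IsSaturated p)
    (hperf : F.hyperfocalSubgroup p = S)
    (E : Cfsg.FusionSystem (⊤ : Subgroup (↥S ⧸ (F.center).subgroupOf S)))
    (hE : F.IsFactorSystem F.center (QuotientGroup.mk' ((F.center).subgroupOf S)) E) : E.center = ⊥ := by
  have hZ := isCentral_center F
  have hZc := stronglyClosed_of_isNormal (isNormal_of_isCentral hZ)
  have hm := IsFactor.isMorphism hS hF hZc hE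
  have hZE := isCentral_center E
  rw [eq_bot_iff]
  intro y hy
  obtain ⟨⟨x, hx⟩, rfl⟩ := QuotientGroup.mk'_surjective _ y
  rw [← hfn_apply _ hx] at hy
  set θ := QuotientGroup.mk' ((F.center).subgroupOf S) with hθ
  have hker : kerAlong θ = F.center := IsFactor.ker_eq hE
  have hZS : ∀ z ∈ F.center, ∀ s ∈ S, s * z * s⁻¹ = z := fun z hz s hs =>
    (isMap_conj F le_rfl hs).eq_of_isCentral hZ (hZ.1 hz) hz
  have K0 : ∀ P f, IsMap F P f → x ∈ P → x⁻¹ * f x ∈ F.center := by
    intro P f hf hxP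
    obtain ⟨f', hf', e⟩ := morph_push hm hf
    rw [← hker, ← hfn_eq_iff hx (hf.mem hxP), ← e x hxP,
      hf'.eq_of_isCentral hZE (hfn_mem_imageAlong θ hxP hx) hy]
  have hcent : S ≤ centralizerIn S (Subgroup.zpowers x) := by
    refine hperf.ge.trans ((hyp_le_focal F p).trans (focal_le_iff.2 fun P f hf a ha => ?_))
    obtain ⟨f', hf', e⟩ := morph_push hm hf
    obtain ⟨g', hg', e1, e2⟩ := IsCentral_extend hZE hf'
    obtain ⟨g, hg, e3⟩ := IsFactor.lift hE hg'
    have haS := hf.le ha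
    have ha' : a ∈ preimageAlong θ (imageAlong θ P ⊔ E.center) :=
      mem_preimageAlong.2 ⟨haS, Subgroup.mem_sup_left (hfn_mem_imageAlong θ ha haS)⟩
    have hx' : x ∈ preimageAlong θ (imageAlong θ P ⊔ E.center) :=
      mem_preimageAlong.2 ⟨hx, Subgroup.mem_sup_right hy⟩
    have h1 : (f a)⁻¹ * g a ∈ F.center := by
      rw [← hker, ← hfn_eq_iff (hf.mem ha) (hg.mem ha'), ← e3 a ha', ← e a ha,
        e1 _ (hfn_mem_imageAlong θ ha haS)]
    have h2 := K0 _ _ hg hx'
    have h3 := K0 _ _ (isMap_conj F le_rfl haS) hx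
    have h4 := hg.eq_of_isCentral hZ (kerAlong_le_preimageAlong θ _ (hker.ge h3)) h3
    have hc := ((Subgroup.mul_mem _ (Subgroup.mul_mem _ ha' hx') (Subgroup.inv_mem _ ha')))
    rw [hg.map_mul (Subgroup.inv_mem _ hx') hc, hg.map_inv hx', hg.map_conj ha' hx'] at h4
    have h9 : f a * x * (f a)⁻¹ = a * x * a⁻¹ := by
      obtain ⟨z₁, hz₁⟩ : ∃ z, g a = f a * z := ⟨(f a)⁻¹ * g a, by group⟩
      obtain ⟨z₂, hz₂⟩ : ∃ z, g x = x * z := ⟨x⁻¹ * g x, by group⟩
      rw [hz₁, hz₂] at h4
      rw [hz₁, inv_mul_cancel_left] at h1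
      rw [hz₂, inv_mul_cancel_left] at h2
      have c1 : ∀ s ∈ S, z₁ * s = s * z₁ := fun s hs => by
        rw [← hZS _ h1 s hs, inv_mul_cancel_right, hZS _ h1 s hs]
      have c2 : ∀ s ∈ S, z₂ * s = s * z₂ := fun s hs => by
        rw [← hZS _ h2 s hs, inv_mul_cancel_right, hZS _ h2 s hs]
      have h10 : f a * z₁ * (x * z₂) * (f a * z₁)⁻¹ = f a * x * (f a)⁻¹ * z₂ := by
        rw [mul_assoc (f a), c1 _ (S.mul_mem hx (hZ.1 h2)), mul_assoc _ (f a)⁻¹,
          ← c2 _ (S.inv_mem (hf.mem ha))]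
        group
      rw [h10, ← c2 x hx, ← c2 _ (S.mul_mem (S.mul_mem (hf.mem ha) hx) (S.inv_mem (hf.mem ha)))]
        at h4
      calc f a * x * (f a)⁻¹ = x * ((z₂ * x)⁻¹ * (z₂ * (f a * x * (f a)⁻¹))) := by group
        _ = _ := by rw [h4]; group
    refine ⟨S.mul_mem (S.inv_mem haS) (hf.mem ha), ?_⟩
    rintro _ ⟨k, rfl⟩
    refine (Commute.zpow_left ?_ k).eq
    calc x * (a⁻¹ * f a) = a⁻¹ * (a * x * a⁻¹) * f a := by group
      _ = a⁻¹ * f a * x := by rw [← h9]; group
  have hfix : ∀ R, F.IsFullyNormalized R → x ∈ R → ∀ γ ∈ F.autGroup R, afn γ x = x := by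
    intro R hR hxR γ hγ
    have := finite_of_le hR.1
    obtain ⟨o, ho, s, hs, e⟩ := exists_opSub_mul_conj (sat_fullyAutomized hS hF hR) hγ
    have h1 : s * x * s⁻¹ = x := by
      rw [← (hcent hs.1).2 x (Subgroup.mem_zpowers x), mul_inv_cancel_right]
    have h2 : opSub p (F.autGroup R) ≤ MulAction.stabilizer (MulAut R) (⟨x, hxR⟩ : R) := by
      refine opSub_le_iff.2 fun α hα hc => Subtype.ext ?_
      refine (afn_apply α hxR).symm.trans (fix_of_step (isPGroup_of_le hS hR.1) hc (U := F.center)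
        (fun z hz hz' => (isMap_afn hR.1 hα).eq_of_isCentral hZ hz hz') hxR ?_)
      have h3 := K0 _ _ (isMap_afn hR.1 hα) hxR
      have h4 := hZS _ h3 x hx
      rw [← h4] at h3
      simpa [mul_assoc] using h3
    rw [e x hxR, h1, afn_apply o hxR]
    exact congrArg Subtype.val (h2 ho)
  have hxZ : x ∈ F.center := by
    have hP : ∀ P f, IsMap F P f → x ∈ P → f x = x := by
      intro P f hf hxP
      refine alperin_induction_cr hS hF (M := fun f => f x = x) (fun f h => h x hxP)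
        (fun f g h R _ h2 h3 _ _ h4 h5 h6 e => ?_) hf
      obtain ⟨γ, hγ, e'⟩ := h4.exists_aut h5
      have hxR : x ∈ R := h2 ▸ h6 x hxP
      rw [e x hxP, h2, ← e' x hxR, hfix R h3 hxR γ hγ]
    exact (mem_center_iff hS hF).2 ⟨hx, hP⟩
  exact (QuotientGroup.eq_one_iff _).2 hxZ

end Cfsg.Agent.S5315
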