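import Cfsg.Statements.S5320
import Cfsg.Agent.Fus.Sp4Con
-- import your own Cfsg.Agent.* helpers here

set_option autoImplicit false
open Cfsg

namespace Cfsg.Agent.S5320

/-- For a finite field F of odd order, the 2-fusion system of the projective symplectic group PSp(4,F) on a Sylow 2-subgroup is simple. -/
theorem result {F : Type*} [Field F] [Fintype F] (hodd : Fintype.card F % 2 = 1) (S : Sylow 2 (Cfsg.PSp 2 F)) :
    (Cfsg.groupFusionSystem (S : Subgroup (Cfsg.PSp 2 F))).IsSimple 2 := by
  classical
  have h2 : (2 : F) ≠ 0 := Cfsg.Agent.KSG.M2.two_ne_zero_of_odd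
    (by rw [Nat.card_eq_fintype_card]; exact Nat.odd_iff.2 hodd)
  exact (Cfsg.Agent.Fus.Sp4.data h2).isSimple_group h2 S

end Cfsg.Agent.S5320
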