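import Mathlib
import Cfsg.Statements.S5330
import Cfsg.Agent.Fus.EssTools
-- import your own Cfsg.Agent.* helpers here

set_option autoImplicit false
open Cfsg

namespace Cfsg.Agent.S5330

open Cfsg.Agent.Fus Cfsg.FusionSystem

/-- Let F be a saturated fusion system over a finite abelian p-group S. Then S is the internal direct product of the centre of the system and the focal subgroup: Z(F) ∩ foc(F) = 1 and Z(F)·foc(F) = S. -/
theorem result {Ω : Type*} [Group Ω] {S : Subgroup Ω} [Finite S] (p : ℕ) [Fact p.Prime] (hS : IsPGroup p S) (F : Cfsg.FusionSystem S) (hF : F.IsSaturated p) (hab : ∀ x ∈ S, ∀ y ∈ S, x * y = y * x) : F.center ⊓ F.focalSubgroup = ⊥ ∧ F.center ⊔ F.focalSubgroup = S := by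
  have hN := isNormal_top_of_comm hS hF hab
  have hA := coprime_card_autGroup_of_comm hS hF hab
  have hZ : F.center = (AC.fix (F.autGroup S)).map S.subtype := by
    ext x
    rw [mem_center_iff hS hF]
    constructor
    · rintro ⟨hx, h⟩
      exact ⟨⟨x, hx⟩, fun α hα => Subtype.ext ((afn_coe α ⟨x, hx⟩).symm.trans
        (h S _ (isMap_afn le_rfl hα) hx)), rfl⟩
    · rintro ⟨x, hx, rfl⟩
      refine ⟨x.2, fun P f hf hxP => ?_⟩
      obtain ⟨α, hα, e⟩ := exists_aut_of_isNormal_top hN hf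
      exact (e _ hxP).trans ((afn_coe α x).trans (congrArg Subtype.val (hx α hα)))
  have hfoc : F.focalSubgroup = (AC.comm (F.autGroup S) ⊤).map S.subtype := by
    refine le_antisymm ((Subgroup.closure_le _).2 ?_) ?_
    · rintro _ ⟨P, φ, x, hφ, rfl⟩
      obtain ⟨α, hα, e⟩ := exists_aut_of_isNormal_top hN (isMap_fn hφ)
      have hx : (x : Ω) ∈ S := hom_le hφ x.2
      refine ⟨_, AC.mem_comm hα (Subgroup.mem_top ⟨x, hx⟩), ?_⟩
      rw [← fn_coe φ, e x x.2, afn_apply α hx]; rfl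
    · rw [Subgroup.map_le_iff_le_comap, AC.comm_le_iff]
      intro α hα x _
      exact Subgroup.subset_closure ⟨S, _, x, hom_of_mem_autGroup le_rfl hα, rfl⟩
  rw [hZ, hfoc, ← Subgroup.map_inf _ _ _ S.subtype_injective, ← Subgroup.map_sup,
    AC.fix_inf_comm hA (hS.to_subgroup ⊤) (AC.inv_top _)
      (fun x _ y _ => Subtype.ext (hab x x.2 y y.2)), Subgroup.map_bot]
  refine ⟨rfl, le_antisymm (Subgroup.map_subtype_le _) fun x hx => ⟨⟨x, hx⟩, ?_, rfl⟩⟩
  obtain ⟨c, hc, d, hd, e⟩ := AC.exists_fix_mul_comm hA (hS.to_subgroup ⊤) (AC.inv_top _)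
    (Subgroup.mem_top ⟨x, hx⟩)
  exact e ▸ Subgroup.mul_mem_sup hc.2 hd

end Cfsg.Agent.S5330
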