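import Cfsg.Statements.S5426
import Cfsg.Agent.TT.LXLayer

set_option autoImplicit false
open Cfsg

namespace Cfsg.Agent.S5426

open Subgroup

/-- Let Q be a large extraspecial 2-subgroup of the finite group G (extraspecial; centralizer equal to its centre; normal in the centralizer of its centre; normalizing no non-trivial subgroup of odd order) with centre generated by z, and let M be the normal closure of z in G. Then one of the following holds: Q is normal in G; or M is abelian and the generalized Fitting subgroup of G is its largest normal 2-subgroup; or M is the generalized Fitting subgroup of G and is a non-abelian simple group; or M is the generalized Fitting subgroup of G and is the direct product of a non-abelian simple subgroup L and its conjugate u L u⁻¹ by some u in Q (the two meet trivially and commute elementwise), with z = z₁ (u z₁ u⁻¹) for some z₁ in L whose centralizer in L is a Sylow 2-subgroup of L with Frattini subgroup inside the subgroup generated by z₁, and Q is not the largest normal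 2-subgroup of the centralizer of z. -/
theorem result {G : Type*} [Group G] [Finite G] (Q : Subgroup G) (hQ : Cfsg.IsLargeExtraspecial Q) (z : G) (hz : ((Subgroup.center ↥Q).map Q.subtype) = Subgroup.zpowers z) (M : Subgroup G) (hM : M = Subgroup.normalClosure ({z} : Set G)) : Q.Normal ∨ (IsMulCommutative ↥M ∧ Cfsg.generalizedFittingSubgroup G = Cfsg.pCore 2 G) ∨ (M = Cfsg.generalizedFittingSubgroup G ∧ IsSimpleGroup ↥M ∧ ¬ IsMulCommutative ↥M) ∨ (M = Cfsg.generalizedFittingSubgroup G ∧ ∃ (L : Subgroup G) (u : G), u ∈ Q ∧ IsSimpleGroup ↥L ∧ ¬ IsMulCommutative ↥L ∧ L ⊓ (L).map (MulAut.conj u).toMonoidHom = ⊥ ∧ (∀ x ∈ L, ∀ y ∈ (L).map (MulAut.conj u).toMonoidHom, x * y = y * x) ∧ L ⊔ (L).map (MulAut.conj u).toMonoidHom = M ∧ ∃ z₁ ∈ L, z = z₁ * (u * z₁ * u⁻¹) ∧ (∃ R : Sylow 2 ↥L, (R : Subgroup ↥L) = (Subgroup.centralizer ({z₁} : Set G)).subgroupOf L ∧ (frattini ↥(R : Subgroup ↥L)).map ((L.subtype).comp (R : Subgroup ↥L).subtype) ≤ Subgroup.zpowers z₁) ∧ Q ≠ (Cfsg.pCore 2 ↥(Subgroup.centralizer ({z} : Set G))).map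 (Subgroup.centralizer ({z} : Set G)).subtype) := by
  have h := TT.LX.of_isLarge hQ hz
  have hL4 := hQ.2.2.2
  subst hM
  right
  by_cases hE : layer G = ⊥
  · exact Or.inl (h.case_layer_bot hL4 hE)
  right
  have hF : generalizedFittingSubgroup G = layer G := by
    rw [PLocal.fstar_def, h.fitting_eq_bot hL4 hE, sup_bot_eq]
  rw [h.normalClosure_eq_layer hL4 hE, hF]
  obtain ⟨L, hL⟩ : ∃ L : Subgroup G, IsComponent L := by
    by_contra hcon
    exact hE (PLocal.layer_eq_bot_iff.2 fun L hL => hcon ⟨L, hL⟩)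
  have hZ := h.comp_center hL4 hL
  have hs := TT.isSimpleGroup_of_comp hL hZ
  have hna := PLocal.qs_not_comm hL.2
  by_cases hu : ∀ u ∈ Q, L.map (MulAut.conj u).toMonoidHom = L
  · have : layer G = L := le_antisymm (PLocal.layer_le_iff.2 fun K hK => by
      obtain ⟨q, hq, rfl⟩ := h.comp_transitive hL4 hL hK
      exact (hu q hq).le) (PLocal.comp_le_layer hL)
    rw [this]
    exact Or.inl ⟨rfl, hs, hna⟩
  push Not at hu
  obtain ⟨u, hu, hne⟩ := hu
  obtain ⟨h1, a, ha, ha1, ha2, hza, ⟨R, hR⟩, hR2, hRc, hO⟩ := h.two_components hL4 hL hu hne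
  have hc := PLocal.comp_commute_of_ne hL (PLocal.comp_conj hL u) hne.symm
  refine Or.inr ⟨rfl, L, u, hu, hs, hna, eq_bot_iff.2 (le_trans (inf_le_inf_left _ ?_) hZ.le),
    fun x hx y hy => PLocal.commute_of_commutator_eq_bot hc hx hy, h1, a, ha, hza,
    ⟨R, hR, ?_⟩, hO⟩
  · rw [commutator_comm, commutator_eq_bot_iff_le_centralizer] at hc
    exact hc
  · have hm : ∀ x : (R : Subgroup L), ((x : L) : G) * a = a * ((x : L) : G) := fun x => by
      have hx : (x : L) ∈ (centralizer ({a} : Set G)).subgroupOf L := hR ▸ x.2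
      exact mem_centralizer_singleton_iff.1 hx
    rw [map_le_iff_le_comap]
    refine Grp.PFrattini.frattini_le (p := 2) (commutator_le.2 fun x _ y _ => ?_) fun x => ?_
    · refine (TT.mem_zpowers_invol ha2).2 ?_
      show ((x : L) : G) * ((y : L) : G) * ((x : L) : G)⁻¹ * ((y : L) : G)⁻¹ = 1 ∨
        ((x : L) : G) * ((y : L) : G) * ((x : L) : G)⁻¹ * ((y : L) : G)⁻¹ = a
      rcases hRc _ (x : L).2 _ (y : L).2 (hm x) (hm y) with e | e
      · left; rw [e]; group
      · right
        rw [e, mul_assoc _ _ a, hm x, ← mul_assoc, hm y]; group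
    · refine (TT.mem_zpowers_invol ha2).2 ?_
      simpa [pow_two] using hR2 _ (x : L).2 (hm x)


end Cfsg.Agent.S5426
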