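import Cfsg.Statements.S5521
import Cfsg.Agent.Spor.M24Facts

set_option autoImplicit false
open Cfsg

namespace Cfsg.Agent.S5521

open Cfsg.Agent.Spor Cfsg.Agent.Spor.M24C

/-- The Mathieu group M₂₄ in its natural action on the 24 coordinate positions of the binary Golay code has minimal base size exactly 7: every set of at most 6 positions is fixed pointwise by some non-identity element of M₂₄, while some set of 7 positions is fixed pointwise only by the identity. -/
theorem result :
    (∀ B : Finset Cfsg.GolayPt, B.card ≤ 6 → ∃ g ∈ Cfsg.M24, g ≠ 1 ∧ ∀ b ∈ B, g b = b) ∧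
    (∃ B : Finset Cfsg.GolayPt, B.card = 7 ∧ ∀ g ∈ Cfsg.M24, (∀ b ∈ B, g b = b) → g = 1) := by
  constructor
  · intro B hB
    obtain ⟨E, hBE, -, hE⟩ := Finset.exists_subsuperset_card_eq (n := 6) B.subset_univ hB
      (by rw [Finset.card_univ, card_golayPt]; norm_num)
    have h1 : 1 < Nat.card (fixS E) := by
      by_cases h : ∃ o ∈ octads, E ⊆ o
      · obtain ⟨o, ho, h⟩ := h
        rw [card_fixS_six_of_subset hE ho h]; norm_num
      · rw [card_fixS_six_of_not_subset hE h]; norm_num
    have := Finite.one_lt_card_iff_nontrivial.1 h1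
    obtain ⟨g, hg⟩ := exists_ne (1 : fixS E)
    exact ⟨g.1.1, g.1.2, fun h => hg (Subtype.ext (Subtype.ext h)),
      fun b hb => mem_fixS.1 g.2 b (hBE hb)⟩
  · obtain ⟨E, hEo, hE⟩ := Finset.exists_subset_card_eq (s := setOf' 5279) (n := 6)
      (by rw [o0_mem.2]; norm_num)
    have hp : pt 5 ∉ setOf' 5279 := by decide
    refine ⟨insert (pt 5) E, by rw [Finset.card_insert_of_notMem fun h => hp (hEo h), hE],
      fun g hg h => ?_⟩
    have h1 : (⟨g, hg⟩ : M24) ∈ fixS E :=
      mem_fixS.2 fun p hp => h p (Finset.mem_insert_of_mem hp)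
    rw [fixS_six_eq hE o0_mem hEo] at h1
    exact congrArg Subtype.val
      (eq_one_of_mem_fixS_octad o0_mem h1 hp (h _ (Finset.mem_insert_self _ _)))

end Cfsg.Agent.S5521
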