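import Cfsg.Statements.S5529
import Cfsg.Agent.Spor.M23Gen

set_option autoImplicit false
open Cfsg

namespace Cfsg.Agent.S5529

/-- Generation of the Mathieu group M₂₃ (the stabiliser of a point in the Mathieu group M₂₄ acting on 24 points) by triples of prime orders. Let p ≤ q ≤ r be primes dividing |M₂₃| = 10200960 = 2⁷·3²·5·7·11·23, not both p and q equal to 2. Then M₂₃ contains elements x, y, z of orders p, q, r with xyz = 1 and ⟨x, y⟩ = M₂₃ if and only if (p, q, r) is none of: (2, 3, r) for any r, (2, 5, 5), (2, 5, 7), (3, 3, 3), (3, 3, 5), (3, 3, 7). -/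
theorem result (p q r : ℕ) (hp : p.Prime) (hq : q.Prime)
    (hr : r.Prime) (hpq : p ≤ q) (hqr : q ≤ r) (hp2 : ¬ (p = 2 ∧ q = 2))
    (hdvd : p ∣ 10200960 ∧ q ∣ 10200960 ∧ r ∣ 10200960) :
    (∃ x y z : Cfsg.Spor.M23, orderOf x = p ∧ orderOf y = q ∧ orderOf z = r ∧ x * y * z = 1 ∧
        Subgroup.closure {x, y} = ⊤) ↔
      ¬ ((p = 2 ∧ q = 3) ∨ (p = 2 ∧ q = 5 ∧ r = 5) ∨ (p = 2 ∧ q = 5 ∧ r = 7) ∨ (p = 3 ∧ q = 3 ∧ r ≤ 7)) := by
  have k : ∀ {p}, p.Prime → p ∣ 10200960 → p ∈ [2, 3, 5, 7, 11, 23] := fun {p} hp h => by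
    have := (Nat.mem_primeFactors.2 ⟨hp, h, by decide⟩)
    rw [show Nat.primeFactors 10200960 = {2, 3, 5, 7, 11, 23} by simp [Nat.primeFactors]] at this
    simpa using this
  have h1 := k hp hdvd.1
  have h2 := k hq hdvd.2.1
  have h3 := k hr hdvd.2.2
  refine ⟨fun ⟨x, y, z, hx, hy, hz, e, g⟩ h => ?_, fun h => Spor.M23Gen.gen_of hp hq hr ?_⟩
  · have := Spor.M23Gen.dm_le e g
    have a := @Spor.M23Gen.dm_ge x
    have b := @Spor.M23Gen.dm_ge y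
    have c := @Spor.M23Gen.dm_ge z
    rw [hx] at a
    rw [hy] at b
    rw [hz] at c
    have d := c.2.2.2.2 hr
    rcases h with ⟨rfl, rfl⟩ | ⟨rfl, rfl, rfl⟩ | ⟨rfl, rfl, rfl⟩ | ⟨rfl, rfl, h⟩
    · have := a.1 rfl; have := b.2.1 rfl; omega
    · have := a.1 rfl; have := b.2.2.1 rfl; have := c.2.2.1 rfl; omega
    · have := a.1 rfl; have := b.2.2.1 rfl; have := c.2.2.2.1 rfl; omega
    · have := a.2.1 rfl
      have := b.2.1 rfl
      obtain rfl | rfl | rfl : r = 3 ∨ r = 5 ∨ r = 7 := by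
        simp only [List.mem_cons, List.not_mem_nil, or_false] at h3; clear a b c; omega
      · have := c.2.1 rfl; omega
      · have := c.2.2.1 rfl; omega
      · have := c.2.2.2.1 rfl; omega
  · have : ∀ p ∈ [2, 3, 5, 7, 11, 23], ∀ q ∈ [2, 3, 5, 7, 11, 23], ∀ r ∈ [2, 3, 5, 7, 11, 23],
        p ≤ q → q ≤ r → ¬ (p = 2 ∧ q = 2) → ¬ ((p = 2 ∧ q = 3) ∨ (p = 2 ∧ q = 5 ∧ r = 5) ∨
        (p = 2 ∧ q = 5 ∧ r = 7) ∨ (p = 3 ∧ q = 3 ∧ r ≤ 7)) →
        (p, q, r) ∈ Spor.M23Gen.T.map fun t => (t.1, t.2.1, t.2.2.1) := by decide +kernel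
    exact this p h1 q h2 r h3 hpq hqr hp2 h

end Cfsg.Agent.S5529
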