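import Cfsg.Statements.S5562
import Cfsg.Agent.Inv.Isolated

set_option autoImplicit false
open Cfsg

namespace Cfsg.Agent.S5562

/-- Let G be a finite group, d an involution of G whose conjugates pairwise have products of odd order, and x any involution of G. Then the conjugacy class of d is the disjoint union, over the conjugates a of d commuting with x, of the sets of conjugates of d commuting with ax: every conjugate of d commutes with ax for exactly one conjugate a of d that commutes with x. -/
theorem result {G : Type*} [Group G] [Finite G] (d : G) (hd : orderOf d = 2)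
    (hodd : ∀ a ∈ conjugatesOf d, ∀ b ∈ conjugatesOf d, Odd (orderOf (a * b)))
    (x : G) (hx : orderOf x = 2) :
    ∀ e ∈ conjugatesOf d,
      ∃! a : G, a ∈ conjugatesOf d ∧ Commute a x ∧ Commute e (a * x) := by
  intro e he
  have hsq : ∀ a ∈ conjugatesOf d, a * a = 1 := fun a ha => by
    obtain ⟨g, rfl⟩ := isConj_iff.1 ha
    exact Inv.conj_mul_self (Inv.mul_self_of_orderOf_eq_two hd) g
  have hxx := Inv.mul_self_of_orderOf_eq_two hx
  have hee := hsq e he
  have hiso : IsIsolatedInvolution e := by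
    obtain ⟨g, hg⟩ := isConj_iff.1 he
    refine ⟨hg ▸ (Inv.orderOf_conj_eq g d).trans hd, fun y hy => ?_⟩
    have h0 : y * e * y⁻¹ ∈ conjugatesOf d := IsConj.trans he (isConj_iff.2 ⟨y, rfl⟩)
    have h1 : e * (y * e * y⁻¹) = 1 := Inv.eq_one_of_mul_self_of_odd (by
      rw [← sq, hy.mul_pow, sq, sq, hee, hsq _ h0, one_mul]) (hodd e he _ h0)
    rw [← inv_eq_of_mul_eq_one_right h1, inv_eq_of_mul_eq_one_right hee]
  refine existsUnique_of_exists_of_unique ?_ ?_
  · rcases Nat.even_or_odd (orderOf (x * e)) with ⟨m, hm⟩ | h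
    · have h4 := Inv.isolated_not_four_dvd hxx hiso
      have hpos := orderOf_pos (x * e)
      obtain ⟨k, rfl⟩ : Odd m := by
        rcases Nat.even_or_odd m with ⟨k, rfl⟩ | h
        · exact absurd ⟨k, by omega⟩ h4
        · exact h
      obtain ⟨-, -, h1, h2⟩ := Inv.half_pow_facts hxx hee (m := 2 * k + 1) (by omega) (by omega)
      refine ⟨(x * e) ^ (2 * k + 1) * x, ?_, h1.mul_left (Commute.refl x), ?_⟩
      · rw [← Inv.invol_pow_conj_odd_left hxx hee]
        exact IsConj.trans he (isConj_iff.2 ⟨_, rfl⟩)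
      · rw [mul_assoc, hxx, mul_one]
        exact h2.symm
    · obtain ⟨k, hk⟩ := Inv.exists_pow_conj_of_odd hxx hee h
      refine ⟨x, IsConj.trans he (isConj_iff.2 ⟨_, hk⟩).symm, Commute.refl x, ?_⟩
      rw [hxx]
      exact Commute.one_right e
  · rintro a b ⟨ha, hax, hea⟩ ⟨hb, hbx, heb⟩
    have h1 : a * b = a * x * (b * x) := by
      rw [hbx.eq, mul_assoc, ← mul_assoc x, hxx, one_mul]
    have h2 : Commute e (a * b) := h1 ▸ hea.mul_right heb
    have h3 : a * e * (a * b) * (a * e)⁻¹ = (a * b)⁻¹ := by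
      rw [← Inv.invol_conj_mul (hsq a ha) (hsq b hb), mul_assoc a e, h2.eq]
      group
    have h4 := Inv.eq_one_of_mul_self_of_odd
      (Inv.mul_self_of_inverted_by_odd h3 (hodd a ha e he)) (hodd a ha b hb)
    rw [← inv_eq_of_mul_eq_one_right h4, inv_eq_of_mul_eq_one_right (hsq a ha)]

end Cfsg.Agent.S5562
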