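import Cfsg.Statements.S5567
import Mathlib
import Cfsg.Agent.J4.MModel
import Cfsg.Agent.J4.MBasic

set_option autoImplicit false
open Cfsg

namespace Cfsg.Agent.S5567

open Subgroup Cfsg.Agent.J4

/-- Let G be a finite non-abelian simple group of Janko-four type (an involution z whose centralizer H has an extraspecial largest normal 2-subgroup E of order 2^13 containing its centralizer in H, a normal subgroup N ≥ E of H with N/E of order 3 and H/N the automorphism group of M₂₂, and a subgroup P ≤ N of order 3 with C_E(P) = ⟨z⟩, N_H(P) ≠ C_H(P) and P ≤ C_H(P)′). Then every elementary abelian subgroup V of G of order 2^11 contains its centralizer, and its normalizer is a split extension of V by a complement isomorphic to the Mathieu group M₂₄. -/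
theorem result {G : Type*} [Group G] [Finite G] [IsSimpleGroup G] (hG : ¬ IsMulCommutative G) (hJ : Cfsg.IsOfJankoFourType G) (V : Subgroup G) (hV : Cfsg.IsElementaryAbelian 2 V) (hcard : Nat.card ↥V = 2 ^ 11) :
    Subgroup.centralizer (V : Set G) ≤ V ∧ ∃ K : Subgroup G, K ≤ Subgroup.normalizer (V : Set G) ∧ K ⊓ V = ⊥ ∧ K ⊔ V = Subgroup.normalizer (V : Set G) ∧ Cfsg.Spor.IsoM24 ↥K := by
  obtain ⟨z, P, hJ⟩ := hJ
  obtain ⟨h⟩ := exists_MM hG hJ
  obtain ⟨g, rfl⟩ := h.exists_conj_V hV hcard
  have hm : ∀ (A : Subgroup G) (x : G),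
      x ∈ A.map (MulAut.conj g).toMonoidHom ↔ g⁻¹ * x * g ∈ A := fun A x => by
    rw [mem_map_equiv]; simp
  have hN : normalizer ((h.V.map (MulAut.conj g).toMonoidHom : Subgroup G) : Set G) =
      h.M.map (MulAut.conj g).toMonoidHom := by
    ext n
    rw [Spor.M24C.mem_normalizer_conj g (hm h.V), hm]; rfl
  refine ⟨fun n hn => ?_, h.lam.range.map (MulAut.conj g).toMonoidHom, ?_, ?_, ?_, ⟨?_⟩⟩
  · rw [Spor.M24C.mem_centralizer_conj g (hm h.V), h.cent_V] at hn
    exact (hm _ _).2 hn
  · rw [hN]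
    refine map_mono ?_
    rintro _ ⟨x, rfl⟩
    exact h.lam_mem_M x
  · rw [← map_inf _ _ _ (MulAut.conj g).injective, map_eq_bot_iff_of_injective _
      (MulAut.conj g).injective, eq_bot_iff]
    rintro _ ⟨⟨x, rfl⟩, hx⟩
    rw [h.lam_mem_V hx, map_one]
    exact one_mem _
  · rw [hN, ← Subgroup.map_sup]
    congr 1
    refine le_antisymm (sup_le ?_ h.V_le_M) fun m hm => ?_
    · rintro _ ⟨x, rfl⟩
      exact h.lam_mem_M x
    · obtain ⟨a, x, ha, rfl⟩ := (h.mem_M m).1 hm
      exact mul_mem (mem_sup_right (h.nu_mem_V ha)) (mem_sup_left ⟨x, rfl⟩)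
  · exact ((MulAut.conj g).subgroupMap h.lam.range).symm.trans
      (MonoidHom.ofInjective h.lam_injective).symm

end Cfsg.Agent.S5567
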