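import Cfsg.Statements.S5570
import Cfsg.Agent.J4.VOrb
import Cfsg.Agent.J4.Ten4
import Cfsg.Agent.J4.MModel

set_option autoImplicit false
open Cfsg

namespace Cfsg.Agent.S5570

/-- Let G be a finite non-abelian simple group of Janko-four type (an involution z whose centralizer H has an extraspecial largest normal 2-subgroup E of order 2^13 containing its centralizer in H, a normal subgroup N ≥ E of H with N/E of order 3 and H/N the automorphism group of M₂₂, and a subgroup P ≤ N of order 3 with C_E(P) = ⟨z⟩, N_H(P) ≠ C_H(P) and P ≤ C_H(P)′). Then G has self-centralizing elementary abelian subgroups of order 2^10, any two of them are conjugate, and for such a subgroup A the normalizer of A is a split extension of A by a complement isomorphic to L₅(2) under which A has no proper non-trivial invariant subgroup. -/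
theorem result {G : Type*} [Group G] [Finite G] [IsSimpleGroup G] (hG : ¬ IsMulCommutative G) (hJ : Cfsg.IsOfJankoFourType G) :
    (∃ A : Subgroup G, Cfsg.IsElementaryAbelian 2 A ∧ Nat.card ↥A = 2 ^ 10 ∧ Subgroup.centralizer (A : Set G) = A) ∧
    (∀ A A' : Subgroup G, Cfsg.IsElementaryAbelian 2 A → Nat.card ↥A = 2 ^ 10 → Subgroup.centralizer (A : Set G) = A → Cfsg.IsElementaryAbelian 2 A' → Nat.card ↥A' = 2 ^ 10 → Subgroup.centralizer (A' : Set G) = A' → ∃ g : G, A' = A.map (MulAut.conj g).toMonoidHom) ∧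
    ∀ A : Subgroup G, Cfsg.IsElementaryAbelian 2 A → Nat.card ↥A = 2 ^ 10 → Subgroup.centralizer (A : Set G) = A →
      (∃ B : Subgroup G, B ≤ Subgroup.normalizer (A : Set G) ∧ B ⊓ A = ⊥ ∧ B ⊔ A = Subgroup.normalizer (A : Set G) ∧
        Nonempty (↥B ≃* Matrix.SpecialLinearGroup (Fin 5) (ZMod 2))) ∧
      ∀ W : Subgroup G, W ≤ A → Subgroup.normalizer (A : Set G) ≤ Subgroup.normalizer (W : Set G) → W = ⊥ ∨ W = A := by
  obtain ⟨z, P, hP⟩ := hJ
  obtain ⟨h⟩ := J4.exists_MM hG hP
  refine ⟨⟨h.A, J4.VA.elab_of_sq h.A_sq, h.card_A, h.cent_A⟩, fun A A' a1 a2 a3 b1 b2 b3 => ?_,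
    fun A a1 a2 a3 => ?_⟩ <;> obtain ⟨g, rfl⟩ := h.exists_conj_A a1 a2 a3
  · obtain ⟨k, rfl⟩ := h.exists_conj_A b1 b2 b3
    exact ⟨k * g⁻¹, by rw [Subgroup.map_map]; congr 1; ext x; simp [mul_assoc]⟩
  have hi := (MulAut.conj g).injective
  rw [J4.normalizer_map_conj]
  obtain ⟨B, h1, h2, h3, ⟨e⟩⟩ := h.exists_compl_A
  refine ⟨⟨B.map (MulAut.conj g).toMonoidHom, Subgroup.map_mono h1,
    by rw [← Subgroup.map_inf _ _ _ hi, h2, Subgroup.map_bot], by rw [← Subgroup.map_sup, h3],
    ⟨(B.equivMapOfInjective _ hi).symm.trans e⟩⟩, fun W w1 w2 => ?_⟩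
  obtain ⟨W, rfl⟩ : ∃ W' : Subgroup G, W = W'.map (MulAut.conj g).toMonoidHom :=
    ⟨_, (Subgroup.map_comap_eq_self_of_surjective (MulAut.conj g).surjective W).symm⟩
  rw [J4.normalizer_map_conj, Subgroup.map_le_map_iff_of_injective hi] at w2
  rw [Subgroup.map_le_map_iff_of_injective hi] at w1
  exact (h.irred_A w1 w2).imp (fun e => by rw [e, Subgroup.map_bot]) fun e => by rw [e]

end Cfsg.Agent.S5570
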