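import Cfsg.Statements.S5596
import Cfsg.Agent.TT.O2C

set_option autoImplicit false
open Cfsg

namespace Cfsg.Agent.S5596

open Subgroup

/-- Setting: `z` is an involution of the finite group `G`; for each element `x`, `Q x` is the largest normal 2-subgroup of the centralizer of `x`; `Q z` is extraspecial and contains its own centralizer in `G`. A subgroup `U` is singular when it is elementary abelian, every non-identity element of `U` is conjugate to `z`, and any two non-identity elements `u`, `v` of `U` are orthogonal (`v ∈ Q u`). Write `QU` for the intersection of the `Q u` and `LU` for the join of the `Q u` over the non-identity `u` in `U`. If `U` is singular of order `2 ^ n` with `n ≥ 2`, then `U ≤ QU ≤ LU`, `LU` normalizes `U`, and `LU` induces on `U` its full automorphism group (the general linear group of dimension `n` over the field with two elements): every automorphism of `U` is conjugation by some element of `LU`. -/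
theorem result {G : Type*} [Group G] [Finite G]
    (Q : G → Subgroup G)
    (hQ : ∀ x : G, Q x = (Cfsg.pCore 2 ↥(Subgroup.centralizer ({x} : Set G))).map (Subgroup.centralizer ({x} : Set G)).subtype)
    (z : G) (hz : orderOf z = 2) (hE : Cfsg.IsExtraspecial 2 ↥(Q z))
    (hC : Subgroup.centralizer ((Q z : Subgroup G) : Set G) ≤ Q z)
    (U : Subgroup G) (hU2 : ∀ u ∈ U, u * u = 1)
    (hS : ∀ u ∈ U, u ≠ 1 → ∃ g : G, g * z * g⁻¹ = u)
    (hO : ∀ u ∈ U, ∀ v ∈ U, u ≠ 1 → v ≠ 1 → v ∈ Q u)
    (QU LU : Subgroup G) (hQU : QU = ⨅ u ∈ ((U : Set G) \ {1}), Q u) (hLU : LU = ⨆ u ∈ ((U : Set G) \ {1}), Q u)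
    (n : ℕ) (hn : 2 ≤ n) (hcard : Nat.card ↥U = 2 ^ n) :
    U ≤ QU ∧ QU ≤ LU ∧ LU ≤ Subgroup.normalizer (U : Set G) ∧
      ∀ φ : ↥U ≃* ↥U, ∃ g ∈ LU, ∀ u : ↥U, g * (u : G) * g⁻¹ = ((φ u : ↥U) : G) := by
  obtain rfl : Q = TT.O2C := funext hQ
  have h := TT.LX_O2C hz hE hC
  have hL : ∀ u ∈ U, u ≠ 1 → TT.LX (TT.O2C u) u := by
    intro u hu h1
    obtain ⟨g, rfl⟩ := hS u hu h1
    exact h.O2C_conj g
  have hUQ : ∀ u ∈ U, u ≠ 1 → U ≤ TT.O2C u := by
    intro u hu h1 v hv
    by_cases hv1 : v = 1
    · rw [hv1]; exact one_mem _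
    · exact hO u hu v hv h1 hv1
  have hle : ∀ u ∈ U, u ≠ 1 → TT.O2C u ≤ LU := fun u hu h1 => by
    rw [hLU]
    exact le_iSup₂ (f := fun u (_ : u ∈ ((U : Set G) \ {1})) => TT.O2C u) u ⟨hu, h1⟩
  have hN : LU ≤ normalizer (U : Set G) := by
    rw [hLU]
    refine iSup₂_le ?_
    rintro u ⟨hu, h1⟩ g hg
    exact mem_normalizer_fintype fun x hx => (hL u hu h1).toXS.conj_mem (hUQ u hu h1) hu hg hx
  refine ⟨?_, ?_, hN, ?_⟩
  · rw [hQU]
    exact le_iInf₂ fun u hu => hUQ u hu.1 hu.2
  · have : Nontrivial U := by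
      rw [← Finite.one_lt_card_iff_nontrivial, hcard]
      exact Nat.one_lt_pow (by omega) (by norm_num)
    obtain ⟨u, hu⟩ := exists_ne (1 : U)
    have h1 : (u : G) ≠ 1 := fun e => hu (Subtype.ext e)
    rw [hQU]
    exact (iInf₂_le (u : G) ⟨u.2, h1⟩).trans (hle u u.2 h1)
  · have key : ∀ F : Subgroup U, ∀ φ : U →* G, Function.Injective φ → (∀ u, φ u ∈ U) →
        φ.eqLocus U.subtype = F → ∃ g ∈ LU, ∀ u : U, g * (u : G) * g⁻¹ = φ u := by
      intro F
      induction F using WellFoundedGT.induction with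
      | ind F ih =>
        intro φ hinj hφ hF
        by_cases hall : ∀ x : U, φ x = x
        · exact ⟨1, one_mem _, fun u => by simp [hall]⟩
        push Not at hall
        obtain ⟨x, hx⟩ := hall
        have hmemF : ∀ w : U, (w : G) ∈ F.map U.subtype ↔ φ w = w := fun w => by
          rw [← hF]
          exact mem_map_iff_mem U.subtype_injective
        have hu : φ x * x ∈ U := mul_mem (hφ x) x.2
        have hu1 : φ x * x ≠ 1 := fun e => hx (by
          rw [eq_inv_of_mul_eq_one_left e, TT.inv_eq_of_mul_self (hU2 _ x.2)])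
        have hl := hL _ hu hu1
        have hyx : φ x * (φ x * x) = x := by rw [← mul_assoc, hU2 _ (hφ x), one_mul]
        obtain ⟨q, hq, hc, hne⟩ := hl.toXS.exists_comm_not_comm
          (A := F.map U.subtype ⊔ zpowers (φ x * x))
          (sup_le ((map_subtype_le _).trans (hUQ _ hu hu1)) ((zpowers_le).2 hl.z_mem))
          (mem_sup_right (mem_zpowers _)) (hUQ _ hu hu1 (hφ x)) (by
            rw [TT.mem_sup_zpowers_of_comm (hU2 _ hu)
              fun f hf => TT.comm_of_sq_eq_one hU2 (map_subtype_le _ hf) hu, hyx]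
            rintro (e | e)
            · exact hx (congrArg Subtype.val (hinj ((hmemF ⟨φ x, hφ x⟩).1 e)))
            · exact hx ((hmemF x).1 e))
        have e := hl.toXS.conj_of_ne hq (hUQ _ hu hu1 (hφ x)) hne
        rw [hyx] at e
        have hqL := hle _ hu hu1 hq
        obtain ⟨g, hg, hg'⟩ := ih _ (show F < ((MulAut.conj q).toMonoidHom.comp φ).eqLocus U.subtype
            from by
          refine lt_of_le_of_ne (fun w hw => ?_) fun e' => ?_
          · have h1 : (w : G) ∈ F.map U.subtype := mem_map_of_mem _ hw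
            show q * φ w * q⁻¹ = w
            rw [(hmemF w).1 h1]
            exact TT.conj_eq_of_comm (hc _ (mem_sup_left h1)).symm
          · have h1 : x ∈ F := by rw [e']; exact e
            exact hx ((hmemF x).1 (mem_map_of_mem _ h1)))
          ((MulAut.conj q).toMonoidHom.comp φ) ((MulAut.conj q).injective.comp hinj)
          (fun u => (mem_normalizer_iff.1 (hN hqL) _).1 (hφ u)) rfl
        refine ⟨q⁻¹ * g, mul_mem (inv_mem hqL) hg, fun u => ?_⟩
        have : g * (u : G) * g⁻¹ = q * φ u * q⁻¹ := hg' u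
        calc _ = q⁻¹ * (g * (u : G) * g⁻¹) * q := by group
          _ = _ := by rw [this]; group
    intro φ
    exact key _ (U.subtype.comp φ.toMonoidHom) (U.subtype_injective.comp φ.injective)
      (fun u => (φ u).2) rfl


end Cfsg.Agent.S5596
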