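import Cfsg.Statements.S5597
import Cfsg.Agent.TT.O2C

set_option autoImplicit false
open Cfsg

namespace Cfsg.Agent.S5597

open Subgroup

/-- Setting: `z` is an involution of the finite group `G`; for each element `x`, `Q x` is the largest normal 2-subgroup of the centralizer of `x`; `Q z` is extraspecial and contains its own centralizer in `G`. A subgroup `U` is singular when it is elementary abelian, every non-identity element of `U` is conjugate to `z`, and any two non-identity elements `u`, `v` of `U` are orthogonal (`v ∈ Q u`). Write `QU` for the intersection of the `Q u` and `LU` for the join of the `Q u` over the non-identity `u` in `U`. If `U` is a non-trivial singular subgroup, then `LU` acts trivially on `QU / U` (every commutator of an element of `LU` with an element of `QU` lies in `U`), and for every `x` in `QU` outside `U` the centralizer of `U` in `LU` permutes the coset `x U` transitively: each `x u` with `u ∈ U` is a conjugate of `x` by an element of `LU` centralizing `U`. -/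
theorem result {G : Type*} [Group G] [Finite G]
    (Q : G → Subgroup G)
    (hQ : ∀ x : G, Q x = (Cfsg.pCore 2 ↥(Subgroup.centralizer ({x} : Set G))).map (Subgroup.centralizer ({x} : Set G)).subtype)
    (z : G) (hz : orderOf z = 2) (hE : Cfsg.IsExtraspecial 2 ↥(Q z))
    (hC : Subgroup.centralizer ((Q z : Subgroup G) : Set G) ≤ Q z)
    (U : Subgroup G) (hU2 : ∀ u ∈ U, u * u = 1)
    (hS : ∀ u ∈ U, u ≠ 1 → ∃ g : G, g * z * g⁻¹ = u)
    (hO : ∀ u ∈ U, ∀ v ∈ U, u ≠ 1 → v ≠ 1 → v ∈ Q u)
    (QU LU : Subgroup G) (hQU : QU = ⨅ u ∈ ((U : Set G) \ {1}), Q u) (hLU : LU = ⨆ u ∈ ((U : Set G) \ {1}), Q u)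
    (hU : U ≠ ⊥) :
    (∀ g ∈ LU, ∀ x ∈ QU, g * x * g⁻¹ * x⁻¹ ∈ U) ∧
      ∀ x ∈ QU, x ∉ U → ∀ u ∈ U, ∃ g ∈ LU ⊓ Subgroup.centralizer (U : Set G), g * x * g⁻¹ = x * u := by
  obtain rfl : Q = TT.O2C := funext hQ
  have h := TT.LX_O2C hz hE hC
  have hL : ∀ u ∈ U, u ≠ 1 → TT.LX (TT.O2C u) u := by
    intro u hu h1
    obtain ⟨g, rfl⟩ := hS u hu h1
    exact h.O2C_conj g
  have hmem : ∀ x, x ∈ QU ↔ ∀ u ∈ U, u ≠ 1 → x ∈ TT.O2C u := by
    intro x
    simp only [hQU, mem_iInf]
    exact ⟨fun hx u hu h1 => hx u ⟨hu, h1⟩, fun hx u hu => hx u hu.1 hu.2⟩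
  have hUQ : ∀ u ∈ U, u ≠ 1 → U ≤ TT.O2C u := by
    intro u hu h1 v hv
    by_cases hv1 : v = 1
    · rw [hv1]; exact one_mem _
    · exact hO u hu v hv h1 hv1
  have hUQU : U ≤ QU := fun v hv => (hmem v).2 fun u hu h1 => hUQ u hu h1 hv
  constructor
  · let S : Subgroup G :=
      { carrier := {g | ∀ x ∈ QU, g * x * g⁻¹ * x⁻¹ ∈ U ∧ g⁻¹ * x * g * x⁻¹ ∈ U}
        one_mem' := fun x _ => by simp
        mul_mem' := by
          intro a b ha hb x hx
          constructor
          · have h1 := (hb x hx).1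
            have := mul_mem (mul_mem (ha _ (hUQU h1)).1 h1) (ha x hx).1
            convert this using 1
            group
          · have h1 := (ha x hx).2
            have := mul_mem (mul_mem (hb _ (hUQU h1)).2 h1) (hb x hx).2
            convert this using 1
            group
        inv_mem' := by
          intro a ha x hx
          rw [inv_inv]
          exact ⟨(ha x hx).2, (ha x hx).1⟩ }
    have : LU ≤ S := by
      rw [hLU]
      refine iSup₂_le ?_
      rintro u ⟨hu, h1⟩ g hg x hx
      have hl := hL u hu h1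
      have hxu := (hmem x).1 hx u hu h1
      have key : ∀ g ∈ TT.O2C u, g * x * g⁻¹ * x⁻¹ ∈ U := by
        intro g hg
        rcases hl.toXS.conj hg hxu with e | e <;> rw [e]
        · simp
        · rw [hl.z_comm x hxu]; simpa using hu
      exact ⟨key g hg, by simpa using key _ (inv_mem hg)⟩
    exact fun g hg x hx => (this hg x hx).1
  · intro x hx hxU u hu
    by_cases h1 : u = 1
    · exact ⟨1, one_mem _, by simp [h1]⟩
    have hl := hL u hu h1
    have hxu := (hmem x).1 hx u hu h1
    obtain ⟨q, hq, hc, hne⟩ := hl.toXS.exists_comm_not_comm (hUQ u hu h1) hu hxu hxU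
    refine ⟨q, ⟨?_, hc⟩, hl.toXS.conj_of_ne hq hxu hne⟩
    rw [hLU]
    exact (le_iSup₂ (f := fun u (_ : u ∈ ((U : Set G) \ {1})) => TT.O2C u) u ⟨hu, h1⟩) hq


end Cfsg.Agent.S5597
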