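import Cfsg.Statements.S5598
import Cfsg.Agent.TT.O2C

set_option autoImplicit false
open Cfsg

namespace Cfsg.Agent.S5598

open Subgroup

/-- Setting: `z` is an involution of the finite group `G`; for each element `x`, `Q x` is the largest normal 2-subgroup of the centralizer of `x`; `Q z` is extraspecial and contains its own centralizer in `G`. A subgroup `U` is singular when it is elementary abelian, every non-identity element of `U` is conjugate to `z`, and any two non-identity elements `u`, `v` of `U` are orthogonal (`v ∈ Q u`). Write `QU` for the intersection of the `Q u` and `LU` for the join of the `Q u` over the non-identity `u` in `U`. If the singular subgroup `U` is generated by a set `T` of non-identity elements, then `QU` is already the intersection of the `Q t` over `t ∈ T`. -/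
theorem result {G : Type*} [Group G] [Finite G]
    (Q : G → Subgroup G)
    (hQ : ∀ x : G, Q x = (Cfsg.pCore 2 ↥(Subgroup.centralizer ({x} : Set G))).map (Subgroup.centralizer ({x} : Set G)).subtype)
    (z : G) (hz : orderOf z = 2) (hE : Cfsg.IsExtraspecial 2 ↥(Q z))
    (hC : Subgroup.centralizer ((Q z : Subgroup G) : Set G) ≤ Q z)
    (U : Subgroup G) (hU2 : ∀ u ∈ U, u * u = 1)
    (hS : ∀ u ∈ U, u ≠ 1 → ∃ g : G, g * z * g⁻¹ = u)
    (hO : ∀ u ∈ U, ∀ v ∈ U, u ≠ 1 → v ≠ 1 → v ∈ Q u)
    (QU LU : Subgroup G) (hQU : QU = ⨅ u ∈ ((U : Set G) \ {1}), Q u) (hLU : LU = ⨆ u ∈ ((U : Set G) \ {1}), Q u)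
    (T : Set G) (hT : Subgroup.closure T = U) (hT1 : (1 : G) ∉ T) :
    QU = ⨅ t ∈ T, Q t := by
  obtain rfl : Q = TT.O2C := funext hQ
  have h := TT.LX_O2C hz hE hC
  have hL : ∀ u ∈ U, u ≠ 1 → TT.LX (TT.O2C u) u := by
    intro u hu h1
    obtain ⟨g, rfl⟩ := hS u hu h1
    exact h.O2C_conj g
  have hTU : ∀ t ∈ T, t ∈ U := fun t ht => hT ▸ subset_closure ht
  rw [hQU]
  refine le_antisymm (le_iInf₂ fun t ht => iInf₂_le t ⟨hTU t ht, fun e => hT1 (e ▸ ht)⟩) ?_
  intro x hx
  simp only [mem_iInf] at hx ⊢
  have key : ∀ u ∈ closure T, u = 1 ∨ x ∈ TT.O2C u := by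
    intro u hu
    induction hu using closure_induction with
    | mem t ht => exact Or.inr (hx t ht)
    | one => exact Or.inl rfl
    | inv u hu ih => rwa [TT.inv_eq_of_mul_self (hU2 u (hT ▸ hu))]
    | mul u v hu hv ihu ihv =>
      rw [hT] at hu hv
      by_cases hu1 : u = 1
      · simpa [hu1] using ihv
      by_cases hv1 : v = 1
      · simpa [hv1] using ihu
      by_cases huv : u = v
      · left; rw [huv]; exact hU2 v hv
      right
      have hxu := ihu.resolve_left hu1
      have hxv := ihv.resolve_left hv1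
      obtain ⟨q, hq, e⟩ := (hL v hv hv1).toXS.exists_conj_eq (hO v hv u hu hv1 hu1) hu1 huv
      rw [← e, TT.O2C_conj, TT.mem_map_conj_iff]
      rcases (hL v hv hv1).toXS.conj (inv_mem hq) hxv with e' | e' <;> rw [inv_inv] at e' <;>
        rw [e']
      · exact hxu
      · exact mul_mem hxu (hO u hu v hv hu1 hv1)
  rintro u ⟨hu, h1⟩
  exact (key u (hT.symm ▸ hu)).resolve_left h1


end Cfsg.Agent.S5598
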