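import Cfsg.Statements.S5636
import Cfsg.Agent.Sing.Fin

set_option autoImplicit false
open Cfsg

namespace Cfsg.Agent.S5636

/-- For a finite field F and n ≥ 13, let K be a subfield of the algebra of n × n matrices over F containing the scalars, of prime degree r over F (a commutative subalgebra of dimension r in which every non-zero element is invertible). Then the elements of SL_n(F) normalising K form a maximal subgroup of SL_n(F). -/
theorem result {F : Type*} [Field F] [Fintype F] (n : ℕ) (hn : 13 ≤ n) (r : ℕ) (hr : r.Prime) (K : Subalgebra F (Matrix (Fin n) (Fin n) F)) (hK : Cfsg.Geo.IsFieldSubalgebra r K) : Cfsg.Geo.IsMaximalIn (Cfsg.Geo.specialLinear (Fin n) F) (Cfsg.Geo.subalgebraNormalizer K ⊓ Cfsg.Geo.specialLinear (Fin n) F) := by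
  have : Nonempty (Fin n) := ⟨⟨0, by omega⟩⟩
  let := (Class.Max.isField_of hK).toField
  have : FiniteDimensional K (Fin n → F) := Module.Finite.of_finite
  have h1 := Module.finrank_mul_finrank F K (Fin n → F)
  rw [hK.finrank_eq, Module.finrank_fintype_fun_eq_card, Fintype.card_fin] at h1
  by_cases hlt : r < n
  · exact (Class.Max.subalgebraNormalizer_isMaximalIn hr (by simpa using hlt) hK).2
  have h2 : Module.finrank K (Fin n → F) = 1 := by
    rcases Nat.lt_trichotomy (Module.finrank K (Fin n → F)) 1 with h | h | h
    · rw [Nat.lt_one_iff.1 h] at h1; omega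
    · exact h
    · have := hr.pos; nlinarith
  rw [h2, mul_one] at h1
  exact Class.Max.isMaximalIn_of_equiv (Class.Max.glEquiv (Fin n) F)
    (H' := Class.Max.GamL F K (Fin n → F) ⊓ Class.Max.SLV F _) Class.Max.mem_specialLinear_iff
    (fun g => and_congr (Class.Max.mem_subalgebraNormalizer_iff K g)
      (Class.Max.mem_specialLinear_iff g))
    (Sing.GamL_isMaximalIn_one h2 (hK.finrank_eq ▸ hr) (by rw [hK.finrank_eq]; omega))

end Cfsg.Agent.S5636
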