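import Cfsg.Statements.S5944
import Mathlib
import Cfsg.Agent.KSG.AutSym

set_option autoImplicit false
open Cfsg

namespace Cfsg.Agent.S5944


/-- For n ≠ 4, every proper subgroup of the symmetric group S_n other than the alternating group A_n has index at least n. -/
theorem result (n : ℕ) (hn : n ≠ 4) (H : Subgroup (Equiv.Perm (Fin n))) (hH : H ≠ ⊤) (hA : H ≠ alternatingGroup (Fin n)) : n ≤ H.index := by
  have h1 : H.index ≠ 1 := fun h => hH (Subgroup.index_eq_one.1 h)
  have h2 : H.index ≠ 2 := fun h => hA (Equiv.Perm.eq_alternatingGroup_of_index_eq_two h)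
  have h0 : H.index ≠ 0 := Subgroup.index_ne_zero_of_finite
  by_cases h5 : 5 ≤ n
  · by_contra! hlt
    have : Nontrivial (Fin n) := Fin.nontrivial_iff_two_le.2 (by omega)
    have := Subgroup.index_dvd_of_le (KSG.alternatingGroup_le_of_index_lt (by simpa using h5) H (by simpa using hlt))
    rw [alternatingGroup.index_eq_two] at this
    have := Nat.le_of_dvd (by norm_num) this
    omega
  · omega

end Cfsg.Agent.S5944
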