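import Cfsg.Statements.S5945
import Mathlib
import Cfsg.Agent.KSG.AutS6

set_option autoImplicit false
open Cfsg

namespace Cfsg.Agent.S5945

open Equiv

theorem stab_equiv (a : Fin 6) : Nonempty (MulAction.stabilizer (Perm (Fin 6)) a ≃* Perm (Fin 5)) := by
  let e : Fin 5 ≃ {x : Fin 6 // x ≠ a} := Fintype.equivOfCardEq (by simp)
  have : (Perm.extendDomainHom e).range = MulAction.stabilizer (Perm (Fin 6)) a := by
    apply Subgroup.eq_of_le_of_card_ge
    · rintro _ ⟨g, rfl⟩
      exact Perm.extendDomain_apply_not_subtype g e (by simp)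
    · have h1 := (MulAction.stabilizer (Perm (Fin 6)) a).card_mul_index
      rw [KSG.index_stabilizer_perm, Nat.card_perm] at h1
      rw [← Nat.card_congr (MonoidHom.ofInjective (Perm.extendDomainHom_injective e)).toEquiv,
        Nat.card_perm]
      simp [Nat.factorial] at h1 ⊢
      omega
  exact ⟨((MonoidHom.ofInjective (Perm.extendDomainHom_injective e)).trans
    (MulEquiv.subgroupCongr this)).symm⟩


/-- The symmetric group S_6 has exactly 12 subgroups of index 6; each of them is isomorphic to S_5, and at least one of them is not the stabilizer of any point. -/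
theorem result : Nat.card {H : Subgroup (Equiv.Perm (Fin 6)) // H.index = 6} = 12 ∧ (∀ H : Subgroup (Equiv.Perm (Fin 6)), H.index = 6 → Nonempty (H ≃* Equiv.Perm (Fin 5))) ∧ ∃ H : Subgroup (Equiv.Perm (Fin 6)), H.index = 6 ∧ ∀ a : Fin 6, H ≠ MulAction.stabilizer (Equiv.Perm (Fin 6)) a := by
  have h6 : Fintype.card (Fin 6) = 6 := by simp
  obtain ⟨θ, hθ⟩ := KSG.exists_outer_fin_six
  have hi : ∀ o, (MulAction.stabilizer (Perm (Fin 6)) o).index = 6 := fun o => by
    rw [KSG.index_stabilizer_perm, h6]
  have hi' : ∀ o, ((MulAction.stabilizer (Perm (Fin 6)) o).map θ.toMonoidHom).index = 6 :=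
    fun o => by rw [Subgroup.index_map_of_bijective θ.bijective, hi]
  refine ⟨?_, fun H hH => ?_, _, hi' 0, KSG.map_outer_stabilizer_ne h6 θ hθ 0⟩
  · let F : Fin 6 ⊕ Fin 6 → {H : Subgroup (Perm (Fin 6)) // H.index = 6} :=
      Sum.elim (fun a => ⟨_, hi a⟩) (fun a => ⟨_, hi' a⟩)
    have hF : Function.Bijective F := by
      constructor
      · rintro (a | a) (b | b) h <;> have h' := congrArg Subtype.val h
        · rw [KSG.stabilizer_perm_injective (by simp) h']
        · exact (KSG.map_outer_stabilizer_ne h6 θ hθ _ _ h'.symm).elim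
        · exact (KSG.map_outer_stabilizer_ne h6 θ hθ _ _ h').elim
        · rw [KSG.stabilizer_perm_injective (by simp)
            (Subgroup.map_injective (f := θ.toMonoidHom) θ.injective h')]
      · rintro ⟨H, hH⟩
        obtain ⟨a, rfl | rfl⟩ := KSG.eq_stabilizer_or_of_index_six h6 θ hθ H hH
        · exact ⟨.inl a, rfl⟩
        · exact ⟨.inr a, rfl⟩
    rw [← Nat.card_congr (Equiv.ofBijective F hF)]
    simp
  · obtain ⟨a, rfl | rfl⟩ := KSG.eq_stabilizer_or_of_index_six h6 θ hθ H hH
    · exact stab_equiv a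
    · exact ⟨(θ.subgroupMap _).symm.trans (stab_equiv a).some⟩

end Cfsg.Agent.S5945
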