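import Cfsg.Statements.S5712
import Cfsg.Agent.McL.CK
import Cfsg.Agent.S0247
import Cfsg.Agent.S5944
import Cfsg.Agent.S5945
import Cfsg.Agent.Grp.Cores
import Cfsg.Agent.Class.Orth.Simple

set_option autoImplicit false
open Cfsg

namespace Cfsg.Agent.S5712

section
open Module Cfsg.Agent.Class.Max Cfsg.Agent.Class.Orth Cfsg.Agent.McL

variable {F V : Type*} [Field F] [Fintype F] [CharP F 2] [AddCommGroup V] [Module F V]
  [FiniteDimensional F V] {B : LinearMap.BilinForm F V} {L : Subgroup (V ≃ₗ[F] V)} {a : V}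

theorem all_of_card (hb : ∃ b, B b a ≠ 0) (h0 : B a a = 0) (h2 : 2 ≤ finrank F V)
    (h : ∀ g ∈ L, ∃ m c, B m a = 0 ∧ ∀ v, g v = v + B v m • a + B v a • m + (c * B v a) • a)
    (hs : ∀ m, B a m = B m a)
    (ht : ∀ g ∈ L, ∀ c, (∀ v, g v = v + (c * B v a) • a) → g = 1)
    (hc : Nat.card L = Nat.card F ^ (finrank F V - 2)) (m : V) (hm : B m a = 0) :
    ∃ c, Sg B L a m c := by
  have : Finite V := Module.finite_of_finite F
  choose μ c e1 e2 using h
  let Φ : L × F → LinearMap.ker (B.flip a) := fun p => ⟨μ p.1 p.1.2 + p.2 • a, by simp [e1, h0]⟩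
  have inj : Function.Injective Φ := by
    rintro ⟨g, t⟩ ⟨k, s⟩ e
    have e : μ g g.2 + t • a = μ k k.2 + s • a := congrArg Subtype.val e
    have ga : g.1 a = a := by simp [e2 g g.2 a, hs, e1, h0]
    obtain rfl : g = k := Subtype.ext (inv_mul_eq_one.mp (ht _ (mul_mem (inv_mem g.2) k.2)
      (c g g.2 + c k k.2) fun v => g.1.injective (by
        rw [mul_app, app_inv_app, map_add, map_smul, ga, e2 k k.2, e2 g g.2, eq_sub_of_add_eq e]
        simp only [map_add, map_sub, map_smul, smul_eq_mul]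
        match_scalars <;> grind)))
    obtain ⟨b, hb⟩ := hb
    rw [smul_left_injective F (by rintro rfl; simp at hb) (add_left_cancel e)]
  obtain ⟨⟨g, t⟩, e⟩ := (inj.bijective_of_nat_card_le (by
    obtain ⟨b, hb⟩ := hb
    have := Submodule.finrank_lt (s := LinearMap.ker (B.flip a)) fun e =>
      hb (show b ∈ LinearMap.ker (B.flip a) from e ▸ Submodule.mem_top)
    rw [Nat.card_prod, hc, Module.natCard_eq_pow_finrank (K := F), ← pow_succ]
    exact Nat.pow_le_pow_right Nat.card_pos (by omega))).2 ⟨m, hm⟩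
  exact ⟨_, (show μ g g.2 + t • a = m from congrArg Subtype.val e) ▸
    Sg.add_smul ⟨g, g.2, e2 g g.2⟩ t⟩

theorem cases (h : CK B L a) : isoB B ≤ L ∨
    (∃ Q : QuadraticForm F V, (∀ x y, QuadraticMap.polar Q x y = B x y) ∧ L ≤ OG Q ∧
      (OG Q ≤ L ∨ ∀ g : OG Q, g.1 ∈ L ↔ Even (finrank F (mov g)))) ∨
    (Fintype.card F = 2 ∧ finrank F V = 4 ∧ (Nonempty (L ≃* alternatingGroup (Fin 6)) ∨
      Nonempty (L ≃* Equiv.Perm (Fin 5)))) := by
  have h3 : 3 ≤ finrank F V := by have := h.dim; omega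
  by_cases hP : ∀ v, v ≠ 0 → Pt L a v
  swap
  · obtain ⟨Q, h1, -, h2, h4⟩ := h.exists_Q hP
    have hQ : ND Q := fun x e => h.nd x fun y => h1 x y ▸ e y
    obtain ⟨e, f, hef⟩ := hQ.exists_isHyp_of_three_le h3
    refine Or.inr (Or.inl ⟨Q, h1, h2, (cases_of_eichler hQ h3 hef (M := L.subgroupOf (OG Q))
      fun u v hu hv => h4 u v hu (h1 u v ▸ hv)).imp_left Subgroup.subgroupOf_eq_top.mp⟩)
  refine or_iff_not_imp_left.mpr fun hn => Or.inr ?_
  have h2 := h.card_two hP hn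
  have hF : Fintype.card F = 2 := by
    rw [← Nat.card_eq_fintype_card]; exact (Nat.card_eq_two_iff' 0).mpr ⟨1, one_ne_zero, h2⟩
  have h4 : finrank F V = 4 := by
    by_contra k
    exact hn (h.le_of_full hP (h.full_of_six hP (by have := h.dim; omega)))
  obtain ⟨f, hf⟩ := Class.Sp.exists_injective_hom_of_rep B h.alt h.nd (m := 2) h4 (G := isoB B)
    ((LinearEquiv.automorphismGroup.toLinearMapMonoidHom).comp (isoB B).subtype) (fun g => g.2)
    fun g e => Subtype.ext (LinearEquiv.ext e)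
  obtain ⟨s⟩ := S0247.result hF
  have hi : Function.Injective (s.toMonoidHom.comp f) := s.injective.comp hf
  let M := (L.subgroupOf (isoB B)).map (s.toMonoidHom.comp f)
  let e : L ≃* M := (Subgroup.subgroupOfEquivOfLe h.le).symm.trans (Subgroup.equivMapOfInjective _ _ hi)
  have k1 : M ≠ ⊤ := fun k => hn fun g hg => (Subgroup.mem_map_iff_mem hi (x := ⟨g, hg⟩)).mp
    (show _ ∈ M from k ▸ Subgroup.mem_top _)
  refine ⟨hF, h4, ?_⟩
  by_cases k2 : M = alternatingGroup (Fin 6)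
  · exact Or.inl ⟨e.trans (MulEquiv.subgroupCongr k2)⟩
  have k3 := S5944.result 6 (by norm_num) M k1 k2
  obtain ⟨r, hr⟩ := h.card_dvd hP h2 h4
  have k4 := M.card_mul_index
  rw [← Nat.card_congr e.toEquiv, hr, Nat.card_perm, Nat.card_fin, show Nat.factorial 6 = 120 * 6 from rfl,
    mul_assoc, Nat.mul_right_inj (by norm_num)] at k4
  obtain ⟨t⟩ := S5945.result.2.1 M (le_antisymm (Nat.le_of_dvd (by norm_num) (Dvd.intro_left r k4)) k3)
  exact Or.inr ⟨e.trans t⟩

end

open Module Cfsg.Agent.Class.Max Cfsg.Agent.Class.Orth Cfsg.Agent.McL in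
/-- Let F be a finite field of characteristic two, n ≥ 2, V = F^{2n} with the non-degenerate alternating form f(u, v) = Σ (u_i v_{n+i} + u_{n+i} v_i), and G the group of invertible matrices preserving f. Let a ≠ 0 be a vector, H its stabilizer in G, and X a subgroup of O₂(H) of order |F|^{2n−2} no element of which is a transvection (no element g has g − 1 of rank one). If L is a subgroup of G containing X that acts irreducibly on V (no proper non-zero L-invariant subspace), then L = G, or, for some quadratic form Q on V whose polar form is f, L is the isometry group of Q or its subgroup of the isometries g for which g − 1 has even rank, or |F| = 2, n = 2 and L is isomorphic to the alternating group of degree 6 or to the symmetric group of degree 5. -/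
theorem result {F : Type*} [Field F] [Fintype F] [CharP F 2] {n : ℕ} (hn : 2 ≤ n) (a : (Fin n ⊕ Fin n → F)) (ha : a ≠ 0)
    (X : Subgroup (GL (Fin n ⊕ Fin n) F)) (hXG : X ≤ Cfsg.preserving (Units.coeHom (Matrix (Fin n ⊕ Fin n) (Fin n ⊕ Fin n) F)) (fun u v : (Fin n ⊕ Fin n → F) => ∑ i : Fin n, (u (Sum.inl i) * v (Sum.inr i) + u (Sum.inr i) * v (Sum.inl i))))
    (hXO : ∀ H : Subgroup (GL (Fin n ⊕ Fin n) F),
      (∀ g : GL (Fin n ⊕ Fin n) F, g ∈ H ↔ (g ∈ Cfsg.preserving (Units.coeHom (Matrix (Fin n ⊕ Fin n) (Fin n ⊕ Fin n) F)) (fun u v : (Fin n ⊕ Fin n → F) => ∑ i : Fin n, (u (Sum.inl i) * v (Sum.inr i) + u (Sum.inr i) * v (Sum.inl i))) ∧ Matrix.mulVec (g : Matrix (Fin n ⊕ Fin n) (Fin n ⊕ Fin n) F) a = a)) →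
      X ≤ (Cfsg.pCore 2 ↥H).map H.subtype)
    (hcard : Nat.card ↥X = Fintype.card F ^ (2 * n - 2))
    (hntv : ∀ x ∈ X, ((x : Matrix (Fin n ⊕ Fin n) (Fin n ⊕ Fin n) F) - 1).rank ≠ 1)
    (L : Subgroup (GL (Fin n ⊕ Fin n) F)) (hXL : X ≤ L) (hLG : L ≤ Cfsg.preserving (Units.coeHom (Matrix (Fin n ⊕ Fin n) (Fin n ⊕ Fin n) F)) (fun u v : (Fin n ⊕ Fin n → F) => ∑ i : Fin n, (u (Sum.inl i) * v (Sum.inr i) + u (Sum.inr i) * v (Sum.inl i))))
    (hirr : ∀ W : Submodule F (Fin n ⊕ Fin n → F), (∀ g ∈ L, ∀ w ∈ W, Matrix.mulVec (g : Matrix (Fin n ⊕ Fin n) (Fin n ⊕ Fin n) F) w ∈ W) → W = ⊥ ∨ W = ⊤) :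
    L = Cfsg.preserving (Units.coeHom (Matrix (Fin n ⊕ Fin n) (Fin n ⊕ Fin n) F)) (fun u v : (Fin n ⊕ Fin n → F) => ∑ i : Fin n, (u (Sum.inl i) * v (Sum.inr i) + u (Sum.inr i) * v (Sum.inl i))) ∨
    (∃ Q : QuadraticForm F (Fin n ⊕ Fin n → F), (∀ u v, QuadraticMap.polar ⇑Q u v = (fun u v : (Fin n ⊕ Fin n → F) => ∑ i : Fin n, (u (Sum.inl i) * v (Sum.inr i) + u (Sum.inr i) * v (Sum.inl i))) u v) ∧
      (L = Cfsg.isometryGroup F ⇑Q ∨
        ∀ g : GL (Fin n ⊕ Fin n) F, g ∈ L ↔ (g ∈ Cfsg.isometryGroup F ⇑Q ∧ Even ((g : Matrix (Fin n ⊕ Fin n) (Fin n ⊕ Fin n) F) - 1).rank))) ∨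
    (Fintype.card F = 2 ∧ n = 2 ∧ (Nonempty (↥L ≃* ↥(alternatingGroup (Fin 6))) ∨ Nonempty (↥L ≃* Equiv.Perm (Fin 5)))) := by
  let B : LinearMap.BilinForm F (Fin n ⊕ Fin n → F) := LinearMap.mk₂ F
    (fun u v => ∑ i : Fin n, (u (Sum.inl i) * v (Sum.inr i) + u (Sum.inr i) * v (Sum.inl i)))
    (fun _ _ _ => by simp [← Finset.sum_add_distrib]; exact Finset.sum_congr rfl fun _ _ => by ring)
    (fun _ _ _ => by simp [Finset.mul_sum]; exact Finset.sum_congr rfl fun _ _ => by ring)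
    (fun _ _ _ => by simp [← Finset.sum_add_distrib]; exact Finset.sum_congr rfl fun _ _ => by ring)
    (fun _ _ _ => by simp [Finset.mul_sum]; exact Finset.sum_congr rfl fun _ _ => by ring)
  have hA : B.IsAlt := fun v => by simp [B, mul_comm, CharTwo.add_self_eq_zero]
  have hB : ∀ x, (∀ y, B x y = 0) → x = 0 := fun x h => funext fun i => by
    rcases i with i | i
    · simpa [B, Pi.single_apply] using h (Pi.single (Sum.inr i) 1)
    · simpa [B, Pi.single_apply] using h (Pi.single (Sum.inl i) 1)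
  have sy : ∀ x y, B x y = B y x := fun x y => by rw [← hA.neg_eq, CharTwo.neg_eq]
  have hd : finrank F (Fin n ⊕ Fin n → F) = 2 * n := by simp [two_mul]
  set G := Cfsg.preserving (Units.coeHom (Matrix (Fin n ⊕ Fin n) (Fin n ⊕ Fin n) F)) (fun u v : (Fin n ⊕ Fin n → F) => ∑ i : Fin n, (u (Sum.inl i) * v (Sum.inr i) + u (Sum.inr i) * v (Sum.inl i)))
  let e := glEquiv (Fin n ⊕ Fin n) F
  have hG : ∀ g, g ∈ G ↔ e g ∈ isoB B := fun g => Iff.rfl
  let H := G ⊓ (MulAction.stabilizer _ a).comap e.toMonoidHom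
  have hm : ∀ (K : Subgroup _) g, e g ∈ K.map e.toMonoidHom ↔ g ∈ K := fun K g =>
    Subgroup.mem_map_iff_mem (f := e.toMonoidHom) e.injective
  have h1 : CK B (L.map e.toMonoidHom) a := by
    refine ⟨hA, hB, by rintro _ ⟨g, hg, rfl⟩; exact hLG hg,
      fun W h => hirr W fun g hg => h _ ((hm L g).mpr hg), ha, fun m k => ?_, by omega⟩
    obtain ⟨c, g, hg, k⟩ := all_of_card (B := B) (L := X.map e.toMonoidHom) (a := a)
      (by by_contra! k; exact ha (hB a fun y => sy y a ▸ k y)) (hA a) (by omega) (fun g hg =>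
        form_of_normal hA hB (by omega) ha (N := ((pCore 2 H).map H.subtype).map e.toMonoidHom)
          ((Grp.map_pCore_isPGroup 2 _).map _) (by rintro _ ⟨_, ⟨g, -, rfl⟩, rfl⟩; exact g.2.1)
          (by rintro _ ⟨_, ⟨g, -, rfl⟩, rfl⟩; exact g.2.2) (by
            rintro k k1 k2 _ ⟨_, ⟨g, hg, rfl⟩, rfl⟩
            obtain ⟨k, rfl⟩ := e.surjective k
            exact ⟨_, ⟨_, Subgroup.Normal.conj_mem inferInstance g hg ⟨k, k1, k2⟩, rfl⟩, by simp⟩)
          (Subgroup.map_mono (hXO H fun _ => Iff.rfl) hg)) (sy a) (by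
        rintro _ ⟨g, hg, rfl⟩ c k
        by_cases c0 : c = 0
        · exact LinearEquiv.ext (by simpa [c0] using k)
        refine (hntv g hg ?_).elim
        suffices (g.1 - 1).mulVecLin.range = Submodule.span F {a} by
          rw [Matrix.rank, this, finrank_span_singleton ha]
        have k' : ∀ v, (g.1 - 1).mulVecLin v = (c * B v a) • a := fun v => by
          rw [Matrix.mulVecLin_apply, Matrix.sub_mulVec, Matrix.one_mulVec, sub_eq_iff_eq_add']
          exact k v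
        refine le_antisymm (by
          rintro _ ⟨v, rfl⟩
          exact k' v ▸ Submodule.smul_mem _ _ (Submodule.mem_span_singleton_self a)) ?_
        obtain ⟨b, hb⟩ : ∃ b, B b a ≠ 0 := by by_contra! k; exact ha (hB a fun y => sy y a ▸ k y)
        exact (Submodule.span_singleton_le_iff_mem _ _).mpr ⟨(c * B b a)⁻¹ • b, by
          rw [map_smul, k', inv_smul_smul₀ (mul_ne_zero c0 hb)]⟩)
      (by rw [Subgroup.card_map_of_injective e.injective, hcard, hd, Nat.card_eq_fintype_card]) m k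
    exact ⟨c, g, Subgroup.map_mono hXL hg, k⟩
  rcases cases h1 with h | ⟨Q, h2, h3, h4⟩ | ⟨h2, h3, h4⟩
  · exact Or.inl (le_antisymm hLG fun g hg => (hm L g).mp (h hg))
  · have h5 : L ≤ isometryGroup F Q := fun g hg => mem_isometryGroup.mpr (h3 ((hm L g).mpr hg))
    refine Or.inr (Or.inl ⟨Q, h2, h4.imp (fun h => le_antisymm h5 fun g hg =>
      (hm L g).mp (h (mem_isometryGroup.mp hg))) fun h g => ?_⟩)
    refine (and_iff_right_of_imp (@h5 g)).symm.trans (and_congr_right fun hg => ?_)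
    rw [rank_sub_one_eq Q Q (fun _ => rfl) ⟨g, hg⟩, ← h, ← hm]
    rfl
  · have k := L.equivMapOfInjective e.toMonoidHom e.injective
    exact Or.inr (Or.inr ⟨h2, by omega, h4.imp (.map k.trans) (.map k.trans)⟩)

end Cfsg.Agent.S5712
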