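import Cfsg.Statements.S5729
import Cfsg.Agent.Perm.Derangement

set_option autoImplicit false
open Cfsg

namespace Cfsg.Agent.S5729

open MulAction

/-- Let a finite group G act faithfully and transitively on a set with n ≥ 3 points. Then either G is a Frobenius permutation group (Frobenius as a permutation group: transitive, some non-identity element fixes a point, and no non-identity element fixes two points) of order n(n − 1) and exactly |G|/n of its elements are derangements (fix no point), or the number of derangements is greater than |G|/n. -/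
theorem result {G Ω : Type*} [Group G] [Finite G] [MulAction G Ω] [FaithfulSMul G Ω] [Fintype Ω] (htr : MulAction.IsPretransitive G Ω) (hn : 3 ≤ Fintype.card Ω) :
    ((MulAction.IsPretransitive G Ω ∧ (∃ g : G, g ≠ 1 ∧ ∃ ω : Ω, g • ω = ω) ∧ ∀ g : G, g ≠ 1 → Nat.card (MulAction.fixedBy Ω g) ≤ 1) ∧ Nat.card G = Fintype.card Ω * (Fintype.card Ω - 1) ∧ Fintype.card Ω * Nat.card {g : G // ∀ ω : Ω, g • ω ≠ ω} = Nat.card G) ∨
    Nat.card G < Fintype.card Ω * Nat.card {g : G // ∀ ω : Ω, g • ω ≠ ω} := by
  classical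
  have := Fintype.ofFinite G
  obtain ⟨a, b, hab⟩ : Nontrivial Ω := Fintype.one_lt_card_iff_nontrivial.1 (by omega)
  have : Nonempty Ω := ⟨a⟩
  obtain ⟨n, hn'⟩ : ∃ n, n = Fintype.card Ω := ⟨_, rfl⟩
  obtain ⟨f, hf⟩ : ∃ f : G → ℕ, ∀ g, f g = Nat.card (fixedBy Ω g) := ⟨_, fun _ => rfl⟩
  simp only [← hf, ← hn'] at hn ⊢
  have h1 : ∑ g, f g = Nat.card G := by
    simp only [hf]
    rw [Perm.Der.burnside, Perm.Der.card_quotient_eq_one, one_mul]
  have h2 : 2 * Nat.card G ≤ ∑ g, f g * f g := by
    simp only [hf, ← Perm.Der.card_fixedBy_prod]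
    rw [Perm.Der.burnside]
    refine Nat.mul_le_mul_right _ (Finite.one_lt_card_iff_nontrivial.2
      ⟨Quotient.mk _ (a, a), Quotient.mk _ (a, b), fun e => ?_⟩)
    obtain ⟨g, hg⟩ := Quotient.exact e.symm
    exact hab ((congrArg Prod.fst hg).symm.trans (congrArg Prod.snd hg))
  have hle : ∀ g, f g ≤ n := fun g => by
    rw [hf, hn', ← Nat.card_eq_fintype_card]
    exact Nat.card_le_card_of_injective _ Subtype.val_injective
  have hone : ∀ g, f g = n ↔ g = 1 := fun g => by
    rw [hf, hn', ← Nat.card_eq_fintype_card, Nat.card_coe_set_eq, ← Set.eq_univ_iff_ncard,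
      fixedBy_eq_univ_iff_eq_one]
  have hzero : ∀ g, f g = 0 ↔ ∀ ω : Ω, g • ω ≠ ω := fun g => by
    rw [hf, Nat.card_coe_set_eq, Set.ncard_eq_zero, Set.eq_empty_iff_forall_notMem]
    rfl
  have hd : Nat.card {g : G // ∀ ω : Ω, g • ω ≠ ω} = ∑ g, if f g = 0 then 1 else 0 := by
    rw [Nat.card_eq_fintype_card, Fintype.card_subtype, Finset.card_filter]
    simp only [hzero]
  have hG : (Nat.card G : ℤ) = ∑ _g : G, 1 := by simp
  rw [hd]
  obtain ⟨d, hd'⟩ : ∃ d, d = ∑ g, if f g = 0 then 1 else 0 := ⟨_, rfl⟩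
  rw [← hd']
  refine or_iff_not_imp_right.2 fun hlt => ?_
  have h3 : ∀ g ∈ Finset.univ, (0 : ℤ) ≤ n * (if f g = 0 then 1 else 0) - (f g - 1) * (f g - n) :=
    fun g _ => by
      split_ifs with h
      · simp [h]
      · have := hle g
        nlinarith [show (1 : ℤ) ≤ f g by omega, show (f g : ℤ) ≤ n by omega]
  have h4 : ∑ g, ((n : ℤ) * (if f g = 0 then 1 else 0) - (f g - 1) * (f g - n)) =
      n * d - (∑ g, f g * f g : ℕ) + Nat.card G := by
    have e : ∀ g, ((n : ℤ) * (if f g = 0 then 1 else 0) - (f g - 1) * (f g - n)) =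
        n * (if f g = 0 then 1 else 0) - f g * f g + (n + 1) * f g - n * 1 := fun g => by ring
    simp only [e, Finset.sum_sub_distrib, Finset.sum_add_distrib, ← Finset.mul_sum, ← hG]
    rw [← Nat.cast_sum, h1, hd']
    push_cast
    ring
  have h5 := Finset.sum_nonneg h3
  have h6 : n * d = Nat.card G := by
    rw [h4] at h5
    omega
  have h7 := (Finset.sum_eq_zero_iff_of_nonneg h3).1 (by rw [h4] at h5 ⊢; omega)
  have h8 : ∀ g, g ≠ 1 → f g ≤ 1 := fun g hg => by
    have h := h7 g (Finset.mem_univ g)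
    split_ifs at h with h0
    · omega
    · rw [mul_zero, zero_sub, neg_eq_zero, mul_eq_zero] at h
      have := (hone g).not.2 hg
      omega
  have h9 : d + 1 = n := by
    have e : ∑ g, (f g + if f g = 0 then 1 else 0) = ∑ g : G, (1 + if g = 1 then n - 1 else 0) :=
      Finset.sum_congr rfl fun g _ => by
        by_cases hg : g = 1
        · have := (hone g).2 hg
          rw [if_pos hg, if_neg (by omega)]
          omega
        · have := h8 g hg
          rw [if_neg hg]
          split_ifs <;> omega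
    rw [Finset.sum_add_distrib, Finset.sum_add_distrib, h1, ← hd'] at e
    simp only [Finset.sum_const, Finset.card_univ, smul_eq_mul, mul_one, Finset.sum_ite_eq',
      Finset.mem_univ, if_true, ← Nat.card_eq_fintype_card] at e
    omega
  refine ⟨⟨htr, ?_, h8⟩, by rw [← h6, ← h9, Nat.add_sub_cancel], h6⟩
  have h10 := (stabilizer G a).card_mul_index
  rw [index_stabilizer_of_transitive, Nat.card_eq_fintype_card (α := Ω), ← hn', ← h6,
    mul_comm n] at h10
  have h11 : 1 < Nat.card (stabilizer G a) := by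
    rw [Nat.eq_of_mul_eq_mul_right (by omega) h10]
    omega
  have := Finite.one_lt_card_iff_nontrivial.1 h11
  obtain ⟨g, hg⟩ := exists_ne (1 : stabilizer G a)
  exact ⟨g, fun e => hg (Subtype.ext e), a, g.2⟩

end Cfsg.Agent.S5729
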