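import Cfsg.Statements.S5730
import Cfsg.Agent.Perm.DerTwo

set_option autoImplicit false
open Cfsg

namespace Cfsg.Agent.S5730

open Cfsg.Agent.Perm Cfsg.Agent.Perm.Onl Cfsg.Agent.Perm.DerTwo

section
open MulAction
variable {G : Type*} [Group G] {Ω : Type*} [MulAction G Ω]

noncomputable def ψ (Ω : Type*) [MulAction G Ω] (g : G) : ℚ :=
  (Nat.card Ω - Nat.card (fixedBy Ω g)) / Nat.card (fixedBy Ω g)

theorem ψ_conj (g x : G) : ψ Ω (g * x * g⁻¹) = ψ Ω x := by rw [ψ, ψ, card_fixedBy_conj]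

theorem fix_one : Nat.card (fixedBy Ω (1 : G)) = Nat.card Ω := by
  rw [fixedBy_one_eq_univ, Nat.card_univ]

theorem ψ_one : ψ Ω (1 : G) = 0 := by simp [ψ]

theorem ψ_nonneg [Finite Ω] (g : G) : 0 ≤ ψ Ω g := by
  have : Nat.card (fixedBy Ω g) ≤ Nat.card Ω :=
    Nat.card_le_card_of_injective _ Subtype.val_injective
  refine div_nonneg (sub_nonneg.2 (by exact_mod_cast this)) (Nat.cast_nonneg _)

theorem sums [Fintype G] [Finite Ω] [Nonempty Ω] (htr : IsPretransitive G Ω) :
    ∑ g : G, (Nat.card (fixedBy Ω g) : ℚ) = Nat.card G ∧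
    ∑ g : G, (Nat.card (fixedBy Ω g) : ℚ) * Nat.card (fixedBy Ω g) =
      CompDeg.nOrb G (Ω × Ω) * Nat.card G := by
  have h1 := Der.burnside G Ω
  have h2 := Der.burnside G (Ω × Ω)
  rw [Der.card_quotient_eq_one, one_mul] at h1
  simp only [Der.card_fixedBy_prod] at h2
  exact ⟨by exact_mod_cast h1, by exact_mod_cast h2⟩

theorem identity [Fintype G] [Finite Ω] [Nonempty Ω] (htr : IsPretransitive G Ω) :
    (Nat.card Ω : ℚ) * Nat.card {g : G // ∀ ω : Ω, g • ω ≠ ω} =
      (CompDeg.nOrb G (Ω × Ω) - 1) * Nat.card G +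
      ∑ g : G, (Nat.card (fixedBy Ω g) : ℚ) * (Nat.card (fixedBy Ω g) - 1) * ψ Ω g := by
  classical
  obtain ⟨h1, h2⟩ := sums (G := G) htr
  have e : ∀ g : G, (if ∀ ω : Ω, g • ω ≠ ω then (Nat.card Ω : ℚ) else 0) =
      ((Nat.card (fixedBy Ω g) : ℚ) * Nat.card (fixedBy Ω g) -
        (Nat.card Ω + 1) * Nat.card (fixedBy Ω g) + Nat.card Ω) +
      (Nat.card (fixedBy Ω g) : ℚ) * (Nat.card (fixedBy Ω g) - 1) * ψ Ω g := by
    intro g
    split_ifs with h
    · have : Nat.card (fixedBy Ω g) = 0 := by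
        rw [Finite.card_eq_zero_iff]; exact ⟨fun x => h x x.2⟩
      simp [this]
    · push Not at h
      obtain ⟨ω, hω⟩ := h
      have : Nonempty (fixedBy Ω g) := ⟨⟨ω, hω⟩⟩
      have h0 : (Nat.card (fixedBy Ω g) : ℚ) ≠ 0 := by exact_mod_cast Nat.card_pos.ne'
      rw [ψ]; field_simp; ring
  have h3 := Finset.sum_congr rfl fun g (_ : g ∈ Finset.univ) => e g
  rw [← Finset.sum_filter, Finset.sum_const, nsmul_eq_mul, Finset.sum_add_distrib,
    Finset.sum_add_distrib, Finset.sum_sub_distrib, ← Finset.mul_sum, h1, h2, Finset.sum_const,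
    nsmul_eq_mul, Finset.card_univ, ← Nat.card_eq_fintype_card] at h3
  rw [Nat.card_eq_fintype_card (α := {g : G // ∀ ω : Ω, g • ω ≠ ω}), Fintype.card_subtype, mul_comm,
    h3]
  ring

theorem three_le_rank [Finite Ω] (h : ¬ Two G Ω) : 3 ≤ CompDeg.nOrb G (Ω × Ω) := by
  classical
  simp only [Two, not_forall, not_exists, not_and] at h
  obtain ⟨a, b, c, d, hab, hcd, h⟩ := h
  have := CompDeg.le_nOrb_of_inv (G := G) (B := Option Bool) (fun p : Ω × Ω =>
    if p.1 = p.2 then none else some (decide (∃ g : G, g • a = p.1 ∧ g • b = p.2)))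
    (by
      rintro (_ | _ | _)
      · exact ⟨(a, a), by simp⟩
      · exact ⟨(c, d), by simpa [hcd] using h⟩
      · exact ⟨(a, b), by simpa [hab] using ⟨1, one_smul _ _, one_smul _ _⟩⟩)
    (fun g p => by
      have : (∃ x : G, x • a = g • p.1 ∧ x • b = g • p.2) ↔ ∃ x : G, x • a = p.1 ∧ x • b = p.2 :=
        ⟨fun ⟨x, h1, h2⟩ => ⟨g⁻¹ * x, by simp [mul_smul, h1], by simp [mul_smul, h2]⟩,
          fun ⟨x, h1, h2⟩ => ⟨g * x, by simp [mul_smul, h1], by simp [mul_smul, h2]⟩⟩
      simp [this])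
  simpa using this

theorem rank_two [Finite Ω] (htr : IsPretransitive G Ω) (h : Two G Ω) {α β : Ω} (hαβ : α ≠ β) :
    CompDeg.nOrb G (Ω × Ω) = 2 := by
  classical
  have h1 := CompDeg.le_nOrb_of_inv (G := G) (B := Bool) (fun p : Ω × Ω => decide (p.1 = p.2))
    (by
      rintro (_ | _)
      · exact ⟨(α, β), by simpa using hαβ⟩
      · exact ⟨(α, α), by simp⟩) (fun g p => by simp)
  have h2 := CompDeg.nOrb_le_of_cover (G := G)
    (fun b : Bool => if b then (α, α) else (α, β)) fun p => by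
      by_cases hp : p.1 = p.2
      · obtain ⟨g, hg⟩ := htr.exists_smul_eq p.1 α
        exact ⟨true, g, Prod.ext hg (by simpa [← hp] using hg)⟩
      · obtain ⟨g, h1, h2⟩ := h _ _ α β hp hαβ
        exact ⟨false, g, Prod.ext h1 h2⟩
  simp only [Nat.card_eq_fintype_card (α := Bool), Fintype.card_bool] at h1 h2
  omega

theorem card_eq [Finite G] [Finite Ω] (htr : IsPretransitive G Ω) (h : Two G Ω) {α β : Ω}
    (hαβ : α ≠ β) : Nat.card G = Nat.card Ω * (Nat.card Ω - 1) * Nat.card (Hs G α β) := by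
  classical
  have := Fintype.ofFinite G
  have : Nonempty Ω := ⟨α⟩
  obtain ⟨h1, h2⟩ := sums (G := G) htr
  have h3 := sum_pairs h hαβ (fun _ => 1) fun _ _ => rfl
  rw [rank_two htr h hαβ] at h2
  simp only [mul_one, mul_sub, Finset.sum_sub_distrib, h1, h2, Finset.sum_const, nsmul_eq_mul,
    Der.card_filter_mem] at h3
  have h0 : 1 ≤ Nat.card Ω := Nat.card_pos
  have : (Nat.card G : ℚ) = (Nat.card Ω * (Nat.card Ω - 1) * Nat.card (Hs G α β) : ℕ) := by
    rw [Nat.cast_mul, Nat.cast_mul, Nat.cast_sub h0]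
    push_cast at h3 ⊢
    linarith
  exact_mod_cast this

open Classical in
theorem sum_ge [Fintype G] (H : Subgroup G) (φ : G → ℚ) :
    ∑ h with h ∈ H, φ h = φ 1 + ∑ h ∈ (Finset.univ.filter (· ∈ H)).erase 1, φ h :=
  (Finset.add_sum_erase _ _ (by simp)).symm

open Classical in
theorem card_erase [Fintype G] (H : Subgroup G) :
    (((Finset.univ.filter (· ∈ H)).erase 1).card : ℚ) = Nat.card H - 1 := by
  rw [Finset.card_erase_of_mem (by simp), Der.card_filter_mem, Nat.cast_sub Nat.card_pos]; rfl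

open Classical in
theorem boundOne [Fintype G] (H : Subgroup G) (κ : ℚ) (h : ∀ x ∈ H, x ≠ 1 → κ ≤ ψ Ω x)
    (hκ : (Nat.card H : ℚ) ≤ (Nat.card H - 1) * κ) :
    (Nat.card H : ℚ) ≤ ∑ h with h ∈ H, ψ Ω h := by
  rw [sum_ge, ψ_one, zero_add]
  have := Finset.card_nsmul_le_sum ((Finset.univ.filter (· ∈ H)).erase 1) (ψ Ω) κ fun x hx =>
    h x (by simpa using (Finset.mem_erase.1 hx).2) (Finset.mem_erase.1 hx).1
  rw [nsmul_eq_mul, card_erase] at this
  exact hκ.trans this

open Classical in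
theorem boundTwo [Fintype G] [Finite Ω] (H : Subgroup G) {α : Ω} (hα : H ≤ stabilizer G α)
    (hm : 2 ≤ Nat.card H)
    (h : (2 * Nat.card H - 1) * CompDeg.nOrb H Ω ≤ Nat.card Ω * Nat.card H) :
    (Nat.card H : ℚ) ≤ ∑ h with h ∈ H, ψ Ω h := by
  have hb : ∑ h with h ∈ H, (Nat.card (fixedBy Ω h) : ℚ) = CompDeg.nOrb H Ω * Nat.card H := by
    exact_mod_cast Der.burnside_subgroup (Ω := Ω) H
  rw [sum_ge, fix_one] at hb
  rw [sum_ge, ψ_one, zero_add]
  have hm' : (2 : ℚ) ≤ Nat.card H := by exact_mod_cast hm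
  have h' : (2 * Nat.card H - 1 : ℚ) * CompDeg.nOrb H Ω ≤ Nat.card Ω * Nat.card H := by
    have : ((2 * Nat.card H - 1 : ℕ) : ℚ) * CompDeg.nOrb H Ω ≤ Nat.card Ω * Nat.card H := by
      exact_mod_cast h
    rwa [Nat.cast_sub (by omega), Nat.cast_mul] at this
  have : Nonempty Ω := ⟨α⟩
  have hn : (0 : ℚ) < Nat.card Ω := by exact_mod_cast Nat.card_pos
  have hc := card_erase H
  generalize (Nat.card H : ℚ) = m at *
  generalize hnn : (Nat.card Ω : ℚ) = n at *
  generalize (CompDeg.nOrb H Ω : ℚ) = t at *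
  set l : ℚ := (2 * m - 1) / (m - 1) with hl
  have h1 : ∑ h ∈ (Finset.univ.filter (· ∈ H)).erase 1,
      (2 * l - 1 - l ^ 2 / n * Nat.card (fixedBy Ω h)) ≤
      ∑ h ∈ (Finset.univ.filter (· ∈ H)).erase 1, ψ Ω h := by
    refine Finset.sum_le_sum fun x hx => ?_
    have : Nonempty (fixedBy Ω x) := ⟨⟨α, hα (by simpa using (Finset.mem_erase.1 hx).2)⟩⟩
    have h0 : (0 : ℚ) < Nat.card (fixedBy Ω x) := by exact_mod_cast Nat.card_pos
    rw [ψ, hnn]
    generalize (Nat.card (fixedBy Ω x) : ℚ) = F at *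
    rw [le_div_iff₀ h0, ← sub_nonneg]
    have : n - F - (2 * l - 1 - l ^ 2 / n * F) * F = (n - l * F) ^ 2 / n := by field_simp; ring
    rw [this]; positivity
  refine le_trans ?_ h1
  rw [Finset.sum_sub_distrib, ← Finset.mul_sum, Finset.sum_const, nsmul_eq_mul, hc,
    eq_sub_of_add_eq' hb]
  have hm1 : 0 < m - 1 := by linarith
  have e1 : (m - 1) * l = 2 * m - 1 := by rw [hl]; field_simp
  have e2 : l ^ 2 / n * (t * m - n) ≤ 2 * m - 1 := by
    rw [div_mul_eq_mul_div, div_le_iff₀ hn, hl, div_pow, div_mul_eq_mul_div,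
      div_le_iff₀ (by positivity)]
    have h2 : 0 < 2 * m - 1 := by linarith
    have h3 : (2 * m - 1) * (t * m - n) ≤ n * (m - 1) ^ 2 := by nlinarith
    nlinarith
  nlinarith

theorem not_seven [Finite G] [Finite Ω] [FaithfulSMul G Ω] (htr : IsPretransitive G Ω)
    (h2 : Two G Ω) (hn : Nat.card Ω = 7) {α β : Ω} (hαβ : α ≠ β) : Nat.card (Hs G α β) ≠ 2 := by
  intro hm
  have hG := card_eq htr h2 hαβ
  rw [hn, hm] at hG
  have : Fact (Nat.Prime 7) := ⟨by norm_num⟩
  obtain ⟨P⟩ : Nonempty (Sylow 7 G) := inferInstance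
  have hP : Nat.card P = 7 := by
    rw [P.card_eq_multiplicity, hG]
    have : (7 * (7 - 1) * 2 : ℕ).factorization 7 = 1 := by
      rw [show (7 * (7 - 1) * 2 : ℕ) = 7 * 12 by norm_num,
        Nat.factorization_mul (by norm_num) (by norm_num), Finsupp.add_apply,
        Nat.Prime.factorization_self (by norm_num), Nat.factorization_eq_zero_of_not_dvd (by norm_num)]
    rw [this, pow_one]
  have hi : (P : Subgroup G).index = 12 := by
    have := (P : Subgroup G).card_mul_index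
    rw [hP, hG] at this
    omega
  have h1 := card_sylow_modEq_one 7 G
  have h3 := P.card_dvd_index
  rw [hi] at h3
  have h4 : Nat.card (Sylow 7 G) = 1 := by
    have := Nat.le_of_dvd (by norm_num) h3
    unfold Nat.ModEq at h1
    generalize Nat.card (Sylow 7 G) = k at *
    interval_cases k <;> omega
  have hN : (P : Subgroup G).Normal := by
    have := (Nat.card_eq_one_iff_unique.1 h4).1
    exact Sylow.normal_of_subsingleton P
  have hprim : IsPreprimitive G Ω := isPreprimitive_of_is_two_pretransitive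
    (is_two_pretransitive_iff.2 fun hab hcd => h2 _ _ _ _ hab hcd)
  have hPt := isPretransitive_of_normal_of_ne_bot hprim (P : Subgroup G) fun h => by
    rw [h, Subgroup.card_bot] at hP; omega
  have hcyc : IsCyclic P := isCyclic_of_prime_card hP
  have hreg := stabilizer_eq_bot_of_comm hPt hcyc.isMulCommutative α
  obtain ⟨p, hp⟩ := hPt.exists_smul_eq α β
  change (p : G) • α = β at hp
  have hp1 : p ≠ 1 := fun h => hαβ (by rw [← hp, h]; simp)
  have : Hs G α β = ⊥ := eq_bot_iff.2 fun h hh => eq_one_of_cm_of_fix hPt (fun t ht => by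
    have e : (p⁻¹ * ⟨h * p * h⁻¹, hN.conj_mem _ p.2 h⟩ : P) ∈ stabilizer P α := by
      change ((p : G)⁻¹ * (h * p * h⁻¹)) • α = α
      rw [mul_smul, mul_smul, mul_smul, inv_smul_eq_iff.2 hh.1.symm, hp, hh.2, ← hp, inv_smul_smul]
    rw [hreg, Subgroup.mem_bot, inv_mul_eq_one] at e
    have e2 : Commute h p := by
      have := congrArg Subtype.val e
      dsimp only at this
      change h * p = p * h
      conv_rhs => rw [this]
      group
    obtain ⟨k, hk⟩ := mem_zpowers_of_prime_card hP hp1 (g' := ⟨t, ht⟩)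
    have : t = (p : G) ^ k := by simpa using congrArg Subtype.val hk.symm
    rw [this]; exact e2.zpow_right k) hh.1
  rw [this, Subgroup.card_bot] at hm
  omega

open Classical in
theorem two_case [Fintype G] [Finite Ω] [FaithfulSMul G Ω] (htr : IsPretransitive G Ω)
    (h2 : Two G Ω) (hn : 7 ≤ Nat.card Ω) {α β : Ω} (hαβ : α ≠ β) (hH : Hs G α β ≠ ⊥) :
    ∃ a b : Ω, a ≠ b ∧ (Nat.card (Hs G a b) : ℚ) ≤ ∑ h with h ∈ Hs G a b, ψ Ω h := by
  have hm : ∀ a b : Ω, a ≠ b → 2 ≤ Nat.card (Hs G a b) := fun a b hab => by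
    rw [card_Hs h2 hαβ hab]
    exact (Subgroup.one_lt_card_iff_ne_bot _).2 hH
  have hn' : (7 : ℚ) ≤ Nat.card Ω := by exact_mod_cast hn
  have hfix : ∀ a b : Ω, a ≠ b → ∀ k : ℕ, k + 1 ≤ (line G a b).ncard → ∀ x ∈ Hs G a b, x ≠ 1 →
      (0 : ℚ) < Nat.card (fixedBy Ω x) ∧ Nat.card (fixedBy Ω x) * k + 1 ≤ (Nat.card Ω : ℚ) := by
    intro a b hab k hk x hx hx1
    have : Nonempty (fixedBy Ω x) := ⟨⟨a, hx.1⟩⟩
    refine ⟨by exact_mod_cast Nat.card_pos, ?_⟩
    have h1 := fix_bound h2 hab hx1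
    have h3 : Nat.card (fixedBy Ω x) * k + 1 ≤ Nat.card Ω :=
      le_trans (Nat.succ_le_succ (Nat.mul_le_mul_left _ (by omega))) h1
    exact_mod_cast h3
  by_cases hs : 4 ≤ (line G α β).ncard
  · refine ⟨α, β, hαβ, boundOne _ 2 (fun x hx hx1 => ?_) ?_⟩
    · obtain ⟨h0, h1⟩ := hfix α β hαβ 3 hs x hx hx1
      rw [ψ, le_div_iff₀ h0]
      push_cast at h1
      linarith
    · have : (2 : ℚ) ≤ Nat.card (Hs G α β) := by exact_mod_cast hm α β hαβ
      linarith
  by_cases hb : ∃ a b : Ω, a ≠ b ∧ 4 ≤ (big (Hs G a b) : Set Ω).ncard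
  · obtain ⟨a, b, hab, hb⟩ := hb
    refine ⟨a, b, hab, ?_⟩
    have h1 := orbit_count (Ω := Ω) (Hs G a b)
    have h3 := ncard_line h2 hαβ hab
    change _ ≤ _ + 3 * (line G a b).ncard at h1
    have h4 := hm a b hab
    by_cases h5 : (line G a b).ncard = 3 ∧ Nat.card Ω + 1 ≤ 2 * Nat.card (Hs G a b)
    · refine boundOne _ ((Nat.card Ω + 1) / (Nat.card Ω - 1)) (fun x hx hx1 => ?_) ?_
      · obtain ⟨h0, h1⟩ := hfix a b hab 2 h5.1.ge x hx hx1
        rw [ψ, div_le_div_iff₀ (by linarith) h0]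
        push_cast at h1
        nlinarith
      · have h6 : (Nat.card Ω + 1 : ℚ) ≤ 2 * Nat.card (Hs G a b) := by exact_mod_cast h5.2
        rw [← mul_div_assoc, le_div_iff₀ (by linarith)]
        nlinarith
    · refine boundTwo _ inf_le_left h4 ?_
      generalize Nat.card (Hs G a b) = m at *
      generalize Nat.card Ω = n at *
      generalize CompDeg.nOrb (Hs G a b) Ω = t at *
      obtain ⟨m, rfl⟩ : ∃ k, m = k + 1 := ⟨m - 1, by omega⟩
      rw [show 2 * (m + 1) - 1 = 2 * m + 1 by omega]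
      by_cases h6 : 2 * t ≤ n
      · nlinarith
      · have h7 : 2 * t = n + 1 := by omega
        have h8 : 2 * (m + 1) ≤ n := by omega
        nlinarith
  · push Not at hb
    have h0 := fun u v huv => not_three h2 hn (fun u v huv => Nat.lt_succ_iff.1 (hb u v huv))
      (α := u) (β := v) huv
    have h1 := le_antisymm (card_le_two h2 h0 hαβ) (hm α β hαβ)
    have h3 := orbit_count (Ω := Ω) (Hs G α β)
    change _ ≤ _ + 3 * (line G α β).ncard at h3
    have h4 : Nat.card Ω ≠ 7 := fun h => not_seven htr h2 h hαβ h1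
    refine ⟨α, β, hαβ, boundTwo _ inf_le_left (hm α β hαβ) ?_⟩
    rw [h1]
    omega

end

/-- Let a finite group G act faithfully and transitively on a set with n ≥ 7 points. Then either G is a Frobenius permutation group (Frobenius as a permutation group: transitive, some non-identity element fixes a point, and no non-identity element fixes two points) of order n(n − 1)/a with a ∈ {1, 2}, in which case exactly a|G|/n of its elements are derangements, or the number of derangements is at least 2|G|/n. (Equality does occur: PSL₃(2) acting on the 7 points of the Fano plane has exactly 2|G|/7 derangements.) -/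
theorem result {G Ω : Type*} [Group G] [Finite G] [MulAction G Ω] [FaithfulSMul G Ω] [Fintype Ω] (htr : MulAction.IsPretransitive G Ω) (hn : 7 ≤ Fintype.card Ω) :
    (∃ a : ℕ, (a = 1 ∨ a = 2) ∧ (MulAction.IsPretransitive G Ω ∧ (∃ g : G, g ≠ 1 ∧ ∃ ω : Ω, g • ω = ω) ∧ ∀ g : G, g ≠ 1 → Nat.card (MulAction.fixedBy Ω g) ≤ 1) ∧ a * Nat.card G = Fintype.card Ω * (Fintype.card Ω - 1) ∧ Fintype.card Ω * Nat.card {g : G // ∀ ω : Ω, g • ω ≠ ω} = a * Nat.card G) ∨
    2 * Nat.card G ≤ Fintype.card Ω * Nat.card {g : G // ∀ ω : Ω, g • ω ≠ ω} := by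
  classical
  have := Fintype.ofFinite G
  rw [← Nat.card_eq_fintype_card] at hn ⊢
  have hnt : Nontrivial Ω := Finite.one_lt_card_iff_nontrivial.1 (by omega)
  obtain ⟨α, β, hαβ⟩ := exists_pair_ne Ω
  set n := Nat.card Ω with hn'
  set D := Nat.card {g : G // ∀ ω : Ω, g • ω ≠ ω} with hD
  have hid := identity (G := G) (Ω := Ω) htr
  rw [← hn', ← hD] at hid
  have hG : (0 : ℚ) < Nat.card G := by exact_mod_cast Nat.card_pos
  have hW : 0 ≤ ∑ g : G, (Nat.card (MulAction.fixedBy Ω g) : ℚ) *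
      (Nat.card (MulAction.fixedBy Ω g) - 1) * ψ Ω g := Finset.sum_nonneg fun g _ => by
    refine mul_nonneg ?_ (ψ_nonneg g)
    rcases Nat.eq_zero_or_pos (Nat.card (MulAction.fixedBy Ω g)) with h | h
    · rw [h]; simp
    · have : (1 : ℚ) ≤ Nat.card (MulAction.fixedBy Ω g) := by exact_mod_cast h
      nlinarith
  by_cases h2 : Two G Ω
  swap
  · right
    have h3 : (3 : ℚ) ≤ CompDeg.nOrb G (Ω × Ω) := by exact_mod_cast three_le_rank h2
    have : (2 : ℚ) * Nat.card G ≤ n * D := by rw [hid]; nlinarith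
    exact_mod_cast this
  have hr : CompDeg.nOrb G (Ω × Ω) = 2 := rank_two htr h2 hαβ
  have hcard := card_eq htr h2 hαβ
  rw [hr] at hid
  by_cases hH : Hs G α β = ⊥
  · left
    have hle : ∀ g : G, g ≠ 1 → Nat.card (MulAction.fixedBy Ω g) ≤ 1 := by
      intro g hg
      by_contra hc
      have : Nontrivial (MulAction.fixedBy Ω g) := Finite.one_lt_card_iff_nontrivial.1 (by omega)
      obtain ⟨x, y, hxy⟩ := exists_pair_ne (MulAction.fixedBy Ω g)
      have h1 := card_Hs h2 hαβ (fun h => hxy (Subtype.ext h))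
      rw [hH, Subgroup.card_bot, Subgroup.card_eq_one] at h1
      have : g ∈ Hs G x.1 y.1 := ⟨x.2, y.2⟩
      rw [h1, Subgroup.mem_bot] at this
      exact hg this
    rw [hH, Subgroup.card_bot, mul_one] at hcard
    refine ⟨1, Or.inl rfl, ⟨htr, ?_, hle⟩, by rw [one_mul, hcard], ?_⟩
    · obtain ⟨γ, h1, h3⟩ : ∃ γ, γ ≠ α ∧ γ ≠ β := by
        by_contra hc
        push Not at hc
        have := Nat.card_le_card_of_surjective (fun b : Bool => if b then α else β) fun x => by
          by_cases h : x = α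
          · exact ⟨true, h.symm⟩
          · exact ⟨false, (hc x h).symm⟩
        simp only [Nat.card_eq_fintype_card (α := Bool), Fintype.card_bool] at this
        omega
      obtain ⟨g, hg1, hg2⟩ := h2 α β α γ hαβ h1.symm
      exact ⟨g, fun h => h3 (by rw [← hg2, h, one_smul]), α, hg1⟩
    · rw [sum_pairs h2 hαβ _ (ψ_conj (Ω := Ω)), Finset.sum_eq_zero (fun x hx => by
        have := (Finset.mem_filter.1 hx).2
        rw [hH, Subgroup.mem_bot] at this
        rw [this, ψ_one])] at hid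
      have : (n : ℚ) * D = 1 * Nat.card G := by rw [hid]; push_cast; ring
      exact_mod_cast this
  · right
    obtain ⟨a, b, hab, h⟩ := two_case htr h2 hn hαβ hH
    rw [sum_pairs h2 hab _ (ψ_conj (Ω := Ω))] at hid
    rw [← card_Hs h2 hαβ hab] at hcard
    have h1 : (Nat.card G : ℚ) = n * (n - 1) * Nat.card (Hs G a b) := by
      rw [hcard, Nat.cast_mul, Nat.cast_mul, Nat.cast_sub (by omega)]; rfl
    have h7 : (7 : ℚ) ≤ n := by exact_mod_cast hn
    have h3 := mul_le_mul_of_nonneg_left h (show (0 : ℚ) ≤ n * (n - 1) by nlinarith)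
    have : (2 : ℚ) * Nat.card G ≤ n * D := by rw [hid, ← hn']; push_cast; linarith
    exact_mod_cast this


end Cfsg.Agent.S5730
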