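import Cfsg.Statements.S5737
import Mathlib
import Cfsg.Agent.Chev.SzBinary
import Cfsg.Agent.Chev.SzLie

set_option autoImplicit false
open Cfsg

namespace Cfsg.Agent.S5737

open MulAction Chev Chev.Suz in

/-- Let G = Sz(q) be a Suzuki group, q = 2^(2a+1) with a ≥ 1 (realised inside Sp₄ over the field with q elements), and let H be a proper subgroup of G. Then the action of G on the cosets of H is binary if and only if H is trivial or H is the centre of a Sylow 2-subgroup of G. Here an action is binary (relational complexity 2) when, for every n ≥ 2 and all n-tuples I, J of points, if for every pair of positions some group element carries the corresponding pair of entries of I to those of J, then a single group element carries I to J. -/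
theorem result {F : Type*} [Field F] [Fintype F] (a : ℕ) (ha : 1 ≤ a) (hF : Fintype.card F = 2 ^ (2 * a + 1))
    (H : Subgroup (Cfsg.Lie.Sz F (2 ^ (a + 1)))) (hH : H ≠ ⊤) :
    (∀ (n : ℕ) (I J : Fin n → (Cfsg.Lie.Sz F (2 ^ (a + 1))) ⧸ H), 2 ≤ n →
        (∀ i j : Fin n, i ≠ j → ∃ g : (Cfsg.Lie.Sz F (2 ^ (a + 1))), g • I i = J i ∧ g • I j = J j) → ∃ g : (Cfsg.Lie.Sz F (2 ^ (a + 1))), ∀ i, g • I i = J i) ↔
      (H = ⊥ ∨ ∃ P : Sylow 2 (Cfsg.Lie.Sz F (2 ^ (a + 1))), H = (Subgroup.center (P : Subgroup (Cfsg.Lie.Sz F (2 ^ (a + 1))))).map (P : Subgroup (Cfsg.Lie.Sz F (2 ^ (a + 1)))).subtype) := by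
  have hF' := SzField.of_fintype ha hF
  have : Fact (Nat.Prime 2) := ⟨Nat.prime_two⟩
  let e := lieEquiv F
  let _ : MulAction (Sz F a) (Cfsg.Lie.Sz F (2 ^ (a + 1)) ⧸ H) := MulAction.compHom _ e.toMonoidHom
  have : IsPretransitive (Sz F a) (Cfsg.Lie.Sz F (2 ^ (a + 1)) ⧸ H) :=
    ⟨fun x y => e.surjective.exists.1 (exists_smul_eq _ x y)⟩
  have hs : stabilizer (Sz F a) ((1 : Cfsg.Lie.Sz F (2 ^ (a + 1))) : _ ⧸ H) = H.comap e.toMonoidHom := by
    ext g
    exact SetLike.ext_iff.1 (stabilizer_quotient H) (e g)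
  have hinj := Subgroup.comap_injective (f := e.toMonoidHom) e.surjective
  have key := isBin_iff (F := F) (Ω := Cfsg.Lie.Sz F (2 ^ (a + 1)) ⧸ H) (ω := ((1 : Cfsg.Lie.Sz F (2 ^ (a + 1))) : _ ⧸ H))
    (by rw [hs]; exact fun h => hH (hinj h))
  have hZ : ∀ (P : Sylow 2 (Cfsg.Lie.Sz F (2 ^ (a + 1)))) p, P.toSubgroup.comap e.toMonoidHom = Qp p →
      ((Subgroup.center P.toSubgroup).map P.toSubgroup.subtype).comap e.toMonoidHom = Zp p := by
    intro P p hP
    have h1 : ∀ g, e g ∈ P ↔ g ∈ Qp p := fun g => SetLike.ext_iff.1 hP g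
    have h2 := center_Qp p
    ext g
    constructor
    · rintro ⟨⟨x, hx⟩, hc, h⟩
      obtain rfl : x = e g := h
      refine (SetLike.ext_iff.1 h2 ⟨g, (h1 g).1 hx⟩).1 (Subgroup.mem_center_iff.2 fun y => ?_)
      refine Subtype.ext (e.injective ?_)
      simpa using congrArg Subtype.val (Subgroup.mem_center_iff.1 hc ⟨_, (h1 y).2 y.2⟩)
    · intro hg
      refine ⟨⟨_, (h1 g).2 (Zp_le_Qp p hg)⟩, Subgroup.mem_center_iff.2 ?_, rfl⟩
      rintro ⟨y, hy⟩
      obtain ⟨y, rfl⟩ := e.surjective y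
      have := Subgroup.mem_center_iff.1 ((SetLike.ext_iff.1 h2 ⟨g, Zp_le_Qp p hg⟩).2 hg) ⟨y, (h1 y).1 hy⟩
      exact Subtype.ext (by simpa using congrArg (fun x => e x.1) this)
  rw [hs] at key
  refine Iff.trans ?_ (key.trans (or_congr ?_ ?_))
  · simp only [IsBin, e.surjective.exists]
    rfl
  · rw [← hinj.eq_iff, (MonoidHom.comap_bot _).trans ((MonoidHom.ker_eq_bot_iff _).2 e.injective)]
  · constructor
    · rintro ⟨p, hp⟩
      refine ⟨(sylowAt p).mapSurjective (f := e.toMonoidHom) e.surjective, hinj (hp.trans (hZ _ p ?_).symm)⟩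
      exact Subgroup.comap_map_eq_self_of_injective e.injective _
    · rintro ⟨P, rfl⟩
      obtain ⟨p, hp⟩ := exists_sylow_eq (P.comapOfInjective e.toMonoidHom e.injective
        (by rw [MonoidHom.range_eq_top.2 e.surjective]; exact le_top))
      exact ⟨p, hZ P p hp⟩

end Cfsg.Agent.S5737
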