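import Cfsg.Statements.S5739
import Cfsg.Agent.Class.Singer

set_option autoImplicit false
open Cfsg

namespace Cfsg.Agent.S5739

/-- Let F ⊆ K be finite fields with |F| = q and [K : F] = n ≥ 2, and let M ≤ GL_F(K) be the Singer group of multiplications by non-zero elements of K. If g ∈ GL_F(K) does not normalise M, then the order of M ∩ gMg⁻¹ divides q^r − 1 for some proper divisor r of n. In particular, when n is prime, that order divides q − 1. -/
theorem result {F K : Type*} [Field F] [Fintype F] [Field K] [Fintype K] [Algebra F K] (n : ℕ) (hn : 2 ≤ n) (hdim : Module.finrank F K = n)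
    (g : (Module.End F K)ˣ) (hg : ((Units.map ((Algebra.lmul F K : K →ₐ[F] Module.End F K) : K →* Module.End F K)).range).map (MulAut.conj g).toMonoidHom ≠ (Units.map ((Algebra.lmul F K : K →ₐ[F] Module.End F K) : K →* Module.End F K)).range) :
    ∃ r : ℕ, 1 ≤ r ∧ r ∣ n ∧ r < n ∧ Nat.card ↥(((Units.map ((Algebra.lmul F K : K →ₐ[F] Module.End F K) : K →* Module.End F K)).range).map (MulAut.conj g).toMonoidHom ⊓ (Units.map ((Algebra.lmul F K : K →ₐ[F] Module.End F K) : K →* Module.End F K)).range) ∣ Fintype.card F ^ r - 1 := by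
  obtain ⟨r, h1, h2⟩ := Class.Singer.exists_card_inf (F := F) (K := K) g
  rw [hdim] at h1
  have : Finite (Module.End F K) := Finite.of_injective _ DFunLike.coe_injective
  refine ⟨r, Nat.pos_of_dvd_of_pos h1 (by omega), h1,
    lt_of_le_of_ne (Nat.le_of_dvd (by omega) h1) fun e => hg ?_,
    by rw [← Nat.card_eq_fintype_card, ← h2]⟩
  rw [e, ← hdim, ← Module.natCard_eq_pow_finrank, ← Class.Singer.card_grp (F := F)] at h2
  have h3 := Subgroup.eq_of_le_of_card_ge inf_le_right h2.ge
  exact (Subgroup.eq_of_le_of_card_ge (inf_eq_right.1 h3)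
    (Subgroup.card_map_of_injective (MulAut.conj g).injective).le).symm

end Cfsg.Agent.S5739
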