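import Cfsg.Statements.S5746
import Cfsg.Agent.Spor.ModelG24b
import Cfsg.Agent.Chev.Aut
import Cfsg.Agent.Chev.GoodG2
-- import your own Cfsg.Agent.* helpers here

set_option autoImplicit false
open Cfsg

namespace Cfsg.Agent.S5746

/-- The Chevalley group G₂(4) (over the field with 4 elements) has a maximal subgroup H isomorphic to the Hall–Janko group J₂ such that for every x outside H the intersection H ∩ xHx⁻¹ is a maximal subgroup of H; that is, the action of G₂(4) on the cosets of H is extremely primitive. -/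
theorem result {F : Type*} [Field F] [Fintype F] (hF : Fintype.card F = 4) :
    ∃ H : Subgroup (Cfsg.Lie.chevG2.group F), IsCoatom H ∧ Cfsg.Spor.IsoJ2 H ∧
      ∀ x : Cfsg.Lie.chevG2.group F, x ∉ H → IsCoatom ((H ⊓ H.map (MulAut.conj x).toMonoidHom).subgroupOf H) := by
  open Cfsg.Agent.Comp Cfsg.Agent.Spor.ModelG24b in
  obtain ⟨e⟩ : Nonempty (Cfsg.Lie.chevG2.group F ≃* gen ns G_ss0) :=
    ⟨(Cfsg.Agent.Chev.fieldEquiv Cfsg.Lie.chevG2 (FiniteField.ringEquivOfCardEq
      (hF.trans Cfsg.Agent.Class.card_GF4.symm))).trans equiv⟩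
  obtain ⟨eJ⟩ := exists_equivJ
  have h0 := st0
  have h1 := coatom0
  have h2 := @coatom_pt
  have h3 := G_supp
  generalize gen ns G_ss0 = G at e h0 h1 h3
  generalize cgrp ns G_C1 = K at eJ h0 h1 h2
  let H : Subgroup (Cfsg.Lie.chevG2.group F) := (K.subgroupOf G).map e.symm.toMonoidHom
  have hH : ∀ y, y ∈ H ↔ (e y : Equiv.Perm ℕ) 0 = 0 := fun y => by
    rw [Subgroup.mem_map_equiv]
    exact ⟨h0.fix _, h0.stab _ (e y).2⟩
  let f : H ≃* K := (e.symm.subgroupMap _).symm.trans (Subgroup.subgroupOfEquivOfLe h0.le)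
  have hf : ∀ y : H, (f y : Equiv.Perm ℕ) = e y := fun y => rfl
  refine ⟨H, (OrderIso.isCoatom_iff e.symm.mapSubgroup _).2 h1, ⟨f.trans eJ⟩, fun x hx => ?_⟩
  have h4 := (OrderIso.isCoatom_iff f.symm.mapSubgroup _).2
    (h2 (Supp.lt (h3 (e x).2) (show 0 < 416 by norm_num)) fun h => hx ((hH x).2 h))
  convert h4 using 1
  ext y
  change _ ↔ y ∈ Subgroup.map f.symm.toMonoidHom _
  rw [Subgroup.mem_map_equiv, Subgroup.mem_subgroupOf, Subgroup.mem_inf, and_iff_right y.2,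
    Subgroup.mem_map_equiv, hH, MulAction.mem_stabilizer_iff]
  change (e (x⁻¹ * y * x⁻¹⁻¹) : Equiv.Perm ℕ) 0 = 0 ↔ (f y : Equiv.Perm ℕ) _ = _
  rw [hf, inv_inv, map_mul, map_mul, map_inv]
  simp [Equiv.symm_apply_eq]

end Cfsg.Agent.S5746
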