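import Cfsg.Statements.S5747


set_option autoImplicit false
open Cfsg

namespace Cfsg.Agent.S5747

section
variable {G Ω : Type*} [Group G] [MulAction G Ω]

def Base (G : Type*) [Group G] [MulAction G Ω] (S : Set Ω) : Prop :=
  ∀ g : G, (∀ y ∈ S, g • y = y) → g = 1

def Out (G : Type*) [Group G] [MulAction G Ω] (S : Set Ω) (x : Ω) : Prop :=
  ∃ g : G, (∀ y ∈ S, g • y = y) ∧ g • x ≠ x

def Indep (G : Type*) [Group G] [MulAction G Ω] (S : Set Ω) : Prop := ∀ x ∈ S, Out G (S \ {x}) x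

def Irr (G : Type*) [Group G] [MulAction G Ω] {t : ℕ} (f : Fin t → Ω) : Prop :=
  ∀ i : Fin t, ∃ g : G, (∀ j : Fin t, j < i → g • f j = f j) ∧ g • f i ≠ f i

theorem base_range {t : ℕ} {f : Fin t → Ω} :
    Base G (Set.range f) ↔ ∀ g : G, (∀ i : Fin t, g • f i = f i) → g = 1 := by
  simp [Base]

theorem Irr.injective {t : ℕ} {f : Fin t → Ω} (h : Irr G f) : Function.Injective f := by
  intro i j e
  rcases lt_trichotomy i j with hij | hij | hij
  · obtain ⟨g, h1, h2⟩ := h j
    exact absurd (e ▸ h1 i hij) h2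
  · exact hij
  · obtain ⟨g, h1, h2⟩ := h i
    exact absurd (e ▸ h1 j hij) h2

theorem Indep.exists_irr [Finite Ω] {S : Set Ω} (h : Indep G S) :
    ∃ f : Fin S.ncard → Ω, Irr G f ∧ Set.range f = S := by
  obtain ⟨e⟩ : Nonempty (Fin S.ncard ≃ S) := ⟨(Finite.equivFin S).symm⟩
  refine ⟨fun i => e i, fun i => ?_, by ext x; simp [e.exists_congr_left]⟩
  obtain ⟨g, h1, h2⟩ := h _ (e i).2
  exact ⟨g, fun j hj => h1 _ ⟨(e j).2, fun e' => hj.ne (e.injective (Subtype.ext e'))⟩, h2⟩

theorem Irr.snoc {t : ℕ} {f : Fin t → Ω} (h : Irr G f) {x : Ω} (hx : Out G (Set.range f) x) :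
    Irr G (Fin.snoc f x : Fin (t + 1) → Ω) := by
  intro i
  refine Fin.lastCases ?_ (fun i => ?_) i
  · obtain ⟨g, h1, h2⟩ := hx
    refine ⟨g, fun j hj => ?_, by simpa using h2⟩
    obtain ⟨j, rfl⟩ := Fin.exists_castSucc_eq.2 hj.ne
    simpa using h1 _ ⟨j, rfl⟩
  · obtain ⟨g, h1, h2⟩ := h i
    refine ⟨g, fun j hj => ?_, by simpa using h2⟩
    obtain ⟨j, rfl⟩ := Fin.exists_castSucc_eq.2 (Fin.ne_last_of_lt hj)
    simpa using h1 j (Fin.castSucc_lt_castSucc_iff.1 hj)

theorem exists_indep_base [Finite Ω] {S : Set Ω} (h : Base G S) :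
    ∃ T ⊆ S, Base G T ∧ Indep G T := by
  obtain ⟨T, hT, h1⟩ := exists_minimal_le_of_wellFoundedLT (Base G) S h
  refine ⟨T, hT, h1.1, fun x hx => ?_⟩
  by_contra hn
  refine (h1.2 (y := T \ {x}) (fun g hg => h1.1 g fun y hy => ?_) Set.diff_subset hx).2 rfl
  by_cases e : y = x
  · by_contra hne
    exact hn ⟨g, hg, e ▸ hne⟩
  · exact hg y ⟨hy, e⟩

end

/-- Let a finite group G act on a finite set Ω. An irredundant base is a sequence of points ω₁, …, ω_t whose pointwise stabiliser is trivial and in which each ω_i is moved by some element fixing ω₁, …, ω_{i−1}. Then all irredundant bases have the same length if and only if every reordering of an irredundant base is again an irredundant base. -/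
theorem result {G Ω : Type*} [Group G] [Finite G] [MulAction G Ω] [Fintype Ω] :
    (∀ (t t' : ℕ) (f : Fin t → Ω) (f' : Fin t' → Ω), ((∀ g : G, (∀ i : Fin t, g • f i = f i) → g = 1) ∧ ∀ i : Fin t, ∃ g : G, (∀ j : Fin t, j < i → g • f j = f j) ∧ g • f i ≠ f i) → ((∀ g : G, (∀ i : Fin t', g • f' i = f' i) → g = 1) ∧ ∀ i : Fin t', ∃ g : G, (∀ j : Fin t', j < i → g • f' j = f' j) ∧ g • f' i ≠ f' i) → t = t') ↔
    (∀ (t : ℕ) (f : Fin t → Ω) (σ : Equiv.Perm (Fin t)), ((∀ g : G, (∀ i : Fin t, g • f i = f i) → g = 1) ∧ ∀ i : Fin t, ∃ g : G, (∀ j : Fin t, j < i → g • f j = f j) ∧ g • f i ≠ f i) → ((∀ g : G, (∀ i : Fin t, g • (f ∘ σ) i = (f ∘ σ) i) → g = 1) ∧ ∀ i : Fin t, ∃ g : G, (∀ j : Fin t, j < i → g • (f ∘ σ) j = (f ∘ σ) j) ∧ g • (f ∘ σ) i ≠ (f ∘ σ) i)) := by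
  change (∀ (t t' : ℕ) (f : Fin t → Ω) (f' : Fin t' → Ω), _ ∧ Irr G f → _ ∧ Irr G f' → t = t') ↔
    ∀ (t : ℕ) (f : Fin t → Ω) (σ : Equiv.Perm (Fin t)), _ ∧ Irr G f → _ ∧ Irr G (f ∘ σ)
  simp only [← base_range]
  constructor
  · rintro h t f σ ⟨h1, h2⟩
    have hr : Set.range (f ∘ σ) = Set.range f := σ.surjective.range_comp f
    refine ⟨hr ▸ h1, fun i => ?_⟩
    by_contra hn
    push Not at hn
    obtain ⟨T, hT, h3, h4⟩ := exists_indep_base (G := G) (S := Set.range f \ {f (σ i)}) fun g hg => by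
      have h5 : ∀ j, j ≠ i → g • f (σ j) = f (σ j) := fun j hj =>
        hg _ ⟨⟨_, rfl⟩, fun e => hj (σ.injective (h2.injective e))⟩
      refine h1 g ?_
      rintro _ ⟨j, rfl⟩
      obtain ⟨j, rfl⟩ := σ.surjective j
      by_cases hj : j = i
      · exact hj ▸ hn g fun k hk => h5 k hk.ne
      · exact h5 j hj
    obtain ⟨f', h5, h6⟩ := h4.exists_irr
    have h7 := h _ _ f f' ⟨h1, h2⟩ ⟨h6.symm ▸ h3, h5⟩
    have h8 := (Set.ncard_le_ncard hT).trans_lt (Set.ncard_diff_singleton_lt_of_mem ⟨_, rfl⟩)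
    rw [Set.ncard_range_of_injective h2.injective, Nat.card_eq_fintype_card, Fintype.card_fin] at h8
    exact h8.ne' h7
  · intro h
    have hind : ∀ {t : ℕ} (f : Fin t → Ω), Base G (Set.range f) → Irr G f →
        Indep G (Set.range f) := by
      rintro t f h1 h2 _ ⟨i, rfl⟩
      obtain ⟨t, rfl⟩ := Nat.exists_eq_add_one_of_ne_zero i.pos.ne'
      obtain ⟨g, h3, h4⟩ := (h _ f (Equiv.swap i (Fin.last t)) ⟨h1, h2⟩).2 (Fin.last t)
      refine ⟨g, ?_, by simpa using h4⟩
      rintro _ ⟨⟨j, rfl⟩, hj⟩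
      have := h3 (Equiv.swap i (Fin.last t) j) (Fin.lt_last_iff_ne_last.2 fun e => hj (by
        rw [Equiv.swap_apply_eq_iff, Equiv.swap_apply_right] at e
        rw [e]
        rfl))
      simpa using this
    have key : ∀ (B : Set Ω), Base G B → ∀ (n : ℕ) (B' : Set Ω), (B' \ B).ncard = n → Base G B' →
        Indep G B' → B'.ncard ≤ B.ncard := fun B hB n => by
      induction n with
      | zero =>
        intro B' h0 _ _
        rw [Set.ncard_eq_zero, Set.diff_eq_empty] at h0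
        exact Set.ncard_le_ncard h0
      | succ n ih =>
        intro B' h0 h1 h2
        obtain ⟨y, hy, hyB⟩ : (B' \ B).Nonempty := (Set.ncard_pos).1 (by omega)
        obtain ⟨g, hg, hgy⟩ := h2 y hy
        obtain ⟨x, hx, hgx⟩ : ∃ x ∈ B, g • x ≠ x := by
          by_contra hn
          push Not at hn
          exact hgy (by rw [hB g hn, one_smul])
        have hxT : x ∉ B' \ {y} := fun hx => hgx (hg x hx)
        obtain ⟨e, he, hr⟩ := Indep.exists_irr (G := G) (S := B' \ {y}) fun z hz => by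
          obtain ⟨g, h3, h4⟩ := h2 z hz.1
          exact ⟨g, fun w hw => h3 w ⟨hw.1.1, hw.2⟩, h4⟩
        have h3 := he.snoc (x := x) ⟨g, hr.symm ▸ hg, hgx⟩
        have hr' : Set.range (Fin.snoc e x : Fin (_ + 1) → Ω) = insert x (B' \ {y}) := by
          rw [Fin.range_snoc, hr]
        have h4 : Base G (insert x (B' \ {y})) := fun k hk => by
          by_contra hk1
          have hky : k • y ≠ y := fun hky => hk1 (h1 k fun z hz => by
            by_cases e : z = y
            · exact e ▸ hky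
            · exact hk z (Or.inr ⟨hz, e⟩))
          have h5 := h3.snoc (x := y) ⟨k, hr'.symm ▸ hk, hky⟩
          have h6 := hind _ (fun l hl => h1 l fun z hz => hl z ?_) h5
          · rw [Fin.range_snoc, hr'] at h6
            obtain ⟨l, h7, h8⟩ := h6 x (Or.inr (Or.inl rfl))
            refine h8 ?_
            rw [h1 l fun z hz => h7 z ⟨?_, ?_⟩, one_smul]
            · by_cases e : z = y
              · exact Or.inl e
              · exact Or.inr (Or.inr ⟨hz, e⟩)
            · rintro rfl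
              exact hxT ⟨hz, fun e => hyB (e ▸ hx)⟩
          · rw [Fin.range_snoc, hr']
            by_cases e : z = y
            · exact Or.inl e
            · exact Or.inr (Or.inr ⟨hz, e⟩)
        have h5 := ih (insert x (B' \ {y})) (by
          rw [Set.insert_diff_of_mem _ hx, Set.diff_diff_comm, Set.ncard_diff_singleton_of_mem
            (show y ∈ B' \ B from ⟨hy, hyB⟩), h0]
          rfl) h4 (hr' ▸ hind _ (hr'.symm ▸ h4) h3)
        rwa [Set.ncard_insert_of_notMem hxT, Set.ncard_diff_singleton_add_one hy] at h5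
    rintro t t' f f' ⟨h1, h2⟩ ⟨h3, h4⟩
    have h5 := le_antisymm (key _ h3 _ _ rfl h1 (hind f h1 h2)) (key _ h1 _ _ rfl h3 (hind f' h3 h4))
    rwa [Set.ncard_range_of_injective h2.injective, Set.ncard_range_of_injective h4.injective,
      Nat.card_eq_fintype_card, Nat.card_eq_fintype_card, Fintype.card_fin, Fintype.card_fin] at h5

end Cfsg.Agent.S5747
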