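import Cfsg.Statements.S5751
import Cfsg.Agent.St.Chev
import Cfsg.Agent.Chev.StCent
import Cfsg.Agent.Chev.Types
-- import your own Cfsg.Agent.* helpers here

set_option autoImplicit false
open Cfsg

namespace Cfsg.Agent.S5751

open Cfsg.Lie Cfsg.Agent.Chev Cfsg.Agent.St

section Core

variable {G : Type*} [Group G]

/-- The core of `Y` in `M`. -/
def core (M Y : Subgroup G) : Subgroup G := (Y.subgroupOf M).normalCore.map M.subtype

theorem mem_core {M Y : Subgroup G} {a : G} :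
    a ∈ core M Y ↔ a ∈ M ∧ ∀ b ∈ M, b * a * b⁻¹ ∈ Y := by
  constructor
  · rintro ⟨a, ha, rfl⟩
    exact ⟨a.2, fun b hb => ha ⟨b, hb⟩⟩
  · rintro ⟨h1, h2⟩
    exact ⟨⟨a, h1⟩, fun b => h2 b b.2, rfl⟩

theorem core_le {M Y : Subgroup G} : core M Y ≤ Y := fun a ha => by
  simpa using (mem_core.1 ha).2 1 M.one_mem

theorem conj_mem_core {M Y : Subgroup G} {a b : G} (ha : a ∈ core M Y) (hb : b ∈ M) :
    b * a * b⁻¹ ∈ core M Y := by
  rw [mem_core] at ha ⊢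
  refine ⟨M.mul_mem (M.mul_mem hb ha.1) (M.inv_mem hb), fun c hc => ?_⟩
  have := ha.2 (c * b) (M.mul_mem hc hb)
  rwa [mul_inv_rev, ← mul_assoc, mul_assoc c, mul_assoc c] at this

/-- The two sequences of iterated cores. -/
def seq (M₁ M₂ : Subgroup G) : ℕ → Subgroup G × Subgroup G
  | 0 => (M₁, M₂)
  | i + 1 => (core M₁ ((seq M₁ M₂ i).1 ⊓ (seq M₁ M₂ i).2),
      core M₂ ((seq M₁ M₂ i).1 ⊓ (seq M₁ M₂ i).2))

theorem mem_map_conj {K : Subgroup G} {g a : G} :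
    a ∈ K.map (MulAut.conj g).toMonoidHom ↔ g⁻¹ * a * g ∈ K := by
  constructor
  · rintro ⟨b, hb, rfl⟩
    simpa [mul_assoc] using hb
  · intro h
    exact ⟨_, h, by simp [mul_assoc]⟩

theorem mem_of_conj_gen {ι W : Type*} [Group W] (T : Tits G ι W) {i j : ι} {k m : G}
    (hk : T.wt k = T.s i) (hm : T.wt m = T.s j) (hne : T.s j * T.s i ≠ T.s i * T.s j) {I : Set ι}
    (h : m * k * m⁻¹ ∈ T.par I) : j ∈ I := by
  have hji : j ≠ i := fun e => hne (by rw [e])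
  have h1 : ¬ LD T.s (T.s i) j := fun e =>
    hji (T.cox.mem_of_LD (gen_mem_WJ (Set.mem_singleton i)) e)
  have h2 : ¬ RD T.s (T.s i) j := fun e =>
    hji (T.cox.mem_of_RD (gen_mem_WJ (Set.mem_singleton i)) e)
  have e1 : T.wt (m * k) = T.s j * T.s i := by rw [T.gen_mul_up hm (hk ▸ h1), hk]
  have hm' : T.wt m⁻¹ = T.s j := by rw [T.wt_inv, hm, T.cox.inv.inv_eq]
  rw [T.mem_par] at h
  rcases T.mul_gen hm' (m * k) with e | e
  · rw [e, e1, mul_assoc] at h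
    exact T.cox.mem_of_LD h (T.cox.LD_gen_mul.2 fun e => hne (T.cox.gen_mul_eq_of_up h1 h2 e))
  · rw [e, e1] at h
    exact T.cox.mem_of_LD h (T.cox.LD_gen_mul.2 h1)

end Core

variable {F : Type*} [Field F] {G : Type*} [Group G] {D : ChevalleyDatum} {x : ℕ → F → G}
  (T : RootTable D) (i₀ : Fin D.rank)

theorem simple_ne_comm {i j : Fin D.rank} (hij : i ≠ j) (h : cm D i j ≠ 0) :
    T.cs.simple j * T.cs.simple i ≠ T.cs.simple i * T.cs.simple j := by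
  intro e
  have h1 := congrArg (fun w => T.vec (T.act w (D.simple j)) i) e
  have si := T.simple_lt i
  have sj := T.simple_lt j
  simp only [T.act_mul] at h1
  rw [T.act_simple i sj, T.act_simple j (T.refl_lt i _ sj), T.act_simple j sj, RootTable.refl_simple,
    T.act_simple i (T.neg_lt sj), T.refl_neg i sj, T.vec_neg _ (T.refl_lt i _ sj),
    T.vec_refl' j _ (T.refl_lt i _ sj), T.vec_refl' i _ sj, T.vec_simple] at h1
  simp only [sroot, Pi.sub_apply, Pi.smul_apply, Pi.neg_apply, Pi.single_eq_same,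
    Pi.single_eq_of_ne hij, smul_eq_mul, mul_zero, mul_one] at h1
  unfold cm at h
  omega

/-- The roots of level at least `k`. -/
def lv (k : ℤ) : Set ℕ := {r | r < 2 * T.N ∧ k ≤ T.vec r i₀}

variable {T i₀}

theorem pos_of_lv {k : ℤ} (hk : 1 ≤ k) {r : ℕ} (hr : r ∈ lv T i₀ k) : T.N ≤ r ∧ r < 2 * T.N :=
  ⟨T.pos_of_coord (j := i₀) (by have := hr.2; omega), hr.1⟩

theorem closed_lv {k : ℤ} (hk : 1 ≤ k) : T.Closed (lv T i₀ k) := by
  intro r hr s hs u hu i j hi hj e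
  refine ⟨hu, ?_⟩
  have h1 := hr.2
  have h2 := hs.2
  rw [e, Pi.add_apply, Pi.smul_apply, Pi.smul_apply, nsmul_eq_mul, nsmul_eq_mul]
  have : (1 : ℤ) ≤ i := by exact_mod_cast hi
  have : (1 : ℤ) ≤ j := by exact_mod_cast hj
  nlinarith

theorem nil_lv {k : ℤ} (hk : 1 ≤ k) : T.Nil (lv T i₀ k) :=
  T.nil_pos.mono (fun r hr => (T.pos_iff r).2 (pos_of_lv hk hr)) (closed_lv hk)

theorem inRootSub_iff' {r : ℕ} :
    D.InRootSub {j | j ≠ (i₀ : ℕ)} r ↔ r < 2 * T.N ∧ T.vec r i₀ = 0 := by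
  rw [T.inRootSub_iff]
  refine and_congr_right fun _ => ⟨fun h => h i₀ (by simp), fun h i hi => ?_⟩
  have : i = i₀ := Fin.ext (by simpa using hi)
  rwa [this]

omit [Field F] in
theorem UJ_eq : UJ D x {j | j ≠ (i₀ : ℕ)} = XS x (lv T i₀ 1) := by
  unfold UJ
  congr 1
  ext r
  simp only [Set.mem_ofPred_eq, inRootSub_iff' (T := T), T.pos_iff, lv]
  constructor
  · rintro ⟨⟨h1, h2⟩, h3⟩
    have := T.vec_nonneg r h1 h2 i₀
    simp only [Pi.zero_apply] at this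
    exact ⟨h2, by by_contra h; exact h3 ⟨h2, by omega⟩⟩
  · rintro ⟨h1, h2⟩
    exact ⟨⟨T.pos_of_coord (j := i₀) (by omega), h1⟩, fun h => by omega⟩

theorem Ps_norm (h : IsSt D x) {k : ℤ} (hk : 1 ≤ k) {g : G}
    (hg : g ∈ Ps D x {j | j ≠ (i₀ : ℕ)}) {a : G} (ha : a ∈ XS x (lv T i₀ k)) :
    g * a * g⁻¹ ∈ XS x (lv T i₀ k) := by
  refine conj_mem_of_mem_normalizer ((?_ : Ps D x {j | j ≠ (i₀ : ℕ)} ≤ _) hg) ha
  have hv : ∀ r ∈ {r | D.IsPosRoot r ∨ D.InRootSub {j | j ≠ (i₀ : ℕ)} r},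
      r < 2 * T.N ∧ 0 ≤ T.vec r i₀ := by
    rintro r (hr | hr)
    · have := (T.pos_iff r).1 hr
      exact ⟨this.2, T.vec_nonneg r this.1 this.2 i₀⟩
    · have := (inRootSub_iff' (T := T)).1 hr
      exact ⟨this.1, this.2.ge⟩
  rw [h.Ps_eq T]
  refine sup_le (h.Hs_le_normalizer_XS T fun s hs => hs.1)
    (h.toIsSt0.XS_le_normalizer T (fun r hr => (hv r hr).1) (fun s hs => hs.1)
      (fun r hr s hs e => ?_) fun r hr s hs u hu i j hi hj e => ⟨hu, ?_⟩)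
  · have h1 := hv r hr
    have h2 := hs.2
    rw [e, T.vec_neg r h1.1, Pi.neg_apply] at h2
    omega
  · have h1 := (hv r hr).2
    have h2 := hs.2
    rw [e, Pi.add_apply, Pi.smul_apply, Pi.smul_apply, nsmul_eq_mul, nsmul_eq_mul]
    have : (1 : ℤ) ≤ i := by exact_mod_cast hi
    have : (1 : ℤ) ≤ j := by exact_mod_cast hj
    nlinarith

theorem conj_lv (hc : ∀ r < 2 * T.N, r ≠ D.simple i₀ → D.cartan i₀ r ≤ 1) {m : G}
    (hm : Acts x T m (T.cs.simple i₀)) {k : ℤ} (hk : 1 ≤ k) {a : G}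
    (ha : a ∈ XS x (lv T i₀ (k + 1))) : m * a * m⁻¹ ∈ XS x (lv T i₀ k) := by
  refine hm.conj_mem_XS (fun s hs => hs.1) (fun s hs => ?_) ha
  rw [T.act_simple i₀ hs.1]
  refine ⟨T.refl_lt i₀ s hs.1, ?_⟩
  have h2 := hs.2
  have h3 := hc s hs.1 (by
    rintro rfl
    rw [T.vec_simple] at h2
    simp only [sroot, Pi.single_eq_same] at h2
    omega)
  rw [T.vec_refl' i₀ s hs.1]
  simp only [sroot, Pi.sub_apply, Pi.smul_apply, Pi.single_eq_same, smul_eq_mul, mul_one]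
  omega

theorem exists_descend (h : IsSt D x) (β : ℕ) (hβ : β ∈ lv T i₀ 1) :
    ∃ g ∈ Ps D x {j | j ≠ (i₀ : ℕ)}, ∃ w, Acts x T g w ∧ T.act w β < 2 * T.N ∧
      T.vec (T.act w β) i₀ = T.vec β i₀ ∧ 0 < D.cartan i₀ (T.act w β) ∧
      ∀ j : Fin D.rank, j ≠ i₀ → D.cartan j (T.act w β) ≤ 0 := by
  induction β using Nat.strong_induction_on with
  | _ β ih =>
  obtain ⟨b1, b2⟩ := pos_of_lv le_rfl hβ
  by_cases hex : ∀ j : Fin D.rank, j ≠ i₀ → D.cartan j β ≤ 0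
  · obtain ⟨j, hj, -⟩ := T.exists_descent b1 b2
    have e : j = i₀ := by
      by_contra e
      exact absurd (hex j e) (not_le.2 hj)
    exact ⟨1, Subgroup.one_mem _, 1, Acts.one, by rwa [T.act_one], by rw [T.act_one],
      by rwa [T.act_one, ← e], by rwa [T.act_one]⟩
  · push Not at hex
    obtain ⟨j, e, hj⟩ := hex
    have hv : T.vec (D.reflectRoot j β) i₀ = T.vec β i₀ := by
      rw [T.vec_refl' j β b2]
      simp [sroot, Pi.single_eq_of_ne (Ne.symm e)]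
    obtain ⟨g, hg, w, hw, h1, h2, h3⟩ := ih _ (T.refl_lt_self b2 hj)
      ⟨T.refl_lt j β b2, hv ▸ hβ.2⟩
    refine ⟨_, Subgroup.mul_mem _ hg (nn_mem_Ps (i := j) fun e' => e (Fin.ext e')), _,
      hw.mul (h.acts_nn_simple T j), ?_⟩
    rw [T.act_mul, T.act_simple j b2]
    exact ⟨h1, h2.trans hv, h3⟩

theorem le_lv_succ (hn : IsND x T) (h : IsSt D x) {m : G} (hm : Acts x T m (T.cs.simple i₀))
    {k : ℤ} (hk : 1 ≤ k) {S : Set ℕ} (hS : ∀ r ∈ S, T.N ≤ r ∧ r < 2 * T.N) (hS' : T.Closed S)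
    (hS'' : ∀ s < 2 * T.N, T.vec s i₀ = k → 0 < D.cartan i₀ s →
      (∀ j : Fin D.rank, j ≠ i₀ → D.cartan j s ≤ 0) → D.reflectRoot i₀ s ∉ S)
    {a : G} (ha : a ∈ XS x (lv T i₀ k))
    (hK : ∀ g ∈ Ps D x {j | j ≠ (i₀ : ℕ)}, m * (g * a * g⁻¹) * m⁻¹ ∈ XS x S) :
    a ∈ XS x (lv T i₀ (k + 1)) := by
  obtain ⟨L, hL, hLS⟩ := IsSt0.exists_list (nil_lv (T := T) (i₀ := i₀) hk).finite
  obtain ⟨t, rfl⟩ := h.toIsSt0.exists_oprod (nil_lv hk) hL hLS ha
  refine oprod_mem fun r hr => ?_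
  have hr' := (hLS r).1 hr
  by_cases ht : t r = 0
  · rw [ht, h.toIsSt0.x_zero (T.nroots_eq ▸ hr'.1)]
    exact Subgroup.one_mem _
  refine mem_XS (show r ∈ lv T i₀ (k + 1) from ⟨hr'.1, ?_⟩) _
  by_contra hlt
  obtain ⟨g, hg, w, hw, h1, h2, h3, h3'⟩ := exists_descend h r ⟨hr'.1, hk.trans hr'.2⟩
  have hcl : T.Closed {r | r ∈ L} := by
    have : {r | r ∈ L} = lv T i₀ k := Set.ext hLS
    rw [this]
    exact closed_lv hk
  have := hn.act_mem_of_conj_mem h (hm.mul hw) hL (fun r hr => pos_of_lv hk ((hLS r).1 hr)) hcl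
    hS hS' (t := t) (by simpa only [mul_inv_rev, mul_assoc] using hK g hg) hr ht
  rw [T.act_mul, T.act_simple i₀ h1] at this
  have h4 := hr'.2
  exact hS'' _ h1 (by omega) h3 h3' this

theorem le_lv_succ' (hn : IsND x T) (h : IsSt D x) {m : G} (hm : Acts x T m (T.cs.simple i₀))
    {k : ℤ} (hk : 1 ≤ k) {K : Subgroup G} (h1 : K ≤ XS x (lv T i₀ k))
    (h2 : ∀ g ∈ Ps D x {j | j ≠ (i₀ : ℕ)}, ∀ a ∈ K, g * a * g⁻¹ ∈ K)
    (h3 : ∀ a ∈ K, m * a * m⁻¹ ∈ XS x (lv T i₀ k)) : K ≤ XS x (lv T i₀ (k + 1)) := by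
  refine fun a ha => le_lv_succ hn h hm hk (fun r hr => pos_of_lv hk hr) (closed_lv hk)
    (fun s h1 h2 h3 _ h4 => ?_) (h1 ha) fun g hg => h3 _ (h2 g hg a ha)
  have := h4.2
  rw [T.vec_refl' i₀ _ h1] at this
  simp only [sroot, Pi.sub_apply, Pi.smul_apply, Pi.single_eq_same, smul_eq_mul, mul_one] at this
  omega

theorem le_lv_one [Finite G] (hn : IsND x T) (h : IsSt D x) (htop : Gs D x = ⊤)
    (hH : Hs D x = ⊥) {m : G} (hmN : m ∈ Ns D x) (hm : Acts x T m (T.cs.simple i₀))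
    {K : Subgroup G} (h1 : K ≤ Ps D x {j | j ≠ (i₀ : ℕ)})
    (h2 : ∀ g ∈ Ps D x {j | j ≠ (i₀ : ℕ)}, ∀ a ∈ K, g * a * g⁻¹ ∈ K)
    (h3 : ∀ a ∈ K, m * a * m⁻¹ ∈ Ps D x {j | j ≠ (i₀ : ℕ)}) : K ≤ XS x (lv T i₀ 1) := by
  set T' := stTits hn h htop
  have hP : T'.par {i | i ≠ i₀} = Ps D x {j | j ≠ (i₀ : ℕ)} := by
    rw [← stTits_par hn h htop]
    congr 1
    ext i
    simp [Fin.ext_iff]
  have hBP : T'.B ≤ Ps D x {j | j ≠ (i₀ : ℕ)} := Bs_le_Ps _
  have hBK : T'.B ≤ Subgroup.normalizer (K : Set G) := fun b hb =>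
    Subgroup.mem_normalizer_fintype (h2 b (hBP hb))
  set I := {i | ∃ y ∈ K ⊔ T'.B, T'.wt y = T'.s i} with hI
  have hKB : K ⊔ T'.B = T'.par I := T'.eq_par le_sup_right
  have hI0 : i₀ ∉ I := fun e => by
    have : T'.par I ≤ T'.par {i | i ≠ i₀} := by
      rw [← hKB, hP]
      exact sup_le h1 hBP
    exact T'.mem_of_par_le this e rfl
  have hIe : I = ∅ := by
    by_contra hne
    obtain ⟨i, hi, j, hj, hij⟩ := T.connected I (Set.nonempty_iff_ne_empty.2 hne) ⟨i₀, hI0⟩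
    obtain ⟨y, hy, hwy⟩ := hi
    obtain ⟨k, hk, b, hb, rfl⟩ := (mem_sup_iff_of_le_normalizer hBK).1 hy
    rw [T'.wt_mul_B _ hb] at hwy
    have hc : T'.s j * T'.s i ≠ T'.s i * T'.s j := by
      rw [stTits_s]
      exact simple_ne_comm T (fun e : i = j => hj (e ▸ ⟨_, Subgroup.mem_sup_left hk, hwy⟩)) hij
    by_cases e : j = i₀
    · subst e
      exact mem_of_conj_gen T' hwy ((stTits_wt_eq_iff hn h htop hmN).2 (by rwa [stTits_s])) hc
        (I := {i | i ≠ j}) (hP ▸ h3 k hk) rfl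
    · refine hj (mem_of_conj_gen T' hwy (stTits_wt_nn hn h htop j) hc ?_)
      rw [← hKB]
      exact Subgroup.mem_sup_left (h2 _ (nn_mem_Ps (i := j) fun e' => e (Fin.ext e')) k hk)
  have hKU : K ≤ Us D x := by
    rw [hIe, T'.par_empty] at hKB
    have : T'.B = Us D x := by
      change Us D x ⊔ Hs D x = _
      rw [hH, sup_bot_eq]
    exact this ▸ (le_sup_left.trans hKB.le)
  obtain ⟨n, hN, ht⟩ := T'.exists_isTop_N {i | i ≠ i₀}
  intro a ha
  have hnP : n ∈ Ps D x {j | j ≠ (i₀ : ℕ)} := hP ▸ ht.1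
  have := mem_UJ_of_isTop hn h htop hN ht (hKU ha)
    (hKU (by simpa using h2 _ (Subgroup.inv_mem _ hnP) a ha))
  rw [← UJ_eq]
  refine XS_mono (fun r hr => ?_) this
  refine ⟨hr.1, fun e => hr.2 ⟨e.1, fun i hi hi' => e.2 i hi fun hne => hi' ?_⟩⟩
  exact ⟨⟨i, hi⟩, fun e' => hne (congrArg Fin.val e'), rfl⟩

theorem le_lv_two [Finite G] (hn : IsND x T) (h : IsSt D x) (htop : Gs D x = ⊤)
    (hH : Hs D x = ⊥) (hc : ∀ r < 2 * T.N, T.vec r i₀ = 1 →
      (∀ j : Fin D.rank, j ≠ i₀ → D.cartan j r ≤ 0) → r = D.simple i₀)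
    {m : G} (hmN : m ∈ Ns D x) (hm : Acts x T m (T.cs.simple i₀))
    {K : Subgroup G} (h1 : K ≤ Ps D x {j | j ≠ (i₀ : ℕ)})
    (h2 : ∀ g ∈ Ps D x {j | j ≠ (i₀ : ℕ)}, ∀ a ∈ K, g * a * g⁻¹ ∈ K)
    (h3 : ∀ a ∈ K, m * a * m⁻¹ ∈ Ps D x {j | j ≠ (i₀ : ℕ)}) : K ≤ XS x (lv T i₀ (1 + 1)) := by
  have hK := le_lv_one hn h htop hH hmN hm h1 h2 h3
  refine fun a ha => le_lv_succ hn h hm le_rfl (S := {r | D.IsPosRoot r})
    (fun r hr => (T.pos_iff r).1 hr) T.nil_pos.closed (fun s s1 s2 _ s4 s5 => ?_) (hK ha)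
    fun g hg => ?_
  · rw [hc s s1 s2 s4, RootTable.refl_simple] at s5
    have := ((T.pos_iff _).1 s5).1
    have := T.neg_lt_N (T.N_le_simple i₀) (T.simple_lt i₀)
    omega
  · set T' := stTits hn h htop
    have hBU : T'.B = Us D x := by
      change Us D x ⊔ Hs D x = _
      rw [hH, sup_bot_eq]
    have hb : g * a * g⁻¹ ∈ T'.B := by
      rw [hBU]
      exact XS_mono (fun r hr => (T.pos_iff r).2 (pos_of_lv le_rfl hr)) (hK (h2 g hg a ha))
    have hw : T'.wt m = T'.s i₀ := (stTits_wt_eq_iff hn h htop hmN).2 (by rwa [stTits_s])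
    have hw' : T'.wt m⁻¹ = T'.s i₀ := by rw [T'.wt_inv, hw, T'.cox.inv.inv_eq]
    have h4 := h3 _ (h2 g hg a ha)
    rw [← stTits_par hn h htop, T'.mem_par] at h4
    change _ ∈ Us D x
    rw [← hBU, ← T'.wt_eq_one]
    rcases T'.mul_gen hw' (m * (g * a * g⁻¹)) with e | e
    · rw [e, T'.wt_mul_B _ hb, hw, T'.cox.sq]
    · rw [e, T'.wt_mul_B _ hb, hw] at h4
      exact absurd rfl (T'.cox.mem_of_gen_mem h4)

theorem main [Finite G] [IsSimpleGroup G] (hn : IsND x T) (h : IsSt D x) (htop : Gs D x = ⊤)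
    (hH : Hs D x = ⊥) (hc : ∀ r < 2 * T.N, r ≠ D.simple i₀ → D.cartan i₀ r ≤ 1)
    (hc' : ∀ r < 2 * T.N, T.vec r i₀ = 1 →
      (∀ j : Fin D.rank, j ≠ i₀ → D.cartan j r ≤ 0) → r = D.simple i₀)
    (h6 : ∀ r < 2 * T.N, T.vec r i₀ ≤ 6) (h6' : ∃ r < 2 * T.N, T.vec r i₀ = 6) :
    ∃ (M₁ M₂ : Subgroup G) (g : G) (A B : ℕ → Subgroup G),
      IsCoatom M₁ ∧ M₂ = M₁.map (MulAut.conj g).toMonoidHom ∧ M₁ ≠ M₂ ∧ M₁.normalCore = ⊥ ∧
      A 0 = M₁ ∧ B 0 = M₂ ∧
      (∀ i, A (i + 1) = ((A i ⊓ B i).subgroupOf M₁).normalCore.map M₁.subtype) ∧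
      (∀ i, B (i + 1) = ((A i ⊓ B i).subgroupOf M₂).normalCore.map M₂.subtype) ∧
      A 6 = ⊥ ∧ A 5 ≠ ⊥ := by
  set T' := stTits hn h htop
  set P := Ps D x {j | j ≠ (i₀ : ℕ)} with hPdef
  set n := nn D x (D.simple i₀) 1 with hndef
  have hP : T'.par {i | (i : ℕ) ∈ {j | j ≠ (i₀ : ℕ)}} = P := stTits_par hn h htop _
  have hnN : n ∈ Ns D x := nn_one_mem_Ns (T.simple_lt' i₀)
  have hna : Acts x T n (T.cs.simple i₀) := h.acts_nn_simple T i₀
  have hna' : Acts x T n⁻¹ (T.cs.simple i₀) := T.cs.inv_simple i₀ ▸ hna.inv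
  have hnP : n ∉ P := fun e => by
    rw [← hP, T'.mem_par, stTits_wt_nn] at e
    exact absurd rfl (T'.cox.mem_of_gen_mem e)
  have hPtop : P ≠ ⊤ := fun e => hnP (e ▸ Subgroup.mem_top n)
  set Q := P.map (MulAut.conj n).toMonoidHom with hQ
  have hQm : ∀ {g : G}, g ∈ P → n * g * n⁻¹ ∈ Q := fun hg => ⟨_, hg, rfl⟩
  -- lower bounds
  have low : ∀ i : ℕ, XS x (lv T i₀ (i + 1)) ≤ (seq P Q i).1 ∧
      ∀ a ∈ XS x (lv T i₀ (i + 1)), n * a * n⁻¹ ∈ (seq P Q i).2 := by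
    intro i
    have hLP : ∀ k : ℤ, 1 ≤ k → XS x (lv T i₀ k) ≤ P := fun k hk =>
      (XS_mono fun r hr => (T.pos_iff r).2 (pos_of_lv hk hr)).trans (Us_le_Bs.trans (Bs_le_Ps _))
    induction i with
    | zero => exact ⟨hLP _ (by simp), fun a ha => hQm (hLP _ (by simp) ha)⟩
    | succ i ih =>
      have hi : (1 : ℤ) ≤ i + 1 := by omega
      have hmono : XS x (lv T i₀ (i + 1 + 1)) ≤ XS x (lv T i₀ (i + 1)) :=
        XS_mono fun r hr => by exact ⟨hr.1, by have := hr.2; omega⟩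
      push_cast
      refine ⟨fun a ha => mem_core.2 ⟨hLP _ (by omega) ha, fun b hb => ?_⟩,
        fun a ha => mem_core.2 ⟨hQm (hLP _ (by omega) ha), fun b hb => ?_⟩⟩
      · have := Ps_norm h (by omega) hb ha
        refine ⟨ih.1 (hmono this), ?_⟩
        simpa [mul_assoc] using ih.2 _ (conj_lv hc hna' hi this)
      · have := Ps_norm h (by omega) (mem_map_conj.1 hb) ha
        have e : b * (n * a * n⁻¹) * b⁻¹ = n * (n⁻¹ * b * n * a * (n⁻¹ * b * n)⁻¹) * n⁻¹ := by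
          group
        rw [e]
        exact ⟨ih.1 (conj_lv hc hna hi this), ih.2 _ (hmono this)⟩
  -- upper bounds
  have hcQ : ∀ (Y : Subgroup G), ∀ g ∈ P, ∀ a ∈ (core Q Y).map (MulAut.conj n⁻¹).toMonoidHom,
      g * a * g⁻¹ ∈ (core Q Y).map (MulAut.conj n⁻¹).toMonoidHom := by
    intro Y g hg a ha
    rw [mem_map_conj] at ha ⊢
    convert conj_mem_core ha (hQm hg) using 1
    group
  have up : ∀ i : ℕ, (seq P Q (i + 1)).1 ≤ XS x (lv T i₀ (i + 1 + 1)) ∧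
      (seq P Q (i + 1)).2.map (MulAut.conj n⁻¹).toMonoidHom ≤ XS x (lv T i₀ (i + 1 + 1)) := by
    intro i
    induction i with
    | zero =>
      simp only [Nat.cast_zero, zero_add]
      refine ⟨le_lv_two hn h htop hH hc' (Subgroup.inv_mem _ hnN) hna'
        (fun a ha => (core_le ha).1) (fun g hg a ha => conj_mem_core ha hg) fun a ha => ?_,
        le_lv_two hn h htop hH hc' hnN hna (fun a ha => ?_) (hcQ _) fun a ha => ?_⟩
      · simpa using mem_map_conj.1 (core_le ha).2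
      · simpa [mul_assoc] using mem_map_conj.1 (core_le (mem_map_conj.1 ha)).2
      · have := (core_le (mem_map_conj.1 ha)).1
        rw [inv_inv] at this
        exact this
    | succ i ih =>
      push_cast
      refine ⟨le_lv_succ' hn h hna' (by omega) (fun a ha => ih.1 (core_le ha).1)
        (fun g hg a ha => conj_mem_core ha hg) fun a ha => ih.2 ⟨a, (core_le ha).2, rfl⟩,
        le_lv_succ' hn h hna (by omega) (fun a ha => ih.2 ?_) (hcQ _) fun a ha => ih.1 ?_⟩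
      · exact mem_map_conj.2 (core_le (mem_map_conj.1 ha)).2
      · simpa using (core_le (mem_map_conj.1 ha)).1
  refine ⟨P, Q, n, fun i => (seq P Q i).1, fun i => (seq P Q i).2, ⟨hPtop, fun M hM => ?_⟩, rfl,
    fun e => hnP ?_, ?_, rfl, rfl, fun _ => rfl, fun _ => rfl, ?_, fun e => ?_⟩
  · have hBM : T'.B ≤ M := (Bs_le_Ps _).trans hM.le
    have e := T'.eq_par hBM
    have hsub := T'.mem_of_par_le (hP.le.trans (hM.le.trans e.le))
    rw [e, ← T'.par_univ]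
    congr 1
    refine Set.eq_univ_of_forall fun i => ?_
    by_contra hi
    refine hM.ne' (le_antisymm ?_ hM.le)
    rw [e, ← hP]
    refine T'.par_mono fun j hj e' => hi ?_
    have : i = i₀ := by
      by_contra e''
      exact hi (hsub fun e3 => e'' (Fin.ext e3))
    rwa [this, ← Fin.ext e']
  · rw [← T'.normalizer_eq (M := P) (Bs_le_Ps _)]
    exact Subgroup.mem_normalizer_fintype fun g hg => e ▸ hQm hg
  · exact (P.normalCore_normal.eq_bot_or_eq_top).resolve_right fun e =>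
      hPtop (top_le_iff.1 (e ▸ P.normalCore_le))
  · have := (up 5).1
    have e : lv T i₀ ((5 : ℕ) + 1 + 1) = ∅ := Set.eq_empty_of_forall_notMem fun r hr => by
      have := h6 r hr.1
      have := hr.2
      omega
    rw [e, XS_empty] at this
    exact eq_bot_iff.2 this
  · obtain ⟨r, hr, hr6⟩ := h6'
    have := (low 5).1 (mem_XS (r := r) (by exact ⟨hr, by omega⟩) 1)
    simp only at e
    rw [e, Subgroup.mem_bot] at this
    exact one_ne_zero (hn.eq_zero_of_x_eq_one hr this)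

theorem dataE8 : ∀ r < 240, rootTableE8.vec r (3 : Fin 8) = 1 →
    (∀ j : Fin 8, j ≠ 3 → chevE8.cartan j r ≤ 0) → r = chevE8.simple 3 := by
  decide +kernel

/-- An extremal example for iterated cores of conjugate maximal subgroups: there exist a finite group G and two distinct conjugate maximal subgroups M₁, M₂ of G, with M₁ having trivial core in G, such that, if we define two descending sequences of subgroups by A₀ = M₁, B₀ = M₂ and, for every i, A_{i+1} = the core in M₁ of A_i ∩ B_i and B_{i+1} = the core in M₂ of A_i ∩ B_i (the core in M of a subgroup Y ≤ M is the largest normal subgroup of M contained in Y), the subgroup A₆ is trivial while A₅ is not (so the index 6 cannot be lowered to 5). (One example is a maximal parabolic subgroup of the Chevalley group of type E₈ over a finite field and a suitable conjugate of it.) -/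
theorem result :
    ∃ (G : Type) (_ : Group G) (_ : Finite G) (M₁ M₂ : Subgroup G) (g : G) (A B : ℕ → Subgroup G),
      IsCoatom M₁ ∧ M₂ = M₁.map (MulAut.conj g).toMonoidHom ∧ M₁ ≠ M₂ ∧ M₁.normalCore = ⊥ ∧ A 0 = M₁ ∧ B 0 = M₂ ∧
      (∀ i, A (i + 1) = ((A i ⊓ B i).subgroupOf M₁).normalCore.map M₁.subtype) ∧
      (∀ i, B (i + 1) = ((A i ⊓ B i).subgroupOf M₂).normalCore.map M₂.subtype) ∧ A 6 = ⊥ ∧ A 5 ≠ ⊥ := by
  have := (isSimpleGroup_group (D := chevE8) (F := ZMod 2) (by simp)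
    (by rintro (h | h) <;> exact absurd (congrArg ChevalleyDatum.rank h) (by decide))).1
  refine ⟨chevE8.group (ZMod 2), inferInstance, inferInstance,
    main (T := rootTableE8) (i₀ := (3 : Fin 8)) (isND_xC _) isSt_xC Gs_xC ?_
      (by decide +kernel) dataE8 (by decide +kernel) ⟨239, by decide +kernel⟩⟩
  refine eq_bot_iff.2 (Hs_le.2 fun r hr t ht => ?_)
  have : t = 1 := by
    revert t
    decide
  rw [this, isSt_xC.toIsSt0.hh_one rootTableE8 hr]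
  exact Subgroup.one_mem _

end Cfsg.Agent.S5751
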