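import Cfsg.Statements.S5752
import Mathlib
import Cfsg.Agent.PLocal.ThompsonWielandt

set_option autoImplicit false
open Cfsg

namespace Cfsg.Agent.S5752

open Subgroup PLocal PLocal.Amb

/-- A form of the Thompson–Wielandt Theorem on primitive permutation groups. Let G be a finite group and M₁, M₂ two distinct conjugate maximal subgroups of G with trivial core in G; define two descending sequences of subgroups by A₀ = M₁, B₀ = M₂ and, for every i, A_{i+1} = the core in M₁ of A_i ∩ B_i and B_{i+1} = the core in M₂ of A_i ∩ B_i (the core in M of a subgroup Y ≤ M is the largest normal subgroup of M contained in Y). If A₂ and B₂ are both non-trivial, then for some prime p the subgroup generated by A₂ and B₂ is a p-group, and for each j the generalized Fitting subgroups of M_j and of its first core (A₁, resp. B₁) are their largest normal p-subgroups. -/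
theorem result {G : Type*} [Group G] [Finite G] (M₁ M₂ : Subgroup G) (hmax : IsCoatom M₁) (g : G)
    (hconj : M₂ = M₁.map (MulAut.conj g).toMonoidHom) (hne : M₁ ≠ M₂) (hcore : M₁.normalCore = ⊥)
    (A B : ℕ → Subgroup G) (hA0 : A 0 = M₁) (hB0 : B 0 = M₂)
    (hA : ∀ i, A (i + 1) = ((A i ⊓ B i).subgroupOf M₁).normalCore.map M₁.subtype)
    (hB : ∀ i, B (i + 1) = ((A i ⊓ B i).subgroupOf M₂).normalCore.map M₂.subtype) (hA2 : A 2 ≠ ⊥) (hB2 : B 2 ≠ ⊥) :
    ∃ p : ℕ, p.Prime ∧ IsPGroup p ↥(A 2 ⊔ B 2) ∧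
      Cfsg.generalizedFittingSubgroup ↥M₁ = Cfsg.pCore p ↥M₁ ∧ Cfsg.generalizedFittingSubgroup ↥(A 1) = Cfsg.pCore p ↥(A 1) ∧
      Cfsg.generalizedFittingSubgroup ↥M₂ = Cfsg.pCore p ↥M₂ ∧ Cfsg.generalizedFittingSubgroup ↥(B 1) = Cfsg.pCore p ↥(B 1) := by
  have c1 : ∀ X M : Subgroup G, (X.subgroupOf M).normalCore.map M.subtype ≤ X := fun X M => by
    refine (map_mono (normalCore_le _)).trans ?_
    rw [subgroupOf_map_subtype]; exact inf_le_left
  have c2 : ∀ X M : Subgroup G, (X.subgroupOf M).normalCore.map M.subtype ≤ M :=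
    fun X M => map_subtype_le _
  have c3 : ∀ X M : Subgroup G, M ≤ 𝐍[(X.subgroupOf M).normalCore.map M.subtype] :=
    fun X M => le_normalizer_map_subtype _
  have a1 : A 1 ≤ M₁ ⊓ M₂ := by rw [hA 0, hA0, hB0]; exact c1 _ _
  have b1 : B 1 ≤ M₁ ⊓ M₂ := by rw [hB 0, hA0, hB0]; exact c1 _ _
  have a1n : M₁ ≤ 𝐍[A 1] := by rw [hA 0]; exact c3 _ _
  have b1n : M₂ ≤ 𝐍[B 1] := by rw [hB 0]; exact c3 _ _
  have a2 : A 2 ≤ A 1 ⊓ B 1 := by rw [hA 1]; exact c1 _ _
  have b2 : B 2 ≤ A 1 ⊓ B 1 := by rw [hB 1]; exact c1 _ _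
  have a2n : M₁ ≤ 𝐍[A 2] := by rw [hA 1]; exact c3 _ _
  have b2n : M₂ ≤ 𝐍[B 2] := by rw [hB 1]; exact c3 _ _
  obtain ⟨p, hp, pA, pB, k1, k2⟩ := TW.thompson_wielandt hne hconj (TW.prim_of_isCoatom hmax hcore)
    hA2 (a2.trans (inf_le_left.trans (a1.trans inf_le_left))) a2n
    ((Grp.SnIn.of_le_normalizer (a2.trans inf_le_right) (b1.trans (inf_le_left.trans a2n))).trans
      (Grp.SnIn.of_le_normalizer (b1.trans inf_le_right) b1n))
    hB2 (b2.trans (inf_le_left.trans (a1.trans inf_le_right))) b2n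
    ((Grp.SnIn.of_le_normalizer (b2.trans inf_le_left) (a1.trans (inf_le_right.trans b2n))).trans
      (Grp.SnIn.of_le_normalizer (a1.trans inf_le_left) a1n))
  have : Fact p.Prime := ⟨hp⟩
  have key : ∀ L : Subgroup G, CP.IsCharP p L → generalizedFittingSubgroup L = pCore p L :=
    fun L h => (fstar_eq_pCore_iff p).2 (CP.isCharP_iff.1 h)
  exact ⟨p, hp, isPGroup_sup pA pB (a2.trans (inf_le_left.trans (a1.trans (inf_le_right.trans b2n)))),
    key _ k1, key _ (k1.of_normal (a1.trans inf_le_left) a1n), key _ k2,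
    key _ (k2.of_normal (b1.trans inf_le_right) b1n)⟩

end Cfsg.Agent.S5752
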