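import Cfsg.Statements.S5753
import Cfsg.Agent.Perm.Bin4
import Cfsg.Agent.Perm.Onl

set_option autoImplicit false
open Cfsg

namespace Cfsg.Agent.S5753

open MulAction Cfsg.Agent.Perm Cfsg.Agent.Perm.Onl Cfsg.Agent.Perm.BAff

/-- The binary primitive permutation groups of affine type (the known proof uses the classification of the finite simple groups). Let a finite group G act faithfully and primitively on a finite set Ω, with a non-trivial abelian normal subgroup, and suppose the action is binary: for every n ≥ 2 and all n-tuples I, J of points, if for every pair of positions some element of G carries the corresponding pair of entries of I to those of J, then a single element carries I to J. Then either Ω has a prime number of points and every point stabilizer has order at most 2, or Ω can be identified with a field E that is a quadratic extension of a subfield F in such a way that the permutations induced by G are exactly the maps x ↦ a·φ(x) + b with a ∈ E of norm 1 over F, φ an automorphism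 of E over F and b ∈ E (the affine group of the anisotropic plane orthogonal group). -/
theorem result {G Ω : Type*} [Group G] [Finite G] [MulAction G Ω] [FaithfulSMul G Ω] [Fintype Ω]
    (hprim : MulAction.IsPreprimitive G Ω)
    (haff : ∃ N : Subgroup G, N.Normal ∧ N ≠ ⊥ ∧ IsMulCommutative ↥N)
    (hbin : ∀ (n : ℕ) (I J : Fin n → Ω), 2 ≤ n →
      (∀ i j : Fin n, i ≠ j → ∃ g : G, g • I i = J i ∧ g • I j = J j) → ∃ g : G, ∀ i, g • I i = J i) :
    ((Fintype.card Ω).Prime ∧ ∀ ω : Ω, Nat.card ↥(MulAction.stabilizer G ω) ≤ 2) ∨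
    (∃ (F E : Type) (_ : Field F) (_ : Fintype F) (_ : Field E) (_ : Fintype E) (_ : Algebra F E) (e : Ω ≃ E),
        Module.finrank F E = 2 ∧
        ∀ σ : Equiv.Perm Ω, σ ∈ (MulAction.toPermHom G Ω).range ↔
          ∃ (a b : E) (φ : E ≃ₐ[F] E), Algebra.norm F a = 1 ∧ ∀ ω : Ω, e (σ ω) = a * φ (e ω) + b) := by
  classical
  obtain ⟨N, hn, hN, hNc⟩ := haff
  have htr : IsPretransitive N Ω := isPretransitive_of_normal_of_ne_bot hprim N hN
  have hNc' : ∀ x ∈ N, ∀ y ∈ N, x * y = y * x := fun x hx y hy =>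
    congrArg Subtype.val (hNc.is_comm.comm ⟨x, hx⟩ ⟨y, hy⟩)
  obtain ⟨⟨n0, hn0⟩, hn1⟩ := (Subgroup.ne_bot_iff_exists_ne_one).1 hN
  obtain ⟨α0, -⟩ : ∃ α : Ω, n0 • α ≠ α := by
    by_contra hc
    push Not at hc
    exact hn1 (Subtype.ext (FaithfulSMul.eq_of_smul_eq_smul (α := Ω) fun a => by simp [hc]))
  refine or_iff_not_imp_right.2 fun hno => ?_
  suffices key : ∀ α : Ω, (Fintype.card Ω).Prime ∧ Nat.card (stabilizer G α) ≤ 2 from
    ⟨(key α0).1, fun ω => (key ω).2⟩
  intro α
  have hinj : ∀ x ∈ N, x • α = α → x = 1 := fun x hx h =>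
    FaithfulSMul.eq_of_smul_eq_smul (α := Ω) fun ω => by
      obtain ⟨y, rfl⟩ := htr.exists_smul_eq α ω
      change x • (y : G) • α = (1 : G) • (y : G) • α
      rw [← mul_smul, hNc' x hx y y.2, mul_smul, h, one_smul]
  have hbij : Function.Bijective (fun n : N => (n : G) • α) := ⟨fun a b hab => by
    dsimp only at hab
    have := hinj _ (mul_mem (inv_mem b.2) a.2) (by rw [mul_smul, hab, inv_smul_smul])
    exact Subtype.ext (inv_mul_eq_one.1 this).symm, fun ω => htr.exists_smul_eq α ω⟩
  let : CommGroup N := { (inferInstance : Group N) with mul_comm := hNc.is_comm.comm }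
  let e : Ω ≃ Additive N := (Equiv.ofBijective _ hbij).symm.trans Additive.ofMul
  let : AddCommGroup Ω := e.addCommGroup
  have hadd : ∀ x y : N, (x : G) • α + (y : G) • α = ((x * y : N) : G) • α := fun x y => by
    apply e.injective
    have k : ∀ z : N, e ((z : G) • α) = Additive.ofMul z := fun z =>
      congrArg Additive.ofMul ((Equiv.ofBijective _ hbij).symm_apply_apply z)
    rw [Equiv.add_def, Equiv.apply_symm_apply, k, k, k, ofMul_mul]
  have hzero : (0 : Ω) = α := by
    have := hadd 1 1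
    simp only [mul_one, OneMemClass.coe_one, one_smul] at this
    exact (add_eq_left.1 this).symm
  have hconj : ∀ (h : stabilizer G α) (x : N), h • (x : G) • α =
      ((⟨h * x * (h : G)⁻¹, hn.conj_mem _ x.2 _⟩ : N) : G) • α := fun h x => by
    change (h : G) • (x : G) • α = ((h : G) * x * (h : G)⁻¹) • α
    rw [mul_smul, mul_smul, show (h : G)⁻¹ • α = α from (inv_mem h.2 : _ ∈ stabilizer G α)]
  let : DistribMulAction (stabilizer G α) Ω :=
    { (inferInstance : MulAction (stabilizer G α) Ω) with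
      smul_zero := fun h => by rw [hzero]; exact h.2
      smul_add := fun h x y => by
        obtain ⟨x, rfl⟩ := hbij.2 x
        obtain ⟨y, rfl⟩ := hbij.2 y
        dsimp only
        rw [hadd, hconj, hconj, hconj, hadd]
        congr 2
        simp [mul_assoc] }
  have htl : ∀ x ∈ N, ∀ v : Ω, x • v = x • α + v := fun x hx v => by
    obtain ⟨y, rfl⟩ := hbij.2 v
    exact (mul_smul x y α).symm.trans (hadd ⟨x, hx⟩ y).symm
  have htl' : ∀ w : Ω, ∃ x : G, ∀ v : Ω, x • v = w + v := fun w => by
    obtain ⟨x, rfl⟩ := hbij.2 w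
    exact ⟨x, htl x x.2⟩
  have hb : Bin (stabilizer G α) Ω := by
    refine ⟨fun h hh => Subtype.ext (FaithfulSMul.eq_of_smul_eq_smul (α := Ω) fun ω => by
      rw [OneMemClass.coe_one, one_smul]; exact hh ω), fun R h1 h2 => ?_, fun W hW => ?_⟩
    · let p : Bool ⊕ R → Ω × Ω := Sum.elim (fun _ => (0, 0)) Subtype.val
      have hp : ∀ x y, E (stabilizer G α) ((p x).1 - (p y).1) ((p x).2 - (p y).2) := by
        rintro (x | x) (y | y)
        · exact E.rfl' _
        · simpa [p] using (h1 y y.2).neg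
        · simpa [p] using h1 x x.2
        · exact h2 x x.2 y y.2
      let ι := (Fintype.equivFin (Bool ⊕ R)).symm
      obtain ⟨g, hg⟩ := hbin _ (fun i => (p (ι i)).1) (fun i => (p (ι i)).2) (by simp) fun i j _ => by
        obtain ⟨h, hh⟩ := hp (ι i) (ι j)
        obtain ⟨x, hx⟩ := htl' ((p (ι j)).2 - h • (p (ι j)).1)
        refine ⟨x * h, ?_, ?_⟩
        · rw [mul_smul, hx]
          change _ + h • (p (ι i)).1 = _
          rw [smul_sub] at hh
          rw [eq_add_of_sub_eq hh]; abel
        · rw [mul_smul, hx]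
          exact sub_add_cancel _ _
      have h0 := hg (ι.symm (Sum.inl true))
      rw [Equiv.apply_symm_apply] at h0
      refine ⟨⟨g, by rw [mem_stabilizer_iff, ← hzero]; exact h0⟩, fun r hr => ?_⟩
      have h3 := hg (ι.symm (Sum.inr ⟨r, hr⟩))
      rw [Equiv.apply_symm_apply] at h3
      exact h3
    · let K : Subgroup G :=
        { carrier := {x | x ∈ N ∧ x • α ∈ W}
          one_mem' := ⟨one_mem _, by rw [one_smul, ← hzero]; exact zero_mem _⟩
          mul_mem' := by
            rintro a b ⟨ha, ha'⟩ ⟨hb, hb'⟩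
            exact ⟨mul_mem ha hb, by rw [mul_smul, htl a ha]; exact add_mem ha' hb'⟩
          inv_mem' := by
            rintro a ⟨ha, ha'⟩
            refine ⟨inv_mem ha, ?_⟩
            have := htl a ha (a⁻¹ • α)
            rw [smul_inv_smul] at this
            rw [eq_neg_of_add_eq_zero_right (this.symm.trans hzero.symm)]
            exact neg_mem ha' }
      have : K.Normal := ⟨fun x hx g => by
        obtain ⟨n, hn', q, hq, rfl⟩ := exists_mul_of_trans htr α g
        have h3 := hn.conj_mem x hx.1 q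
        rw [show n * q * x * (n * q)⁻¹ = n * (q * x * q⁻¹) * n⁻¹ by group, hNc' n hn' _ h3,
          mul_inv_cancel_right]
        exact ⟨h3, (hconj ⟨q, hq⟩ ⟨x, hx.1⟩) ▸ hW ⟨q, hq⟩ _ hx.2⟩⟩
      by_cases hK : K = ⊥
      · refine Or.inl (eq_bot_iff.2 fun v hv => ?_)
        obtain ⟨x, rfl⟩ := hbij.2 v
        have h3 : (x : G) ∈ K := ⟨x.2, hv⟩
        rw [hK, Subgroup.mem_bot] at h3
        change (x : G) • α = 0
        rw [h3, one_smul, hzero]
      · refine Or.inr (eq_top_iff.2 fun v _ => ?_)
        obtain ⟨k, rfl⟩ := (isPretransitive_of_normal_of_ne_bot hprim K hK).exists_smul_eq α v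
        exact k.2.2
  have : Nontrivial Ω := ⟨⟨n0 • α, α, fun h => hn1 (Subtype.ext (hinj _ hn0 h))⟩⟩
  by_cases hsq : ∀ g : stabilizer G α, g * g = 1
  · rw [← Nat.card_eq_fintype_card]
    exact hb.small hsq
  push Not at hsq
  obtain ⟨g0, hg0⟩ := hsq
  obtain ⟨hg, ρ, hρ, htop, hall⟩ := hb.main hg0
  obtain ⟨F, E, _, _, _, _, _, ε, hr, hε⟩ := hg.field hρ htop hall
  refine (hno ⟨F, E, inferInstance, inferInstance, inferInstance, inferInstance, inferInstance,
    ε.toEquiv, hr, fun σ => ⟨?_, ?_⟩⟩).elim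
  · rintro ⟨g, rfl⟩
    obtain ⟨n, hn', q, hq, rfl⟩ := exists_mul_of_trans htr α g
    obtain ⟨a, φ, h1, h2⟩ := (hε fun v => q • v).1 ⟨⟨q, hq⟩, fun _ => rfl⟩
    refine ⟨a, ε (n • α), φ, h1, fun ω => ?_⟩
    change ε ((n * q) • ω) = a * φ (ε ω) + _
    rw [mul_smul, htl n hn', map_add, h2, add_comm]
  · rintro ⟨a, b, φ, h1, h2⟩
    obtain ⟨h, hh⟩ := (hε fun v => σ v - ε.symm b).2 ⟨a, φ, h1, fun v => by
      rw [map_sub, ε.apply_symm_apply]
      exact sub_eq_of_eq_add (h2 v)⟩
    obtain ⟨x, hx⟩ := htl' (ε.symm b)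
    refine ⟨x * h, Equiv.ext fun ω => ?_⟩
    change (x * h) • ω = σ ω
    rw [mul_smul, hx]
    exact (congrArg _ (hh ω)).trans (add_sub_cancel _ _)

end Cfsg.Agent.S5753
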