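import Cfsg.Statements.S5754
import Cfsg.Agent.Class.QF.Classify

set_option autoImplicit false
open Cfsg

namespace Cfsg.Agent.S5754

/-- Let V be a finite-dimensional vector space over a finite field F carrying an anisotropic quadratic form Q (Q(v) = 0 only for v = 0). Then the group of all maps v ↦ φ(v) + c, with φ an isometry of Q and c ∈ V, acts on V as a binary permutation group: given n ≥ 2 and two n-tuples u, u' of vectors such that every pair of corresponding entries of u is carried to that of u' by such a map, one such map carries u to u'. -/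
theorem result {F V : Type*} [Field F] [Finite F] [AddCommGroup V] [Module F V] [Module.Finite F V]
    (Q : QuadraticForm F V) (hQ : Q.Anisotropic) (n : ℕ) (hn : 2 ≤ n) (u u' : Fin n → V)
    (h2 : ∀ i j : Fin n, i ≠ j → ∃ (φ : Q.IsometryEquiv Q) (c : V), φ (u i) + c = u' i ∧ φ (u j) + c = u' j) :
    ∃ (φ : Q.IsometryEquiv Q) (c : V), ∀ i, φ (u i) + c = u' i := by
  classical
  let o : Fin n := ⟨0, by omega⟩
  have hd : ∀ i j, Q (u i - u j) = Q (u' i - u' j) := fun i j => by
    by_cases hij : i = j
    · simp [hij]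
    obtain ⟨φ, c, h1, h3⟩ := h2 i j hij
    rw [← h1, ← h3, add_sub_add_right_eq_sub, ← map_sub, φ.map_app]
  let A := Fintype.linearCombination F fun i => u i - u o
  let A' := Fintype.linearCombination F fun i => u' i - u' o
  have hA : ∀ i, A (Pi.single i 1) = u i - u o := fun i => by simp [A]
  have hA' : ∀ i, A' (Pi.single i 1) = u' i - u' o := fun i => by simp [A']
  have hp : Q.polarBilin.compl₁₂ A A = Q.polarBilin.compl₁₂ A' A' := by
    refine LinearMap.ext_basis (Pi.basisFun F (Fin n)) (Pi.basisFun F (Fin n)) fun i j => ?_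
    simp only [LinearMap.compl₁₂_apply, Pi.basisFun_apply, hA, hA', QuadraticMap.polarBilin_apply_apply]
    have h3 : ∀ x y : V, QuadraticMap.polar Q x y = Q x + Q y - Q (x - y) := fun x y => by
      have := QuadraticMap.map_add Q x (-y)
      rw [QuadraticMap.polar_neg_right, QuadraticMap.map_neg, ← sub_eq_add_neg] at this
      rw [this]; ring
    rw [h3, h3, sub_sub_sub_cancel_right, sub_sub_sub_cancel_right, hd, hd j, hd i j]
  have hq : ∀ a, Q (A a) = Q (A' a) := fun a => by
    have : a ∈ Submodule.span F (Set.range (Pi.basisFun F (Fin n))) := by simp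
    induction this using Submodule.span_induction with
    | mem x hx => obtain ⟨i, rfl⟩ := hx; rw [Pi.basisFun_apply, hA, hA', hd]
    | zero => simp
    | add x y _ _ hx hy =>
      rw [A.map_add, A'.map_add, QuadraticMap.map_add Q, QuadraticMap.map_add Q, hx, hy]
      exact congrArg _ (LinearMap.congr_fun₂ hp x y)
    | smul c x _ hx => rw [A.map_smul, A'.map_smul, Q.map_smul, Q.map_smul, hx]
  have hk : ∀ a, A a = 0 → A' a = 0 := fun a ha => hQ _ (by rw [← hq, ha, map_zero])
  by_cases hs : LinearMap.range A = ⊤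
  · obtain ⟨σ, hσ⟩ := A.exists_rightInverse_of_surjective hs
    have hσ' : ∀ x, A (σ x) = x := fun x => LinearMap.congr_fun hσ x
    have h3 : ∀ x, Q (A' (σ x)) = Q x := fun x => by rw [← hq, hσ']
    have h4 : Function.Injective (A' ∘ₗ σ) := by
      rw [← LinearMap.ker_eq_bot, eq_bot_iff]
      intro x hx
      exact hQ x (by rw [← h3, show A' (σ x) = 0 from hx, map_zero])
    refine ⟨⟨LinearEquiv.ofInjectiveEndo _ h4, h3⟩, u' o - A' (σ (u o)), fun i => ?_⟩
    have h5 := hk (σ (u i - u o) - Pi.single i 1) (by rw [map_sub, hσ', hA, sub_self])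
    rw [map_sub, hA', map_sub, map_sub, sub_eq_zero] at h5
    show A' (σ (u i)) + _ = _
    rw [add_sub_left_comm, h5, add_sub_cancel]
  by_cases h0 : ∀ i, u i - u o = 0
  · refine ⟨QuadraticMap.IsometryEquiv.refl Q, u' o - u o, fun i => ?_⟩
    have h5 := hk _ ((hA i).trans (h0 i))
    rw [hA', sub_eq_zero] at h5
    show u i + _ = _
    rw [add_sub_left_comm, h0, add_zero, h5]
  push Not at h0
  obtain ⟨i, hi⟩ := h0
  obtain ⟨φ, c, h3, h4⟩ := h2 o i fun e => hi (by rw [e, sub_self])
  refine ⟨φ, c, fun j => ?_⟩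
  have h5 : Submodule.span F {u i - u o} = LinearMap.range A := by
    refine Submodule.eq_of_le_of_finrank_le (by simpa using ⟨_, hA i⟩) ?_
    rw [finrank_span_singleton hi]
    have := Submodule.finrank_lt hs
    have := Class.QF.finrank_le_two_of_anisotropic Q hQ
    omega
  obtain ⟨a, ha⟩ := Submodule.mem_span_singleton.1 (h5 ▸ ⟨_, hA j⟩ : u j - u o ∈ Submodule.span F {u i - u o})
  have h6 := hk (a • Pi.single i 1 - Pi.single j 1) (by rw [map_sub, map_smul, hA, hA, ha, sub_self])
  rw [map_sub, map_smul, hA', hA', sub_eq_zero, ← h4, ← h3, add_sub_add_right_eq_sub, ← map_sub,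
    ← map_smul, ha, map_sub] at h6
  rw [← sub_eq_zero, ← sub_eq_zero.2 h6]
  abel

end Cfsg.Agent.S5754
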