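import Cfsg.Statements.S5763
import Mathlib
import Cfsg.Agent.PLocal.AmbSyl

set_option autoImplicit false
open Cfsg

namespace Cfsg.Agent.S5763

open Subgroup PLocal.Amb

/-- the standard matching -/
def tf : Fin 8 → Fin 8 := ![1, 0, 3, 2, 5, 4, 7, 6]

/-- the block of a point -/
def qf : Fin 8 → ZMod 2 × ZMod 2 := ![(0, 0), (0, 0), (0, 1), (0, 1), (1, 0), (1, 0), (1, 1), (1, 1)]

/-- `σ` preserves the matching `s` and acts on its blocks through the four-group -/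
def Kp (s σ : Fin 8 → Fin 8) : Prop :=
  (∀ i, σ (s i) = s (σ i)) ∧ (∀ i, σ (σ i) = i ∨ σ (σ i) = s i) ∧
    ((∀ i, σ i = i ∨ σ i = s i) ∨ ∀ i, σ i ≠ i ∧ σ i ≠ s i)

instance (s σ : Fin 8 → Fin 8) : Decidable (Kp s σ) := by unfold Kp; infer_instance

theorem tf_tf : ∀ i, tf (tf i) = i := by decide

theorem qf_eq : ∀ i j, qf i = qf j → i = j ∨ i = tf j := by decide

/-- the matching as a permutation -/
def tp : Equiv.Perm (Fin 8) := ⟨tf, tf, tf_tf, tf_tf⟩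

/-- a subgroup of order 64 -/
def K : Subgroup (Equiv.Perm (Fin 8)) where
  carrier := {σ | (∀ i, σ (tf i) = tf (σ i)) ∧ ∃ c, ∀ i, qf (σ i) = qf i + c}
  one_mem' := ⟨fun _ => rfl, 0, fun _ => by simp⟩
  mul_mem' := by
    rintro σ τ ⟨h1, c, hc⟩ ⟨h2, d, hd⟩
    exact ⟨fun i => by simp [h1, h2], d + c, fun i => by simp [hc, hd, add_assoc]⟩
  inv_mem' := by
    rintro σ ⟨h1, c, hc⟩
    refine ⟨fun i => σ.injective (by simp [h1]), -c, fun i => ?_⟩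
    have := hc (σ⁻¹ i)
    simp only [Equiv.Perm.coe_inv, Equiv.apply_symm_apply] at this
    simp [this]

theorem isPGroup_K : IsPGroup 2 K := by
  refine isPGroup_iff.2 ?_
  rintro σ ⟨h1, c, hc⟩
  refine ⟨2, Equiv.ext fun i => ?_⟩
  have h2 : ∀ i, σ (σ i) = i ∨ σ (σ i) = tf i := fun i => qf_eq _ _ (by
    have : c + c = 0 := by clear hc; revert c; decide
    rw [hc, hc, add_assoc, this, add_zero])
  change σ (σ (σ (σ i))) = i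
  rcases h2 i with h | h
  · rw [h, h]
  · rw [h, h1, h1, h, tf_tf]

theorem auxA : ∀ a b c d : Fin 8, Kp tf ![a, tf a, b, tf b, c, tf c, d, tf d] →
    ∃ e, ∀ i, qf (![a, tf a, b, tf b, c, tf c, d, tf d] i) = qf i + e := by
  decide +kernel

theorem mem_K {σ : Equiv.Perm (Fin 8)} (h : Kp tf σ) : σ ∈ K := by
  have e : (σ : Fin 8 → Fin 8) = ![σ 0, tf (σ 0), σ 2, tf (σ 2), σ 4, tf (σ 4), σ 6, tf (σ 6)] := by
    funext i
    fin_cases i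
    · rfl
    · exact h.1 0
    · rfl
    · exact h.1 2
    · rfl
    · exact h.1 4
    · rfl
    · exact h.1 6
  refine ⟨h.1, ?_⟩
  have := auxA (σ 0) (σ 2) (σ 4) (σ 6) (e ▸ h)
  rwa [← e] at this

/-- the conclusion for a matching `s` -/
def Good (s : Fin 8 → Fin 8) : Prop :=
  (∃ i, Kp tf (Equiv.swap i (tf i)) ∧ Kp s (Equiv.swap i (tf i))) ∨
    (Kp tf (tf ∘ s) ∧ Kp s (tf ∘ s) ∧ tf (s 0) ≠ 0) ∨
    (Kp tf (tf ∘ s ∘ tf ∘ s) ∧ Kp s (tf ∘ s ∘ tf ∘ s) ∧ tf (s (tf (s 0))) ≠ 0)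

instance (s : Fin 8 → Fin 8) : Decidable (Good s) := by unfold Good; infer_instance

set_option synthInstance.maxSize 4000 in
set_option synthInstance.maxHeartbeats 400000 in
theorem auxB : ∀ a : Fin 8, a ≠ 0 → ∀ b : Fin 8, b ≠ 1 ∧ (b = 0 ↔ a = 1) →
    ∀ c : Fin 8, c ≠ 2 ∧ (c = 0 ↔ a = 2) ∧ (c = 1 ↔ b = 2) →
    ∀ d : Fin 8, d ≠ 3 ∧ (d = 0 ↔ a = 3) ∧ (d = 1 ↔ b = 3) ∧ (d = 2 ↔ c = 3) →
    ∀ e : Fin 8, e ≠ 4 ∧ (e = 0 ↔ a = 4) ∧ (e = 1 ↔ b = 4) ∧ (e = 2 ↔ c = 4) ∧ (e = 3 ↔ d = 4) →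
    ∀ f : Fin 8, f ≠ 5 ∧ (f = 0 ↔ a = 5) ∧ (f = 1 ↔ b = 5) ∧ (f = 2 ↔ c = 5) ∧ (f = 3 ↔ d = 5) ∧
      (f = 4 ↔ e = 5) →
    ∀ g : Fin 8, g ≠ 6 ∧ (g = 0 ↔ a = 6) ∧ (g = 1 ↔ b = 6) ∧ (g = 2 ↔ c = 6) ∧ (g = 3 ↔ d = 6) ∧
      (g = 4 ↔ e = 6) ∧ (g = 5 ↔ f = 6) →
    ∀ h : Fin 8, h ≠ 7 ∧ (h = 0 ↔ a = 7) ∧ (h = 1 ↔ b = 7) ∧ (h = 2 ↔ c = 7) ∧ (h = 3 ↔ d = 7) ∧
      (h = 4 ↔ e = 7) ∧ (h = 5 ↔ f = 7) ∧ (h = 6 ↔ g = 7) → Good ![a, b, c, d, e, f, g, h] := by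
  decide +kernel

theorem good {s : Fin 8 → Fin 8} (h1 : ∀ i, s (s i) = i) (h2 : ∀ i, s i ≠ i) : Good s := by
  have e : s = ![s 0, s 1, s 2, s 3, s 4, s 5, s 6, s 7] := by
    funext i; fin_cases i <;> rfl
  have k : ∀ i j, s i = j ↔ s j = i := fun i j =>
    ⟨fun h => by rw [← h, h1], fun h => by rw [← h, h1]⟩
  rw [e]
  exact auxB _ (h2 _) _ ⟨h2 _, k _ _⟩ _ ⟨h2 _, k _ _, k _ _⟩ _ ⟨h2 _, k _ _, k _ _, k _ _⟩
    _ ⟨h2 _, k _ _, k _ _, k _ _, k _ _⟩ _ ⟨h2 _, k _ _, k _ _, k _ _, k _ _, k _ _⟩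
    _ ⟨h2 _, k _ _, k _ _, k _ _, k _ _, k _ _, k _ _⟩
    _ ⟨h2 _, k _ _, k _ _, k _ _, k _ _, k _ _, k _ _, k _ _⟩

theorem mem_cj_K {z σ : Equiv.Perm (Fin 8)} (h : Kp (z * tp * z⁻¹ : Equiv.Perm (Fin 8)) σ) :
    σ ∈ cj(z, K) := by
  rw [mem_cj]
  apply mem_K
  obtain ⟨h1, h2, h3⟩ := h
  simp only [Equiv.Perm.coe_mul, Function.comp_apply] at h1 h2 h3
  refine ⟨fun i => ?_, fun i => ?_, ?_⟩
  · have := h1 (z i)
    simp only [Equiv.Perm.coe_inv, Equiv.symm_apply_apply] at this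
    change z⁻¹ (σ (z (tp i))) = tp (z⁻¹ (σ (z i)))
    rw [this]; simp
  · have := h2 (z i)
    simp only [Equiv.Perm.coe_inv, Equiv.symm_apply_apply] at this
    change z⁻¹ (σ (z (z⁻¹ (σ (z i))))) = i ∨ z⁻¹ (σ (z (z⁻¹ (σ (z i))))) = tp i
    simpa [Equiv.symm_apply_eq] using this
  · refine h3.imp (fun h i => ?_) fun h i => ?_
    · have := h (z i)
      simp only [Equiv.Perm.coe_inv, Equiv.symm_apply_apply] at this
      change z⁻¹ (σ (z i)) = i ∨ z⁻¹ (σ (z i)) = tp i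
      simpa [Equiv.symm_apply_eq] using this
    · have := h (z i)
      simp only [Equiv.Perm.coe_inv, Equiv.symm_apply_apply] at this
      change z⁻¹ (σ (z i)) ≠ i ∧ z⁻¹ (σ (z i)) ≠ tp i
      simpa [Equiv.symm_apply_eq] using this

theorem K_inf_ne_bot (z : Equiv.Perm (Fin 8)) : K ⊓ cj(z, K) ≠ ⊥ := by
  have h0 : ∀ i, tf i ≠ i := by decide
  have hg := good (s := (z * tp * z⁻¹ : Equiv.Perm (Fin 8))) (fun i => by simp [tp, tf_tf])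
    (fun i h => h0 (z⁻¹ i) (by
      have : z (tf (z⁻¹ i)) = i := h
      exact z.injective (by simpa using this)))
  intro hb
  have key : ∀ σ : Equiv.Perm (Fin 8), Kp tf σ → Kp (z * tp * z⁻¹ : Equiv.Perm (Fin 8)) σ → σ = 1 :=
    fun σ a b => mem_bot.1 (hb ▸ mem_inf.2 ⟨mem_K a, mem_cj_K b⟩)
  rcases hg with ⟨i, a, b⟩ | ⟨a, b, c⟩ | ⟨a, b, c⟩
  · exact h0 i (Equiv.swap_eq_one_iff.1 (key _ a b)).symm
  · exact c (DFunLike.congr_fun (key (tp * (z * tp * z⁻¹)) a b) 0)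
  · exact c (DFunLike.congr_fun (key (tp * (z * tp * z⁻¹) * (tp * (z * tp * z⁻¹))) a b) 0)

/-- In the symmetric group on 8 letters any two Sylow 2-subgroups have non-trivial intersection: for a Sylow 2-subgroup H and every element x, H ∩ xHx⁻¹ ≠ 1. -/
theorem result (H : Sylow 2 (Equiv.Perm (Fin 8))) (x : Equiv.Perm (Fin 8)) :
    (H : Subgroup (Equiv.Perm (Fin 8))) ⊓ (H : Subgroup (Equiv.Perm (Fin 8))).map (MulAut.conj x).toMonoidHom ≠ ⊥ := by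
  have : Fact (Nat.Prime 2) := ⟨Nat.prime_two⟩
  obtain ⟨y, -, hy⟩ := (isSyl_top H).exists_cj_le isPGroup_K le_top
  intro hb
  apply K_inf_ne_bot (y⁻¹ * x * y)
  rw [← cj_eq_bot (g := y), cj_inf, ← cj_mul, ← le_bot_iff, ← hb]
  refine inf_le_inf hy ?_
  rw [show y * (y⁻¹ * x * y) = x * y by group, cj_mul]
  exact cj_mono x hy

end Cfsg.Agent.S5763
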