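import Cfsg.Statements.S5769
import Mathlib
import Cfsg.Agent.Chev.E72Main
import Cfsg.Agent.Class.Spec.Blk

set_option autoImplicit false
open Cfsg

namespace Cfsg.Agent.S5769

open Cfsg.Agent.Class Cfsg.Agent.Class.Spec

section
variable {M : Type*} [CommGroup M] {α : M} (h : orderOf α = 65)
include h

theorem zp (k : ℤ) : α ^ k = 1 ↔ 65 ∣ k := by rw [← orderOf_dvd_iff_zpow_eq_one, h]; rfl

theorem fx {Q : ℤ} {d : ℕ} (e : Q ^ d = 4096) : α ^ Q ^ d = α := by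
  rw [zpow_eq_self_iff, zp h, e]; norm_num

theorem pk {Q : ℤ} {d : ℕ} (hd : 0 < d) (e : Q ^ d = 4096) (hQ : IsCoprime 65 (Q - 1)) (N : ℕ) :
    PK 2 (blk Q d α 1) N ↔ 65 ∣ N := by
  rw [PK_blk_iff hd (fx h e), zp h]
  simp only [Nat.clog_one_right, pow_zero, one_dvd, and_true]
  exact ⟨fun k => by exact_mod_cast hQ.dvd_of_dvd_mul_left k,
    fun k => Dvd.dvd.mul_left (by exact_mod_cast k) _⟩

theorem ne {c : M} (hc : c * c = 1) (e : ℕ) : (c, e) ∉ blk 8 4 α 1 := fun hm => by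
  obtain ⟨i, hi, e⟩ := mem_blk.1 hm
  rw [← (Prod.mk.inj e).1, ← zpow_add, zp h] at hc
  interval_cases i <;> norm_num at hc

theorem inv : (blk 8 4 α 1).map (tw (-1)) = blk 8 4 α 1 := by
  have e : α ^ (-1 : ℤ) = α ^ ((8 : ℤ) ^ 2) := by
    rw [eq_comm, ← mul_inv_eq_one, ← zpow_sub, zp h]; norm_num
  rw [map_tw_blk, e, ← map_tw_blk]
  exact map_tw_pow (valid_blk (fx h (by norm_num)) one_pos).inv 2

end

theorem key {X : Type*} [Group X] {H : Subgroup E72.G} :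
    65 ∈ Set.range (orderOf : X → ℕ) → IsEmpty (H ≃* X) :=
  fun ⟨g, hg⟩ => ⟨fun e => E72.orderOf_ne (e.symm g : H) (by
    rw [Subgroup.orderOf_coe, MulEquiv.orderOf_eq, hg])⟩

/-- The Chevalley group of type E₇ over the field with two elements (generated by its root elements in the adjoint representation) has no subgroup isomorphic to any of PSL₂(64), PSp₄(8), PSL₄(8), PSU₄(8) or PSp₆(8). Here F₈ and F₆₄ denote fields with 8 and 64 elements. -/
theorem result {F₈ F₆₄ : Type*} [Field F₈] [Fintype F₈] (h8 : Fintype.card F₈ = 8) [Field F₆₄] [Fintype F₆₄] (h64 : Fintype.card F₆₄ = 64)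
    (H : Subgroup ↥(Cfsg.Lie.chevE7.group (ZMod 2))) :
    IsEmpty (↥H ≃* Matrix.ProjectiveSpecialLinearGroup (Fin 2) F₆₄) ∧ IsEmpty (↥H ≃* Cfsg.PSp 2 F₈) ∧
    IsEmpty (↥H ≃* Matrix.ProjectiveSpecialLinearGroup (Fin 4) F₈) ∧ IsEmpty (↥H ≃* Cfsg.PSU 4 F₆₄ 8) ∧ IsEmpty (↥H ≃* Cfsg.PSp 3 F₈) := by
  have c8 : CharP F₈ 2 := charP_of_card_eq_prime_pow (p := 2) (f := 3) h8
  have c64 : CharP F₆₄ 2 := charP_of_card_eq_prime_pow (p := 2) (f := 6) h64
  obtain ⟨α, hα⟩ := (isQ_card F₈ (AlgebraicClosure F₈) Nat.prime_two).ex 65 (by norm_num)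
  obtain ⟨β, hβ⟩ := (isQ_card F₆₄ (AlgebraicClosure F₆₄) Nat.prime_two).ex 65 (by norm_num)
  have hv := valid_blk (fx hα (Q := 8) (d := 4) (by norm_num)) one_pos
  have hk := pk hα (Q := 8) (d := 4) (by norm_num) (by norm_num) (by decide)
  have : U.UF F₆₄ 8 := U.UF.of_card h64
  refine ⟨key ?_, key ?_, key ?_, key ?_, key ?_⟩
  · refine ((models_PSL F₆₄ (AlgebraicClosure F₆₄) 2 Nat.prime_two 2).mem_range_iff 65).2
      ⟨blk 64 2 β 1, ⟨h64 ▸ valid_blk (fx hβ (Q := 64) (d := 2) (by norm_num)) one_pos, ?_⟩,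
        pk hβ (by norm_num) (by norm_num) (by decide)⟩
    rw [jdet_blk, pow_one, zp hβ]; decide
  · refine ((models_PSp F₈ (AlgebraicClosure F₈) 2 Nat.prime_two 2).mem_range_iff 65).2
      ⟨blk 8 4 α 1, ⟨h8 ▸ hv, inv hα, fun c e hc _ => ?_⟩, hk⟩
    simp [Multiset.count_eq_zero_of_notMem (ne hα hc e)]
  · refine ((models_PSL F₈ (AlgebraicClosure F₈) 2 Nat.prime_two 4).mem_range_iff 65).2
      ⟨blk 8 4 α 1, ⟨h8 ▸ hv, ?_⟩, hk⟩
    rw [jdet_blk, pow_one, zp hα]; decide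
  · refine ((models_PSU F₆₄ (AlgebraicClosure F₆₄) 2 Nat.prime_two 8 (by norm_num)).mem_range_iff
      65).2 ⟨blk (-8) 4 β 1, ⟨valid_blk (fx hβ (Q := -8) (d := 4) (by norm_num)) one_pos, ?_⟩,
        pk hβ (by norm_num) (by norm_num) (by decide)⟩
    rw [jdet_blk, pow_one, zp hβ]; decide
  · refine ((models_PSp F₈ (AlgebraicClosure F₈) 2 Nat.prime_two 3).mem_range_iff 65).2
      ⟨blk 8 4 α 1 + idb _ 2, ⟨h8 ▸ hv.add (valid_idb 2), ?_, fun c e hc _ => ?_⟩, fun N => ?_⟩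
    · rw [Multiset.map_add, inv hα, (valid_idb 2).inv]
    · rw [Multiset.count_add, Multiset.count_eq_zero_of_notMem (ne hα hc e), idb,
        Multiset.count_replicate]
      split_ifs <;> decide
    · simp only [PK, KB_add, KB_idb, KB_blk_iff (by norm_num : 0 < 4) (fx hα (Q := 8) (by norm_num))]
      rw [← hα, orderOf_dvd_iff_pow_eq_one]
      exact ⟨fun ⟨c, h1, h2⟩ => h1.1.trans (h2.resolve_left two_ne_zero), fun h => ⟨1, by simp [h]⟩⟩

end Cfsg.Agent.S5769
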