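import Cfsg.Statements.S5883
import Cfsg.Agent.Spor.Fi23N3B
import Cfsg.Agent.S0144
import Cfsg.Agent.KSG.MultCov
-- import your own Cfsg.Agent.* helpers here

set_option autoImplicit false
open Cfsg

namespace Cfsg.Agent.S5883

/-- The constant 10 in the statement that H⁽¹⁰⁾ is perfect for every maximal subgroup H of a finite almost simple group cannot be lowered to 9: there exist a finite almost simple group G (with a non-abelian simple normal subgroup of trivial centralizer) and a maximal subgroup H of G whose ninth derived subgroup H⁽⁹⁾ is not perfect, i.e. H⁽¹⁰⁾ ≠ H⁽⁹⁾. (A solvable maximal subgroup of derived length 10 in the Fischer group Fi₂₃ is such an example.) -/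
theorem result :
    ∃ (G : Type) (_ : Group G) (_ : Finite G) (S H : Subgroup G), S.Normal ∧ IsSimpleGroup S ∧ ¬ IsMulCommutative S ∧
      Subgroup.centralizer (S : Set G) = ⊥ ∧ IsCoatom H ∧ derivedSeries H 10 ≠ derivedSeries H 9 := by
  obtain ⟨H, h1, h2, h3⟩ := Spor.Fi23N3B.main
  have fin := Comp.finite_of_le_supp Spor.Fi23N3B.hsupp
  have := Spor.FiC.M23.simple
  have hs : IsSimpleGroup Spor.Fi23N3B.G := Spor.Fi23N3B.equiv.symm.isSimpleGroup
  have hc : commutator Spor.Fi23N3B.G = ⊤ :=
    KSG.Pc.commutator_eq_top_of_simple (by rw [Spor.Fi23N3B.hn]; norm_num)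
  have hna : ¬ IsMulCommutative Spor.Fi23N3B.G := fun h => by
    rw [(commutator_eq_bot_iff _).2 h] at hc
    exact bot_ne_top hc
  have hsol : Group.IsSolvable H :=
    Cfsg.Agent.S0144.result 2 3 11 13 Nat.prime_two Nat.prime_three (by rw [h2]; norm_num)
  refine ⟨Spor.Fi23N3B.G, inferInstance, fin, ⊤, H, inferInstance, Subgroup.topEquiv.isSimpleGroup, fun h => hna ?_, ?_,
    h1, Comp.derivedSeries_ne h3⟩
  · exact ⟨⟨fun a b => congrArg Subtype.val (h.1.1 ⟨a, trivial⟩ ⟨b, trivial⟩)⟩⟩
  · rw [Subgroup.coe_top, Subgroup.centralizer_univ]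
    refine (Subgroup.Normal.eq_bot_or_eq_top inferInstance).resolve_right fun h => hna ⟨⟨fun a b => ?_⟩⟩
    exact Subgroup.mem_center_iff.1 (h ▸ Subgroup.mem_top b) a

end Cfsg.Agent.S5883
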