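import Cfsg.Statements.S5885
import Mathlib
import Cfsg.Agent.KSG.AutSym
import Cfsg.Agent.KSG.PartStab

set_option autoImplicit false
open Cfsg

namespace Cfsg.Agent.S5885

open Equiv Equiv.Perm MulAction KSG
open scoped Pointwise


/-- Let n be an odd positive integer such that every primitive permutation group of degree n contains the alternating group (so the symmetric and alternating groups are the only primitive groups of degree n). Let G be a finite group, M a maximal subgroup of G of index n, and H a maximal subgroup of M. Then H is a second maximal subgroup of G: H is maximal in every maximal subgroup K of G containing H. -/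
theorem result {G : Type*} [Group G]
    [Finite G] (n : ℕ) (hodd : Odd n)
    (hA : ∀ P : Subgroup (Equiv.Perm (Fin n)), MulAction.IsPreprimitive P (Fin n) → alternatingGroup (Fin n) ≤ P)
    (M : Subgroup G) (hM : IsCoatom M) (hn : M.index = n) (H : Subgroup G) (hHM : H ≤ M)
    (hmax : IsCoatom (H.subgroupOf M)) (K : Subgroup G) (hK : IsCoatom K) (hHK : H ≤ K) :
    IsCoatom (H.subgroupOf K) := by
  classical
  obtain ⟨φ, x, -, hx⟩ := exists_hom_of_index (α := Fin n) M (by simpa using hn)
  let _ : MulAction G (Fin n) := MulAction.compHom _ φ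
  have sm : ∀ (g : G) (y : Fin n), g • y = φ g y := fun _ _ => rfl
  have hMs : M = stabilizer G x := by ext g; exact (hx g).symm
  have hcard : Nat.card (Fin n) = n := by simp
  have htr : IsPretransitive G (Fin n) := by
    rw [isPretransitive_iff_orbit_eq_univ x]
    apply Set.eq_of_subset_of_ncard_le (Set.subset_univ _)
    rw [← index_stabilizer, ← hMs, hn, Set.ncard_univ, hcard]
  have hnt : Nontrivial (Fin n) := by
    rw [Fin.nontrivial_iff_two_le]
    have h1 : n ≠ 1 := fun h => hM.1 (Subgroup.index_eq_one.1 (hn.trans h))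
    have := hodd.pos
    omega
  have hprim : IsPreprimitive G (Fin n) := (isCoatom_stabilizer_iff_preprimitive G x).1 (hMs ▸ hM)
  have hAle : ∀ σ : Perm (Fin n), sign σ = 1 → ∃ g : G, φ g = σ := fun σ hσ =>
    hA φ.range (IsPreprimitive.of_surjective (φ := φ.rangeRestrict)
      (f := ⟨id, fun _ _ => rfl⟩) Function.surjective_id) hσ
  by_cases hKM : K = M
  · rwa [hKM]
  have hmax' : ∀ T : Subgroup G, H ≤ T → ¬ M ≤ T → M ⊓ T = H := by
    intro T h1 h2
    refine le_antisymm ?_ (le_inf hHM h1)
    by_contra h3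
    have := hmax.2 (T.subgroupOf M) (lt_of_le_of_ne (Subgroup.comap_mono h1) fun h => h3 ?_)
    · exact h2 (Subgroup.subgroupOf_eq_top.1 this)
    · rintro g ⟨a, b⟩
      have : (⟨g, a⟩ : M) ∈ T.subgroupOf M := b
      rw [← h] at this
      exact this
  have hH : M ⊓ K = H := hmax' K hHK fun h => hKM (hM.le_iff.1 h |>.resolve_left hK.1)
  have hHs : H.subgroupOf K = stabilizer K x := by
    ext g
    rw [← hH, hMs]
    exact ⟨fun h => h.1, fun h => ⟨h, g.2⟩⟩
  rw [hHs]
  by_cases htK : IsPretransitive K (Fin n)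
  · rw [isCoatom_stabilizer_iff_preprimitive]
    refine IsPreprimitive.of_isTrivialBlock_base x fun {B} hxB hB => ?_
    by_contra hnt
    rw [IsTrivialBlock, not_or, Set.not_subsingleton_iff, ← Ne, Set.ne_univ_iff_exists_notMem] at hnt
    obtain ⟨hB2, p, hp⟩ := hnt
    obtain ⟨k, hk⟩ := htK.exists_smul_eq x p
    have hpB : p ∈ k • B := ⟨x, hxB, hk⟩
    have hdis : Disjoint (k • B) B := (hB.smul_eq_or_disjoint k).resolve_left fun h => hp (h ▸ hpB)
    obtain ⟨q, hq, hqp⟩ := (Set.Nontrivial.image_of_injOn hB2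
      (MulAction.injective k).injOn).exists_ne p
    obtain ⟨r, hr⟩ : ∃ r, r ∉ k • B ∪ B := by
      by_contra! h
      have h1 := Set.ncard_union_eq hdis
      rw [Set.eq_univ_of_forall h, Set.ncard_smul_set, Set.ncard_univ, hcard] at h1
      exact (Nat.not_even_iff_odd.2 hodd) ⟨_, h1⟩
    rw [Set.mem_union, not_or] at hr
    have hqB : q ∉ B := Set.disjoint_left.1 hdis hq
    have hqr : q ≠ r := by rintro rfl; exact hr.1 hq
    have hpr : p ≠ r := by rintro rfl; exact hr.1 hpB
    have key : ∀ g : G, φ g x = x → (∀ y ∈ B, φ g y ∈ B) → g ∈ K := by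
      intro g h1 h2
      have hT := hmax' (stabilizer G B) (fun h hh => hB.smul_eq_of_mem (g := ⟨h, hHK hh⟩) hxB
        (by change φ h x ∈ B; rw [(hx h).2 (hHM hh)]; exact hxB)) (fun h => by
          obtain ⟨y, hy, hyx⟩ := hB2.exists_ne x
          have n1 : y ≠ p := by rintro rfl; exact hp hy
          obtain ⟨g, hg⟩ := hAle _ (c3_mem_alternatingGroup n1 hpr)
          have h1 : g ∈ M := (hx g).1 (by
            rw [hg, c3_apply_of_ne hyx.symm] <;> rintro rfl
            exacts [hp hxB, hr.2 hxB])
          have h2 : g • y ∈ g • B := Set.smul_mem_smul_set hy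
          rw [mem_stabilizer_iff.1 (h h1), sm, hg,
            c3_apply_fst n1 (by rintro rfl; exact hr.2 hy)] at h2
          exact hp h2)
      refine hHK (hT ▸ ⟨(hx g).1 h1, ?_⟩)
      refine Set.eq_of_subset_of_ncard_le ?_ (by rw [Set.ncard_smul_set])
      rintro _ ⟨y, hy, rfl⟩
      exact h2 y hy
    obtain ⟨g, hg⟩ := hAle _ (c3_mem_alternatingGroup hqp.symm hqr)
    have hfix : ∀ y ∈ B, φ g y = y := fun y hy => by
      rw [hg, c3_apply_of_ne] <;> rintro rfl
      exacts [hp hy, hqB hy, hr.2 hy]
    have hgK := key g (hfix x hxB) fun y hy => by rwa [hfix y hy]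
    have h1 := (hB.translate k).smul_eq_of_mem (g := ⟨g, hgK⟩) hpB (by
      change φ g p ∈ _
      rwa [hg, c3_apply_fst hqp.symm hpr])
    have h2 : (⟨g, hgK⟩ : K) • q ∈ (⟨g, hgK⟩ : K) • k • B := Set.smul_mem_smul_set hq
    rw [h1] at h2
    change φ g q ∈ _ at h2
    rw [hg, c3_apply_snd hpr hqr] at h2
    exact hr.1 h2
  · set Δ := orbit K x with hΔ
    obtain ⟨u, hu⟩ : ∃ u, u ∉ Δ := by
      rw [isPretransitive_iff_orbit_eq_univ x] at htK
      exact (Set.ne_univ_iff_exists_notMem _).1 htK
    have hxΔ : x ∈ Δ := mem_orbit_self x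
    have hKs : stabilizer G Δ = K := by
      refine (hK.le_iff.1 fun k hk => smul_orbit (⟨k, hk⟩ : K) x).resolve_left fun h => ?_
      obtain ⟨g, hg⟩ := htr.exists_smul_eq x u
      have : g • x ∈ g • Δ := Set.smul_mem_smul_set hxΔ
      rw [mem_stabilizer_iff.1 (h ▸ Subgroup.mem_top g : g ∈ stabilizer G Δ), hg] at this
      exact hu this
    have key : ∀ σ : Perm (Fin n), sign σ = 1 → (∀ y ∈ Δ, σ y ∈ Δ) → ∃ k : K, φ k = σ := by
      intro σ h1 h2
      obtain ⟨g, rfl⟩ := hAle σ h1
      refine ⟨⟨g, hKs ▸ ?_⟩, rfl⟩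
      refine Set.eq_of_subset_of_ncard_le ?_ (by rw [Set.ncard_smul_set])
      rintro _ ⟨y, hy, rfl⟩
      exact h2 y hy
    have sw : ∀ a b y, a ∈ Δ → b ∈ Δ → y ∈ Δ → swap a b y ∈ Δ := by
      intro a b y h1 h2 h3
      rw [swap_apply_def]; split_ifs <;> assumption
    have tr : ∀ y ∈ Δ, ∀ z ∈ Δ, y ≠ x → z ≠ x → ∃ k : K, k • x = x ∧ k • y = z := by
      intro y hy z hz h1 h2
      by_cases hyz : y = z
      · exact ⟨1, one_smul _ _, by rw [one_smul, hyz]⟩
      by_cases h3 : ∃ v, v ∉ Δ ∧ v ≠ u
      · obtain ⟨v, hv, hvu⟩ := h3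
        have fx : ∀ w ∈ Δ, swap u v w = w := fun w hw =>
          swap_apply_of_ne_of_ne (by rintro rfl; exact hu hw) (by rintro rfl; exact hv hw)
        obtain ⟨k, hk⟩ := key (swap y z * swap u v) (by simp [hyz, hvu.symm]) fun w hw => by
          rw [Perm.mul_apply, fx w hw]; exact sw _ _ _ hy hz hw
        refine ⟨k, ?_, ?_⟩
        · change φ k x = x
          rw [hk, Perm.mul_apply, fx x hxΔ, swap_apply_of_ne_of_ne h1.symm h2.symm]
        · change φ k y = z
          rw [hk, Perm.mul_apply, fx y hy, swap_apply_left]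
      · push Not at h3
        obtain ⟨w, w1, w2, w3, w4⟩ : ∃ w, w ≠ x ∧ w ≠ y ∧ w ≠ z ∧ w ≠ u := by
          by_contra! h
          have h4 : (Finset.univ : Finset (Fin n)) = {x, y, z, u} := by
            ext w
            have := h w
            simp only [Finset.mem_univ, Finset.mem_insert, Finset.mem_singleton, true_iff]
            tauto
          have h5 := congrArg Finset.card h4
          have a1 : x ≠ u := by rintro rfl; exact hu hxΔ
          have a2 : y ≠ u := by rintro rfl; exact hu hy
          have a3 : z ≠ u := by rintro rfl; exact hu hz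
          rw [Finset.card_insert_of_notMem (by simp [h1.symm, h2.symm, a1]),
            Finset.card_insert_of_notMem (by simp [hyz, a2]),
            Finset.card_insert_of_notMem (by simp [a3])] at h5
          simp at h5
          rw [h5] at hodd
          exact absurd hodd (by decide)
        have hw : w ∈ Δ := by by_contra h; exact w4 (h3 w h)
        obtain ⟨k, hk⟩ := key _ (c3_mem_alternatingGroup hyz w3.symm) fun a ha =>
          sw _ _ _ hy hz (sw _ _ _ hz hw ha)
        refine ⟨k, ?_, ?_⟩
        · change φ k x = x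
          rw [hk, c3_apply_of_ne h1.symm h2.symm w1.symm]
        · change φ k y = z
          rw [hk, c3_apply_fst hyz w2.symm]
    refine ⟨fun h => hKM ?_, fun L hL => ?_⟩
    · have : K ≤ M := fun k hk => hMs ▸ (h ▸ Subgroup.mem_top _ : (⟨k, hk⟩ : K) ∈ stabilizer K x)
      exact ((hK.le_iff.1 this).resolve_left hM.1).symm
    · obtain ⟨l, hl, hl'⟩ := SetLike.exists_of_lt hL
      rw [eq_top_iff]
      intro k _
      by_cases h : k • x = x
      · exact hL.le h
      obtain ⟨h, h1, h2⟩ := tr _ (mem_orbit x l) _ (mem_orbit x k) hl' h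
      have : (h * l)⁻¹ * k ∈ L := hL.le (by
        rw [mem_stabilizer_iff, mul_smul, inv_smul_eq_iff, mul_smul, h2])
      exact (Subgroup.mul_mem_cancel_left L (inv_mem (mul_mem (hL.le h1) hl))).1 this

end Cfsg.Agent.S5885
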