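import Cfsg.Statements.S5887
import Cfsg.Agent.Class.Max.C3Z

set_option autoImplicit false
open Cfsg

namespace Cfsg.Agent.S5887

open Module Class.Max

theorem key {F K V : Type*} [Field F] [Field K] [Algebra F K] [AddCommGroup V] [Module F V]
    [Module K V] [IsScalarTower F K V] [Finite K] [Finite V] (hr1 : 1 < finrank F K)
    (hrp : ¬ (finrank F K).Prime) (hm : 2 ≤ finrank K V) :
    ∃ N : Subgroup (V ≃ₗ[F] V), GamL F K V ≤ N ∧ (∃ g ∈ N ⊓ SLV F V, g ∉ GamL F K V) ∧
      ∃ g ∈ SLV F V, g ∉ N := by
  have : FiniteDimensional F K := Module.Finite.of_finite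
  obtain ⟨p, hp, hpr⟩ := Nat.exists_prime_and_dvd hr1.ne'
  have : Fact p.Prime := ⟨hp⟩
  obtain ⟨σ, hσ⟩ := exists_prime_orderOf_dvd_card' (G := K ≃ₐ[F] K) p
    (by rwa [IsGalois.card_aut_eq_finrank])
  let L := IntermediateField.fixedField (Subgroup.zpowers σ)
  have h1 : finrank L K = p := by
    rw [IntermediateField.finrank_fixedField_eq_card, Nat.card_zpowers, hσ]
  have h2 := Module.finrank_mul_finrank F L K
  have h3 : 2 ≤ finrank F L := by
    have : 0 < finrank F L := finrank_pos
    by_contra hc
    have : finrank F L = 1 := by omega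
    rw [this, one_mul, h1] at h2
    exact hrp (h2 ▸ hp)
  have h4 := Module.finrank_mul_finrank L K V
  have : IsScalarTower F L V := ⟨fun c l v => smul_assoc c (l : K) v⟩
  have : Nontrivial V := Module.nontrivial_of_finrank_pos (R := K) (by omega)
  refine ⟨GamL F L V, ?_, ?_, exists_SLV_notMem_GamL h3 (by rw [← h4, h1]; nlinarith [hp.two_le])⟩
  · have key : ∀ g ∈ GamL F K V, ∀ k : L, ∃ k' : L, ∀ v, g (k • v) = k' • g v := by
      intro g hg k
      choose τ hτ using hg.1
      obtain ⟨x, hx⟩ := exists_ne (0 : V)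
      have inj := smul_left_injective K (g.map_ne_zero_iff.2 hx)
      let τ' : K →ₐ[F] K :=
        { toFun := τ
          map_one' := inj (by dsimp only; rw [← hτ, one_smul, one_smul])
          map_mul' := fun a b => inj (by dsimp only; rw [← hτ, mul_smul, hτ, hτ, mul_smul])
          map_zero' := inj (by dsimp only; rw [← hτ, zero_smul, zero_smul, map_zero])
          map_add' := fun a b => inj (by dsimp only; rw [← hτ, add_smul, add_smul, map_add, hτ, hτ])
          commutes' := fun c => inj (by
            dsimp only; rw [← hτ, algebraMap_smul, algebraMap_smul, map_smul]) }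
      have := IntermediateField.normal_iff_forall_map_le.1 (inferInstance : Normal F L) τ'
      exact ⟨⟨τ k, this ⟨k, k.2, rfl⟩⟩, hτ k⟩
    intro g hg
    refine ⟨key g hg, fun k => ?_⟩
    obtain ⟨k', hk'⟩ := key _ ((GamL F K V).inv_mem hg) k
    exact ⟨k', fun v => by simpa using (congrArg g (hk' (g v))).symm⟩
  · obtain ⟨g, h5, h6⟩ := exists_SLV_notMem_GamL (F := L) (K := K) (V := V) (h1 ▸ hp.two_le) hm
    refine ⟨g.restrictScalars F, ⟨restrictScalars_mem_GamL g, mem_SLV.2 ?_⟩, h6⟩
    have := LinearMap.det_restrictScalars (R := F) (f := (g : V →ₗ[L] V))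
    rw [mem_SLV.1 h5, map_one] at this
    exact this

/-- Let F be a finite field, n a positive integer and r a composite number (r > 1, not prime) that divides n with r < n. Let K be a subalgebra of the algebra of n × n matrices over F which is a field of degree r over F (commutative, every non-zero element invertible, of dimension r over F). Then the normaliser N of K in GL_n(F) (a group of type ΓL_{n/r}(F_{q^r})) is not a maximal subgroup of GL_n(F), and N ∩ SL_n(F) is not a maximal subgroup of SL_n(F): both lie properly inside the normaliser of an intermediate subfield of prime degree over F. -/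
theorem result {F : Type*} [Field F]
    [Fintype F] (n r : ℕ) (hr1 : 1 < r) (hrp : ¬ r.Prime) (hrn : r ∣ n) (hlt : r < n)
    (K : Subalgebra F (Matrix (Fin n) (Fin n) F)) (hK : Cfsg.Geo.IsFieldSubalgebra r K) :
    ¬ IsCoatom (Cfsg.Geo.subalgebraNormalizer K) ∧
      ¬ Cfsg.Geo.IsMaximalIn (Cfsg.Geo.specialLinear (Fin n) F)
        (Cfsg.Geo.subalgebraNormalizer K ⊓ Cfsg.Geo.specialLinear (Fin n) F) := by
  have : Nonempty (Fin n) := ⟨⟨0, by omega⟩⟩
  let := (isField_of hK).toField
  have h1 := mul_finrank_eq hK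
  rw [Fintype.card_fin] at h1
  obtain ⟨N, n1, ⟨g, n2, n3⟩, g', n4, n5⟩ := key (F := F) (K := K) (V := Fin n → F)
    (hK.finrank_eq ▸ hr1) (hK.finrank_eq ▸ hrp) (by
      by_contra hc
      have : r * finrank K (Fin n → F) ≤ r * 1 := Nat.mul_le_mul_left _ (by omega)
      omega)
  constructor
  · intro h
    obtain ⟨L, h2, h3⟩ := exists_between_of_equiv (glEquiv (Fin n) F) (K := ⊤) (K' := ⊤)
      (fun _ => Iff.rfl) (mem_subalgebraNormalizer_iff K)
      (exists_between_of n1 le_top ⟨g, n2.1, n3⟩ ⟨g', trivial, n5⟩)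
    exact h3.ne (h.2 L h2)
  · intro h
    obtain ⟨L, h2, h3⟩ := exists_between_of_equiv (glEquiv (Fin n) F)
      (H := Geo.subalgebraNormalizer K ⊓ Geo.specialLinear (Fin n) F)
      (H' := GamL F K (Fin n → F) ⊓ SLV F _) mem_specialLinear_iff
      (fun g => and_congr (mem_subalgebraNormalizer_iff K g) (mem_specialLinear_iff g))
      (exists_between_of (L := N ⊓ SLV F _) (inf_le_inf_right _ n1) inf_le_right
        ⟨g, n2, fun h => n3 h.1⟩ ⟨g', n4, fun h => n5 h.1⟩)
    exact (h.2 L h2.le h3.le).elim h2.ne' h3.ne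

end Cfsg.Agent.S5887
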