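import Cfsg.Statements.S5890
import Cfsg.Agent.Class.PGL2Maximal

set_option autoImplicit false
open Cfsg

namespace Cfsg.Agent.S5890

open Cfsg.Agent.Class Cfsg.Agent.Class.Dickson KSG KSG.M2 Matrix MatrixGroups Subgroup MulAction

theorem card_comap {F : Type*} [Field F] [Fintype F] (h2 : (2 : F) ≠ 0) {M : Subgroup PGL(2, F)}
    (hM : ¬ M ≤ pslSub F) : ((pslSub F).subgroupOf M).index = 2 ∧
      2 * Nat.card (M.comap (pslTo F)) = Nat.card M := by
  have h1 : ((pslSub F).subgroupOf M).index = 2 := by
    have h3 := relIndex_dvd_index_of_normal (pslSub F) M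
    rw [index_pslSub h2] at h3
    exact ((Nat.dvd_prime Nat.prime_two).1 h3).resolve_left fun h => hM (relIndex_eq_one.1 h)
  refine ⟨h1, ?_⟩
  rw [← ((pslSub F).subgroupOf M).index_mul_card, h1,
    ← card_map_of_injective (K := M.comap (pslTo F)) pslTo_injective, map_comap_eq,
    ← card_map_of_injective (K := (pslSub F).subgroupOf M) M.subtype_injective, subgroupOf_map_subtype]
  rfl

theorem aux {F : Type*} [Field F]
    [Fintype F] (h4 : 4 ≤ Fintype.card F) (h7 : Fintype.card F ≠ 7) (h9 : Fintype.card F ≠ 9) (h11 : Fintype.card F ≠ 11)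
    (h40 : (Fintype.card F).Prime → Fintype.card F % 40 ∉ ({11, 19, 21, 29} : Finset ℕ))
    (M : Subgroup PGL(2, F)) (hM : IsCoatom M) (hML : ¬ pslSub F ≤ M) :
    IsCoatom (M.comap (pslTo F)) := by
  by_cases h2 : (2 : F) = 0
  · have hb : Function.Bijective (pslTo F) := ⟨pslTo_injective, fun g =>
      pglOf_le_pslSub (RingHom.id F) (pow_one _) (Or.inr h2) ⟨g, by
        obtain ⟨a, rfl⟩ := exists_pmk g
        rfl⟩⟩
    exact ((MulEquiv.ofBijective _ hb).comapSubgroup.isCoatom_iff M).2 hM
  have hne : M.comap (pslTo F) ≠ ⊤ := fun h => hML (by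
    rintro _ ⟨g, rfl⟩
    exact (h ▸ mem_top g : g ∈ M.comap (pslTo F)))
  obtain ⟨hi, hc⟩ := card_comap h2 (M := M) fun h => hML ((hM.le_iff.1 h).resolve_left fun h => by
    have := index_pslSub h2
    rw [h, index_top] at this
    omega).le
  have ho := odd_card_of_two_ne h2
  rw [Nat.card_eq_fintype_card, Nat.odd_iff] at ho
  have hg : Nat.gcd 2 (Fintype.card F - 1) = 2 :=
    ((gcd_two_cases (q := Fintype.card F) (by omega)).resolve_left (by omega)).1
  rcases maximal_PGL2 h2 h4 hM hML with
    ⟨x, rfl⟩ | ⟨a, ha, hn, h5, ⟨e⟩⟩ | ⟨h1, h8, ⟨e⟩⟩ | ⟨K, r, b, hr, hr', hK, rfl⟩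
  · have : Nontrivial (P1 F) := ⟨⟨_, _, inf_ne_pt 0⟩⟩
    have := (isCoatom_stabilizer_iff_preprimitive PSL(2, F) x).2 inferInstance
    convert this using 1
    ext g
    rw [mem_comap, mem_stabilizer_iff, mem_stabilizer_iff, pslTo_smul]
  · obtain ⟨g, hga⟩ := mul_self_mem_of_index_two (index_pslSub h2) a
    obtain ⟨g, rfl⟩ := pslMk_surjective g
    change pslTo F (pslMk F g) = a * a at hga
    have ha1 : a * a ≠ 1 := fun h => by
      have := Nat.le_of_dvd two_pos (orderOf_dvd_of_pow_eq_one ((sq a).trans h))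
      omega
    have ht : (g : Matrix (Fin 2) (Fin 2) F).trace ^ 2 ≠ 4 := fun h => by
      have : Fact (ringChar F).Prime := ⟨CharP.char_is_prime F _⟩
      have h1 := congrArg (pslTo F) (pslMk_pow_char_of_trace (ringChar F) h)
      rw [map_pow, hga, map_one] at h1
      have h3 : orderOf (a * a) ∣ orderOf a := orderOf_dvd_of_mem_zpowers
        (mul_mem (mem_zpowers a) (mem_zpowers a))
      rw [orderOf_eq_prime h1 ha1] at h3
      obtain ⟨k, hp, hk⟩ := FiniteField.card F (ringChar F)
      have h6 : ringChar F ∣ Fintype.card F := hk ▸ dvd_pow_self _ k.ne_zero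
      refine hp.one_lt.ne' (Nat.dvd_one.1 ?_)
      rcases h5 with ⟨-, h5⟩ | h5 <;> rw [h5] at h3
      · simpa [Nat.sub_sub_self (show 1 ≤ Fintype.card F by omega)] using Nat.dvd_sub h6 h3
      · exact (Nat.dvd_add_right h6).1 h3
    obtain ⟨D, ⟨i⟩, hfix, hD, -⟩ := exists_dihedral_of_trace' ht
    have hn' : M ≤ normalizer (zpowers (a * a) : Set PGL(2, F)) := by
      intro m hm
      refine mem_normalizer_fintype ?_
      rintro _ ⟨n, rfl⟩
      obtain ⟨k, hk⟩ := (mem_normalizer_iff.1 (hn hm) a).1 (mem_zpowers a)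
      rw [← conj_zpow, ← conj_mul, ← hk]
      exact zpow_mem (mem_zpowers_iff.2 ⟨k, (Commute.refl a).mul_zpow k⟩) n
    have hMn := (hM.le_iff.1 hn').resolve_left (normalizer_ne_top_PGL h4 (by simpa using ha1)
      (not_pslSub_le_of_solvable h4 (Group.isSolvable_of_comm
        (isCyclic_zpowers _).isMulCommutative.is_comm.comm)))
    have hle : D ≤ M.comap (pslTo F) := by
      intro d hd
      obtain ⟨n, rfl, hn⟩ := hD d hd
      rw [mem_comap, ← hMn, ← hga]
      refine mem_normalizer_fintype ?_
      rintro _ ⟨k, rfl⟩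
      rw [← conj_zpow, ← map_inv, ← map_mul, ← map_mul, ← map_inv, ← map_mul, ← map_mul]
      refine zpow_mem ?_ k
      rcases hn with hn | hn
      · rw [hn, mul_inv_cancel_right]; exact mem_zpowers _
      · rw [hn, map_inv, map_inv]; exact inv_mem (mem_zpowers _)
    have h6 := Nat.card_congr i.toEquiv
    have h8 := card_dvd_of_le hle
    rw [Nat.card_congr e.toEquiv, DihedralGroup.nat_card] at hc
    rw [DihedralGroup.nat_card, hg] at h6
    have h10 := Nat.le_of_dvd Nat.card_pos h8
    have key : IsCoatom D := by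
      refine isCoatom_of_dihedral i hfix ?_
      simp only [Finset.mem_insert, Finset.mem_singleton]
      rcases card_cent_cases ht with ⟨-, h⟩ | ⟨-, h⟩ <;>
        rw [h, Nat.card_eq_fintype_card (α := F)] at h6 ⊢
      · refine Or.inr ⟨rfl, fun h => ?_⟩
        have h12 : Fintype.card F = 5 := by omega
        rw [h12] at h5 h6
        rw [show Nat.card D = 4 from h6] at h8
        omega
      · exact Or.inl ⟨rfl, by omega⟩
    rwa [(key.le_iff.1 hle).resolve_left hne]
  · have h3 := h40 h1
    simp only [Finset.mem_insert, Finset.mem_singleton] at h3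
    refine isCoatom_of_alt4 h1 (by omega) h8 (by omega) ?_
    have h5 := Equiv.Perm.eq_alternatingGroup_of_index_eq_two
      (G := ((pslSub F).subgroupOf M).map e.toMonoidHom)
      ((index_map_of_bijective e.bijective _).trans hi)
    refine (equivMapOfInjective _ _ pslTo_injective).trans ((MulEquiv.subgroupCongr ?_).trans
      ((equivMapOfInjective ((pslSub F).subgroupOf M) _ M.subtype_injective).symm.trans
        ((equivMapOfInjective _ _ e.injective).trans (MulEquiv.subgroupCongr h5))))
    rw [map_comap_eq, subgroupOf_map_subtype]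
    rfl
  · have := Fintype.ofFinite K
    have hle := map_conj_le_pslSub (pslOf_le_pslSub K.subtype) b
    have key := isCoatom_of_PSL_odd (K := K) h2 hr (by rintro rfl; exact absurd hr' (by decide))
      (by rwa [← Nat.card_eq_fintype_card])
      (H := ((pslOf K.subtype).map (MulAut.conj b).toMonoidHom).comap (pslTo F))
      (nonempty_equiv_of_map_eq_psl (map_comap_eq_self hle)).some
    rwa [(key.le_iff.1 (comap_mono (map_mono (pslOf_le_pglOf _)))).resolve_left hne]

/-- Let F be a finite field with q ≥ 4 elements, let L ≤ PGL₂(F) be the image of SL₂(F) (a copy of PSL₂(F), of index gcd(2, q − 1)), and let M be a maximal subgroup of PGL₂(F) that does not contain L. Suppose q ∉ {7, 9, 11} and that q is not a prime congruent to ±11 or ±19 modulo 40. Then M ∩ L is a maximal subgroup of L. (For the excluded q there are maximal subgroups of PGL₂(q) — dihedral groups of order 12 and 16 at q = 7, of order 20 and 16 at q = 9, of order 20 at q = 11, and S₄ at the excluded primes — whose intersection with L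 is not maximal in L.) -/
theorem result {F : Type*} [Field F]
    [Fintype F] (h4 : 4 ≤ Fintype.card F) (h7 : Fintype.card F ≠ 7) (h9 : Fintype.card F ≠ 9) (h11 : Fintype.card F ≠ 11)
    (h40 : (Fintype.card F).Prime → Fintype.card F % 40 ∉ ({11, 19, 21, 29} : Finset ℕ))
    (M : Subgroup (Matrix.ProjGenLinGroup (Fin 2) F)) (hM : IsCoatom M)
    (hML : ¬ (Matrix.ProjGenLinGroup.mk.comp Matrix.SpecialLinearGroup.toGL).range ≤ M) :
    IsCoatom ((M ⊓ (Matrix.ProjGenLinGroup.mk.comp Matrix.SpecialLinearGroup.toGL).range).subgroupOf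
      (Matrix.ProjGenLinGroup.mk.comp Matrix.SpecialLinearGroup.toGL).range) := by
  have key : ∀ L : Subgroup PGL(2, F), L = pslSub F → ¬ L ≤ M → IsCoatom ((M ⊓ L).subgroupOf L) := by
    rintro _ rfl hML
    rw [← (pslSubEquiv F).comapSubgroup.isCoatom_iff, inf_subgroupOf_right]
    exact aux h4 h7 h9 h11 h40 M hM hML
  exact key _ range_mk_comp_toGL hML

end Cfsg.Agent.S5890
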