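import Cfsg.Statements.S5893
import Cfsg.Agent.Class.PSL2MaxList

set_option autoImplicit false
open Cfsg

namespace Cfsg.Agent.S5893

open Cfsg.Agent.Class Cfsg.Agent.Class.Dickson in

/-- Let F be a finite field of even order q ≥ 4 and let M be a maximal subgroup of PSL₂(F) (= SL₂(F) = PGL₂(F)). Then one of the following holds: |M| = q(q − 1) (the stabiliser of a point of the projective line, elementary abelian of order q extended by a cyclic group of order q − 1); M is dihedral of order 2(q − 1); M is dihedral of order 2(q + 1); or q = q₀^r for a prime r with q₀ ≠ 2 and M ≅ PSL₂(F₀) with |F₀| = q₀. -/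
theorem result {F : Type*} [Field F] [Fintype F]
    (heven : Even (Fintype.card F)) (h4 : 4 ≤ Fintype.card F) (M : Subgroup (Matrix.ProjectiveSpecialLinearGroup (Fin 2) F)) (hM : IsCoatom M) :
    Nat.card M = Fintype.card F * (Fintype.card F - 1) ∨
    Nonempty (M ≃* DihedralGroup (Fintype.card F - 1)) ∨
    Nonempty (M ≃* DihedralGroup (Fintype.card F + 1)) ∨
    (∃ (F₀ : Type) (_ : Field F₀) (_ : Fintype F₀) (r : ℕ), r.Prime ∧ Fintype.card F₀ ≠ 2 ∧
        Fintype.card F = Fintype.card F₀ ^ r ∧ Nonempty (M ≃* Matrix.ProjectiveSpecialLinearGroup (Fin 2) F₀)) := by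
  have ho := Nat.even_iff.1 heven
  have h2 : (2 : F) = 0 := by
    by_contra h
    have := KSG.M2.odd_card_of_two_ne h
    rw [Nat.card_eq_fintype_card, Nat.odd_iff] at this
    omega
  have hg : Nat.gcd 2 (Fintype.card F - 1) = 1 :=
    ((gcd_two_cases (q := Fintype.card F) (by omega)).resolve_right (by omega)).1
  by_cases hfix : ∃ x : P1 F, M ≤ MulAction.stabilizer _ x
  · obtain ⟨x, hx⟩ := hfix
    have := gcd_mul_card_stabilizer x
    rw [Nat.card_eq_fintype_card (α := F), hg, ← eq_stabilizer_of_isCoatom hM hx, one_mul] at this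
    exact Or.inl this
  refine Or.inr ?_
  have key : ∀ n, ¬ ringChar F ∣ n → IsCyclic M ∨ Nonempty (M ≃* DihedralGroup n) →
      Nonempty (M ≃* DihedralGroup (Fintype.card F - 1)) ∨
        Nonempty (M ≃* DihedralGroup (Fintype.card F + 1)) := fun n hn h => by
    have := maximal_cyclic_or_dihedral h4 hM hfix hn h
    rwa [hg, Nat.div_one, Nat.div_one] at this
  rcases dickson_PSL2_even h2 M with h | ⟨n, hn, h⟩ | ⟨L, b, hL, hL'⟩
  · exact absurd h hfix
  · exact (key n (not_ringChar_dvd hn) h).imp id Or.inl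
  obtain ⟨m, hm, hLm⟩ := (subfield_top_or hL').resolve_left hM.1
  have hr := Nat.minFac_prime (show m ≠ 1 by omega)
  obtain ⟨K, hLK, hK⟩ := exists_subfield_ge L hLm (Nat.minFac_dvd m)
  obtain ⟨F₀, _, _, hc, ⟨i⟩⟩ := exists_field_type K
  have := Fintype.ofFinite K
  obtain ⟨e⟩ := equiv_of_map_le hM (pglOf_le_pslSub K.subtype
    (by rwa [← Nat.card_eq_fintype_card]) (Or.inr h2)) b
    (hL.trans (Subgroup.map_mono (pglOf_mono hLK))) (card_pglOf_lt K hr.two_le hK)
  replace e := (e.trans (pglOfEquiv _).symm).trans (pglCongr _ i)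
  by_cases h0 : Fintype.card F₀ = 2
  · have : CharP F 2 := CharTwo.of_one_ne_zero_of_two_eq_zero one_ne_zero h2
    refine (key 3 (by rw [ringChar.eq F 2]; norm_num) (cyclic_or_dihedral_of_card_six ?_)).imp id Or.inl
    rw [Nat.card_congr e.toEquiv, card_PGL2, Nat.card_eq_fintype_card, h0]
    norm_num
  refine Or.inr (Or.inr ⟨F₀, _, _, _, hr, h0, by rw [hc, hK], ⟨e.trans (MulEquiv.ofBijective
    (pslTo F₀) (pslTo_injective.bijective_of_nat_card_le ?_)).symm⟩⟩)
  have hG := gcd_mul_card_PSL2 (K := F₀)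
  rw [Nat.card_eq_fintype_card (α := F₀)] at hG
  rw [card_PGL2, Nat.card_eq_fintype_card (α := F₀), ← hG]
  rcases gcd_two_cases (Fintype.one_lt_card (α := F₀)) with ⟨h, -⟩ | ⟨-, h⟩
  · rw [h, one_mul]
  · rw [← hK, ← hc, Nat.pow_mod, h] at ho
    simp at ho

end Cfsg.Agent.S5893
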