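import Cfsg.Statements.S5896


set_option autoImplicit false
open Cfsg

namespace Cfsg.Agent.S5896

open RegularWreathProduct
open scoped commutatorElement

theorem solv_pi (Q D : Type) [Group D] [h : Group.IsSolvable D] : Group.IsSolvable (Q → D) := by
  obtain ⟨n, hn⟩ := h
  refine ⟨⟨n, eq_bot_iff.2 fun x hx => funext fun q => ?_⟩⟩
  have := map_derivedSeries_le_derivedSeries (Pi.evalMonoidHom (fun _ : Q => D) q) n ⟨x, hx, rfl⟩
  rwa [hn] at this

def base (D Q : Type) [Group D] [Group Q] : (Q → D) →* D ≀ᵣ Q where
  toFun f := ⟨f, 1⟩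
  map_one' := rfl
  map_mul' f g := by ext <;> simp

theorem solv_comap {D Q : Type} [Group D] [Group Q] [Group.IsSolvable D] (H : Subgroup Q)
    [Group.IsSolvable H] : Group.IsSolvable (H.comap (rightHom : D ≀ᵣ Q →* Q)) := by
  have := solv_pi Q D
  refine Group.isSolvable_of_ker_le_range
    ((base D Q).codRestrict (H.comap rightHom) fun _ => H.one_mem) (rightHom.subgroupComap H) ?_
  intro x hx
  have h1 : x.1.right = 1 := congrArg Subtype.val hx
  exact ⟨x.1.left, Subtype.ext (RegularWreathProduct.ext rfl h1.symm)⟩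

theorem key {D Q : Type} [Group D] [Group Q] {d : ℕ} (hd : derivedSeries D d ≠ ⊥) {q : Q}
    (hq : q ≠ 1) (K : Subgroup (D ≀ᵣ Q)) (hK : ∀ f, ⁅base D Q f, inl q⁆ ∈ K) :
    derivedSeries K d ≠ ⊥ := by
  classical
  intro h
  let B := K.comap (base D Q)
  let φ : B →* K := (base D Q).subgroupComap K
  have hφ : Function.Injective φ := fun x y e =>
    Subtype.ext (congrArg (fun z : K => z.1.left) e)
  have h1 : derivedSeries B d = ⊥ := by
    rw [eq_bot_iff]
    intro x hx
    have := map_derivedSeries_le_derivedSeries φ d ⟨x, hx, rfl⟩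
    rw [h, Subgroup.mem_bot] at this
    exact hφ (this.trans (map_one φ).symm)
  let ψ : B →* D := (Pi.evalMonoidHom (fun _ : Q => D) 1).comp B.subtype
  have hψ : Function.Surjective ψ := fun s => by
    refine ⟨⟨(⁅base D Q (Pi.mulSingle 1 s), inl q⁆).left, ?_⟩, ?_⟩
    · have h3 : base D Q (⁅base D Q (Pi.mulSingle 1 s), inl q⁆).left =
          ⁅base D Q (Pi.mulSingle 1 s), inl q⁆ := by
        refine RegularWreathProduct.ext rfl ?_
        simp [base, commutatorElement_def]
      exact Subgroup.mem_comap.2 (h3.symm ▸ hK _)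
    · simp [ψ, base, commutatorElement_def, hq]
  exact hd (by rw [← map_derivedSeries_eq hψ, h1, Subgroup.map_bot])

theorem map_commutator_le {G : Type} [Group G] (n : ℕ) :
    (derivedSeries (commutator G) n).map (commutator G).subtype = derivedSeries G (n + 1) := by
  induction n with
  | zero => rw [derivedSeries_zero, ← MonoidHom.range_eq_map, Subgroup.range_subtype]; rfl
  | succ n ih => rw [derivedSeries_succ, Subgroup.map_commutator, ih, ← derivedSeries_succ]

theorem exists_solv (d : ℕ) : ∃ (S : Type) (_ : Group S) (_ : Finite S), Group.IsSolvable S ∧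
    derivedSeries S d ≠ ⊥ := by
  induction d with
  | zero => exact ⟨Multiplicative (ZMod 2), inferInstance, inferInstance, inferInstance, top_ne_bot⟩
  | succ d ih =>
    obtain ⟨S, _, _, h1, h2⟩ := ih
    refine ⟨S ≀ᵣ Multiplicative (ZMod 2), inferInstance, inferInstance, ?_, fun h => ?_⟩
    · have := solv_comap (D := S) (⊤ : Subgroup (Multiplicative (ZMod 2)))
      exact Group.isSolvable_of_surjective (f := (Subgroup.comap rightHom ⊤).subtype)
        fun x => ⟨⟨x, trivial⟩, rfl⟩
    · obtain ⟨q, hq⟩ := exists_ne (1 : Multiplicative (ZMod 2))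
      apply key h2 hq (commutator _) fun f => Subgroup.commutator_mem_commutator trivial trivial
      rwa [← map_commutator_le, Subgroup.map_eq_bot_iff_of_injective _ Subtype.val_injective] at h

theorem exists_min : ∃ (Q : Type) (_ : Group Q) (_ : Finite Q) (H : Subgroup Q),
    commutator Q = ⊤ ∧ IsCoatom H ∧ Group.IsSolvable H ∧ Nontrivial Q := by
  obtain ⟨M, hM⟩ := exists_minimal_of_wellFoundedLT
    (fun M : Subgroup (Equiv.Perm (Fin 5)) => ¬ Group.IsSolvable M)
    ⟨⊤, fun h => Equiv.Perm.not_isSolvable_fin_5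
      (Group.isSolvable_of_surjective (f := (⊤ : Subgroup _).subtype) fun x => ⟨⟨x, trivial⟩, rfl⟩)⟩
  have h1 : ∀ H : Subgroup M, H ≠ ⊤ → Group.IsSolvable H := fun H hH => by
    by_contra h
    apply hH
    have := hM.2 (y := H.map M.subtype) (fun h2 => h (Group.isSolvable_of_isSolvable_injective
      (f := (H.equivMapOfInjective M.subtype Subtype.val_injective).toMonoidHom)
      (MulEquiv.injective _))) (Subgroup.map_subtype_le H)
    rw [eq_top_iff]
    intro x _
    obtain ⟨y, hy, e⟩ := this x.2
    exact (Subtype.ext e : y = x) ▸ hy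
  have hnt : Nontrivial M := by
    by_contra h
    rw [not_nontrivial_iff_subsingleton] at h
    exact hM.1 inferInstance
  obtain ⟨H, hH, -⟩ := (eq_top_or_exists_le_coatom (⊥ : Subgroup M)).resolve_left bot_ne_top
  refine ⟨M, inferInstance, inferInstance, H, ?_, hH, h1 H hH.1, hnt⟩
  by_contra h
  have := h1 _ h
  exact hM.1 (Group.isSolvable_of_ker_le_range (commutator M).subtype Abelianization.of
    (by simp))


/-- Finite perfect groups have solvable maximal subgroups of unbounded derived length: for every d there is a finite perfect group G (equal to its commutator subgroup) with a solvable maximal subgroup H whose derived length exceeds d, i.e. the d-th term of the derived series of H is non-trivial. (Take the derived subgroup of a wreath product S ≀ A₅ with S solvable of large derived length, and H the preimage of a maximal subgroup of A₅.) -/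
theorem result (d : ℕ) :
    ∃ (G : Type) (_ : Group G) (_ : Finite G) (H : Subgroup G), commutator G = ⊤ ∧ IsCoatom H ∧ Group.IsSolvable H ∧
      derivedSeries H d ≠ ⊥ := by
  obtain ⟨S, _, _, hS, hd⟩ := exists_solv d
  obtain ⟨Q, _, _, H, hQ, hH, hs, hnt⟩ := exists_min
  let G := Subgroup.normalClosure (Set.range (inl : Q → S ≀ᵣ Q))
  have hin : ∀ q, inl q ∈ G := fun q => Subgroup.subset_normalClosure ⟨q, rfl⟩
  let π : G →* Q := rightHom.comp G.subtype
  refine ⟨G, inferInstance, inferInstance, H.comap π, ?_,
    Subgroup.isCoatom_comap_of_surjective (fun q => ⟨⟨inl q, hin q⟩, rfl⟩) hH, ?_, ?_⟩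
  · have h1 : G ≤ ⁅G, G⁆ := by
      refine Subgroup.normalClosure_le_normal ?_
      rintro _ ⟨q, rfl⟩
      have h2 : (commutator Q).map inl ≤ ⁅G, G⁆ := by
        rw [commutator_def, Subgroup.map_commutator]
        exact Subgroup.commutator_mono (fun _ ⟨q, _, e⟩ => e ▸ hin q) fun _ ⟨q, _, e⟩ => e ▸ hin q
      exact h2 ⟨q, hQ ▸ Subgroup.mem_top q, rfl⟩
    rw [← Subgroup.map_subtype_inj, Subgroup.map_subtype_commutator, ← MonoidHom.range_eq_map,
      Subgroup.range_subtype]
    exact le_antisymm (Subgroup.commutator_le_left _ _) h1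
  · have := solv_comap (D := S) H
    exact Group.isSolvable_of_isSolvable_injective
      (f := G.subtype.subgroupComap (H.comap rightHom)) fun x y e =>
        Subtype.ext (Subtype.ext (congrArg (fun z : H.comap (rightHom : S ≀ᵣ Q →* Q) => z.1) e))
  · obtain ⟨q, hq⟩ := exists_ne (1 : Q)
    intro h
    apply key hd hq ((H.comap π).map G.subtype) fun f => ?_
    · rw [← map_derivedSeries_eq (f := ((H.comap π).equivMapOfInjective G.subtype
        Subtype.val_injective).toMonoidHom) (MulEquiv.surjective _), h, Subgroup.map_bot]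
    · refine ⟨⟨_, G.mul_mem (Subgroup.normalClosure_normal.conj_mem _ (hin q) (base S Q f))
        (G.inv_mem (hin q))⟩, ?_, rfl⟩
      simp [π, base, H.one_mem]

end Cfsg.Agent.S5896
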