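import Cfsg.Statements.S5902
import Mathlib
import Cfsg.Agent.S5901

set_option autoImplicit false
open Cfsg

namespace Cfsg.Agent.S5902

/-- Let G be a finite group, X a subgroup whose own subgroup lattice is complemented, and suppose X lies in exactly one maximal subgroup M of G. Then every subgroup H of G not contained in the normal core of M has a complement in the subgroup lattice of G (some C with H ⊔ C = G and H ⊓ C = 1); in particular the subgroup lattice of G modulo the normal core of M is complemented. -/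
theorem result {G : Type*} [Group G] [Finite G] (X M : Subgroup G)
    (hK : ComplementedLattice (Subgroup X))
    (hM : IsCoatom M) (hXM : X ≤ M) (huniq : ∀ M' : Subgroup G, IsCoatom M' → X ≤ M' → M' = M) :
    (∀ H : Subgroup G, ¬ H ≤ M.normalCore → ∃ C : Subgroup G, H ⊔ C = ⊤ ∧ H ⊓ C = ⊥) ∧
    ComplementedLattice (Subgroup (G ⧸ M.normalCore)) := by
  classical
  have hXtop : X ≠ ⊤ := fun h => hM.1 (top_le_iff.mp (h ▸ hXM))
  have hint : ∀ Y : Subgroup G, ⊥ ≤ Y → Y ≤ X →
      ∃ C : Subgroup G, ⊥ ≤ C ∧ C ≤ X ∧ Y ⊔ C = X ∧ Y ⊓ C = ⊥ := by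
    intro Y _ hYX
    obtain ⟨C, hC⟩ := exists_isCompl (Y.subgroupOf X)
    refine ⟨C.map X.subtype, bot_le, Subgroup.map_subtype_le C, ?_, ?_⟩
    · have h1 := congrArg (Subgroup.map X.subtype) hC.sup_eq_top
      rw [Subgroup.map_sup, Subgroup.subgroupOf_map_subtype, inf_eq_left.mpr hYX,
        ← MonoidHom.range_eq_map, Subgroup.range_subtype] at h1
      exact h1
    · have h1 := congrArg (Subgroup.map X.subtype) hC.inf_eq_bot
      rw [Subgroup.map_inf _ _ _ X.subtype_injective, Subgroup.subgroupOf_map_subtype,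
        inf_eq_left.mpr hYX, Subgroup.map_bot] at h1
      exact h1
  have main : ∀ H : Subgroup G, ¬ H ≤ M.normalCore → ∃ C : Subgroup G, H ⊔ C = ⊤ ∧ H ⊓ C = ⊥ := by
    intro H hH
    have : ∃ g : G, ¬ H.map (MulAut.conj g).toMonoidHom ≤ M := by
      by_contra hcon
      push Not at hcon
      apply hH
      intro h hh g
      exact hcon g ⟨h, hh, rfl⟩
    obtain ⟨g, hg⟩ := this
    obtain ⟨C, h1, h2⟩ := S5901.result ⊥ X M bot_le hXtop hint hM hXM huniq _ hg (inf_bot_eq _)
    have hH' : H = (H.map (MulAut.conj g).toMonoidHom).map (MulAut.conj g).symm.toMonoidHom := by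
      rw [Subgroup.map_map]; ext x; simp
    refine ⟨C.map (MulAut.conj g).symm.toMonoidHom, ?_, ?_⟩
    · rw [hH', ← Subgroup.map_sup, h1]
      exact Subgroup.map_top_of_surjective _ (MulAut.conj g).symm.surjective
    · rw [hH', ← Subgroup.map_inf _ _ _ (MulAut.conj g).symm.injective, h2, Subgroup.map_bot]
  refine ⟨main, ⟨fun K => ?_⟩⟩
  by_cases hK0 : K = ⊥
  · exact ⟨⊤, hK0 ▸ isCompl_bot_top⟩
  have hH : ¬ K.comap (QuotientGroup.mk' M.normalCore) ≤ M.normalCore := by
    intro h
    apply hK0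
    rw [eq_bot_iff]
    intro x hx
    obtain ⟨y, rfl⟩ := QuotientGroup.mk'_surjective M.normalCore x
    have : y ∈ M.normalCore := h hx
    simpa using this
  obtain ⟨C, h1, h2⟩ := main _ hH
  refine ⟨C.map (QuotientGroup.mk' M.normalCore), ?_, ?_⟩
  · rw [disjoint_iff, eq_bot_iff]
    rintro x ⟨hxK, y, hyC, rfl⟩
    have : y ∈ K.comap (QuotientGroup.mk' M.normalCore) ⊓ C := ⟨hxK, hyC⟩
    rw [h2, Subgroup.mem_bot] at this
    simp [this]
  · rw [codisjoint_iff]
    have h3 := congrArg (Subgroup.map (QuotientGroup.mk' M.normalCore)) h1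
    rw [Subgroup.map_sup, Subgroup.map_comap_eq_self_of_surjective (QuotientGroup.mk'_surjective _),
      Subgroup.map_top_of_surjective _ (QuotientGroup.mk'_surjective _)] at h3
    exact h3

end Cfsg.Agent.S5902
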