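import Cfsg.Statements.S5903
import Mathlib
import Cfsg.Agent.S5901

set_option autoImplicit false
open Cfsg

namespace Cfsg.Agent.S5903

/-- Let G be a finite simple group, X a subgroup lying in exactly one maximal subgroup M of G, and N a subgroup of prime order with N ≤ X that is central in M. If the subgroup lattice of X/N is complemented, then the subgroup lattice of G is complemented. -/
theorem result {G : Type*} [Group G] [Finite G] [IsSimpleGroup G] (X M N : Subgroup G)
    (hM : IsCoatom M) (hXM : X ≤ M) (huniq : ∀ M' : Subgroup G, IsCoatom M' → X ≤ M' → M' = M)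
    (hNX : N ≤ X) (hN : (Nat.card N).Prime) (hcen : ∀ n ∈ N, ∀ m ∈ M, m * n = n * m)
    [(N.subgroupOf X).Normal] (hK : ComplementedLattice (Subgroup (X ⧸ N.subgroupOf X))) :
    ComplementedLattice (Subgroup G) := by
  classical
  have hXtop : X ≠ ⊤ := fun h => hM.1 (top_le_iff.mp (h ▸ hXM))
  have hint : ∀ Y : Subgroup G, N ≤ Y → Y ≤ X →
      ∃ C : Subgroup G, N ≤ C ∧ C ≤ X ∧ Y ⊔ C = X ∧ Y ⊓ C = N := by
    intro Y hNY hYX
    obtain ⟨C, hC⟩ := exists_isCompl ((Y.subgroupOf X).map (QuotientGroup.mk' (N.subgroupOf X)))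
    have hker : (QuotientGroup.mk' (N.subgroupOf X)).ker ≤ Y.subgroupOf X := by
      rw [QuotientGroup.ker_mk']; exact Subgroup.subgroupOf_mono X hNY
    refine ⟨(C.comap (QuotientGroup.mk' (N.subgroupOf X))).map X.subtype, ?_,
      Subgroup.map_subtype_le _, ?_, ?_⟩
    · intro n hn
      refine ⟨⟨n, hNX hn⟩, ?_, rfl⟩
      have : (QuotientGroup.mk' (N.subgroupOf X)) ⟨n, hNX hn⟩ = 1 := by
        simpa [Subgroup.mem_subgroupOf] using hn
      simp only [SetLike.mem_coe, Subgroup.mem_comap, this, one_mem]
    · have h1 := congrArg (Subgroup.comap (QuotientGroup.mk' (N.subgroupOf X))) hC.sup_eq_top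
      rw [← Subgroup.comap_sup_eq _ _ _ (QuotientGroup.mk'_surjective _),
        Subgroup.comap_map_eq_self hker, Subgroup.comap_top] at h1
      have h2 := congrArg (Subgroup.map X.subtype) h1
      rw [Subgroup.map_sup, Subgroup.subgroupOf_map_subtype, inf_eq_left.mpr hYX,
        ← MonoidHom.range_eq_map, Subgroup.range_subtype] at h2
      exact h2
    · have h1 := congrArg (Subgroup.comap (QuotientGroup.mk' (N.subgroupOf X))) hC.inf_eq_bot
      rw [Subgroup.comap_inf, Subgroup.comap_map_eq_self hker, MonoidHom.comap_bot,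
        QuotientGroup.ker_mk'] at h1
      have h2 := congrArg (Subgroup.map X.subtype) h1
      rw [Subgroup.map_inf _ _ _ X.subtype_injective, Subgroup.subgroupOf_map_subtype,
        inf_eq_left.mpr hYX, Subgroup.subgroupOf_map_subtype, inf_eq_left.mpr hNX] at h2
      exact h2
  have hN0 : N ≠ ⊥ := by
    rintro rfl
    simp at hN
    exact Nat.not_prime_one hN
  refine ⟨fun H => ?_⟩
  by_cases hcase : ∃ g : G, ¬ H.map (MulAut.conj g).toMonoidHom ≤ M ∧
      H.map (MulAut.conj g).toMonoidHom ⊓ N = ⊥
  · obtain ⟨g, hg, hg'⟩ := hcase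
    obtain ⟨C, h1, h2⟩ := S5901.result N X M hNX hXtop hint hM hXM huniq _ hg hg'
    have hH' : H = (H.map (MulAut.conj g).toMonoidHom).map (MulAut.conj g).symm.toMonoidHom := by
      rw [Subgroup.map_map]; ext x; simp
    refine ⟨C.map (MulAut.conj g).symm.toMonoidHom, ?_, ?_⟩
    · rw [disjoint_iff, hH', ← Subgroup.map_inf _ _ _ (MulAut.conj g).symm.injective, h2,
        Subgroup.map_bot]
    · rw [codisjoint_iff, hH', ← Subgroup.map_sup, h1]
      exact Subgroup.map_top_of_surjective _ (MulAut.conj g).symm.surjective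
  · push Not at hcase
    have hnorm : Subgroup.normalClosure (N : Set G) ≤ Subgroup.normalizer (H : Set G) := by
      rw [Subgroup.normalClosure, Subgroup.closure_le]
      intro x hx
      obtain ⟨n, hn, hc⟩ := Group.mem_conjugatesOfSet_iff.mp hx
      obtain ⟨g, rfl⟩ := isConj_iff.mp hc
      by_cases hle : H.map (MulAut.conj g⁻¹).toMonoidHom ≤ M
      · apply Subgroup.centralizer_le_normalizer
        intro h hh
        have h1 := hcen n hn _ (hle ⟨h, hh, rfl⟩)
        simp only [MulEquiv.toMonoidHom_eq_coe, MonoidHom.coe_coe, MulAut.conj_apply,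
          inv_inv] at h1
        calc h * (g * n * g⁻¹) = g * (g⁻¹ * h * g * n) * g⁻¹ := by group
          _ = g * (n * (g⁻¹ * h * g)) * g⁻¹ := by rw [h1]
          _ = g * n * g⁻¹ * h := by group
      · apply Subgroup.le_normalizer
        have hne := hcase _ hle
        haveI : Fact (Nat.card N).Prime := ⟨hN⟩
        have h3 := ((H.map (MulAut.conj g⁻¹).toMonoidHom).subgroupOf N).eq_bot_or_eq_top_of_prime_card
        rcases h3 with h3 | h3
        · exfalso
          apply hne
          rw [Subgroup.subgroupOf_eq_bot, disjoint_iff] at h3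
          exact h3
        · rw [Subgroup.subgroupOf_eq_top] at h3
          obtain ⟨h, hh, hh'⟩ := h3 hn
          simp only [MulEquiv.toMonoidHom_eq_coe, MonoidHom.coe_coe, MulAut.conj_apply,
            inv_inv] at hh'
          rw [← hh']
          simpa [mul_assoc] using hh
    have htop : Subgroup.normalClosure (N : Set G) = ⊤ := by
      rcases (Subgroup.normalClosure_normal (s := (N : Set G))).eq_bot_or_eq_top with h | h
      · exact absurd (eq_bot_iff.mpr (h ▸ Subgroup.le_normalClosure)) hN0
      · exact h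
    rw [htop, top_le_iff, Subgroup.normalizer_eq_top_iff] at hnorm
    rcases hnorm.eq_bot_or_eq_top with h | h
    · exact ⟨⊤, h ▸ isCompl_bot_top⟩
    · exact ⟨⊥, h ▸ isCompl_top_bot⟩

end Cfsg.Agent.S5903
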