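import Cfsg.Statements.S5904


set_option autoImplicit false
open scoped Pointwise
open Cfsg

namespace Cfsg.Agent.S5904

/-- Let Ω be a finite set with more than two elements and O ⊆ Ω a subset with exactly as many elements as its complement. Then the setwise stabilizer of O in the symmetric group on Ω is not a maximal subgroup (it is properly contained in the stabilizer of the partition {O, Ω ∖ O}, which is proper). -/
theorem result {Ω : Type*} [Fintype Ω] [DecidableEq Ω] (hΩ : 2 < Fintype.card Ω)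
    (O : Set Ω) (hO : Nat.card O = Nat.card ↥Oᶜ) :
    ¬ IsCoatom (MulAction.stabilizer (Equiv.Perm Ω) O) := by
  classical
  intro h
  have := Fintype.ofFinite O
  have := Fintype.ofFinite ↥Oᶜ
  have hc : Nat.card O + Nat.card ↥Oᶜ = Fintype.card Ω := by
    rw [Nat.card_coe_set_eq, Nat.card_coe_set_eq, Set.ncard_add_ncard_compl,
      Nat.card_eq_fintype_card]
  obtain ⟨a, ha, a', ha', hne⟩ : O.Nontrivial := by
    rw [← Set.one_lt_ncard_iff_nontrivial, ← Nat.card_coe_set_eq]
    omega
  obtain ⟨⟨b, hb⟩⟩ : Nonempty ↥Oᶜ := (Nat.card_pos_iff.1 (by omega)).1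
  obtain ⟨e⟩ := Finite.card_eq.1 hO
  let τ : Equiv.Perm Ω := (Equiv.Set.sumCompl O).symm.trans
    (((e.sumCongr e.symm).trans (Equiv.sumComm _ _)).trans (Equiv.Set.sumCompl O))
  have hτ : ∀ x, τ x ∈ O ↔ x ∉ O := fun x => by
    by_cases hx : x ∈ O
    · simpa [τ, hx, Equiv.Set.sumCompl_symm_apply_of_mem hx] using
        (Set.mem_compl_iff _ _).1 (e ⟨x, hx⟩).2
    · simp [τ, hx, Equiv.Set.sumCompl_symm_apply_of_notMem hx]
  let K : Subgroup (Equiv.Perm Ω) :=
    { carrier := {σ | (∀ x, σ x ∈ O ↔ x ∈ O) ∨ ∀ x, σ x ∈ O ↔ x ∉ O}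
      one_mem' := Or.inl fun _ => Iff.rfl
      mul_mem' := by
        rintro σ ρ (h1 | h1) (h2 | h2)
        · exact Or.inl fun x => (h1 _).trans (h2 x)
        · exact Or.inr fun x => (h1 _).trans (h2 x)
        · exact Or.inr fun x => (h1 _).trans (not_congr (h2 x))
        · exact Or.inl fun x => (h1 _).trans ((not_congr (h2 x)).trans not_not)
      inv_mem' := by
        rintro σ (h1 | h1)
        · exact Or.inl fun x => by simpa using (h1 (σ⁻¹ x)).symm
        · exact Or.inr fun x => by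
            have : x ∈ O ↔ σ⁻¹ x ∉ O := by simpa using h1 (σ⁻¹ x)
            tauto }
  have hS : ∀ σ ∈ MulAction.stabilizer (Equiv.Perm Ω) O, ∀ x, σ x ∈ O ↔ x ∈ O := fun σ hσ x => by
    nth_rewrite 1 [← MulAction.mem_stabilizer_iff.1 hσ]
    exact Set.smul_mem_smul_set_iff
  have h1 := h.2 K (lt_of_le_of_ne (fun σ hσ => Or.inl (hS σ hσ)) fun e => by
    have := hS τ (e ▸ Or.inr hτ) a
    rw [hτ] at this
    tauto)
  have h2 : Equiv.swap a b ∈ K := h1 ▸ Subgroup.mem_top _
  rcases h2 with h2 | h2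
  · have := h2 a
    rw [Equiv.swap_apply_left] at this
    exact hb (this.2 ha)
  · have := h2 a'
    rw [Equiv.swap_apply_of_ne_of_ne hne.symm (fun e : a' = b => hb (e ▸ ha'))] at this
    tauto

end Cfsg.Agent.S5904
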