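import Cfsg.Statements.S5908
import Cfsg.Agent.S0827

set_option autoImplicit false
open Cfsg

namespace Cfsg.Agent.S5908

/-- The subgroup lattice of PSU₃(2) (the solvable group of order 72, realised over the field with 4 elements) is not complemented: some subgroup H has no subgroup X with H ⊔ X = ⊤ and H ⊓ X = ⊥. -/
theorem result {F : Type*} [Field F] [Fintype F] (hF : Fintype.card F = 4) :
    ¬ ComplementedLattice (Subgroup (Cfsg.PSU 3 F 2)) := by
  intro hc
  obtain ⟨N, hN, -, -, ⟨e⟩⟩ := S0827.result hF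
  let π : Cfsg.PSU 3 F 2 →* QuaternionGroup 2 := e.toMonoidHom.comp (QuotientGroup.mk' N)
  have hπ : Function.Surjective π := e.surjective.comp (QuotientGroup.mk'_surjective N)
  obtain ⟨X, hX⟩ := hc.exists_isCompl ((Subgroup.center (QuaternionGroup 2)).comap π)
  have key : ∀ y : QuaternionGroup 2, (∀ g, g * (y * y) = y * y * g) ∧ (y * y = 1 → ∀ g, g * y = y * g) := by
    decide
  have hb : X = ⊥ := by
    rw [eq_bot_iff]
    intro x hx
    have h1 : x * x ∈ (Subgroup.center (QuaternionGroup 2)).comap π ⊓ X :=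
      ⟨Subgroup.mem_center_iff.2 (by simpa using (key (π x)).1), X.mul_mem hx hx⟩
    rw [hX.inf_eq_bot, Subgroup.mem_bot] at h1
    rw [← hX.inf_eq_bot]
    exact ⟨Subgroup.mem_center_iff.2 ((key (π x)).2 (by rw [← map_mul, h1, map_one])), hx⟩
  have ht := hX.sup_eq_top
  rw [hb, sup_bot_eq] at ht
  obtain ⟨x, hx⟩ := hπ (QuaternionGroup.a 1)
  have h2 : x ∈ (Subgroup.center (QuaternionGroup 2)).comap π := ht ▸ Subgroup.mem_top x
  rw [Subgroup.mem_comap, hx, Subgroup.mem_center_iff] at h2
  exact absurd (h2 (QuaternionGroup.xa 0)) (by decide)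

end Cfsg.Agent.S5908
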