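import Cfsg.Statements.S5909
import Mathlib
import Cfsg.Agent.KSG.PartStab

set_option autoImplicit false
open Cfsg

namespace Cfsg.Agent.S5909

open Equiv Equiv.Perm KSG

theorem card_eq {Ω : Type*} [Fintype Ω] {a b : ℕ} {f : Ω → Fin b}
    (hf : ∀ i : Fin b, Nat.card {x : Ω // f x = i} = a) : Fintype.card Ω = b * a := by
  obtain ⟨e, -⟩ := exists_equiv_of_fibers a f hf
  simpa using Fintype.card_congr e

theorem partner {Ω : Type*} [Fintype Ω] {b : ℕ} {f : Ω → Fin b}
    (hf : ∀ i : Fin b, Nat.card {x : Ω // f x = i} = 2) (x : Ω) :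
    ∃ x', x' ≠ x ∧ f x' = f x ∧ ∀ z, f z = f x → z = x ∨ z = x' := by
  obtain ⟨y, hy, hu⟩ := (Nat.card_eq_two_iff' (⟨x, rfl⟩ : {z : Ω // f z = f x})).1 (hf (f x))
  refine ⟨y, fun e => hy (Subtype.ext e), y.2, fun z hz => ?_⟩
  by_cases h : z = x
  · exact Or.inl h
  · exact Or.inr (congrArg Subtype.val (hu ⟨z, hz⟩ fun e => h (congrArg Subtype.val e)))

theorem three_cycle {Ω : Type*} [Fintype Ω] [DecidableEq Ω] {b : ℕ} (hb : 3 ≤ b) (hb4 : b ≠ 4)
    {f : Ω → Fin b} (hf : ∀ i : Fin b, Nat.card {x : Ω // f x = i} = 2) {H : Subgroup (Perm Ω)}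
    (h1 : partStab f ⊓ alternatingGroup Ω ≤ H) (h2 : ¬ H ≤ partStab f) :
    ∃ g ∈ H, IsThreeCycle g := by
  have dbl : ∀ p q r s, p ≠ q → r ≠ s → f p = f q → f r = f s → swap p q * swap r s ∈ H := by
    intro p q r s n1 n2 e1 e2
    refine h1 ⟨mul_mem (swap_mem_partStab e1) (swap_mem_partStab e2), ?_⟩
    simp [mem_alternatingGroup, n1, n2]
  obtain ⟨g, hg, p, q, hpq, hne⟩ := exists_split_of_not_le h2
  obtain ⟨x', hx1, hx2, hx3⟩ := partner hf (g p)
  obtain ⟨y', hy1, hy2, hy3⟩ := partner hf (g q)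
  obtain ⟨i, hi1, hi2⟩ : ∃ i : Fin b, i ≠ f p ∧ i ≠ f (g⁻¹ x') := by
    by_contra! hi
    have e0 := hi ⟨0, by omega⟩
    have e1 := hi ⟨1, by omega⟩
    have e2 := hi ⟨2, by omega⟩
    simp only [ne_eq, Fin.ext_iff] at e0 e1 e2
    omega
  obtain ⟨r, s, hrs, hr, hs⟩ := exists_pair_in_fiber le_rfl hf i
  have hpq' : p ≠ q := by rintro rfl; exact hne rfl
  have hd : swap (g p) (g q) * swap (g r) (g s) ∈ H := by
    have := mul_mem (mul_mem hg (dbl p q r s hpq' hrs hpq (hr.trans hs.symm))) (inv_mem hg)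
    convert this using 1
    simp only [swap_apply_apply]; group
  have m1 : g r ≠ x' := by rintro rfl; apply hi2; simp [hr]
  have m2 : g s ≠ x' := by rintro rfl; apply hi2; simp [hs]
  have m3 : g r ≠ g p := fun e => hi1 (by rw [← hr, g.injective e])
  have m4 : g r ≠ g q := fun e => hi1 (by rw [← hr, g.injective e, hpq])
  have m5 : g s ≠ g p := fun e => hi1 (by rw [← hs, g.injective e])
  have m6 : g s ≠ g q := fun e => hi1 (by rw [← hs, g.injective e, hpq])
  have m7 : g r ≠ g s := fun e => hrs (g.injective e)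
  generalize g p = x at *
  generalize g q = y at *
  generalize g r = u at *
  generalize g s = v at *
  clear hi1 hi2 hr hs hrs hpq' hpq hg
  have hxy : x ≠ y := by rintro rfl; exact hne rfl
  have hyx' : y ≠ x' := by rintro rfl; exact hne hx2.symm
  have hux : f u ≠ f x := fun e => (hx3 u e).elim m3 m1
  have hvx : f v ≠ f x := fun e => (hx3 v e).elim m5 m2
  by_cases huv : f u = f v
  · refine ⟨_, mul_mem hd (dbl u v x x' m7 hx1.symm huv hx2.symm), ?_⟩
    have : swap x y * swap u v * (swap u v * swap x x') = swap x y * swap x x' := by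
      rw [mul_assoc, swap_mul_self_mul]
    rw [this]
    exact isThreeCycle_swap_mul_swap_same hxy hx1.symm hyx'
  have case : ∀ z, f z ≠ f x → f z ≠ f y → swap x y * swap y' z ∈ H → ∃ g ∈ H, IsThreeCycle g := by
    intro z hzx hzy hd
    obtain ⟨z', hz1, hz2, hz3⟩ := partner hf z
    have a1 : x ≠ z := by rintro rfl; exact hzx rfl
    have a2 : x' ≠ z' := by rintro rfl; exact hzx (hz2.symm.trans hx2)
    have a3 : x ≠ z' := by rintro rfl; exact hzx hz2.symm
    have a4 : x' ≠ z := by rintro rfl; exact hzx hx2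
    have a5 : y ≠ z := by rintro rfl; exact hzy rfl
    have a6 : y ≠ z' := by rintro rfl; exact hzy hz2.symm
    have a7 : y' ≠ z := by rintro rfl; exact hzy hy2
    have a8 : y' ≠ z' := by rintro rfl; exact hzy (hz2.symm.trans hy2)
    have a9 : y' ≠ x := by rintro rfl; exact hne hy2
    have a10 : y' ≠ x' := by rintro rfl; exact hne (hx2.symm.trans hy2)
    have hw : swap x z * swap x' z' ∈ H := by
      refine h1 ⟨mem_partStab_of_perm (swap (f x) (f z)) (swap _ _).injective fun t => ?_, ?_⟩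
      · simp only [Perm.mul_apply, swap_apply_def]
        have := hx3 t
        have := hz3 t
        grind
      · simp [mem_alternatingGroup, a1, a2]
    refine ⟨_, mul_mem (mul_mem (mul_mem hd hw) (inv_mem hd))
      (dbl y y' x' x hy1.symm hx1 hy2.symm hx2), ?_⟩
    have : swap x y * swap y' z * (swap x z * swap x' z') * (swap x y * swap y' z)⁻¹ *
        (swap y y' * swap x' x) = swap x' z' * swap x' x := by
      ext t
      simp only [mul_inv_rev, swap_inv, Perm.mul_apply, swap_apply_def]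
      grind
    rw [this]
    exact isThreeCycle_swap_mul_swap_same a2 hx1 a3.symm
  by_cases hu : f u = f y
  · have : u = y' := (hy3 u hu).resolve_left m4
    subst this
    exact case v hvx (fun e => huv (hu.trans e.symm)) hd
  by_cases hv : f v = f y
  · have : v = y' := (hy3 v hv).resolve_left m6
    subst this
    exact case u hux hu (by rwa [swap_comm v u])
  obtain ⟨j, j1, j2, j3, j4⟩ : ∃ j : Fin b, j ≠ f x ∧ j ≠ f y ∧ j ≠ f u ∧ j ≠ f v := by
    by_contra! hj
    have hb5 : 5 ≤ b := by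
      have := (f x).2; have := (f y).2; have := (f u).2; have := (f v).2
      simp only [ne_eq, Fin.ext_iff] at hne hux hvx huv hu hv
      omega
    have e0 := hj ⟨0, by omega⟩
    have e1 := hj ⟨1, by omega⟩
    have e2 := hj ⟨2, by omega⟩
    have e3 := hj ⟨3, by omega⟩
    have e4 := hj ⟨4, by omega⟩
    simp only [ne_eq, Fin.ext_iff] at e0 e1 e2 e3 e4
    omega
  obtain ⟨r, s, hrs, hr, hs⟩ := exists_pair_in_fiber le_rfl hf j
  have hk := mul_mem hd (dbl x x' r s hx1.symm hrs hx2.symm (hr.trans hs.symm))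
  refine ⟨_, mul_mem hk hk, ?_⟩
  have : swap x y * swap u v * (swap x x' * swap r s) * (swap x y * swap u v * (swap x x' * swap r s))
      = swap x x' * swap x y := by
    have : r ≠ x ∧ r ≠ y ∧ r ≠ u ∧ r ≠ v ∧ r ≠ x' ∧ s ≠ x ∧ s ≠ y ∧ s ≠ u ∧ s ≠ v ∧ s ≠ x' := by
      refine ⟨?_, ?_, ?_, ?_, ?_, ?_, ?_, ?_, ?_, ?_⟩ <;> rintro rfl <;> simp_all
    ext t
    simp only [Perm.mul_apply, swap_apply_def]
    grind
  rw [this]
  exact isThreeCycle_swap_mul_swap_same hx1.symm hxy hyx'.symm


/-- Let Ω be a finite set whose size is not 8, and f : Ω → Fin b a labelling with b ≥ 2 whose fibres all have the same size a ≥ 2 (a partition into b blocks of size a). Then the even permutations preserving the partition — the intersection of the imprimitive wreath product S_a ≀ S_b with the alternating group — form a maximal subgroup of the alternating group on Ω. -/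
theorem result {Ω : Type*} [Fintype Ω] [DecidableEq Ω] (h8 : Fintype.card Ω ≠ 8) (a b : ℕ) (ha : 2 ≤ a) (hb : 2 ≤ b)
    (f : Ω → Fin b) (hf : ∀ i : Fin b, Nat.card {x : Ω // f x = i} = a) :
    IsCoatom ((Subgroup.closure {g : Equiv.Perm Ω | ∀ x y : Ω, f x = f y ↔ f (g x) = f (g y)} ⊓ alternatingGroup Ω).subgroupOf (alternatingGroup Ω)) := by
  rw [closure_eq_partStab]
  have hne : (partStab f ⊓ alternatingGroup Ω).subgroupOf (alternatingGroup Ω) ≠ ⊤ := by
    intro h
    exact partStab_alt_ne ha hb hf (le_trans (Subgroup.subgroupOf_eq_top.1 h) inf_le_left)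
  refine ⟨hne, fun L hL => ?_⟩
  by_cases hab : 3 ≤ a ∨ 3 ≤ b
  · let H := L.map (alternatingGroup Ω).subtype
    have h1 : partStab f ⊓ alternatingGroup Ω ≤ H := fun g hg =>
      ⟨⟨g, hg.2⟩, hL.le hg, rfl⟩
    have h2 : ¬ H ≤ partStab f := fun h => not_le_of_gt hL fun g hg => ⟨h ⟨g, hg, rfl⟩, g.2⟩
    have hprim : MulAction.IsPreprimitive H Ω := by
      refine isPreprimitive_of_pairs (f := f) (fun u u' => ?_) (fun u v u' v' h h' hff => ?_) h2
      · obtain ⟨w, hw, h⟩ := exists_mem_partStab_alt_apply ha hb hf u u'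
        exact ⟨w, h1 hw, h⟩
      · obtain ⟨w, hw, h⟩ := exists_mem_partStab_alt_pair ha hb hab hf h h' hff
        exact ⟨w, h1 hw, h⟩
    obtain ⟨g, hg, h3⟩ : ∃ g ∈ H, IsThreeCycle g := by
      by_cases ha3 : 3 ≤ a
      · obtain ⟨u, -, -, -⟩ := exists_pair_in_fiber ha hf ⟨0, by omega⟩
        obtain ⟨p, q, hpq, hp, hq, fp, fq⟩ := exists_triple_in_fiber ha3 hf u
        refine ⟨c3 p q u, h1 ⟨?_, c3_mem_alternatingGroup hpq hq⟩, isThreeCycle_c3 hpq hp hq⟩
        exact mul_mem (swap_mem_partStab (fp.trans fq.symm)) (swap_mem_partStab fq)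
      · obtain rfl : a = 2 := by omega
        refine three_cycle (by omega) ?_ hf h1 h2
        rintro rfl
        exact h8 (card_eq hf)
    have := alternatingGroup_le_of_isPreprimitive_of_isThreeCycle_mem hprim h3 hg
    rw [eq_top_iff]
    intro x _
    obtain ⟨y, hy, e⟩ := this x.2
    rwa [← Subtype.ext e]
  · obtain rfl : a = 2 := by omega
    obtain rfl : b = 2 := by omega
    have h4 : Fintype.card Ω = 4 := card_eq hf
    set K := (partStab f ⊓ alternatingGroup Ω).subgroupOf (alternatingGroup Ω)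
    have htr : MulAction.IsPretransitive K Ω := ⟨fun x y => by
      obtain ⟨w, hw, h⟩ := exists_mem_partStab_alt_apply ha hb hf x y
      exact ⟨⟨⟨w, hw.2⟩, hw⟩, h⟩⟩
    obtain ⟨u, -, -, -⟩ := exists_pair_in_fiber ha hf 0
    have d1 : 4 ∣ Nat.card K := by
      have := MulAction.index_stabilizer_of_transitive K u
      rw [Nat.card_eq_fintype_card, h4] at this
      rw [← this]
      exact Subgroup.index_dvd_card _
    have d2 : Nat.card K ∣ Nat.card L := Subgroup.card_dvd_of_le hL.le
    have d3 : Nat.card L ∣ 12 := by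
      rw [← alternatingGroup.card_of_card_eq_four (α := Ω) (by simpa using h4)]
      exact Subgroup.card_subgroup_dvd_card L
    have d4 : Nat.card K ≠ Nat.card L := fun e =>
      hL.ne (Subgroup.eq_of_le_of_card_ge hL.le e.ge)
    apply Subgroup.eq_top_of_card_eq
    rw [alternatingGroup.card_of_card_eq_four (α := Ω) (by simpa using h4)]
    have d5 := Nat.le_of_dvd (by norm_num) d3
    have d6 := Nat.le_of_dvd Nat.card_pos d2
    generalize Nat.card K = k at *
    generalize Nat.card L = l at *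
    interval_cases l <;> interval_cases k <;> simp_all

end Cfsg.Agent.S5909
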