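import Cfsg.Statements.S5910
import Mathlib
import Cfsg.Agent.KSG.PartStab

set_option autoImplicit false
open Cfsg

namespace Cfsg.Agent.S5910

open Equiv Equiv.Perm KSG

abbrev V := (ZMod 2 × ZMod 2) × ZMod 2

def aff : Subgroup (Perm V) where
  carrier := {g | ∀ x y z, g (x + y + z) = g x + g y + g z}
  one_mem' := fun _ _ _ => rfl
  mul_mem' := fun {g h} hg hh x y z => by simp only [Perm.mul_apply, hh x y z, hg _ _ _]
  inv_mem' := fun {g} hg x y z => by
    apply g.injective
    rw [hg]; simp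

theorem aff4 : ∀ σ : Perm (ZMod 2 × ZMod 2), ∀ x y z, σ (x + y + z) = σ x + σ y + σ z := by
  have key : ∀ a b c d : ZMod 2 × ZMod 2, a ≠ b → a ≠ c → a ≠ d → b ≠ c → b ≠ d → c ≠ d →
      d = a + b + c := by decide
  have k2 : ∀ x y z : ZMod 2 × ZMod 2, x = y ∨ x = z ∨ y = z ∨
      (x ≠ y ∧ x ≠ z ∧ x ≠ x + y + z ∧ y ≠ z ∧ y ≠ x + y + z ∧ z ≠ x + y + z) := by decide
  have k3 : ∀ x y : ZMod 2 × ZMod 2, x + x + y = y ∧ x + y + x = y ∧ y + x + x = y := by decide
  intro σ x y z
  rcases k2 x y z with rfl | rfl | rfl | ⟨h1, h2, h3, h4, h5, h6⟩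
  · rw [(k3 _ _).1, (k3 _ _).1]
  · rw [(k3 _ _).2.1, (k3 _ _).2.1]
  · rw [(k3 _ _).2.2, (k3 _ _).2.2]
  · exact key _ _ _ _ (σ.injective.ne h1) (σ.injective.ne h2) (σ.injective.ne h3)
      (σ.injective.ne h4) (σ.injective.ne h5) (σ.injective.ne h6)

theorem affc : ∀ c : ZMod 2 × ZMod 2 → ZMod 2,
    (∏ i, (if c i = 0 then (1 : ℤˣ) else -1)) = 1 → ∀ x y z, c (x + y + z) = c x + c y + c z := by
  decide +kernel

theorem mem_aff {g : Perm V} (hg : g ∈ partStab (Prod.fst : V → ZMod 2 × ZMod 2))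
    (hs : sign g = 1) : g ∈ aff := by
  have hinj : Function.Injective fun i : ZMod 2 × ZMod 2 => (g (i, 0)).1 :=
    fun i j h => (hg (i, 0) (j, 0)).2 h
  let σ : Perm (ZMod 2 × ZMod 2) := Equiv.ofBijective _ (Finite.injective_iff_bijective.1 hinj)
  let c : ZMod 2 × ZMod 2 → ZMod 2 := fun i => (g (i, 0)).2
  have h : ∀ i j, g (i, j) = (σ i, j + c i) := by
    intro i j
    have h1 : (g (i, j)).1 = σ i := (hg (i, j) (i, 0)).1 rfl
    have h2 : ∀ j : ZMod 2, j = 0 ∨ j = 1 := by decide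
    rcases h2 j with rfl | rfl
    · exact Prod.ext h1 (by simp [c])
    · refine Prod.ext h1 ?_
      have h3 : (g (i, 1)).2 ≠ c i := by
        intro e
        have : g (i, 1) = g (i, 0) := Prod.ext h1 e
        simpa using g.injective this
      have h4 : ∀ a b : ZMod 2, a ≠ b → a = 1 + b := by decide
      exact h4 _ _ h3
  have h5 : g = (Equiv.prodCongrLeft fun _ : ZMod 2 => σ) *
      (Equiv.prodCongrRight fun i => if c i = 0 then (1 : Perm (ZMod 2)) else swap 0 1) := by
    ext1 ⟨i, j⟩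
    have h6 : ∀ a j : ZMod 2, (if a = 0 then (1 : Perm (ZMod 2)) else swap 0 1) j = j + a := by
      decide
    rw [h]
    simp [h6]
  rw [h5, map_mul, sign_prodCongrLeft, sign_prodCongrRight] at hs
  have h7 : (∏ _k : ZMod 2, sign σ) = 1 := by
    simp [ZMod.card, sq, Int.units_mul_self]
  rw [h7, one_mul] at hs
  have h8 := affc c (by
    refine Eq.trans (Finset.prod_congr rfl fun i _ => ?_) hs
    split_ifs <;> simp)
  rintro ⟨x, x'⟩ ⟨y, y'⟩ ⟨z, z'⟩
  simp only [Prod.mk_add_mk, h, aff4, h8, Prod.mk.injEq, true_and]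
  ring


/-- Let Ω be a set with 8 elements and f : Ω → Fin 4 a labelling whose four fibres all have size 2 (a partition of the 8 points into 4 pairs). Then the group of even permutations preserving this partition, (S₂ ≀ S₄) ∩ A₈, is not a maximal subgroup of the alternating group A₈ (it lies in a subgroup isomorphic to the affine group AGL₃(2)). -/
theorem result {Ω : Type*} [Fintype Ω] [DecidableEq Ω] (h8 : Fintype.card Ω = 8)
    (f : Ω → Fin 4) (hf : ∀ i : Fin 4, Nat.card {x : Ω // f x = i} = 2) :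
    ¬ IsCoatom ((Subgroup.closure {g : Equiv.Perm Ω | ∀ x y : Ω, f x = f y ↔ f (g x) = f (g y)} ⊓ alternatingGroup Ω).subgroupOf (alternatingGroup Ω)) := by
  rw [closure_eq_partStab]
  obtain ⟨e0, he0⟩ := exists_equiv_of_fibers 2 f hf
  let κ : Fin 4 ≃ ZMod 2 × ZMod 2 := Fintype.equivOfCardEq (by simp)
  let e : Ω ≃ V := e0.trans (κ.prodCongr (Equiv.refl (Fin 2)))
  have he : ∀ x, (e x).1 = κ (f x) := fun x => by rw [← he0]; rfl
  have hW : ∀ g : Perm Ω, g ∈ partStab f ↔
      e.permCongr g ∈ partStab (Prod.fst : V → ZMod 2 × ZMod 2) := by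
    intro g
    simp only [mem_partStab]
    rw [← e.forall_congr_right]
    refine forall_congr' fun x => ?_
    rw [← e.forall_congr_right]
    refine forall_congr' fun y => ?_
    simp [he]
  intro hc
  let L : Subgroup (alternatingGroup Ω) :=
    (aff.comap e.permCongrHom.toMonoidHom).subgroupOf (alternatingGroup Ω)
  have h1 : (partStab f ⊓ alternatingGroup Ω).subgroupOf (alternatingGroup Ω) ≤ L := by
    intro g hg
    exact mem_aff ((hW g).1 hg.1) ((sign_permCongr e g.1).trans g.2)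
  have hL : ∀ (g : Perm V) (hg : sign g = 1),
      (⟨e.symm.permCongr g, by simpa using hg⟩ : alternatingGroup Ω) ∈ L ↔ g ∈ aff := by
    intro g hg
    change e.permCongr (e.symm.permCongr g) ∈ aff ↔ _
    rw [← Equiv.permCongr_symm, Equiv.apply_symm_apply]
  have h2 : L = ⊤ := by
    refine hc.2 L (lt_of_le_of_ne h1 fun h => ?_)
    have s1 : sign (swap (((1, 0), 0) : V) ((0, 0), 1) * swap (((1, 1), 0) : V) ((0, 1), 1)) = 1 := by
      rw [map_mul, sign_swap (by decide), sign_swap (by decide)]; simp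
    have := (hL _ s1).2 (by change ∀ x y z, _; decide +kernel)
    rw [← h] at this
    have := (hW _).1 this.1
    change e.permCongr (e.symm.permCongr _) ∈ _ at this
    rw [← Equiv.permCongr_symm, Equiv.apply_symm_apply] at this
    exact absurd ((this ((0, 0), 0) ((0, 0), 1)).1 rfl) (by decide)
  have s2 : sign (swap (((1, 0), 0) : V) ((0, 0), 1) * swap (((1, 0), 0) : V) ((0, 1), 1)) = 1 := by
    rw [map_mul, sign_swap (by decide), sign_swap (by decide)]; simp
  have := (hL _ s2).1 (h2 ▸ Subgroup.mem_top _)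
  revert this
  change ¬ ∀ x y z, _
  decide +kernel

end Cfsg.Agent.S5910
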