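import Cfsg.Statements.S5911
import Mathlib
import Cfsg.Agent.KSG.AutSym

set_option autoImplicit false
open Cfsg

namespace Cfsg.Agent.S5911

open Equiv Equiv.Perm Subgroup

/-- Let Ω be a finite set whose size n is not 6. Then every subgroup of the symmetric group on Ω of index n is the stabilizer of a point. -/
theorem result {Ω : Type*} [Fintype Ω] [DecidableEq Ω] (h6 : Fintype.card Ω ≠ 6)
    (H : Subgroup (Equiv.Perm Ω)) (hH : H.index = Fintype.card Ω) :
    ∃ x : Ω, H = MulAction.stabilizer (Equiv.Perm Ω) x := by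
  by_cases h5 : 5 ≤ Fintype.card Ω
  · exact KSG.eq_stabilizer_perm_of_index h5 h6 H hH
  suffices h : ∃ x, ∀ g ∈ H, g x = x by
    obtain ⟨x, hx⟩ := h
    exact ⟨x, KSG.eq_of_le_of_index_eq hx (by rw [hH, KSG.index_stabilizer_perm])⟩
  have h0 : H.index ≠ 0 := Subgroup.index_ne_zero_of_finite
  have hc := H.card_mul_index
  rw [Nat.card_perm, Nat.card_eq_fintype_card (α := Ω), hH] at hc
  by_cases h4 : Fintype.card Ω = 4
  · rw [h4] at hc
    have h6 : Nat.card H = 6 := by simp [Nat.factorial] at hc; omega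
    have := Fact.mk Nat.prime_three
    obtain ⟨c, hc3⟩ := exists_prime_orderOf_dvd_card' (G := H) 3 (by rw [h6]; norm_num)
    have hn : (zpowers c).Normal := by
      apply normal_of_index_eq_two
      have := (zpowers c).card_mul_index
      rw [Nat.card_zpowers, hc3, h6] at this
      omega
    have hs : c.1.support.card = 3 := by
      obtain ⟨k, hk⟩ := cycleType_prime_order (σ := c.1) (by rw [orderOf_coe, hc3]; norm_num)
      have h2 := c.1.sum_cycleType
      rw [hk, orderOf_coe, hc3, Multiset.sum_replicate, smul_eq_mul] at h2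
      have := Finset.card_le_univ c.1.support
      omega
    obtain ⟨x, hx⟩ := Finset.card_eq_one.1 (show c.1.supportᶜ.card = 1 by rw [Finset.card_compl]; omega)
    have key : ∀ y, c.1 y = y ↔ y = x := by
      intro y
      rw [← Finset.mem_singleton (a := x), ← hx, Finset.mem_compl, notMem_support]
    refine ⟨x, fun g hg => (key _).1 ?_⟩
    obtain ⟨k, hk⟩ := hn.conj_mem c (mem_zpowers c) (⟨g, hg⟩ : H)⁻¹
    have e : c.1 ^ k = g⁻¹ * c.1 * g⁻¹⁻¹ := congrArg Subtype.val hk
    have := zpow_apply_eq_self_of_apply_eq_self ((key x).2 rfl) k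
    rw [e, inv_inv, Perm.mul_apply, Perm.mul_apply, Perm.inv_eq_iff_eq] at this
    exact this
  by_cases h3 : Fintype.card Ω = 3
  · rw [h3] at hc
    have h2 : Nat.card H = 2 ^ 1 := by simp [Nat.factorial] at hc; omega
    obtain ⟨x, hx⟩ := (IsPGroup.of_card h2).nonempty_fixed_point_of_prime_not_dvd_card Ω
      (by rw [Nat.card_eq_fintype_card, h3]; norm_num)
    exact ⟨x, fun g hg => hx ⟨g, hg⟩⟩
  have h1 : Nat.card H = 1 := by
    obtain h | h : Fintype.card Ω = 1 ∨ Fintype.card Ω = 2 := by omega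
    all_goals
      rw [h] at hc
      simp [Nat.factorial] at hc
      simpa using hc
  obtain ⟨x⟩ : Nonempty Ω := Fintype.card_pos_iff.1 (by omega)
  rw [card_eq_one] at h1
  refine ⟨x, fun g hg => ?_⟩
  rw [h1, mem_bot] at hg
  rw [hg]; rfl

end Cfsg.Agent.S5911
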