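import Cfsg.Statements.S5912
import Mathlib
import Cfsg.Agent.KSG.AutS6

set_option autoImplicit false
open Cfsg

namespace Cfsg.Agent.S5912


/-- The symmetric group on a 6-element set Ω has exactly two conjugacy classes of subgroups of index 6: there are two non-conjugate subgroups of index 6 (a point stabilizer and a transitive subgroup isomorphic to S₅), and every subgroup of index 6 is conjugate to one of them. -/
theorem result {Ω : Type*} [Fintype Ω] [DecidableEq Ω] (h6 : Fintype.card Ω = 6) :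
    ∃ H₁ H₂ : Subgroup (Equiv.Perm Ω), H₁.index = 6 ∧ H₂.index = 6 ∧
      (¬ ∃ g : Equiv.Perm Ω, Subgroup.map (MulAut.conj g).toMonoidHom H₁ = H₂) ∧
      ∀ H : Subgroup (Equiv.Perm Ω), H.index = 6 →
        ∃ g : Equiv.Perm Ω, Subgroup.map (MulAut.conj g).toMonoidHom H₁ = H ∨ Subgroup.map (MulAut.conj g).toMonoidHom H₂ = H := by
  obtain ⟨θ, hθ⟩ := KSG.exists_outer_of_card_six h6
  have : Nonempty Ω := Fintype.card_pos_iff.1 (by omega)
  obtain ⟨o⟩ := this
  have hi : (MulAction.stabilizer (Equiv.Perm Ω) o).index = 6 := by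
    rw [KSG.index_stabilizer_perm, h6]
  refine ⟨MulAction.stabilizer _ o, (MulAction.stabilizer _ o).map θ.toMonoidHom, hi, ?_, ?_, ?_⟩
  · rw [Subgroup.index_map_of_bijective θ.bijective, hi]
  · rintro ⟨g, hg⟩
    rw [KSG.map_conj_stabilizer] at hg
    exact KSG.map_outer_stabilizer_ne h6 θ hθ _ _ hg.symm
  · intro H hH
    obtain ⟨a, rfl | rfl⟩ := KSG.eq_stabilizer_or_of_index_six h6 θ hθ H hH
    · exact ⟨Equiv.swap o a, Or.inl (by rw [KSG.map_conj_stabilizer, Equiv.swap_apply_left])⟩
    · refine ⟨θ (Equiv.swap o a), Or.inr ?_⟩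
      conv_rhs => rw [← Equiv.swap_apply_left o a, ← KSG.map_conj_stabilizer]
      rw [Subgroup.map_map, Subgroup.map_map]
      congr 1
      ext1 x
      simp [← map_inv]

end Cfsg.Agent.S5912
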