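import Cfsg.Statements.S5918
import Cfsg.Agent.XM.E8L32
import Cfsg.Agent.XM.E8Sp6
import Cfsg.Agent.XM.E8U43

set_option autoImplicit false
open Cfsg

namespace Cfsg.Agent.S5918

/-- Let G be the Chevalley group of type E₈ over the field with three elements (generated by its root elements in the 248-dimensional adjoint representation; it is the simple group E₈(3)). Then G has no subgroup isomorphic to any of PSL₂(41), PSL₂(32), PSU₄(3) or PSp₆(3). Here F₄₁, F₃₂, F₉ denote fields with 41, 32 and 9 elements (PSU₄(3) is realised over F₉), and PSp₆(3) is the quotient of the symplectic group of 6 × 6 matrices over the field with three elements by its centre. -/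
theorem result
    {F₄₁ F₃₂ F₉ : Type*} [Field F₄₁] [Fintype F₄₁] (h41 : Fintype.card F₄₁ = 41) [Field F₃₂] [Fintype F₃₂] (h32 : Fintype.card F₃₂ = 32)
    [Field F₉] [Fintype F₉] (h9 : Fintype.card F₉ = 9) (H : Subgroup ↥(Cfsg.Lie.chevE8.group (ZMod 3))) :
    IsEmpty (↥H ≃* Matrix.ProjectiveSpecialLinearGroup (Fin 2) F₄₁) ∧ IsEmpty (↥H ≃* Matrix.ProjectiveSpecialLinearGroup (Fin 2) F₃₂) ∧
    IsEmpty (↥H ≃* Cfsg.PSU 4 F₉ 3) ∧ IsEmpty (↥H ≃* Cfsg.PSp 3 (ZMod 3)) := by
  refine ⟨⟨fun e => XM.E3.no_L41 h41 (H.subtype.comp e.symm.toMonoidHom)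
    (Subtype.val_injective.comp e.symm.injective)⟩, ⟨fun e => XM.E3.no_L32 h32
      (H.subtype.comp e.symm.toMonoidHom) (Subtype.val_injective.comp e.symm.injective)⟩,
    ⟨fun e => ?_⟩, ⟨fun e => ?_⟩⟩ <;>
  obtain ⟨M, hM, ρ, h⟩ := XM.E3.exists_ad3 (j := H.subtype.comp e.symm.toMonoidHom)
    (Subtype.val_injective.comp e.symm.injective)
  exacts [XM.E3.SU.not_ad3 h9 hM ρ h, XM.E3.Sp.not_ad3 hM ρ h]

end Cfsg.Agent.S5918
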