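import Mathlib
import Cfsg.Statements.S5922
import Cfsg.Agent.XM.E8L2Chk
-- import your own Cfsg.Agent.* helpers here

set_option autoImplicit false
open Cfsg

namespace Cfsg.Agent.S5922

section

open Cfsg.Lie Cfsg.Agent.Chev Cfsg.Agent.Chev.AS Cfsg.Agent.XM Multiset
open scoped MatrixGroups

theorem count_odd {R : Multiset ℕ} (h : ∀ r ∈ R, r % 2 = 0) {n : ℕ} (hn : 2 ∣ n) {i : ℕ}
    (hi : i % 2 = 1) : ((R.bind (wts 3)).map (Int.cast : ℤ → ZMod n)).count (i : ZMod n) = 0 :=
  count_eq_zero.2 fun h1 => by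
    obtain ⟨j, h2, h3⟩ := mem_map.1 h1
    obtain ⟨r, h4, h5⟩ := mem_bind.1 h2
    have := (Int.natCast_dvd_natCast.2 hn).trans
      ((ZMod.intCast_eq_intCast_iff_dvd_sub _ _ _).1 (h3.trans (Int.cast_natCast i).symm))
    have := wts_le h5
    have := h r h4
    omega

theorem not_243 {F : Type*} [Field F] [Fintype F] (hq : Fintype.card F = 243)
    {H : Subgroup (chevE8.group (ZMod 3))} (e : H ≃* PSL(2, F)) : False := by
  obtain ⟨R, h1, h2, h3⟩ := setup (m := 4) (N := 121) hq rfl (by norm_num) e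
  have k4 : ((R.bind (wts 3)).map fun j : ℤ => g4 (j % (4 : ℕ)).toNat).sum = 248 * 256 + 128 ∨
      ((R.bind (wts 3)).map fun j : ℤ => g4 (j % (4 : ℕ)).toNat).sum = 248 * 256 + 112 := by
    obtain ⟨h4, -, h5, -⟩ := h3 4 (by norm_num) (by norm_num) _ rfl
    have h6 := of_decide_eq_true (h5 _ chk4)
    rw [dg_sum h4 (by norm_num), dg_sum h4 (by norm_num),
      count_odd (fun r hr => (h1 r hr).2) (by norm_num) rfl] at h6
    rw [sum_mod]
    simp only [Finset.sum_range_succ, Finset.sum_range_zero, g4, reduceIte, OfNat.ofNat_ne_zero,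
      one_ne_zero] at h4 ⊢
    omega
  obtain ⟨a, h8, h9⟩ := exists_of_orb orb243 sums243 h1 h2 (by omega)
  have := of_decide_eq_true h8
  omega

theorem count_mul {n : ℕ} {M : Multiset (ZMod n)} (h : M.map (3 * ·) = M)
    (h3 : Function.Injective fun a : ZMod n => 3 * a) {a b : ℕ} (e : 3 * (a : ZMod n) = b) :
    M.count (b : ZMod n) = M.count (a : ZMod n) := by
  conv_lhs => rw [← h, ← e]
  exact count_map_eq_count' _ _ h3 _

theorem not_729 {F : Type*} [Field F] [Fintype F] (hq : Fintype.card F = 729)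
    {H : Subgroup (chevE8.group (ZMod 3))} (e : H ≃* PSL(2, F)) : False := by
  obtain ⟨R, h1, h2, h3⟩ := setup (m := 5) (N := 364) hq rfl (by norm_num) e
  have k8 : ∃ y, ((R.bind (wts 3)).map fun j : ℤ => g8 (j % (8 : ℕ)).toNat).sum =
      248 * 256 ^ 4 + 256 ^ 2 * y ∧ y ∈ [188 + 128 * 256,
      184 + 128 * 256, 182 + 112 * 256, 178 + 112 * 256, 166 + 112 * 256, 156 + 128 * 256, 128,
      114 + 112 * 256, 112] := by
    obtain ⟨h4, -, h5, -⟩ := h3 8 (by norm_num) (by norm_num) _ rfl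
    have h6 := of_decide_eq_true (h5 _ chk8)
    have a := fun i => count_odd (fun r hr => (h1 r hr).2) (n := 8) (i := i) (by norm_num)
    rw [dg_sum h4 (by norm_num), dg_sum h4 (by norm_num), dg_sum h4 (by norm_num),
      dg_sum h4 (by norm_num)] at h6
    rw [sum_mod]
    replace h6 := h6 (a 1 rfl) (a 3 rfl)
    simp only [Finset.sum_range_succ, Finset.sum_range_zero, g8, reduceIte, OfNat.ofNat_ne_zero,
      one_ne_zero, Nat.reduceEqDiff, List.mem_cons, List.not_mem_nil, or_false, a 1 rfl, a 3 rfl,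
      a 5 rfl, a 7 rfl] at h4 h6 ⊢
    generalize count ((0 : ℕ) : ZMod 8) _ = c0, count ((2 : ℕ) : ZMod 8) _ = c2,
      count ((4 : ℕ) : ZMod 8) _ = c4, count ((6 : ℕ) : ZMod 8) _ = c6 at *
    exact ⟨c2 + c4 + c6 + 256 * (c2 + c6), by omega, by omega⟩
  have k5 : ((R.bind (wts 3)).map fun j : ℤ => g0 256 (j % (5 : ℕ)).toNat).sum = 256 * 200 ∨
      ((R.bind (wts 3)).map fun j : ℤ => g0 256 (j % (5 : ℕ)).toNat).sum = 256 * 180 := by
    obtain ⟨h4, h7, h5, h8⟩ := h3 5 (by norm_num) (by norm_num) _ rfl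
    have h6 := of_decide_eq_true (h5 _ chk5)
    rw [dg_sum h4 (by norm_num), dg_sum h4 (by norm_num), dg_sum h4 (by norm_num)] at h6
    rw [sum_mod]
    generalize (R.bind (wts 3)).map (Int.cast : ℤ → ZMod 5) = M at *
    have a2 := count_mul h7 (by decide) (a := 4) (b := 2) (by decide)
    have a3 := count_mul h7 (by decide) (a := 1) (b := 3) (by decide)
    have a4 := count_mul h7 (by decide) (a := 3) (b := 4) (by decide)
    have a5 : 5 ∣ M.count ((1 : ℕ) : ZMod 5) := by
      have h9 := (sum_zmod M fun i => (i : ZMod 5) ^ 4).symm.trans ((Finset.sum_congr rfl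
        fun a _ => by rw [ZMod.natCast_zmod_val]).trans (h8 rfl))
      simp only [Finset.sum_range_succ, Finset.sum_range_zero, a2, a4, a3] at h9
      rw [← ZMod.natCast_eq_zero_iff]
      generalize (M.count ((0 : ℕ) : ZMod 5) : ZMod 5) = x at h9
      generalize (M.count ((1 : ℕ) : ZMod 5) : ZMod 5) = y at h9 ⊢
      revert x y
      decide
    simp only [Finset.sum_range_succ, Finset.sum_range_zero, g0, reduceIte, OfNat.ofNat_ne_zero,
      one_ne_zero] at h4 ⊢
    omega
  have k7 : ((R.bind (wts 3)).map fun j : ℤ => g0 1 (j % (7 : ℕ)).toNat).sum = 210 ∨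
      ((R.bind (wts 3)).map fun j : ℤ => g0 1 (j % (7 : ℕ)).toNat).sum = 168 := by
    obtain ⟨h4, h7, h5, -⟩ := h3 7 (by norm_num) (by norm_num) _ rfl
    have h6 := of_decide_eq_true (h5 _ chk7)
    rw [dg_sum h4 (by norm_num), dg_sum h4 (by norm_num), dg_sum h4 (by norm_num),
      dg_sum h4 (by norm_num)] at h6
    rw [sum_mod]
    generalize (R.bind (wts 3)).map (Int.cast : ℤ → ZMod 7) = M at *
    have a3 := count_mul h7 (by decide) (a := 1) (b := 3) (by decide)
    have a2 := count_mul h7 (by decide) (a := 3) (b := 2) (by decide)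
    have a6 := count_mul h7 (by decide) (a := 2) (b := 6) (by decide)
    have a4 := count_mul h7 (by decide) (a := 6) (b := 4) (by decide)
    have a5 := count_mul h7 (by decide) (a := 4) (b := 5) (by decide)
    simp only [Finset.sum_range_succ, Finset.sum_range_zero, g0, reduceIte, OfNat.ofNat_ne_zero,
      one_ne_zero] at h4 ⊢
    omega
  obtain ⟨y, k1, k2⟩ := k8
  have k3 : y < 256 ^ 2 := by
    simp only [List.mem_cons, List.not_mem_nil, or_false] at k2
    omega
  obtain ⟨x, h8, h9⟩ := exists_of_orb orb729 sums729 h1 h2 (by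
    rw [sum_map_add, sum_map_add, k1]
    omega)
  rw [sum_map_add, sum_map_add, k1] at h9
  refine of_decide_eq_true h8 (by omega) (by omega) ?_
  rwa [show x / 256 ^ 2 % 256 ^ 2 = y by omega]

end


/-- Let G be the Chevalley group of type E₈ over the field with three elements (generated by its root elements in the 248-dimensional adjoint representation; it is the simple group E₈(3)). Then G has no subgroup isomorphic to PSL₂(243) and no subgroup isomorphic to PSL₂(729). Here F₂₄₃ and F₇₂₉ denote fields with 243 and 729 elements. -/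
theorem result
    {F₂₄₃ F₇₂₉ : Type*} [Field F₂₄₃] [Fintype F₂₄₃] (h243 : Fintype.card F₂₄₃ = 243) [Field F₇₂₉] [Fintype F₇₂₉] (h729 : Fintype.card F₇₂₉ = 729)
    (H : Subgroup ↥(Cfsg.Lie.chevE8.group (ZMod 3))) :
    IsEmpty (↥H ≃* Matrix.ProjectiveSpecialLinearGroup (Fin 2) F₂₄₃) ∧ IsEmpty (↥H ≃* Matrix.ProjectiveSpecialLinearGroup (Fin 2) F₇₂₉) := by
  exact ⟨⟨not_243 h243⟩, ⟨not_729 h729⟩⟩
end Cfsg.Agent.S5922
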