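import Cfsg.Statements.S5939
import Cfsg.Agent.Class.PSL2Maximal

set_option autoImplicit false
open Cfsg

namespace Cfsg.Agent.S5939

open Cfsg.Agent.Class.Dickson in

/-- Let p be a prime and F a finite field of characteristic p such that either F has p elements and p ≡ ±1 (mod 10), or F has p² elements and p ≡ ±3 (mod 10). Then PSL_2(F) has a maximal subgroup isomorphic to the alternating group A_5. -/
theorem result {F : Type*} [Field F] [Fintype F] (p : ℕ) [Fact p.Prime] [CharP F p] (h : (Fintype.card F = p ∧ (p % 10 = 1 ∨ p % 10 = 9)) ∨ (Fintype.card F = p ^ 2 ∧ (p % 10 = 3 ∨ p % 10 = 7))) : ∃ H : Subgroup (Matrix.ProjectiveSpecialLinearGroup (Fin 2) F), IsCoatom H ∧ Nonempty (H ≃* alternatingGroup (Fin 5)) := by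
  have hpp : p.Prime := Fact.out
  have h1 := hpp.one_lt
  have hodd : Odd (Fintype.card F) := by
    rcases h with ⟨h, h'⟩ | ⟨h, h'⟩
    · rw [h, Nat.odd_iff]; omega
    · rw [h]; exact Odd.pow (Nat.odd_iff.2 (by omega))
  have h5 : 5 < Fintype.card F := by
    rcases h with ⟨h, h'⟩ | ⟨h, h'⟩
    · omega
    · have : 3 ≤ p := by omega
      nlinarith
  obtain ⟨H, ⟨e⟩⟩ := (S0804.result (F := F) rfl).2 (Dvd.dvd.mul_left (by
    have h2 : Fintype.card F ^ 2 % 5 = 1 := by
      rcases h with ⟨h, h'⟩ | ⟨h, h'⟩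
      · have : p % 5 = 1 ∨ p % 5 = 4 := by omega
        rcases this with h3 | h3 <;> rw [h, Nat.pow_mod, h3]
      · have : p % 5 = 2 ∨ p % 5 = 3 := by omega
        rcases this with h3 | h3 <;> rw [h, ← pow_mul, Nat.pow_mod, h3]
    omega) _)
  exact ⟨H, isCoatom_of_alt5 hpp (two_ne_zero_of_odd_card hodd) h5
    (h.imp And.left fun h => ⟨h.1, by omega⟩) e, ⟨e⟩⟩

end Cfsg.Agent.S5939
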