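import Cfsg.Statements.S5947
import Cfsg.Agent.Class.Singer

set_option autoImplicit false
open Cfsg

namespace Cfsg.Agent.S5947

/-- Let F ⊆ K be finite fields with |F| = q and [K : F] = n ≥ 2, regard K as an n-dimensional F-vector space, and let M ≤ GL_F(K) be the Singer group of multiplications by non-zero elements of K (cyclic of order q^n − 1). Assume (n, q) ≠ (6, 2), and that it is not the case that n = 2 with q a prime such that q + 1 is a power of 2. Then every abelian subgroup of GL_F(K) of order q^n − 1 is conjugate to M. -/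
theorem result {F K : Type*} [Field F] [Fintype F] [Field K] [Fintype K] [Algebra F K] (n : ℕ) (hn : 2 ≤ n) (hdim : Module.finrank F K = n)
    (hex1 : ¬ (n = 6 ∧ Fintype.card F = 2))
    (hex2 : ¬ (n = 2 ∧ (Fintype.card F).Prime ∧ ∃ a : ℕ, Fintype.card F + 1 = 2 ^ a))
    (U : Subgroup (Module.End F K)ˣ) (hU : IsMulCommutative U) (hcard : Nat.card U = Fintype.card K - 1) :
    ∃ g : (Module.End F K)ˣ, U.map (MulAut.conj g).toMonoidHom = (Units.map ((Algebra.lmul F K : K →ₐ[F] Module.End F K) : K →* Module.End F K)).range := by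
  have hq : 1 < Fintype.card F := Fintype.one_lt_card
  obtain ⟨r, hr⟩ := Misc.Zsig.zsigmondy hq (n := n) (by omega) (fun h => hex1 ⟨h.2, h.1⟩) (by
    rintro ⟨h2, a, ha⟩
    refine hex2 ⟨h2, ?_, a, ha⟩
    obtain ⟨p, _, ⟨k, hk⟩, hp, e⟩ := FiniteField.card' F
    simp only [PNat.mk_coe] at e
    rw [e] at ha hq ⊢
    have ha2 : 2 ≤ a := by
      by_contra hlt
      have : a = 0 ∨ a = 1 := by omega
      rcases this with rfl | rfl <;> omega
    have h4 : 4 ∣ p ^ k + 1 := ha ▸ (pow_dvd_pow 2 ha2 : 2 ^ 2 ∣ 2 ^ a)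
    rcases Nat.even_or_odd' k with ⟨m, rfl | rfl⟩
    · exfalso
      rw [pow_mul'] at h4
      have := Nat.pow_mod (p ^ m) 2 4
      have h5 : p ^ m % 4 < 4 := Nat.mod_lt _ (by norm_num)
      generalize p ^ m % 4 = t at this h5
      interval_cases t <;> omega
    · have hodd : Odd p := by
        rcases Nat.even_or_odd p with h | h
        · have := (Nat.even_pow' (n := 2 * m + 1) (by omega)).2 h
          obtain ⟨c, hc⟩ := this
          omega
        · exact h
      have h5 : ∀ m : ℕ, ∃ s : ℤ, Odd s ∧ (p : ℤ) ^ (2 * m + 1) + 1 = (p + 1) * s := fun m => by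
        induction m with
        | zero => exact ⟨1, odd_one, by ring⟩
        | succ m ih =>
          obtain ⟨s, h1, h2⟩ := ih
          exact ⟨p ^ 2 * s - (p - 1), (hodd.natCast.pow.mul h1).sub_even
            (hodd.natCast.sub_odd odd_one), by linear_combination (p : ℤ) ^ 2 * h2⟩
      obtain ⟨s, h1, h2⟩ := h5 m
      have h3 : s.natAbs ∣ 2 ^ a := by
        rw [← ha, ← Int.natCast_dvd_natCast, Int.natAbs_dvd]
        exact Dvd.intro_left _ (by push_cast; exact h2.symm)
      have h6 := (Nat.coprime_two_right.2 (Int.natAbs_odd.2 h1)).pow_right a |>.eq_one_of_dvd h3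
      have h7 := congrArg Int.natAbs h2
      rw [Int.natAbs_mul, h6, mul_one] at h7
      have h8 : p ^ (2 * m + 1) + 1 = p + 1 := by exact_mod_cast h7
      rwa [Nat.add_right_cancel h8])
  rw [← Nat.card_eq_fintype_card, ← hdim] at hr
  have := Fact.mk hr.1
  have : Finite (Module.End F K) := Finite.of_injective _ DFunLike.coe_injective
  rw [← Nat.card_eq_fintype_card] at hcard
  obtain ⟨u, hu⟩ := exists_prime_orderOf_dvd_card' (G := U) r (by
    rw [hcard, Module.natCard_eq_pow_finrank (K := F) (V := K)]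
    exact hr.2.1)
  exact Class.Singer.exists_conj_of_irreducible hU hcard u.2
    (Class.Singer.irreducible_of_ppd hr ((Subgroup.orderOf_coe u).trans hu))

end Cfsg.Agent.S5947
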